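import Cfsg.Statements.S0870
import Mathlib

set_option autoImplicit false
open Cfsg

namespace Cfsg.Agent.S0870

/-- For subgroups H and K of a finite group G, the pointwise product of the functions induced from the constant function 1 on H and on K is a sum, over subgroups U of H with natural-number coefficients, of the functions induced from the constant function 1 on U. -/
theorem result {G : Type*} [Group G] [Fintype G] (H K : Subgroup G) : ∃ a : Subgroup G → ℕ, (∀ U, a U ≠ 0 → U ≤ H) ∧ Cfsg.indFun H (fun _ => 1) * Cfsg.indFun K (fun _ => 1) = ∑ U : Subgroup G, (a U : ℂ) • Cfsg.indFun U (fun _ => 1) := by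
  classical
  let U : G → Subgroup G := fun z => H ⊓ K.map (MulAut.conj z).toMonoidHom
  have memU : ∀ z u, u ∈ U z ↔ u ∈ H ∧ z⁻¹ * u * z ∈ K := fun z u => by
    simp only [U, Subgroup.mem_inf]
    refine and_congr_right fun _ => ⟨?_, fun h => ⟨_, h, ?_⟩⟩
    · rintro ⟨k, hk, rfl⟩
      simpa [MulAut.conj_apply, mul_assoc] using hk
    · simp [MulAut.conj_apply, mul_assoc]
  have e0 : ∀ (W : Subgroup G) (g : G),
      extendByZero W (fun _ => (1 : ℂ)) g = if g ∈ W then 1 else 0 := fun W g => by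
    by_cases hg : g ∈ W
    · rw [if_pos hg]; exact Function.Injective.extend_apply Subtype.val_injective _ _ ⟨g, hg⟩
    · rw [if_neg hg, extendByZero, Function.extend_apply' _ _ _ (fun ⟨a, ha⟩ => hg (ha ▸ a.2))]
      rfl
  let S : Subgroup G → G → ℂ := fun W g => ∑ x : G, if x⁻¹ * g * x ∈ W then 1 else 0
  have hind : ∀ (W : Subgroup G) (g : G), indFun W (fun _ => (1 : ℂ)) g = (Nat.card W : ℂ)⁻¹ * S W g := fun W g => by
    simp only [indFun, e0, S]
  letI act : MulAction (H × K) G :=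
    { smul := fun p z => (p.1 : G) * z * (p.2 : G)⁻¹
      one_smul := fun z => by show ((1 : H × K).1 : G) * z * ((1 : H × K).2 : G)⁻¹ = z; simp
      mul_smul := fun p q z => by
        show ((p * q).1 : G) * z * ((p * q).2 : G)⁻¹ = (p.1 : G) * ((q.1 : G) * z * (q.2 : G)⁻¹) * (p.2 : G)⁻¹
        simp [mul_assoc] }
  have smul_def : ∀ (p : H × K) z, p • z = (p.1 : G) * z * (p.2 : G)⁻¹ := fun _ _ => rfl
  have hcard : ∀ z, Nat.card (MulAction.stabilizer (H × K) z) = Nat.card (U z) := fun z => by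
    refine Nat.card_congr
      { toFun := fun p => ⟨(p.1.1 : G), (memU z _).2 ⟨p.1.1.2, ?_⟩⟩
        invFun := fun u => ⟨(⟨u, ((memU z _).1 u.2).1⟩, ⟨z⁻¹ * u * z, ((memU z _).1 u.2).2⟩), ?_⟩
        left_inv := ?_
        right_inv := fun u => rfl }
    · have h := p.2
      rw [MulAction.mem_stabilizer_iff, smul_def, mul_inv_eq_iff_eq_mul] at h
      rw [mul_assoc, h, inv_mul_cancel_left]
      exact p.1.2.2
    · rw [MulAction.mem_stabilizer_iff, smul_def]; simp [mul_assoc]
    · rintro ⟨⟨a, b⟩, h⟩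
      rw [MulAction.mem_stabilizer_iff, smul_def, mul_inv_eq_iff_eq_mul] at h
      refine Subtype.ext (Prod.ext rfl (Subtype.ext ?_))
      show z⁻¹ * (a : G) * z = b
      rw [mul_assoc]
      exact inv_mul_eq_iff_eq_mul.2 h
  have hSconj : ∀ (p : H × K) z g, S (U (p • z)) g = S (U z) g := fun p z g => by
    refine Fintype.sum_equiv (Equiv.mulRight (p.1 : G)) _ _ (fun x => ?_)
    refine if_congr ?_ rfl rfl
    have h1 : (x⁻¹ * g * x ∈ H) ↔ ((p.1 : G)⁻¹ * (x⁻¹ * g * x) * p.1 ∈ H) := by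
      rw [Subgroup.mul_mem_cancel_right _ p.1.2, Subgroup.mul_mem_cancel_left _ (inv_mem p.1.2)]
    have h2 : ∀ y : G, (p.2 : G) * y * (p.2 : G)⁻¹ ∈ K ↔ y ∈ K := fun y => by
      rw [Subgroup.mul_mem_cancel_right _ (inv_mem p.2.2), Subgroup.mul_mem_cancel_left _ p.2.2]
    rw [memU, memU, h1, smul_def]
    simp only [Equiv.coe_mulRight]
    refine and_congr ?_ ?_
    · simp [mul_assoc]
    · rw [← h2 ((x * (p.1 : G))⁻¹ * g * (x * p.1) |> fun u => z⁻¹ * u * z)]
      simp [mul_assoc]
  let Ω := MulAction.orbitRel.Quotient (H × K) G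
  haveI : Fintype Ω := Fintype.ofFinite _
  refine ⟨fun W => (Finset.univ.filter fun q : Ω => U (Quotient.out q) = W).card, fun W hW => ?_, ?_⟩
  · obtain ⟨q, hq⟩ := Finset.card_ne_zero.1 hW
    rw [← (Finset.mem_filter.1 hq).2]
    exact inf_le_left
  · funext g
    rw [Finset.sum_apply, Pi.mul_apply, hind, hind]
    simp only [Pi.smul_apply, smul_eq_mul, hind]
    have e1 : S H g * S K g = ∑ z : G, S (U z) g := by
      rw [show ∑ z : G, S (U z) g = ∑ x : G, ∑ z : G, (if x⁻¹ * g * x ∈ U z then (1 : ℂ) else 0) from Finset.sum_comm]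
      simp only [S]
      rw [Finset.sum_mul_sum]
      refine Finset.sum_congr rfl fun x _ => ?_
      refine (Fintype.sum_equiv (Equiv.mulLeft x) _ _ fun z => ?_).symm
      simp only [Equiv.coe_mulLeft]
      have hm : x⁻¹ * g * x ∈ U z ↔ x⁻¹ * g * x ∈ H ∧ (x * z)⁻¹ * g * (x * z) ∈ K := by
        rw [memU]; simp [mul_assoc]
      by_cases h1 : x⁻¹ * g * x ∈ H <;> by_cases h2 : (x * z)⁻¹ * g * (x * z) ∈ K
      all_goals (simp only [mul_assoc] at hm h1 h2 ⊢; simp [hm, h1, h2])
    have e2 : ∑ z : G, S (U z) g = ∑ q : Ω, (Fintype.card (MulAction.orbit (H × K) (Quotient.out q)) : ℂ) * S (U (Quotient.out q)) g := by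
      rw [← Equiv.sum_comp (MulAction.selfEquivSigmaOrbits (H × K) G).symm (fun z => S (U z) g), Fintype.sum_sigma]
      refine Finset.sum_congr rfl fun q _ => ?_
      have : ∀ y : MulAction.orbit (H × K) (Quotient.out q), S (U ((MulAction.selfEquivSigmaOrbits (H × K) G).symm ⟨q, y⟩)) g = S (U (Quotient.out q)) g := by
        rintro ⟨y, p, rfl⟩
        exact hSconj p _ g
      rw [Finset.sum_congr rfl (fun y _ => this y), Finset.sum_const, Finset.card_univ, nsmul_eq_mul]
    have e3 : ∑ W : Subgroup G, ((Finset.univ.filter fun q : Ω => U (Quotient.out q) = W).card : ℂ) * ((Nat.card W : ℂ)⁻¹ * S W g)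
        = ∑ q : Ω, (Nat.card (U (Quotient.out q)) : ℂ)⁻¹ * S (U (Quotient.out q)) g := by
      rw [← Finset.sum_fiberwise' Finset.univ (fun q : Ω => U (Quotient.out q)) (fun W => (Nat.card W : ℂ)⁻¹ * S W g)]
      simp [nsmul_eq_mul]
    rw [e3, mul_mul_mul_comm, e1, e2, Finset.mul_sum]
    refine Finset.sum_congr rfl fun q _ => ?_
    have hos := MulAction.card_orbit_mul_card_stabilizer_eq_card_group (H × K) (Quotient.out q)
    rw [← Nat.card_eq_fintype_card, ← hcard]
    have hos' : (Nat.card (MulAction.orbit (H × K) (Quotient.out q)) : ℂ) * Nat.card (MulAction.stabilizer (H × K) (Quotient.out q)) = Nat.card H * Nat.card K := by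
      rw [← Nat.cast_mul, ← Nat.cast_mul, Nat.card_eq_fintype_card, Nat.card_eq_fintype_card, hos, ← Nat.card_eq_fintype_card, Nat.card_prod]
    have hs : (Nat.card (MulAction.stabilizer (H × K) (Quotient.out q)) : ℂ) ≠ 0 := Nat.cast_ne_zero.2 Nat.card_pos.ne'
    have ho : (Nat.card (MulAction.orbit (H × K) (Quotient.out q)) : ℂ) ≠ 0 := by
      haveI : Nonempty (MulAction.orbit (H × K) (Quotient.out q)) := ⟨⟨_, MulAction.mem_orbit_self _⟩⟩
      exact Nat.cast_ne_zero.2 Nat.card_pos.ne' 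
    rw [← mul_inv, ← hos']
    field_simp

end Cfsg.Agent.S0870
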