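import Cfsg.Statements.S1226
import Mathlib
import Cfsg.Agent.Lib.StronglyEmbedded

set_option autoImplicit false
open Cfsg

namespace Cfsg.Agent.S1226

/-- Let G be a finite group with a Sylow 2-subgroup T that is neither cyclic nor normal, such that the centralizer of every involution is an elementary abelian 2-group. Then N_G(T) is a strongly embedded subgroup of G. -/
theorem result {G : Type*} [Group G] [Finite G] (T : Sylow 2 G) (hnc : ¬ IsCyclic (T : Subgroup G)) (hnn : ¬ (T : Subgroup G).Normal) (hC : ∀ t : G, orderOf t = 2 → IsMulCommutative (Subgroup.centralizer ({t} : Set G)) ∧ ∀ c ∈ Subgroup.centralizer ({t} : Set G), c ^ 2 = 1) : Cfsg.IsStronglyEmbedded (Subgroup.normalizer ((T : Subgroup G) : Set G)) := by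
  classical
  have hne : (T : Subgroup G) ≠ ⊥ := fun h => hnc (by rw [h]; exact isCyclic_of_subsingleton)
  haveI : Nontrivial (T : Subgroup G) := (Subgroup.nontrivial_iff_ne_bot _).2 hne
  haveI : Fact (Nat.Prime 2) := ⟨Nat.prime_two⟩
  have h2T : 2 ∣ Nat.card (T : Subgroup G) := by
    obtain ⟨k, hk⟩ := IsPGroup.iff_card.1 T.2
    rw [hk]
    exact dvd_pow_self 2 fun h => by rw [h, pow_zero] at hk; exact Finite.one_lt_card.ne' hk
  -- the Sylow subgroup is abelian
  obtain ⟨z, hz⟩ : ∃ z : Subgroup.center (T : Subgroup G), orderOf z = 2 := by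
    haveI : Nontrivial (Subgroup.center (T : Subgroup G)) := IsPGroup.center_nontrivial T.2
    refine exists_prime_orderOf_dvd_card' 2 ?_
    obtain ⟨k, hk⟩ := IsPGroup.iff_card.1 (T.2.to_subgroup (Subgroup.center (T : Subgroup G)))
    rw [hk]
    exact dvd_pow_self 2 fun h => by rw [h, pow_zero] at hk; exact Finite.one_lt_card.ne' hk
  have hzo : orderOf (((z : (T : Subgroup G)) : G)) = 2 := by rw [Subgroup.orderOf_coe, Subgroup.orderOf_coe, hz]
  have habel : ∀ a ∈ (T : Subgroup G), ∀ b ∈ (T : Subgroup G), a * b = b * a := by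
    intro a ha b hb
    have hmem : ∀ c ∈ (T : Subgroup G), c ∈ Subgroup.centralizer ({((z : (T : Subgroup G)) : G)} : Set G) := fun c hc =>
      Subgroup.mem_centralizer_singleton_iff.2 (congrArg Subtype.val (Subgroup.mem_center_iff.1 z.2 ⟨c, hc⟩))
    haveI := (hC _ hzo).1
    exact congrArg Subtype.val (mul_comm' (⟨a, hmem a ha⟩ : Subgroup.centralizer ({((z : (T : Subgroup G)) : G)} : Set G)) ⟨b, hmem b hb⟩)
  have hcen : ∀ s ∈ (T : Subgroup G), orderOf s = 2 → Subgroup.centralizer ({s} : Set G) = T := by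
    intro s hs hso
    refine (T.3 ?_ fun c hc => Subgroup.mem_centralizer_singleton_iff.2 (habel c hc s hs))
    exact fun c => ⟨1, Subtype.ext (by simpa using (hC s hso).2 c c.2)⟩
  refine CfsgLib.StronglyEmbedded.of_conj_mem (fun h => hnn (Subgroup.normalizer_eq_top_iff.1 h))
    (even_iff_two_dvd.2 (h2T.trans (Subgroup.card_dvd_of_le Subgroup.le_normalizer))) fun t ht hto g hg => ?_
  have hin : ∀ s ∈ Subgroup.normalizer ((T : Subgroup G) : Set G), orderOf s = 2 → s ∈ (T : Subgroup G) := by
    intro s hs hso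
    have hp : IsPGroup 2 (Subgroup.zpowers s) := IsPGroup.of_card (n := 1) (by rw [Nat.card_zpowers, hso, pow_one])
    have h : s ∈ Subgroup.zpowers s ⊓ Subgroup.normalizer ((T : Subgroup G) : Set G) := ⟨Subgroup.mem_zpowers s, hs⟩
    exact ((hp.inf_normalizer_sylow T).le (by simpa using h)).2
  have htT := hin t ht hto
  have hgo : orderOf (g⁻¹ * t * g) = 2 := by
    have := MulEquiv.orderOf_eq (MulAut.conj g⁻¹) t
    rw [MulAut.conj_apply, inv_inv] at this
    rw [this, hto]
  have htT' := hin _ hg hgo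
  rw [Subgroup.mem_normalizer_iff]
  intro c
  rw [← hcen t htT hto]
  conv_lhs => rw [hcen t htT hto, ← hcen _ htT' hgo]
  simp only [Subgroup.mem_centralizer_singleton_iff]
  constructor
  · intro h
    calc g * c * g⁻¹ * t = g * (c * (g⁻¹ * t * g)) * g⁻¹ := by group
      _ = g * ((g⁻¹ * t * g) * c) * g⁻¹ := by rw [h]
      _ = t * (g * c * g⁻¹) := by group
  · intro h
    calc c * (g⁻¹ * t * g) = g⁻¹ * (g * c * g⁻¹ * t) * g := by group
      _ = g⁻¹ * (t * (g * c * g⁻¹)) * g := by rw [h]
      _ = g⁻¹ * t * g * c := by group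

end Cfsg.Agent.S1226
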