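import Cfsg.Statements.S1229
import Cfsg.Agent.Lib.CTTwo

set_option autoImplicit false
open Cfsg

open Cfsg CfsgLib.CTTwo CfsgLib.CTTwo.Setting

namespace Cfsg.Agent.S1229

/-- Let G be a finite group with a Sylow 2-subgroup T that is neither cyclic nor normal, such that the centralizer of every involution is an elementary abelian 2-group; put H = N_G(T) and X = G/H. Then G is triply transitive on X, an element fixing three distinct points of X is the identity, and T acts regularly on X minus the point H. -/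
theorem result {G : Type*} [Group G] [Finite G] (T : Sylow 2 G) (hnc : ¬ IsCyclic (T : Subgroup G)) (hnn : ¬ (T : Subgroup G).Normal) (hC : ∀ t : G, orderOf t = 2 → IsMulCommutative (Subgroup.centralizer ({t} : Set G)) ∧ ∀ c ∈ Subgroup.centralizer ({t} : Set G), c ^ 2 = 1) : (∀ x₁ x₂ x₃ y₁ y₂ y₃ : G ⧸ Subgroup.normalizer ((T : Subgroup G) : Set G), x₁ ≠ x₂ → x₁ ≠ x₃ → x₂ ≠ x₃ → y₁ ≠ y₂ → y₁ ≠ y₃ → y₂ ≠ y₃ → ∃ g : G, g • x₁ = y₁ ∧ g • x₂ = y₂ ∧ g • x₃ = y₃) ∧ (∀ g : G, ∀ x₁ x₂ x₃ : G ⧸ Subgroup.normalizer ((T : Subgroup G) : Set G), x₁ ≠ x₂ → x₁ ≠ x₃ → x₂ ≠ x₃ → g • x₁ = x₁ → g • x₂ = x₂ → g • x₃ = x₃ → g = 1) ∧ (∀ x y : G ⧸ Subgroup.normalizer ((T : Subgroup G) : Set G), x ≠ QuotientGroup.mk 1 → y ≠ QuotientGroup.mk 1 → ∃! t : G, t ∈ T ∧ t • x = y) := by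
    have S : CfsgLib.CTTwo.Setting T := ⟨hnc, hnn, hC⟩
    have hreg : ∀ x y : G ⧸ nrm T, x ≠ base T → y ≠ base T → ∃! t : G, t ∈ (T : Subgroup G) ∧ t • x = y :=
      fun x y => S.regular
    -- a point off the base point
    obtain ⟨w₀, hw₀⟩ := CfsgLib.StronglyEmbedded.exists_ne_coset S.se (base T)
    obtain ⟨u, hu, huH, -⟩ := S.exists_involution_to hw₀
    set xu : G ⧸ nrm T := QuotientGroup.mk u with hxu
    have hne : base T ≠ xu := fun e => huH (by simpa [base, hxu] using QuotientGroup.eq.1 e)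
    have htwo : ∀ x y : G ⧸ nrm T, x ≠ y → ∃ g : G, g • x = base T ∧ g • y = xu := by
      intro x y hxy
      obtain ⟨a, rfl⟩ := QuotientGroup.mk_surjective x
      have ha : a⁻¹ • (QuotientGroup.mk a : G ⧸ nrm T) = base T := by
        rw [MulAction.Quotient.smul_coe, smul_eq_mul, inv_mul_cancel]; rfl
      have hay : a⁻¹ • y ≠ base T := fun e => hxy (MulAction.injective a⁻¹ (ha.trans e.symm))
      obtain ⟨t, ⟨ht, hte⟩, -⟩ := hreg _ xu hay hne.symm
      exact ⟨t * a⁻¹, by rw [mul_smul, ha]; exact smul_base.2 (Subgroup.le_normalizer ht), by rw [mul_smul, hte]⟩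
    have hfree : ∀ d : G, d • base T = base T → d • xu = xu → ∀ z : G ⧸ nrm T, z ≠ base T → z ≠ xu → d • z = z → d = 1 := by
      intro d hd1 hd2 z hz hzu hdz
      have hdD : d ∈ two T u := mem_two_iff.2 ⟨smul_base.1 hd1, hd2⟩
      obtain ⟨t, ⟨ht, hte⟩, huniq⟩ := hreg xu z hne.symm hz
      have h1 : (d * t * d⁻¹) • xu = z := by
        rw [mul_smul, mul_smul]
        conv_lhs => rw [← hd2, inv_smul_smul]
        rw [hte, hdz]
      have h2 := huniq _ ⟨S.conj_mem (smul_base.1 hd1) ht, h1⟩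
      have ht1 : t ≠ 1 := fun e => hzu (by rw [← hte, e, one_smul])
      exact S.free huH hdD ht ht1 (mul_inv_eq_iff_eq_mul.1 h2)
    have hthree : ∀ x₁ x₂ x₃ : G ⧸ nrm T, x₁ ≠ x₂ → x₁ ≠ x₃ → x₂ ≠ x₃ →
        ∀ z : G ⧸ nrm T, z ≠ base T → z ≠ xu → ∃ g : G, g • x₁ = base T ∧ g • x₂ = xu ∧ g • x₃ = z := by
      intro x₁ x₂ x₃ h12 h13 h23 z hz hzu
      obtain ⟨g, hg1, hg2⟩ := htwo x₁ x₂ h12
      have h1 : g • x₃ ≠ base T := fun e => h13 (MulAction.injective g (hg1.trans e.symm))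
      have h2 : g • x₃ ≠ xu := fun e => h23 (MulAction.injective g (hg2.trans e.symm))
      obtain ⟨t, ⟨ht, hte⟩, -⟩ := hreg xu (g • x₃) hne.symm h1
      obtain ⟨t', ⟨ht', hte'⟩, -⟩ := hreg xu z hne.symm hz
      have ht1 : t ≠ 1 := fun e => h2 (by rw [← hte, e, one_smul])
      have ht1' : t' ≠ 1 := fun e => hzu (by rw [← hte', e, one_smul])
      obtain ⟨d, hd, hde⟩ := (Cfsg.Agent.S1225.result (nrm T) S.se u hu huH t t' (S.orderOf_mem ht ht1)
        (Subgroup.le_normalizer ht) (S.orderOf_mem ht' ht1') (Subgroup.le_normalizer ht')).1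
      have hd' : d ∈ two T u := hd
      have hdb := smul_base.2 (mem_two_iff.1 hd').1
      have hdu : d • xu = xu := (mem_two_iff.1 hd').2
      refine ⟨d * g, by rw [mul_smul, hg1, hdb], by rw [mul_smul, hg2, hdu], ?_⟩
      rw [mul_smul, ← hte, ← hte', ← hde, smul_smul, mul_smul (d * t) d⁻¹ xu]
      conv_rhs => rw [← hdu, inv_smul_smul]
    refine ⟨fun x₁ x₂ x₃ y₁ y₂ y₃ hx12 hx13 hx23 hy12 hy13 hy23 => ?_, fun g x₁ x₂ x₃ h12 h13 h23 e1 e2 e3 => ?_,
      fun x y hx hy => hreg x y hx hy⟩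
    · obtain ⟨a, ha1, ha2⟩ := htwo x₁ x₂ hx12
      have h1 : a • x₃ ≠ base T := fun e => hx13 (MulAction.injective a (ha1.trans e.symm))
      have h2 : a • x₃ ≠ xu := fun e => hx23 (MulAction.injective a (ha2.trans e.symm))
      obtain ⟨b, hb1, hb2, hb3⟩ := hthree y₁ y₂ y₃ hy12 hy13 hy23 _ h1 h2
      refine ⟨b⁻¹ * a, ?_, ?_, ?_⟩ <;> rw [mul_smul, inv_smul_eq_iff]
      · exact ha1.trans hb1.symm
      · exact ha2.trans hb2.symm
      · exact hb3.symm
    · obtain ⟨a, ha1, ha2⟩ := htwo x₁ x₂ h12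
      have h1 : a • x₃ ≠ base T := fun e => h13 (MulAction.injective a (ha1.trans e.symm))
      have h2 : a • x₃ ≠ xu := fun e => h23 (MulAction.injective a (ha2.trans e.symm))
      have key : ∀ x : G ⧸ nrm T, g • x = x → (a * g * a⁻¹) • (a • x) = a • x := fun x hx => by
        rw [mul_smul, mul_smul, inv_smul_smul, hx]
      have := hfree (a * g * a⁻¹) (ha1 ▸ key x₁ e1) (ha2 ▸ key x₂ e2) _ h1 h2 (key x₃ e3)
      simpa [mul_assoc] using congrArg (fun w => a⁻¹ * w * a) this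

end Cfsg.Agent.S1229
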