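import Cfsg.Statements.S0198
import Mathlib
import Cfsg.Agent.Lib.Chars.Orth
import Cfsg.Agent.Lib.Chars.Induced

set_option autoImplicit false
open Cfsg

namespace Cfsg.Agent.S0198

universe uX
open CfsgLib.Chars
open scoped ComplexConjugate

theorem exists_pair {G : Type uX} [Group G] [Fintype G] {φ : G → ℂ} (h : IsGeneralizedCharacter G φ)
    (hn : classInner φ φ = 2) (h1 : φ 1 = 0) : ∃ a b : IrrCharacter G, a ≠ b ∧ φ = (a : G → ℂ) - (b : G → ℂ) := by
  classical
  have hz : ∀ χ : IrrCharacter G, ∃ z : ℤ, classInner φ (χ : G → ℂ) = z := by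
    intro χ
    obtain ⟨α, β, hα, hβ, rfl⟩ := h
    obtain ⟨m, hm⟩ := exists_mult hα χ
    obtain ⟨k, hk⟩ := exists_mult hβ χ
    refine ⟨(m : ℤ) - k, ?_⟩
    push_cast
    rw [← hm, ← hk]
    simp [classInner, sub_mul, Finset.sum_sub_distrib, mul_sub]
  choose z hz using hz
  obtain ⟨α, β, hα, hβ, hφ⟩ := h
  have hcl : IsClassFunction G φ := fun a b => by
    simp only [hφ, Pi.sub_apply, IsCharacter.isClassFunction hα a b, IsCharacter.isClassFunction hβ a b]
  have he : φ = fun x => ∑ ψ : IrrCharacter G, (z ψ : ℂ) * (ψ : G → ℂ) x := funext fun x => by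
    rw [classFunction_expand hcl x]; simp only [hz]
  have hsq : ∑ ψ : IrrCharacter G, z ψ * z ψ = 2 := by
    have e : classInner φ φ = ∑ ψ : IrrCharacter G, (z ψ : ℂ) * (z ψ : ℂ) := by
      conv_lhs => arg 1; rw [he]
      rw [classInner_sum]
      refine Finset.sum_congr rfl fun ψ _ => ?_
      rw [classInner_symm, hz, map_intCast]
    rw [hn] at e
    exact_mod_cast e.symm
  set S := Finset.univ.filter fun ψ : IrrCharacter G => z ψ ≠ 0
  have hS : ∑ ψ ∈ S, z ψ * z ψ = 2 := by
    rw [Finset.sum_filter_of_ne (p := fun ψ => z ψ ≠ 0) (fun ψ _ hne e => hne (by simp [e]))]; exact hsq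
  have hpos : ∀ ψ ∈ S, 1 ≤ z ψ * z ψ := fun ψ hψ => by
    have : z ψ ≠ 0 := (Finset.mem_filter.1 hψ).2
    nlinarith [mul_self_pos.2 this]
  have hcard : S.card = 2 := by
    have hle : (S.card : ℤ) ≤ 2 := by
      rw [← hS, Finset.card_eq_sum_ones, Nat.cast_sum]
      exact Finset.sum_le_sum fun ψ hψ => by simpa using hpos ψ hψ
    have h2 : S.card ≤ 2 := by exact_mod_cast hle
    interval_cases hk : S.card
    · rw [Finset.card_eq_zero.1 hk] at hS; simp at hS
    · obtain ⟨c, hc⟩ := Finset.card_eq_one.1 hk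
      rw [hc, Finset.sum_singleton] at hS
      have hb : -2 ≤ z c ∧ z c ≤ 2 := ⟨by nlinarith, by nlinarith⟩
      obtain ⟨hb1, hb2⟩ := hb
      interval_cases hv : z c <;> simp at hS
    · rfl
  obtain ⟨c, d, hcd, hS2⟩ := Finset.card_eq_two.1 hcard
  rw [hS2, Finset.sum_pair hcd] at hS
  have hc := hpos c (by simp [hS2])
  have hd := hpos d (by simp [hS2])
  have hfun : ∀ x, φ x = (z c : ℂ) * (c : G → ℂ) x + (z d : ℂ) * (d : G → ℂ) x := fun x => by
    rw [he]
    show ∑ ψ : IrrCharacter G, _ = _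
    rw [← Finset.sum_pair hcd (f := fun ψ => (z ψ : ℂ) * (ψ : G → ℂ) x), ← hS2]
    refine (Finset.sum_filter_of_ne (p := fun ψ => z ψ ≠ 0) fun ψ _ hne e => hne (by simp [e])).symm
  have h1' : z c * (charDegree (c : G → ℂ) : ℤ) + z d * (charDegree (d : G → ℂ) : ℤ) = 0 := by
    have := hfun 1
    rw [h1, irr_apply_one, irr_apply_one] at this
    exact_mod_cast this.symm
  have hcp := charDegree_pos c
  have hdp := charDegree_pos d
  rcases mul_self_eq_one_iff.1 (show z c * z c = 1 by omega) with hc1 | hc1 <;>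
    rcases mul_self_eq_one_iff.1 (show z d * z d = 1 by omega) with hd1 | hd1 <;> rw [hc1, hd1] at h1'
  · omega
  · refine ⟨c, d, hcd, funext fun x => ?_⟩
    rw [hfun, hc1, hd1]; simp [sub_eq_add_neg]
  · refine ⟨d, c, hcd.symm, funext fun x => ?_⟩
    rw [hfun, hc1, hd1]; simp [sub_eq_add_neg, add_comm]
  · omega

theorem build {G : Type uX} [Group G] [Fintype G] {n : ℕ} (i₀ : Fin n) (τ : Fin n → (G → ℂ)) (h0 : τ i₀ = 0)
    (a b : Fin n → IrrCharacter G) (hab : ∀ i, i ≠ i₀ → a i ≠ b i ∧ τ i = (a i : G → ℂ) - (b i : G → ℂ))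
    (hA : ∀ i j, i ≠ i₀ → j ≠ i₀ → a i = a j) (hB : ∀ i j, i ≠ i₀ → j ≠ i₀ → i ≠ j → b i ≠ b j) :
    ∃ μ : Fin n → (G → ℂ), (∀ i, IsIrrCharacter G (μ i)) ∧ Function.Injective μ ∧ ∀ i, τ i = (-1 : ℂ) • (μ i - μ i₀) := by
  classical
  by_cases hne : ∃ i, i ≠ i₀
  · obtain ⟨p, hp⟩ := hne
    refine ⟨fun i => if i = i₀ then (a p : G → ℂ) else (b i : G → ℂ), fun i => ?_, fun i j h => ?_, fun i => ?_⟩
    · dsimp only
      split_ifs
      · exact (a p).2
      · exact (b i).2
    · dsimp only at h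
      by_cases hi : i = i₀ <;> by_cases hj : j = i₀
      · exact hi.trans hj.symm
      · rw [if_pos hi, if_neg hj, hA p j hp hj] at h
        exact absurd (Subtype.ext h) (hab j hj).1
      · rw [if_neg hi, if_pos hj, hA p i hp hi] at h
        exact absurd (Subtype.ext h.symm) (hab i hi).1
      · rw [if_neg hi, if_neg hj] at h
        by_contra hij
        exact hB i j hi hj hij (Subtype.ext h)
    · dsimp only
      rw [if_pos rfl]
      split_ifs with hi
      · rw [hi, h0, sub_self, smul_zero]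
      · rw [neg_one_smul, neg_sub, (hab i hi).2, hA p i hp hi]
  · push Not at hne
    refine ⟨fun _ _ => 1, fun i => isIrrCharacter_one G, fun i j _ => (hne i).trans (hne j).symm, fun i => ?_⟩
    rw [hne i, h0, sub_self, smul_zero]

/-- The isometry lemma behind exceptional characters. Let τ be a family of generalized characters of a finite group G indexed by Fin n, with τ i₀ = 0, every τ i vanishing at the identity, and inner products ⟨τ i, τ j⟩ = 2 if i = j and 1 otherwise for i, j ≠ i₀. Then there are a sign ε and pairwise distinct irreducible characters μ i with τ i = ε (μ i − μ i₀) for all i. -/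
theorem result {G : Type*} [Group G] [Fintype G] (n : ℕ) (i₀ : Fin n) (τ : Fin n → (G → ℂ)) (h0 : τ i₀ = 0) (hgen : ∀ i, Cfsg.IsGeneralizedCharacter G (τ i)) (hone : ∀ i, τ i 1 = 0) (hgram : ∀ i j, i ≠ i₀ → j ≠ i₀ → Cfsg.classInner (τ i) (τ j) = if i = j then 2 else 1) : ∃ ε : ℂ, (ε = 1 ∨ ε = -1) ∧ ∃ μ : Fin n → (G → ℂ), (∀ i, Cfsg.IsIrrCharacter G (μ i)) ∧ Function.Injective μ ∧ ∀ i, τ i = ε • (μ i - μ i₀) := by
  classical
  have hd : ∀ i, i ≠ i₀ → ∃ a b : IrrCharacter G, a ≠ b ∧ τ i = (a : G → ℂ) - (b : G → ℂ) := fun i hi => by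
    refine exists_pair (hgen i) ?_ (hone i)
    rw [hgram i i hi hi, if_pos rfl]
  let a : Fin n → IrrCharacter G := fun i => if h : i ≠ i₀ then (hd i h).choose else ⟨_, isIrrCharacter_one G⟩
  let b : Fin n → IrrCharacter G := fun i => if h : i ≠ i₀ then (hd i h).choose_spec.choose else ⟨_, isIrrCharacter_one G⟩
  have hab : ∀ i, i ≠ i₀ → a i ≠ b i ∧ τ i = (a i : G → ℂ) - (b i : G → ℂ) := fun i hi => by
    simp only [a, b, dif_pos hi]
    exact (hd i hi).choose_spec.choose_spec
  have hpair : ∀ i j, i ≠ i₀ → j ≠ i₀ → i ≠ j → (a i = a j ∧ b i ≠ b j) ∨ (b i = b j ∧ a i ≠ a j) := by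
    intro i j hi hj hij
    have h := hgram i j hi hj
    rw [if_neg hij, (hab i hi).2, (hab j hj).2] at h
    have e : classInner ((a i : G → ℂ) - (b i : G → ℂ)) ((a j : G → ℂ) - (b j : G → ℂ)) =
        classInner (a i : G → ℂ) (a j : G → ℂ) - classInner (a i : G → ℂ) (b j : G → ℂ) - classInner (b i : G → ℂ) (a j : G → ℂ) + classInner (b i : G → ℂ) (b j : G → ℂ) := by
      simp only [classInner, Pi.sub_apply, map_sub, sub_mul, mul_sub, Finset.sum_sub_distrib]
      ring
    rw [e, classInner_irr, classInner_irr, classInner_irr, classInner_irr] at h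
    have h1 := (hab i hi).1
    have h2 := (hab j hj).1
    by_cases p : a i = a j <;> by_cases q : b i = b j
    · have p' : a i ≠ b j := fun e => h2 (p.symm.trans e)
      have q' : b i ≠ a j := fun e => h1 (p.trans e.symm)
      rw [if_pos p, if_pos q, if_neg p', if_neg q'] at h
      norm_num at h
    · exact Or.inl ⟨p, q⟩
    · exact Or.inr ⟨q, p⟩
    · rw [if_neg p, if_neg q] at h
      split_ifs at h <;> norm_num at h
  by_cases hA : ∀ i j, i ≠ i₀ → j ≠ i₀ → a i = a j
  · refine ⟨-1, Or.inr rfl, ?_⟩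
    exact build i₀ τ h0 a b hab hA fun i j hi hj hij => by
      rcases hpair i j hi hj hij with h | h
      · exact h.2
      · exact absurd (hA i j hi hj) h.2
  · refine ⟨1, Or.inl rfl, ?_⟩
    push Not at hA
    obtain ⟨p, q, hp, hq, hpq⟩ := hA
    have hB : ∀ i, i ≠ i₀ → b i = b p := by
      intro i hi
      have hpq' : p ≠ q := fun e => hpq (e ▸ rfl)
      have hbpq : b p = b q := by
        rcases hpair p q hp hq hpq' with h | h
        · exact absurd h.1 hpq
        · exact h.1
      by_contra hne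
      have hip : i ≠ p := fun e => hne (e ▸ rfl)
      have hiq : i ≠ q := fun e => hne (e ▸ hbpq.symm)
      have h1 : a i = a p := by
        rcases hpair i p hi hp hip with h | h
        · exact h.1
        · exact absurd h.1 hne
      rcases hpair i q hi hq hiq with h | h
      · exact hpq (h1.symm.trans h.1)
      · exact hne (h.1.trans hbpq.symm)
    obtain ⟨μ, h1, h2, h3⟩ := build i₀ (fun i => -τ i) (by simp [h0]) b a
      (fun i hi => ⟨(hab i hi).1.symm, by rw [(hab i hi).2, neg_sub]⟩) (fun i j hi hj => (hB i hi).trans (hB j hj).symm) (fun i j hi hj hij => by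
        rcases hpair i j hi hj hij with h | h
        · exact absurd ((hB i hi).trans (hB j hj).symm) h.2
        · exact h.2)
    exact ⟨μ, h1, h2, fun i => by
      have := h3 i
      rw [neg_one_smul, neg_eq_iff_eq_neg, neg_neg] at this
      rw [one_smul, this]⟩

end Cfsg.Agent.S0198
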