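import Cfsg.Statements.S0181
import Mathlib
import Cfsg.Agent.Lib.Chars.Rep

set_option autoImplicit false
open Cfsg

namespace Cfsg.Agent.S0181

/-- Let H be a normal subgroup of a finite group G and ρ an irreducible complex representation whose kernel does not contain H. If g commutes with no non-identity element of H, then the character of ρ vanishes at g. -/
theorem result {G : Type*} [Group G] [Finite G] {V : Type*} [AddCommGroup V] [Module ℂ V] [FiniteDimensional ℂ V] (ρ : Representation ℂ G V) [ρ.IsIrreducible] (H : Subgroup G) [H.Normal] (hker : ∃ h ∈ H, ρ h ≠ LinearMap.id) (g : G) (hg : ∀ h ∈ H, h * g = g * h → h = 1) : ρ.character g = 0 := by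
  classical
  haveI := Fintype.ofFinite G
  haveI : Fintype H := Fintype.ofFinite H
  obtain ⟨hnt, hsub⟩ := (CfsgLib.Chars.isIrreducible_iff ρ).1 inferInstance
  let W : Submodule ℂ V := ⨅ h : H, LinearMap.ker (ρ (h : G) - LinearMap.id)
  have memW : ∀ v : V, v ∈ W ↔ ∀ h : H, ρ (h : G) v = v := by
    intro v; simp [W, Submodule.mem_iInf, sub_eq_zero]
  have hW : W = ⊥ := by
    refine (hsub W (fun a v hv => (memW _).2 fun h => ?_)).resolve_right fun htop => ?_
    · have h1 := (memW v).1 hv ⟨a⁻¹ * h * a, by simpa using (inferInstance : H.Normal).conj_mem _ h.2 a⁻¹⟩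
      calc ρ (h : G) (ρ a v) = ρ a (ρ (a⁻¹ * h * a) v) := by
            rw [← Module.End.mul_apply, ← Module.End.mul_apply, ← map_mul, ← map_mul]
            congr 2; group
        _ = ρ a v := by rw [h1]
    · obtain ⟨h, hh, hne⟩ := hker
      exact hne (LinearMap.ext fun v => (memW v).1 (htop ▸ Submodule.mem_top) ⟨h, hh⟩)
  have hA : ∑ h : H, ρ ((h : G) * g) = 0 := by
    refine LinearMap.ext fun v => ?_
    rw [LinearMap.zero_apply, ← Submodule.mem_bot ℂ, ← hW, memW]
    intro k
    rw [LinearMap.sum_apply, map_sum]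
    refine Fintype.sum_equiv (Equiv.mulLeft k) _ _ fun h => ?_
    rw [← Module.End.mul_apply, ← map_mul, Equiv.coe_mulLeft, Subgroup.coe_mul, mul_assoc]
  let f : H → H := fun h => ⟨(h : G) * g * (h : G)⁻¹ * g⁻¹, by
    rw [show (h : G) * g * (h : G)⁻¹ * g⁻¹ = (h : G) * (g * (h : G)⁻¹ * g⁻¹) by group]
    exact H.mul_mem h.2 ((inferInstance : H.Normal).conj_mem _ (H.inv_mem h.2) g)⟩
  have hf : Function.Injective f := by
    intro a b hab
    have e : (a : G) * g * (a : G)⁻¹ = (b : G) * g * (b : G)⁻¹ := mul_right_cancel (congrArg Subtype.val hab)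
    have := hg ((b : G)⁻¹ * a) (H.mul_mem (H.inv_mem b.2) a.2) (by
      calc (b : G)⁻¹ * a * g = (b : G)⁻¹ * ((a : G) * g * (a : G)⁻¹) * a := by group
        _ = g * ((b : G)⁻¹ * a) := by rw [e]; group)
    exact Subtype.ext (inv_mul_eq_one.1 this).symm
  have h0 : ∑ h : H, ρ.character ((h : G) * g) = 0 := by
    simp only [Representation.character, ← map_sum, hA, map_zero]
  rw [← Equiv.sum_comp (Equiv.ofBijective f hf.bijective_of_finite)] at h0
  have h1 : ∀ h : H, ρ.character (((Equiv.ofBijective f hf.bijective_of_finite h : H) : G) * g) = ρ.character g := by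
    intro h
    show ρ.character ((h : G) * g * (h : G)⁻¹ * g⁻¹ * g) = _
    rw [inv_mul_cancel_right, Representation.char_conj]
  rw [Finset.sum_congr rfl (fun h _ => h1 h), Finset.sum_const, nsmul_eq_mul] at h0
  exact (mul_eq_zero.1 h0).resolve_left (Nat.cast_ne_zero.2 (Finset.card_pos.2 ⟨1, Finset.mem_univ _⟩).ne')

end Cfsg.Agent.S0181
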