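import Cfsg.Statements.S0188
import Mathlib
import Cfsg.Agent.Lib.Chars.Linear

set_option autoImplicit false
open Cfsg

namespace Cfsg.Agent.S0188

/-- The irreducible complex characters of G × H are precisely the functions (g, h) ↦ φ g * ψ h with φ, ψ irreducible characters of G and H. -/
theorem result {G : Type*} [Group G] [Finite G] {H : Type*} [Group H] [Finite H] (θ : G × H → ℂ) : Cfsg.IsIrrCharacter (G × H) θ ↔ ∃ (φ : G → ℂ) (ψ : H → ℂ), Cfsg.IsIrrCharacter G φ ∧ Cfsg.IsIrrCharacter H ψ ∧ θ = fun x => φ x.1 * ψ x.2 := by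
  classical
  haveI := Fintype.ofFinite G
  haveI := Fintype.ofFinite H
  have hprod : ∀ (φ : Cfsg.IrrCharacter G) (ψ : Cfsg.IrrCharacter H),
      Cfsg.IsIrrCharacter (G × H) (fun x => (φ : G → ℂ) x.1 * (ψ : H → ℂ) x.2) := by
    intro φ ψ
    refine CfsgLib.Chars.isIrrCharacter_of_norm_one (CfsgLib.Chars.IsCharacter.mul
      (CfsgLib.Chars.IsCharacter.comp (CfsgLib.Chars.isCharacter_irr φ) (MonoidHom.fst G H))
      (CfsgLib.Chars.IsCharacter.comp (CfsgLib.Chars.isCharacter_irr ψ) (MonoidHom.snd G H))) ?_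
    have h1 := CfsgLib.Chars.classInner_irr φ φ
    have h2 := CfsgLib.Chars.classInner_irr ψ ψ
    rw [if_pos rfl] at h1 h2
    calc Cfsg.classInner (fun x : G × H => (φ : G → ℂ) x.1 * (ψ : H → ℂ) x.2)
          (fun x : G × H => (φ : G → ℂ) x.1 * (ψ : H → ℂ) x.2)
        = Cfsg.classInner (φ : G → ℂ) (φ : G → ℂ) * Cfsg.classInner (ψ : H → ℂ) (ψ : H → ℂ) := by
          simp only [Cfsg.classInner, Nat.card_prod, Nat.cast_mul, mul_inv, Fintype.sum_prod_type, map_mul]
          rw [mul_mul_mul_comm, Finset.sum_mul_sum]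
          refine congrArg _ (Finset.sum_congr rfl fun x _ => Finset.sum_congr rfl fun y _ => ?_)
          ring
      _ = 1 := by rw [h1, h2, one_mul]
  constructor
  · intro hθ
    let t : Cfsg.IrrCharacter (G × H) := ⟨θ, hθ⟩
    by_contra hne
    have h0 : ∀ (φ : Cfsg.IrrCharacter G) (ψ : Cfsg.IrrCharacter H),
        ∑ x : G × H, θ x * ((φ : G → ℂ) x.1 * (ψ : H → ℂ) x.2) = 0 := by
      intro φ ψ
      let φ' : Cfsg.IrrCharacter G := ⟨_, CfsgLib.Chars.isIrrCharacter_conj φ⟩
      let ψ' : Cfsg.IrrCharacter H := ⟨_, CfsgLib.Chars.isIrrCharacter_conj ψ⟩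
      have h := CfsgLib.Chars.sum_mul_conj_irr t ⟨_, hprod φ' ψ'⟩
      rw [if_neg (fun e => hne ⟨_, _, φ'.2, ψ'.2, congrArg Subtype.val e⟩)] at h
      simpa [t, φ', ψ'] using h
    have hcl := CfsgLib.Chars.IsCharacter.isClassFunction (CfsgLib.Chars.isCharacter_irr t)
    have hy : ∀ ψ : Cfsg.IrrCharacter H, (fun x : G => ∑ y : H, θ (x, y) * (ψ : H → ℂ) y) = 0 := by
      intro ψ
      refine CfsgLib.Chars.classFunction_eq_zero (fun x g => ?_) fun φ => ?_
      · refine Finset.sum_congr rfl fun y _ => ?_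
        have := hcl (x, y) (g, 1)
        simp only [Prod.mk_mul_mk, Prod.inv_mk, inv_one, mul_one, one_mul] at this
        exact congrArg (· * _) this
      · rw [← h0 φ ψ, Fintype.sum_prod_type]
        refine Finset.sum_congr rfl fun x _ => ?_
        rw [Finset.sum_mul]
        exact Finset.sum_congr rfl fun y _ => by ring
    have hx : (fun y : H => θ (1, y)) = 0 := by
      refine CfsgLib.Chars.classFunction_eq_zero (fun y h => ?_) fun ψ => congrFun (hy ψ) 1
      have := hcl (1, y) (1, h)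
      simp only [Prod.mk_mul_mk, Prod.inv_mk, inv_one, mul_one] at this
      exact this
    exact CfsgLib.Chars.irr_one_ne_zero t (congrFun hx 1)
  · rintro ⟨φ, ψ, hφ, hψ, rfl⟩
    exact hprod ⟨φ, hφ⟩ ⟨ψ, hψ⟩

end Cfsg.Agent.S0188
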