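import Cfsg.Statements.S1487
import Mathlib
import Cfsg.Agent.Lib.Chars.Clifford

set_option autoImplicit false
open Cfsg

namespace Cfsg.Agent.S1487

/-- Let A ≤ H be normal subgroups of the finite group G and θ an irreducible character of H. Then θ takes the value θ 1 on all of A if and only if the function induced from θ to G takes its value at 1 on all of A. -/
theorem result {G : Type*} [Group G] [Fintype G] (A H : Subgroup G) [A.Normal] [H.Normal] (hAH : A ≤ H) (θ : H → ℂ) (hθ : Cfsg.IsIrrCharacter H θ) : (∀ a : H, (a : G) ∈ A → θ a = θ 1) ↔ (∀ a : G, a ∈ A → Cfsg.indFun H θ a = Cfsg.indFun H θ 1) := by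
  classical
  haveI : Fintype H := Fintype.ofFinite H
  have hch := CfsgLib.Chars.IsIrrCharacter.isCharacter hθ
  have hext : ∀ (y : G) (hy : y ∈ H), Cfsg.extendByZero H θ y = θ ⟨y, hy⟩ := fun y hy =>
    CfsgLib.Chars.extendByZero_coe H θ ⟨y, hy⟩
  have hN : ∀ (a : G), a ∈ A → ∀ x : G, x⁻¹ * a * x ∈ A := fun a ha x => by
    simpa using ‹A.Normal›.conj_mem a ha x⁻¹
  have hval : ∀ a : G, ∀ ha : a ∈ A, Cfsg.indFun H θ a =
      (Nat.card H : ℂ)⁻¹ * ∑ x : G, θ ⟨x⁻¹ * a * x, hAH (hN a ha x)⟩ := fun a ha => by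
    simp only [Cfsg.indFun]
    congr 1
    exact Finset.sum_congr rfl fun x _ => hext _ _
  have hone : Cfsg.indFun H θ 1 = (Nat.card H : ℂ)⁻¹ * ∑ _x : G, θ 1 := by
    rw [hval 1 A.one_mem]
    congr 1
    exact Finset.sum_congr rfl fun x _ => congrArg θ (Subtype.ext (by simp))
  constructor
  · intro h a ha
    rw [hval a ha, hone]
    congr 1
    exact Finset.sum_congr rfl fun x _ => h _ (hN a ha x)
  · intro h a ha
    have h1 := h a ha
    rw [hval a ha, hone, mul_right_inj' (inv_ne_zero (Nat.cast_ne_zero.2 Nat.card_pos.ne'))] at h1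
    have hd := CfsgLib.Chars.IsCharacter.apply_one hch
    have hle : ∀ y : H, (θ y).re ≤ (θ 1).re := fun y =>
      (Complex.re_le_norm _).trans ((CfsgLib.Chars.IsCharacter.norm_le hch y).trans (by simp [hd]))
    have h2 := congrArg Complex.re h1
    rw [Complex.re_sum, Complex.re_sum] at h2
    have h3 := (Finset.sum_eq_sum_iff_of_le fun x _ => hle ⟨x⁻¹ * a * x, hAH (hN a ha x)⟩).1 h2 1
      (Finset.mem_univ _)
    have hre : (θ a).re = (θ 1).re := by
      rw [← h3]
      congr 2
      ext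
      simp
    have hnorm : ‖θ a‖ ≤ (θ 1).re := (CfsgLib.Chars.IsCharacter.norm_le hch a).trans (by simp [hd])
    have him : (θ a).im = 0 := by
      have h4 : (θ a).re * (θ a).re + (θ a).im * (θ a).im = ‖θ a‖ ^ 2 := by
        rw [Complex.sq_norm, Complex.normSq_apply]
      have h5 : ‖θ a‖ ^ 2 ≤ (θ 1).re ^ 2 := pow_le_pow_left₀ (norm_nonneg _) hnorm 2
      rw [hre] at h4
      have : (θ a).im * (θ a).im ≤ 0 := by nlinarith
      exact mul_self_eq_zero.1 (le_antisymm this (mul_self_nonneg _))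
    exact Complex.ext hre (by rw [him, hd]; simp)

end Cfsg.Agent.S1487
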