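import Cfsg.Statements.S1528
import Mathlib
import Cfsg.Agent.Lib.FixedIrr
import Cfsg.Agent.Lib.Chars.Induced

set_option autoImplicit false
open Cfsg

namespace Cfsg.Agent.S1528

/-- Let N be a normal subgroup of the finite group G such that every element of G commuting with a non-identity element of N lies in N. If χ is an irreducible character of G with χ n ≠ χ 1 for some n ∈ N, then χ is the function induced from some irreducible character of N. -/
theorem result {G : Type*} [Group G] [Fintype G] (N : Subgroup G) [N.Normal] (hC : ∀ n ∈ N, n ≠ 1 → Subgroup.centralizer ({n} : Set G) ≤ N) (χ : G → ℂ) (hχ : Cfsg.IsIrrCharacter G χ) (hker : ∃ n ∈ N, χ n ≠ χ 1) : ∃ φ : N → ℂ, Cfsg.IsIrrCharacter N φ ∧ χ = Cfsg.indFun N φ := by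
  classical
  haveI : Fintype N := Fintype.ofFinite N
  let ch : Cfsg.IrrCharacter G := ⟨χ, hχ⟩
  obtain ⟨θ, hθ⟩ := CfsgLib.Chars.exists_res_constituent N ch
  obtain ⟨n₀, hn₀, hn₀χ⟩ := hker
  have hθ1 : (θ : N → ℂ) ≠ fun _ => 1 := by
    intro e
    obtain ⟨k, -, -, hk, -⟩ := CfsgLib.Chars.clifford N ch θ hθ
    apply hn₀χ
    have hs : ∀ m : N, ∀ ψ ∈ CfsgLib.Chars.orbit N θ, (ψ : N → ℂ) m = 1 := fun m ψ hψ => by
      obtain ⟨g, rfl⟩ := (CfsgLib.Chars.mem_orbit N).1 hψ
      rw [CfsgLib.Chars.conjIrr_apply, e]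
    have h1 := hk ⟨n₀, hn₀⟩
    have h2 := hk 1
    rw [Finset.sum_congr rfl (hs _)] at h1 h2
    exact h1.trans h2.symm
  have hstab : ∀ x : G, x ∉ N → CfsgLib.Chars.conjIrr N θ x ≠ θ := fun x hx hfix =>
    hθ1 (CfsgLib.FixedIrr.eq_one_of_fixed N (x := x) (fun h k hh heq => hx (by
      have h1 : (k : G)⁻¹ * x ∈ N := hC (h : G) h.2 (fun e => hh (Subtype.ext e))
        (Subgroup.mem_centralizer_singleton_iff.2 (by
          calc (k : G)⁻¹ * x * h = (k : G)⁻¹ * (x * h * x⁻¹) * x := by group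
            _ = (k : G)⁻¹ * (k * h * (k : G)⁻¹) * x := by rw [heq]
            _ = h * ((k : G)⁻¹ * x) := by group))
      simpa using N.mul_mem k.2 h1)) hfix)
  have hin : ∀ x : G, x ∈ N → CfsgLib.Chars.conjIrr N θ x = θ := fun x hx => Subtype.ext (funext fun h =>
    (CfsgLib.Chars.conjIrr_apply' N θ x h).trans
      (CfsgLib.Chars.IsCharacter.isClassFunction (CfsgLib.Chars.isCharacter_irr θ) h ⟨x, hx⟩))
  have hind := CfsgLib.Chars.IsCharacter.indFun N (CfsgLib.Chars.isCharacter_irr θ)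
  have hnorm : Cfsg.classInner (Cfsg.indFun N (θ : N → ℂ)) (Cfsg.indFun N (θ : N → ℂ)) = 1 := by
    rw [CfsgLib.Chars.frobenius N _ (CfsgLib.Chars.indFun_isClassFunction N _)]
    simp only [Cfsg.classInner, CfsgLib.Chars.indFun_res N, map_mul, map_inv₀, map_natCast, map_sum, Finset.mul_sum]
    rw [Finset.sum_comm]
    have hterm : ∀ x : G, ∑ h : N, (Nat.card N : ℂ)⁻¹ * ((θ : N → ℂ) h * ((Nat.card N : ℂ)⁻¹ *
        starRingEnd ℂ ((θ : N → ℂ) (CfsgLib.Chars.conjN N x⁻¹ h)))) =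
        if x ∈ N then (Nat.card N : ℂ)⁻¹ else 0 := by
      intro x
      have h1 := CfsgLib.Chars.classInner_irr θ (CfsgLib.Chars.conjIrr N θ x⁻¹)
      simp only [Cfsg.classInner, CfsgLib.Chars.conjIrr_apply] at h1
      rw [show (if x ∈ N then (Nat.card N : ℂ)⁻¹ else 0) =
          (Nat.card N : ℂ)⁻¹ * (if θ = CfsgLib.Chars.conjIrr N θ x⁻¹ then 1 else 0) by
        by_cases hx : x ∈ N
        · rw [if_pos hx, if_pos (hin _ (N.inv_mem hx)).symm, mul_one]
        · rw [if_neg hx, if_neg (fun e => hstab _ (fun h => hx (by simpa using N.inv_mem h)) e.symm), mul_zero],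
        ← h1, Finset.mul_sum, Finset.mul_sum]
      exact Finset.sum_congr rfl fun h _ => by ring
    rw [Finset.sum_congr rfl fun x _ => hterm x, ← Finset.sum_filter, Finset.sum_const, nsmul_eq_mul]
    rw [show (Finset.univ.filter fun x => x ∈ N).card = Nat.card N by
      rw [← Fintype.card_subtype, ← Nat.card_eq_fintype_card]]
    exact mul_inv_cancel₀ (Nat.cast_ne_zero.2 Nat.card_pos.ne')
  have hirr := CfsgLib.Chars.isIrrCharacter_of_norm_one hind hnorm
  refine ⟨θ, θ.2, ?_⟩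
  by_contra hne
  have h2 := CfsgLib.Chars.classInner_irr (⟨_, hirr⟩ : Cfsg.IrrCharacter G) ch
  rw [if_neg (fun e => hne (congrArg Subtype.val e).symm)] at h2
  rw [CfsgLib.Chars.frobenius N _ (CfsgLib.Chars.IsCharacter.isClassFunction (CfsgLib.Chars.isCharacter_irr ch)),
    CfsgLib.Chars.classInner_symm] at h2
  exact hθ ((starRingEnd ℂ).injective (h2.trans (map_zero _).symm))

end Cfsg.Agent.S1528
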