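import Cfsg.Statements.S1535
import Mathlib
import Cfsg.Agent.Lib.CoherenceFeit
import Cfsg.Agent.Lib.FrobeniusCoherent
import Cfsg.Agent.Lib.FixedIrr
import Cfsg.Agent.Lib.Chars.Linear
import Cfsg.Agent.Lib.Chars.Clifford
import Cfsg.Agent.Lib.Solvable.Basics
import Cfsg.Agent.Lib.GroupB.FrobBasic
import Cfsg.Agent.S0033
import Cfsg.Agent.S0188
import Cfsg.Agent.S1487
import Cfsg.Agent.S1528

set_option autoImplicit false
open Cfsg

namespace CfsgLib.Feit1535

open Cfsg CfsgLib.Chars CfsgLib.Virtual CfsgLib.Coherence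
open scoped ComplexConjugate

universe u

variable {N : Type u} [Group N] [Fintype N]

theorem nilp (H : Subgroup N) [H.Normal] (hC : ∀ h ∈ H, h ≠ 1 → Subgroup.centralizer ({h} : Set N) ≤ H)
    (hH1 : H ≠ ⊥) (hH2 : H ≠ ⊤) : Group.IsNilpotent H := by
  obtain ⟨r, hr, hrd⟩ := Nat.exists_prime_and_dvd (fun h : H.index = 1 => hH2 (Subgroup.index_eq_one.1 h))
  haveI := Fact.mk hr
  obtain ⟨R⟩ := (inferInstance : Nonempty (Sylow r N))
  have hdis : ∀ x ∈ (R : Subgroup N), x ∈ H → x = 1 := by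
    intro x hx hxH
    by_contra hx1
    haveI := R.isPGroup'.isNilpotent
    have hne : H.subgroupOf (R : Subgroup N) ≠ ⊥ := fun e => by
      have : (⟨x, hx⟩ : (R : Subgroup N)) ∈ H.subgroupOf (R : Subgroup N) := hxH
      rw [e, Subgroup.mem_bot] at this
      exact hx1 (congrArg Subtype.val this)
    obtain ⟨z, hz, hz1⟩ := (Subgroup.ne_bot_iff_exists_ne_one.1 (CfsgLib.Solvable.Basics.inf_center_ne_bot _ hne) :
      ∃ z : ↥(H.subgroupOf (R : Subgroup N) ⊓ Subgroup.center _), z ≠ 1) |> fun ⟨z, hz⟩ =>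
        (⟨z.1, z.2, fun e => hz (Subtype.ext e)⟩ : ∃ z, z ∈ H.subgroupOf (R : Subgroup N) ⊓ Subgroup.center _ ∧ z ≠ 1)
    have hle : (R : Subgroup N) ≤ H := fun y hy => hC (z : N) hz.1 (fun e => hz1 (Subtype.ext e))
      (Subgroup.mem_centralizer_singleton_iff.2 (congrArg Subtype.val (Subgroup.mem_center_iff.1 hz.2 ⟨y, hy⟩)))
    exact R.not_dvd_index (hrd.trans (Subgroup.index_dvd_of_le hle))
  have hrN : r ∣ Nat.card (R : Subgroup N) := by
    have h : r ∣ Nat.card N := hrd.trans H.index_dvd_card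
    have := R.dvd_card_of_dvd_card h
    exact this
  obtain ⟨x, hx⟩ := exists_prime_orderOf_dvd_card' r hrN
  have hxH : (x : N) ∉ H := fun h => by
    have : x = 1 := Subtype.ext (hdis _ x.2 h)
    rw [this, orderOf_one] at hx
    exact hr.ne_one hx.symm
  set φ : MulAut H := MulAut.conjNormal (x : N) with hφ
  have hfix : ∀ g : H, φ g = g → g = 1 := by
    intro g hg
    by_contra hg1
    refine hxH (hC (g : N) g.2 (fun e => hg1 (Subtype.ext e)) (Subgroup.mem_centralizer_singleton_iff.2 ?_))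
    have := congrArg Subtype.val hg
    rw [hφ, MulAut.conjNormal_apply] at this
    calc (x : N) * g = (x : N) * g * (x : N)⁻¹ * x := by group
      _ = g * x := by rw [this]
  refine Cfsg.Agent.S0033.result φ (fun g hg => hfix g hg) r hr (orderOf_eq_prime ?_ ?_)
  · rw [hφ, ← map_pow, ← Subgroup.coe_pow, show x ^ r = 1 from orderOf_dvd_iff_pow_eq_one.1 (dvd_of_eq hx), Subgroup.coe_one, map_one]
  · intro h
    obtain ⟨g, hg⟩ := Subgroup.ne_bot_iff_exists_ne_one.1 hH1
    exact hg (hfix g (by rw [h]; rfl))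

section
variable (H : Subgroup N) [H.Normal] (hC : ∀ h ∈ H, h ≠ 1 → Subgroup.centralizer ({h} : Set N) ≤ H)

include hC

theorem ind_norm (θ : IrrCharacter H) (hθ : (θ : H → ℂ) ≠ fun _ => 1) :
    classInner (indFun H (θ : H → ℂ)) (indFun H (θ : H → ℂ)) = 1 := by
  classical
  haveI : Fintype H := Fintype.ofFinite H
  have hstab : ∀ x : N, x ∉ H → conjIrr H θ x ≠ θ := fun x hx hfix =>
    hθ (CfsgLib.FixedIrr.eq_one_of_fixed H (x := x) (fun h k hh heq => hx (by
      have h1 : (k : N)⁻¹ * x ∈ H := hC (h : N) h.2 (fun e => hh (Subtype.ext e))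
        (Subgroup.mem_centralizer_singleton_iff.2 (by
          calc (k : N)⁻¹ * x * h = (k : N)⁻¹ * (x * h * x⁻¹) * x := by group
            _ = (k : N)⁻¹ * (k * h * (k : N)⁻¹) * x := by rw [heq]
            _ = h * ((k : N)⁻¹ * x) := by group))
      simpa using H.mul_mem k.2 h1)) hfix)
  have hin : ∀ x : N, x ∈ H → conjIrr H θ x = θ := fun x hx => Subtype.ext (funext fun h =>
    (conjIrr_apply' H θ x h).trans (IsCharacter.isClassFunction (isCharacter_irr θ) h ⟨x, hx⟩))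
  rw [CfsgLib.Chars.frobenius H _ (indFun_isClassFunction H _)]
  simp only [classInner, indFun_res H, map_mul, map_inv₀, map_natCast, map_sum, Finset.mul_sum]
  rw [Finset.sum_comm]
  have hterm : ∀ x : N, ∑ h : H, (Nat.card H : ℂ)⁻¹ * ((θ : H → ℂ) h * ((Nat.card H : ℂ)⁻¹ *
      starRingEnd ℂ ((θ : H → ℂ) (conjN H x⁻¹ h)))) = if x ∈ H then (Nat.card H : ℂ)⁻¹ else 0 := by
    intro x
    have h1 := classInner_irr θ (conjIrr H θ x⁻¹)
    simp only [classInner, conjIrr_apply] at h1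
    rw [show (if x ∈ H then (Nat.card H : ℂ)⁻¹ else 0) =
        (Nat.card H : ℂ)⁻¹ * (if θ = conjIrr H θ x⁻¹ then 1 else 0) by
      by_cases hx : x ∈ H
      · rw [if_pos hx, if_pos (hin _ (H.inv_mem hx)).symm, mul_one]
      · rw [if_neg hx, if_neg (fun e => hstab _ (fun h => hx (by simpa using H.inv_mem h)) e.symm), mul_zero],
      ← h1, Finset.mul_sum, Finset.mul_sum]
    exact Finset.sum_congr rfl fun h _ => by ring
  rw [Finset.sum_congr rfl fun x _ => hterm x, ← Finset.sum_filter, Finset.sum_const, nsmul_eq_mul]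
  rw [show (Finset.univ.filter fun x => x ∈ H).card = Nat.card H by
    rw [← Fintype.card_subtype, ← Nat.card_eq_fintype_card]]
  exact mul_inv_cancel₀ (Nat.cast_ne_zero.2 Nat.card_pos.ne')

theorem ind_irr (θ : IrrCharacter H) (hθ : (θ : H → ℂ) ≠ fun _ => 1) :
    IsIrrCharacter N (indFun H (θ : H → ℂ)) :=
  isIrrCharacter_of_norm_one (IsCharacter.indFun H (isCharacter_irr θ)) (ind_norm H hC θ hθ)

theorem ind_mem (θ : IrrCharacter H) (hθ : (θ : H → ℂ) ≠ fun _ => 1) :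
    ∃ h ∈ H, indFun H (θ : H → ℂ) h ≠ indFun H (θ : H → ℂ) 1 := by
  classical
  haveI : Fintype H := Fintype.ofFinite H
  by_contra hno
  push Not at hno
  have h := ind_norm H hC θ hθ
  rw [CfsgLib.Chars.frobenius H _ (indFun_isClassFunction H _),
    show (fun k : H => indFun H (θ : H → ℂ) k) = indFun H (θ : H → ℂ) 1 • (fun _ : H => (1 : ℂ)) from
      funext fun k => by rw [hno k k.2]; simp, ci_smul_right,
    inner_irr_ne θ.2 (isIrrCharacter_one H) hθ, mul_zero] at h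
  exact zero_ne_one h

/-- The constituents of the restriction of an induced character. -/
theorem res_inner [Fintype H] (χ : IrrCharacter N) (hχ : ∃ h ∈ H, (χ : N → ℂ) h ≠ (χ : N → ℂ) 1)
    (θ : IrrCharacter H) [Decidable ((θ : H → ℂ) ≠ (fun _ => 1) ∧ indFun H (θ : H → ℂ) = (χ : N → ℂ))] :
    classInner (fun k : H => (χ : N → ℂ) k) (θ : H → ℂ) =
      if (θ : H → ℂ) ≠ (fun _ => 1) ∧ indFun H (θ : H → ℂ) = (χ : N → ℂ) then 1 else 0 := by
  classical
  rw [classInner_symm]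
  by_cases hθ : (θ : H → ℂ) = fun _ => 1
  · rw [if_neg (fun h => h.1 hθ), hθ, classInner]
    suffices h : ∑ k : H, (χ : N → ℂ) k = 0 by
      simp only [one_mul, ← map_sum, h, map_zero, mul_zero]
    have h1 := inner_irr_ne χ.2 (isIrrCharacter_one N) (fun e => by
      obtain ⟨k, hk, hne⟩ := hχ
      exact hne (by rw [e]))
    rw [classInner, mul_eq_zero] at h1
    have h2 := h1.resolve_left (inv_ne_zero (natCast_card_ne_zero N))
    simp only [map_one, mul_one] at h2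
    rw [← h2, ← Finset.sum_subtype (Finset.univ.filter fun g => g ∈ H) (fun g => by simp) (fun g => (χ : N → ℂ) g),
      Finset.sum_filter]
    refine Finset.sum_congr rfl fun g _ => ?_
    split_ifs with hg
    · rfl
    · exact (CfsgLib.FrobeniusCoherent.vanish H hC χ hχ hg).symm
  · rw [← CfsgLib.Chars.frobenius H _ (IsCharacter.isClassFunction (isCharacter_irr χ))]
    by_cases he : indFun H (θ : H → ℂ) = (χ : N → ℂ)
    · rw [if_pos ⟨hθ, he⟩, he, inner_irr_self χ.2, map_one]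
    · rw [if_neg (fun h => he h.2), inner_irr_ne (ind_irr H hC θ hθ) χ.2 he, map_zero]

open Classical in
theorem fibre_card [Fintype H] (φ₀ : IrrCharacter H) (h₀ : (φ₀ : H → ℂ) ≠ fun _ => 1) :
    (Finset.univ.filter fun φ : IrrCharacter H =>
      (φ : H → ℂ) ≠ (fun _ => 1) ∧ indFun H (φ : H → ℂ) = indFun H (φ₀ : H → ℂ)).card = H.index := by
  have hcf : IsClassFunction H (fun k : H => indFun H (φ₀ : H → ℂ) k) := fun a b => by
    simp only [Subgroup.coe_mul, Subgroup.coe_inv]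
    exact indFun_isClassFunction H _ _ _
  have h := classFunction_expand hcf 1
  rw [Finset.sum_congr rfl (fun (φ : IrrCharacter H) _ => by
    rw [res_inner H hC ⟨_, ind_irr H hC φ₀ h₀⟩ (ind_mem H hC φ₀ h₀) φ]), Finset.sum_congr rfl
    (fun (φ : IrrCharacter H) _ => ite_mul _ _ _ _)] at h
  simp only [one_mul, zero_mul, ← Finset.sum_filter] at h
  rw [Subgroup.coe_one, indFun_one, Finset.sum_congr rfl (g := fun _ => (φ₀ : H → ℂ) 1) (fun φ hφ => by
    have := congrFun (Finset.mem_filter.1 hφ).2.2 1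
    rw [indFun_one, indFun_one] at this
    exact mul_left_cancel₀ (Nat.cast_ne_zero.2 H.index_ne_zero_of_finite) this), Finset.sum_const, nsmul_eq_mul] at h
  exact_mod_cast (mul_right_cancel₀ (irr_one_ne_zero φ₀) h).symm

end

/-- The sum of squares of small degrees of a `p`-group. -/
theorem sq_le {P : Type u} [Group P] [Fintype P] {p : ℕ} (hp : p.Prime) (hP : IsPGroup p P)
    (θ : IrrCharacter P) (h1 : 1 < charDegree (θ : P → ℂ)) :
    charDegree (θ : P → ℂ) ^ 2 ≤ ∑ φ ∈ Finset.univ.filter (fun φ : IrrCharacter P =>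
      charDegree (φ : P → ℂ) < charDegree (θ : P → ℂ)), charDegree (φ : P → ℂ) ^ 2 := by
  classical
  haveI := Fact.mk hp
  obtain ⟨m, hm⟩ := IsPGroup.iff_card.1 hP
  set D := charDegree (θ : P → ℂ) with hD
  have hpow : ∀ φ : IrrCharacter P, ∃ i, charDegree (φ : P → ℂ) = p ^ i := fun φ => by
    obtain ⟨i, -, hi⟩ := (Nat.dvd_prime_pow hp).1 (hm ▸ charDegree_dvd φ)
    exact ⟨i, hi⟩
  obtain ⟨j, hj⟩ := hpow θ
  have hcard : D ^ 2 ∣ Nat.card P := by
    rw [hm, hD, hj, ← pow_mul]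
    refine pow_dvd_pow p ?_
    have hle : D ^ 2 ≤ p ^ m := by
      rw [← hm, ← sum_deg_sq]
      exact Finset.single_le_sum (f := fun φ : IrrCharacter P => charDegree (φ : P → ℂ) ^ 2)
        (fun _ _ => Nat.zero_le _) (Finset.mem_univ θ)
    rw [hD, hj, ← pow_mul] at hle
    exact (Nat.pow_le_pow_iff_right hp.one_lt).1 hle
  have hbig : D ^ 2 ∣ ∑ φ ∈ Finset.univ.filter (fun φ : IrrCharacter P => ¬ charDegree (φ : P → ℂ) < D),
      charDegree (φ : P → ℂ) ^ 2 := Finset.dvd_sum fun φ hφ => pow_dvd_pow_of_dvd (by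
    obtain ⟨i, hi⟩ := hpow φ
    have := not_lt.1 (Finset.mem_filter.1 hφ).2
    rw [hD, hj, hi] at this ⊢
    exact pow_dvd_pow p ((Nat.pow_le_pow_iff_right hp.one_lt).1 this)) 2
  have hsplit := sum_deg_sq (G := P)
  rw [← Finset.sum_filter_add_sum_filter_not _ (fun φ : IrrCharacter P => charDegree (φ : P → ℂ) < D)] at hsplit
  have hdvd : D ^ 2 ∣ ∑ φ ∈ Finset.univ.filter (fun φ : IrrCharacter P => charDegree (φ : P → ℂ) < D),
      charDegree (φ : P → ℂ) ^ 2 := (Nat.dvd_add_left hbig).1 (hsplit ▸ hcard)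
  refine Nat.le_of_dvd (Finset.sum_pos (fun φ _ => pow_pos (charDegree_pos φ) 2) ?_) hdvd
  refine ⟨⟨_, isIrrCharacter_one P⟩, Finset.mem_filter.2 ⟨Finset.mem_univ _, ?_⟩⟩
  have h := irr_apply_one (⟨_, isIrrCharacter_one P⟩ : IrrCharacter P)
  have h' : charDegree (fun _ : P => (1 : ℂ)) = 1 := Nat.cast_eq_one.1 h.symm
  exact h'.symm ▸ h1

theorem exists_lin {P : Type u} [Group P] [Finite P] [Nontrivial P] [hn : Group.IsNilpotent P] :
    ∃ φ : IrrCharacter P, (φ : P → ℂ) ≠ (fun _ => 1) ∧ charDegree (φ : P → ℂ) = 1 := by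
  classical
  haveI := Fintype.ofFinite P
  have h : 1 < Nat.card {χ : IrrCharacter P // charDegree (χ : P → ℂ) = 1} := by
    rw [card_linear]
    haveI : Group.IsSolvable P := inferInstance
    exact Subgroup.one_lt_index_of_ne_top (Group.IsSolvable.commutator_lt_top_of_nontrivial P).ne
  haveI := Finite.one_lt_card_iff_nontrivial.1 h
  obtain ⟨φ, hφ⟩ := exists_ne (⟨⟨_, isIrrCharacter_one P⟩,
    Nat.cast_eq_one.1 (irr_apply_one (⟨_, isIrrCharacter_one P⟩ : IrrCharacter P)).symm⟩ :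
      {χ : IrrCharacter P // charDegree (χ : P → ℂ) = 1})
  exact ⟨φ.1, fun e => hφ (Subtype.ext (Subtype.ext e)), φ.2⟩

theorem sylow_normal {H : Type u} [Group H] [Finite H] [Group.IsNilpotent H] {p : ℕ} [Fact p.Prime]
    (P : Sylow p H) : (P : Subgroup H).Normal :=
  have e : Group.IsNilpotent H ↔ ∀ (q : ℕ) (_hq : Fact q.Prime) (Q : Sylow q H), (Q : Subgroup H).Normal :=
    (Group.isNilpotent_of_finite_tfae (G := H)).out 0 3
  e.mp inferInstance p inferInstance P

open Classical in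
/-- The decomposition of a nilpotent group at a Sylow subgroup. -/
theorem exists_split {H : Type u} [Group H] [Finite H] [Group.IsNilpotent H] {p : ℕ} [Fact p.Prime]
    (P : Sylow p H) : ∃ (R : Subgroup H) (η : ↥(P : Subgroup H) × ↥R ≃* H),
      (∀ x, η x = (x.1 : H) * x.2) ∧ (Nat.card R).Coprime p := by
  haveI : (P : Subgroup H).Normal := CfsgLib.Feit1535.sylow_normal P
  obtain ⟨R, hR⟩ := Subgroup.exists_right_complement'_of_coprime P.card_coprime_index
  have hcp : (Nat.card R).Coprime p := by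
    rw [← hR.symm.index_eq_card, Nat.coprime_comm]
    exact (Fact.out : p.Prime).coprime_iff_not_dvd.2 P.not_dvd_index
  have hcomm : ∀ (x : (P : Subgroup H)) (y : R), Commute (x : H) y := fun x y => by
    refine CfsgLib.GroupB.FrobBasic.commute_of_coprime ?_
    obtain ⟨k, hk⟩ := IsPGroup.iff_orderOf.1 P.isPGroup' x
    rw [Subgroup.orderOf_coe, hk]
    refine Nat.Coprime.pow_left k (Nat.Coprime.coprime_dvd_right (Subgroup.orderOf_dvd_natCard R y.2) ?_)
    exact hcp.symm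
  let f : ↥(P : Subgroup H) × ↥R →* H := MonoidHom.mk' (fun x => (x.1 : H) * x.2) fun a b => by
    simp only [Prod.fst_mul, Prod.snd_mul, Subgroup.coe_mul]
    exact (hcomm b.1 a.2).mul_mul_mul_comm _ _ |> fun h => h
  exact ⟨R, MulEquiv.ofBijective f hR, fun _ => rfl, hcp⟩

open Classical in
theorem charDegree_eq {X : Type u} [Group X] [Finite X] (χ : IrrCharacter X) {n : ℕ} (h : (χ : X → ℂ) 1 = (n : ℂ)) :
    charDegree (χ : X → ℂ) = n := by
  rw [irr_apply_one] at h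
  exact_mod_cast h

open Classical in
/-- The main inequality. -/
theorem main_bound (H : Subgroup N) [H.Normal] (hC : ∀ h ∈ H, h ≠ 1 → Subgroup.centralizer ({h} : Set N) ≤ H)
    [Fintype H] [Group.IsNilpotent H] (hpp : ¬ ∃ p : ℕ, p.Prime ∧ ∃ m : ℕ, Nat.card H = p ^ m)
    (φ : IrrCharacter H) (h1 : 1 < charDegree (φ : H → ℂ)) :
    2 * H.index * charDegree (φ : H → ℂ) + 1 < ∑ ψ ∈ Finset.univ.filter (fun ψ : IrrCharacter H =>
      charDegree (ψ : H → ℂ) < charDegree (φ : H → ℂ)), charDegree (ψ : H → ℂ) ^ 2 := by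
  obtain ⟨p, hp, hpd⟩ := Nat.exists_prime_and_dvd (ne_of_gt h1)
  haveI := Fact.mk hp
  obtain ⟨P⟩ := (inferInstance : Nonempty (Sylow p H))
  obtain ⟨R, η, hη, hcp⟩ := exists_split P
  haveI : Fintype (P : Subgroup H) := Fintype.ofFinite _
  haveI : Fintype R := Fintype.ofFinite R
  obtain ⟨θ, ρ, hθ, hρ, hφ⟩ := (Cfsg.Agent.S0188.result fun x => (φ : H → ℂ) (η x)).1
    (IsIrrCharacter.comp φ.2 η.toMonoidHom η.surjective)
  set θ' : IrrCharacter (P : Subgroup H) := ⟨θ, hθ⟩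
  set a := charDegree (θ' : ↥(P : Subgroup H) → ℂ) with ha
  set D := charDegree (φ : H → ℂ) with hD
  have hval : ∀ x y, (φ : H → ℂ) (η (x, y)) = θ x * ρ y := fun x y => congrFun hφ (x, y)
  have hDe : D = a * charDegree ρ := charDegree_eq φ (by
    have := hval 1 1
    rw [show ((1 : (P : Subgroup H)), (1 : R)) = 1 from rfl, map_one, show θ 1 = (a : ℂ) from irr_apply_one θ',
      show ρ 1 = (charDegree ρ : ℂ) from irr_apply_one (⟨ρ, hρ⟩ : IrrCharacter R)] at this
    rw [this]; push_cast; rfl)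
  set b := charDegree ρ with hb
  have hb0 : 0 < b := charDegree_pos (⟨ρ, hρ⟩ : IrrCharacter R)
  have hbp : ¬ p ∣ b := fun h => (hp.coprime_iff_not_dvd.1 hcp.symm)
    (h.trans (charDegree_dvd (⟨ρ, hρ⟩ : IrrCharacter R)))
  have hpa : p ∣ a := ((hp.dvd_mul).1 (hDe ▸ hpd)).resolve_right hbp
  have ha1 : 1 < a := lt_of_lt_of_le hp.one_lt (Nat.le_of_dvd (charDegree_pos θ') hpa)
  haveI : Nontrivial R := by
    rw [← not_subsingleton_iff_nontrivial]
    intro hs
    obtain ⟨k, hk⟩ := IsPGroup.iff_card.1 P.isPGroup'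
    exact hpp ⟨p, hp, k, by rw [← Nat.card_congr η.toEquiv, Nat.card_prod, Nat.card_unique (α := R), mul_one, hk]⟩
  -- a nontrivial character of degree at most `b` that is trivial on the Sylow subgroup
  obtain ⟨ρ₁, hρ₁, hρ₁b⟩ : ∃ ρ₁ : IrrCharacter R, (ρ₁ : R → ℂ) ≠ (fun _ => 1) ∧
      charDegree (ρ₁ : R → ℂ) = b := by
    by_cases h : ρ = fun _ => 1
    · haveI : Group.IsNilpotent R := inferInstance
      obtain ⟨l, hl, hl1⟩ := exists_lin (P := R)
      refine ⟨l, hl, ?_⟩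
      rw [hl1, hb]
      exact (charDegree_eq (⟨ρ, hρ⟩ : IrrCharacter R) (show ρ 1 = ((1 : ℕ) : ℂ) by rw [h, Nat.cast_one])).symm
    · exact ⟨⟨ρ, hρ⟩, h, rfl⟩
  let prj : H →* R := (MonoidHom.snd _ R).comp η.symm.toMonoidHom
  have hprj : Function.Surjective prj := fun y => ⟨η (1, y), by simp [prj]⟩
  set σ₀ : IrrCharacter H := ⟨fun x => (ρ₁ : R → ℂ) (prj x), IsIrrCharacter.comp ρ₁.2 prj hprj⟩
  have hσ0 : (σ₀ : H → ℂ) ≠ fun _ => 1 := fun e => hρ₁ (funext fun y => by
    obtain ⟨x, rfl⟩ := hprj y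
    exact congrFun e x)
  have hσd : charDegree (σ₀ : H → ℂ) = b := charDegree_eq σ₀ (by
    show (ρ₁ : R → ℂ) (prj 1) = _
    rw [map_one, irr_apply_one, hρ₁b])
  haveI : (P : Subgroup H).Normal := CfsgLib.Feit1535.sylow_normal P
  haveI : (P : Subgroup H).Characteristic := Sylow.characteristic_of_normal P inferInstance
  let A : Subgroup N := (P : Subgroup H).map H.subtype
  haveI : A.Normal := inferInstance
  have hAH : A ≤ H := Subgroup.map_subtype_le _
  have hmemA : ∀ x : H, (x : N) ∈ A ↔ x ∈ (P : Subgroup H) := fun x =>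
    Subgroup.mem_map_iff_mem H.subtype_injective
  set X : Finset (IrrCharacter H) := Finset.univ.filter fun σ : IrrCharacter H =>
    (σ : H → ℂ) ≠ (fun _ => 1) ∧ indFun H (σ : H → ℂ) = indFun H (σ₀ : H → ℂ) with hX
  have hXd : ∀ σ ∈ X, charDegree (σ : H → ℂ) = b := fun σ hσ => by
    refine charDegree_eq σ ?_
    have := congrFun (Finset.mem_filter.1 hσ).2.2 1
    rw [indFun_one, indFun_one] at this
    rw [mul_left_cancel₀ (Nat.cast_ne_zero.2 H.index_ne_zero_of_finite) this, irr_apply_one, hσd]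
  have hXP : ∀ σ ∈ X, ∀ x : (P : Subgroup H), (σ : H → ℂ) x = (σ : H → ℂ) 1 := by
    intro σ hσ x
    refine ((Cfsg.Agent.S1487.result A H hAH _ σ.2).2 ?_) x ((hmemA x).2 x.2)
    rw [(Finset.mem_filter.1 hσ).2.2]
    refine (Cfsg.Agent.S1487.result A H hAH _ σ₀.2).1 fun y hy => ?_
    have hy' := (hmemA y).1 hy
    show (ρ₁ : R → ℂ) (prj y) = (ρ₁ : R → ℂ) (prj 1)
    rw [show y = η (⟨y, hy'⟩, 1) by simp [hη]]
    simp [prj]
  have htriv : (⟨_, isIrrCharacter_one H⟩ : IrrCharacter H) ∉ X := fun h => (Finset.mem_filter.1 h).2.1 rfl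
  set X' := insert (⟨_, isIrrCharacter_one H⟩ : IrrCharacter H) X with hX'
  have h1d : charDegree (fun _ : H => (1 : ℂ)) = 1 :=
    charDegree_eq (⟨_, isIrrCharacter_one H⟩ : IrrCharacter H) (Nat.cast_one).symm
  have hX'd : ∀ σ ∈ X', charDegree (σ : H → ℂ) ≤ b := fun σ hσ => by
    rcases Finset.mem_insert.1 hσ with rfl | h
    · exact h1d.le.trans hb0
    · exact (hXd σ h).le
  have hX'P : ∀ σ ∈ X', ∀ x : (P : Subgroup H), (σ : H → ℂ) x = (σ : H → ℂ) 1 := fun σ hσ x => by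
    rcases Finset.mem_insert.1 hσ with rfl | h
    · rfl
    · exact hXP σ h x
  have hX'sum : ∑ σ ∈ X', charDegree (σ : H → ℂ) ^ 2 = 1 + H.index * b ^ 2 := by
    rw [hX', Finset.sum_insert htriv, Finset.sum_congr rfl (fun σ hσ => by rw [hXd σ hσ]), Finset.sum_const,
      smul_eq_mul, hX, fibre_card H hC σ₀ hσ0]
    simp [h1d]
  set Y : Finset (IrrCharacter (P : Subgroup H)) :=
    Finset.univ.filter fun α => charDegree (α : ↥(P : Subgroup H) → ℂ) < a with hY
  have hYsum : a ^ 2 ≤ ∑ α ∈ Y, charDegree (α : ↥(P : Subgroup H) → ℂ) ^ 2 := sq_le hp P.isPGroup' θ' ha1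
  -- restriction to the complement of a character trivial on the Sylow subgroup
  have hfac : ∀ σ ∈ X', ∃ β : IrrCharacter R, ∀ x y, (σ : H → ℂ) (η (x, y)) = (β : R → ℂ) y := by
    intro σ hσ
    obtain ⟨α, β, hα, hβ, he⟩ := (Cfsg.Agent.S0188.result fun x => (σ : H → ℂ) (η x)).1
      (IsIrrCharacter.comp σ.2 η.toMonoidHom η.surjective)
    have hve : ∀ x y, (σ : H → ℂ) (η (x, y)) = α x * β y := fun x y => congrFun he (x, y)
    have hconst : ∀ x, α x = α 1 := fun x => by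
      have e1 := hve x 1
      have e2 := hve 1 1
      have ex : η (x, (1 : R)) = ((x : (P : Subgroup H)) : H) := by simp [hη]
      rw [ex, hX'P σ hσ x] at e1
      rw [show η ((1 : (P : Subgroup H)), (1 : R)) = 1 by simp [hη]] at e2
      exact mul_right_cancel₀ (irr_one_ne_zero (⟨β, hβ⟩ : IrrCharacter R)) (e1.symm.trans e2)
    have hα1 : α = fun _ => 1 := by
      by_contra hne
      have h := inner_irr_ne hα (isIrrCharacter_one _) hne
      rw [show α = α 1 • (fun _ => (1 : ℂ)) from funext fun x => by rw [hconst x]; simp, ci_smul_left,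
        inner_irr_self (isIrrCharacter_one _), mul_one] at h
      exact irr_one_ne_zero (⟨α, hα⟩ : IrrCharacter (P : Subgroup H)) h
    exact ⟨⟨β, hβ⟩, fun x y => by rw [hve, hα1, one_mul]⟩
  haveI : Nonempty (IrrCharacter R) := ⟨⟨ρ, hρ⟩⟩
  choose! β hβ using hfac
  let Φ : IrrCharacter ↥(P : Subgroup H) × IrrCharacter H → IrrCharacter H := fun q =>
    ⟨fun x => (q.1 : ↥(P : Subgroup H) → ℂ) (η.symm x).1 * (β q.2 : R → ℂ) (η.symm x).2,
      IsIrrCharacter.comp ((Cfsg.Agent.S0188.result _).2 ⟨_, _, q.1.2, (β q.2).2, rfl⟩) η.symm.toMonoidHom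
        η.symm.surjective⟩
  have hβ1 : ∀ σ ∈ X', (β σ : R → ℂ) 1 = (charDegree (σ : H → ℂ) : ℂ) := fun σ hσ => by
    rw [← irr_apply_one, ← hβ σ hσ 1 1]; simp [hη]
  have hΦd : ∀ q ∈ Y ×ˢ X', charDegree (Φ q : H → ℂ) =
      charDegree (q.1 : ↥(P : Subgroup H) → ℂ) * charDegree (q.2 : H → ℂ) := fun q hq => charDegree_eq _ (by
    show (q.1 : ↥(P : Subgroup H) → ℂ) (η.symm 1).1 * (β q.2 : R → ℂ) (η.symm 1).2 = _
    rw [map_one, Prod.fst_one, Prod.snd_one, irr_apply_one, hβ1 _ (Finset.mem_product.1 hq).2, Nat.cast_mul])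
  have hΦi : Set.InjOn Φ (↑(Y ×ˢ X') : Set _) := by
    rintro ⟨α, σ⟩ hq ⟨α', σ'⟩ hq' he
    have hσ := (Finset.mem_product.1 (Finset.mem_coe.1 hq)).2
    have hσ' := (Finset.mem_product.1 (Finset.mem_coe.1 hq')).2
    have e : ∀ x y, (α : ↥(P : Subgroup H) → ℂ) x * (β σ : R → ℂ) y = (α' : ↥(P : Subgroup H) → ℂ) x * (β σ' : R → ℂ) y :=
      fun x y => by
        have := congrFun (congrArg Subtype.val he) (η (x, y))
        simpa [Φ] using this
    have h2 : ∀ {X : Type u} [Group X] [Fintype X] (u v : IrrCharacter X) (c : ℂ), c ≠ 0 →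
        (∀ x, (u : X → ℂ) x * c = (v : X → ℂ) x * (c * ((u : X → ℂ) 1 / (v : X → ℂ) 1))) → u = v := by
      intro X _ _ u v c hc h
      by_contra hne
      have h' : (u : X → ℂ) = ((u : X → ℂ) 1 / (v : X → ℂ) 1) • (v : X → ℂ) := funext fun x => by
        have := h x
        refine mul_right_cancel₀ hc ?_
        rw [this, Pi.smul_apply, smul_eq_mul]; ring
      have h0 := inner_irr_ne u.2 v.2 (fun e => hne (Subtype.ext e))
      rw [h', ci_smul_left, inner_irr_self v.2, mul_one] at h0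
      rcases div_eq_zero_iff.1 h0 with h0 | h0
      · exact irr_one_ne_zero u h0
      · exact irr_one_ne_zero v h0
    have hα : α = α' := by
      refine h2 α α' ((β σ : R → ℂ) 1) (irr_one_ne_zero _) fun x => ?_
      have e1 := e 1 1
      rw [e x 1, show (β σ : R → ℂ) 1 * ((α : ↥(P : Subgroup H) → ℂ) 1 / (α' : ↥(P : Subgroup H) → ℂ) 1) =
        (β σ' : R → ℂ) 1 by rw [mul_div_assoc', mul_comm, e1, mul_div_assoc, mul_comm,
          div_mul_cancel₀ _ (irr_one_ne_zero α')]]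
    subst hα
    have hβe : ∀ y, (β σ : R → ℂ) y = (β σ' : R → ℂ) y := fun y => mul_left_cancel₀ (irr_one_ne_zero α) (e 1 y)
    refine Prod.ext rfl (Subtype.ext (funext fun x => ?_))
    obtain ⟨⟨x, y⟩, rfl⟩ := η.surjective x
    rw [hβ σ hσ, hβ σ' hσ', hβe]
  have hsub : (Y ×ˢ X').image Φ ⊆ Finset.univ.filter (fun ψ : IrrCharacter H => charDegree (ψ : H → ℂ) < D) := by
    intro ψ hψ
    obtain ⟨q, hq, rfl⟩ := Finset.mem_image.1 hψ
    refine Finset.mem_filter.2 ⟨Finset.mem_univ _, ?_⟩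
    rw [hΦd q hq, hDe]
    exact Nat.mul_lt_mul_of_lt_of_le (Finset.mem_filter.1 (Finset.mem_product.1 hq).1).2
      (hX'd _ (Finset.mem_product.1 hq).2) hb0
  calc 2 * H.index * D + 1 < a ^ 2 * (1 + H.index * b ^ 2) := by
        rw [hDe]
        have e1 : 2 * (a * b) ≤ a * a * (b * b) :=
          Nat.mul_le_mul_right (a * b) (show 2 ≤ a * b from le_trans ha1 (Nat.le_mul_of_pos_right a hb0))
            |>.trans (le_of_eq (by ring))
        nlinarith [Nat.mul_le_mul_left H.index e1]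
    _ ≤ (∑ α ∈ Y, charDegree (α : ↥(P : Subgroup H) → ℂ) ^ 2) * ∑ σ ∈ X', charDegree (σ : H → ℂ) ^ 2 := by
        rw [hX'sum]; exact Nat.mul_le_mul_right _ hYsum
    _ = ∑ ψ ∈ (Y ×ˢ X').image Φ, charDegree (ψ : H → ℂ) ^ 2 := by
        rw [Finset.sum_image hΦi, Finset.sum_mul_sum, ← Finset.sum_product']
        exact Finset.sum_congr rfl fun q hq => by rw [hΦd q hq, mul_pow]
    _ ≤ _ := Finset.sum_le_sum_of_subset hsub

open Classical in
/-- Two classes of nontrivial linear characters. -/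
theorem base_bound (H : Subgroup N) [H.Normal] (hC : ∀ h ∈ H, h ≠ 1 → Subgroup.centralizer ({h} : Set N) ≤ H)
    (hH1 : H ≠ ⊥) [Fintype H] [Group.IsNilpotent H] (hpp : ¬ ∃ p : ℕ, p.Prime ∧ ∃ m : ℕ, Nat.card H = p ^ m) :
    2 * H.index ≤ (Finset.univ.filter fun φ : IrrCharacter H =>
      (φ : H → ℂ) ≠ (fun _ => 1) ∧ charDegree (φ : H → ℂ) = 1).card := by
  obtain ⟨p, hp, hpd⟩ := Nat.exists_prime_and_dvd (fun h : Nat.card H = 1 => hH1 (Subgroup.card_eq_one.1 h))
  haveI := Fact.mk hp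
  obtain ⟨P⟩ := (inferInstance : Nonempty (Sylow p H))
  obtain ⟨R, η, hη, hcp⟩ := exists_split P
  haveI : Nontrivial R := by
    rw [← not_subsingleton_iff_nontrivial]
    intro hs
    obtain ⟨k, hk⟩ := IsPGroup.iff_card.1 P.isPGroup'
    exact hpp ⟨p, hp, k, by rw [← Nat.card_congr η.toEquiv, Nat.card_prod, Nat.card_unique (α := R), mul_one, hk]⟩
  haveI : Nontrivial (P : Subgroup H) := Finite.one_lt_card_iff_nontrivial.1
    (lt_of_lt_of_le hp.one_lt (Nat.le_of_dvd Nat.card_pos (P.dvd_card_of_dvd_card hpd)))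
  haveI : (P : Subgroup H).Normal := CfsgLib.Feit1535.sylow_normal P
  haveI : (P : Subgroup H).Characteristic := Sylow.characteristic_of_normal P inferInstance
  let A : Subgroup N := (P : Subgroup H).map H.subtype
  haveI : A.Normal := inferInstance
  have hAH : A ≤ H := Subgroup.map_subtype_le _
  have hmemA : ∀ x : H, (x : N) ∈ A ↔ x ∈ (P : Subgroup H) := fun x =>
    Subgroup.mem_map_iff_mem H.subtype_injective
  obtain ⟨lR, hlR, hlR1⟩ := exists_lin (P := R)
  obtain ⟨lP, hlP, hlP1⟩ := exists_lin (P := (P : Subgroup H))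
  let fR : H →* R := (MonoidHom.snd _ R).comp η.symm.toMonoidHom
  let fP : H →* (P : Subgroup H) := (MonoidHom.fst (P : Subgroup H) R).comp η.symm.toMonoidHom
  let σ : IrrCharacter H := ⟨fun x => (lR : R → ℂ) (fR x),
    IsIrrCharacter.comp lR.2 fR fun y => ⟨η (1, y), by simp [fR]⟩⟩
  let ω : IrrCharacter H := ⟨fun x => (lP : ↥(P : Subgroup H) → ℂ) (fP x),
    IsIrrCharacter.comp lP.2 fP fun y => ⟨η (y, 1), by simp [fP]⟩⟩
  have hσ : (σ : H → ℂ) ≠ fun _ => 1 := fun e => hlR (funext fun y => by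
    have := congrFun e (η (1, y)); simpa [σ, fR] using this)
  have hω : (ω : H → ℂ) ≠ fun _ => 1 := fun e => hlP (funext fun y => by
    have := congrFun e (η (y, 1)); simpa [ω, fP] using this)
  have hσ1 : (σ : H → ℂ) 1 = 1 := by
    show (lR : R → ℂ) (fR 1) = 1
    rw [map_one, irr_apply_one, hlR1, Nat.cast_one]
  have hω1 : (ω : H → ℂ) 1 = 1 := by
    show (lP : ↥(P : Subgroup H) → ℂ) (fP 1) = 1
    rw [map_one, irr_apply_one, hlP1, Nat.cast_one]
  set F : IrrCharacter H → Finset (IrrCharacter H) := fun t => Finset.univ.filter fun φ : IrrCharacter H =>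
    (φ : H → ℂ) ≠ (fun _ => 1) ∧ indFun H (φ : H → ℂ) = indFun H (t : H → ℂ) with hF
  have hsub : F σ ∪ F ω ⊆ Finset.univ.filter fun φ : IrrCharacter H =>
      (φ : H → ℂ) ≠ (fun _ => 1) ∧ charDegree (φ : H → ℂ) = 1 := by
    intro φ hφ
    obtain ⟨h, hne, he⟩ : ∃ t : IrrCharacter H, (φ : H → ℂ) ≠ (fun _ => 1) ∧
        indFun H (φ : H → ℂ) = indFun H (t : H → ℂ) ∧ (t : H → ℂ) 1 = 1 := by
      rcases Finset.mem_union.1 hφ with h | h
      · exact ⟨σ, (Finset.mem_filter.1 h).2.1, (Finset.mem_filter.1 h).2.2, hσ1⟩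
      · exact ⟨ω, (Finset.mem_filter.1 h).2.1, (Finset.mem_filter.1 h).2.2, hω1⟩
    refine Finset.mem_filter.2 ⟨Finset.mem_univ _, hne, charDegree_eq φ ?_⟩
    have := congrFun he.1 1
    rw [indFun_one, indFun_one, he.2] at this
    rw [Nat.cast_one]
    exact mul_left_cancel₀ (Nat.cast_ne_zero.2 H.index_ne_zero_of_finite) this
  refine le_trans ?_ (Finset.card_le_card hsub)
  rw [Finset.card_union_of_disjoint, hF, fibre_card H hC σ hσ, fibre_card H hC ω hω, two_mul]
  rw [Finset.disjoint_left]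
  intro φ h h'
  have e : indFun H (σ : H → ℂ) = indFun H (ω : H → ℂ) :=
    (Finset.mem_filter.1 h).2.2.symm.trans (Finset.mem_filter.1 h').2.2
  have h3 := (Cfsg.Agent.S1487.result A H hAH _ σ.2).1 fun y hy => by
    have hy' := (hmemA y).1 hy
    show (lR : R → ℂ) (fR y) = (lR : R → ℂ) (fR 1)
    rw [show y = η (⟨y, hy'⟩, 1) by simp [hη]]
    simp [fR]
  rw [e] at h3
  have h4 := (Cfsg.Agent.S1487.result A H hAH _ ω.2).2 h3
  refine hlP (funext fun y => ?_)
  have h5 := h4 y ((hmemA y).2 y.2)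
  rw [hω1] at h5
  rw [← h5]
  show _ = (lP : ↥(P : Subgroup H) → ℂ) (fP y)
  have ey : η (y, (1 : R)) = ((y : (P : Subgroup H)) : H) := by simp [hη]
  rw [← ey]
  simp [fP]

/-- Coherence from the degree inequality. -/
theorem coherent_of_bound (H : Subgroup N) [H.Normal]
    (hC : ∀ h ∈ H, h ≠ 1 → Subgroup.centralizer ({h} : Set N) ≤ H) [Fintype H]
    {G : Type*} [Group G] [Fintype G] (τ : (N → ℂ) → (G → ℂ))
    (hτ : IsLinearIsometryOn (zspanOn {χ : N → ℂ | IsIrrCharacter N χ ∧ ∃ h ∈ H, χ h ≠ χ 1} {1}ᶜ) τ)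
    (hτ1 : ∀ α ∈ zspanOn {χ : N → ℂ | IsIrrCharacter N χ ∧ ∃ h ∈ H, χ h ≠ χ 1} {1}ᶜ, τ α 1 = 0)
    (hlin : (commutator H).index ≠ H.index + 1) (hlin1 : 1 < (commutator H).index)
    (hineq : ∀ φ : IrrCharacter H, 1 < charDegree (φ : H → ℂ) →
      2 * H.index * charDegree (φ : H → ℂ) + 1 < ∑ ψ ∈ (Finset.univ : Finset (IrrCharacter H)),
        if charDegree (ψ : H → ℂ) < charDegree (φ : H → ℂ) then charDegree (ψ : H → ℂ) ^ 2 else 0) :
    IsCoherent {χ : N → ℂ | IsIrrCharacter N χ ∧ ∃ h ∈ H, χ h ≠ χ 1} {1}ᶜ τ := by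
  classical
  set e := H.index with he
  have he0 : 0 < e := Nat.pos_of_ne_zero H.index_ne_zero_of_finite
  set Q : Finset (IrrCharacter H) := Finset.univ.filter fun φ : IrrCharacter H => (φ : H → ℂ) ≠ fun _ => 1 with hQ
  let f : IrrCharacter H → (N → ℂ) := fun φ => indFun H (φ : H → ℂ)
  set S : Finset (N → ℂ) := Q.image f with hS
  have hQm : ∀ φ, φ ∈ Q ↔ (φ : H → ℂ) ≠ fun _ => 1 := fun φ => by simp [hQ]
  have hSset : (↑S : Set (N → ℂ)) = {χ : N → ℂ | IsIrrCharacter N χ ∧ ∃ h ∈ H, χ h ≠ χ 1} := by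
    ext χ
    simp only [hS, Finset.coe_image, Set.mem_image, Finset.mem_coe, Set.mem_setOf_eq]
    constructor
    · rintro ⟨φ, hφ, rfl⟩
      exact ⟨ind_irr H hC φ ((hQm φ).1 hφ), ind_mem H hC φ ((hQm φ).1 hφ)⟩
    · rintro ⟨hχ, h, hh, hne⟩
      obtain ⟨φ, hφ, rfl⟩ := Cfsg.Agent.S1528.result H hC χ hχ ⟨h, hh, hne⟩
      refine ⟨⟨φ, hφ⟩, (hQm _).2 fun e1 => hne ?_, rfl⟩
      simp only at e1
      refine (Cfsg.Agent.S1487.result H H le_rfl φ hφ).1 (fun a _ => ?_) h hh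
      rw [e1]
  have hSirr : ∀ χ ∈ S, IsIrrCharacter N χ := fun χ hχ => by
    have : χ ∈ (↑S : Set (N → ℂ)) := hχ
    rw [hSset] at this
    exact this.1
  let d : (N → ℂ) → ℕ := fun χ => charDegree χ
  have hd : ∀ χ ∈ S, χ 1 = (d χ : ℂ) := fun χ hχ => irr_apply_one (⟨χ, hSirr χ hχ⟩ : IrrCharacter N)
  have hdf : ∀ φ ∈ Q, d (f φ) = e * charDegree (φ : H → ℂ) := fun φ hφ =>
    charDegree_eq (⟨f φ, ind_irr H hC φ ((hQm φ).1 hφ)⟩ : IrrCharacter N)
      (by rw [Nat.cast_mul, ← irr_apply_one]; exact indFun_one H _)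
  have hdvd : ∀ χ ∈ S, e ∣ d χ := fun χ hχ => by
    obtain ⟨φ, hφ, rfl⟩ := Finset.mem_image.1 hχ
    exact ⟨_, hdf φ hφ⟩
  have hfib : ∀ χ ∈ S, (Q.filter fun φ => f φ = χ).card = e := fun χ hχ => by
    obtain ⟨φ₀, hφ₀, rfl⟩ := Finset.mem_image.1 hχ
    rw [hQ, Finset.filter_filter]
    exact fibre_card H hC φ₀ ((hQm φ₀).1 hφ₀)
  have hsum : ∀ D : ℕ, ∑ χ ∈ S.filter (fun χ => d χ < e * D), d χ ^ 2 =
      e * ∑ φ ∈ Q.filter (fun φ : IrrCharacter H => charDegree (φ : H → ℂ) < D), charDegree (φ : H → ℂ) ^ 2 := by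
    intro D
    have hmaps : ∀ φ ∈ Q.filter (fun φ : IrrCharacter H => charDegree (φ : H → ℂ) < D),
        f φ ∈ S.filter (fun χ => d χ < e * D) := fun φ hφ => by
      rw [Finset.mem_filter] at hφ ⊢
      exact ⟨Finset.mem_image_of_mem f hφ.1, by rw [hdf φ hφ.1]; exact Nat.mul_lt_mul_of_pos_left hφ.2 he0⟩
    rw [← Finset.sum_fiberwise_of_maps_to hmaps, Finset.mul_sum]
    refine Finset.sum_congr rfl fun χ hχ => ?_
    obtain ⟨hχS, hχD⟩ := Finset.mem_filter.1 hχ
    rw [Finset.filter_filter, show (Q.filter fun φ : IrrCharacter H => charDegree (φ : H → ℂ) < D ∧ f φ = χ) =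
      Q.filter (fun φ => f φ = χ) from Finset.filter_congr fun φ hφ => ⟨fun h => h.2, fun h => ⟨by
        rw [← h, hdf φ hφ] at hχD
        exact Nat.lt_of_mul_lt_mul_left hχD, h⟩⟩, Finset.mul_sum]
    obtain ⟨φ₀, hφ₀, rfl⟩ := Finset.mem_image.1 hχS
    rw [Finset.sum_congr rfl (g := fun _ => e * charDegree (φ₀ : H → ℂ) ^ 2) (fun φ hφ => by
      have h := (Finset.mem_filter.1 hφ)
      have := hdf φ h.1
      rw [h.2, hdf φ₀ hφ₀] at this
      rw [Nat.eq_of_mul_eq_mul_left he0 this]), Finset.sum_const, hfib _ (Finset.mem_image_of_mem f hφ₀), smul_eq_mul,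
      hdf φ₀ hφ₀]
    ring
  have hQsum : ∀ D : ℕ, 1 < D → ∑ φ ∈ Q.filter (fun φ : IrrCharacter H => charDegree (φ : H → ℂ) < D),
      charDegree (φ : H → ℂ) ^ 2 + 1 =
      ∑ ψ : IrrCharacter H, if charDegree (ψ : H → ℂ) < D then charDegree (ψ : H → ℂ) ^ 2 else 0 := by
    intro D hD
    have h1 : charDegree (fun _ : H => (1 : ℂ)) = 1 :=
      charDegree_eq (⟨_, isIrrCharacter_one H⟩ : IrrCharacter H) Nat.cast_one.symm
    rw [← Finset.add_sum_erase _ _ (Finset.mem_univ (⟨_, isIrrCharacter_one H⟩ : IrrCharacter H)), if_pos (by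
      simpa [h1] using hD), show Q = (Finset.univ.erase (⟨_, isIrrCharacter_one H⟩ : IrrCharacter H)) by
      ext φ; simp [hQ, Subtype.ext_iff], Finset.sum_filter]
    simp [h1, add_comm]
  set S₀ := S.filter (fun χ => d χ = e) with hS₀
  have hS₀2 : 2 ≤ S₀.card := by
    have h := hlin
    have h' := hlin1
    rw [← card_linear, Nat.card_eq_fintype_card, Fintype.card_subtype] at h h'
    have h2 : (Q.filter fun φ : IrrCharacter H => charDegree (φ : H → ℂ) = 1).card + 1 =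
        (Finset.univ.filter fun φ : IrrCharacter H => charDegree (φ : H → ℂ) = 1).card := by
      rw [show (Q.filter fun φ : IrrCharacter H => charDegree (φ : H → ℂ) = 1) =
        (Finset.univ.filter fun φ : IrrCharacter H => charDegree (φ : H → ℂ) = 1).erase
          (⟨_, isIrrCharacter_one H⟩ : IrrCharacter H) by ext φ; simp [hQ, Subtype.ext_iff],
        Finset.card_erase_add_one ((Finset.mem_filter.2 ⟨Finset.mem_univ _,
          charDegree_eq (⟨_, isIrrCharacter_one H⟩ : IrrCharacter H) Nat.cast_one.symm⟩ :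
            (⟨_, isIrrCharacter_one H⟩ : IrrCharacter H) ∈
              Finset.univ.filter fun φ : IrrCharacter H => charDegree (φ : H → ℂ) = 1))]
    have h3 : (Q.filter fun φ : IrrCharacter H => charDegree (φ : H → ℂ) = 1).card = S₀.card * e := by
      rw [Finset.card_eq_sum_card_fiberwise (f := f) (t := S₀) (fun φ hφ => by
        rw [Finset.mem_coe, Finset.mem_filter] at hφ
        exact Finset.mem_filter.2 ⟨Finset.mem_image_of_mem f hφ.1, by rw [hdf φ hφ.1, hφ.2, mul_one]⟩)]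
      rw [Finset.sum_congr rfl (g := fun _ => e) (fun χ hχ => by
        obtain ⟨hχS, hχd⟩ := Finset.mem_filter.1 hχ
        rw [Finset.filter_filter, show (Q.filter fun φ : IrrCharacter H => charDegree (φ : H → ℂ) = 1 ∧ f φ = χ) =
          Q.filter (fun φ => f φ = χ) from Finset.filter_congr fun φ hφ => ⟨fun h => h.2, fun h => ⟨by
            rw [← h, hdf φ hφ] at hχd
            exact (Nat.mul_eq_left he0.ne').1 hχd, h⟩⟩]
        exact hfib χ hχS), Finset.sum_const, smul_eq_mul]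
    by_contra hlt
    interval_cases hc : S₀.card <;> omega
  rw [← hSset] at hτ hτ1 ⊢
  have hmono : ∀ T : Finset (N → ℂ), T ⊆ S →
      IsLinearIsometryOn (zspanOn (↑T : Set (N → ℂ)) {1}ᶜ) τ ∧
      ∀ α ∈ zspanOn (↑T : Set (N → ℂ)) {1}ᶜ, τ α 1 = 0 := by
    intro T hT
    have hsub : zspanOn (↑T : Set (N → ℂ)) {1}ᶜ ⊆ zspanOn (↑S : Set (N → ℂ)) {1}ᶜ := fun α hα =>
      ⟨zspan_mono (Finset.coe_subset.2 hT) hα.1, hα.2⟩
    exact ⟨⟨fun a ha b hb => hτ.1 a (hsub ha) b (hsub hb), fun a ha => hτ.2.1 a (hsub ha),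
      fun a ha b hb => hτ.2.2.1 a (hsub ha) b (hsub hb), fun a ha => hτ.2.2.2 a (hsub ha)⟩,
      fun a ha => hτ1 a (hsub ha)⟩
  suffices h : ∀ n : ℕ, ∀ T : Finset (N → ℂ), T.card = n → T ⊆ S → S₀ ⊆ T →
      (∀ χ ∈ T, ∀ ξ ∈ S, d ξ < d χ → ξ ∈ T) → IsCoherent (↑T : Set (N → ℂ)) {1}ᶜ τ from
    h S.card S rfl subset_rfl (Finset.filter_subset _ _) fun _ _ ξ hξ _ => hξ
  intro n
  induction n with
  | zero =>
    intro T hT _ hS₀T _
    have := Finset.card_le_card hS₀T
    omega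
  | succ n ih =>
    intro T hT hTS hS₀T hdown
    by_cases heq : T = S₀
    · subst heq
      refine CfsgLib.CoherenceFeit.coherent_equal_degree S₀ (fun x hx => hSirr x (Finset.filter_subset _ _ hx))
        (fun x hx y hy => ?_) hS₀2 (hmono _ hTS).1 (hmono _ hTS).2
      rw [hd x (Finset.filter_subset _ _ hx), hd y (Finset.filter_subset _ _ hy), (Finset.mem_filter.1 hx).2,
        (Finset.mem_filter.1 hy).2]
    · have hne : (T \ S₀).Nonempty := Finset.sdiff_nonempty.2 fun h => heq (Finset.Subset.antisymm h hS₀T)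
      obtain ⟨χ, hχ, hmax⟩ := Finset.exists_max_image (T \ S₀) d hne
      obtain ⟨hχT, hχ0⟩ := Finset.mem_sdiff.1 hχ
      have hχS := hTS hχT
      set T' := T.erase χ with hT'
      have hins : insert χ T' = T := Finset.insert_erase hχT
      have hS₀T' : S₀ ⊆ T' := fun x hx => Finset.mem_erase.2 ⟨fun e1 => hχ0 (e1 ▸ hx), hS₀T hx⟩
      have hdown' : ∀ x ∈ T', ∀ ξ ∈ S, d ξ < d x → ξ ∈ T' := fun x hx ξ hξ hlt => by
        refine Finset.mem_erase.2 ⟨fun e1 => ?_, hdown x (Finset.mem_of_mem_erase hx) ξ hξ hlt⟩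
        subst e1
        by_cases hx0 : x ∈ S₀
        · obtain ⟨k, hk⟩ := hdvd ξ hξ
          rw [(Finset.mem_filter.1 hx0).2, hk] at hlt
          have hk0 : k = 0 := by
            have := Nat.lt_of_mul_lt_mul_left (hlt.trans_eq (mul_one e).symm)
            omega
          exact irr_one_ne_zero (⟨ξ, hSirr ξ hξ⟩ : IrrCharacter N)
            (show ξ 1 = 0 by rw [hd ξ hξ, hk, hk0, mul_zero, Nat.cast_zero])
        · exact (lt_irrefl _) (hlt.trans_le (hmax x (Finset.mem_sdiff.2 ⟨Finset.mem_of_mem_erase hx, hx0⟩)))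
      have hcoh := ih T' (by rw [hT', Finset.card_erase_of_mem hχT, hT]; rfl)
        ((Finset.erase_subset _ _).trans hTS) hS₀T' hdown'
      obtain ⟨ψ, hψ⟩ := Finset.card_pos.1 (show 0 < S₀.card by omega)
      have hψd : d ψ = e := (Finset.mem_filter.1 hψ).2
      obtain ⟨φ, hφ, hφe⟩ := Finset.mem_image.1 hχS
      have hD : 1 < charDegree (φ : H → ℂ) := by
        rcases Nat.lt_or_ge 1 (charDegree (φ : H → ℂ)) with h | h
        · exact h
        · refine absurd (Finset.mem_filter.2 ⟨hχS, ?_⟩) hχ0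
          rw [← hφe, hdf φ hφ, show charDegree (φ : H → ℂ) = 1 from le_antisymm h (charDegree_pos φ), mul_one]
      have hkey : 2 * d ψ * d χ < ∑ ξ ∈ T', d ξ ^ 2 := by
        refine lt_of_lt_of_le ?_ (Finset.sum_le_sum_of_subset (f := fun ξ => d ξ ^ 2)
          (show S.filter (fun ξ => d ξ < d χ) ⊆ T' from fun ξ hξ => Finset.mem_erase.2
            ⟨fun e1 => (lt_irrefl (d χ)) (e1 ▸ (Finset.mem_filter.1 hξ).2),
              hdown χ hχT ξ (Finset.mem_filter.1 hξ).1 (Finset.mem_filter.1 hξ).2⟩))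
        rw [hψd, ← hφe, hdf φ hφ, hsum, show 2 * e * (e * charDegree (φ : H → ℂ)) =
          e * (2 * e * charDegree (φ : H → ℂ)) by ring]
        refine Nat.mul_lt_mul_of_pos_left ?_ he0
        have := hineq φ hD
        rw [← hQsum _ hD] at this
        omega
      have hτT := hmono T hTS
      rw [← hins] at hτT ⊢
      exact CfsgLib.CoherenceFeit.coherent_step T' χ (fun ξ hξ => hSirr ξ (hTS (Finset.mem_of_mem_erase hξ))) (hSirr χ hχS)
        (Finset.notMem_erase χ T) d (fun ξ hξ => hd ξ (hTS (hins ▸ hξ))) τ hτT.1 hτT.2 hcoh ψ (hS₀T' hψ)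
        (hψd ▸ hdvd χ hχS) hkey

end CfsgLib.Feit1535

namespace Cfsg.Agent.S1535

/-- Let N be a finite group with a proper nontrivial normal subgroup H such that every element commuting with a non-identity element of H lies in H (N is a Frobenius group with kernel H); let e be the index of H and suppose Nat.card H ≠ e + 1. Let S be the set of irreducible characters χ of N with χ h ≠ χ 1 for some h ∈ H, and τ a linear isometry on the integer combinations of S vanishing at 1, with values virtual characters of a finite group G vanishing at 1. Then (S, N minus 1, τ) is coherent, or there is a prime p with Nat.card H a power of p, H non-abelian and [H : [H,H]] ≤ 4e² + 1. -/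
theorem result {N : Type*} [Group N] [Fintype N] {G : Type*} [Group G] [Fintype G] (H : Subgroup N) [H.Normal] (hH1 : H ≠ ⊥) (hH2 : H ≠ ⊤) (hC : ∀ h ∈ H, h ≠ 1 → Subgroup.centralizer ({h} : Set N) ≤ H) (he : Nat.card H ≠ H.index + 1) (τ : (N → ℂ) → (G → ℂ)) (hτ : Cfsg.IsLinearIsometryOn (Cfsg.zspanOn {χ : N → ℂ | Cfsg.IsIrrCharacter N χ ∧ ∃ h ∈ H, χ h ≠ χ 1} {1}ᶜ) τ) (hτ1 : ∀ α ∈ Cfsg.zspanOn {χ : N → ℂ | Cfsg.IsIrrCharacter N χ ∧ ∃ h ∈ H, χ h ≠ χ 1} {1}ᶜ, τ α 1 = 0) : Cfsg.IsCoherent {χ : N → ℂ | Cfsg.IsIrrCharacter N χ ∧ ∃ h ∈ H, χ h ≠ χ 1} {1}ᶜ τ ∨ ∃ p : ℕ, p.Prime ∧ (∃ m : ℕ, Nat.card H = p ^ m) ∧ ¬ IsMulCommutative H ∧ (⁅H, H⁆.subgroupOf H).index ≤ 4 * H.index ^ 2 + 1 := by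
  classical
  haveI : Fintype H := Fintype.ofFinite H
  haveI := CfsgLib.Feit1535.nilp H hC hH1 hH2
  haveI : Nontrivial H := (Subgroup.nontrivial_iff_ne_bot H).2 hH1
  have hcomm : ⁅H, H⁆.subgroupOf H = commutator H := by
    rw [Subgroup.subgroupOf, ← Subgroup.map_subtype_commutator,
      Subgroup.comap_map_eq_self_of_injective H.subtype_injective]
  have hgt : 1 < (commutator H).index :=
    Subgroup.one_lt_index_of_ne_top (Group.IsSolvable.commutator_lt_top_of_nontrivial H).ne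
  by_cases hab : IsMulCommutative H
  · have hbot : commutator H = ⊥ := by
      rw [commutator_def, Subgroup.commutator_eq_bot_iff_le_centralizer]
      exact fun x _ => Subgroup.mem_centralizer_iff.2 fun y _ => hab.is_comm.comm y x
    refine Or.inl (CfsgLib.Feit1535.coherent_of_bound H hC τ hτ hτ1 ?_ hgt fun φ hφ => ?_)
    · rw [hbot, Subgroup.index_bot]
      exact he
    · exfalso
      have hall := CfsgLib.Chars.card_linear (G := H)
      rw [hbot, Subgroup.index_bot, Nat.card_eq_fintype_card, Fintype.card_subtype] at hall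
      have hsum := CfsgLib.Chars.sum_deg_sq (G := H)
      rw [← Finset.sum_filter_add_sum_filter_not _ (fun ψ : Cfsg.IrrCharacter H =>
        Cfsg.charDegree (ψ : H → ℂ) = 1), Finset.sum_congr rfl (g := fun _ => 1) (fun ψ hψ => by
          rw [(Finset.mem_filter.1 hψ).2, one_pow]), ← Finset.card_eq_sum_ones, hall, Nat.add_eq_left] at hsum
      have h0 := Finset.sum_eq_zero_iff.1 hsum φ (Finset.mem_filter.2 ⟨Finset.mem_univ _, hφ.ne'⟩)
      have := (pow_eq_zero_iff two_ne_zero).1 h0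
      omega
  by_cases hpp : ∃ p : ℕ, p.Prime ∧ ∃ m : ℕ, Nat.card H = p ^ m
  · obtain ⟨p, hp, m, hm⟩ := hpp
    by_cases hsmall : (⁅H, H⁆.subgroupOf H).index ≤ 4 * H.index ^ 2 + 1
    · exact Or.inr ⟨p, hp, ⟨m, hm⟩, hab, hsmall⟩
    rw [hcomm, not_le] at hsmall
    haveI := Fact.mk hp
    refine Or.inl (CfsgLib.Feit1535.coherent_of_bound H hC τ hτ hτ1 (fun h => ?_) hgt fun φ hφ => ?_)
    · have h0 : H.index ≠ 0 := H.index_ne_zero_of_finite
      have : H.index ≤ H.index ^ 2 := Nat.le_self_pow two_ne_zero _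
      omega
    · have h2 := CfsgLib.Feit1535.sq_le hp (IsPGroup.of_card hm) φ hφ
      rw [← Finset.sum_filter]
      rcases le_or_gt (Cfsg.charDegree (φ : H → ℂ)) (2 * H.index) with hle | hgtD
      · refine lt_of_lt_of_le (b := (commutator H).index) ?_ ?_
        · have := Nat.mul_le_mul_left (2 * H.index) hle
          rw [show 2 * H.index * (2 * H.index) = 4 * H.index ^ 2 by ring] at this
          omega
        · rw [← CfsgLib.Chars.card_linear, Nat.card_eq_fintype_card, Fintype.card_subtype, Finset.card_eq_sum_ones]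
          refine le_trans (le_of_eq (Finset.sum_congr rfl fun ψ hψ => ?_)) (Finset.sum_le_sum_of_subset fun ψ hψ => ?_)
          · rw [(Finset.mem_filter.1 hψ).2, one_pow]
          · exact Finset.mem_filter.2 ⟨Finset.mem_univ _, (Finset.mem_filter.1 hψ).2 ▸ hφ⟩
      · refine lt_of_lt_of_le ?_ h2
        rw [pow_two]
        nlinarith
  · refine Or.inl (CfsgLib.Feit1535.coherent_of_bound H hC τ hτ hτ1 (fun h => ?_) hgt fun φ hφ => ?_)
    · have h2 := CfsgLib.Feit1535.base_bound H hC hH1 hpp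
      have hlt : (Finset.univ.filter fun φ : Cfsg.IrrCharacter H =>
          (φ : H → ℂ) ≠ (fun _ => 1) ∧ Cfsg.charDegree (φ : H → ℂ) = 1).card <
          (Finset.univ.filter fun φ : Cfsg.IrrCharacter H => Cfsg.charDegree (φ : H → ℂ) = 1).card := by
        refine Finset.card_lt_card (Finset.ssubset_iff_of_subset ?_ |>.2
          ⟨⟨_, CfsgLib.Chars.isIrrCharacter_one H⟩, Finset.mem_filter.2 ⟨Finset.mem_univ _, ?_⟩, fun hm => ?_⟩)
        · exact fun x hx => Finset.mem_filter.2 ⟨Finset.mem_univ _, (Finset.mem_filter.1 hx).2.2⟩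
        · exact CfsgLib.Feit1535.charDegree_eq (⟨_, CfsgLib.Chars.isIrrCharacter_one H⟩ : Cfsg.IrrCharacter H)
            Nat.cast_one.symm
        · exact (Finset.mem_filter.1 hm).2.1 rfl
      rw [← Fintype.card_subtype (fun φ : Cfsg.IrrCharacter H => Cfsg.charDegree (φ : H → ℂ) = 1),
        ← Nat.card_eq_fintype_card, CfsgLib.Chars.card_linear] at hlt
      have h0 : H.index ≠ 0 := H.index_ne_zero_of_finite
      omega
    · rw [← Finset.sum_filter]
      exact CfsgLib.Feit1535.main_bound H hC hpp φ hφ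

end Cfsg.Agent.S1535
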