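import Cfsg.Statements.S1529
import Mathlib
import Cfsg.Agent.Lib.Coherence

set_option autoImplicit false
open Cfsg

namespace Cfsg.Agent.S1529

open Cfsg CfsgLib.Chars CfsgLib.Virtual CfsgLib.Coherence

/-- Let N be a subgroup of the finite group G, S a set of irreducible characters of N with at least two members, and τ₁ a linear isometry on the integer combinations of S with virtual-character values such that τ₁ α vanishes at 1 whenever α ∈ ℤ[S] does. Then there is ε ∈ {1, −1} such that ε • τ₁ χ is an irreducible character of G for every χ ∈ S, and distinct members of S give distinct characters. -/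
theorem result {G : Type*} [Group G] [Fintype G] (N : Subgroup G) [Fintype N] (S : Set (N → ℂ)) (hirr : ∀ χ ∈ S, Cfsg.IsIrrCharacter N χ) (htwo : ∃ χ ∈ S, ∃ ψ ∈ S, χ ≠ ψ) (τ₁ : (N → ℂ) → (G → ℂ)) (hτ₁ : Cfsg.IsLinearIsometryOn (Cfsg.zspan S) τ₁) (h0 : ∀ α ∈ Cfsg.zspan S, α 1 = 0 → τ₁ α 1 = 0) : ∃ ε : ℂ, (ε = 1 ∨ ε = -1) ∧ (∀ χ ∈ S, Cfsg.IsIrrCharacter G (ε • τ₁ χ)) ∧ (∀ χ ∈ S, ∀ ψ ∈ S, τ₁ χ = τ₁ ψ → χ = ψ) := by
  classical
  have hs : ∀ χ ∈ S, ∃ (ε : ℂ) (μ : IrrCharacter G), (ε = 1 ∨ ε = -1) ∧ τ₁ χ = ε • (μ : G → ℂ) := fun χ hχ =>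
    exists_single (hτ₁.2.2.2 _ (mem_zspan hχ))
      (by rw [hτ₁.2.2.1 _ (mem_zspan hχ) _ (mem_zspan hχ), inner_irr_self (hirr χ hχ)])
  obtain ⟨χ0, hχ0, -⟩ := htwo
  obtain ⟨ε, μ0, hε, hμ0⟩ := hs χ0 hχ0
  have hεε : ε * ε = 1 := by rcases hε with rfl | rfl <;> norm_num
  refine ⟨ε, hε, fun χ hχ => ?_, fun χ hχ ψ hψ e => ?_⟩
  · obtain ⟨δ, μ, hδ, hμ⟩ := hs χ hχ
    have hd : δ = ε := by
      let a := charDegree χ0
      let b := charDegree χ
      have ha : χ0 1 = (a : ℂ) := irr_apply_one (⟨χ0, hirr χ0 hχ0⟩ : IrrCharacter N)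
      have hb : χ 1 = (b : ℂ) := irr_apply_one (⟨χ, hirr χ hχ⟩ : IrrCharacter N)
      have hmem : (a : ℤ) • χ - (b : ℤ) • χ0 ∈ zspan S :=
        zspan_sub (zspan_zsmul _ (mem_zspan hχ)) (zspan_zsmul _ (mem_zspan hχ0))
      have h1 := h0 _ hmem (by simp [ha, hb, mul_comm])
      rw [iso_sub hτ₁ (zspan_zsmul _ (mem_zspan hχ)) (zspan_neg (zspan_zsmul _ (mem_zspan hχ0)))
        (zspan_zsmul _ (mem_zspan hχ0)), hτ₁.2.1 _ (mem_zspan hχ), hτ₁.2.1 _ (mem_zspan hχ0), hμ, hμ0] at h1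
      simp only [Pi.sub_apply, Pi.smul_apply, smul_eq_mul, irr_apply_one, zsmul_eq_mul, Int.cast_natCast, Pi.mul_apply, Pi.intCast_apply, Pi.natCast_apply] at h1
      have ha0 : 0 < a := charDegree_pos (⟨χ0, hirr χ0 hχ0⟩ : IrrCharacter N)
      have hm0 : 0 < charDegree (μ : G → ℂ) := charDegree_pos μ
      have hn0 : 0 < charDegree (μ0 : G → ℂ) := charDegree_pos μ0
      by_contra hne
      have hneg : δ = -ε := by
        rcases hδ with rfl | rfl <;> rcases hε with rfl | rfl <;> first | exact absurd rfl hne | simp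
      subst hneg
      have h2 : ε * (((a * charDegree (μ : G → ℂ) + b * charDegree (μ0 : G → ℂ) : ℕ)) : ℂ) = 0 := by
        push_cast; linear_combination -h1
      rcases mul_eq_zero.1 h2 with h3 | h3
      · simp [h3] at hεε
      · have := Nat.cast_eq_zero.1 h3
        have := Nat.mul_pos ha0 hm0
        omega
    rw [hμ, hd, smul_smul, hεε, one_smul]
    exact μ.2
  · by_contra hne
    have h1 := hτ₁.2.2.1 _ (mem_zspan hχ) _ (mem_zspan hψ)
    rw [← e, hτ₁.2.2.1 _ (mem_zspan hχ) _ (mem_zspan hχ), inner_irr_self (hirr χ hχ),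
      inner_irr_ne (hirr χ hχ) (hirr ψ hψ) hne] at h1
    exact one_ne_zero h1

end Cfsg.Agent.S1529
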