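import Cfsg.Statements.S0852
import Mathlib
import Cfsg.Agent.Lib.FrobeniusCoherent
import Cfsg.Agent.S1529

set_option autoImplicit false
open Cfsg

open Cfsg CfsgLib.Chars CfsgLib.Virtual CfsgLib.Coherence CfsgLib.FrobeniusCoherent

namespace Cfsg.Agent.S0852

/-- Let K be a subgroup of the finite group G that meets each conjugate by an element outside its normalizer N trivially, is properly contained in N, and contains the centralizer of each of its non-identity elements (a T.I. subgroup with Frobenius normalizer). Let S be the set of irreducible characters of N taking at some element of K a value different from their degree, suppose S has at least two members, and let star be a linear isometry on the integer span of S into the generalized characters of G that agrees with induction on the members vanishing at the identity (so S is coherent, with star as the extending isometry). Then an irreducible character ψ of G is of the form star χ or -star χ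 for some χ in S if and only if ψ is not constant on the non-identity elements of K. -/
theorem result {G : Type*} [Group G] [Fintype G] (K : Subgroup G) (hTI : ∀ g : G, g ∉ Subgroup.normalizer (K : Set G) → ∀ k ∈ K, g * k * g⁻¹ ∈ K → k = 1) (hlt : K < Subgroup.normalizer (K : Set G)) (hC : ∀ k ∈ K, k ≠ 1 → Subgroup.centralizer ({k} : Set G) ≤ K) [Fintype ↥(Subgroup.normalizer (K : Set G))] (S : Set (↥(Subgroup.normalizer (K : Set G)) → ℂ)) (hS : S = {χ : ↥(Subgroup.normalizer (K : Set G)) → ℂ | Cfsg.IsIrrCharacter ↥(Subgroup.normalizer (K : Set G)) χ ∧ ∃ k : ↥(Subgroup.normalizer (K : Set G)), (k : G) ∈ K ∧ χ k ≠ χ 1}) (htwo : ∃ χ ∈ S, ∃ ξ ∈ S, χ ≠ ξ) (star : (↥(Subgroup.normalizer (K : Set G)) → ℂ) → (G → ℂ)) (hstar : Cfsg.IsLinearIsometryOn (Cfsg.zspan S) star) (hext : ∀ α ∈ Cfsg.zspanOn S ({1}ᶜ : Set ↥(Subgroup.normalizer (K : Set G))), star α = Cfsg.indFun (Subgroup.normalizer (K : Set G)) α) (ψ : G → ℂ) (hψ : Cfsg.IsIrrCharacter G ψ) : (∃ χ ∈ S,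 ψ = star χ ∨ ψ = -star χ) ↔ ∃ a ∈ K, ∃ b ∈ K, a ≠ 1 ∧ b ≠ 1 ∧ ψ a ≠ ψ b := by
  classical
  subst hS
  let H := K.subgroupOf (Subgroup.normalizer (K : Set G))
  haveI hHn : H.Normal := Subgroup.normal_in_normalizer
  have hCN : ∀ h ∈ H, h ≠ 1 → Subgroup.centralizer ({h} : Set ↥(Subgroup.normalizer (K : Set G))) ≤ H :=
    fun h hh h1 g hg => hC h hh (fun e => h1 (Subtype.ext e))
      (Subgroup.mem_centralizer_singleton_iff.2 (congrArg Subtype.val (Subgroup.mem_centralizer_singleton_iff.1 hg)))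
  have h0 : ∀ α ∈ zspan {χ : ↥(Subgroup.normalizer (K : Set G)) → ℂ | IsIrrCharacter ↥(Subgroup.normalizer (K : Set G)) χ ∧ ∃ k : ↥(Subgroup.normalizer (K : Set G)), (k : G) ∈ K ∧ χ k ≠ χ 1},
      α 1 = 0 → star α 1 = 0 := fun α hα h1 => by
    rw [hext α (mem_zspanOn_one.2 ⟨hα, h1⟩), indFun_one, h1, mul_zero]
  obtain ⟨ε, hε, hεirr, hinj⟩ := Cfsg.Agent.S1529.result _ _ (fun χ hχ => hχ.1) htwo star hstar h0
  have hd : ∀ x : IrrCharacter ↥(Subgroup.normalizer (K : Set G)), (x : ↥(Subgroup.normalizer (K : Set G)) → ℂ) 1 =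
      (charDegree (x : ↥(Subgroup.normalizer (K : Set G)) → ℂ) : ℂ) := irr_apply_one
  have hmem : ∀ x : IrrCharacter ↥(Subgroup.normalizer (K : Set G)), x ∈ onH H ↔
      (x : ↥(Subgroup.normalizer (K : Set G)) → ℂ) ∈ {χ : ↥(Subgroup.normalizer (K : Set G)) → ℂ | IsIrrCharacter ↥(Subgroup.normalizer (K : Set G)) χ ∧ ∃ k : ↥(Subgroup.normalizer (K : Set G)), (k : G) ∈ K ∧ χ k ≠ χ 1} :=
    fun x => ⟨fun h => ⟨x.2, mem_onH.1 h⟩, fun h => mem_onH.2 h.2⟩
  -- the difference `dη ξ - dξ η`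
  have hdiff : ∀ η ∈ onH H, ∀ ξ ∈ onH H, ∀ α : ↥(Subgroup.normalizer (K : Set G)) → ℂ,
      α = (charDegree (η : ↥(Subgroup.normalizer (K : Set G)) → ℂ) : ℤ) • (ξ : ↥(Subgroup.normalizer (K : Set G)) → ℂ) - (charDegree (ξ : ↥(Subgroup.normalizer (K : Set G)) → ℂ) : ℤ) • (η : ↥(Subgroup.normalizer (K : Set G)) → ℂ) →
      indFun (Subgroup.normalizer (K : Set G)) α = (charDegree (η : ↥(Subgroup.normalizer (K : Set G)) → ℂ) : ℤ) • star ξ - (charDegree (ξ : ↥(Subgroup.normalizer (K : Set G)) → ℂ) : ℤ) • star η ∧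
      (∀ x, x ∉ H → α x = 0) ∧ α 1 = 0 := by
    intro η hη ξ hξ α hα
    have hm1 := mem_zspan ((hmem η).1 hη)
    have hm2 := mem_zspan ((hmem ξ).1 hξ)
    have h1 : α 1 = 0 := by simp [hα, hd, mul_comm]
    refine ⟨?_, fun x hx => ?_, h1⟩
    · rw [← hext α (mem_zspanOn_one.2 ⟨hα ▸ zspan_sub (zspan_zsmul _ hm2) (zspan_zsmul _ hm1), h1⟩), hα,
        iso_sub hstar (zspan_zsmul _ hm2) (zspan_neg (zspan_zsmul _ hm1)) (zspan_zsmul _ hm1), hstar.2.1 _ hm2, hstar.2.1 _ hm1]
    · simp [hα, vanish H hCN η (mem_onH.1 hη) hx, vanish H hCN ξ (mem_onH.1 hξ) hx]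
  have hfrob : ∀ (Φ : G → ℂ), IsClassFunction G Φ → ∀ η ∈ onH H, ∀ ξ ∈ onH H,
      (charDegree (η : ↥(Subgroup.normalizer (K : Set G)) → ℂ) : ℂ) * classInner (fun x : ↥(Subgroup.normalizer (K : Set G)) => Φ x) (ξ : ↥(Subgroup.normalizer (K : Set G)) → ℂ) -
        (charDegree (ξ : ↥(Subgroup.normalizer (K : Set G)) → ℂ) : ℂ) * classInner (fun x : ↥(Subgroup.normalizer (K : Set G)) => Φ x) (η : ↥(Subgroup.normalizer (K : Set G)) → ℂ) =
      (charDegree (η : ↥(Subgroup.normalizer (K : Set G)) → ℂ) : ℂ) * classInner Φ (star ξ) - (charDegree (ξ : ↥(Subgroup.normalizer (K : Set G)) → ℂ) : ℂ) * classInner Φ (star η) := by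
    intro Φ hΦ η hη ξ hξ
    have h := CfsgLib.Chars.frobenius (Subgroup.normalizer (K : Set G))
      ((charDegree (η : ↥(Subgroup.normalizer (K : Set G)) → ℂ) : ℤ) • (ξ : ↥(Subgroup.normalizer (K : Set G)) → ℂ) - (charDegree (ξ : ↥(Subgroup.normalizer (K : Set G)) → ℂ) : ℤ) • (η : ↥(Subgroup.normalizer (K : Set G)) → ℂ)) hΦ
    rw [(hdiff η hη ξ hξ _ rfl).1] at h
    have h' := congrArg (starRingEnd ℂ) h
    rw [← classInner_symm, ← classInner_symm, ci_sub_right, ci_sub_right, ci_zsmul_right, ci_zsmul_right, ci_zsmul_right,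
      ci_zsmul_right] at h'
    push_cast at h'
    exact h'.symm
  have hψc : IsClassFunction G ψ := IsCharacter.isClassFunction (IsIrrCharacter.isCharacter hψ)
  have hεε : ε * ε = 1 := by rcases hε with rfl | rfl <;> norm_num
  constructor
  · rintro ⟨χ, hχ, hψχ⟩
    obtain ⟨ξ, hξ, hne⟩ : ∃ ξ : ↥(Subgroup.normalizer (K : Set G)) → ℂ, ξ ∈ {χ : ↥(Subgroup.normalizer (K : Set G)) → ℂ | IsIrrCharacter ↥(Subgroup.normalizer (K : Set G)) χ ∧ ∃ k : ↥(Subgroup.normalizer (K : Set G)), (k : G) ∈ K ∧ χ k ≠ χ 1} ∧ χ ≠ ξ := by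
      obtain ⟨a, ha, b, hb, h⟩ := htwo
      by_cases e : χ = a
      · exact ⟨b, hb, e ▸ h⟩
      · exact ⟨a, ha, e⟩
    let χ' : IrrCharacter ↥(Subgroup.normalizer (K : Set G)) := ⟨χ, hχ.1⟩
    let ξ' : IrrCharacter ↥(Subgroup.normalizer (K : Set G)) := ⟨ξ, hξ.1⟩
    have m1 : χ' ∈ onH H := mem_onH.2 hχ.2
    have m2 : ξ' ∈ onH H := mem_onH.2 hξ.2
    by_contra hno
    push Not at hno
    obtain ⟨k0, hk0, hk0ne⟩ := hχ.2
    have hk01 : k0 ≠ 1 := fun e => hk0ne (by rw [e])
    obtain ⟨hI, hv, h1⟩ := hdiff ξ' m2 χ' m1 _ rfl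
    set α : ↥(Subgroup.normalizer (K : Set G)) → ℂ := (charDegree ξ : ℤ) • χ - (charDegree χ : ℤ) • ξ with hα
    have hα0 : classInner (fun x : ↥(Subgroup.normalizer (K : Set G)) => ψ x) α = 0 := by
      have e : classInner (fun x : ↥(Subgroup.normalizer (K : Set G)) => ψ x) α = classInner (fun _ => ψ k0) α := by
        simp only [classInner]
        refine congrArg _ (Finset.sum_congr rfl fun x _ => ?_)
        by_cases hx : x ∈ H
        · by_cases hx1 : x = 1
          · subst hx1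
            have : α 1 = 0 := h1
            simp [this]
          · rw [hno x hx k0 hk0 (fun e => hx1 (Subtype.ext e)) (fun e => hk01 (Subtype.ext e))]
        · rw [show α x = 0 from hv x hx]; simp
      have hne1 : ∀ x : IrrCharacter ↥(Subgroup.normalizer (K : Set G)), x ∈ onH H →
          classInner (fun _ => (1 : ℂ)) (x : ↥(Subgroup.normalizer (K : Set G)) → ℂ) = 0 := fun x hx =>
        inner_irr_ne (isIrrCharacter_one _) x.2 fun e => by
          obtain ⟨h, -, hh⟩ := mem_onH.1 hx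
          exact hh (by rw [← e])
      rw [e, show (fun _ : ↥(Subgroup.normalizer (K : Set G)) => ψ k0) = ψ k0 • (fun _ => (1 : ℂ)) by funext x; simp,
        ci_smul_left, hα, ci_sub_right, ci_zsmul_right, ci_zsmul_right,
        show classInner (fun _ => (1 : ℂ)) χ = 0 from hne1 χ' m1, show classInner (fun _ => (1 : ℂ)) ξ = 0 from hne1 ξ' m2]
      ring
    have e2 := hfrob ψ hψc ξ' m2 χ' m1
    rw [hα, ci_sub_right, ci_zsmul_right, ci_zsmul_right] at hα0
    push_cast at hα0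
    rw [show (ξ' : ↥(Subgroup.normalizer (K : Set G)) → ℂ) = ξ from rfl, show (χ' : ↥(Subgroup.normalizer (K : Set G)) → ℂ) = χ from rfl, hα0] at e2
    have o1 : classInner (star χ) (star ξ) = 0 := by
      rw [hstar.2.2.1 _ (mem_zspan hχ) _ (mem_zspan hξ), inner_irr_ne hχ.1 hξ.1 hne]
    have o2 : classInner (star χ) (star χ) = 1 := by
      rw [hstar.2.2.1 _ (mem_zspan hχ) _ (mem_zspan hχ), inner_irr_self hχ.1]
    have hpos : (charDegree ξ : ℂ) ≠ 0 := Nat.cast_ne_zero.2 (charDegree_pos ξ').ne'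
    rcases hψχ with rfl | rfl
    · rw [o1, o2] at e2; exact hpos (by linear_combination -e2)
    · rw [ci_neg_left, ci_neg_left, o1, o2] at e2; exact hpos (by linear_combination e2)
  · rintro ⟨a, ha, b, hb, ha1, hb1, hne⟩
    by_contra hno
    push Not at hno
    have hzero : ∀ ξ ∈ onH H, classInner ψ (star ξ) = 0 := by
      intro ξ hξ
      have hs := hεirr _ ((hmem ξ).1 hξ)
      have hne' : ψ ≠ ε • star ξ := fun e => by
        obtain ⟨n1, n2⟩ := hno _ ((hmem ξ).1 hξ)
        rcases hε with rfl | rfl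
        · exact n1 (by rw [e, one_smul])
        · exact n2 (by rw [e, neg_one_smul])
      have := inner_irr_ne hψ hs hne'
      rw [ci_smul_right, mul_eq_zero] at this
      exact this.resolve_left (fun h => by
        rcases hε with rfl | rfl <;> simp at h)
    obtain ⟨η0, hη0, -⟩ := htwo
    let η : IrrCharacter ↥(Subgroup.normalizer (K : Set G)) := ⟨η0, hη0.1⟩
    have hη : η ∈ onH H := mem_onH.2 hη0.2
    have hval : ∀ x (hx : x ∈ K), x ≠ 1 →
        (charDegree η0 : ℂ) * ψ x = (charDegree η0 : ℂ) * (∑ ξ ∈ (onH H)ᶜ, classInner (fun y : ↥(Subgroup.normalizer (K : Set G)) => ψ y) (ξ : ↥(Subgroup.normalizer (K : Set G)) → ℂ) * (charDegree (ξ : ↥(Subgroup.normalizer (K : Set G)) → ℂ) : ℂ)) -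
          classInner (fun y : ↥(Subgroup.normalizer (K : Set G)) => ψ y) η0 * ((∑ ξ ∈ (onH H)ᶜ, charDegree (ξ : ↥(Subgroup.normalizer (K : Set G)) → ℂ) ^ 2 : ℕ) : ℂ) := by
      intro x hx hx1
      have hxN : x ∈ Subgroup.normalizer (K : Set G) := Subgroup.le_normalizer hx
      refine value_eq (φ := fun y : ↥(Subgroup.normalizer (K : Set G)) => ψ y) (η := η) (fun g h => hψc g h) (fun ξ hξ => ?_)
        (k := ⟨x, hxN⟩) hx (fun e => hx1 (congrArg Subtype.val e))
      have := hfrob ψ hψc η hη ξ hξ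
      rw [hzero η hη, hzero ξ hξ] at this
      linear_combination this
    exact hne (mul_left_cancel₀ (Nat.cast_ne_zero.2 (charDegree_pos η).ne') ((hval a ha ha1).trans (hval b hb hb1).symm))

end Cfsg.Agent.S0852
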