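import Cfsg.Statements.S0853
import Mathlib
import Cfsg.Agent.Lib.FrobeniusCoherent
import Cfsg.Agent.S1529

set_option autoImplicit false
open Cfsg

open Cfsg CfsgLib.Chars CfsgLib.Virtual CfsgLib.Coherence CfsgLib.FrobeniusCoherent

namespace Cfsg.Agent.S0853

/-- Let K be a subgroup of the finite group G that meets each conjugate by an element outside its normalizer N trivially, is properly contained in N, and contains the centralizer of each of its non-identity elements (a T.I. subgroup with Frobenius normalizer). Let S be the set of irreducible characters of N taking at some element of K a value different from their degree, suppose S has at least two members, and let star be a linear isometry on the integer span of S into the generalized characters of G that agrees with induction on the members vanishing at the identity (so S is coherent, with star as the extending isometry). Then there is a single integer m such that star χ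 k - χ k = m * χ 1 / e for every χ in S and every non-identity element k of K, where e is the index of K in N. -/
theorem result {G : Type*} [Group G] [Fintype G] (K : Subgroup G) (hTI : ∀ g : G, g ∉ Subgroup.normalizer (K : Set G) → ∀ k ∈ K, g * k * g⁻¹ ∈ K → k = 1) (hlt : K < Subgroup.normalizer (K : Set G)) (hC : ∀ k ∈ K, k ≠ 1 → Subgroup.centralizer ({k} : Set G) ≤ K) [Fintype ↥(Subgroup.normalizer (K : Set G))] (S : Set (↥(Subgroup.normalizer (K : Set G)) → ℂ)) (hS : S = {χ : ↥(Subgroup.normalizer (K : Set G)) → ℂ | Cfsg.IsIrrCharacter ↥(Subgroup.normalizer (K : Set G)) χ ∧ ∃ k : ↥(Subgroup.normalizer (K : Set G)), (k : G) ∈ K ∧ χ k ≠ χ 1}) (htwo : ∃ χ ∈ S, ∃ ξ ∈ S, χ ≠ ξ) (star : (↥(Subgroup.normalizer (K : Set G)) → ℂ) → (G → ℂ)) (hstar : Cfsg.IsLinearIsometryOn (Cfsg.zspan S) star) (hext : ∀ α ∈ Cfsg.zspanOn S ({1}ᶜ : Set ↥(Subgroup.normalizer (K : Set G))), star α = Cfsg.indFun (Subgroup.normalizer (K : Set G)) α) : ∃ m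 : ℤ, ∀ χ ∈ S, ∀ k : ↥(Subgroup.normalizer (K : Set G)), (k : G) ∈ K → k ≠ 1 → star χ k - χ k = (m : ℂ) * χ 1 / ((K.subgroupOf (Subgroup.normalizer (K : Set G))).index : ℂ) := by
  classical
  subst hS
  let H := K.subgroupOf (Subgroup.normalizer (K : Set G))
  haveI hHn : H.Normal := Subgroup.normal_in_normalizer
  have hCN : ∀ h ∈ H, h ≠ 1 → Subgroup.centralizer ({h} : Set ↥(Subgroup.normalizer (K : Set G))) ≤ H :=
    fun h hh h1 g hg => hC h hh (fun e => h1 (Subtype.ext e))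
      (Subgroup.mem_centralizer_singleton_iff.2 (congrArg Subtype.val (Subgroup.mem_centralizer_singleton_iff.1 hg)))
  have h0 : ∀ α ∈ zspan {χ : ↥(Subgroup.normalizer (K : Set G)) → ℂ | IsIrrCharacter ↥(Subgroup.normalizer (K : Set G)) χ ∧ ∃ k : ↥(Subgroup.normalizer (K : Set G)), (k : G) ∈ K ∧ χ k ≠ χ 1},
      α 1 = 0 → star α 1 = 0 := fun α hα h1 => by
    rw [hext α (mem_zspanOn_one.2 ⟨hα, h1⟩), indFun_one, h1, mul_zero]
  obtain ⟨ε, hε, hεirr, hinj⟩ := Cfsg.Agent.S1529.result _ _ (fun χ hχ => hχ.1) htwo star hstar h0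
  have hd : ∀ x : IrrCharacter ↥(Subgroup.normalizer (K : Set G)), (x : ↥(Subgroup.normalizer (K : Set G)) → ℂ) 1 =
      (charDegree (x : ↥(Subgroup.normalizer (K : Set G)) → ℂ) : ℂ) := irr_apply_one
  have hmem : ∀ x : IrrCharacter ↥(Subgroup.normalizer (K : Set G)), x ∈ onH H ↔
      (x : ↥(Subgroup.normalizer (K : Set G)) → ℂ) ∈ {χ : ↥(Subgroup.normalizer (K : Set G)) → ℂ | IsIrrCharacter ↥(Subgroup.normalizer (K : Set G)) χ ∧ ∃ k : ↥(Subgroup.normalizer (K : Set G)), (k : G) ∈ K ∧ χ k ≠ χ 1} :=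
    fun x => ⟨fun h => ⟨x.2, mem_onH.1 h⟩, fun h => mem_onH.2 h.2⟩
  -- the difference `dη ξ - dξ η`
  have hdiff : ∀ η ∈ onH H, ∀ ξ ∈ onH H, ∀ α : ↥(Subgroup.normalizer (K : Set G)) → ℂ,
      α = (charDegree (η : ↥(Subgroup.normalizer (K : Set G)) → ℂ) : ℤ) • (ξ : ↥(Subgroup.normalizer (K : Set G)) → ℂ) - (charDegree (ξ : ↥(Subgroup.normalizer (K : Set G)) → ℂ) : ℤ) • (η : ↥(Subgroup.normalizer (K : Set G)) → ℂ) →
      indFun (Subgroup.normalizer (K : Set G)) α = (charDegree (η : ↥(Subgroup.normalizer (K : Set G)) → ℂ) : ℤ) • star ξ - (charDegree (ξ : ↥(Subgroup.normalizer (K : Set G)) → ℂ) : ℤ) • star η ∧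
      (∀ x, x ∉ H → α x = 0) ∧ α 1 = 0 := by
    intro η hη ξ hξ α hα
    have hm1 := mem_zspan ((hmem η).1 hη)
    have hm2 := mem_zspan ((hmem ξ).1 hξ)
    have h1 : α 1 = 0 := by simp [hα, hd, mul_comm]
    refine ⟨?_, fun x hx => ?_, h1⟩
    · rw [← hext α (mem_zspanOn_one.2 ⟨hα ▸ zspan_sub (zspan_zsmul _ hm2) (zspan_zsmul _ hm1), h1⟩), hα,
        iso_sub hstar (zspan_zsmul _ hm2) (zspan_neg (zspan_zsmul _ hm1)) (zspan_zsmul _ hm1), hstar.2.1 _ hm2, hstar.2.1 _ hm1]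
    · simp [hα, vanish H hCN η (mem_onH.1 hη) hx, vanish H hCN ξ (mem_onH.1 hξ) hx]
  have hfrob : ∀ (Φ : G → ℂ), IsClassFunction G Φ → ∀ η ∈ onH H, ∀ ξ ∈ onH H,
      (charDegree (η : ↥(Subgroup.normalizer (K : Set G)) → ℂ) : ℂ) * classInner (fun x : ↥(Subgroup.normalizer (K : Set G)) => Φ x) (ξ : ↥(Subgroup.normalizer (K : Set G)) → ℂ) -
        (charDegree (ξ : ↥(Subgroup.normalizer (K : Set G)) → ℂ) : ℂ) * classInner (fun x : ↥(Subgroup.normalizer (K : Set G)) => Φ x) (η : ↥(Subgroup.normalizer (K : Set G)) → ℂ) =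
      (charDegree (η : ↥(Subgroup.normalizer (K : Set G)) → ℂ) : ℂ) * classInner Φ (star ξ) - (charDegree (ξ : ↥(Subgroup.normalizer (K : Set G)) → ℂ) : ℂ) * classInner Φ (star η) := by
    intro Φ hΦ η hη ξ hξ
    have h := CfsgLib.Chars.frobenius (Subgroup.normalizer (K : Set G))
      ((charDegree (η : ↥(Subgroup.normalizer (K : Set G)) → ℂ) : ℤ) • (ξ : ↥(Subgroup.normalizer (K : Set G)) → ℂ) - (charDegree (ξ : ↥(Subgroup.normalizer (K : Set G)) → ℂ) : ℤ) • (η : ↥(Subgroup.normalizer (K : Set G)) → ℂ)) hΦ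
    rw [(hdiff η hη ξ hξ _ rfl).1] at h
    have h' := congrArg (starRingEnd ℂ) h
    rw [← classInner_symm, ← classInner_symm, ci_sub_right, ci_sub_right, ci_zsmul_right, ci_zsmul_right, ci_zsmul_right,
      ci_zsmul_right] at h'
    push_cast at h'
    exact h'.symm
  have hTI' : ∀ g : G, g ∉ Subgroup.normalizer (K : Set G) → ∀ t ∈ (K : Set G), g * t * g⁻¹ ∈ (K : Set G) → t = 1 := hTI
  have hstar_int : ∀ χ ∈ onH H, ∀ g : G, IsIntegral ℤ (star χ g) := fun χ hχ g => by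
    have h := IsCharacter.isIntegral (IsIrrCharacter.isCharacter (hεirr _ ((hmem χ).1 hχ))) g
    rcases hε with rfl | rfl
    · simpa using h
    · simpa using h
  have key : ∀ χ ∈ onH H, ∃ b : ℤ, ∀ k : ↥(Subgroup.normalizer (K : Set G)), k ∈ H → k ≠ 1 →
      star χ k - (χ : ↥(Subgroup.normalizer (K : Set G)) → ℂ) k = b := by
    intro χ hχ
    obtain ⟨k0, hk0, hk0ne⟩ := mem_onH.1 hχ
    have hk01 : k0 ≠ 1 := fun e => hk0ne (by rw [e])
    set φ : ↥(Subgroup.normalizer (K : Set G)) → ℂ := (fun y : ↥(Subgroup.normalizer (K : Set G)) => star χ y) - (χ : ↥(Subgroup.normalizer (K : Set G)) → ℂ) with hφ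
    have hsc : IsClassFunction G (star χ) := genChar_classFun (hstar.2.2.2 _ (mem_zspan ((hmem χ).1 hχ)))
    have hφc : IsClassFunction _ φ := fun g h => by
      simp only [hφ, Pi.sub_apply]
      rw [IsCharacter.isClassFunction (isCharacter_irr χ) g h]
      exact congrArg (· - _) (hsc g h)
    have hprop : ∀ ξ ∈ onH H, (charDegree (χ : ↥(Subgroup.normalizer (K : Set G)) → ℂ) : ℂ) * classInner φ (ξ : ↥(Subgroup.normalizer (K : Set G)) → ℂ) =
        (charDegree (ξ : ↥(Subgroup.normalizer (K : Set G)) → ℂ) : ℂ) * classInner φ (χ : ↥(Subgroup.normalizer (K : Set G)) → ℂ) := by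
      intro ξ hξ
      have h := hfrob _ hsc χ hχ ξ hξ
      rw [hstar.2.2.1 _ (mem_zspan ((hmem χ).1 hχ)) _ (mem_zspan ((hmem ξ).1 hξ)),
        hstar.2.2.1 _ (mem_zspan ((hmem χ).1 hχ)) _ (mem_zspan ((hmem χ).1 hχ))] at h
      rw [hφ, ci_sub_left, ci_sub_left]
      linear_combination h
    obtain ⟨n, m, -, hnm⟩ : ∃ n m : ℤ, m ≠ 0 ∧ ∀ k : ↥(Subgroup.normalizer (K : Set G)), k ∈ H → k ≠ 1 → φ k = (n : ℂ) / m := by
      obtain ⟨a, b, ha, hb, hab⟩ := hstar.2.2.2 _ (mem_zspan ((hmem χ).1 hχ))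
      have hint : ∀ ξ : IrrCharacter ↥(Subgroup.normalizer (K : Set G)), ∃ z : ℤ, classInner φ (ξ : ↥(Subgroup.normalizer (K : Set G)) → ℂ) = (z : ℂ) := by
        intro ξ
        refine int_inner ?_ (genChar_of_char (isCharacter_irr ξ))
        refine genChar_sub ⟨_, _, IsCharacter.restrict ha (Subgroup.normalizer (K : Set G)),
          IsCharacter.restrict hb (Subgroup.normalizer (K : Set G)), ?_⟩ (genChar_of_char (isCharacter_irr χ))
        funext y; simp [hab]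
      choose z hz using hint
      refine ⟨(charDegree (χ : ↥(Subgroup.normalizer (K : Set G)) → ℂ) : ℤ) * (∑ ξ ∈ (onH H)ᶜ, z ξ * (charDegree (ξ : ↥(Subgroup.normalizer (K : Set G)) → ℂ) : ℤ)) -
        z χ * ((∑ ξ ∈ (onH H)ᶜ, charDegree (ξ : ↥(Subgroup.normalizer (K : Set G)) → ℂ) ^ 2 : ℕ) : ℤ),
        (charDegree (χ : ↥(Subgroup.normalizer (K : Set G)) → ℂ) : ℤ), Int.natCast_ne_zero.2 (charDegree_pos χ).ne', fun k hk hk1 => ?_⟩
      have hv := value_eq hφc hprop hk hk1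
      simp only [hz] at hv
      rw [eq_div_iff (by exact_mod_cast (Int.natCast_ne_zero.2 (charDegree_pos χ).ne'))]
      push_cast at hv ⊢
      linear_combination hv
    obtain ⟨b, hb⟩ : ∃ b : ℤ, ((n : ℚ) / m) = b := by
      have h : IsIntegral ℤ (((n : ℚ) / m : ℚ) : ℂ) := by
        push_cast
        rw [← hnm k0 hk0 hk01, hφ, Pi.sub_apply]
        exact (hstar_int χ hχ _).sub (IsCharacter.isIntegral (isCharacter_irr χ) _)
      have h2 : IsIntegral ℤ ((n : ℚ) / m) :=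
        (isIntegral_algebraMap_iff (algebraMap ℚ ℂ).injective).mp (by rwa [eq_ratCast])
      obtain ⟨z, hz⟩ := IsIntegrallyClosed.isIntegral_iff.mp h2
      exact ⟨z, by simpa using hz.symm⟩
    refine ⟨b, fun k hk hk1 => ?_⟩
    have h3 : φ k = (((n : ℚ) / m : ℚ) : ℂ) := by rw [hnm k hk hk1]; push_cast; rfl
    rw [hb] at h3
    rw [show star χ k - (χ : ↥(Subgroup.normalizer (K : Set G)) → ℂ) k = φ k from rfl, h3]
    push_cast; rfl
  choose! b hb using key
  obtain ⟨χ0', hχ0', -⟩ := htwo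
  let χ0 : IrrCharacter ↥(Subgroup.normalizer (K : Set G)) := ⟨χ0', hχ0'.1⟩
  have hχ0 : χ0 ∈ onH H := mem_onH.2 hχ0'.2
  obtain ⟨k0, hk0, hk0ne⟩ := mem_onH.1 hχ0
  have hk01 : k0 ≠ 1 := fun e => hk0ne (by rw [e])
  have hcross : ∀ ξ ∈ onH H, (charDegree (χ0 : ↥(Subgroup.normalizer (K : Set G)) → ℂ) : ℤ) * b ξ = (charDegree (ξ : ↥(Subgroup.normalizer (K : Set G)) → ℂ) : ℤ) * b χ0 := by
    intro ξ hξ
    obtain ⟨hI, hv, h1⟩ := hdiff χ0 hχ0 ξ hξ _ rfl
    have hcl : IsClassFunction _ ((charDegree (χ0 : ↥(Subgroup.normalizer (K : Set G)) → ℂ) : ℤ) • (ξ : ↥(Subgroup.normalizer (K : Set G)) → ℂ) -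
        (charDegree (ξ : ↥(Subgroup.normalizer (K : Set G)) → ℂ) : ℤ) • (χ0 : ↥(Subgroup.normalizer (K : Set G)) → ℂ)) :=
      genChar_classFun (genChar_sub (genChar_zsmul (genChar_of_char (isCharacter_irr ξ)) _) (genChar_zsmul (genChar_of_char (isCharacter_irr χ0)) _))
    have h := CfsgLib.TIInduce.indFun_eq (Subgroup.normalizer (K : Set G)) (K : Set G) hTI' _ hcl (fun x hx => hv x hx) k0 hk0
      (fun e => hk01 (Subtype.ext e))
    rw [hI] at h
    simp only [Pi.sub_apply, Pi.smul_apply, zsmul_eq_mul, Pi.mul_apply, Pi.intCast_apply, Int.cast_natCast, Pi.natCast_apply] at h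
    have e1 := hb χ0 hχ0 k0 hk0 hk01
    have e2 := hb ξ hξ k0 hk0 hk01
    have : (((charDegree (χ0 : ↥(Subgroup.normalizer (K : Set G)) → ℂ) : ℤ) * b ξ : ℤ) : ℂ) = (((charDegree (ξ : ↥(Subgroup.normalizer (K : Set G)) → ℂ) : ℤ) * b χ0 : ℤ) : ℂ) := by
      push_cast
      linear_combination h - (charDegree (χ0 : ↥(Subgroup.normalizer (K : Set G)) → ℂ) : ℂ) * e2 + (charDegree (ξ : ↥(Subgroup.normalizer (K : Set G)) → ℂ) : ℂ) * e1
    exact_mod_cast this
  obtain ⟨m, hm⟩ : (charDegree (χ0 : ↥(Subgroup.normalizer (K : Set G)) → ℂ) : ℤ) ∣ b χ0 * (H.index : ℤ) := by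
    set d := charDegree (χ0 : ↥(Subgroup.normalizer (K : Set G)) → ℂ) with hd'
    set g := Nat.gcd d (b χ0).natAbs with hg
    have hd0 : 0 < d := charDegree_pos χ0
    have hg0 : 0 < g := Nat.gcd_pos_of_pos_left _ hd0
    have hall : ∀ ξ ∈ onH H, d / g ∣ charDegree (ξ : ↥(Subgroup.normalizer (K : Set G)) → ℂ) := by
      intro ξ hξ
      have h : d ∣ charDegree (ξ : ↥(Subgroup.normalizer (K : Set G)) → ℂ) * (b χ0).natAbs := by
        have := congrArg Int.natAbs (hcross ξ hξ)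
        rw [Int.natAbs_mul, Int.natAbs_mul, Int.natAbs_natCast, Int.natAbs_natCast] at this
        exact ⟨_, this.symm⟩
      have hco := Nat.coprime_div_gcd_div_gcd (m := d) (n := (b χ0).natAbs) hg0
      refine hco.dvd_of_dvd_mul_right (Nat.dvd_of_mul_dvd_mul_left hg0 ?_)
      rw [Nat.mul_div_cancel' (Nat.gcd_dvd_left _ _), mul_left_comm, Nat.mul_div_cancel' (Nat.gcd_dvd_right _ _)]
      exact h
    have hn := dvd_index H hCN (d / g) hall ⟨χ0, hχ0⟩
    refine Int.natCast_dvd.2 ?_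
    rw [Int.natAbs_mul, Int.natAbs_natCast]
    calc d = g * (d / g) := (Nat.mul_div_cancel' (Nat.gcd_dvd_left _ _)).symm
      _ ∣ (b χ0).natAbs * H.index := Nat.mul_dvd_mul (Nat.gcd_dvd_right _ _) hn
  refine ⟨m, fun χ hχ k hk hk1 => ?_⟩
  let χ' : IrrCharacter ↥(Subgroup.normalizer (K : Set G)) := ⟨χ, hχ.1⟩
  have hχ' : χ' ∈ onH H := mem_onH.2 hχ.2
  have e1 := hb χ' hχ' k hk hk1
  rw [show (χ' : ↥(Subgroup.normalizer (K : Set G)) → ℂ) = χ from rfl] at e1
  have hidx : ((K.subgroupOf (Subgroup.normalizer (K : Set G))).index : ℂ) ≠ 0 := Nat.cast_ne_zero.2 H.index_ne_zero_of_finite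
  rw [e1, show χ 1 = _ from hd χ', eq_div_iff hidx]
  have h0' : (charDegree (χ0 : ↥(Subgroup.normalizer (K : Set G)) → ℂ) : ℤ) ≠ 0 := Int.natCast_ne_zero.2 (charDegree_pos χ0).ne'
  have h2 : b χ' * (H.index : ℤ) = m * (charDegree (χ' : ↥(Subgroup.normalizer (K : Set G)) → ℂ) : ℤ) := by
    refine mul_left_cancel₀ h0' ?_
    linear_combination (H.index : ℤ) * hcross χ' hχ' + (charDegree (χ' : ↥(Subgroup.normalizer (K : Set G)) → ℂ) : ℤ) * hm
  exact_mod_cast h2

end Cfsg.Agent.S0853
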