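import Cfsg.Statements.S5251
import Cfsg.Agent.Lib.Fusion.WeaklyNormalFacts
import Cfsg.Agent.Lib.Fusion.ConstrainedNormal

set_option autoImplicit false
open Cfsg

namespace Cfsg.Agent.S5251

open CfsgLib.Fusion Cfsg.FusionSystem
/-- Let F be a saturated fusion system over a finite p-group S, E a normal subsystem of F over T, and P an F-centric subgroup of S such that P ∩ T is not E-centric. Then some F-conjugate P* of P satisfies Out_S(P*) ∩ O_p(Out_F(P*)) ≠ 1: there is an element of N_S(P*) outside P* whose conjugation action on P* lies in O_p(Aut_F(P*)). In particular P is not both centric and radical in F. -/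
theorem result {Ω : Type*} [Group Ω] {S : Subgroup Ω} [Finite S] (p : ℕ) [Fact p.Prime] (hS : IsPGroup p S) (F : Cfsg.FusionSystem S) (hF : F.IsSaturated p) {T : Subgroup Ω} (E : Cfsg.FusionSystem T) (hE : E.IsNormalIn F p) (P : Subgroup Ω) (hP : F.IsCentric P) (hPT : ¬ E.IsCentric (P ⊓ T)) : (∃ φ ∈ F.Hom P, ∃ x ∈ S ⊓ Subgroup.normalizer (φ.range : Set Ω), x ∉ φ.range ∧ ∃ α ∈ ((Cfsg.pCore p ↥(F.autGroup φ.range)).map (F.autGroup φ.range).subtype : Subgroup (MulAut ↥φ.range)), ∀ y : ↥φ.range, ((α y : ↥φ.range) : Ω) = x * (y : Ω) * x⁻¹) ∧ ¬ F.IsRadical p P := by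
  obtain ⟨⟨hEs, -, hsub, hT, -, -⟩, -⟩ := hE
  have hTS := hT.1
  have hTn := StronglyClosed.normal hT
  have hPS := hP.1
  haveI := finite_of_le hTS
  have hR₁S : P ⊓ T ≤ S := inf_le_right.trans hTS
  obtain ⟨R, hR₁R, hR⟩ := exists_fullyNormalized F hR₁S
  obtain ⟨χ, hχ, hχN, hχR, hχs⟩ := exists_map_normalizer p hS (fullyNormalized_automized p hS hF hR)
    (fullyNormalized_receptive p hS hF hR) hR₁R
  have hPN : P ≤ normalizerIn S (P ⊓ T) := fun x hx => by
    refine ⟨hPS hx, mem_normalizer_iff_cj.mpr ?_⟩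
    haveI := finite_of_le hR₁S
    refine Subgroup.eq_of_le_of_card_ge (cj_le_iff.mpr fun y hy => ⟨?_, ?_⟩) (by rw [card_cj])
    · exact P.mul_mem (P.mul_mem hx hy.1) (P.inv_mem hx)
    · exact conj_mem_of_normalizer (hTn (hPS hx)) hy.2
  set φ : ↥P →* Ω := χ.comp (Subgroup.inclusion hPN)
  have hφ : φ ∈ F.Hom P := restrict_mem hχ hPN
  set P' := φ.range with hP'
  have hP'S : P' ≤ S := range_le_S hφ
  haveI := finite_of_le hP'S
  haveI := finite_aut_of_le hP'S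
  have hPP' : F.IsConj P P' := ⟨φ, hφ, rfl⟩
  have hRP : R = P' ⊓ T := by
    refine le_antisymm (fun y hy => ?_) ?_
    · obtain ⟨x, hx, rfl⟩ := hχs y hy
      exact ⟨⟨⟨(x : Ω), x.2.1⟩, rfl⟩, apply_mem_closed hT hχ _ x.2.2⟩
    · rintro _ ⟨⟨x, rfl⟩, hxT⟩
      have hx : (x : Ω) ∈ T := by
        obtain ⟨ψ, hψ, hψe⟩ := F.inv_mem hφ
        have h1 := apply_mem_closed hT hψ ⟨φ x, x, rfl⟩ hxT
        rwa [hψe] at h1
      exact hχR ⟨x, x.2, hx⟩ (hPN x.2)
  have hRT : R ≤ T := hRP.le.trans inf_le_right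
  have hRE : E.IsFullyNormalized R := fullyNormalized_of_closed hS hF hT hsub hRT hR
  have hTp := hS.to_le hTS
  have hnc : ¬ centralizerIn T R ≤ R := by
    intro hC
    refine hPT ⟨inf_le_right, fun Q hQ => ?_⟩
    -- every conjugate in `E` is a conjugate of `R` in `F`
    obtain ⟨θ, hθ, rfl⟩ := hQ
    have hconj : F.IsConj θ.range R := CfsgLib.Fusion.IsConj.trans (CfsgLib.Fusion.IsConj.symm (⟨θ, hsub _ hθ, rfl⟩ : F.IsConj (P ⊓ T) θ.range)) hR₁R
    obtain ⟨ξ, hξ, -, hξQ, -⟩ := exists_map_normalizer p hS (fullyNormalized_automized p hS hF hR)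
      (fullyNormalized_receptive p hS hF hR) hconj
    intro c hc
    have hcN : c ∈ normalizerIn S θ.range :=
      ⟨hTS hc.1, Subgroup.centralizer_le_normalizer _ hc.2⟩
    have hQN : θ.range ≤ normalizerIn S θ.range := le_inf (range_le_S (hsub _ hθ)) Subgroup.le_normalizer
    have hξc : ξ ⟨c, hcN⟩ ∈ centralizerIn T R := by
      refine ⟨apply_mem_closed hT hξ _ hc.1, Subgroup.mem_centralizer_iff.mpr fun r hr => ?_⟩
      obtain ⟨q, hq, rfl⟩ : ∃ (q : ↥θ.range) (hq : (q : Ω) ∈ normalizerIn S θ.range), ξ ⟨q, hq⟩ = r := by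
        have hsurj : ∃ (q : ↥θ.range), ξ ⟨q, hQN q.2⟩ = r := by
          haveI := finite_of_le (hRT.trans hTS)
          haveI := finite_of_le (range_le_S (hsub _ hθ))
          let f : ↥θ.range → ↥R := fun q => ⟨ξ ⟨q, hQN q.2⟩, hξQ q (hQN q.2)⟩
          have hf : Function.Injective f := fun a b hab =>
            Subgroup.inclusion_injective hQN (F.injective_of_mem hξ (congrArg Subtype.val hab :))
          obtain ⟨q, hq⟩ := ((Nat.bijective_iff_injective_and_card f).mpr ⟨hf, IsConj.card_eq hconj⟩).2 ⟨r, hr⟩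
          exact ⟨q, congrArg Subtype.val hq⟩
        obtain ⟨q, hq⟩ := hsurj
        exact ⟨q, hQN q.2, hq⟩
      rw [← map_mul, ← map_mul]
      exact congrArg ξ (Subtype.ext (Subgroup.mem_centralizer_iff.mp hc.2 q q.2))
    haveI := finite_of_le (range_le_S (hsub _ hθ))
    haveI := finite_of_le (hRT.trans hTS)
    let f : ↥θ.range → ↥R := fun q => ⟨ξ ⟨q, hQN q.2⟩, hξQ q (hQN q.2)⟩
    have hf : Function.Injective f := fun a b hab =>
      Subgroup.inclusion_injective hQN (F.injective_of_mem hξ (congrArg Subtype.val hab :))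
    obtain ⟨q, hq⟩ := ((Nat.bijective_iff_injective_and_card f).mpr ⟨hf, IsConj.card_eq hconj⟩).2 ⟨_, hC hξc⟩
    have := F.injective_of_mem hξ (congrArg Subtype.val hq :)
    rw [← show (q : Ω) = c from congrArg Subtype.val this]
    exact q.2
  -- an element of `C_T(R)` normalizing `P'`
  set C := centralizerIn T R
  have hP'C : P' ≤ Subgroup.normalizer (C : Set Ω) := fun y hy => by
    haveI : Finite ↥C := finite_of_le (inf_le_left.trans hTS)
    refine mem_normalizer_iff_cj.mpr (Subgroup.eq_of_le_of_card_ge (cj_le_iff.mpr fun c hc => ⟨?_, ?_⟩) (by rw [card_cj]))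
    · exact conj_mem_of_normalizer (hTn (hP'S hy)) hc.1
    · refine Subgroup.mem_centralizer_iff.mpr fun r hr => ?_
      have hr' : y⁻¹ * r * y⁻¹⁻¹ ∈ R := by
        rw [hRP] at hr ⊢
        exact ⟨P'.mul_mem (P'.mul_mem (P'.inv_mem hy) hr.1) (P'.inv_mem (P'.inv_mem hy)),
          conj_mem_of_normalizer (hTn (S.inv_mem (hP'S hy))) hr.2⟩
      have h := Subgroup.mem_centralizer_iff.mp hc.2 _ hr'
      calc r * (y * c * y⁻¹) = y * ((y⁻¹ * r * y⁻¹⁻¹) * c) * y⁻¹ := by group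
        _ = y * c * y⁻¹ * r := by rw [h]; group
  obtain ⟨x, hxC, hxN, hxP⟩ : ∃ x ∈ C, x ∈ Subgroup.normalizer (P' : Set Ω) ∧ x ∉ P' := by
    have hlt : P' < P' ⊔ C := by
      refine lt_of_le_of_ne le_sup_left fun h => hnc fun c hc => ?_
      rw [hRP]
      exact ⟨h.ge (Subgroup.mem_sup_right hc), hc.1⟩
    haveI : Finite ↥(P' ⊔ C) := finite_of_le (sup_le hP'S (inf_le_left.trans hTS))
    obtain ⟨g, hgN, hgP⟩ := SetLike.exists_of_lt
      (lt_normalizerIn (S := P' ⊔ C) p (hS.to_le (sup_le hP'S (inf_le_left.trans hTS))) hlt)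
    have hg' : g ∈ ((P' ⊔ C : Subgroup Ω) : Set Ω) := hgN.1
    rw [Subgroup.coe_mul_of_left_le_normalizer_right P' C hP'C] at hg'
    obtain ⟨y, hy, c, hc, rfl⟩ := hg'
    refine ⟨c, hc, ?_, fun h => hgP (P'.mul_mem hy h)⟩
    simpa using Subgroup.mul_mem _ (Subgroup.inv_mem _ (Subgroup.le_normalizer hy : y ∈ Subgroup.normalizer (P' : Set Ω))) hgN.2
  set A := F.autGroup P'
  have hxS : x ∈ S := hTS hxC.1
  set α : MulAut ↥P' := P'.normalizerMonoidHom ⟨x, hxN⟩
  have hαA : α ∈ A := autInducedBy_le_autGroup F hP'S ((mem_autInducedBy _).mpr ⟨x, hxS, fun y => rfl⟩)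
  have hinv : ∀ a : ↥A, ∀ y : ↥P', (y : Ω) ∈ T → (((a : MulAut ↥P') y : ↥P') : Ω) ∈ T := fun a y hy =>
    apply_mem_closed hT ((autGroup_carrier F hP'S _).mp a.2) y hy
  let D : ℕ → Subgroup ↥P' := fun i => match i with
    | 0 => ⊤
    | 1 => T.subgroupOf P'
    | _ => ⊥
  have hD : ∀ a : ↥A, ∀ i, ∀ y ∈ D i, (a : MulAut ↥P') y ∈ D i := by
    intro a i y hy
    match i with
    | 0 => exact Subgroup.mem_top _
    | 1 => exact Subgroup.mem_subgroupOf.mpr (hinv a y (Subgroup.mem_subgroupOf.mp hy))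
    | _ + 2 => rw [Subgroup.mem_bot.mp hy, map_one]; exact Subgroup.one_mem _
  let K : Subgroup ↥A :=
    { carrier := {a | ∀ i, ∀ y ∈ D i, y⁻¹ * (a : MulAut ↥P') y ∈ D (i + 1)}
      one_mem' := fun i y _ => by simp
      mul_mem' := by
        intro a b ha hb i y hy
        have := Subgroup.mul_mem _ (hb i y hy) (ha i _ (hD b i y hy))
        simpa [mul_assoc] using this
      inv_mem' := by
        intro a ha i y hy
        have h := Subgroup.inv_mem _ (ha i _ (hD a⁻¹ i y hy))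
        simpa using h }
  haveI : K.Normal := ⟨fun a ha g i y hy => by
    have h := hD g (i + 1) _ (ha i _ (hD g⁻¹ i y hy))
    simpa using h⟩
  have hKp : IsPGroup p ↥K := by
    have h : IsPGroup p ↥(K.map A.subtype) :=
      isPGroup_of_stabilizes (hS.to_le hP'S) D 2 rfl rfl _ (by rintro _ ⟨a, ha, rfl⟩ i y hy; exact ha i y hy)
    exact h.of_equiv (K.equivMapOfInjective _ (Subgroup.subtype_injective _)).symm
  have hαK : (⟨α, hαA⟩ : ↥A) ∈ K := by
    intro i y hy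
    match i with
    | 0 =>
      refine Subgroup.mem_subgroupOf.mpr ?_
      show (y : Ω)⁻¹ * (x * y * x⁻¹) ∈ T
      rw [show (y : Ω)⁻¹ * (x * y * x⁻¹) = (y : Ω)⁻¹ * x * ((y : Ω)⁻¹)⁻¹ * x⁻¹ by group]
      exact T.mul_mem (conj_mem_of_normalizer (hTn (S.inv_mem (hP'S y.2))) hxC.1) (T.inv_mem hxC.1)
    | 1 =>
      refine Subgroup.mem_bot.mpr ?_
      have hyR : (y : Ω) ∈ R := by rw [hRP]; exact ⟨y.2, Subgroup.mem_subgroupOf.mp hy⟩
      have hfix : α y = y := Subtype.ext (by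
        show x * (y : Ω) * x⁻¹ = y
        rw [← Subgroup.mem_centralizer_iff.mp hxC.2 y hyR, mul_inv_cancel_right])
      show y⁻¹ * α y = 1
      rw [hfix, inv_mul_cancel]
    | _ + 2 => rw [Subgroup.mem_bot.mp hy, map_one]; simp
  have hαC := CfsgLib.Core.le_pCore (inferInstance : K.Normal) hKp hαK
  refine ⟨⟨φ, hφ, x, ⟨hxS, hxN⟩, hxP, α, ⟨⟨α, hαA⟩, hαC, rfl⟩, fun y => rfl⟩, ?_⟩
  rintro ⟨-, hrad⟩
  haveI := finite_of_le hPS
  haveI := finite_aut_of_le hPS
  set e : ↥P ≃* ↥P' := isoOfMem hφ rfl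
  have he : P'.subtype.comp e.toMonoidHom ∈ F.Hom P := by
    rw [show e.toMonoidHom = _ from rfl, isoOfMem_hom hφ rfl]; exact hφ
  let θ : ↥A →* ↥(F.autGroup P) := ((MulAut.congr e.symm).toMonoidHom.comp A.subtype).codRestrict _ fun a =>
    (autGroup_carrier F hPS _).mpr (trans_mem (e.trans (a : MulAut ↥P')) e.symm
      (trans_mem e _ he ((autGroup_carrier F hP'S _).mp a.2)) (symm_mem e he))
  have hθ : Function.Surjective θ := fun b => by
    refine ⟨⟨MulAut.congr e b, (autGroup_carrier F hP'S _).mpr (trans_mem (e.symm.trans (b : MulAut ↥P)) e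
      (trans_mem e.symm _ (symm_mem e he) ((autGroup_carrier F hPS _).mp b.2)) he)⟩, Subtype.ext ?_⟩
    exact (MulAut.congr e).symm_apply_apply _
  haveI := CfsgLib.Core.pCore_characteristic (G := ↥A) p
  have hn : (pCore p ↥A).Normal := inferInstance
  have h1 : θ ⟨α, hαA⟩ ∈ pCore p ↥(F.autGroup P) :=
    CfsgLib.Core.le_pCore (hn.map θ hθ) ((CfsgLib.Core.isPGroup_pCore p).map θ) ⟨_, hαC, rfl⟩
  obtain ⟨w, hw⟩ : (θ ⟨α, hαA⟩ : MulAut ↥P) ∈ Inn ↥P := hrad ▸ ⟨_, h1, rfl⟩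
  refine hxP ?_
  have hcent : ((e w : ↥P') : Ω)⁻¹ * x ∈ centralizerIn S P' := by
    refine ⟨S.mul_mem (S.inv_mem (hP'S (e w).2)) hxS, Subgroup.mem_centralizer_iff.mpr fun y hy => ?_⟩
    have h2 : w * e.symm ⟨y, hy⟩ * w⁻¹ = e.symm (α (e (e.symm ⟨y, hy⟩))) := DFunLike.congr_fun hw (e.symm ⟨y, hy⟩)
    have h3 := congrArg (fun v => ((e v : ↥P') : Ω)) h2
    simp only [map_mul, map_inv, MulEquiv.apply_symm_apply, Subgroup.coe_mul, Subgroup.coe_inv] at h3
    have h4 : ((e w : ↥P') : Ω) * y * ((e w : ↥P') : Ω)⁻¹ = x * y * x⁻¹ := h3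
    calc y * (((e w : ↥P') : Ω)⁻¹ * x) = ((e w : ↥P') : Ω)⁻¹ * (((e w : ↥P') : Ω) * y * ((e w : ↥P') : Ω)⁻¹) * x := by group
      _ = ((e w : ↥P') : Ω)⁻¹ * (x * y * x⁻¹) * x := by rw [h4]
      _ = ((e w : ↥P') : Ω)⁻¹ * x * y := by group
  simpa using P'.mul_mem (e w).2 (hP.2 P' hPP' hcent)

end Cfsg.Agent.S5251
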