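import Cfsg.Statements.S1515
import Mathlib
import Cfsg.Agent.Lib.Coherence

set_option autoImplicit false
open Cfsg

namespace Cfsg.Agent.S1515

open Cfsg CfsgLib.Chars CfsgLib.Virtual CfsgLib.Coherence

/-- Let (S, τ, R) be a coherence system from L to G, χ ∈ S, and ψ an integer combination of S with ⟨χ, ψ⟩ = ⟨conj χ, ψ⟩ = 0. Let τ₁ be a linear isometry on the integer combinations of χ − ψ and χ − conj χ, with virtual-character values, agreeing with τ on integer multiples of χ − conj χ. Then the sum over α ∈ R χ of the squared absolute values of ⟨τ₁(χ − ψ), α⟩ is at least ⟨χ, χ⟩; and if ⟨τ₁(χ − ψ), τ₁(χ − ψ)⟩ minus that sum is at least ⟨ψ, ψ⟩, then the sum equals ⟨χ, χ⟩ and every ⟨τ₁(χ − ψ), α⟩ with α ∈ R χ is 0 or 1. -/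
theorem result {L : Type*} [Group L] [Fintype L] {G : Type*} [Group G] [Fintype G] (S : Set (L → ℂ)) (τ : (L → ℂ) → (G → ℂ)) (R : (L → ℂ) → Finset (G → ℂ)) (hS : Cfsg.IsCoherenceSystem S τ R) (χ : L → ℂ) (hχ : χ ∈ S) (ψ : L → ℂ) (hψ : ψ ∈ Cfsg.zspan S) (h1 : Cfsg.classInner χ ψ = 0) (h2 : Cfsg.classInner (Cfsg.conjFun χ) ψ = 0) (τ₁ : (L → ℂ) → (G → ℂ)) (hτ₁ : Cfsg.IsLinearIsometryOn (Cfsg.zspan {χ - ψ, χ - Cfsg.conjFun χ}) τ₁) (hagree : ∀ n : ℤ, τ₁ (n • (χ - Cfsg.conjFun χ)) = τ (n • (χ - Cfsg.conjFun χ))) : (Cfsg.classInner χ χ).re ≤ ∑ α ∈ R χ, ‖Cfsg.classInner (τ₁ (χ - ψ)) α‖ ^ 2 ∧ ((Cfsg.classInner ψ ψ).re ≤ (Cfsg.classInner (τ₁ (χ - ψ)) (τ₁ (χ - ψ))).re - ∑ α ∈ R χ, ‖Cfsg.classInner (τ₁ (χ - ψ)) α‖ ^ 2 → (∑ α ∈ R χ, ‖Cfsg.classInner (τ₁ (χ - ψ)) α‖ ^ 2 = (Cfsg.classInner χ χ).re ∧ ∀ α ∈ R χ, Cfsg.classInner (τ₁ (χ - ψ)) α = 0 ∨ Cfsg.classInner (τ₁ (χ - ψ)) α =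 1)) := by
  classical
  have hc := hS.conj_mem χ hχ
  have hne := hS.conj_ne χ hχ
  set F : Set (L → ℂ) := {χ - ψ, χ - conjFun χ}
  have hm1 : χ - ψ ∈ zspan F := mem_zspan (by simp [F])
  have hm2 : χ - conjFun χ ∈ zspan F := mem_zspan (by simp [F])
  have e1 : τ₁ (χ - conjFun χ) = ∑ α ∈ R χ, α := by
    have := hagree 1
    simp only [one_smul] at this
    rw [this, hS.sum_eq χ hχ]
  have hint : ∀ α ∈ R χ, ∃ n : ℤ, classInner (τ₁ (χ - ψ)) α = (n : ℂ) := fun α hα =>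
    int_inner (hτ₁.2.2.2 _ hm1) (hS.virtual χ hχ α hα)
  choose! a ha using hint
  have hψc : classInner ψ (conjFun χ) = 0 := by rw [classInner_symm, h2, map_zero]
  have hψχ : classInner ψ χ = 0 := by rw [classInner_symm, h1, map_zero]
  obtain ⟨nχ, hnχ, -⟩ := int_norm (genChar_of_char (hS.isCharacter χ hχ))
  have hsum : (∑ α ∈ R χ, a α : ℤ) = (nχ : ℤ) := by
    have e2 : classInner (τ₁ (χ - ψ)) (τ₁ (χ - conjFun χ)) = classInner χ χ := by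
      rw [hτ₁.2.2.1 _ hm1 _ hm2, ci_sub_left, ci_sub_right, ci_sub_right,
        hS.orthogonal χ hχ _ hc hne.symm, hψχ, hψc]
      ring
    rw [e1, ci_sum_right, Finset.sum_congr rfl ha, hnχ] at e2
    exact_mod_cast e2
  have hnorm : classInner (τ₁ (χ - ψ)) (τ₁ (χ - ψ)) = classInner χ χ + classInner ψ ψ := by
    rw [hτ₁.2.2.1 _ hm1 _ hm1, ci_sub_left, ci_sub_right, ci_sub_right, h1, hψχ]
    ring
  have hsq : ∑ α ∈ R χ, ‖classInner (τ₁ (χ - ψ)) α‖ ^ 2 = ((∑ α ∈ R χ, a α * a α : ℤ) : ℝ) := by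
    push_cast
    refine Finset.sum_congr rfl fun α hα => ?_
    rw [ha α hα, Complex.norm_intCast, sq_abs]
    ring
  have hle : ∀ α ∈ R χ, a α ≤ a α * a α := fun α _ => by
    rcases le_or_gt (a α) 0 with h | h <;> nlinarith
  have h3 : (nχ : ℤ) ≤ ∑ α ∈ R χ, a α * a α := hsum ▸ Finset.sum_le_sum hle
  have hre : (classInner χ χ).re = (nχ : ℝ) := by rw [hnχ]; simp
  refine ⟨by rw [hre, hsq]; exact_mod_cast h3, fun hh => ?_⟩
  have h4 : ∑ α ∈ R χ, a α * a α = (nχ : ℤ) := by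
    rw [hnorm, Complex.add_re, hre, hsq] at hh
    have : ((∑ α ∈ R χ, a α * a α : ℤ) : ℝ) ≤ ((nχ : ℤ) : ℝ) := by push_cast at hh ⊢; linarith
    exact le_antisymm (Int.cast_le.1 this) h3
  refine ⟨by rw [hsq, hre, h4]; push_cast; rfl, fun α hα => ?_⟩
  have h5 : a α * a α = a α := by
    by_contra hne'
    have := Finset.sum_lt_sum hle ⟨α, hα, lt_of_le_of_ne (hle α hα) (Ne.symm hne')⟩
    omega
  rw [ha α hα]
  rcases mul_eq_zero.1 (show a α * (a α - 1) = 0 by rw [mul_sub, h5]; ring) with h | h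
  · exact Or.inl (by rw [h]; simp)
  · exact Or.inr (by rw [sub_eq_zero.1 h]; simp)

end Cfsg.Agent.S1515
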