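import Cfsg.Statements.S1516
import Mathlib
import Cfsg.Agent.Lib.Coherence
import Cfsg.Agent.S1515

set_option autoImplicit false
open Cfsg

open Cfsg CfsgLib.Chars CfsgLib.Virtual CfsgLib.Coherence

namespace Cfsg.Agent.S1516

/-- Let (S, τ, R) be a coherence system from L to G with degrees φ 1 = d φ and squared norms ⟨φ, φ⟩ = n φ for φ ∈ S. Let S₁ ⊆ S be a finite subset closed under complex conjugation such that (S₁, L minus 1, τ) is coherent, let χ ∈ S with χ ∉ S₁ and conj χ ∉ S₁, and let χ₁ ∈ S₁ with d χ₁ dividing d χ and 2 d χ d χ₁ < Σ_{φ ∈ S₁} (d φ)² / n φ. Then S₁ together with χ and conj χ is coherent. -/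
theorem result {L : Type*} [Group L] [Fintype L] {G : Type*} [Group G] [Fintype G] (S : Set (L → ℂ)) (τ : (L → ℂ) → (G → ℂ)) (R : (L → ℂ) → Finset (G → ℂ)) (hS : Cfsg.IsCoherenceSystem S τ R) (d n : (L → ℂ) → ℕ) (hd : ∀ φ ∈ S, φ 1 = (d φ : ℂ)) (hn : ∀ φ ∈ S, Cfsg.classInner φ φ = (n φ : ℂ)) (S₁ : Finset (L → ℂ)) (hS₁ : ↑S₁ ⊆ S) (hS₁c : ∀ φ ∈ S₁, Cfsg.conjFun φ ∈ S₁) (hcoh : Cfsg.IsCoherent (↑S₁ : Set (L → ℂ)) {1}ᶜ τ) (χ : L → ℂ) (hχ : χ ∈ S) (hχ₁ : χ ∉ S₁) (hχ₂ : Cfsg.conjFun χ ∉ S₁) (χ₁ : L → ℂ) (hχ₁S : χ₁ ∈ S₁) (hdvd : d χ₁ ∣ d χ) (hineq : (2 * d χ * d χ₁ : ℝ) < ∑ φ ∈ S₁, ((d φ : ℝ) ^ 2 / (n φ : ℝ))) : Cfsg.IsCoherent (↑S₁ ∪ {χ, Cfsg.conjFun χ} : Set (L → ℂ)) {1}ᶜ τ := by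
  classical
  obtain ⟨⟨α₀, hα₀, hα₀ne⟩, τ₁, hτ₁, hτag⟩ := hcoh
  have hτi := hS.isometry
  have hcc : ∀ x : L → ℂ, conjFun (conjFun x) = x := fun x => funext fun g => Complex.conj_conj _
  have hc := hS.conj_mem χ hχ
  have hne := hS.conj_ne χ hχ
  have hsub : ∀ {v}, v ∈ zspanOn (↑S₁ : Set (L → ℂ)) {1}ᶜ → v ∈ zspanOn S {1}ᶜ := fun {v} hv => ⟨zspan_mono hS₁ hv.1, hv.2⟩
  have hev : ∀ φ ∈ S₁, IsGeneralizedCharacter G (τ₁ φ) := fun φ h => hτ₁.2.2.2 _ (mem_zspan h)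
  -- images of the coherent part lie in the spans of the `R φ`
  have hspan : ∀ φ ∈ S₁, ∀ α ∈ R χ, classInner (τ₁ φ) α = 0 := by
    intro φ hφ α hα
    have hφS := hS₁ hφ
    have hφc := hS.conj_mem φ hφS
    have hF : zspan ({φ - 0, φ - conjFun φ} : Set (L → ℂ)) ⊆ zspan (↑S₁ : Set (L → ℂ)) := by
      refine Submodule.span_le.2 fun v hv => ?_
      rcases hv with rfl | rfl
      · rw [sub_zero]; exact mem_zspan hφ
      · exact zspan_sub (mem_zspan hφ) (mem_zspan (hS₁c φ hφ))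
    have hmem : φ - conjFun φ ∈ zspanOn (↑S₁ : Set (L → ℂ)) {1}ᶜ := mem_zspanOn_one.2
      ⟨zspan_sub (mem_zspan hφ) (mem_zspan (hS₁c φ hφ)),
        by rw [Pi.sub_apply, conjFun_one_real (hS.isCharacter φ hφS), sub_self]⟩
    obtain ⟨h1, -⟩ := Cfsg.Agent.S1515.result S τ R hS φ hφS 0 (zspan_zero S) (ci_zero_right φ) (ci_zero_right _) τ₁
      ⟨fun a ha b hb => hτ₁.1 a (hF ha) b (hF hb), fun a ha n => hτ₁.2.1 a (hF ha) n,
        fun a ha b hb => hτ₁.2.2.1 a (hF ha) b (hF hb), fun a ha => hτ₁.2.2.2 a (hF ha)⟩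
      (fun m => hτag _ (mem_zspanOn_one.2 ⟨zspan_zsmul m hmem.1, by rw [Pi.smul_apply, (mem_zspanOn_one.1 hmem).2, smul_zero]⟩))
    rw [sub_zero] at h1
    choose! b hb using fun β (hβ : β ∈ R φ) => int_inner (hev φ hφ) (hS.virtual φ hφS β hβ)
    set Δ : G → ℂ := τ₁ φ - ∑ β ∈ R φ, b β • β with hΔ
    have hΔv : IsGeneralizedCharacter G Δ :=
      genChar_sub (hev φ hφ) (genChar_sum _ _ fun β hβ => genChar_zsmul (hS.virtual φ hφS β hβ) _)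
    obtain ⟨nΔ, hnΔ, hnΔ0⟩ := int_norm hΔv
    have hβ0 : ∀ β ∈ R φ, classInner Δ β = 0 := fun β hβ => by
      rw [hΔ, ci_sub_left, ci_sum_left, Finset.sum_congr rfl (fun x hx => by
        rw [ci_zsmul_left, hS.orthonormal φ hφS x hx β hβ, mul_ite, mul_one, mul_zero]), Finset.sum_ite_eq', if_pos hβ, hb β hβ, sub_self]
    have e : classInner Δ Δ = classInner Δ (τ₁ φ) := by
      conv_lhs => arg 2; rw [hΔ]
      rw [ci_sub_right, ci_sum_right, Finset.sum_eq_zero (fun x hx => by rw [ci_zsmul_right, hβ0 x hx, mul_zero]), sub_zero]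
    have e2 : classInner Δ (τ₁ φ) = (n φ : ℂ) - ∑ y ∈ R φ, (b y : ℂ) * b y := by
      rw [hΔ, ci_sub_left, ci_sum_left, hτ₁.2.2.1 _ (mem_zspan hφ) _ (mem_zspan hφ), hn φ hφS]
      refine congrArg _ (Finset.sum_congr rfl fun y hy => ?_)
      rw [ci_zsmul_left, classInner_symm y (τ₁ φ), hb y hy, map_intCast]
    rw [e2, hnΔ] at e
    have e' : ((nΔ : ℤ) : ℂ) = (((n φ : ℤ) - ∑ β ∈ R φ, b β * b β : ℤ) : ℂ) := by push_cast; linear_combination e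
    have e'' : (nΔ : ℤ) = (n φ : ℤ) - ∑ β ∈ R φ, b β * b β := by exact_mod_cast e'
    have hsq : ∑ β ∈ R φ, ‖classInner (τ₁ φ) β‖ ^ 2 = ((∑ β ∈ R φ, b β * b β : ℤ) : ℝ) := by
      push_cast
      exact Finset.sum_congr rfl fun β hβ => by rw [hb β hβ, Complex.norm_intCast, sq_abs]; ring
    rw [hsq, hn φ hφS, Complex.natCast_re] at h1
    have h1' : (n φ : ℤ) ≤ ∑ β ∈ R φ, b β * b β := by exact_mod_cast h1
    have hz : τ₁ φ = ∑ β ∈ R φ, b β • β := sub_eq_zero.1 (hnΔ0 (by omega))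
    rw [hz, ci_sum_left]
    refine Finset.sum_eq_zero fun β hβ => ?_
    rw [ci_zsmul_left, hS.disjoint χ hχ φ hφS (hS.orthogonal φ hφS χ hχ (fun e => hχ₁ (e ▸ hφ)))
      (hS.orthogonal φ hφS _ hc (fun e => hχ₂ (e ▸ hφ))) β hβ α hα, mul_zero]
  obtain ⟨k, hk⟩ := hdvd
  have hχ1S := hS₁ hχ₁S
  have hn0 : ∀ φ ∈ S, 0 < n φ := fun φ hφ => by
    refine Nat.pos_of_ne_zero fun h => hS.conj_ne φ hφ ?_
    have := eq_zero_of_inner_self (show classInner φ φ = 0 by rw [hn φ hφ, h, Nat.cast_zero])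
    subst this
    funext g; simp [conjFun]
  have hd0 : ∀ φ ∈ S, 0 < d φ := fun φ hφ => by
    refine Nat.pos_of_ne_zero fun h => hS.conj_ne φ hφ (funext fun g => ?_)
    have := IsCharacter.norm_le (hS.isCharacter φ hφ) g
    rw [hd φ hφ, h, Nat.cast_zero, Complex.zero_re] at this
    have hg : φ g = 0 := norm_le_zero_iff.1 this
    simp [conjFun, hg]
  have hortho : ∀ φ ∈ S₁, classInner χ φ = 0 ∧ classInner φ χ = 0 ∧ classInner (conjFun χ) φ = 0 := fun φ hφ =>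
    ⟨hS.orthogonal χ hχ φ (hS₁ hφ) (fun e => hχ₁ (e ▸ hφ)), hS.orthogonal φ (hS₁ hφ) χ hχ (fun e => hχ₁ (e ▸ hφ)),
      hS.orthogonal _ hc φ (hS₁ hφ) (fun e => hχ₂ (e ▸ hφ))⟩
  set β : L → ℂ := χ - (k : ℤ) • χ₁ with hβ
  have hβmem : β ∈ zspanOn S {1}ᶜ := mem_zspanOn_one.2
    ⟨zspan_sub (mem_zspan hχ) (zspan_zsmul _ (mem_zspan hχ1S)),
      by simp [hβ, hd χ hχ, hd χ₁ hχ1S, hk, mul_comm]⟩
  have hγmem : χ - conjFun χ ∈ zspanOn S {1}ᶜ := mem_zspanOn_one.2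
    ⟨zspan_sub (mem_zspan hχ) (mem_zspan hc), by rw [Pi.sub_apply, conjFun_one_real (hS.isCharacter χ hχ), sub_self]⟩
  set T := τ β with hT
  have hTv : IsGeneralizedCharacter G T := hτi.2.2.2 _ hβmem
  have hTT : classInner T T = (n χ : ℂ) + (k : ℂ) * k * n χ₁ := by
    rw [hτi.2.2.1 _ hβmem _ hβmem, hβ, ci_sub_left, ci_sub_right, ci_sub_right, ci_zsmul_left, ci_zsmul_left,
      ci_zsmul_right, ci_zsmul_right, hn χ hχ, hn χ₁ hχ1S, (hortho χ₁ hχ₁S).1, (hortho χ₁ hχ₁S).2.1]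
    push_cast; ring
  have hF' : zspan ({χ - (k : ℤ) • χ₁, χ - conjFun χ} : Set (L → ℂ)) ⊆ zspanOn S {1}ᶜ := by
    intro v hv
    refine zspan_induction (p := fun v => v ∈ zspanOn S {1}ᶜ) ?_ ?_ ?_ ?_ hv
    · intro u hu
      rcases hu with rfl | rfl
      · exact hβmem
      · exact hγmem
    · exact mem_zspanOn_one.2 ⟨zspan_zero S, rfl⟩
    · intro u w _ _ hu hw
      exact mem_zspanOn_one.2 ⟨zspan_add hu.1 hw.1, by
        rw [Pi.add_apply, (mem_zspanOn_one.1 hu).2, (mem_zspanOn_one.1 hw).2, add_zero]⟩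
    · intro m u _ hu
      exact mem_zspanOn_one.2 ⟨zspan_zsmul m hu.1, by rw [Pi.smul_apply, (mem_zspanOn_one.1 hu).2, smul_zero]⟩
  obtain ⟨hA1, hA2⟩ := Cfsg.Agent.S1515.result S τ R hS χ hχ ((k : ℤ) • χ₁) (zspan_zsmul _ (mem_zspan hχ1S))
    (by rw [ci_zsmul_right, (hortho χ₁ hχ₁S).1, mul_zero]) (by rw [ci_zsmul_right, (hortho χ₁ hχ₁S).2.2, mul_zero]) τ
    ⟨fun a ha b hb => hτi.1 a (hF' ha) b (hF' hb), fun a ha m => hτi.2.1 a (hF' ha) m,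
      fun a ha b hb => hτi.2.2.1 a (hF' ha) b (hF' hb), fun a ha => hτi.2.2.2 a (hF' ha)⟩ (fun m => rfl)
  choose! a ha using fun α (hα : α ∈ R χ) => int_inner hTv (hS.virtual χ hχ α hα)
  choose! c hcc' using fun φ (hφ : φ ∈ S₁) => int_inner hTv (hev φ hφ)
  set x : ℤ := c χ₁ + k * n χ₁ with hx
  have hkey : ∀ φ ∈ S₁, φ ≠ χ₁ → (d χ₁ : ℤ) * c φ = d φ * x := by
    intro φ hφ hneφ
    set γ : L → ℂ := (d χ₁ : ℤ) • φ - (d φ : ℤ) • χ₁ with hγ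
    have hγ0 : γ ∈ zspanOn (↑S₁ : Set (L → ℂ)) {1}ᶜ := mem_zspanOn_one.2
      ⟨zspan_sub (zspan_zsmul _ (mem_zspan hφ)) (zspan_zsmul _ (mem_zspan hχ₁S)),
        by simp [hγ, hd φ (hS₁ hφ), hd χ₁ hχ1S, mul_comm]⟩
    have e1 : τ γ = (d χ₁ : ℤ) • τ₁ φ - (d φ : ℤ) • τ₁ χ₁ := by
      rw [← hτag γ hγ0, hγ, iso_sub hτ₁ (zspan_zsmul _ (mem_zspan hφ)) (zspan_neg (zspan_zsmul _ (mem_zspan hχ₁S)))
        (zspan_zsmul _ (mem_zspan hχ₁S)), hτ₁.2.1 _ (mem_zspan hφ), hτ₁.2.1 _ (mem_zspan hχ₁S)]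
    have e2 := hτi.2.2.1 _ hβmem _ (hsub hγ0)
    rw [e1, hγ, hβ] at e2
    simp only [ci_sub_left, ci_sub_right, ci_zsmul_left, ci_zsmul_right, (hortho φ hφ).1, (hortho χ₁ hχ₁S).1,
      hS.orthogonal χ₁ hχ1S φ (hS₁ hφ) (Ne.symm hneφ), hn χ₁ hχ1S] at e2
    rw [← hT, hcc' φ hφ, hcc' χ₁ hχ₁S] at e2
    have : (((d χ₁ : ℤ) * c φ : ℤ) : ℂ) = ((d φ * x : ℤ) : ℂ) := by rw [hx]; push_cast at e2 ⊢; linear_combination e2
    exact_mod_cast this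
  have heo : ∀ φ ∈ S₁, ∀ η ∈ S₁, classInner (τ₁ φ) (τ₁ η) = if φ = η then (n φ : ℂ) else 0 := fun φ h η h' => by
    rw [hτ₁.2.2.1 _ (mem_zspan h) _ (mem_zspan h')]
    by_cases e : φ = η
    · rw [if_pos e, ← e, hn φ (hS₁ h)]
    · rw [if_neg e, hS.orthogonal φ (hS₁ h) η (hS₁ h') e]
  -- the orthogonal decomposition
  set X : G → ℂ := ∑ α ∈ R χ, a α • α with hX
  set Δ : G → ℂ := T - X - ∑ φ ∈ S₁, ((c φ : ℂ) / (n φ : ℂ)) • τ₁ φ with hΔ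
  have hXe : ∀ φ ∈ S₁, classInner X (τ₁ φ) = 0 := fun φ hφ => by
    rw [hX, ci_sum_left]
    exact Finset.sum_eq_zero fun α hα => by rw [ci_zsmul_left, classInner_symm α (τ₁ φ), hspan φ hφ α hα, map_zero, mul_zero]
  have hΔα : ∀ α ∈ R χ, classInner Δ α = 0 := fun α hα => by
    rw [hΔ, ci_sub_left, ci_sub_left, hX, ci_sum_left, ci_sum_left,
      Finset.sum_congr rfl (fun y hy => by rw [ci_zsmul_left, hS.orthonormal χ hχ y hy α hα, mul_ite, mul_one, mul_zero]),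
      Finset.sum_ite_eq', if_pos hα, Finset.sum_eq_zero (fun φ hφ => by rw [ci_smul_left, hspan φ hφ α hα, mul_zero]), ha α hα]
    ring
  have hΔφ : ∀ φ ∈ S₁, classInner Δ (τ₁ φ) = 0 := fun φ hφ => by
    rw [hΔ, ci_sub_left, ci_sub_left, hXe φ hφ, ci_sum_left,
      Finset.sum_congr rfl (fun y hy => by rw [ci_smul_left, heo y hy φ hφ, mul_ite, mul_zero]),
      Finset.sum_ite_eq', if_pos hφ, hcc' φ hφ, div_mul_cancel₀ _ (Nat.cast_ne_zero.2 (hn0 φ (hS₁ hφ)).ne'), sub_zero, sub_self]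
  have hpy : classInner Δ Δ = classInner T T - (∑ α ∈ R χ, (a α : ℂ) * a α) - ∑ φ ∈ S₁, (c φ : ℂ) * c φ / (n φ : ℂ) := by
    have e : classInner Δ Δ = classInner Δ T := by
      conv_lhs => arg 2; rw [hΔ]
      rw [ci_sub_right, ci_sub_right, hX, ci_sum_right, ci_sum_right,
        Finset.sum_eq_zero (fun y hy => by rw [ci_zsmul_right, hΔα y hy, mul_zero]),
        Finset.sum_eq_zero (fun y hy => by rw [ci_smul_right, hΔφ y hy, mul_zero])]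
      ring
    rw [e, hΔ, ci_sub_left, ci_sub_left, hX, ci_sum_left, ci_sum_left,
      Finset.sum_congr rfl (fun y hy => by rw [ci_zsmul_left, classInner_symm y T, ha y hy, map_intCast]),
      Finset.sum_congr rfl (fun y (hy : y ∈ S₁) => by
        rw [ci_smul_left, classInner_symm (τ₁ y) T, hcc' y hy, map_intCast, div_mul_eq_mul_div])]
  have hsa : ∑ α ∈ R χ, ‖classInner (τ (χ - (k : ℤ) • χ₁)) α‖ ^ 2 = ((∑ α ∈ R χ, a α * a α : ℤ) : ℝ) := by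
    push_cast
    refine Finset.sum_congr rfl fun α hα => ?_
    rw [← hβ, ← hT, ha α hα, Complex.norm_intCast, sq_abs]; ring
  have hΔre : 0 ≤ (classInner Δ Δ).re := by
    have h1 : classInner Δ Δ = (Nat.card G : ℂ)⁻¹ * ((∑ g : G, Complex.normSq (Δ g) : ℝ) : ℂ) := by
      rw [classInner, Complex.ofReal_sum]
      exact congrArg _ (Finset.sum_congr rfl fun g _ => Complex.mul_conj (Δ g))
    rw [h1, ← Complex.ofReal_natCast, ← Complex.ofReal_inv, ← Complex.ofReal_mul, Complex.ofReal_re]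
    exact mul_nonneg (inv_nonneg.2 (Nat.cast_nonneg _)) (Finset.sum_nonneg fun g _ => Complex.normSq_nonneg _)
  set P : ℝ := ((∑ α ∈ R χ, a α * a α : ℤ) : ℝ) - n χ with hP
  have hP0 : 0 ≤ P := by
    rw [hn χ hχ, Complex.natCast_re, hsa] at hA1
    rw [hP]; linarith
  set D : ℝ := ∑ φ ∈ S₁, (d φ : ℝ) ^ 2 / (n φ : ℝ) with hD
  have hsumc : (d χ₁ : ℝ) ^ 2 * ∑ φ ∈ S₁, (c φ : ℝ) ^ 2 / (n φ : ℝ) =
      (x : ℝ) ^ 2 * D + (d χ₁ : ℝ) ^ 2 * ((k : ℝ) ^ 2 * n χ₁ - 2 * k * x) := by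
    have : ∀ φ ∈ S₁, (d χ₁ : ℝ) ^ 2 * ((c φ : ℝ) ^ 2 / (n φ : ℝ)) = (x : ℝ) ^ 2 * ((d φ : ℝ) ^ 2 / (n φ : ℝ)) +
        (if φ = χ₁ then (d χ₁ : ℝ) ^ 2 * ((k : ℝ) ^ 2 * n χ₁ - 2 * k * x) else 0) := by
      intro φ hφ
      have hnp : (n φ : ℝ) ≠ 0 := Nat.cast_ne_zero.2 (hn0 φ (hS₁ hφ)).ne'
      by_cases e : φ = χ₁
      · subst e
        rw [if_pos rfl, show (c φ : ℝ) = (x : ℝ) - k * n φ by rw [hx]; push_cast; ring]
        field_simp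
        ring
      · rw [if_neg e, add_zero]
        have e' : (d χ₁ : ℝ) * c φ = d φ * x := by exact_mod_cast hkey φ hφ e
        field_simp
        linear_combination ((d χ₁ : ℝ) * c φ + d φ * x) * e'
    rw [Finset.mul_sum, Finset.sum_congr rfl this, Finset.sum_add_distrib, ← Finset.mul_sum, Finset.sum_ite_eq', if_pos hχ₁S]
  have hre : (classInner Δ Δ).re = (n χ : ℝ) + (k : ℝ) ^ 2 * n χ₁ - ((∑ α ∈ R χ, a α * a α : ℤ) : ℝ) -
      ∑ φ ∈ S₁, (c φ : ℝ) ^ 2 / (n φ : ℝ) := by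
    rw [hpy, hTT]
    have e : ((n χ : ℂ) + (k : ℂ) * k * n χ₁) - (∑ α ∈ R χ, (a α : ℂ) * a α) - ∑ φ ∈ S₁, (c φ : ℂ) * c φ / (n φ : ℂ) =
        (((n χ : ℝ) + (k : ℝ) ^ 2 * n χ₁ - ((∑ α ∈ R χ, a α * a α : ℤ) : ℝ) - ∑ φ ∈ S₁, (c φ : ℝ) ^ 2 / (n φ : ℝ) : ℝ) : ℂ) := by
      push_cast; simp only [pow_two]
    rw [e, Complex.ofReal_re]
  have hdk : (d χ : ℝ) = d χ₁ * k := by exact_mod_cast hk
  have hmain : (d χ₁ : ℝ) ^ 2 * (P + (classInner Δ Δ).re) + ((x : ℝ) ^ 2 * D - 2 * d χ * d χ₁ * x) = 0 := by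
    rw [hP, hre, hdk]; linear_combination -hsumc
  have hd1 : (0 : ℝ) < d χ₁ := Nat.cast_pos.2 (hd0 χ₁ hχ1S)
  have hQ : (0 : ℝ) < 2 * d χ * d χ₁ := by
    have : (0 : ℝ) < d χ := Nat.cast_pos.2 (hd0 χ hχ)
    positivity
  have hx0 : x = 0 := by
    by_contra h0
    have hge : (x : ℝ) ≤ (x : ℝ) ^ 2 := by
      have : x ≤ x ^ 2 := by nlinarith [mul_self_nonneg (x - 1), mul_self_nonneg x]
      exact_mod_cast this
    have hx2 : (1 : ℝ) ≤ (x : ℝ) ^ 2 := by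
      have : 1 ≤ x ^ 2 := by nlinarith [Int.one_le_abs h0, sq_abs x, abs_nonneg x]
      exact_mod_cast this
    nlinarith [mul_nonneg (sq_nonneg (d χ₁ : ℝ)) (add_nonneg hP0 hΔre), mul_le_mul_of_nonneg_left hge hQ.le,
      mul_lt_mul_of_pos_left hineq (show (0 : ℝ) < (x : ℝ) ^ 2 by linarith)]
  have hzero : P = 0 ∧ (classInner Δ Δ).re = 0 := by
    rw [hx0] at hmain
    simp only [Int.cast_zero] at hmain
    have : P + (classInner Δ Δ).re = 0 := by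
      rcases mul_eq_zero.1 (show (d χ₁ : ℝ) ^ 2 * (P + (classInner Δ Δ).re) = 0 by linarith) with h | h
      · exact absurd h (pow_ne_zero 2 hd1.ne')
      · exact h
    constructor <;> linarith
  have hΔz : Δ = 0 := by
    refine eq_zero_of_inner_self (Complex.ext hzero.2 ?_)
    have h := classInner_symm Δ Δ
    have := congrArg Complex.im h
    simp only [Complex.conj_im] at this
    simp only [Complex.zero_im]; linarith
  have haa : ∑ α ∈ R χ, a α * a α = (n χ : ℤ) := by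
    have := hzero.1; rw [hP, sub_eq_zero] at this; exact_mod_cast this
  have hT2 : T = X - (k : ℤ) • τ₁ χ₁ := by
    have hcz : ∀ φ ∈ S₁, φ ≠ χ₁ → c φ = 0 := fun φ h hne' => by
      have := hkey φ h hne'
      rw [hx0, mul_zero, mul_eq_zero] at this
      exact this.resolve_left (by exact_mod_cast (hd0 χ₁ hχ1S).ne')
    have h := hΔz
    rw [hΔ, Finset.sum_eq_single χ₁ (fun φ hφ hne' => by rw [hcz φ hφ hne', Int.cast_zero, zero_div, zero_smul])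
      (fun h => absurd hχ₁S h), show (c χ₁ : ℂ) / (n χ₁ : ℂ) = ((-(k : ℤ) : ℤ) : ℂ) by
        rw [show c χ₁ = -(k : ℤ) * n χ₁ by linarith [hx, hx0]]
        push_cast
        rw [mul_div_assoc, div_self (Nat.cast_ne_zero.2 (hn0 χ₁ hχ1S).ne'), mul_one], Int.cast_smul_eq_zsmul, neg_smul] at h
    rw [← sub_eq_zero, ← h]
    abel
  have has : ∑ α ∈ R χ, a α = (n χ : ℤ) := by
    obtain ⟨-, h01⟩ := hA2 (by
      rw [hsa, haa, ci_zsmul_left, ci_zsmul_right, hn χ₁ hχ1S, ← hβ, ← hT, hTT]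
      simp [mul_assoc])
    rw [← haa]
    refine Finset.sum_congr rfl fun α hα => ?_
    rcases h01 α hα with h | h <;> rw [← hβ, ← hT, ha α hα] at h
    · have : a α = 0 := by exact_mod_cast h
      rw [this, mul_zero]
    · have : a α = 1 := by exact_mod_cast h
      rw [this, mul_one]
  have hXX : classInner X X = (n χ : ℂ) := by
    rw [hX, ci_sum_left, Finset.sum_congr rfl (fun α hα => by
      rw [ci_zsmul_left, ci_sum_right, Finset.sum_congr rfl (fun y hy => by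
        rw [ci_zsmul_right, hS.orthonormal χ hχ α hα y hy, mul_ite, mul_one, mul_zero]), Finset.sum_ite_eq, if_pos hα])]
    exact_mod_cast haa
  set U : G → ℂ := ∑ α ∈ R χ, α with hU
  have hXU : classInner X U = (n χ : ℂ) := by
    rw [hX, hU, ci_sum_left, Finset.sum_congr rfl (fun α hα => by
      rw [ci_zsmul_left, ci_sum_right, Finset.sum_congr rfl (fun y hy => hS.orthonormal χ hχ α hα y hy),
        Finset.sum_ite_eq, if_pos hα, mul_one])]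
    exact_mod_cast has
  have hnc : classInner (conjFun χ) (conjFun χ) = (n χ : ℂ) := by rw [inner_conjFun, hn χ hχ, map_natCast]
  have hUU : classInner U U = (n χ : ℂ) + n χ := by
    rw [hU, ← hS.sum_eq χ hχ, hτi.2.2.1 _ hγmem _ hγmem, ci_sub_left, ci_sub_right, ci_sub_right, hn χ hχ, hnc,
      hS.orthogonal χ hχ _ hc hne.symm, hS.orthogonal _ hc χ hχ hne]
    ring
  have hUX : classInner U X = (n χ : ℂ) := by rw [classInner_symm, hXU, map_natCast]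
  have hUe : ∀ φ ∈ S₁, classInner U (τ₁ φ) = 0 := fun φ hφ => by
    rw [hU, ci_sum_left]
    exact Finset.sum_eq_zero fun α hα => by rw [classInner_symm, hspan φ hφ α hα, map_zero]
  let e : (L → ℂ) → (G → ℂ) := fun φ => if φ = χ then X else if φ = conjFun χ then X - U else τ₁ φ
  have eχ : e χ = X := if_pos rfl
  have eχb : e (conjFun χ) = X - U := by simp [e, hne]
  have e1 : ∀ φ ∈ S₁, e φ = τ₁ φ := fun φ hφ => by
    simp only [e]
    rw [if_neg (show φ ≠ χ from fun h => hχ₁ (h ▸ hφ)), if_neg (show φ ≠ conjFun χ from fun h => hχ₂ (h ▸ hφ))]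
  set F : Finset (L → ℂ) := insert χ (insert (conjFun χ) S₁) with hF
  have hFc : (↑F : Set (L → ℂ)) = ↑S₁ ∪ {χ, conjFun χ} := by
    rw [hF, Finset.coe_insert, Finset.coe_insert]; ext; simp
  have hFS : ∀ φ ∈ F, φ ∈ S := fun φ hφ => by
    simp only [hF, Finset.mem_insert] at hφ
    rcases hφ with rfl | rfl | h
    exacts [hχ, hc, hS₁ h]
  have hXv : IsGeneralizedCharacter G X := genChar_sum _ _ fun α hα => genChar_zsmul (hS.virtual χ hχ α hα) _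
  have hUv : IsGeneralizedCharacter G U := genChar_sum _ _ fun α hα => hS.virtual χ hχ α hα
  obtain ⟨τ₂, hτ₂, hτ₂e⟩ := exists_extension F (fun y hy z hz h => hS.orthogonal y (hFS y hy) z (hFS z hz) h)
    (fun y hy => by rw [hn y (hFS y hy)]; exact Nat.cast_ne_zero.2 (hn0 y (hFS y hy)).ne') e
    (fun y hy => by
      simp only [hF, Finset.mem_insert] at hy
      rcases hy with rfl | rfl | h
      · rw [eχ]; exact hXv
      · rw [eχb]; exact genChar_sub hXv hUv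
      · rw [e1 y h]; exact hev y h)
    (fun y hy z hz => by
      simp only [hF, Finset.mem_insert] at hy hz
      rcases hy with rfl | rfl | h <;> rcases hz with rfl | rfl | h'
      · rw [eχ, hXX, hn _ hχ]
      · rw [eχ, eχb, ci_sub_right, hXX, hXU, hS.orthogonal _ hχ _ hc hne.symm, sub_self]
      · rw [eχ, e1 z h', hXe z h', (hortho z h').1]
      · rw [eχ, eχb, ci_sub_left, hXX, hUX, hS.orthogonal _ hc _ hχ hne, sub_self]
      · rw [eχb, ci_sub_left, ci_sub_right, ci_sub_right, hXX, hXU, hUX, hUU, hnc]; ring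
      · rw [eχb, e1 z h', ci_sub_left, hXe z h', hUe z h', (hortho z h').2.2, sub_self]
      · rw [eχ, e1 y h, classInner_symm, hXe y h, map_zero, (hortho y h).2.1]
      · rw [eχb, e1 y h, classInner_symm, ci_sub_left, hXe y h, hUe y h, sub_self, map_zero,
          classInner_symm y (conjFun χ), (hortho y h).2.2, map_zero]
      · rw [e1 y h, e1 z h', hτ₁.2.2.1 _ (mem_zspan h) _ (mem_zspan h')])
  rw [hFc] at hτ₂
  have hTS : (↑S₁ : Set (L → ℂ)) ⊆ ↑S₁ ∪ {χ, conjFun χ} := Set.subset_union_left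
  have hUS : (↑S₁ ∪ {χ, conjFun χ} : Set (L → ℂ)) ⊆ S := Set.union_subset hS₁ (by
    intro v hv; rcases hv with rfl | rfl; exacts [hχ, hc])
  refine ⟨⟨α₀, ⟨zspan_mono hTS hα₀.1, hα₀.2⟩, hα₀ne⟩, τ₂, hτ₂, fun α hα => ?_⟩
  obtain ⟨p, q, z, hz, hαe⟩ : ∃ p q : ℤ, ∃ z ∈ zspan (↑S₁ : Set (L → ℂ)), α = p • χ + q • conjFun χ + z := by
    have h : α ∈ Submodule.span ℤ (↑S₁ : Set (L → ℂ)) ⊔ Submodule.span ℤ {χ, conjFun χ} := by
      rw [← Submodule.span_union]; exact hα.1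
    obtain ⟨z, hz, w, hw, e'⟩ := Submodule.mem_sup.1 h
    obtain ⟨p, q, hpq⟩ := Submodule.mem_span_pair.1 hw
    exact ⟨p, q, z, hz, by rw [← e', ← hpq]; abel⟩
  have hdec : α = (p + q) • β + (-q) • (χ - conjFun χ) + (z + ((p + q) * k) • χ₁) := by
    rw [hαe, hβ]; module
  have hz' : z + ((p + q) * k) • χ₁ ∈ zspan (↑S₁ : Set (L → ℂ)) := zspan_add hz (zspan_zsmul _ (mem_zspan hχ₁S))
  have hz1 : (z + ((p + q) * k) • χ₁) 1 = 0 := by
    have h1 := (mem_zspanOn_one.1 hα).2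
    rw [hdec, Pi.add_apply, Pi.add_apply, Pi.smul_apply, Pi.smul_apply, (mem_zspanOn_one.1 hβmem).2,
      (mem_zspanOn_one.1 hγmem).2, smul_zero, smul_zero, add_zero, zero_add] at h1
    exact h1
  have hzS := mem_zspanOn_one.2 ⟨hz', hz1⟩
  have hχU : χ ∈ zspan (↑S₁ ∪ {χ, conjFun χ} : Set (L → ℂ)) := mem_zspan (by simp)
  have hcU : conjFun χ ∈ zspan (↑S₁ ∪ {χ, conjFun χ} : Set (L → ℂ)) := mem_zspan (by simp)
  have h1U : χ₁ ∈ zspan (↑S₁ ∪ {χ, conjFun χ} : Set (L → ℂ)) := mem_zspan (hTS hχ₁S)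
  have hβ2 : τ₂ β = T := by
    rw [hβ, iso_sub hτ₂ hχU (zspan_neg (zspan_zsmul _ h1U)) (zspan_zsmul _ h1U), hτ₂.2.1 _ h1U,
      hτ₂e χ (Finset.mem_insert_self _ _), hτ₂e χ₁ (by simp [hF, hχ₁S]), eχ, e1 χ₁ hχ₁S, hT2]
  have hγ2 : τ₂ (χ - conjFun χ) = τ (χ - conjFun χ) := by
    rw [iso_sub hτ₂ hχU (zspan_neg hcU) hcU, hτ₂e χ (Finset.mem_insert_self _ _), hτ₂e _ (by simp [hF]), eχ, eχb,
      hS.sum_eq χ hχ, ← hU]
    abel
  have hsm : ∀ (m : ℤ) {v}, v ∈ zspanOn S {1}ᶜ → m • v ∈ zspanOn S {1}ᶜ := fun m {v} hv =>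
    mem_zspanOn_one.2 ⟨zspan_zsmul m hv.1, by rw [Pi.smul_apply, (mem_zspanOn_one.1 hv).2, smul_zero]⟩
  have hβU : β ∈ zspan (↑S₁ ∪ {χ, conjFun χ} : Set (L → ℂ)) := zspan_sub hχU (zspan_zsmul _ h1U)
  have hγU : χ - conjFun χ ∈ zspan (↑S₁ ∪ {χ, conjFun χ} : Set (L → ℂ)) := zspan_sub hχU hcU
  have hτ₂S₁ : IsLinearIsometryOn (zspan (↑S₁ : Set (L → ℂ))) τ₂ :=
    ⟨fun a ha b hb => hτ₂.1 a (zspan_mono hTS ha) b (zspan_mono hTS hb),
      fun a ha m => hτ₂.2.1 a (zspan_mono hTS ha) m,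
      fun a ha b hb => hτ₂.2.2.1 a (zspan_mono hTS ha) b (zspan_mono hTS hb),
      fun a ha => hτ₂.2.2.2 a (zspan_mono hTS ha)⟩
  have hsum : (p + q) • β + (-q) • (χ - conjFun χ) ∈ zspanOn S {1}ᶜ := mem_zspanOn_one.2
    ⟨zspan_add (hsm _ hβmem).1 (hsm _ hγmem).1, by
      rw [Pi.add_apply, (mem_zspanOn_one.1 (hsm _ hβmem)).2, (mem_zspanOn_one.1 (hsm _ hγmem)).2, add_zero]⟩
  rw [hdec, hτ₂.1 _ (zspan_add (zspan_zsmul _ hβU) (zspan_zsmul _ hγU)) _ (zspan_mono hTS hz'),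
    hτ₂.1 _ (zspan_zsmul _ hβU) _ (zspan_zsmul _ hγU), hτ₂.2.1 _ hβU, hτ₂.2.1 _ hγU, hβ2, hγ2,
    hτi.1 _ hsum _ (hsub hzS), hτi.1 _ (hsm _ hβmem) _ (hsm _ hγmem), hτi.2.1 _ hβmem, hτi.2.1 _ hγmem, hT,
    iso_ext hτ₂S₁ hτ₁ (fun φ hφ => by rw [hτ₂e φ (by simp [hF, Finset.mem_coe.1 hφ]), e1 φ hφ]) hz', hτag _ hzS]

end Cfsg.Agent.S1516
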