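import Cfsg.Statements.S0120
import Cfsg.Agent.S0093
import Cfsg.Agent.S0121
import Cfsg.Agent.S0012
import Cfsg.Agent.Lib.PowerMap

set_option autoImplicit false
set_option linter.style.haveILetI false
open Cfsg

namespace Cfsg.Agent.S0120

open scoped commutatorElement

/-- For odd p, a p'-automorphism of a p-group acting trivially on the elements of order dividing p is trivial. -/
theorem result {G : Type*} [Group G] [Finite G] {p : ℕ} [Fact p.Prime] (hp : p ≠ 2) (hG : IsPGroup p G) (a : MulAut G) (ha : Nat.Coprime (orderOf a) p) (h : ∀ x : G, x ^ p = 1 → a x = x) : a = 1 := by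
  classical
  have hp' : p.Prime := Fact.out
  obtain ⟨H, hchar, hΦ, hcomm, hC⟩ := Cfsg.Agent.S0093.result hG
  refine Cfsg.Agent.S0121.result hG H hchar hΦ hcomm hC a ha ?_
  have key : ∀ k : ℕ, ∀ x ∈ H, x ^ p ^ k = 1 → a x = x := by
    intro k
    induction k with
    | zero => intro x _ hx; rw [pow_zero, pow_one] at hx; rw [hx, map_one]
    | succ k ih =>
      intro x hxH hx
      have hxp : a (x ^ p) = x ^ p := ih _ (H.pow_mem hxH p) (by rw [← pow_mul, ← pow_succ', hx])
      set d := x⁻¹ * a x with hd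
      have hdH : d ∈ H := H.mul_mem (H.inv_mem hxH) ((Subgroup.characteristic_iff_le_comap.mp hchar a) hxH)
      have hΦp : ∀ y ∈ H, y ^ p ∈ Subgroup.centralizer (H : Set G) := fun y hy =>
        hΦ ⟨(⟨y, hy⟩ : H) ^ p, (Cfsg.Agent.S0012.result p (hG.to_subgroup H)).2 _, rfl⟩
      set c := ⁅d⁻¹, x⁻¹⁆ with hc
      have hcZ := hcomm (Subgroup.commutator_mem_commutator (H.inv_mem hdH) (Subgroup.mem_top x⁻¹))
      have hcx : c * x = x * c * 1 := by rw [mul_one]; exact (Subgroup.mem_centralizer_iff.mp hcZ.2 x hxH).symm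
      have hcd : c * d = d * c * 1 := by rw [mul_one]; exact (Subgroup.mem_centralizer_iff.mp hcZ.2 d hdH).symm
      have h1 : d * x = x * d * c := by rw [hc]; group
      have hone : ∀ w : G, (1 : G) * w = w * 1 := fun w => by rw [one_mul, mul_one]
      have hcp : c ^ p = 1 := by
        have h2 := CfsgLib.PowerMap.pow_mul_collect h1 hcd hone p
        rw [one_pow, mul_one, ← Subgroup.mem_centralizer_iff.mp (hΦp d hdH) x hxH] at h2
        exact mul_eq_left.mp h2.symm
      have h3 := CfsgLib.PowerMap.mul_pow_prime hp' hp h1 hcx hcd hone hone (Or.inr ⟨rfl, rfl⟩) hcp (one_pow p) (one_pow p)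
      have hxd : x * d = a x := by rw [hd, mul_inv_cancel_left]
      rw [hxd, ← map_pow, hxp, left_eq_mul] at h3
      have had : a d = d := h d h3
      have hiter : ∀ j : ℕ, (a ^ j) x = x * d ^ j := by
        intro j
        induction j with
        | zero => simp
        | succ j ihj =>
          rw [pow_succ' a, MulAut.mul_apply, ihj, map_mul, map_pow, had, ← hxd, pow_succ', mul_assoc]
      have h5 := hiter (orderOf a)
      rw [pow_orderOf_eq_one, MulAut.one_apply, left_eq_mul] at h5
      have h6 := Nat.eq_one_of_dvd_coprimes ha (orderOf_dvd_of_pow_eq_one h5) (orderOf_dvd_of_pow_eq_one h3)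
      rw [← hxd, orderOf_eq_one_iff.mp h6, mul_one]
  intro x hx
  obtain ⟨k, hk⟩ := hG x
  exact key k x hx hk

end Cfsg.Agent.S0120
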