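import Cfsg.Agent.S0100
import Cfsg.Agent.Lib.PStep
import Cfsg.Prelude.Def_CaseTheorems
-- Template for statement S1453 (row 1453; see /opt/grader/pristine/manifest.json for weights).
-- Copy to Cfsg/Agent/S1453.lean and replace the sorry. The statement below is byte-identical to the frozen
-- statement Cfsg.CfsgFrozen.S1453 (Cfsg/Statements/S1453.lean; the theorem Cfsg.rank_three_p_group_with_maximal_elementary_of_order_p_sq);
-- the grader kernel-checks Cfsg.Agent.S1453.result against that frozen type. Keep the theorem IN THIS FILE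
-- (a `result` declared elsewhere and merely imported here is not credited); helpers may live anywhere
-- under Cfsg/Agent/.
-- import your own Cfsg.Agent.* helpers here

set_option autoImplicit false
open Cfsg

namespace Cfsg.Agent.S1453

theorem index_centralizer {G : Type*} [Group G] (u : G) :
    (Subgroup.centralizer ({u} : Set G)).index = (MulAction.orbit (ConjAct G) u).ncard := by
  rw [← MulAction.index_stabilizer, Subgroup.centralizer_eq_comap_stabilizer]
  exact Subgroup.index_comap_of_surjective (MulAction.stabilizer (ConjAct G) u)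
    (f := (ConjAct.toConjAct (G := G)).toMonoidHom) ConjAct.toConjAct.surjective

theorem pow_mul_pow {G : Type*} [Group G] {p : ℕ} (hp : Odd p) (x y : G)
    (hc : ∀ g : G, Commute (x * y * x⁻¹ * y⁻¹) g) (hx : x ^ p = 1) (hy : y ^ p = 1) : (x * y) ^ p = 1 := by
  set c := x * y * x⁻¹ * y⁻¹ with hcdef
  have hcp : c ^ p = 1 := by
    have h1 : ∀ n : ℕ, x * y ^ n = c ^ n * (y ^ n * x) := by
      intro n
      induction n with
      | zero => simp
      | succ n ih =>
        calc x * y ^ (n + 1) = (x * y ^ n) * y := by rw [pow_succ, mul_assoc]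
          _ = c ^ n * (y ^ n * (x * y)) := by rw [ih]; group
          _ = c ^ n * (y ^ n * c * (y * x)) := by rw [hcdef]; group
          _ = c ^ n * (c * y ^ n * (y * x)) := by rw [(hc (y ^ n)).eq]
          _ = c ^ (n + 1) * (y ^ (n + 1) * x) := by rw [pow_succ c, pow_succ y]; group
    have := h1 p
    rw [hy, mul_one, one_mul] at this
    exact mul_eq_right.mp this.symm
  have h2 : ∀ n : ℕ, ∃ k : ℕ, 2 * k = n * (n - 1) ∧ (x * y) ^ n * c ^ k = x ^ n * y ^ n := by
    intro n
    induction n with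
    | zero => exact ⟨0, by simp, by simp⟩
    | succ n ih =>
      obtain ⟨k, hk, hkn⟩ := ih
      refine ⟨k + n, ?_, ?_⟩
      · rcases n with _ | n
        · simp at hk ⊢; omega
        · simp only [Nat.add_sub_cancel] at hk ⊢
          nlinarith
      · have hswap : c ^ n * (y ^ n * x) = x * y ^ n := by
          clear hk hkn
          induction n with
          | zero => simp
          | succ n ih =>
            calc c ^ (n + 1) * (y ^ (n + 1) * x) = c ^ n * (c * y ^ n * (y * x)) := by rw [pow_succ c, pow_succ y]; group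
              _ = c ^ n * (y ^ n * c * (y * x)) := by rw [(hc (y ^ n)).eq]
              _ = c ^ n * (y ^ n * (x * y)) := by rw [hcdef]; group
              _ = (c ^ n * (y ^ n * x)) * y := by group
              _ = x * y ^ (n + 1) := by rw [ih, pow_succ, mul_assoc]
        calc (x * y) ^ (n + 1) * c ^ (k + n) = (x * y) ^ n * ((x * y) * c ^ k) * c ^ n := by rw [pow_succ, pow_add]; group
          _ = ((x * y) ^ n * c ^ k) * ((x * y) * c ^ n) := by rw [← ((hc (x * y)).pow_left k).eq]; group
          _ = x ^ n * (y ^ n * x * y * c ^ n) := by rw [hkn]; group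
          _ = x ^ n * (c ^ n * (y ^ n * x * y)) := by rw [((hc (y ^ n * x * y)).pow_left n).eq]
          _ = x ^ n * ((c ^ n * (y ^ n * x)) * y) := by group
          _ = x ^ (n + 1) * y ^ (n + 1) := by rw [hswap, pow_succ, pow_succ]; group
  obtain ⟨k, hk, hkp⟩ := h2 p
  obtain ⟨m, rfl⟩ := hp
  have : k = (2 * m + 1) * m := by
    simp only [Nat.add_sub_cancel] at hk
    nlinarith
  rw [this, pow_mul, hcp, one_pow, mul_one, hx, hy, one_mul] at hkp
  exact hkp


/-- Let p be an odd prime and R a finite p-group with an elementary abelian subgroup of order p ^ 3 and an elementary abelian subgroup E of order p ^ 2 contained in no larger elementary abelian subgroup. Let Z₂ be the second centre of R, W the subgroup generated by the elements of Z₂ of order dividing p, and T = C_R(W). Then E is not contained in T; the elements of order dividing p of the centre of R generate a group of order p; W is elementary abelian of order p ^ 2; and T is characteristic in R of index p. -/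
theorem result {R : Type*} [Group R] [Finite R] (p : ℕ) [Fact p.Prime] (hp : p ≠ 2) (hR : IsPGroup p R) (hr : ¬ Cfsg.PRankLE p 2 R)
    (E : Subgroup R) (hE : Cfsg.IsElementaryAbelian p E) (hE2 : Nat.card E = p ^ 2)
    (hEmax : ∀ B : Subgroup R, Cfsg.IsElementaryAbelian p B → E ≤ B → B = E) :
    ¬ E ≤ Subgroup.centralizer ((Subgroup.closure {x : R | x ∈ Subgroup.upperCentralSeries R 2 ∧ x ^ p = 1} : Subgroup R) : Set R) ∧
      Nat.card ↥(Subgroup.closure {x : R | x ∈ Subgroup.center R ∧ x ^ p = 1}) = p ∧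
      (Cfsg.IsElementaryAbelian p (Subgroup.closure {x : R | x ∈ Subgroup.upperCentralSeries R 2 ∧ x ^ p = 1}) ∧
        Nat.card ↥(Subgroup.closure {x : R | x ∈ Subgroup.upperCentralSeries R 2 ∧ x ^ p = 1}) = p ^ 2) ∧
      (Subgroup.centralizer ((Subgroup.closure {x : R | x ∈ Subgroup.upperCentralSeries R 2 ∧ x ^ p = 1} : Subgroup R) : Set R)).Characteristic ∧
      (Subgroup.centralizer ((Subgroup.closure {x : R | x ∈ Subgroup.upperCentralSeries R 2 ∧ x ^ p = 1} : Subgroup R) : Set R)).index = p := by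
  classical
  have hpp : p.Prime := Fact.out
  have hodd : Odd p := hpp.odd_of_ne_two hp
  obtain ⟨W, hWn, hWc, hWe, hW3⟩ : ∃ W : Subgroup R, W.Normal ∧ IsMulCommutative W ∧ (∀ a ∈ W, a ^ p = 1) ∧ Nat.card W = p ^ 3 := by
    by_contra hcon
    push Not at hcon
    exact hr fun A hA hAe => Cfsg.Agent.S0100.result hp hR hcon A hA hAe
  -- elements of order `p` centralizing `E` lie in `E`
  have hmax : ∀ x : R, x ^ p = 1 → (∀ u ∈ E, u * x = x * u) → x ∈ E := by
    intro x hx hxE
    let B : Subgroup R :=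
      { carrier := {v | v ^ p = 1 ∧ v ∈ E ⊔ Subgroup.zpowers x}
        one_mem' := ⟨one_pow p, one_mem _⟩
        mul_mem' := fun {a b} ha hb => ⟨by
          have hab : Commute a b := by
            have hcl : E ⊔ Subgroup.zpowers x ≤ Subgroup.centralizer ((E ⊔ Subgroup.zpowers x : Subgroup R) : Set R) := by
              refine sup_le (fun u hu => ?_) (Subgroup.zpowers_le.mpr ?_)
              · refine Subgroup.mem_centralizer_iff.mpr fun v hv => ?_
                have : E ⊔ Subgroup.zpowers x ≤ Subgroup.centralizer ({u} : Set R) :=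
                  sup_le (fun w hw => Subgroup.mem_centralizer_singleton_iff.mpr (congrArg Subtype.val (hE.1.is_comm.comm ⟨w, hw⟩ ⟨u, hu⟩)))
                    (Subgroup.zpowers_le.mpr (Subgroup.mem_centralizer_singleton_iff.mpr (hxE u hu).symm))
                exact Subgroup.mem_centralizer_singleton_iff.mp (this hv)
              · refine Subgroup.mem_centralizer_iff.mpr fun v hv => ?_
                have : E ⊔ Subgroup.zpowers x ≤ Subgroup.centralizer ({x} : Set R) :=
                  sup_le (fun w hw => Subgroup.mem_centralizer_singleton_iff.mpr (hxE w hw))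
                    (Subgroup.zpowers_le.mpr (Subgroup.mem_centralizer_singleton_iff.mpr rfl))
                exact Subgroup.mem_centralizer_singleton_iff.mp (this hv)
            exact Subgroup.mem_centralizer_iff.mp (hcl hb.2) a ha.2
          rw [hab.mul_pow, ha.1, hb.1, one_mul], mul_mem ha.2 hb.2⟩
        inv_mem' := fun {a} ha => ⟨by rw [inv_pow, ha.1, inv_one], inv_mem ha.2⟩ }
    have hEB : E ≤ B := fun u hu => ⟨hE.2 u hu, Subgroup.mem_sup_left hu⟩
    have hBe : Cfsg.IsElementaryAbelian p B := by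
      refine ⟨⟨⟨fun a b => Subtype.ext ?_⟩⟩, fun a ha => ha.1⟩
      have hle : E ⊔ Subgroup.zpowers x ≤ Subgroup.centralizer ({(b : R)} : Set R) := by
        refine sup_le (fun u hu => ?_) (Subgroup.zpowers_le.mpr ?_)
        · have : E ⊔ Subgroup.zpowers x ≤ Subgroup.centralizer ({u} : Set R) :=
            sup_le (fun w hw => Subgroup.mem_centralizer_singleton_iff.mpr (congrArg Subtype.val (hE.1.is_comm.comm ⟨w, hw⟩ ⟨u, hu⟩)))
              (Subgroup.zpowers_le.mpr (Subgroup.mem_centralizer_singleton_iff.mpr (hxE u hu).symm))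
          exact Subgroup.mem_centralizer_singleton_iff.mpr (Subgroup.mem_centralizer_singleton_iff.mp (this b.2.2)).symm
        · have : E ⊔ Subgroup.zpowers x ≤ Subgroup.centralizer ({x} : Set R) :=
            sup_le (fun w hw => Subgroup.mem_centralizer_singleton_iff.mpr (hxE w hw))
              (Subgroup.zpowers_le.mpr (Subgroup.mem_centralizer_singleton_iff.mpr rfl))
          exact Subgroup.mem_centralizer_singleton_iff.mpr (Subgroup.mem_centralizer_singleton_iff.mp (this b.2.2)).symm
      exact Subgroup.mem_centralizer_singleton_iff.mp (hle a.2.2)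
    exact hEmax B hBe hEB ▸ ⟨hx, Subgroup.mem_sup_right (Subgroup.mem_zpowers x)⟩
  -- some element of order `p` is outside `E`
  have hcard3 : p ^ 2 < p ^ 3 := Nat.pow_lt_pow_right hpp.one_lt (by norm_num)
  have hEW : ¬ E ≤ W := fun hle => by
    have := hEmax W ⟨hWc, hWe⟩ hle
    rw [this, hE2] at hW3
    omega
  -- the subgroup of elements of order `p` in the centre
  set Z1 := Subgroup.closure {x : R | x ∈ Subgroup.center R ∧ x ^ p = 1} with hZ1
  have hZmem : ∀ x, x ∈ Z1 ↔ x ∈ Subgroup.center R ∧ x ^ p = 1 := by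
    intro x
    refine ⟨fun hx => ?_, fun hx => Subgroup.subset_closure hx⟩
    induction hx using Subgroup.closure_induction with
    | mem y hy => exact hy
    | one => exact ⟨one_mem _, one_pow p⟩
    | mul a b _ _ ha hb =>
      exact ⟨mul_mem ha.1 hb.1, by rw [(show Commute a b from Subgroup.mem_center_iff.mp hb.1 a).mul_pow, ha.2, hb.2, one_mul]⟩
    | inv a _ ha => exact ⟨inv_mem ha.1, by rw [inv_pow, ha.2, inv_one]⟩
  have hZE : Z1 ≤ E := fun x hx => hmax x ((hZmem x).mp hx).2 fun u _ => Subgroup.mem_center_iff.mp ((hZmem x).mp hx).1 u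
  have hZne : ¬ E ≤ Z1 := by
    intro hle
    apply hEW
    have : W ≤ E := fun w hw => hmax w (hWe w hw) fun u hu => (Subgroup.mem_center_iff.mp ((hZmem u).mp (hle hu)).1 w).symm
    have := Subgroup.card_le_of_le this
    omega
  haveI : Nontrivial R := by
    haveI : Nontrivial E := Finite.one_lt_card_iff_nontrivial.mp (by rw [hE2]; exact Nat.one_lt_pow two_ne_zero hpp.one_lt)
    exact Subtype.coe_injective.nontrivial (α := E)
  haveI := hR.center_nontrivial
  obtain ⟨z, hz, hz1⟩ : ∃ z ∈ Z1, z ≠ 1 := by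
    obtain ⟨k, hk0, hk⟩ := (hR.to_subgroup (Subgroup.center R)).nontrivial_iff_card.mp inferInstance
    obtain ⟨z, hz⟩ := exists_prime_orderOf_dvd_card' p (hk ▸ dvd_pow_self p hk0.ne')
    refine ⟨z, (hZmem _).mpr ⟨z.2, by rw [← SubgroupClass.coe_pow, ← hz, pow_orderOf_eq_one]; rfl⟩, fun e => hpp.ne_one ?_⟩
    rw [← hz, orderOf_eq_one_iff]; exact Subtype.ext e
  have hzo : orderOf z = p := orderOf_eq_prime ((hZmem z).mp hz).2 hz1
  have hzz : Nat.card (Subgroup.zpowers z) = p := by rw [Nat.card_zpowers, hzo]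
  have hzle : Subgroup.zpowers z ≤ Z1 := Subgroup.zpowers_le.mpr hz
  have hcardZ : Nat.card Z1 = p := by
    obtain ⟨k, hk2, hk⟩ := (Nat.dvd_prime_pow hpp).mp (hE2 ▸ Subgroup.card_dvd_of_le hZE)
    have hne2 : k ≠ 2 := fun e => hZne (Subgroup.eq_of_le_of_card_ge hZE (by rw [hE2, hk, e])).ge
    have hge : p ≤ Nat.card Z1 := hzz ▸ Subgroup.card_le_of_le hzle
    rcases (show k = 0 ∨ k = 1 by omega) with rfl | rfl
    · rw [hk, pow_zero] at hge; exact absurd hge (by have := hpp.two_le; omega)
    · rw [hk, pow_one]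
  have hZeq : Z1 = Subgroup.zpowers z := (Subgroup.eq_of_le_of_card_ge hzle (by rw [hcardZ, hzz])).symm
  have hzcomm : ∀ u : R, u * z = z * u := Subgroup.mem_center_iff.mp ((hZmem z).mp hz).1
  obtain ⟨e, he, hez⟩ : ∃ e ∈ E, e ∉ Z1 := SetLike.not_le_iff_exists.mp hZne
  have hEgen : ∀ f ∈ E, f ∉ Z1 → E = Subgroup.zpowers z ⊔ Subgroup.zpowers f := by
    intro f hf hfz
    have hle : Subgroup.zpowers z ⊔ Subgroup.zpowers f ≤ E :=
      sup_le (hzle.trans hZE) (Subgroup.zpowers_le.mpr hf)
    refine (Subgroup.eq_of_le_of_card_ge hle ?_).symm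
    obtain ⟨k, hk2, hk⟩ := (Nat.dvd_prime_pow hpp).mp (hE2 ▸ Subgroup.card_dvd_of_le hle)
    rw [hE2, hk]
    refine Nat.pow_le_pow_right hpp.pos ?_
    by_contra hk3
    have hle' : Nat.card ↥(Subgroup.zpowers z ⊔ Subgroup.zpowers f) ≤ p :=
      hk ▸ (Nat.pow_le_pow_right hpp.pos (by omega : k ≤ 1)).trans (pow_one p).le
    refine hfz (hZeq.symm ▸ ?_)
    exact (Subgroup.eq_of_le_of_card_ge le_sup_left (hzz ▸ hle')).symm ▸ Subgroup.mem_sup_right (Subgroup.mem_zpowers f)
  have hcentE : ∀ x f : R, f ∈ E → f ∉ Z1 → x * f = f * x → ∀ u ∈ E, u * x = x * u := by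
    intro x f hf hfz hxf u hu
    have hle : E ≤ Subgroup.centralizer ({x} : Set R) := by
      rw [hEgen f hf hfz]
      exact sup_le (Subgroup.zpowers_le.mpr (Subgroup.mem_centralizer_singleton_iff.mpr (hzcomm x).symm))
        (Subgroup.zpowers_le.mpr (Subgroup.mem_centralizer_singleton_iff.mpr hxf.symm))
    exact Subgroup.mem_centralizer_singleton_iff.mp (hle hu)
  -- the subgroup `W₂`
  set W2 := Subgroup.closure {x : R | x ∈ Subgroup.upperCentralSeries R 2 ∧ x ^ p = 1} with hW2
  have hucs : ∀ x, x ∈ Subgroup.upperCentralSeries R 2 → ∀ g : R, x * g * x⁻¹ * g⁻¹ ∈ Subgroup.center R := fun x hx g => by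
    have := Subgroup.mem_upperCentralSeries_succ_iff.mp hx g
    rwa [Subgroup.upperCentralSeries_one] at this
  have hW2mem : ∀ x, x ∈ W2 ↔ x ∈ Subgroup.upperCentralSeries R 2 ∧ x ^ p = 1 := by
    intro x
    refine ⟨fun hx => ?_, fun hx => Subgroup.subset_closure hx⟩
    induction hx using Subgroup.closure_induction with
    | mem y hy => exact hy
    | one => exact ⟨one_mem _, one_pow p⟩
    | mul a b _ _ ha hb =>
      exact ⟨mul_mem ha.1 hb.1, pow_mul_pow hodd a b (fun g => (Subgroup.mem_center_iff.mp (hucs a ha.1 b) g).symm) ha.2 hb.2⟩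
    | inv a _ ha => exact ⟨inv_mem ha.1, by rw [inv_pow, ha.2, inv_one]⟩
  -- commutators of elements of `W₂` lie in `Z₁`
  have hcomZ : ∀ x ∈ W2, ∀ g : R, x * g * x⁻¹ * g⁻¹ ∈ Z1 := by
    intro x hx g
    obtain ⟨hx2, hxp⟩ := (hW2mem x).mp hx
    refine (hZmem _).mpr ⟨hucs x hx2 g, ?_⟩
    set c := x * g * x⁻¹ * g⁻¹ with hc
    have hcc : ∀ u : R, Commute c u := fun u => (Subgroup.mem_center_iff.mp (hucs x hx2 g) u).symm
    have h1 : x * (c⁻¹) = g * x * g⁻¹ := by
      rw [← ((hcc x).inv_left).eq, hc]; group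
    have h2 : (x * c⁻¹) ^ p = 1 := by rw [h1, conj_pow, hxp, mul_one, mul_inv_cancel]
    rw [((hcc x).inv_left.symm).mul_pow, hxp, one_mul, inv_pow, inv_eq_one] at h2
    exact h2
  have hW2n : W2.Normal := ⟨fun x hx g => by
    have h1 := hcomZ x hx g
    have h2 : g * x * g⁻¹ = x * (x * g * x⁻¹ * g⁻¹)⁻¹ := by
      rw [← ((show Commute (x * g * x⁻¹ * g⁻¹) x from (Subgroup.mem_center_iff.mp ((hZmem _).mp h1).1 x).symm).inv_left).eq]; group
    rw [h2]
    exact mul_mem hx (inv_mem ((hW2mem _).mpr ⟨(Subgroup.upperCentralSeries_mono R (by norm_num : 1 ≤ 2)) (by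
      rw [Subgroup.upperCentralSeries_one]; exact ((hZmem _).mp h1).1), ((hZmem _).mp h1).2⟩))⟩
  have hidx : ∀ f ∈ W2, (Subgroup.centralizer ({f} : Set R)).index ≤ p := by
    intro f hf
    have hsub : MulAction.orbit (ConjAct R) f ⊆ (fun c => c * f) '' (Z1 : Set R) := by
      rintro y ⟨g, rfl⟩
      refine ⟨(f * ConjAct.ofConjAct g * f⁻¹ * (ConjAct.ofConjAct g)⁻¹)⁻¹, inv_mem (hcomZ f hf _), ?_⟩
      show _ * f = g • f
      rw [ConjAct.smul_def]; group
    rw [index_centralizer]
    calc _ ≤ ((fun c => c * f) '' (Z1 : Set R)).ncard := Set.ncard_le_ncard hsub (Set.toFinite _)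
      _ ≤ (Z1 : Set R).ncard := Set.ncard_image_le (Set.toFinite _)
      _ = p := hcardZ
  -- `E` is not inside `W₂`
  have hEW2 : ∀ f ∈ E, f ∈ W2 → f ∈ Z1 := by
    intro f hf hfW
    by_contra hfz
    apply hEW
    set C := Subgroup.centralizer ({f} : Set R) with hC
    have hDE : W ⊓ C ≤ E := fun w hw =>
      hmax w (hWe w hw.1) (hcentE w f hf hfz (Subgroup.mem_centralizer_singleton_iff.mp hw.2))
    have h1 : (W ⊓ C).relIndex W ≤ p := by
      rw [Subgroup.inf_relIndex_left]
      refine le_trans ?_ (hidx f hfW)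
      exact (Subgroup.relIndex_le_of_le_right le_top (by rw [Subgroup.relIndex_top_right]; exact Subgroup.index_ne_zero_of_finite)).trans (le_of_eq (Subgroup.relIndex_top_right C))
    have h4 := Subgroup.relIndex_mul_relIndex ⊥ (W ⊓ C) W bot_le inf_le_left
    rw [Subgroup.relIndex_bot_left, Subgroup.relIndex_bot_left, hW3] at h4
    have h3 : p ^ 2 ≤ Nat.card ↥(W ⊓ C) := by
      nlinarith [hpp.pos, Nat.mul_le_mul_left (Nat.card ↥(W ⊓ C)) h1]
    exact (Subgroup.eq_of_le_of_card_ge hDE (hE2 ▸ h3)).ge.trans inf_le_left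
  -- an element of `W₂` outside `Z₁`
  haveI := hWn
  have hW2ge : ∃ w ∈ W2, w ∉ Z1 := by
    have hzmemW : ∃ u ∈ W, u ∈ Subgroup.center R ∧ u ≠ 1 := by
      have hne : W ≠ ⊥ := fun e => by
        rw [e, Subgroup.card_bot] at hW3
        exact absurd hW3.symm (Nat.one_lt_pow three_ne_zero hpp.one_lt).ne'
      obtain ⟨⟨u, hu⟩, hu1⟩ := Subgroup.ne_bot_iff_exists_ne_one.mp (CfsgLib.PStep.normal_inf_center_ne_bot hR (N := W) inferInstance hne)
      exact ⟨u, hu.1, hu.2, fun e => hu1 (Subtype.ext e)⟩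
    obtain ⟨u, huW, huc, hu1⟩ := hzmemW
    haveI : Z1.Normal := ⟨fun a ha g => by
      have := Subgroup.mem_center_iff.mp ((hZmem a).mp ha).1 g
      rw [this, mul_inv_cancel_right]; exact ha⟩
    set π := QuotientGroup.mk' Z1 with hπ
    haveI : (W.map π).Normal := hWn.map π (QuotientGroup.mk'_surjective Z1)
    have hne : W.map π ≠ ⊥ := by
      intro e0
      rw [Subgroup.map_eq_bot_iff, QuotientGroup.ker_mk'] at e0
      have := Subgroup.card_le_of_le e0
      rw [hW3, hcardZ] at this
      have := Nat.pow_lt_pow_right hpp.one_lt (show 1 < 3 by norm_num)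
      rw [pow_one] at this
      omega
    obtain ⟨⟨q, hq⟩, hq1⟩ := Subgroup.ne_bot_iff_exists_ne_one.mp
      (CfsgLib.PStep.normal_inf_center_ne_bot (hR.to_quotient Z1) (N := W.map π) inferInstance hne)
    obtain ⟨w, hw, rfl⟩ := hq.1
    refine ⟨w, (hW2mem w).mpr ⟨Subgroup.mem_upperCentralSeries_succ_iff.mpr fun g => ?_, hWe w hw⟩, fun hwz => hq1 ?_⟩
    · have h1 : w * g * w⁻¹ * g⁻¹ ∈ Z1 := by
        rw [← QuotientGroup.eq_one_iff]
        show π (w * g * w⁻¹ * g⁻¹) = 1
        rw [map_mul, map_mul, map_mul, map_inv, map_inv, ← Subgroup.mem_center_iff.mp hq.2 (π g)]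
        group
      rw [Subgroup.upperCentralSeries_one]
      exact ((hZmem _).mp h1).1
    · exact Subtype.ext ((QuotientGroup.eq_one_iff w).mpr hwz)
  obtain ⟨w, hw, hwz⟩ := hW2ge
  -- `e` does not commute with `w`
  have hew : ¬ e * w = w * e := fun h => hwz (hEW2 w (hmax w ((hW2mem w).mp hw).2 (hcentE w e he hez h.symm)) hw)
  have hcardW2 : Nat.card W2 = p ^ 2 := by
    refine le_antisymm ?_ ?_
    · set C := Subgroup.centralizer ({e} : Set R) with hC
      have hDE : W2 ⊓ C ≤ Z1 := fun x hx =>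
        hEW2 x (hmax x ((hW2mem x).mp hx.1).2 (hcentE x e he hez (Subgroup.mem_centralizer_singleton_iff.mp hx.2))) hx.1
      have h1 : (W2 ⊓ C).relIndex W2 ≤ p := by
        rw [Subgroup.inf_relIndex_left, Subgroup.relIndex, Subgroup.index]
        refine le_trans ?_ (le_of_eq hcardZ)
        refine Nat.card_le_card_of_injective (Quotient.lift (fun x : W2 => (⟨(x : R) * e * (x : R)⁻¹ * e⁻¹, hcomZ _ x.2 e⟩ : Z1)) ?_) ?_
        · intro a b hab
          have h := Subgroup.mem_centralizer_singleton_iff.mp (show a⁻¹ * b ∈ C.subgroupOf W2 from QuotientGroup.leftRel_apply.mp hab)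
          simp only [Subgroup.coe_subtype, Subgroup.coe_mul, Subgroup.coe_inv] at h
          refine Subtype.ext ?_
          show (a : R) * e * (a : R)⁻¹ * e⁻¹ = (b : R) * e * (b : R)⁻¹ * e⁻¹
          calc (a : R) * e * (a : R)⁻¹ * e⁻¹ = a * (e * ((a : R)⁻¹ * b)) * (b : R)⁻¹ * e⁻¹ := by group
            _ = a * ((a : R)⁻¹ * b * e) * (b : R)⁻¹ * e⁻¹ := by rw [h]
            _ = (b : R) * e * (b : R)⁻¹ * e⁻¹ := by group
        · rintro ⟨a⟩ ⟨b⟩ hab
          have h1 : (a : R) * e * (a : R)⁻¹ * e⁻¹ = (b : R) * e * (b : R)⁻¹ * e⁻¹ := congrArg Subtype.val hab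
          have h2 : (a : R) * e * (a : R)⁻¹ = (b : R) * e * (b : R)⁻¹ := mul_right_cancel h1
          refine Quotient.sound (QuotientGroup.leftRel_apply.mpr (Subgroup.mem_centralizer_singleton_iff.mpr ?_))
          simp only [Subgroup.coe_subtype, Subgroup.coe_mul, Subgroup.coe_inv]
          calc (a : R)⁻¹ * b * e = (a : R)⁻¹ * ((b : R) * e * (b : R)⁻¹) * b := by group
            _ = (a : R)⁻¹ * ((a : R) * e * (a : R)⁻¹) * b := by rw [h2]
            _ = e * ((a : R)⁻¹ * b) := by group
      have h4 := Subgroup.relIndex_mul_relIndex ⊥ (W2 ⊓ C) W2 bot_le inf_le_left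
      rw [Subgroup.relIndex_bot_left, Subgroup.relIndex_bot_left] at h4
      have h5 := hcardZ ▸ Subgroup.card_le_of_le hDE
      rw [← h4]; nlinarith [Nat.mul_le_mul h5 h1]
    · have hlt : Nat.card (Subgroup.zpowers z) < Nat.card W2 := by
        have hle : Subgroup.zpowers z ≤ W2 := Subgroup.zpowers_le.mpr ((hW2mem z).mpr
          ⟨Subgroup.upperCentralSeries_mono R (by norm_num : 1 ≤ 2) (by rw [Subgroup.upperCentralSeries_one]; exact ((hZmem z).mp hz).1), ((hZmem z).mp hz).2⟩)
        refine lt_of_le_of_ne (Subgroup.card_le_of_le hle) fun h => hwz ?_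
        rw [hZeq, Subgroup.eq_of_le_of_card_ge hle h.ge]
        exact hw
      obtain ⟨k, hk⟩ := IsPGroup.iff_card.mp (hR.to_subgroup W2)
      rw [hzz, hk] at hlt
      rw [hk]
      refine Nat.pow_le_pow_right hpp.pos ?_
      by_contra hk2
      have := Nat.pow_le_pow_right hpp.pos (show k ≤ 1 by omega)
      rw [pow_one] at this
      omega
  have hW2ab : IsMulCommutative W2 := ⟨⟨IsPGroup.commutative_of_card_eq_prime_sq hcardW2⟩⟩
  have hCw : Subgroup.centralizer (W2 : Set R) = Subgroup.centralizer ({w} : Set R) := by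
    refine le_antisymm (Subgroup.centralizer_le (Set.singleton_subset_iff.mpr hw)) fun g hg => ?_
    have hle : W2 ≤ Subgroup.centralizer ({g} : Set R) := by
      have hgen : Subgroup.zpowers z ⊔ Subgroup.zpowers w = W2 := by
        have hle : Subgroup.zpowers z ⊔ Subgroup.zpowers w ≤ W2 := by
          refine sup_le (Subgroup.zpowers_le.mpr ((hW2mem z).mpr ⟨Subgroup.upperCentralSeries_mono R (by norm_num : 1 ≤ 2) (by rw [Subgroup.upperCentralSeries_one]; exact ((hZmem z).mp hz).1), ((hZmem z).mp hz).2⟩)) (Subgroup.zpowers_le.mpr hw)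
        refine Subgroup.eq_of_le_of_card_ge hle ?_
        obtain ⟨k, hk2, hk⟩ := (Nat.dvd_prime_pow hpp).mp (hcardW2 ▸ Subgroup.card_dvd_of_le hle)
        rw [hcardW2, hk]
        refine Nat.pow_le_pow_right hpp.pos ?_
        by_contra hk3
        have hle' : Nat.card ↥(Subgroup.zpowers z ⊔ Subgroup.zpowers w) ≤ p :=
          hk ▸ (Nat.pow_le_pow_right hpp.pos (by omega : k ≤ 1)).trans (pow_one p).le
        refine hwz (hZeq.symm ▸ ?_)
        exact (Subgroup.eq_of_le_of_card_ge le_sup_left (hzz ▸ hle')).symm ▸ Subgroup.mem_sup_right (Subgroup.mem_zpowers w)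
      rw [← hgen]
      exact sup_le (Subgroup.zpowers_le.mpr (Subgroup.mem_centralizer_singleton_iff.mpr (hzcomm g).symm))
        (Subgroup.zpowers_le.mpr (Subgroup.mem_centralizer_singleton_iff.mpr (Subgroup.mem_centralizer_singleton_iff.mp hg).symm))
    exact Subgroup.mem_centralizer_iff.mpr fun u hu => Subgroup.mem_centralizer_singleton_iff.mp (hle hu)
  refine ⟨fun hle => hew (Subgroup.mem_centralizer_singleton_iff.mp (hCw ▸ hle he)), hcardZ, ⟨⟨hW2ab, fun x hx => ((hW2mem x).mp hx).2⟩, hcardW2⟩, ?_, ?_⟩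
  · haveI : W2.Characteristic := by
      rw [Subgroup.characteristic_iff_map_le]
      intro φ
      rintro _ ⟨x, hx, rfl⟩
      have h2 := (hW2mem x).mp hx
      refine (hW2mem _).mpr ⟨?_, by rw [← map_pow, h2.2, map_one]⟩
      have hc : (Subgroup.upperCentralSeries R 2).Characteristic := inferInstance
      exact (Subgroup.characteristic_iff_map_le.mp hc φ) ⟨x, h2.1, rfl⟩
    infer_instance
  · rw [hCw]
    obtain ⟨k, hk⟩ := hR.index (Subgroup.centralizer ({w} : Set R))
    have hle := hidx w hw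
    rw [hk] at hle ⊢
    have hk1 : k ≤ 1 := (Nat.pow_le_pow_iff_right hpp.one_lt).mp (hle.trans (pow_one p).ge)
    rcases (show k = 0 ∨ k = 1 by omega) with rfl | rfl
    · exfalso
      rw [pow_zero, Subgroup.index_eq_one] at hk
      exact hew (Subgroup.mem_centralizer_singleton_iff.mp (hk ▸ Subgroup.mem_top e))
    · exact pow_one p
end Cfsg.Agent.S1453
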