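import Cfsg.Statements.S0132
import Cfsg.Agent.S0071
import Mathlib

set_option autoImplicit false
set_option linter.style.haveILetI false
open Cfsg

namespace Cfsg.Agent.S0132

open CfsgLib.ThompsonNPC
open scoped Pointwise

/-- A minimal non-p-nilpotent finite group is a minimal non-nilpotent group with a normal Sylow p-subgroup. -/
theorem result {G : Type*} [Group G] [Finite G] {p : ℕ} [Fact p.Prime] (h1 : ¬ Cfsg.HasNormalPComplement p G) (h2 : ∀ H : Subgroup G, H ≠ ⊤ → Cfsg.HasNormalPComplement p H) : (∀ H : Subgroup G, H ≠ ⊤ → Group.IsNilpotent H) ∧ ¬ Group.IsNilpotent G ∧ ∀ P : Sylow p G, (P : Subgroup G).Normal := by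
  classical
  have hp : p.Prime := Fact.out
  obtain ⟨P⟩ : Nonempty (Sylow p G) := inferInstance
  have hNE : ¬ ∀ Q : Subgroup G, Q ≤ (P : Subgroup G) → ∀ g ∈ Subgroup.normalizer (Q : Set G),
      Nat.Coprime (orderOf g) p → g ∈ Subgroup.centralizer (Q : Set G) := fun h => by
    obtain ⟨N, hN, hc⟩ := (Cfsg.Agent.S0071.result P).mpr h
    exact h1 ⟨P, N, hN, hc⟩
  push Not at hNE
  obtain ⟨Q, hQP, g0, hg0, hg0o, hg0C⟩ := hNE
  have hQp : IsPGroup p ↥Q := P.isPGroup'.to_le hQP
  -- proper subgroups cannot see such an element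
  have hkill : ∀ L : Subgroup G, L ≠ ⊤ → Q ≤ L → L ≤ Subgroup.normalizer (Q : Set G) → ∀ g ∈ L,
      Nat.Coprime (orderOf g) p → g ∈ Subgroup.centralizer (Q : Set G) := fun L hL hQL hLN g hg hgo =>
    pcore'_le_centralizer (hasNPC_subgroup_iff.mp (h2 L hL)) hQp hQL hLN ⟨hg, hgo⟩
  have hNtop : Subgroup.normalizer (Q : Set G) = ⊤ := by
    by_contra h
    exact hg0C (hkill _ h Subgroup.le_normalizer le_rfl g0 hg0 hg0o)
  haveI : Q.Normal := Subgroup.normalizer_eq_top_iff.mp hNtop
  -- shrink the order of the element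
  obtain ⟨g, ⟨hgo, hgC⟩, hmin⟩ : ∃ g : G, ((orderOf g).Coprime p ∧ g ∉ Subgroup.centralizer (Q : Set G)) ∧
      ∀ g' : G, (orderOf g').Coprime p ∧ g' ∉ Subgroup.centralizer (Q : Set G) → orderOf g ≤ orderOf g' := by
    obtain ⟨g, hg, hmin⟩ := Finset.exists_min_image
      ((Set.toFinite {g : G | (orderOf g).Coprime p ∧ g ∉ Subgroup.centralizer (Q : Set G)}).toFinset) (fun g => orderOf g)
      ⟨g0, (Set.Finite.mem_toFinset _).mpr ⟨hg0o, hg0C⟩⟩
    simp only [Set.Finite.mem_toFinset, Set.mem_setOf_eq] at hg hmin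
    exact ⟨g, hg, hmin⟩
  have hg1 : orderOf g ≠ 1 := fun e => hgC (by rw [orderOf_eq_one_iff.mp e]; exact one_mem _)
  obtain ⟨q, hq, hqd⟩ := Nat.exists_prime_and_dvd hg1
  have hsmall : ∀ r : ℕ, r.Prime → r ∣ orderOf g → g ^ r ∈ Subgroup.centralizer (Q : Set G) := by
    intro r hr hrd
    by_contra hc
    have hlt : orderOf (g ^ r) < orderOf g := by
      rw [orderOf_pow_of_dvd hr.ne_zero hrd]
      exact Nat.div_lt_self (orderOf_pos g) hr.one_lt
    exact absurd (hmin _ ⟨hgo.coprime_dvd_left (orderOf_pow_dvd r), hc⟩) (not_le.mpr hlt)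
  have honly : ∀ r : ℕ, r.Prime → r ∣ orderOf g → r = q := by
    intro r hr hrd
    by_contra hne
    apply hgC
    have hbez := Nat.gcd_eq_gcd_ab r q
    rw [((Nat.coprime_primes hr hq).mpr hne).gcd_eq_one, Nat.cast_one] at hbez
    have h3 := mul_mem (Subgroup.zpow_mem _ (hsmall r hr hrd) (r.gcdA q)) (Subgroup.zpow_mem _ (hsmall q hq hqd) (r.gcdB q))
    rwa [← zpow_natCast, ← zpow_natCast, ← zpow_mul, ← zpow_mul, ← zpow_add, ← hbez, zpow_one] at h3
  obtain ⟨b, hb⟩ : ∃ b, orderOf g = q ^ b := ⟨_, Nat.eq_prime_pow_of_unique_prime_dvd (orderOf_pos g).ne'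
    fun {d} hd hdd => honly d hd hdd⟩
  have hqp : q ≠ p := fun e => hp.not_dvd_one (hgo ▸ Nat.dvd_gcd (e ▸ hqd) dvd_rfl)
  have hLtop : Q ⊔ Subgroup.zpowers g = ⊤ := by
    by_contra h
    exact hgC (hkill _ h le_sup_left (hNtop ▸ le_top) g (Subgroup.mem_sup_right (Subgroup.mem_zpowers g)) hgo)
  obtain ⟨a, ha⟩ := hQp.exists_card_eq
  have hcop : Nat.Coprime (Nat.card Q) (Nat.card (Subgroup.zpowers g)) := by
    rw [ha, Nat.card_zpowers, hb]
    exact ((Nat.coprime_primes hp hq).mpr hqp.symm).pow _ _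
  have hdisj : Q ⊓ Subgroup.zpowers g = ⊥ := Subgroup.inf_eq_bot_of_coprime hcop
  have hcompl : Subgroup.IsComplement' Q (Subgroup.zpowers g) :=
    Subgroup.isComplement'_of_disjoint_and_mul_eq_univ (disjoint_iff.mpr hdisj)
      (by rw [← Subgroup.normal_mul, hLtop]; rfl)
  have hcard : Nat.card G = p ^ a * q ^ b := by rw [← hcompl.card_mul_card, ha, Nat.card_zpowers, hb]
  have hQPeq : ∀ S : Sylow p G, Q = (S : Subgroup G) := fun S => by
    obtain ⟨S', hS'⟩ := hQp.exists_le_sylow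
    obtain ⟨c, hc⟩ := MulAction.exists_smul_eq G S' S
    have hQS : Q ≤ (S : Subgroup G) := by
      intro u hu
      rw [← hc, Sylow.coe_subgroup_smul]
      exact Subgroup.mem_map.mpr ⟨c⁻¹ * u * c, hS' (by simpa using (inferInstance : Q.Normal).conj_mem u hu c⁻¹),
        by show c * (c⁻¹ * u * c) * c⁻¹ = u; group⟩
    refine Subgroup.eq_of_le_of_card_ge hQS ?_
    rw [ha, S.card_eq_multiplicity, hcard, Nat.factorization_mul (pow_ne_zero _ hp.ne_zero) (pow_ne_zero _ hq.ne_zero),
      Finsupp.add_apply, Nat.factorization_pow, Finsupp.smul_apply, hp.factorization_self,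
      Nat.factorization_eq_zero_of_not_dvd (fun hd => hqp ((Nat.prime_dvd_prime_iff_eq hp hq).mp (hp.dvd_of_dvd_pow hd)).symm)]
    simp
  refine ⟨fun H hH => ?_, fun hnil => hgC ?_, fun S => hQPeq S ▸ inferInstance⟩
  · have hPC : PCOn p H := hasNPC_subgroup_iff.mp (h2 H hH)
    refine ((Group.isNilpotent_of_finite_tfae (G := ↥H)).out 0 3).mpr fun r hr R => ?_
    haveI := hr
    by_cases hrp : r = p
    · subst hrp
      have hle : (R : Subgroup ↥H) ≤ Q.subgroupOf H := by
        intro u hu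
        obtain ⟨S, hS⟩ := (R.isPGroup'.map H.subtype).exists_le_sylow
        exact (hQPeq S).ge (hS ⟨u, hu, rfl⟩)
      have he := R.is_maximal' (hQp.comap_of_injective H.subtype H.subtype_injective) hle
      rw [← he]
      exact Subgroup.Normal.comap inferInstance _
    · have hn : ((pcore' hPC).subgroupOf H).Normal := (Subgroup.normal_subgroupOf_iff_le_normalizer (pcore'_le _)).mpr
        (Subgroup.le_normalizer.trans (normalizer_le_pcore' _))
      by_cases hrq : r = q
      · subst hrq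
        have hle : (R : Subgroup ↥H) ≤ (pcore' hPC).subgroupOf H := by
          intro u hu
          refine ⟨u.2, ?_⟩
          obtain ⟨i, hi⟩ := IsPGroup.iff_orderOf.mp R.isPGroup' ⟨u, hu⟩
          show (orderOf (u : G)).Coprime p
          rw [Subgroup.orderOf_coe, ← Subgroup.orderOf_mk (H := (R : Subgroup ↥H)) u hu, hi]
          exact ((Nat.coprime_primes hr.out hp).mpr hrp).pow_left _
        have hpg : IsPGroup r ↥((pcore' hPC).subgroupOf H) := by
          obtain ⟨i, -, hi⟩ := (Nat.dvd_prime_pow hq).mp (Nat.Coprime.dvd_of_dvd_mul_left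
            ((card_pcore'_coprime hPC).pow_right a) (hcard ▸ Subgroup.card_subgroup_dvd_card (pcore' hPC)))
          exact IsPGroup.of_card (n := i) (by rw [Nat.card_congr (Subgroup.subgroupOfEquivOfLe (pcore'_le _)).toEquiv, hi])
        rw [← R.is_maximal' hpg hle]
        exact hn
      · have hbot : (R : Subgroup ↥H) = ⊥ := by
          by_contra hne
          obtain ⟨i, hi⟩ := R.isPGroup'.exists_card_eq
          have hi0 : i ≠ 0 := fun e => hne (Subgroup.eq_bot_of_card_eq _ (by rw [hi, e, pow_zero]))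
          have hd : r ∣ p ^ a * q ^ b := hcard ▸ ((hi ▸ dvd_pow_self r hi0).trans
            ((Subgroup.card_subgroup_dvd_card _).trans (Subgroup.card_subgroup_dvd_card _)))
          rcases hr.out.dvd_mul.mp hd with hd | hd
          · exact hrp ((Nat.prime_dvd_prime_iff_eq hr.out hp).mp (hr.out.dvd_of_dvd_pow hd))
          · exact hrq ((Nat.prime_dvd_prime_iff_eq hr.out hq).mp (hr.out.dvd_of_dvd_pow hd))
        rw [hbot]
        infer_instance
  · haveI := Fact.mk hq
    obtain ⟨S, hS⟩ := (IsPGroup.of_card (n := b) (by rw [Nat.card_zpowers, hb]) :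
      IsPGroup q ↥(Subgroup.zpowers g)).exists_le_sylow
    have h4 : ∀ (r : ℕ) (_ : Fact r.Prime) (T : Sylow r G), (T : Subgroup G).Normal :=
      ((Group.isNilpotent_of_finite_tfae (G := G)).out 0 3).mp hnil
    have hSn : (S : Subgroup G).Normal := h4 q ⟨hq⟩ S
    have hd : Disjoint Q (S : Subgroup G) := by
      obtain ⟨i, hi⟩ := S.isPGroup'.exists_card_eq
      exact disjoint_iff.mpr (Subgroup.inf_eq_bot_of_coprime (by
        rw [ha, hi]; exact ((Nat.coprime_primes hp hq).mpr hqp.symm).pow _ _))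
    exact Subgroup.mem_centralizer_iff.mpr fun u hu =>
      Subgroup.commute_of_normal_of_disjoint _ _ inferInstance hSn hd u g hu (hS (Subgroup.mem_zpowers g))

end Cfsg.Agent.S0132
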