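import Cfsg.Statements.S0127
import Cfsg.Agent.Lib.PowerMap
import Mathlib

set_option autoImplicit false
set_option linter.style.haveILetI false
open Cfsg

namespace Cfsg.Agent.S0127

/-- For odd p, in a non-cyclic p-group with a cyclic subgroup of index p, the elements of order dividing p generate an elementary abelian subgroup of order p^2. -/
theorem result {R : Type*} [Group R] [Finite R] {p : ℕ} [Fact p.Prime] (hp : p ≠ 2) (hR : IsPGroup p R) (hnc : ¬ IsCyclic R) (C : Subgroup R) (hC : IsCyclic C) (hCi : C.index = p) : Cfsg.IsElementaryAbelian p (Subgroup.closure {x : R | x ^ p = 1}) ∧ Nat.card (Subgroup.closure {x : R | x ^ p = 1}) = p ^ 2 := by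
  classical
  have hp' : p.Prime := Fact.out
  obtain ⟨c, hc⟩ := hC.exists_generator
  obtain ⟨n, hn⟩ := (hR.to_subgroup C).exists_card_eq
  have hCz : C = Subgroup.zpowers (c : R) := by
    refine le_antisymm (fun x hx => ?_) (Subgroup.zpowers_le.mpr c.2)
    obtain ⟨k, hk⟩ := Subgroup.mem_zpowers_iff.mp (hc ⟨x, hx⟩)
    exact ⟨k, congrArg Subtype.val hk⟩
  set c₀ : R := (c : R) with hc₀
  have hord : orderOf c₀ = p ^ n := by rw [← Nat.card_zpowers, ← hCz, hn]
  have hRcard : Nat.card R = p ^ (n + 1) := by rw [← C.card_mul_index, hn, hCi, pow_succ]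
  have hn0 : n ≠ 0 := fun e => hnc (isCyclic_of_prime_card (p := p) (by rw [hRcard, e, pow_one]))
  haveI hCn : C.Normal := Subgroup.normal_of_index_eq_minFac_card (by
    rw [hCi, hRcard]; exact (Nat.Prime.pow_minFac hp' n.succ_ne_zero).symm)
  have hne : C ≠ ⊤ := fun e => by rw [e, Subgroup.index_top] at hCi; exact hp'.one_lt.ne hCi
  obtain ⟨y, -, hy⟩ := SetLike.exists_of_lt hne.lt_top
  obtain ⟨k, hk⟩ := Subgroup.mem_zpowers_iff.mp (hCz ▸ hCn.conj_mem c₀ c.2 y)
  have hyp : y ^ p ∈ C := hCi ▸ C.pow_index_mem y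
  have hiter : ∀ m : ℕ, y ^ m * c₀ * (y ^ m)⁻¹ = c₀ ^ (k ^ m) := by
    intro m
    induction m with
    | zero => simp
    | succ m ih =>
      calc y ^ (m + 1) * c₀ * (y ^ (m + 1))⁻¹ = y * (y ^ m * c₀ * (y ^ m)⁻¹) * y⁻¹ := by rw [pow_succ']; group
        _ = y * c₀ ^ (k ^ m) * y⁻¹ := by rw [ih]
        _ = (y * c₀ * y⁻¹) ^ (k ^ m) := conj_zpow.symm
        _ = _ := by rw [← hk, ← zpow_mul, pow_succ']
  have hkp : ((p ^ n : ℕ) : ℤ) ∣ k ^ p - 1 := by
    rw [← hord, orderOf_dvd_iff_zpow_eq_one, zpow_sub, zpow_one, mul_inv_eq_one, ← hiter]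
    obtain ⟨j, hj⟩ := Subgroup.mem_zpowers_iff.mp (hCz ▸ hyp)
    rw [← hj, ← zpow_neg, ← zpow_add_one, ← zpow_add, add_right_comm, add_neg_cancel, zero_add, zpow_one]
  push_cast at hkp
  have hk1 : (p : ℤ) ∣ k - 1 := by
    rw [← ZMod.intCast_zmod_eq_zero_iff_dvd]
    have h1 : ((k ^ p - 1 : ℤ) : ZMod p) = 0 :=
      (ZMod.intCast_zmod_eq_zero_iff_dvd _ _).mpr (dvd_trans (dvd_pow_self _ hn0) hkp)
    push_cast at h1 ⊢
    rwa [ZMod.pow_card] at h1
  have hnot : ¬ (p : ℤ) ∣ k := fun hd => hp'.not_dvd_one (by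
    have := dvd_sub hd hk1
    rw [sub_sub_cancel] at this
    exact_mod_cast this)
  have hdiv : (p : ℤ) ^ (n - 1) ∣ k - 1 := by
    have h1 := Int.emultiplicity_pow_sub_pow hp' (hp'.odd_of_ne_two hp) (x := k) (y := 1) hk1 hnot p
    rw [one_pow, FiniteMultiplicity.emultiplicity_self (Nat.finiteMultiplicity_iff.mpr ⟨hp'.ne_one, hp'.pos⟩)] at h1
    have h2 := le_emultiplicity_of_pow_dvd hkp
    rw [h1] at h2
    rw [pow_dvd_iff_le_emultiplicity]
    generalize emultiplicity (p : ℤ) (k - 1) = e at h2 ⊢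
    induction e using ENat.recTopCoe with
    | top => simp
    | coe e =>
      have : n ≤ e + 1 := by exact_mod_cast h2
      exact_mod_cast (by omega : n - 1 ≤ e)
  set d : R := c₀ ^ (k - 1) with hd
  have hdy : y * c₀ = c₀ * d * y := by
    rw [hd, ← zpow_one_add, add_sub_cancel, hk, inv_mul_cancel_right]
  have hdp : d ^ p = 1 := by
    rw [hd, ← zpow_natCast, ← zpow_mul, ← orderOf_dvd_iff_zpow_eq_one, hord]
    have h3 := mul_dvd_mul hdiv (dvd_refl (p : ℤ))
    rw [← pow_succ, Nat.sub_add_cancel (Nat.one_le_iff_ne_zero.mpr hn0)] at h3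
    exact_mod_cast h3
  -- the subgroup of order `p` of `C` is central
  set z : R := c₀ ^ p ^ (n - 1) with hz
  have hzp : orderOf z = p := by
    rw [hz, orderOf_pow_of_dvd (pow_ne_zero _ hp'.ne_zero) (hord ▸ pow_dvd_pow p (by omega)), hord,
      Nat.pow_div (by omega) hp'.pos, show n - (n - 1) = 1 by omega, pow_one]
  have hdz : d ∈ Subgroup.zpowers z := by
    obtain ⟨u, hu⟩ := hdiv
    refine ⟨u, ?_⟩
    show z ^ u = d
    rw [hz, ← zpow_natCast, ← zpow_mul, hd, hu]
    push_cast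
    rfl
  have hzc : z ∈ Subgroup.center R := by
    have hzy : y * z = z * y := by
      have h0 : y * c₀ * y⁻¹ = c₀ * d := by rw [hdy, mul_inv_cancel_right]
      have hcd : Commute c₀ d := Commute.self_zpow c₀ _
      have h1 : y * z * y⁻¹ = z * d ^ p ^ (n - 1) := by
        rw [hz, ← conj_pow, h0, hcd.mul_pow]
      have h2 : d ^ p ^ (n - 1) = 1 := by
        rcases Nat.eq_zero_or_pos (n - 1) with h | h
        · rw [h, pow_zero, pow_one]
          have hn1 : n = 1 := by omega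
          -- then `C` has order `p`, so it is central
          have hz' : c₀ ^ p = 1 := by rw [← pow_one p, ← hn1, ← hord, pow_orderOf_eq_one]
          rw [hd]
          obtain ⟨u, hu⟩ := hk1
          rw [hu, zpow_mul, zpow_natCast, hz', one_zpow]
        · obtain ⟨m, hm⟩ := Nat.exists_eq_succ_of_ne_zero h.ne'
          rw [hm, pow_succ', pow_mul, hdp, one_pow]
      rw [h2, mul_one] at h1
      exact mul_inv_eq_iff_eq_mul.mp h1
    rw [Subgroup.mem_center_iff]
    intro g
    have hgen : C ⊔ Subgroup.zpowers y = ⊤ := by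
      rw [← Subgroup.index_eq_one]
      rcases hp'.eq_one_or_self_of_dvd _ (hCi ▸ Subgroup.index_dvd_of_le (le_sup_left : C ≤ C ⊔ Subgroup.zpowers y)) with h | h
      · exact h
      · have hsup : C ⊔ Subgroup.zpowers y = C := le_antisymm (fun x hx => by
          by_contra hxC
          have hlt : C < C ⊔ Subgroup.zpowers y := lt_of_le_of_ne le_sup_left fun e => hxC (e ▸ hx)
          exact (Subgroup.index_strictAnti hlt).ne (h.trans hCi.symm)) le_sup_left
        exact absurd (hsup ▸ Subgroup.mem_sup_right (Subgroup.mem_zpowers y)) hy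
    have hall : C ⊔ Subgroup.zpowers y ≤ Subgroup.centralizer ({z} : Set R) := by
      refine sup_le ?_ (Subgroup.zpowers_le.mpr (Subgroup.mem_centralizer_singleton_iff.mpr hzy))
      rw [hCz, Subgroup.zpowers_le, Subgroup.mem_centralizer_singleton_iff]
      exact (Commute.self_pow c₀ _).eq
    rw [hgen] at hall
    exact Subgroup.mem_centralizer_singleton_iff.mp (hall (Subgroup.mem_top g))
  -- `R' ≤ ⟨z⟩`
  haveI hZn : (Subgroup.zpowers z).Normal := ⟨fun w hw g => by
    have hwc : w ∈ Subgroup.center R := (Subgroup.zpowers_le.mpr hzc) hw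
    rwa [Subgroup.mem_center_iff.mp hwc g, mul_inv_cancel_right]⟩
  have hder : commutator R ≤ Subgroup.zpowers z := by
    rw [← Subgroup.Normal.quotient_commutative_iff_commutator_le]
    set π := QuotientGroup.mk' (Subgroup.zpowers z)
    have hcy : π y * π c₀ = π c₀ * π y := by
      rw [← map_mul, hdy, map_mul, map_mul, show π d = 1 from (QuotientGroup.eq_one_iff d).mpr hdz, mul_one]
    have hgen2 : ∀ g : R, ∃ i j : ℤ, π g = π c₀ ^ i * π y ^ j := by
      intro g
      have hgen : C ⊔ Subgroup.zpowers y = ⊤ := by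
        by_contra hcon
        have hlt : C < C ⊔ Subgroup.zpowers y :=
          lt_of_le_of_ne le_sup_left fun e => hy (e ▸ Subgroup.mem_sup_right (Subgroup.mem_zpowers y))
        have h1 := Subgroup.index_strictAnti hlt
        rcases hp'.eq_one_or_self_of_dvd _ (hCi ▸ Subgroup.index_dvd_of_le (le_sup_left : C ≤ C ⊔ Subgroup.zpowers y)) with h | h
        · exact hcon (Subgroup.index_eq_one.mp h)
        · omega
      obtain ⟨u, hu, v, ⟨j, rfl⟩, rfl⟩ := Subgroup.mem_sup_of_normal_left.mp (hgen ▸ Subgroup.mem_top g)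
      obtain ⟨i, rfl⟩ := Subgroup.mem_zpowers_iff.mp (hCz ▸ hu)
      exact ⟨i, j, by rw [map_mul, map_zpow, map_zpow]⟩
    refine ⟨⟨fun a b => ?_⟩⟩
    obtain ⟨a, rfl⟩ := QuotientGroup.mk'_surjective _ a
    obtain ⟨b, rfl⟩ := QuotientGroup.mk'_surjective _ b
    obtain ⟨i, j, ha⟩ := hgen2 a
    obtain ⟨i', j', hb⟩ := hgen2 b
    rw [ha, hb]
    have hc1 : Commute (π c₀) (π y) := hcy.symm
    exact ((((Commute.refl (π c₀)).zpow_zpow i i').mul_right (hc1.zpow_zpow i j')).mul_left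
      ((hc1.symm.zpow_zpow j i').mul_right ((Commute.refl (π y)).zpow_zpow j j'))).eq
  have h2 : ⁅commutator R, (⊤ : Subgroup R)⁆ = ⊥ := by
    rw [Subgroup.commutator_eq_bot_iff_le_centralizer, Subgroup.coe_top, Subgroup.centralizer_univ]
    exact hder.trans (Subgroup.zpowers_le.mpr hzc)
  have h4 : ⁅⁅commutator R, (⊤ : Subgroup R)⁆, (⊤ : Subgroup R)⁆ = ⊥ := by rw [h2, Subgroup.commutator_bot_left]
  have hexp : ∀ w ∈ commutator R, w ^ p = 1 := fun w hw => by
    obtain ⟨i, hi⟩ := hder hw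
    rw [← hi, ← zpow_natCast, ← zpow_mul, mul_comm, zpow_mul, zpow_natCast, ← hzp, pow_orderOf_eq_one, one_zpow]
  let φ : R →* R := MonoidHom.mk' (· ^ p) (CfsgLib.PowerMap.mul_pow_of_exponent hp' hp h4 (Or.inr h2) hexp)
  have hker : Subgroup.closure {x : R | x ^ p = 1} = φ.ker := Subgroup.closure_eq φ.ker
  have hrange : φ.range = Subgroup.zpowers (c₀ ^ p) := by
    refine le_antisymm ?_ (Subgroup.zpowers_le.mpr ⟨c₀, rfl⟩)
    rintro _ ⟨x, rfl⟩
    show x ^ p ∈ _
    obtain ⟨i, hi⟩ := Subgroup.mem_zpowers_iff.mp (hCz ▸ (hCi ▸ C.pow_index_mem x : x ^ p ∈ C))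
    have hdvd : (p : ℤ) ∣ i := by
      by_contra hnd
      apply hnc
      refine isCyclic_of_orderOf_eq_card x ?_
      obtain ⟨m, hm⟩ := IsPGroup.iff_orderOf.mp hR x
      have hxp : orderOf (x ^ p) = p ^ n := by
        rw [← hi, ← hord, ← Nat.card_zpowers, ← Nat.card_zpowers c₀]
        suffices he : Subgroup.zpowers (c₀ ^ i) = Subgroup.zpowers c₀ by rw [he]
        refine le_antisymm (Subgroup.zpowers_le.mpr ⟨i, rfl⟩) (Subgroup.zpowers_le.mpr ?_)
        obtain ⟨u, v, huv⟩ : ∃ u v : ℤ, u * i + v * (p ^ n : ℕ) = 1 := by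
          have hco : IsCoprime i ((p ^ n : ℕ) : ℤ) := by
            push_cast
            exact (((Nat.prime_iff_prime_int.mp hp').coprime_iff_not_dvd.mpr hnd).symm).pow_right
          exact hco
        refine ⟨u, ?_⟩
        show (c₀ ^ i) ^ u = c₀
        calc (c₀ ^ i) ^ u = c₀ ^ (u * i + v * (p ^ n : ℕ)) := by
              rw [zpow_add, mul_comm v, zpow_mul c₀ _ v, zpow_natCast, ← hord, pow_orderOf_eq_one, one_zpow, mul_one,
                ← zpow_mul, mul_comm]
          _ = c₀ := by rw [huv, zpow_one]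
      have hm1 : m ≤ n + 1 := by
        have := hm ▸ hRcard ▸ (orderOf_dvd_natCard x)
        exact (Nat.pow_dvd_pow_iff_le_right hp'.one_lt).mp this
      rcases Nat.eq_zero_or_pos m with rfl | hmpos
      · rw [pow_zero, orderOf_eq_one_iff] at hm
        rw [hm, one_pow, orderOf_one] at hxp
        exact absurd hxp (Nat.one_lt_pow hn0 hp'.one_lt).ne
      rw [orderOf_pow_of_dvd hp'.ne_zero (hm ▸ dvd_pow_self p hmpos.ne'), hm] at hxp
      obtain ⟨m, rfl⟩ := Nat.exists_eq_succ_of_ne_zero hmpos.ne'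
      rw [pow_succ, Nat.mul_div_cancel _ hp'.pos] at hxp
      have := Nat.pow_right_injective hp'.two_le hxp
      rw [hm, hRcard]
      congr 1
      omega
    obtain ⟨u, rfl⟩ := hdvd
    refine ⟨u, ?_⟩
    show (c₀ ^ p) ^ u = x ^ p
    rw [← hi, zpow_mul, zpow_natCast]
  have hcard : Nat.card φ.ker = p ^ 2 := by
    have h1 := φ.ker.card_mul_index
    rw [Subgroup.index_ker, hrange, Nat.card_zpowers,
      orderOf_pow_of_dvd hp'.ne_zero (hord ▸ dvd_pow_self p hn0), hord, hRcard] at h1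
    have e1 : p ^ n / p = p ^ (n - 1) := by
      conv_lhs => rw [← Nat.succ_pred_eq_of_pos (Nat.pos_of_ne_zero hn0), pow_succ, Nat.mul_div_cancel _ hp'.pos]
      rfl
    have e2 : p ^ (n + 1) = p ^ 2 * p ^ (n - 1) := by rw [← pow_add]; congr 1; omega
    rw [e1, e2] at h1
    exact Nat.eq_of_mul_eq_mul_right (pow_pos hp'.pos _) h1
  rw [hker]
  exact ⟨⟨IsPGroup.isMulCommutative_of_card_eq_prime_sq hcard, fun a ha => ha⟩, hcard⟩

end Cfsg.Agent.S0127
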