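import Cfsg.Statements.S0126
import Cfsg.Agent.S0093
import Cfsg.Agent.S0127
import Cfsg.Agent.Lib.PStep
import Cfsg.Agent.Lib.UniqueOrderP
import Cfsg.Agent.Lib.PowerMap

set_option autoImplicit false
set_option linter.style.haveILetI false
open Cfsg

namespace Cfsg.Agent.S0126

/-- For odd p, every non-cyclic p-group contains a normal elementary abelian subgroup of order p^2. -/
theorem result {R : Type*} [Group R] [Finite R] {p : ℕ} [Fact p.Prime] (hp : p ≠ 2) (hR : IsPGroup p R) (hnc : ¬ IsCyclic R) : ∃ A : Subgroup R, A.Normal ∧ Cfsg.IsElementaryAbelian p A ∧ Nat.card A = p ^ 2 := by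
  classical
  have hp' : p.Prime := Fact.out
  obtain ⟨H, hchar, hΦ, hcomm, hC⟩ := Cfsg.Agent.S0093.result hR
  haveI : H.Normal := (haveI := hchar; inferInstance)
  have hconjset : ∀ (g : R) (S : Subgroup R), S.Normal → ∀ y, y ∈ S ∧ y ^ p = 1 → g * y * g⁻¹ ∈ S ∧ (g * y * g⁻¹) ^ p = 1 :=
    fun g S hS y hy => ⟨hS.conj_mem y hy.1 g, by rw [conj_pow, hy.2, mul_one, mul_inv_cancel]⟩
  have hnormal : ∀ S : Subgroup R, S.Normal → (Subgroup.closure {y : R | y ∈ S ∧ y ^ p = 1}).Normal := by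
    intro S hS
    refine ⟨fun u hu g => ?_⟩
    have hle : (Subgroup.closure {y : R | y ∈ S ∧ y ^ p = 1}).map (MulAut.conj g).toMonoidHom ≤
        Subgroup.closure {y : R | y ∈ S ∧ y ^ p = 1} := by
      rw [MonoidHom.map_closure, Subgroup.closure_le]
      rintro _ ⟨y, hy, rfl⟩
      exact Subgroup.subset_closure (hconjset g S hS y hy)
    exact hle ⟨u, hu, rfl⟩
  have hmapeq : ∀ S : Subgroup R, (Subgroup.closure {z : ↥S | z ^ p = 1}).map S.subtype =
      Subgroup.closure {y : R | y ∈ S ∧ y ^ p = 1} := by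
    intro S
    rw [MonoidHom.map_closure]
    congr 1
    ext y
    constructor
    · rintro ⟨z, hz, rfl⟩
      exact ⟨z.2, congrArg Subtype.val hz⟩
    · rintro ⟨hy, hy'⟩
      exact ⟨⟨y, hy⟩, Subtype.ext hy', rfl⟩
  set E := Subgroup.closure {y : R | y ∈ H ∧ y ^ p = 1} with hEdef
  haveI hEn : E.Normal := hnormal H inferInstance
  have h2 : ⁅commutator ↥H, (⊤ : Subgroup ↥H)⁆ = ⊥ := by
    rw [Subgroup.commutator_eq_bot_iff_le_centralizer, Subgroup.coe_top, Subgroup.centralizer_univ, commutator_def,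
      Subgroup.commutator_le]
    intro a _ b _
    rw [Subgroup.mem_center_iff]
    intro c
    have h1 := (hcomm (Subgroup.commutator_mem_commutator a.2 (Subgroup.mem_top (b : R)))).2
    exact Subtype.ext (Subgroup.mem_centralizer_iff.mp h1 c c.2)
  have hEexp : ∀ e ∈ E, e ^ p = 1 := by
    intro e he
    rw [hEdef, ← hmapeq] at he
    obtain ⟨z, hz, rfl⟩ := he
    rw [← map_pow, CfsgLib.PowerMap.pow_eq_one_of_mem_closure hp' hp (by rw [h2, Subgroup.commutator_bot_left]) (Or.inr h2) hz,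
      map_one]
  by_cases hE : p ^ 2 ≤ Nat.card E
  · -- pick a normal subgroup of order `p ^ 2` inside `E`
    have step : ∀ N : Subgroup R, N.Normal → N < E → ∃ N' : Subgroup R, N'.Normal ∧ N' ≤ E ∧ Nat.card N' = p * Nat.card N := by
      intro N hN hlt
      haveI := hN
      obtain ⟨x, hx, hxN, hxg, hxp⟩ := CfsgLib.PStep.exists_step hR N E hlt
      refine ⟨N ⊔ Subgroup.zpowers x, ⟨fun u hu g => ?_⟩, sup_le hlt.le (Subgroup.zpowers_le.mpr hx),
        CfsgLib.PStep.card_sup_zpowers N x hxN hxp⟩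
      have hle : (N ⊔ Subgroup.zpowers x).map (MulAut.conj g).toMonoidHom ≤ N ⊔ Subgroup.zpowers x := by
        rw [Subgroup.map_sup, MonoidHom.map_zpowers]
        refine sup_le ?_ (Subgroup.zpowers_le.mpr ?_)
        · rintro _ ⟨a, ha, rfl⟩
          exact Subgroup.mem_sup_left (hN.conj_mem a ha g)
        · have := Subgroup.mul_mem_sup (hxg g) (Subgroup.mem_zpowers x)
          simpa [mul_assoc] using this
      exact hle ⟨u, hu, rfl⟩
    have hlt1 : (⊥ : Subgroup R) < E := bot_lt_iff_ne_bot.mpr fun e => by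
      rw [e, Subgroup.card_bot] at hE
      exact absurd (Nat.one_lt_pow two_ne_zero hp'.one_lt) (not_lt.mpr hE)
    obtain ⟨N1, hN1, hN1E, hc1⟩ := step ⊥ inferInstance hlt1
    rw [Subgroup.card_bot, mul_one] at hc1
    obtain ⟨N2, hN2, hN2E, hc2⟩ := step N1 hN1 (lt_of_le_of_ne hN1E fun e => by
      rw [← e, hc1] at hE
      nlinarith [hp'.two_le])
    rw [hc1, ← pow_two] at hc2
    exact ⟨N2, hN2, ⟨IsPGroup.isMulCommutative_of_card_eq_prime_sq hc2, fun a ha => hEexp a (hN2E ha)⟩, hc2⟩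
  · -- `H` is cyclic
    push Not at hE
    have hEc : Nat.card E ∣ p := by
      obtain ⟨i, hi⟩ := (hR.to_subgroup E).exists_card_eq
      rw [hi] at hE ⊢
      have : i < 2 := (Nat.pow_lt_pow_iff_right hp'.one_lt).mp hE
      interval_cases i <;> simp
    have huniq : CfsgLib.UniqueOrderP.Uniq p ↥H := by
      intro a b ha hb
      have hmem : ∀ w : ↥H, orderOf w = p → (w : R) ∈ E := fun w hw => Subgroup.subset_closure
        ⟨w.2, by rw [← Subgroup.coe_pow, ← hw, pow_orderOf_eq_one, Subgroup.coe_one]⟩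
      have hz : Subgroup.zpowers (a : R) = E := Subgroup.eq_of_le_of_card_ge (Subgroup.zpowers_le.mpr (hmem a ha))
        (by rw [Nat.card_zpowers, Subgroup.orderOf_coe, ha]; exact Nat.le_of_dvd hp'.pos hEc)
      obtain ⟨i, hi⟩ := (hz.symm ▸ hmem b hb : (b : R) ∈ Subgroup.zpowers (a : R))
      exact ⟨i, Subtype.ext (by simpa using hi)⟩
    have hHc : IsCyclic ↥H := by
      rcases CfsgLib.UniqueOrderP.cyclic_or_quaternion (hR.to_subgroup H) huniq with h | ⟨h, -⟩
      · exact h
      · exact absurd h hp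
    have hHtop : H ≠ ⊤ := fun e => hnc (by
      subst e
      exact (Subgroup.topEquiv (G := R)).isCyclic.mp hHc)
    obtain ⟨x, -, hxH, hxg, hxp⟩ := CfsgLib.PStep.exists_step hR H ⊤ hHtop.lt_top
    set M := H ⊔ Subgroup.zpowers x with hMdef
    have hMn : M.Normal := ⟨fun u hu g => by
      have hle : M.map (MulAut.conj g).toMonoidHom ≤ M := by
        rw [Subgroup.map_sup, MonoidHom.map_zpowers]
        refine sup_le ?_ (Subgroup.zpowers_le.mpr ?_)
        · rintro _ ⟨a, ha, rfl⟩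
          exact Subgroup.mem_sup_left ((inferInstance : H.Normal).conj_mem a ha g)
        · have := Subgroup.mul_mem_sup (hxg g) (Subgroup.mem_zpowers x)
          simpa [mul_assoc] using this
      exact hle ⟨u, hu, rfl⟩⟩
    have hMcard := CfsgLib.PStep.card_sup_zpowers H x hxH hxp
    have hidx : (H.subgroupOf M).index = p := by
      have h1 := (H.subgroupOf M).card_mul_index
      rw [Nat.card_congr (Subgroup.subgroupOfEquivOfLe (le_sup_left : H ≤ M)).toEquiv, hMcard, mul_comm p] at h1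
      exact Nat.eq_of_mul_eq_mul_left Nat.card_pos h1
    have hMnc : ¬ IsCyclic ↥M := fun hc => hxH (hC (Subgroup.mem_centralizer_iff.mpr fun h hh => by
      haveI := hc
      exact congrArg Subtype.val (IsCyclic.commGroup.mul_comm (⟨h, Subgroup.mem_sup_left hh⟩ : M)
        ⟨x, Subgroup.mem_sup_right (Subgroup.mem_zpowers x)⟩)))
    obtain ⟨hel, hcard⟩ := Cfsg.Agent.S0127.result hp (hR.to_subgroup M) hMnc (H.subgroupOf M)
      ((Subgroup.subgroupOfEquivOfLe (le_sup_left : H ≤ M)).isCyclic.mpr hHc) hidx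
    refine ⟨_, hnormal M hMn, ?_, ?_⟩
    · rw [← hmapeq]
      refine ⟨⟨⟨?_⟩⟩, ?_⟩
      · rintro ⟨_, a, ha, rfl⟩ ⟨_, b, hb, rfl⟩
        have h5 := hel.1.is_comm.comm (⟨a, ha⟩ : Subgroup.closure {z : ↥M | z ^ p = 1}) ⟨b, hb⟩
        have hab : a * b = b * a := congrArg Subtype.val h5
        exact Subtype.ext ((map_mul M.subtype a b).symm.trans ((congrArg M.subtype hab).trans (map_mul M.subtype b a)))
      · rintro _ ⟨a, ha, rfl⟩
        rw [← map_pow, hel.2 a ha, map_one]
    · rw [← hmapeq, Subgroup.card_map_of_injective M.subtype_injective, hcard]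

end Cfsg.Agent.S0126
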