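import Cfsg.Statements.S0129
import Cfsg.Agent.Lib.FocalTransfer

set_option autoImplicit false
set_option linter.style.haveILetI false
open Cfsg

namespace Cfsg.Agent.S0129

open scoped Pointwise

/-- A nontrivial normal subgroup of a finite `p`-group meets the centre. -/
theorem normal_inf_center_ne_bot {p : ℕ} [Fact p.Prime] {P : Type*} [Group P] [Finite P] (hP : IsPGroup p P)
    {N : Subgroup P} (hN : N.Normal) (hNe : N ≠ ⊥) : N ⊓ Subgroup.center P ≠ ⊥ := by
  letI : MulAction P ↥N := MulAction.compHom ↥N (MulAut.conjNormal : P →* MulAut ↥N)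
  haveI : Nontrivial ↥N := (Subgroup.nontrivial_iff_ne_bot N).mpr hNe
  obtain ⟨k, hk0, hk⟩ := (hP.to_subgroup N).nontrivial_iff_card.mp inferInstance
  have h1 : (1 : ↥N) ∈ MulAction.fixedPoints P ↥N := fun g => map_one (MulAut.conjNormal (H := N) g)
  obtain ⟨z, hz, hz1⟩ := hP.exists_fixed_point_of_prime_dvd_card_of_fixed_point ↥N (hk ▸ dvd_pow_self p hk0.ne') h1
  rw [Subgroup.ne_bot_iff_exists_ne_one]
  refine ⟨⟨z, z.2, Subgroup.mem_center_iff.mpr fun g => ?_⟩, fun e => hz1 ?_⟩
  · have h : (MulAut.conjNormal g z : P) = z := congrArg Subtype.val (hz g)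
    rw [MulAut.conjNormal_apply] at h
    exact mul_inv_eq_iff_eq_mul.mp h
  · exact (Subtype.ext (congrArg (fun w : ↥(N ⊓ Subgroup.center P) => (w : P)) e) : z = 1).symm

theorem relIndex_le_orbit {G : Type*} [Group G] [Finite G] (H : Subgroup G) (x : G) (S : Set G) (hS : S.Finite)
    (h : ∀ g ∈ H, g * x * g⁻¹ ∈ S) :
    (Subgroup.centralizer ({x} : Set G)).relIndex H ≤ S.ncard := by
  classical
  let f : ↥H ⧸ (Subgroup.centralizer ({x} : Set G)).subgroupOf H → S :=
    Quotient.lift (fun g => ⟨(g : G) * x * (g : G)⁻¹, h g g.2⟩) (fun a b hab => by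
      apply Subtype.ext
      have hmem := QuotientGroup.leftRel_apply.mp hab
      rw [Subgroup.mem_subgroupOf, Subgroup.mem_centralizer_singleton_iff] at hmem
      show (a : G) * x * (a : G)⁻¹ = (b : G) * x * (b : G)⁻¹
      simp only [Subgroup.coe_mul, Subgroup.coe_inv] at hmem
      calc (a : G) * x * (a : G)⁻¹ = (a : G) * (x * ((a : G)⁻¹ * b)) * (b : G)⁻¹ := by group
        _ = (a : G) * ((a : G)⁻¹ * b * x) * (b : G)⁻¹ := by rw [hmem]
        _ = _ := by group)
  have hf : Function.Injective f := by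
    intro a b
    induction a using Quotient.inductionOn with | _ a =>
    induction b using Quotient.inductionOn with | _ b =>
    intro e
    apply QuotientGroup.eq.mpr
    rw [Subgroup.mem_subgroupOf, Subgroup.mem_centralizer_singleton_iff]
    have e' : (a : G) * x * (a : G)⁻¹ = (b : G) * x * (b : G)⁻¹ := congrArg Subtype.val e
    simp only [Subgroup.coe_mul, Subgroup.coe_inv]
    calc (a : G)⁻¹ * b * x = (a : G)⁻¹ * ((b : G) * x * (b : G)⁻¹) * b := by group
      _ = (a : G)⁻¹ * ((a : G) * x * (a : G)⁻¹) * b := by rw [e']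
      _ = _ := by group
  haveI := hS.to_subtype
  rw [← Nat.card_coe_set_eq]
  exact Nat.card_le_card_of_injective f hf

theorem exists_step {G : Type*} [Group G] [Finite G] {p : ℕ} [Fact p.Prime] (hG : IsPGroup p G)
    (N A : Subgroup G) [N.Normal] [A.Normal] (h : N < A) :
    ∃ x ∈ A, x ∉ N ∧ (∀ g : G, g * x * g⁻¹ * x⁻¹ ∈ N) ∧ x ^ p ∈ N := by
  have hp : p.Prime := Fact.out
  set B := A.map (QuotientGroup.mk' N) with hB
  haveI : B.Normal := Subgroup.Normal.map inferInstance _ (QuotientGroup.mk'_surjective N)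
  obtain ⟨a, haA, haN⟩ := SetLike.exists_of_lt h
  have hBne : B ≠ ⊥ := fun e => haN ((QuotientGroup.eq_one_iff a).mp
    (Subgroup.mem_bot.mp (e ▸ Subgroup.mem_map_of_mem _ haA)))
  have hQ : IsPGroup p (G ⧸ N) := hG.to_quotient N
  obtain ⟨z, ⟨hzB, hzZ⟩, hz1⟩ := (B ⊓ Subgroup.center (G ⧸ N)).bot_or_exists_ne_one.resolve_left
    (normal_inf_center_ne_bot hQ inferInstance hBne)
  obtain ⟨k, hk⟩ := IsPGroup.iff_orderOf.mp hQ z
  have hk0 : k ≠ 0 := fun e => hz1 (orderOf_eq_one_iff.mp (by rw [hk, e, pow_zero]))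
  obtain ⟨k', rfl⟩ := Nat.exists_eq_succ_of_ne_zero hk0
  obtain ⟨y, hy, hyz⟩ := Subgroup.mem_map.mp (pow_mem hzB (p ^ k'))
  have hne : z ^ p ^ k' ≠ 1 := fun e => by
    have := orderOf_dvd_of_pow_eq_one e
    rw [hk] at this
    exact absurd (Nat.le_of_dvd (pow_pos hp.pos _) this)
      (not_le.mpr (Nat.pow_lt_pow_right hp.one_lt (Nat.lt_succ_self k')))
  refine ⟨y, hy, fun hyN => hne (hyz ▸ (QuotientGroup.eq_one_iff y).mpr hyN), fun g => ?_, ?_⟩
  · refine (QuotientGroup.eq_one_iff _).mp ?_
    show QuotientGroup.mk' N (g * y * g⁻¹ * y⁻¹) = 1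
    have := Subgroup.mem_center_iff.mp (pow_mem hzZ (p ^ k')) (QuotientGroup.mk' N g)
    rw [← hyz] at this
    simp only [map_mul, map_inv, this]
    group
  · refine (QuotientGroup.eq_one_iff _).mp ?_
    show QuotientGroup.mk' N (y ^ p) = 1
    rw [map_pow, hyz, ← pow_mul, ← pow_succ, ← hk, pow_orderOf_eq_one]

theorem card_sup_zpowers {G : Type*} [Group G] [Finite G] {p : ℕ} [Fact p.Prime]
    (N : Subgroup G) [N.Normal] (x : G) (hxN : x ∉ N) (hp : x ^ p ∈ N) :
    Nat.card ↥(N ⊔ Subgroup.zpowers x) = p * Nat.card ↥N := by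
  set K := N ⊔ Subgroup.zpowers x
  have hmap : K.map (QuotientGroup.mk' N) = Subgroup.zpowers (QuotientGroup.mk' N x) := by
    rw [Subgroup.map_sup, MonoidHom.map_zpowers, (Subgroup.map_eq_bot_iff _).mpr (QuotientGroup.ker_mk' N).ge, bot_sup_eq]
  have hord : orderOf (QuotientGroup.mk' N x) = p :=
    orderOf_eq_prime (by rw [← map_pow]; exact (QuotientGroup.eq_one_iff _).mpr hp)
      (fun e => hxN ((QuotientGroup.eq_one_iff x).mp e))
  have hcard : Nat.card ↥(K.map (QuotientGroup.mk' N)) = p := by rw [hmap, Nat.card_zpowers, hord]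
  have h1 := (N.subgroupOf K).card_mul_index
  rw [Nat.card_congr (Subgroup.subgroupOfEquivOfLe (le_sup_left : N ≤ K)).toEquiv] at h1
  have h2 := Subgroup.relIndex_ker (QuotientGroup.mk' N) (K := K)
  rw [QuotientGroup.ker_mk', hcard] at h2
  rw [show (N.subgroupOf K).index = p from h2, mul_comm] at h1
  exact h1.symm


/-- The order of a p-group is bounded by p^(a(a+1)/2) when it has a maximal normal abelian subgroup of order p^a. -/
theorem result {G : Type*} [Group G] [Finite G] {p : ℕ} [Fact p.Prime] (hG : IsPGroup p G) (A : Subgroup G) [A.Normal] (hA : IsMulCommutative A) (hmax : ∀ B : Subgroup G, B.Normal → IsMulCommutative B → A ≤ B → B = A) (a : ℕ) (ha : Nat.card A = p ^ a) : Nat.card G ≤ p ^ (a * (a + 1) / 2) := by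
  classical
  have hp : p.Prime := Fact.out
  have main : ∀ j, j ≤ a → ∃ N : Subgroup G, N.Normal ∧ N ≤ A ∧ Nat.card N = p ^ j ∧
      (Subgroup.centralizer (N : Set G)).index ≤ p ^ (j * (j - 1) / 2) := by
    intro j
    induction j with
    | zero =>
      intro _
      refine ⟨⊥, inferInstance, bot_le, by simp, ?_⟩
      have : Subgroup.centralizer ((⊥ : Subgroup G) : Set G) = ⊤ :=
        top_le_iff.mp fun g _ => Subgroup.mem_centralizer_iff.mpr fun h hh => by
          rw [Subgroup.mem_bot.mp hh, one_mul, mul_one]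
      rw [this, Subgroup.index_top]; exact Nat.one_le_pow _ _ hp.pos
    | succ j ih =>
      intro hj
      obtain ⟨N, hN, hNA, hcard, hidx⟩ := ih (by omega)
      haveI := hN
      have hlt : N < A := lt_of_le_of_ne hNA fun e => by
        rw [e, ha] at hcard
        have := Nat.pow_right_injective hp.two_le hcard
        omega
      obtain ⟨x, hxA, hxN, hcomm, hxp⟩ := exists_step hG N A hlt
      refine ⟨N ⊔ Subgroup.zpowers x, ⟨fun u hu g => ?_⟩, sup_le hNA (Subgroup.zpowers_le.mpr hxA),
        by rw [card_sup_zpowers N x hxN hxp, hcard, pow_succ, mul_comm], ?_⟩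
      · have hle : (N ⊔ Subgroup.zpowers x).map (MulAut.conj g).toMonoidHom ≤ N ⊔ Subgroup.zpowers x := by
          rw [Subgroup.map_sup, MonoidHom.map_zpowers]
          refine sup_le ?_ (Subgroup.zpowers_le.mpr ?_)
          · rintro _ ⟨n, hn, rfl⟩
            exact Subgroup.mem_sup_left (hN.conj_mem n hn g)
          · have := Subgroup.mul_mem_sup (hcomm g) (Subgroup.mem_zpowers x)
            simpa [mul_assoc] using this
        exact hle ⟨u, hu, rfl⟩
      · have hce : Subgroup.centralizer ((N ⊔ Subgroup.zpowers x : Subgroup G) : Set G)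
            = Subgroup.centralizer ({x} : Set G) ⊓ Subgroup.centralizer (N : Set G) := by
          apply le_antisymm
          · exact le_inf (Subgroup.centralizer_le (by simpa using Subgroup.mem_sup_right (Subgroup.mem_zpowers x)))
              (Subgroup.centralizer_le (le_sup_left : N ≤ _))
          · rintro g ⟨hgx, hgN⟩
            have : N ⊔ Subgroup.zpowers x ≤ Subgroup.centralizer ({g} : Set G) :=
              sup_le (fun n hn => Subgroup.mem_centralizer_singleton_iff.mpr (Subgroup.mem_centralizer_iff.mp hgN n hn))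
                (Subgroup.zpowers_le.mpr (Subgroup.mem_centralizer_singleton_iff.mpr (Subgroup.mem_centralizer_singleton_iff.mp hgx).symm))
            exact Subgroup.mem_centralizer_iff.mpr fun u hu => Subgroup.mem_centralizer_singleton_iff.mp (this hu)
        have hrel : (Subgroup.centralizer ({x} : Set G) ⊓ Subgroup.centralizer (N : Set G)).relIndex
            (Subgroup.centralizer (N : Set G)) ≤ p ^ j := by
          rw [Subgroup.inf_relIndex_right, ← hcard]
          refine (relIndex_le_orbit _ x ((fun n => n * x) '' (N : Set G)) (Set.toFinite _) fun g _ =>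
            ⟨g * x * g⁻¹ * x⁻¹, hcomm g, by group⟩).trans ?_
          refine (Set.ncard_image_le (Set.toFinite _)).trans ?_
          exact (Nat.card_coe_set_eq (N : Set G)).ge
        rw [hce, ← Subgroup.relIndex_mul_index (inf_le_right : Subgroup.centralizer ({x} : Set G) ⊓ Subgroup.centralizer (N : Set G) ≤ _)]
        refine (Nat.mul_le_mul hrel hidx).trans_eq ?_
        rw [← pow_add, ← Finset.sum_range_id, ← Finset.sum_range_id, Finset.sum_range_succ, add_comm]
  obtain ⟨N, -, hNA, hcard, hidx⟩ := main a le_rfl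
  have hNeq : N = A := Subgroup.eq_of_le_of_card_ge hNA (by rw [hcard, ha])
  subst hNeq
  have hCA : Subgroup.centralizer (N : Set G) = N := by
    by_contra hne
    have hAC : N ≤ Subgroup.centralizer (N : Set G) := fun u hu => Subgroup.mem_centralizer_iff.mpr fun v hv =>
      congrArg Subtype.val (hA.is_comm.comm (⟨v, hv⟩ : N) ⟨u, hu⟩)
    haveI : (Subgroup.centralizer (N : Set G)).Normal := Subgroup.normal_centralizer
    obtain ⟨x, hx, hxN, hcomm, hxp⟩ := exists_step hG N _ (lt_of_le_of_ne hAC (Ne.symm hne))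
    set B := N ⊔ Subgroup.zpowers x
    have hBn : B.Normal := ⟨fun u hu g => by
      have hle : B.map (MulAut.conj g).toMonoidHom ≤ B := by
        rw [Subgroup.map_sup, MonoidHom.map_zpowers]
        refine sup_le ?_ (Subgroup.zpowers_le.mpr ?_)
        · rintro _ ⟨n, hn, rfl⟩
          exact Subgroup.mem_sup_left ((inferInstance : N.Normal).conj_mem n hn g)
        · have := Subgroup.mul_mem_sup (hcomm g) (Subgroup.mem_zpowers x)
          simpa [mul_assoc] using this
      exact hle ⟨u, hu, rfl⟩⟩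
    have hBc : IsMulCommutative B := by
      have e : B = Subgroup.closure ((N : Set G) ∪ {x}) := by
        rw [Subgroup.closure_union, Subgroup.closure_eq, ← Subgroup.zpowers_eq_closure]
      rw [e]
      refine Subgroup.isMulCommutative_closure ?_
      rintro u (hu | rfl) v (hv | rfl)
      · exact congrArg Subtype.val (hA.is_comm.comm (⟨u, hu⟩ : N) ⟨v, hv⟩)
      · exact Subgroup.mem_centralizer_iff.mp hx u hu
      · exact (Subgroup.mem_centralizer_iff.mp hx v hv).symm
      · rfl
    exact hxN ((hmax B hBn hBc le_sup_left).le (Subgroup.mem_sup_right (Subgroup.mem_zpowers x)))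
  rw [hCA] at hidx
  calc Nat.card G = Nat.card N * N.index := N.card_mul_index.symm
    _ ≤ p ^ a * p ^ (a * (a - 1) / 2) := Nat.mul_le_mul ha.le hidx
    _ = _ := by rw [← pow_add, ← Finset.sum_range_id, Nat.add_comm, ← Finset.sum_range_succ, Finset.sum_range_id, Nat.add_sub_cancel, mul_comm]

end Cfsg.Agent.S0129
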