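import Cfsg.Statements.S0341
import Mathlib
import Cfsg.Agent.Lib.Perm.Zassenhaus
import Cfsg.Agent.Lib.GroupB.FrobType

set_option autoImplicit false
open Cfsg

namespace Cfsg.Agent.S0341

open scoped Pointwise

/-- a nilpotent group of odd order acting fixed point freely on a group is cyclic. -/
theorem isCyclic_of_fpf {N K : Type*} [Group N] [Group K] [Finite N] [Finite K] [Nontrivial N]
    (φ : K →* MulAut N) (hnil : Group.IsNilpotent K) (hodd : Odd (Nat.card K))
    (hfpf : ∀ k : K, k ≠ 1 → ∀ n : N, φ k n = n → n = 1) : IsCyclic K := by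
  by_cases hK : Subsingleton K
  · infer_instance
  haveI : Nontrivial K := not_subsingleton_iff_nontrivial.mp hK
  haveI : Finite (N ⋊[φ] K) := Finite.of_equiv _ (SemidirectProduct.equivProd).symm
  set C := (SemidirectProduct.inr : K →* N ⋊[φ] K).range
  set M := (SemidirectProduct.inl : N →* N ⋊[φ] K).range
  haveI : M.Normal := by
    have : M = (SemidirectProduct.rightHom : N ⋊[φ] K →* K).ker := SemidirectProduct.range_inl_eq_ker_rightHom
    rw [this]; infer_instance
  have hc : Subgroup.IsComplement' M C := by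
    refine Subgroup.isComplement'_of_disjoint_and_mul_eq_univ ?_ ?_
    · rw [disjoint_iff, eq_bot_iff]
      rintro x ⟨⟨n, rfl⟩, k, hk⟩
      rw [Subgroup.mem_bot]
      have h1 := congrArg SemidirectProduct.right hk
      have h2 := congrArg SemidirectProduct.left hk
      simp at h1 h2
      rw [← h2]; simp
    · rw [Set.eq_univ_iff_forall]
      intro x
      exact Set.mem_mul.mpr ⟨_, ⟨x.left, rfl⟩, _, ⟨x.right, rfl⟩, SemidirectProduct.inl_left_mul_inr_right x⟩
  have hFC : Cfsg.IsFrobeniusComplement C := by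
    refine CfsgLib.GroupB.FrobBasic.isFrobeniusComplement_of_fpf M hc ?_ ?_ ?_
    · intro e
      obtain ⟨n, hn⟩ := exists_ne (1 : N)
      have : SemidirectProduct.inl n ∈ (⊥ : Subgroup (N ⋊[φ] K)) := e ▸ ⟨n, rfl⟩
      exact hn (SemidirectProduct.inl_injective ((Subgroup.mem_bot.mp this).trans (map_one _).symm))
    · intro e
      obtain ⟨k, hk⟩ := exists_ne (1 : K)
      have : SemidirectProduct.inr k ∈ (⊥ : Subgroup (N ⋊[φ] K)) := e ▸ ⟨k, rfl⟩
      exact hk (SemidirectProduct.inr_injective ((Subgroup.mem_bot.mp this).trans (map_one _).symm))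
    · rintro _ ⟨k, rfl⟩ hk _ ⟨n, rfl⟩ e
      have h2 := congrArg SemidirectProduct.left e
      simp at h2
      rw [hfpf k (fun e' => hk (by rw [e', map_one])) n h2, map_one]
  have hsmall := CfsgLib.GroupB.FrobType.smallSylow hFC
  let e : K ≃* C := MonoidHom.ofInjective SemidirectProduct.inr_injective
  haveI : IsZGroup C := ⟨fun p hp P => by
    by_cases hp2 : p = 2
    · subst hp2
      have h2 : ¬ 2 ∣ Nat.card C := by
        rw [← Nat.card_congr e.toEquiv]
        obtain ⟨j, hj⟩ := hodd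
        omega
      haveI : Fact (Nat.Prime 2) := ⟨Nat.prime_two⟩
      have : Nat.card P = 1 := by
        obtain ⟨n, hn⟩ := IsPGroup.iff_card.mp P.2
        rcases n with _ | n
        · simpa using hn
        · exact absurd ((dvd_pow_self 2 (Nat.succ_ne_zero n)).trans (hn ▸ Subgroup.card_subgroup_dvd_card _)) h2
      haveI : Subsingleton P := (Nat.card_eq_one_iff_unique.mp this).1
      infer_instance
    · exact hsmall.1 p P hp hp2 P.2⟩
  haveI : Group.IsNilpotent C := Group.nilpotent_of_mulEquiv e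
  haveI : IsCyclic C := inferInstance
  exact isCyclic_of_surjective e.symm e.symm.surjective

theorem conjAdd {V : Type*} [AddCommGroup V] (e : V ≃+ V) :
    ∃ f : AddMonoid.End V →+* AddMonoid.End V, ∀ T x, f T x = e (T (e.symm x)) := by
  refine ⟨{ toFun := fun T => (e.toAddMonoidHom.comp (T : V →+ V)).comp e.symm.toAddMonoidHom
            map_one' := by ext x; exact e.apply_symm_apply x
            map_mul' := fun S T => by
              ext x
              show e (S (T (e.symm x))) = e (S (e.symm (e (T (e.symm x)))))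
              rw [e.symm_apply_apply]
            map_zero' := by ext x; exact map_zero e
            map_add' := fun S T => by
              ext x
              exact map_add e _ _ }, fun T x => rfl⟩

theorem frob_card {R : Type*} [Ring R] [Finite R] (hF : IsField R) (α : RingAut R) {s : ℕ} (hs : s.Prime)
    (hαs : α ^ s = 1) (hα1 : α ≠ 1) (hfix : ∀ T, α T = T → T = 0 ∨ T = 1) : Nat.card R = 2 ^ s := by
  classical
  letI : Field R := hF.toField
  haveI := Fact.mk hs
  have hoα : orderOf α = s := orderOf_eq_prime hαs hα1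
  haveI : Finite (RingAut R) := Finite.of_injective (fun e : RingAut R => (e : R → R)) DFunLike.coe_injective
  haveI : Fintype (Subgroup.zpowers α) := Fintype.ofFinite _
  have hfr := FixedPoints.finrank_eq_card (Subgroup.zpowers α) R
  rw [← Nat.card_eq_fintype_card, Nat.card_zpowers, hoα] at hfr
  have hsub : Nat.card (FixedPoints.subfield (Subgroup.zpowers α) R) = 2 := by
    rw [Nat.card_eq_two_iff]
    refine ⟨0, 1, zero_ne_one, Set.eq_univ_iff_forall.mpr fun T => ?_⟩
    rcases hfix (T : R) (T.2 ⟨α, Subgroup.mem_zpowers α⟩) with e | e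
    · exact Or.inl (Subtype.ext e)
    · exact Or.inr (Subtype.ext e)
  have hc := Module.natCard_eq_pow_finrank (K := FixedPoints.subfield (Subgroup.zpowers α) R) (V := R)
  rw [hsub, hfr] at hc
  exact hc

/-- the field structure: a cyclic regular automorphism group and a complementary fixer. -/
theorem card_eq {V : Type*} [AddCommGroup V] [Finite V] (v₀ : V) (hv₀ : v₀ ≠ 0) (g h : V ≃+ V)
    (hg : ∀ v : V, v ≠ 0 → ∃ i : ℕ, (g : V → V)^[i] v₀ = v)
    (hr : ∃ r : ℕ, ∀ x, h (g x) = (g : V → V)^[r] (h x))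
    (hh0 : h v₀ = v₀) (hfix : ∀ v, h v = v → v = 0 ∨ v = v₀) {s : ℕ} (hs : s.Prime)
    (hord : ∀ x, (h : V → V)^[s] x = x) (hne : ∃ x, h x ≠ x) : Nat.card V = 2 ^ s := by
  classical
  let G0 : AddMonoid.End V := g.toAddMonoidHom
  have hG0 : ∀ (i : ℕ) x, (G0 ^ i) x = (g : V → V)^[i] x := by
    intro i; induction i with
    | zero => intro x; rfl
    | succ i ih => intro x; rw [pow_succ', Function.iterate_succ_apply', ← ih]; rfl
  let R : Subring (AddMonoid.End V) := Subring.closure {G0}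
  have hcomm : ∀ a b : R, a * b = b * a := by
    intro a b
    have := Subring.closure_le.mpr (show ({G0} : Set (AddMonoid.End V)) ⊆ Subring.centralizer {G0} by
      intro x hx; rw [Set.mem_singleton_iff] at hx; subst hx
      exact Subring.mem_centralizer_iff.mpr fun y hy => by rw [Set.mem_singleton_iff] at hy; subst hy; rfl)
    have hb : ({G0} : Set (AddMonoid.End V)) ⊆ Subring.centralizer {(a : AddMonoid.End V)} := by
      intro x hx; rw [Set.mem_singleton_iff] at hx; subst hx
      exact Subring.mem_centralizer_iff.mpr fun y hy => by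
        rw [Set.mem_singleton_iff] at hy; subst hy
        exact ((Subring.mem_centralizer_iff.mp (this a.2)) _ rfl).symm
    exact Subtype.ext ((Subring.mem_centralizer_iff.mp ((Subring.closure_le.mpr hb) b.2)) _ rfl)
  let ev : R → V := fun T => (T : AddMonoid.End V) v₀
  have hinj : ∀ T : R, ev T = 0 → T = 0 := by
    intro T hT
    apply Subtype.ext
    ext x
    show (T : AddMonoid.End V) x = 0
    rcases eq_or_ne x 0 with rfl | hx
    · exact map_zero _
    obtain ⟨i, rfl⟩ := hg x hx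
    have e := congrArg (fun S : R => (S : AddMonoid.End V) v₀) (hcomm T (⟨G0, Subring.subset_closure rfl⟩ ^ i))
    simp only [Subring.coe_mul, SubmonoidClass.coe_pow] at e
    have e' : (T : AddMonoid.End V) ((G0 ^ i) v₀) = (G0 ^ i) ((T : AddMonoid.End V) v₀) := e
    rw [← hG0, e', show (T : AddMonoid.End V) v₀ = 0 from hT, map_zero]
  let gR : R := ⟨G0, Subring.subset_closure rfl⟩
  have hunit : ∀ T : R, T ≠ 0 → ∃ i : ℕ, T = gR ^ i := by
    intro T hT
    obtain ⟨i, hi⟩ := hg (ev T) (fun e => hT (hinj T e))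
    refine ⟨i, sub_eq_zero.mp (hinj _ ?_)⟩
    show ((T - gR ^ i : R) : AddMonoid.End V) v₀ = 0
    simp only [AddSubgroupClass.coe_sub, SubmonoidClass.coe_pow]
    show (T : AddMonoid.End V) v₀ - (G0 ^ i) v₀ = 0
    rw [hG0, hi, sub_self]
  have evbij : Function.Bijective ev := by
    constructor
    · intro a b e
      refine sub_eq_zero.mp (hinj _ ?_)
      show ((a - b : R) : AddMonoid.End V) v₀ = 0
      simp only [AddSubgroupClass.coe_sub]
      exact sub_eq_zero.mpr e
    · intro v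
      rcases eq_or_ne v 0 with rfl | hv
      · exact ⟨0, rfl⟩
      · obtain ⟨i, hi⟩ := hg v hv
        exact ⟨gR ^ i, by show ((gR ^ i : R) : AddMonoid.End V) v₀ = v; rw [SubmonoidClass.coe_pow]; exact (hG0 i v₀).trans hi⟩
  haveI : Nontrivial R := ⟨1, 0, fun e => hv₀ (congrArg ev e)⟩
  haveI : Finite R := Finite.of_injective ev evbij.1
  have hF : IsField R := by
    refine ⟨⟨1, 0, one_ne_zero⟩, hcomm, fun {a} ha => ?_⟩
    -- multiplication by `a` is injective, hence surjective
    have hinja : Function.Injective (fun b : R => a * b) := by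
      intro b c e
      obtain ⟨i, rfl⟩ := hunit a ha
      refine evbij.1 ?_
      have e' : (G0 ^ i) (ev b) = (G0 ^ i) (ev c) := congrArg ev e
      rw [hG0, hG0] at e'
      exact (g.injective.iterate i) e'
    obtain ⟨b, hb⟩ := (Finite.injective_iff_surjective.mp hinja) 1
    exact ⟨b, hb⟩
  obtain ⟨f, hf⟩ := conjAdd h
  obtain ⟨r, hr⟩ := hr
  have e : f G0 = G0 ^ r := by
    refine DFunLike.ext _ _ fun x => ?_
    rw [hf, hG0]
    show h (g (h.symm x)) = _
    rw [hr, h.apply_symm_apply]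
  have hG0R : G0 ∈ Subring.closure ({G0} : Set (AddMonoid.End V)) := Subring.subset_closure (Set.mem_singleton _)
  have hle : (Subring.closure ({G0} : Set (AddMonoid.End V))).map f ≤ Subring.closure ({G0} : Set (AddMonoid.End V)) := by
    rw [RingHom.map_closure, Subring.closure_le, Set.image_singleton, Set.singleton_subset_iff, SetLike.mem_coe, e]
    exact pow_mem hG0R r
  have hfR : ∀ T ∈ R, f T ∈ R := fun T hT => hle (Subring.mem_map.mpr ⟨T, hT, rfl⟩)
  let α₀ : R →+* R := (f.comp R.subtype).codRestrict R (fun T => hfR T T.2)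
  have hα₀ : Function.Injective α₀ := fun T T' eT => Subtype.ext (DFunLike.ext _ _ fun x => by
    have e1 : f (T : AddMonoid.End V) (h x) = f (T' : AddMonoid.End V) (h x) :=
      congrArg (fun S : R => (S : AddMonoid.End V) (h x)) eT
    rw [hf, hf, h.symm_apply_apply] at e1
    exact h.injective e1)
  let α : RingAut R := RingEquiv.ofBijective α₀ ⟨hα₀, Finite.injective_iff_surjective.mp hα₀⟩
  have hev : ∀ T : R, ev (α T) = h (ev T) := fun T => by
    show f (T : AddMonoid.End V) v₀ = _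
    rw [hf, show h.symm v₀ = v₀ from h.symm_apply_eq.mpr hh0.symm]
  have hevn : ∀ (i : ℕ) (T : R), ev ((α ^ i) T) = (h : V → V)^[i] (ev T) := by
    intro i; induction i with
    | zero => intro T; rfl
    | succ i ih => intro T; rw [pow_succ', Function.iterate_succ_apply', ← ih, ← hev]; rfl
  have hαs : α ^ s = 1 := RingEquiv.ext fun T => evbij.1 (by rw [hevn, hord]; rfl)
  have hα1 : α ≠ 1 := fun e => by
    obtain ⟨x, hx⟩ := hne
    obtain ⟨T, rfl⟩ := evbij.2 x
    exact hx (by rw [← hev, e]; rfl)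
  rw [← Nat.card_eq_of_bijective ev evbij]
  refine frob_card hF α hs hαs hα1 fun T hT => ?_
  rcases hfix (ev T) (by rw [← hev, hT]) with e | e
  · exact Or.inl (hinj _ e)
  · exact Or.inr (evbij.1 (e.trans rfl))

open MulAction in
theorem main {G Ω : Type*} [Group G] [MulAction G Ω] [Fintype Ω] [FaithfulSMul G Ω]
    (h2 : IsMultiplyPretransitive G Ω 2) (h3 : CfsgLib.Zassenhaus.FixLe G Ω)
    (hfix : ∃ g : G, g ≠ 1 ∧ ∃ a b : Ω, a ≠ b ∧ g • a = a ∧ g • b = b)
    (N : Subgroup G) [N.Normal] (hNt : IsPretransitive N Ω) (hNr : ∀ a : Ω, stabilizer N a = ⊥) :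
    ∃ p : ℕ, p.Prime ∧ Fintype.card Ω = 2 ^ p := by
  classical
  haveI : Finite G := Finite.of_injective (fun g : G => (g • · : Ω → Ω))
    (fun g k e => FaithfulSMul.eq_of_smul_eq_smul (α := Ω) (congrFun e))
  have hreg : ∀ x ∈ N, ∀ a : Ω, x • a = a → x = 1 := fun x hx a e => by
    have : (⟨x, hx⟩ : N) ∈ stabilizer N a := e
    rw [hNr a, Subgroup.mem_bot] at this
    exact congrArg Subtype.val this
  have hcomm := CfsgLib.Zassenhaus.regular_center h2 N hNt hreg
  have hfix' := hfix
  obtain ⟨g₁, hg₁, a, b, hab, g₁a, g₁b⟩ := hfix'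
  have hpair : ∃ h₀ : G, ∃ s, Nat.Prime s ∧ h₀ ^ s = 1 ∧ h₀ ≠ 1 ∧ h₀ • a = a ∧ h₀ • b = b := by
    obtain ⟨s, hs, hsd⟩ := Nat.exists_prime_and_dvd (fun e => hg₁ (orderOf_eq_one_iff.mp e) : orderOf g₁ ≠ 1)
    have ho := orderOf_pow_orderOf_div (orderOf_pos g₁).ne' hsd
    refine ⟨g₁ ^ (orderOf g₁ / s), s, hs, ?_, fun e => ?_, ?_, ?_⟩
    · rw [← pow_mul, Nat.div_mul_cancel hsd, pow_orderOf_eq_one]
    · rw [e, orderOf_one] at ho; exact hs.ne_one ho.symm
    · exact mem_stabilizer_iff.mp (pow_mem (mem_stabilizer_iff.mpr g₁a) _)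
    · exact mem_stabilizer_iff.mp (pow_mem (mem_stabilizer_iff.mpr g₁b) _)
  obtain ⟨h₀, s, hs, hhs, hh1, ha, hb⟩ := hpair
  obtain ⟨K, hmemK, hKn, hKt, hKnil, hKcard⟩ := CfsgLib.Zassenhaus.exists_kernel h2 h3 hfix a
  have hconj : ∀ k : G, k • a = a → ∀ n ∈ N, k • n • a = (k * n * k⁻¹) • a := fun k hk n _ => by
    rw [mul_smul, mul_smul, show k⁻¹ • a = a from inv_smul_eq_iff.mpr hk.symm]
  have hinjN : ∀ x ∈ N, ∀ y ∈ N, x • a = y • a → x = y := fun x hx y hy e =>
    (inv_mul_eq_one.mp (hreg _ (mul_mem (inv_mem hy) hx) a (by rw [mul_smul, e, inv_smul_smul]))).symm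
  obtain ⟨⟨n₀, hn₀⟩, hn₀b⟩ := hNt.exists_smul_eq a b
  have hn₀b' : n₀ • a = b := hn₀b
  have hn₀1 : n₀ ≠ 1 := fun e => hab (by rw [← hn₀b', e, one_smul])
  have hC : ∀ n ∈ N, h₀ * n * h₀⁻¹ = n → n = 1 ∨ n = n₀ := by
    intro n hn e
    have hfx : h₀ • (n • a) = n • a := by rw [hconj h₀ ha n hn, e]
    by_cases h1 : n • a = a
    · exact Or.inl (hreg n hn a h1)
    by_cases h2' : n • a = b
    · exact Or.inr (hinjN n hn n₀ hn₀ (h2'.trans hn₀b'.symm))
    · exact absurd (h3 h₀ a b (n • a) hab (Ne.symm h2') (Ne.symm h1) ha hb hfx) hh1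
  have hhn₀ : h₀ * n₀ * h₀⁻¹ = n₀ :=
    hinjN _ (Subgroup.Normal.conj_mem inferInstance n₀ hn₀ h₀) n₀ hn₀ (by rw [← hconj h₀ ha n₀ hn₀, hn₀b', hb])
  have hsq₀ : n₀ * n₀ = 1 := by
    rcases hC (n₀ * n₀) (mul_mem hn₀ hn₀) (by
      rw [show h₀ * (n₀ * n₀) * h₀⁻¹ = (h₀ * n₀ * h₀⁻¹) * (h₀ * n₀ * h₀⁻¹) by group, hhn₀]) with e | e
    · exact e
    · exact absurd (mul_eq_left.mp e) hn₀1
  have htrK : ∀ n ∈ N, n ≠ 1 → ∃ k ∈ K, k * n₀ * k⁻¹ = n := by
    intro n hn hn1
    obtain ⟨k, hk, kb⟩ := hKt b (n • a) hab.symm (fun e => hn1 (hreg n hn a e))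
    refine ⟨k, hk, hinjN _ (Subgroup.Normal.conj_mem inferInstance n₀ hn₀ k) n hn ?_⟩
    rw [← hconj k ((hmemK k).mp hk).1 n₀ hn₀, hn₀b', kb]
  have hsq : ∀ n ∈ N, n * n = 1 := by
    intro n hn
    by_cases hn1 : n = 1
    · rw [hn1, one_mul]
    obtain ⟨k, -, rfl⟩ := htrK n hn hn1
    rw [show k * n₀ * k⁻¹ * (k * n₀ * k⁻¹) = k * (n₀ * n₀) * k⁻¹ by group, hsq₀]; group
  have hcardN : Nat.card N = Nat.card Ω :=
    Nat.card_eq_of_bijective (fun n : N => (n : G) • a) ⟨fun n m e => Subtype.ext (hinjN n n.2 m m.2 e),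
      fun x => hNt.exists_smul_eq a x⟩
  haveI : Nontrivial N := ⟨⟨⟨n₀, hn₀⟩, 1, fun e => hn₀1 (congrArg Subtype.val e)⟩⟩
  haveI : Fact (Nat.Prime 2) := ⟨Nat.prime_two⟩
  have hpow2 : ∃ k, Nat.card N = 2 ^ k :=
    IsPGroup.iff_card.mp fun n : N => ⟨1, Subtype.ext (by rw [pow_one, sq]; exact hsq n n.2)⟩
  have hodd : Odd (Nat.card K) := by
    obtain ⟨k, hk⟩ := hpow2
    have hk0 : k ≠ 0 := fun e => by
      have := Finite.one_lt_card (α := N)
      rw [hk, e] at this; simp at this
    obtain ⟨j, hj⟩ : 2 ∣ Nat.card N := hk ▸ dvd_pow_self 2 hk0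
    have : 0 < Nat.card N := Nat.card_pos
    exact ⟨j - 1, by omega⟩
  let φ : K →* MulAut N := (MulAut.conjNormal (H := N)).comp K.subtype
  have hφ : ∀ (k : K) (n : N), ((φ k n : N) : G) = (k : G) * (n : G) * (k : G)⁻¹ := fun k n =>
    MulAut.conjNormal_apply (k : G) n
  haveI := hKnil
  have hKcyc : IsCyclic K := isCyclic_of_fpf φ hKnil hodd (fun k hk n hn => by
    have e : (k : G) * (n : G) * (k : G)⁻¹ = n := (hφ k n).symm.trans (congrArg Subtype.val hn)
    by_contra hn1
    have hna : (n : G) • a ≠ a := fun e' => hn1 (Subtype.ext (hreg n n.2 a e'))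
    rcases ((hmemK k).mp k.2).2 with h1 | h1
    · exact hk (Subtype.ext h1)
    · exact h1 _ hna (by rw [hconj k ((hmemK k).mp k.2).1 n n.2, e]))
  obtain ⟨γ, hγ⟩ := IsCyclic.exists_monoid_generator (α := K)
  letI : CommGroup N := { (inferInstance : Group N) with mul_comm := fun x y => Subtype.ext (hcomm x x.2 y y.2) }
  let g : Additive N ≃+ Additive N := MulEquiv.toAdditive (φ γ)
  let hE : Additive N ≃+ Additive N := MulEquiv.toAdditive (MulAut.conjNormal h₀ : MulAut N)
  have hgi : ∀ (i : ℕ) (n : N), (g : Additive N → Additive N)^[i] (Additive.ofMul n) = Additive.ofMul (φ (γ ^ i) n) := by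
    intro i; induction i with
    | zero => intro n; rw [pow_zero, map_one]; rfl
    | succ i ih => intro n; rw [Function.iterate_succ_apply', ih, pow_succ', map_mul]; rfl
  have hhi : ∀ (i : ℕ) (x : Additive N), (hE : Additive N → Additive N)^[i] x =
      Additive.ofMul ((MulAut.conjNormal (h₀ ^ i) : MulAut N) (Additive.toMul x)) := by
    intro i; induction i with
    | zero => intro n; rw [pow_zero, map_one]; rfl
    | succ i ih => intro n; rw [Function.iterate_succ_apply', ih, pow_succ', map_mul]; rfl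
  have hhE : ∀ n : N, hE (Additive.ofMul n) = Additive.ofMul (MulAut.conjNormal h₀ n : N) := fun n => rfl
  refine ⟨s, hs, ?_⟩
  rw [← Nat.card_eq_fintype_card, ← hcardN, ← Nat.card_congr Additive.toMul]
  refine card_eq (Additive.ofMul ⟨n₀, hn₀⟩) (fun e => hn₀1 (congrArg Subtype.val (show (⟨n₀, hn₀⟩ : N) = 1 from e)))
    g hE ?_ ?_ ?_ ?_ hs ?_ ?_
  · intro v hv
    obtain ⟨k, hk, hkn⟩ := htrK (Additive.toMul v : N) (Additive.toMul v).2 (fun e => hv (by
      rw [← ofMul_toMul v, show Additive.toMul v = 1 from Subtype.ext e]; rfl))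
    obtain ⟨i, hi⟩ := (Submonoid.mem_powers_iff _ _).mp (hγ ⟨k, hk⟩)
    refine ⟨i, ?_⟩
    rw [hgi, hi, ← ofMul_toMul v]
    exact congrArg Additive.ofMul (Subtype.ext ((hφ _ _).trans hkn))
  · obtain ⟨r, hr⟩ := (Submonoid.mem_powers_iff _ _).mp (hγ ⟨h₀ * (γ : G) * h₀⁻¹, hKn h₀ ha _ γ.2⟩)
    refine ⟨r, fun x => ?_⟩
    rw [← ofMul_toMul x, hhE, hgi, hr]
    show hE (Additive.ofMul (φ γ (Additive.toMul x))) = _
    rw [hhE]
    refine congrArg Additive.ofMul (Subtype.ext ?_)
    simp only [hφ, MulAut.conjNormal_apply]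
    group
  · rw [hhE]
    exact congrArg Additive.ofMul (Subtype.ext ((MulAut.conjNormal_apply h₀ _).trans hhn₀))
  · intro v hv
    rw [← ofMul_toMul v] at hv ⊢
    rw [hhE] at hv
    have := congrArg Subtype.val (Additive.ofMul.injective hv)
    rw [MulAut.conjNormal_apply] at this
    rcases hC _ (Additive.toMul v).2 this with e | e
    · exact Or.inl (by rw [show Additive.toMul v = 1 from Subtype.ext e]; rfl)
    · exact Or.inr (congrArg Additive.ofMul (Subtype.ext e))
  · intro x; rw [hhi, hhs, map_one]; rfl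
  · by_contra hall; push Not at hall
    refine hh1 (FaithfulSMul.eq_of_smul_eq_smul (α := Ω) fun z => ?_)
    obtain ⟨n, rfl⟩ := hNt.exists_smul_eq a z
    have := congrArg Subtype.val (Additive.ofMul.injective ((hhE n).symm.trans (hall (Additive.ofMul n))))
    rw [MulAut.conjNormal_apply] at this
    show h₀ • (n : G) • a = (1 : G) • ((n : G) • a)
    rw [one_smul, hconj h₀ ha n n.2, this]

/-- If a finite group acts faithfully and doubly transitively, no non-identity element fixes three points, some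
non-identity element fixes two points, and some normal subgroup acts regularly, then the number of points
is `2^p` with `p` prime. -/
theorem result {G Ω : Type*} [Group G]
    [MulAction G Ω] [Fintype Ω] [FaithfulSMul G Ω] (h2 : MulAction.IsMultiplyPretransitive G Ω 2)
    (h3 : ∀ g : G, ∀ a b c : Ω, a ≠ b → b ≠ c → a ≠ c → g • a = a → g • b = b → g • c = c → g = 1)
    (hfix : ∃ g : G, g ≠ 1 ∧ ∃ a b : Ω, a ≠ b ∧ g • a = a ∧ g • b = b)
    (N : Subgroup G) [N.Normal] (hNt : MulAction.IsPretransitive N Ω)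
    (hNr : ∀ a : Ω, MulAction.stabilizer N a = ⊥) :
    ∃ p : ℕ, p.Prime ∧ Fintype.card Ω = 2 ^ p := by
  exact main h2 h3 hfix N hNt hNr

end Cfsg.Agent.S0341
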