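import Cfsg.Statements.S0577
import Cfsg.Agent.Lib.Schmidt
import Cfsg.Agent.Lib.Core

set_option autoImplicit false
open Cfsg

namespace Cfsg.Agent.S0577

/-- Let G be a finite minimal non-nilpotent group and Q a normal Sylow q-subgroup of G, and let D be the commutator subgroup of Q regarded in G (a normal subgroup). Then G modulo D is non-abelian and all its proper subgroups are abelian. -/
theorem result {G : Type*} [Group G] [Finite G] (hG : Cfsg.IsMinimalNonNilpotent G) (q : ℕ) [Fact q.Prime] (hq : q ∣ Nat.card G) (Q : Sylow q G) (hQ : (Q : Subgroup G).Normal) (D : Subgroup G) [D.Normal] (hD : D = (commutator ↥(Q : Subgroup G)).map (Q : Subgroup G).subtype) : ¬ IsMulCommutative (G ⧸ D) ∧ ∀ K : Subgroup (G ⧸ D), K ≠ ⊤ → IsMulCommutative K := by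
  obtain ⟨p, q', x, hp, hq', hpq, ⟨k, hk⟩, Q', hQ', hsup, hxC⟩ := CfsgLib.Schmidt.structure_thm hG
  haveI := Fact.mk hp
  haveI := Fact.mk hq'
  haveI := hQ'
  obtain ⟨P, hP⟩ := CfsgLib.Schmidt.exists_sylow_eq hpq hk Q' hsup
  -- the given prime is the one of the normal Sylow subgroup
  have hqq : q = q' := by
    by_contra hne
    have hqp : q = p := by
      have hcard : Nat.card G ∣ Nat.card ↥(P : Subgroup G) * Nat.card ↥(Q' : Subgroup G) := by
        have h1 := CfsgLib.Core.card_sup_dvd_of_normal (P : Subgroup G) (Q' : Subgroup G)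
        rw [hP, hsup, Subgroup.card_top] at h1
        rw [hP]; exact h1
      obtain ⟨i, hi⟩ := P.2.exists_card_eq
      obtain ⟨j, hj⟩ := Q'.2.exists_card_eq
      have h2 := hq.trans hcard
      rw [hi, hj] at h2
      rcases (Nat.Prime.dvd_mul (Fact.out : q.Prime)).mp h2 with h | h
      · exact (Nat.prime_dvd_prime_iff_eq Fact.out hp).mp ((Fact.out : q.Prime).dvd_of_dvd_pow h)
      · exact absurd ((Nat.prime_dvd_prime_iff_eq Fact.out hq').mp ((Fact.out : q.Prime).dvd_of_dvd_pow h)) hne
    subst hqp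
    haveI := hQ
    haveI := Sylow.unique_of_normal Q hQ
    have hQP : (Q : Subgroup G) = (P : Subgroup G) := by rw [Subsingleton.elim P Q]
    refine hxC (Subgroup.mem_centralizer_iff.mpr fun y hy => ?_)
    refine (Subgroup.commute_of_normal_of_disjoint _ _ hQ' hQ ?_ y x hy ?_).eq
    · obtain ⟨i, hi⟩ := Q'.2.exists_card_eq
      obtain ⟨j, hj⟩ := Q.2.exists_card_eq
      rw [disjoint_iff]
      exact Subgroup.inf_eq_bot_of_coprime (by rw [hi, hj]; exact ((Nat.coprime_primes hq' hp).mpr (Ne.symm hne)).pow i j)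
    · rw [hQP, hP]; exact Subgroup.mem_zpowers x
  subst hqq
  haveI := hQ
  haveI := Sylow.unique_of_normal Q hQ
  rw [Subsingleton.elim Q' Q] at hsup hxC
  have hDQ : D ≤ (Q : Subgroup G) := hD ▸ Subgroup.map_subtype_le _
  have hDcomm : ∀ u ∈ (Q : Subgroup G), ∀ v ∈ (Q : Subgroup G), u * v * u⁻¹ * v⁻¹ ∈ D := fun u hu v hv => by
    rw [hD]
    exact ⟨_, Subgroup.commutator_mem_commutator (Subgroup.mem_top (⟨u, hu⟩ : ↥(Q : Subgroup G)))
      (Subgroup.mem_top (⟨v, hv⟩ : ↥(Q : Subgroup G))), rfl⟩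
  have hDΦ : D ≤ frattini G := CfsgLib.Solvable.le_frattini_of_le_frattini_subgroup (U := (Q : Subgroup G))
    (hD.le.trans (Subgroup.map_mono (Cfsg.Agent.S0012.result q Q.isPGroup').1))
  constructor
  · intro hab
    have hPn : (P : Subgroup G).Normal := by
      have hcomm : ∀ g h : G, g * h * g⁻¹ * h⁻¹ ∈ D := fun g h => by
        rw [← QuotientGroup.eq_one_iff]
        simp only [QuotientGroup.mk_mul, QuotientGroup.mk_inv]
        rw [hab.is_comm.comm (g : G ⧸ D) (h : G ⧸ D)]
        group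
      haveI hnor : ((P : Subgroup G) ⊔ D).Normal := ⟨fun y hy g => by
        have := mul_mem (Subgroup.mem_sup_right (hcomm g y) : _ ∈ (P : Subgroup G) ⊔ D) hy
        simpa [mul_assoc] using this⟩
      have hle : (P : Subgroup G) ≤ (P : Subgroup G) ⊔ D := le_sup_left
      have h1 := Sylow.normalizer_sup_eq_top' P hle
      have h2 : Subgroup.normalizer ((P : Subgroup G) : Set G) ⊔ frattini G = ⊤ := by
        rw [eq_top_iff, ← h1]
        exact sup_le le_sup_left (sup_le (le_trans Subgroup.le_normalizer le_sup_left) (hDΦ.trans le_sup_right))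
      exact Subgroup.normalizer_eq_top_iff.mp (frattini_nongenerating h2)
    refine hxC (Subgroup.mem_centralizer_iff.mpr fun y hy => ?_)
    refine (Subgroup.commute_of_normal_of_disjoint _ _ hQ hPn ?_ y x hy (hP ▸ Subgroup.mem_zpowers x)).eq
    obtain ⟨i, hi⟩ := Q.2.exists_card_eq
    obtain ⟨j, hj⟩ := P.2.exists_card_eq
    rw [disjoint_iff]
    exact Subgroup.inf_eq_bot_of_coprime (by rw [hi, hj]; exact ((Nat.coprime_primes (Fact.out : q.Prime) hp).mpr (Ne.symm hpq)).pow i j)
  · intro K hK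
    set π := QuotientGroup.mk' D
    have hπ : Function.Surjective π := QuotientGroup.mk'_surjective D
    set M := K.comap π
    have hM : M ≠ ⊤ := fun e => hK (by rw [← Subgroup.map_comap_eq_self_of_surjective hπ K]; show M.map π = ⊤; rw [e, Subgroup.map_top_of_surjective π hπ])
    haveI := hG.2 M hM
    have hord : ∀ a : G, orderOf a ∣ Nat.card ↥(Q : Subgroup G) * p ^ k := fun a => by
      refine (orderOf_dvd_natCard a).trans ?_
      have h1 := CfsgLib.Core.card_sup_dvd_of_normal (Subgroup.zpowers x) (Q : Subgroup G)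
      rw [hsup, Subgroup.card_top, Nat.card_zpowers, hk, mul_comm] at h1
      exact h1
    obtain ⟨s, hs⟩ := Q.2.exists_card_eq
    have hcs : (q ^ s).Coprime (p ^ k) :=
      ((Nat.coprime_primes (Fact.out : q.Prime) hp).mpr (Ne.symm hpq)).pow s k
    have hsplit : ∀ a : M, ∃ u v : M, a = u * v ∧ (u : G) ∈ (Q : Subgroup G) ∧ orderOf (u : G) ∣ q ^ s ∧
        orderOf (v : G) ∣ p ^ k := by
      intro a
      have hgcd : Nat.gcd (q ^ s) (p ^ k) = 1 := hcs
      refine ⟨(a ^ p ^ k) ^ Nat.gcdB (q ^ s) (p ^ k), (a ^ q ^ s) ^ Nat.gcdA (q ^ s) (p ^ k), ?_, ?_, ?_, ?_⟩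
      · rw [← zpow_natCast, ← zpow_mul, ← zpow_natCast a (q ^ s), ← zpow_mul, ← zpow_add, add_comm,
          ← Nat.gcd_eq_gcd_ab, hgcd]
        simp
      · rw [Subgroup.coe_zpow, Subgroup.coe_pow]
        refine zpow_mem ?_ _
        obtain ⟨S', hS'⟩ := (IsPGroup.of_card (n := 0) (G := (⊥ : Subgroup G)) (p := q) (by simp)).exists_le_sylow
        have hpe : IsPGroup q ↥(Subgroup.zpowers ((a : G) ^ p ^ k)) := by
          have hd : orderOf ((a : G) ^ p ^ k) ∣ q ^ s := by
            apply orderOf_dvd_of_pow_eq_one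
            rw [← pow_mul, mul_comm, ← hs]
            exact orderOf_dvd_iff_pow_eq_one.mp (hord _)
          obtain ⟨i, -, hi⟩ := (Nat.dvd_prime_pow (Fact.out : q.Prime)).mp hd
          exact IsPGroup.of_card (n := i) (by rw [Nat.card_zpowers, hi])
        obtain ⟨S, hS⟩ := hpe.exists_le_sylow
        rw [Subsingleton.elim S Q] at hS
        exact hS (Subgroup.mem_zpowers _)
      · rw [Subgroup.coe_zpow]
        refine (orderOf_dvd_of_mem_zpowers (Subgroup.zpow_mem _ (Subgroup.mem_zpowers _) _)).trans ?_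
        apply orderOf_dvd_of_pow_eq_one
        rw [Subgroup.coe_pow, ← pow_mul, mul_comm, ← hs]
        exact orderOf_dvd_iff_pow_eq_one.mp (hord _)
      · rw [Subgroup.coe_zpow]
        refine (orderOf_dvd_of_mem_zpowers (Subgroup.zpow_mem _ (Subgroup.mem_zpowers _) _)).trans ?_
        apply orderOf_dvd_of_pow_eq_one
        rw [Subgroup.coe_pow, ← pow_mul, ← hs]
        exact orderOf_dvd_iff_pow_eq_one.mp (hord _)
    have hpp : ∀ u v : M, orderOf (u : G) ∣ p ^ k → orderOf (v : G) ∣ p ^ k → u * v = v * u := by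
      intro u v hu hv
      obtain ⟨RM⟩ := (inferInstance : Nonempty (Sylow p M))
      haveI : (RM : Subgroup M).Normal := by
        have hiff : Group.IsNilpotent M ↔ ∀ (r : ℕ) (_ : Fact r.Prime) (R : Sylow r M), (R : Subgroup M).Normal :=
          (Group.isNilpotent_of_finite_tfae (G := M)).out 0 3
        exact hiff.mp inferInstance p inferInstance RM
      haveI := Sylow.unique_of_normal RM inferInstance
      have hmem : ∀ w : M, orderOf (w : G) ∣ p ^ k → w ∈ (RM : Subgroup M) := by
        intro w hw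
        obtain ⟨i, -, hi⟩ := (Nat.dvd_prime_pow hp).mp hw
        obtain ⟨S, hS⟩ := (IsPGroup.of_card (p := p) (n := i) (G := Subgroup.zpowers w)
          (by rw [Nat.card_zpowers, ← Subgroup.orderOf_coe, hi])).exists_le_sylow
        rw [Subsingleton.elim S RM] at hS
        exact hS (Subgroup.mem_zpowers _)
      obtain ⟨S, hS⟩ := (RM.2.map M.subtype).exists_le_sylow
      have hcyc : IsCyclic ↥(S : Subgroup G) := by
        haveI : IsCyclic ↥(P : Subgroup G) := Subgroup.isCyclic_iff_exists_zpowers_eq_top _ |>.mpr ⟨x, hP.symm⟩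
        exact (Sylow.equiv S P).isCyclic.mpr inferInstance
      haveI := hcyc
      have hc := IsCyclic.isMulCommutative (α := ↥(S : Subgroup G))
      apply Subtype.ext
      have e := hc.is_comm.comm (⟨u, hS ⟨u, hmem u hu, rfl⟩⟩ : ↥(S : Subgroup G))
        ⟨v, hS ⟨v, hmem v hv, rfl⟩⟩
      exact congrArg (fun t : ↥(S : Subgroup G) => (t : G)) e
    have hqp' : ∀ u v : M, orderOf (u : G) ∣ q ^ s → orderOf (v : G) ∣ p ^ k → u * v = v * u := fun u v hu hv =>
      (CfsgLib.GroupB.FrobBasic.commute_of_coprime (a := u) (b := v) (by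
        rw [← Subgroup.orderOf_coe, ← Subgroup.orderOf_coe]
        exact (hcs.coprime_dvd_left hu).coprime_dvd_right hv)).eq
    refine ⟨⟨fun a b => ?_⟩⟩
    obtain ⟨⟨a, ha⟩, ⟨b, hb⟩⟩ := a, b
    obtain ⟨a, rfl⟩ := hπ a
    obtain ⟨b, rfl⟩ := hπ b
    apply Subtype.ext
    show π a * π b = π b * π a
    obtain ⟨au, av, hae, hauQ, hau, hav⟩ := hsplit ⟨a, ha⟩
    obtain ⟨bu, bv, hbe, hbuQ, hbu, hbv⟩ := hsplit ⟨b, hb⟩
    have ea : a = (au : G) * av := congrArg Subtype.val hae
    have eb : b = (bu : G) * bv := congrArg Subtype.val hbe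
    have c1 : π (av : G) * π (bu : G) = π (bu : G) * π (av : G) := by
      rw [← map_mul, ← map_mul]; exact congrArg π (congrArg Subtype.val (hqp' bu av hbu hav).symm)
    have c2 : π (au : G) * π (bv : G) = π (bv : G) * π (au : G) := by
      rw [← map_mul, ← map_mul]; exact congrArg π (congrArg Subtype.val (hqp' au bv hau hbv))
    have c3 : π (av : G) * π (bv : G) = π (bv : G) * π (av : G) := by
      rw [← map_mul, ← map_mul]; exact congrArg π (congrArg Subtype.val (hpp av bv hav hbv))
    have c4 : π (au : G) * π (bu : G) = π (bu : G) * π (au : G) := by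
      have h := (QuotientGroup.eq_one_iff ((au : G) * bu * (au : G)⁻¹ * (bu : G)⁻¹)).mpr (hDcomm _ hauQ _ hbuQ)
      have h' : π (au : G) * π (bu : G) * (π (au : G))⁻¹ * (π (bu : G))⁻¹ = 1 := by
        rw [← map_inv, ← map_inv, ← map_mul, ← map_mul, ← map_mul]; exact h
      rwa [mul_inv_eq_one, mul_inv_eq_iff_eq_mul] at h'
    rw [ea, eb, map_mul, map_mul]
    exact ((Commute.mul_right (show Commute (π (au : G)) _ from c4) c2).mul_left
      (Commute.mul_right (show Commute (π (av : G)) _ from c1) c3)).eq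

end Cfsg.Agent.S0577
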