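import Cfsg.Statements.S0640
import Cfsg.Agent.S0093
import Cfsg.Agent.S0096
import Cfsg.Agent.S0120
import Cfsg.Agent.S0129

set_option linter.style.haveILetI false
set_option linter.unusedSectionVars false

set_option autoImplicit false
open Cfsg

namespace Cfsg.Agent.S0640

open scoped commutatorElement

/-- The moved points of an automorphism of prime order. -/
theorem dvd_of_aut {W : Type*} [Group W] [Finite W] {p q : ℕ} [Fact p.Prime] (hW : IsPGroup p W) (hq : q.Prime)
    (hqp : q ≠ p) (β : MulAut W) (hβ : β ^ q = 1) (hne : β ≠ 1) :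
    ∃ m c : ℕ, Nat.card W = p ^ m ∧ c < m ∧ Nat.card ↥(MonoidHom.eqLocus β.toMonoidHom (MonoidHom.id W)) = p ^ c ∧
      q ∣ p ^ (m - c) - 1 := by
  haveI : Fact q.Prime := ⟨hq⟩
  obtain ⟨m, hm⟩ := IsPGroup.iff_card.mp hW
  obtain ⟨c, hc⟩ := IsPGroup.iff_card.mp (hW.to_subgroup (MonoidHom.eqLocus β.toMonoidHom (MonoidHom.id W)))
  have hlt : Nat.card ↥(MonoidHom.eqLocus β.toMonoidHom (MonoidHom.id W)) < Nat.card W :=
    lt_of_le_of_ne (Subgroup.card_le_card_group _) fun e => hne (by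
      ext x
      exact ((Subgroup.eq_top_of_card_eq _ e).ge (Subgroup.mem_top x) : β x = x))
  rw [hm, hc, Nat.pow_lt_pow_iff_right (Fact.out : p.Prime).one_lt] at hlt
  refine ⟨m, c, hm, hlt, hc, ?_⟩
  have hP : IsPGroup q ↥(Subgroup.zpowers β) := IsPGroup.of_card_dvd_pow (n := 1) (by
    rw [Nat.card_zpowers, pow_one]; exact orderOf_dvd_of_pow_eq_one hβ)
  have h := hP.card_modEq_card_fixedPoints W
  have hfix : Nat.card (MulAction.fixedPoints ↥(Subgroup.zpowers β) W) = p ^ c := by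
    rw [← hc]
    refine Nat.card_congr (Equiv.subtypeEquivRight fun x => ?_)
    constructor
    · intro hx
      exact hx ⟨β, Subgroup.mem_zpowers β⟩
    · intro hx g
      obtain ⟨g, hg⟩ := g
      show g x = x
      exact (Subgroup.zpowers_le.mpr (show β ∈ MulAction.stabilizer (MulAut W) x from hx)) hg
  rw [hm, hfix] at h
  have h1 : q ∣ p ^ m - p ^ c := (Nat.modEq_iff_dvd' (Nat.pow_le_pow_right (Fact.out : p.Prime).pos hlt.le)).mp h.symm
  rw [show p ^ m - p ^ c = p ^ c * (p ^ (m - c) - 1) by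
    rw [Nat.mul_sub, mul_one, ← pow_add, Nat.add_sub_cancel' hlt.le]] at h1
  exact (((Nat.coprime_primes hq Fact.out).mpr hqp).pow_right c).dvd_of_dvd_mul_left h1

theorem dvd_sq_sub_one {p q d : ℕ} (h0 : 0 < d) (h2 : d ≤ 2) (h : q ∣ p ^ d - 1) : q ∣ p ^ 2 - 1 := by
  refine h.trans ?_
  rcases (show d = 1 ∨ d = 2 by omega) with rfl | rfl
  · rw [pow_one]; have := Nat.sq_sub_sq p 1; rw [one_pow] at this; rw [this]; exact dvd_mul_left _ _
  · exact dvd_rfl

/-- For odd p, a prime q ≠ p dividing the order of the automorphism group of a p-group of rank at most 2 divides p² - 1 and is less than p. -/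
theorem result {R : Type*} [Group R] [Finite R] {p : ℕ} [Fact p.Prime] (hp : p ≠ 2) (hR : IsPGroup p R) (hrk : Cfsg.PRankLE p 2 R) (q : ℕ) (hq : q.Prime) (hqp : q ≠ p) (hdvd : q ∣ Nat.card (MulAut R)) : q ∣ p ^ 2 - 1 ∧ q < p := by
  classical
  have hp' : p.Prime := Fact.out
  haveI : Fact q.Prime := ⟨hq⟩
  suffices h : q ∣ p ^ 2 - 1 by
    refine ⟨h, ?_⟩
    have hodd : p % 2 = 1 := Nat.odd_iff.mp (hp'.odd_of_ne_two hp)
    have h3 := hp'.two_le
    have hsq := Nat.sq_sub_sq p 1
    rw [one_pow] at hsq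
    rw [hsq] at h
    rcases hq.dvd_mul.mp h with h1 | h1
    · have := Nat.le_of_dvd (by omega) h1
      by_contra hge
      have hq1 : q = p + 1 := by omega
      rcases hq.eq_two_or_odd with h2 | h2 <;> omega
    · have := Nat.le_of_dvd (by omega) h1
      omega
  obtain ⟨a, ha⟩ := exists_prime_orderOf_dvd_card' q hdvd
  obtain ⟨H, hchar, hΦ, hcomm, hCent⟩ := Cfsg.Agent.S0093.result hR
  have hHH : ⁅commutator ↥H, (⊤ : Subgroup ↥H)⁆ = ⊥ := by
    apply Subgroup.map_injective H.subtype_injective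
    rw [Subgroup.map_bot, Subgroup.map_commutator, commutator_def, Subgroup.map_commutator, ← MonoidHom.range_eq_map,
      Subgroup.range_subtype, Subgroup.commutator_eq_bot_iff_le_centralizer]
    exact ((Subgroup.commutator_mono le_rfl le_top).trans hcomm).trans inf_le_right
  let W : Subgroup ↥H := Subgroup.closure {x : ↥H | x ^ p = 1}
  have hWexp : ∀ w ∈ W, w ^ p = 1 := fun w hw => Cfsg.Agent.S0096.result hp (hR.to_subgroup H) hHH w hw
  -- restriction of automorphisms
  have hinv : ∀ (b : MulAut R) (x : R), x ∈ H → b x ∈ H := fun b x hx =>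
    (Subgroup.characteristic_iff_map_le.mp hchar b) ⟨x, hx, rfl⟩
  let aH : MulAut ↥H :=
    { toFun := fun x => ⟨a x, hinv a x x.2⟩
      invFun := fun x => ⟨a⁻¹ x, hinv a⁻¹ x x.2⟩
      left_inv := fun x => Subtype.ext (a.symm_apply_apply x)
      right_inv := fun x => Subtype.ext (a.apply_symm_apply x)
      map_mul' := fun x y => Subtype.ext (map_mul a _ _) }
  have haq : a ^ q = 1 := ha ▸ pow_orderOf_eq_one a
  have haHq : aH ^ q = 1 := by
    have h : ∀ (k : ℕ) (x : ↥H), ((aH ^ k) x : R) = (a ^ k) (x : R) := by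
      intro k
      induction k with
      | zero => intro x; rfl
      | succ k ih =>
        intro x
        rw [pow_succ', pow_succ', MulAut.mul_apply, MulAut.mul_apply, ← ih x]
        rfl
    ext x
    rw [h, haq]; rfl
  have haH : aH ≠ 1 := by
    intro e
    have h1 := Cfsg.Agent.S0121.result hR H hchar hΦ hcomm hCent a
      (by rw [ha]; exact (Nat.coprime_primes hq hp').mpr hqp) fun x hx =>
        congrArg Subtype.val (MulEquiv.congr_fun e ⟨x, hx⟩)
    rw [h1, orderOf_one] at ha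
    exact hq.ne_one ha.symm
  have hWinv : ∀ (b : MulAut ↥H) (x : ↥H), x ∈ W → b x ∈ W := fun b x hx => by
    have hle : W.map b.toMonoidHom ≤ W := by
      rw [MonoidHom.map_closure, Subgroup.closure_le]
      rintro _ ⟨y, hy, rfl⟩
      exact Subgroup.subset_closure (show (b.toMonoidHom y) ^ p = 1 by rw [← map_pow, hy, map_one])
    exact hle ⟨x, hx, rfl⟩
  let aW : MulAut ↥W :=
    { toFun := fun x => ⟨aH x, hWinv aH x x.2⟩
      invFun := fun x => ⟨aH⁻¹ x, hWinv aH⁻¹ x x.2⟩
      left_inv := fun x => Subtype.ext (aH.symm_apply_apply x)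
      right_inv := fun x => Subtype.ext (aH.apply_symm_apply x)
      map_mul' := fun x y => Subtype.ext (map_mul aH _ _) }
  have haWq : aW ^ q = 1 := by
    have h : ∀ (k : ℕ) (x : ↥W), ((aW ^ k) x : ↥H) = (aH ^ k) (x : ↥H) := by
      intro k
      induction k with
      | zero => intro x; rfl
      | succ k ih =>
        intro x
        rw [pow_succ', pow_succ', MulAut.mul_apply, MulAut.mul_apply, ← ih x]
        rfl
    ext x : 2
    rw [h, haHq]; rfl
  have haW : aW ≠ 1 := by
    intro e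
    refine haH (Cfsg.Agent.S0120.result hp (hR.to_subgroup H) aH ?_ fun x hx =>
      congrArg Subtype.val (MulEquiv.congr_fun e ⟨x, Subgroup.subset_closure hx⟩))
    rw [orderOf_eq_prime haHq haH]
    exact (Nat.coprime_primes hq hp').mpr hqp
  have hWp : IsPGroup p ↥W := (hR.to_subgroup H).to_subgroup W
  -- abelian subgroups of `W` have order at most `p ^ 2`
  have hab : ∀ A : Subgroup ↥W, IsMulCommutative A → Nat.card A ≤ p ^ 2 := by
    intro A hA
    let f := H.subtype.comp W.subtype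
    have hf : Function.Injective f := H.subtype_injective.comp W.subtype_injective
    rw [← Subgroup.card_map_of_injective (f := f) hf (K := A)]
    refine hrk _ ⟨⟨?_⟩⟩ ?_
    · rintro ⟨_, u, hu, rfl⟩ ⟨_, v, hv, rfl⟩
      apply Subtype.ext
      show f u * f v = f v * f u
      rw [← map_mul, ← map_mul]
      exact congrArg f (congrArg Subtype.val (hA.is_comm.comm (⟨u, hu⟩ : A) ⟨v, hv⟩))
    · rintro _ ⟨u, -, rfl⟩
      rw [← map_pow, show u ^ p = 1 from Subtype.ext (hWexp _ u.2), map_one]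
  obtain ⟨A, hA, hAmax⟩ := Set.exists_max_image {A : Subgroup ↥W | A.Normal ∧ IsMulCommutative A}
    (fun A => Nat.card A) (Set.toFinite _) ⟨⊥, inferInstance, inferInstance⟩
  haveI := hA.1
  obtain ⟨e, he⟩ := IsPGroup.iff_card.mp (hWp.to_subgroup A)
  have he2 : e ≤ 2 := (Nat.pow_le_pow_iff_right hp'.one_lt).mp (he ▸ hab A hA.2)
  have hcardW : Nat.card ↥W ≤ p ^ 3 := by
    refine (Cfsg.Agent.S0129.result hWp A hA.2 (fun B hB1 hB2 hle =>
      (Subgroup.eq_of_le_of_card_ge hle (hAmax B ⟨hB1, hB2⟩)).symm) e he).trans (Nat.pow_le_pow_right hp'.pos ?_)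
    rcases (show e = 0 ∨ e = 1 ∨ e = 2 by omega) with rfl | rfl | rfl <;> norm_num
  obtain ⟨m, c, hm, hcm, hc, hdiv⟩ := dvd_of_aut hWp hq hqp aW haWq haW
  have hm3 : m ≤ 3 := (Nat.pow_le_pow_iff_right hp'.one_lt).mp (hm ▸ hcardW)
  by_cases hd : m - c ≤ 2
  · exact dvd_sq_sub_one (by omega) hd hdiv
  obtain ⟨rfl, rfl⟩ : m = 3 ∧ c = 0 := by omega
  -- the centre
  set Z := Subgroup.center ↥W
  have hZinv : ∀ (b : MulAut ↥W) (x : ↥W), x ∈ Z → b x ∈ Z := fun b x hx =>
    (Subgroup.characteristic_iff_map_le.mp (inferInstance : Z.Characteristic) b) ⟨x, hx, rfl⟩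
  let aZ : MulAut ↥Z :=
    { toFun := fun x => ⟨aW x, hZinv aW x x.2⟩
      invFun := fun x => ⟨aW⁻¹ x, hZinv aW⁻¹ x x.2⟩
      left_inv := fun x => Subtype.ext (aW.symm_apply_apply x)
      right_inv := fun x => Subtype.ext (aW.apply_symm_apply x)
      map_mul' := fun x y => Subtype.ext (map_mul aW _ _) }
  have haZq : aZ ^ q = 1 := by
    have h : ∀ (k : ℕ) (x : ↥Z), ((aZ ^ k) x : ↥W) = (aW ^ k) (x : ↥W) := by
      intro k
      induction k with
      | zero => intro x; rfl
      | succ k ih =>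
        intro x
        rw [pow_succ', pow_succ', MulAut.mul_apply, MulAut.mul_apply, ← ih x]
        rfl
    ext x : 2
    rw [h, haWq]; rfl
  haveI : Nontrivial ↥W := Finite.one_lt_card_iff_nontrivial.mp (by rw [hm]; exact Nat.one_lt_pow (by norm_num) hp'.one_lt)
  haveI := hWp.center_nontrivial
  have haZ : aZ ≠ 1 := by
    intro e
    have hle : Z ≤ MonoidHom.eqLocus aW.toMonoidHom (MonoidHom.id ↥W) := fun x hx =>
      congrArg Subtype.val (MulEquiv.congr_fun e ⟨x, hx⟩)
    have h1 := Subgroup.card_le_of_le hle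
    rw [hc, pow_zero] at h1
    exact absurd (Finite.one_lt_card (α := ↥Z)) (not_lt.mpr h1)
  obtain ⟨m', c', hm', hcm', -, hdiv'⟩ := dvd_of_aut (hWp.to_subgroup Z) hq hqp aZ haZq haZ
  have hm2 : m' ≤ 2 := (Nat.pow_le_pow_iff_right hp'.one_lt).mp (hm' ▸ hab Z inferInstance)
  exact dvd_sq_sub_one (by omega) (by omega) hdiv'

end Cfsg.Agent.S0640
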