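import Cfsg.Statements.S0876
import Mathlib
import Cfsg.Agent.Lib.Blocks.Contribution
import Cfsg.Agent.Lib.CharAbelian

set_option autoImplicit false
open Cfsg

namespace Cfsg.Agent.S0876

universe uG
open CfsgLib.Chars CfsgLib.Blocks
open scoped ComplexConjugate

theorem avg_isIntegral {G : Type uG} [Group G] [Finite G] {χ : G → ℂ} (hχ : IsCharacter G χ) (A Q : Subgroup G) [Fintype Q]
    (hAQ : ∀ a ∈ A, ∀ q ∈ Q, a * q = q * a) (a : A) :
    IsIntegral ℤ ((Nat.card Q : ℂ)⁻¹ * ∑ q : Q, χ ((a : G) * q)) := by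
  classical
  letI := Fintype.ofFinite G
  let π : A × Q →* G :=
    { toFun := fun z => (z.1 : G) * z.2
      map_one' := by simp
      map_mul' := fun z w => by
        simp only [Prod.fst_mul, Prod.snd_mul, Subgroup.coe_mul]
        calc (z.1 : G) * w.1 * (z.2 * w.2) = z.1 * ((w.1 : G) * z.2) * w.2 := by group
          _ = z.1 * ((z.2 : G) * w.1) * w.2 := by rw [hAQ _ w.1.2 _ z.2.2]
          _ = _ := by group }
  have hc : IsCharacter (A × Q) (fun z => χ (π z)) := IsCharacter.comp hχ π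
  let F : A → ℂ := fun a => (Nat.card Q : ℂ)⁻¹ * ∑ q : Q, χ ((a : G) * q)
  have hF : IsClassFunction A F := fun g h => by
    show _ * _ = _ * _
    refine congrArg _ (Finset.sum_congr rfl fun q _ => ?_)
    rw [← IsCharacter.isClassFunction hχ ((g : G) * q) (h : G)]
    congr 1
    push_cast
    rw [mul_assoc (h : G) g, mul_assoc, mul_assoc, hAQ _ (inv_mem h.2) _ q.2]
    group
  have hmult : ∀ ψ : IrrCharacter A, ∃ m : ℕ, classInner F (ψ : A → ℂ) = (m : ℂ) := fun ψ => by
    have hψ : IsIrrCharacter (A × Q) (fun z => (ψ : A → ℂ) z.1) :=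
      IsIrrCharacter.comp ψ.2 (MonoidHom.fst A Q) fun a => ⟨(a, 1), rfl⟩
    obtain ⟨m, hm⟩ := exists_mult hc ⟨_, hψ⟩
    refine ⟨m, ?_⟩
    rw [← hm, classInner, classInner, Nat.card_prod, Fintype.sum_prod_type]
    simp only [F, Finset.mul_sum, Finset.sum_mul]
    refine Finset.sum_congr rfl fun b _ => Finset.sum_congr rfl fun q _ => ?_
    push_cast
    rw [mul_inv]
    simp only [π, MonoidHom.coe_mk, OneHom.coe_mk]
    ring
  show IsIntegral ℤ (F a)
  rw [classFunction_expand hF a]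
  refine IsIntegral.sum _ fun ψ _ => ?_
  obtain ⟨m, hm⟩ := hmult ψ
  rw [hm]
  exact ((isIntegral_algebraMap (R := ℤ) (x := (m : ℤ))).mul (IsCharacter.isIntegral (isCharacter_irr ψ) a) :)

theorem sep {G : Type uG} [Group G] [Fintype G] {p : ℕ} {M : Ideal AlgInt} (hM : IsPModular p M) (u v : G)
    (hu : ¬ p ∣ orderOf u) (hv : ¬ p ∣ orderOf v) (hn : ¬ IsConj u v)
    (h : ∀ χ : IrrCharacter G, MemLocalIdeal M ((χ : G → ℂ) u - (χ : G → ℂ) v)) : False := by
  classical
  haveI : Fact p.Prime := ⟨hM.1⟩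
  let C := Subgroup.centralizer ({u} : Set G)
  let Q₀ : Sylow p C := default
  let Q : Subgroup G := (Q₀ : Subgroup C).map C.subtype
  have hQC : ∀ q ∈ Q, u * q = q * u := by
    rintro _ ⟨q, -, rfl⟩
    exact (Subgroup.mem_centralizer_iff.1 q.2 u rfl)
  have hQp : ∀ q ∈ Q, ∃ k, orderOf q = p ^ k := by
    intro q hq
    obtain ⟨k, hk⟩ := IsPGroup.iff_orderOf.1 (Q₀.2.map C.subtype) ⟨q, hq⟩
    exact ⟨k, by rw [← hk, Subgroup.orderOf_mk]⟩
  have huq : ∀ w : G, ¬ p ∣ orderOf w → ∀ q ∈ Q, w = u * q → q = 1 := by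
    rintro w hw q hq rfl
    refine isPPart_unique hM.1 (g := u * q) (x := q) (x' := 1) ⟨u, (hQC q hq).symm, (hQC q hq).symm, hQp q hq, hu⟩ ?_
    exact ⟨u * q, one_mul _, Commute.one_left _, ⟨0, by simp⟩, hw⟩
  let f : G → ℂ := fun g => (Nat.card Q : ℂ)⁻¹ * ∑ x : G, if u⁻¹ * (x * g * x⁻¹) ∈ Q then 1 else 0
  have hf : IsClassFunction G f := fun g c => by
    show _ * _ = _ * _
    refine congrArg _ (Fintype.sum_equiv (Equiv.mulRight c) _ _ fun x => ?_)
    simp [mul_assoc]
  have hfv : f v = 0 := by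
    refine mul_eq_zero_of_right _ (Finset.sum_eq_zero fun x _ => ?_)
    rw [if_neg]
    intro hx
    have h1 : orderOf (x * v * x⁻¹) = orderOf v :=
      orderOf_injective (MulAut.conj x).toMonoidHom (MulEquiv.injective _) v
    have h2 := huq (x * v * x⁻¹) (h1 ▸ hv) _ hx (by group)
    rw [inv_mul_eq_one] at h2
    exact hn (isConj_iff.2 ⟨x, h2.symm⟩).symm
  have hfu : f u = ((Q₀ : Subgroup C).index : ℂ) := by
    have e : ∀ x : G, (u⁻¹ * (x * u * x⁻¹) ∈ Q) ↔ x ∈ C := fun x => by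
      rw [Subgroup.mem_centralizer_iff]
      constructor
      · intro hx y hy
        rw [Set.mem_singleton_iff] at hy; subst hy
        have h1 : orderOf (x * y * x⁻¹) = orderOf y :=
          orderOf_injective (MulAut.conj x).toMonoidHom (MulEquiv.injective _) y
        have h2 := huq (x * y * x⁻¹) (h1 ▸ hu) _ hx (by group)
        rw [inv_mul_eq_one, eq_mul_inv_iff_mul_eq] at h2
        exact h2
      · intro hx
        rw [← hx u rfl]
        simp [Q.one_mem]
    show (Nat.card Q : ℂ)⁻¹ * _ = _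
    simp_rw [e]
    rw [Finset.sum_boole, ← Fintype.card_subtype, ← Nat.card_eq_fintype_card]
    have h1 : Nat.card Q = Nat.card Q₀ := Nat.card_congr (Subgroup.equivMapOfInjective _ _ C.subtype_injective).symm.toEquiv
    rw [show Nat.card {x : G // x ∈ C} = Nat.card C from rfl, ← (Q₀ : Subgroup C).index_mul_card, h1, Nat.cast_mul, mul_comm]
    have : (Nat.card Q₀ : ℂ) ≠ 0 := Nat.cast_ne_zero.2 Nat.card_pos.ne'
    field_simp
  have hcoef : ∀ χ : IrrCharacter G, classInner f (χ : G → ℂ) = conj ((Nat.card Q : ℂ)⁻¹ * ∑ q : Q, (χ : G → ℂ) (u * q)) := fun χ => by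
    have hG : (Nat.card G : ℂ) ≠ 0 := natCast_card_ne_zero G
    simp only [classInner, f, map_mul, map_inv₀, Complex.conj_natCast, map_sum, mul_assoc, Finset.sum_mul]
    rw [← Finset.mul_sum, Finset.sum_comm]
    have inner : ∀ x : G, (∑ g : G, (if u⁻¹ * (x * g * x⁻¹) ∈ Q then (1:ℂ) else 0) * conj ((χ : G → ℂ) g)) = ∑ q : Q, conj ((χ : G → ℂ) (u * q)) := by
      intro x
      rw [← Equiv.sum_comp ((Equiv.mulLeft u).trans (MulAut.conj x⁻¹).toEquiv)]
      have h1 : ∀ g, (if u⁻¹ * (x * (((Equiv.mulLeft u).trans (MulAut.conj x⁻¹).toEquiv) g) * x⁻¹) ∈ Q then (1:ℂ) else 0) * conj ((χ : G → ℂ) (((Equiv.mulLeft u).trans (MulAut.conj x⁻¹).toEquiv) g)) = if g ∈ Q then conj ((χ : G → ℂ) (u * g)) else 0 := fun g => by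
        have h3 : ((Equiv.mulLeft u).trans (MulAut.conj x⁻¹).toEquiv) g = x⁻¹ * (u * g) * (x⁻¹)⁻¹ := rfl
        have h2 : u⁻¹ * (x * (((Equiv.mulLeft u).trans (MulAut.conj x⁻¹).toEquiv) g) * x⁻¹) = g := by rw [h3]; group
        rw [h2, h3, IsCharacter.isClassFunction (isCharacter_irr χ)]
        split_ifs <;> ring
      simp_rw [h1]
      rw [← Finset.sum_filter]
      exact Finset.sum_subtype _ (by simp) _
    simp only [mul_assoc] at inner
    simp_rw [inner]
    rw [Finset.sum_const, Finset.card_univ, nsmul_eq_mul, ← Nat.card_eq_fintype_card]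
    field_simp
  have hint : ∀ χ : IrrCharacter G, MemLocalRing M (classInner f (χ : G → ℂ)) := fun χ => by
    rw [hcoef]
    refine mlr_of_isIntegral hM (IsIntegral.map ((starRingEnd ℂ).toIntAlgHom) ?_)
    refine avg_isIntegral (isCharacter_irr χ) (Subgroup.zpowers u) Q ?_ ⟨u, Subgroup.mem_zpowers u⟩
    intro a ha q hq
    obtain ⟨j, rfl⟩ := Subgroup.mem_zpowers_iff.1 ha
    exact (Commute.zpow_left (hQC q hq) j)
  have h1 : MemLocalIdeal M (f u - f v) := by
    rw [classFunction_expand hf u, classFunction_expand hf v, ← Finset.sum_sub_distrib]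
    refine mli_sum hM _ fun χ _ => ?_
    rw [← mul_sub]
    exact mli_mul_left hM (hint χ) (h χ)
  rw [hfu, hfv, sub_zero, mli_natCast_iff hM] at h1
  exact Q₀.not_dvd_index h1

/-- Let G be a finite group, p a prime and M a maximal ideal of the ring of algebraic integers containing p. Let x, y be elements with p-parts a and b (so a⁻¹ * x and b⁻¹ * y are their p-regular parts). Then a⁻¹ * x and b⁻¹ * y are conjugate in G if and only if, for every irreducible character χ, the difference χ x - χ y lies in the local ideal at M. -/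
theorem result {G : Type*} [Group G] [Finite G] (p : ℕ) (M : Ideal Cfsg.AlgInt) (hM : Cfsg.IsPModular p M) (x y a b : G) (ha : Cfsg.IsPPart p x a) (hb : Cfsg.IsPPart p y b) : IsConj (a⁻¹ * x) (b⁻¹ * y) ↔ ∀ χ : Cfsg.IrrCharacter G, Cfsg.MemLocalIdeal M ((χ : G → ℂ) x - (χ : G → ℂ) y) := by
  classical
  letI := Fintype.ofFinite G
  obtain ⟨u, hxu, hau, ⟨ka, hka⟩, hu⟩ := ha
  obtain ⟨v, hyv, hbv, ⟨kb, hkb⟩, hv⟩ := hb
  rw [show a⁻¹ * x = u by rw [← hxu, inv_mul_cancel_left], show b⁻¹ * y = v by rw [← hyv, inv_mul_cancel_left]]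
  have key : ∀ χ : IrrCharacter G, MemLocalIdeal M ((χ : G → ℂ) x - (χ : G → ℂ) y) ↔ MemLocalIdeal M ((χ : G → ℂ) u - (χ : G → ℂ) v) := fun χ => by
    have h1 : MemLocalIdeal M ((χ : G → ℂ) x - (χ : G → ℂ) u) := hxu ▸ CfsgLib.Blocks.mli_char_pElt_mul hM (isCharacter_irr χ) hka hau hu
    have h2 : MemLocalIdeal M ((χ : G → ℂ) y - (χ : G → ℂ) v) := hyv ▸ CfsgLib.Blocks.mli_char_pElt_mul hM (isCharacter_irr χ) hkb hbv hv
    constructor
    · intro h; have h3 := mli_sub hM (mli_add hM h h2) h1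
      convert h3 using 1; ring
    · intro h; have h3 := mli_sub hM (mli_add hM h h1) h2
      convert h3 using 1; ring
  simp only [key]
  refine ⟨fun hc χ => ?_, fun h => by_contra fun hn => sep hM u v hu hv hn h⟩
  obtain ⟨c, rfl⟩ := isConj_iff.1 hc
  rw [IsCharacter.isClassFunction (isCharacter_irr χ), sub_self]
  exact mli_zero hM

end Cfsg.Agent.S0876
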