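import Cfsg.Statements.S0875
import Mathlib
import Cfsg.Agent.Lib.BrauerInd.Main
import Cfsg.Agent.S0876

set_option autoImplicit false
open Cfsg

namespace Cfsg.Agent.S0875

universe uG
open CfsgLib.Chars CfsgLib.BrauerInd
open scoped ComplexConjugate

/-- In a nilpotent group the Sylow projections detect everything. -/
theorem exists_components {E : Type uG} [Group E] [Finite E] (hE : Group.IsNilpotent E) :
    ∃ (ι : Type) (Q : ι → Type uG) (_ : ∀ i, Group (Q i)) (q : ι → ℕ) (e : E ≃* ((i : ι) → Q i)),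
      ∀ (i : ι) (x : Q i), (q i).Prime ∧ ∃ k, x ^ (q i) ^ k = 1 := by
  haveI := hE
  have hn : ∀ {p : ℕ} [Fact p.Prime] (P : Sylow p E), (P : Subgroup E).Normal := fun P =>
    Group.isNilpotent_of_finite_tfae.out 0 3 rfl rfl |>.mp hE _ inferInstance P
  refine ⟨↥(Nat.card E).primeFactors, fun p => (∀ P : Sylow (p : ℕ) E, (P : Subgroup E)), inferInstance, fun p => (p : ℕ), (Sylow.directProductOfNormal hn).symm, fun p x => ?_⟩
  have hp : (p : ℕ).Prime := Nat.prime_of_mem_primeFactors p.2
  refine ⟨hp, (Nat.card E).factorization (p : ℕ), funext fun P => ?_⟩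
  haveI : Fact (p : ℕ).Prime := ⟨hp⟩
  exact orderOf_dvd_iff_pow_eq_one.1 (P.card_eq_multiplicity ▸ orderOf_dvd_natCard (x P))

/-- Powers adapted to a coprime factorisation of the order are homomorphisms of a nilpotent group. -/
theorem exists_powHom {E : Type uG} [Group E] [Finite E] (hE : Group.IsNilpotent E) (m n N : ℕ) (hcard : Nat.card E ∣ m * n)
    (hcop : Nat.Coprime m n) (hN0 : N ≡ 0 [MOD m]) (hN1 : N ≡ 1 [MOD n]) :
    ∃ π : E →* E, (∀ x, π x = x ^ N) ∧ (∀ a ∈ π.range, ∀ k ∈ π.ker, a * k = k * a) ∧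
      (∀ a ∈ π.range, π a = a) ∧ Nat.card π.range ∣ n := by
  obtain ⟨ι, Q, _, q, e, hQ⟩ := exists_components hE
  have key : ∀ i, (∀ x : Q i, x ^ N = 1) ∨ (∀ x : Q i, x ^ N = x) := by
    intro i
    by_cases hi : q i ∣ m
    · left
      intro x
      obtain ⟨hp, k, hk⟩ := hQ i x
      obtain ⟨y, hy⟩ : ∃ y : E, e y i = x := by
        classical
        exact ⟨e.symm (Pi.mulSingle i x), by simp⟩
      have h1 : x ^ (m * n) = 1 := by
        rw [← hy, ← Pi.pow_apply, ← map_pow, orderOf_dvd_iff_pow_eq_one.1 ((orderOf_dvd_natCard y).trans hcard), map_one]; rfl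
      have hd : orderOf x ∣ m := by
        refine Nat.Coprime.dvd_of_dvd_mul_right ?_ (orderOf_dvd_of_pow_eq_one h1)
        exact Nat.Coprime.coprime_dvd_left (orderOf_dvd_of_pow_eq_one hk) (Nat.Coprime.pow_left k (hcop.coprime_dvd_left hi))
      exact orderOf_dvd_iff_pow_eq_one.1 (hd.trans (Nat.modEq_zero_iff_dvd.1 hN0))
    · right
      intro x
      obtain ⟨hp, k, hk⟩ := hQ i x
      obtain ⟨y, hy⟩ : ∃ y : E, e y i = x := by
        classical
        exact ⟨e.symm (Pi.mulSingle i x), by simp⟩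
      have h1 : x ^ (m * n) = 1 := by
        rw [← hy, ← Pi.pow_apply, ← map_pow, orderOf_dvd_iff_pow_eq_one.1 ((orderOf_dvd_natCard y).trans hcard), map_one]; rfl
      have hd : orderOf x ∣ n := by
        refine Nat.Coprime.dvd_of_dvd_mul_left ?_ (orderOf_dvd_of_pow_eq_one h1)
        exact Nat.Coprime.coprime_dvd_left (orderOf_dvd_of_pow_eq_one hk) (Nat.Coprime.pow_left k ((hp.coprime_iff_not_dvd).2 hi))
      conv_rhs => rw [← pow_one x]
      exact pow_eq_pow_iff_modEq.2 (hN1.of_dvd hd)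
  let π : E →* E :=
    { toFun := fun x => x ^ N
      map_one' := one_pow N
      map_mul' := fun a b => e.injective (funext fun i => by
        simp only [map_pow, map_mul, Pi.pow_apply, Pi.mul_apply]
        rcases key i with h | h <;> simp [h]) }
  have hπ : ∀ x, π x = x ^ N := fun x => rfl
  have hidem : ∀ a ∈ π.range, π a = a := by
    rintro _ ⟨x, rfl⟩
    apply e.injective
    funext i
    simp only [hπ, map_pow, Pi.pow_apply]
    rcases key i with h | h <;> simp [h]
  refine ⟨π, hπ, ?_, hidem, ?_⟩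
  · rintro _ ⟨x, rfl⟩ k hk
    apply e.injective
    funext i
    have hk' : e k i ^ N = 1 := by
      rw [← Pi.pow_apply, ← map_pow, ← hπ, MonoidHom.mem_ker.1 hk, map_one]; rfl
    simp only [hπ, map_mul, map_pow, Pi.mul_apply, Pi.pow_apply]
    rcases key i with h | h
    · simp [h]
    · rw [h] at hk'; simp [hk']
  · have hcopA : Nat.Coprime (Nat.card π.range) m := by
      refine Nat.coprime_of_dvd fun r hr hrA hrm => ?_
      haveI : Fact r.Prime := ⟨hr⟩
      obtain ⟨⟨a, ha⟩, hao⟩ := exists_prime_orderOf_dvd_card' (G := π.range) r hrA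
      rw [Subgroup.orderOf_mk] at hao
      have h1 : a ^ N = 1 := orderOf_dvd_iff_pow_eq_one.1 (hao ▸ hrm.trans (Nat.modEq_zero_iff_dvd.1 hN0))
      rw [← hπ, hidem a ha] at h1
      rw [h1, orderOf_one] at hao
      exact hr.ne_one hao.symm
    exact hcopA.dvd_of_dvd_mul_left ((Subgroup.card_subgroup_dvd_card _).trans hcard)

theorem conj_res {G : Type uG} [Group G] [Finite G] {χ : G → ℂ} (hχ : IsCharacter G χ) (E : Subgroup G) :
    IsCharacter E (fun e : E => conj (χ e)) := by
  obtain ⟨n, ρ, hρ⟩ := IsCharacter.restrict hχ E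
  letI := Fintype.ofFinite E
  refine (funext fun e => ?_ : (fun e : E => conj (χ e)) = ρ.dual.character) ▸ isCharacter_character ρ.dual
  rw [Representation.char_dual, hρ]
  show _ = (fun e : E => χ e) e⁻¹
  rw [show (fun e : E => χ e) e⁻¹ = χ ((e : G)⁻¹) from rfl, IsCharacter.map_inv hχ]

theorem local_integral {G : Type uG} [Group G] [Fintype G] (m n : ℕ) (hmn : Nat.card G = m * n) (hcop : Nat.Coprime m n)
    (N : ℕ) (hN0 : N ≡ 0 [MOD m]) (hN1 : N ≡ 1 [MOD n]) (g : G) [DecidablePred fun x : G => IsConj x g]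
    (E : Subgroup G) [Fintype E] (hE : Group.IsNilpotent E) (ψ : E → ℂ) (hψ : IsCharacter E ψ) (χ : G → ℂ) (hχ : IsCharacter G χ)
    (ϑ : G → ℂ) (hϑ : ∀ x : G, ϑ x = if IsConj (x ^ N) g then (n : ℂ) else 0) :
    IsIntegral ℤ (classInner (fun e : E => ψ e * ϑ e) (fun e : E => χ e)) := by
  classical
  obtain ⟨π, hπ, hcomm, hidem, hdvd⟩ := exists_powHom hE m n N (hmn ▸ Subgroup.card_subgroup_dvd_card E) hcop hN0 hN1
  haveI : Fintype π.range := Fintype.ofFinite _
  haveI : Fintype π.ker := Fintype.ofFinite _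
  let F : π.range × π.ker → E := fun z => (z.1 : E) * z.2
  have hF : Function.Bijective F := by
    have hinj : Function.Injective F := by
      intro z w h
      have h1 : (z.1 : E) = w.1 := by
        have := congrArg π h
        simp only [F, map_mul, MonoidHom.mem_ker.1 z.2.2, MonoidHom.mem_ker.1 w.2.2, mul_one, hidem _ z.1.2, hidem _ w.1.2] at this
        exact this
      have h2 : (z.2 : E) = w.2 := by
        simp only [F, h1] at h
        exact mul_left_cancel h
      exact Prod.ext (Subtype.ext h1) (Subtype.ext h2)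
    refine hinj.bijective_of_nat_card_le ?_
    rw [Nat.card_prod, ← Subgroup.index_ker, Subgroup.index_mul_card]
  have key : classInner (fun e : E => ψ e * ϑ e) (fun e : E => χ e) =
      ∑ a ∈ (Finset.univ.filter fun a : π.range => IsConj (((a : E) : G)) g),
        (((n / Nat.card π.range : ℕ)) : ℂ) * ((Nat.card π.ker : ℂ)⁻¹ * ∑ k : π.ker, (fun e : E => ψ e * conj (χ e)) ((a : E) * k)) := by
    rw [classInner, ← (Equiv.ofBijective F hF).sum_comp, Fintype.sum_prod_type, Finset.mul_sum, Finset.sum_filter]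
    refine Finset.sum_congr rfl fun a _ => ?_
    have hv : ∀ k : π.ker, ϑ ((F (a, k) : E) : G) = if IsConj (((a : E) : G)) g then (n : ℂ) else 0 := by
      intro k
      rw [hϑ, ← Subgroup.coe_pow, ← hπ, show π (F (a, k)) = (a : E) by
        simp only [F, map_mul, MonoidHom.mem_ker.1 k.2, mul_one, hidem _ a.2]]
    simp only [Equiv.ofBijective_apply, hv]
    split_ifs with h
    · rw [← Nat.card_congr (Equiv.ofBijective F hF), Nat.card_prod, Finset.mul_sum, Finset.mul_sum, Finset.mul_sum]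
      refine Finset.sum_congr rfl fun k _ => ?_
      have hA : (Nat.card π.range : ℂ) ≠ 0 := Nat.cast_ne_zero.2 Nat.card_pos.ne'
      have hK : (Nat.card π.ker : ℂ) ≠ 0 := Nat.cast_ne_zero.2 Nat.card_pos.ne'
      rw [Nat.cast_div hdvd hA, Nat.cast_mul]
      simp only [F]
      field_simp
    · simp
  rw [key]
  have hk : ∀ k : ℕ, IsIntegral ℤ (k : ℂ) := fun k => by
    exact_mod_cast (isIntegral_algebraMap (R := ℤ) (A := ℂ) (x := (k : ℤ)))
  refine IsIntegral.sum _ fun a _ => (hk _).mul ?_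
  exact Cfsg.Agent.S0876.avg_isIntegral (IsCharacter.mul hψ (conj_res hχ E)) π.range π.ker hcomm a

/-- Let G be a finite group of order m * n with m and n coprime, and g an element whose order is coprime to m. Every x in G factors uniquely as x = u * v with u, v commuting, the order of u coprime to n and the order of v coprime to m; let ϑ be the function on G equal to n at those x whose factor v is conjugate to g and equal to 0 elsewhere. Then ϑ is a linear combination of the irreducible characters of G with algebraic-integer coefficients. -/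
theorem result {G : Type*} [Group G] [Fintype G] (m n : ℕ) (hmn : Nat.card G = m * n) (hcop : Nat.Coprime m n) (g : G) (hg : Nat.Coprime (orderOf g) m) (ϑ : G → ℂ) (hϑ1 : ∀ x : G, (∃ v : G, IsConj v g ∧ (∃ u : G, x = u * v ∧ Commute u v ∧ Nat.Coprime (orderOf u) n ∧ Nat.Coprime (orderOf v) m)) → ϑ x = n) (hϑ0 : ∀ x : G, (¬ ∃ v : G, IsConj v g ∧ (∃ u : G, x = u * v ∧ Commute u v ∧ Nat.Coprime (orderOf u) n ∧ Nat.Coprime (orderOf v) m)) → ϑ x = 0) : ∃ c : Cfsg.IrrCharacter G → ℂ, (∀ χ, c χ ∈ Cfsg.AlgInt) ∧ ϑ = ∑ᶠ χ : Cfsg.IrrCharacter G, c χ • (χ : G → ℂ) := by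
  classical
  obtain ⟨N, hN0, hN1⟩ := Nat.chineseRemainder hcop 0 1
  have hord : ∀ x : G, orderOf x ∣ m * n := fun x => hmn ▸ orderOf_dvd_natCard x
  -- the two factors of an element
  have hcond : ∀ x : G, (∃ v : G, IsConj v g ∧ (∃ u : G, x = u * v ∧ Commute u v ∧ Nat.Coprime (orderOf u) n ∧ Nat.Coprime (orderOf v) m)) ↔ IsConj (x ^ N) g := by
    intro x
    constructor
    · rintro ⟨v, hv, u, rfl, huv, hu, hvm⟩
      have h1 : u ^ N = 1 := orderOf_dvd_iff_pow_eq_one.1 ((hu.dvd_of_dvd_mul_right (hord u)).trans (Nat.modEq_zero_iff_dvd.1 hN0))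
      have h2 : v ^ N = v := by
        conv_rhs => rw [← pow_one v]
        exact pow_eq_pow_iff_modEq.2 (hN1.of_dvd (hvm.dvd_of_dvd_mul_left (hord v)))
      rwa [huv.mul_pow, h1, h2, one_mul]
    · intro h
      refine ⟨x ^ N, h, x * (x ^ N)⁻¹, by group, ((Commute.refl x).mul_left ((Commute.self_pow x N).symm.inv_left)).pow_right N, ?_, ?_⟩
      · have hd : orderOf (x * (x ^ N)⁻¹) ∣ m := by
          apply orderOf_dvd_of_pow_eq_one
          rw [(Commute.self_pow x N).inv_right.mul_pow, inv_pow, ← pow_mul, mul_inv_eq_one]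
          refine pow_eq_pow_iff_modEq.2 (Nat.ModEq.of_dvd (hord x) ?_)
          exact (Nat.modEq_and_modEq_iff_modEq_mul hcop).1 ⟨(Nat.modEq_zero_iff_dvd.2 dvd_rfl).trans (Nat.modEq_zero_iff_dvd.2 (dvd_mul_left m N)).symm,
            by simpa using (hN1.symm.mul_right m)⟩
        exact hcop.coprime_dvd_left hd
      · have hd : orderOf (x ^ N) ∣ n := by
          apply orderOf_dvd_of_pow_eq_one
          rw [← pow_mul, ← orderOf_dvd_iff_pow_eq_one]
          exact (hord x).trans (Nat.mul_dvd_mul_right (Nat.modEq_zero_iff_dvd.1 hN0) n)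
        exact hcop.symm.coprime_dvd_left hd
  have hϑ : ∀ x : G, ϑ x = if IsConj (x ^ N) g then (n : ℂ) else 0 := fun x => by
    split_ifs with h
    · exact hϑ1 x ((hcond x).2 h)
    · exact hϑ0 x (mt (hcond x).1 h)
  have hϑc : IsClassFunction G ϑ := fun x y => by
    rw [hϑ, hϑ]
    refine if_congr ?_ rfl rfl
    rw [conj_pow]
    have hc : IsConj (x ^ N) (y * x ^ N * y⁻¹) := isConj_iff.2 ⟨y, rfl⟩
    exact ⟨fun h => hc.trans h, fun h => hc.symm.trans h⟩
  have hint : ∀ χ : IrrCharacter G, IsIntegral ℤ (classInner ϑ (χ : G → ℂ)) := by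
    intro χ
    obtain ⟨l, hl⟩ := exists_list_of_mem_closure (one_mem_elemSpan (G := G))
    suffices h : IsIntegral ℤ (classInner ((l.map fun t => (t.2 : ℂ) • indFun t.1.1.1 t.1.1.2).sum * ϑ) (χ : G → ℂ)) by
      rwa [← hl, show (fun _ : G => (1 : ℂ)) * ϑ = ϑ from funext fun x => one_mul _] at h
    clear hl
    induction l with
    | nil => simp [classInner, isIntegral_zero]
    | cons a t ih =>
      simp only [List.map_cons, List.sum_cons, add_mul, smul_mul_assoc]
      rw [indFun_mul _ _ hϑc]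
      have hlin : ∀ (g₁ : G → ℂ) (c : ℂ) (g₂ : G → ℂ), classInner (c • g₁ + g₂) (χ : G → ℂ) = c * classInner g₁ (χ : G → ℂ) + classInner g₂ (χ : G → ℂ) := by
        intro g₁ c g₂
        simp [classInner, add_mul, Finset.sum_add_distrib, mul_add, Finset.mul_sum, mul_assoc, mul_left_comm]
      rw [hlin]
      refine (IsIntegral.mul (A := ℂ) (isIntegral_algebraMap (R := ℤ) (A := ℂ) (x := a.2)) ?_).add ih
      obtain ⟨⟨⟨E, ψ⟩, ⟨p, hp, hel⟩, hψ⟩, k⟩ := a
      haveI : Fintype E := Fintype.ofFinite E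
      rw [frobenius E _ (IsCharacter.isClassFunction (isCharacter_irr χ))]
      exact local_integral m n hmn hcop N hN0 hN1 g E (isNilpotent_of_isElementary hp hel) ψ hψ (χ : G → ℂ) (isCharacter_irr χ) ϑ hϑ
  refine ⟨fun χ => classInner ϑ (χ : G → ℂ), fun χ => hint χ, ?_⟩
  rw [finsum_eq_sum_of_fintype]
  funext x
  rw [classFunction_expand hϑc x]
  simp

end Cfsg.Agent.S0875
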