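import Cfsg.Statements.S0877
import Mathlib
import Cfsg.Agent.Lib.BrauerInd.Main
import Cfsg.Agent.Lib.Chars.Kernel
import Cfsg.Agent.S0875

set_option autoImplicit false
open Cfsg

namespace Cfsg.Agent.S0877

universe uX
open CfsgLib.Chars CfsgLib.BrauerInd
open scoped ComplexConjugate

theorem int_inner {X : Type uX} [Group X] [Fintype X] {φ : X → ℂ} (h : IsGeneralizedCharacter X φ)
    (χ : IrrCharacter X) : ∃ n : ℤ, classInner φ (χ : X → ℂ) = (n : ℂ) := by
  obtain ⟨α, β, hα, hβ, rfl⟩ := h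
  obtain ⟨m, hm⟩ := exists_mult hα χ
  obtain ⟨k, hk⟩ := exists_mult hβ χ
  refine ⟨(m : ℤ) - k, ?_⟩
  push_cast
  rw [← hm, ← hk]
  simp [classInner, sub_mul, Finset.sum_sub_distrib, mul_sub]

/-- Generalized characters of norm one and positive degree are characters. -/
theorem isCharacter_of_gen {X : Type uX} [Group X] [Fintype X] {φ : X → ℂ} (h : IsGeneralizedCharacter X φ)
    (hnorm : classInner φ φ = 1) (hpos : (φ 1).re > 0) : IsCharacter X φ := by
  classical
  choose z hz using int_inner h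
  obtain ⟨α, β, hα, hβ, hφ⟩ := h
  have hcl : IsClassFunction X φ := fun a b => by
    simp only [hφ, Pi.sub_apply, IsCharacter.isClassFunction hα a b, IsCharacter.isClassFunction hβ a b]
  refine isCharacter_of_mult hcl fun χ => ⟨(z χ).toNat, ?_⟩
  have he : φ = fun x => ∑ ψ : IrrCharacter X, (z ψ : ℂ) * (ψ : X → ℂ) x := funext fun x => by
    rw [classFunction_expand hcl x]; simp only [hz]
  have hsq : ∑ ψ : IrrCharacter X, z ψ * z ψ = 1 := by
    have h1 : classInner φ φ = ∑ ψ : IrrCharacter X, (z ψ : ℂ) * (z ψ : ℂ) := by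
      conv_lhs => arg 1; rw [he]
      rw [classInner_sum]
      refine Finset.sum_congr rfl fun ψ _ => ?_
      rw [classInner_symm, hz, map_intCast]
    rw [hnorm] at h1
    exact_mod_cast h1.symm
  have hz0 : 0 ≤ z χ := by
    by_contra hlt
    rw [not_le] at hlt
    have hothers : ∀ ψ : IrrCharacter X, ψ ≠ χ → z ψ = 0 := fun ψ hne => by
      have := Finset.single_le_sum (f := fun ψ => z ψ * z ψ) (fun i _ => mul_self_nonneg (z i)) (Finset.mem_univ χ)
      have h2 := Finset.add_le_sum (f := fun ψ => z ψ * z ψ) (fun i _ => mul_self_nonneg (z i)) (Finset.mem_univ χ) (Finset.mem_univ ψ) hne.symm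
      rw [hsq] at h2
      nlinarith
    have h1 : φ 1 = (z χ : ℂ) * (charDegree (χ : X → ℂ) : ℂ) := by
      rw [← irr_apply_one]
      conv_lhs => rw [he]
      exact Finset.sum_eq_single χ (fun ψ _ hne => by simp [hothers ψ hne]) (by simp)
    rw [h1, Complex.mul_re, Complex.intCast_re, Complex.intCast_im, zero_mul, sub_zero, Complex.natCast_re] at hpos
    have : (z χ : ℝ) < 0 := by exact_mod_cast hlt
    have : (0 : ℝ) ≤ (charDegree (χ : X → ℂ) : ℝ) := Nat.cast_nonneg _
    nlinarith
  rw [hz]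
  exact_mod_cast congrArg (fun t : ℤ => (t : ℂ)) (Int.toNat_of_nonneg hz0).symm

/-- Let H be a subgroup of the finite group G whose order is coprime to its index. Suppose that elements of H conjugate in G are conjugate in H, and that every subgroup E of G that is elementary for some prime (in the sense used for Brauer's characterisation of characters) and whose order divides the order of H is conjugate to a subgroup of H. Then there is a normal subgroup K with K ⊔ H = ⊤ and K ⊓ H trivial. -/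
theorem result {G : Type*} [Group G] [Finite G] (H : Subgroup G) (hHall : Nat.Coprime (Nat.card H) H.index) (hfus : ∀ x ∈ H, ∀ y ∈ H, IsConj x y → ∃ h ∈ H, h * x * h⁻¹ = y) (helem : ∀ (E : Subgroup G) (p : ℕ), p.Prime → Cfsg.IsElementary p E → Nat.card E ∣ Nat.card H → ∃ g : G, E.map (MulAut.conj g).toMonoidHom ≤ H) : ∃ K : Subgroup G, K.Normal ∧ K ⊔ H = ⊤ ∧ K ⊓ H = ⊥ := by
  classical
  letI := Fintype.ofFinite G
  letI := Fintype.ofFinite H
  have hcop : Nat.Coprime H.index (Nat.card H) := hHall.symm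
  obtain ⟨N, hN0, hN1⟩ := Nat.chineseRemainder hcop 0 1
  have hcard : Nat.card G = H.index * Nat.card H := (H.index_mul_card).symm
  have hsN : ∀ s : H, (s : G) ^ N = s := fun s => by
    conv_rhs => rw [← pow_one (s : G)]
    exact pow_eq_pow_iff_modEq.2 (hN1.of_dvd (Subgroup.orderOf_coe s ▸ orderOf_dvd_natCard s))
  have hxo : ∀ x : G, orderOf (x ^ N) ∣ Nat.card H := fun x => by
    apply orderOf_dvd_of_pow_eq_one
    rw [← pow_mul, ← orderOf_dvd_iff_pow_eq_one]
    exact (orderOf_dvd_natCard x).trans (hcard ▸ Nat.mul_dvd_mul_right (Nat.modEq_zero_iff_dvd.1 hN0) _)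
  have hex : ∀ x : G, ∃ h : H, IsConj (x ^ N) (h : G) := fun x => by
    obtain ⟨g, hg⟩ := helem (Subgroup.zpowers (x ^ N)) 2 Nat.prime_two (isElementary_zpowers Nat.prime_two _)
      (by rw [Nat.card_zpowers]; exact hxo x)
    exact ⟨⟨_, hg (Subgroup.mem_map_of_mem _ (Subgroup.mem_zpowers _))⟩, isConj_iff.2 ⟨g, rfl⟩⟩
  choose c hc using hex
  -- fusion
  have hfusH : ∀ (a b : H), IsConj (a : G) b → IsConj a b := fun a b h => by
    obtain ⟨k, hk, e⟩ := hfus a a.2 b b.2 h
    exact isConj_iff.2 ⟨⟨k, hk⟩, Subtype.ext e⟩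
  have hcs : ∀ (x : G) (s : H), IsConj s (c x) ↔ IsConj (x ^ N) (s : G) := fun x s =>
    ⟨fun h => (hc x).trans (H.subtype.map_isConj h.symm :), fun h => hfusH _ _ (h.symm.trans (hc x))⟩
  have hcf : ∀ (f : H → ℂ), IsClassFunction H f → ∀ (a b : H), IsConj a b → f a = f b := fun f hf a b h => by
    obtain ⟨k, rfl⟩ := isConj_iff.1 h
    exact (hf a k).symm
  have hhatcf : ∀ f : H → ℂ, IsClassFunction H f → IsClassFunction G fun x => f (c x) := fun f hf x y => by
    refine hcf f hf _ _ (hfusH _ _ ((hc _).symm.trans (IsConj.trans ?_ (hc x))))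
    rw [conj_pow]
    exact (isConj_iff.2 ⟨y, rfl⟩ : IsConj (x ^ N) (y * x ^ N * y⁻¹)).symm
  -- the lift of a character is a generalized character
  have hgen : ∀ f : H → ℂ, IsCharacter H f → IsGeneralizedCharacter G fun x => f (c x) := fun f hf => by
    refine isGeneralized_of_elementary (hhatcf f (IsCharacter.isClassFunction hf)) fun E p hp hE => ?_
    obtain ⟨π, hπ, -, -, hdvd⟩ := Cfsg.Agent.S0875.exists_powHom (isNilpotent_of_isElementary hp hE) H.index (Nat.card H) N
      (hcard ▸ Subgroup.card_subgroup_dvd_card E) hcop hN0 hN1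
    have hR : IsElementary p ↥(π.range.map E.subtype) :=
      isElementary_equiv (π.range.equivMapOfInjective E.subtype E.subtype_injective) (isElementary_subgroup hp hE _)
    obtain ⟨g, hg⟩ := helem _ p hp hR (by rw [Subgroup.card_map_of_injective E.subtype_injective]; exact hdvd)
    let φ : E →* H := (((MulAut.conj g).toMonoidHom.comp E.subtype).comp π).codRestrict H fun e =>
      hg (Subgroup.mem_map_of_mem _ (Subgroup.mem_map_of_mem _ ⟨e, rfl⟩))
    refine ⟨fun e => f (φ e), 0, IsCharacter.comp hf φ, isCharacter_zero, funext fun e => ?_⟩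
    rw [Pi.sub_apply, Pi.zero_apply, sub_zero]
    refine hcf f (IsCharacter.isClassFunction hf) _ _ (hfusH _ _ ((hc _).symm.trans (isConj_iff.2 ⟨g, ?_⟩)))
    show g * (e : G) ^ N * g⁻¹ = g * ((π e : E) : G) * g⁻¹
    rw [hπ, Subgroup.coe_pow]
  -- integrality
  let L : (H → ℂ) → ℂ := fun f => (Nat.card G : ℂ)⁻¹ * ∑ x : G, f (c x)
  have hLint : ∀ ψ : IrrCharacter H, ∃ z : ℤ, L (ψ : H → ℂ) = z := fun ψ => by
    obtain ⟨z, hz⟩ := int_inner (hgen _ (isCharacter_irr ψ)) ⟨_, isIrrCharacter_one G⟩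
    exact ⟨z, by simpa [L, classInner] using hz⟩
  choose l hl using hLint
  let u : H → ℂ := fun s => ∑ ψ : IrrCharacter H, (l ψ : ℂ) * conj ((ψ : H → ℂ) s)
  let k : H → ℕ := fun s => (Finset.univ.filter fun x : G => IsConj (x ^ N) (s : G)).card * Nat.card (Subgroup.centralizer ({s} : Set H))
  have hu : ∀ s, (Nat.card G : ℂ) * u s = k s := fun s => by
    calc (Nat.card G : ℂ) * u s = ∑ x : G, ∑ ψ : IrrCharacter H, (ψ : H → ℂ) (c x) * conj ((ψ : H → ℂ) s) := by
          rw [Finset.sum_comm, Finset.mul_sum]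
          refine Finset.sum_congr rfl fun ψ _ => ?_
          rw [← hl, ← Finset.sum_mul, ← mul_assoc, ← mul_assoc, mul_inv_cancel₀ (natCast_card_ne_zero G), one_mul]
      _ = ∑ x : G, if IsConj (x ^ N) (s : G) then (Nat.card (Subgroup.centralizer ({s} : Set H)) : ℂ) else 0 :=
          Finset.sum_congr rfl fun x _ => by rw [col_orth]; simp only [hcs x s]
      _ = k s := by rw [← Finset.sum_filter, Finset.sum_const, nsmul_eq_mul, Nat.cast_mul]
  have hj : ∀ s, ∃ j : ℤ, 1 ≤ j ∧ u s = j := fun s => by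
    have hi : IsIntegral ℤ (u s) := IsIntegral.sum _ fun ψ _ =>
      IsIntegral.mul (by simpa using (isIntegral_algebraMap (R := ℤ) (A := ℂ) (x := l ψ))) ((IsCharacter.isIntegral (isCharacter_irr ψ) s).map (starRingEnd ℂ).toIntAlgHom)
    obtain ⟨j, hj⟩ := exists_rat_integral hi (k := (Nat.card G : ℤ)) (m := (k s : ℤ)) (Int.natCast_ne_zero.2 Nat.card_pos.ne') (by exact_mod_cast hu s)
    refine ⟨j, ?_, hj.symm⟩
    have h1 : (Nat.card G : ℤ) * j = k s := by
      have := hu s
      rw [← hj] at this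
      exact_mod_cast this
    have h2 : 0 < k s := Nat.mul_pos (Finset.card_pos.2 ⟨(s : G), Finset.mem_filter.2 ⟨Finset.mem_univ _, by rw [hsN]⟩⟩) Nat.card_pos
    have h3 : (0 : ℤ) < (Nat.card G : ℤ) * j := by rw [h1]; exact_mod_cast h2
    exact pos_of_mul_pos_right h3 (by positivity)
  choose j hj1 hju using hj
  have hsum : ∀ ψ : IrrCharacter H, ∑ s : H, (ψ : H → ℂ) s * u s = (Nat.card H : ℂ) * L (ψ : H → ℂ) := fun ψ => by
    simp only [u, Finset.mul_sum]
    rw [Finset.sum_comm]
    have : ∀ χ : IrrCharacter H, ∑ s : H, (ψ : H → ℂ) s * ((l χ : ℂ) * conj ((χ : H → ℂ) s)) = if ψ = χ then (l χ : ℂ) * Nat.card H else 0 := fun χ => by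
      simp only [mul_left_comm _ (l χ : ℂ), ← Finset.mul_sum, sum_mul_conj_irr]
      split_ifs <;> simp
    simp only [this, Finset.sum_ite_eq, Finset.mem_univ, if_true, hl, mul_comm]
  have hone : ∀ s, u s = 1 := by
    have h := hsum ⟨_, isIrrCharacter_one H⟩
    simp only [one_mul, hju, L, Finset.sum_const, Finset.card_univ, nsmul_eq_mul, mul_one] at h
    rw [← Nat.card_eq_fintype_card, inv_mul_cancel₀ (natCast_card_ne_zero G), mul_one] at h
    have h' : ∑ s : H, j s = ∑ _s : H, (1 : ℤ) := by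
      rw [Finset.sum_const, Finset.card_univ, ← Nat.card_eq_fintype_card, nsmul_eq_mul, mul_one]
      exact_mod_cast h
    intro s
    rw [hju, ← (Finset.sum_eq_sum_iff_of_le fun i _ => hj1 i).1 h'.symm s (Finset.mem_univ s), Int.cast_one]
  have hLψ : ∀ ψ : IrrCharacter H, L (ψ : H → ℂ) = (Nat.card H : ℂ)⁻¹ * ∑ s : H, (ψ : H → ℂ) s := fun ψ => by
    have h := hsum ψ
    simp only [hone, mul_one] at h
    rw [h, ← mul_assoc, inv_mul_cancel₀ (natCast_card_ne_zero H), one_mul]
  have hLf : ∀ f : H → ℂ, IsClassFunction H f → L f = (Nat.card H : ℂ)⁻¹ * ∑ s : H, f s := fun f hf => by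
    simp only [L]
    simp_rw [classFunction_expand hf]
    rw [Finset.sum_comm, Finset.sum_comm (γ := H), Finset.mul_sum, Finset.mul_sum]
    refine Finset.sum_congr rfl fun ψ _ => ?_
    rw [← Finset.mul_sum, ← Finset.mul_sum, mul_left_comm, mul_left_comm (Nat.card H : ℂ)⁻¹, ← hLψ]
  -- the lift of an irreducible character is a character
  have hchar : ∀ θ : IrrCharacter H, IsCharacter G fun x => (θ : H → ℂ) (c x) := fun θ => by
    refine isCharacter_of_gen (hgen _ (isCharacter_irr θ)) ?_ ?_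
    · have h1 := hLf (fun s => (θ : H → ℂ) s * conj ((θ : H → ℂ) s)) fun a b => by
        simp only [IsCharacter.isClassFunction (isCharacter_irr θ) a b]
      have h2 := classInner_irr θ θ
      rw [if_pos rfl] at h2
      simp only [L] at h1
      rw [classInner] at h2 ⊢
      exact h1.trans h2
    · have : IsConj (1 : H) (c 1) := (hcs 1 1).2 (by simp)
      show ((θ : H → ℂ) (c 1)).re > 0
      rw [← hcf _ (IsCharacter.isClassFunction (isCharacter_irr θ)) 1 (c 1) this, irr_apply_one, Complex.natCast_re]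
      exact_mod_cast charDegree_pos θ
  -- the complement
  have hmem : ∀ x : G, (∀ θ : IrrCharacter H, (θ : H → ℂ) (c x) = (θ : H → ℂ) (c 1)) ↔ x ^ N = 1 := fun x => by
    have hc1 : c (1 : G) = 1 := isConj_one_right.1 ((hcs 1 1).2 (by simp))
    rw [hc1]
    constructor
    · intro h
      have h1 := sum_deg_mul (c x)
      simp_rw [h] at h1
      rw [sum_deg_mul, if_pos rfl] at h1
      have : c x = 1 := by
        by_contra hne
        rw [if_neg hne] at h1
        exact natCast_card_ne_zero H h1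
      simpa [this] using (hc x)
    · intro h θ
      have : c x = 1 := isConj_one_right.1 ((hcs x 1).2 (by simp [h]))
      rw [this]
  choose K hKn hK _hKm using fun θ : IrrCharacter H => IsCharacter.exists_kernel (hchar θ)
  haveI : ∀ θ, (K θ).Normal := hKn
  refine ⟨⨅ θ, K θ, Subgroup.normal_iInf_normal hKn, ?_⟩
  have hKN : ∀ x : G, x ∈ ⨅ θ, K θ ↔ x ^ N = 1 := fun x => by
    rw [Subgroup.mem_iInf, ← hmem]
    exact forall_congr' fun θ => hK θ x
  have hKcard : Nat.card ↥(⨅ θ, K θ) = H.index := by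
    have h1 := hu 1
    rw [hone, mul_one] at h1
    have hcent : Subgroup.centralizer ({1} : Set H) = ⊤ := by ext; simp [Subgroup.mem_centralizer_iff]
    have h2 : Nat.card G = (Finset.univ.filter fun x : G => IsConj (x ^ N) ((1 : H) : G)).card * Nat.card H := by
      have h3 : Nat.card G = k 1 := by exact_mod_cast h1
      simpa [k, hcent] using h3
    rw [hcard] at h2
    rw [Nat.eq_of_mul_eq_mul_right Nat.card_pos h2, ← Fintype.card_subtype, ← Nat.card_eq_fintype_card]
    exact Nat.card_congr (Equiv.subtypeEquivRight fun x => by rw [hKN]; simp [isConj_one_left])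
  have hdis : (⨅ θ, K θ) ⊓ H = ⊥ := Subgroup.inf_eq_bot_of_coprime (by rw [hKcard]; exact hcop)
  refine ⟨?_, hdis⟩
  exact (Subgroup.isComplement'_of_card_mul_and_disjoint (by rw [hKcard, Subgroup.index_mul_card]) (disjoint_iff.2 hdis)).sup_eq_top

end Cfsg.Agent.S0877
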