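import Cfsg.Statements.S0941
import Cfsg.Agent.Lib.Blocks.PInflate
import Cfsg.Agent.Lib.Blocks.BrauerHom

set_option autoImplicit false
open Cfsg

namespace Cfsg.Agent.S0941

open CfsgLib.Chars CfsgLib.Blocks

/-- Let P be a normal p-subgroup of the finite group G such that the index of C_G(P) is a power of p, and fix a maximal ideal M of the algebraic integers containing p. Then (i) two irreducible characters of G ⧸ P lie in the same block if and only if their inflations to G do, and (ii) every block of G contains the inflation of some irreducible character of G ⧸ P; so inflation induces a bijection between the blocks of G ⧸ P and the blocks of G. -/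
theorem result {G : Type*} [Group G] [Finite G] (p : ℕ) [Fact p.Prime] (M : Ideal Cfsg.AlgInt) (hM : Cfsg.IsPModular p M) (P : Subgroup G) [P.Normal] (hP : IsPGroup p P) (hC : ∃ k : ℕ, (Subgroup.centralizer (P : Set G)).index = p ^ k) : (∀ χ ψ : Cfsg.IrrCharacter (G ⧸ P), Cfsg.SameBlock M (χ : G ⧸ P → ℂ) (ψ : G ⧸ P → ℂ) ↔ Cfsg.SameBlock M ((χ : G ⧸ P → ℂ) ∘ QuotientGroup.mk) ((ψ : G ⧸ P → ℂ) ∘ QuotientGroup.mk)) ∧ ∀ B : Set (Cfsg.IrrCharacter G), Cfsg.IsPBlock M B → ∃ χ : Cfsg.IrrCharacter (G ⧸ P), ∃ θ ∈ B, (θ : G → ℂ) = (χ : G ⧸ P → ℂ) ∘ QuotientGroup.mk := by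
  classical
  haveI : Fintype G := Fintype.ofFinite G
  obtain ⟨k, hk⟩ := hC
  refine ⟨fun χ ψ => ⟨sameBlock_inflate hM P, fun h => sameBlock_deflate_of_lift hM P h fun q hq => ?_⟩,
    fun B hB => exists_inflate_mem hM P hP hB⟩
  obtain ⟨g, hgq, hg⟩ := exists_regular_lift hM.1 P hq
  refine Or.inl ⟨g, hgq, ?_⟩
  have hgC : g ∈ Subgroup.centralizer (P : Set G) := by
    haveI : (Subgroup.centralizer (P : Set G)).Normal := ⟨fun x hx y => by
      refine conj_mem_centralizer_of_normalizer ?_ hx
      rw [Subgroup.normalizer_eq_top]; exact Subgroup.mem_top y⟩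
    have h1 : orderOf (g : G ⧸ Subgroup.centralizer (P : Set G)) ∣ p ^ k := by
      rw [← hk, Subgroup.index_eq_card]; exact orderOf_dvd_natCard _
    exact (QuotientGroup.eq_one_iff g).mp (orderOf_eq_one_iff.mp (Nat.eq_one_of_dvd_coprimes
      (((hM.1.coprime_iff_not_dvd.mpr hg).symm).pow_right k)
      (orderOf_map_dvd (QuotientGroup.mk' (Subgroup.centralizer (P : Set G))) g) h1))
  rw [relIndex_eq_one_of_centralizes hM P hP hg hgC]
  exact hM.1.not_dvd_one

end Cfsg.Agent.S0941
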