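import Cfsg.Statements.S4741
import Cfsg.Agent.Lib.Blocks.ClassProduct
import Cfsg.Agent.Lib.Blocks.DefectClass
import Cfsg.Agent.Lib.Blocks.BrauerFeit

set_option autoImplicit false
open Cfsg

namespace Cfsg.Agent.S4741
open CfsgLib.Chars CfsgLib.Blocks
open scoped ComplexConjugate

universe v

open Matrix

variable {G : Type v} [Group G] [Fintype G] {p : ℕ} {M : Ideal Cfsg.AlgInt}

theorem mli_prod_sub (hM : Cfsg.IsPModular p M) {ι : Type*} [DecidableEq ι] (s : Finset ι) {f g : ι → ℂ}
    (hf : ∀ i ∈ s, Cfsg.MemLocalRing M (f i)) (hg : ∀ i ∈ s, Cfsg.MemLocalRing M (g i))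
    (h : ∀ i ∈ s, Cfsg.MemLocalIdeal M (f i - g i)) :
    Cfsg.MemLocalIdeal M (∏ i ∈ s, f i - ∏ i ∈ s, g i) := by
  induction s using Finset.induction_on with
  | empty => simp only [Finset.prod_empty, sub_self]; exact mli_zero hM
  | insert a s ha ih =>
    rw [Finset.prod_insert ha, Finset.prod_insert ha,
      show f a * ∏ i ∈ s, f i - g a * ∏ i ∈ s, g i =
        (f a - g a) * ∏ i ∈ s, f i + g a * (∏ i ∈ s, f i - ∏ i ∈ s, g i) by ring]
    refine mli_add hM (mli_mul_right hM (h a (Finset.mem_insert_self a s)) ?_)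
      (mli_mul_left hM (hg a (Finset.mem_insert_self a s)) (ih
        (fun i hi => hf i (Finset.mem_insert_of_mem hi))
        (fun i hi => hg i (Finset.mem_insert_of_mem hi))
        fun i hi => h i (Finset.mem_insert_of_mem hi)))
    exact mlr_prod hM _ fun i hi => hf i (Finset.mem_insert_of_mem hi)

variable {r : ℕ}

theorem mli_det_sub (hM : Cfsg.IsPModular p M) {A A' : Matrix (Fin r) (Fin r) ℂ}
    (hA : ∀ i j, Cfsg.MemLocalRing M (A i j)) (hA' : ∀ i j, Cfsg.MemLocalRing M (A' i j))
    (h : ∀ i j, Cfsg.MemLocalIdeal M (A i j - A' i j)) :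
    Cfsg.MemLocalIdeal M (A.det - A'.det) := by
  rw [det_apply', det_apply', ← Finset.sum_sub_distrib]
  refine mli_sum hM _ fun σ _ => ?_
  rw [← mul_sub]
  exact mli_mul_left hM (mlr_intCast hM _)
    (mli_prod_sub hM _ (fun i _ => hA _ _) (fun i _ => hA' _ _) fun i _ => h _ _)

theorem mli_prod_of_mem (hM : Cfsg.IsPModular p M) {ι : Type*} [DecidableEq ι] {s : Finset ι} {f : ι → ℂ}
    {i : ι} (hi : i ∈ s) (h : Cfsg.MemLocalIdeal M (f i))
    (hf : ∀ k ∈ s, Cfsg.MemLocalRing M (f k)) : Cfsg.MemLocalIdeal M (∏ k ∈ s, f k) := by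
  rw [← Finset.mul_prod_erase s f hi]
  exact mli_mul_right hM h (mlr_prod hM _ fun k hk => hf k (Finset.mem_of_mem_erase hk))

theorem mli_det_row (hM : Cfsg.IsPModular p M) {A : Matrix (Fin r) (Fin r) ℂ}
    (hA : ∀ i j, Cfsg.MemLocalRing M (A i j)) {i : Fin r}
    (h : ∀ j, Cfsg.MemLocalIdeal M (A i j)) : Cfsg.MemLocalIdeal M A.det := by
  rw [det_apply']
  refine mli_sum hM _ fun σ _ => mli_mul_left hM (mlr_intCast hM _) ?_
  refine mli_prod_of_mem hM (Finset.mem_univ (σ.symm i)) ?_ fun k _ => hA _ _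
  rw [Equiv.apply_symm_apply]
  exact h _

theorem mli_of_lt (hM : Cfsg.IsPModular p M) {n m : ℕ} (hn : n ≠ 0) (hm : m ≠ 0)
    (h : n.factorization p < m.factorization p) :
    Cfsg.MemLocalIdeal M ((m : ℂ) / (n : ℂ)) := by
  have hq : ¬ p ∣ n / p ^ n.factorization p := Nat.not_dvd_ordCompl hM.1 hn
  obtain ⟨e, he⟩ : ∃ e, m.factorization p = n.factorization p + 1 + e :=
    ⟨m.factorization p - n.factorization p - 1, by omega⟩
  have hp0 : (p : ℂ) ≠ 0 := Nat.cast_ne_zero.mpr hM.1.ne_zero
  have hq0 : ((n / p ^ n.factorization p : ℕ) : ℂ) ≠ 0 :=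
    Nat.cast_ne_zero.mpr fun h0 => hq (h0 ▸ dvd_zero p)
  have e1 : (m : ℂ) / (n : ℂ) = (p : ℂ) *
      (((p ^ e * (m / p ^ m.factorization p) : ℕ) : ℂ) *
        ((n / p ^ n.factorization p : ℕ) : ℂ)⁻¹) := by
    have em := (Nat.ordProj_mul_ordCompl_eq_self m p).symm
    have en := (Nat.ordProj_mul_ordCompl_eq_self n p).symm
    generalize m / p ^ m.factorization p = q' at *
    generalize n / p ^ n.factorization p = q at *
    generalize n.factorization p = v at *
    generalize m.factorization p = v' at *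
    subst he en em
    push_cast
    rw [pow_add, pow_add, pow_one]
    field_simp
  rw [e1]
  exact mli_mul_right hM (mli_p hM) (mlr_mul hM (mlr_natCast hM _) (mlr_natCast_inv hM hq))

theorem main (hM : Cfsg.IsPModular p M) [Fact p.Prime] (D : Subgroup G) (x : Fin r → G)
    (hx : ∀ i j : Fin r, IsConj (x i) (x j) → i = j)
    (hD : ∀ i : Fin r, ∃ S : Sylow p (Subgroup.centralizer ({x i} : Set G)),
      (S : Subgroup (Subgroup.centralizer ({x i} : Set G))).map
        (Subgroup.centralizer ({x i} : Set G)).subtype = D)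
    (hsep : ∀ i j : Fin r, ∀ g h : G, IsConj (x i) g → IsConj (x j) h →
      ∀ k : ℕ, 0 < k → orderOf (g * h⁻¹) ≠ p ^ k) :
    ∃ B : Fin r → Set (Cfsg.IrrCharacter G), Function.Injective B ∧
      (∀ i : Fin r, Cfsg.IsPBlock M (B i) ∧ Cfsg.IsDefectGroup p M (B i) D) ∧
      ∀ χ : Fin r → Cfsg.IrrCharacter G,
        (∀ i : Fin r, χ i ∈ B i ∧ Cfsg.blockHeight p (B i) (χ i : G → ℂ) = 0) →
        ¬ Cfsg.MemLocalIdeal M (Matrix.det (Matrix.of fun i j : Fin r => (χ i : G → ℂ) (x j))) := by
  classical
  obtain ⟨S⟩ : Nonempty (Sylow p G) := inferInstance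
  set a := (Nat.card G).factorization p with ha
  set g' := Nat.card G / p ^ a with hg'
  have hcardD : ∀ i, Nat.card D =
      p ^ (Nat.card (Subgroup.centralizer ({x i} : Set G))).factorization p := fun i => by
    obtain ⟨T, hT⟩ := hD i
    rw [← hT, Subgroup.card_map_of_injective (Subgroup.subtype_injective _),
      T.card_eq_multiplicity]
  set c : Fin r → Cfsg.IrrCharacter G → ℂ := fun i φ =>
    (CP.mult (S : Subgroup G) φ : ℂ) * conj ((φ : G → ℂ) (x i)) with hc
  set w : Cfsg.IrrCharacter G → Fin r → ℂ := fun φ j =>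
    Cfsg.centralChar (φ : G → ℂ) (x j) with hw
  have hrel : ∀ i, (∑ φ : Cfsg.IrrCharacter G, c i φ • w φ) =
      fun j => if i = j then (g' : ℂ) else 0 := by
    intro i
    funext j
    rw [Finset.sum_apply]
    simp only [Pi.smul_apply, smul_eq_mul, hc, hw]
    have h := CP.sum_of_no_pairs (x := x j) (y := x i) (S : Subgroup G) (fun g h hg hh hs => by
      by_contra hne
      obtain ⟨k, hk⟩ := IsPGroup.iff_orderOf.mp S.2 ⟨_, hs⟩
      rw [Subgroup.orderOf_mk] at hk
      refine hsep j i g h hg hh k (Nat.pos_of_ne_zero fun k0 => hne ?_) hk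
      rw [k0, pow_zero, orderOf_eq_one_iff, mul_inv_eq_one] at hk
      exact hk)
    rw [← Finset.sum_mul] at h
    have hi : ((Subgroup.centralizer ({x i} : Set G)).index : ℂ) ≠ 0 :=
      Nat.cast_ne_zero.mpr Subgroup.index_ne_zero_of_finite
    apply mul_right_cancel₀ hi
    rw [h]
    split_ifs with he
    · subst he
      simp only [classInd, if_pos (IsConj.refl (x i)), one_mul]
      rw [mul_comm]
      congr 1
      rw [hg', Nat.cast_div (Nat.ordProj_dvd _ p) (by
        exact_mod_cast pow_ne_zero _ hM.1.ne_zero), S.card_eq_multiplicity]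
    · simp only [classInd, if_neg (fun hcj => he (hx i j hcj)), zero_mul]
  have hdet : ¬ Cfsg.MemLocalIdeal M (Matrix.detRowAlternating fun i => ∑ φ : Cfsg.IrrCharacter G, c i φ • w φ) := by
    simp only [hrel]
    have e : ((Matrix.detRowAlternating : (Fin r → ℂ) [⋀^Fin r]→ₗ[ℂ] ℂ)
        fun i j : Fin r => if i = j then (g' : ℂ) else 0) =
        ((g' ^ r : ℕ) : ℂ) := by
      change Matrix.det (Matrix.diagonal fun _ : Fin r => (g' : ℂ)) = _
      rw [Matrix.det_diagonal, Finset.prod_const, Finset.card_univ, Fintype.card_fin, Nat.cast_pow]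
    rw [e, mli_natCast_iff hM]
    exact fun hd => Nat.not_dvd_ordCompl hM.1 Nat.card_pos.ne' (hM.1.dvd_of_dvd_pow hd)
  have hcint : ∀ i φ, Cfsg.MemLocalRing M (c i φ) := fun i φ => by
    simp only [hc, ← IsCharacter.map_inv (isCharacter_irr φ)]
    exact mlr_mul hM (mlr_natCast hM _)
      (mlr_of_isIntegral hM (IsCharacter.isIntegral (isCharacter_irr φ) _))
  have hwint : ∀ φ j, Cfsg.MemLocalRing M (w φ j) := fun φ j => mlr_centralChar hM φ _
  obtain ⟨f, hfc, hfd⟩ : ∃ f : Fin r → Cfsg.IrrCharacter G,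
      (∀ i, ¬ Cfsg.MemLocalIdeal M (c i (f i))) ∧
        ¬ Cfsg.MemLocalIdeal M (Matrix.det (Matrix.of fun i => w (f i))) := by
    by_contra hn
    push Not at hn
    refine hdet ?_
    rw [← AlternatingMap.coe_multilinearMap, MultilinearMap.map_sum]
    refine mli_sum hM _ fun f _ => ?_
    rw [MultilinearMap.map_smul_univ, smul_eq_mul]
    by_cases hf : ∀ i, ¬ Cfsg.MemLocalIdeal M (c i (f i))
    · exact mli_mul_left hM (mlr_prod hM _ fun i _ => hcint i _) (hn f hf)
    · push Not at hf
      obtain ⟨i, hi⟩ := hf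
      refine mli_mul_right hM (mli_prod_of_mem hM (Finset.mem_univ i) hi fun k _ => hcint k _) ?_
      change Cfsg.MemLocalRing M (Matrix.det (Matrix.of fun i => w (f i)))
      rw [Matrix.det_apply']
      exact mlr_sum hM _ fun σ _ => mlr_mul hM (mlr_intCast hM _)
        (mlr_prod hM _ fun k _ => hwint _ _)
  -- the degrees and defect groups
  have hidxp : ∀ i : Fin r, (Subgroup.centralizer ({x i} : Set G)).index.factorization p +
      (Nat.card (Subgroup.centralizer ({x i} : Set G))).factorization p = a := fun i => by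
    rw [ha, ← Subgroup.index_mul_card (Subgroup.centralizer ({x i} : Set G)),
      Nat.factorization_mul Subgroup.index_ne_zero_of_finite Nat.card_pos.ne']
    rfl
  have hdeg : ∀ i, (Cfsg.charDegree (f i : G → ℂ)).factorization p ≤
      (Subgroup.centralizer ({x i} : Set G)).index.factorization p := by
    intro i
    by_contra hlt
    push Not at hlt
    refine hfc i ?_
    simp only [hc]
    refine mli_mul_left hM (mlr_natCast hM _) ?_
    have hi : ((Subgroup.centralizer ({x i} : Set G)).index : ℂ) ≠ 0 :=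
      Nat.cast_ne_zero.mpr Subgroup.index_ne_zero_of_finite
    have e : conj ((f i : G → ℂ) (x i)) =
        ((Cfsg.charDegree (f i : G → ℂ) : ℂ) / ((Subgroup.centralizer ({x i} : Set G)).index : ℂ)) *
          Cfsg.centralChar (f i : G → ℂ) (x i)⁻¹ := by
      rw [CP.centralChar_inv, Cfsg.centralChar, map_div₀, map_mul, map_natCast, conj_irr_one,
        ← irr_apply_one]
      field_simp [irr_one_ne_zero (f i)]
    rw [e]
    exact mli_mul_right hM
      (mli_of_lt hM Subgroup.index_ne_zero_of_finite (charDegree_pos _).ne' hlt)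
      (mlr_centralChar hM _ _)
  set B : Fin r → Set (Cfsg.IrrCharacter G) := fun i => Cfsg.blockOf M (f i : G → ℂ) with hBdef
  have hB : ∀ i, Cfsg.IsPBlock M (B i) := fun i => isPBlock_blockOf (f i)
  have hfB : ∀ i, f i ∈ B i := fun i => self_mem_blockOf hM (f i)
  have hgroup : ∀ i, Cfsg.IsDefectGroup p M (B i) D ∧
      Nat.card D = p ^ Cfsg.blockDefect p (B i) := by
    intro i
    obtain ⟨j, hj⟩ : ∃ j, ¬ Cfsg.MemLocalIdeal M (w (f i) j) := by
      by_contra hn
      push Not at hn
      exact hfd (mli_det_row hM (fun _ _ => hwint _ _) (i := i) hn)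
    obtain ⟨D₀, hD₀⟩ := exists_isDefectGroup hM (hB i)
    obtain ⟨y, hy⟩ := defectGroup_le_centralizer hM (hB i) hD₀ (hfB i) hj
    set Dy := D₀.map (MulAut.conj y).toMonoidHom
    have hDy := isDefectGroup_map_conj hM hD₀ y
    set C := Subgroup.centralizer ({x j} : Set G)
    have hc1 := card_defectGroup hM (hB i) hDy
    have hge : Nat.card D ≤ Nat.card Dy := by
      rw [hc1, hcardD i]
      refine Nat.pow_le_pow_right hM.1.pos ?_
      have h1 := minExp_add_defect (p := p) (hfB i)
      have h2 := minExp_le (p := p) (hfB i)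
      have h3 := hdeg i
      have h4 := hidxp i
      omega
    obtain ⟨T, hT⟩ := hD j
    have hcardT : Nat.card (Dy.subgroupOf C) = p ^ (Nat.card C).factorization p := by
      rw [Nat.card_congr (Subgroup.subgroupOfEquivOfLe hy).toEquiv]
      obtain ⟨T', hT'⟩ := ((defectGroup_isPGroup hDy).of_equiv
        (Subgroup.subgroupOfEquivOfLe hy).symm).exists_le_sylow
      have hle : Nat.card Dy ≤ p ^ (Nat.card C).factorization p := by
        rw [← T'.card_eq_multiplicity, ← Nat.card_congr (Subgroup.subgroupOfEquivOfLe hy).toEquiv]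
        exact Subgroup.card_le_of_le hT'
      rw [hcardD j] at hge
      exact le_antisymm hle hge
    obtain ⟨z, hz⟩ := MulAction.exists_smul_eq C (Sylow.ofCard (Dy.subgroupOf C) hcardT) T
    have e : D = Dy.map (MulAut.conj (z : G)).toMonoidHom := by
      have key : (Dy.subgroupOf C).map C.subtype = Dy := Subgroup.map_subgroupOf_eq_of_le hy
      calc D = ((Dy.subgroupOf C).map (MulAut.conj z).toMonoidHom).map C.subtype := by
            rw [← hT, ← hz]
            rfl
        _ = ((Dy.subgroupOf C).map C.subtype).map (MulAut.conj (z : G)).toMonoidHom := by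
            rw [Subgroup.map_map, Subgroup.map_map]
            rfl
        _ = _ := by rw [key]
    rw [e]
    exact ⟨isDefectGroup_map_conj hM hDy z,
      card_defectGroup hM (hB i) (isDefectGroup_map_conj hM hDy z)⟩
  refine ⟨B, fun i k hik => ?_, fun i => ⟨hB i, (hgroup i).1⟩, fun χ hχ => ?_⟩
  · by_contra hne
    refine hfd ?_
    have hsame : ∀ j, Cfsg.MemLocalIdeal M (w (f k) j - w (f i) j) := fun j =>
      (IsPBlock.sameBlock hM (hB k) (hfB k) (hik ▸ hfB i)) (x j)
    have h := mli_det_sub hM (A := Matrix.of fun l => w (f l))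
      (A' := Matrix.of fun l => if l = k then w (f i) else w (f l))
      (fun _ _ => hwint _ _) (fun l j => by simp only [Matrix.of_apply]; split_ifs <;> exact hwint _ _)
      (fun l j => by
        simp only [Matrix.of_apply]
        split_ifs with hl
        · subst hl; exact hsame j
        · rw [sub_self]; exact mli_zero hM)
    have hz : (Matrix.of fun l => if l = k then w (f i) else w (f l)).det = 0 := by
      refine Matrix.det_zero_of_row_eq (i := i) (j := k) hne ?_
      funext c
      change (if i = k then w (f i) else w (f i)) c = (if k = k then w (f i) else w (f k)) c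
      rw [if_neg hne, if_pos rfl]
    rwa [hz, sub_zero] at h
  · set A : Matrix (Fin r) (Fin r) ℂ := Matrix.of fun i => w (χ i) with hA
    have hAu : ¬ Cfsg.MemLocalIdeal M A.det := fun h => by
      refine hfd ?_
      have h2 := mli_det_sub hM (A := Matrix.of fun l => w (f l)) (A' := A)
        (fun _ _ => hwint _ _) (fun _ _ => hwint _ _) fun i j =>
          (IsPBlock.sameBlock hM (hB i) (hfB i) (hχ i).1) (x j)
      simpa using mli_add hM h2 h
    let q : Fin r → ℕ := fun i =>
      Cfsg.charDegree (χ i : G → ℂ) / p ^ (Cfsg.charDegree (χ i : G → ℂ)).factorization p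
    let n : Fin r → ℕ := fun j => (Subgroup.centralizer ({x j} : Set G)).index /
      p ^ ((Subgroup.centralizer ({x j} : Set G)).index).factorization p
    have hq : ∀ i, ¬ p ∣ q i := fun i => Nat.not_dvd_ordCompl hM.1 (charDegree_pos _).ne'
    have hn : ∀ j, ¬ p ∣ n j := fun j =>
      Nat.not_dvd_ordCompl hM.1 Subgroup.index_ne_zero_of_finite
    have hexp : ∀ i j, (Cfsg.charDegree (χ i : G → ℂ)).factorization p =
        (Subgroup.centralizer ({x j} : Set G)).index.factorization p := by
      intro i j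
      have h1 := minExp_add_defect (p := p) (hfB i)
      have h2 := (hχ i).2
      rw [blockHeight_eq] at h2
      have h3 := minExp_le (p := p) (hχ i).1
      have h4 := hidxp j
      have h5 := (hgroup i).2
      rw [hcardD j] at h5
      have h6 := Nat.pow_right_injective hM.1.two_le h5
      omega
    have hval : (Matrix.of fun i j : Fin r => (χ i : G → ℂ) (x j)) =
        Matrix.of fun i j => (q i : ℂ) * (Matrix.of fun i j => ((n j : ℂ)⁻¹) * A i j) i j := by
      ext i j
      have he := hexp i j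
      have e1 : (χ i : G → ℂ) 1 =
          (p : ℂ) ^ (Cfsg.charDegree (χ i : G → ℂ)).factorization p * (q i : ℂ) := by
        rw [irr_apply_one, ← Nat.cast_pow, ← Nat.cast_mul, Nat.ordProj_mul_ordCompl_eq_self]
      have e2 : ((Subgroup.centralizer ({x j} : Set G)).index : ℂ) =
          (p : ℂ) ^ ((Subgroup.centralizer ({x j} : Set G)).index).factorization p * (n j : ℂ) := by
        rw [← Nat.cast_pow, ← Nat.cast_mul, Nat.ordProj_mul_ordCompl_eq_self]
      have hq0 : (q i : ℂ) ≠ 0 := Nat.cast_ne_zero.mpr fun h0 => hq i (h0 ▸ dvd_zero p)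
      have hn0 : (n j : ℂ) ≠ 0 := Nat.cast_ne_zero.mpr fun h0 => hn j (h0 ▸ dvd_zero p)
      have hp0 : (p : ℂ) ≠ 0 := Nat.cast_ne_zero.mpr hM.1.ne_zero
      simp only [Matrix.of_apply, hA, hw, Cfsg.centralChar]
      rw [e1, e2, he]
      field_simp
    rw [hval, Matrix.det_mul_column, Matrix.det_mul_row]
    intro h
    rcases mli_mul_cases hM (mlr_prod hM _ fun i _ => mlr_natCast hM (q i)) (mlr_mul hM
      (mlr_prod hM _ fun j _ => mlr_natCast_inv hM (hn j))
      (by rw [Matrix.det_apply']; exact mlr_sum hM _ fun σ _ => mlr_mul hM (mlr_intCast hM _)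
            (mlr_prod hM _ fun k _ => hwint _ _))) h with h | h
    · rw [← Nat.cast_prod, mli_natCast_iff hM] at h
      obtain ⟨i, -, hi⟩ := (Prime.dvd_finset_prod_iff hM.1.prime _).mp h
      exact hq i hi
    · rw [Finset.prod_inv_distrib, ← Nat.cast_prod] at h
      have hne : ((∏ j, n j : ℕ) : ℂ) ≠ 0 :=
        Nat.cast_ne_zero.mpr (Finset.prod_ne_zero_iff.mpr fun j _ h0 => hn j (h0 ▸ dvd_zero p))
      have := mli_mul_left hM (mlr_natCast hM (∏ j, n j)) h
      rw [← mul_assoc, mul_inv_cancel₀ hne, one_mul] at this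
      exact hAu this


/-- Let p be a prime, M a maximal ideal of the algebraic integers containing p, and D a subgroup of the finite group G. Let x₁, …, x_r be pairwise non-conjugate elements of G such that D is a Sylow p-subgroup of the centralizer of each xᵢ, and such that for any conjugates g of some xᵢ and h of some xⱼ the element g h⁻¹ is never a non-identity p-element. Then there are r distinct p-blocks B₁, …, B_r of G, each having D as a defect group, such that for every choice of characters χᵢ ∈ Bᵢ of height zero the determinant of the r × r matrix (χᵢ(xⱼ)) does not lie in the local ideal at M. -/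
theorem result {G : Type*} [Group G] [Finite G] (p : ℕ) [Fact p.Prime] (M : Ideal Cfsg.AlgInt) (hM : Cfsg.IsPModular p M) (D : Subgroup G) {r : ℕ} (x : Fin r → G) (hx : ∀ i j : Fin r, IsConj (x i) (x j) → i = j) (hD : ∀ i : Fin r, ∃ S : Sylow p ↥(Subgroup.centralizer ({x i} : Set G)), (S : Subgroup ↥(Subgroup.centralizer ({x i} : Set G))).map (Subgroup.centralizer ({x i} : Set G)).subtype = D) (hsep : ∀ i j : Fin r, ∀ g h : G, IsConj (x i) g → IsConj (x j) h → ∀ k : ℕ, 0 < k → orderOf (g * h⁻¹) ≠ p ^ k) : ∃ B : Fin r → Set (Cfsg.IrrCharacter G), Function.Injective B ∧ (∀ i : Fin r, Cfsg.IsPBlock M (B i) ∧ Cfsg.IsDefectGroup p M (B i) D) ∧ ∀ χ : Fin r → Cfsg.IrrCharacter G, (∀ i : Fin r, χ i ∈ B i ∧ Cfsg.blockHeight p (B i) (χ i : G → ℂ) = 0) → ¬ Cfsg.MemLocalIdeal M (Matrix.det (Matrix.of fun i j : Fin r => (χ i : G → ℂ) (x j))) := by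
  haveI : Fintype G := Fintype.ofFinite G
  exact main hM D x hx hD hsep


end Cfsg.Agent.S4741
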