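import Cfsg.Statements.S0953
import Mathlib.GroupTheory.SchurZassenhaus
import Cfsg.Agent.S0962
import Cfsg.Agent.S0920
import Cfsg.Agent.S4741
import Cfsg.Agent.Lib.Blocks.DefectClass
import Cfsg.Agent.Lib.Blocks.Orth

set_option autoImplicit false
open Cfsg

namespace Cfsg.Agent.S0953

open CfsgLib.Chars CfsgLib.Blocks

set_option maxHeartbeats 400000
universe u

variable {p : ℕ} [Fact p.Prime] {M : Ideal AlgInt}

theorem count_normal {H : Type u} [Group H] [Finite H] (hM : IsPModular p M) (P : Sylow p H)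
    [hn : (P : Subgroup H).Normal] :
    Nat.card {B : Set (IrrCharacter H) // IsPBlock M B ∧ IsDefectGroup p M B (P : Subgroup H)} =
      Nat.card {C : ConjClasses H // ∀ n : H, ConjClasses.mk n = C →
        ¬ p ∣ orderOf n ∧ n ∈ Subgroup.centralizer ((P : Subgroup H) : Set H)} := by
  classical
  haveI := Fintype.ofFinite H
  have hp : p.Prime := Fact.out
  haveI := Sylow.unique_of_normal P hn
  set Z := Subgroup.centralizer ((P : Subgroup H) : Set H)
  set a := (Nat.card H).factorization p
  have hPc : Nat.card (P : Subgroup H) = p ^ a := P.card_eq_multiplicity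
  haveI hZn : Z.Normal := inferInstance
  have hconj : ∀ g h : H, IsConj g h → ¬ p ∣ orderOf g ∧ g ∈ Z → ¬ p ∣ orderOf h ∧ h ∈ Z := by
    rintro g h hgh ⟨h1, h2⟩
    obtain ⟨c, rfl⟩ := isConj_iff.mp hgh
    refine ⟨?_, hZn.conj_mem g h2 c⟩
    rwa [show c * g * c⁻¹ = (MulAut.conj c).toMonoidHom g from rfl, orderOf_injective (MulAut.conj c).toMonoidHom (MulEquiv.injective _)]
  apply le_antisymm
  · refine le_trans (Nat.card_le_card_of_injective (fun B => (⟨B.1, B.2.1, le_of_eq ?_⟩ :
      {B : Set (IrrCharacter H) // IsPBlock M B ∧ a ≤ blockDefect p B})) (fun B B' e => Subtype.ext (congrArg Subtype.val e :)))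
      ((Cfsg.Agent.S0962.result p M hM a).trans (Nat.card_le_card_of_injective
        (fun C => (⟨C.1, fun n hn' => ?_⟩ : {C : ConjClasses H // ∀ n : H, ConjClasses.mk n = C →
          ¬ p ∣ orderOf n ∧ n ∈ Z})) (fun C C' e => Subtype.ext (congrArg Subtype.val e :))))
    · have h1 := card_defectGroup hM B.2.1 B.2.2
      rw [hPc] at h1
      exact Nat.pow_right_injective hp.two_le h1
    · obtain ⟨g, hg, hreg, hfac⟩ := C.2
      refine hconj g n (ConjClasses.mk_eq_mk_iff_isConj.mp (hg.trans hn'.symm)) ⟨hreg, ?_⟩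
      obtain ⟨S⟩ : Nonempty (Sylow p (Subgroup.centralizer ({g} : Set H))) := inferInstance
      obtain ⟨T, hT⟩ := (S.isPGroup'.map (Subgroup.centralizer ({g} : Set H)).subtype).exists_le_sylow
      rw [show T = P from Subsingleton.elim _ _] at hT
      have hle : (Nat.card (P : Subgroup H)) ≤ Nat.card ((S : Subgroup _).map (Subgroup.centralizer ({g} : Set H)).subtype) := by
        rw [Subgroup.card_map_of_injective (Subgroup.subtype_injective _), S.card_eq_multiplicity, hPc]
        exact Nat.pow_le_pow_right hp.pos hfac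
      have heq := Subgroup.eq_of_le_of_card_ge hT hle
      exact Subgroup.mem_centralizer_iff.mpr fun y hy => by
        have hy' : y ∈ Subgroup.centralizer ({g} : Set H) := Subgroup.map_subtype_le _ (heq ▸ hy)
        exact Subgroup.mem_centralizer_singleton_iff.mp hy'
  · haveI := Fintype.ofFinite {C : ConjClasses H // ∀ n : H, ConjClasses.mk n = C → ¬ p ∣ orderOf n ∧ n ∈ Z}
    set α := {C : ConjClasses H // ∀ n : H, ConjClasses.mk n = C → ¬ p ∣ orderOf n ∧ n ∈ Z}
    let e := (Fintype.equivFin α).symm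
    choose r hr using fun C : ConjClasses H => ConjClasses.mk_surjective C
    let x : Fin (Fintype.card α) → H := fun i => r (e i).1
    have hxZ : ∀ i, ¬ p ∣ orderOf (x i) ∧ x i ∈ Z := fun i => (e i).2 _ (hr _)
    -- the p-regular elements of Z form a subgroup
    obtain ⟨K, hK⟩ : ∃ K : Subgroup Z, (∀ z : Z, ¬ p ∣ orderOf z → z ∈ K) ∧ ∀ z ∈ K, ¬ p ∣ orderOf z := by
      set S : Subgroup Z := (P : Subgroup H).subgroupOf Z
      have hScent : S ≤ Subgroup.center Z := fun s hs => Subgroup.mem_center_iff.mpr fun z =>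
        Subtype.ext (Subgroup.mem_centralizer_iff.mp z.2 (s : H) hs).symm
      have hidx : ¬ p ∣ S.index := fun h => P.not_dvd_index (h.trans
        (Subgroup.relIndex_dvd_index_of_normal (P : Subgroup H) Z))
      obtain ⟨n, hn'⟩ := IsPGroup.iff_card.mp (P.isPGroup'.comap_of_injective Z.subtype Z.subtype_injective)
      have hcop : (Nat.card S).Coprime S.index := by
        show (Nat.card ((P : Subgroup H).comap Z.subtype)).Coprime _
        rw [hn']
        exact (hp.coprime_iff_not_dvd.mpr hidx).pow_left n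
      haveI : S.Normal := Subgroup.normal_subgroupOf
      obtain ⟨K, hKc⟩ := Subgroup.exists_right_complement'_of_coprime hcop
      have hKidx : Nat.card K = S.index := by
        have := Subgroup.IsComplement.card_mul hKc
        rw [← S.card_mul_index] at this
        exact Nat.eq_of_mul_eq_mul_left Nat.card_pos this
      refine ⟨K, fun z hz => ?_, fun z hz h => hidx (hKidx ▸ h.trans (Subgroup.orderOf_dvd_natCard K hz))⟩
      obtain ⟨⟨s, k⟩, hsk, -⟩ := hKc.existsUnique z
      simp only at hsk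
      have hc : Commute (s : Z) k := (Subgroup.mem_center_iff.mp (hScent s.2) k).symm
      have h1 : z ^ orderOf z = 1 := pow_orderOf_eq_one z
      rw [← hsk, hc.mul_pow] at h1
      have hsK : (s : Z) ^ orderOf z ∈ K := by
        rw [hsk] at h1
        rw [eq_inv_of_mul_eq_one_left h1]
        exact inv_mem (pow_mem k.2 _)
      have hs1 : (s : Z) ^ orderOf z = 1 :=
        Subgroup.disjoint_def.mp hKc.disjoint (pow_mem s.2 _) hsK
      have hs : (s : Z) = 1 := orderOf_eq_one_iff.mp (Nat.eq_one_of_dvd_coprimes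
        (show (Nat.card S).Coprime (orderOf z) by
          show (Nat.card ((P : Subgroup H).comap Z.subtype)).Coprime _
          rw [hn']; exact (hp.coprime_iff_not_dvd.mpr hz).pow_left n)
        (Subgroup.orderOf_dvd_natCard S s.2) (orderOf_dvd_of_pow_eq_one hs1))
      rw [← hsk, hs, one_mul]; exact k.2
    obtain ⟨B, hBinj, hB, -⟩ := Cfsg.Agent.S4741.result p M hM (P : Subgroup H) x (fun i j h => by
      apply e.injective
      exact Subtype.ext ((hr _).symm.trans ((ConjClasses.mk_eq_mk_iff_isConj.mpr h).trans (hr _)))) (fun i => by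
      have hle : (P : Subgroup H) ≤ Subgroup.centralizer ({x i} : Set H) := fun y hy =>
        Subgroup.mem_centralizer_singleton_iff.mpr (Subgroup.mem_centralizer_iff.mp (hxZ i).2 y hy)
      exact ⟨P.subtype hle, by rw [Sylow.coe_subtype, Subgroup.subgroupOf_map_subtype, inf_eq_left.mpr hle]⟩)
      (fun i j g h hg hh k hk ho => by
        obtain ⟨hg1, hg2⟩ := hconj _ g hg (hxZ i)
        obtain ⟨hh1, hh2⟩ := hconj _ h hh (hxZ j)
        have h1 := hK.2 _ (mul_mem (hK.1 (⟨g, hg2⟩ : Z) (by rwa [← Subgroup.orderOf_coe]))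
          (inv_mem (hK.1 (⟨h, hh2⟩ : Z) (by rwa [← Subgroup.orderOf_coe]))))
        rw [← Subgroup.orderOf_coe] at h1
        exact h1 (ho ▸ dvd_pow_self p hk.ne'))
    calc Nat.card α = Nat.card (Fin (Fintype.card α)) := Nat.card_congr e.symm
      _ ≤ _ := Nat.card_le_card_of_injective (fun i => (⟨B i, hB i⟩ :
          {B : Set (IrrCharacter H) // IsPBlock M B ∧ IsDefectGroup p M B (P : Subgroup H)}))
          (fun i j h => hBinj (congrArg Subtype.val h :))

/-- Let P be a Sylow p-subgroup of the finite group G with normalizer N, and fix a maximal ideal M of the algebraic integers containing p. The number of blocks of G having P as a defect group equals the number of conjugacy classes of N consisting of elements of order prime to p that centralize P. -/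
theorem result {G : Type*} [Group G] [Finite G] (p : ℕ) [Fact p.Prime] (M : Ideal Cfsg.AlgInt) (hM : Cfsg.IsPModular p M) (P : Sylow p G) : Nat.card {B : Set (Cfsg.IrrCharacter G) // Cfsg.IsPBlock M B ∧ Cfsg.IsDefectGroup p M B (P : Subgroup G)} = Nat.card {C : ConjClasses (Subgroup.normalizer ((P : Subgroup G) : Set G)) // ∀ n : Subgroup.normalizer ((P : Subgroup G) : Set G), ConjClasses.mk n = C → ¬ p ∣ orderOf n ∧ (n : G) ∈ Subgroup.centralizer ((P : Subgroup G) : Set G)} := by
  classical
  haveI := Fintype.ofFinite G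
  set H := Subgroup.normalizer ((P : Subgroup G) : Set G)
  haveI := Fintype.ofFinite H
  have hle : (P : Subgroup G) ≤ H := Subgroup.le_normalizer
  let Q : Sylow p H := P.subtype hle
  have hQ : (Q : Subgroup H) = (P : Subgroup G).subgroupOf H := Sylow.coe_subtype ..
  haveI : (Q : Subgroup H).Normal := by rw [hQ]; infer_instance
  have hcount := count_normal hM Q
  obtain ⟨h1, h2⟩ := Cfsg.Agent.S0920.result p M hM (P : Subgroup G) P.isPGroup'
  have huniq : ∀ {b : Set (Cfsg.IrrCharacter H)} {B B' : Set (Cfsg.IrrCharacter G)},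
      Cfsg.IsInducedBlock M H b B → Cfsg.IsInducedBlock M H b B' → B = B' := by
    intro b B B' hB hB'
    obtain ⟨ξ, hξ⟩ := IsPBlock.nonempty hM hB.1
    obtain ⟨χ, hχ⟩ := IsPBlock.nonempty hM hB.2.1
    obtain ⟨χ', hχ'⟩ := IsPBlock.nonempty hM hB'.2.1
    have hs : Cfsg.SameBlock M (χ : G → ℂ) (χ' : G → ℂ) := fun g => by
      have := mli_add hM (mli_neg (hB.2.2 ξ hξ χ hχ g)) (hB'.2.2 ξ hξ χ' hχ' g)
      convert this using 1; ring
    exact IsPBlock.eq_of_mem hM hB.2.1 hB'.2.1 (IsPBlock.mem_of_sameBlock hM hB.2.1 hχ hs) hχ'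
  let f : {B : Set (Cfsg.IrrCharacter G) // Cfsg.IsPBlock M B ∧ Cfsg.IsDefectGroup p M B (P : Subgroup G)} →
      {b : Set (Cfsg.IrrCharacter H) // Cfsg.IsPBlock M b ∧ Cfsg.IsDefectGroup p M b (Q : Subgroup H)} :=
    fun B => ⟨(h2 B.1 B.2.1 B.2.2).choose, (h2 B.1 B.2.1 B.2.2).choose_spec.1.1,
      hQ.symm ▸ (h2 B.1 B.2.1 B.2.2).choose_spec.1.2.1⟩
  have hf : Function.Bijective f := by
    constructor
    · intro B B' h
      refine Subtype.ext (huniq (h2 B.1 B.2.1 B.2.2).choose_spec.1.2.2 ?_)
      rw [show (h2 B.1 B.2.1 B.2.2).choose = (h2 B'.1 B'.2.1 B'.2.2).choose from congrArg Subtype.val h]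
      exact (h2 B'.1 B'.2.1 B'.2.2).choose_spec.1.2.2
    · rintro ⟨b, hb, hd⟩
      obtain ⟨B, hB, hBD, hind⟩ := h1 b hb (hQ ▸ hd)
      exact ⟨⟨B, hB, hBD⟩, Subtype.ext ((h2 B hB hBD).choose_spec.2 b ⟨hb, hQ ▸ hd, hind⟩).symm⟩
  rw [Nat.card_congr (Equiv.ofBijective f hf), hcount]
  refine Nat.card_congr (Equiv.subtypeEquivRight fun C => forall_congr' fun n => imp_congr_right fun _ =>
    and_congr_right fun _ => ?_)
  rw [Subgroup.mem_centralizer_iff, Subgroup.mem_centralizer_iff, hQ]
  constructor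
  · intro h y hy
    exact congrArg Subtype.val (h ⟨y, hle hy⟩ hy)
  · intro h y hy
    exact Subtype.ext (h y hy)

end Cfsg.Agent.S0953
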