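import Cfsg.Statements.S0974
import Cfsg.Agent.Lib.SelfCentPrime

set_option autoImplicit false
open Cfsg

namespace Cfsg.Agent.S0974

/-- No finite simple group has order 3648 = 2^6 * 3 * 19. -/
theorem result {G : Type*} [Group G] [Finite G] [IsSimpleGroup G] : Nat.card G ≠ 3648 := by
      classical
      intro hG
      haveI : Fact (Nat.Prime 19) := ⟨by norm_num⟩
      have hnc : ¬ IsMulCommutative G :=
        CfsgLib.SmallSimple.not_isMulCommutative_of_card (by rw [hG]; norm_num)
      obtain ⟨T, x, a, z, hnorm, ha2, hadvd, hT, hdeg⟩ :=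
        CfsgLib.SelfCentPrime.degree_data hnc (p := 19) (e := 2) (σ := 9) (n := 96) (by norm_num) (by norm_num)
          (by norm_num) (by norm_num) (by rw [hG]) (by norm_num) (fun d hd hmod hne => by
            have hle := Nat.le_of_dvd (by norm_num) hd
            obtain ⟨q, rfl⟩ : ∃ q, d = 19 * q + 1 := ⟨d / 19, by omega⟩
            have hq : q ≤ 10 := by omega
            interval_cases q <;> first | omega | (norm_num at hd))
      have hx0 : x = 0 := by
        have hs : 0 ≤ ∑ θ ∈ T, z θ * z θ := Finset.sum_nonneg fun θ _ => mul_self_nonneg _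
        push_cast at hnorm
        nlinarith [sq_nonneg x, sq_nonneg (x - 1), sq_nonneg (x + 1)]
      subst hx0
      have hsum : ∑ θ ∈ T, z θ * z θ = 1 := by push_cast at hnorm; linarith
      have hkey : ∀ θ ∈ T, z θ = -1 ∧ Cfsg.charDegree (θ : G → ℂ) = 18 := by
        intro θ hθ
        obtain ⟨hz0, hd2, hdd, hdsq, hpd⟩ := hT θ hθ
        have hle : z θ * z θ ≤ 1 := hsum ▸ Finset.single_le_sum (f := fun θ => z θ * z θ)
          (fun _ _ => mul_self_nonneg _) hθ
        have hb : z θ = 1 ∨ z θ = -1 := by
          have h1 : z θ ≤ 1 := by nlinarith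
          have h2 : -1 ≤ z θ := by nlinarith
          omega
        obtain ⟨k, hk⟩ := hpd
        obtain ⟨d, hd⟩ : ∃ d, Cfsg.charDegree (θ : G → ℂ) = d := ⟨_, rfl⟩
        rw [hd] at hd2 hdd hdsq hk ⊢
        rw [hG] at hdd hdsq
        have hd' : d ≤ 60 := by nlinarith
        push_cast at hk
        have hk0 : 0 ≤ k := by omega
        have hk1 : k ≤ 4 := by omega
        rcases hb with hb | hb <;> rw [hb] at hk <;> interval_cases k <;>
          (first
            | omega
            | (refine ⟨hb, ?_⟩; omega)
            | (exfalso; revert hdd; interval_cases d <;> first | omega | norm_num))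
      have hc : T.card = 1 := by
        rw [Finset.sum_congr rfl fun θ hθ => by rw [(hkey θ hθ).1], Finset.sum_const, nsmul_eq_mul] at hsum
        push_cast at hsum
        omega
      rw [Finset.sum_congr rfl fun θ hθ => by rw [(hkey θ hθ).1, (hkey θ hθ).2], Finset.sum_const, hc,
        nsmul_eq_mul] at hdeg
      push_cast at hdeg
      have ha : a = -17 := by linarith
      subst ha
      rw [hG] at hadvd
      norm_num at hadvd

end Cfsg.Agent.S0974
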