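import Cfsg.Statements.S1230
import Cfsg.Agent.Lib.CTTwoField
import Cfsg.Agent.Lib.SL2PrimeGraph

set_option autoImplicit false
open Cfsg

namespace Cfsg.Agent.S1230

/-- Let G be a finite group with a Sylow 2-subgroup T that is neither cyclic nor normal, such that the centralizer of every involution is an elementary abelian 2-group. Then G ≅ PSL(2,F) for a finite field F with |F| = |T|. -/
theorem result {G : Type*} [Group G] [Finite G] (T : Sylow 2 G) (hnc : ¬ IsCyclic (T : Subgroup G)) (hnn : ¬ (T : Subgroup G).Normal) (hC : ∀ t : G, orderOf t = 2 → IsMulCommutative (Subgroup.centralizer ({t} : Set G)) ∧ ∀ c ∈ Subgroup.centralizer ({t} : Set G), c ^ 2 = 1) : ∃ (F : Type) (_ : Field F) (_ : Fintype F), Fintype.card F = Nat.card T ∧ Nonempty (G ≃* Matrix.ProjectiveSpecialLinearGroup (Fin 2) F) := by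
    classical
    have S : CfsgLib.CTTwo.Setting T := ⟨hnc, hnn, hC⟩
    obtain ⟨K, _, _, hcard, hchar, ⟨e⟩⟩ := S.exists_equiv
    haveI := hchar
    let eF : {i : Fin (Fintype.card K) // True} ≃ K :=
      (Equiv.subtypeUnivEquiv fun _ => trivial).trans (Fintype.equivFin K).symm
    letI : Field {i : Fin (Fintype.card K) // True} := eF.field
    let φ : {i : Fin (Fintype.card K) // True} ≃+* K :=
      { eF with
        map_mul' := fun a b => eF.apply_symm_apply (eF a * eF b)
        map_add' := fun a b => eF.apply_symm_apply (eF a + eF b) }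
    haveI : CharP {i : Fin (Fintype.card K) // True} 2 := charP_of_injective_ringHom φ.symm.toRingHom.injective 2
    obtain ⟨p⟩ := CfsgLib.SL2PrimeGraph.pslEquiv (F := {i : Fin (Fintype.card K) // True})
    let m : Matrix.SpecialLinearGroup (Fin 2) K ≃* Matrix.SpecialLinearGroup (Fin 2) {i : Fin (Fintype.card K) // True} :=
      { toFun := Matrix.SpecialLinearGroup.map φ.symm.toRingHom
        invFun := Matrix.SpecialLinearGroup.map φ.toRingHom
        left_inv := fun A => Subtype.ext (Matrix.ext fun i j => φ.apply_symm_apply _)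
        right_inv := fun A => Subtype.ext (Matrix.ext fun i j => φ.symm_apply_apply _)
        map_mul' := map_mul _ }
    exact ⟨{i : Fin (Fintype.card K) // True}, inferInstance, inferInstance, by rw [Fintype.card_congr eF, hcard], ⟨e.trans (m.trans p)⟩⟩

end Cfsg.Agent.S1230
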