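import Cfsg.Statements.S1011
import Cfsg.Agent.S1230
import Cfsg.Agent.Lib.SmallSimple2
open scoped Nat Pointwise
set_option maxHeartbeats 2000000

set_option autoImplicit false
open Cfsg

namespace Cfsg.Agent.S1011

/-- A simple group of order 504 is isomorphic to the projective special linear group of dimension 2 over the field with 8 elements. -/
theorem result {G : Type*} [Group G] [Finite G] [IsSimpleGroup G] (h : Nat.card G = 504) {F : Type*} [Field F] [Fintype F] (hF : Fintype.card F = 8) : Nonempty (G ≃* Matrix.ProjectiveSpecialLinearGroup (Fin 2) F) := by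
  classical
  haveI h2f : Fact (Nat.Prime 2) := ⟨Nat.prime_two⟩
  haveI h3f : Fact (Nat.Prime 3) := ⟨Nat.prime_three⟩
  haveI h7f : Fact (Nat.Prime 7) := ⟨by norm_num⟩
  haveI : Nontrivial G := Finite.one_lt_card_iff_nontrivial.1 (by omega)
  have hnonab : ¬ ∀ a b : G, a * b = b * a := by
    intro hc
    letI : CommGroup G := { ‹Group G› with mul_comm := hc }
    have := IsSimpleGroup.prime_card (α := G)
    rw [h] at this; norm_num at this
  have hcore : ∀ {K : Type _} [Group K] [IsSimpleGroup K] [Finite K] (H : Subgroup K),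
      H ≠ ⊤ → Nat.card K ∣ (H.index)! := by
    intro K _ _ _ H hH
    have hker : (MulAction.toPermHom K (K ⧸ H)).ker = ⊥ := by
      rcases H.normalCore_normal.eq_bot_or_eq_top with e | e
      · rw [← H.normalCore_eq_ker, e]
      · exact absurd (top_le_iff.1 (e ▸ H.normalCore_le)) hH
    have := Subgroup.card_dvd_of_injective _ ((MonoidHom.ker_eq_bot_iff _).1 hker)
    rwa [Nat.card_perm, ← Subgroup.index] at this
  -- no proper subgroup of index at most seven
  have hidx : ∀ H : Subgroup G, H.index ≤ 7 → H = ⊤ := by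
    intro H hle
    by_contra hH
    have hd := hcore H hH
    rw [h] at hd
    have h7 : H.index = 7 := by
      have : 0 < H.index := Nat.pos_of_ne_zero Subgroup.index_ne_zero_of_finite
      generalize H.index = n at hle hd this ⊢
      interval_cases n <;> norm_num [Nat.factorial] at hd <;> omega
    haveI := Fintype.ofFinite (G ⧸ H)
    let f := MulAction.toPermHom G (G ⧸ H)
    have hinj : Function.Injective f := by
      rw [← MonoidHom.ker_eq_bot_iff]
      rcases H.normalCore_normal.eq_bot_or_eq_top with e | e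
      · rw [← H.normalCore_eq_ker, e]
      · exact absurd (top_le_iff.1 (e ▸ H.normalCore_le)) hH
    have hcard : Fintype.card (G ⧸ H) = 7 := by rw [← Nat.card_eq_fintype_card]; exact h7
    have hsgn : (Equiv.Perm.sign.comp f).ker = ⊤ := by
      rcases (Equiv.Perm.sign.comp f).normal_ker.eq_bot_or_eq_top with e | e
      · have := Nat.card_le_card_of_injective _ ((MonoidHom.ker_eq_bot_iff _).1 e)
        simp [h, Nat.card_eq_fintype_card] at this
      · exact e
    haveI : Nontrivial (G ⧸ H) := Fintype.one_lt_card_iff_nontrivial.1 (by omega)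
    haveI hA : IsSimpleGroup (alternatingGroup (G ⧸ H)) :=
      alternatingGroup.isSimpleGroup (by rw [Nat.card_eq_fintype_card, hcard]; norm_num)
    let f' : G →* alternatingGroup (G ⧸ H) := f.codRestrict _ fun g =>
      Equiv.Perm.mem_alternatingGroup.2 (show g ∈ (Equiv.Perm.sign.comp f).ker by rw [hsgn]; trivial)
    have hinj' : Function.Injective f' := fun a b e => hinj (congrArg Subtype.val e)
    have hA7 : Nat.card (alternatingGroup (G ⧸ H)) = 2520 := by
      rw [nat_card_alternatingGroup, Nat.card_eq_fintype_card, hcard]; rfl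
    have hr : Nat.card f'.range = 504 := by
      rw [← Nat.card_congr (MonoidHom.ofInjective hinj').toEquiv, h]
    have hi := f'.range.index_mul_card
    rw [hr, hA7] at hi
    have := hcore f'.range (fun e => by rw [e, Subgroup.index_top] at hi; omega)
    rw [hA7, show f'.range.index = 5 by omega] at this
    norm_num [Nat.factorial] at this
  have hnormal : ∀ K : Subgroup G, K ≠ ⊥ → (Subgroup.normalizer (K : Set G)).index ≤ 7 → K = ⊤ := by
    intro K hK hle
    haveI : K.Normal := Subgroup.normalizer_eq_top_iff.1 (hidx _ hle)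
    exact (Subgroup.Normal.eq_bot_or_eq_top ‹_›).resolve_left hK
  have hmul : ∀ H : Subgroup G, H.index * Nat.card H = 504 := fun H => h ▸ H.index_mul_card
  -- Sylow orders
  have hP3 : ∀ P : Sylow 3 G, Nat.card (P : Subgroup G) = 9 := fun P => by
    rw [P.card_eq_multiplicity, h, show (504 : ℕ) = 3 ^ 2 * 56 by norm_num, Nat.factorization_mul (by norm_num) (by norm_num),
      Nat.prime_three.factorization_pow]
    simp [Nat.factorization_eq_zero_of_not_dvd (show ¬ 3 ∣ 56 by norm_num)]
  have hP7 : ∀ P : Sylow 7 G, Nat.card (P : Subgroup G) = 7 := fun P => by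
    rw [P.card_eq_multiplicity, h, show (504 : ℕ) = 7 * 72 by norm_num, Nat.factorization_mul (by norm_num) (by norm_num),
      h7f.out.factorization]
    simp [Nat.factorization_eq_zero_of_not_dvd (show ¬ 7 ∣ 72 by norm_num)]
  have hP2 : ∀ P : Sylow 2 G, Nat.card (P : Subgroup G) = 8 := fun P => by
    rw [P.card_eq_multiplicity, h, show (504 : ℕ) = 2 ^ 3 * 63 by norm_num, Nat.factorization_mul (by norm_num) (by norm_num),
      Nat.prime_two.factorization_pow]
    simp [Nat.factorization_eq_zero_of_not_dvd (show ¬ 2 ∣ 63 by norm_num)]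
  have hab3 : ∀ P : Sylow 3 G, IsMulCommutative (P : Subgroup G) := fun P =>
    IsPGroup.isMulCommutative_of_card_eq_prime_sq (p := 3) (by rw [hP3]; norm_num)
  have hcn : ∀ (p : ℕ) [Fact p.Prime] (P : Sylow p G),
      Nat.card (Sylow p G) = (Subgroup.normalizer ((P : Subgroup G) : Set G)).index := fun p _ P => P.card_eq_index_normalizer
  -- number of Sylow subgroups
  have hn3 : Nat.card (Sylow 3 G) = 28 := by
    obtain ⟨P⟩ := (inferInstance : Nonempty (Sylow 3 G))
    have h1 : Nat.card (Sylow 3 G) ∣ 56 := by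
      have := Sylow.card_dvd_index P
      have hi := hmul (P : Subgroup G)
      rw [hP3] at hi
      rwa [show (P : Subgroup G).index = 56 by omega] at this
    have h2 : Nat.card (Sylow 3 G) % 3 = 1 := card_sylow_modEq_one 3 G
    have h3 : ¬ Nat.card (Sylow 3 G) ≤ 7 := fun hle => by
      have := hnormal (P : Subgroup G) (fun e => by have := hP3 P; rw [e, Subgroup.card_bot] at this; omega)
        (by rw [← hcn]; exact hle)
      have h9 := hP3 P
      rw [this, Subgroup.card_top, h] at h9; omega
    have := Nat.le_of_dvd (by norm_num) h1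
    generalize Nat.card (Sylow 3 G) = n at h1 h2 h3 this ⊢
    interval_cases n <;> omega
  have hburn : ∀ (p : ℕ) [Fact p.Prime] (P : Sylow p G), 1 < Nat.card (P : Subgroup G) → Nat.card (P : Subgroup G) < 504 → ∀ w ∈ (P : Subgroup G), w ≠ 1 →
      IsMulCommutative (P : Subgroup G) →
      ¬ ∀ n ∈ Subgroup.normalizer ((P : Subgroup G) : Set G), n * w = w * n := by
    intro p _ P hc1 hc2 w hwP hw1 hab hcen
    have key : ∀ (k : ℕ) (g₀ : G), g₀⁻¹ * w ^ k * g₀ ∈ (P : Subgroup G) → g₀⁻¹ * w ^ k * g₀ = w ^ k := by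
      intro k g₀ hk
      obtain ⟨n, hn, e⟩ := P.conj_eq_normalizer_conj_of_mem (w ^ k) g₀ (pow_mem hwP k) hk
      rw [e]
      exact Commute.inv_mul_cancel (show Commute n (w ^ k) from Commute.pow_right (hcen n hn) k)
    haveI := hab
    open scoped IsMulCommutative in
    let ψ : G →* (P : Subgroup G) := MonoidHom.transfer (MonoidHom.id (P : Subgroup G))
    have hψ : ψ w = ⟨w ^ (P : Subgroup G).index, MonoidHom.transfer_eq_pow_aux w key⟩ := MonoidHom.transfer_eq_pow _ w key
    rcases ψ.normal_ker.eq_bot_or_eq_top with e | e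
    · have := Nat.card_le_card_of_injective _ ((MonoidHom.ker_eq_bot_iff _).1 e)
      omega
    · have hw : w ∈ ψ.ker := by rw [e]; trivial
      rw [MonoidHom.mem_ker, hψ] at hw
      have hw' : w ^ (P : Subgroup G).index = 1 := congrArg Subtype.val hw
      have hcop : (Nat.card (P : Subgroup G)).Coprime (P : Subgroup G).index := by
        obtain ⟨n, hn⟩ := P.2.exists_card_eq
        rw [hn]
        exact Nat.Coprime.pow_left _ ((Fact.out : p.Prime).coprime_iff_not_dvd.2 P.not_dvd_index)
      have h1 : orderOf w ∣ Nat.card (P : Subgroup G) := Subgroup.orderOf_dvd_natCard _ hwP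
      exact hw1 (orderOf_eq_one_iff.1 (Nat.eq_one_of_dvd_coprimes hcop h1 (orderOf_dvd_of_pow_eq_one hw')))
  have hn7 : Nat.card (Sylow 7 G) = 36 := by
    obtain ⟨P⟩ := (inferInstance : Nonempty (Sylow 7 G))
    have h1 : Nat.card (Sylow 7 G) ∣ 72 := by
      have := Sylow.card_dvd_index P
      have hi := hmul (P : Subgroup G)
      rw [hP7] at hi
      rwa [show (P : Subgroup G).index = 72 by omega] at this
    have h2 : Nat.card (Sylow 7 G) % 7 = 1 := card_sylow_modEq_one 7 G
    have h3 : ¬ Nat.card (Sylow 7 G) ≤ 7 := fun hle => by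
      have := hnormal (P : Subgroup G) (fun e => by have := hP7 P; rw [e, Subgroup.card_bot] at this; omega)
        (by rw [← hcn]; exact hle)
      have h9 := hP7 P
      rw [this, Subgroup.card_top, h] at h9; omega
    have h4 : Nat.card (Sylow 7 G) ≠ 8 := by
      intro h8
      obtain ⟨f, hf⟩ := CfsgLib.SmallSimple2.exists_perm_hom h8
      have hfi : Function.Injective f := by
        rw [← MonoidHom.ker_eq_bot_iff]
        refine f.normal_ker.eq_bot_or_eq_top.resolve_right fun e => ?_
        have hN : Subgroup.normalizer ((P : Subgroup G) : Set G) = ⊤ := eq_top_iff.2 fun g _ => hf g (by rw [e]; trivial) P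
        have := hcn _ P
        rw [hN, Subgroup.index_top] at this; omega
      set N := Subgroup.normalizer ((P : Subgroup G) : Set G)
      have hN : Nat.card N = 63 := by
        have := hmul N
        rw [← hcn, h8] at this; omega
      obtain ⟨⟨g, hgP⟩, hg⟩ := exists_prime_orderOf_dvd_card' (G := (P : Subgroup G)) 7 (by rw [hP7])
      rw [Subgroup.orderOf_mk] at hg
      have hdvd := Subgroup.card_dvd_of_injective _ (QuotientGroup.kerLift_injective (P : Subgroup G).normalizerMonoidHom)
      haveI : IsCyclic (P : Subgroup G) := isCyclic_of_prime_card (p := 7) (hP7 P)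
      rw [Subgroup.normalizerMonoidHom_ker, ← Subgroup.index, IsCyclic.card_mulAut, hP7, Nat.totient_prime h7f.out] at hdvd
      set C := (Subgroup.centralizer ((P : Subgroup G) : Set G)).subgroupOf N
      have hC3 : 3 ∣ Nat.card C := by
        have hC := C.index_mul_card
        rw [hN] at hC
        have : C.index ≤ 6 := Nat.le_of_dvd (by norm_num) hdvd
        generalize C.index = i at hC hdvd this
        interval_cases i <;> omega
      obtain ⟨⟨⟨u, huN⟩, huC⟩, hu⟩ := exists_prime_orderOf_dvd_card' (G := C) 3 hC3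
      rw [Subgroup.orderOf_mk, Subgroup.orderOf_mk] at hu
      have hcomm : Commute g u := Subgroup.mem_centralizer_iff.1 (Subgroup.mem_subgroupOf.1 huC) g hgP
      have h21 : orderOf (f (g * u)) = 21 := by
        rw [orderOf_injective f hfi, hcomm.orderOf_mul_eq_mul_orderOf_of_coprime (by rw [hg, hu]; norm_num), hg, hu]
      have hsum : (f (g * u)).cycleType.sum ≤ 8 :=
        (Equiv.Perm.sum_cycleType (f (g * u))).trans_le ((Finset.card_le_univ _).trans (by simp))
      have hl := Equiv.Perm.lcm_cycleType (f (g * u))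
      rw [h21] at hl
      have hmem : ∀ a ∈ (f (g * u)).cycleType, a = 3 ∨ a = 7 := fun a ha => by
        have h2 := Equiv.Perm.two_le_of_mem_cycleType ha
        have hd : a ∣ 21 := hl ▸ Multiset.dvd_lcm ha
        have h8 : a ≤ 8 := (Multiset.le_sum_of_mem ha).trans hsum
        interval_cases a <;> omega
      have hlcm : ∀ b : ℕ, (∀ a ∈ (f (g * u)).cycleType, a = b) → 21 ∣ b := fun b hb => hl ▸ Multiset.lcm_dvd.2 fun a ha => (hb a ha).dvd
      have m3 : 3 ∈ (f (g * u)).cycleType := by
        by_contra h'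
        exact absurd (hlcm 7 fun a ha => (hmem a ha).resolve_left fun e => h' (e ▸ ha)) (by norm_num)
      have m7 : 7 ∈ (f (g * u)).cycleType := by
        by_contra h'
        exact absurd (hlcm 3 fun a ha => (hmem a ha).resolve_right fun e => h' (e ▸ ha)) (by norm_num)
      obtain ⟨s, hs⟩ := Multiset.exists_cons_of_mem m3
      have m7' : 7 ∈ s := by rw [hs, Multiset.mem_cons] at m7; exact m7.resolve_left (by norm_num)
      have := Multiset.le_sum_of_mem m7'
      rw [hs, Multiset.sum_cons] at hsum; omega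
    have := Nat.le_of_dvd (by norm_num) h1
    generalize Nat.card (Sylow 7 G) = n at h1 h2 h3 h4 this ⊢
    interval_cases n <;> omega
  have hcenter : ∀ x : G, x ≠ 1 → Subgroup.centralizer ({x} : Set G) ≠ ⊤ := by
    intro x hx e
    have hxc : x ∈ Subgroup.center G := Subgroup.mem_center_iff.2 fun g => (Subgroup.mem_centralizer_singleton_iff.1 (e ▸ Subgroup.mem_top g : g ∈ Subgroup.centralizer ({x} : Set G)))
    rcases (inferInstance : (Subgroup.center G).Normal).eq_bot_or_eq_top with e' | e'
    · rw [e', Subgroup.mem_bot] at hxc; exact hx hxc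
    · exact hnonab fun a b => (Subgroup.mem_center_iff.1 (e' ▸ Subgroup.mem_top b) a)
  -- element of order seven
  have hC7 : ∀ g : G, orderOf g = 7 → ¬ 3 ∣ Nat.card (Subgroup.centralizer ({g} : Set G)) := by
    intro g hg hd
    obtain ⟨P, hgP⟩ := (IsPGroup.of_card (n := 1) (by rw [Nat.card_zpowers, hg]; norm_num) : IsPGroup 7 (Subgroup.zpowers g)).exists_le_sylow
    have e : Subgroup.zpowers g = P := Subgroup.eq_of_le_of_card_ge hgP (by rw [Nat.card_zpowers, hg, hP7])
    obtain ⟨⟨u, huC⟩, hu⟩ := exists_prime_orderOf_dvd_card' (G := Subgroup.centralizer ({g} : Set G)) 3 hd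
    rw [Subgroup.orderOf_mk] at hu
    have hun : u ∈ Subgroup.normalizer ((P : Subgroup G) : Set G) := by
      rw [← e]
      apply Subgroup.centralizer_le_normalizer
      rw [Subgroup.zpowers_eq_closure, Subgroup.centralizer_closure]
      exact huC
    have h14 : Nat.card (Subgroup.normalizer ((P : Subgroup G) : Set G)) = 14 := by
      have := hmul (Subgroup.normalizer ((P : Subgroup G) : Set G))
      rw [← hcn, hn7] at this; omega
    have := Subgroup.orderOf_dvd_natCard _ hun
    rw [hu, h14] at this; omega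
  have hC3 : ∀ u : G, orderOf u = 3 → ∀ P : Sylow 3 G, u ∈ (P : Subgroup G) → Subgroup.centralizer ({u} : Set G) = P := by
    intro u hu P huP
    haveI := hab3 P
    set C := Subgroup.centralizer ({u} : Set G)
    have hPC : (P : Subgroup G) ≤ C := fun x hx => Subgroup.mem_centralizer_singleton_iff.2
      (congrArg Subtype.val (mul_comm' (⟨x, hx⟩ : (P : Subgroup G)) ⟨u, huP⟩))
    have hu1 : u ≠ 1 := fun e => by rw [e, orderOf_one] at hu; omega
    have hdC : 9 ∣ Nat.card C := hP3 P ▸ Subgroup.card_dvd_of_le hPC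
    set N := Subgroup.normalizer ((P : Subgroup G) : Set G)
    have hN : Nat.card N = 18 := by
      have := hmul N
      rw [← hcn, hn3] at this; omega
    have hb : 7 < C.index := by
      by_contra hle
      exact hcenter u hu1 (hidx C (by omega))
    have hm := hmul C
    obtain ⟨j, hj⟩ := hdC
    rw [hj] at hm
    have hj8 : j < 8 := by nlinarith
    have hj7 : j ≠ 7 := by
      intro e
      obtain ⟨⟨g, hgC⟩, hg⟩ := exists_prime_orderOf_dvd_card' (G := C) 7 (by rw [hj, e]; norm_num)
      rw [Subgroup.orderOf_mk] at hg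
      refine hC7 g hg ?_
      rw [← hu]
      exact Subgroup.orderOf_dvd_natCard _ (Subgroup.mem_centralizer_singleton_iff.2 (Subgroup.mem_centralizer_singleton_iff.1 hgC).symm)
    have hj2 : j ≠ 2 := by
      intro e
      have hi : (P : Subgroup G).relIndex C = 2 := by
        have := (((P : Subgroup G).subgroupOf C)).index_mul_card
        rw [Nat.card_congr (Subgroup.subgroupOfEquivOfLe hPC).toEquiv, hP3, hj, e] at this
        rw [Subgroup.relIndex]; omega
      haveI : ((P : Subgroup G).subgroupOf C).Normal := Subgroup.normal_of_index_eq_two hi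
      have hCN : C = N := Subgroup.eq_of_le_of_card_ge (Subgroup.le_normalizer_of_normal_subgroupOf hPC) (by rw [hN, hj, e])
      exact hburn 3 P (by rw [hP3]; norm_num) (by rw [hP3]; norm_num) u huP hu1 (hab3 P) fun n hn =>
        Subgroup.mem_centralizer_singleton_iff.1 (show n ∈ C by rw [hCN]; exact hn)
    have hj4 : j ≠ 4 := by
      intro e
      -- some element of the normalizer inverts u
      obtain ⟨n, hnN, hnu⟩ : ∃ n ∈ N, n * u * n⁻¹ ≠ u := by
        by_contra hcon
        push_neg at hcon
        exact hburn 3 P (by rw [hP3]; norm_num) (by rw [hP3]; norm_num) u huP hu1 (hab3 P) fun n hn =>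
          mul_inv_eq_iff_eq_mul.1 (hcon n hn)
      have hPN : (P : Subgroup G) ≤ N := Subgroup.le_normalizer
      have hrel : ((P : Subgroup G).subgroupOf N).index = 2 := by
        have := (((P : Subgroup G).subgroupOf N)).index_mul_card
        rw [Nat.card_congr (Subgroup.subgroupOfEquivOfLe hPN).toEquiv, hP3, hN] at this; omega
      have hnP : n ∉ (P : Subgroup G) := fun hh => hnu (mul_inv_eq_iff_eq_mul.2 (congrArg Subtype.val (mul_comm' (⟨n, hh⟩ : (P : Subgroup G)) ⟨u, huP⟩)))
      have hsq : n * n ∈ (P : Subgroup G) :=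
        Subgroup.mem_subgroupOf.1 (Subgroup.mul_self_mem_of_index_two hrel ⟨n, hnN⟩)
      set v := n * u * n⁻¹
      have hv : v ∈ (P : Subgroup G) := (Subgroup.mem_normalizer_iff.1 hnN u).1 huP
      have hvv : n * v * n⁻¹ = u := by
        have hc := congrArg Subtype.val (mul_comm' (⟨n * n, hsq⟩ : (P : Subgroup G)) ⟨u, huP⟩)
        simp only [Subgroup.coe_mul] at hc
        rw [show n * v * n⁻¹ = n * n * u * (n * n)⁻¹ by simp only [v]; group, hc, mul_inv_cancel_right]
      have huv : u * v = 1 := by
        by_contra hne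
        refine hburn 3 P (by rw [hP3]; norm_num) (by rw [hP3]; norm_num) (u * v) (mul_mem huP hv) hne (hab3 P) fun m hm => ?_
        have hnw : n * (u * v) = u * v * n := by
          rw [← mul_inv_eq_iff_eq_mul, show n * (u * v) * n⁻¹ = v * (n * v * n⁻¹) by simp only [v]; group, hvv]
          exact congrArg Subtype.val (mul_comm' (⟨v, hv⟩ : (P : Subgroup G)) ⟨u, huP⟩)
        have hPw : ∀ x ∈ (P : Subgroup G), x * (u * v) = u * v * x := fun x hx =>
          congrArg Subtype.val (mul_comm' (⟨x, hx⟩ : (P : Subgroup G)) ⟨u * v, mul_mem huP hv⟩)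
        by_cases hmP : m ∈ (P : Subgroup G)
        · exact hPw m hmP
        · have hmn : n⁻¹ * m ∈ (P : Subgroup G) := by
            have := (Subgroup.mul_mem_iff_of_index_two hrel (a := (⟨n, hnN⟩ : N)⁻¹) (b := ⟨m, hm⟩))
            simp only [inv_mem_iff, Subgroup.mem_subgroupOf] at this
            exact this.2 (iff_of_false hnP hmP)
          have := hPw _ hmn
          calc m * (u * v) = n * (n⁻¹ * m * (u * v)) := by group
            _ = n * (u * v) * (n⁻¹ * m) := by rw [this]; group
            _ = u * v * m := by rw [hnw]; group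
      have hninv : n * u * n⁻¹ = u⁻¹ := eq_inv_of_mul_eq_one_right huv
      set H := Subgroup.normalizer ((Subgroup.zpowers u : Subgroup G) : Set G)
      have hCH : C ≤ H := fun x hx => by
        apply Subgroup.centralizer_le_normalizer
        rw [Subgroup.zpowers_eq_closure, Subgroup.centralizer_closure]
        exact hx
      have hnH : n ∈ H := by
        rw [Subgroup.mem_normalizer_iff]
        intro x
        constructor
        · rintro ⟨k, rfl⟩
          refine ⟨-k, ?_⟩
          show u ^ (-k) = n * u ^ k * n⁻¹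
          rw [← conj_zpow, hninv, zpow_neg, inv_zpow]
        · rintro ⟨k, hk⟩
          refine ⟨-k, ?_⟩
          have hk' : u ^ k = n * x * n⁻¹ := hk
          show u ^ (-k) = x
          rw [show x = n⁻¹ * u ^ k * n⁻¹⁻¹ by rw [hk']; group, ← conj_zpow,
            show n⁻¹ * u * n⁻¹⁻¹ = u⁻¹ from ?_, zpow_neg, inv_zpow]
          have e1 : n⁻¹ * (n * u * n⁻¹) * n = n⁻¹ * u⁻¹ * n := by rw [hninv]
          calc n⁻¹ * u * n⁻¹⁻¹ = (n⁻¹ * u⁻¹ * n)⁻¹ := by group
            _ = u⁻¹ := by rw [← e1]; group
      have hnC : n ∉ C := fun hh => hnu (mul_inv_eq_iff_eq_mul.2 (Subgroup.mem_centralizer_singleton_iff.1 hh))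
      have hlt : Nat.card C < Nat.card H := by
        refine lt_of_le_of_ne (Subgroup.card_le_of_le hCH) fun heq => hnC ?_
        rw [Subgroup.eq_of_le_of_card_ge hCH heq.ge]; exact hnH
      obtain ⟨k, hk⟩ := Subgroup.card_dvd_of_le hCH
      have hmH := hmul H
      rw [hk, hj, e] at hmH
      rw [hk, hj, e] at hlt
      have htop := hnormal (Subgroup.zpowers u) (fun e' => hu1 (by simpa using e')) (show H.index ≤ 7 by
        have : 2 ≤ k := by omega
        nlinarith)
      have := congrArg (fun K : Subgroup G => Nat.card K) htop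
      simp only [Nat.card_zpowers, hu, Subgroup.card_top, h] at this
      omega
    have hj1 : j = 1 := by
      have : j ∣ 56 := ⟨C.index, by nlinarith⟩
      have : 0 < j := by
        rcases Nat.eq_zero_or_pos j with e | e
        · subst e; omega
        · exact e
      interval_cases j <;> omega
    exact (Subgroup.eq_of_le_of_card_ge hPC (by rw [hj, hj1, hP3])).symm
  -- Sylow 3-subgroups meet trivially
  have hthree : ∀ x : G, x ≠ 1 → ∀ P : Sylow 3 G, x ∈ (P : Subgroup G) → ∃ k : ℕ, orderOf (x ^ k) = 3 := by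
    intro x hx P hxP
    have hd : orderOf x ∣ 9 := hP3 P ▸ Subgroup.orderOf_dvd_natCard _ hxP
    have hle := Nat.le_of_dvd (by norm_num) hd
    have h1 : orderOf x ≠ 1 := fun e => hx (orderOf_eq_one_iff.1 e)
    have h0 := orderOf_pos x
    have hd3 : 3 ∣ orderOf x := by
      generalize orderOf x = o at hd hle h1 h0
      interval_cases o <;> omega
    exact ⟨orderOf x / 3, orderOf_pow_orderOf_div (by omega) hd3⟩
  have hdis3 : ∀ P Q : Sylow 3 G, P ≠ Q → (P : Subgroup G) ⊓ (Q : Subgroup G) = ⊥ := by
    intro P Q hne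
    rw [Subgroup.eq_bot_iff_forall]
    rintro x ⟨hxP, hxQ⟩
    by_contra hx
    obtain ⟨k, hk⟩ := hthree x hx P hxP
    exact hne (Sylow.ext ((hC3 _ hk P (pow_mem hxP k)).symm.trans (hC3 _ hk Q (pow_mem hxQ k))))
  -- a central involution
  obtain ⟨T⟩ := (inferInstance : Nonempty (Sylow 2 G))
  haveI : Nontrivial (T : Subgroup G) := Finite.one_lt_card_iff_nontrivial.1 (by rw [hP2]; norm_num)
  haveI := T.2.center_nontrivial
  obtain ⟨⟨⟨z, hzT⟩, hzc⟩, hzo⟩ := exists_prime_orderOf_dvd_card' (G := Subgroup.center (T : Subgroup G)) 2 (by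
    obtain ⟨n, hn⟩ := (T.2.to_subgroup (Subgroup.center (T : Subgroup G))).exists_card_eq
    have : 1 < Nat.card (Subgroup.center (T : Subgroup G)) := Finite.one_lt_card_iff_nontrivial.2 inferInstance
    rw [hn] at this ⊢
    exact dvd_pow_self 2 (by rintro rfl; simp at this))
  rw [Subgroup.orderOf_mk, Subgroup.orderOf_mk] at hzo
  have hCt : ∀ t : G, orderOf t = 2 → ¬ 3 ∣ Nat.card (Subgroup.centralizer ({t} : Set G)) ∧ ¬ 7 ∣ Nat.card (Subgroup.centralizer ({t} : Set G)) := by
    intro t ht
    refine ⟨fun hd => ?_, fun hd => ?_⟩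
    · obtain ⟨⟨u, huC⟩, hu⟩ := exists_prime_orderOf_dvd_card' (G := Subgroup.centralizer ({t} : Set G)) 3 hd
      rw [Subgroup.orderOf_mk] at hu
      obtain ⟨P, hP⟩ := (IsPGroup.of_card (n := 1) (by rw [Nat.card_zpowers, hu]; norm_num) : IsPGroup 3 (Subgroup.zpowers u)).exists_le_sylow
      have hmem : t ∈ Subgroup.centralizer ({u} : Set G) := Subgroup.mem_centralizer_singleton_iff.2 (Subgroup.mem_centralizer_singleton_iff.1 huC).symm
      rw [hC3 u hu P (hP (Subgroup.mem_zpowers u))] at hmem
      have := Subgroup.orderOf_dvd_natCard _ hmem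
      rw [ht, hP3] at this; omega
    · obtain ⟨⟨g, hgC⟩, hg⟩ := exists_prime_orderOf_dvd_card' (G := Subgroup.centralizer ({t} : Set G)) 7 hd
      rw [Subgroup.orderOf_mk] at hg
      obtain ⟨P, hP⟩ := (IsPGroup.of_card (n := 1) (by rw [Nat.card_zpowers, hg]; norm_num) : IsPGroup 7 (Subgroup.zpowers g)).exists_le_sylow
      have e : Subgroup.zpowers g = P := Subgroup.eq_of_le_of_card_ge hP (by rw [Nat.card_zpowers, hg, hP7])
      have htg : t * g = g * t := (Subgroup.mem_centralizer_singleton_iff.1 hgC).symm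
      have htN : t ∈ Subgroup.normalizer ((P : Subgroup G) : Set G) := by
        rw [← e]
        apply Subgroup.centralizer_le_normalizer
        rw [Subgroup.zpowers_eq_closure, Subgroup.centralizer_closure]
        exact Subgroup.mem_centralizer_singleton_iff.2 htg
      have h14 : Nat.card (Subgroup.normalizer ((P : Subgroup G) : Set G)) = 14 := by
        have := hmul (Subgroup.normalizer ((P : Subgroup G) : Set G))
        rw [← hcn, hn7] at this; omega
      have hgN : g ∈ Subgroup.normalizer ((P : Subgroup G) : Set G) := Subgroup.le_normalizer (e ▸ Subgroup.mem_zpowers g)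
      have hord : orderOf (⟨g * t, mul_mem hgN htN⟩ : Subgroup.normalizer ((P : Subgroup G) : Set G)) = 14 := by
        rw [Subgroup.orderOf_mk, Commute.orderOf_mul_eq_mul_orderOf_of_coprime htg.symm (by rw [hg, ht]; norm_num), hg, ht]
      haveI := isCyclic_of_orderOf_eq_card (⟨g * t, mul_mem hgN htN⟩ : Subgroup.normalizer ((P : Subgroup G) : Set G)) (by rw [hord, h14])
      refine hburn 7 P (by rw [hP7]; norm_num) (by rw [hP7]; norm_num) g (e ▸ Subgroup.mem_zpowers g)
        (fun e' => by rw [e', orderOf_one] at hg; omega) (by rw [← e]; infer_instance) fun n hn => ?_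
      letI := IsCyclic.commGroup (α := Subgroup.normalizer ((P : Subgroup G) : Set G))
      exact congrArg Subtype.val (mul_comm (⟨n, hn⟩ : Subgroup.normalizer ((P : Subgroup G) : Set G)) ⟨g, hgN⟩)
  have hTC : (T : Subgroup G) ≤ Subgroup.centralizer ({z} : Set G) := fun x hx => Subgroup.mem_centralizer_singleton_iff.2
    (congrArg Subtype.val (Subgroup.mem_center_iff.1 hzc ⟨x, hx⟩))
  have hCz : Subgroup.centralizer ({z} : Set G) = T := by
    refine (Subgroup.eq_of_le_of_card_ge hTC ?_).symm
    obtain ⟨a, ha⟩ := hP2 T ▸ Subgroup.card_dvd_of_le hTC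
    have hm := hmul (Subgroup.centralizer ({z} : Set G))
    have h37 := hCt z hzo
    rw [ha] at hm h37
    have ha63 : a ∣ 63 := ⟨(Subgroup.centralizer ({z} : Set G)).index, by nlinarith⟩
    have hle := Nat.le_of_dvd (by norm_num) ha63
    rw [hP2, ha]
    obtain ⟨h3, h7⟩ := h37
    interval_cases a <;> omega
  -- counting
  set A : Set G := MulAction.orbit (ConjAct G) z
  set B3 : Set G := {g : G | g ≠ 1 ∧ ∃ P : Sylow 3 G, g ∈ (P : Subgroup G)}
  set B7 : Set G := {g : G | g ≠ 1 ∧ ∃ P : Sylow 7 G, g ∈ (P : Subgroup G)}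
  have hA : A.ncard = 63 := by
    rw [← MulAction.index_stabilizer, ConjAct.stabilizer_eq_centralizer]
    show (Subgroup.centralizer ({z} : Set G)).index = 63
    have := hmul (Subgroup.centralizer ({z} : Set G))
    rw [hCz, hP2] at this
    rw [hCz]; omega
  have hB3 : B3.ncard = 224 := by rw [CfsgLib.SmallSimple2.ncard_union hdis3 hP3, hn3]
  have hB7 : B7.ncard = 216 := by
    rw [CfsgLib.SmallSimple2.ncard_union (CfsgLib.SmallSimple2.inf_eq_bot_of_card_prime hP7) hP7, hn7]
  have hoA : ∀ x ∈ A, orderOf x = 2 := by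
    rintro x ⟨g, rfl⟩
    show orderOf (g • z) = 2
    rw [ConjAct.smul_def]
    exact (orderOf_injective (MulAut.conj (ConjAct.ofConjAct g)).toMonoidHom (MulEquiv.injective _) z).trans hzo
  have hAB : Disjoint A B3 := Set.disjoint_left.2 fun x hA hB => by
    obtain ⟨-, P, hP⟩ := hB
    have := hP3 P ▸ Subgroup.orderOf_dvd_natCard _ hP
    rw [hoA x hA] at this; omega
  have hAB' : Disjoint (A ∪ B3) B7 := Set.disjoint_left.2 fun x hA hB => by
    obtain ⟨hx1, P, hP⟩ := hB
    have h7 := hP7 P ▸ Subgroup.orderOf_dvd_natCard _ hP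
    rcases hA with hA | ⟨-, Q, hQ⟩
    · rw [hoA x hA] at h7; omega
    · have h9 := hP3 Q ▸ Subgroup.orderOf_dvd_natCard _ hQ
      exact hx1 (orderOf_eq_one_iff.1 (Nat.eq_one_of_dvd_coprimes (by norm_num : Nat.Coprime 7 9) h7 h9))
  have hall : A ∪ B3 ∪ B7 = {1}ᶜ := by
    refine Set.eq_of_subset_of_ncard_le ?_ ?_
    · rintro x ((hx | hx) | hx)
      · intro e; have := hoA x hx; rw [Set.mem_singleton_iff.1 e, orderOf_one] at this; omega
      · exact hx.1
      · exact hx.1
    · rw [Set.ncard_compl, Set.ncard_singleton, h, Set.ncard_union_eq hAB', Set.ncard_union_eq hAB, hA, hB3, hB7]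
  have htwo : ∀ x : G, x ≠ 1 → orderOf x ∣ 8 → x ∈ A := by
    intro x hx hd
    have hm : x ∈ A ∪ B3 ∪ B7 := by rw [hall]; exact hx
    rcases hm with (hm | ⟨-, P, hP⟩) | ⟨-, P, hP⟩
    · exact hm
    · exact absurd (orderOf_eq_one_iff.1 (Nat.eq_one_of_dvd_coprimes (by norm_num : Nat.Coprime 8 9) hd (hP3 P ▸ Subgroup.orderOf_dvd_natCard _ hP))) hx
    · exact absurd (orderOf_eq_one_iff.1 (Nat.eq_one_of_dvd_coprimes (by norm_num : Nat.Coprime 8 7) hd (hP7 P ▸ Subgroup.orderOf_dvd_natCard _ hP))) hx
  have hsq : ∀ x ∈ (T : Subgroup G), x ^ 2 = 1 := fun x hx => by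
    by_cases hx1 : x = 1
    · simp [hx1]
    · rw [← hoA x (htwo x hx1 (hP2 T ▸ Subgroup.orderOf_dvd_natCard _ hx))]
      exact pow_orderOf_eq_one x
  have hC : ∀ t : G, orderOf t = 2 → IsMulCommutative (Subgroup.centralizer ({t} : Set G)) ∧ ∀ c ∈ Subgroup.centralizer ({t} : Set G), c ^ 2 = 1 := by
    intro t ht
    obtain ⟨g, hg⟩ := htwo t (fun e => by rw [e, orderOf_one] at ht; omega) (by rw [ht]; norm_num)
    replace hg : ConjAct.ofConjAct g * z * (ConjAct.ofConjAct g)⁻¹ = t := hg
    set γ := ConjAct.ofConjAct g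
    have hsq' : ∀ c ∈ Subgroup.centralizer ({t} : Set G), c ^ 2 = 1 := by
      intro c hc
      have hmem : γ⁻¹ * c * γ ∈ Subgroup.centralizer ({z} : Set G) := by
        rw [Subgroup.mem_centralizer_singleton_iff]
        have hc' := Subgroup.mem_centralizer_singleton_iff.1 hc
        rw [← hg] at hc'
        calc γ⁻¹ * c * γ * z = γ⁻¹ * (c * (γ * z * γ⁻¹)) * γ := by group
          _ = γ⁻¹ * ((γ * z * γ⁻¹) * c) * γ := by rw [hc']
          _ = z * (γ⁻¹ * c * γ) := by group
      rw [hCz] at hmem
      have := hsq _ hmem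
      rw [pow_two] at this ⊢
      calc c * c = γ * ((γ⁻¹ * c * γ) * (γ⁻¹ * c * γ)) * γ⁻¹ := by group
        _ = 1 := by rw [this]; group
    refine ⟨⟨⟨fun a b => ?_⟩⟩, hsq'⟩
    have inv_self : ∀ c : Subgroup.centralizer ({t} : Set G), c⁻¹ = c := fun c =>
      inv_eq_of_mul_eq_one_right (Subtype.ext (by simpa [pow_two] using hsq' c c.2))
    calc a * b = (a * b)⁻¹ := (inv_self _).symm
      _ = b * a := by rw [mul_inv_rev, inv_self, inv_self]
  have hnc : ¬ IsCyclic (T : Subgroup G) := by
    intro hcyc
    obtain ⟨g, hg⟩ := hcyc.exists_generator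
    have : orderOf g = 8 := by rw [orderOf_eq_card_of_forall_mem_zpowers hg, hP2]
    have h2 : orderOf g ∣ 2 := orderOf_dvd_of_pow_eq_one (Subtype.ext (by simpa using hsq g g.2))
    rw [this] at h2; norm_num at h2
  have hnn : ¬ (T : Subgroup G).Normal := fun hn => by
    rcases hn.eq_bot_or_eq_top with e | e
    · have := hP2 T; rw [e, Subgroup.card_bot] at this; omega
    · have := hP2 T; rw [e, Subgroup.card_top, h] at this; omega
  obtain ⟨F₀, i₁, i₂, hc0, ⟨e⟩⟩ := Cfsg.Agent.S1230.result T hnc hnn hC
  let ψ : F₀ ≃+* F := FiniteField.ringEquivOfCardEq (by rw [hc0, hF]; exact hP2 T)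
  let m : Matrix.SpecialLinearGroup (Fin 2) F₀ ≃* Matrix.SpecialLinearGroup (Fin 2) F :=
    { toFun := Matrix.SpecialLinearGroup.map ψ.toRingHom
      invFun := Matrix.SpecialLinearGroup.map ψ.symm.toRingHom
      left_inv := fun A => Subtype.ext (Matrix.ext fun i j => ψ.symm_apply_apply _)
      right_inv := fun A => Subtype.ext (Matrix.ext fun i j => ψ.apply_symm_apply _)
      map_mul' := map_mul _ }
  refine ⟨e.trans (QuotientGroup.congr _ _ m ?_)⟩
  ext x
  constructor
  · rintro ⟨y, hy, rfl⟩
    exact Subgroup.mem_center_iff.2 fun w => m.symm.injective (by simpa using Subgroup.mem_center_iff.1 hy (m.symm w))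
  · intro hx
    exact ⟨m.symm x, Subgroup.mem_center_iff.2 fun w => m.injective (by simpa using Subgroup.mem_center_iff.1 hx (m w)), m.apply_symm_apply x⟩

end Cfsg.Agent.S1011
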