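import Cfsg.Statements.S1163
import Mathlib
import Cfsg.Agent.Lib.Suzuki.LieEquiv

set_option autoImplicit false
open Cfsg

namespace Cfsg.Agent.S1163

open CfsgLib.Suzuki
open scoped Pointwise

theorem transport {F : Type*} [Field F] [Fintype F] {m : ℕ} (h : Hyp F m) {X : Type*} [Group X]
    (e : X ≃* Cfsg.Sz F m) :
    Nat.card X = (2 ^ (2 * m + 1)) ^ 2 * (2 ^ (2 * m + 1) - 1) * ((2 ^ (2 * m + 1)) ^ 2 + 1) ∧
    ∃ S : Sylow 2 X,
      Nat.card (Subgroup.normalizer ((S : Subgroup X) : Set X)) = (2 ^ (2 * m + 1)) ^ 2 * (2 ^ (2 * m + 1) - 1) ∧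
      (Subgroup.normalizer ((S : Subgroup X) : Set X)).index = (2 ^ (2 * m + 1)) ^ 2 + 1 ∧
      MulAction.IsMultiplyPretransitive X (X ⧸ Subgroup.normalizer ((S : Subgroup X) : Set X)) 2 ∧
      ∀ x y : X ⧸ Subgroup.normalizer ((S : Subgroup X) : Set X),
        x ≠ (QuotientGroup.mk 1) → y ≠ (QuotientGroup.mk 1) → ∃! s : ↥(S : Subgroup X), (s : X) • x = y := by
  classical
  have := h.pretrans
  refine ⟨by rw [Nat.card_congr e.toEquiv, h.card_Sz]; ring, ?_⟩
  set Q' := h.Q.map e.symm.toMonoidHom with hQ'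
  have hp : IsPGroup 2 Q' := h.isPGroup_Q.map _
  have hidx : ¬ 2 ∣ Q'.index := by
    rw [hQ', Subgroup.index_map_of_bijective (f := e.symm.toMonoidHom) e.symm.bijective]; exact h.odd_index
  refine ⟨hp.toSylow hidx, ?_⟩
  rw [IsPGroup.toSylow_coe]
  have hN : Subgroup.normalizer (Q' : Set X) =
      (MulAction.stabilizer (Cfsg.Sz F m) (oI F m)).map e.symm.toMonoidHom := by
    rw [← h.normalizer_Q, hQ']
    exact (Subgroup.map_equiv_normalizer_eq h.Q e.symm).symm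
  set N := Subgroup.normalizer (Q' : Set X) with hNdef
  have hmemN : ∀ g, g ∈ N ↔ e g • oI F m = oI F m := fun g => by
    rw [hN, Subgroup.mem_map_equiv, MulAction.mem_stabilizer_iff]; rfl
  refine ⟨?_, ?_, ?_, ?_⟩
  · rw [hN, Nat.card_congr (Subgroup.equivMapOfInjective _ _ e.symm.injective).toEquiv.symm, stab_oI, h.card_stab]
  · rw [hN, Subgroup.index_map_of_bijective (f := e.symm.toMonoidHom) e.symm.bijective, MulAction.index_stabilizer_of_transitive, card_ovoid, h.card]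
  all_goals
    let φ : X ⧸ N → Cfsg.suzukiOvoid F m := Quotient.lift (fun g => e g • oI F m) (fun a b hab => by
      have := (hmemN _).mp (QuotientGroup.leftRel_apply.mp hab)
      rw [map_mul, map_inv, mul_smul, inv_smul_eq_iff] at this
      exact this.symm)
    have hφinj : Function.Injective φ := by
      intro x y hxy
      induction x using QuotientGroup.induction_on with
      | H a =>
        induction y using QuotientGroup.induction_on with
        | H b =>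
          change e a • oI F m = e b • oI F m at hxy
          rw [QuotientGroup.eq, hmemN, map_mul, map_inv, mul_smul, inv_smul_eq_iff, hxy]
    have hφeq : ∀ (g : X) x, φ (g • x) = e g • φ x := by
      intro g x
      induction x using QuotientGroup.induction_on with
      | H a => show e (g * a) • oI F m = e g • e a • oI F m; rw [map_mul, mul_smul]
  · rw [MulAction.is_two_pretransitive_iff]
    intro a b c d hab hcd
    obtain ⟨g, g1, g2⟩ := MulAction.is_two_pretransitive_iff.mp h.two_trans (hφinj.ne hab) (hφinj.ne hcd)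
    exact ⟨e.symm g, hφinj (by rw [hφeq, e.apply_symm_apply, g1]), hφinj (by rw [hφeq, e.apply_symm_apply, g2])⟩
  · intro x y hx hy
    have h1 : φ (QuotientGroup.mk 1) = oI F m := by show e 1 • oI F m = oI F m; rw [map_one, one_smul]
    have hx' : φ x ≠ oI F m := fun e' => hx (hφinj (e'.trans h1.symm))
    have hy' : φ y ≠ oI F m := fun e' => hy (hφinj (e'.trans h1.symm))
    obtain ⟨a, b, hab⟩ := h.exists_tG_smul hx' hy'
    refine ⟨⟨e.symm (h.tG a b), Subgroup.mem_map.mpr ⟨_, ⟨a, b, rfl⟩, rfl⟩⟩, hφinj (by rw [hφeq, e.apply_symm_apply, hab]), ?_⟩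
    rintro ⟨s, hs⟩ hsx
    obtain ⟨_, ⟨a', b', rfl⟩, rfl⟩ := Subgroup.mem_map.mp hs
    have e1 := congrArg φ hsx
    rw [hφeq] at e1
    change e (e.symm (h.tG a' b')) • φ x = φ y at e1
    rw [e.apply_symm_apply] at e1
    obtain ⟨c, c', hc⟩ : ∃ c c', (h.tG a b)⁻¹ * h.tG a' b' = h.tG c c' := ⟨_, _, by rw [h.tG_inv, h.tG_mul]⟩
    have hfix : h.tG c c' • φ x = φ x := by rw [← hc, mul_smul, e1, inv_smul_eq_iff, hab]
    have hone : h.tG c c' = 1 := by_contra fun hne => hx' (h.tG_fix hne hfix)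
    rw [← hc, inv_mul_eq_one] at hone
    exact Subtype.ext (congrArg e.symm hone.symm)

/-- For the Suzuki group Sz(q), q = 2^(2m+1) ≥ 8, realised as the elements g of Sp₄(F) with g* = g^θ (θ the 2^(m+1)-th power map, so that θ² is squaring): `|Sz(q)| = q² (q - 1) (q² + 1)`, and there is a Sylow 2-subgroup `S` whose normaliser `H` has order `q²(q-1)` and index `q² + 1`, the action of `Sz(q)` on the cosets of `H` is doubly transitive, and `S` acts regularly on the cosets other than `H` itself. -/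
theorem result {F : Type*} [Field F] [Fintype F] {m : ℕ} (hm : 1 ≤ m) (hF : Fintype.card F = 2 ^ (2 * m + 1)) :
    Nat.card ↥(Cfsg.Lie.Sz F (2 ^ (m + 1))) = (2 ^ (2 * m + 1)) ^ 2 * (2 ^ (2 * m + 1) - 1) * ((2 ^ (2 * m + 1)) ^ 2 + 1) ∧
    ∃ S : Sylow 2 ↥(Cfsg.Lie.Sz F (2 ^ (m + 1))),
      Nat.card (Subgroup.normalizer ((S : Subgroup ↥(Cfsg.Lie.Sz F (2 ^ (m + 1)))) : Set ↥(Cfsg.Lie.Sz F (2 ^ (m + 1))))) = (2 ^ (2 * m + 1)) ^ 2 * (2 ^ (2 * m + 1) - 1) ∧
      (Subgroup.normalizer ((S : Subgroup ↥(Cfsg.Lie.Sz F (2 ^ (m + 1)))) : Set ↥(Cfsg.Lie.Sz F (2 ^ (m + 1))))).index = (2 ^ (2 * m + 1)) ^ 2 + 1 ∧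
      MulAction.IsMultiplyPretransitive ↥(Cfsg.Lie.Sz F (2 ^ (m + 1))) (↥(Cfsg.Lie.Sz F (2 ^ (m + 1))) ⧸ Subgroup.normalizer ((S : Subgroup ↥(Cfsg.Lie.Sz F (2 ^ (m + 1)))) : Set ↥(Cfsg.Lie.Sz F (2 ^ (m + 1))))) 2 ∧
      ∀ x y : ↥(Cfsg.Lie.Sz F (2 ^ (m + 1))) ⧸ Subgroup.normalizer ((S : Subgroup ↥(Cfsg.Lie.Sz F (2 ^ (m + 1)))) : Set ↥(Cfsg.Lie.Sz F (2 ^ (m + 1)))),
        x ≠ (QuotientGroup.mk 1) → y ≠ (QuotientGroup.mk 1) → ∃! s : ↥(S : Subgroup ↥(Cfsg.Lie.Sz F (2 ^ (m + 1)))), (s : ↥(Cfsg.Lie.Sz F (2 ^ (m + 1)))) • x = y := by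
  have h : Hyp F m := ⟨hm, hF⟩
  obtain ⟨e⟩ := h.nonempty_equiv
  exact transport h e

end Cfsg.Agent.S1163
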