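import Cfsg.Statements.S1312
import Cfsg.Agent.Lib.PComponents2

set_option autoImplicit false
open Cfsg

namespace Cfsg.Agent.S1312
open CfsgLib.Components CfsgLib.LocalBasic
open scoped commutatorElement

section
variable {G : Type*} [Group G] [Finite G]

/-- `O_r(M)` inside the ambient group. -/
abbrev Op (r : ℕ) (M : Subgroup G) : Subgroup G := (Cfsg.pCore r ↥M).map M.subtype

abbrev FS (M : Subgroup G) : Subgroup G := (Cfsg.generalizedFittingSubgroup ↥M).map M.subtype

theorem map_normal_normalizer {M : Subgroup G} (R : Subgroup ↥M) [R.Normal] :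
    M ≤ Subgroup.normalizer ((R.map M.subtype : Subgroup G) : Set G) := by
  intro m hm
  refine mem_normalizer_of_conj_map_eq (Subgroup.eq_of_le_of_card_ge ?_
    (Subgroup.card_map_of_injective (MulEquiv.injective _)).ge)
  rintro _ ⟨_, ⟨x, hx, rfl⟩, rfl⟩
  exact ⟨_, Subgroup.Normal.conj_mem inferInstance x hx ⟨m, hm⟩, rfl⟩

theorem Op_le_FS {r : ℕ} (hr : r.Prime) (M : Subgroup G) : Op r M ≤ FS M :=
  Subgroup.map_mono ((CfsgLib.Core.pCore_le_fittingSubgroup hr).trans le_sup_right)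

theorem M_le_normalizer_Op (r : ℕ) (M : Subgroup G) : M ≤ Subgroup.normalizer (Op r M : Set G) :=
  haveI := CfsgLib.Core.pCore_characteristic (G := ↥M) r
  map_normal_normalizer _

/-- Components of `M` and `N` coincide. -/
theorem layer_le_of {M N : Subgroup G} (h1 : FS M ≤ N) (h2 : FS N ≤ M) :
    (Cfsg.layer ↥M).map M.subtype ≤ (Cfsg.layer ↥N).map N.subtype := by
  rw [Subgroup.map_le_iff_le_comap]
  refine sSup_le fun L₀ hL₀ => Subgroup.map_le_iff_le_comap.mp ?_
  set L := L₀.map M.subtype with hL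
  set H := M ⊓ N
  have comp : ∀ (A : Subgroup G) (hA : H ≤ A) (A₀ : Subgroup ↥A), Cfsg.IsComponent A₀ →
      A₀.map A.subtype ≤ H → Cfsg.IsComponent ((A₀.map A.subtype).subgroupOf H) := by
    intro A hA A₀ hA₀ hle
    refine ⟨?_, CfsgLib.Layer2.isQuasisimple_of_equiv ((Subgroup.equivMapOfInjective A₀ A.subtype A.subtype_injective).trans
      (Subgroup.subgroupOfEquivOfLe hle).symm) hA₀.2⟩
    convert hA₀.1.comap (Subgroup.inclusion hA) using 1
    ext x
    constructor
    · rintro ⟨a, ha, he⟩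
      have he' : a = Subgroup.inclusion hA x := Subtype.ext he
      show Subgroup.inclusion hA x ∈ A₀
      rw [← he']; exact ha
    · exact fun hx => ⟨_, hx, rfl⟩
  have hLN : L ≤ N := (Subgroup.map_mono ((component_le_layer hL₀).trans le_sup_left)).trans h1
  have hLH : L ≤ H := le_inf (Subgroup.map_subtype_le _) hLN
  by_contra hcon
  set F := FS N
  have hFH : F ≤ H := le_inf h2 (Subgroup.map_subtype_le _)
  have hLF : F ≤ Subgroup.centralizer (L : Set G) := by
    rw [Subgroup.map_le_iff_le_comap]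
    refine sup_le (sSup_le fun K₀ hK₀ => Subgroup.map_le_iff_le_comap.mp ?_) (Subgroup.map_le_iff_le_comap.mp ?_)
    · have hKH : K₀.map N.subtype ≤ H := (Subgroup.map_mono ((component_le_layer hK₀).trans le_sup_left)).trans hFH
      have hne : L.subgroupOf H ≠ (K₀.map N.subtype).subgroupOf H := fun he => hcon (by
        have := congrArg (Subgroup.map H.subtype) he
        rw [subgroupOf_map hLH, subgroupOf_map hKH] at this
        rw [this]; exact Subgroup.map_mono (component_le_layer hK₀))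
      have h := congrArg (Subgroup.map H.subtype) (component_comm (comp M inf_le_left L₀ hL₀ hLH)
        (comp N inf_le_right K₀ hK₀ hKH) hne)
      rw [Subgroup.map_commutator, subgroupOf_map hLH, subgroupOf_map hKH, Subgroup.map_bot,
        Subgroup.commutator_comm] at h
      exact Subgroup.commutator_eq_bot_iff_le_centralizer.mp h
    · set R := (Cfsg.fittingSubgroup ↥N).map N.subtype
      have hRH : R ≤ H := (Subgroup.map_mono le_sup_right).trans hFH
      haveI := CfsgLib.Core.fittingSubgroup_characteristic (G := ↥N)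
      haveI : Group.IsSolvable ↥(Cfsg.fittingSubgroup ↥N) := CfsgLib.GenFitting.fitting_solvable
      haveI : Group.IsSolvable ↥R := Group.isSolvable_of_isSolvable_injective
        (f := (Subgroup.equivMapOfInjective (Cfsg.fittingSubgroup ↥N) N.subtype N.subtype_injective).symm.toMonoidHom)
        (Subgroup.equivMapOfInjective (Cfsg.fittingSubgroup ↥N) N.subtype N.subtype_injective).symm.injective
      haveI : Group.IsSolvable ↥(R.subgroupOf H) := Group.isSolvable_of_isSolvable_injective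
        (f := (Subgroup.subgroupOfEquivOfLe hRH).toMonoidHom) (Subgroup.subgroupOfEquivOfLe hRH).injective
      haveI : (R.subgroupOf H).Normal :=
        (Subgroup.normal_subgroupOf_iff_le_normalizer hRH).mpr (inf_le_right.trans (map_normal_normalizer _))
      have h := congrArg (Subgroup.map H.subtype) (component_commutator_solvable (comp M inf_le_left L₀ hL₀ hLH)
        (H := R.subgroupOf H) inferInstance (by rw [Subgroup.normalizer_eq_top]; exact le_top))
      rw [Subgroup.map_commutator, subgroupOf_map hLH, subgroupOf_map hRH, Subgroup.map_bot,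
        Subgroup.commutator_comm] at h
      exact Subgroup.commutator_eq_bot_iff_le_centralizer.mp h
  have hLsub : L ≤ F := by
    intro x hx
    refine ⟨⟨x, hLN hx⟩, CfsgLib.GenFitting.centralizer_genFitting_le (fun u hu => Subtype.ext ?_), rfl⟩
    exact (hLF ⟨u, hu, rfl⟩ x hx).symm
  refine component_ne_bot hL₀ ((Subgroup.map_eq_bot_iff_of_injective _ M.subtype_injective).mp
    (eq_bot_of_perfect_comm (by rw [← Subgroup.map_commutator, component_perfect hL₀]) (hLsub.trans hLF)))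

/-- The key step: `O_p(N) ≤ O_p(M)`. -/
theorem Op_le_Op {M N : Subgroup G} (hM : ∀ r : ℕ, r.Prime → Op r M ≠ ⊥ → Subgroup.centralizer (Op r M : Set G) ≤ M)
    (hN : ∀ r : ℕ, r.Prime → Op r N ≠ ⊥ → Subgroup.centralizer (Op r N : Set G) ≤ N)
    (h1 : FS M ≤ N) (h2 : FS N ≤ M) (hlayer : Cfsg.layer ↥M = ⊥)
    {p q : ℕ} (hp : p.Prime) (hq : q.Prime) (hpq : q ≠ p) (hqM : Op q M ≠ ⊥) (hqN : Op q N ≠ ⊥) :
    Op p N ≤ Op p M := by
  haveI := Fact.mk hp
  set H := M ⊓ N with hH
  have hA : ∀ r : ℕ, r.Prime → Op r M ≤ H := fun r hr => le_inf (Subgroup.map_subtype_le _) ((Op_le_FS hr M).trans h1)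
  have hB : ∀ r : ℕ, r.Prime → Op r N ≤ H := fun r hr => le_inf ((Op_le_FS hr N).trans h2) (Subgroup.map_subtype_le _)
  have hcomm : ∀ r s : ℕ, r.Prime → s.Prime → r ≠ s → Op r M ≤ Subgroup.centralizer (Op s N : Set G) := by
    intro r s hr hs hrs x hx y hy
    haveI := Fact.mk hr
    haveI := Fact.mk hs
    have hxM := M_le_normalizer_Op r M (hB s hs hy).1
    have hyN := M_le_normalizer_Op s N (hA r hr hx).2
    have h1 : ⁅y, x⁆ ∈ Op r M := by
      rw [commutatorElement_def]; exact mul_mem ((Subgroup.mem_normalizer_iff.mp hxM x).mp hx) (inv_mem hx)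
    have h2 : ⁅y, x⁆ ∈ Op s N := by
      rw [commutatorElement_def, show y * x * y⁻¹ * x⁻¹ = y * (x * y⁻¹ * x⁻¹) by group]
      exact mul_mem hy ((Subgroup.mem_normalizer_iff.mp hyN _).mp (inv_mem hy))
    have hp1 : IsPGroup r ↥(Op r M) := (CfsgLib.Core.isPGroup_pCore r).map _
    have hp2 : IsPGroup s ↥(Op s N) := (CfsgLib.Core.isPGroup_pCore s).map _
    obtain ⟨a, ha⟩ := hp1.exists_card_eq
    obtain ⟨b, hb⟩ := hp2.exists_card_eq
    have h0 : Op r M ⊓ Op s N = ⊥ := Subgroup.inf_eq_bot_of_coprime (by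
      rw [ha, hb]; exact Nat.Coprime.pow _ _ ((Nat.coprime_primes hr hs).mpr hrs))
    exact commutatorElement_eq_one_iff_mul_comm.mp (Subgroup.mem_bot.mp (h0 ▸ ⟨h1, h2⟩))
  set S := (⨆ r : {r : ℕ // r.Prime ∧ r ≠ p}, Op r M) ⊔ ⨆ r : {r : ℕ // r.Prime ∧ r ≠ p}, Op r N with hS
  have hSH : S ≤ H := sup_le (iSup_le fun r => hA r r.2.1) (iSup_le fun r => hB r r.2.1)
  have hSc : (Nat.card ↥S).Coprime p := by
    have key : ∀ (A : Subgroup G) (r : ℕ), H ≤ A → r.Prime → r ≠ p → Op r A ≤ H →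
        Op r A ≤ (Cfsg.pPrimeCore p ↥H).map H.subtype := by
      intro A r hHA hr hrp hle
      haveI := Fact.mk hr
      rw [← subgroupOf_map hle]
      refine Subgroup.map_mono (CfsgLib.Core.le_pPrimeCore
        ((Subgroup.normal_subgroupOf_iff_le_normalizer hle).mpr (hHA.trans (M_le_normalizer_Op r A))) ?_)
      have hp' : IsPGroup r ↥((Op r A).subgroupOf H) := ((CfsgLib.Core.isPGroup_pCore r).map A.subtype).comap_subtype
      obtain ⟨a, ha⟩ := hp'.exists_card_eq
      rw [ha]; exact Nat.Coprime.pow_left a ((Nat.coprime_primes hr hp).mpr hrp)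
    have hle : S ≤ (Cfsg.pPrimeCore p ↥H).map H.subtype :=
      sup_le (iSup_le fun r => key M r inf_le_left r.2.1 r.2.2 (hA r r.2.1))
        (iSup_le fun r => key N r inf_le_right r.2.1 r.2.2 (hB r r.2.1))
    refine Nat.Coprime.coprime_dvd_left (Subgroup.card_dvd_of_le hle) ?_
    rw [Subgroup.card_map_of_injective H.subtype_injective]
    exact CfsgLib.Core.card_pPrimeCore_coprime p
  have hTS : Op p N ≤ Subgroup.centralizer (S : Set G) := by
    rw [Subgroup.le_centralizer_iff]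
    refine sup_le (iSup_le fun r => hcomm r p r.2.1 hp r.2.2) (iSup_le fun r => ?_)
    haveI := Fact.mk r.2.1
    haveI := CfsgLib.Core.pCore_characteristic (G := ↥N) (r : ℕ)
    haveI := CfsgLib.Core.pCore_characteristic (G := ↥N) p
    obtain ⟨a, ha⟩ := IsPGroup.iff_card.mp (CfsgLib.Core.isPGroup_pCore (G := ↥N) (r : ℕ))
    obtain ⟨b, hb⟩ := IsPGroup.iff_card.mp (CfsgLib.Core.isPGroup_pCore (G := ↥N) p)
    rintro _ ⟨x, hx, rfl⟩ _ ⟨y, hy, rfl⟩
    exact congrArg Subtype.val (Subgroup.commute_of_normal_of_disjoint _ _ inferInstance inferInstance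
      (disjoint_iff.mpr (Subgroup.inf_eq_bot_of_coprime (by rw [hb, ha]; exact Nat.Coprime.pow _ _ ((Nat.coprime_primes hp r.2.1).mpr (Ne.symm r.2.2)))))
      y x hy hx).eq
  set K := M ⊓ Subgroup.centralizer ((⨆ r : {r : ℕ // r.Prime ∧ r ≠ p}, Op r M : Subgroup G) : Set G) with hK
  have hKM : M ≤ Subgroup.normalizer (K : Set G) := by
    refine normalizer_inf_ge Subgroup.le_normalizer (normalizer_centralizer_ge fun m hm => ?_)
    refine mem_normalizer_of_conj_map_eq ?_
    rw [Subgroup.map_iSup]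
    exact iSup_congr fun r => conj_map_eq_of_mem_normalizer (M_le_normalizer_Op r M hm)
  have hCq : Subgroup.centralizer (S : Set G) ≤ K ⊓ N := by
    refine le_inf (le_inf ?_ (Subgroup.centralizer_le (SetLike.coe_subset_coe.mpr le_sup_left))) ?_
    · exact (Subgroup.centralizer_le (SetLike.coe_subset_coe.mpr
        ((le_iSup (fun r : {r : ℕ // r.Prime ∧ r ≠ p} => Op r M) ⟨q, hq, hpq⟩).trans le_sup_left))).trans (hM q hq hqM)
    · exact (Subgroup.centralizer_le (SetLike.coe_subset_coe.mpr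
        ((le_iSup (fun r : {r : ℕ // r.Prime ∧ r ≠ p} => Op r N) ⟨q, hq, hpq⟩).trans le_sup_right))).trans (hN q hq hqN)
  have hKS : K ≤ Subgroup.normalizer (S : Set G) := by
    intro k hk
    refine mem_normalizer_of_conj_map_eq (Subgroup.eq_of_le_of_card_ge ?_
      (Subgroup.card_map_of_injective (MulEquiv.injective _)).ge)
    rw [Subgroup.map_le_iff_le_comap]
    refine sup_le (iSup_le fun r x hx => ?_) (iSup_le fun r u hu => ?_)
    · refine Subgroup.mem_sup_left (Subgroup.mem_iSup_of_mem r ?_)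
      exact (Subgroup.mem_normalizer_iff.mp (M_le_normalizer_Op r M hk.1) x).mp hx
    show k * u * k⁻¹ ∈ S
    haveI := Fact.mk r.2.1
    have hzM : ⁅k, u⁆ ∈ M := by
      rw [commutatorElement_def]; exact mul_mem (mul_mem (mul_mem hk.1 (hB r r.2.1 hu).1) (inv_mem hk.1)) (inv_mem (hB r r.2.1 hu).1)
    have hzC : ∀ s : ℕ, s.Prime → ⁅k, u⁆ ∈ Subgroup.centralizer (Op s M : Set G) := by
      intro s hs
      have hn := normalizer_centralizer_ge (M_le_normalizer_Op s M)
      by_cases hsp : s = p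
      · have hu' : u ∈ Subgroup.centralizer (Op s M : Set G) :=
          Subgroup.le_centralizer_iff.mp (hcomm s r hs r.2.1 (fun h => r.2.2 (h.symm.trans hsp))) hu
        rw [commutatorElement_def]
        exact mul_mem ((Subgroup.mem_normalizer_iff.mp (hn hk.1) u).mp hu') (inv_mem hu')
      · have hk' : k ∈ Subgroup.centralizer (Op s M : Set G) := Subgroup.centralizer_le
          (SetLike.coe_subset_coe.mpr (le_iSup (fun r : {r : ℕ // r.Prime ∧ r ≠ p} => Op r M) ⟨s, hs, hsp⟩)) hk.2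
        rw [commutatorElement_def, show k * u * k⁻¹ * u⁻¹ = k * (u * k⁻¹ * u⁻¹) by group]
        exact mul_mem hk' ((Subgroup.mem_normalizer_iff.mp (hn (hB r r.2.1 hu).1) _).mp (inv_mem hk'))
    have hgf : Cfsg.generalizedFittingSubgroup ↥M = ⨆ s : Nat.Primes, Cfsg.pCore (s : ℕ) ↥M := by
      rw [CfsgLib.GenFitting.genFitting_eq, hlayer, bot_sup_eq, CfsgLib.Core.fittingSubgroup_eq_iSup_pCore]
      rfl
    have hzF : (⟨⁅k, u⁆, hzM⟩ : ↥M) ∈ Cfsg.generalizedFittingSubgroup ↥M := by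
      refine CfsgLib.GenFitting.centralizer_genFitting_le fun v hv => ?_
      refine Subgroup.mem_centralizer_singleton_iff.mp ((?_ : Cfsg.generalizedFittingSubgroup ↥M ≤
        Subgroup.centralizer ({⟨⁅k, u⁆, hzM⟩} : Set ↥M)) hv)
      rw [hgf]
      exact iSup_le fun s w hw => Subgroup.mem_centralizer_singleton_iff.mpr (Subtype.ext (hzC s s.2 w ⟨w, hw, rfl⟩))
    have hsplit : ⁅k, u⁆ ∈ ((Op p M ⊔ S : Subgroup G) : Set G) := by
      refine (?_ : FS M ≤ Op p M ⊔ S) ⟨_, hzF, rfl⟩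
      show (Cfsg.generalizedFittingSubgroup ↥M).map M.subtype ≤ _
      rw [hgf, Subgroup.map_iSup]
      refine iSup_le fun s => ?_
      by_cases hsp : (s : ℕ) = p
      · rw [hsp]; exact le_sup_left
      · exact le_sup_of_le_right (le_sup_of_le_left
          (le_iSup (fun r : {r : ℕ // r.Prime ∧ r ≠ p} => Op r M) ⟨(s : ℕ), s.2, hsp⟩))
    have hPS : Op p M ≤ Subgroup.centralizer (S : Set G) := by
      rw [Subgroup.le_centralizer_iff]
      refine sup_le (iSup_le fun r => ?_) (iSup_le fun r => Subgroup.le_centralizer_iff.mp (hcomm p r hp r.2.1 (Ne.symm r.2.2)))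
      haveI := Fact.mk r.2.1
      haveI := CfsgLib.Core.pCore_characteristic (G := ↥M) (r : ℕ)
      haveI := CfsgLib.Core.pCore_characteristic (G := ↥M) p
      obtain ⟨a, ha⟩ := IsPGroup.iff_card.mp (CfsgLib.Core.isPGroup_pCore (G := ↥M) (r : ℕ))
      obtain ⟨b, hb⟩ := IsPGroup.iff_card.mp (CfsgLib.Core.isPGroup_pCore (G := ↥M) p)
      rintro _ ⟨x, hx, rfl⟩ _ ⟨y, hy, rfl⟩
      exact congrArg Subtype.val (Subgroup.commute_of_normal_of_disjoint _ _ inferInstance inferInstance
        (disjoint_iff.mpr (Subgroup.inf_eq_bot_of_coprime (by rw [hb, ha]; exact Nat.Coprime.pow _ _ ((Nat.coprime_primes hp r.2.1).mpr (Ne.symm r.2.2)))))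
        y x hy hx).eq
    rw [Subgroup.coe_mul_of_left_le_normalizer_right _ _ (hPS.trans (Subgroup.centralizer_le_normalizer _))] at hsplit
    obtain ⟨x, hx, s, hs, hxs⟩ := hsplit
    have huS : u ∈ S := Subgroup.mem_sup_right (Subgroup.mem_iSup_of_mem r hu)
    have hkuk : k * u * k⁻¹ = x * (s * u) := by
      rw [← mul_assoc, show x * s = ⁅k, u⁆ from hxs, commutatorElement_def]; group
    have hxc : Commute x (s * u) := (hPS hx (s * u) (S.mul_mem hs huS)).symm
    obtain ⟨j, hj⟩ := ((CfsgLib.Core.isPGroup_pCore (G := ↥N) (r : ℕ)).map N.subtype) ⟨u, hu⟩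
    have hj' : (k * u * k⁻¹) ^ (r : ℕ) ^ j = 1 := by
      rw [conj_pow, show u ^ (r : ℕ) ^ j = 1 from congrArg Subtype.val hj]; group
    rw [hkuk, hxc.mul_pow] at hj'
    have hxp : x ^ (r : ℕ) ^ j = 1 := by
      refine Subgroup.mem_bot.mp (CfsgLib.PConstrained.inf_eq_bot_of_coprime ((CfsgLib.Core.isPGroup_pCore p).map M.subtype) hSc ▸
        (⟨(Op p M).pow_mem hx _, ?_⟩ : x ^ (r : ℕ) ^ j ∈ Op p M ⊓ S))
      rw [eq_inv_of_mul_eq_one_left hj']
      exact S.inv_mem (S.pow_mem (S.mul_mem hs huS) _)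
    have hx1 : x = 1 := by
      obtain ⟨i, hi⟩ := ((CfsgLib.Core.isPGroup_pCore (G := ↥M) p).map M.subtype) ⟨x, hx⟩
      refine orderOf_eq_one_iff.mp (Nat.eq_one_of_dvd_coprimes ?_
        (orderOf_dvd_of_pow_eq_one hxp) (orderOf_dvd_of_pow_eq_one (congrArg Subtype.val hi)))
      exact Nat.Coprime.pow _ _ ((Nat.coprime_primes r.2.1 hp).mpr r.2.2)
    rw [hkuk, hx1, one_mul]
    exact S.mul_mem hs huS
  set C := Subgroup.centralizer (S : Set G) with hC
  have hTC : (Op p N).subgroupOf C ≤ Cfsg.pCore p ↥C := CfsgLib.Core.le_pCore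
    ((Subgroup.normal_subgroupOf_iff_le_normalizer hTS).mpr ((hCq.trans inf_le_right).trans (M_le_normalizer_Op p N)))
    ((CfsgLib.Core.isPGroup_pCore p).map N.subtype).comap_subtype
  have hPn : K ≤ Subgroup.normalizer (Op p C : Set G) := by
    intro k hk
    let e : ↥C ≃* ↥C := ((MulAut.conj k).subgroupMap C).trans
      (MulEquiv.subgroupCongr (conj_map_eq_of_mem_normalizer (normalizer_centralizer_ge hKS hk)))
    refine mem_normalizer_of_conj_map_eq ?_
    conv_rhs => rw [show Op p C = ((Cfsg.pCore p ↥C).map e.toMonoidHom).map C.subtype by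
      rw [CfsgLib.Core.pCore_map_equiv e p]]
    rw [Subgroup.map_map, Subgroup.map_map]
    rfl
  have hPK : Op p C ≤ K := (Subgroup.map_subtype_le _).trans (hCq.trans inf_le_left)
  have hK0 : (K.subgroupOf M).Normal := (Subgroup.normal_subgroupOf_iff_le_normalizer inf_le_left).mpr hKM
  have hfin : (Op p C).subgroupOf M ≤ Cfsg.pCore p ↥M := CfsgLib.Core.isPGroup_subnormal_le_pCore
    (subnormal_of_normalized (M := K.subgroupOf M) (Subgroup.comap_mono hPK) hK0.isSubnormal fun k hk => by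
      rw [Subgroup.mem_normalizer_iff]
      exact fun a => Subgroup.mem_normalizer_iff.mp (hPn hk) a)
    ((CfsgLib.Core.isPGroup_pCore p).map C.subtype).comap_subtype
  intro x hx
  have hxC : x ∈ Op p C := ⟨⟨x, hTS hx⟩, hTC (Subgroup.mem_subgroupOf.mpr hx), rfl⟩
  exact ⟨⟨x, (hPK hxC).1⟩, hfin (Subgroup.mem_subgroupOf.mpr hxC), rfl⟩

end


/-- Let G be a non-abelian finite simple group and M ≠ N maximal subgroups of G with F*(M) ≤ N and F*(N) ≤ M. Then there is a prime p such that F*(M) and F*(N) are both p-groups. -/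
theorem result {G : Type*} [Group G] [Finite G] [IsSimpleGroup G] (hna : ¬ IsMulCommutative G) (M N : Subgroup G) (hM : IsCoatom M) (hN : IsCoatom N) (hMN : M ≠ N) (h1 : (Cfsg.generalizedFittingSubgroup ↥M).map M.subtype ≤ N) (h2 : (Cfsg.generalizedFittingSubgroup ↥N).map N.subtype ≤ M) : ∃ p : ℕ, p.Prime ∧ IsPGroup p ↥(Cfsg.generalizedFittingSubgroup ↥M) ∧ IsPGroup p ↥(Cfsg.generalizedFittingSubgroup ↥N) := by
  have hnbot : ∀ R : Subgroup G, R ≠ ⊥ → R ≠ ⊤ → Subgroup.normalizer (R : Set G) ≠ ⊤ := fun R h1 h2 h => by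
    haveI := Subgroup.normalizer_eq_top_iff.mp h
    rcases Subgroup.Normal.eq_bot_or_eq_top (inferInstance : R.Normal) with h' | h'
    · exact h1 h'
    · exact h2 h'
  have hNM : ∀ (A : Subgroup G), IsCoatom A → ∀ R : Subgroup G, R ≤ A → R ≠ ⊥ → A ≤ Subgroup.normalizer (R : Set G) →
      Subgroup.normalizer (R : Set G) = A := fun A hA R hRA hR hn => by
    rcases hn.eq_or_lt with h | h
    · exact h.symm
    · exact absurd (hA.2 _ h) (hnbot R hR fun h' => hA.1 (top_le_iff.mp (h' ▸ hRA)))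
  have hlay : (Cfsg.layer ↥M).map M.subtype = (Cfsg.layer ↥N).map N.subtype :=
    le_antisymm (layer_le_of h1 h2) (layer_le_of h2 h1)
  have hlM : Cfsg.layer ↥M = ⊥ := by
    by_contra hne
    have hne' : (Cfsg.layer ↥M).map M.subtype ≠ ⊥ := fun h =>
      hne ((Subgroup.map_eq_bot_iff_of_injective _ M.subtype_injective).mp h)
    have e1 := hNM M hM _ (Subgroup.map_subtype_le _) hne' (map_normal_normalizer _)
    rw [hlay] at e1 hne'
    exact hMN (e1.symm.trans (hNM N hN _ (Subgroup.map_subtype_le _) hne' (map_normal_normalizer _)))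
  have hlN : Cfsg.layer ↥N = ⊥ := by
    rw [hlM, Subgroup.map_bot] at hlay
    exact (Subgroup.map_eq_bot_iff_of_injective _ N.subtype_injective).mp hlay.symm
  have hgf : ∀ A : Subgroup G, Cfsg.layer ↥A = ⊥ → Cfsg.generalizedFittingSubgroup ↥A = ⨆ r : Nat.Primes, Cfsg.pCore (r : ℕ) ↥A := fun A h => by
    rw [CfsgLib.GenFitting.genFitting_eq, h, bot_sup_eq, CfsgLib.Core.fittingSubgroup_eq_iSup_pCore]
    rfl
  have hcent : ∀ A : Subgroup G, IsCoatom A → ∀ r : ℕ, r.Prime → Op r A ≠ ⊥ → Subgroup.centralizer (Op r A : Set G) ≤ A :=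
    fun A hA r _ hne => (Subgroup.centralizer_le_normalizer _).trans
      (hNM A hA _ (Subgroup.map_subtype_le _) hne (M_le_normalizer_Op r A)).le
  have hex : ∀ A : Subgroup G, IsCoatom A → Cfsg.layer ↥A = ⊥ → ∃ r : ℕ, r.Prime ∧ Op r A ≠ ⊥ := by
    intro A hA hlA
    by_contra hcon
    simp only [not_exists, not_and, not_not] at hcon
    have hF : Cfsg.generalizedFittingSubgroup ↥A = ⊥ := by
      rw [hgf A hlA]
      exact le_bot_iff.mp (iSup_le fun r => ((Subgroup.map_eq_bot_iff_of_injective _ A.subtype_injective).mp (hcon r r.2)).le)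
    have hAbot : A = ⊥ := by
      refine (Subgroup.eq_bot_iff_forall A).mpr fun a ha => ?_
      have h := CfsgLib.GenFitting.centralizer_genFitting_le (G := ↥A)
        (show (⟨a, ha⟩ : ↥A) ∈ Subgroup.centralizer (Cfsg.generalizedFittingSubgroup ↥A : Set ↥A) by
          rw [hF]; intro v hv; rw [Subgroup.mem_bot.mp hv, one_mul, mul_one])
      rw [hF, Subgroup.mem_bot] at h
      exact congrArg Subtype.val h
    obtain ⟨g, hg⟩ : ∃ g : G, g ≠ 1 := exists_ne 1
    have htop : Subgroup.zpowers g = ⊤ := hA.2 _ (by rw [hAbot, bot_lt_iff_ne_bot, ne_eq, Subgroup.zpowers_eq_bot]; exact hg)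
    refine hna ⟨⟨fun x y => ?_⟩⟩
    obtain ⟨i, rfl⟩ := Subgroup.mem_zpowers_iff.mp (htop.ge (Subgroup.mem_top x))
    obtain ⟨j, rfl⟩ := Subgroup.mem_zpowers_iff.mp (htop.ge (Subgroup.mem_top y))
    rw [← zpow_add, ← zpow_add, add_comm]
  -- a prime for `M` is the only prime for `N`
  have hsame : ∀ A B : Subgroup G, IsCoatom A → IsCoatom B → FS A ≤ B → FS B ≤ A → Cfsg.layer ↥B = ⊥ →
      ∀ r : ℕ, r.Prime → Op r A ≠ ⊥ → Op r B ≠ ⊥ := by
    intro A B hA hB hAB hBA hlB r hr hne h0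
    refine hne (le_bot_iff.mp ?_)
    rintro x hx
    haveI := Fact.mk hr
    have hxB : x ∈ B := hAB (Op_le_FS hr A hx)
    have hxF : (⟨x, hxB⟩ : ↥B) ∈ Cfsg.generalizedFittingSubgroup ↥B := by
      refine CfsgLib.GenFitting.centralizer_genFitting_le fun v hv => Subgroup.mem_centralizer_singleton_iff.mp
        ((?_ : Cfsg.generalizedFittingSubgroup ↥B ≤ Subgroup.centralizer ({⟨x, hxB⟩} : Set ↥B)) hv)
      rw [hgf B hlB]
      refine iSup_le fun s w hw => Subgroup.mem_centralizer_singleton_iff.mpr (Subtype.ext ?_)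
      by_cases hsr : (s : ℕ) = r
      · have : (w : G) ∈ Op r B := ⟨w, hsr ▸ hw, rfl⟩
        rw [h0, Subgroup.mem_bot] at this
        show (w : G) * x = x * w
        rw [this, one_mul, mul_one]
      · haveI := Fact.mk s.2
        have hwA : (w : G) ∈ A := hBA (Op_le_FS s.2 B ⟨w, hw, rfl⟩)
        have h1 : ⁅(w : G), x⁆ ∈ Op r A := by
          rw [commutatorElement_def]
          exact mul_mem ((Subgroup.mem_normalizer_iff.mp (M_le_normalizer_Op r A hwA) x).mp hx) (inv_mem hx)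
        have h2 : ⁅(w : G), x⁆ ∈ Op (s : ℕ) B := by
          rw [commutatorElement_def, show (w : G) * x * (w : G)⁻¹ * x⁻¹ = (w : G) * (x * (w : G)⁻¹ * x⁻¹) by group]
          exact mul_mem ⟨w, hw, rfl⟩ ((Subgroup.mem_normalizer_iff.mp (M_le_normalizer_Op s B hxB) _).mp (inv_mem ⟨w, hw, rfl⟩))
        obtain ⟨a, ha⟩ := ((CfsgLib.Core.isPGroup_pCore (G := ↥A) r).map A.subtype).exists_card_eq
        obtain ⟨b, hb⟩ := ((CfsgLib.Core.isPGroup_pCore (G := ↥B) (s : ℕ)).map B.subtype).exists_card_eq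
        have h0 : Op r A ⊓ Op (s : ℕ) B = ⊥ := Subgroup.inf_eq_bot_of_coprime (by
          rw [ha, hb]; exact Nat.Coprime.pow _ _ ((Nat.coprime_primes hr s.2).mpr (Ne.symm hsr)))
        exact commutatorElement_eq_one_iff_mul_comm.mp (Subgroup.mem_bot.mp (h0 ▸ ⟨h1, h2⟩))
    rw [Subgroup.mem_bot]
    have hmem : x ∈ (⨆ s : Nat.Primes, Op (s : ℕ) B) := by
      rw [← Subgroup.map_iSup, ← hgf B hlB]; exact ⟨_, hxF, rfl⟩
    -- the `r`-part of a nilpotent group with trivial `O_r` is trivial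
    have hc : (Nat.card ↥((Cfsg.pPrimeCore r ↥B).map B.subtype)).Coprime r := by
      rw [Subgroup.card_map_of_injective B.subtype_injective]; exact CfsgLib.Core.card_pPrimeCore_coprime r
    have hle : (⨆ s : Nat.Primes, Op (s : ℕ) B) ≤ (Cfsg.pPrimeCore r ↥B).map B.subtype := by
      refine iSup_le fun s => ?_
      by_cases hsr : (s : ℕ) = r
      · rw [hsr, h0]; exact bot_le
      · haveI := Fact.mk s.2
        haveI := CfsgLib.Core.pCore_characteristic (G := ↥B) (s : ℕ)
        obtain ⟨b, hb⟩ := IsPGroup.iff_card.mp (CfsgLib.Core.isPGroup_pCore (G := ↥B) (s : ℕ))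
        exact Subgroup.map_mono (CfsgLib.Core.le_pPrimeCore inferInstance
          (by rw [hb]; exact Nat.Coprime.pow_left b ((Nat.coprime_primes s.2 hr).mpr hsr)))
    exact Subgroup.mem_bot.mp (CfsgLib.PConstrained.inf_eq_bot_of_coprime ((CfsgLib.Core.isPGroup_pCore r).map A.subtype) hc ▸
      (⟨hx, hle hmem⟩ : x ∈ Op r A ⊓ (Cfsg.pPrimeCore r ↥B).map B.subtype))
  obtain ⟨p, hp, hpM⟩ := hex M hM hlM
  have hpN : Op p N ≠ ⊥ := hsame M N hM hN h1 h2 hlN p hp hpM
  have honly : ∀ q : ℕ, q.Prime → q ≠ p → Op q M = ⊥ ∧ Op q N = ⊥ := by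
    intro q hq hqp
    by_contra hcon
    obtain ⟨hqM, hqN⟩ : Op q M ≠ ⊥ ∧ Op q N ≠ ⊥ := by
      by_cases h : Op q M = ⊥
      · exact absurd ⟨h, by_contra fun h' => hsame N M hN hM h2 h1 hlM q hq h' h⟩ hcon
      · exact ⟨h, hsame M N hM hN h1 h2 hlN q hq h⟩
    have e : Op p N = Op p M := le_antisymm (Op_le_Op (hcent M hM) (hcent N hN) h1 h2 hlM hp hq hqp hqM hqN)
      (Op_le_Op (hcent N hN) (hcent M hM) h2 h1 hlN hp hq hqp hqN hqM)
    have e1 := hNM M hM _ (Subgroup.map_subtype_le _) hpM (M_le_normalizer_Op p M)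
    have e2 := hNM N hN _ (Subgroup.map_subtype_le _) hpN (M_le_normalizer_Op p N)
    have e2' : Subgroup.normalizer (Op p M : Set G) = N := e ▸ e2
    exact hMN (e1.symm.trans e2')
  haveI := Fact.mk hp
  refine ⟨p, hp, ?_, ?_⟩
  · refine (CfsgLib.Core.isPGroup_pCore p).to_le ?_
    rw [hgf M hlM]
    refine iSup_le fun r => ?_
    by_cases hr : (r : ℕ) = p
    · rw [hr]
    · rw [(Subgroup.map_eq_bot_iff_of_injective _ M.subtype_injective).mp (honly r r.2 hr).1]; exact bot_le
  · refine (CfsgLib.Core.isPGroup_pCore p).to_le ?_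
    rw [hgf N hlN]
    refine iSup_le fun r => ?_
    by_cases hr : (r : ℕ) = p
    · rw [hr]
    · rw [(Subgroup.map_eq_bot_iff_of_injective _ N.subtype_injective).mp (honly r r.2 hr).2]; exact bot_le

end Cfsg.Agent.S1312
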