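import Cfsg.Agent.S0044
import Cfsg.Agent.Lib.Core
import Cfsg.Agent.Lib.MaximalClass
import Cfsg.Agent.Lib.GroupB.Coprime
-- import your own Cfsg.Agent.* helpers here

set_option autoImplicit false
open Cfsg

namespace Cfsg.Agent.S1349

theorem sq_eq_one_odd {G : Type*} [Group G] [Finite G] {H : Subgroup G} (hodd : Odd (Nat.card H)) {y : G} (hy : y ∈ H)
    (h : y * y = 1) : y = 1 := by
  have h1 := Subgroup.orderOf_dvd_natCard H hy
  have h2 : orderOf y ∣ 2 := orderOf_dvd_of_pow_eq_one (by rw [pow_two]; exact h)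
  exact orderOf_eq_one_iff.mp (Nat.eq_one_of_dvd_coprimes (Nat.coprime_two_right.mpr hodd) h1 h2)

/-- An involution centralizing a self-centralizing normalized subgroup of an odd group centralizes the group. -/
theorem centralizes {G : Type*} [Group G] [Finite G] (H W : Subgroup G) (hodd : Odd (Nat.card H)) (a : G) (ha2 : a * a = 1)
    (haH : ∀ h ∈ H, a * h * a⁻¹ ∈ H) (hWH : W ≤ H) (hHW : ∀ h ∈ H, ∀ w ∈ W, h * w * h⁻¹ ∈ W)
    (hW : ∀ w ∈ W, a * w * a⁻¹ = w) (hC : ∀ u ∈ H, (∀ w ∈ W, u * w = w * u) → u ∈ W) :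
    ∀ h ∈ H, a * h * a⁻¹ = h := by
  intro h hh
  set y := h⁻¹ * (a * h * a⁻¹) with hy
  have hyH : y ∈ H := mul_mem (inv_mem hh) (haH h hh)
  have hyW : y ∈ W := by
    refine hC y hyH fun w hw => ?_
    have h1 := hW _ (hHW h hh w hw)
    have h2 := hW w hw
    have h3 : a * h * a⁻¹ * w * (a * h * a⁻¹)⁻¹ = h * w * h⁻¹ := by
      conv_lhs => rw [← h2]
      rw [← h1]; group
    calc y * w = h⁻¹ * (a * h * a⁻¹ * w * (a * h * a⁻¹)⁻¹) * (a * h * a⁻¹) := by rw [hy]; group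
      _ = w * y := by rw [h3, hy]; group
  have h4 : a * h * a⁻¹ = h * y := by rw [hy, mul_inv_cancel_left]
  have h5 : h = h * y * y := by
    have h6 : a * (a * h * a⁻¹) * a⁻¹ = h := by
      rw [show a * (a * h * a⁻¹) * a⁻¹ = (a * a) * h * (a * a)⁻¹ by group, ha2, one_mul, inv_one, mul_one]
    have h7 : a * (h * y) * a⁻¹ = (a * h * a⁻¹) * (a * y * a⁻¹) := by group
    rw [h4, h7, h4, hW y hyW] at h6
    exact h6.symm
  rw [h4, sq_eq_one_odd hodd hyH (mul_eq_left.mp (by rw [← mul_assoc]; exact h5.symm)), mul_one]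

/-- Subgroups of index two cut out by a fixed point condition. -/
theorem half {G : Type*} [Group G] [Finite G] (B : Subgroup G) (hB : Cfsg.IsElementaryAbelian 2 B) (x a : G)
    (hx : ∀ b ∈ B, b * x * b⁻¹ = x ∨ b * x * b⁻¹ = x⁻¹) (ha : a ∈ B) (hax : a * x * a⁻¹ = x⁻¹) (hne : x⁻¹ ≠ x) :
    Nat.card B = 2 * Nat.card ↥(B ⊓ Subgroup.centralizer ({x} : Set G)) ∧
      ∀ b ∈ B, b ∈ B ⊓ Subgroup.centralizer ({x} : Set G) ∨ b * a ∈ B ⊓ Subgroup.centralizer ({x} : Set G) := by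
  have hmem : ∀ b, b * x * b⁻¹ = x → b ∈ Subgroup.centralizer ({x} : Set G) := fun b h =>
    Subgroup.mem_centralizer_singleton_iff.mpr (mul_inv_eq_iff_eq_mul.mp h)
  have ha2 : a * a = 1 := by rw [← pow_two]; exact hB.2 a ha
  have hor : ∀ b ∈ B, b ∈ B ⊓ Subgroup.centralizer ({x} : Set G) ∨ b * a ∈ B ⊓ Subgroup.centralizer ({x} : Set G) := by
    intro b hb
    rcases hx b hb with h | h
    · exact Or.inl ⟨hb, hmem b h⟩
    · refine Or.inr ⟨mul_mem hb ha, hmem _ ?_⟩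
      rw [show b * a * x * (b * a)⁻¹ = b * (a * x * a⁻¹) * b⁻¹ by group, hax,
        show b * x⁻¹ * b⁻¹ = (b * x * b⁻¹)⁻¹ by group, h, inv_inv]
  refine ⟨?_, hor⟩
  set B₁ := B ⊓ Subgroup.centralizer ({x} : Set G) with hB₁
  have ha1 : a ∉ B₁ := fun h => by
    have h1 := Subgroup.mem_centralizer_singleton_iff.mp h.2
    exact hne (hax.symm.trans (mul_inv_eq_iff_eq_mul.mpr h1))
  let f : Bool × B₁ → B := fun p => ⟨(p.2 : G) * (if p.1 then a else 1),
    mul_mem p.2.2.1 (by cases p.1 <;> simp [ha])⟩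
  have hf : Function.Bijective f := by
    constructor
    · rintro ⟨e, u⟩ ⟨e', u'⟩ h
      have h' : (u : G) * (if e then a else 1) = (u' : G) * (if e' then a else 1) := congrArg Subtype.val h
      cases e <;> cases e' <;> simp at h'
      · rw [h']
      · exact absurd (show a ∈ B₁ by rw [show a = (u' : G)⁻¹ * u by rw [h', inv_mul_cancel_left]]; exact mul_mem (inv_mem u'.2) u.2) ha1
      · exact absurd (show a ∈ B₁ by rw [show a = (u : G)⁻¹ * u' by rw [← h', inv_mul_cancel_left]]; exact mul_mem (inv_mem u.2) u'.2) ha1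
      · rw [h']
    · rintro ⟨b, hb⟩
      rcases hor b hb with h | h
      · exact ⟨(false, ⟨b, h⟩), Subtype.ext (by simp [f])⟩
      · exact ⟨(true, ⟨b * a, h⟩), Subtype.ext (by simp [f, mul_assoc, ha2])⟩
  rw [← Nat.card_congr (Equiv.ofBijective f hf), Nat.card_prod]
  simp

/-- Common eigen elements generate. -/
theorem eig_gen {G : Type*} [Group G] [Finite G] (W A : Subgroup G) (hodd : Odd (Nat.card W))
    (hWc : ∀ u ∈ W, ∀ v ∈ W, u * v = v * u) (hA : Cfsg.IsElementaryAbelian 2 A)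
    (hinv : ∀ a ∈ A, ∀ w ∈ W, a * w * a⁻¹ ∈ W) (T : Finset G) (hT : ∀ t ∈ T, t ∈ A) :
    W ≤ Subgroup.closure {w : G | w ∈ W ∧ ∀ t ∈ T, t * w * t⁻¹ = w ∨ t * w * t⁻¹ = w⁻¹} := by
  classical
  induction T using Finset.induction with
  | empty => exact fun w hw => Subgroup.subset_closure ⟨hw, by simp⟩
  | insert b T hb ih =>
    refine (ih fun t ht => hT t (Finset.mem_insert_of_mem ht)).trans ?_
    rw [Subgroup.closure_le]
    rintro w ⟨hw, hwT⟩
    have hbA : b ∈ A := hT b (Finset.mem_insert_self _ _)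
    have hb2 : b * b = 1 := by rw [← pow_two]; exact hA.2 b hbA
    set w' := b * w * b⁻¹ with hw'
    have hw'W : w' ∈ W := hinv b hbA w hw
    have hbw' : b * w' * b⁻¹ = w := by
      rw [hw', show b * (b * w * b⁻¹) * b⁻¹ = (b * b) * w * (b * b)⁻¹ by group, hb2, one_mul, inv_one, mul_one]
    have htb : ∀ t ∈ T, t * w' * t⁻¹ = w' ∨ t * w' * t⁻¹ = w'⁻¹ := by
      intro t ht
      have hc : t * b = b * t := congrArg Subtype.val (hA.1.is_comm.comm (⟨t, hT t (Finset.mem_insert_of_mem ht)⟩ : A) ⟨b, hbA⟩)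
      have h1 : t * w' * t⁻¹ = b * (t * w * t⁻¹) * b⁻¹ := by
        rw [hw', show t * (b * w * b⁻¹) * t⁻¹ = (t * b) * w * (t * b)⁻¹ by group, hc]; group
      rcases hwT t ht with h | h
      · left; rw [h1, h]
      · right; rw [h1, h, hw']; group
    set E := {w : G | w ∈ W ∧ ∀ t ∈ insert b T, t * w * t⁻¹ = w ∨ t * w * t⁻¹ = w⁻¹} with hE
    have hp : w * w' ∈ E := by
      refine ⟨mul_mem hw hw'W, fun t ht => ?_⟩
      rcases Finset.mem_insert.mp ht with rfl | ht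
      · left
        rw [show t * (w * w') * t⁻¹ = (t * w * t⁻¹) * (t * w' * t⁻¹) by group, ← hw', hbw', hWc w' hw'W w hw]
      · rw [show t * (w * w') * t⁻¹ = (t * w * t⁻¹) * (t * w' * t⁻¹) by group]
        have hc : t * b = b * t := congrArg Subtype.val (hA.1.is_comm.comm (⟨t, hT t (Finset.mem_insert_of_mem ht)⟩ : A) ⟨b, hbA⟩)
        have h1 : t * w' * t⁻¹ = b * (t * w * t⁻¹) * b⁻¹ := by
          rw [hw', show t * (b * w * b⁻¹) * t⁻¹ = (t * b) * w * (t * b)⁻¹ by group, hc]; group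
        rcases hwT t ht with h | h
        · left; rw [h1, h]
        · right; rw [h1, h, show b * w⁻¹ * b⁻¹ = w'⁻¹ by rw [hw']; group, ← mul_inv_rev, hWc w' hw'W w hw]
    have hm : w * w'⁻¹ ∈ E := by
      refine ⟨mul_mem hw (inv_mem hw'W), fun t ht => ?_⟩
      rcases Finset.mem_insert.mp ht with rfl | ht
      · right
        rw [show t * (w * w'⁻¹) * t⁻¹ = (t * w * t⁻¹) * (t * w' * t⁻¹)⁻¹ by group, ← hw', hbw', mul_inv_rev, inv_inv]
      · rw [show t * (w * w'⁻¹) * t⁻¹ = (t * w * t⁻¹) * (t * w' * t⁻¹)⁻¹ by group]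
        have hc : t * b = b * t := congrArg Subtype.val (hA.1.is_comm.comm (⟨t, hT t (Finset.mem_insert_of_mem ht)⟩ : A) ⟨b, hbA⟩)
        have h1 : t * w' * t⁻¹ = b * (t * w * t⁻¹) * b⁻¹ := by
          rw [hw', show t * (b * w * b⁻¹) * t⁻¹ = (t * b) * w * (t * b)⁻¹ by group, hc]; group
        rcases hwT t ht with h | h
        · left; rw [h1, h]
        · right
          rw [h1, h, show b * w⁻¹ * b⁻¹ = w'⁻¹ by rw [hw']; group, inv_inv, mul_inv_rev, inv_inv]
          exact (show Commute w⁻¹ w' from (show Commute w w' from hWc w hw w' hw'W).inv_left).eq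
    have h2 : w ^ 2 ∈ Subgroup.closure E := by
      rw [show w ^ 2 = (w * w') * (w * w'⁻¹) by
        rw [pow_two, show w * w' * (w * w'⁻¹) = w * (w' * w) * w'⁻¹ by group, hWc w' hw'W w hw]; group]
      exact mul_mem (Subgroup.subset_closure hp) (Subgroup.subset_closure hm)
    obtain ⟨j, hj⟩ := hodd
    have h3 : w = (w ^ 2) ^ (j + 1) := by
      have h4 : (⟨w, hw⟩ : W) ^ Nat.card W = 1 := pow_card_eq_one'
      have h5 : w ^ (2 * j + 1) = 1 := by rw [← hj]; exact congrArg Subtype.val h4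
      rw [← pow_mul, show 2 * (j + 1) = (2 * j + 1) + 1 by ring, pow_succ, h5, one_mul]
    rw [h3]
    exact pow_mem h2 _

theorem pairs {G : Type*} [Group G] [Finite G] (W A : Subgroup G) (hodd : Odd (Nat.card W))
    (hA : Cfsg.IsElementaryAbelian 2 A)
    (heig : ∀ a ∈ A, a ≠ 1 → ∃ x ∈ W, (∀ b ∈ A, b * x * b⁻¹ = x ∨ b * x * b⁻¹ = x⁻¹) ∧ a * x * a⁻¹ ≠ x) :
    ∀ (k : ℕ) (B : Subgroup G), B ≤ A → Nat.card B = 2 ^ k →
      ∃ (a x : Fin k → G), (∀ i, a i ∈ B ∧ x i ∈ W ∧ a i * x i * (a i)⁻¹ = (x i)⁻¹ ∧ x i ≠ 1 ∧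
          ∀ b ∈ A, b * x i * b⁻¹ = x i ∨ b * x i * b⁻¹ = (x i)⁻¹) ∧
        (∀ i j, i ≠ j → a i * x j * (a i)⁻¹ = x j) ∧ B ≤ Subgroup.closure (Set.range a) := by
  classical
  intro k
  induction k with
  | zero =>
    intro B hB hcard
    refine ⟨Fin.elim0, Fin.elim0, fun i => i.elim0, fun i => i.elim0, ?_⟩
    rw [Subgroup.eq_bot_of_card_eq B hcard]; exact bot_le
  | succ k ih =>
    intro B hBA hcard
    obtain ⟨a₀, ha₀, ha₀1⟩ : ∃ a ∈ B, a ≠ (1 : G) := by
      by_contra h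
      push Not at h
      rw [(Subgroup.eq_bot_iff_forall B).mpr h, Subgroup.card_bot] at hcard
      have := Nat.one_lt_two_pow (n := k + 1) (by omega)
      omega
    obtain ⟨x₀, hx₀W, hx₀e, hx₀ne⟩ := heig a₀ (hBA ha₀) ha₀1
    have hinv₀ : a₀ * x₀ * a₀⁻¹ = x₀⁻¹ := (hx₀e a₀ (hBA ha₀)).resolve_left hx₀ne
    have hne : x₀⁻¹ ≠ x₀ := fun e => hx₀ne (hinv₀.trans e)
    have hBe : Cfsg.IsElementaryAbelian 2 B :=
      ⟨⟨⟨fun u v => Subtype.ext (congrArg (fun w : A => (w : G)) (hA.1.is_comm.comm (⟨u, hBA u.2⟩ : A) ⟨v, hBA v.2⟩) :)⟩⟩, fun u hu => hA.2 u (hBA hu)⟩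
    obtain ⟨hc, hor⟩ := half B hBe x₀ a₀ (fun b hb => hx₀e b (hBA hb)) ha₀ hinv₀ hne
    set B₁ := B ⊓ Subgroup.centralizer ({x₀} : Set G) with hB₁
    obtain ⟨a, x, hax, hoff, hgen⟩ := ih B₁ (inf_le_left.trans hBA) (by rw [hcard, pow_succ] at hc; omega)
    have hfix : ∀ b ∈ B₁, b * x₀ * b⁻¹ = x₀ := fun b hb => mul_inv_eq_iff_eq_mul.mpr (Subgroup.mem_centralizer_singleton_iff.mp hb.2)
    -- correct `a₀`
    have hcorr : ∀ T : Finset (Fin k), ∃ b ∈ B₁, ∀ i ∈ T, (a₀ * b) * x i * (a₀ * b)⁻¹ = x i := by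
      suffices ∀ T : Finset (Fin k), ∃ b ∈ B₁, (∀ i ∈ T, (a₀ * b) * x i * (a₀ * b)⁻¹ = x i) ∧ ∀ i, i ∉ T → b * x i * b⁻¹ = x i by
        intro T; obtain ⟨b, hb, h, -⟩ := this T; exact ⟨b, hb, h⟩
      intro T
      induction T using Finset.induction with
      | empty => exact ⟨1, one_mem _, by simp, by simp⟩
      | insert i T hi ihT =>
        obtain ⟨b, hb, hb1, hb2⟩ := ihT
        rcases (hax i).2.2.2.2 a₀ (hBA ha₀) with h | h
        · refine ⟨b, hb, fun j hj => ?_, fun j hj => hb2 j (fun h' => hj (Finset.mem_insert_of_mem h'))⟩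
          rcases Finset.mem_insert.mp hj with rfl | hj
          · rw [show a₀ * b * x j * (a₀ * b)⁻¹ = a₀ * (b * x j * b⁻¹) * a₀⁻¹ by group, hb2 j hi, h]
          · exact hb1 j hj
        · refine ⟨b * a i, mul_mem hb (hax i).1, fun j hj => ?_, fun j hj => ?_⟩
          · rcases Finset.mem_insert.mp hj with rfl | hj
            · rw [show a₀ * (b * a j) * x j * (a₀ * (b * a j))⁻¹ = a₀ * (b * (a j * x j * (a j)⁻¹) * b⁻¹) * a₀⁻¹ by group,
                (hax j).2.2.1, show b * (x j)⁻¹ * b⁻¹ = (b * x j * b⁻¹)⁻¹ by group, hb2 j hi,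
                show a₀ * (x j)⁻¹ * a₀⁻¹ = (a₀ * x j * a₀⁻¹)⁻¹ by group, h, inv_inv]
            · rw [show a₀ * (b * a i) * x j * (a₀ * (b * a i))⁻¹ = (a₀ * b) * (a i * x j * (a i)⁻¹) * (a₀ * b)⁻¹ by group,
                hoff i j (fun e => hi (e ▸ hj)), hb1 j hj]
          · have hji : i ≠ j := fun e => hj (e ▸ Finset.mem_insert_self _ _)
            rw [show b * a i * x j * (b * a i)⁻¹ = b * (a i * x j * (a i)⁻¹) * b⁻¹ by group, hoff i j hji,
              hb2 j (fun h' => hj (Finset.mem_insert_of_mem h'))]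
    obtain ⟨c, hc₁, hcx⟩ := hcorr Finset.univ
    have hinv : (a₀ * c) * x₀ * (a₀ * c)⁻¹ = x₀⁻¹ := by
      rw [show a₀ * c * x₀ * (a₀ * c)⁻¹ = a₀ * (c * x₀ * c⁻¹) * a₀⁻¹ by group, hfix c hc₁, hinv₀]
    refine ⟨Fin.cons (a₀ * c) a, Fin.cons x₀ x, ?_, ?_, ?_⟩
    · intro i
      refine Fin.cases ?_ (fun i => ?_) i
      · simp only [Fin.cons_zero]
        exact ⟨mul_mem ha₀ hc₁.1, hx₀W, hinv, fun e => hne (by rw [e, inv_one]), hx₀e⟩
      · simp only [Fin.cons_succ]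
        exact ⟨(hax i).1.1, (hax i).2⟩
    · intro i j
      refine Fin.cases ?_ (fun i => ?_) i <;> refine Fin.cases ?_ (fun j => ?_) j
      · exact fun h => absurd rfl h
      · intro _; simp only [Fin.cons_zero, Fin.cons_succ]; exact hcx j (Finset.mem_univ j)
      · intro _; simp only [Fin.cons_zero, Fin.cons_succ]; exact hfix _ (hax i).1
      · intro h; simp only [Fin.cons_succ]; exact hoff i j fun e => h (by rw [e])
    · set R := Subgroup.closure (Set.range (Fin.cons (a₀ * c) a : Fin (k + 1) → G)) with hR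
      have h1 : B₁ ≤ R := hgen.trans (Subgroup.closure_mono (by rw [Fin.range_cons]; exact Set.subset_insert _ _))
      have h2 : a₀ ∈ R := by
        have h3 : a₀ * c ∈ R := Subgroup.subset_closure ⟨0, rfl⟩
        simpa using mul_mem h3 (inv_mem (h1 hc₁))
      intro b hb
      rcases hor b hb with h | h
      · exact h1 h
      · simpa using mul_mem (h1 h) (inv_mem h2)

theorem normal_inf_center {X : Type*} [Group X] [Group.IsNilpotent X] (N : Subgroup X) [N.Normal]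
    (h : N ⊓ Subgroup.center X = ⊥) : N = ⊥ := by
  obtain ⟨n, hn⟩ := (inferInstance : Group.IsNilpotent X).nilpotent'
  have key : ∀ i, N ⊓ Subgroup.upperCentralSeries X i = ⊥ := by
    intro i
    induction i with
    | zero => rw [Subgroup.upperCentralSeries_zero, inf_bot_eq]
    | succ i ih =>
      rw [eq_bot_iff]
      rintro g ⟨hgN, hg⟩
      rw [← h]
      refine ⟨hgN, Subgroup.mem_center_iff.mpr fun y => ?_⟩
      have h1 : g * y * g⁻¹ * y⁻¹ ∈ N ⊓ Subgroup.upperCentralSeries X i :=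
        ⟨by rw [show g * y * g⁻¹ * y⁻¹ = g * (y * g⁻¹ * y⁻¹) by group]; exact mul_mem hgN ((inferInstance : N.Normal).conj_mem _ (inv_mem hgN) y),
          Subgroup.mem_upperCentralSeries_succ_iff.mp hg y⟩
      rw [ih, Subgroup.mem_bot, mul_inv_eq_one, mul_inv_eq_iff_eq_mul] at h1
      exact h1.symm
  simpa [hn] using key n



/-- Let G be finite, L ≤ G solvable of odd order, and A an elementary abelian 2-subgroup of order 2^d (d ≥ 1) normalizing L with C_A(L) = 1. Then there are subgroups A_1, …, A_d of A of order 2 generating A and subgroups L_1, …, L_d of L such that each A_i ⊔ L_i is dihedral of order 2 n_i with n_i odd and at least 3, and A_i ⊔ L_i commutes elementwise with A_j ⊔ L_j for i ≠ j. -/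
theorem result {G : Type*} [Group G] [Finite G] (L A : Subgroup G) (hLs : Group.IsSolvable ↥L) (hLodd : Odd (Nat.card ↥L)) (hA : Cfsg.IsElementaryAbelian 2 A) (d : ℕ) (hd : 1 ≤ d) (hAd : Nat.card ↥A = 2 ^ d) (hAL : A ≤ Subgroup.normalizer (L : Set G)) (hfaith : A ⊓ Subgroup.centralizer (L : Set G) = ⊥) : ∃ (Ai : Fin d → Subgroup G) (Li : Fin d → Subgroup G) (n : Fin d → ℕ), (∀ i, Ai i ≤ A ∧ Nat.card ↥(Ai i) = 2 ∧ Li i ≤ L ∧ Odd (n i) ∧ 3 ≤ n i ∧ Nonempty (↥(Ai i ⊔ Li i) ≃* DihedralGroup (n i))) ∧ (⨆ i, Ai i) = A ∧ ∀ i j, i ≠ j → ∀ x ∈ Ai i ⊔ Li i, ∀ y ∈ Ai j ⊔ Li j, x * y = y * x := by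
  classical
  haveI := hLs
  have hA2 : ∀ a ∈ A, a * a = 1 := fun a ha => by rw [← pow_two]; exact hA.2 a ha
  have hconjL : ∀ a ∈ A, ∀ l ∈ L, a * l * a⁻¹ ∈ L := fun a ha l hl => (Subgroup.mem_normalizer_iff.mp (hAL ha) l).mp hl
  set F := (Cfsg.fittingSubgroup L).map L.subtype with hFdef
  have hFL : F ≤ L := Subgroup.map_subtype_le _
  haveI hFn : (Cfsg.fittingSubgroup L).Normal := CfsgLib.Core.fittingSubgroup_normal
  haveI hFc : (Cfsg.fittingSubgroup L).Characteristic := CfsgLib.Core.fittingSubgroup_characteristic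
  have hLF : ∀ l ∈ L, ∀ f ∈ F, l * f * l⁻¹ ∈ F := by
    rintro l hl _ ⟨f, hf, rfl⟩
    exact ⟨_, hFn.conj_mem f hf ⟨l, hl⟩, rfl⟩
  have hAF : ∀ a ∈ A, ∀ f ∈ F, a * f * a⁻¹ ∈ F := by
    rintro a ha _ ⟨f, hf, rfl⟩
    let σ : MulAut L := Subgroup.normalizerMonoidHom L ⟨a, hAL ha⟩
    exact ⟨σ f, Subgroup.characteristic_iff_map_le.mp hFc σ ⟨f, hf, rfl⟩, rfl⟩
  have hCF : ∀ u ∈ L, (∀ f ∈ F, u * f = f * u) → u ∈ F := fun u hu h => ⟨⟨u, hu⟩, Cfsg.Agent.S0044.result
    (Subgroup.mem_centralizer_iff.mpr fun f hf => Subtype.ext (h _ ⟨f, hf, rfl⟩).symm), rfl⟩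
  -- a self-centralizing abelian subgroup
  have hFodd : Odd (Nat.card F) := Odd.of_dvd_nat hLodd (Subgroup.card_dvd_of_le hFL)
  haveI : Group.IsNilpotent (Cfsg.fittingSubgroup L) := CfsgLib.Core.isNilpotent_fittingSubgroup
  haveI hFnil : Group.IsNilpotent F := Group.nilpotent_of_mulEquiv
    ((Cfsg.fittingSubgroup L).equivMapOfInjective L.subtype L.subtype_injective)
  obtain ⟨W, ⟨hWF, hWc, hFW, hAW⟩, hWmax⟩ := Set.Finite.exists_maximalFor id
    {W : Subgroup G | W ≤ F ∧ (∀ u ∈ W, ∀ v ∈ W, u * v = v * u) ∧ (∀ f ∈ F, ∀ w ∈ W, f * w * f⁻¹ ∈ W) ∧ ∀ a ∈ A, ∀ w ∈ W, a * w * a⁻¹ ∈ W}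
    (Set.toFinite _) ⟨⊥, bot_le, by simp, by simp, by simp⟩
  have hWodd : Odd (Nat.card W) := Odd.of_dvd_nat hFodd (Subgroup.card_dvd_of_le hWF)
  have hWC : ∀ u ∈ F, (∀ w ∈ W, u * w = w * u) → u ∈ W := by
    by_contra hcon
    push Not at hcon
    obtain ⟨u, hu, huW, hun⟩ := hcon
    set N := W.subgroupOf F with hN
    haveI hNn : N.Normal := ⟨fun w hw f => hFW f f.2 w hw⟩
    set C := (Subgroup.centralizer (W : Set G)).subgroupOf F with hCdef
    have hCn : C.Normal := ⟨fun c hc f => by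
      refine Subgroup.mem_subgroupOf.mpr (Subgroup.mem_centralizer_iff.mpr fun w hw => ?_)
      have h1 := Subgroup.mem_centralizer_iff.mp (Subgroup.mem_subgroupOf.mp hc) _ (hFW (f⁻¹ : F) (f⁻¹).2 w hw)
      rw [Subgroup.coe_inv, inv_inv] at h1
      calc w * ((f : G) * c * (f : G)⁻¹) = f * (((f : G)⁻¹ * w * f) * c) * (f : G)⁻¹ := by group
        _ = f * ((c : G) * ((f : G)⁻¹ * w * f)) * (f : G)⁻¹ := by rw [h1]
        _ = (f : G) * c * (f : G)⁻¹ * w := by group⟩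
    set Cb := C.map (QuotientGroup.mk' N) with hCb
    haveI : Cb.Normal := hCn.map _ (QuotientGroup.mk'_surjective N)
    have hne : Cb ≠ ⊥ := by
      intro e
      have : QuotientGroup.mk' N ⟨u, hu⟩ ∈ Cb := ⟨⟨u, hu⟩, Subgroup.mem_subgroupOf.mpr (Subgroup.mem_centralizer_iff.mpr fun w hw => (huW w hw).symm), rfl⟩
      rw [e, Subgroup.mem_bot] at this
      exact hun (Subgroup.mem_subgroupOf.mp ((QuotientGroup.eq_one_iff (N := N) (⟨u, hu⟩ : F)).mp this))
    obtain ⟨z, hz, hz1⟩ : ∃ z ∈ Cb ⊓ Subgroup.center (F ⧸ N), z ≠ 1 := by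
      by_contra h
      push Not at h
      exact hne (Cfsg.Agent.S1349.normal_inf_center Cb ((Subgroup.eq_bot_iff_forall _).mpr h))
    obtain ⟨z, hzC, rfl⟩ := hz.1
    -- the set of candidates
    let D : Subgroup G :=
      { carrier := {g | g ∈ F ∧ (∀ w ∈ W, g * w = w * g) ∧ ∀ f ∈ F, f * g * f⁻¹ * g⁻¹ ∈ W}
        one_mem' := ⟨one_mem _, by simp, by simp⟩
        mul_mem' := fun {g h} hg hh => ⟨mul_mem hg.1 hh.1, fun w hw => by rw [mul_assoc, hh.2.1 w hw, ← mul_assoc, hg.2.1 w hw, mul_assoc],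
          fun f hf => by
            rw [show f * (g * h) * f⁻¹ * (g * h)⁻¹ = (f * g * f⁻¹ * g⁻¹) * (g * (f * h * f⁻¹ * h⁻¹) * g⁻¹) by group]
            exact mul_mem (hg.2.2 f hf) (hFW g hg.1 _ (hh.2.2 f hf))⟩
        inv_mem' := fun {g} hg => ⟨inv_mem hg.1, fun w hw => ((show Commute g w from hg.2.1 w hw).inv_left).eq,
          fun f hf => by
            rw [show f * g⁻¹ * f⁻¹ * g⁻¹⁻¹ = g⁻¹ * (f * g * f⁻¹ * g⁻¹)⁻¹ * (g⁻¹)⁻¹ by group]
            exact hFW g⁻¹ (inv_mem hg.1) _ (inv_mem (hg.2.2 f hf))⟩ }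
    have hzD : (z : G) ∈ D := by
      refine ⟨z.2, fun w hw => (Subgroup.mem_centralizer_iff.mp (Subgroup.mem_subgroupOf.mp hzC) w hw).symm, fun f hf => ?_⟩
      have h1 : QuotientGroup.mk' N (⟨f, hf⟩ * z * (⟨f, hf⟩)⁻¹ * z⁻¹) = 1 := by
        rw [map_mul, map_mul, map_mul, map_inv, map_inv, Subgroup.mem_center_iff.mp hz.2, mul_inv_cancel_right, mul_inv_cancel]
      exact Subgroup.mem_subgroupOf.mp ((QuotientGroup.eq_one_iff (N := N) _).mp h1)
    have hzW : (z : G) ∉ W := fun h => hz1 ((QuotientGroup.eq_one_iff z).mpr h)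
    have hAD : ∀ a ∈ A, ∀ g ∈ D, a * g * a⁻¹ ∈ D := by
      intro a ha g hg
      have hai : ∀ w ∈ W, a⁻¹ * w * a ∈ W := fun w hw => by simpa using hAW a⁻¹ (inv_mem ha) w hw
      refine ⟨hAF a ha g hg.1, fun w hw => ?_, fun f hf => ?_⟩
      · calc a * g * a⁻¹ * w = a * (g * (a⁻¹ * w * a)) * a⁻¹ := by group
          _ = a * ((a⁻¹ * w * a) * g) * a⁻¹ := by rw [hg.2.1 _ (hai w hw)]
          _ = w * (a * g * a⁻¹) := by group
      · rw [show f * (a * g * a⁻¹) * f⁻¹ * (a * g * a⁻¹)⁻¹ = a * ((a⁻¹ * f * a) * g * (a⁻¹ * f * a)⁻¹ * g⁻¹) * a⁻¹ by group]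
        exact hAW a ha _ (hg.2.2 _ (by simpa using hAF a⁻¹ (inv_mem ha) f hf))
    -- an element with all conjugates in its cyclic group modulo `W`
    obtain ⟨g, hgD, hgW, hg⟩ : ∃ g ∈ D, g ∉ W ∧ ∀ a ∈ A, a * g * a⁻¹ * g⁻¹ ∈ W ∨ a * g * a⁻¹ * g ∈ W := by
      suffices ∀ T : Finset G, (∀ t ∈ T, t ∈ A) → ∃ g ∈ D, g ∉ W ∧ ∀ a ∈ T, a * g * a⁻¹ * g⁻¹ ∈ W ∨ a * g * a⁻¹ * g ∈ W by
        obtain ⟨g, h1, h2, h3⟩ := this (Set.toFinite (A : Set G)).toFinset (fun t ht => by simpa using ht)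
        exact ⟨g, h1, h2, fun a ha => h3 a (by simpa using ha)⟩
      intro T hT
      induction T using Finset.induction with
      | empty => exact ⟨z, hzD, hzW, by simp⟩
      | insert b T hb ihT =>
        obtain ⟨g, hgD, hgW, hg⟩ := ihT fun t ht => hT t (Finset.mem_insert_of_mem ht)
        have hbA := hT b (Finset.mem_insert_self _ _)
        set g' := b * g * b⁻¹ with hg'
        by_cases hgg : g' * g ∈ W
        · exact ⟨g, hgD, hgW, fun a ha => (Finset.mem_insert.mp ha).elim (fun e => e ▸ Or.inr hgg) (hg a)⟩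
        refine ⟨g' * g, mul_mem (hAD b hbA g hgD) hgD, hgg, fun a ha => ?_⟩
        have hbb : b * g' * b⁻¹ = g := by
          rw [hg', show b * (b * g * b⁻¹) * b⁻¹ = (b * b) * g * (b * b)⁻¹ by group, hA2 b hbA, one_mul, inv_one, mul_one]
        rcases Finset.mem_insert.mp ha with rfl | ha
        · left
          rw [show a * (g' * g) * a⁻¹ * (g' * g)⁻¹ = (a * g' * a⁻¹) * (a * g * a⁻¹) * g⁻¹ * g'⁻¹ by group, hbb, ← hg']
          exact (hAD a hbA g hgD).2.2 g hgD.1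
        · have hab : a * b = b * a := congrArg Subtype.val (hA.1.is_comm.comm (⟨a, hT a (Finset.mem_insert_of_mem ha)⟩ : A) ⟨b, hbA⟩)
          have h1 : a * g' * a⁻¹ = b * (a * g * a⁻¹) * b⁻¹ := by
            rw [hg', show a * (b * g * b⁻¹) * a⁻¹ = (a * b) * g * (a * b)⁻¹ by group, hab]; group
          rcases hg a ha with h | h
          · left
            rw [show a * (g' * g) * a⁻¹ * (g' * g)⁻¹ = (a * g' * a⁻¹) * ((a * g * a⁻¹) * g⁻¹) * g'⁻¹ by group, h1,
              show b * (a * g * a⁻¹) * b⁻¹ * (a * g * a⁻¹ * g⁻¹) * g'⁻¹ =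
                (b * (a * g * a⁻¹ * g⁻¹) * b⁻¹) * (g' * (a * g * a⁻¹ * g⁻¹) * g'⁻¹) by rw [hg']; group]
            exact mul_mem (hAW b hbA _ h) (hFW g' (hAD b hbA g hgD).1 _ h)
          · right
            rw [show a * (g' * g) * a⁻¹ * (g' * g) = (a * g' * a⁻¹) * (a * g * a⁻¹) * g' * g by group, h1,
              show b * (a * g * a⁻¹) * b⁻¹ * (a * g * a⁻¹) * g' * g =
                (b * (a * g * a⁻¹ * g) * b⁻¹) * (g'⁻¹ * (a * g * a⁻¹ * g) * g'⁻¹⁻¹) * (g'⁻¹ * (g⁻¹ * g' * g * g'⁻¹) * g'⁻¹⁻¹) by rw [hg']; group]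
            refine mul_mem (mul_mem (hAW b hbA _ h) (hFW g'⁻¹ (inv_mem (hAD b hbA g hgD).1) _ h))
              (hFW g'⁻¹ (inv_mem (hAD b hbA g hgD).1) _ ?_)
            have h9 := (hAD b hbA g hgD).2.2 g⁻¹ (inv_mem hgD.1)
            rw [inv_inv] at h9
            exact h9
    set W' := W ⊔ Subgroup.zpowers g with hW'
    have hgW' : g ∈ W' := Subgroup.mem_sup_right (Subgroup.mem_zpowers g)
    have hW'F : W' ≤ F := sup_le hWF (Subgroup.zpowers_le.mpr hgD.1)
    have hclosed : ∀ c : G, (∀ w ∈ W, c * w * c⁻¹ ∈ W) → c * g * c⁻¹ ∈ W' → ∀ u ∈ W', c * u * c⁻¹ ∈ W' := by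
      intro c hc hcg
      have hle : W' ≤ W'.comap (MulAut.conj c).toMonoidHom :=
        sup_le (fun w hw => Subgroup.mem_sup_left (hc w hw)) (Subgroup.zpowers_le.mpr hcg)
      exact fun u hu => hle hu
    refine hgW (hWmax (j := W') ⟨hW'F, ?_, fun f hf => hclosed f (hFW f hf) ?_, fun a ha => hclosed a (hAW a ha) ?_⟩ le_sup_left hgW')
    · have key : W' ≤ Subgroup.centralizer (W' : Set G) := by
        refine sup_le (fun w hw => ?_) (Subgroup.zpowers_le.mpr ?_)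
        · refine Subgroup.mem_centralizer_iff.mpr fun v hv => ?_
          have : W' ≤ Subgroup.centralizer ({w} : Set G) := sup_le
            (fun v hv => Subgroup.mem_centralizer_singleton_iff.mpr (hWc v hv w hw))
            (Subgroup.zpowers_le.mpr (Subgroup.mem_centralizer_singleton_iff.mpr (hgD.2.1 w hw)))
          exact Subgroup.mem_centralizer_singleton_iff.mp (this hv)
        · refine Subgroup.mem_centralizer_iff.mpr fun v hv => ?_
          have : W' ≤ Subgroup.centralizer ({g} : Set G) := sup_le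
            (fun v hv => Subgroup.mem_centralizer_singleton_iff.mpr (hgD.2.1 v hv).symm)
            (Subgroup.zpowers_le.mpr (Subgroup.mem_centralizer_singleton_iff.mpr rfl))
          exact Subgroup.mem_centralizer_singleton_iff.mp (this hv)
      exact fun u hu v hv => Subgroup.mem_centralizer_iff.mp (key hv) u hu
    · have := mul_mem (Subgroup.mem_sup_left (T := Subgroup.zpowers g) (hgD.2.2 f hf)) hgW'
      simpa using this
    · rcases hg a ha with h | h
      · have := mul_mem (Subgroup.mem_sup_left (T := Subgroup.zpowers g) h) hgW'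
        simpa using this
      · have := mul_mem (Subgroup.mem_sup_left (T := Subgroup.zpowers g) h) (inv_mem hgW')
        simpa using this
  -- faithful eigen elements
  have heig : ∀ a ∈ A, a ≠ 1 → ∃ x ∈ W, (∀ b ∈ A, b * x * b⁻¹ = x ∨ b * x * b⁻¹ = x⁻¹) ∧ a * x * a⁻¹ ≠ x := by
    intro a ha ha1
    by_contra hcon
    push Not at hcon
    have hW : ∀ w ∈ W, a * w * a⁻¹ = w := by
      intro w hw
      have hle : W ≤ Subgroup.centralizer ({a} : Set G) := by
        refine (eig_gen W A hWodd hWc hA hAW (Set.toFinite (A : Set G)).toFinset (fun t ht => by simpa using ht)).trans ?_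
        rw [Subgroup.closure_le]
        rintro x ⟨hx, hxe⟩
        exact Subgroup.mem_centralizer_singleton_iff.mpr
          (mul_inv_eq_iff_eq_mul.mp (hcon x hx fun b hb => hxe b (by simpa using hb))).symm
      rw [← Subgroup.mem_centralizer_singleton_iff.mp (hle hw), mul_inv_cancel_right]
    have h1 := centralizes F W hFodd a (hA2 a ha) (hAF a ha) hWF hFW hW hWC
    have h2 := centralizes L F hLodd a (hA2 a ha) (hconjL a ha) hFL hLF h1 hCF
    exact ha1 (Subgroup.mem_bot.mp (hfaith ▸ ⟨ha, Subgroup.mem_centralizer_iff.mpr fun l hl => (mul_inv_eq_iff_eq_mul.mp (h2 l hl)).symm⟩))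
  obtain ⟨a, x, hax, hoff, hgen⟩ := pairs W A hWodd hA heig d A le_rfl hAd
  refine ⟨fun i => Subgroup.zpowers (a i), fun i => Subgroup.zpowers (x i), fun i => orderOf (x i), fun i => ?_, ?_, ?_⟩
  · obtain ⟨haA, hxW, hinv, hx1, -⟩ := hax i
    have ha1 : a i ≠ 1 := by
      intro e
      rw [e, one_mul, inv_one, mul_one] at hinv
      exact hx1 (sq_eq_one_odd hWodd hxW (by nth_rw 2 [hinv]; rw [mul_inv_cancel]))
    have hoa : orderOf (a i) = 2 := orderOf_eq_prime (hA.2 _ haA) ha1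
    have hno : Odd (orderOf (x i)) := Odd.of_dvd_nat hWodd (Subgroup.orderOf_dvd_natCard W hxW)
    have h3 : 3 ≤ orderOf (x i) := by
      have h4 : orderOf (x i) ≠ 1 := mt orderOf_eq_one_iff.mp hx1
      have := orderOf_pos (x i)
      obtain ⟨j, hj⟩ := hno
      omega
    refine ⟨Subgroup.zpowers_le.mpr haA, by rw [Nat.card_zpowers, hoa], Subgroup.zpowers_le.mpr (hFL (hWF hxW)), hno, h3, ?_⟩
    set S := Subgroup.zpowers (a i) ⊔ Subgroup.zpowers (x i) with hS
    have hnorm : Subgroup.zpowers (a i) ≤ Subgroup.normalizer (Subgroup.zpowers (x i) : Set G) := by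
      refine CfsgLib.GroupB.Coprime.le_normalizer_of_conj_mem fun k hk u hu => ?_
      obtain ⟨n, rfl⟩ := Subgroup.mem_zpowers_iff.mp hu
      obtain ⟨m, rfl⟩ := Subgroup.mem_zpowers_iff.mp hk
      rcases (hax i).2.2.2.2 ((a i) ^ m) (zpow_mem haA m) with h | h
      · rw [← conj_zpow, h]; exact zpow_mem (Subgroup.mem_zpowers _) n
      · rw [← conj_zpow, h]; exact zpow_mem (inv_mem (Subgroup.mem_zpowers _)) n
    have hdis : Subgroup.zpowers (x i) ⊓ Subgroup.zpowers (a i) = ⊥ := CfsgLib.GroupB.Coprime.inf_eq_bot_of_coprime (by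
      rw [Nat.card_zpowers, Nat.card_zpowers, hoa]; exact Nat.coprime_two_right.mpr hno)
    haveI : NeZero (orderOf (x i)) := ⟨(orderOf_pos _).ne'⟩
    refine CfsgLib.MaximalClass.dihedral_iso (x := (⟨a i, Subgroup.mem_sup_left (Subgroup.mem_zpowers _)⟩ : S))
      (a := ⟨x i, Subgroup.mem_sup_right (Subgroup.mem_zpowers _)⟩) (Subtype.ext (hA2 _ haA)) (Subgroup.orderOf_mk _ _) ?_ ?_ (Subtype.ext hinv)
    · rw [hS, sup_comm, CfsgLib.GroupB.Coprime.card_sup_eq hnorm hdis, Nat.card_zpowers, Nat.card_zpowers, hoa, mul_comm]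
    · intro h
      obtain ⟨n, hn⟩ := Subgroup.mem_zpowers_iff.mp h
      have h5 : (x i) ^ n = a i := congrArg Subtype.val hn
      have : a i ∈ Subgroup.zpowers (x i) ⊓ Subgroup.zpowers (a i) := ⟨h5 ▸ zpow_mem (Subgroup.mem_zpowers _) n, Subgroup.mem_zpowers _⟩
      rw [hdis, Subgroup.mem_bot] at this
      exact ha1 this
  · refine le_antisymm (iSup_le fun i => Subgroup.zpowers_le.mpr (hax i).1) (hgen.trans ?_)
    rw [Subgroup.closure_le]
    rintro _ ⟨i, rfl⟩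
    exact Subgroup.mem_iSup_of_mem i (Subgroup.mem_zpowers (a i))
  · intro i j hij u hu v hv
    have key : ∀ (b : Fin d) (c : G), (c * a b = a b * c) → (c * x b = x b * c) →
        Subgroup.zpowers (a b) ⊔ Subgroup.zpowers (x b) ≤ Subgroup.centralizer ({c} : Set G) := fun b c h1 h2 =>
      sup_le (Subgroup.zpowers_le.mpr (Subgroup.mem_centralizer_singleton_iff.mpr h1.symm))
        (Subgroup.zpowers_le.mpr (Subgroup.mem_centralizer_singleton_iff.mpr h2.symm))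
    have hcomm : Subgroup.zpowers (a i) ⊔ Subgroup.zpowers (x i) ≤ Subgroup.centralizer ({v} : Set G) := by
      refine key i v ?_ ?_
      · exact Subgroup.mem_centralizer_singleton_iff.mp (key j (a i) (congrArg Subtype.val (hA.1.is_comm.comm (⟨a i, (hax i).1⟩ : A) ⟨a j, (hax j).1⟩))
          (mul_inv_eq_iff_eq_mul.mp (hoff i j hij)) hv)
      · exact Subgroup.mem_centralizer_singleton_iff.mp (key j (x i) (mul_inv_eq_iff_eq_mul.mp (hoff j i hij.symm)).symm
          (hWc _ (hax i).2.1 _ (hax j).2.1) hv)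
    exact Subgroup.mem_centralizer_singleton_iff.mp (hcomm hu)

end Cfsg.Agent.S1349
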