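import Cfsg.Agent.Lib.OddGL2
import Cfsg.Agent.S0093
import Cfsg.Agent.S0096
import Cfsg.Agent.S0120
import Cfsg.Agent.S0121
import Cfsg.Agent.Lib.GroupB.AutPGroup
import Cfsg.Prelude.Def_CaseTheorems
-- Template for statement S1449 (row 1449; see /opt/grader/pristine/manifest.json for weights).
-- Copy to Cfsg/Agent/S1449.lean and replace the sorry. The statement below is byte-identical to the frozen
-- statement Cfsg.CfsgFrozen.S1449 (Cfsg/Statements/S1449.lean; the theorem Cfsg.odd_automorphism_group_of_rank_two_p_group_derived_p_group);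
-- the grader kernel-checks Cfsg.Agent.S1449.result against that frozen type. Keep the theorem IN THIS FILE
-- (a `result` declared elsewhere and merely imported here is not credited); helpers may live anywhere
-- under Cfsg/Agent/.
-- import your own Cfsg.Agent.* helpers here

set_option autoImplicit false
open Cfsg

namespace Cfsg.Agent.S1449

theorem exists_basis_two {p : ℕ} [Fact p.Prime] (V : Type*) [AddCommGroup V] [Module (ZMod p) V] [Finite V]
    (hc : Nat.card V = p ^ 2) : Nonempty (Module.Basis (Fin 2) (ZMod p) V) := by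
  haveI : Module.Finite (ZMod p) V := Module.Finite.of_finite
  have h0 := hc
  rw [Module.natCard_eq_pow_finrank (K := ZMod p), Nat.card_zmod] at h0
  exact ⟨Module.finBasisOfFinrankEq (ZMod p) V (Nat.pow_right_injective (Fact.out : p.Prime).two_le h0)⟩

theorem exists_toGL {p : ℕ} [Fact p.Prime] {W : Type*} [CommGroup W] [Finite W] (hexp : ∀ w : W, w ^ p = 1)
    (hc : Nat.card W = p ^ 2) : ∃ f : MulAut W →* GL (Fin 2) (ZMod p), Function.Injective f := by
  letI : Module (ZMod p) (Additive W) := AddCommGroup.zmodModule (fun x => hexp (Additive.toMul x))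
  obtain ⟨b⟩ := exists_basis_two (p := p) (Additive W) hc
  let lin : MulAut W → (Additive W →ₗ[ZMod p] Additive W) := fun φ => (MonoidHom.toAdditive φ.toMonoidHom).toZModLinearMap p
  let M : MulAut W →* Matrix (Fin 2) (Fin 2) (ZMod p) :=
    { toFun := fun φ => LinearMap.toMatrix b b (lin φ)
      map_one' := by
        rw [show lin 1 = LinearMap.id from LinearMap.ext fun x => rfl, LinearMap.toMatrix_id]
      map_mul' := fun φ ψ => by
        rw [← LinearMap.toMatrix_comp b b b, show lin (φ * ψ) = (lin φ).comp (lin ψ) from LinearMap.ext fun x => rfl] }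
  refine ⟨M.toHomUnits, fun φ ψ e => ?_⟩
  have h0 : lin φ = lin ψ := by
    have h1 : LinearMap.toMatrix b b (lin φ) = LinearMap.toMatrix b b (lin ψ) := congrArg Units.val e
    exact EmbeddingLike.injective (LinearMap.toMatrix b b) h1
  exact MulEquiv.ext fun x => congrArg Additive.toMul (LinearMap.congr_fun h0 (Additive.ofMul x))

/-- Let G be a finite group, p an odd prime, R a p-subgroup with no elementary abelian subgroup of order p ^ 3, and A a solvable subgroup of odd order normalizing R with A ∩ C_G(R) = 1. Then the derived subgroup [A, A] is a p-group. -/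
theorem result {G : Type*} [Group G] [Finite G] (p : ℕ) [Fact p.Prime] (hp : p ≠ 2) (R A : Subgroup G) (hR : IsPGroup p R) (hr : Cfsg.PRankLE p 2 R)
    (hA : (A ≤ Subgroup.normalizer (R : Set G))) (hAs : Group.IsSolvable A) (hAodd : Odd (Nat.card A)) (hfaith : A ⊓ Subgroup.centralizer (R : Set G) = ⊥) :
    IsPGroup p ↥⁅A, A⁆ := by
  have hr' := hr
  classical
  have hpp : p.Prime := Fact.out
  -- a characteristic subgroup of exponent `p` detecting automorphisms
  obtain ⟨H, hHc, h1, h2, h3⟩ := Cfsg.Agent.S0093.result hR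
  haveI := hHc
  set K := Subgroup.closure {x : H | x ^ p = 1} with hK
  have hHp : IsPGroup p H := hR.to_subgroup H
  have hcl : ⁅commutator H, (⊤ : Subgroup H)⁆ = ⊥ := by
    rw [Subgroup.commutator_eq_bot_iff_le_centralizer, commutator_def, Subgroup.commutator_le]
    intro u _ v _
    refine Subgroup.mem_centralizer_iff.mpr fun w _ => Subtype.ext ?_
    exact Subgroup.mem_centralizer_iff.mp (h2 (Subgroup.commutator_mem_commutator u.2 (Subgroup.mem_top (v : R)))).2 w w.2
  have hKexp : ∀ x ∈ K, x ^ p = 1 := fun x hx => Cfsg.Agent.S0096.result hp hHp hcl x hx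
  have hKmem : ∀ x : H, x ∈ K ↔ x ^ p = 1 := fun x => ⟨hKexp x, fun hx => Subgroup.subset_closure hx⟩
  have hKp : IsPGroup p K := hHp.to_subgroup K
  have hKc : (K.map H.subtype).Characteristic := by
    rw [Subgroup.characteristic_iff_map_le]
    rintro φ _ ⟨_, ⟨x, hx, rfl⟩, rfl⟩
    have hxH : φ (x : R) ∈ H := Subgroup.characteristic_iff_map_le.mp hHc φ ⟨x, x.2, rfl⟩
    exact ⟨⟨_, hxH⟩, (hKmem _).mpr (Subtype.ext (by
      show φ (x : R) ^ p = 1
      rw [← map_pow, show (x : R) ^ p = 1 from congrArg Subtype.val ((hKmem x).mp hx), map_one])), rfl⟩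
  -- abelian subgroups of `K` have order at most `p ^ 2`
  have habK : ∀ A : Subgroup K, IsMulCommutative A → Nat.card A ≤ p ^ 2 := by
    intro A hA
    have := hr' (((A.map K.subtype).map H.subtype)) ⟨⟨?_⟩⟩ ?_
    · rwa [Subgroup.card_map_of_injective H.subtype_injective, Subgroup.card_map_of_injective K.subtype_injective] at this
    · rintro ⟨_, _, ⟨u, hu, rfl⟩, rfl⟩ ⟨_, _, ⟨v, hv, rfl⟩, rfl⟩
      exact Subtype.ext (congrArg (fun w : A => ((w : K) : R)) (hA.is_comm.comm ⟨u, hu⟩ ⟨v, hv⟩))
    · rintro _ ⟨_, ⟨u, hu, rfl⟩, rfl⟩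
      rw [← map_pow, ← map_pow, show u ^ p = 1 from Subtype.ext (hKexp u u.2), map_one, map_one]
  obtain ⟨r, hr⟩ := hKp.index (frattini K)
  have hr2 : r ≤ 2 := by
    by_cases hab : ∀ u v : K, u * v = v * u
    · have := habK ⊤ ⟨⟨fun u v => Subtype.ext (hab u v)⟩⟩
      rw [Subgroup.card_top] at this
      have h4 := Nat.le_of_dvd Nat.card_pos (Subgroup.index_dvd_card (frattini K))
      rw [hr] at h4
      exact (Nat.pow_le_pow_iff_right hpp.one_lt).mp (h4.trans this)
    push Not at hab
    obtain ⟨u, v, huv⟩ := hab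
    -- commutators are central
    have hcen : ∀ s t : K, s * t * s⁻¹ * t⁻¹ ∈ Subgroup.center K := fun s t => by
      refine Subgroup.mem_center_iff.mpr fun w => Subtype.ext ?_
      have := Subgroup.mem_centralizer_iff.mp
        (Subgroup.commutator_eq_bot_iff_le_centralizer.mp hcl
          (Subgroup.commutator_mem_commutator (Subgroup.mem_top (s : H)) (Subgroup.mem_top (t : H)))) w trivial
      simpa [commutatorElement_def] using this
    haveI : Nontrivial K := ⟨u, v, fun e => huv (by rw [e])⟩
    obtain ⟨kz, hkz0, hkz⟩ := (hKp.to_subgroup (Subgroup.center K)).nontrivial_iff_card.mp hKp.center_nontrivial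
    -- centralizers of non-central elements have order `p ^ 2`
    set Z := Subgroup.center K
    have hbig : ∀ s : K, s ∉ Z → Nat.card ↥(Z ⊔ Subgroup.zpowers s) = p ^ 2 ∧ Subgroup.centralizer ({s} : Set K) ≤ Z ⊔ Subgroup.zpowers s := by
      intro s hs
      have hab' : ∀ t : K, t * s = s * t → IsMulCommutative ↥(Z ⊔ Subgroup.zpowers s ⊔ Subgroup.zpowers t) := by
        intro t hts
        have hle : Z ⊔ Subgroup.zpowers s ⊔ Subgroup.zpowers t ≤
            Subgroup.centralizer ((Z ⊔ Subgroup.zpowers s ⊔ Subgroup.zpowers t : Subgroup K) : Set K) := by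
          refine sup_le (sup_le ((Subgroup.center_le_centralizer _)) (Subgroup.zpowers_le.mpr ?_)) (Subgroup.zpowers_le.mpr ?_)
          · refine Subgroup.mem_centralizer_iff.mpr fun w hw => ?_
            have : Z ⊔ Subgroup.zpowers s ⊔ Subgroup.zpowers t ≤ Subgroup.centralizer ({s} : Set K) :=
              sup_le (sup_le (Subgroup.center_le_centralizer _) (Subgroup.zpowers_le.mpr (Subgroup.mem_centralizer_singleton_iff.mpr rfl)))
                (Subgroup.zpowers_le.mpr (Subgroup.mem_centralizer_singleton_iff.mpr hts))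
            exact Subgroup.mem_centralizer_singleton_iff.mp (this hw)
          · refine Subgroup.mem_centralizer_iff.mpr fun w hw => ?_
            have : Z ⊔ Subgroup.zpowers s ⊔ Subgroup.zpowers t ≤ Subgroup.centralizer ({t} : Set K) :=
              sup_le (sup_le (Subgroup.center_le_centralizer _) (Subgroup.zpowers_le.mpr (Subgroup.mem_centralizer_singleton_iff.mpr hts.symm)))
                (Subgroup.zpowers_le.mpr (Subgroup.mem_centralizer_singleton_iff.mpr rfl))
            exact Subgroup.mem_centralizer_singleton_iff.mp (this hw)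
        exact ⟨⟨fun x y => Subtype.ext (Subgroup.mem_centralizer_iff.mp (hle y.2) x x.2)⟩⟩
      have hge : p ^ 2 ≤ Nat.card ↥(Z ⊔ Subgroup.zpowers s) := by
        obtain ⟨k, hk⟩ := IsPGroup.iff_card.mp (hKp.to_subgroup (Z ⊔ Subgroup.zpowers s))
        rw [hk]
        refine Nat.pow_le_pow_right hpp.pos ?_
        by_contra hk2
        have h5 : Nat.card ↥(Z ⊔ Subgroup.zpowers s) ≤ Nat.card Z := by
          rw [hk, hkz]; exact Nat.pow_le_pow_right hpp.pos (by omega)
        exact hs ((Subgroup.eq_of_le_of_card_ge le_sup_left h5).symm ▸ Subgroup.mem_sup_right (Subgroup.mem_zpowers s))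
      refine ⟨le_antisymm ?_ hge, fun t ht => ?_⟩
      · refine le_trans (Subgroup.card_le_of_le le_sup_left) (habK (Z ⊔ Subgroup.zpowers s ⊔ Subgroup.zpowers s) (hab' s rfl))
      · have h6 := habK _ (hab' t (Subgroup.mem_centralizer_singleton_iff.mp ht))
        exact (Subgroup.eq_of_le_of_card_ge le_sup_left (h6.trans hge)).symm ▸ Subgroup.mem_sup_right (Subgroup.mem_zpowers t)
    have huZ : u ∉ Z := fun hu => huv (Subgroup.mem_center_iff.mp hu v).symm
    have hvu : v ∉ Z ⊔ Subgroup.zpowers u := by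
      intro hv
      have : Z ⊔ Subgroup.zpowers u ≤ Subgroup.centralizer ({u} : Set K) :=
        sup_le (Subgroup.center_le_centralizer _) (Subgroup.zpowers_le.mpr (Subgroup.mem_centralizer_singleton_iff.mpr rfl))
      exact huv (Subgroup.mem_centralizer_singleton_iff.mp (this hv)).symm
    obtain ⟨hu2, huC⟩ := hbig u huZ
    have hkz1 : kz = 1 := by
      have hlt : Nat.card Z < p ^ 2 := hu2 ▸ lt_of_le_of_ne (Subgroup.card_le_of_le le_sup_left) (fun e =>
        huZ ((Subgroup.eq_of_le_of_card_ge le_sup_left e.ge).symm ▸ Subgroup.mem_sup_right (Subgroup.mem_zpowers u)))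
      rw [hkz] at hlt
      have := (Nat.pow_lt_pow_iff_right hpp.one_lt).mp hlt
      omega
    -- the centralizer of `u` has index at most `p`
    have hidx : (Subgroup.centralizer ({u} : Set K)).index ≤ p := by
      have hcard : Nat.card Z = p := by rw [hkz, hkz1, pow_one]
      rw [← hcard, Subgroup.index]
      refine Nat.card_le_card_of_injective (Quotient.lift (fun x : K => (⟨x * u * x⁻¹ * u⁻¹, hcen x u⟩ : Z)) ?_) ?_
      · intro a b hab
        have h := Subgroup.mem_centralizer_singleton_iff.mp (show a⁻¹ * b ∈ Subgroup.centralizer ({u} : Set K) from QuotientGroup.leftRel_apply.mp hab)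
        refine Subtype.ext ?_
        show a * u * a⁻¹ * u⁻¹ = b * u * b⁻¹ * u⁻¹
        calc a * u * a⁻¹ * u⁻¹ = a * (u * (a⁻¹ * b)) * b⁻¹ * u⁻¹ := by group
          _ = a * (a⁻¹ * b * u) * b⁻¹ * u⁻¹ := by rw [h]
          _ = b * u * b⁻¹ * u⁻¹ := by group
      · rintro ⟨a⟩ ⟨b⟩ hab
        have h2 : a * u * a⁻¹ = b * u * b⁻¹ := mul_right_cancel (congrArg Subtype.val hab : a * u * a⁻¹ * u⁻¹ = b * u * b⁻¹ * u⁻¹)
        refine Quotient.sound (QuotientGroup.leftRel_apply.mpr (Subgroup.mem_centralizer_singleton_iff.mpr ?_))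
        calc a⁻¹ * b * u = a⁻¹ * (b * u * b⁻¹) * b := by group
          _ = a⁻¹ * (a * u * a⁻¹) * b := by rw [h2]
          _ = u * (a⁻¹ * b) := by group
    have hK3 : Nat.card K ≤ p ^ 3 := by
      rw [← (Subgroup.centralizer ({u} : Set K)).card_mul_index, pow_succ p 2]
      exact Nat.mul_le_mul ((Subgroup.card_le_of_le huC).trans hu2.le) hidx
    -- the Frattini subgroup is non-trivial
    by_contra hr3
    have h4 := (frattini K).card_mul_index
    rw [hr] at h4
    have hF1 : Nat.card (frattini K) = 1 := by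
      have h5 : p ^ 3 ≤ p ^ r := Nat.pow_le_pow_right hpp.pos (by omega)
      have := Nat.card_pos (α := frattini K)
      nlinarith [pow_pos hpp.pos 3]
    have h7 := ((Cfsg.Agent.S0012.result p hKp).1) (Subgroup.commutator_mem_commutator (Subgroup.mem_top u) (Subgroup.mem_top v))
    rw [Subgroup.eq_bot_of_card_eq _ hF1, Subgroup.mem_bot] at h7
    exact huv (commutatorElement_eq_one_iff_mul_comm.mp h7)
  -- the action
  let ι : A →* Subgroup.normalizer (R : Set G) := Subgroup.inclusion hA
  let ρ : A →* MulAut R := R.normalizerMonoidHom.comp ι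
  have hρval : ∀ (a : A) (x : R), ((ρ a x : R) : G) = a * x * (a : G)⁻¹ := fun a x => rfl
  have hρinj : Function.Injective ρ := by
    rw [← MonoidHom.ker_eq_bot_iff, eq_bot_iff]
    intro a ha
    refine Subgroup.mem_bot.mpr (Subtype.ext (Subgroup.mem_bot.mp (hfaith ▸ ⟨a.2, ?_⟩)))
    refine Subgroup.mem_centralizer_iff.mpr fun x hx => ?_
    have h0 := hρval a ⟨x, hx⟩
    rw [MonoidHom.mem_ker.mp ha] at h0
    exact (mul_inv_eq_iff_eq_mul.mp h0.symm).symm
  -- restriction to `K`
  let K' := K.map H.subtype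
  have hmemK' : ∀ (φ : MulAut R) (x : R), x ∈ K' → φ x ∈ K' := fun φ x hx =>
    Subgroup.characteristic_iff_map_le.mp hKc φ ⟨x, hx, rfl⟩
  let eK : K ≃* K' := K.equivMapOfInjective H.subtype H.subtype_injective
  let res : MulAut R →* MulAut K :=
    { toFun := fun φ =>
        { toFun := fun x => eK.symm ⟨φ (eK x : R), hmemK' φ _ (eK x).2⟩
          invFun := fun x => eK.symm ⟨φ.symm (eK x : R), hmemK' φ.symm _ (eK x).2⟩
          left_inv := fun x => by simp
          right_inv := fun x => by simp
          map_mul' := fun x y => by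
            rw [← map_mul]
            congr 1
            exact Subtype.ext (by simp) }
      map_one' := MulEquiv.ext fun x => by simp
      map_mul' := fun φ ψ => MulEquiv.ext fun x => by simp }
  have hresval : ∀ (φ : MulAut R) (x : K), (((res φ x : K) : H) : R) = φ ((x : H) : R) := by
    intro φ x
    have h0 : ((eK (res φ x) : K') : R) = φ (eK x : R) := by
      show ((eK (eK.symm _) : K') : R) = _
      rw [MulEquiv.apply_symm_apply]
    exact h0
  have hres : ∀ φ : MulAut R, (orderOf φ).Coprime p → res φ = 1 → φ = 1 := by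
    intro φ hφ e
    refine Cfsg.Agent.S0121.result hR H hHc h1 h2 h3 φ hφ fun x hx => ?_
    have hmapH : H.map φ.toMonoidHom = H := Subgroup.characteristic_iff_map_eq.mp hHc φ
    let φH : MulAut H := (φ.subgroupMap H).trans (MulEquiv.subgroupCongr hmapH)
    have hpow : ∀ (n : ℕ) (y : H), ((((φH ^ n : MulAut H)) y : H) : R) = (φ ^ n : MulAut R) y := by
      intro n
      induction n with
      | zero => intro y; rfl
      | succ n ih => intro y; rw [pow_succ', pow_succ', MulAut.mul_apply, MulAut.mul_apply, ← ih]; rfl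
    have hco : (orderOf φH).Coprime p := hφ.coprime_dvd_left (orderOf_dvd_of_pow_eq_one
      (MulEquiv.ext fun y => Subtype.ext (by rw [hpow, pow_orderOf_eq_one]; rfl)))
    have h0 := Cfsg.Agent.S0120.result hp hHp φH hco fun y hy => Subtype.ext (by
      show φ (y : R) = y
      rw [← hresval φ ⟨y, (hKmem y).mpr hy⟩, e]; rfl)
    exact congrArg (fun f : MulAut H => ((f ⟨x, hx⟩ : H) : R)) h0
  -- the Frattini quotient
  set Φ := frattini K with hΦ
  haveI : Φ.Normal := inferInstance
  let q : MulAut K →* MulAut (K ⧸ Φ) :=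
    { toFun := fun φ => QuotientGroup.congr Φ Φ φ (Subgroup.characteristic_iff_map_eq.mp inferInstance φ)
      map_one' := MulEquiv.ext fun x => by induction x using QuotientGroup.induction_on; rfl
      map_mul' := fun φ ψ => MulEquiv.ext fun x => by induction x using QuotientGroup.induction_on; rfl }
  let τ : A →* MulAut (K ⧸ Φ) := q.comp (res.comp ρ)
  -- commutators act on the quotient with order dividing `p`
  obtain ⟨hcomm, hpowΦ⟩ := Cfsg.Agent.S0012.result p hKp
  have hVab : ∀ x y : K ⧸ Φ, x * y = y * x := by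
    rintro ⟨x⟩ ⟨y⟩
    refine QuotientGroup.eq.mpr (hcomm ?_)
    have h0 := Subgroup.commutator_mem_commutator (Subgroup.mem_top y⁻¹) (Subgroup.mem_top x⁻¹)
    rw [commutator_def]
    simpa [commutatorElement_def, mul_assoc] using h0
  have hτ : ∀ c ∈ commutator A, τ c ^ p = 1 := by
    intro c hc
    have hcard : Nat.card (K ⧸ Φ) = p ^ r := hr
    by_cases hr1 : r ≤ 1
    · haveI : IsCyclic (K ⧸ Φ) := by
        rcases (show r = 0 ∨ r = 1 by omega) with rfl | rfl
        · haveI : Subsingleton (K ⧸ Φ) := (Nat.card_eq_one_iff_unique.mp (by rw [hcard, pow_zero])).1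
          infer_instance
        · exact isCyclic_of_prime_card (p := p) (by rw [hcard, pow_one])
      have hcA : ∀ a b : MulAut (K ⧸ Φ), a * b = b * a := by
        intro a b
        obtain ⟨g, hg⟩ := IsCyclic.exists_generator (α := K ⧸ Φ)
        refine MulEquiv.ext fun x => ?_
        obtain ⟨i, rfl⟩ := Subgroup.mem_zpowers_iff.mp (hg x)
        obtain ⟨j, hj⟩ := Subgroup.mem_zpowers_iff.mp (hg (a g))
        obtain ⟨k, hk⟩ := Subgroup.mem_zpowers_iff.mp (hg (b g))
        rw [MulAut.mul_apply, MulAut.mul_apply, map_zpow, map_zpow, map_zpow, map_zpow, ← hk, map_zpow, ← hj, map_zpow, ← hk]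
        simp only [← zpow_mul]
        congr 1; ring
      have h0 : commutator A ≤ τ.ker := by
        rw [commutator_def, Subgroup.commutator_le]
        intro u _ v _
        rw [MonoidHom.mem_ker, map_commutatorElement, commutatorElement_eq_one_iff_mul_comm]
        exact hcA _ _
      rw [MonoidHom.mem_ker.mp (h0 hc), one_pow]
    obtain rfl : r = 2 := by omega
    letI : CommGroup (K ⧸ Φ) := { (inferInstance : Group (K ⧸ Φ)) with mul_comm := hVab }
    obtain ⟨toM, htoM⟩ := exists_toGL (p := p) (W := K ⧸ Φ) (fun x => by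
      obtain ⟨y, hy⟩ := QuotientGroup.mk_surjective x
      rw [← hy, ← QuotientGroup.mk_pow]; exact (QuotientGroup.eq_one_iff _).mpr (hpowΦ y)) hcard
    apply htoM
    rw [map_pow, map_one]
    set f := toM.comp τ
    haveI : Group.IsSolvable f.range := Group.isSolvable_of_surjective (f := f.rangeRestrict) f.rangeRestrict_surjective
    refine CfsgLib.OddGL2.gl2_derived f.range hp (Odd.of_dvd_nat hAodd (Subgroup.card_range_dvd f)) (f c) ?_
    have h0 : (commutator A).map f = ⁅f.range, f.range⁆ := by
      rw [commutator_def, Subgroup.map_commutator, ← MonoidHom.range_eq_map]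
    exact h0 ▸ Subgroup.mem_map_of_mem f hc
  -- kernel of `q` consists of `p`-elements
  intro z
  have hz : (⟨(z : G), Subgroup.commutator_le_self A z.2⟩ : A) ∈ commutator A := by
    have h0 : (commutator A).map A.subtype = ⁅A, A⁆ := by
      rw [commutator_def, Subgroup.map_commutator, ← MonoidHom.range_eq_map, Subgroup.range_subtype]
    obtain ⟨w, hw, hwz⟩ := h0.ge z.2
    have : (⟨(z : G), Subgroup.commutator_le_self A z.2⟩ : A) = w := Subtype.ext hwz.symm
    rwa [this]
  set c : A := ⟨(z : G), Subgroup.commutator_le_self A z.2⟩ with hcdef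
  set φ := res (ρ c) with hφ
  have hτc := hτ c hz
  obtain ⟨⟨bb, hbb⟩, -⟩ := CfsgLib.GroupB.AutPGroup.card_aut_dvd hKp hr
  have hk : (φ ^ p) ^ (Nat.card Φ ^ r) = 1 := by
    have hmem : φ ^ p ∈ q.ker := by rw [MonoidHom.mem_ker, map_pow]; exact hτc
    have hd := CfsgLib.GroupB.AutPGroup.card_dvd_of_trivial hKp hbb q.ker (fun α hα x => by
      have h0 : ((α x : K) : K ⧸ Φ) = (x : K ⧸ Φ) := by
        exact congrArg (fun g : MulAut (K ⧸ Φ) => g (x : K ⧸ Φ)) (MonoidHom.mem_ker.mp hα)
      have h5 := QuotientGroup.eq.mp h0.symm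
      have h6 := (inferInstance : Φ.Normal).conj_mem _ h5 x
      simpa [mul_assoc] using h6)
    have h5 : orderOf (φ ^ p) ∣ Nat.card Φ ^ r := by
      have h6 := (orderOf_dvd_natCard (⟨φ ^ p, hmem⟩ : q.ker)).trans hd
      rwa [Subgroup.orderOf_mk] at h6
    exact orderOf_dvd_iff_pow_eq_one.mp h5
  obtain ⟨m, hm⟩ := IsPGroup.iff_card.mp (hKp.to_subgroup Φ)
  rw [← pow_mul, hm, ← pow_mul, ← pow_succ'] at hk
  set n := m * r + 1
  obtain ⟨e, d, hd, hed⟩ := Nat.exists_eq_pow_mul_and_not_dvd (orderOf_pos (ρ c)).ne' p hpp.ne_one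
  have hone : ρ c ^ (p ^ (n + e)) = 1 := by
    apply hres
    · refine Nat.Coprime.coprime_dvd_left (orderOf_dvd_of_pow_eq_one (n := d) ?_) ((hpp.coprime_iff_not_dvd.mpr hd).symm)
      rw [← pow_mul, pow_add, mul_assoc, ← hed, pow_mul', pow_orderOf_eq_one, one_pow]
    · rw [map_pow, ← hφ, pow_add, pow_mul, hk, one_pow]
  refine ⟨n + e, Subtype.ext ?_⟩
  have := congrArg Subtype.val (hρinj (hone.trans (map_one ρ).symm ▸ (map_pow ρ c _) : ρ (c ^ (p ^ (n + e))) = ρ 1))
  simpa using this

end Cfsg.Agent.S1449
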