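import Cfsg.Agent.S1449
import Cfsg.Agent.S0640
import Cfsg.Agent.Lib.OddQuad
import Cfsg.Agent.Lib.PConstrained
-- Template for statement S1450 (row 1450; see /opt/grader/pristine/manifest.json for weights).
-- Copy to Cfsg/Agent/S1450.lean and replace the sorry. The statement below is byte-identical to the frozen
-- statement Cfsg.CfsgFrozen.S1450 (Cfsg/Statements/S1450.lean; the theorem Cfsg.odd_solvable_p_rank_two_p_structure);
-- the grader kernel-checks Cfsg.Agent.S1450.result against that frozen type. Keep the theorem IN THIS FILE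
-- (a `result` declared elsewhere and merely imported here is not credited); helpers may live anywhere
-- under Cfsg/Agent/.
-- import your own Cfsg.Agent.* helpers here

set_option autoImplicit false
open Cfsg

namespace Cfsg.Agent.S1450

open scoped commutatorElement in
/-- Commutators of an odd solvable group acting on a rank two `p`-group act as `p`-elements. -/
theorem comm_pElement {X : Type*} [Group X] [Finite X] [Group.IsSolvable X] (hXodd : Odd (Nat.card X)) {p : ℕ} [Fact p.Prime]
    (hp : p ≠ 2) {R : Type*} [Group R] [Finite R] (hR : IsPGroup p R) (hr : Cfsg.PRankLE p 2 R) (φ : X →* MulAut R) :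
    ∀ c ∈ commutator X, ∃ n : ℕ, φ (c ^ (p ^ n)) = 1 := by
  intro c hc
  let G₁ := SemidirectProduct R φ.range φ.range.subtype
  haveI : Finite G₁ := Finite.of_equiv _ SemidirectProduct.equivProd.symm
  let il : R →* G₁ := SemidirectProduct.inl
  let ir : φ.range →* G₁ := SemidirectProduct.inr
  haveI : Group.IsSolvable φ.range := Group.isSolvable_of_surjective (f := φ.rangeRestrict) φ.rangeRestrict_surjective
  haveI : Group.IsSolvable ir.range := Group.isSolvable_of_surjective (f := ir.rangeRestrict) ir.rangeRestrict_surjective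
  have hodd' : Odd (Nat.card ir.range) :=
    Odd.of_dvd_nat hXodd ((Subgroup.card_range_dvd ir).trans (Subgroup.card_range_dvd φ))
  have hR' : IsPGroup p il.range := hR.of_surjective il.rangeRestrict il.rangeRestrict_surjective
  let e : R ≃* il.range := MulEquiv.ofBijective il.rangeRestrict
    ⟨(fun a b h => SemidirectProduct.inl_injective (congrArg Subtype.val h)), il.rangeRestrict_surjective⟩
  have hr' : Cfsg.PRankLE p 2 il.range := by
    intro A hA hAe
    have h0 := hr (A.map e.symm.toMonoidHom) ⟨⟨fun a b => ?_⟩⟩ ?_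
    · rwa [Subgroup.card_map_of_injective (f := e.symm.toMonoidHom) e.symm.injective] at h0
    · obtain ⟨_, u, hu, rfl⟩ := a
      obtain ⟨_, v, hv, rfl⟩ := b
      refine Subtype.ext ?_
      show e.symm u * e.symm v = e.symm v * e.symm u
      rw [← map_mul, ← map_mul, show u * v = v * u from congrArg Subtype.val (hA.is_comm.comm (⟨u, hu⟩ : A) ⟨v, hv⟩)]
    · rintro _ ⟨u, hu, rfl⟩
      rw [← map_pow, hAe u hu, map_one]
  have hnorm : ir.range ≤ Subgroup.normalizer (il.range : Set G₁) := by
    haveI : il.range.Normal := by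
      rw [show il.range = (SemidirectProduct.rightHom : G₁ →* φ.range).ker from SemidirectProduct.range_inl_eq_ker_rightHom]
      infer_instance
    rw [Subgroup.normalizer_eq_top]; exact le_top
  have hfaith : ir.range ⊓ Subgroup.centralizer (il.range : Set G₁) = ⊥ := by
    rw [eq_bot_iff]
    rintro x ⟨⟨a, rfl⟩, ha⟩
    refine Subgroup.mem_bot.mpr ?_
    have : a = 1 := Subtype.ext (MulEquiv.ext fun r => SemidirectProduct.inl_injective (φ := φ.range.subtype) ?_)
    · rw [this, map_one]
    have h0 := Subgroup.mem_centralizer_iff.mp ha (il r) ⟨r, rfl⟩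
    have h1 : SemidirectProduct.inl (φ := φ.range.subtype) (φ.range.subtype a r) = ir a * il r * (ir a)⁻¹ := by
      rw [show (ir a)⁻¹ = ir a⁻¹ from (map_inv ir a).symm]
      exact SemidirectProduct.inl_aut a r
    rw [← h0, mul_inv_cancel_right] at h1
    exact h1
  have h2 := Cfsg.Agent.S1449.result p hp il.range ir.range hR' hr' hnorm inferInstance hodd' hfaith
  have h3 : ir (φ.rangeRestrict c) ∈ ⁅ir.range, ir.range⁆ := by
    have h4 : (commutator X).map (ir.comp φ.rangeRestrict) ≤ ⁅ir.range, ir.range⁆ := by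
      rw [commutator_def, Subgroup.map_commutator]
      refine Subgroup.commutator_mono ?_ ?_ <;> exact fun y ⟨x, _, hx⟩ => ⟨φ.rangeRestrict x, hx⟩
    exact h4 ⟨c, hc, rfl⟩
  obtain ⟨n, hn⟩ := h2 ⟨_, h3⟩
  refine ⟨n, ?_⟩
  have h5 : ir (φ.rangeRestrict c ^ p ^ n) = ir 1 := by
    rw [map_pow, map_one]; exact congrArg Subtype.val hn
  have h6 := congrArg Subtype.val (SemidirectProduct.inr_injective h5)
  rw [map_pow]
  exact h6


/-- Let G be a solvable group of odd order, p a prime dividing its order with G having no elementary abelian subgroup of order p ^ 3. Then every prime dividing the index of O_{p'}(G) is at most p; if p = 3 or p is the smallest prime divisor of #G then G has a normal p-complement; the derived subgroup G' has a normal p-complement; every subgroup of G' of order coprime to p lies in O_{p'}(G'); and G/O_{p',p}(G) is abelian of order coprime to p. -/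
theorem result {G : Type*} [Group G] [Finite G] [Group.IsSolvable G] (hodd : Odd (Nat.card G)) (p : ℕ) [Fact p.Prime] (hpG : p ∣ Nat.card G) (hr : Cfsg.PRankLE p 2 G) :
    (∀ q : ℕ, q.Prime → q ∣ (Cfsg.pPrimeCore p G).index → q ≤ p) ∧
      ((p = 3 ∨ ∀ q : ℕ, q.Prime → q ∣ Nat.card G → p ≤ q) → Cfsg.HasNormalPComplement p G) ∧
      Cfsg.HasNormalPComplement p ↥(commutator G) ∧
      (∀ L : Subgroup ↥(commutator G), (Nat.card L).Coprime p → L ≤ Cfsg.pPrimeCore p ↥(commutator G)) ∧
      commutator G ≤ Cfsg.pPrimePCore p G ∧ ((Cfsg.pPrimePCore p G).index).Coprime p := by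
  classical
  have hpp : p.Prime := Fact.out
  have hp : p ≠ 2 := fun e => Nat.not_even_iff_odd.mpr hodd (even_iff_two_dvd.mpr (e ▸ hpG))
  set K := Cfsg.pPrimeCore p G with hK
  haveI hKn : K.Normal := CfsgLib.PConstrained.pPrimeCore_normal
  have hKcop : (Nat.card K).Coprime p := CfsgLib.Core.card_pPrimeCore_coprime p
  set π := QuotientGroup.mk' K with hπ
  set P := Cfsg.pCore p (G ⧸ K) with hP
  have hPp : IsPGroup p P := CfsgLib.Core.isPGroup_pCore p
  -- the rank passes to the quotient
  have hrP : Cfsg.PRankLE p 2 P := by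
    intro A hA hAe
    have hAp : IsPGroup p A := hPp.to_subgroup A
    set E := A.map P.subtype with hE
    set F := E.comap π with hF
    obtain ⟨S⟩ := (inferInstance : Nonempty (Sylow p F))
    let ψ : (S : Subgroup F) →* (G ⧸ K) := π.comp (F.subtype.comp (S : Subgroup F).subtype)
    have hinj : Function.Injective ψ := by
      rw [← MonoidHom.ker_eq_bot_iff, eq_bot_iff]
      intro s hs
      obtain ⟨k, hk⟩ := S.2 s
      have h1 : ((s : F) : G) ∈ K := (QuotientGroup.eq_one_iff _).mp hs
      have h2 : orderOf ((s : F) : G) ∣ p ^ k := orderOf_dvd_of_pow_eq_one (by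
        simpa using congrArg (fun u : (S : Subgroup F) => ((u : F) : G)) hk)
      have h3 : orderOf ((s : F) : G) ∣ Nat.card K := by
        have := orderOf_dvd_natCard (⟨_, h1⟩ : K); rwa [Subgroup.orderOf_mk] at this
      have h4 := Nat.dvd_gcd h3 h2
      rw [Nat.Coprime.pow_right k hKcop, Nat.dvd_one, orderOf_eq_one_iff] at h4
      exact Subgroup.mem_bot.mpr (Subtype.ext (Subtype.ext h4))
    have hmem : ∀ s, ψ s ∈ E := fun s => (s : F).2
    have hc : IsMulCommutative (((S : Subgroup F).map F.subtype)) := by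
      refine ⟨⟨?_⟩⟩
      rintro ⟨_, u, hu, rfl⟩ ⟨_, v, hv, rfl⟩
      refine Subtype.ext ?_
      have h0 : (⟨u, hu⟩ : (S : Subgroup F)) * ⟨v, hv⟩ = ⟨v, hv⟩ * ⟨u, hu⟩ := by
        refine hinj ?_
        rw [map_mul, map_mul]
        obtain ⟨a, ha, hau⟩ := hmem ⟨u, hu⟩
        obtain ⟨b, hb, hbv⟩ := hmem ⟨v, hv⟩
        rw [← hau, ← hbv, ← map_mul, ← map_mul, show a * b = b * a from congrArg Subtype.val (hA.is_comm.comm (⟨a, ha⟩ : A) ⟨b, hb⟩)]
      exact congrArg (fun w : (S : Subgroup F) => ((w : F) : G)) h0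
    have h5 := hr _ hc (by
      rintro _ ⟨u, hu, rfl⟩
      have h0 : (⟨u, hu⟩ : (S : Subgroup F)) ^ p = 1 := by
        refine hinj ?_
        obtain ⟨a, ha, hau⟩ := hmem ⟨u, hu⟩
        rw [map_pow, map_one, ← hau, ← map_pow, hAe a ha, map_one]
      exact congrArg (fun w : (S : Subgroup F) => ((w : F) : G)) h0)
    rw [Subgroup.card_map_of_injective F.subtype_injective, Sylow.card_eq_multiplicity] at h5
    obtain ⟨k, hk⟩ := IsPGroup.iff_card.mp hAp
    refine le_trans ?_ h5
    have hFE : Nat.card F = Nat.card A * Nat.card K := by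
      have h6 : E.index = F.index := (Subgroup.index_comap_of_surjective E (QuotientGroup.mk'_surjective K)).symm
      have h7 : Nat.card E = Nat.card A := Subgroup.card_map_of_injective P.subtype_injective
      have h8 := E.card_mul_index
      have h9 := F.card_mul_index
      have h10 := K.card_mul_index
      have h11 : Nat.card (G ⧸ K) = K.index := rfl
      have h12 : 0 < F.index := Nat.pos_of_ne_zero Subgroup.index_ne_zero_of_finite
      rw [h7, h6, h11] at h8
      refine Nat.eq_of_mul_eq_mul_right h12 ?_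
      rw [h9, ← h10, ← h8]; ring
    rw [hFE, Nat.factorization_mul Nat.card_pos.ne' Nat.card_pos.ne', Finsupp.add_apply, hk,
      Nat.Prime.factorization_pow hpp, Finsupp.single_eq_same, pow_add]
    exact Nat.le_mul_of_pos_right _ (pow_pos hpp.pos _)
  haveI : Group.IsSolvable (G ⧸ K) := Group.isSolvable_of_surjective (f := π) (QuotientGroup.mk'_surjective K)
  haveI : P.Normal := inferInstance
  have hCP : Subgroup.centralizer (P : Set (G ⧸ K)) ≤ P :=
    CfsgLib.OddQuad.centralizer_pCore_le (CfsgLib.Core.pPrimeCore_quotient_eq_bot p)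
  let φ : (G ⧸ K) →* MulAut P := MulAut.conjNormal
  have hker : ∀ u, φ u = 1 → u ∈ P := fun u hu => hCP (Subgroup.mem_centralizer_iff.mpr fun x hx => by
    have h0 : (φ u ⟨x, hx⟩ : G ⧸ K) = x := by rw [hu]; rfl
    rw [MulAut.conjNormal_apply] at h0
    exact (mul_inv_eq_iff_eq_mul.mp h0).symm)
  have hoddq : Odd (Nat.card (G ⧸ K)) := Odd.of_dvd_nat hodd (Subgroup.index_dvd_card K)
  -- the derived subgroup of the quotient lies in the `p`-core
  have hder : commutator (G ⧸ K) ≤ P := by
    refine CfsgLib.Core.le_pCore (inferInstanceAs (commutator (G ⧸ K)).Normal) fun c => ?_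
    obtain ⟨n, hn⟩ := comm_pElement hoddq hp hPp hrP φ c c.2
    obtain ⟨m, hm⟩ := hPp ⟨_, hker _ hn⟩
    exact ⟨n + m, Subtype.ext (by
      rw [SubgroupClass.coe_pow, pow_add, pow_mul]; exact congrArg Subtype.val hm)⟩
  have hderG : commutator G ≤ Cfsg.pPrimePCore p G := by
    refine le_trans ?_ (Subgroup.comap_mono hder)
    rw [← Subgroup.map_le_iff_le_comap, commutator_def, Subgroup.map_commutator]
    exact Subgroup.commutator_mono le_top le_top
  -- the index of `O_{p',p}` is prime to `p`
  have hidx : ((Cfsg.pPrimePCore p G).index).Coprime p := by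
    rw [show Cfsg.pPrimePCore p G = P.comap π from rfl, Subgroup.index_comap_of_surjective _ (QuotientGroup.mk'_surjective K)]
    refine (hpp.coprime_iff_not_dvd.mpr fun hd => ?_).symm
    obtain ⟨S⟩ := (inferInstance : Nonempty (Sylow p (G ⧸ K)))
    have hPS : P ≤ (S : Subgroup (G ⧸ K)) := CfsgLib.Core.pCore_le_sylow S
    have hSn : (S : Subgroup (G ⧸ K)).Normal := ⟨fun s hs g => by
      have h0 : g * s * g⁻¹ * s⁻¹ ∈ P := hder (Subgroup.commutator_mem_commutator (Subgroup.mem_top g) (Subgroup.mem_top s))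
      have := mul_mem (hPS h0) hs
      rwa [inv_mul_cancel_right] at this⟩
    exact S.not_dvd_index ((le_antisymm hPS (CfsgLib.Core.le_pCore hSn S.2)) ▸ hd)
  have hle_q : ∀ q : ℕ, q.Prime → q ∣ K.index → q ≤ p := by
    intro q hq hd
    rcases eq_or_ne q p with rfl | hqp
    · exact le_rfl
    haveI := Fact.mk hq
    obtain ⟨u, hu⟩ := exists_prime_orderOf_dvd_card' (G := G ⧸ K) q hd
    have hne : φ u ≠ 1 := fun e => by
      obtain ⟨m, hm⟩ := hPp ⟨u, hker u e⟩
      have h0 : orderOf u ∣ p ^ m := orderOf_dvd_of_pow_eq_one (by simpa using congrArg Subtype.val hm)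
      rw [hu] at h0
      exact hqp ((Nat.prime_dvd_prime_iff_eq hq hpp).mp (hq.dvd_of_dvd_pow h0))
    have ho : orderOf (φ u) = q := orderOf_eq_prime (by rw [← map_pow, ← hu, pow_orderOf_eq_one, map_one]) hne
    exact (Cfsg.Agent.S0640.result hp hPp hrP q hq hqp (ho ▸ orderOf_dvd_natCard _)).2.le
  -- complements
  have hcompl : ∀ (X : Type _) [Group X] [Finite X] (N : Subgroup X), N.Normal → (Nat.card N).Coprime p → (∃ k, N.index = p ^ k) →
      Cfsg.HasNormalPComplement p X := by
    intro X _ _ N hN hNc ⟨k, hk⟩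
    obtain ⟨S⟩ := (inferInstance : Nonempty (Sylow p X))
    refine ⟨S, N, hN, ?_⟩
    obtain ⟨j, hj⟩ := IsPGroup.iff_card.mp S.2
    refine Subgroup.isComplement'_of_coprime ?_ (hj ▸ Nat.Coprime.pow_right j hNc)
    rw [← N.card_mul_index, hk]
    congr 1
    have hk' := hk
    rw [Sylow.card_eq_multiplicity, ← N.card_mul_index, hk', Nat.factorization_mul Nat.card_pos.ne' (pow_ne_zero _ hpp.ne_zero),
      Finsupp.add_apply, Nat.Prime.factorization_pow hpp, Finsupp.single_eq_same,
      Nat.factorization_eq_zero_of_not_dvd (hpp.coprime_iff_not_dvd.mp hNc.symm), zero_add]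
  have hG' : IsPGroup p ((commutator G).map π) := hPp.to_le (Subgroup.map_le_iff_le_comap.mpr hderG)
  refine ⟨hle_q, fun hcase => ?_, ?_, ?_, hderG, hidx⟩
  · refine hcompl G K hKn hKcop (Nat.eq_prime_pow_of_unique_prime_dvd Subgroup.index_ne_zero_of_finite (fun {q} hq hd => ?_) |> fun h => ⟨_, h⟩)
    have h1 := hle_q q hq hd
    have hqG : q ∣ Nat.card G := hd.trans (Subgroup.index_dvd_card K)
    rcases hcase with h3 | hmin
    · have hq2 : q ≠ 2 := fun e => Nat.not_even_iff_odd.mpr hodd (even_iff_two_dvd.mpr (e ▸ hqG))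
      have := hq.two_le
      omega
    · exact le_antisymm h1 (hmin q hq hqG)
  · -- complement in the derived group
    set N := K.subgroupOf (commutator G) with hN
    refine hcompl _ N inferInstance (hKcop.coprime_dvd_left ?_) ?_
    · exact Subgroup.card_dvd_of_injective (((commutator G).subtype.comp N.subtype).codRestrict K (fun x => x.2)) (fun a b h => Subtype.ext (Subtype.ext (congrArg Subtype.val h :)))
    · have hkerN : N = (π.comp (commutator G).subtype).ker := by
        ext x; simp [hN, Subgroup.mem_subgroupOf, hπ]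
      obtain ⟨j, hj⟩ := IsPGroup.iff_card.mp hG'
      refine ⟨j, ?_⟩
      rw [hkerN, Subgroup.index_ker, MonoidHom.range_comp, Subgroup.range_subtype, hj]
  · intro L hL
    refine le_trans (fun (x : ↥(commutator G)) hx => ?_) (CfsgLib.Core.le_pPrimeCore (N := K.subgroupOf (commutator G)) inferInstance (hKcop.coprime_dvd_left
      (Subgroup.card_dvd_of_injective (((commutator G).subtype.comp (K.subgroupOf (commutator G)).subtype).codRestrict K (fun x => x.2)) (fun a b h => Subtype.ext (Subtype.ext (congrArg Subtype.val h :))))))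
    have h1 : orderOf (π (x : G)) ∣ Nat.card L := by
      refine (orderOf_map_dvd (π.comp (commutator G).subtype) x).trans ?_
      have := orderOf_dvd_natCard (⟨x, hx⟩ : L); rwa [Subgroup.orderOf_mk] at this
    obtain ⟨j, hj⟩ := IsPGroup.iff_card.mp hG'
    have h2 : orderOf (π (x : G)) ∣ p ^ j := by
      have := orderOf_dvd_natCard (⟨π (x : G), Subgroup.mem_map_of_mem π x.2⟩ : (commutator G).map π)
      rwa [← Subgroup.orderOf_coe, hj] at this
    have h3 := Nat.dvd_gcd h1 h2
    rw [Nat.Coprime.pow_right j hL, Nat.dvd_one, orderOf_eq_one_iff] at h3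
    exact (QuotientGroup.eq_one_iff (x : G)).mp h3

end Cfsg.Agent.S1450
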