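import Cfsg.Statements.S1894
import Cfsg.Agent.Lib.LocalBasic

set_option autoImplicit false
open Cfsg

namespace Cfsg.Agent.S1894
open CfsgLib.LocalBasic
open scoped commutatorElement

/-- Let P be a finite p-group, A a normal subgroup of P and B an abelian subgroup of A that is normal in P. Then some subgroup C of A containing B is normal in P and is self-centralizing and normal in A (C ∈ SCN(A)). -/
theorem result {P : Type*} [Group P] [Finite P] {p : ℕ} [Fact p.Prime] (hP : IsPGroup p P)
    (A : Subgroup P) [A.Normal] (B : Subgroup P) [B.Normal] (hBA : B ≤ A) (hB : IsMulCommutative B) :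
    ∃ C : Subgroup P, C.Normal ∧ B ≤ C ∧ Cfsg.IsSCN A C := by
  obtain ⟨C, hC⟩ := (Set.toFinite {C : Subgroup P | C.Normal ∧ IsMulCommutative ↥C ∧ B ≤ C ∧ C ≤ A}).exists_maximal
    ⟨B, inferInstance, hB, le_rfl, hBA⟩
  obtain ⟨hCn, hCc, hBC, hCA⟩ := hC.1
  refine ⟨C, hCn, hBC, hCA, by rw [Subgroup.normalizer_eq_top C]; exact le_top, ?_⟩
  refine le_antisymm ?_ (le_inf hCA (Subgroup.le_centralizer_iff_isMulCommutative.mpr hCc))
  by_contra hne
  have hKn : (⊤ : Subgroup P) ≤ Subgroup.normalizer ((A ⊓ Subgroup.centralizer (C : Set P) : Subgroup P) : Set P) :=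
    normalizer_inf_ge (by rw [Subgroup.normalizer_eq_top A]) (normalizer_centralizer_ge (by rw [Subgroup.normalizer_eq_top C]))
  obtain ⟨D, hD, hDC, hDP, -⟩ := exists_commutator_le hP.isNilpotent hKn hne
  obtain ⟨x, hxD, hxC⟩ := SetLike.not_le_iff_exists.mp hDC
  obtain ⟨hxA, hxcen⟩ := hD hxD
  set C' := C ⊔ Subgroup.zpowers x with hC'
  have hn : C'.Normal := by
    have hsub : ∀ g : P, C'.map (MulAut.conj g).toMonoidHom ≤ C' := by
      intro g
      rw [hC', Subgroup.map_sup, MonoidHom.map_zpowers]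
      refine sup_le ?_ (Subgroup.zpowers_le.mpr ?_)
      · rintro _ ⟨c, hc, rfl⟩
        exact Subgroup.mem_sup_left (hCn.conj_mem c hc g)
      · have h1 : ⁅x, g⁆ ∈ C := hDP (Subgroup.commutator_mem_commutator hxD (Subgroup.mem_top g))
        have e : (MulAut.conj g).toMonoidHom x = ⁅x, g⁆⁻¹ * x := by simp [commutatorElement_def, mul_assoc]
        rw [e]
        exact Subgroup.mul_mem_sup (C.inv_mem h1) (Subgroup.mem_zpowers x)
    exact ⟨fun a ha g => hsub g ⟨a, ha, rfl⟩⟩
  have hcomm : IsMulCommutative ↥C' := by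
    rw [← Subgroup.le_centralizer_iff_isMulCommutative]
    have hxC' : Subgroup.zpowers x ≤ Subgroup.centralizer (C : Set P) := Subgroup.zpowers_le.mpr hxcen
    refine sup_le ?_ ?_ <;> rw [Subgroup.le_centralizer_iff] <;> refine sup_le ?_ ?_
    · exact Subgroup.le_centralizer_iff_isMulCommutative.mpr hCc
    · exact hxC'
    · exact Subgroup.le_centralizer_iff.mp hxC'
    · exact Subgroup.le_centralizer_iff_isMulCommutative.mpr inferInstance
  have := hC.2 (y := C') ⟨hn, hcomm, hBC.trans le_sup_left, sup_le hCA (Subgroup.zpowers_le.mpr hxA)⟩ le_sup_left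
  exact hxC (this (Subgroup.mem_sup_right (Subgroup.mem_zpowers x)))

end Cfsg.Agent.S1894
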