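import Cfsg.Agent.S0100
import Cfsg.Agent.Lib.PStep
import Cfsg.Agent.S1894
import Cfsg.Prelude.Def_CaseTheorems
-- Template for statement S1452 (row 1452; see /opt/grader/pristine/manifest.json for weights).
-- Copy to Cfsg/Agent/S1452.lean and replace the sorry. The statement below is byte-identical to the frozen
-- statement Cfsg.CfsgFrozen.S1452 (Cfsg/Statements/S1452.lean; the theorem Cfsg.normal_rank_two_elementary_in_scn_three);
-- the grader kernel-checks Cfsg.Agent.S1452.result against that frozen type. Keep the theorem IN THIS FILE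
-- (a `result` declared elsewhere and merely imported here is not credited); helpers may live anywhere
-- under Cfsg/Agent/.
-- import your own Cfsg.Agent.* helpers here

set_option autoImplicit false
open Cfsg

namespace Cfsg.Agent.S1452

/-- Let p be an odd prime and R a finite p-group containing an elementary abelian subgroup of order p ^ 3. If E is a normal elementary abelian subgroup of R of order p ^ 2, then E ≤ A for some normal subgroup A of R with C_R(A) = A that contains an elementary abelian subgroup of order p ^ 3. -/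
theorem result {R : Type*} [Group R] [Finite R] (p : ℕ) [Fact p.Prime] (hp : p ≠ 2) (hR : IsPGroup p R) (hr : ¬ Cfsg.PRankLE p 2 R)
    (E : Subgroup R) [E.Normal] (hE : Cfsg.IsElementaryAbelian p E) (hE2 : Nat.card E = p ^ 2) :
    ∃ A : Subgroup R, E ≤ A ∧ A.Normal ∧ Subgroup.centralizer (A : Set R) = A ∧ ¬ Cfsg.PRankLE p 2 A := by
  classical
  have hpp : p.Prime := Fact.out
  -- a normal elementary abelian subgroup of order `p ^ 3`
  obtain ⟨W, hWn, hWc, hWe, hW3⟩ : ∃ W : Subgroup R, W.Normal ∧ IsMulCommutative W ∧ (∀ a ∈ W, a ^ p = 1) ∧ Nat.card W = p ^ 3 := by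
    by_contra hcon
    push Not at hcon
    exact hr fun A hA hAe => Cfsg.Agent.S0100.result hp hR hcon A hA hAe
  haveI := hWn
  -- a central element of order `p` in `E`
  haveI : Nontrivial R := by
    haveI : Nontrivial E := Finite.one_lt_card_iff_nontrivial.mp (by rw [hE2]; exact Nat.one_lt_pow two_ne_zero hpp.one_lt)
    exact Subtype.coe_injective.nontrivial (α := E)
  obtain ⟨z, hz, hz1⟩ : ∃ z ∈ E ⊓ Subgroup.center R, z ≠ 1 := by
    by_contra hcon
    push Not at hcon
    have hne : E ⊓ Subgroup.center R = ⊥ := eq_bot_iff.mpr fun x hx => hcon x hx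
    refine CfsgLib.PStep.normal_inf_center_ne_bot hR (N := E) inferInstance ?_ hne
    intro e
    rw [e, Subgroup.card_bot] at hE2
    exact absurd hE2.symm (Nat.one_lt_pow two_ne_zero hpp.one_lt).ne'
  have hzcard : Nat.card (Subgroup.zpowers z) = p := by
    rw [Nat.card_zpowers]; exact orderOf_eq_prime (hE.2 z hz.1) hz1
  obtain ⟨e, he, hez⟩ : ∃ e ∈ E, e ∉ Subgroup.zpowers z := by
    by_contra hcon
    push Not at hcon
    have := Subgroup.card_le_of_le (show E ≤ Subgroup.zpowers z from hcon)
    rw [hE2, hzcard] at this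
    nlinarith [hpp.two_le]
  have hEgen : E = Subgroup.zpowers z ⊔ Subgroup.zpowers e := by
    have hle : Subgroup.zpowers z ⊔ Subgroup.zpowers e ≤ E :=
      sup_le (Subgroup.zpowers_le.mpr hz.1) (Subgroup.zpowers_le.mpr he)
    refine (Subgroup.eq_of_le_of_card_ge hle ?_).symm
    rw [hE2]
    obtain ⟨k, hk⟩ := IsPGroup.iff_card.mp (hR.to_subgroup (Subgroup.zpowers z ⊔ Subgroup.zpowers e))
    rw [hk]
    refine Nat.pow_le_pow_right hpp.pos ?_
    by_contra hk2
    have hle' : Nat.card ↥(Subgroup.zpowers z ⊔ Subgroup.zpowers e) ≤ p := by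
      rw [hk]; exact (Nat.pow_le_pow_right hpp.pos (by omega : k ≤ 1)).trans (pow_one p).le
    exact hez ((Subgroup.eq_of_le_of_card_ge le_sup_left (hzcard ▸ hle')).symm ▸ Subgroup.mem_sup_right (Subgroup.mem_zpowers e))
  set C := Subgroup.centralizer (E : Set R) with hC
  have hCe : Subgroup.centralizer ({e} : Set R) ≤ C := by
    intro g hg
    refine Subgroup.mem_centralizer_iff.mpr fun x hx => ?_
    have hle : E ≤ Subgroup.centralizer ({g} : Set R) := by
      rw [hEgen]
      exact sup_le (Subgroup.zpowers_le.mpr (Subgroup.mem_centralizer_singleton_iff.mpr (Subgroup.mem_center_iff.mp hz.2 g).symm))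
        (Subgroup.zpowers_le.mpr (Subgroup.mem_centralizer_singleton_iff.mpr (Subgroup.mem_centralizer_singleton_iff.mp hg).symm))
    exact Subgroup.mem_centralizer_singleton_iff.mp (hle hx)
  have hCidx : C.index ≤ p := by
    refine le_trans (Nat.le_of_dvd (Nat.pos_of_ne_zero Subgroup.index_ne_zero_of_finite) (Subgroup.index_dvd_of_le hCe)) ?_
    obtain ⟨k, hk⟩ := hR.index (Subgroup.centralizer ({e} : Set R))
    rw [hk]
    refine (Nat.pow_le_pow_right hpp.pos (show k ≤ 1 from ?_)).trans (pow_one p).le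
    by_contra hk2
    have hsub : MulAction.orbit (ConjAct R) e ⊆ (E : Set R) \ {1} := by
      rintro y ⟨g, rfl⟩
      refine ⟨?_, fun h1 => ?_⟩
      · simpa [ConjAct.smul_def] using ‹E.Normal›.conj_mem e he (ConjAct.ofConjAct g)
      · exact hez ((smul_eq_iff_eq_inv_smul g).mp h1 |>.trans (smul_one _) ▸ one_mem _)
    have h1 := Set.ncard_le_ncard hsub (Set.toFinite _)
    rw [Set.ncard_sdiff_singleton_of_mem E.one_mem,
      show ((E : Set R)).ncard = p ^ 2 from hE2, ← MulAction.index_stabilizer] at h1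
    have h0 : (Subgroup.centralizer ({e} : Set R)).index = (MulAction.stabilizer (ConjAct R) e).index := by
      rw [Subgroup.centralizer_eq_comap_stabilizer]
      exact Subgroup.index_comap_of_surjective (MulAction.stabilizer (ConjAct R) e)
        (f := (ConjAct.toConjAct (G := R)).toMonoidHom) ConjAct.toConjAct.surjective
    rw [← h0, hk] at h1
    have h2 := Nat.pow_le_pow_right hpp.pos (show 2 ≤ k by omega)
    have : 0 < p ^ 2 := pow_pos hpp.pos 2
    omega
  -- the normal elementary abelian subgroup containing `E`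
  obtain ⟨V, hVn, hEV, hVc, hVe, hV3⟩ : ∃ V : Subgroup R, V.Normal ∧ E ≤ V ∧ IsMulCommutative V ∧ (∀ a ∈ V, a ^ p = 1) ∧ p ^ 3 ≤ Nat.card V := by
    by_cases hV : p ^ 3 ≤ Nat.card ↥(E ⊔ W ⊓ C)
    · haveI : C.Normal := inferInstance
      refine ⟨E ⊔ W ⊓ C, inferInstance, le_sup_left, ?_, ?_, hV⟩
      · refine ⟨⟨fun a b => Subtype.ext ?_⟩⟩
        obtain ⟨u, hu, v, hv, huv⟩ := Subgroup.mem_sup_of_normal_left.mp a.2
        obtain ⟨u', hu', v', hv', huv'⟩ := Subgroup.mem_sup_of_normal_left.mp b.2
        have c1 : Commute u u' := congrArg Subtype.val (hE.1.is_comm.comm ⟨u, hu⟩ ⟨u', hu'⟩)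
        have c2 : Commute u v' := Subgroup.mem_centralizer_iff.mp hv'.2 u hu
        have c3 : Commute v u' := (Subgroup.mem_centralizer_iff.mp hv.2 u' hu').symm
        have c4 : Commute v v' := congrArg Subtype.val (hWc.is_comm.comm ⟨v, hv.1⟩ ⟨v', hv'.1⟩)
        show (a : R) * b = b * a
        rw [← huv, ← huv']
        exact (((c1.mul_right c2).mul_left (c3.mul_right c4))).eq
      · intro a ha
        rw [Subgroup.mem_sup_of_normal_left] at ha
        obtain ⟨u, hu, v, hv, rfl⟩ := ha
        rw [Commute.mul_pow (Subgroup.mem_centralizer_iff.mp hv.2 u hu), hE.2 u hu, hWe v hv.1, one_mul]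
    · refine ⟨W, hWn, ?_, hWc, hWe, hW3.ge⟩
      obtain ⟨k, hk⟩ := IsPGroup.iff_card.mp (hR.to_subgroup (E ⊔ W ⊓ C))
      have hk2 : k ≤ 2 := by
        by_contra hk3
        exact hV (hk ▸ Nat.pow_le_pow_right hpp.pos (by omega))
      have heq : E = E ⊔ W ⊓ C := Subgroup.eq_of_le_of_card_ge le_sup_left (by rw [hE2, hk]; exact Nat.pow_le_pow_right hpp.pos hk2)
      have hle : W ⊓ C ≤ E := heq ▸ le_sup_right
      have h1 : (W ⊓ C).relIndex W ≤ C.index := by
        rw [Subgroup.inf_relIndex_left]
        haveI : C.Normal := inferInstance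
        exact Nat.le_of_dvd (Nat.pos_of_ne_zero Subgroup.index_ne_zero_of_finite) (Subgroup.relIndex_dvd_index_of_normal (H := C) (K := W))
      have h2 := Subgroup.relIndex_mul_index (inf_le_left : W ⊓ C ≤ W)
      have h3 : p ^ 2 ≤ Nat.card ↥(W ⊓ C) := by
        have h4 := Subgroup.relIndex_mul_relIndex ⊥ (W ⊓ C) W bot_le inf_le_left
        rw [Subgroup.relIndex_bot_left, Subgroup.relIndex_bot_left] at h4
        rw [hW3] at h4
        have h5 : (W ⊓ C).relIndex W ≤ p := h1.trans hCidx
        nlinarith [hpp.pos, Nat.mul_le_mul_left (Nat.card ↥(W ⊓ C)) h5]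
      exact (Subgroup.eq_of_le_of_card_ge hle (hE2 ▸ h3)) ▸ inf_le_left
  haveI := hVn
  obtain ⟨A, hAn, hVA, hA⟩ := Cfsg.Agent.S1894.result hR (⊤ : Subgroup R) V le_top hVc
  refine ⟨A, hEV.trans hVA, hAn, ?_, fun hle => ?_⟩
  · have := hA.2.2
    rwa [top_inf_eq] at this
  · have := hle (V.subgroupOf A) inferInstance (fun a ha => Subtype.ext (by rw [SubgroupClass.coe_pow]; exact hVe _ ha))
    rw [Nat.card_congr (Subgroup.subgroupOfEquivOfLe hVA).toEquiv] at this
    have := Nat.pow_lt_pow_right hpp.one_lt (show 2 < 3 by norm_num)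
    omega

end Cfsg.Agent.S1452
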