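import Cfsg.Statements.S1892
import Cfsg.Agent.Lib.PSolvable

set_option autoImplicit false
open Cfsg
open scoped commutatorElement

namespace Cfsg.Agent.S1892

/-- Let S be a finite p-solvable group with no nontrivial normal subgroup of order prime to p, A a p-subgroup of S, and Q a nontrivial A-invariant subgroup of order prime to p with [A, Q] = Q. Then the commutator [O_p(S), A, Q] is nontrivial. -/
theorem result {S : Type*} [Group S] [Finite S] {p : ℕ} [Fact p.Prime]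
    (hS : Cfsg.IsPSolvable p S) (hred : Cfsg.pPrimeCore p S = ⊥)
    (A Q : Subgroup S) (hA : IsPGroup p A) (hQ : ¬ p ∣ Nat.card Q) (hQ1 : Q ≠ ⊥)
    (hinv : ∀ a ∈ A, ∀ x ∈ Q, a * x * a⁻¹ ∈ Q) (hAQ : ⁅A, Q⁆ = Q) :
    ⁅⁅Cfsg.pCore p S, A⁆, Q⁆ ≠ ⊥ := by
  intro hcon
  have hp : p.Prime := Fact.out
  set R := Cfsg.pCore p S with hR
  haveI hRn : R.Normal := by
    haveI := CfsgLib.Core.pCore_characteristic (G := S) p
    exact inferInstance
  set W := ⁅R, A⁆ with hW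
  have hWR : W ≤ R := Subgroup.commutator_le.mpr fun r hr a _ => by
    have := R.mul_mem hr (hRn.conj_mem _ (R.inv_mem hr) a)
    simpa [commutatorElement_def, mul_assoc] using this
  have hQW : ∀ q ∈ Q, ∀ w ∈ W, w * q = q * w := fun q hq w hw =>
    Subgroup.mem_centralizer_iff.mp ((Subgroup.commutator_eq_bot_iff_le_centralizer.mp hcon) hw) q hq |>.symm
  have hAn : ∀ a ∈ A, ∀ w ∈ W, a * w * a⁻¹ ∈ W := by
    intro a ha w hw
    have : W.map (MulAut.conj a).toMonoidHom ≤ W := by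
      rw [hW, Subgroup.map_commutator]
      refine Subgroup.commutator_mono ?_ ?_
      · rintro _ ⟨r, hr, rfl⟩
        exact hRn.conj_mem r hr a
      · rintro _ ⟨b, hb, rfl⟩
        exact mul_mem (mul_mem ha hb) (inv_mem ha)
    exact this ⟨w, hw, rfl⟩
  have hQC : Q ≤ Subgroup.centralizer (R : Set S) := by
    intro q hq r hr
    have key : ∀ z ∈ ⁅A, Q⁆, (∀ w ∈ W, z * w * z⁻¹ ∈ W ∧ z⁻¹ * w * z ∈ W) ∧
        ∀ r ∈ R, z * r * z⁻¹ * r⁻¹ ∈ W := by
      intro z hz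
      induction hz using Subgroup.closure_induction with
      | mem z hz =>
        obtain ⟨a, ha, q, hq, rfl⟩ := hz
        have hc : ∀ w ∈ W, q * w * q⁻¹ = w := fun w hw => by rw [← hQW q hq w hw, mul_inv_cancel_right]
        have hc' : ∀ w ∈ W, q⁻¹ * w * q = w := fun w hw => by rw [mul_assoc, hQW q hq w hw, inv_mul_cancel_left]
        refine ⟨fun w hw => ⟨?_, ?_⟩, fun r hr => ?_⟩
        · have e : ⁅a, q⁆ * w * ⁅a, q⁆⁻¹ = a * (q * (a⁻¹ * (q⁻¹ * w * q) * a⁻¹⁻¹) * q⁻¹) * a⁻¹ := by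
            rw [commutatorElement_def]; group
          rw [e, hc' w hw, hc _ (hAn a⁻¹ (inv_mem ha) w hw)]
          exact hAn a ha _ (hAn a⁻¹ (inv_mem ha) w hw)
        · have e : ⁅a, q⁆⁻¹ * w * ⁅a, q⁆ = q * (a * (q⁻¹ * (a⁻¹ * w * a⁻¹⁻¹) * q) * a⁻¹) * q⁻¹ := by
            rw [commutatorElement_def]; group
          rw [e, hc' _ (hAn a⁻¹ (inv_mem ha) w hw), hc _ (hAn a ha _ (hAn a⁻¹ (inv_mem ha) w hw))]
          exact hAn a ha _ (hAn a⁻¹ (inv_mem ha) w hw)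
        · have hcA : ∀ b ∈ A, ∀ r ∈ R, b * r * b⁻¹ * r⁻¹ ∈ W := fun b hb r hr => by
            have := inv_mem (Subgroup.commutator_mem_commutator hr hb : ⁅r, b⁆ ∈ W)
            simpa [commutatorElement_def, mul_assoc] using this
          set r1 := q⁻¹ * r * q⁻¹⁻¹ with hr1
          have hr1R : r1 ∈ R := hRn.conj_mem r hr q⁻¹
          have h1 : q * (a⁻¹ * r1 * a⁻¹⁻¹ * r1⁻¹) * q⁻¹ = a⁻¹ * r1 * a⁻¹⁻¹ * r1⁻¹ :=
            hc _ (hcA a⁻¹ (inv_mem ha) r1 hr1R)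
          have e : ⁅a, q⁆ * r * ⁅a, q⁆⁻¹ * r⁻¹ =
              (a * (q * (a⁻¹ * r1 * a⁻¹⁻¹ * r1⁻¹) * q⁻¹) * a⁻¹) * (a * r * a⁻¹ * r⁻¹) := by
            rw [hr1, commutatorElement_def]; group
          rw [e, h1]
          exact mul_mem (hAn a ha _ (hcA a⁻¹ (inv_mem ha) r1 hr1R)) (hcA a ha r hr)
      | one => simp
      | mul y z _ _ hy hz =>
        refine ⟨fun w hw => ⟨?_, ?_⟩, fun r hr => ?_⟩
        · simpa [mul_assoc] using (hy.1 _ (hz.1 w hw).1).1
        · simpa [mul_assoc] using (hz.1 _ (hy.1 w hw).2).2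
        · have := mul_mem (hy.1 _ (hz.2 r hr)).1 (hy.2 r hr)
          simpa [mul_assoc] using this
      | inv y _ hy =>
        refine ⟨fun w hw => ⟨?_, ?_⟩, fun r hr => ?_⟩
        · simpa [mul_assoc] using (hy.1 w hw).2
        · simpa [mul_assoc] using (hy.1 w hw).1
        · have := inv_mem (hy.2 _ (hRn.conj_mem r hr y⁻¹))
          simpa [mul_assoc] using this
    rw [hAQ] at key
    have hn : r * (q * r⁻¹ * q⁻¹) ∈ W := by
      have := inv_mem ((key q hq).2 r hr)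
      simpa [mul_assoc] using this
    have hnR : r * (q * r⁻¹ * q⁻¹) ∈ R := hWR hn
    have hco : (orderOf q).Coprime (orderOf (r * (q * r⁻¹ * q⁻¹))) := by
      obtain ⟨j, hj⟩ := IsPGroup.iff_orderOf.mp (CfsgLib.Core.isPGroup_pCore (G := S) p) ⟨_, hnR⟩
      rw [Subgroup.orderOf_mk] at hj
      rw [hj]
      exact ((hp.coprime_iff_not_dvd.mpr fun hd => hQ
        (hd.trans (Subgroup.orderOf_dvd_natCard Q hq))).symm).pow_right j
    have h1 := CfsgLib.PSolvable.commute_of_coprime_shift (g := q) (y := r⁻¹)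
      (inv_mul_cancel_left r _).symm (hQW q hq _ hn).symm hco
    exact ((show Commute q r⁻¹ from h1).inv_right.eq.symm.trans rfl |> fun e => by simpa using e)
  refine hQ1 (eq_bot_iff.mpr fun q hq => ?_)
  have hqR : q ∈ R := CfsgLib.PSolvable.charP hS hred (hQC hq)
  obtain ⟨j, hj⟩ := IsPGroup.iff_orderOf.mp (CfsgLib.Core.isPGroup_pCore (G := S) p) ⟨q, hqR⟩
  rw [Subgroup.orderOf_mk] at hj
  refine Subgroup.mem_bot.mpr (orderOf_eq_one_iff.mp ?_)
  exact Nat.eq_one_of_dvd_coprimes ((hp.coprime_iff_not_dvd.mpr hQ).symm.pow_right j)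
    (Subgroup.orderOf_dvd_natCard Q hq) (hj ▸ dvd_rfl)

end Cfsg.Agent.S1892
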