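import Cfsg.Statements.S1896
import Cfsg.Agent.Lib.Metacyclic.TwoAut

set_option autoImplicit false
open Cfsg

namespace Cfsg.Agent.S1896

/-- A finite metacyclic 2-group whose automorphism group is not a 2-group is isomorphic to the quaternion group of order 8 or to a homocyclic abelian group Z_{2^n} × Z_{2^n}. -/
theorem result {X : Type*} [Group X] [Finite X] (hX : IsPGroup 2 X)
    (hm : Cfsg.IsMetacyclic X) (hA : ¬ IsPGroup 2 (MulAut X)) :
    Nonempty (X ≃* QuaternionGroup 2) ∨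
      ∃ n : ℕ, Nonempty (X ≃* Multiplicative (ZMod (2 ^ n)) × Multiplicative (ZMod (2 ^ n))) := by
  haveI : Fact (Nat.Prime 2) := ⟨Nat.prime_two⟩
  haveI : Finite (MulAut X) := Finite.of_injective (fun e : MulAut X => (e : X → X)) DFunLike.coe_injective
  obtain ⟨m, hm'⟩ := IsPGroup.iff_card.mp hX
  obtain ⟨α, hα, hα1⟩ : ∃ α : MulAut X, Odd (orderOf α) ∧ α ≠ 1 := by
    by_contra hno
    refine hA fun a => ?_
    obtain ⟨k, j, hj, hkj⟩ := Nat.exists_eq_pow_mul_and_not_dvd (orderOf_pos a).ne' 2 (by norm_num)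
    refine ⟨k, ?_⟩
    by_contra hne
    refine hno ⟨a ^ 2 ^ k, ?_, hne⟩
    rw [orderOf_pow' a (pow_ne_zero k (by norm_num)), hkj, Nat.gcd_mul_right_left,
      Nat.mul_div_cancel_left _ (Nat.two_pow_pos k)]
    exact Nat.not_even_iff_odd.mp fun h => hj (even_iff_two_dvd.mp h)
  rcases CfsgLib.Metacyclic.TwoAut.main m X hm' hm α hα hα1 with h | ⟨n, -, h⟩
  · exact Or.inl h
  · exact Or.inr ⟨n, h⟩

end Cfsg.Agent.S1896
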