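import Cfsg.Statements.S1898
import Cfsg.Agent.Lib.NPCFix

set_option autoImplicit false
open Cfsg

namespace Cfsg.Agent.S1898

/-- Let X be a finite 2-group whose derived subgroup is elementary abelian and central. Then the subgroup generated by the elements of order dividing 4 has exponent dividing 4, and every automorphism of X fixing each element of order dividing 4 has 2-power order. -/
theorem result {X : Type*} [Group X] [Finite X] (hX : IsPGroup 2 X)
    (hel : Cfsg.IsElementaryAbelian 2 (commutator X)) (hcen : commutator X ≤ Subgroup.center X) :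
    (∀ x ∈ Subgroup.closure {g : X | g ^ 4 = 1}, x ^ 4 = 1) ∧
      ∀ φ : MulAut X, (∀ g : X, g ^ 4 = 1 → φ g = g) → ∃ k : ℕ, φ ^ (2 ^ k) = 1 := by
  have hc2 : ∀ u v : X, u * v * u⁻¹ * v⁻¹ ∈ commutator X := fun u v =>
    Subgroup.commutator_mem_commutator (Subgroup.mem_top u) (Subgroup.mem_top v)
  have h4 : ∀ x y : X, x ^ 4 = 1 → y ^ 4 = 1 → (x * y) ^ 4 = 1 := by
    intro x y hx hy
    set c := y * x * y⁻¹ * x⁻¹ with hc
    have hcm : c ∈ commutator X := hc2 y x
    have hcz : ∀ z, z * c = c * z := Subgroup.mem_center_iff.mp (hcen hcm)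
    have hc' : c ^ 2 = 1 := hel.2 c hcm
    have hyx : y * x = x * y * c := by
      have : y * x = c * (x * y) := by rw [hc]; group
      rw [this, hcz]
    have h2 : (x * y) ^ 2 = x ^ 2 * y ^ 2 * c := by
      calc (x * y) ^ 2 = x * (y * x) * y := by rw [sq]; group
        _ = x * (x * y * c) * y := by rw [hyx]
        _ = x * x * y * (c * y) := by group
        _ = x * x * y * (y * c) := by rw [hcz y]
        _ = x ^ 2 * y ^ 2 * c := by rw [sq, sq]; group
    set d := y ^ 2 * x ^ 2 * (y ^ 2)⁻¹ * (x ^ 2)⁻¹ with hd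
    have hd1 : d = 1 := by
      have e1 : y * x ^ 2 * y⁻¹ = x ^ 2 := by
        rw [← conj_pow, show y * x * y⁻¹ = x * c by rw [hyx, mul_assoc x y c, hcz y]; group,
          (show Commute x c from hcz x).mul_pow, hc', mul_one]
      rw [hd, sq y, show y * y * x ^ 2 * (y * y)⁻¹ = y * (y * x ^ 2 * y⁻¹) * y⁻¹ by group, e1, e1, mul_inv_cancel]
    have hcomm : Commute (x ^ 2) (y ^ 2) := by
      rw [hd, mul_inv_eq_one, mul_inv_eq_iff_eq_mul] at hd1
      exact hd1.symm
    have hcC : Commute (x ^ 2 * y ^ 2) c := hcz _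
    rw [show (4 : ℕ) = 2 * 2 from rfl, pow_mul, h2, hcC.mul_pow, hc', mul_one, hcomm.mul_pow, ← pow_mul, ← pow_mul, hx, hy, mul_one]
  refine ⟨fun x hx => ?_, fun φ hφ => ?_⟩
  · induction hx using Subgroup.closure_induction with
    | mem x hx => exact hx
    | one => simp
    | mul a b _ _ ha hb => exact h4 a b ha hb
    | inv a _ ha => rw [inv_pow, ha, inv_one]
  · obtain ⟨k, m, hm, hkm⟩ := Nat.exists_eq_two_pow_mul_odd (orderOf_pos φ).ne'
    refine ⟨k, CfsgLib.RigidAut.eq_one_of_fix_small (p := 2) _ rfl hX (φ ^ (2 ^ k)) ?_ fun g hg => ?_⟩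
    · rw [orderOf_pow_of_dvd (by positivity) ⟨m, hkm⟩, hkm, Nat.mul_div_cancel_left _ (by positivity)]
      exact hm.coprime_two_right
    · have hg4 : g ^ 4 = 1 := by
        rcases hg with h | h
        · rw [show (4 : ℕ) = 2 * 2 from rfl, pow_mul, h, one_pow]
        · exact h.2
      have hfix : ∀ n : ℕ, (φ ^ n) g = g := by
        intro n
        induction n with
        | zero => simp
        | succ n ih => rw [pow_succ, MulAut.mul_apply, hφ g hg4, ih]
      exact hfix _

end Cfsg.Agent.S1898
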