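import Cfsg.Statements.S1899

set_option autoImplicit false
open Cfsg

namespace Cfsg.Agent.S1899

/-- Let a dihedral group of order 2n, n odd and n > 1, act on a finite abelian 2-group A through automorphisms d and t with d^n = 1, t² = 1 and t d t⁻¹ = d⁻¹, and suppose that d fixes only the identity. Then A is the internal direct product of C_A(t) and its image under d. -/
theorem result {A : Type*} [CommGroup A] [Finite A] (hA : IsPGroup 2 A)
    {n : ℕ} (hn : Odd n) (hn1 : 1 < n) (d t : MulAut A) (hd : d ^ n = 1) (ht : t ^ 2 = 1) (hdt : t * d * t⁻¹ = d⁻¹)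
    (hfix : ∀ a : A, d a = a → a = 1) :
    (MulEquiv.toMonoidHom t).eqLocus (MonoidHom.id A) ⊓ ((MulEquiv.toMonoidHom t).eqLocus (MonoidHom.id A)).map d.toMonoidHom = ⊥ ∧
      (MulEquiv.toMonoidHom t).eqLocus (MonoidHom.id A) ⊔ ((MulEquiv.toMonoidHom t).eqLocus (MonoidHom.id A)).map d.toMonoidHom = ⊤ := by
  set B1 := (MulEquiv.toMonoidHom t).eqLocus (MonoidHom.id A) with hB1
  have mem1 : ∀ a, a ∈ B1 ↔ t a = a := fun a => Iff.rfl
  have htd : ∀ b, t (d b) = d⁻¹ (t b) := by
    intro b
    have := congrArg (fun f : MulAut A => f (t b)) hdt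
    simp only [MulAut.mul_apply, MulAut.inv_def, MulEquiv.symm_apply_apply] at this
    simpa [MulAut.inv_def] using this
  have htt : ∀ a, t (t a) = a := by
    intro a
    have := congrArg (fun f : MulAut A => f a) ht
    simpa [pow_two] using this
  have hsq : ∀ b, d (d b) = b → b = 1 := by
    intro b hb
    apply hfix
    obtain ⟨m, hm⟩ := hn
    have h2 : ∀ j, (d ^ (2 * j)) b = b := by
      intro j
      induction j with
      | zero => simp
      | succ j ih => rw [Nat.mul_succ, pow_add, MulAut.mul_apply, pow_two, MulAut.mul_apply, hb, ih]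
    have := congrArg (fun f : MulAut A => f b) hd
    rw [hm, pow_succ', MulAut.mul_apply, h2] at this
    simpa using this
  constructor
  · rw [eq_bot_iff]
    intro a ha
    obtain ⟨ha1, b, hb, rfl⟩ := ha
    simp only [Subgroup.mem_bot, MulEquiv.coe_toMonoidHom] at ha1 ⊢
    have hb' : t b = b := hb
    have h1 : t (d b) = d b := ha1
    rw [htd, hb'] at h1
    have h2 : d (d b) = b := by
      have := congrArg d h1
      simpa [MulAut.inv_def] using this.symm
    rw [hsq b h2, map_one]
  · set B := B1 ⊔ B1.map d.toMonoidHom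
    have h1 : ∀ a, a * t a ∈ B := fun a => Subgroup.mem_sup_left (by rw [mem1, map_mul, htt, mul_comm])
    have h2 : ∀ a, a * d (d (t a)) ∈ B := by
      intro a
      refine Subgroup.mem_sup_right ⟨d⁻¹ a * d (t a), ?_, ?_⟩
      · change t (d⁻¹ a * d (t a)) = d⁻¹ a * d (t a)
        have e : t (d⁻¹ a) = d (t a) := by
          have := htd (d⁻¹ a)
          simp only [MulAut.inv_def, MulEquiv.apply_symm_apply] at this
          have := congrArg d this
          simpa [MulAut.inv_def] using this.symm
        rw [map_mul, e, htd, htt, mul_comm]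
      · simp [MulAut.inv_def]
    have h3 : ∀ x, x⁻¹ * d (d x) ∈ B := by
      intro x
      have := B.mul_mem (h2 (t x)) (B.inv_mem (h1 x))
      rw [htt, mul_inv_rev] at this
      have e : t x * d (d x) * ((t x)⁻¹ * x⁻¹) = x⁻¹ * d (d x) := by
        rw [mul_comm (t x) (d (d x)), mul_assoc, ← mul_assoc (t x), mul_inv_cancel, one_mul, mul_comm]
      rwa [e] at this
    have hinj : Function.Injective (fun x : A => x⁻¹ * d (d x)) := by
      intro x y hxy
      simp only at hxy
      have hz : d (d (x / y)) = x / y := by
        rw [map_div, map_div, div_eq_div_iff_mul_eq_mul]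
        have := congrArg (fun z => x * y * z) hxy
        simp only [← mul_assoc] at this
        rw [mul_comm x y, mul_assoc y x, mul_inv_cancel, mul_one, mul_comm y x, mul_assoc x y, mul_inv_cancel,
          mul_one] at this
        rw [mul_comm (d (d x)), this]
      exact div_eq_one.mp (hsq _ hz)
    rw [Subgroup.eq_top_iff']
    intro a
    obtain ⟨x, rfl⟩ := (Finite.injective_iff_surjective.mp hinj) a
    exact h3 x

end Cfsg.Agent.S1899
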