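import Cfsg.Statements.S1900
import Cfsg.Agent.Lib.GroupB.Coprime
import Cfsg.Agent.Lib.CoprimeGen

set_option autoImplicit false
open Cfsg

namespace Cfsg.Agent.S1900
open scoped commutatorElement


/-- Let S = PQ be a finite group with P a normal Sylow p-subgroup and Q elementary abelian of order q², q a prime different from p. If exactly two subgroups X₁, X₂ of order q in Q have a nontrivial centralizer in P, then P is the internal direct product of C_P(X₁) and C_P(X₂): they commute elementwise, meet trivially and generate P. -/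
theorem result {S : Type*} [Group S] [Finite S] {p q : ℕ} [Fact p.Prime] [Fact q.Prime] (hpq : p ≠ q)
    (P : Sylow p S) [(P : Subgroup S).Normal] (Q : Subgroup S) (hQ : Cfsg.IsElementaryAbelian q Q) (hQc : Nat.card Q = q ^ 2)
    (hS : (P : Subgroup S) ⊔ Q = ⊤)
    (X₁ X₂ : Subgroup S) (h₁ : X₁ ≤ Q) (h₂ : X₂ ≤ Q) (h₁₂ : X₁ ≠ X₂) (hc₁ : Nat.card X₁ = q) (hc₂ : Nat.card X₂ = q)
    (hf₁ : (P : Subgroup S) ⊓ Subgroup.centralizer (X₁ : Set S) ≠ ⊥)
    (hf₂ : (P : Subgroup S) ⊓ Subgroup.centralizer (X₂ : Set S) ≠ ⊥)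
    (honly : ∀ X : Subgroup S, X ≤ Q → Nat.card X = q →
      (P : Subgroup S) ⊓ Subgroup.centralizer (X : Set S) ≠ ⊥ → X = X₁ ∨ X = X₂) :
    ⁅(P : Subgroup S) ⊓ Subgroup.centralizer (X₁ : Set S), (P : Subgroup S) ⊓ Subgroup.centralizer (X₂ : Set S)⁆ = ⊥ ∧
      ((P : Subgroup S) ⊓ Subgroup.centralizer (X₁ : Set S)) ⊓ ((P : Subgroup S) ⊓ Subgroup.centralizer (X₂ : Set S)) = ⊥ ∧
      ((P : Subgroup S) ⊓ Subgroup.centralizer (X₁ : Set S)) ⊔ ((P : Subgroup S) ⊓ Subgroup.centralizer (X₂ : Set S)) = P := by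
  classical
  set Pg := (P : Subgroup S)
  haveI := hQ.1
  have hQcomm : ∀ a ∈ Q, ∀ b ∈ Q, a * b = b * a := fun a ha b hb => congrArg Subtype.val (mul_comm' (⟨a, ha⟩ : ↥Q) ⟨b, hb⟩)
  obtain ⟨j, hj⟩ := IsPGroup.iff_card.mp P.2
  have hcop : ∀ M : Subgroup S, M ≤ Pg → (Nat.card M).Coprime q := fun M hM =>
    (((Nat.coprime_primes (Fact.out : p.Prime) (Fact.out : q.Prime)).mpr hpq).pow_left j).coprime_dvd_left
      (hj ▸ Subgroup.card_dvd_of_le hM)
  have hX : ∀ X : Subgroup S, Nat.card X = q → ∀ a ∈ X, a ≠ 1 → Subgroup.centralizer ({a} : Set S) = Subgroup.centralizer (X : Set S) := by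
    intro X hc a ha ha1
    have e : Subgroup.zpowers a = X := by
      refine Subgroup.eq_of_le_of_card_ge (Subgroup.zpowers_le.mpr ha) ?_
      rw [hc, Nat.card_zpowers]
      exact ((Nat.dvd_prime (Fact.out : q.Prime)).mp (hc ▸ X.orderOf_dvd_natCard ha)).resolve_left (mt orderOf_eq_one_iff.mp ha1) |>.ge
    rw [← e, Subgroup.zpowers_eq_closure, Subgroup.centralizer_closure]
  set C₁ := Pg ⊓ Subgroup.centralizer (X₁ : Set S) with hC₁
  set C₂ := Pg ⊓ Subgroup.centralizer (X₂ : Set S) with hC₂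
  have hX12 : X₁ ⊔ X₂ = Q := by
    refine Subgroup.eq_of_le_of_card_ge (sup_le h₁ h₂) ?_
    have hdvd : q ∣ Nat.card ↥(X₁ ⊔ X₂) := hc₁ ▸ Subgroup.card_dvd_of_le le_sup_left
    obtain ⟨i, hi, hie⟩ := (Nat.dvd_prime_pow (Fact.out : q.Prime)).mp (hQc ▸ Subgroup.card_dvd_of_le (sup_le h₁ h₂) : Nat.card ↥(X₁ ⊔ X₂) ∣ q ^ 2)
    rw [hQc, hie]
    refine Nat.pow_le_pow_right (Fact.out : q.Prime).pos ?_
    by_contra hlt
    have hle : Nat.card ↥(X₁ ⊔ X₂) ≤ q := by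
      rw [hie]
      calc q ^ i ≤ q ^ 1 := Nat.pow_le_pow_right (Fact.out : q.Prime).pos (by omega)
        _ = q := pow_one q
    exact h₁₂ ((Subgroup.eq_of_le_of_card_ge le_sup_left (hc₁ ▸ hle)).trans
      (Subgroup.eq_of_le_of_card_ge le_sup_right (hc₂ ▸ hle)).symm)
  have hCQ : Pg ⊓ Subgroup.centralizer (Q : Set S) = ⊥ := by
    by_contra hne
    obtain ⟨a, ha, ha1⟩ : ∃ a ∈ X₁, a ≠ 1 := by
      by_contra hall
      push Not at hall
      rw [(Subgroup.eq_bot_iff_forall X₁).mpr hall, Subgroup.card_bot] at hc₁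
      exact (Fact.out : q.Prime).one_lt.ne hc₁
    obtain ⟨b, hb, hb1⟩ : ∃ b ∈ X₂, b ≠ 1 := by
      by_contra hall
      push Not at hall
      rw [(Subgroup.eq_bot_iff_forall X₂).mpr hall, Subgroup.card_bot] at hc₂
      exact (Fact.out : q.Prime).one_lt.ne hc₂
    have hd : X₁ ⊓ X₂ = ⊥ := by
      by_contra h
      have h' : Nat.card ↥(X₁ ⊓ X₂) = q := ((Nat.dvd_prime (Fact.out : q.Prime)).mp
        (hc₁ ▸ Subgroup.card_dvd_of_le inf_le_left)).resolve_left (mt Subgroup.card_eq_one.mp h)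
      exact h₁₂ ((Subgroup.eq_of_le_of_card_ge inf_le_left (hc₁.trans h'.symm).le).symm.trans
        (Subgroup.eq_of_le_of_card_ge inf_le_right (hc₂.trans h'.symm).le))
    have habQ : a * b ∈ Q := Q.mul_mem (h₁ ha) (h₂ hb)
    have hab : a * b ≠ 1 := fun e => ha1 (by
      have : a ∈ X₁ ⊓ X₂ := ⟨ha, (mul_eq_one_iff_eq_inv.mp e) ▸ X₂.inv_mem hb⟩
      rwa [hd, Subgroup.mem_bot] at this)
    have hord : Nat.card ↥(Subgroup.zpowers (a * b)) = q := by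
      rw [Nat.card_zpowers]; exact orderOf_eq_prime (hQ.2 _ habQ) hab
    have hle : Subgroup.zpowers (a * b) ≤ Q := Subgroup.zpowers_le.mpr habQ
    have hf : Pg ⊓ Subgroup.centralizer ((Subgroup.zpowers (a * b) : Subgroup S) : Set S) ≠ ⊥ :=
      ne_bot_of_le_ne_bot hne (inf_le_inf_left _ (Subgroup.centralizer_le hle))
    rcases honly _ hle hord hf with e | e
    · have h1 : a * b ∈ X₁ := e ▸ Subgroup.mem_zpowers _
      have : b ∈ X₁ ⊓ X₂ := ⟨by simpa using X₁.mul_mem (X₁.inv_mem ha) h1, hb⟩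
      exact hb1 (by rwa [hd, Subgroup.mem_bot] at this)
    · have h1 : a * b ∈ X₂ := e ▸ Subgroup.mem_zpowers _
      have : a ∈ X₁ ⊓ X₂ := ⟨ha, by simpa using X₂.mul_mem h1 (X₂.inv_mem hb)⟩
      exact ha1 (by rwa [hd, Subgroup.mem_bot] at this)
  have hC12 : C₁ ⊓ C₂ = ⊥ := by
    rw [← le_bot_iff, ← hCQ]
    refine le_inf (inf_le_left.trans inf_le_left) fun x hx => ?_
    rw [← hX12]
    exact Subgroup.le_centralizer_iff.mp (sup_le (Subgroup.le_centralizer_iff.mp (Subgroup.zpowers_le.mpr hx.1.2))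
      (Subgroup.le_centralizer_iff.mp (Subgroup.zpowers_le.mpr hx.2.2))) (Subgroup.mem_zpowers x)
  have hQP : Q ≤ Subgroup.normalizer (Pg : Set S) := by rw [Subgroup.normalizer_eq_top Pg]; exact le_top
  have hgen : ∀ M : Subgroup S, M ≤ Pg → Q ≤ Subgroup.normalizer (M : Set S) → M ≤ (M ⊓ C₁) ⊔ (M ⊓ C₂) := by
    intro M hM hMn
    refine CfsgLib.CoprimeGen.le_of_centralizers_le M Q _ hMn (hcop M hM) hQ.1 hQ.2 hQc.ge fun a ha ha1 => ?_
    rintro m ⟨hm, hma⟩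
    by_cases hb : Pg ⊓ Subgroup.centralizer ((Subgroup.zpowers a : Subgroup S) : Set S) = ⊥
    · have : m ∈ Pg ⊓ Subgroup.centralizer ((Subgroup.zpowers a : Subgroup S) : Set S) := by
        refine ⟨hM hm, ?_⟩
        rw [Subgroup.zpowers_eq_closure, Subgroup.centralizer_closure]
        exact hma
      rw [hb, Subgroup.mem_bot] at this
      rw [this]; exact one_mem _
    · have hord : Nat.card ↥(Subgroup.zpowers a) = q := by
        rw [Nat.card_zpowers]; exact orderOf_eq_prime (hQ.2 a ha) ha1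
      rcases honly _ (Subgroup.zpowers_le.mpr ha) hord hb with e | e
      · exact Subgroup.mem_sup_left ⟨hm, hM hm, (hX X₁ hc₁ a (e ▸ Subgroup.mem_zpowers a) ha1).le hma⟩
      · exact Subgroup.mem_sup_right ⟨hm, hM hm, (hX X₂ hc₂ a (e ▸ Subgroup.mem_zpowers a) ha1).le hma⟩
  have hCn : ∀ X : Subgroup S, X ≤ Q → Q ≤ Subgroup.normalizer ((Pg ⊓ Subgroup.centralizer (X : Set S) : Subgroup S) : Set S) := by
    intro X hXQ
    refine CfsgLib.GroupB.Coprime.le_normalizer_of_conj_mem fun k hk x hx => ⟨?_, Subgroup.mem_centralizer_iff.mpr fun y hy => ?_⟩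
    · exact (CfsgLib.GroupB.Coprime.conj_mem_iff (hQP hk)).mpr hx.1
    · have h1 := Subgroup.mem_centralizer_iff.mp hx.2 y hy
      have h2 := hQcomm k hk y (hXQ hy)
      have h3 := hQcomm k⁻¹ (Q.inv_mem hk) y (hXQ hy)
      calc y * (k * x * k⁻¹) = (y * k) * x * k⁻¹ := by group
        _ = k * (y * x) * k⁻¹ := by rw [← h2]; group
        _ = k * x * (y * k⁻¹) := by rw [h1]; group
        _ = k * x * (k⁻¹ * y) := by rw [h3]
        _ = _ := by group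
  have hgenP : C₁ ⊔ C₂ = Pg := le_antisymm (sup_le inf_le_left inf_le_left)
    ((hgen Pg le_rfl hQP).trans (sup_le_sup inf_le_right inf_le_right))
  refine ⟨?_, hC12, hgenP⟩
  -- commutators descend the upper central series
  haveI : Group.IsNilpotent ↥Pg := P.2.isNilpotent
  let Z : ℕ → Subgroup S := fun k => (Subgroup.upperCentralSeries ↥Pg k).map Pg.subtype
  have hZP : ∀ k, Z k ≤ Pg := fun k => Subgroup.map_subtype_le _
  have hZn : ∀ k, ∀ g ∈ Subgroup.normalizer (Pg : Set S), ∀ z ∈ Z k, g * z * g⁻¹ ∈ Z k := by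
    rintro k g hg _ ⟨z, hz, rfl⟩
    let e : ↥Pg ≃* ↥Pg := (Subgroup.equivMapOfInjective Pg (MulAut.conj g).toMonoidHom (MulEquiv.injective _)).trans
      (MulEquiv.subgroupCongr (CfsgLib.GroupB.Coprime.mem_normalizer_iff_map_conj_eq.mp hg))
    have hc : (Subgroup.upperCentralSeries ↥Pg k).map e.toMonoidHom = Subgroup.upperCentralSeries ↥Pg k :=
      Subgroup.characteristic_iff_map_eq.mp inferInstance e
    exact ⟨e z, hc.le ⟨z, hz, rfl⟩, rfl⟩
  have hstep : ∀ k, ∀ m ∈ Z (k + 1), ∀ g ∈ Pg, m * g * m⁻¹ * g⁻¹ ∈ Z k := by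
    rintro k _ ⟨m, hm, rfl⟩ g hg
    exact ⟨_, Subgroup.mem_upperCentralSeries_succ_iff.mp hm ⟨g, hg⟩, rfl⟩
  have hdesc : ∀ k, (∀ c ∈ C₁, ∀ d ∈ C₂, c * d * c⁻¹ * d⁻¹ ∈ Z (k + 1)) → ∀ c ∈ C₁, ∀ d ∈ C₂, c * d * c⁻¹ * d⁻¹ ∈ Z k := by
    intro k hk
    set N := Z k with hN
    set M := Z (k + 1) with hM
    have hNM : N ≤ M := Subgroup.map_mono (Subgroup.upperCentralSeries_mono ↥Pg (Nat.le_succ k))
    have hNn : ∀ g ∈ Subgroup.normalizer (Pg : Set S), ∀ z ∈ N, g * z * g⁻¹ ∈ N := hZn k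
    have hPgn : ∀ g ∈ Pg, g ∈ Subgroup.normalizer (Pg : Set S) := fun g hg => Subgroup.le_normalizer hg
    have hcent : ∀ m ∈ M, ∀ g ∈ Pg, g * m * g⁻¹ * m⁻¹ ∈ N := fun m hm g hg => by
      have := hstep k m hm g hg
      rw [show g * m * g⁻¹ * m⁻¹ = (m * g * m⁻¹ * g⁻¹)⁻¹ by group]
      exact N.inv_mem this
    have hMn : Q ≤ Subgroup.normalizer (M : Set S) :=
      CfsgLib.GroupB.Coprime.le_normalizer_of_conj_mem fun a ha => hZn (k + 1) a (hQP ha)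
    have main : ∀ (A B : Subgroup S), A ≤ Q → B ≤ Q →
        (M ≤ (M ⊓ (Pg ⊓ Subgroup.centralizer (A : Set S))) ⊔ (M ⊓ (Pg ⊓ Subgroup.centralizer (B : Set S)))) →
        (Pg ⊓ Subgroup.centralizer (A : Set S)) ⊓ (Pg ⊓ Subgroup.centralizer (B : Set S)) = ⊥ →
        Nat.card B = q →
        (∀ c ∈ Pg ⊓ Subgroup.centralizer (A : Set S), ∀ d ∈ Pg ⊓ Subgroup.centralizer (B : Set S), c * d * c⁻¹ * d⁻¹ ∈ M) →
        ∀ c ∈ Pg ⊓ Subgroup.centralizer (A : Set S), ∀ d ∈ Pg ⊓ Subgroup.centralizer (B : Set S),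
          c * d * c⁻¹ * d⁻¹ ∈ (M ⊓ (Pg ⊓ Subgroup.centralizer (A : Set S))) ⊔ N := by
      intro A B hA hB hMgen hAB hBc hAM c hc d hd
      set CA := Pg ⊓ Subgroup.centralizer (A : Set S)
      set K := (M ⊓ CA) ⊔ N
      have hKM : K ≤ M := sup_le inf_le_left hNM
      have hKn : ∀ g ∈ Pg, ∀ x ∈ K, g * x * g⁻¹ ∈ K := fun g hg x hx => by
        have := hcent x (hKM hx) g hg
        rw [show g * x * g⁻¹ = (g * x * g⁻¹ * x⁻¹) * x by group]
        exact K.mul_mem (Subgroup.mem_sup_right this) hx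
      let T : Subgroup S :=
        { carrier := {x | x ∈ CA ∧ x * d * x⁻¹ * d⁻¹ ∈ K}
          one_mem' := ⟨one_mem _, by simp⟩
          mul_mem' := fun {x y} hx hy => ⟨CA.mul_mem hx.1 hy.1, by
            rw [show x * y * d * (x * y)⁻¹ * d⁻¹ = (x * (y * d * y⁻¹ * d⁻¹) * x⁻¹) * (x * d * x⁻¹ * d⁻¹) by group]
            exact K.mul_mem (hKn x hx.1.1 _ hy.2) hx.2⟩
          inv_mem' := fun {x} hx => ⟨CA.inv_mem hx.1, by
            rw [show x⁻¹ * d * x⁻¹⁻¹ * d⁻¹ = x⁻¹ * (x * d * x⁻¹ * d⁻¹)⁻¹ * x⁻¹⁻¹ by group]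
            exact hKn _ (Pg.inv_mem hx.1.1) _ (K.inv_mem hx.2)⟩ }
      have hBn : B ≤ Subgroup.normalizer (CA : Set S) := hB.trans (hCn A hA)
      have hcopB : (Nat.card B).Coprime (Nat.card CA) := hBc ▸ (hcop CA inf_le_left).symm
      have hfull : CA ≤ ⁅CA, B⁆ := by
        conv_lhs => rw [← CfsgLib.GroupB.Coprime.centralizer_sup_commutator hBn hcopB (Or.inl
          (have := (P.2.to_le (inf_le_left : CA ≤ Pg)).isNilpotent; inferInstance))]
        refine sup_le ?_ le_rfl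
        refine le_trans ?_ bot_le
        rw [← hAB]
        exact le_inf inf_le_left (le_inf (inf_le_left.trans inf_le_left) inf_le_right)
      refine (show ⁅CA, B⁆ ≤ T from ?_) (hfull hc) |>.2
      rw [Subgroup.commutator_le]
      intro u hu x hx
      have hxu : x * u⁻¹ * x⁻¹ ∈ CA := (CfsgLib.GroupB.Coprime.conj_mem_iff (hBn hx)).mpr (CA.inv_mem hu)
      have hmem : ⁅u, x⁆ ∈ CA := by
        rw [commutatorElement_def, show u * x * u⁻¹ * x⁻¹ = u * (x * u⁻¹ * x⁻¹) by group]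
        exact CA.mul_mem hu hxu
      refine ⟨hmem, ?_⟩
      have hxd : x * d = d * x := Subgroup.mem_centralizer_iff.mp hd.2 x hx
      set z := u * d * u⁻¹ * d⁻¹ with hz
      have hzM : z ∈ M := hAM u hu d hd
      -- [z, x] lies in K
      obtain ⟨m, hm, hzx⟩ : ∃ m ∈ K, z * x * z⁻¹ * x⁻¹ = m := by
        refine ⟨_, ?_, rfl⟩
        let W : Subgroup S :=
          { carrier := {y | y ∈ M ∧ y * x * y⁻¹ * x⁻¹ ∈ K}
            one_mem' := ⟨one_mem _, by simp⟩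
            mul_mem' := fun {a b} ha hb => ⟨M.mul_mem ha.1 hb.1, by
              rw [show a * b * x * (a * b)⁻¹ * x⁻¹ = (a * (b * x * b⁻¹ * x⁻¹) * a⁻¹) * (a * x * a⁻¹ * x⁻¹) by group]
              exact K.mul_mem (hKn a (hZP _ ha.1) _ hb.2) ha.2⟩
            inv_mem' := fun {a} ha => ⟨M.inv_mem ha.1, by
              rw [show a⁻¹ * x * a⁻¹⁻¹ * x⁻¹ = a⁻¹ * (a * x * a⁻¹ * x⁻¹)⁻¹ * a⁻¹⁻¹ by group]
              exact hKn _ (Pg.inv_mem (hZP _ ha.1)) _ (K.inv_mem ha.2)⟩ }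
        refine (show M ≤ W from hMgen.trans (sup_le ?_ ?_)) hzM |>.2
        · intro y hy
          refine ⟨hy.1, Subgroup.mem_sup_left ?_⟩
          rw [show y * x * y⁻¹ * x⁻¹ = y * (x * y⁻¹ * x⁻¹) by group]
          have h1 : x * y⁻¹ * x⁻¹ ∈ M ⊓ CA :=
            ⟨(CfsgLib.GroupB.Coprime.conj_mem_iff (hMn (hB hx))).mpr (M.inv_mem hy.1),
              (CfsgLib.GroupB.Coprime.conj_mem_iff (hBn hx)).mpr (CA.inv_mem hy.2)⟩
          exact (M ⊓ CA).mul_mem hy h1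
        · intro y hy
          refine ⟨hy.1, ?_⟩
          rw [← Subgroup.mem_centralizer_iff.mp hy.2.2 x hx, mul_inv_cancel_right, mul_inv_cancel]
          exact one_mem _
      have e : ⁅u, x⁆ * d * ⁅u, x⁆⁻¹ * d⁻¹ = u * (x * (u⁻¹ * z⁻¹ * u) * x⁻¹) * u⁻¹ * z := by
        rw [commutatorElement_def, hz]
        calc u * x * u⁻¹ * x⁻¹ * d * (u * x * u⁻¹ * x⁻¹)⁻¹ * d⁻¹ = u * x * u⁻¹ * (x⁻¹ * (d * x)) * u * x⁻¹ * u⁻¹ * d⁻¹ := by group
          _ = u * x * u⁻¹ * d * u * x⁻¹ * u⁻¹ * d⁻¹ := by rw [← hxd]; group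
          _ = u * x * (u⁻¹ * d * u * d⁻¹) * (d * x⁻¹) * u⁻¹ * d⁻¹ := by group
          _ = u * x * (u⁻¹ * d * u * d⁻¹) * (x⁻¹ * d) * u⁻¹ * d⁻¹ := by
              rw [show d * x⁻¹ = x⁻¹ * d from by rw [eq_inv_mul_iff_mul_eq, ← mul_assoc, hxd]; group]
          _ = _ := by group
      rw [e]
      -- modulo `N` this is `x z⁻¹ x⁻¹ z`
      have hu' : u ∈ Pg := hu.1
      have h1 : u⁻¹ * z⁻¹ * u * z ∈ N := by
        have := hcent z⁻¹ (M.inv_mem hzM) u⁻¹ (Pg.inv_mem hu')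
        simpa [mul_assoc] using this
      have hxN : x * (u⁻¹ * z⁻¹ * u * z) * x⁻¹ ∈ N := hNn x (hQP (hB hx)) _ h1
      have hxz : x * z⁻¹ * x⁻¹ * z ∈ K := by
        have : z⁻¹ * (z * x * z⁻¹ * x⁻¹) * z⁻¹⁻¹ ∈ K := hKn _ (Pg.inv_mem (hZP _ hzM)) _ (hzx ▸ hm)
        simpa [mul_assoc] using this
      have hM' : x * (u⁻¹ * z⁻¹ * u) * x⁻¹ * z ∈ K := by
        rw [show x * (u⁻¹ * z⁻¹ * u) * x⁻¹ * z = (x * (u⁻¹ * z⁻¹ * u * z) * x⁻¹) * (x * z⁻¹ * x⁻¹ * z) by group]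
        exact K.mul_mem (Subgroup.mem_sup_right hxN) hxz
      set w := x * (u⁻¹ * z⁻¹ * u) * x⁻¹
      rw [show u * w * u⁻¹ * z = (u * (w * z) * u⁻¹) * (u * z⁻¹ * u⁻¹ * z) by group]
      refine K.mul_mem (hKn u hu' _ hM') (Subgroup.mem_sup_right ?_)
      have := hcent z⁻¹ (M.inv_mem hzM) u hu'
      simpa using this
    intro c hc d hd
    have h1 := main X₁ X₂ h₁ h₂ (hgen M (hZP _) hMn) hC12 hc₂ hk c hc d hd
    have h2 : c * d * c⁻¹ * d⁻¹ ∈ (M ⊓ C₂) ⊔ N := by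
      have := main X₂ X₁ h₂ h₁ ((hgen M (hZP _) hMn).trans (sup_comm _ _).le) ((inf_comm C₂ C₁).trans hC12) hc₁
        (fun a ha b hb => by
          rw [show a * b * a⁻¹ * b⁻¹ = (b * a * b⁻¹ * a⁻¹)⁻¹ by group]
          exact M.inv_mem (hk b hb a ha)) d hd c hc
      rw [show c * d * c⁻¹ * d⁻¹ = (d * c * d⁻¹ * c⁻¹)⁻¹ by group]
      exact inv_mem this
    have hnn : ∀ T : Subgroup S, T ≤ Pg → T ≤ Subgroup.normalizer (N : Set S) := fun T hT =>
      CfsgLib.GroupB.Coprime.le_normalizer_of_conj_mem fun g hg => hNn g (hPgn g (hT hg))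
    rw [sup_comm, CfsgLib.GroupB.Coprime.mem_sup_of_le_normalizer (hnn _ (inf_le_right.trans inf_le_left))] at h1 h2
    obtain ⟨n, hn, a, ha, he⟩ := h1
    obtain ⟨n', hn', b, hb, he'⟩ := h2
    suffices a ∈ N by rw [← he]; exact N.mul_mem hn this
    have hab : a * b⁻¹ ∈ N := by
      rw [show a * b⁻¹ = n⁻¹ * n' by rw [eq_inv_mul_iff_mul_eq, ← mul_assoc, he, ← he']; group]
      exact N.mul_mem (N.inv_mem hn) hn'
    have hPgN : Pg ≤ Subgroup.normalizer (N : Set S) := hnn Pg le_rfl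
    have hfix : ∀ t ∈ Q, a⁻¹ * t * a * t⁻¹ ∈ N := by
      let W : Subgroup S := Subgroup.normalizer (N : Set S)
      have key : ∀ t ∈ X₁ ⊔ X₂, a⁻¹ * t * a * t⁻¹ ∈ N := by
        let R : Subgroup S :=
          { carrier := {t | t ∈ Subgroup.normalizer (N : Set S) ∧ a⁻¹ * t * a * t⁻¹ ∈ N}
            one_mem' := ⟨one_mem _, by simp⟩
            mul_mem' := fun {s t} hs ht => ⟨mul_mem hs.1 ht.1, by
              rw [show a⁻¹ * (s * t) * a * (s * t)⁻¹ = (a⁻¹ * s * a * s⁻¹) * (s * (a⁻¹ * t * a * t⁻¹) * s⁻¹) by group]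
              exact N.mul_mem hs.2 ((CfsgLib.GroupB.Coprime.conj_mem_iff hs.1).mpr ht.2)⟩
            inv_mem' := fun {s} hs => ⟨inv_mem hs.1, by
              rw [show a⁻¹ * s⁻¹ * a * s⁻¹⁻¹ = s⁻¹ * (a⁻¹ * s * a * s⁻¹)⁻¹ * s⁻¹⁻¹ by group]
              exact (CfsgLib.GroupB.Coprime.conj_mem_iff (inv_mem hs.1)).mpr (N.inv_mem hs.2)⟩ }
        have hQN : ∀ t ∈ Q, t ∈ Subgroup.normalizer (N : Set S) := fun t ht =>
          CfsgLib.GroupB.Coprime.le_normalizer_of_conj_mem (fun g hg => hNn g (hQP hg)) ht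
        refine fun t ht => ((sup_le ?_ ?_ : X₁ ⊔ X₂ ≤ R) ht).2
        · intro t ht
          refine ⟨hQN t (h₁ ht), ?_⟩
          rw [mul_assoc a⁻¹ t a, Subgroup.mem_centralizer_iff.mp ha.2.2 t ht]
          simp
        · intro t ht
          refine ⟨hQN t (h₂ ht), ?_⟩
          have hb' := Subgroup.mem_centralizer_iff.mp hb.2.2 t ht
          set m := a * b⁻¹ with hm
          have he1 : a⁻¹ * t * a * t⁻¹ = b⁻¹ * (m⁻¹ * (t * m * t⁻¹)) * b := by
            have hb2 : t * b * t⁻¹ = b := by rw [hb', mul_inv_cancel_right]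
            calc a⁻¹ * t * a * t⁻¹ = b⁻¹ * (m⁻¹ * (t * m * t⁻¹)) * (t * b * t⁻¹) := by rw [hm]; group
              _ = _ := by rw [hb2]
          rw [he1]
          have hbP : b ∈ Pg := hb.2.1
          have h3 := hNn b⁻¹ (hPgn _ (Pg.inv_mem hbP)) _ (N.mul_mem (N.inv_mem hab)
            ((CfsgLib.GroupB.Coprime.conj_mem_iff (hQN t (h₂ ht))).mpr hab))
          rwa [inv_inv] at h3
      intro t ht
      exact key t (hX12.ge ht)
    have hNn' : Q ≤ Subgroup.normalizer (N : Set S) := CfsgLib.GroupB.Coprime.le_normalizer_of_conj_mem fun g hg => hNn g (hQP hg)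
    obtain ⟨f, hf, hfa⟩ := CfsgLib.GroupB.Coprime.exists_fixed_of_coset hNn' (hQc ▸ ((hcop N (hZP _)).pow_right 2).symm)
      (Or.inl (have := (P.2.to_le (hZP k)).isNilpotent; inferInstance)) hQP (hQc ▸ ((hcop Pg le_rfl).pow_right 2).symm) (hZP _) ha.2.1 hfix
    rw [hCQ, Subgroup.mem_bot] at hf
    rw [hf, mul_one] at hfa
    exact inv_inv a ▸ N.inv_mem hfa
  obtain ⟨n, hn⟩ := Group.IsNilpotent.nilpotent ↥Pg
  have hall : ∀ i, i ≤ n → ∀ c ∈ C₁, ∀ d ∈ C₂, c * d * c⁻¹ * d⁻¹ ∈ Z (n - i) := by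
    intro i
    induction i with
    | zero =>
      intro _ c hc d hd
      have : c * d * c⁻¹ * d⁻¹ ∈ Pg := Pg.mul_mem (Pg.mul_mem (Pg.mul_mem hc.1 hd.1) (Pg.inv_mem hc.1)) (Pg.inv_mem hd.1)
      exact ⟨⟨_, this⟩, by rw [Nat.sub_zero, hn]; exact Subgroup.mem_top _, rfl⟩
    | succ i ih =>
      intro hi
      refine hdesc (n - (i + 1)) ?_
      rw [show n - (i + 1) + 1 = n - i by omega]
      exact ih (by omega)
  rw [Subgroup.eq_bot_iff_forall]
  suffices h : ⁅C₁, C₂⁆ ≤ ⊥ from fun x hx => h hx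
  rw [Subgroup.commutator_le]
  intro c hc d hd
  have := hall n le_rfl c hc d hd
  rw [Nat.sub_self] at this
  obtain ⟨w, hw, hwe⟩ := this
  rw [Subgroup.upperCentralSeries_zero, SetLike.mem_coe, Subgroup.mem_bot] at hw
  rw [hw, map_one] at hwe
  exact Subgroup.mem_bot.mpr hwe.symm

end Cfsg.Agent.S1900
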