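import Cfsg.Statements.S1901
import Cfsg.Agent.Lib.PSolvable

set_option autoImplicit false
open Cfsg
open scoped commutatorElement

namespace Cfsg.Agent.S1901

/-- Let G be a finite p-solvable group and Q a subgroup of order prime to p such that p divides the index of C_G(Q) in N_G(Q). Then Q normalizes no Sylow p-subgroup of G. -/
theorem result {G : Type*} [Group G] [Finite G] {p : ℕ} [Fact p.Prime]
    (hG : Cfsg.IsPSolvable p G) (Q : Subgroup G) (hQ : ¬ p ∣ Nat.card Q)
    (hA : p ∣ (Subgroup.centralizer (Q : Set G)).relIndex (Subgroup.normalizer (Q : Set G)))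
    (P : Sylow p G) : ¬ Q ≤ Subgroup.normalizer ((P : Subgroup G) : Set G) := by
  have hp : p.Prime := Fact.out
  suffices main : ∀ (m : ℕ) (H : Type u_1) [Group H] [Finite H], Nat.card H = m → Cfsg.IsPSolvable p H →
      ∀ (Q : Subgroup H) (P : Sylow p H), ¬ p ∣ Nat.card Q → Q ≤ Subgroup.normalizer ((P : Subgroup H) : Set H) →
      ∀ a ∈ Subgroup.normalizer (Q : Set H), (∃ k : ℕ, orderOf a = p ^ k) → ∀ q ∈ Q, a * q = q * a by
    intro hQP
    obtain ⟨z, hz⟩ := exists_prime_orderOf_dvd_card' (G := ↥(Subgroup.normalizer (Q : Set G)) ⧸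
      (Subgroup.centralizer (Q : Set G)).subgroupOf (Subgroup.normalizer (Q : Set G))) p hA
    obtain ⟨g, rfl⟩ := QuotientGroup.mk_surjective z
    obtain ⟨k, m, hm, hkm⟩ : ∃ k m : ℕ, ¬ p ∣ m ∧ orderOf g = p ^ k * m := by
      obtain ⟨k, m, hm, e⟩ := Nat.exists_eq_pow_mul_and_not_dvd (orderOf_pos g).ne' p hp.ne_one
      exact ⟨k, m, hm, e⟩
    have hgm : (g ^ m : ↥(Subgroup.normalizer (Q : Set G))) ∈
        (Subgroup.centralizer (Q : Set G)).subgroupOf (Subgroup.normalizer (Q : Set G)) := by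
      refine Subgroup.mem_centralizer_iff.mpr fun q hq => (main _ G rfl hG Q P hQ hQP _ (g ^ m).2 ?_ q hq).symm
      refine ⟨k, ?_⟩
      rw [Subgroup.orderOf_coe, orderOf_pow_of_dvd (fun h0 : m = 0 => hm (h0 ▸ dvd_zero p)) ⟨p ^ k, by rw [hkm, mul_comm]⟩,
        hkm, Nat.mul_div_cancel _ (Nat.pos_of_ne_zero fun h0 : m = 0 => hm (h0 ▸ dvd_zero p))]
    refine hm (hz ▸ orderOf_dvd_of_pow_eq_one ?_)
    rw [← QuotientGroup.mk_pow, QuotientGroup.eq_one_iff]
    exact hgm
  intro m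
  induction m using Nat.strong_induction_on with
  | _ m ih =>
  intro H _ _ hm hsol Q P hQ hQP a ha ⟨k, hk⟩ q hq
  subst hm
  rcases subsingleton_or_nontrivial H with hs | hn
  · exact Subsingleton.elim _ _
  have hquot : ∀ N : Subgroup H, N.Normal → N ≠ ⊥ → ∀ x ∈ Q, x⁻¹ * (a * x * a⁻¹) ∈ N := by
    intro N hN hN1 x hx
    let π := QuotientGroup.mk' N
    have hπ : Function.Surjective π := QuotientGroup.mk'_surjective N
    have hlt : Nat.card (H ⧸ N) < Nat.card H := by
      rw [← N.card_mul_index, ← Subgroup.index_eq_card]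
      exact lt_mul_of_one_lt_left (Nat.pos_of_ne_zero N.index_ne_zero_of_finite)
        ((Subgroup.one_lt_card_iff_ne_bot N).mpr hN1)
    obtain ⟨j, hj⟩ := (Nat.dvd_prime_pow hp).mp (hk ▸ orderOf_map_dvd π a)
    have h := ih _ hlt (H ⧸ N) rfl (CfsgLib.PSolvable.map π hπ hsol) (Q.map π) (P.mapSurjective hπ)
      (fun hd => hQ (hd.trans (Subgroup.card_map_dvd Q π)))
      (le_trans (Subgroup.map_mono hQP) (by rw [Sylow.coe_mapSurjective]; exact Subgroup.le_normalizer_map π))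
      (π a) (Subgroup.le_normalizer_map π ⟨a, ha, rfl⟩) ⟨j, hj.2⟩ (π x) ⟨x, hx, rfl⟩
    refine (QuotientGroup.eq_one_iff _).mp ?_
    show π (x⁻¹ * (a * x * a⁻¹)) = 1
    rw [map_mul, map_mul, map_mul, h, map_inv, map_inv]
    group
  have hshift : ∀ x ∈ Q, x⁻¹ * (a * x * a⁻¹) ∈ Q := fun x hx =>
    Q.mul_mem (Q.inv_mem hx) ((Subgroup.mem_normalizer_iff.mp ha x).mp hx)
  rcases Cfsg.Agent.S3798.core_ne_bot hsol with h | h
  · haveI := CfsgLib.Core.pCore_characteristic (G := H) p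
    have h1 := hquot _ inferInstance h q hq
    obtain ⟨j, hj⟩ := IsPGroup.iff_orderOf.mp (CfsgLib.Core.isPGroup_pCore (G := H) p) ⟨_, h1⟩
    rw [Subgroup.orderOf_mk] at hj
    have hn1 := orderOf_eq_one_iff.mp (Nat.eq_one_of_dvd_coprimes ((hp.coprime_iff_not_dvd.mpr hQ).symm.pow_right j)
      (Subgroup.orderOf_dvd_natCard Q (hshift q hq)) (hj ▸ dvd_rfl))
    rw [inv_mul_eq_one, eq_mul_inv_iff_mul_eq] at hn1
    exact hn1.symm
  · haveI := CfsgLib.Core.pPrimeCore_characteristic (G := H) p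
    set T := Cfsg.pPrimeCore p H
    have hT : T.Normal := inferInstance
    set Q0 := Q ⊓ T
    have hPC : (P : Subgroup H) ≤ Subgroup.centralizer (Q0 : Set H) := by
      intro x hx y hy
      have h2 : y * x * y⁻¹ * x⁻¹ ∈ (P : Subgroup H) ⊓ T := by
        refine ⟨(P : Subgroup H).mul_mem ((Subgroup.mem_normalizer_iff.mp (hQP hy.1) x).mp hx)
          ((P : Subgroup H).inv_mem hx), ?_⟩
        have := T.mul_mem hy.2 (hT.conj_mem _ (T.inv_mem hy.2) x)
        simpa [mul_assoc] using this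
      rw [CfsgLib.PConstrained.inf_eq_bot_of_coprime P.2 (CfsgLib.Core.card_pPrimeCore_coprime p),
        Subgroup.mem_bot, mul_inv_eq_one, mul_inv_eq_iff_eq_mul] at h2
      exact h2
    have haQ0 : a ∈ Subgroup.normalizer (Q0 : Set H) := by
      refine Subgroup.mem_normalizer_iff.mpr fun y => ⟨fun hy => ⟨(Subgroup.mem_normalizer_iff.mp ha y).mp hy.1,
        hT.conj_mem y hy.2 a⟩, fun hy => ⟨(Subgroup.mem_normalizer_iff.mp ha y).mpr hy.1, ?_⟩⟩
      simpa [mul_assoc] using hT.conj_mem _ hy.2 a⁻¹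
    have haC : a ∈ Subgroup.centralizer (Q0 : Set H) := by
      haveI : ((Subgroup.centralizer (Q0 : Set H)).subgroupOf (Subgroup.normalizer (Q0 : Set H))).Normal :=
        inferInstance
      set C' := (Subgroup.centralizer (Q0 : Set H)).subgroupOf (Subgroup.normalizer (Q0 : Set H))
      have h3 : ¬ p ∣ C'.index := fun hd => P.not_dvd_index (hd.trans (dvd_trans
        (Subgroup.relIndex_dvd_of_le_left _ hPC) (by
          have h4 := Subgroup.relIndex_mul_index (show (P : Subgroup H) ≤ Subgroup.normalizer (Q0 : Set H) from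
            hPC.trans (Subgroup.centralizer_le_normalizer _))
          exact ⟨_, h4.symm⟩)))
      have h5 : ((⟨a, haQ0⟩ : ↥(Subgroup.normalizer (Q0 : Set H))) : ↥(Subgroup.normalizer (Q0 : Set H)) ⧸ C') = 1 := by
        refine orderOf_eq_one_iff.mp (Nat.eq_one_of_dvd_coprimes ((hp.coprime_iff_not_dvd.mpr h3).pow_left k) ?_ ?_)
        · exact (orderOf_map_dvd (QuotientGroup.mk' C') _).trans (by rw [Subgroup.orderOf_mk, hk])
        · rw [Subgroup.index_eq_card]; exact orderOf_dvd_natCard _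
      exact (QuotientGroup.eq_one_iff (N := C') (⟨a, haQ0⟩ : ↥(Subgroup.normalizer (Q0 : Set H)))).mp h5
    have hn0 : q⁻¹ * (a * q * a⁻¹) ∈ Q0 := ⟨hshift q hq, hquot _ hT h q hq⟩
    refine CfsgLib.PSolvable.commute_of_coprime_shift (mul_inv_cancel_left q _).symm (haC _ hn0).symm ?_
    rw [hk]
    exact ((hp.coprime_iff_not_dvd.mpr fun hd => hQ
      (hd.trans (Subgroup.orderOf_dvd_natCard Q hn0.1)))).pow_left k

end Cfsg.Agent.S1901
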