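import Cfsg.Statements.S1905
import Cfsg.Agent.Lib.StronglyEmbedded
import Cfsg.Agent.Lib.StronglyEmbedded2
import Cfsg.Agent.Lib.LocalBasic

set_option autoImplicit false
open Cfsg

namespace Cfsg.Agent.S1905
open CfsgLib.Involution CfsgLib.LocalBasic

/-- Let M be a subgroup of even order of a finite group S such that M contains the centralizer in S of each of its involutions and the normal core of M in S has odd order. Then all involutions of S are conjugate. If moreover N_S(X) ≤ M for a Sylow 2-subgroup X of M and I is an involution in the centre of X, then all involutions of M are conjugate in M and M = M₀ C_M(I) for some subgroup M₀ of M of odd order. -/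
theorem result {S : Type*} [Group S] [Finite S] (M : Subgroup S) (hM : Even (Nat.card M))
    (hC : ∀ i ∈ M, orderOf i = 2 → Subgroup.centralizer ({i} : Set S) ≤ M) (hcore : Odd (Nat.card M.normalCore)) :
    (∀ x y : S, orderOf x = 2 → orderOf y = 2 → IsConj x y) ∧
      ∀ (X : Sylow 2 M) (I : M), I ∈ (Subgroup.center ↥(X : Subgroup ↥M)).map (X : Subgroup ↥M).subtype → orderOf I = 2 →
        Subgroup.normalizer (((X : Subgroup M).map M.subtype : Subgroup S) : Set S) ≤ M →
        (∀ x y : M, orderOf x = 2 → orderOf y = 2 → IsConj x y) ∧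
          ∃ M₀ : Subgroup M, Odd (Nat.card M₀) ∧
            ∀ m : M, ∃ a ∈ M₀, ∃ c ∈ Subgroup.centralizer ({I} : Set M), m = a * c := by
  classical
  haveI : Fact (Nat.Prime 2) := ⟨Nat.prime_two⟩
  have hinvM : ∃ i ∈ M, orderOf i = 2 := by
    obtain ⟨i, hi⟩ := exists_prime_orderOf_dvd_card' 2 (even_iff_two_dvd.mp hM)
    exact ⟨i, i.2, by rwa [Subgroup.orderOf_coe]⟩
  have hmove : ∀ i j : S, i ∈ M → orderOf i = 2 → j ∉ M → orderOf j = 2 → IsConj i j := by
    intro i j hi hi2 hj hj2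
    refine isConj_of_odd hi2 hj2 (Nat.not_even_iff_odd.mp fun he => ?_)
    obtain ⟨hw, hwi, hwj⟩ := central_involution hi2 hj2 he
    have hwM := hC i hi hi2 (Subgroup.mem_centralizer_singleton_iff.mpr hwi.eq)
    exact hj (hC _ hwM hw (Subgroup.mem_centralizer_singleton_iff.mpr hwj.eq.symm))
  obtain ⟨j, hjM, hj⟩ : ∃ j : S, j ∉ M ∧ orderOf j = 2 := by
    by_contra hall
    push Not at hall
    obtain ⟨i, hiM, hi⟩ := hinvM
    have hmem : i ∈ M.normalCore := fun g => by
      by_contra hc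
      exact hall _ hc ((orderOf_conj g i).trans hi)
    have := Subgroup.orderOf_dvd_natCard _ hmem
    rw [hi] at this
    exact hcore.not_two_dvd_nat this
  obtain ⟨i₀, hi₀M, hi₀⟩ := hinvM
  have hall : ∀ x : S, orderOf x = 2 → IsConj x j := by
    intro x hx
    by_cases hxM : x ∈ M
    · exact hmove x j hxM hx hjM hj
    · exact (hmove i₀ x hi₀M hi₀ hxM hx).symm.trans (hmove i₀ j hi₀M hi₀ hjM hj)
  refine ⟨fun x y hx hy => (hall x hx).trans (hall y hy).symm, fun X I hI hI2 hN => ?_⟩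
  have hIS : orderOf (I : S) = 2 := by rwa [Subgroup.orderOf_coe]
  have hSE : Cfsg.IsStronglyEmbedded M := by
    refine CfsgLib.StronglyEmbedded.of_conj_mem (fun h => hjM (h ▸ Subgroup.mem_top j)) hM fun t htM ht g hgt => ?_
    -- a Sylow subgroup of M containing t lies in the intersection
    have hp : IsPGroup 2 ↥(Subgroup.zpowers (⟨t, htM⟩ : ↥M)) := IsPGroup.of_card (n := 1)
      (by rw [Nat.card_zpowers, Subgroup.orderOf_mk, ht, pow_one])
    obtain ⟨R, hR⟩ := hp.exists_le_sylow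
    obtain ⟨m, hm⟩ := MulAction.exists_smul_eq ↥M X R
    obtain ⟨Ix, hIx, hIxe⟩ := hI
    set c : ↥M := m * I * m⁻¹ with hc
    have hc2 : orderOf (c : S) = 2 := by
      rw [Subgroup.orderOf_coe, hc, orderOf_conj, hI2]
    have hcR : ∀ r ∈ (R : Subgroup ↥M), r * c = c * r := by
      intro r hr
      rw [← hm] at hr
      obtain ⟨x, hx, rfl⟩ := hr
      have h1 := congrArg Subtype.val (Subgroup.mem_center_iff.mp hIx ⟨x, hx⟩)
      have h1' : x * I = I * x := hIxe ▸ h1
      show m * x * m⁻¹ * c = c * (m * x * m⁻¹)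
      rw [hc, show m * x * m⁻¹ * (m * I * m⁻¹) = m * (x * I) * m⁻¹ by group, h1']; group
    have hu2 : orderOf (g⁻¹ * t * g) = 2 := by
      have := orderOf_conj g⁻¹ t
      rw [inv_inv] at this
      rw [this, ht]
    have hcg : g⁻¹ * (c : S) * g ∈ M := by
      refine hC _ hgt hu2 (Subgroup.mem_centralizer_singleton_iff.mpr ?_)
      have h1 : t * (c : S) = c * t := congrArg Subtype.val (hcR _ (hR (Subgroup.mem_zpowers _)))
      calc g⁻¹ * c * g * (g⁻¹ * t * g) = g⁻¹ * (c * t) * g := by group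
        _ = g⁻¹ * (t * c) * g := by rw [h1]
        _ = _ := by group
    have hcg2 : orderOf (g⁻¹ * (c : S) * g) = 2 := by
      have := orderOf_conj g⁻¹ (c : S)
      rw [inv_inv] at this
      rw [this, hc2]
    -- g⁻¹ R g is a Sylow subgroup of M
    set R' := (R : Subgroup ↥M).map M.subtype with hR'
    have hR'g : R'.map (MulAut.conj g⁻¹).toMonoidHom ≤ M := by
      rintro _ ⟨_, ⟨r, hr, rfl⟩, rfl⟩
      show g⁻¹ * (r : S) * g⁻¹⁻¹ ∈ M
      rw [inv_inv]
      refine hC _ hcg hcg2 (Subgroup.mem_centralizer_singleton_iff.mpr ?_)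
      have h1 : (r : S) * c = c * r := congrArg Subtype.val (hcR r hr)
      calc g⁻¹ * r * g * (g⁻¹ * c * g) = g⁻¹ * (r * c) * g := by group
        _ = g⁻¹ * (c * r) * g := by rw [h1]
        _ = _ := by group
    let R₁ : Sylow 2 ↥M := Sylow.ofCard ((R'.map (MulAut.conj g⁻¹).toMonoidHom).subgroupOf M) (by
      rw [Nat.card_congr (Subgroup.subgroupOfEquivOfLe hR'g).toEquiv,
        Subgroup.card_map_of_injective (f := (MulAut.conj g⁻¹).toMonoidHom) (MulAut.conj g⁻¹).injective, hR',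
        Subgroup.card_map_of_injective M.subtype_injective, R.card_eq_multiplicity])
    obtain ⟨a, ha⟩ := MulAction.exists_smul_eq ↥M R₁ X
    have hmem : (a : S) * g⁻¹ * (m : S) ∈ M := by
      refine hN (mem_normalizer_of_conj_map_eq (Subgroup.eq_of_le_of_card_ge ?_
        (Subgroup.card_map_of_injective (f := (MulAut.conj ((a : S) * g⁻¹ * (m : S))).toMonoidHom)
          (MulAut.conj _).injective).ge))
      rintro _ ⟨_, ⟨x, hx, rfl⟩, rfl⟩
      have hxR : m * x * m⁻¹ ∈ (R : Subgroup ↥M) := hm ▸ ⟨x, hx, rfl⟩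
      have hg1 : g⁻¹ * ((m * x * m⁻¹ : ↥M) : S) * g⁻¹⁻¹ ∈ R'.map (MulAut.conj g⁻¹).toMonoidHom :=
        ⟨_, ⟨_, hxR, rfl⟩, rfl⟩
      refine ⟨a * ⟨_, hR'g hg1⟩ * a⁻¹, ha ▸ ⟨⟨_, hR'g hg1⟩, Subgroup.mem_subgroupOf.mpr hg1, rfl⟩, ?_⟩
      simp [mul_assoc]
    have : g⁻¹ ∈ M := by
      have := mul_mem (mul_mem (inv_mem a.2) hmem) (inv_mem m.2)
      simpa [mul_assoc] using this
    simpa using inv_mem this
  have hIM : (I : S) ∈ M := I.2
  obtain ⟨u, hu⟩ : ∃ u : S, u ∉ M := ⟨j, hjM⟩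
  have hD : M ⊓ M.map (MulAut.conj u).toMonoidHom ≤ M := inf_le_left
  refine ⟨fun x y hx hy => ?_, (M ⊓ M.map (MulAut.conj u).toMonoidHom).subgroupOf M, ?_, fun m => ?_⟩
  · obtain ⟨d, hd, hde⟩ := CfsgLib.StronglyEmbedded.conj_by_two_point hSE hu
      (show orderOf (x : S) = 2 by rwa [Subgroup.orderOf_coe]) x.2
      (show orderOf (y : S) = 2 by rwa [Subgroup.orderOf_coe]) y.2
    exact isConj_iff.mpr ⟨⟨d, hD hd⟩, Subtype.ext hde⟩
  · rw [Nat.card_congr (Subgroup.subgroupOfEquivOfLe hD).toEquiv]; exact hSE.2.2 u hu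
  · obtain ⟨d, hd, hde⟩ := CfsgLib.StronglyEmbedded.conj_by_two_point hSE hu hIS hIM
      ((orderOf_conj (m : S) (I : S)).trans hIS) (mul_mem (mul_mem m.2 hIM) (inv_mem m.2))
    refine ⟨⟨d, hD hd⟩, Subgroup.mem_subgroupOf.mpr hd, ⟨d, hD hd⟩⁻¹ * m, ?_, by group⟩
    refine Subgroup.mem_centralizer_singleton_iff.mpr (Subtype.ext ?_)
    show d⁻¹ * (m : S) * (I : S) = (I : S) * (d⁻¹ * (m : S))
    calc d⁻¹ * (m : S) * I = d⁻¹ * ((m : S) * I * (m : S)⁻¹) * m := by group
      _ = d⁻¹ * (d * I * d⁻¹) * m := by rw [hde]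
      _ = _ := by group

end Cfsg.Agent.S1905
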