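import Cfsg.Statements.S1907
import Cfsg.Agent.Lib.Core
import Cfsg.Agent.Lib.PConstrained

set_option autoImplicit false
open Cfsg

namespace Cfsg.Agent.S1907

/-- Let P be a Sylow p-subgroup of a finite group G, H = P ∩ O_{p',p}(G), N = N_G(H) and D = O_{p'}(G). (a) If y is an element of p-power order of N and d ∈ D with d⁻¹ y d ∈ N, then d = d₁ d₂ with d₁ ∈ C_D(y) and d₂ ∈ C_D(H). (b) Two elements of P that are conjugate in G are conjugate in N. -/
theorem result {G : Type*} [Group G] [Finite G] {p : ℕ} [Fact p.Prime] (P : Sylow p G) :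
    (∀ y ∈ Subgroup.normalizer (((P : Subgroup G) ⊓ Cfsg.pPrimePCore p G : Subgroup G) : Set G), (∃ k : ℕ, orderOf y = p ^ k) →
      ∀ d ∈ Cfsg.pPrimeCore p G, d⁻¹ * y * d ∈ Subgroup.normalizer (((P : Subgroup G) ⊓ Cfsg.pPrimePCore p G : Subgroup G) : Set G) →
        ∃ d₁ ∈ Cfsg.pPrimeCore p G ⊓ Subgroup.centralizer ({y} : Set G),
          ∃ d₂ ∈ Cfsg.pPrimeCore p G ⊓ Subgroup.centralizer (((P : Subgroup G) ⊓ Cfsg.pPrimePCore p G : Subgroup G) : Set G), d = d₁ * d₂) ∧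
    ∀ x y : G, x ∈ (P : Subgroup G) → y ∈ (P : Subgroup G) → IsConj x y →
      ∃ n ∈ Subgroup.normalizer (((P : Subgroup G) ⊓ Cfsg.pPrimePCore p G : Subgroup G) : Set G), n * x * n⁻¹ = y := by
  classical
  haveI := CfsgLib.Core.pPrimeCore_characteristic (G := G) p
  set D := Cfsg.pPrimeCore p G with hD
  set K := Cfsg.pPrimePCore p G with hK
  set π := QuotientGroup.mk' D with hπdef
  have hπ : Function.Surjective π := QuotientGroup.mk'_surjective D
  haveI hKn : K.Normal := by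
    haveI := CfsgLib.Core.pCore_characteristic (G := G ⧸ D) p
    exact (inferInstance : (Cfsg.pCore p (G ⧸ D)).Normal).comap π
  set H := (P : Subgroup G) ⊓ K with hH
  set N := Subgroup.normalizer (H : Set G) with hN
  have hDK : D ≤ K := fun x hx => by
    show π x ∈ Cfsg.pCore p (G ⧸ D)
    rw [show π x = 1 from (QuotientGroup.eq_one_iff x).mpr hx]; exact one_mem _
  have hKPD : ∀ k ∈ K, ∃ d ∈ D, ∃ h ∈ H, k = d * h := by
    intro k hk
    have h1 : π k ∈ (P : Subgroup G).map π := (CfsgLib.Core.pCore_le_sylow (P.mapSurjective hπ)) hk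
    obtain ⟨x, hx, hxk⟩ := h1
    have hd : k * x⁻¹ ∈ D := by
      rw [← QuotientGroup.eq_one_iff]
      show π (k * x⁻¹) = 1
      rw [map_mul, map_inv, hxk, mul_inv_cancel]
    refine ⟨k * x⁻¹, hd, x, Subgroup.mem_inf.mpr ⟨hx, ?_⟩, by rw [inv_mul_cancel_right]⟩
    have := mul_mem (inv_mem (hDK hd)) hk
    simpa [mul_assoc] using this
  have hDcop : (Nat.card ↥D).Coprime p := CfsgLib.Core.card_pPrimeCore_coprime p
  have hHp : IsPGroup p ↥H := P.2.to_le inf_le_left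
  have hHD : H ⊓ D = ⊥ := CfsgLib.PConstrained.inf_eq_bot_of_coprime hHp hDcop
  -- elements of `D` normalising `H` centralise it
  have hcent : D ⊓ N ≤ Subgroup.centralizer (H : Set G) := fun e he h hh => by
    obtain ⟨heD, heN⟩ := Subgroup.mem_inf.mp he
    have h1 : e * h * e⁻¹ * h⁻¹ ∈ H ⊓ D := Subgroup.mem_inf.mpr ⟨mul_mem ((Subgroup.mem_normalizer_iff.mp heN h).mp hh) (inv_mem hh), by
      rw [show e * h * e⁻¹ * h⁻¹ = e * (h * e⁻¹ * h⁻¹) by group]
      exact mul_mem heD ((inferInstance : D.Normal).conj_mem _ (inv_mem heD) h)⟩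
    rw [hHD, Subgroup.mem_bot, mul_inv_eq_one, mul_inv_eq_iff_eq_mul] at h1
    exact h1.symm
  have hPN : (P : Subgroup G) ≤ N := fun x hx => by
    rw [hN, Subgroup.mem_normalizer_iff]
    intro y
    constructor
    · intro hy
      obtain ⟨h1, h2⟩ := Subgroup.mem_inf.mp hy
      exact Subgroup.mem_inf.mpr ⟨mul_mem (mul_mem hx h1) (inv_mem hx), hKn.conj_mem y h2 x⟩
    · intro hy
      obtain ⟨h1, h2⟩ := Subgroup.mem_inf.mp hy
      have h3 := hKn.conj_mem _ h2 x⁻¹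
      have h4 := mul_mem (mul_mem (inv_mem hx) h1) hx
      simp only [inv_inv] at h3
      have e : x⁻¹ * (x * y * x⁻¹) * x = y := by group
      rw [e] at h3 h4
      exact Subgroup.mem_inf.mpr ⟨h4, h3⟩
  -- part (a)
  have hA : ∀ y ∈ N, (∃ k : ℕ, orderOf y = p ^ k) → ∀ d ∈ D, d⁻¹ * y * d ∈ N →
      ∃ d₁ ∈ D ⊓ Subgroup.centralizer ({y} : Set G), ∃ d₂ ∈ D ⊓ Subgroup.centralizer (H : Set G), d = d₁ * d₂ := by
    rintro y hyN ⟨k, hk⟩ d hd hy'N
    set y' := d⁻¹ * y * d with hy'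
    set E := D ⊓ N with hE
    set L := Subgroup.zpowers y ⊔ E with hL
    have hLN : L ≤ N := sup_le (Subgroup.zpowers_le.mpr hyN) inf_le_right
    haveI hEn : (E.subgroupOf L).Normal := ⟨fun e he l => by
      obtain ⟨h1, h2⟩ := Subgroup.mem_inf.mp (Subgroup.mem_subgroupOf.mp he)
      refine Subgroup.mem_subgroupOf.mpr (Subgroup.mem_inf.mpr ⟨?_, ?_⟩)
      · simpa using (inferInstance : D.Normal).conj_mem _ h1 (l : G)
      · simpa using mul_mem (mul_mem (hLN l.2) h2) (inv_mem (hLN l.2))⟩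
    have hyL : y ∈ L := Subgroup.mem_sup_left (Subgroup.mem_zpowers y)
    have hy'L : y' ∈ L := by
      have h1 : y⁻¹ * y' ∈ E := Subgroup.mem_inf.mpr ⟨by
        rw [hy', show y⁻¹ * (d⁻¹ * y * d) = y⁻¹ * d⁻¹ * y * d by group]
        exact mul_mem (by simpa using (inferInstance : D.Normal).conj_mem _ (inv_mem hd) y⁻¹) hd,
        mul_mem (inv_mem hyN) hy'N⟩
      have := mul_mem hyL (Subgroup.mem_sup_right (S := Subgroup.zpowers y) h1)
      rwa [mul_inv_cancel_left] at this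
    set Z1 := (Subgroup.zpowers y).subgroupOf L with hZ1
    have hyp : IsPGroup p ↥(Subgroup.zpowers y) := IsPGroup.of_card (n := k) (by rw [Nat.card_zpowers, hk])
    have hZ1p : IsPGroup p ↥Z1 := hyp.comap_subtype
    have hEcop : (Nat.card ↥(E.subgroupOf L)).Coprime p :=
      hDcop.coprime_dvd_left ((Nat.card_congr (Subgroup.subgroupOfEquivOfLe (le_sup_right : E ≤ L)).toEquiv).dvd.trans
        (Subgroup.card_dvd_of_le inf_le_left))
    have hdisj : Z1 ⊓ E.subgroupOf L = ⊥ := CfsgLib.PConstrained.inf_eq_bot_of_coprime hZ1p hEcop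
    have htop : Z1 ⊔ E.subgroupOf L = ⊤ := by
      rw [hZ1, ← Subgroup.subgroupOf_sup le_sup_left le_sup_right, Subgroup.subgroupOf_self]
    have hcomp : Subgroup.IsComplement' Z1 (E.subgroupOf L) := by
      refine Subgroup.isComplement'_of_disjoint_and_mul_eq_univ (disjoint_iff.mpr hdisj) ?_
      rw [← Subgroup.coe_mul_of_left_le_normalizer_right Z1 (E.subgroupOf L) (by rw [Subgroup.normalizer_eq_top]; exact le_top), htop,
        Subgroup.coe_top]
    have hidx : ¬ p ∣ Z1.index := by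
      rw [hcomp.symm.index_eq_card]
      exact (Fact.out : p.Prime).coprime_iff_not_dvd.mp hEcop.symm
    let S1 : Sylow p ↥L := hZ1p.toSylow hidx
    have hy'p : IsPGroup p ↥((Subgroup.zpowers y').subgroupOf L) := by
      refine IsPGroup.comap_subtype (IsPGroup.of_card (n := k) ?_)
      rw [Nat.card_zpowers, hy', ← hk]
      rw [← orderOf_injective (MulAut.conj d⁻¹).toMonoidHom (MulAut.conj d⁻¹).injective y]
      simp [MulAut.conj_apply]
    obtain ⟨T, hT⟩ := hy'p.exists_le_sylow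
    obtain ⟨g, hg⟩ := MulAction.exists_smul_eq ↥L S1 T
    have hmem : (⟨y', hy'L⟩ : ↥L) ∈ (T : Subgroup ↥L) := hT (Subgroup.mem_subgroupOf.mpr (Subgroup.mem_zpowers y'))
    rw [← hg, ← SetLike.mem_coe, Sylow.coe_subgroup_smul] at hmem
    obtain ⟨z, hz, hzy⟩ := hmem
    obtain ⟨i, hi⟩ := Subgroup.mem_zpowers_iff.mp (Subgroup.mem_subgroupOf.mp (show z ∈ Z1 from hz))
    have hzy' : (g : G) * y ^ i * (g : G)⁻¹ = y' := by
      rw [hi]; simpa [MulAut.conj_apply] using congrArg Subtype.val hzy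
    obtain ⟨w, hw, e, he, hwe⟩ : ∃ w ∈ Z1, ∃ e ∈ E.subgroupOf L, g = e * w := by
      have hmem : g ∈ E.subgroupOf L ⊔ Z1 := by rw [sup_comm, htop]; exact Subgroup.mem_top g
      obtain ⟨e, he, w, hw, rfl⟩ := Subgroup.mem_sup_of_normal_left.mp hmem
      exact ⟨w, hw, e, he, rfl⟩
    obtain ⟨j, hj⟩ := Subgroup.mem_zpowers_iff.mp (Subgroup.mem_subgroupOf.mp hw)
    have heq : (e : G) * y ^ i * (e : G)⁻¹ = y' := by
      rw [← hzy', hwe, Subgroup.coe_mul, ← hj, mul_inv_rev]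
      group
    obtain ⟨heD, heN⟩ := Subgroup.mem_inf.mp (Subgroup.mem_subgroupOf.mp he)
    have hzero : y ^ (i - 1) ∈ Subgroup.zpowers y ⊓ D := Subgroup.mem_inf.mpr ⟨Subgroup.zpow_mem_zpowers y _, by
      rw [← QuotientGroup.eq_one_iff]
      show π (y ^ (i - 1)) = 1
      have h1 := congrArg π heq
      have he1 : π (e : G) = 1 := (QuotientGroup.eq_one_iff _).mpr heD
      have hd1 : π d = 1 := (QuotientGroup.eq_one_iff _).mpr hd
      simp only [hy', map_mul, map_inv, he1, hd1, map_zpow] at h1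
      rw [map_zpow, zpow_sub, zpow_one]
      simp only [one_mul, inv_one, mul_one] at h1
      rw [h1, mul_inv_cancel]⟩
    rw [CfsgLib.PConstrained.inf_eq_bot_of_coprime hyp hDcop, Subgroup.mem_bot] at hzero
    have hyi : y ^ i = y := by
      rw [zpow_sub, zpow_one, mul_inv_eq_one] at hzero
      exact hzero
    rw [hyi] at heq
    refine ⟨d * e, Subgroup.mem_inf.mpr ⟨mul_mem hd heD, Subgroup.mem_centralizer_singleton_iff.mpr ?_⟩,
      (e : G)⁻¹, inv_mem (Subgroup.mem_inf.mpr ⟨heD, hcent (Subgroup.mem_inf.mpr ⟨heD, heN⟩)⟩), by rw [mul_inv_cancel_right]⟩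
    calc d * e * y = d * ((e : G) * y * (e : G)⁻¹) * e := by group
      _ = y * (d * e) := by rw [heq, hy']; group
  refine ⟨hA, fun x y hx hy hxy => ?_⟩
  obtain ⟨g, rfl⟩ := isConj_iff.mp hxy
  -- Frattini
  obtain ⟨Q, hQ⟩ := (hHp.comap_subtype (K := K)).exists_le_sylow
  have hQH : (Q : Subgroup ↥K).map K.subtype = H := by
    refine le_antisymm ?_ fun h hh => ⟨⟨h, (Subgroup.mem_inf.mp hh).2⟩, hQ hh, rfl⟩
    rintro _ ⟨q, hq, rfl⟩
    obtain ⟨d, hd, h, hh, e⟩ := hKPD q q.2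
    have hdQ : (⟨d, hDK hd⟩ : ↥K) ∈ (Q : Subgroup ↥K) := by
      have := mul_mem hq (inv_mem (hQ (show (⟨h, (Subgroup.mem_inf.mp hh).2⟩ : ↥K) ∈ H.subgroupOf K from hh)))
      convert this using 1
      exact Subtype.ext (by show d = (q : G) * h⁻¹; rw [e, mul_inv_cancel_right])
    have h1 : d ∈ (Q : Subgroup ↥K).map K.subtype ⊓ D := Subgroup.mem_inf.mpr ⟨⟨_, hdQ, rfl⟩, hd⟩
    rw [CfsgLib.PConstrained.inf_eq_bot_of_coprime (Q.2.map _) hDcop, Subgroup.mem_bot] at h1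
    show (q : G) ∈ H
    rw [e, h1, one_mul]; exact hh
  have htop : N ⊔ D = ⊤ := by
    rw [eq_top_iff, ← Sylow.normalizer_sup_eq_top Q, hQH]
    refine sup_le le_sup_left fun k hk => ?_
    obtain ⟨d, hd, h, hh, rfl⟩ := hKPD k hk
    exact mul_mem (Subgroup.mem_sup_right hd) (Subgroup.mem_sup_left (Subgroup.le_normalizer hh))
  obtain ⟨d, hd, n, hn, e⟩ : ∃ d ∈ D, ∃ n ∈ N, g = d * n := by
    obtain ⟨d, hd, n, hn, h⟩ := Subgroup.mem_sup_of_normal_left.mp (show g ∈ D ⊔ N by rw [sup_comm, htop]; trivial)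
    exact ⟨d, hd, n, hn, h.symm⟩
  have hyN : g * x * g⁻¹ ∈ N := hPN hy
  have hy' : d⁻¹ * (g * x * g⁻¹) * d = n * x * n⁻¹ := by rw [e]; group
  obtain ⟨d₁, hd₁, d₂, hd₂, hd12⟩ := hA _ hyN (by
    obtain ⟨j, hj⟩ := P.2 ⟨_, hy⟩
    obtain ⟨i, -, hi⟩ := (Nat.dvd_prime_pow (Fact.out : p.Prime)).mp (orderOf_dvd_of_pow_eq_one hj)
    exact ⟨i, by rw [← hi, ← Subgroup.orderOf_coe]⟩) d hd (by rw [hy']; exact mul_mem (mul_mem hn (hPN hx)) (inv_mem hn))
  refine ⟨d₂ * n, mul_mem (Subgroup.centralizer_le_normalizer _ (Subgroup.mem_inf.mp hd₂).2) hn, ?_⟩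
  have hc : d₁ * (g * x * g⁻¹) = (g * x * g⁻¹) * d₁ :=
    Subgroup.mem_centralizer_singleton_iff.mp (Subgroup.mem_inf.mp hd₁).2
  calc d₂ * n * x * (d₂ * n)⁻¹ = d₂ * (n * x * n⁻¹) * d₂⁻¹ := by group
    _ = d₁⁻¹ * (g * x * g⁻¹) * d₁ := by rw [← hy', hd12]; group
    _ = g * x * g⁻¹ := by rw [mul_assoc, ← hc, inv_mul_cancel_left]

end Cfsg.Agent.S1907
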