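import Cfsg.Statements.S1924
import Cfsg.Agent.Lib.SubnormalSylow
import Mathlib.GroupTheory.Perm.Fin
import Mathlib.GroupTheory.Perm.Sign
import Mathlib.GroupTheory.SpecificGroups.Dihedral

set_option autoImplicit false
open Cfsg

namespace Cfsg.Agent.S1924
open scoped commutatorElement Pointwise
open CfsgLib.SubnormalSylow

theorem sign_free {Y : Type*} [Fintype Y] [DecidableEq Y] (σ : Equiv.Perm Y) {n : ℕ} (hn : orderOf σ = n + 1)
    (hfree : ∀ (i : ℕ) (y : Y), 0 < i → i < n + 1 → (σ ^ i) y ≠ y) :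
    Equiv.Perm.sign σ = ((-1 : ℤˣ) ^ n) ^ (Fintype.card Y / (n + 1)) := by
  classical
  let R := MulAction.orbitRel ↥(Subgroup.zpowers σ) Y
  have hmod : ∀ k, σ ^ (k % (n + 1)) = σ ^ k := fun k => by
    conv_lhs => rw [← hn]
    exact pow_mod_orderOf σ k
  let g : Quotient R × Fin (n + 1) → Y := fun p => (σ ^ (p.2 : ℕ)) p.1.out
  have hsame : ∀ (k : ℕ) (y : Y), Quotient.mk R ((σ ^ k) y) = Quotient.mk R y := fun k y =>
    Quotient.sound (MulAction.orbitRel_apply.mpr ⟨⟨σ ^ k, pow_mem (Subgroup.mem_zpowers σ) k⟩, rfl⟩)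
  have hbij : Function.Bijective g := by
    constructor
    · rintro ⟨o, i⟩ ⟨o', i'⟩ h
      change (σ ^ (i : ℕ)) o.out = (σ ^ (i' : ℕ)) o'.out at h
      have ho : o = o' := by
        have := congrArg (Quotient.mk R) h
        rwa [hsame, hsame, Quotient.out_eq, Quotient.out_eq] at this
      subst ho
      refine Prod.ext rfl (Fin.ext ?_)
      have key : ∀ a b : ℕ, a < b → b < n + 1 → (σ ^ a) o.out = (σ ^ b) o.out → False := by
        intro a b hab hb e
        refine hfree (b - a) o.out (by omega) (by omega) ((σ ^ a).injective ?_)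
        rw [← Equiv.Perm.mul_apply, ← pow_add, Nat.add_sub_cancel' hab.le, e]
      rcases lt_trichotomy (i : ℕ) i' with hlt | heq | hgt
      · exact (key _ _ hlt i'.2 h).elim
      · exact heq
      · exact (key _ _ hgt i.2 h.symm).elim
    · intro y
      obtain ⟨⟨τ, hτ⟩, he⟩ := MulAction.orbitRel_apply.mp (R.symm (Quotient.mk_out (s := R) y))
      rw [← mem_powers_iff_mem_zpowers] at hτ
      obtain ⟨k, rfl⟩ := (Submonoid.mem_powers_iff _ _).mp hτ
      refine ⟨(Quotient.mk R y, ⟨k % (n + 1), Nat.mod_lt _ (by omega)⟩), ?_⟩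
      show (σ ^ (k % (n + 1))) _ = y
      rw [hmod]
      exact he
  let e := Equiv.ofBijective g hbij
  have hconj : σ = (e.symm.trans (Equiv.prodCongrRight fun _ : Quotient R => finRotate (n + 1))).trans e := by
    refine Equiv.ext fun y => ?_
    obtain ⟨⟨o, i⟩, rfl⟩ := e.surjective y
    simp only [Equiv.trans_apply, Equiv.symm_apply_apply, Equiv.prodCongrRight_apply]
    show σ ((σ ^ (i : ℕ)) o.out) = (σ ^ ((finRotate (n + 1) i : Fin (n + 1)) : ℕ)) o.out
    rw [← Equiv.Perm.mul_apply, ← pow_succ', finRotate_succ_apply, Fin.val_add, Fin.val_one', Nat.add_mod_mod,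
      hmod]
  have hcard : Fintype.card (Quotient R) = Fintype.card Y / (n + 1) := by
    rw [← Fintype.card_congr e, Fintype.card_prod, Fintype.card_fin, Nat.mul_div_cancel _ (by omega)]
  conv_lhs => rw [hconj]
  rw [Equiv.Perm.sign_symm_trans_trans, Equiv.Perm.sign_prodCongrRight]
  simp [sign_finRotate, hcard]

variable {G : Type*} [Group G] [Finite G]

/-- The kernel of the sign of the action of `X` on the cosets of `A`. -/
noncomputable def evenPart (A X : Subgroup G) : Subgroup G :=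
  haveI := Fintype.ofFinite (↥X ⧸ A.subgroupOf X)
  haveI := Classical.decEq (↥X ⧸ A.subgroupOf X)
  (Equiv.Perm.sign.comp (MulAction.toPermHom ↥X (↥X ⧸ A.subgroupOf X))).ker.map X.subtype

theorem evenPart_le (A X : Subgroup G) : evenPart A X ≤ X := Subgroup.map_subtype_le _

theorem res_le_even (A X : Subgroup G) : res 2 X ≤ evenPart A X := by
  refine (Subgroup.closure_le _).mpr ?_
  rintro x ⟨hx, hc⟩
  refine ⟨⟨x, hx⟩, MonoidHom.mem_ker.mpr ?_, rfl⟩
  refine orderOf_eq_one_iff.mp (Nat.eq_one_of_dvd_coprimes hc ((orderOf_map_dvd _ _).trans ?_) ?_)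
  · rw [Subgroup.orderOf_mk]
  · exact orderOf_dvd_of_pow_eq_one (Int.units_sq _)

theorem mul_mem_even {A X : Subgroup G} {a b : G} (ha : a ∈ X) (hb : b ∈ X) (ha' : a ∉ evenPart A X)
    (hb' : b ∉ evenPart A X) : a * b ∈ evenPart A X := by
  classical
  unfold evenPart at *
  refine ⟨⟨a, ha⟩ * ⟨b, hb⟩, MonoidHom.mem_ker.mpr ?_, rfl⟩
  rw [map_mul]
  rcases Int.units_eq_one_or (( _ : ↥X →* ℤˣ) ⟨a, ha⟩) with h | h
  · exact absurd ⟨⟨a, ha⟩, MonoidHom.mem_ker.mpr h, rfl⟩ ha'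
  rcases Int.units_eq_one_or (( _ : ↥X →* ℤˣ) ⟨b, hb⟩) with h' | h'
  · exact absurd ⟨⟨b, hb⟩, MonoidHom.mem_ker.mpr h', rfl⟩ hb'
  rw [h, h']; rfl

theorem not_mem_even {A X : Subgroup G} {γ : G} (hγ : γ ∈ X) {a m : ℕ} (ha : orderOf γ = 2 ^ (a + 1)) (hm : Odd m)
    (hi : A.relIndex X = 2 ^ (a + 1) * m)
    (hfree : ∀ w ∈ Subgroup.zpowers γ, orderOf w = 2 → ∀ g ∈ X, g * w * g⁻¹ ∉ A) : γ ∉ evenPart A X := by
  classical
  intro hmem
  unfold evenPart at hmem
  obtain ⟨γ', hker, hγe⟩ := hmem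
  obtain rfl : γ' = ⟨γ, hγ⟩ := Subtype.ext hγe
  have hfx : ∀ i : ℕ, ∀ y : ↥X ⧸ A.subgroupOf X, (⟨γ, hγ⟩ : ↥X) ^ i • y = y → γ ^ i = 1 := by
    intro i y hy
    by_contra hne
    have hw : 2 ∣ orderOf (γ ^ i) := by
      obtain ⟨j, -, hj⟩ := (Nat.dvd_prime_pow Nat.prime_two).mp (ha ▸ orderOf_pow_dvd (n := i) (x := γ))
      rcases j with _ | j
      · exact absurd (orderOf_eq_one_iff.mp (by rw [hj, pow_zero])) hne
      · rw [hj, pow_succ]; exact dvd_mul_left _ _
    set k := orderOf (γ ^ i) / 2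
    have hw2 : orderOf ((γ ^ i) ^ k) = 2 := by
      rw [orderOf_pow_of_dvd (by have := orderOf_pos (γ ^ i); have := Nat.le_of_dvd this hw; omega) (Nat.div_dvd_of_dvd hw),
        Nat.div_div_self hw (orderOf_pos (γ ^ i)).ne']
    obtain ⟨g, rfl⟩ := QuotientGroup.mk_surjective y
    have hst : ((⟨γ, hγ⟩ : ↥X) ^ i) ^ k ∈ MulAction.stabilizer ↥X (g : ↥X ⧸ A.subgroupOf X) := pow_mem hy k
    have hst2 := QuotientGroup.eq.mp (MulAction.mem_stabilizer_iff.mp hst :
      (((((⟨γ, hγ⟩ : ↥X) ^ i) ^ k * g : ↥X)) : ↥X ⧸ A.subgroupOf X) = (g : ↥X ⧸ A.subgroupOf X))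
    have hm := inv_mem (Subgroup.mem_subgroupOf.mp hst2)
    refine hfree _ (pow_mem (pow_mem (Subgroup.mem_zpowers γ) i) k) hw2 ((g : G)⁻¹) (inv_mem g.2) ?_
    simpa [mul_assoc] using hm
  haveI := Fintype.ofFinite (↥X ⧸ A.subgroupOf X)
  set σ := MulAction.toPermHom ↥X (↥X ⧸ A.subgroupOf X) ⟨γ, hγ⟩ with hσ
  have hσp : ∀ i : ℕ, ∀ y, (σ ^ i) y = (⟨γ, hγ⟩ : ↥X) ^ i • y := fun i y => by rw [hσ, ← map_pow]; rfl
  have hq : 2 ^ (a + 1) = (2 ^ (a + 1) - 1) + 1 := by have := Nat.one_le_two_pow (n := a + 1); omega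
  have hord : orderOf σ = (2 ^ (a + 1) - 1) + 1 := by
    rw [← hq]
    refine Nat.dvd_antisymm ?_ ?_
    · rw [← ha, ← Subgroup.orderOf_mk γ hγ]; exact orderOf_map_dvd _ _
    · rw [← ha]
      refine orderOf_dvd_of_pow_eq_one (hfx _ ((1 : ↥X) : ↥X ⧸ A.subgroupOf X) ?_)
      rw [← hσp, pow_orderOf_eq_one]; rfl
  have hs := sign_free σ hord fun i y hi0 hi1 h => by
    rw [hσp] at h
    have := Nat.le_of_dvd hi0 (orderOf_dvd_of_pow_eq_one (hfx i y h))
    omega
  have hcard : Fintype.card (↥X ⧸ A.subgroupOf X) / ((2 ^ (a + 1) - 1) + 1) = m := by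
    rw [← hq, ← Nat.card_eq_fintype_card, ← Subgroup.index_eq_card]
    show A.relIndex X / _ = m
    rw [hi, Nat.mul_div_cancel_left _ (Nat.two_pow_pos _)]
  have hodd : Odd (2 ^ (a + 1) - 1) := ⟨2 ^ a - 1, by have := Nat.one_le_two_pow (n := a); rw [pow_succ]; omega⟩
  rw [hcard, hodd.neg_one_pow, hm.neg_one_pow] at hs
  have h1 := MonoidHom.mem_ker.mp hker
  have h2 : Equiv.Perm.sign σ = 1 := by
    convert h1 using 1
    simp only [MonoidHom.coe_comp, Function.comp_apply, hσ]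
    congr 2 <;> exact Subsingleton.elim _ _
  rw [h2] at hs
  exact absurd hs (by decide)

theorem card_even {A X : Subgroup G} {γ : G} (hγ : γ ∈ X) (hn : γ ∉ evenPart A X) :
    Nat.card ↥X = 2 * Nat.card ↥(evenPart A X) := by
  classical
  unfold evenPart at *
  set ε : ↥X →* ℤˣ := _ with hε
  rw [Subgroup.card_map_of_injective X.subtype_injective, ← Subgroup.card_mul_index (MonoidHom.ker ε), mul_comm]
  congr 1
  rw [Subgroup.index_ker]
  have hr : ε.range = ⊤ := by
    refine eq_top_iff.mpr fun u _ => ?_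
    rcases Int.units_eq_one_or u with rfl | rfl
    · exact one_mem _
    · rcases Int.units_eq_one_or (ε ⟨γ, hγ⟩) with h | h
      · exact absurd ⟨⟨γ, hγ⟩, MonoidHom.mem_ker.mpr h, rfl⟩ hn
      · exact ⟨_, h⟩
  rw [hr, Subgroup.card_top, Nat.card_eq_fintype_card]; rfl

theorem mul_set {T C M : Subgroup G} (hT : T ≤ M) (hC : C ≤ M) (hTC : T ⊓ C = ⊥)
    (hle : Nat.card ↥M ≤ Nat.card ↥T * Nat.card ↥C) :
    Nat.card ↥M = Nat.card ↥T * Nat.card ↥C ∧ ∀ m ∈ M, ∃ t ∈ T, ∃ c ∈ C, t * c = m := by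
  let g : ↥T × ↥C → ↥M := fun p => ⟨p.1 * p.2, mul_mem (hT p.1.2) (hC p.2.2)⟩
  have hinj : Function.Injective g := fun p q h => by
    refine Subgroup.mul_injective_of_disjoint (disjoint_iff.mpr hTC) ?_
    exact congrArg Subtype.val h
  have h1 := Nat.card_le_card_of_injective g hinj
  rw [Nat.card_prod] at h1
  have hb := (Nat.bijective_iff_injective_and_card g).mpr ⟨hinj, by rw [Nat.card_prod]; omega⟩
  refine ⟨by omega, fun m hm => ?_⟩
  obtain ⟨⟨t, c⟩, e⟩ := hb.2 ⟨m, hm⟩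
  exact ⟨t, t.2, c, c.2, congrArg Subtype.val e⟩

theorem descend {L T : Subgroup G} (hL : res 2 L = L) (hTL : T ≤ L) : ∀ (k : ℕ) (C X M : Subgroup G),
    Nat.card ↥C = 2 ^ k → IsCyclic ↥C → T ≤ M → C ≤ M → M ≤ X → L ≤ X → T ⊓ C = ⊥ →
    Nat.card ↥M = Nat.card ↥T * Nat.card ↥C → ¬ 2 ∣ M.relIndex X →
    (∀ w ∈ C, orderOf w = 2 → ∀ g : G, g * w * g⁻¹ ∉ T) → res 2 X ⊓ M ≤ T := by
  intro k
  induction k with
  | zero =>
    intro C X M hCk _ hTM hCM _ _ hTC hM _ _
    have : T = M := Subgroup.eq_of_le_of_card_ge hTM (by rw [hM, hCk, pow_zero, mul_one])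
    rw [this]; exact inf_le_right
  | succ k ih =>
    intro C X M hCk hCc hTM hCM hMX hLX hTC hM hodd hfree
    obtain ⟨γ, hγ⟩ := hCc.exists_generator
    have hord : orderOf (γ : G) = 2 ^ (k + 1) := by
      rw [Subgroup.orderOf_coe, orderOf_eq_card_of_forall_mem_zpowers hγ, hCk]
    have hzC : Subgroup.zpowers (γ : G) ≤ C := Subgroup.zpowers_le.mpr γ.2
    have hrel : T.relIndex M = 2 ^ (k + 1) := by
      have := Subgroup.relIndex_mul_relIndex ⊥ T M bot_le hTM
      rw [Subgroup.relIndex_bot_left, Subgroup.relIndex_bot_left, hM, hCk] at this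
      exact Nat.eq_of_mul_eq_mul_left Nat.card_pos this
    have hTX : T.relIndex X = 2 ^ (k + 1) * M.relIndex X := by
      rw [← hrel]; exact (Subgroup.relIndex_mul_relIndex T M X hTM hMX).symm
    have hγX' := not_mem_even (hMX (hCM γ.2)) hord (Nat.odd_iff.mpr (by omega)) hTX
      fun w hw hw2 g _ => hfree w (hzC hw) hw2 g
    set X' := evenPart T X with hX'
    have hresX : res 2 X ≤ res 2 X' := by rw [← res_res]; exact res_mono (res_le_even T X)
    have hLX' : L ≤ X' := hL.ge.trans ((res_mono hLX).trans (res_le_even T X))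
    set C' := C ⊓ X'
    set M' := M ⊓ X'
    have hM'mem : ∀ m ∈ M', ∃ t ∈ T, ∃ c ∈ C', t * c = m := by
      intro m hm
      obtain ⟨hmM, hmX⟩ := Subgroup.mem_inf.mp hm
      obtain ⟨t, ht, c, hc, rfl⟩ := (mul_set hTM hCM hTC hM.le).2 m hmM
      refine ⟨t, ht, c, Subgroup.mem_inf.mpr ⟨hc, ?_⟩, rfl⟩
      simpa using mul_mem (inv_mem (hLX' (hTL ht))) hmX
    have hC'ne : C' ≠ C := fun h => hγX' (Subgroup.mem_inf.mp (h.ge γ.2)).2
    obtain ⟨j, hjle, hj⟩ := (Nat.dvd_prime_pow Nat.prime_two).mp (hCk ▸ Subgroup.card_dvd_of_le (inf_le_left : C' ≤ C))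
    have hTM' : T ≤ M' := le_inf hTM (hTL.trans hLX')
    have hC'M : C' ≤ M' := inf_le_inf_right _ hCM
    have hTC' : T ⊓ C' = ⊥ := le_bot_iff.mp ((inf_le_inf_left _ inf_le_left).trans hTC.le)
    have hM'le : Nat.card ↥M' ≤ Nat.card ↥T * Nat.card ↥C' := by
      rw [← Nat.card_prod]
      refine Nat.card_le_card_of_surjective (fun p : ↥T × ↥C' => (⟨p.1 * p.2, mul_mem (hTM' p.1.2) (hC'M p.2.2)⟩ : ↥M')) ?_
      rintro ⟨m, hm⟩
      obtain ⟨t, ht, c, hc, e⟩ := hM'mem m hm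
      exact ⟨(⟨t, ht⟩, ⟨c, hc⟩), Subtype.ext e⟩
    have hM'card := (mul_set hTM' hC'M hTC' hM'le).1
    have hjk : j = k := by
      have hjlt : j ≤ k := by
        by_contra hjk
        refine hC'ne (Subgroup.eq_of_le_of_card_ge inf_le_left ?_)
        rw [hj, hCk, show j = k + 1 by omega]
      have h2 : M'.relIndex M ∣ 2 := by
        have hX'X : X'.relIndex X = 2 := by
          have h := card_even (hMX (hCM γ.2)) hγX'
          have h' := Subgroup.relIndex_mul_relIndex ⊥ X' X bot_le (evenPart_le T X)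
          rw [Subgroup.relIndex_bot_left, Subgroup.relIndex_bot_left, h, mul_comm 2] at h'
          exact Nat.eq_of_mul_eq_mul_left Nat.card_pos h'
        haveI : (X'.subgroupOf X).Normal := by
          rw [hX']; unfold evenPart
          rw [Subgroup.subgroupOf, Subgroup.comap_map_eq_self_of_injective X.subtype_injective]
          infer_instance
        rw [show M'.relIndex M = X'.relIndex M from by rw [show M' = X' ⊓ M from inf_comm _ _, Subgroup.inf_relIndex_right],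
          ← hX'X]
        rw [← Subgroup.relIndex_subgroupOf (H := X') hMX]
        exact Subgroup.relIndex_dvd_index_of_normal _ _
      have h3 := Subgroup.relIndex_mul_relIndex ⊥ M' M bot_le inf_le_left
      rw [Subgroup.relIndex_bot_left, Subgroup.relIndex_bot_left, hM'card, hM, hj, hCk] at h3
      have h4 := Nat.le_of_dvd two_pos h2
      have h5 : 2 ^ j * M'.relIndex M = 2 ^ (k + 1) := by
        rw [mul_assoc] at h3; exact Nat.eq_of_mul_eq_mul_left Nat.card_pos h3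
      by_contra hne
      have h6 : 2 ^ (j + 1) < 2 ^ (k + 1) := Nat.pow_lt_pow_right (by omega) (by omega)
      rw [pow_succ] at h6
      nlinarith
    haveI hC'c : IsCyclic ↥C' :=
      isCyclic_of_injective (Subgroup.inclusion (inf_le_left : C' ≤ C)) (Subgroup.inclusion_injective _)
    have hodd' : ¬ 2 ∣ M'.relIndex X' := by
      intro hd
      have h := card_even (hMX (hCM γ.2)) hγX'
      have h1 := Subgroup.relIndex_mul_relIndex ⊥ M' X' bot_le inf_le_right
      have h2 := Subgroup.relIndex_mul_relIndex ⊥ M X bot_le hMX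
      rw [Subgroup.relIndex_bot_left, Subgroup.relIndex_bot_left, hM'card, hj, hjk] at h1
      rw [Subgroup.relIndex_bot_left, Subgroup.relIndex_bot_left, hM, hCk, h, ← h1, pow_succ] at h2
      have h3 : M.relIndex X = M'.relIndex X' := by
        have := Nat.card_pos (α := ↥T)
        have := Nat.two_pow_pos k
        apply Nat.eq_of_mul_eq_mul_left (show 0 < Nat.card ↥T * 2 ^ k * 2 by positivity)
        linarith
      exact hodd (h3 ▸ hd)
    have hrec := ih C' X' M' (by rw [hj, hjk]) hC'c hTM' hC'M inf_le_right hLX' hTC' hM'card hodd'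
      fun w hw => hfree w (Subgroup.mem_inf.mp hw).1
    intro y hy
    obtain ⟨hyr, hyM⟩ := Subgroup.mem_inf.mp hy
    exact hrec (Subgroup.mem_inf.mpr ⟨hresX hyr, Subgroup.mem_inf.mpr ⟨hyM, res_le_even T X hyr⟩⟩)

open DihedralGroup in
theorem outside_involution {D C : Subgroup G} {n : ℕ} (hn : 2 ≤ n) (e : ↥D ≃* DihedralGroup n) (hCD : C ≤ D)
    (hC : IsCyclic ↥C) (hCi : C.relIndex D = 2) :
    (∀ d ∈ D, d ∉ C → orderOf d = 2) ∧ ∃ d ∈ D, d ∉ C := by
  have hDc : Nat.card ↥D = 2 * n := by rw [Nat.card_congr e.toEquiv, DihedralGroup.nat_card]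
  have hCc : Nat.card ↥C = n := by
    have := Subgroup.relIndex_mul_relIndex ⊥ C D bot_le hCD
    rw [Subgroup.relIndex_bot_left, Subgroup.relIndex_bot_left, hCi, hDc] at this
    omega
  refine ⟨?_, ?_⟩
  · intro d hd hdC
    rcases hed : e ⟨d, hd⟩ with i | i
    swap
    · rw [← Subgroup.orderOf_mk d hd, ← MulEquiv.orderOf_eq e, hed, orderOf_sr]
    obtain ⟨γ, hγ⟩ := hC.exists_generator
    have hgo : orderOf (γ : G) = n := by rw [Subgroup.orderOf_coe, orderOf_eq_card_of_forall_mem_zpowers hγ, hCc]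
    haveI : NeZero n := ⟨by omega⟩
    rcases heγ : e ⟨γ, hCD γ.2⟩ with j | j
    · exfalso
      have hord : orderOf (r j : DihedralGroup n) = n := by rw [← heγ, MulEquiv.orderOf_eq, Subgroup.orderOf_mk, hgo]
      have htop : (r i : DihedralGroup n) ∈ Subgroup.zpowers (r j) := by
        have hle : Subgroup.zpowers (r j : DihedralGroup n) ≤ Subgroup.zpowers (r 1) := by
          rw [Subgroup.zpowers_le]
          exact ⟨j.val, by simp [r_one_pow]⟩
        have heq := Subgroup.eq_of_le_of_card_ge hle (by rw [Nat.card_zpowers, Nat.card_zpowers, hord, orderOf_r_one])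
        rw [heq]
        exact ⟨i.val, by simp [r_one_pow]⟩
      obtain ⟨k, hk⟩ := Subgroup.mem_zpowers_iff.mp htop
      rw [← heγ, ← map_zpow, ← hed] at hk
      have := congrArg Subtype.val (e.injective hk)
      simp only [SubgroupClass.coe_zpow] at this
      exact hdC (this ▸ zpow_mem γ.2 k)
    · have h2 : n = 2 := by rw [← hgo, ← Subgroup.orderOf_mk (γ : G) (hCD γ.2), ← MulEquiv.orderOf_eq e, heγ, orderOf_sr]
      subst h2
      refine orderOf_eq_prime ?_ fun h => hdC (h ▸ one_mem C)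
      have h2' : (⟨d, hd⟩ : ↥D) ^ 2 = 1 := e.injective (by
        rw [map_pow, hed, map_one, pow_two, r_mul_r]
        fin_cases i <;> rfl)
      simpa using congrArg Subtype.val h2'
  · by_contra h
    push Not at h
    have := Nat.le_of_dvd Nat.card_pos (Subgroup.card_dvd_of_le (show D ≤ C from h))
    omega

/-- A consequence of Thompson's transfer lemma. Let G be a finite group, L a subgroup with O²(L) = L, T a Sylow 2-subgroup of L and S a Sylow 2-subgroup of G containing T. Suppose D ≤ S is a dihedral subgroup of order at least 4 (the four-group counts) with D ∩ T = 1 and S = TD as a set of products (so |S| = |T|·|D|), and C ≤ D is cyclic of index 2 in D. If no involution of D outside C is G-conjugate to an involution of the subgroup generated by T and C, and the involution of C is not G-conjugate to any involution of T, then G has a normal subgroup K, containing every Sylow 2-subgroup of L as a Sylow 2-subgroup, with G = KD. -/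
theorem result {G : Type*} [Group G] [Finite G] (L T S D C : Subgroup G) (hL : Cfsg.pResidual 2 ↥L = ⊤)
    (hTL : T ≤ L) (hT2 : IsPGroup 2 T) (hTsyl : ¬ 2 ∣ T.relIndex L)
    (hS2 : IsPGroup 2 S) (hSsyl : ¬ 2 ∣ S.index) (hTS : T ≤ S)
    (hDS : D ≤ S) (hDih : ∃ n : ℕ, 2 ≤ n ∧ Nonempty (↥D ≃* DihedralGroup n)) (hDT : D ⊓ T = ⊥) (hTD : T ⊔ D = S) (hTDc : Nat.card T * Nat.card D = Nat.card S)
    (hCD : C ≤ D) (hC : IsCyclic ↥C) (hCi : C.relIndex D = 2)
    (h1 : ∀ x ∈ D, x ∉ C → orderOf x = 2 → ∀ g : G, g * x * g⁻¹ ∈ T ⊔ C → False)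
    (h2 : ∀ c ∈ C, orderOf c = 2 → ∀ g : G, g * c * g⁻¹ ∈ T → False) :
    ∃ K : Subgroup G, K.Normal ∧ K ⊔ D = ⊤ ∧
      ∀ T' : Subgroup G, T' ≤ L → IsPGroup 2 T' → ¬ 2 ∣ T'.relIndex L → T' ≤ K ∧ ¬ 2 ∣ T'.relIndex K := by
  classical
  haveI : Fact (Nat.Prime 2) := ⟨Nat.prime_two⟩
  obtain ⟨n, hn, ⟨e⟩⟩ := hDih
  obtain ⟨hout, x, hxD, hxC⟩ := outside_involution hn e hCD hC hCi
  have hx2 := hout x hxD hxC
  have hresL : res 2 L = L := by
    refine le_antisymm (res_le 2 L) fun l hl => ?_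
    have h : (⟨l, hl⟩ : ↥L) ∈ Cfsg.pResidual 2 ↥L := hL ▸ Subgroup.mem_top _
    have h2 := Subgroup.mem_map_of_mem L.subtype h
    rw [Cfsg.pResidual, MonoidHom.map_closure] at h2
    refine (Subgroup.closure_le _).mpr ?_ h2
    rintro _ ⟨y, hy, rfl⟩
    exact mem_res y.2 (by rw [Subgroup.coe_subtype, Subgroup.orderOf_coe]; exact hy)
  set M := T ⊔ C with hM
  have hMS : M ≤ S := sup_le hTS (hCD.trans hDS)
  have hxM : x ∉ M := fun h => h1 x hxD hxC hx2 1 (by rw [one_mul, inv_one, mul_one]; exact h)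
  have hTC : T ⊓ C = ⊥ := le_bot_iff.mp ((inf_le_inf_left _ hCD).trans (by rw [inf_comm, hDT]))
  have hDc : Nat.card ↥D = 2 * Nat.card ↥C := by
    have := Subgroup.relIndex_mul_relIndex ⊥ C D bot_le hCD
    rw [Subgroup.relIndex_bot_left, Subgroup.relIndex_bot_left, hCi] at this
    omega
  have hMS' : M.relIndex S * Nat.card ↥M = Nat.card ↥T * Nat.card ↥C * 2 := by
    have := Subgroup.relIndex_mul_relIndex ⊥ M S bot_le hMS
    rw [Subgroup.relIndex_bot_left, Subgroup.relIndex_bot_left, ← hTDc, hDc] at this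
    linarith
  have hlow : Nat.card ↥T * Nat.card ↥C ≤ Nat.card ↥M := by
    rw [← Nat.card_prod]
    exact Nat.card_le_card_of_injective (fun p : ↥T × ↥C => (⟨p.1 * p.2, mul_mem (Subgroup.mem_sup_left p.1.2)
      (Subgroup.mem_sup_right p.2.2)⟩ : ↥M)) fun p q h =>
        Subgroup.mul_injective_of_disjoint (disjoint_iff.mpr hTC) (congrArg Subtype.val h)
  have hri : M.relIndex S = 2 := by
    have h1' : M.relIndex S ≠ 1 := fun h => hxM ((Subgroup.relIndex_eq_one.mp h) (hDS hxD))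
    have h2' : M.relIndex S ≠ 0 := Subgroup.index_ne_zero_of_finite
    have hpos := Nat.card_pos (α := ↥M)
    have h3 : M.relIndex S * Nat.card ↥M ≤ 2 * Nat.card ↥M := by rw [hMS']; omega
    have := Nat.le_of_mul_le_mul_right h3 hpos
    omega
  have hMcard : Nat.card ↥M = Nat.card ↥T * Nat.card ↥C := by rw [hri] at hMS'; omega
  have hSd : ∀ s ∈ S, ∃ t ∈ T, ∃ d ∈ D, t * d = s :=
    (mul_set hTS hDS (by rw [inf_comm, hDT]) hTDc.ge).2
  have hMind : M.relIndex ⊤ = 2 ^ (0 + 1) * S.index := by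
    rw [Subgroup.relIndex_top_right, ← Subgroup.relIndex_mul_index hMS, hri]; rfl
  have hnot : ∀ d ∈ D, d ∉ C → d ∉ evenPart M ⊤ := fun d hd hdC => by
    refine not_mem_even (Subgroup.mem_top d) (a := 0) (by rw [hout d hd hdC]; rfl) (Nat.odd_iff.mpr (by omega)) hMind ?_
    intro w hw hw2 g _
    have hwd : w = d := by
      obtain ⟨k, rfl⟩ := Subgroup.mem_zpowers_iff.mp hw
      rcases Int.even_or_odd' k with ⟨j, rfl | rfl⟩
      · rw [zpow_mul, show d ^ (2 : ℤ) = 1 by rw [show (2 : ℤ) = ((2 : ℕ) : ℤ) from rfl, zpow_natCast, ← hout d hd hdC, pow_orderOf_eq_one],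
          one_zpow, orderOf_one] at hw2
        omega
      · rw [zpow_add, zpow_mul, show d ^ (2 : ℤ) = 1 by rw [show (2 : ℤ) = ((2 : ℕ) : ℤ) from rfl, zpow_natCast, ← hout d hd hdC, pow_orderOf_eq_one],
          one_zpow, one_mul, zpow_one]
    subst hwd
    exact fun h => h1 w hd hdC (hout w hd hdC) g h
  set G₁ := evenPart M ⊤ with hG₁
  have hresG₁ : res 2 ⊤ ≤ res 2 G₁ := by rw [← res_res]; exact res_mono (res_le_even M ⊤)
  have hLG₁ : L ≤ G₁ := hresL.ge.trans ((res_mono le_top).trans (res_le_even M ⊤))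
  have hCG₁ : C ≤ G₁ := fun c hc => by
    have hxc : x * c ∉ C := fun h => hxC (by simpa using mul_mem h (inv_mem hc))
    have hm := mul_mem_even (Subgroup.mem_top x) (Subgroup.mem_top _) (hnot x hxD hxC) (hnot _ (mul_mem hxD (hCD hc)) hxc)
    rwa [← mul_assoc, ← pow_two, ← hx2, pow_orderOf_eq_one, one_mul] at hm
  have hMG₁ : M ≤ G₁ := sup_le (hTL.trans hLG₁) hCG₁
  have hSG₁ : S ⊓ G₁ ≤ M := by
    intro s hs
    obtain ⟨hsS, hsG⟩ := Subgroup.mem_inf.mp hs
    obtain ⟨t, ht, d, hd, rfl⟩ := hSd s hsS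
    refine mul_mem (Subgroup.mem_sup_left ht) (Subgroup.mem_sup_right ?_)
    by_contra hdC
    exact hnot d hd hdC (by simpa using mul_mem (inv_mem (hLG₁ (hTL ht))) hsG)
  have hodd₁ : ¬ 2 ∣ M.relIndex G₁ := by
    have h := card_even (Subgroup.mem_top x) (hnot x hxD hxC)
    rw [Subgroup.card_top, ← hG₁] at h
    have h1 := Subgroup.relIndex_mul_relIndex ⊥ M G₁ bot_le hMG₁
    have h2 := Subgroup.card_mul_index M
    rw [← Subgroup.relIndex_top_right, hMind] at h2
    rw [Subgroup.relIndex_bot_left, Subgroup.relIndex_bot_left] at h1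
    rw [show M.relIndex G₁ = S.index from Nat.eq_of_mul_eq_mul_left (Nat.card_pos (α := ↥M)) (by rw [pow_one] at h2; linarith)]
    exact hSsyl
  have hCpow : ∃ k, Nat.card ↥C = 2 ^ k := IsPGroup.iff_card.mp (hS2.to_le (hCD.trans hDS))
  obtain ⟨k, hk⟩ := hCpow
  have hdesc := descend hresL hTL k C G₁ M hk hC le_sup_left le_sup_right hMG₁ hLG₁ hTC hMcard hodd₁
    fun w hw hw2 g h => h2 w hw hw2 g h
  haveI hKc := CfsgLib.PResidual.pResidual_characteristic (p := 2) (G := G)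
  set K := Cfsg.pResidual 2 G with hK
  haveI hKn : K.Normal := inferInstance
  have hKres : K = res 2 ⊤ := by
    rw [hK, Cfsg.pResidual, res]
    congr 1; ext y; simp
  have hKS : S ⊓ K ≤ T := fun y hy => by
    obtain ⟨hyS, hyK⟩ := Subgroup.mem_inf.mp hy
    rw [hKres] at hyK
    have h := hresG₁ hyK
    exact hdesc (Subgroup.mem_inf.mpr ⟨h, hSG₁ (Subgroup.mem_inf.mpr ⟨hyS, res_le 2 G₁ h⟩)⟩)
  have hLK : L ≤ K := by rw [hKres]; exact hresL.ge.trans (res_mono le_top)
  refine ⟨K, hKn, ?_, fun T' hT'L hT'2 hT'i => ⟨hT'L.trans hLK, ?_⟩⟩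
  · let P : Sylow 2 G := hS2.toSylow hSsyl
    have h := CfsgLib.PResidual.sup_pResidual_eq_top P
    rw [eq_top_iff, ← h]
    refine sup_le ?_ le_sup_left
    show S ≤ K ⊔ D
    rw [← hTD]
    exact sup_le_sup_right (hTL.trans hLK) _
  · have hTK : S ⊓ K = T := le_antisymm hKS (le_inf hTS (hTL.trans hLK))
    have hTK' := sylow_of_subnormal (p := 2) hSsyl (Subgroup.Normal.isSubnormal hKn)
    rw [hTK, ← Subgroup.relIndex_mul_relIndex T L K hTL hLK] at hTK'
    rw [← Subgroup.relIndex_mul_relIndex T' L K hT'L hLK]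
    exact fun hd => ((Nat.prime_two.dvd_mul).mp hd).elim hT'i fun h => hTK' (h.mul_left _)

end Cfsg.Agent.S1924
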