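import Cfsg.Statements.S1939

set_option autoImplicit false
open Cfsg

namespace Cfsg.Agent.S1939

/-- Let S be a Sylow p-subgroup of the finite group G and a an element of S that is the only G-conjugate of a lying in S. Then every power of a has the same property: for every n, the only G-conjugate of a^n lying in S is a^n. -/
theorem result {G : Type*} [Group G] [Finite G] {p : ℕ} [Fact p.Prime] (S : Sylow p G) (a : G)
    (haS : a ∈ (S : Subgroup G)) (hwc : ∀ g : G, g * a * g⁻¹ ∈ (S : Subgroup G) → g * a * g⁻¹ = a) (n : ℕ) :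
    ∀ g : G, g * a ^ n * g⁻¹ ∈ (S : Subgroup G) → g * a ^ n * g⁻¹ = a ^ n := by
  intro g hgn
  set b := g * a ^ n * g⁻¹ with hb
  have hcen : ∀ s ∈ (S : Subgroup G), s * a = a * s := by
    intro s hs
    have := hwc s ((S : Subgroup G).mul_mem ((S : Subgroup G).mul_mem hs haS) ((S : Subgroup G).inv_mem hs))
    calc s * a = s * a * s⁻¹ * s := by group
      _ = a * s := by rw [this]
  set C := Subgroup.centralizer ({b} : Set G) with hC
  have haC : a ∈ C := Subgroup.mem_centralizer_singleton_iff.mpr (hcen b hgn).symm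
  have hgC : g * a * g⁻¹ ∈ C := by
    refine Subgroup.mem_centralizer_singleton_iff.mpr ?_
    rw [hb]
    calc g * a * g⁻¹ * (g * a ^ n * g⁻¹) = g * (a * a ^ n) * g⁻¹ := by group
      _ = g * (a ^ n * a) * g⁻¹ := by rw [(Commute.self_pow a n).eq]
      _ = g * a ^ n * g⁻¹ * (g * a * g⁻¹) := by group
  have hpa : IsPGroup p ↥(Subgroup.zpowers a) := S.2.to_le (Subgroup.zpowers_le.mpr haS)
  have hpc : ∀ (x : ↥C) (h : G), (x : G) = h * a * h⁻¹ → IsPGroup p ↥(Subgroup.zpowers x) := by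
    intro x h hx
    obtain ⟨k, hk⟩ := S.2 ⟨a, haS⟩
    have hk' : a ^ p ^ k = 1 := by simpa using congrArg Subtype.val hk
    have hord : orderOf x ∣ p ^ k := by
      apply orderOf_dvd_of_pow_eq_one
      apply Subtype.ext
      rw [Subgroup.coe_pow, hx, conj_pow, hk', mul_one, mul_inv_cancel]; rfl
    obtain ⟨j, -, hj⟩ := (Nat.dvd_prime_pow (Fact.out : p.Prime)).mp hord
    exact IsPGroup.of_card (by rw [Nat.card_zpowers, hj])
  obtain ⟨P, hP⟩ := (hpc ⟨a, haC⟩ 1 (by simp)).exists_le_sylow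
  obtain ⟨P', hP'⟩ := (hpc ⟨_, hgC⟩ g rfl).exists_le_sylow
  obtain ⟨c, hc⟩ := MulAction.exists_smul_eq ↥C P' P
  obtain ⟨T, hT⟩ := (P.2.map C.subtype).exists_le_sylow
  obtain ⟨h, hh⟩ := MulAction.exists_smul_eq G T S
  have hmove : ∀ x ∈ (T : Subgroup G), h * x * h⁻¹ ∈ (S : Subgroup G) := by
    intro x hx
    rw [← hh, Sylow.coe_subgroup_smul, Subgroup.mem_pointwise_smul_iff_inv_smul_mem, MulAut.smul_def]
    simpa [MulAut.conj_symm_apply, mul_assoc] using hx
  have h1 : h * a * h⁻¹ = a := hwc h (hmove a (hT ⟨⟨a, haC⟩, hP (Subgroup.mem_zpowers _), rfl⟩))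
  have hin : c * ⟨_, hgC⟩ * c⁻¹ ∈ (P : Subgroup ↥C) := by
    rw [← hc, Sylow.coe_subgroup_smul, Subgroup.mem_pointwise_smul_iff_inv_smul_mem, MulAut.smul_def]
    simpa [MulAut.conj_symm_apply, mul_assoc] using hP' (Subgroup.mem_zpowers _)
  have h2' : h * ((c : G) * (g * a * g⁻¹) * (c : G)⁻¹) * h⁻¹ ∈ (S : Subgroup G) := hmove _ (hT ⟨_, hin, rfl⟩)
  have h2 : h * ((c : G) * (g * a * g⁻¹) * (c : G)⁻¹) * h⁻¹ = a := by
    have e : h * ((c : G) * (g * a * g⁻¹) * (c : G)⁻¹) * h⁻¹ = (h * c * g) * a * (h * c * g)⁻¹ := by group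
    rw [e] at h2' ⊢
    exact hwc _ h2'
  have h3 : (c : G) * (g * a * g⁻¹) * (c : G)⁻¹ = a := by
    have : h * ((c : G) * (g * a * g⁻¹) * (c : G)⁻¹) * h⁻¹ = h * a * h⁻¹ := by rw [h1, h2]
    exact mul_left_cancel (mul_right_cancel this)
  have h4 : (c : G) * b = b * (c : G) := Subgroup.mem_centralizer_singleton_iff.mp c.2
  calc b = (c : G) * b * (c : G)⁻¹ := by rw [h4, mul_inv_cancel_right]
    _ = ((c : G) * (g * a * g⁻¹) * (c : G)⁻¹) ^ n := by rw [hb, conj_pow, conj_pow]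
    _ = a ^ n := by rw [h3]

end Cfsg.Agent.S1939
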