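import Cfsg.Statements.S1940

set_option autoImplicit false
open Cfsg

namespace Cfsg.Agent.S1940

/-- Let the finite group L act by automorphisms on the finite abelian group M, and let N be an L-invariant subgroup of M such that M/N is a p-group on which L acts trivially (every l • m lies in the coset mN). If every element of M is a product of an element of N and an element fixed by a Sylow p-subgroup T of L, then every element of M is a product of an element of N and an element fixed by all of L. -/
theorem result {L : Type*} [Group L] [Finite L] {M : Type*} [CommGroup M] [Finite M] [MulDistribMulAction L M]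
    {p : ℕ} [Fact p.Prime] (N : Subgroup M) (hN : ∀ (l : L) (m : M), m ∈ N → l • m ∈ N)
    (hquot : IsPGroup p (M ⧸ N)) (htriv : ∀ (l : L) (m : M), (l • m) * m⁻¹ ∈ N) (T : Sylow p L)
    (hT : ∀ m : M, ∃ n ∈ N, ∃ c : M, (∀ t ∈ (T : Subgroup L), t • c = c) ∧ m = n * c) :
    ∀ m : M, ∃ n ∈ N, ∃ c : M, (∀ l : L, l • c = c) ∧ m = n * c := by
  intro m
  obtain ⟨n, hn, c, hc, rfl⟩ := hT m
  classical
  have := Fintype.ofFinite (L ⧸ (T : Subgroup L))
  let f : L ⧸ (T : Subgroup L) → M := fun q => Quotient.liftOn' q (fun l => l • c) (by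
    intro a b hab
    rw [QuotientGroup.leftRel_apply] at hab
    calc a • c = a • ((a⁻¹ * b) • c) := by rw [hc _ hab]
      _ = b • c := by rw [smul_smul, mul_inv_cancel_left])
  have hf : ∀ (l : L) (q : L ⧸ (T : Subgroup L)), l • f q = f (l • q) := by
    intro l q
    induction q using QuotientGroup.induction_on with
    | H x => exact smul_smul l x c
  set d := ∏ q, f q with hd
  have hfix : ∀ l : L, l • d = d := by
    intro l
    rw [hd, Finset.smul_prod']
    simp only [hf]
    exact Equiv.prod_comp (MulAction.toPerm l) f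
  have hmk : ∀ l : L, ((l • c : M) : M ⧸ N) = (c : M ⧸ N) := by
    intro l
    rw [QuotientGroup.eq]
    have := N.inv_mem (htriv l c)
    rwa [mul_inv_rev, inv_inv, mul_comm] at this
  have hd' : (d : M ⧸ N) = (c : M ⧸ N) ^ (T : Subgroup L).index := by
    rw [hd, ← QuotientGroup.mk'_apply, map_prod]
    rw [Finset.prod_congr rfl (g := fun _ => (c : M ⧸ N))]
    · rw [Finset.prod_const, Finset.card_univ, ← Nat.card_eq_fintype_card]; rfl
    · intro q _
      induction q using QuotientGroup.induction_on with
      | H x => exact hmk x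
  obtain ⟨k, hk⟩ := hquot (c : M ⧸ N)
  have hcop : Nat.Coprime (T : Subgroup L).index (p ^ k) :=
    (((Fact.out : p.Prime).coprime_iff_not_dvd.mpr (Sylow.not_dvd_index T)).symm).pow_right k
  obtain ⟨j, hj⟩ : ∃ j : ℕ, (c : M ⧸ N) ^ ((T : Subgroup L).index * j) = (c : M ⧸ N) := by
    by_cases h1 : p ^ k = 1
    · refine ⟨0, ?_⟩
      rw [h1, pow_one] at hk
      rw [hk, one_pow]
    · obtain ⟨j, hj⟩ := Nat.exists_mul_mod_eq_one_of_coprime hcop (by
        have := Nat.pos_of_ne_zero (pow_ne_zero k (Fact.out : p.Prime).ne_zero); omega)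
      refine ⟨j, ?_⟩
      rw [pow_eq_pow_mod _ hk, hj.2, pow_one]
  refine ⟨n * c * (d ^ j)⁻¹, ?_, d ^ j, fun l => by rw [smul_pow', hfix], by group⟩
  rw [mul_assoc]
  refine N.mul_mem hn ?_
  rw [← QuotientGroup.eq_one_iff, QuotientGroup.mk_mul, QuotientGroup.mk_inv, QuotientGroup.mk_pow, hd', ← pow_mul, hj,
    mul_inv_cancel]

end Cfsg.Agent.S1940
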