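import Cfsg.Agent.Lib.GenFitting
import Cfsg.Agent.Lib.Core
import Mathlib.Algebra.BigOperators.Group.Finset.Basic
import Mathlib.GroupTheory.Sylow

set_option autoImplicit false
open Cfsg

namespace Cfsg.Agent.S1941

open Subgroup

open scoped IsMulCommutative in
/-- Gaschütz: a cocycle into an abelian normal `p`-subgroup which is trivial on a Sylow `p`-subgroup is inner. -/
theorem inner_of_cocycle {G : Type*} [Group G] [Finite G] {p : ℕ} [Fact p.Prime] (T : Sylow p G)
    (Z : Subgroup G) (hZn : Z.Normal) (hZc : IsMulCommutative Z) (hZp : IsPGroup p Z) (d : G → Z)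
    (hdT : ∀ g : G, ∀ t ∈ (T : Subgroup G), d (g * t) = d g)
    (hd : ∀ x g : G, (d (x * g) : G) = d x * (x * d g * x⁻¹)) :
    ∃ c ∈ Z, ∀ x : G, (d x : G) = c * (x * c⁻¹ * x⁻¹) := by
  classical
  set T' := (T : Subgroup G) with hT'
  letI := Fintype.ofFinite (G ⧸ T')
  let D : G ⧸ T' → Z := Quotient.lift d (fun g g' h => by
    have h1 : g⁻¹ * g' ∈ T' := QuotientGroup.leftRel_apply.mp h
    have h2 := hdT g _ h1
    rw [mul_inv_cancel_left] at h2
    exact h2.symm)
  set b : Z := ∏ q, D q with hb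
  let cj : G → (Z →* Z) := fun x =>
    { toFun := fun z => ⟨x * z * x⁻¹, hZn.conj_mem _ z.2 x⟩
      map_one' := Subtype.ext (by simp)
      map_mul' := fun u v => Subtype.ext (by simp [mul_assoc]) }
  have key : ∀ x : G, b = d x ^ T'.index * cj x b := by
    intro x
    have h1 : ∀ q : G ⧸ T', D (x • q) = d x * cj x (D q) := fun q => by
      induction q using QuotientGroup.induction_on with
      | H g => exact Subtype.ext (hd x g)
    calc b = ∏ q, D (x • q) := (Fintype.prod_equiv (MulAction.toPerm x) _ _ (fun q => rfl)).symm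
      _ = ∏ q, (d x * cj x (D q)) := by simp only [h1]
      _ = _ := by
        rw [Finset.prod_mul_distrib, Finset.prod_const, ← map_prod, Finset.card_univ, index_eq_card,
          Nat.card_eq_fintype_card]
  have hn : (Nat.card Z).Coprime T'.index := by
    obtain ⟨k, hk⟩ := IsPGroup.iff_card.mp hZp
    rw [hk]
    exact Nat.Coprime.pow_left k ((Fact.out : p.Prime).coprime_iff_not_dvd.mpr T.not_dvd_index)
  set e := powCoprime hn with he
  refine ⟨(e.symm b : Z), (e.symm b).2, fun x => ?_⟩
  have h2 : e (d x * cj x (e.symm b)) = e (e.symm b) := by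
    show (d x * cj x (e.symm b)) ^ T'.index = e (e.symm b)
    rw [mul_pow, ← map_pow, show (e.symm b) ^ T'.index = b from e.apply_symm_apply b, e.apply_symm_apply,
      ← key]
  have h3 : (d x : G) * (x * (e.symm b : Z) * x⁻¹) = (e.symm b : Z) := congrArg Subtype.val (e.injective h2)
  calc (d x : G) = ((d x : G) * (x * (e.symm b : Z) * x⁻¹)) * (x * ((e.symm b : Z) : G)⁻¹ * x⁻¹) := by
        simp [mul_assoc]
    _ = _ := by rw [h3]

/-- Let G be a finite group with no nontrivial normal subgroup of order prime to p, T a Sylow p-subgroup of G and E(G) the layer of G (the subgroup generated by its components). An automorphism of G of p-power order that fixes T and E(G) elementwise is inner. -/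
theorem result {G : Type*} [Group G] [Finite G] {p : ℕ} [Fact p.Prime] (hcore : Cfsg.pPrimeCore p G = ⊥)
    (T : Sylow p G) (α : MulAut G) (hα : ∃ j : ℕ, orderOf α = p ^ j) (hfixT : ∀ x ∈ (T : Subgroup G), α x = x)
    (hfixE : ∀ x ∈ Cfsg.layer G, α x = x) : ∃ g : G, ∀ x : G, α x = g * x * g⁻¹ := by
  have hFT : Cfsg.fittingSubgroup G ≤ (T : Subgroup G) := by
    rw [CfsgLib.Core.fittingSubgroup_eq_iSup_pCore]
    refine iSup_le fun q => ?_
    haveI := Fact.mk q.2
    by_cases h : (q : ℕ) = p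
    · rw [h]; exact CfsgLib.Core.pCore_le_sylow T
    · have h1 : (Nat.card ↥(Cfsg.pCore (q : ℕ) G)).Coprime p := by
        obtain ⟨k, hk⟩ := IsPGroup.iff_card.mp (CfsgLib.Core.isPGroup_pCore (G := G) (q : ℕ))
        rw [hk]
        exact Nat.Coprime.pow_left k ((Nat.coprime_primes q.2 Fact.out).mpr h)
      exact (CfsgLib.Core.le_pPrimeCore inferInstance h1).trans (hcore.le.trans bot_le)
  have hF : ∀ f ∈ Cfsg.generalizedFittingSubgroup G, α f = f := by
    intro f hf
    have hle : Cfsg.generalizedFittingSubgroup G ≤ α.toMonoidHom.eqLocus (MonoidHom.id G) :=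
      sup_le (fun x hx => hfixE x hx) (fun x hx => hfixT x (hFT hx))
    exact hle hf
  set Z := Subgroup.centralizer (Cfsg.generalizedFittingSubgroup G : Set G) with hZ
  have hZn : Z.Normal := inferInstance
  have hZc : IsMulCommutative Z :=
    ⟨⟨fun a b => Subtype.ext (mem_centralizer_iff.mp b.2 a (CfsgLib.GenFitting.centralizer_genFitting_le a.2))⟩⟩
  have hZT : Z ≤ (T : Subgroup G) :=
    (CfsgLib.Core.le_fittingSubgroup hZn (open scoped IsMulCommutative in CommGroup.isNilpotent)).trans hFT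
  have hmem : ∀ g : G, α g * g⁻¹ ∈ Z := by
    intro g
    refine mem_centralizer_iff.mpr fun f hf => ?_
    have h1 := hF (g⁻¹ * f * g⁻¹⁻¹) ((inferInstance : (Cfsg.generalizedFittingSubgroup G).Normal).conj_mem f hf g⁻¹)
    rw [map_mul, map_mul, map_inv, map_inv, map_inv, hF f hf, inv_inv, inv_inv] at h1
    have h2 : α g * ((α g)⁻¹ * f * α g) * g⁻¹ = α g * (g⁻¹ * f * g) * g⁻¹ := by rw [h1]
    simpa [mul_assoc] using h2
  obtain ⟨c, -, hc⟩ := inner_of_cocycle T Z hZn hZc (T.2.to_le hZT) (fun g => ⟨α g * g⁻¹, hmem g⟩)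
    (fun g t ht => Subtype.ext (by
      show α (g * t) * (g * t)⁻¹ = α g * g⁻¹
      rw [map_mul, hfixT t ht]
      simp [mul_assoc]))
    (fun x g => by
      show α (x * g) * (x * g)⁻¹ = α x * x⁻¹ * (x * (α g * g⁻¹) * x⁻¹)
      simp [mul_assoc])
  refine ⟨c, fun x => ?_⟩
  have h1 : α x * x⁻¹ = c * (x * c⁻¹ * x⁻¹) := hc x
  calc α x = α x * x⁻¹ * x := by simp
    _ = _ := by rw [h1]; simp [mul_assoc]

end Cfsg.Agent.S1941
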