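import Cfsg.Statements.S1944
import Cfsg.Agent.Lib.Core
import Cfsg.Agent.Lib.GroupB.Coprime

set_option autoImplicit false
open Cfsg

namespace Cfsg.Agent.S1944

/-- Let S be a Sylow p-subgroup of the finite group G and suppose that the centre Z(S) lies in O_{p',p}(G). The elements of S each of which is its only G-conjugate in S form a subgroup W of Z(S); W is then a direct factor of Z(S): there is a subgroup K of Z(S) with W ∩ K = 1 and WK = Z(S). -/
theorem result {G : Type*} [Group G] [Finite G] {p : ℕ} [Fact p.Prime] (S : Sylow p G)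
    (hZ : ((S : Subgroup G) ⊓ Subgroup.centralizer ((S : Subgroup G) : Set G)) ≤ Cfsg.pPrimePCore p G) :
    ∃ W K : Subgroup G, (∀ x : G, x ∈ W ↔ (x ∈ (S : Subgroup G) ∧ ∀ g : G, g * x * g⁻¹ ∈ (S : Subgroup G) → g * x * g⁻¹ = x)) ∧
      K ≤ ((S : Subgroup G) ⊓ Subgroup.centralizer ((S : Subgroup G) : Set G)) ∧ W ⊓ K = ⊥ ∧ W ⊔ K = ((S : Subgroup G) ⊓ Subgroup.centralizer ((S : Subgroup G) : Set G)) := by
  classical
  set D := Cfsg.pPrimeCore p G
  haveI hDn : D.Normal := by haveI := CfsgLib.Core.pPrimeCore_characteristic (G := G) p; infer_instance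
  set M := Cfsg.pPrimePCore p G
  haveI hMn : M.Normal := Subgroup.Normal.comap (Cfsg.pCore_normal p _) _
  have hDM : D ≤ M := fun x hx => by
    show QuotientGroup.mk' D x ∈ Cfsg.pCore p (G ⧸ D)
    rw [show QuotientGroup.mk' D x = 1 from (QuotientGroup.eq_one_iff x).mpr hx]; exact one_mem _
  have hDcop : (Nat.card D).Coprime p := CfsgLib.Core.card_pPrimeCore_coprime p
  set H := (S : Subgroup G) ⊓ M
  have hHp : IsPGroup p ↥H := S.2.to_inf_left
  obtain ⟨j, hj⟩ := IsPGroup.iff_card.mp hHp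
  have hDH : D ⊓ H = ⊥ := CfsgLib.GroupB.Coprime.inf_eq_bot_of_coprime (hj ▸ hDcop.pow_right j)
  obtain ⟨P, hP⟩ := (hHp.comap_subtype (K := M)).exists_le_sylow
  have hHle : H ≤ (P : Subgroup ↥M).map M.subtype := fun x hx => ⟨⟨x, hx.2⟩, hP (Subgroup.mem_subgroupOf.mpr hx), rfl⟩
  have hPH : (P : Subgroup ↥M).map M.subtype = H := by
    refine (Subgroup.eq_of_le_of_card_ge hHle ?_).symm
    obtain ⟨T, hT⟩ := (P.2.map M.subtype).exists_le_sylow
    obtain ⟨g, hg⟩ := MulAction.exists_smul_eq G T S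
    rw [← Subgroup.card_map_of_injective (K := (P : Subgroup ↥M).map M.subtype) (f := (MulAut.conj g).toMonoidHom) (MulEquiv.injective _)]
    refine Subgroup.card_le_of_le ?_
    rintro _ ⟨x, hx, rfl⟩
    refine ⟨?_, hMn.conj_mem x (Subgroup.map_subtype_le _ hx) g⟩
    rw [← hg, Sylow.coe_subgroup_smul]
    exact ⟨x, hT hx, rfl⟩
  have hHn : H ≤ Subgroup.normalizer (D : Set G) := by rw [Subgroup.normalizer_eq_top D]; exact le_top
  have hDHM : D ⊔ H = M := by
    refine Subgroup.eq_of_le_of_card_ge (sup_le hDM inf_le_right) ?_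
    have hrel : ∃ m, D.relIndex M = p ^ m := by
      obtain ⟨m, hm⟩ := IsPGroup.iff_card.mp (CfsgLib.Core.isPGroup_pCore (G := G ⧸ D) p)
      refine ⟨m, ?_⟩
      have e : M.map (QuotientGroup.mk' D) = Cfsg.pCore p (G ⧸ D) := Subgroup.map_comap_eq_self_of_surjective (QuotientGroup.mk'_surjective D) _
      rw [← hm, ← e, ← Subgroup.relIndex_bot_left (M.map (QuotientGroup.mk' D)), ← Subgroup.relIndex_comap,
        MonoidHom.comap_bot, QuotientGroup.ker_mk']
    obtain ⟨m, hm⟩ := hrel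
    rw [CfsgLib.GroupB.Coprime.card_sup_eq hHn hDH, ← Subgroup.relIndex_bot_left M,
      ← Subgroup.relIndex_mul_relIndex ⊥ D M bot_le hDM, Subgroup.relIndex_bot_left, hm]
    refine Nat.mul_le_mul_left _ (Nat.le_of_dvd Nat.card_pos ?_)
    rw [← hPH, Subgroup.card_map_of_injective M.subtype_injective]
    refine P.pow_dvd_card_of_pow_dvd_card ?_
    rw [← hm]; exact Subgroup.relIndex_dvd_card D M
  set N := Subgroup.normalizer (H : Set G)
  have hND : N ⊔ D = ⊤ := by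
    refine top_unique ?_
    rw [← Sylow.normalizer_sup_eq_top P, hPH, ← hDHM]
    exact sup_le le_sup_left (sup_le le_sup_right (le_sup_of_le_left Subgroup.le_normalizer))
  set Z := (S : Subgroup G) ⊓ Subgroup.centralizer ((S : Subgroup G) : Set G)
  set A := H ⊓ Subgroup.centralizer (H : Set G)
  have hZA : Z ≤ A := fun z hz => ⟨⟨hz.1, hZ hz⟩, Subgroup.centralizer_le (show (H : Set G) ⊆ (S : Subgroup G) from fun x hx => hx.1) hz.2⟩
  have hfus : ∀ z ∈ Z, ∀ g : G, g * z * g⁻¹ ∈ (S : Subgroup G) → ∃ n ∈ N, g * z * g⁻¹ = n * z * n⁻¹ := by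
    intro z hz g hgz
    have hg : g ∈ ((N ⊔ D : Subgroup G) : Set G) := by rw [hND]; exact Subgroup.mem_top _
    rw [Subgroup.mul_normal] at hg
    obtain ⟨n, hn, d, hd, rfl⟩ := hg
    have hzM : z ∈ M := (hZA hz).1.2
    have hgH : n * d * z * (n * d)⁻¹ ∈ H := ⟨hgz, hMn.conj_mem z hzM _⟩
    have h1 : d * z * d⁻¹ ∈ H := by
      rw [show n * d * z * (n * d)⁻¹ = n * (d * z * d⁻¹) * n⁻¹ by group] at hgH
      exact (Subgroup.mem_normalizer_iff.mp hn _).mpr hgH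
    have h2 : d * z * d⁻¹ * z⁻¹ ∈ D ⊓ H := by
      refine ⟨?_, H.mul_mem h1 (H.inv_mem (hZA hz).1)⟩
      rw [show d * z * d⁻¹ * z⁻¹ = d * (z * d⁻¹ * z⁻¹) by group]
      exact D.mul_mem hd (hDn.conj_mem _ (D.inv_mem hd) z)
    rw [hDH, Subgroup.mem_bot, mul_inv_eq_one] at h2
    refine ⟨n, hn, ?_⟩
    show n * d * z * (n * d)⁻¹ = n * z * n⁻¹
    rw [show n * d * z * (n * d)⁻¹ = n * (d * z * d⁻¹) * n⁻¹ by group, h2]
  have hSN : (S : Subgroup G) ≤ N := fun s hs => CfsgLib.GroupB.Coprime.le_normalizer_of_conj_mem (N := H) (K := (S : Subgroup G))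
    (fun k hk x hx => ⟨(S : Subgroup G).mul_mem ((S : Subgroup G).mul_mem hk hx.1) ((S : Subgroup G).inv_mem hk), hMn.conj_mem x hx.2 k⟩) hs
  -- the fixed points
  let W : Subgroup G := Z ⊓ Subgroup.centralizer (N : Set G)
  have hW : ∀ x : G, x ∈ W ↔ (x ∈ (S : Subgroup G) ∧ ∀ g : G, g * x * g⁻¹ ∈ (S : Subgroup G) → g * x * g⁻¹ = x) := by
    intro x
    constructor
    · rintro ⟨hxZ, hxN⟩
      refine ⟨hxZ.1, fun g hg => ?_⟩
      obtain ⟨n, hn, e⟩ := hfus x hxZ g hg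
      rw [e, Subgroup.mem_centralizer_iff.mp hxN n hn, mul_inv_cancel_right]
    · rintro ⟨hxS, hiso⟩
      have hxZ : x ∈ Z := ⟨hxS, Subgroup.mem_centralizer_iff.mpr fun s hs => by
        have := hiso s ((S : Subgroup G).mul_mem ((S : Subgroup G).mul_mem hs hxS) ((S : Subgroup G).inv_mem hs))
        exact mul_inv_eq_iff_eq_mul.mp this⟩
      refine ⟨hxZ, Subgroup.mem_centralizer_iff.mpr fun n hn => ?_⟩
      exact mul_inv_eq_iff_eq_mul.mp (hiso n ((Subgroup.mem_normalizer_iff.mp hn x).mp (hZA hxZ).1).1)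
  letI : CommGroup ↥A := { (inferInstance : Group ↥A) with
    mul_comm := fun a b => Subtype.ext (Subgroup.mem_centralizer_iff.mp b.2.2 (a : G) a.2.1) }
  have hconjA : ∀ n ∈ N, ∀ a ∈ A, n * a * n⁻¹ ∈ A := by
    intro n hn a ha
    refine ⟨(Subgroup.mem_normalizer_iff.mp hn a).mp ha.1, Subgroup.mem_centralizer_iff.mpr fun h hh => ?_⟩
    have hh' := Subgroup.mem_centralizer_iff.mp ha.2 _ ((Subgroup.mem_normalizer_iff''.mp hn h).mp hh)
    calc h * (n * a * n⁻¹) = n * ((n⁻¹ * h * n) * a) * n⁻¹ := by group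
      _ = n * (a * (n⁻¹ * h * n)) * n⁻¹ := by rw [hh']
      _ = _ := by group
  set S' := (S : Subgroup G).subgroupOf N
  letI := Fintype.ofFinite (↥N ⧸ S')
  let τ : ↥Z →* ↥A :=
    { toFun := fun z => ∏ q : ↥N ⧸ S', (⟨_, hconjA _ q.out.2 z (hZA z.2)⟩ : ↥A)
      map_one' := Finset.prod_eq_one fun q _ => Subtype.ext (by simp)
      map_mul' := fun a b => by
        rw [← Finset.prod_mul_distrib]
        refine Finset.prod_congr rfl fun q _ => Subtype.ext ?_
        show (q.out : G) * ((a : G) * b) * (q.out : G)⁻¹ = (q.out : G) * a * (q.out : G)⁻¹ * ((q.out : G) * b * (q.out : G)⁻¹)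
        group }
  have hwell : ∀ z ∈ Z, ∀ u v : ↥N, (u : ↥N ⧸ S') = (v : ↥N ⧸ S') → (u : G) * z * (u : G)⁻¹ = (v : G) * z * (v : G)⁻¹ := by
    intro z hz u v huv
    have hs := QuotientGroup.eq.mp huv
    have := Subgroup.mem_centralizer_iff.mp hz.2 _ (Subgroup.mem_subgroupOf.mp hs)
    simp only [Subgroup.coe_mul, Subgroup.coe_inv] at this
    calc (u : G) * z * (u : G)⁻¹ = u * (z * ((u : G)⁻¹ * v)) * (v : G)⁻¹ := by group
      _ = u * (((u : G)⁻¹ * v) * z) * (v : G)⁻¹ := by rw [this]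
      _ = _ := by group
  have hτN : ∀ z : ↥Z, ∀ n : ↥N, (n : G) * (τ z : G) * (n : G)⁻¹ = τ z := by
    intro z n
    let c : ↥A →* ↥A :=
      { toFun := fun a => ⟨_, hconjA n n.2 a a.2⟩
        map_one' := Subtype.ext (by simp)
        map_mul' := fun a b => Subtype.ext (by show (n : G) * ((a : G) * b) * (n : G)⁻¹ = (n : G) * a * (n : G)⁻¹ * ((n : G) * b * (n : G)⁻¹); group) }
    have h : c (τ z) = τ z := by
      show c (∏ q : ↥N ⧸ S', _) = ∏ q : ↥N ⧸ S', _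
      rw [map_prod]
      refine Fintype.prod_equiv (MulAction.toPerm n) _ _ fun q => Subtype.ext ?_
      show (n : G) * ((q.out : G) * z * (q.out : G)⁻¹) * (n : G)⁻¹ = ((n • q).out : G) * z * ((n • q).out : G)⁻¹
      rw [← hwell z z.2 (n * q.out) (n • q).out (by
        rw [QuotientGroup.out_eq', show ((n * q.out : ↥N) : ↥N ⧸ S') = n • ((q.out : ↥N) : ↥N ⧸ S') from rfl, QuotientGroup.out_eq'])]
      simp only [Subgroup.coe_mul]; group
    exact congrArg Subtype.val h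
  have hτW : ∀ z, (τ z : G) ∈ W := fun z => by
    refine ⟨⟨(τ z).2.1.1, Subgroup.mem_centralizer_iff.mpr fun s hs => mul_inv_eq_iff_eq_mul.mp (hτN z ⟨s, hSN hs⟩)⟩,
      Subgroup.mem_centralizer_iff.mpr fun n hn => mul_inv_eq_iff_eq_mul.mp (hτN z ⟨n, hn⟩)⟩
  have hm : ∀ z : ↥Z, (z : G) ∈ W → (τ z : G) = (z : G) ^ S'.index := by
    intro z hz
    have : τ z = (⟨z, hZA z.2⟩ : ↥A) ^ S'.index := by
      show ∏ q : ↥N ⧸ S', _ = _
      rw [Finset.prod_eq_pow_card (b := (⟨(z : G), hZA z.2⟩ : ↥A)), Finset.card_univ, ← Nat.card_eq_fintype_card, ← Subgroup.index_eq_card]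
      exact fun q _ => Subtype.ext (by
        show (q.out : G) * z * (q.out : G)⁻¹ = z
        rw [Subgroup.mem_centralizer_iff.mp hz.2 _ q.out.2, mul_inv_cancel_right])
    exact congrArg Subtype.val this
  obtain ⟨k, hk⟩ := IsPGroup.iff_card.mp S.2
  have hmcop : (p ^ k).Coprime S'.index := by
    refine Nat.Coprime.pow_left k ((Fact.out : p.Prime).coprime_iff_not_dvd.mpr fun hd => S.not_dvd_index ?_)
    exact hd.trans (Subgroup.relIndex_dvd_index_of_le hSN)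
  have hpow : ∀ w ∈ W, w ^ p ^ k = 1 := fun w hw => by
    rw [← hk]
    exact congrArg Subtype.val (pow_card_eq_one' (x := (⟨w, hw.1.1⟩ : ↥(S : Subgroup G))))
  refine ⟨W, τ.ker.map Z.subtype, hW, Subgroup.map_subtype_le _, ?_, ?_⟩
  · rw [Subgroup.eq_bot_iff_forall]
    rintro _ ⟨hw, z, hz, rfl⟩
    have h1 : (z : G) ^ S'.index = 1 := by rw [← hm z hw, MonoidHom.mem_ker.mp hz]; rfl
    exact orderOf_eq_one_iff.mp (Nat.eq_one_of_dvd_coprimes hmcop (orderOf_dvd_of_pow_eq_one (hpow _ hw)) (orderOf_dvd_of_pow_eq_one h1))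
  · refine le_antisymm (sup_le inf_le_left (Subgroup.map_subtype_le _)) fun z hz => ?_
    obtain ⟨w, hw⟩ := exists_pow_eq_self_of_coprime (hmcop.symm.coprime_dvd_right (orderOf_dvd_of_pow_eq_one (hpow _ (hτW ⟨z, hz⟩))))
    set u := (τ ⟨z, hz⟩ : G) ^ w
    have huW : u ∈ W := W.pow_mem (hτW _) w
    have hu : u⁻¹ * z ∈ Z := Z.mul_mem (Z.inv_mem huW.1) hz
    have hker : (⟨_, hu⟩ : ↥Z) ∈ τ.ker := by
      rw [MonoidHom.mem_ker, show (⟨_, hu⟩ : ↥Z) = (⟨u, huW.1⟩ : ↥Z)⁻¹ * ⟨z, hz⟩ from rfl, map_mul, map_inv, inv_mul_eq_one]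
      refine Subtype.ext ?_
      rw [hm _ huW]
      show ((τ ⟨z, hz⟩ : G) ^ w) ^ S'.index = τ ⟨z, hz⟩
      rw [← pow_mul, mul_comm, pow_mul, hw]
    rw [show z = u * (u⁻¹ * z) by group]
    exact Subgroup.mul_mem_sup huW ⟨_, hker, rfl⟩

end Cfsg.Agent.S1944
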