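import Cfsg.Statements.S1948
import Cfsg.Agent.Lib.CentralSylow
import Cfsg.Agent.Lib.PResidual

set_option autoImplicit false
open Cfsg

namespace Cfsg.Agent.S1948
open CfsgLib.LocalBasic CfsgLib.ThompsonNPC CfsgLib.CentralSylow

/-- Let S be a Sylow p-subgroup of the finite group G. Then G = N_G(S)·O_{p'}(G) if and only if G is p-constrained and N_G(S) controls fusion in S, in the sense that whenever a subgroup Q of S has a conjugate g Q g⁻¹ inside S, the element g is a product n c with n normalizing S and c centralizing Q. -/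
theorem result {G : Type*} [Group G] [Finite G] {p : ℕ} [Fact p.Prime] (S : Sylow p G) :
    Subgroup.normalizer ((S : Subgroup G) : Set G) ⊔ Cfsg.pPrimeCore p G = ⊤ ↔
      (Cfsg.IsPConstrained p G ∧
        ∀ Q : Subgroup G, Q ≤ (S : Subgroup G) → ∀ g : G, Q.map (MulAut.conj g).toMonoidHom ≤ (S : Subgroup G) →
          ∃ n ∈ Subgroup.normalizer ((S : Subgroup G) : Set G), ∃ c ∈ Subgroup.centralizer (Q : Set G), g = n * c) := by
  set O := Cfsg.pPrimeCore p G with hO
  have hOchar := CfsgLib.Core.pPrimeCore_characteristic (G := G) p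
  have hOn : O.Normal := inferInstance
  have hOc : (Nat.card ↥O).Coprime p := CfsgLib.Core.card_pPrimeCore_coprime p
  set N := Subgroup.normalizer ((S : Subgroup G) : Set G) with hN
  set X := Cfsg.pPrimePCore p G with hX
  have hXn : X.Normal := by
    have := CfsgLib.Core.pCore_characteristic (G := G ⧸ O) p
    exact Subgroup.Normal.comap inferInstance _
  have hS1 : ∀ x ∈ (S : Subgroup G), x ∈ O → x = 1 := fun x hx hxO =>
    eq_one_of_coprime_of_mem S.2 hx (hOc.coprime_dvd_left (Subgroup.orderOf_dvd_natCard O hxO))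
  constructor
  · intro htop
    have hSO : (S : Subgroup G) ⊔ O ≤ X := by
      refine Subgroup.map_le_iff_le_comap.mp (CfsgLib.Core.le_pCore ?_ ?_)
      · refine Subgroup.Normal.map ?_ _ (QuotientGroup.mk'_surjective _)
        rw [← Subgroup.normalizer_eq_top_iff, ← top_le_iff, ← htop]
        refine sup_le (normalizer_sup_ge le_rfl (by rw [Subgroup.normalizer_eq_top O]; exact le_top)) ?_
        exact le_trans le_sup_right Subgroup.le_normalizer
      · rw [Subgroup.map_sup, (Subgroup.map_eq_bot_iff _).mpr (QuotientGroup.ker_mk' O).ge, sup_bot_eq]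
        exact S.2.map _
    set C := Subgroup.centralizer ((S : Subgroup G) : Set G) with hC
    have hel : ∀ x ∈ C, (∃ k, x ^ p ^ k = 1) → x ∈ (S : Subgroup G) := by
      rintro x hx ⟨k, hk⟩
      have hn : Subgroup.zpowers x ≤ N := Subgroup.zpowers_le.mpr
        (mem_normalizer_of_conj_map_eq (Subgroup.eq_of_le_of_card_ge (by
          rintro _ ⟨q, hq, rfl⟩
          show x * q * x⁻¹ ∈ (S : Subgroup G)
          rwa [← hx q hq, mul_inv_cancel_right]) (Subgroup.card_map_of_injective (MulEquiv.injective _)).ge))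
      have hU := (isPGroup_zpowers_of_pow_eq_one (k := k) hk).to_sup_of_normal_right' S.2 hn
      exact S.3 hU le_sup_right ▸ Subgroup.mem_sup_left (Subgroup.mem_zpowers x)
    set K := pcore' (pcOn_of_pElements_le (C := C) le_rfl hel) with hK
    have hKn : N ≤ Subgroup.normalizer (K : Set G) :=
      (normalizer_centralizer_ge le_rfl).trans (normalizer_le_pcore' _)
    have hKO : K ≤ O := by
      refine le_sup_left.trans (CfsgLib.Core.le_pPrimeCore (N := K ⊔ O) ?_ ?_)
      · rw [← Subgroup.normalizer_eq_top_iff, ← top_le_iff, ← htop]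
        refine sup_le (normalizer_sup_ge hKn (by rw [Subgroup.normalizer_eq_top O]; exact le_top)) ?_
        exact le_trans le_sup_right Subgroup.le_normalizer
      · exact ((card_pcore'_coprime _).mul_left hOc).coprime_dvd_left (CfsgLib.Core.card_sup_dvd_of_normal K O)
    have hCX : C ≤ X := (le_inf_sup_pcore' le_rfl hel).trans
      (sup_le (inf_le_right.trans (le_sup_left.trans hSO)) (hKO.trans (le_sup_right.trans hSO)))
    refine ⟨fun P => ?_, fun Q hQ g hg => ?_⟩
    · obtain ⟨T, hPT⟩ := (P.2.map X.subtype).exists_le_sylow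
      have hTX : (T : Subgroup G) ≤ X := by
        obtain ⟨m, hm⟩ := MulAction.exists_smul_eq G S T
        rw [← hm, Sylow.coe_subgroup_smul]
        intro u hu
        rw [Subgroup.mem_pointwise_smul_iff_inv_smul_mem, MulAut.smul_def] at hu
        have h2 := hXn.conj_mem _ (le_sup_left.trans hSO hu) m
        simpa [MulAut.conj_symm_apply, mul_assoc] using h2
      have hTP : (T : Subgroup G) ≤ (P : Subgroup ↥X).map X.subtype := by
        intro u hu
        refine ⟨⟨u, hTX hu⟩, ?_, rfl⟩
        have := P.3 (T.2.comap_subtype (K := X)) (fun y hy => Subgroup.mem_subgroupOf.mpr (hPT ⟨y, hy, rfl⟩))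
        exact this ▸ Subgroup.mem_subgroupOf.mpr hu
      refine (Subgroup.centralizer_le (SetLike.coe_subset_coe.mpr hTP)).trans ?_
      obtain ⟨m, hm⟩ := MulAction.exists_smul_eq G S T
      intro c hc
      have h1 : m⁻¹ * c * m ∈ C := by
        intro s hs
        have h2 := hc (m * s * m⁻¹) (show m * s * m⁻¹ ∈ (T : Subgroup G) by
          rw [← hm, Sylow.coe_subgroup_smul]; exact Subgroup.smul_mem_pointwise_smul s (MulAut.conj m) _ hs)
        calc s * (m⁻¹ * c * m) = m⁻¹ * (m * s * m⁻¹ * c) * m := by group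
          _ = m⁻¹ * (c * (m * s * m⁻¹)) * m := by rw [h2]
          _ = m⁻¹ * c * m * s := by group
      simpa [mul_assoc] using hXn.conj_mem _ (hCX h1) m
    · have hgtop : g ∈ N ⊔ O := htop ▸ Subgroup.mem_top g
      obtain ⟨n, hn, o, ho, rfl⟩ := Subgroup.mem_sup_of_normal_right.mp hgtop
      refine ⟨n, hn, o, fun q hq => ?_, rfl⟩
      have h1 : n * o * q * (n * o)⁻¹ ∈ (S : Subgroup G) := hg ⟨q, hq, rfl⟩
      have h2 : o * q * o⁻¹ ∈ (S : Subgroup G) :=
        (Subgroup.mem_normalizer_iff.mp hn (o * q * o⁻¹)).mpr (by simpa [mul_assoc] using h1)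
      have h3 := hS1 (o * q * o⁻¹ * q⁻¹) (Subgroup.mul_mem _ h2 (inv_mem (hQ hq)))
        (by
          have := O.mul_mem ho (hOn.conj_mem _ (O.inv_mem ho) q)
          simpa [mul_assoc] using this)
      rw [mul_inv_eq_one, mul_inv_eq_iff_eq_mul] at h3
      exact h3.symm
  · rintro ⟨hcons, hctl⟩
    obtain ⟨P0, hP0⟩ := ((S.2.to_le inf_le_left : IsPGroup p ↥((S : Subgroup G) ⊓ X : Subgroup G)).comap_subtype (K := X)).exists_le_sylow
    set P := (P0 : Subgroup ↥X).map X.subtype with hP
    have hPS : P ≤ (S : Subgroup G) := by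
      obtain ⟨m, -, hm⟩ := exists_conj_le_sylow S (M := ⊤) le_top (P0.2.map X.subtype) le_top
      have hle1 : (S : Subgroup G) ⊓ X ≤ P := fun u hu =>
        ⟨⟨u, hu.2⟩, hP0 (Subgroup.mem_subgroupOf.mpr hu), rfl⟩
      have hle2 : P.map (MulAut.conj m).toMonoidHom ≤ (S : Subgroup G) ⊓ X := by
        rintro _ ⟨u, hu, rfl⟩
        exact ⟨hm u hu, hXn.conj_mem u (Subgroup.map_subtype_le _ hu) m⟩
      have := Subgroup.eq_of_le_of_card_ge hle1
        ((Subgroup.card_map_of_injective (MulEquiv.injective _)).symm.le.trans (Subgroup.card_le_of_le hle2))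
      exact this ▸ inf_le_left
    have hfr := Sylow.normalizer_sup_eq_top P0
    have hXle : X ≤ N ⊔ O := by
      intro x hx
      have h1 : (⟨x, hx⟩ : ↥X) ∈ (P0 : Subgroup ↥X) ⊔ Cfsg.pResidual p ↥X := by
        rw [CfsgLib.PResidual.sup_pResidual_eq_top P0]; exact Subgroup.mem_top _
      have h2 := Subgroup.mem_map_of_mem X.subtype h1
      rw [Subgroup.map_sup] at h2
      refine sup_le (le_sup_of_le_left (hPS.trans Subgroup.le_normalizer)) (le_sup_of_le_right ?_) h2
      rw [Cfsg.pResidual, MonoidHom.map_closure, Subgroup.closure_le]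
      rintro _ ⟨y, hy, rfl⟩
      rw [SetLike.mem_coe, ← QuotientGroup.eq_one_iff]
      refine eq_one_of_coprime_of_mem (CfsgLib.Core.isPGroup_pCore p (G := G ⧸ O)) y.2 ?_
      refine Nat.Coprime.coprime_dvd_left ?_ hy
      rw [← Subgroup.orderOf_coe]
      exact orderOf_map_dvd (QuotientGroup.mk' O) (y : G)
    rw [← top_le_iff, ← hfr]
    refine sup_le (fun g hg => ?_) hXle
    obtain ⟨n, hn, c, hc, rfl⟩ := hctl P hPS g (by rw [conj_map_eq_of_mem_normalizer hg]; exact hPS)
    exact Subgroup.mul_mem _ (Subgroup.mem_sup_left hn) (hXle (hcons P0 hc))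

end Cfsg.Agent.S1948
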