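import Cfsg.Statements.S1949
import Cfsg.Agent.Lib.Fusion.SmallElements
import Cfsg.Agent.Lib.PStep

set_option autoImplicit false
open Cfsg

namespace Cfsg.Agent.S1949
open Subgroup CfsgLib.Fusion
open scoped commutatorElement

theorem comm_pow_left {P : Type*} [Group P] {x y : P} (h : Commute x ⁅x, y⁆) :
    ∀ n : ℕ, ⁅x ^ n, y⁆ = ⁅x, y⁆ ^ n := by
  intro n
  induction n with
  | zero => simp [commutatorElement_def]
  | succ n ih =>
    calc ⁅x ^ (n + 1), y⁆ = x * ⁅x ^ n, y⁆ * x⁻¹ * ⁅x, y⁆ := by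
          simp only [commutatorElement_def, pow_succ']; group
      _ = ⁅x, y⁆ ^ (n + 1) := by
          rw [ih, (h.pow_right n).eq, mul_inv_cancel_right, pow_succ]

/-- Let P be a finite p-group and G a group of automorphisms of P containing the inner automorphisms. Then there is a G-invariant subgroup D of P, contained in the subgroup generated by the elements x⁻¹α(x) with x in P and α in O^p(G), of exponent dividing p when p is odd and dividing 4 when p = 2, with [D, P] ≤ Z(D), such that every automorphism in G of order prime to p that fixes D elementwise is the identity; moreover every maximal abelian subgroup A of D is normal in P and every automorphism in G fixing A elementwise has p-power order. -/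
theorem result {P : Type*} [Group P] [Finite P] {p : ℕ} [Fact p.Prime] (hP : IsPGroup p P)
    (G : Subgroup (MulAut P)) (hG : Cfsg.Inn P ≤ G) :
    ∃ D : Subgroup P,
      (∀ α ∈ G, D.map α.toMonoidHom = D) ∧
      D ≤ Subgroup.closure {y : P | ∃ α ∈ Cfsg.pResidual p ↥G, ∃ x : P, y = x⁻¹ * (α : MulAut P) x} ∧
      (∀ d ∈ D, d ^ p = 1 ∨ (p = 2 ∧ d ^ 4 = 1)) ∧
      ⁅D, (⊤ : Subgroup P)⁆ ≤ D ⊓ Subgroup.centralizer (D : Set P) ∧
      (∀ α ∈ G, (orderOf α).Coprime p → (∀ d ∈ D, α d = d) → α = 1) ∧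
      ∀ A : Subgroup P, A ≤ D → IsMulCommutative ↥A →
        (∀ B : Subgroup P, A ≤ B → B ≤ D → IsMulCommutative ↥B → B = A) →
        A.Normal ∧ ∀ α ∈ G, (∀ a ∈ A, α a = a) → ∃ k : ℕ, orderOf α = p ^ k := by
  classical
  have hp : p.Prime := Fact.out
  -- invariant subgroups are normal
  have hconj : ∀ g : P, MulAut.conj g ∈ G := fun g => hG ⟨g, rfl⟩
  have hnorm : ∀ X : Subgroup P, (∀ α ∈ G, ∀ x ∈ X, α x ∈ X) → X.Normal := fun X hX =>
    ⟨fun x hx g => by simpa using hX _ (hconj g) x hx⟩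
  set S : Set P := {y : P | ∃ α ∈ Cfsg.pResidual p ↥G, ∃ x : P, y = x⁻¹ * (α : MulAut P) x} with hS
  set K := Subgroup.closure S with hK
  have hresn : (Cfsg.pResidual p ↥G).Normal := by
    refine ⟨fun a ha b => ?_⟩
    unfold Cfsg.pResidual at ha ⊢
    induction ha using Subgroup.closure_induction with
    | mem z hz =>
      refine Subgroup.subset_closure ?_
      show (orderOf (b * z * b⁻¹)).Coprime p
      rw [show b * z * b⁻¹ = MulAut.conj b z from rfl, MulEquiv.orderOf_eq]; exact hz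
    | one => rw [mul_one, mul_inv_cancel]; exact one_mem _
    | mul u v _ _ hu hv =>
      rw [show b * (u * v) * b⁻¹ = (b * u * b⁻¹) * (b * v * b⁻¹) by group]; exact mul_mem hu hv
    | inv u _ hu => rw [show b * u⁻¹ * b⁻¹ = (b * u * b⁻¹)⁻¹ by group]; exact inv_mem hu
  have hKinv : ∀ α ∈ G, ∀ x ∈ K, α x ∈ K := by
    intro α hα x hx
    induction hx using Subgroup.closure_induction with
    | mem z hz =>
      obtain ⟨γ, hγ, w, rfl⟩ := hz
      let a : ↥G := ⟨α, hα⟩
      have h1 : a * γ * a⁻¹ ∈ Cfsg.pResidual p ↥G := hresn.conj_mem γ hγ a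
      have h2 : ((a * γ * a⁻¹ : ↥G) : MulAut P) (α w) = α ((γ : MulAut P) w) := by
        simp only [Subgroup.coe_mul, Subgroup.coe_inv, MulAut.mul_apply, a, MulAut.inv_apply, MulEquiv.symm_apply_apply]
      refine Subgroup.subset_closure (show α (w⁻¹ * (γ : MulAut P) w) ∈ S from ⟨a * γ * a⁻¹, h1, α w, ?_⟩)
      rw [h2, map_mul, map_inv]
    | one => rw [map_one]; exact one_mem _
    | mul a b _ _ ha hb => rw [map_mul]; exact mul_mem ha hb
    | inv a _ ha => rw [map_inv]; exact inv_mem ha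
  have hKn : K.Normal := hnorm K hKinv
  have hres : ∀ α (hα : α ∈ G), (orderOf α).Coprime p → ∀ x : P, x⁻¹ * α x ∈ K := fun α hα hco x =>
    Subgroup.subset_closure ⟨⟨α, hα⟩, Subgroup.subset_closure (by
      show (orderOf (⟨α, hα⟩ : ↥G)).Coprime p
      rwa [Subgroup.orderOf_mk]), x, rfl⟩
  -- a maximal invariant abelian subgroup
  obtain ⟨A, ⟨hAK, hAinv, hAc⟩, hAmax⟩ := (Set.toFinite {A : Subgroup P | A ≤ K ∧ (∀ α ∈ G, ∀ x ∈ A, α x ∈ A) ∧
      (∀ a ∈ A, ∀ b ∈ A, a * b = b * a)}).exists_maximal ⟨⊥, bot_le,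
        fun α _ x hx => by rw [Subgroup.mem_bot.mp hx, map_one]; exact one_mem _,
        fun a ha b hb => by rw [Subgroup.mem_bot.mp ha, Subgroup.mem_bot.mp hb]⟩
  have hAn : A.Normal := hnorm A hAinv
  set π := QuotientGroup.mk' A with hπ
  let W : Subgroup (P ⧸ A) :=
    { carrier := {z | z ∈ Subgroup.center (P ⧸ A) ∧ z ^ p = 1}
      one_mem' := ⟨one_mem _, one_pow p⟩
      mul_mem' := fun {a b} ha hb => ⟨mul_mem ha.1 hb.1, by
        rw [(show Commute a b from (Subgroup.mem_center_iff.mp hb.1 a)).mul_pow, ha.2, hb.2, one_mul]⟩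
      inv_mem' := fun {a} ha => ⟨inv_mem ha.1, by rw [inv_pow, ha.2, inv_one]⟩ }
  set C := K ⊓ Subgroup.centralizer (A : Set P) ⊓ W.comap π with hC
  have hWiff : ∀ x, x ∈ W.comap π ↔ (∀ y, ⁅x, y⁆ ∈ A) ∧ x ^ p ∈ A := by
    intro x
    show π x ∈ Subgroup.center (P ⧸ A) ∧ (π x) ^ p = 1 ↔ _
    rw [← map_pow, hπ, QuotientGroup.mk'_apply, QuotientGroup.mk'_apply, QuotientGroup.eq_one_iff, Subgroup.mem_center_iff]
    refine and_congr_left' ⟨fun h y => ?_, fun h y => ?_⟩
    · rw [← QuotientGroup.eq_one_iff, ← QuotientGroup.mk'_apply, map_commutatorElement, commutatorElement_eq_one_iff_mul_comm]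
      exact (h _).symm
    · induction y using QuotientGroup.induction_on with
      | H y =>
        symm
        rw [← commutatorElement_eq_one_iff_mul_comm, ← QuotientGroup.mk'_apply, ← QuotientGroup.mk'_apply,
          ← map_commutatorElement, QuotientGroup.mk'_apply, QuotientGroup.eq_one_iff]
        exact h y
  have hCiff : ∀ x, x ∈ C ↔ x ∈ K ∧ (∀ a ∈ A, a * x = x * a) ∧ (∀ y, ⁅x, y⁆ ∈ A) ∧ x ^ p ∈ A := by
    intro x
    rw [hC, Subgroup.mem_inf, Subgroup.mem_inf, hWiff, Subgroup.mem_centralizer_iff]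
    tauto
  have hAC : A ≤ C := fun a ha => (hCiff a).mpr ⟨hAK ha, fun b hb => hAc b hb a ha, fun y => by
    rw [commutatorElement_def]
    simpa [mul_assoc] using mul_mem ha (hAn.conj_mem _ (inv_mem ha) y), pow_mem ha p⟩
  have hCinv : ∀ α ∈ G, ∀ x ∈ C, α x ∈ C := by
    intro α hα x hx
    obtain ⟨h1, h2, h3, h4⟩ := (hCiff x).mp hx
    refine (hCiff _).mpr ⟨hKinv α hα x h1, fun a ha => ?_, fun y => ?_, by rw [← map_pow]; exact hAinv α hα _ h4⟩
    · have := congrArg α (h2 _ (hAinv α⁻¹ (inv_mem hα) a ha))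
      simpa using this
    · have := hAinv α hα _ (h3 (α⁻¹ y))
      rw [map_commutatorElement] at this
      simpa using this
  have hCn : C.Normal := hnorm C hCinv
  have hZ : ∀ x ∈ C, (∀ c ∈ C, c * x = x * c) → x ∈ A := by
    intro x hx hxc
    set Zc := C ⊓ Subgroup.centralizer (C : Set P)
    have hle : A ≤ Zc := le_inf hAC fun a ha => Subgroup.mem_centralizer_iff.mpr fun c hc => (((hCiff c).mp hc).2.1 a ha).symm
    refine hAmax (y := Zc) ⟨inf_le_left.trans (fun y hy => ((hCiff y).mp hy).1), fun α hα y hy => ⟨hCinv α hα y hy.1, ?_⟩,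
      fun a ha b hb => (Subgroup.mem_centralizer_iff.mp ha.2 b hb.1).symm⟩ hle ⟨hx, Subgroup.mem_centralizer_iff.mpr hxc⟩
    refine Subgroup.mem_centralizer_iff.mpr fun c hc => ?_
    have := congrArg α (Subgroup.mem_centralizer_iff.mp hy.2 _ (hCinv α⁻¹ (inv_mem hα) c hc))
    simpa using this
  -- C_K(C) ≤ A
  set Q := K ⊓ Subgroup.centralizer (C : Set P) with hQ
  have hQA : Q ≤ A := by
    have hQn : Q.Normal := inferInstance
    by_contra hle
    have hmap : Q.map π ≠ ⊥ := fun h => hle (by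
      rw [Subgroup.map_eq_bot_iff, hπ, QuotientGroup.ker_mk'] at h; exact h)
    have hPq : IsPGroup p (P ⧸ A) := hP.to_quotient A
    have hQmn : (Q.map π).Normal := hQn.map π (QuotientGroup.mk'_surjective A)
    have hne := CfsgLib.PStep.normal_inf_center_ne_bot hPq hQmn hmap
    have hnt : 1 < Nat.card ↥(Q.map π ⊓ Subgroup.center (P ⧸ A)) := by
      have := (Subgroup.nontrivial_iff_ne_bot _).mpr hne
      exact Finite.one_lt_card
    obtain ⟨k, hk⟩ := IsPGroup.iff_card.mp (hPq.to_subgroup (Q.map π ⊓ Subgroup.center (P ⧸ A)))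
    have hdvd : p ∣ Nat.card ↥(Q.map π ⊓ Subgroup.center (P ⧸ A)) := by
      rw [hk]; exact dvd_pow_self p (fun h => by rw [h, pow_zero] at hk; omega)
    obtain ⟨⟨z, hzm⟩, hz0⟩ := exists_prime_orderOf_dvd_card' p hdvd
    have hz1 : orderOf z = p := (Subgroup.orderOf_coe (⟨z, hzm⟩ : ↥(Q.map π ⊓ Subgroup.center (P ⧸ A)))).trans hz0
    obtain ⟨⟨q, hq, rfl⟩, hzc⟩ := Subgroup.mem_inf.mp hzm
    have hz : orderOf (π q) = p := hz1
    have hqW : q ∈ W.comap π := ⟨hzc, orderOf_dvd_iff_pow_eq_one.mp hz.dvd⟩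
    obtain ⟨hq3, hq4⟩ := (hWiff q).mp hqW
    have hqC : q ∈ C := (hCiff q).mpr ⟨hq.1, fun a ha => Subgroup.mem_centralizer_iff.mp hq.2 a (hAC ha), hq3, hq4⟩
    have hqA : q ∈ A := hZ q hqC fun c hc => Subgroup.mem_centralizer_iff.mp hq.2 c hc
    rw [hπ, QuotientGroup.mk'_apply, (QuotientGroup.eq_one_iff q).mpr hqA, orderOf_one] at hz
    exact hp.ne_one hz.symm
  -- commutators in C
  have hcomA : ∀ x ∈ C, ∀ y, ⁅x, y⁆ ∈ A := fun x hx => ((hCiff x).mp hx).2.2.1
  have hAcen : ∀ a ∈ A, ∀ x ∈ C, x * a = a * x := fun a ha x hx => (((hCiff x).mp hx).2.1 a ha).symm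
  -- small elements form a subgroup
  let e : ℕ := if p = 2 then 4 else p
  have hsm : ∀ x : P, Small p x ↔ x ^ e = 1 := by
    intro x
    simp only [e]; split_ifs with h
    · refine ⟨fun hx => hx.elim (fun hx => ?_) (fun hx => hx.2), fun hx => Or.inr ⟨h, hx⟩⟩
      rw [h] at hx
      rw [show (4 : ℕ) = 2 * 2 from rfl, pow_mul, hx, one_pow]
    · exact ⟨fun hx => hx.resolve_right fun hh => h hh.1, Or.inl⟩
  have hpe : p ∣ e := by simp only [e]; split_ifs with h <;> simp [h]
  have hpe2 : p ∣ e.choose 2 := by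
    simp only [e]; split_ifs with h
    · rw [h]; exact ⟨3, rfl⟩
    · exact hp.dvd_choose_self (by norm_num) (lt_of_le_of_ne hp.two_le (Ne.symm h))
  let D : Subgroup P :=
    { carrier := {x | x ∈ C ∧ x ^ e = 1}
      one_mem' := ⟨one_mem _, one_pow e⟩
      mul_mem' := fun {u v} hu hv => ⟨mul_mem hu.1 hv.1, by
        set c := ⁅v⁻¹, u⁻¹⁆ with hc
        have hcA : c ∈ A := hcomA _ (inv_mem hv.1) _
        have hcu : Commute (v⁻¹) c := hAcen c hcA _ (inv_mem hv.1)
        have hvu : v * u = u * v * c := by simp only [hc, commutatorElement_def]; group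
        have hcp : c ^ p = 1 := by
          rw [hc, ← comm_pow_left hcu p, commutatorElement_eq_one_iff_mul_comm]
          exact (hAcen _ ((hCiff _).mp (inv_mem hv.1)).2.2.2 _ (inv_mem hu.1)).symm
        -- c is central in C, which suffices
        let u' : ↥C := ⟨u, hu.1⟩
        let v' : ↥C := ⟨v, hv.1⟩
        let c' : ↥C := ⟨c, hAC hcA⟩
        have h := congrArg Subtype.val (mul_pow_central (u := u') (v := v') (c := c') (Subtype.ext hvu)
          (fun w => Subtype.ext (hAcen c hcA w w.2).symm) e)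
        simp only [Subgroup.coe_mul, Subgroup.coe_pow, u', v', c'] at h
        obtain ⟨d, hd⟩ := hpe2
        rw [h, hu.2, hv.2, one_mul, one_mul, hd, pow_mul, hcp, one_pow]⟩
      inv_mem' := fun {x} hx => ⟨inv_mem hx.1, by rw [inv_pow, hx.2, inv_one]⟩ }
  have hDiff : ∀ x, x ∈ D ↔ x ∈ C ∧ x ^ e = 1 := fun x => Iff.rfl
  have hDinv : ∀ α ∈ G, ∀ x ∈ D, α x ∈ D := fun α hα x hx =>
    ⟨hCinv α hα x hx.1, by rw [← map_pow, hx.2, map_one]⟩
  have hDP : ⁅D, (⊤ : Subgroup P)⁆ ≤ D ⊓ Subgroup.centralizer (D : Set P) := by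
    rw [Subgroup.commutator_le]
    intro d hd y _
    have hcA := hcomA d hd.1 y
    refine ⟨⟨hAC hcA, ?_⟩, Subgroup.mem_centralizer_iff.mpr fun x hx => hAcen _ hcA x hx.1⟩
    rw [← comm_pow_left (show Commute d ⁅d, y⁆ from hAcen _ hcA d hd.1) e, hd.2]
    simp [commutatorElement_def]
  have hstep : ∀ (α : MulAut P) (X : Subgroup P), (orderOf α).Coprime p → (∀ x ∈ X, α x = x) →
      ∀ x : P, x⁻¹ * α x ∈ X → α x = x := fun α X hco hX x hx => eq_self_of_step hP hco (hX _ hx)
  refine ⟨D, fun α hα => ?_, fun x hx => ?_, fun x hx => ?_, hDP, fun α hα hco hfix => ?_, fun B hBD hBc hBmax => ?_⟩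
  · refine le_antisymm ?_ fun x hx => ⟨α⁻¹ x, hDinv _ (inv_mem hα) x hx, by simp⟩
    rintro _ ⟨x, hx, rfl⟩; exact hDinv α hα x hx
  · exact ((hCiff x).mp hx.1).1
  · exact (hsm x).mpr hx.2
  · obtain ⟨β, hβ, hβo⟩ := CfsgLib.RigidAut.exists_restrict α C (hCinv α hα)
    have hβ1 : β = 1 := by
      by_contra hne
      obtain ⟨M, -, ⟨x, hx, hx'⟩, hM, -⟩ := exists_small_moved (hP.to_subgroup C) (hco.coprime_dvd_left hβo) hne
      refine hx' (Subtype.ext ?_)
      rw [hβ]
      refine hfix _ ⟨x.2, ?_⟩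
      exact (hsm _).mp (small_map C.subtype (hM x hx))
    have hfC : ∀ c ∈ C, α c = c := fun c hc => by
      have := hβ ⟨c, hc⟩
      rw [hβ1] at this
      exact this.symm
    have hfK : ∀ x ∈ K, α x = x := by
      intro x hx
      refine hstep α C hco hfC x (hAC (hQA (Subgroup.mem_inf.mpr ⟨mul_mem (inv_mem hx) (hKinv α hα x hx), ?_⟩)))
      refine Subgroup.mem_centralizer_iff.mpr fun c hc => ?_
      have h4 := hfC _ (hCn.conj_mem c hc x)
      rw [map_mul, map_mul, map_inv, hfC c hc] at h4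
      calc c * (x⁻¹ * α x) = x⁻¹ * (x * c * x⁻¹) * α x := by group
        _ = x⁻¹ * (α x * c * (α x)⁻¹) * α x := by rw [h4]
        _ = _ := by group
    exact MulEquiv.ext fun x => hstep α K hco hfK x (hres α hα hco x)
  · have hc : ∀ a ∈ B, ∀ b ∈ B, a * b = b * a := fun a ha b hb => Subgroup.mul_comm_of_mem_isMulCommutative B ha hb
    have hext : ∀ w ∈ D, (∀ b ∈ B, b * w = w * b) → w ∈ B := by
      intro w hw hwc
      have hle : B ⊔ Subgroup.zpowers w ≤ D := sup_le hBD (Subgroup.zpowers_le.mpr hw)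
      have hcomm : IsMulCommutative ↥(B ⊔ Subgroup.zpowers w) := by
        have h1 : B ⊔ Subgroup.zpowers w ≤ Subgroup.centralizer ((B ⊔ Subgroup.zpowers w : Subgroup P) : Set P) := by
          refine sup_le ?_ (Subgroup.zpowers_le.mpr ?_)
          · refine Subgroup.le_centralizer_iff.mp (sup_le (fun a ha => Subgroup.mem_centralizer_iff.mpr fun b hb => hc b hb a ha)
              (Subgroup.zpowers_le.mpr (Subgroup.mem_centralizer_iff.mpr hwc)))
          · have h2 : B ⊔ Subgroup.zpowers w ≤ Subgroup.centralizer ({w} : Set P) :=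
              sup_le (fun b hb => Subgroup.mem_centralizer_singleton_iff.mpr (hwc b hb))
                (Subgroup.zpowers_le.mpr (Subgroup.mem_centralizer_singleton_iff.mpr rfl))
            exact Subgroup.mem_centralizer_iff.mpr fun b hb => Subgroup.mem_centralizer_singleton_iff.mp (h2 hb)
        exact ⟨⟨fun a b => Subtype.ext (Subgroup.mem_centralizer_iff.mp (h1 b.2) a a.2)⟩⟩
      exact (hBmax _ le_sup_left hle hcomm).le (mem_sup_right (mem_zpowers w))
    have hBn : B.Normal := by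
      refine ⟨fun b hb y => ?_⟩
      have h1 := hDP (Subgroup.commutator_mem_commutator (hBD hb) (Subgroup.mem_top y))
      have h2 : ⁅b, y⁆ ∈ B := hext _ h1.1 fun b' hb' => Subgroup.mem_centralizer_iff.mp h1.2 b' (hBD hb')
      rw [show y * b * y⁻¹ = ⁅b, y⁆⁻¹ * b by simp [commutatorElement_def, mul_assoc]]
      exact mul_mem (inv_mem h2) hb
    refine ⟨hBn, fun α hα hfB => ?_⟩
    obtain ⟨k, m, hm, he⟩ := Nat.exists_eq_pow_mul_and_not_dvd (orderOf_pos α).ne' p hp.ne_one
    set β := α ^ p ^ k with hβ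
    have hβo : orderOf β = m := by
      rw [hβ, orderOf_pow_of_dvd (pow_ne_zero k hp.ne_zero) (he ▸ dvd_mul_right _ _), he,
        Nat.mul_div_cancel_left _ (pow_pos hp.pos k)]
    have hco : (orderOf β).Coprime p := hβo ▸ (hp.coprime_iff_not_dvd.mpr hm).symm
    have hβG : β ∈ G := pow_mem hα _
    have hfix : ∀ b ∈ B, β b = b := by
      intro b hb
      have : ∀ n : ℕ, (α ^ n) b = b := fun n => by
        induction n with
        | zero => rfl
        | succ n ih => rw [pow_succ', MulAut.mul_apply, ih, hfB b hb]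
      exact this _
    have hfD : ∀ w ∈ D, β w = w := by
      intro w hw
      refine hstep β B hco hfix w (hext _ (mul_mem (inv_mem hw) (hDinv β hβG w hw)) fun b hb => ?_)
      have h4 := hfix _ (hBn.conj_mem b hb w)
      rw [map_mul, map_mul, map_inv, hfix b hb] at h4
      calc b * (w⁻¹ * β w) = w⁻¹ * (w * b * w⁻¹) * β w := by group
        _ = w⁻¹ * (β w * b * (β w)⁻¹) * β w := by rw [h4]
        _ = _ := by group
    have hβ1 : β = 1 := by
      -- the previous clause
      obtain ⟨γ, hγ, hγo⟩ := CfsgLib.RigidAut.exists_restrict β C (hCinv β hβG)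
      have hγ1 : γ = 1 := by
        by_contra hne
        obtain ⟨M, -, ⟨x, hx, hx'⟩, hM, -⟩ := exists_small_moved (hP.to_subgroup C) (hco.coprime_dvd_left hγo) hne
        refine hx' (Subtype.ext ?_)
        rw [hγ]
        exact hfD _ ⟨x.2, (hsm _).mp (small_map C.subtype (hM x hx))⟩
      have hfC : ∀ c ∈ C, β c = c := fun c hc => by
        have := hγ ⟨c, hc⟩
        rw [hγ1] at this
        exact this.symm
      have hfK : ∀ x ∈ K, β x = x := by
        intro x hx
        refine hstep β C hco hfC x (hAC (hQA (Subgroup.mem_inf.mpr ⟨mul_mem (inv_mem hx) (hKinv β hβG x hx), ?_⟩)))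
        refine Subgroup.mem_centralizer_iff.mpr fun c hc => ?_
        have h4 := hfC _ (hCn.conj_mem c hc x)
        rw [map_mul, map_mul, map_inv, hfC c hc] at h4
        calc c * (x⁻¹ * β x) = x⁻¹ * (x * c * x⁻¹) * β x := by group
          _ = x⁻¹ * (β x * c * (β x)⁻¹) * β x := by rw [h4]
          _ = _ := by group
      exact MulEquiv.ext fun x => hstep β K hco hfK x (hres β hβG hco x)
    refine ⟨k, ?_⟩
    rw [he, ← hβo, hβ1, orderOf_one, mul_one]

end Cfsg.Agent.S1949
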