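import Cfsg.Statements.S1952
import Cfsg.Agent.Lib.Fusion.YoshidaWreath
import Cfsg.Agent.Lib.Fusion.Yoshida

set_option autoImplicit false
open Cfsg

namespace Cfsg.Agent.S1952
open Subgroup

/-- Let P be a finite p-group with a normal elementary abelian subgroup A of index p, and let x ∈ A and y ∈ P with y outside A. If the product of the p conjugates y^(-i) x y^i (i = 0, …, p−1) is not the identity, then the wreath product Z_p ≀ Z_p, realised as a Sylow p-subgroup of the symmetric group of degree p², is a homomorphic image of P. -/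
theorem result {P : Type*} [Group P] [Finite P] {p : ℕ} [Fact p.Prime] (hP : IsPGroup p P) (A : Subgroup P) [A.Normal]
    (hA : Cfsg.IsElementaryAbelian p A) (hidx : A.index = p) (x y : P) (hx : x ∈ A) (hy : y ∉ A)
    (hprod : ((List.range p).map (fun i => (y ^ i)⁻¹ * x * y ^ i)).prod ≠ 1) :
    ∃ (Q : Sylow p (Equiv.Perm (Fin (p ^ 2)))) (f : P →* ↥(Q : Subgroup (Equiv.Perm (Fin (p ^ 2))))), Function.Surjective f := by
  classical
  haveI := hA.1
  letI : CommGroup ↥A := { (inferInstance : Group ↥A) with mul_comm := fun a b => Subtype.ext (Subgroup.mul_comm_of_mem_isMulCommutative A a.2 b.2) }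
  have hconj : ∀ i : ℕ, (y ^ i)⁻¹ * x * y ^ i ∈ A := fun i => by
    simpa using (inferInstance : A.Normal).conj_mem x hx (y ^ i)⁻¹
  set N : ↥A := ∏ i ∈ Finset.range p, (⟨(y ^ i)⁻¹ * x * y ^ i, hconj i⟩ : ↥A) with hN
  have hNv : (N : P) = ((List.range p).map (fun i => (y ^ i)⁻¹ * x * y ^ i)).prod := by
    have h : N = ((List.range p).map (fun i => (⟨(y ^ i)⁻¹ * x * y ^ i, hconj i⟩ : ↥A))).prod := by
      rw [hN, ← List.prod_toFinset _ List.nodup_range, List.toFinset_range]
    rw [h, Subgroup.val_list_prod, List.map_map]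
    rfl
  obtain ⟨c, hc⟩ := CfsgLib.Fusion.Yoshida.exists_char (p := p) (V := ↥A)
    (fun a => Subtype.ext (by simpa using hA.2 a.1 a.2)) (a := N) (fun h => hprod (by rw [← hNv, h]; rfl))
  refine CfsgLib.Fusion.Yoshida.exists_wreath hP hidx (s := y) c hx ?_
  intro h
  apply hc
  rw [hN, map_prod]
  apply Multiplicative.toAdd.injective
  rw [toAdd_prod, h, toAdd_one]

end Cfsg.Agent.S1952
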