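import Cfsg.Statements.S1954
import Cfsg.Agent.Lib.ConjFamily
import Cfsg.Agent.Lib.SectionReduce

set_option autoImplicit false
open Cfsg

namespace Cfsg.Agent.S1954

open Cfsg CfsgLib.Fusion CfsgLib.ConjFamily
open scoped commutatorElement Pointwise

/-- A relative Frattini argument. -/
theorem frattini_rel {G : Type*} [Group G] [Finite G] {p : ℕ} [Fact p.Prime] {M L S : Subgroup G}
    (hLM : ∀ x ∈ M, cj x L ≤ L) (hS : IsPGroup p ↥S) (hSL : S ≤ L) (hi : ¬ p ∣ S.relIndex L) {x : G} (hx : x ∈ M) :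
    ∃ l ∈ L, l * x ∈ Subgroup.normalizer (S : Set G) := by
  obtain ⟨l, hl, hle⟩ := exists_conj_le hS hi (Y := cj x S) (hS.map _) ((cj_mono x hSL).trans (hLM x hx))
  refine ⟨l, hl, mem_normalizer_iff_cj.mpr ?_⟩
  rw [cj_mul]
  exact Subgroup.eq_of_le_of_card_ge hle (by rw [card_cj, card_cj])

/-- A Sylow subgroup meets a normal subgroup in a Sylow subgroup. -/
theorem sylow_inf {G : Type*} [Group G] [Finite G] {p : ℕ} [Fact p.Prime] {S M L : Subgroup G}
    (hS : IsPGroup p ↥S) (hi : ¬ p ∣ S.relIndex M) (hLM : L ≤ M) (hn : ∀ x ∈ M, cj x L ≤ L) :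
    ¬ p ∣ (S ⊓ L).relIndex L := by
  obtain ⟨T, hT⟩ := ((hS.to_le (inf_le_left : S ⊓ L ≤ S)).comap_subtype (K := L)).exists_le_sylow
  obtain ⟨h, hh, hle⟩ := exists_conj_le hS hi (Y := (T : Subgroup ↥L).map L.subtype) (T.2.map _)
    ((Subgroup.map_subtype_le _).trans hLM)
  have hle2 : cj h ((T : Subgroup ↥L).map L.subtype) ≤ S ⊓ L :=
    le_inf hle ((cj_mono h (Subgroup.map_subtype_le _)).trans (hn h hh))
  have heq : (S ⊓ L).subgroupOf L = (T : Subgroup ↥L) := by
    refine Subgroup.eq_of_le_of_card_ge hT ?_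
    rw [← Subgroup.card_map_of_injective L.subtype_injective, ← card_cj h, Nat.card_congr (Subgroup.subgroupOfEquivOfLe inf_le_right).toEquiv]
    exact Subgroup.card_le_of_le hle2
  rw [Subgroup.relIndex, heq]
  exact T.not_dvd_index

theorem pow_conj_eq {G : Type*} [Group G] {y t z : G} (h : y * t * y⁻¹ = z * t) (hz : y * z = z * y) :
    ∀ k : ℕ, y ^ k * t * (y ^ k)⁻¹ = z ^ k * t := by
  intro k
  induction k with
  | zero => simp
  | succ k ih =>
    calc y ^ (k + 1) * t * (y ^ (k + 1))⁻¹ = y * (y ^ k * t * (y ^ k)⁻¹) * y⁻¹ := by rw [pow_succ']; group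
      _ = (y * z ^ k) * y⁻¹ * (y * t * y⁻¹) := by rw [ih]; group
      _ = (z ^ k * y) * y⁻¹ * (z * t) := by rw [(show Commute y z from hz).pow_right k |>.eq, h]
      _ = z ^ (k + 1) * t := by rw [mul_inv_cancel_right, pow_succ, mul_assoc]

/-- Local step: `N(T)` is generated by `C(T)` and `N(W)`. -/
theorem local_step {G : Type*} [Group G] [Finite G] {p : ℕ} [Fact p.Prime] (N : Subgroup G) [N.Normal] (P : Sylow p G)
    (W : Subgroup G) (hWR : W ≤ (P : Subgroup G) ⊓ N) (hWn : (P : Subgroup G) ≤ Subgroup.normalizer (W : Set G))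
    (hwc : ∀ g : G, cj g W ≤ (P : Subgroup G) → g ∈ Subgroup.normalizer (W : Set G))
    (hctl : ∀ A : Subgroup G, A ≤ (P : Subgroup G) ⊓ N → ∀ n ∈ N, cj n A ≤ (P : Subgroup G) ⊓ N →
      ∃ h ∈ N ⊓ Subgroup.normalizer (W : Set G), ∃ c ∈ N ⊓ Subgroup.centralizer (A : Set G), n = h * c)
    (T : Subgroup G) (hT : FullNorm P T)
    (hbig : ∀ E : Subgroup G, E ≤ (P : Subgroup G) → Nat.card ↥T < Nat.card ↥E → ∀ v ∈ Subgroup.normalizer (E : Set G),
      ∃ h ∈ Subgroup.normalizer (W : Set G), ∃ c ∈ Subgroup.centralizer (E : Set G), v = h * c) :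
    ∀ x ∈ Subgroup.normalizer (T : Set G), ∃ h ∈ Subgroup.normalizer (W : Set G),
      ∃ c ∈ Subgroup.centralizer (T : Set G), x = h * c := by
  classical
  have hp : p.Prime := Fact.out
  by_cases hWT : W ≤ T
  · exact fun x hx => ⟨x, hwc x ((cj_mono x hWT).trans ((mem_normalizer_iff_cj.mp hx).le.trans hT.1)), 1, one_mem _,
      (mul_one x).symm⟩
  set M := Subgroup.normalizer (T : Set G) with hM
  set C := Subgroup.centralizer (T : Set G) with hC
  set R := (P : Subgroup G) ⊓ N with hR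
  set L := M ⊓ N with hL
  set T₀ := T ⊓ N with hT₀
  have hCM : C ≤ M := fun c hc => Subgroup.mem_normalizer_iff.mpr fun t => by
    constructor
    · intro ht
      rw [← Subgroup.mem_centralizer_iff.mp hc t ht, mul_inv_cancel_right]; exact ht
    · intro ht
      have h := Subgroup.mem_centralizer_iff.mp hc _ ht
      have : t = c * t * c⁻¹ := by
        calc t = c⁻¹ * (c * t * c⁻¹ * c) := by group
          _ = c⁻¹ * (c * (c * t * c⁻¹)) := by rw [h]
          _ = c * t * c⁻¹ := by group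
      rw [this]; exact ht
  have hCn : ∀ x ∈ M, ∀ c ∈ C, x * c * x⁻¹ ∈ C := by
    intro x hx c hc
    refine Subgroup.mem_centralizer_iff.mpr fun t ht => ?_
    have ht' : x⁻¹ * t * x ∈ T := (Subgroup.mem_normalizer_iff''.mp hx t).mp ht
    have h := Subgroup.mem_centralizer_iff.mp hc _ ht'
    calc t * (x * c * x⁻¹) = x * ((x⁻¹ * t * x) * c) * x⁻¹ := by group
      _ = x * (c * (x⁻¹ * t * x)) * x⁻¹ := by rw [h]
      _ = _ := by group
  -- the group generated by C(T) and N(W)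
  let Good : Subgroup G :=
    { carrier := {x | x ∈ M ∧ ∃ h ∈ Subgroup.normalizer (W : Set G), ∃ c ∈ C, x = h * c}
      one_mem' := ⟨one_mem _, 1, one_mem _, 1, one_mem _, (one_mul 1).symm⟩
      mul_mem' := by
        rintro _ _ ⟨hx, h, hh, c, hc, rfl⟩ ⟨hy, h', hh', c', hc', rfl⟩
        have hh'M : h' ∈ M := by have := mul_mem hy (inv_mem (hCM hc')); rwa [mul_inv_cancel_right] at this
        refine ⟨mul_mem hx hy, h * h', mul_mem hh hh', (h'⁻¹ * c * h'⁻¹⁻¹) * c',
          mul_mem (hCn _ (inv_mem hh'M) c hc) hc', by group⟩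
      inv_mem' := by
        rintro _ ⟨hx, h, hh, c, hc, rfl⟩
        have hhM : h ∈ M := by have := mul_mem hx (inv_mem (hCM hc)); rwa [mul_inv_cancel_right] at this
        exact ⟨inv_mem hx, h⁻¹, inv_mem hh, h * c⁻¹ * h⁻¹, hCn h hhM _ (inv_mem hc), by group⟩ }
  suffices hall : M ≤ Good from fun x hx => (hall hx).2
  -- a normaliser of a larger subgroup, inside `M`, is good
  have hgood : ∀ U : Subgroup G, U ≤ (P : Subgroup G) → U ≤ M → ¬ U ≤ T → ∀ v ∈ M, v ∈ Subgroup.normalizer (U : Set G) → v ∈ Good := by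
    intro U hUP hUM hUT v hvM hvU
    have hE : v ∈ Subgroup.normalizer ((T ⊔ U : Subgroup G) : Set G) := mem_normalizer_iff_cj.mpr (by
      show (T ⊔ U).map _ = _
      rw [Subgroup.map_sup]
      exact congr_arg₂ (· ⊔ ·) (mem_normalizer_iff_cj.mp hvM) (mem_normalizer_iff_cj.mp hvU))
    have hlt : Nat.card ↥T < Nat.card ↥(T ⊔ U) := lt_of_le_of_ne (Subgroup.card_le_of_le le_sup_left) fun e =>
      hUT ((le_sup_right).trans (Subgroup.eq_of_le_of_card_ge le_sup_left e.ge).ge)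
    obtain ⟨h, hh, c, hc, e⟩ := hbig (T ⊔ U) (sup_le hT.1 hUP) hlt v hE
    exact ⟨hvM, h, hh, c, Subgroup.centralizer_le (SetLike.coe_subset_coe.mpr le_sup_left) hc, e⟩
  -- `N_W(T)` is not contained in `T`
  have hTM : T ≤ M := Subgroup.le_normalizer
  have hWT' : ¬ W ⊓ M ≤ T := by
    intro hle
    refine hWT ?_
    have hE : T ⊔ W ≤ (P : Subgroup G) := sup_le hT.1 (hWR.trans inf_le_left)
    have h := CfsgLib.LocalBasic.eq_of_normalizer_inf_le (P.2.to_le hE) (le_sup_left : T ≤ T ⊔ W) ?_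
    · exact le_sup_right.trans h.ge
    intro y hy
    obtain ⟨hy1, hy2⟩ := Subgroup.mem_inf.mp hy
    have hy1' : y ∈ ((T : Set G) * (W : Set G)) := by
      rw [← Subgroup.coe_mul_of_left_le_normalizer_right T W ((hT.1).trans hWn)]; exact hy1
    obtain ⟨t, ht, w, hw, rfl⟩ := hy1'
    refine mul_mem ht (hle (Subgroup.mem_inf.mpr ⟨hw, ?_⟩))
    have := mul_mem (inv_mem (hTM ht)) hy2
    rwa [inv_mul_cancel_left] at this
  have hLn : ∀ x ∈ M, cj x L ≤ L := fun x hx => cj_le_iff.mpr fun y hy => Subgroup.mem_inf.mpr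
    ⟨mul_mem (mul_mem hx hy.1) (inv_mem hx), Subgroup.Normal.conj_mem inferInstance y hy.2 x⟩
  -- elements of `L` are good
  have hLgood : L ≤ Good := by
    set W₀ := W ⊓ Subgroup.normalizer (T₀ : Set G) with hW₀
    set C₀ := Subgroup.centralizer (T₀ : Set G) with hC₀
    have hMT₀ : M ≤ Subgroup.normalizer (T₀ : Set G) := fun x hx => mem_normalizer_iff_cj.mpr <|
      Subgroup.eq_of_le_of_card_ge (cj_le_iff.mpr fun t ht => Subgroup.mem_inf.mpr
        ⟨conj_mem_of_normalizer hx ht.1, Subgroup.Normal.conj_mem inferInstance t ht.2 x⟩) (card_cj x _).ge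
    have hC₀n : ∀ y ∈ Subgroup.normalizer (T₀ : Set G), ∀ c ∈ C₀, y * c * y⁻¹ ∈ C₀ := by
      intro y hy c hc
      refine Subgroup.mem_centralizer_iff.mpr fun t ht => ?_
      have ht' : y⁻¹ * t * y ∈ T₀ := (Subgroup.mem_normalizer_iff''.mp hy t).mp ht
      have h := Subgroup.mem_centralizer_iff.mp hc _ ht'
      calc t * (y * c * y⁻¹) = y * ((y⁻¹ * t * y) * c) * y⁻¹ := by group
        _ = y * (c * (y⁻¹ * t * y)) * y⁻¹ := by rw [h]
        _ = _ := by group
    -- J : elements of L acting on T₀ as elements of W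
    let J : Subgroup G :=
      { carrier := {y | y ∈ L ∧ ∃ w ∈ W₀, ∃ c ∈ C₀, y = w * c}
        one_mem' := ⟨one_mem _, 1, one_mem _, 1, one_mem _, (one_mul 1).symm⟩
        mul_mem' := by
          rintro _ _ ⟨hx, w, hw, c, hc, rfl⟩ ⟨hy, w', hw', c', hc', rfl⟩
          exact ⟨mul_mem hx hy, w * w', mul_mem hw hw', (w'⁻¹ * c * w'⁻¹⁻¹) * c',
            mul_mem (hC₀n _ (inv_mem hw'.2) c hc) hc', by group⟩
        inv_mem' := by
          rintro _ ⟨hx, w, hw, c, hc, rfl⟩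
          exact ⟨inv_mem hx, w⁻¹, inv_mem hw, w * c⁻¹ * w⁻¹, hC₀n w hw.2 _ (inv_mem hc), by group⟩ }
    have hJn : ∀ l ∈ L, cj l J ≤ J := by
      intro l hl
      refine cj_le_iff.mpr ?_
      rintro _ ⟨hy, w, hw, c, hc, rfl⟩
      obtain ⟨h, hh, d, hd, hld⟩ := hctl T₀ (inf_le_inf_right _ hT.1) l hl.2
        ((mem_normalizer_iff_cj.mp (hMT₀ hl.1)).le.trans (inf_le_inf_right _ hT.1))
      have hdN : d ∈ Subgroup.normalizer (T₀ : Set G) := Subgroup.mem_normalizer_iff.mpr fun t => by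
        constructor
        · intro ht; rw [← Subgroup.mem_centralizer_iff.mp hd.2 t ht, mul_inv_cancel_right]; exact ht
        · intro ht
          have h := Subgroup.mem_centralizer_iff.mp hd.2 _ ht
          have : t = d * t * d⁻¹ := by
            calc t = d⁻¹ * (d * t * d⁻¹ * d) := by group
              _ = d⁻¹ * (d * (d * t * d⁻¹)) := by rw [h]
              _ = d * t * d⁻¹ := by group
          rw [this]; exact ht
      have hhN : h ∈ Subgroup.normalizer (T₀ : Set G) := by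
        have := mul_mem (hMT₀ hl.1) (inv_mem hdN)
        rwa [hld, mul_inv_cancel_right] at this
      refine ⟨mul_mem (mul_mem hl hy) (inv_mem hl), h * w * h⁻¹, Subgroup.mem_inf.mpr
        ⟨conj_mem_of_normalizer hh.2 hw.1, mul_mem (mul_mem hhN hw.2) (inv_mem hhN)⟩,
        h * ((w⁻¹ * d * w⁻¹⁻¹) * (c * d⁻¹)) * h⁻¹,
        hC₀n h hhN _ (mul_mem (hC₀n _ (inv_mem hw.2) d hd.2) (mul_mem hc (inv_mem hd.2))), ?_⟩
      rw [hld]; group
    have hWJ : ∀ w ∈ W, w ∈ M → w ∈ J := fun w hw hwM =>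
      ⟨Subgroup.mem_inf.mpr ⟨hwM, (hWR hw).2⟩, w, Subgroup.mem_inf.mpr ⟨hw, hMT₀ hwM⟩, 1, one_mem _, (mul_one w).symm⟩
    -- `J` induces a p-group on `T`
    have hJpow : ∀ y ∈ J, ∃ k : ℕ, y ^ p ^ k ∈ C := by
      rintro y ⟨hyL, w, hw, c, hc, rfl⟩
      obtain ⟨a, ha⟩ := (P.2.to_le (hWR.trans inf_le_left)) ⟨w, hw.1⟩
      have ha' : w ^ p ^ a = 1 := by simpa using congrArg Subtype.val ha
      have hpw : ∀ k : ℕ, ∃ c' ∈ C₀, (w * c) ^ k = w ^ k * c' := by
        intro k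
        induction k with
        | zero => exact ⟨1, one_mem _, by simp⟩
        | succ k ih =>
          obtain ⟨c', hc', e⟩ := ih
          exact ⟨(w⁻¹ * c' * w⁻¹⁻¹) * c, mul_mem (hC₀n _ (inv_mem hw.2) c' hc') hc, by rw [pow_succ, e, pow_succ]; group⟩
      obtain ⟨c', hc', e⟩ := hpw (p ^ a)
      rw [ha', one_mul] at e
      obtain ⟨b, hb⟩ := (P.2.to_le hT.1).exists_card_eq
      refine ⟨a + b, ?_⟩
      rw [pow_add, pow_mul, e]
      have hc'L : c' ∈ L := e ▸ pow_mem hyL _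
      refine Subgroup.mem_centralizer_iff.mpr fun t ht => ?_
      have hz : c' * t * c'⁻¹ * t⁻¹ ∈ T₀ := by
        refine Subgroup.mem_inf.mpr ⟨mul_mem (conj_mem_of_normalizer hc'L.1 ht) (inv_mem ht), ?_⟩
        rw [show c' * t * c'⁻¹ * t⁻¹ = c' * (t * c'⁻¹ * t⁻¹) by group]
        exact mul_mem hc'L.2 (Subgroup.Normal.conj_mem inferInstance _ (inv_mem hc'L.2) t)
      have h1 := pow_conj_eq (y := c') (t := t) (z := c' * t * c'⁻¹ * t⁻¹) (by group)
        (Subgroup.mem_centralizer_iff.mp hc' _ hz).symm (p ^ b)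
      have hexp : (c' * t * c'⁻¹ * t⁻¹) ^ p ^ b = 1 := by
        have h := pow_card_eq_one' (x := (⟨_, hz.1⟩ : ↥T))
        rw [hb] at h
        simpa using congrArg Subtype.val h
      rw [hexp, one_mul] at h1
      exact (mul_inv_eq_iff_eq_mul.mp h1).symm
    set S := (P : Subgroup G) ⊓ J with hS
    have hJL : J ≤ L := fun y hy => hy.1
    have hJM : J ≤ M := hJL.trans inf_le_left
    have hSJ : ¬ p ∣ S.relIndex J := by
      have h1 := sylow_inf (P.2.to_le inf_le_left : IsPGroup p ↥((P : Subgroup G) ⊓ M : Subgroup G)) hT.2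
        (inf_le_left : L ≤ M) hLn
      have h2 := sylow_inf (S := (P : Subgroup G) ⊓ M ⊓ L) (P.2.to_le (inf_le_left.trans inf_le_left)) h1 hJL hJn
      have : (P : Subgroup G) ⊓ M ⊓ L ⊓ J = S := le_antisymm
        (le_inf (inf_le_left.trans (inf_le_left.trans inf_le_left)) inf_le_right)
        (le_inf (le_inf (le_inf inf_le_left (inf_le_right.trans hJM)) (inf_le_right.trans hJL)) inf_le_right)
      rwa [this] at h2
    have hST : ¬ S ≤ T := fun hle => hWT' fun w hw =>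
      hle (Subgroup.mem_inf.mpr ⟨(hWR hw.1).1, hWJ w hw.1 hw.2⟩)
    -- `J ≤ Good`
    have hSgood : ∀ v ∈ M, v ∈ Subgroup.normalizer (S : Set G) → v ∈ Good :=
      hgood S inf_le_left (inf_le_right.trans hJM) hST
    have hCgood : C ≤ Good := fun c hc => ⟨hCM hc, 1, one_mem _, c, hc, (one_mul c).symm⟩
    have hJgood : J ≤ Good := by
      intro y hy
      obtain ⟨k, hk⟩ := hJpow y hy
      -- the p'-part centralises T, the index of S is prime to p
      set D := Good ⊓ J with hD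
      have hSD : S ≤ D := le_inf (fun s hs => hSgood s (hJM hs.2) (Subgroup.le_normalizer hs)) inf_le_right
      have hidx : ¬ p ∣ D.relIndex J := fun h => hSJ (h.trans (Subgroup.relIndex_dvd_of_le_left J hSD))
      have hpk : y ^ p ^ k ∈ D := Subgroup.mem_inf.mpr ⟨hCgood hk, pow_mem hy _⟩
      -- `J ∩ C` is normal in `J`, with p-group quotient
      set C' := (C ⊓ J).subgroupOf J with hC'
      haveI : C'.Normal := ⟨fun n hn g => Subgroup.mem_subgroupOf.mpr (by
        obtain ⟨hn1, hn2⟩ := Subgroup.mem_inf.mp (Subgroup.mem_subgroupOf.mp hn)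
        exact Subgroup.mem_inf.mpr ⟨hCn _ (hJM g.2) _ hn1, mul_mem (mul_mem g.2 hn2) (inv_mem g.2)⟩)⟩
      have hq : IsPGroup p (↥J ⧸ C') := fun q => by
        obtain ⟨u, rfl⟩ := QuotientGroup.mk'_surjective C' q
        obtain ⟨k, hk⟩ := hJpow u u.2
        refine ⟨k, ?_⟩
        rw [← map_pow]
        exact (QuotientGroup.eq_one_iff _).mpr (Subgroup.mem_subgroupOf.mpr (Subgroup.mem_inf.mpr
          ⟨by simpa using hk, pow_mem u.2 _⟩))
      have hle : C' ≤ D.subgroupOf J := fun c hc => by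
        obtain ⟨h1, h2⟩ := Subgroup.mem_inf.mp (Subgroup.mem_subgroupOf.mp hc)
        exact Subgroup.mem_subgroupOf.mpr (Subgroup.mem_inf.mpr ⟨hCgood h1, h2⟩)
      have hdvd : (D.subgroupOf J).index ∣ Nat.card (↥J ⧸ C') := by
        rw [← Subgroup.index_eq_card]; exact Subgroup.index_dvd_of_le hle
      obtain ⟨a, ha⟩ := hq.exists_card_eq
      rw [ha] at hdvd
      obtain ⟨i, -, hi⟩ := (Nat.dvd_prime_pow hp).mp hdvd
      have hi0 : i = 0 := by
        by_contra h0
        exact hidx (by rw [Subgroup.relIndex, hi]; exact dvd_pow_self p h0)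
      rw [hi0, pow_zero, Subgroup.index_eq_one] at hi
      exact (Subgroup.mem_subgroupOf.mp ((Subgroup.eq_top_iff' _).mp hi ⟨y, hy⟩)).1
    intro l hl
    obtain ⟨j, hj, hjl⟩ := frattini_rel hJn (P.2.to_le inf_le_left) inf_le_right hSJ hl
    have := mul_mem (inv_mem (hJgood hj)) (hSgood (j * l) (mul_mem (hJM hj) hl.1) hjl)
    rwa [inv_mul_cancel_left] at this
  intro x hx
  set RL := (P : Subgroup G) ⊓ L with hRL
  have hRLi : ¬ p ∣ RL.relIndex L := by
    have h1 := sylow_inf (P.2.to_le inf_le_left : IsPGroup p ↥((P : Subgroup G) ⊓ M : Subgroup G)) hT.2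
      (inf_le_left : L ≤ M) hLn
    have : (P : Subgroup G) ⊓ M ⊓ L = RL := le_antisymm (le_inf (inf_le_left.trans inf_le_left) inf_le_right)
      (le_inf (le_inf inf_le_left (inf_le_right.trans inf_le_left)) inf_le_right)
    rwa [this] at h1
  have hRLT : ¬ RL ≤ T := fun hle => hWT' fun w hw =>
    hle (Subgroup.mem_inf.mpr ⟨(hWR hw.1).1, Subgroup.mem_inf.mpr ⟨hw.2, (hWR hw.1).2⟩⟩)
  obtain ⟨l, hl, hlx⟩ := frattini_rel hLn (P.2.to_le inf_le_left) inf_le_right hRLi hx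
  have := mul_mem (inv_mem (hLgood hl)) (hgood RL inf_le_left (inf_le_right.trans inf_le_left) hRLT (l * x)
    (mul_mem hl.1 hx) hlx)
  rwa [inv_mul_cancel_left] at this

/-- A chain of normalizer elements factorises. -/
theorem chain_factor {G : Type*} [Group G] {𝓕 : Set (Subgroup G)} {S B H : Subgroup G} {g : G}
    (h : Chain 𝓕 S B g) : ∀ n : ℕ, n ≤ Nat.card ↥B → (∀ T ∈ 𝓕, n ≤ Nat.card ↥T → T ≤ S → ∀ x ∈ Subgroup.normalizer (T : Set G),
      ∃ h ∈ H, ∃ c ∈ Subgroup.centralizer (T : Set G), x = h * c) → (∀ T ∈ 𝓕, T ≤ S) → [Finite G] →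
      ∃ c ∈ Subgroup.centralizer (B : Set G), ∃ k ∈ H, g = c * k := by
  induction h with
  | nil hB => exact fun _ _ _ _ _ => ⟨1, one_mem _, 1, one_mem _, (one_mul 1).symm⟩
  | @step B T x g hT hB hx _ ih =>
    intro n hn hloc h𝓕 _
    obtain ⟨h0, hh0, c0, hc0, e0⟩ := hloc T hT (hn.trans (Subgroup.card_le_of_le hB)) (h𝓕 T hT) x⁻¹ (inv_mem hx)
    obtain ⟨c', hc', k', hk', rfl⟩ := ih n (hn.trans (card_cj _ _).ge) hloc h𝓕
    have ex : x = c0⁻¹ * h0⁻¹ := by rw [← mul_inv_rev, ← e0, inv_inv]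
    refine ⟨c0⁻¹ * (h0⁻¹ * c' * h0), ?_, h0⁻¹ * k', mul_mem (inv_mem hh0) hk', by rw [ex]; group⟩
    refine mul_mem (inv_mem (Subgroup.centralizer_le (SetLike.coe_subset_coe.mpr hB) hc0))
      (Subgroup.mem_centralizer_iff.mpr fun b hb => ?_)
    have hc0b : c0 * b * c0⁻¹ = b := by
      rw [← Subgroup.mem_centralizer_iff.mp hc0 b (hB hb), mul_inv_cancel_right]
    have hb' : h0 * b * h0⁻¹ ∈ cj x⁻¹ B := ⟨b, hb, by
      show x⁻¹ * b * x⁻¹⁻¹ = _
      calc x⁻¹ * b * x⁻¹⁻¹ = h0 * (c0 * b * c0⁻¹) * h0⁻¹ := by rw [e0]; group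
        _ = _ := by rw [hc0b]⟩
    have h := Subgroup.mem_centralizer_iff.mp hc' _ hb'
    calc b * (h0⁻¹ * c' * h0) = h0⁻¹ * ((h0 * b * h0⁻¹) * c') * h0 := by group
      _ = h0⁻¹ * (c' * (h0 * b * h0⁻¹)) * h0 := by rw [h]
      _ = _ := by group

/-- Control by all the conjugates at once. -/
theorem ctl_family {G : Type*} [Group G] (R N : Subgroup G) {ι : Type*} (U : ι → Subgroup G) (hU : ∀ i, U i ≤ R)
    (hnorm : ∀ i, R ≤ Subgroup.normalizer (U i : Set G))
    (hctrl : ∀ i, ∀ A : Subgroup G, A ≤ R → ∀ n ∈ N, cj n A ≤ R →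
      ∃ h ∈ N ⊓ Subgroup.normalizer (U i : Set G), ∃ c ∈ N ⊓ Subgroup.centralizer (A : Set G), n = h * c)
    (s : Finset ι) : ∀ A : Subgroup G, A ≤ R → ∀ n ∈ N, cj n A ≤ R →
      ∃ h ∈ N, (∀ i ∈ s, h ∈ Subgroup.normalizer (U i : Set G)) ∧ ∃ c ∈ N ⊓ Subgroup.centralizer (A : Set G), n = h * c := by
  classical
  induction s using Finset.induction_on with
  | empty => exact fun A _ n hn _ => ⟨n, hn, by simp, 1, one_mem _, (mul_one n).symm⟩
  | @insert i s _ ih =>
    intro A hA n hn hnA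
    obtain ⟨h, hhN, hhs, c, hc, rfl⟩ := ih A hA n hn hnA
    obtain ⟨A', hA'⟩ : ∃ A', A' = A ⊔ ⨆ j ∈ s, U j := ⟨_, rfl⟩
    have hle : cj h A' ≤ R := by
      rw [hA', cj, Subgroup.map_sup, Subgroup.map_iSup]
      refine sup_le ?_ (iSup_le fun j => ?_)
      · rintro _ ⟨a, ha, rfl⟩
        have := cj_le_iff.mp hnA a ha
        show h * a * h⁻¹ ∈ R
        rw [show h * c * a * (h * c)⁻¹ = h * (c * a * c⁻¹) * h⁻¹ by group,
          ← Subgroup.mem_centralizer_iff.mp hc.2 a ha, mul_inv_cancel_right] at this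
        exact this
      · rw [Subgroup.map_iSup]
        exact iSup_le fun hj => (mem_normalizer_iff_cj.mp (hhs j hj)).le.trans (hU j)
    obtain ⟨h2, hh2, c2, hc2, e⟩ := hctrl i A' (hA' ▸ sup_le hA (iSup₂_le fun j _ => hU j)) h hhN hle
    refine ⟨h2, hh2.1, fun j hj => ?_, c2 * c, ?_, by rw [e, mul_assoc]⟩
    · rcases Finset.mem_insert.mp hj with rfl | hj
      · exact hh2.2
      · have hc2j : c2 ∈ Subgroup.centralizer (U j : Set G) := Subgroup.centralizer_le
          (SetLike.coe_subset_coe.mpr (hA' ▸ le_sup_of_le_right (le_iSup₂ (f := fun j (_ : j ∈ s) => U j) j hj))) hc2.2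
        have hc2n : c2 ∈ Subgroup.normalizer (U j : Set G) := mem_normalizer_iff_cj.mpr (cj_eq_self fun b hb => by
          rw [← Subgroup.mem_centralizer_iff.mp hc2j b hb, mul_inv_cancel_right])
        have := mul_mem (hhs j hj) (inv_mem hc2n)
        rwa [e, mul_inv_cancel_right] at this
    · exact mul_mem (Subgroup.mem_inf.mpr ⟨hc2.1, Subgroup.centralizer_le (SetLike.coe_subset_coe.mpr (hA' ▸ le_sup_left)) hc2.2⟩) hc


/-- Let N be a normal subgroup of the finite group G, P a Sylow p-subgroup of G, and V a subgroup of P ∩ N normal in P ∩ N such that N_N(V) controls strong fusion in P ∩ N with respect to N (whenever a subgroup A of P ∩ N has n A n⁻¹ ≤ P ∩ N for some n in N, then n = h c with h in N_N(V) and c in C_N(A)). Let W be the subgroup generated by the conjugates of V under N_G(P ∩ N). Then N_G(W) controls strong fusion in P with respect to G. -/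
theorem result {G : Type*} [Group G] [Finite G] {p : ℕ} [Fact p.Prime] (N : Subgroup G) [N.Normal] (P : Sylow p G) (V : Subgroup G)
    (hV : V ≤ (P : Subgroup G) ⊓ N) (hVn : ∀ x ∈ (P : Subgroup G) ⊓ N, V.map (MulAut.conj x).toMonoidHom = V)
    (hctrl : ∀ A : Subgroup G, A ≤ (P : Subgroup G) ⊓ N → ∀ n ∈ N, A.map (MulAut.conj n).toMonoidHom ≤ (P : Subgroup G) ⊓ N →
      ∃ h ∈ N ⊓ Subgroup.normalizer (V : Set G), ∃ c ∈ N ⊓ Subgroup.centralizer (A : Set G), n = h * c)
    (W : Subgroup G) (hW : W = Subgroup.closure (⋃ x ∈ Subgroup.normalizer (((P : Subgroup G) ⊓ N : Subgroup G) : Set G),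
      ((V.map (MulAut.conj x).toMonoidHom : Subgroup G) : Set G))) :
    ∀ A : Subgroup G, A ≤ (P : Subgroup G) → ∀ g : G, A.map (MulAut.conj g).toMonoidHom ≤ (P : Subgroup G) →
        ∃ h ∈ Subgroup.normalizer (W : Set G), ∃ c ∈ Subgroup.centralizer (A : Set G), g = h * c := by
  classical
  letI := Fintype.ofFinite G
  obtain ⟨R, hR⟩ : ∃ R, R = (P : Subgroup G) ⊓ N := ⟨_, rfl⟩
  let NR := Subgroup.normalizer (((P : Subgroup G) ⊓ N : Subgroup G) : Set G)
  let U : ↥NR → Subgroup G := fun x => cj (x : G) V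
  have hVR : V ≤ R := hR ▸ hV
  have hxR : ∀ x : ↥NR, cj (x : G) R = R := fun x => hR ▸ mem_normalizer_iff_cj.mp x.2
  have hU : ∀ x, U x ≤ R := fun x => (cj_mono _ hVR).trans (hxR x).le
  have hnorm : ∀ x, R ≤ Subgroup.normalizer (U x : Set G) := by
    intro x r hr
    have hr' : (x : G)⁻¹ * r * x ∈ R := by
      rw [← hxR x] at hr; exact mem_cj'.mp hr
    refine mem_normalizer_iff_cj.mpr ?_
    show cj r (cj (x : G) V) = cj (x : G) V
    rw [← cj_mul, show r * (x : G) = (x : G) * ((x : G)⁻¹ * r * x) by group, cj_mul]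
    exact congrArg (cj (x : G)) (hVn _ (hR ▸ hr'))
  have hctrl' : ∀ x : ↥NR, ∀ A : Subgroup G, A ≤ R → ∀ n ∈ N, cj n A ≤ R →
      ∃ h ∈ N ⊓ Subgroup.normalizer (U x : Set G), ∃ c ∈ N ⊓ Subgroup.centralizer (A : Set G), n = h * c := by
    intro x A hA n hn hnA
    have hx' : cj (x : G)⁻¹ R = R := by conv_lhs => rw [← hxR x, cj_inv_cj]
    obtain ⟨h, hh, c, hc, e⟩ := hctrl (cj (x : G)⁻¹ A) (hR ▸ (cj_mono _ hA).trans hx'.le) ((x : G)⁻¹ * n * x)
      (by have := Subgroup.Normal.conj_mem inferInstance n hn (x : G)⁻¹; rwa [inv_inv] at this)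
      (hR ▸ by
        show cj ((x : G)⁻¹ * n * x) (cj (x : G)⁻¹ A) ≤ R
        rw [← cj_mul, mul_inv_cancel_right, cj_mul]
        exact (cj_mono _ hnA).trans hx'.le)
    refine ⟨(x : G) * h * (x : G)⁻¹, Subgroup.mem_inf.mpr ⟨Subgroup.Normal.conj_mem inferInstance h hh.1 _, ?_⟩,
      (x : G) * c * (x : G)⁻¹, Subgroup.mem_inf.mpr ⟨Subgroup.Normal.conj_mem inferInstance c hc.1 _, ?_⟩, ?_⟩
    · refine mem_normalizer_iff_cj.mpr ?_
      show cj _ (cj (x : G) V) = cj (x : G) V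
      rw [← cj_mul, inv_mul_cancel_right, cj_mul, mem_normalizer_iff_cj.mp hh.2]
    · refine Subgroup.mem_centralizer_iff.mpr fun a ha => ?_
      have h1 := Subgroup.mem_centralizer_iff.mp hc.2 ((x : G)⁻¹ * a * x) ⟨a, ha, by simp⟩
      calc a * ((x : G) * c * (x : G)⁻¹) = (x : G) * (((x : G)⁻¹ * a * x) * c) * (x : G)⁻¹ := by group
        _ = (x : G) * (c * ((x : G)⁻¹ * a * x)) * (x : G)⁻¹ := by rw [h1]
        _ = _ := by group
    · calc n = (x : G) * ((x : G)⁻¹ * n * x) * (x : G)⁻¹ := by group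
        _ = _ := by rw [e]; group
  have hWU : W = ⨆ x : ↥NR, U x := by
    rw [hW]
    refine le_antisymm ((Subgroup.closure_le _).mpr ?_) (iSup_le fun x v hv => Subgroup.subset_closure ?_)
    · intro v hv
      simp only [Set.mem_iUnion, exists_prop] at hv
      obtain ⟨x, hx, hvx⟩ := hv
      exact (le_iSup U ⟨x, hx⟩) hvx
    · simp only [Set.mem_iUnion, exists_prop]
      exact ⟨x, x.2, hv⟩
  have hWR : W ≤ (P : Subgroup G) ⊓ N := hWU ▸ hR ▸ iSup_le hU
  have hWnorm : ∀ h : G, (∀ x, h ∈ Subgroup.normalizer (U x : Set G)) → h ∈ Subgroup.normalizer (W : Set G) := by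
    intro h hh
    refine mem_normalizer_iff_cj.mpr ?_
    rw [hWU, cj, Subgroup.map_iSup]
    exact iSup_congr fun x => mem_normalizer_iff_cj.mp (hh x)
  have hNRW : NR ≤ Subgroup.normalizer (W : Set G) := fun y hy => mem_normalizer_iff_cj.mpr (by
    have hle : cj y W ≤ W := by
      rw [hWU, cj, Subgroup.map_iSup]
      exact iSup_le fun x => (cj_mul y (x : G) V).ge.trans (le_iSup U ⟨y * x, mul_mem hy x.2⟩)
    exact Subgroup.eq_of_le_of_card_ge hle (card_cj y W).ge)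
  have hctl : ∀ A : Subgroup G, A ≤ (P : Subgroup G) ⊓ N → ∀ n ∈ N, cj n A ≤ (P : Subgroup G) ⊓ N →
      ∃ h ∈ N ⊓ Subgroup.normalizer (W : Set G), ∃ c ∈ N ⊓ Subgroup.centralizer (A : Set G), n = h * c := by
    intro A hA n hn hnA
    obtain ⟨h, hhN, hh, c, hc, e⟩ := ctl_family R N U hU hnorm hctrl' Finset.univ A (hR ▸ hA) n hn (hR ▸ hnA)
    exact ⟨h, Subgroup.mem_inf.mpr ⟨hhN, hWnorm h fun x => hh x (Finset.mem_univ x)⟩, c, hc, e⟩
  have hPn : (P : Subgroup G) ≤ NR := fun x hx => mem_normalizer_iff_cj.mpr (by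
    refine Subgroup.eq_of_le_of_card_ge (cj_le_iff.mpr fun y hy => Subgroup.mem_inf.mpr
      ⟨mul_mem (mul_mem hx hy.1) (inv_mem hx), Subgroup.Normal.conj_mem inferInstance y hy.2 x⟩) (card_cj x _).ge)
  have hwc : ∀ g : G, cj g W ≤ (P : Subgroup G) → g ∈ Subgroup.normalizer (W : Set G) := by
    intro g hg
    obtain ⟨n, hn, hng⟩ := frattini_rel (M := (⊤ : Subgroup G)) (L := N)
      (fun x _ => cj_le_iff.mpr fun y hy => Subgroup.Normal.conj_mem inferInstance y hy x)
      (P.2.to_le inf_le_left) inf_le_right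
      (sylow_inf (M := ⊤) P.2 (by rw [Subgroup.relIndex_top_right]; exact P.not_dvd_index) le_top
        (fun x _ => cj_le_iff.mpr fun y hy => Subgroup.Normal.conj_mem inferInstance y hy x)) (Subgroup.mem_top g⁻¹)
    -- u := n g⁻¹ normalises R
    set u := n * g⁻¹ with hu
    have hle : cj n W ≤ (P : Subgroup G) ⊓ N := by
      have h1 : cj g W ≤ (P : Subgroup G) ⊓ N := le_inf hg (cj_le_iff.mpr fun y hy =>
        Subgroup.Normal.conj_mem inferInstance y (hWR hy).2 g)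
      have e : cj n W = cj u (cj g W) := by rw [← cj_mul, hu, inv_mul_cancel_right]
      rw [e]
      exact (cj_mono u h1).trans (mem_normalizer_iff_cj.mp hng).le
    obtain ⟨h, hh, c, hc, e⟩ := hctl W hWR n hn hle
    have hcW : c ∈ Subgroup.normalizer (W : Set G) := mem_normalizer_iff_cj.mpr (cj_eq_self fun b hb => by
      rw [← Subgroup.mem_centralizer_iff.mp hc.2 b hb, mul_inv_cancel_right])
    have : g = u⁻¹ * n := by rw [hu]; group
    rw [this]
    exact mul_mem (inv_mem (hNRW hng)) (e ▸ mul_mem hh.2 hcW)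
  have key : ∀ (m : ℕ) (B : Subgroup G) (g : G), Nat.card ↥(P : Subgroup G) < Nat.card ↥B + m →
      B ≤ (P : Subgroup G) → cj g B ≤ (P : Subgroup G) →
      ∃ h ∈ Subgroup.normalizer (W : Set G), ∃ c ∈ Subgroup.centralizer (B : Set G), g = h * c := by
    intro m
    induction m with
    | zero => intro B g hm hB _; have := Subgroup.card_le_of_le hB; omega
    | succ m ih =>
      intro B g hm hB hg
      have hch := chain_of_rep P {T | FullNorm P T} (fun T hT => hT.1)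
        (fun D hD => by
          obtain ⟨h, hh⟩ := CfsgLib.SectionReduce.exists_fullNorm P hD
          exact ⟨h, hh, hh⟩) B g⁻¹ hB (by rwa [inv_inv])
      obtain ⟨c, hc, k, hk, e⟩ := chain_factor (H := Subgroup.normalizer (W : Set G)) hch (Nat.card ↥B) le_rfl
        (fun T hT hn _ => local_step N P W hWR (hPn.trans hNRW) hwc hctl T hT (fun E hE hlt v hv =>
          ih E v (by omega) hE ((mem_normalizer_iff_cj.mp hv).le.trans hE))) (fun T hT => hT.1)
      exact ⟨k⁻¹, inv_mem hk, c⁻¹, inv_mem hc, by rw [← mul_inv_rev, ← e, inv_inv]⟩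
  intro A hA g hg
  exact key _ A g (Nat.lt_add_of_pos_left Nat.card_pos) hA hg

end Cfsg.Agent.S1954
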