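import Cfsg.Statements.S1956
import Cfsg.Agent.Lib.LocalBasic

set_option autoImplicit false
open Cfsg

namespace Cfsg.Agent.S1956
open CfsgLib.LocalBasic

/-- Let P be a Sylow p-subgroup of the finite group G such that every element of P of order dividing p (dividing 4 when p = 2) is central in P. Then the fusion of these elements is controlled by N_G(P): if such an element a of P has g a g⁻¹ in P, then g = n c with n normalizing P and c commuting with a. -/
theorem result {G : Type*} [Group G] [Finite G] {p : ℕ} [Fact p.Prime] (P : Sylow p G)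
    (hcen : ∀ a ∈ (P : Subgroup G), (a ^ p = 1 ∨ (p = 2 ∧ a ^ 4 = 1)) → ∀ y ∈ (P : Subgroup G), a * y = y * a) :
    ∀ a ∈ (P : Subgroup G), (a ^ p = 1 ∨ (p = 2 ∧ a ^ 4 = 1)) → ∀ g : G, g * a * g⁻¹ ∈ (P : Subgroup G) →
      ∃ n ∈ Subgroup.normalizer ((P : Subgroup G) : Set G), ∃ c : G, c * a = a * c ∧ g = n * c := by
  intro a ha hae g hg
  set b := g * a * g⁻¹ with hb
  have hbe : b ^ p = 1 ∨ (p = 2 ∧ b ^ 4 = 1) := by
    rcases hae with h | ⟨h1, h2⟩
    · exact Or.inl (by rw [hb, conj_pow, h]; simp)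
    · exact Or.inr ⟨h1, by rw [hb, conj_pow, h2]; simp⟩
  set C := Subgroup.centralizer ({b} : Set G) with hC
  have hPC : (P : Subgroup G) ≤ C := fun y hy =>
    Subgroup.mem_centralizer_singleton_iff.mpr (hcen b hg hbe y hy).symm
  have hgPC : (P : Subgroup G).map (MulAut.conj g).toMonoidHom ≤ C := by
    rintro _ ⟨y, hy, rfl⟩
    refine Subgroup.mem_centralizer_singleton_iff.mpr ?_
    have h1 := hcen a ha hae y hy
    show g * y * g⁻¹ * (g * a * g⁻¹) = g * a * g⁻¹ * (g * y * g⁻¹)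
    calc g * y * g⁻¹ * (g * a * g⁻¹) = g * (y * a) * g⁻¹ := by group
      _ = g * (a * y) * g⁻¹ := by rw [h1]
      _ = g * a * g⁻¹ * (g * y * g⁻¹) := by group
  obtain ⟨m, hm, hmP⟩ := exists_conj_le_sylow P hPC (P.2.map (MulAut.conj g).toMonoidHom) hgPC
  have hmb : m * b = b * m := Subgroup.mem_centralizer_singleton_iff.mp hm
  refine ⟨m * g, ?_, (m * g)⁻¹ * g, ?_, by group⟩
  · refine mem_normalizer_of_conj_map_eq (Subgroup.eq_of_le_of_card_ge ?_
      (Subgroup.card_map_of_injective (MulEquiv.injective _)).ge)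
    rintro _ ⟨y, hy, rfl⟩
    have := hmP _ ⟨y, hy, rfl⟩
    simp [mul_assoc] at this ⊢
    exact this
  · calc (m * g)⁻¹ * g * a = g⁻¹ * (m⁻¹ * b) * g := by rw [hb]; group
      _ = g⁻¹ * (b * m⁻¹) * g := by rw [(show Commute m b from hmb).inv_left.eq]
      _ = a * ((m * g)⁻¹ * g) := by rw [hb]; group

end Cfsg.Agent.S1956
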