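import Cfsg.Statements.S1990
import Cfsg.Agent.Lib.LayerStable

set_option autoImplicit false
universe u
open Cfsg

namespace Cfsg.Agent.S1990

/-- Let p be an odd prime, G a finite group with Sylow p-subgroup S, and W an isomorphism-invariant p-group functor (W assigns to every group Q a subgroup W(Q), nontrivial whenever Q is a nontrivial finite p-group, and every isomorphism from a finite p-group Q onto a group R carries W(Q) onto W(R)). Suppose N_G(W(S)) has a normal p-complement, and W(T) controls strong fusion in every section G* = K/R of G all of whose sections are p-stable in the normalizer form, for every Sylow p-subgroup T of G*. Then G has a normal p-complement. -/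
theorem result {G : Type u} [Group G] [Finite G] {p : ℕ} [Fact p.Prime] (hp : p ≠ 2) (W : ∀ (Q : Type u) [Group Q], Subgroup Q) (hW : Cfsg.IsCharPFunctor.{u} p W) (S : Sylow p G) (hN : Cfsg.HasNormalPComplement p ↥(Subgroup.normalizer ((Cfsg.inducedFunctor (G := G) W (S : Subgroup G) : Subgroup G) : Set G))) (hctl : ∀ (K R : Subgroup G) [hR : (R.subgroupOf K).Normal], (∀ (K' R' : Subgroup (↥K ⧸ R.subgroupOf K)) [hR' : (R'.subgroupOf K').Normal], Cfsg.IsNormalizerPStable p (↥K' ⧸ R'.subgroupOf K')) → ∀ T : Sylow p (↥K ⧸ R.subgroupOf K), Cfsg.ControlsStrongFusion p (Cfsg.inducedFunctor (G := (↥K ⧸ R.subgroupOf K)) W (T : Subgroup (↥K ⧸ R.subgroupOf K)))) : Cfsg.HasNormalPComplement p G := by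
  refine CfsgLib.FunctorNPC.hasNPC_of_crit hW (fun H _ _ hsec hc _ hq T hT => ?_) S hN
  obtain ⟨K, R, hR, ⟨e⟩⟩ := hsec.exists_pair
  refine CfsgLib.FunctorNPC.normal_of_equiv hW e hc hq T hT fun hc' hn' hq' T' hT' => ?_
  have hctl' := hctl K R (fun K' R' hR' => CfsgLib.LayerStable.stable_sections hp
    (CfsgLib.LayerStable.slFree hp hq' T' hT') K' R') T'
  obtain ⟨T₂, -, h⟩ := hctl'
  have hRT : Cfsg.pCore p _ ≤ (T₂ : Subgroup (↥K ⧸ R.subgroupOf K)) := CfsgLib.Core.pCore_le_sylow T₂
  refine Subgroup.normalizer_eq_top_iff.mp (top_le_iff.mp fun g _ => ?_)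
  obtain ⟨x, hx, hxa⟩ := (h _ (SetLike.coe_subset_coe.mpr hRT)).2 g (by
    rintro _ ⟨a, ha, rfl⟩
    exact hRT (hn'.conj_mem a ha g))
  have hmem : x⁻¹ * g ∈ Cfsg.pCore p (↥K ⧸ R.subgroupOf K) := hc' (Subgroup.mem_centralizer_iff.mpr fun a ha => by
    have h1 := hxa a ha
    calc a * (x⁻¹ * g) = x⁻¹ * (x * a * x⁻¹) * g := by group
      _ = x⁻¹ * (g * a * g⁻¹) * g := by rw [h1]
      _ = x⁻¹ * g * a := by group)
  have hN' := mul_mem hx ((Subgroup.le_normalizer.trans
    (CfsgLib.SectionReduce.normalizer_le_functor (CfsgLib.SectionReduce.iF_conjugacy hW) T'.2))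
    (CfsgLib.Core.pCore_le_sylow T' hmem))
  rwa [mul_inv_cancel_left] at hN'

end Cfsg.Agent.S1990
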