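import Cfsg.Statements.S2015
import Cfsg.Agent.Lib.KInfDegree

set_option autoImplicit false
universe u
open Cfsg

namespace Cfsg.Agent.S2015

/-- For p ≥ 5, every finite p-group P has a characteristic subgroup K containing Z(P), depending only on P, whose normalizer controls transfer wherever P is a Sylow subgroup: for every finite group G and every embedding ι of P onto a Sylow p-subgroup of G, the intersection of ι(P) with the derived subgroup of G equals its intersection with the derived subgroup of N_G(ι(K)). -/
theorem result (p : ℕ) [Fact p.Prime] (hp : 5 ≤ p) (P : Type u) [Group P] [Finite P] (hP : IsPGroup p P) : ∃ K : Subgroup P, K.Characteristic ∧ Subgroup.center P ≤ K ∧ ∀ (G : Type u) [Group G] [Finite G] (ι : P →* G), Function.Injective ι → (∃ T : Sylow p G, (T : Subgroup G) = ι.range) → ι.range ⊓ commutator G = ι.range ⊓ (commutator ↥(Subgroup.normalizer ((K.map ι : Subgroup G) : Set G))).map (Subgroup.normalizer ((K.map ι : Subgroup G) : Set G)).subtype := by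
  obtain ⟨h1, h2, -, -⟩ := Cfsg.Agent.S1978.result hP
  refine ⟨Cfsg.kInfLower P, Subgroup.characteristic_iff_map_eq.mpr fun φ => CfsgLib.KInfStable.lower_equiv φ,
    h2.trans h1, fun G _ _ ι hι ⟨T, hT⟩ => ?_⟩
  let e : P ≃* ↥(T : Subgroup G) := (MonoidHom.ofInjective hι).trans (MulEquiv.subgroupCongr hT.symm)
  have hK : (Cfsg.kInfLower P).map ι = Cfsg.inducedFunctor (G := G) Cfsg.kInfLower (T : Subgroup G) := by
    rw [Cfsg.inducedFunctor, ← CfsgLib.KInfStable.lower_equiv e, Subgroup.map_map]
    rfl
  rw [← hT, hK, Subgroup.map_subtype_commutator]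
  exact CfsgLib.KInfDegree.inf_commutator_eq T CfsgLib.KInfStable.charP_lower
    (CfsgLib.KInfDegree.transfer_lower (G := G) hp G CfsgLib.SectionReduce.Sec.refl)

end Cfsg.Agent.S2015
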