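import Cfsg.Statements.S2119
import Cfsg.Agent.Lib.Perm.Blocks
import Mathlib

set_option autoImplicit false
open Cfsg

namespace Cfsg.Agent.S2119

set_option maxHeartbeats 2000000

open Equiv CfsgLib.Perm.Blocks

/-- two three-cycles on six points with product an involution -/
def chk6 (u v w : Fin 6) : Bool :=
  !(decide (u ≠ v) && decide (v ≠ w) && decide (u ≠ w)) ||
  (let x : Fin 6 → Fin 6 := fun z => swap 0 1 (swap 1 2 z)
   let y : Fin 6 → Fin 6 := fun z => swap u v (swap v w z)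
   !(decide (∀ z, x (y (x (y z))) = z) && !decide (∀ z, x (y z) = z) && !decide (∀ z, x z = y z))) ||
  decide (u = 0 ∧ v = 1) || decide (v = 0 ∧ w = 1) || decide (w = 0 ∧ u = 1) ||
  decide (u = 1 ∧ v = 2) || decide (v = 1 ∧ w = 2) || decide (w = 1 ∧ u = 2) ||
  decide (u = 2 ∧ v = 0) || decide (v = 2 ∧ w = 0) || decide (w = 2 ∧ u = 0)

theorem chk6_all : ∀ u v w : Fin 6, chk6 u v w = true := by decide +kernel

variable {X : Type*} [Fintype X] [DecidableEq X]

theorem share {a b c u v w : X} (hab : a ≠ b) (hbc : b ≠ c) (hac : a ≠ c) (huv : u ≠ v) (hvw : v ≠ w) (huw : u ≠ w)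
    (h2 : (cyc a b c * cyc u v w) * (cyc a b c * cyc u v w) = 1) (h1 : cyc a b c * cyc u v w ≠ 1)
    (hne : cyc a b c ≠ cyc u v w) :
    (u = a ∧ v = b) ∨ (v = a ∧ w = b) ∨ (w = a ∧ u = b) ∨ (u = b ∧ v = c) ∨ (v = b ∧ w = c) ∨ (w = b ∧ u = c) ∨
    (u = c ∧ v = a) ∨ (v = c ∧ w = a) ∨ (w = c ∧ u = a) := by
  classical
  let S : Finset X := {a, b, c, u, v, w}
  have hS : Fintype.card S ≤ Fintype.card (Fin 6) := by
    rw [Fintype.card_coe, Fintype.card_fin]; exact Finset.card_le_six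
  obtain ⟨e⟩ := Function.Embedding.nonempty_of_card_le hS
  let g₀ : X → Fin 6 := fun z => if h : z ∈ S then e ⟨z, h⟩ else 0
  let π : Perm (Fin 6) :=
    swap (swap (swap (g₀ a) 0 (g₀ b)) 1 (swap (g₀ a) 0 (g₀ c))) 2 * (swap (swap (g₀ a) 0 (g₀ b)) 1 * swap (g₀ a) 0)
  let g : X → Fin 6 := fun z => π (g₀ z)
  have ginj : ∀ p ∈ S, ∀ q ∈ S, g p = g q → p = q := fun p hp q hq h => by
    have h' := π.injective h
    simp only [g₀, dif_pos hp, dif_pos hq] at h'
    exact congrArg Subtype.val (e.injective h')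
  have g₀inj : ∀ p ∈ S, ∀ q ∈ S, p ≠ q → g₀ p ≠ g₀ q := fun p hp q hq h h' => h (ginj p hp q hq (congrArg π h'))
  have ma : a ∈ S := by simp [S]
  have mb : b ∈ S := by simp [S]
  have mc : c ∈ S := by simp [S]
  have mu : u ∈ S := by simp [S]
  have mv : v ∈ S := by simp [S]
  have mw : w ∈ S := by simp [S]
  obtain ⟨A, hA⟩ : ∃ A, A = g₀ a := ⟨_, rfl⟩
  obtain ⟨B, hB⟩ : ∃ B, B = swap A 0 (g₀ b) := ⟨_, rfl⟩
  obtain ⟨C, hC⟩ : ∃ C, C = swap B 1 (swap A 0 (g₀ c)) := ⟨_, rfl⟩
  have hB0 : B ≠ 0 := by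
    rw [hB]
    intro h
    subst hA
    exact g₀inj a ma b mb hab ((swap (g₀ a) 0).injective ((swap_apply_left (g₀ a) 0).trans h.symm))
  have hC0 : C ≠ 0 := by
    rw [hC]
    intro h
    have : swap B 1 (swap A 0 A) = swap B 1 (swap A 0 (g₀ c)) := by
      rw [h, swap_apply_left, swap_apply_of_ne_of_ne hB0.symm (by decide)]
    subst hA
    exact g₀inj a ma c mc hac ((swap (g₀ a) 0).injective ((swap B 1).injective this))
  have hC1 : C ≠ 1 := by
    rw [hC]
    intro h
    have : swap B 1 B = swap B 1 (swap A 0 (g₀ c)) := by rw [h, swap_apply_left]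
    subst hB
    exact g₀inj b mb c mc hbc ((swap A 0).injective ((swap (swap A 0 (g₀ b)) 1).injective this))
  have hg : ∀ z, g z = swap C 2 (swap B 1 (swap A 0 (g₀ z))) := fun z => by
    subst hA; subst hB; subst hC; rfl
  have ga : g a = 0 := by
    rw [hg, ← hA, swap_apply_left, swap_apply_of_ne_of_ne hB0.symm (by decide),
      swap_apply_of_ne_of_ne hC0.symm (by decide)]
  have gb : g b = 1 := by
    rw [hg, ← hB, swap_apply_left, swap_apply_of_ne_of_ne hC1.symm (by decide)]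
  have gc : g c = 2 := by rw [hg, ← hC, swap_apply_left]
  -- transport
  have tr : ∀ p ∈ S, ∀ q ∈ S, ∀ r ∈ S, g (swap p q r) = swap (g p) (g q) (g r) := by
    intro p hp q hq r hr
    by_cases e1 : r = p
    · rw [e1, swap_apply_left, swap_apply_left]
    by_cases e2 : r = q
    · rw [e2, swap_apply_right, swap_apply_right]
    rw [swap_apply_of_ne_of_ne e1 e2, swap_apply_of_ne_of_ne (fun h => e1 (ginj r hr p hp h))
      (fun h => e2 (ginj r hr q hq h))]
  have hcl : ∀ p ∈ S, ∀ q ∈ S, ∀ r ∈ S, swap p q r ∈ S := by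
    intro p hp q hq r hr
    rw [swap_apply_def]; split_ifs <;> assumption
  let x : Fin 6 → Fin 6 := fun z => swap 0 1 (swap 1 2 z)
  let y : Fin 6 → Fin 6 := fun z => swap (g u) (g v) (swap (g v) (g w) z)
  have hx : ∀ z ∈ S, g (cyc a b c z) = x (g z) ∧ cyc a b c z ∈ S := fun z hz => by
    refine ⟨?_, hcl a ma b mb _ (hcl b mb c mc z hz)⟩
    rw [cyc, Perm.mul_apply, tr a ma b mb _ (hcl b mb c mc z hz), tr b mb c mc z hz, ga, gb, gc]
  have hy : ∀ z ∈ S, g (cyc u v w z) = y (g z) ∧ cyc u v w z ∈ S := fun z hz => by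
    refine ⟨?_, hcl u mu v mv _ (hcl v mv w mw z hz)⟩
    rw [cyc, Perm.mul_apply, tr u mu v mv _ (hcl v mv w mw z hz), tr v mv w mw z hz]
  have hout : ∀ z, z ∉ S → cyc a b c z = z ∧ cyc u v w z = z := fun z hz => by
    simp only [S, Finset.mem_insert, Finset.mem_singleton, not_or] at hz
    obtain ⟨z1, z2, z3, z4, z5, z6⟩ := hz
    exact ⟨by rw [cyc, Perm.mul_apply, swap_apply_of_ne_of_ne z2 z3, swap_apply_of_ne_of_ne z1 z2],
      by rw [cyc, Perm.mul_apply, swap_apply_of_ne_of_ne z5 z6, swap_apply_of_ne_of_ne z4 z5]⟩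
  have himg : ∀ z' : Fin 6, (∀ z ∈ S, g z ≠ z') → x z' = z' ∧ y z' = z' := fun z' h => by
    constructor
    · show swap (0 : Fin 6) 1 (swap 1 2 z') = z'
      rw [← ga, ← gb, ← gc, swap_apply_of_ne_of_ne (h b mb).symm (h c mc).symm,
        swap_apply_of_ne_of_ne (h a ma).symm (h b mb).symm]
    · show swap (g u) (g v) (swap (g v) (g w) z') = z'
      rw [swap_apply_of_ne_of_ne (h v mv).symm (h w mw).symm, swap_apply_of_ne_of_ne (h u mu).symm (h v mv).symm]
  have k1 : ∀ z', x (y (x (y z'))) = z' := by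
    intro z'
    by_cases hz : ∃ z ∈ S, g z = z'
    · obtain ⟨z, hz, rfl⟩ := hz
      obtain ⟨e1, m1⟩ := hy z hz
      obtain ⟨e2, m2⟩ := hx _ m1
      obtain ⟨e3, m3⟩ := hy _ m2
      obtain ⟨e4, -⟩ := hx _ m3
      rw [← e1, ← e2, ← e3, ← e4]
      exact congrArg g (DFunLike.congr_fun h2 z)
    · push Not at hz
      obtain ⟨e1, e2⟩ := himg z' hz
      rw [e2, e1, e2, e1]
  have k2 : ¬ ∀ z', x (y z') = z' := fun h => h1 (Equiv.ext fun z => by
    rw [Perm.mul_apply, Perm.one_apply]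
    by_cases hz : z ∈ S
    · obtain ⟨e1, m1⟩ := hy z hz
      obtain ⟨e2, m2⟩ := hx _ m1
      exact ginj _ m2 z hz (by rw [e2, e1, h])
    · rw [(hout z hz).2, (hout z hz).1])
  have k3 : ¬ ∀ z', x z' = y z' := fun h => hne (Equiv.ext fun z => by
    by_cases hz : z ∈ S
    · exact ginj _ (hx z hz).2 _ (hy z hz).2 (by rw [(hx z hz).1, (hy z hz).1, h])
    · rw [(hout z hz).1, (hout z hz).2])
  have hc := chk6_all (g u) (g v) (g w)
  have d1 : g u ≠ g v := fun h => huv (ginj u mu v mv h)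
  have d2 : g v ≠ g w := fun h => hvw (ginj v mv w mw h)
  have d3 : g u ≠ g w := fun h => huw (ginj u mu w mw h)
  simp only [chk6, decide_eq_true d1, decide_eq_true d2, decide_eq_true d3, decide_eq_true k1, decide_eq_false k2,
    decide_eq_false k3, Bool.and_self, Bool.not_true, Bool.not_false, Bool.false_or, Bool.or_eq_true,
    decide_eq_true_eq, x, y] at hc
  rcases hc with (((((((h | h) | h) | h) | h) | h) | h) | h) | h <;> obtain ⟨p, q⟩ := h <;>
    simp only [← ga, ← gb, ← gc] at p q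
  · exact Or.inl ⟨ginj u mu a ma p, ginj v mv b mb q⟩
  · exact Or.inr (Or.inl ⟨ginj v mv a ma p, ginj w mw b mb q⟩)
  · exact Or.inr (Or.inr (Or.inl ⟨ginj w mw a ma p, ginj u mu b mb q⟩))
  · exact Or.inr (Or.inr (Or.inr (Or.inl ⟨ginj u mu b mb p, ginj v mv c mc q⟩)))
  · exact Or.inr (Or.inr (Or.inr (Or.inr (Or.inl ⟨ginj v mv b mb p, ginj w mw c mc q⟩))))
  · exact Or.inr (Or.inr (Or.inr (Or.inr (Or.inr (Or.inl ⟨ginj w mw b mb p, ginj u mu c mc q⟩)))))
  · exact Or.inr (Or.inr (Or.inr (Or.inr (Or.inr (Or.inr (Or.inl ⟨ginj u mu c mc p, ginj v mv a ma q⟩))))))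
  · exact Or.inr (Or.inr (Or.inr (Or.inr (Or.inr (Or.inr (Or.inr (Or.inl ⟨ginj v mv c mc p, ginj w mw a ma q⟩)))))))
  · exact Or.inr (Or.inr (Or.inr (Or.inr (Or.inr (Or.inr (Or.inr (Or.inr ⟨ginj w mw c mc p, ginj u mu a ma q⟩)))))))

/-- `p` and `q` are three-cycles with product an involution -/
def Near (p q : Perm X) : Prop :=
  q.IsThreeCycle ∧ (p * q) * (p * q) = 1 ∧ p * q ≠ 1 ∧ p ≠ q

/-- normal form relative to a fixed three-cycle -/
theorem near_form {a b c : X} (hab : a ≠ b) (hbc : b ≠ c) (hac : a ≠ c) {q : Perm X} (h : Near (cyc a b c) q) :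
    ∃ d, (q = cyc a b d ∧ a ≠ d ∧ b ≠ d ∧ c ≠ d) ∨ (q = cyc b c d ∧ b ≠ d ∧ c ≠ d ∧ a ≠ d) ∨
      (q = cyc c a d ∧ c ≠ d ∧ a ≠ d ∧ b ≠ d) := by
  obtain ⟨hq, h2, h1, hne⟩ := h
  obtain ⟨u, v, w, huv, hvw, huw, rfl⟩ := eq_cyc hq
  have r1 := cyc_rot huv hvw huw
  have r2 := cyc_rot hvw huw.symm huv.symm
  rcases share hab hbc hac huv hvw huw h2 h1 hne with ⟨e, e'⟩ | ⟨e, e'⟩ | ⟨e, e'⟩ | ⟨e, e'⟩ | ⟨e, e'⟩ | ⟨e, e'⟩ |
    ⟨e, e'⟩ | ⟨e, e'⟩ | ⟨e, e'⟩
  · subst e; subst e'
    exact ⟨w, Or.inl ⟨rfl, huw, hvw, fun h => hne (by rw [h])⟩⟩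
  · subst e; subst e'
    exact ⟨u, Or.inl ⟨r1, huv.symm, huw.symm, fun h => hne (by rw [r1, h])⟩⟩
  · subst e; subst e'
    exact ⟨v, Or.inl ⟨r1.trans r2, hvw.symm, huv, fun h => hne (by rw [r1, r2, h])⟩⟩
  · subst e; subst e'
    exact ⟨w, Or.inr (Or.inl ⟨rfl, huw, hvw, fun h => hne (by rw [← h, cyc_rot hab hbc hac])⟩)⟩
  · subst e; subst e'
    exact ⟨u, Or.inr (Or.inl ⟨r1, huv.symm, huw.symm, fun h => hne (by rw [r1, ← h, cyc_rot hab hbc hac])⟩)⟩
  · subst e; subst e'
    exact ⟨v, Or.inr (Or.inl ⟨r1.trans r2, hvw.symm, huv, fun h => hne (by rw [r1, r2, ← h, cyc_rot hab hbc hac])⟩)⟩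
  · subst e; subst e'
    exact ⟨w, Or.inr (Or.inr ⟨rfl, huw, hvw, fun h => hne (by rw [← h, cyc_rot hab hbc hac, cyc_rot hbc hac.symm hab.symm])⟩)⟩
  · subst e; subst e'
    exact ⟨u, Or.inr (Or.inr ⟨r1, huv.symm, huw.symm, fun h => hne (by rw [r1, ← h, cyc_rot hab hbc hac, cyc_rot hbc hac.symm hab.symm])⟩)⟩
  · subst e; subst e'
    exact ⟨v, Or.inr (Or.inr ⟨r1.trans r2, hvw.symm, huv, fun h => hne (by rw [r1, r2, ← h, cyc_rot hab hbc hac, cyc_rot hbc hac.symm hab.symm])⟩)⟩

theorem cyc_vals {a b c : X} (hab : a ≠ b) (hbc : b ≠ c) (hac : a ≠ c) :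
    cyc a b c a = b ∧ cyc a b c b = c ∧ cyc a b c c = a := by
  refine ⟨?_, ?_, ?_⟩
  · rw [cyc, Perm.mul_apply, swap_apply_of_ne_of_ne hab hac, swap_apply_left]
  · rw [cyc, Perm.mul_apply, swap_apply_left, swap_apply_of_ne_of_ne hac.symm hbc.symm]
  · rw [cyc, Perm.mul_apply, swap_apply_right, swap_apply_right]

/-- three pairwise close cycles share the oriented pair -/
theorem coherent {a b c d : X} (hab : a ≠ b) (hbc : b ≠ c) (hac : a ≠ c) (had : a ≠ d) (hbd : b ≠ d) (hcd : c ≠ d)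
    {q : Perm X} (h1 : Near (cyc a b c) q) (h2 : Near (cyc a b d) q) :
    ∃ z, q = cyc a b z ∧ a ≠ z ∧ b ≠ z := by
  obtain ⟨z, h | h | h⟩ := near_form hab hbc hac h1
  · exact ⟨z, h.1, h.2.1, h.2.2.1⟩
  all_goals
    obtain ⟨z', h' | h' | h'⟩ := near_form hab hbd had h2
    · exact ⟨z', h'.1, h'.2.1, h'.2.2.1⟩
    all_goals
      exfalso
      obtain ⟨hq, n1, n2, n3⟩ := h
      obtain ⟨hq', m1, m2, m3⟩ := h'
      have e := hq.symm.trans hq'
      first
        | (obtain ⟨v1, v2, v3⟩ := cyc_vals hbc n2 n1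
           rw [e] at v1 v2 v3
           simp only [cyc, Perm.mul_apply, swap_apply_def] at v1 v2 v3
           grind)
        | (obtain ⟨v1, v2, v3⟩ := cyc_vals hac.symm n2 n1
           rw [e] at v1 v2 v3
           simp only [cyc, Perm.mul_apply, swap_apply_def] at v1 v2 v3
           grind)

/-- the based three-cycles generate the alternating group -/
theorem closure_based {a b : X} (hab : a ≠ b) :
    alternatingGroup X ≤ Subgroup.closure {g : Perm X | ∃ i, i ≠ a ∧ i ≠ b ∧ g = cyc a b i} := by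
  classical
  let U := Subgroup.closure {g : Perm X | ∃ i, i ≠ a ∧ i ≠ b ∧ g = cyc a b i}
  have hA : U ≤ alternatingGroup X := by
    rw [Subgroup.closure_le]
    rintro _ ⟨i, hi1, hi2, rfl⟩
    exact Equiv.Perm.mem_alternatingGroup.2 (cyc_even hab (Ne.symm hi2))
  let s : X → Perm X := fun i => swap a i
  have mix : ∀ i, i ≠ a → s i * s b ∈ U ∧ s b * s i ∈ U := by
    intro i hia
    by_cases hib : i = b
    · subst hib; simp only [s, swap_mul_self]; exact ⟨U.one_mem, U.one_mem⟩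
    have e : cyc a b i = s i * s b := by
      show swap a b * swap b i = swap a i * swap a b
      rw [Equiv.mul_swap_eq_swap_mul, swap_apply_right, swap_apply_of_ne_of_ne hia hib]
    have hm : s i * s b ∈ U := Subgroup.subset_closure ⟨i, hia, hib, e.symm⟩
    refine ⟨hm, ?_⟩
    have := U.inv_mem hm
    simpa [s, mul_inv_rev] using this
  let P : Perm X → Prop := fun σ => σ ∈ U ∨ σ * s b ∈ U
  have step : ∀ σ i, i ≠ a → P σ → P (σ * s i) := by
    intro σ i hi h
    rcases h with h | h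
    · exact Or.inr (by rw [mul_assoc]; exact U.mul_mem h (mix i hi).1)
    · refine Or.inl ?_
      have := U.mul_mem h (mix i hi).2
      rwa [mul_assoc σ, ← mul_assoc (s b) (s b), swap_mul_self, one_mul] at this
  have all : ∀ σ : Perm X, P σ := by
    intro σ
    induction σ using Equiv.Perm.swap_induction_on' with
    | one => exact Or.inl U.one_mem
    | mul_swap f x y hxy ih =>
      by_cases hx : x = a
      · rw [hx]; exact step f y (fun h => hxy (hx.trans h.symm)) ih
      by_cases hy : y = a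
      · rw [hy, swap_comm]; exact step f x hx ih
      have e : swap x y = s x * s y * s x := by
        show swap x y = swap a x * swap a y * swap a x
        rw [Equiv.mul_swap_eq_swap_mul (swap a x) a y, swap_apply_left,
          swap_apply_of_ne_of_ne hy (Ne.symm hxy), mul_assoc, swap_mul_self, mul_one]
      rw [e, ← mul_assoc, ← mul_assoc]
      exact step _ x hx (step _ y hy (step f x hx ih))
  intro σ hσ
  rcases all σ with h | h
  · exact h
  · exfalso
    have h1 := Equiv.Perm.mem_alternatingGroup.1 (hA h)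
    rw [map_mul, Equiv.Perm.mem_alternatingGroup.1 hσ, one_mul, show s b = swap a b from rfl,
      Equiv.Perm.sign_swap hab] at h1
    exact absurd h1 (by decide)

theorem two_mul_pow_lt : ∀ k : ℕ, 3 ≤ k → 2 * (3 ^ k * k.factorial) < 3 * (3 * k - 3).factorial := by
  intro k hk
  induction k, hk using Nat.le_induction with
  | base => decide
  | succ k hk ih =>
    obtain ⟨j, rfl⟩ : ∃ j, k = j + 3 := ⟨k - 3, by omega⟩
    rw [show 3 * (j + 3 + 1) - 3 = (3 * j + 6) + 1 + 1 + 1 by omega, Nat.factorial_succ ((3 * j + 6) + 1 + 1), Nat.factorial_succ ((3 * j + 6) + 1),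
      Nat.factorial_succ (3 * j + 6), Nat.factorial_succ (j + 3), pow_succ]
    rw [show 3 * (j + 3) - 3 = 3 * j + 6 by omega] at ih
    generalize (3 * j + 6).factorial = F at *
    generalize 3 ^ (j + 3) = T at *
    generalize (j + 3).factorial = K at *
    have h : 3 * (j + 3 + 1) ≤ (3 * j + 6 + 1 + 1 + 1) * ((3 * j + 6 + 1 + 1) * (3 * j + 6 + 1)) :=
      le_trans (show 3 * (j + 3 + 1) ≤ (3 * j + 6 + 1 + 1 + 1) * (2 * 1) by omega)
        (Nat.mul_le_mul_left _ (Nat.mul_le_mul (by omega) (by omega)))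
    calc 2 * (T * 3 * ((j + 3 + 1) * K)) = 3 * (j + 3 + 1) * (2 * (T * K)) := by ring
      _ < 3 * (j + 3 + 1) * (3 * F) := Nat.mul_lt_mul_of_pos_left ih (by omega)
      _ ≤ (3 * j + 6 + 1 + 1 + 1) * ((3 * j + 6 + 1 + 1) * (3 * j + 6 + 1)) * (3 * F) := Nat.mul_le_mul_right _ h
      _ = _ := by ring

theorem count_lt {n k : ℕ} (hn : 7 ≤ n) (hk : 2 ≤ k) (hkn : 3 * k ≤ n) :
    2 * ((n - 3 * k).factorial * (3 ^ k * k.factorial)) < 3 * (n - 3).factorial := by
  obtain ⟨j, rfl⟩ : ∃ j, n = 3 * k + j := ⟨n - 3 * k, by omega⟩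
  rw [show 3 * k + j - 3 * k = j by omega, show 3 * k + j - 3 = (3 * k - 3) + j by omega]
  have h := Nat.le_of_dvd (Nat.factorial_pos _) (Nat.factorial_mul_factorial_dvd_factorial_add (3 * k - 3) j)
  rcases Nat.lt_or_ge k 3 with h3 | h3
  · obtain rfl : k = 2 := by omega
    obtain ⟨i, rfl⟩ : ∃ i, j = i + 1 := ⟨j - 1, by omega⟩
    rw [show 3 * 2 - 3 + (i + 1) = i + 1 + 1 + 1 + 1 by omega, Nat.factorial_succ (i + 1 + 1 + 1),
      Nat.factorial_succ (i + 1 + 1), Nat.factorial_succ (i + 1)]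
    have := Nat.factorial_pos (i + 1)
    generalize (i + 1).factorial = F at *
    have h4 : 4 * (3 * 2) ≤ (i + 1 + 1 + 1 + 1) * ((i + 1 + 1 + 1) * (i + 1 + 1)) :=
      Nat.mul_le_mul (by omega) (Nat.mul_le_mul (by omega) (by omega))
    replace h4 : 24 ≤ (i + 1 + 1 + 1 + 1) * ((i + 1 + 1 + 1) * (i + 1 + 1)) := by omega
    calc 2 * (F * (3 ^ 2 * (2 : ℕ).factorial)) = 36 * F := by norm_num [Nat.factorial]; ring
      _ < 3 * (24 * F) := by omega
      _ ≤ 3 * ((i + 1 + 1 + 1 + 1) * ((i + 1 + 1 + 1) * (i + 1 + 1)) * F) :=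
          Nat.mul_le_mul_left _ (Nat.mul_le_mul_right _ h4)
      _ = _ := by ring
  · calc 2 * (j.factorial * (3 ^ k * k.factorial)) = j.factorial * (2 * (3 ^ k * k.factorial)) := by ring
      _ < j.factorial * (3 * (3 * k - 3).factorial) := Nat.mul_lt_mul_of_pos_left (two_mul_pow_lt k h3) (Nat.factorial_pos _)
      _ = 3 * ((3 * k - 3).factorial * j.factorial) := by ring
      _ ≤ _ := Nat.mul_le_mul_left 3 h

/-- automorphisms preserve three-cycles -/
theorem map_threeCycle (h4 : 4 ≤ Fintype.card X) (h6 : Fintype.card X ≠ 6) (φ : MulAut (alternatingGroup X))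
    (t : alternatingGroup X) (ht : (t : Perm X).IsThreeCycle) : ((φ t : alternatingGroup X) : Perm X).IsThreeCycle := by
  classical
  obtain ⟨u, hu⟩ : ∃ u : Perm X, u = ((φ t : alternatingGroup X) : Perm X) := ⟨_, rfl⟩
  rw [← hu]
  have ho : orderOf u = 3 := by
    rw [hu, Subgroup.orderOf_coe, φ.orderOf_eq, ← Subgroup.orderOf_coe, ht.orderOf]
  obtain ⟨k, hk⟩ := Equiv.Perm.cycleType_prime_order (σ := u) (by rw [ho]; exact Nat.prime_three)
  rw [ho] at hk
  have hsum := Equiv.Perm.sum_cycleType_le u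
  rw [hk, Multiset.sum_replicate, smul_eq_mul] at hsum
  by_cases hk0 : k = 0
  · subst hk0; exact hk
  exfalso
  have h7 : 7 ≤ Fintype.card X := by omega
  have hcu := Equiv.Perm.nat_card_centralizer u
  rw [hk, Multiset.sum_replicate, smul_eq_mul, Multiset.prod_replicate, Multiset.toFinset_replicate,
    if_neg (by omega), Finset.prod_singleton, Multiset.count_replicate_self, mul_comm (k + 1) 3] at hcu
  have hct := Equiv.Perm.nat_card_centralizer (t : Perm X)
  rw [show (t : Perm X).cycleType = {3} from ht, Multiset.sum_singleton, Multiset.prod_singleton,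
    Multiset.toFinset_singleton, Finset.prod_singleton, Multiset.count_singleton_self, Nat.factorial_one, mul_one] at hct
  let A := alternatingGroup X
  have tr : Nat.card (Subgroup.centralizer ({t} : Set A)) = Nat.card (Subgroup.centralizer ({φ t} : Set A)) := by
    refine Nat.card_congr (Equiv.subtypeEquiv φ.toEquiv fun a => ?_)
    rw [Subgroup.mem_centralizer_singleton_iff, Subgroup.mem_centralizer_singleton_iff]
    show _ ↔ φ a * φ t = φ t * φ a
    rw [← map_mul, ← map_mul, φ.injective.eq_iff]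
  have up : Nat.card (Subgroup.centralizer ({φ t} : Set A)) ≤ Nat.card (Subgroup.centralizer ({u} : Set (Perm X))) := by
    refine Nat.card_le_card_of_injective (fun a => ⟨((a : A) : Perm X), ?_⟩) fun a b h => ?_
    · rw [Subgroup.mem_centralizer_singleton_iff, hu]
      exact congrArg Subtype.val (Subgroup.mem_centralizer_singleton_iff.1 a.2)
    · exact Subtype.ext (Subtype.ext (congrArg Subtype.val h :))
  have low : Nat.card (Subgroup.centralizer ({(t : Perm X)} : Set (Perm X))) ≤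
      2 * Nat.card (Subgroup.centralizer ({t} : Set A)) := by
    let Ct := Subgroup.centralizer ({(t : Perm X)} : Set (Perm X))
    let sgn := (Equiv.Perm.sign : Perm X →* ℤˣ).comp Ct.subtype
    have h1 := Subgroup.card_mul_index sgn.ker
    rw [Subgroup.index_ker] at h1
    have h2 : Nat.card sgn.range ≤ 2 :=
      (Nat.card_le_card_of_injective _ Subtype.val_injective).trans (by rw [Nat.card_eq_fintype_card]; rfl)
    have h3 : Nat.card sgn.ker ≤ Nat.card (Subgroup.centralizer ({t} : Set A)) := by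
      refine Nat.card_le_card_of_injective (fun a => ⟨⟨((a : Ct) : Perm X), Equiv.Perm.mem_alternatingGroup.2 a.2⟩, ?_⟩)
        fun a b h => ?_
      · rw [Subgroup.mem_centralizer_singleton_iff]
        exact Subtype.ext (Subgroup.mem_centralizer_singleton_iff.1 (a : Ct).2)
      · exact Subtype.ext (Subtype.ext (congrArg (fun z => (((z : Subgroup.centralizer ({t} : Set A)) : A) : Perm X)) h :))
    calc Nat.card Ct = Nat.card sgn.ker * Nat.card sgn.range := h1.symm
      _ ≤ Nat.card (Subgroup.centralizer ({t} : Set A)) * 2 := Nat.mul_le_mul h3 h2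
      _ = _ := mul_comm _ _
  have := count_lt h7 (k := k + 1) (by omega) (by omega)
  rw [hct, tr] at low
  rw [hcu, mul_assoc] at up
  rw [mul_comm (Fintype.card X - 3).factorial 3] at low
  omega

/-- automorphisms are conjugations -/
theorem exists_conj (h4 : 4 ≤ Fintype.card X) (h6 : Fintype.card X ≠ 6) (φ : MulAut (alternatingGroup X)) :
    ∃ σ : Perm X, MulAut.conjNormal σ = φ := by
  classical
  obtain ⟨o, o', hoo⟩ := Fintype.exists_pair_of_one_lt_card (show 1 < Fintype.card X by omega)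
  let I := {i : X // i ≠ o ∧ i ≠ o'}
  let t : I → alternatingGroup X := fun i =>
    ⟨cyc o o' i, Equiv.Perm.mem_alternatingGroup.2 (cyc_even hoo (Ne.symm i.2.2))⟩
  have tthree : ∀ i : I, (t i : Perm X).IsThreeCycle := fun i => by
    have e : cyc o o' (i : X) = swap o' o * swap o' i := by rw [cyc, swap_comm o o']
    show (cyc o o' (i : X)).IsThreeCycle
    rw [e]
    exact Equiv.Perm.isThreeCycle_swap_mul_swap_same hoo.symm (Ne.symm i.2.2) (Ne.symm i.2.1)
  let x : I → Perm X := fun i => ((φ (t i) : alternatingGroup X) : Perm X)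
  have xnear : ∀ i j : I, i ≠ j → Near (x i) (x j) := by
    intro i j hij
    have hij' : (i : X) ≠ j := fun h => hij (Subtype.ext h)
    have hprod : cyc o o' (i : X) * cyc o o' (j : X) = swap o (i : X) * swap o' (j : X) := by
      have e := CfsgLib.Perm.Blocks.conj_swap (swap o o') o' (i : X)
      rw [Equiv.swap_inv, swap_apply_right, swap_apply_of_ne_of_ne i.2.1 i.2.2] at e
      rw [cyc, cyc, ← mul_assoc, e]
    have hp : (t i * t j : alternatingGroup X) ≠ 1 := fun h => by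
      have := DFunLike.congr_fun (congrArg Subtype.val h) (j : X)
      rw [Subgroup.coe_mul, Subgroup.coe_one, Perm.one_apply] at this
      change (cyc o o' (i : X) * cyc o o' (j : X)) (j : X) = j at this
      rw [hprod, Perm.mul_apply, swap_apply_right, swap_apply_of_ne_of_ne hoo.symm (Ne.symm i.2.2)] at this
      exact j.2.2 this.symm
    have hp2 : (t i * t j) * (t i * t j) = (1 : alternatingGroup X) := Subtype.ext (by
      show (cyc o o' (i : X) * cyc o o' (j : X)) * (cyc o o' (i : X) * cyc o o' (j : X)) = 1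
      rw [hprod]
      nth_rw 2 [swap_comm_of_ne hoo (Ne.symm j.2.1) i.2.2 hij']
      rw [mul_assoc, ← mul_assoc (swap o' (j : X)) (swap o' (j : X)), swap_mul_self, one_mul, swap_mul_self])
    refine ⟨map_threeCycle h4 h6 φ (t j) (tthree j), ?_, ?_, ?_⟩
    · show ((φ (t i) : alternatingGroup X) : Perm X) * _ * _ = 1
      rw [← Subgroup.coe_mul, ← Subgroup.coe_mul, ← map_mul, ← map_mul, hp2, map_one, Subgroup.coe_one]
    · show ((φ (t i) : alternatingGroup X) : Perm X) * _ ≠ 1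
      intro h
      rw [← Subgroup.coe_mul, ← map_mul] at h
      exact hp (φ.injective ((Subtype.ext h).trans (map_one φ).symm))
    · intro h
      have h' : t i = t j := φ.injective (Subtype.ext h)
      have h'' := DFunLike.congr_fun (congrArg Subtype.val h') o'
      obtain ⟨-, v1, -⟩ := cyc_vals hoo (Ne.symm i.2.2) (Ne.symm i.2.1)
      obtain ⟨-, v2, -⟩ := cyc_vals hoo (Ne.symm j.2.2) (Ne.symm j.2.1)
      exact hij' (v1.symm.trans (h''.trans v2))
  obtain ⟨i₀, i₁, hi01⟩ : ∃ i₀ i₁ : I, i₀ ≠ i₁ := by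
    refine Fintype.exists_pair_of_one_lt_card ?_
    rw [Fintype.card_subtype, show (Finset.univ.filter fun i : X => i ≠ o ∧ i ≠ o') = (Finset.univ.erase o).erase o' by
      ext; simp [and_comm], Finset.card_erase_of_mem (by simp [hoo.symm]), Finset.card_erase_of_mem (Finset.mem_univ _),
      Finset.card_univ]
    omega
  obtain ⟨u, v, w, huv, hvw, huw, hx0⟩ := eq_cyc (map_threeCycle h4 h6 φ (t i₀) (tthree i₀))
  have hx0' : x i₀ = cyc u v w := hx0
  have hn := xnear i₀ i₁ hi01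
  rw [hx0'] at hn
  obtain ⟨a, b, c, d, hab, hbc, hac, had, hbd, hcd, e0, e1⟩ : ∃ a b c d, a ≠ b ∧ b ≠ c ∧ a ≠ c ∧ a ≠ d ∧ b ≠ d ∧
      c ≠ d ∧ x i₀ = cyc a b c ∧ x i₁ = cyc a b d := by
    obtain ⟨d, h | h | h⟩ := near_form huv hvw huw hn
    · exact ⟨u, v, w, d, huv, hvw, huw, h.2.1, h.2.2.1, h.2.2.2, hx0', h.1⟩
    · exact ⟨v, w, u, d, hvw, huw.symm, huv.symm, h.2.1, h.2.2.1, h.2.2.2, hx0'.trans (cyc_rot huv hvw huw), h.1⟩
    · exact ⟨w, u, v, d, huw.symm, huv, hvw.symm, h.2.1, h.2.2.1, h.2.2.2,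
        hx0'.trans ((cyc_rot huv hvw huw).trans (cyc_rot hvw huw.symm huv.symm)), h.1⟩
  have hall : ∀ i, ∃ z, x i = cyc a b z ∧ a ≠ z ∧ b ≠ z := by
    intro i
    by_cases h0 : i = i₀
    · subst h0; exact ⟨c, e0, hac, hbc⟩
    by_cases h1 : i = i₁
    · subst h1; exact ⟨d, e1, had, hbd⟩
    exact coherent hab hbc hac had hbd hcd (e0 ▸ xnear i₀ i (Ne.symm h0)) (e1 ▸ xnear i₁ i (Ne.symm h1))
  choose z hz hza hzb using hall
  let f : X → X := fun p => if hp : p ≠ o ∧ p ≠ o' then z ⟨p, hp⟩ else if p = o then a else b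
  have fo : f o = a := by simp [f]
  have fo' : f o' = b := by simp [f, hoo.symm]
  have fi : ∀ i : I, f i = z i := fun i => dif_pos i.2
  have hinj : Function.Injective f := by
    intro p q hpq
    have cases' : ∀ p, (p = o ∧ f p = a) ∨ (p = o' ∧ f p = b) ∨ ∃ i : I, p = i ∧ f p = z i := by
      intro p
      by_cases h1 : p = o
      · exact Or.inl ⟨h1, h1 ▸ fo⟩
      by_cases h2 : p = o'
      · exact Or.inr (Or.inl ⟨h2, h2 ▸ fo'⟩)
      exact Or.inr (Or.inr ⟨⟨p, h1, h2⟩, rfl, fi ⟨p, h1, h2⟩⟩)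
    rcases cases' p with ⟨e, f1⟩ | ⟨e, f1⟩ | ⟨i, e, f1⟩ <;> rcases cases' q with ⟨e', f2⟩ | ⟨e', f2⟩ | ⟨i', e', f2⟩
    all_goals rw [f1, f2] at hpq
    · rw [e, e']
    · exact absurd hpq hab
    · exact absurd hpq (hza i')
    · exact absurd hpq.symm hab
    · rw [e, e']
    · exact absurd hpq (hzb i')
    · exact absurd hpq.symm (hza i)
    · exact absurd hpq.symm (hzb i)
    · have h' : i = i' := by
        by_contra h
        exact (xnear i i' h).2.2.2 (by rw [hz, hz, hpq])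
      rw [e, e', h']
  refine ⟨Equiv.ofBijective f (Finite.injective_iff_bijective.1 hinj), ?_⟩
  let Q := ((φ.toMonoidHom).eqLocus
    (MulAut.conjNormal (Equiv.ofBijective f (Finite.injective_iff_bijective.1 hinj)) : MulAut (alternatingGroup X)).toMonoidHom).map
      (alternatingGroup X).subtype
  have hle : Subgroup.closure {g : Perm X | ∃ i, i ≠ o ∧ i ≠ o' ∧ g = cyc o o' i} ≤ Q := by
    rw [Subgroup.closure_le]
    rintro _ ⟨i, hi1, hi2, rfl⟩
    refine ⟨t ⟨i, hi1, hi2⟩, Subtype.ext ?_, rfl⟩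
    show x ⟨i, hi1, hi2⟩ = ((MulAut.conjNormal _ (t ⟨i, hi1, hi2⟩) : alternatingGroup X) : Perm X)
    rw [MulAut.conjNormal_apply, hz]
    show _ = _ * cyc o o' i * _
    rw [cyc_conj]
    show _ = cyc (f o) (f o') (f i)
    rw [fo, fo', fi ⟨i, hi1, hi2⟩]
  refine MulEquiv.ext fun g => ?_
  obtain ⟨g', hg', hgg⟩ := hle (closure_based hoo g.2)
  rw [← (Subtype.ext hgg : g' = g)]
  exact (hg' : φ g' = _).symm


/-- Automorphisms of the alternating groups: for n ≥ 4 with n ≠ 6, every automorphism of the alternating group of degree n is conjugation by a unique permutation, i.e. conjugation induces an isomorphism from the symmetric group of degree n onto the automorphism group of the alternating group (so the outer automorphism group has order 2). -/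
theorem result (n : ℕ) (hn : 4 ≤ n) (h6 : n ≠ 6) : Function.Bijective (MulAut.conjNormal : Equiv.Perm (Fin n) →* MulAut ↥(alternatingGroup (Fin n))) := by
  classical
  refine ⟨?_, fun φ => exists_conj (by rw [Fintype.card_fin]; exact hn) (by rw [Fintype.card_fin]; exact h6) φ⟩
  rw [injective_iff_map_eq_one]
  intro σ hσ
  refine Equiv.ext fun z => ?_
  rw [Perm.one_apply]
  by_contra hne
  -- choose two further points
  obtain ⟨p, q, hp, hq, hpq⟩ : ∃ p q, p ∉ ({z, σ z} : Finset (Fin n)) ∧ q ∉ ({z, σ z} : Finset (Fin n)) ∧ p ≠ q := by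
    have : 1 < ((Finset.univ : Finset (Fin n)) \ {z, σ z}).card := by
      have h1 := Finset.le_card_sdiff ({z, σ z} : Finset (Fin n)) Finset.univ
      have := Finset.card_le_two (a := z) (b := σ z)
      rw [Finset.card_univ, Fintype.card_fin] at h1
      omega
    obtain ⟨p, hp, q, hq, hpq⟩ := Finset.one_lt_card.1 this
    exact ⟨p, q, (Finset.mem_sdiff.1 hp).2, (Finset.mem_sdiff.1 hq).2, hpq⟩
  simp only [Finset.mem_insert, Finset.mem_singleton, not_or] at hp hq
  have he : cyc z p q ∈ alternatingGroup (Fin n) := Equiv.Perm.mem_alternatingGroup.2 (cyc_even (Ne.symm hp.1) hpq)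
  have h := congrArg (fun a : alternatingGroup (Fin n) => (a : Equiv.Perm (Fin n)) (σ z))
    (DFunLike.congr_fun hσ ⟨_, he⟩)
  simp only [MulAut.conjNormal_apply, MulAut.one_apply, Perm.mul_apply] at h
  rw [show σ⁻¹ (σ z) = z from σ.symm_apply_apply z, (cyc_vals (Ne.symm hp.1) hpq (Ne.symm hq.1)).1] at h
  have hf : cyc z p q (σ z) = σ z := by
    rw [cyc, Perm.mul_apply, swap_apply_of_ne_of_ne (Ne.symm hp.2) (Ne.symm hq.2),
      swap_apply_of_ne_of_ne hne (Ne.symm hp.2)]
  rw [hf] at h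
  exact hp.1 (σ.injective h)

end Cfsg.Agent.S2119
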