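import Mathlib.LinearAlgebra.Matrix.SchurComplement
import Mathlib.LinearAlgebra.Matrix.Rank
import Mathlib.LinearAlgebra.Matrix.GeneralLinearGroup.Defs
import Mathlib.LinearAlgebra.Matrix.SpecialLinearGroup
import Mathlib.FieldTheory.Finite.Basic
import Mathlib.LinearAlgebra.Dimension.RankNullity
import Cfsg.Prelude.Def_Transfer

set_option autoImplicit false
open Cfsg

namespace Cfsg.Agent.S2162

open Module LinearMap

/-- A square-zero endomorphism splits `V` as `W ⊕ N W ⊕ U` with `N W ⊕ U = ker N`. -/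
theorem exists_chart {F V : Type*} [Field F] [AddCommGroup V] [Module F V] [FiniteDimensional F V]
    (N : V →ₗ[F] V) (hN : ∀ x, N (N x) = 0) :
    ∃ (W U : Submodule F V) (Φ : (W × W × U) ≃ₗ[F] V),
      (∀ w w' u, N (Φ (w, w', u)) = Φ (0, w, 0)) ∧ finrank F W = finrank F (range N) ∧
      2 * finrank F W + finrank F U = finrank F V := by
  obtain ⟨W, hW⟩ := Submodule.exists_isCompl (ker N)
  obtain ⟨C, hC⟩ := Submodule.exists_isCompl (range N)
  set U := C ⊓ ker N
  let f : (W × W × U) →ₗ[F] V :=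
    W.subtype.coprod ((N.comp W.subtype).coprod U.subtype)
  have hf : ∀ w w' u, f (w, w', u) = (w : V) + (N w' + (u : V)) := fun w w' u => rfl
  have hWk : ∀ w : W, N (w : V) = 0 → w = 0 := fun w h =>
    Subtype.ext ((Submodule.disjoint_def.mp hW.disjoint) _ (mem_ker.mpr h) w.2)
  have hinj : Function.Injective f := by
    rw [injective_iff_map_eq_zero]
    rintro ⟨w, w', u⟩ h
    rw [hf] at h
    have hu : N (u : V) = 0 := mem_ker.mp u.2.2
    have h1 := congrArg N h
    rw [map_add, map_add, hN, hu, add_zero, add_zero, map_zero] at h1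
    have hw := hWk w h1
    subst hw
    rw [Submodule.coe_zero, zero_add] at h
    have h2 : (u : V) = 0 := by
      refine (Submodule.disjoint_def.mp hC.disjoint) _ ⟨-(w' : V), ?_⟩ u.2.1
      rw [map_neg]; exact neg_eq_of_add_eq_zero_right h
    rw [h2, add_zero] at h
    rw [hWk w' h, Submodule.coe_eq_zero.mp h2]
    rfl
  have hsurj : Function.Surjective f := fun x => by
    have h1 : x ∈ (ker N ⊔ W : Submodule F V) := hW.sup_eq_top ▸ Submodule.mem_top
    obtain ⟨k, hk, w, hw, rfl⟩ := Submodule.mem_sup.mp h1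
    have h2 : k ∈ (range N ⊔ C : Submodule F V) := hC.sup_eq_top ▸ Submodule.mem_top
    obtain ⟨_, ⟨y, rfl⟩, c, hc, rfl⟩ := Submodule.mem_sup.mp h2
    have hcN : N c = 0 := by
      have := mem_ker.mp hk
      rwa [map_add, hN, zero_add] at this
    have h3 : y ∈ (ker N ⊔ W : Submodule F V) := hW.sup_eq_top ▸ Submodule.mem_top
    obtain ⟨k', hk', w', hw', rfl⟩ := Submodule.mem_sup.mp h3
    refine ⟨(⟨w, hw⟩, ⟨w', hw'⟩, ⟨c, hc, mem_ker.mpr hcN⟩), ?_⟩
    rw [hf, map_add N k' w', mem_ker.mp hk', zero_add]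
    abel
  let Φ := LinearEquiv.ofBijective f ⟨hinj, hsurj⟩
  have hd := Φ.finrank_eq
  rw [Module.finrank_prod, Module.finrank_prod] at hd
  refine ⟨W, U, Φ, fun w w' u => ?_, ?_, by omega⟩
  · show N (f (w, w', u)) = f (0, w, 0)
    rw [hf, hf, map_add, map_add, hN, mem_ker.mp u.2.2]
    simp
  · have h1 := N.finrank_range_add_finrank_ker
    have h2 := Submodule.finrank_add_eq_of_isCompl hW
    omega

/-- Square-zero endomorphisms with ranges of equal dimension are conjugate. -/
theorem exists_conj {F V : Type*} [Field F] [AddCommGroup V] [Module F V] [FiniteDimensional F V]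
    (N N' : V →ₗ[F] V) (hN : ∀ x, N (N x) = 0) (hN' : ∀ x, N' (N' x) = 0)
    (hr : finrank F (range N) = finrank F (range N')) :
    ∃ T : V ≃ₗ[F] V, ∀ x, T (N x) = N' (T x) := by
  obtain ⟨W, U, Φ, hΦ, hW, hU⟩ := exists_chart N hN
  obtain ⟨W', U', Φ', hΦ', hW', hU'⟩ := exists_chart N' hN'
  let e : W ≃ₗ[F] W' := LinearEquiv.ofFinrankEq _ _ (by omega)
  let g : U ≃ₗ[F] U' := LinearEquiv.ofFinrankEq _ _ (by omega)
  refine ⟨Φ.symm.trans ((e.prodCongr (e.prodCongr g)).trans Φ'), fun x => ?_⟩
  obtain ⟨⟨w, w', u⟩, rfl⟩ := Φ.surjective x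
  simp [hΦ, hΦ']

theorem exists_centralizing_det {F : Type*} [Field F] {n : ℕ} (N : Matrix (Fin n) (Fin n) F)
    (hN : N * N = 0) (hne : N ≠ 0) (c : F) :
    ∃ S : Matrix (Fin n) (Fin n) F, S * N = N * S ∧ S.det = c ^ 2 := by
  classical
  obtain ⟨i, j, hij⟩ : ∃ i j, N i j ≠ 0 := by
    by_contra h
    push_neg at h
    exact hne (Matrix.ext h)
  -- `w` = the j-th unit vector, `u = N w`, `g` = the scaled i-th coordinate and `f = g ∘ N`
  set w : Fin n → F := Pi.single j 1 with hw
  set u : Fin n → F := Matrix.mulVec N w with hu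
  set g0 : Fin n → F := Pi.single i (N i j)⁻¹ with hg0
  set f : Fin n → F := Matrix.vecMul g0 N with hf
  have hgu : dotProduct g0 u = 1 := by
    simp [hg0, hu, hw, Matrix.mulVec_single, hij]
  have hfw : dotProduct f w = 1 := by
    rw [hf, ← Matrix.dotProduct_mulVec, ← hu, hgu]
  have hfN : Matrix.vecMul f N = 0 := by rw [hf, Matrix.vecMul_vecMul, hN, Matrix.vecMul_zero]
  have hNu : Matrix.mulVec N u = 0 := by rw [hu, Matrix.mulVec_mulVec, hN, Matrix.zero_mulVec]
  have hfu : dotProduct f u = 0 := by rw [hu, Matrix.dotProduct_mulVec, hfN, zero_dotProduct]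
  -- correct `g0` to a functional vanishing at `w`
  set t := dotProduct g0 w with ht
  set g : Fin n → F := g0 - t • f with hg
  have hgw : dotProduct g w = 0 := by rw [hg, sub_dotProduct, smul_dotProduct, hfw, ← ht]; simp
  have hgu' : dotProduct g u = 1 := by rw [hg, sub_dotProduct, smul_dotProduct, hfu, hgu]; simp
  have hgN : Matrix.vecMul g N = f := by
    rw [hg, Matrix.sub_vecMul, Matrix.smul_vecMul, hfN, ← hf, smul_zero, sub_zero]
  set A : Matrix (Fin n) (Fin 2) F := Matrix.of fun k l => if l = 0 then w k else u k with hA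
  set B : Matrix (Fin 2) (Fin n) F := Matrix.of fun l k => if l = 0 then f k else g k with hB
  have hBA : B * A = 1 := by
    ext a b
    rw [Matrix.mul_apply]
    fin_cases a <;> fin_cases b <;> simp [hA, hB, Matrix.one_apply] <;>
      first
      | exact hfw | exact hfu | exact hgw | exact hgu'
  refine ⟨1 + A * ((c - 1) • B), ?_, ?_⟩
  · have key : A * B * N = N * (A * B) := by
      rw [Matrix.mul_assoc, ← Matrix.mul_assoc N]
      have h1 : B * N = Matrix.of fun (l : Fin 2) k => if l = 0 then (0 : F) else f k := by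
        ext a b
        fin_cases a
        · simpa [hB, Matrix.mul_apply, Matrix.vecMul, dotProduct] using congrFun hfN b
        · simpa [hB, Matrix.mul_apply, Matrix.vecMul, dotProduct] using congrFun hgN b
      have h2 : N * A = Matrix.of fun k (l : Fin 2) => if l = 0 then u k else (0 : F) := by
        ext a b
        fin_cases b
        · simp [hA, Matrix.mul_apply, hu, Matrix.mulVec, dotProduct]
        · simpa [hA, Matrix.mul_apply, Matrix.mulVec, dotProduct] using congrFun hNu a
      rw [h1, h2]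
      ext a b
      simp [Matrix.mul_apply, Fin.sum_univ_two, hA, hB]
    rw [Matrix.mul_smul, add_mul, mul_add, one_mul, mul_one, Matrix.smul_mul, Matrix.mul_smul, key]
  · rw [Matrix.det_one_add_mul_comm, Matrix.smul_mul, hBA]
    have e : (1 : Matrix (Fin 2) (Fin 2) F) + (c - 1) • (1 : Matrix (Fin 2) (Fin 2) F) = c • (1 : Matrix (Fin 2) (Fin 2) F) := by
      rw [sub_smul, one_smul, add_sub_cancel]
    rw [e, Matrix.det_smul, Matrix.det_one, mul_one, Fintype.card_fin]

/-- Conjugacy of involutions in the special linear group over a finite field of characteristic two, in dimension at least 3: two elements of order 2 of SL_n(F) are conjugate in SL_n(F) exactly when the matrices a − 1 and b − 1 have the same rank (the rank of a − 1 is the dimension of the commutator space [V, a]). -/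
theorem result {F : Type*} [Field F] [Fintype F] [CharP F 2] {n : ℕ} (hn : 3 ≤ n) (a b : Matrix.SpecialLinearGroup (Fin n) F) (ha : orderOf a = 2) (hb : orderOf b = 2) :
    IsConj a b ↔ ((a : Matrix (Fin n) (Fin n) F) - 1).rank = ((b : Matrix (Fin n) (Fin n) F) - 1).rank := by
  classical
  set N := (a : Matrix (Fin n) (Fin n) F) - 1 with hNdef
  set N' := (b : Matrix (Fin n) (Fin n) F) - 1 with hN'def
  constructor
  · intro h
    obtain ⟨c, hc⟩ := isConj_iff.mp h
    have hd : IsUnit (c : Matrix (Fin n) (Fin n) F).det := by rw [c.2]; exact isUnit_one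
    have hd' : IsUnit ((c⁻¹ : Matrix.SpecialLinearGroup (Fin n) F) : Matrix (Fin n) (Fin n) F).det := by
      rw [(c⁻¹).2]; exact isUnit_one
    have hcc : (c : Matrix (Fin n) (Fin n) F) * ((c⁻¹ : Matrix.SpecialLinearGroup (Fin n) F) : Matrix (Fin n) (Fin n) F) = 1 := by
      rw [← Matrix.SpecialLinearGroup.coe_mul, mul_inv_cancel, Matrix.SpecialLinearGroup.coe_one]
    have e : N' = (c : Matrix (Fin n) (Fin n) F) * N *
        ((c⁻¹ : Matrix.SpecialLinearGroup (Fin n) F) : Matrix (Fin n) (Fin n) F) := by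
      rw [hN'def, ← hc, hNdef, Matrix.SpecialLinearGroup.coe_mul, Matrix.SpecialLinearGroup.coe_mul,
        mul_sub, sub_mul, mul_one, hcc]
    rw [e, Matrix.rank_mul_eq_left_of_isUnit_det _ _ hd', Matrix.rank_mul_eq_right_of_isUnit_det _ _ hd]
  · intro hr
    have hsq : ∀ x : Matrix.SpecialLinearGroup (Fin n) F, orderOf x = 2 →
        ((x : Matrix (Fin n) (Fin n) F) - 1) * ((x : Matrix (Fin n) (Fin n) F) - 1) = 0 := by
      intro x hx
      have h1 : (x : Matrix (Fin n) (Fin n) F) * x = 1 := by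
        rw [← Matrix.SpecialLinearGroup.coe_mul, ← sq, ← hx, pow_orderOf_eq_one, Matrix.SpecialLinearGroup.coe_one]
      have h2 : ∀ y : Matrix (Fin n) (Fin n) F, y + y = 0 := fun y => by
        ext i j; exact CharTwo.add_self_eq_zero _
      rw [sub_mul, mul_sub, mul_one, one_mul, h1]
      calc (1 : Matrix (Fin n) (Fin n) F) - x - (x - 1) = (1 + 1) - ((x : Matrix (Fin n) (Fin n) F) + x) := by abel
        _ = 0 := by rw [h2, h2, sub_zero]
    have hN := hsq a ha
    have hN' := hsq b hb
    have hne : N ≠ 0 := fun h => by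
      have : a = 1 := Subtype.ext (sub_eq_zero.mp h)
      rw [this, orderOf_one] at ha
      omega
    obtain ⟨T, hT⟩ := exists_conj (Matrix.toLin' N) (Matrix.toLin' N')
      (fun x => by rw [← Matrix.toLin'_mul_apply, hN, map_zero, LinearMap.zero_apply])
      (fun x => by rw [← Matrix.toLin'_mul_apply, hN', map_zero, LinearMap.zero_apply])
      hr
    set g := LinearMap.toMatrix' (T : (Fin n → F) →ₗ[F] (Fin n → F)) with hg
    have hgN : g * N = N' * g := by
      apply Matrix.toLin'.injective
      rw [Matrix.toLin'_mul, Matrix.toLin'_mul, hg, Matrix.toLin'_toMatrix']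
      exact LinearMap.ext hT
    have hgd : g.det ≠ 0 := by
      rw [hg, LinearMap.det_toMatrix']
      exact (T.isUnit_det').ne_zero
    obtain ⟨c, hc⟩ := FiniteField.isSquare_of_char_two (ringChar.eq F 2) g.det⁻¹
    obtain ⟨S, hSN, hSd⟩ := exists_centralizing_det N hN hne c
    have hdet : (g * S).det = 1 := by rw [Matrix.det_mul, hSd, sq, ← hc, mul_inv_cancel₀ hgd]
    let u : Matrix.SpecialLinearGroup (Fin n) F := ⟨g * S, hdet⟩
    refine isConj_iff.mpr ⟨u, mul_inv_eq_iff_eq_mul.mpr (Subtype.ext ?_)⟩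
    show g * S * (a : Matrix (Fin n) (Fin n) F) = (b : Matrix (Fin n) (Fin n) F) * (g * S)
    have h3 : g * S * N = N' * (g * S) := by rw [mul_assoc, hSN, ← mul_assoc, hgN, mul_assoc]
    rw [hNdef, hN'def, mul_sub, mul_one, sub_mul, one_mul] at h3
    exact sub_left_inj.mp h3

end Cfsg.Agent.S2162
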