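import Cfsg.Statements.S2163
import Mathlib.LinearAlgebra.Matrix.SpecialLinearGroup
import Mathlib.LinearAlgebra.Matrix.Rank
import Mathlib.Algebra.CharP.Two
import Mathlib.GroupTheory.OrderOfElement

set_option autoImplicit false
open Cfsg

namespace Cfsg.Agent.S2163

/-- Over a finite field of characteristic two and for n ≥ 3: for every ℓ with 1 ≤ ℓ and 2ℓ ≤ n, the matrix j_ℓ that is the identity plus the entries 1 in positions (n − ℓ + i, i) for i < ℓ (an identity block of size ℓ in the lower left corner) lies in SL_n(F), has order 2, and j_ℓ − 1 has rank ℓ. Together with the conjugacy criterion by rank, these matrices represent the conjugacy classes of involutions of SL_n(F). -/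
theorem result {F : Type*} [Field F] [Fintype F] [CharP F 2] {n : ℕ} (hn : 3 ≤ n) (ℓ : ℕ) (h1 : 1 ≤ ℓ) (h2 : 2 * ℓ ≤ n) :
    ∃ a : Matrix.SpecialLinearGroup (Fin n) F, (a : Matrix (Fin n) (Fin n) F) = 1 + Matrix.of (fun i j : Fin n => if j.val < ℓ ∧ i.val = j.val + (n - ℓ) then (1 : F) else 0) ∧ orderOf a = 2 ∧ ((a : Matrix (Fin n) (Fin n) F) - 1).rank = ℓ := by
  classical
  set E : Matrix (Fin n) (Fin n) F :=
    Matrix.of (fun i j : Fin n => if j.val < ℓ ∧ i.val = j.val + (n - ℓ) then (1 : F) else 0) with hE
  have hEE : E * E = 0 := by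
    ext i j
    rw [Matrix.mul_apply]
    refine Finset.sum_eq_zero fun k _ => ?_
    simp only [hE, Matrix.of_apply]
    split_ifs with h h' <;> simp
    omega
  have hsq : (1 + E) * (1 + E) = 1 := by
    rw [add_mul, mul_add, mul_add, hEE, one_mul, mul_one, add_zero, one_mul, add_assoc]
    have : E + E = 0 := by
      ext i j
      simp [CharTwo.add_self_eq_zero]
    rw [this, add_zero]
  have hdet : (1 + E).det = 1 := by
    have h := congrArg Matrix.det hsq
    rw [Matrix.det_mul, Matrix.det_one] at h
    rcases mul_self_eq_one_iff.mp h with h' | h'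
    · exact h'
    · rw [h', CharTwo.neg_eq]
  let r : Fin ℓ → Fin n := fun i => ⟨i.val + (n - ℓ), by omega⟩
  let c : Fin ℓ → Fin n := fun i => ⟨i.val, by omega⟩
  have hid : E.submatrix r c = 1 := by
    ext i j
    simp [hE, r, c, Matrix.one_apply, Fin.ext_iff]
  have hfac : E = (Matrix.of fun (i : Fin n) (k : Fin ℓ) => if i.val = k.val + (n - ℓ) then (1 : F) else 0) *
      (Matrix.of fun (k : Fin ℓ) (j : Fin n) => if j.val = k.val then (1 : F) else 0) := by
    ext i j
    rw [Matrix.mul_apply]
    simp only [hE, Matrix.of_apply, ite_mul, one_mul, zero_mul]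
    by_cases hj : j.val < ℓ
    · rw [Finset.sum_eq_single (⟨j.val, hj⟩ : Fin ℓ)]
      · simp [hj]
      · intro k _ hk
        have : j.val ≠ k.val := fun h => hk (Fin.ext h.symm)
        simp [this]
      · simp
    · rw [if_neg (fun h => hj h.1), Finset.sum_eq_zero]
      intro k _
      have : j.val ≠ k.val := by have := k.isLt; omega
      simp [this]
  have hrank : E.rank = ℓ := by
    refine le_antisymm ?_ ?_
    · rw [hfac]
      exact (Matrix.rank_mul_le_left _ _).trans
        ((Matrix.rank_le_card_width _).trans (le_of_eq (Fintype.card_fin ℓ)))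
    · calc ℓ = (E.submatrix r c).rank := by rw [hid, Matrix.rank_one, Fintype.card_fin]
        _ ≤ E.rank := Matrix.rank_submatrix_le _ _ _
  refine ⟨⟨1 + E, hdet⟩, rfl, ?_, ?_⟩
  · haveI := Fact.mk Nat.prime_two
    refine orderOf_eq_prime ?_ fun h => ?_
    · exact (pow_two _).trans (Subtype.ext hsq)
    · have h0 : E = 0 := by simpa using congrArg Subtype.val h
      rw [h0, Matrix.rank_zero] at hrank
      omega
  · show (1 + E - 1).rank = ℓ
    rw [add_sub_cancel_left, hrank]

end Cfsg.Agent.S2163
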