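import Cfsg.Statements.S2164
import Mathlib
import Cfsg.Agent.S2162
import Cfsg.Agent.Lib.Unitary.Conj
import Cfsg.Agent.Lib.Unitary.FieldNorm
import Cfsg.Agent.Lib.Unitary.SpecialConj

set_option autoImplicit false
open Cfsg

namespace Cfsg.Agent.S2164

open Matrix in
/-- A unitary element of determinant `ε ^ 2` commuting with a square-zero Hermitian matrix. -/
theorem exists_comm {K : Type*} [Field K] {n : ℕ} {κ : K →+* K} (hκκ : ∀ x, κ (κ x) = x)
    (N : Matrix (Fin n) (Fin n) K) (hNa : CfsgLib.Unitary.Conj.adj κ N = N) (hN2 : N * N = 0) (hne : N ≠ 0)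
    (hl : ∃ l : K, l + κ l ≠ 0) (ε : K) (hε : κ ε * ε = 1) :
    ∃ S : Matrix (Fin n) (Fin n) K, S * N = N * S ∧ CfsgLib.Unitary.Conj.adj κ S * S = 1 ∧ S.det = ε ^ 2 := by
  classical
  -- a vector pairing non-trivially with its image
  obtain ⟨w, hw⟩ : ∃ w : Fin n → K, (fun i => κ (w i)) ⬝ᵥ (N *ᵥ w) ≠ 0 := by
    by_contra hno
    push Not at hno
    obtain ⟨i, j, hij⟩ : ∃ i j, N i j ≠ 0 := by
      by_contra h; push Not at h; exact hne (Matrix.ext h)
    have hd : ∀ a, N a a = 0 := fun a => by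
      have := hno (Pi.single a 1)
      simpa [Pi.single_apply, apply_ite κ, dotProduct, Matrix.mulVec] using this
    obtain ⟨l, hl⟩ := hl
    have hherm : ∀ a b, κ (N a b) = N b a := fun a b => congrFun (congrFun hNa b) a
    have key : ∀ x : K, x * N i j + κ (x * N i j) = 0 := by
      intro x
      have h1 := hno (Pi.single i 1 + Pi.single j x)
      rcases eq_or_ne i j with rfl | hij'
      · exact absurd (hd i) hij
      simp [dotProduct, Matrix.mulVec, Pi.single_apply, apply_ite κ, add_mul, mul_add, Finset.sum_add_distrib, hd, hij', hij'.symm] at h1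
      rw [map_mul, hherm]
      linear_combination h1
    apply hl
    have := key (l / N i j)
    rwa [div_mul_cancel₀ _ hij] at this
  let A : Matrix (Fin n) (Fin 2) K := Matrix.of fun k c => if c = 0 then w k else (N *ᵥ w) k
  let A' : Matrix (Fin 2) (Fin n) K := (A.map κ).transpose
  have hAadj : ∀ c k, A' c k = κ (A k c) := fun c k => rfl
  let G : Matrix (Fin 2) (Fin 2) K := A' * A
  let J : Matrix (Fin 2) (Fin 2) K := !![0, 0; 1, 0]
  have hNA : N * A = A * J := by
    ext a c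
    fin_cases c
    · simp [A, J, Matrix.mul_apply, Fin.sum_univ_two, Matrix.mulVec, dotProduct]
    · have : (N *ᵥ (N *ᵥ w)) a = 0 := by rw [Matrix.mulVec_mulVec, hN2, Matrix.zero_mulVec]; rfl
      simpa [A, J, Matrix.mul_apply, Fin.sum_univ_two, Matrix.mulVec, dotProduct] using this
  have hNκ : N.map κ = N.transpose := by
    have := congrArg Matrix.transpose hNa
    rwa [CfsgLib.Unitary.Conj.adj, Matrix.transpose_transpose] at this
  have hA'N : A' * N = J.transpose * A' := by
    have h := congrArg (fun M : Matrix (Fin n) (Fin 2) K => (M.map κ).transpose) hNA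
    simp only [Matrix.map_mul, Matrix.transpose_mul, hNκ, Matrix.transpose_transpose] at h
    have hJ : J.map κ = J := by ext a b; fin_cases a <;> fin_cases b <;> simp [J]
    rwa [hJ] at h
  have hG00 : G 1 1 = 0 := by
    have e : A' * A * J = A' * (N * A) := by rw [hNA, Matrix.mul_assoc]
    have e2 : J.transpose * (A' * A) * J = 0 := by
      rw [Matrix.mul_assoc, e, ← Matrix.mul_assoc, ← hA'N, ← Matrix.mul_assoc, Matrix.mul_assoc (A' * N) , ← Matrix.mul_assoc]
      rw [Matrix.mul_assoc A' N N, hN2, Matrix.mul_zero, Matrix.zero_mul]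
    simpa [G, J, Matrix.mul_apply, Fin.sum_univ_two] using congrFun (congrFun e2 0) 0
  have hGJ : J.transpose * G = G * J := by
    show J.transpose * (A' * A) = A' * A * J
    rw [← Matrix.mul_assoc, ← hA'N, Matrix.mul_assoc, hNA, Matrix.mul_assoc]
  have hG01 : G 0 1 = (fun i => κ (w i)) ⬝ᵥ (N *ᵥ w) := by
    simp [G, A', A, Matrix.mul_apply, dotProduct]
  have hG10 : G 1 0 = G 0 1 := by
    simpa [J, Matrix.mul_apply, Fin.sum_univ_two] using congrFun (congrFun hGJ 0) 0
  have hGu : IsUnit G := by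
    rw [Matrix.isUnit_iff_isUnit_det, isUnit_iff_ne_zero, Matrix.det_fin_two, hG00, hG10, mul_zero, zero_sub, neg_ne_zero, hG01]
    exact mul_ne_zero hw hw
  have hGd := (Matrix.isUnit_iff_isUnit_det G).1 hGu
  let P : Matrix (Fin n) (Fin n) K := A * G⁻¹ * A'
  have hPN : P * N = N * P := by
    have h1 : G⁻¹ * J.transpose = J * G⁻¹ := by
      calc G⁻¹ * J.transpose = G⁻¹ * (J.transpose * G) * G⁻¹ := by rw [Matrix.mul_assoc, Matrix.mul_assoc J.transpose, Matrix.mul_nonsing_inv _ hGd, Matrix.mul_one]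
        _ = J * G⁻¹ := by rw [hGJ, ← Matrix.mul_assoc, Matrix.nonsing_inv_mul _ hGd, Matrix.one_mul]
    show A * G⁻¹ * A' * N = N * (A * G⁻¹ * A')
    rw [Matrix.mul_assoc, hA'N, ← Matrix.mul_assoc, Matrix.mul_assoc A, h1, ← Matrix.mul_assoc A, ← hNA]
    simp only [Matrix.mul_assoc]
  have hPP : P * P = P := by
    show A * G⁻¹ * A' * (A * G⁻¹ * A') = A * G⁻¹ * A'
    calc A * G⁻¹ * A' * (A * G⁻¹ * A') = A * (G⁻¹ * (A' * A)) * G⁻¹ * A' := by simp only [Matrix.mul_assoc]
      _ = A * G⁻¹ * A' := by rw [Matrix.nonsing_inv_mul _ hGd, Matrix.mul_one]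
  have hPa : CfsgLib.Unitary.Conj.adj κ P = P := by
    have hGH : (G.map κ).transpose = G := by
      simp only [G, Matrix.map_mul, Matrix.transpose_mul]
      have hA'' : (A'.map κ).transpose = A := by ext a b; exact hκκ _
      rw [hA'']
    have hGi : ((G⁻¹).map κ).transpose = G⁻¹ := by
      refine (Matrix.inv_eq_right_inv ?_).symm
      have h := congrArg (fun M : Matrix (Fin 2) (Fin 2) K => (M.map κ).transpose) (Matrix.nonsing_inv_mul _ hGd)
      simpa only [Matrix.map_mul, Matrix.transpose_mul, hGH, Matrix.map_one _ (map_zero κ) (map_one κ), Matrix.transpose_one] using h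
    show ((A * G⁻¹ * A').map κ).transpose = _
    have hA'' : (A'.map κ).transpose = A := by ext a b; exact hκκ _
    simp only [Matrix.map_mul, Matrix.transpose_mul, hGi, hA'', P, Matrix.mul_assoc]
    rfl
  refine ⟨1 + (ε - 1) • P, ?_, ?_, ?_⟩
  · rw [add_mul, mul_add, one_mul, mul_one, Matrix.smul_mul, Matrix.mul_smul, hPN]
  · have hsm : CfsgLib.Unitary.Conj.adj κ ((ε - 1) • P) = (κ ε - 1) • P := by
      conv_rhs => rw [← hPa]
      ext a b
      simp [CfsgLib.Unitary.Conj.adj]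
    rw [CfsgLib.Unitary.Conj.adj_add, CfsgLib.Unitary.Conj.adj_one, hsm, mul_add, add_mul, add_mul, one_mul, mul_one, one_mul,
      Matrix.smul_mul, Matrix.mul_smul, hPP, smul_smul, add_assoc, ← add_smul, ← add_smul]
    have : κ ε - 1 + (ε - 1 + (κ ε - 1) * (ε - 1)) = 0 := by linear_combination hε
    rw [this, zero_smul, add_zero]
  · have e : (ε - 1) • P = A * ((ε - 1) • (G⁻¹ * A')) := by
      rw [Matrix.mul_smul, ← Matrix.mul_assoc]
    rw [e, Matrix.det_one_add_mul_comm, Matrix.smul_mul, Matrix.mul_assoc, show A' * A = G from rfl, Matrix.nonsing_inv_mul _ hGd]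
    rw [show (1 : Matrix (Fin 2) (Fin 2) K) + (ε - 1) • 1 = ε • 1 by rw [sub_smul, one_smul, add_sub_cancel],
      Matrix.det_smul, Matrix.det_one, mul_one, Fintype.card_fin]


/-- Conjugacy of involutions in the special unitary group SU_n(q), q even, n ≥ 3, realised over the field F with q² elements as the matrices of determinant 1 preserving the form Σ u_i v_i^q: for two elements of order 2 of SU_n(q) the following are equivalent — they are conjugate in SU_n(q); they are conjugate in SL_n(F); the matrices a − 1 and b − 1 have the same rank. -/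
theorem result {F : Type*} [Field F] [Fintype F] [CharP F 2] {n q : ℕ} (hF : Fintype.card F = q ^ 2) (hn : 3 ≤ n) (a b : ↥(Cfsg.SU n F q)) (ha : orderOf a = 2) (hb : orderOf b = 2) :
    (IsConj a b ↔ IsConj (a : Matrix.SpecialLinearGroup (Fin n) F) (b : Matrix.SpecialLinearGroup (Fin n) F)) ∧
    (IsConj a b ↔ (((a : Matrix.SpecialLinearGroup (Fin n) F) : Matrix (Fin n) (Fin n) F) - 1).rank = (((b : Matrix.SpecialLinearGroup (Fin n) F) : Matrix (Fin n) (Fin n) F) - 1).rank) := by
  classical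
  obtain ⟨κ, hκ, hκκ⟩ := CfsgLib.Unitary.FieldNorm.exists_conj hF
  have haS : orderOf (a : Matrix.SpecialLinearGroup (Fin n) F) = 2 := by rw [Subgroup.orderOf_coe]; exact ha
  have hbS : orderOf (b : Matrix.SpecialLinearGroup (Fin n) F) = 2 := by rw [Subgroup.orderOf_coe]; exact hb
  have hSL := Cfsg.Agent.S2162.result hn (a : Matrix.SpecialLinearGroup (Fin n) F) b haS hbS
  suffices hmain : IsConj (a : Matrix.SpecialLinearGroup (Fin n) F) (b : Matrix.SpecialLinearGroup (Fin n) F) → IsConj a b by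
    have hiff : IsConj a b ↔ IsConj (a : Matrix.SpecialLinearGroup (Fin n) F) (b : Matrix.SpecialLinearGroup (Fin n) F) :=
      ⟨fun h => (Cfsg.SU n F q).subtype.map_isConj h, hmain⟩
    exact ⟨hiff, hiff.trans hSL⟩
  intro hc
  obtain ⟨P, hP⟩ := isConj_iff.1 hc
  let A := Matrix.SpecialLinearGroup.toGL (a : Matrix.SpecialLinearGroup (Fin n) F)
  let B := Matrix.SpecialLinearGroup.toGL (b : Matrix.SpecialLinearGroup (Fin n) F)
  have hA : A ∈ Cfsg.GU n F q := a.2
  have hB : B ∈ Cfsg.GU n F q := b.2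
  obtain ⟨c, hc, hce⟩ := CfsgLib.Unitary.Conj.conj_in_GU hF hκ hκκ hA hB (Matrix.SpecialLinearGroup.toGL P)
    (by rw [← map_mul, ← map_inv, ← map_mul, hP])
  set d := ((c : GL (Fin n) F) : Matrix (Fin n) (Fin n) F).det with hd
  have hdn := CfsgLib.Unitary.SpecialConj.det_norm hF hκ hc
  have hd0 : d ≠ 0 := fun h => by rw [← hd, h, zero_pow (by omega)] at hdn; exact zero_ne_one hdn
  obtain ⟨p', k, hp', hcp, hqk, hk⟩ := CfsgLib.Unitary.FieldNorm.exists_char hF
  have hp2 : p' = 2 := CharP.eq F hcp ‹CharP F 2›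
  obtain ⟨m, hm⟩ : ∃ m, q = 2 * m := ⟨2 ^ (k - 1), by rw [hqk, hp2, ← pow_succ', Nat.sub_add_cancel hk]⟩
  set ε := (d⁻¹) ^ (m + 1) with hεdef
  have hε1 : ε ^ (q + 1) = 1 := by rw [hεdef, pow_right_comm, inv_pow, hdn, inv_one, one_pow]
  have hε : κ ε * ε = 1 := by rw [hκ, ← pow_succ]; exact hε1
  have hε2 : ε ^ 2 = d⁻¹ := by
    rw [hεdef, ← pow_mul, show (m + 1) * 2 = (q + 1) + 1 by omega, pow_succ, inv_pow, hdn, inv_one, one_mul]
  set M := ((a : Matrix.SpecialLinearGroup (Fin n) F) : Matrix (Fin n) (Fin n) F) with hMdef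
  have hMM : M * M = 1 := by
    rw [hMdef, ← Matrix.SpecialLinearGroup.coe_mul, ← sq, ← haS, pow_orderOf_eq_one, Matrix.SpecialLinearGroup.coe_one]
  have hMa : CfsgLib.Unitary.Conj.adj κ M = M := by
    have h := (CfsgLib.Unitary.Conj.mem_GU hF hκ A).1 hA
    calc CfsgLib.Unitary.Conj.adj κ M = CfsgLib.Unitary.Conj.adj κ M * (M * M) := by rw [hMM, mul_one]
      _ = M := by rw [← mul_assoc, show CfsgLib.Unitary.Conj.adj κ M * M = 1 from h, one_mul]
  have hN2 : (M - 1) * (M - 1) = 0 := by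
    haveI h22 : CharP F 2 := hp2 ▸ hcp
    have h2 : ∀ y : Matrix (Fin n) (Fin n) F, y + y = 0 := fun y => by ext i j; exact CharTwo.add_self_eq_zero _
    rw [sub_mul, mul_sub, mul_one, one_mul, hMM]
    calc (1 : Matrix (Fin n) (Fin n) F) - M - (M - 1) = (1 + 1) - (M + M) := by abel
      _ = 0 := by rw [h2, h2, sub_zero]
  have hne : M - 1 ≠ 0 := fun h => by
    have : (a : Matrix.SpecialLinearGroup (Fin n) F) = 1 := Subtype.ext (sub_eq_zero.1 h)
    rw [this, orderOf_one] at haS; omega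
  obtain ⟨l, hl⟩ := CfsgLib.Unitary.Conj.exists_moved hF hκ
  haveI h22 : CharP F 2 := hp2 ▸ hcp
  obtain ⟨S, hSN, hSu, hSd⟩ := exists_comm hκκ (M - 1) (by rw [CfsgLib.Unitary.Conj.adj_sub, hMa, CfsgLib.Unitary.Conj.adj_one]) hN2 hne
    ⟨l, fun h => hl ((eq_neg_of_add_eq_zero_right h).trans (CharTwo.neg_eq l))⟩ ε hε
  have hSM : S * M = M * S := by
    rw [mul_sub, sub_mul, mul_one, one_mul] at hSN
    exact sub_left_inj.1 hSN
  have hSU : IsUnit S := (Matrix.isUnit_iff_isUnit_det S).2 (by rw [hSd]; exact isUnit_iff_ne_zero.2 (by rw [hε2]; exact inv_ne_zero hd0))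
  refine CfsgLib.Unitary.SpecialConj.isConj_of_det a b (c * hSU.unit) (mul_mem hc ((CfsgLib.Unitary.Conj.mem_GU hF hκ _).2 (by rw [IsUnit.unit_spec]; exact hSu))) ?_ ?_
  · rw [Units.val_mul, IsUnit.unit_spec, Matrix.det_mul, hSd, hε2, ← hd, mul_inv_cancel₀ hd0]
  · rw [Units.val_mul, IsUnit.unit_spec, mul_assoc, ← hMdef, hSM, ← mul_assoc, ← mul_assoc]
    congr 1
    have := congrArg Units.val (mul_inv_eq_iff_eq_mul.1 hce)
    simpa [A, B] using this

end Cfsg.Agent.S2164
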