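import Cfsg.Statements.S2165
import Mathlib.LinearAlgebra.Matrix.Rank
import Mathlib.LinearAlgebra.Matrix.Permutation
import Mathlib.Algebra.CharP.Two
import Mathlib.GroupTheory.OrderOfElement

open Matrix

set_option autoImplicit false
open Cfsg

namespace Cfsg.Agent.S2165

/-- In SU_n(q), q even, n ≥ 3 (matrices of determinant 1 over the field with q² elements preserving Σ u_i v_i^q): for every ℓ with 1 ≤ ℓ and 2ℓ ≤ n, the permutation matrix of the involution of {0, …, n−1} exchanging i and n − ℓ + i for each i < ℓ lies in SU_n(q), has order 2, and differs from the identity by a matrix of rank ℓ. So every rank between 1 and n/2 occurs for involutions of SU_n(q). -/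
theorem result {F : Type*} [Field F] [Fintype F] [CharP F 2] {n q : ℕ} (hF : Fintype.card F = q ^ 2) (hn : 3 ≤ n) (ℓ : ℕ) (h1 : 1 ≤ ℓ) (h2 : 2 * ℓ ≤ n) :
    ∃ a : ↥(Cfsg.SU n F q), (((a : Matrix.SpecialLinearGroup (Fin n) F) : Matrix (Fin n) (Fin n) F) = Matrix.of (fun i j : Fin n => if (j.val < ℓ ∧ i.val = j.val + (n - ℓ)) ∨ (i.val < ℓ ∧ j.val = i.val + (n - ℓ)) ∨ (i = j ∧ ℓ ≤ i.val ∧ i.val < n - ℓ) then (1 : F) else 0)) ∧ orderOf a = 2 ∧ ((((a : Matrix.SpecialLinearGroup (Fin n) F) : Matrix (Fin n) (Fin n) F)) - 1).rank = ℓ := by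
  classical
  let tf : Fin n → Fin n := fun i =>
    if h : i.val < ℓ then ⟨i.val + (n - ℓ), by omega⟩
    else if h' : n - ℓ ≤ i.val then ⟨i.val - (n - ℓ), by omega⟩ else i
  have htf : Function.Involutive tf := by
    intro i
    have := i.isLt
    simp only [tf]
    by_cases h : i.val < ℓ
    · simp only [dif_pos h]
      rw [dif_neg (by omega), dif_pos (by omega)]
      exact Fin.ext (by simp)
    · by_cases h' : n - ℓ ≤ i.val
      · simp only [dif_neg h, dif_pos h']
        rw [dif_pos (by omega)]
        exact Fin.ext (by simp; omega)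
      · simp [h, h']
  let τ : Equiv.Perm (Fin n) := Function.Involutive.toPerm tf htf
  set M : Matrix (Fin n) (Fin n) F := Matrix.of (fun i j : Fin n =>
    if (j.val < ℓ ∧ i.val = j.val + (n - ℓ)) ∨ (i.val < ℓ ∧ j.val = i.val + (n - ℓ)) ∨
      (i = j ∧ ℓ ≤ i.val ∧ i.val < n - ℓ) then (1 : F) else 0) with hM
  have hMτ : ∀ i j, M i j = if tf i = j then (1 : F) else 0 := by
    intro i j
    simp only [hM, Matrix.of_apply]
    refine if_congr ?_ rfl rfl
    have := i.isLt
    have := j.isLt
    simp only [tf]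
    split_ifs <;> simp only [Fin.ext_iff] <;> omega
  have hvec : ∀ v : Fin n → F, M *ᵥ v = v ∘ tf := by
    intro v
    ext i
    simp [Matrix.mulVec, dotProduct, hMτ]
  have hsq : M * M = 1 := by
    refine Matrix.ext_of_mulVec_single fun i => ?_
    rw [← Matrix.mulVec_mulVec, hvec, hvec, Matrix.one_mulVec]
    ext k
    simp [htf k]
  have hdet : M.det = 1 := by
    have h := congrArg Matrix.det hsq
    rw [Matrix.det_mul, Matrix.det_one] at h
    rcases mul_self_eq_one_iff.mp h with h' | h'
    · exact h'
    · rw [h', CharTwo.neg_eq]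
  have hmem : (⟨M, hdet⟩ : Matrix.SpecialLinearGroup (Fin n) F) ∈ Cfsg.SU n F q := by
    intro u v
    show Cfsg.hermForm n F q (M *ᵥ u) (M *ᵥ v) = Cfsg.hermForm n F q u v
    rw [hvec, hvec]
    exact Equiv.sum_comp τ (fun i => u i * v i ^ q)
  let A : Matrix (Fin n) (Fin ℓ) F :=
    Matrix.of fun i k => if i.val = k.val ∨ i.val = k.val + (n - ℓ) then (1 : F) else 0
  have hfac : M - 1 = A * A.transpose := by
    ext i j
    have := i.isLt
    have := j.isLt
    rw [Matrix.sub_apply, Matrix.mul_apply, hMτ, Matrix.one_apply, CharTwo.sub_eq_add]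
    simp only [A, Matrix.of_apply, Matrix.transpose_apply, ite_mul, one_mul, zero_mul]
    by_cases hi : i.val < ℓ ∨ n - ℓ ≤ i.val
    · obtain ⟨k, hk⟩ : ∃ k : Fin ℓ, i.val = k.val ∨ i.val = k.val + (n - ℓ) := by
        rcases hi with h | h
        · exact ⟨⟨i.val, h⟩, Or.inl rfl⟩
        · exact ⟨⟨i.val - (n - ℓ), by omega⟩, Or.inr (by simp; omega)⟩
      rw [Finset.sum_eq_single k]
      · rw [if_pos hk]
        have hk' := k.isLt
        by_cases hij : i = j
        · subst hij
          rw [if_pos rfl, if_pos hk, if_neg, zero_add]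
          simp only [tf]
          split_ifs <;> simp only [Fin.ext_iff] <;> omega
        · rw [if_neg hij, add_zero]
          refine if_congr ?_ rfl rfl
          have hij' : i.val ≠ j.val := fun h => hij (Fin.ext h)
          simp only [tf]
          split_ifs <;> simp only [Fin.ext_iff] <;> omega
      · intro l _ hl
        have := k.isLt
        have := l.isLt
        have hkl : k.val ≠ l.val := fun h => hl (Fin.ext h.symm)
        rw [if_neg]
        omega
      · simp
    · simp only [not_or, not_lt, not_le] at hi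
      rw [Finset.sum_eq_zero]
      · have htfi : tf i = i := by
          simp only [tf]
          rw [dif_neg (by omega), dif_neg (by omega)]
        rw [htfi]
        by_cases hij : i = j <;> simp [hij, CharTwo.add_self_eq_zero]
      · intro l _
        have := l.isLt
        rw [if_neg]
        omega
  let c : Fin ℓ → Fin n := fun i => ⟨i.val, by omega⟩
  have hid : (M - 1).submatrix c c = 1 := by
    ext i j
    have := i.isLt
    have := j.isLt
    have htfc : tf (c i) ≠ c j := by
      simp only [tf, c]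
      rw [dif_pos (by simp)]
      simp only [ne_eq, Fin.ext_iff]
      omega
    rw [Matrix.submatrix_apply, Matrix.sub_apply, hMτ, if_neg htfc, CharTwo.sub_eq_add, zero_add]
    simp [Matrix.one_apply, c, Fin.ext_iff]
  have hrank : (M - 1).rank = ℓ := by
    refine le_antisymm ?_ ?_
    · rw [hfac]
      exact (Matrix.rank_mul_le_left _ _).trans
        ((Matrix.rank_le_card_width _).trans (le_of_eq (Fintype.card_fin ℓ)))
    · calc ℓ = ((M - 1).submatrix c c).rank := by rw [hid, Matrix.rank_one, Fintype.card_fin]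
        _ ≤ (M - 1).rank := Matrix.rank_submatrix_le _ _ _
  refine ⟨⟨⟨M, hdet⟩, hmem⟩, rfl, ?_, hrank⟩
  haveI := Fact.mk Nat.prime_two
  refine orderOf_eq_prime ((pow_two _).trans (Subtype.ext (Subtype.ext hsq))) fun h => ?_
  have h0 : M = 1 := congrArg (fun x : ↥(Cfsg.SU n F q) => ((x : Matrix.SpecialLinearGroup (Fin n) F) : Matrix (Fin n) (Fin n) F)) h
  rw [h0, sub_self, Matrix.rank_zero] at hrank
  omega

end Cfsg.Agent.S2165
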