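import Cfsg.Statements.S2166
import Cfsg.Agent.Lib.Symplectic.InvolutionClasses

set_option autoImplicit false
open Cfsg

namespace Cfsg.Agent.S2166

open scoped Matrix

/-- Conjugacy of involutions in the symplectic group Sp_{2m}(F), F a finite field of characteristic two, m ≥ 2 (Sp taken as the matrices A with A J Aᵀ = J, acting on column vectors, with the alternating form f(u, v) = u ⬝ (J v)). For an involution t write V(t) for the set of vectors v with f(v, t v) = 0 (a subspace). Two involutions a, b are conjugate in Sp_{2m}(F) exactly when a − 1 and b − 1 have the same rank and, in case that rank is even, V(a) and V(b) have the same number of elements. -/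
theorem result {F : Type*} [Field F] [Fintype F] [CharP F 2] {m : ℕ} (hm : 2 ≤ m) (a b : ↥(Matrix.symplecticGroup (Fin m) F)) (ha : orderOf a = 2) (hb : orderOf b = 2) :
    IsConj a b ↔ ((((a : ↥(Matrix.symplecticGroup (Fin m) F)) : Matrix (Fin m ⊕ Fin m) (Fin m ⊕ Fin m) F) - 1).rank = (((b : ↥(Matrix.symplecticGroup (Fin m) F)) : Matrix (Fin m ⊕ Fin m) (Fin m ⊕ Fin m) F) - 1).rank ∧
      (Even (((a : ↥(Matrix.symplecticGroup (Fin m) F)) : Matrix (Fin m ⊕ Fin m) (Fin m ⊕ Fin m) F) - 1).rank → Nat.card {v : Fin m ⊕ Fin m → F // Cfsg.sympForm m F v (Matrix.mulVec ((a : ↥(Matrix.symplecticGroup (Fin m) F)) : Matrix (Fin m ⊕ Fin m) (Fin m ⊕ Fin m) F) v) = 0} = Nat.card {v : Fin m ⊕ Fin m → F // Cfsg.sympForm m F v (Matrix.mulVec ((b : ↥(Matrix.symplecticGroup (Fin m) F)) : Matrix (Fin m ⊕ Fin m) (Fin m ⊕ Fin m) F) v) = 0})) := by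
  classical
  have hsq : ∀ x : ↥(Matrix.symplecticGroup (Fin m) F), orderOf x = 2 → x * x = 1 := fun x hx => by
    rw [← sq, ← hx, pow_orderOf_eq_one]
  have hiff : ∀ (x : ↥(Matrix.symplecticGroup (Fin m) F)) v, Cfsg.sympForm m F v (x.1 *ᵥ v) = 0 ↔
      CfsgLib.Symplectic.Basic.B v (CfsgLib.Symplectic.InvolutionClasses.N x v) = 0 := fun x v => by
    rw [CfsgLib.Symplectic.InvolutionClasses.N_apply, map_sub, CfsgLib.Symplectic.Basic.B_self, sub_zero,
      CfsgLib.Symplectic.Basic.B_eq]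
  constructor
  · intro h
    obtain ⟨g, rfl⟩ := isConj_iff.1 h
    have hN : ∀ v, (g * a * g⁻¹).1 *ᵥ (g.1 *ᵥ v) = g.1 *ᵥ (a.1 *ᵥ v) := fun v => by
      rw [CfsgLib.Symplectic.Basic.mulVec_mul, CfsgLib.Symplectic.Basic.mulVec_mul, CfsgLib.Symplectic.Basic.mulVec_inv_cancel]
    refine ⟨?_, fun _ => ?_⟩
    · rw [Submonoid.coe_mul, Submonoid.coe_mul]
      have e : g.1 * a.1 * (g⁻¹).1 - 1 = g.1 * (a.1 - 1) * (g⁻¹).1 := by
        have e1 : g.1 * (g⁻¹).1 = 1 := congrArg Subtype.val (mul_inv_cancel g)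
        rw [mul_sub, sub_mul, mul_one, e1]
      have hd : ∀ x : ↥(Matrix.symplecticGroup (Fin m) F), IsUnit x.1.det := fun x => SymplecticGroup.symplectic_det x.2
      rw [e, Matrix.rank_mul_eq_left_of_isUnit_det _ _ (hd _), Matrix.rank_mul_eq_right_of_isUnit_det _ _ (hd _)]
    · refine Nat.card_congr ⟨fun v => ⟨g.1 *ᵥ v.1, ?_⟩, fun v => ⟨(g⁻¹).1 *ᵥ v.1, ?_⟩, fun v => ?_, fun v => ?_⟩
      · rw [hN, ← CfsgLib.Symplectic.Basic.B_eq, CfsgLib.Symplectic.Basic.B_map, CfsgLib.Symplectic.Basic.B_eq]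
        exact v.2
      · rw [← CfsgLib.Symplectic.Basic.B_eq, ← CfsgLib.Symplectic.Basic.B_map g, ← hN,
          CfsgLib.Symplectic.Basic.mulVec_cancel_inv, CfsgLib.Symplectic.Basic.B_eq]
        exact v.2
      · exact Subtype.ext (CfsgLib.Symplectic.Basic.mulVec_inv_cancel g v.1)
      · exact Subtype.ext (CfsgLib.Symplectic.Basic.mulVec_cancel_inv g v.1)
  · rintro ⟨hr, hev⟩
    refine CfsgLib.Symplectic.InvolutionClasses.isConj_of (hsq a ha) (hsq b hb) hr ?_
    by_cases he : Even ((a.1 - 1).rank)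
    · have key : ∀ x : ↥(Matrix.symplecticGroup (Fin m) F),
          (∀ v, CfsgLib.Symplectic.Basic.B v (CfsgLib.Symplectic.InvolutionClasses.N x v) = 0) ↔
          Nat.card {v : Fin m ⊕ Fin m → F // Cfsg.sympForm m F v (x.1 *ᵥ v) = 0} = Nat.card (Fin m ⊕ Fin m → F) := by
        intro x
        simp only [← hiff]
        refine ⟨fun h => Nat.card_congr (Equiv.subtypeUnivEquiv h), fun h v => ?_⟩
        by_contra hv
        exact absurd h (ne_of_lt (Finite.card_subtype_lt hv))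
      rw [key a, key b, hev he]
    · exact iff_of_false (fun h => he (CfsgLib.Symplectic.InvolutionClasses.even_of_alt (hsq a ha) h))
        (fun h => he (hr ▸ CfsgLib.Symplectic.InvolutionClasses.even_of_alt (hsq b hb) h))

end Cfsg.Agent.S2166
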