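import Cfsg.Statements.S2172
import Cfsg.Agent.Lib.Geometry.InvolutionModels

set_option autoImplicit false
open Cfsg

namespace Cfsg.Agent.S2172

open scoped Matrix

/-- Splitting of involution classes from O to Ω for the hyperbolic quadratic form Q = Σ x_i y_i in dimension 2m over a finite field F of characteristic two, m ≥ 4. Let t, s be involutions of the commutator subgroup Ω that are conjugate in the full isometry group O. If it is not the case that t − 1 has rank m and Q(v + t v) = 0 for every vector v, then t and s are conjugate by an element of Ω. If t − 1 has rank m and Q(v + t v) = 0 for all v, then t and s are conjugate by an element of Ω exactly when the intersection of the images of t − 1 and s − 1 has even dimension (so the class of t in O meets at most two classes of Ω). -/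
theorem result {F : Type*} [Field F] [Fintype F] [CharP F 2] {m : ℕ} (hm : 4 ≤ m) (t s : ↥(Cfsg.isometryGroup F (Cfsg.quadFormPlus m F))) (ht : orderOf t = 2) (hs : orderOf s = 2) (htO : t ∈ Cfsg.Omega F (Cfsg.quadFormPlus m F)) (hsO : s ∈ Cfsg.Omega F (Cfsg.quadFormPlus m F)) (hconj : IsConj t s) :
    (¬ (((((t : ↥(Cfsg.isometryGroup F (Cfsg.quadFormPlus m F))) : GL (Fin m ⊕ Fin m) F) : Matrix (Fin m ⊕ Fin m) (Fin m ⊕ Fin m) F) - 1).rank = m ∧ ∀ v : Fin m ⊕ Fin m → F, Cfsg.quadFormPlus m F (v + Matrix.mulVec (((t : ↥(Cfsg.isometryGroup F (Cfsg.quadFormPlus m F))) : GL (Fin m ⊕ Fin m) F) : Matrix (Fin m ⊕ Fin m) (Fin m ⊕ Fin m) F) v) = 0) →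
      ∃ g ∈ Cfsg.Omega F (Cfsg.quadFormPlus m F), g * t * g⁻¹ = s) ∧
    ((((((t : ↥(Cfsg.isometryGroup F (Cfsg.quadFormPlus m F))) : GL (Fin m ⊕ Fin m) F) : Matrix (Fin m ⊕ Fin m) (Fin m ⊕ Fin m) F) - 1).rank = m ∧ ∀ v : Fin m ⊕ Fin m → F, Cfsg.quadFormPlus m F (v + Matrix.mulVec (((t : ↥(Cfsg.isometryGroup F (Cfsg.quadFormPlus m F))) : GL (Fin m ⊕ Fin m) F) : Matrix (Fin m ⊕ Fin m) (Fin m ⊕ Fin m) F) v) = 0) →
      ((∃ g ∈ Cfsg.Omega F (Cfsg.quadFormPlus m F), g * t * g⁻¹ = s) ↔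
        Even (Module.finrank F ↥(LinearMap.range (Matrix.toLin' ((((t : ↥(Cfsg.isometryGroup F (Cfsg.quadFormPlus m F))) : GL (Fin m ⊕ Fin m) F) : Matrix (Fin m ⊕ Fin m) (Fin m ⊕ Fin m) F) - 1)) ⊓ LinearMap.range (Matrix.toLin' ((((s : ↥(Cfsg.isometryGroup F (Cfsg.quadFormPlus m F))) : GL (Fin m ⊕ Fin m) F) : Matrix (Fin m ⊕ Fin m) (Fin m ⊕ Fin m) F) - 1)))))) := by
  classical
  revert t s
  rw [show Cfsg.quadFormPlus m F = ⇑(CfsgLib.Orth.Models.plusQ F m) from
    funext fun v => (CfsgLib.Orth.Models.plusQ_apply m v).symm]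
  intro t s ht hs _ _ hconj
  have hQ := CfsgLib.Geometry.InvolutionModels.nondeg_plus' (F := F) m
  haveI : Nonempty (Fin m ⊕ Fin m) := ⟨Sum.inl ⟨0, by omega⟩⟩
  have hex : (∃ c : F, c ≠ 0 ∧ c ≠ 1) ∨ Fintype.card (Fin m ⊕ Fin m) ≠ 4 := Or.inr (by simp; omega)
  obtain ⟨D, hD, hker, -⟩ := CfsgLib.Geometry.InvolutionModels.omega_parity hQ
    (CfsgLib.Geometry.DicksonGen.closure_eq_top hQ hex)
  have ht1 := ((CfsgLib.Geometry.InvolutionCount.order_two_iff t).1 ht).1
  have hs1 := ((CfsgLib.Geometry.InvolutionCount.order_two_iff s).1 hs).1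
  have hval : ∀ r : ↥(Cfsg.isometryGroup F ⇑(CfsgLib.Orth.Models.plusQ F m)), r * r = 1 →
      ((∀ v, CfsgLib.Orth.Models.plusQ F m (v + r.1.1 *ᵥ v) = 0) ↔ CfsgLib.Geometry.InvolutionTwo.Alt r) := by
    intro r hr
    refine forall_congr' fun v => ?_
    rw [← (CfsgLib.Geometry.InvolutionTwo.inv_of_sq hr).val, CfsgLib.Geometry.DicksonGen.N_apply]
    rw [show v + r.1.1 *ᵥ v = r.1.1 *ᵥ v - v from funext fun i => by simp [CharTwo.sub_eq_add, add_comm]]
  refine ⟨fun hno => ?_, fun ⟨hr, hv⟩ => ?_⟩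
  · refine CfsgLib.Geometry.InvolutionCount.conj_in_omega hQ D hD hker ht1 (fun h => hno ⟨?_, (hval t ht1).2 h.1⟩) hconj
    rw [← CfsgLib.Geometry.RankParity.rk_eq_rank]
    have := h.2.1
    simp only [Fintype.card_sum, Fintype.card_fin] at this
    omega
  · have hA := (hval t ht1).1 hv
    rw [← CfsgLib.Geometry.RankParity.rk_eq_rank] at hr
    have h2r : 2 * CfsgLib.Geometry.DicksonGen.rk t = Fintype.card (Fin m ⊕ Fin m) := by
      rw [hr, Fintype.card_sum, Fintype.card_fin]; omega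
    have hU0 : ∀ x ∈ LinearMap.range (CfsgLib.Geometry.DicksonGen.N t), CfsgLib.Orth.Models.plusQ F m x = 0 := by
      rintro _ ⟨x, rfl⟩; rw [(CfsgLib.Geometry.InvolutionTwo.inv_of_sq ht1).val]; exact hA x
    have hev : Even m := hr ▸ CfsgLib.Geometry.InvolutionTwo.even_of_alt hQ ht1 hA
    obtain ⟨g, hg⟩ := isConj_iff.1 hconj
    have hNs : ∀ x, CfsgLib.Geometry.DicksonGen.N s (g.1.1 *ᵥ x) = g.1.1 *ᵥ CfsgLib.Geometry.DicksonGen.N t x := by
      intro x
      have e : g * t = s * g := by rw [← hg, inv_mul_cancel_right]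
      rw [CfsgLib.Geometry.DicksonGen.N_apply, CfsgLib.Geometry.DicksonGen.N_apply, Matrix.mulVec_sub,
        Matrix.mulVec_mulVec, Matrix.mulVec_mulVec, ← Units.val_mul, ← Units.val_mul, ← Subgroup.coe_mul,
        ← Subgroup.coe_mul, e]
    have him : CfsgLib.Geometry.SingularClass.im g (LinearMap.range (CfsgLib.Geometry.DicksonGen.N t))
        = LinearMap.range (CfsgLib.Geometry.DicksonGen.N s) := by
      refine Submodule.eq_of_le_of_finrank_eq ?_ ((CfsgLib.Geometry.SingularClass.finrank_im _ _).trans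
        (CfsgLib.Geometry.InvolutionCount.rk_conj hconj).1)
      rintro _ ⟨_, ⟨x, rfl⟩, rfl⟩
      exact ⟨g.1.1 *ᵥ x, hNs x⟩
    have hmat : ∀ r : ↥(Cfsg.isometryGroup F ⇑(CfsgLib.Orth.Models.plusQ F m)),
        LinearMap.range (Matrix.toLin' (r.1.1 - 1)) = LinearMap.range (CfsgLib.Geometry.DicksonGen.N r) := fun r => by
      rw [CfsgLib.Geometry.DicksonGen.N, map_sub, Matrix.toLin'_one]
    rw [hmat, hmat]
    have hsign := CfsgLib.Geometry.SingularClass.sign_eq hQ hex D hD g _ h2r hU0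
    rw [him, show Module.finrank F (LinearMap.range (CfsgLib.Geometry.DicksonGen.N t)) = m from hr] at hsign
    have hle := Submodule.finrank_mono (inf_le_left : LinearMap.range (CfsgLib.Geometry.DicksonGen.N t) ⊓
      LinearMap.range (CfsgLib.Geometry.DicksonGen.N s) ≤ _)
    have hle' := hle.trans_eq hr
    constructor
    · rintro ⟨h, hh, hhe⟩
      have hcom : (h⁻¹ * g) * t = t * (h⁻¹ * g) := by
        calc (h⁻¹ * g) * t = h⁻¹ * (g * t * g⁻¹) * g := by group
          _ = h⁻¹ * (h * t * h⁻¹) * g := by rw [hg, hhe]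
          _ = t * (h⁻¹ * g) := by group
      have h1 := CfsgLib.Geometry.InvolutionCount.split_of_singular hQ hex D hD ht1 hA h2r hcom
      rw [map_mul, map_inv, (hker h).1 hh, inv_one, one_mul, hsign,
        CfsgLib.Geometry.SingularClass.neg_one_pow_units, Nat.even_sub hle'] at h1
      exact h1.1 hev
    · intro h
      refine ⟨g, (hker g).2 ?_, hg⟩
      rw [hsign, CfsgLib.Geometry.SingularClass.neg_one_pow_units, Nat.even_sub hle']
      exact iff_of_true hev h

end Cfsg.Agent.S2172
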