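import Cfsg.Statements.S2173
import Cfsg.Agent.Lib.Geometry.InvolutionModels

set_option autoImplicit false
open Cfsg

namespace Cfsg.Agent.S2173

/-- For the quadratic form Σ x_i y_i + (z₁² + c z₁ z₂ + d z₂²) in dimension 2m with anisotropic binary part over a finite field F of characteristic two, m ≥ 4 (minus type): two involutions of the commutator subgroup Ω that are conjugate in the full isometry group O are conjugate by an element of Ω (no class of involutions of O inside Ω splits). -/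
theorem result {F : Type*} [Field F] [Fintype F] [CharP F 2] {m : ℕ} (hm : 4 ≤ m) (c d : F) (hcd : ∀ z₁ z₂ : F, z₁ ^ 2 + c * z₁ * z₂ + d * z₂ ^ 2 = 0 → z₁ = 0 ∧ z₂ = 0) (t s : ↥(Cfsg.isometryGroup F (Cfsg.quadFormMinus (m - 1) F c d))) (ht : orderOf t = 2) (hs : orderOf s = 2) (htO : t ∈ Cfsg.Omega F (Cfsg.quadFormMinus (m - 1) F c d)) (hsO : s ∈ Cfsg.Omega F (Cfsg.quadFormMinus (m - 1) F c d)) (hconj : IsConj t s) :
    ∃ g ∈ Cfsg.Omega F (Cfsg.quadFormMinus (m - 1) F c d), g * t * g⁻¹ = s := by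
  classical
  revert t s
  rw [show Cfsg.quadFormMinus (m - 1) F c d = ⇑(CfsgLib.Orth.Models.minusQ (m - 1) c d) from
    funext fun v => (CfsgLib.Orth.Models.minusQ_apply (m - 1) c d v).symm]
  intro t s ht hs _ _ hconj
  have hQ := CfsgLib.Geometry.InvolutionModels.nondeg_minus' (m - 1) hcd
  haveI : Nonempty ((Fin (m - 1) ⊕ Fin (m - 1)) ⊕ Fin 2) := ⟨Sum.inr 0⟩
  obtain ⟨D, hD, hker, -⟩ := CfsgLib.Geometry.InvolutionModels.omega_parity hQ
    (CfsgLib.Geometry.DicksonGen.closure_eq_top hQ (Or.inr (by simp; omega)))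
  exact CfsgLib.Geometry.InvolutionCount.conj_in_omega hQ D hD hker
    ((CfsgLib.Geometry.InvolutionCount.order_two_iff t).1 ht).1
    (fun h => CfsgLib.Geometry.InvolutionModels.minus_ker hcd t h.2) hconj

end Cfsg.Agent.S2173
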