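import Cfsg.Statements.S2222
import Cfsg.Agent.Lib.Perm.SylowTwoFixed
open CfsgLib

set_option autoImplicit false
open Cfsg

namespace Cfsg.Agent.S2222

/-- In the alternating group of degree n ≥ 5 every subgroup H of odd index is pronormal: for every element g, the subgroups H and gHg⁻¹ are conjugate by an element of the subgroup they generate. -/
theorem result (n : ℕ) (hn : 5 ≤ n)
    (H : Subgroup (alternatingGroup (Fin n))) (hH : Odd H.index) : Cfsg.IsPronormal H := by
  have : Fact (Nat.Prime 2) := ⟨Nat.prime_two⟩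
  intro g
  set H' := H.map (MulAut.conj g).toMonoidHom with hH'
  obtain ⟨Q⟩ : Nonempty (Sylow 2 H) := inferInstance
  have hodd : ¬ 2 ∣ ((Q : Subgroup H).map H.subtype).index := by
    rw [Subgroup.index_map_subtype]
    intro h
    rcases Nat.prime_two.dvd_mul.mp h with h | h
    · exact Q.not_dvd_index h
    · exact (Nat.not_even_iff_odd.mpr hH) (even_iff_two_dvd.mpr h)
  let S : Sylow 2 ↥(alternatingGroup (Fin n)) := (Q.isPGroup'.map H.subtype).toSylow hodd
  have hSH : (S : Subgroup ↥(alternatingGroup (Fin n))) ≤ H := Subgroup.map_subtype_le _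
  have hSJ : (S : Subgroup ↥(alternatingGroup (Fin n))) ≤ H ⊔ H' := hSH.trans le_sup_left
  have hgSJ : ((g • S : Sylow 2 ↥(alternatingGroup (Fin n))) :
      Subgroup ↥(alternatingGroup (Fin n))) ≤ H ⊔ H' := by
    refine le_trans ?_ le_sup_right
    intro y hy
    rw [Sylow.coe_subgroup_smul, Subgroup.mem_pointwise_smul_iff_inv_smul_mem] at hy
    exact ⟨_, hSH hy, by simp [MulAut.smul_def, mul_assoc]⟩
  obtain ⟨x, hx⟩ := MulAction.exists_smul_eq (H ⊔ H' : Subgroup _) (S.subtype hSJ)
    ((g • S).subtype hgSJ)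
  rw [Sylow.smul_subtype] at hx
  have hxg : (x : ↥(alternatingGroup (Fin n))) • S = g • S := Sylow.subtype_injective hx
  have hnorm := Sylow.smul_eq_iff_mem_normalizer.mp (show
    ((x : ↥(alternatingGroup (Fin n)))⁻¹ * g) • S = S by rw [mul_smul, ← hxg, inv_smul_smul])
  rcases Nat.lt_or_ge n 6 with h | h
  swap
  · have hmem := hSH (SylowTwoPerm.mem_of_normalizes_alternating (by simpa using h) S hnorm)
    refine ⟨x, x.2, ?_⟩
    have e : g = x * ((x : ↥(alternatingGroup (Fin n)))⁻¹ * g) := by group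
    ext y
    simp only [hH', Subgroup.mem_map]
    constructor
    · rintro ⟨k, hk, rfl⟩
      refine ⟨((x : ↥(alternatingGroup (Fin n)))⁻¹ * g) * k * ((x : ↥(alternatingGroup (Fin n)))⁻¹ * g)⁻¹,
        H.mul_mem (H.mul_mem hmem hk) (H.inv_mem hmem), ?_⟩
      simp [MulAut.conj_apply, mul_assoc]
    · rintro ⟨k, hk, rfl⟩
      refine ⟨((x : ↥(alternatingGroup (Fin n)))⁻¹ * g)⁻¹ * k * ((x : ↥(alternatingGroup (Fin n)))⁻¹ * g),
        H.mul_mem (H.mul_mem (H.inv_mem hmem) hk) hmem, ?_⟩
      simp [MulAut.conj_apply, mul_assoc]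
  obtain rfl : n = 5 := by omega
  have hcard : Nat.card ↥(alternatingGroup (Fin 5)) = 60 := by
    rw [nat_card_alternatingGroup, Nat.card_eq_fintype_card, Fintype.card_fin]
    rfl
  by_cases htop : H ⊔ H' = ⊤
  · exact ⟨g, htop ▸ Subgroup.mem_top g, rfl⟩
  by_cases hS : (S : Subgroup ↥(alternatingGroup (Fin 5))) = H
  · refine ⟨x, x.2, ?_⟩
    have := congrArg Sylow.toSubgroup hxg
    rw [Sylow.coe_subgroup_smul, Sylow.coe_subgroup_smul, hS] at this
    exact this.symm
  refine ⟨1, one_mem _, ?_⟩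
  have hS4 : Nat.card (S : Subgroup ↥(alternatingGroup (Fin 5))) = 4 := by
    obtain ⟨j, hj⟩ := IsPGroup.iff_card.mp S.isPGroup'
    have h := (S : Subgroup ↥(alternatingGroup (Fin 5))).index_mul_card
    have ho := S.not_dvd_index
    rw [hj, hcard] at h
    have : j ≤ 5 := by
      by_contra hlt
      have h6 := Nat.pow_le_pow_right (show 1 ≤ 2 by norm_num) (Nat.lt_of_not_le hlt)
      rcases Nat.eq_zero_or_pos (S : Subgroup ↥(alternatingGroup (Fin 5))).index with h0 | h0
      · rw [h0, zero_mul] at h; omega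
      · nlinarith
    rw [hj]
    interval_cases j <;> simp at h ⊢ <;> omega
  obtain ⟨k, hk⟩ := hS4 ▸ Subgroup.card_dvd_of_le hSH
  obtain ⟨l, hl⟩ := Subgroup.card_dvd_of_le (le_sup_left : H ≤ H ⊔ H')
  obtain ⟨t, ht⟩ := hcard ▸ (H ⊔ H').card_subgroup_dvd_card
  rw [hl, hk] at ht
  have hk1 : k ≠ 1 := fun h => hS (Subgroup.eq_of_le_of_card_ge hSH (by rw [hk, hS4, h]))
  have ht1 : t ≠ 1 := fun h => htop (Subgroup.eq_top_of_card_eq _ (by rw [hl, hk, hcard, ht, h, mul_one]))
  have hl1 : l = 1 := by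
    have h15 : k * (l * t) = 15 := by nlinarith
    have hkd : k ∈ Nat.divisors 15 := Nat.mem_divisors.mpr ⟨⟨_, h15.symm⟩, by norm_num⟩
    rw [show Nat.divisors 15 = {1, 3, 5, 15} by decide] at hkd
    simp only [Finset.mem_insert, Finset.mem_singleton] at hkd
    have key : l ≤ 5 ∧ t ≤ 5 := by
      rcases hkd with rfl | rfl | rfl | rfl
      · exact absurd rfl hk1
      all_goals
        have hlt : l * t ≤ 5 := by omega
        rcases Nat.eq_zero_or_pos l with rfl | hl0
        · simp at h15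
        rcases Nat.eq_zero_or_pos t with rfl | ht0
        · simp at h15
        exact ⟨(Nat.le_mul_of_pos_right l ht0).trans hlt, (Nat.le_mul_of_pos_left t hl0).trans hlt⟩
    obtain ⟨hl5, ht5⟩ := key
    rcases hkd with rfl | rfl | rfl | rfl
    · exact absurd rfl hk1
    all_goals interval_cases l <;> interval_cases t <;> omega
  rw [hl1, mul_one] at hl
  have hJ : H ⊔ H' = H := (Subgroup.eq_of_le_of_card_ge le_sup_left hl.le).symm
  have hc : Nat.card H' = Nat.card H :=
    Subgroup.card_map_of_injective (MulAut.conj g).injective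
  rw [Subgroup.eq_of_le_of_card_ge (sup_eq_left.mp hJ) hc.ge]
  ext y
  simp

end Cfsg.Agent.S2222
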