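import Cfsg.Statements.S2238
import Mathlib
import Cfsg.Agent.Lib.Suzuki.Maximal

set_option autoImplicit false
open Cfsg

namespace Cfsg.Agent.S2238

open CfsgLib.Suzuki CfsgLib.Fusion

/-- The partition of the Suzuki group: with q = 2^(2m+1), m ≥ 1, r = 2^m and the Suzuki group realised as the stabiliser in SL₄ of the Suzuki–Tits ovoid, every non-identity element lies in exactly one subgroup that is either a Sylow 2-subgroup or a cyclic subgroup of order q − 1, q + 2r + 1 or q − 2r + 1. -/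
theorem result {F : Type*} [Field F] [Fintype F] {m : ℕ} (hm : 1 ≤ m) (hF : Fintype.card F = 2 ^ (2 * m + 1)) (g : ↥(Cfsg.Sz F m)) (hg : g ≠ 1) :
    ∃! U : Subgroup ↥(Cfsg.Sz F m), ((∃ P : Sylow 2 ↥(Cfsg.Sz F m), U = (P : Subgroup ↥(Cfsg.Sz F m))) ∨
      (IsCyclic ↥U ∧ Nat.card ↥U ∈ ({2 ^ (2 * m + 1) - 1, 2 ^ (2 * m + 1) + 2 ^ (m + 1) + 1, 2 ^ (2 * m + 1) - 2 ^ (m + 1) + 1} : Set ℕ))) ∧ g ∈ U := by
  classical
  have h : Hyp F m := ⟨hm, hF⟩
  obtain ⟨g₁, g₂, hg₁, hg₂, ek₁, ek₂, -, -, hcov⟩ := h.exists_tori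
  set q := 2 ^ (2 * m + 1) with hq
  set k₁ := q + 2 ^ (m + 1) + 1 with hk₁
  set k₂ := q - 2 ^ (m + 1) + 1 with hk₂
  have hr4 : 4 ≤ 2 ^ (m + 1) := by
    calc 4 = 2 ^ 2 := rfl
      _ ≤ _ := Nat.pow_le_pow_right (by norm_num) (by omega)
  have hrq : 2 * 2 ^ (m + 1) ≤ q := by
    rw [hq, ← pow_succ']; exact Nat.pow_le_pow_right (by norm_num) (by omega)
  have hev : 2 ∣ q := dvd_pow_self 2 (by omega)
  have h2r : 2 ∣ 2 ^ (m + 1) := dvd_pow_self 2 (by omega)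
  have hk₁d : k₁ ∣ q ^ 2 + 1 := hF ▸ ek₁ ▸ h.cent_dvd hg₁
  have hk₂d : k₂ ∣ q ^ 2 + 1 := hF ▸ ek₂ ▸ h.cent_dvd hg₂
  have hq1 : ∀ a, a ∣ q - 1 → a ∣ q ^ 2 + 1 → a ∣ 2 := fun a e1 e2 => by
    obtain ⟨t, ht⟩ : ∃ t, q = t + 1 := ⟨q - 1, by omega⟩
    rw [ht, Nat.add_sub_cancel] at e1
    rw [ht, show (t + 1) ^ 2 + 1 = t * (t + 2) + 2 by ring] at e2
    exact (Nat.dvd_add_right (dvd_mul_of_dvd_left e1 _)).mp e2
  have h21 : ¬ k₂ ∣ k₁ := fun e => by
    have e' : k₂ ∣ 2 * 2 ^ (m + 1) := by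
      have := Nat.dvd_sub e dvd_rfl
      rwa [show k₁ - k₂ = 2 * 2 ^ (m + 1) by omega] at this
    rw [← pow_succ'] at e'
    obtain ⟨j, -, hj⟩ := (Nat.dvd_prime_pow Nat.prime_two).mp e'
    rcases j with _ | j
    · simp only [pow_zero] at hj; omega
    · have : 2 ∣ k₂ := hj ▸ dvd_pow_self 2 (by omega)
      omega
  have hset : ∀ a b : ℕ, a ∈ ({q - 1, k₁, k₂} : Set ℕ) → b ∈ ({q - 1, k₁, k₂} : Set ℕ) → a ∣ b → a = b := by
    intro a b ha hb hab
    have hle : a ≤ b := Nat.le_of_dvd (by rcases hb with rfl | rfl | rfl <;> omega) hab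
    rcases ha with rfl | rfl | rfl <;> rcases hb with rfl | rfl | rfl <;> first
      | rfl
      | (exfalso; have := Nat.le_of_dvd two_pos (hq1 _ dvd_rfl (hab.trans hk₁d)); omega)
      | (exfalso; have := Nat.le_of_dvd two_pos (hq1 _ dvd_rfl (hab.trans hk₂d)); omega)
      | (exfalso; have := Nat.le_of_dvd two_pos (hq1 _ hab hk₁d); omega)
      | (exfalso; have := Nat.le_of_dvd two_pos (hq1 _ hab hk₂d); omega)
      | exact absurd hab h21
      | (exfalso; omega)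
  have hodd : ∀ a ∈ ({q - 1, k₁, k₂} : Set ℕ), ¬ 2 ∣ a := by
    rintro a (rfl | rfl | rfl) <;> omega
  have hsyl2 : ∀ (P : Sylow 2 (Cfsg.Sz F m)) (x : Cfsg.Sz F m), x ∈ (P : Subgroup (Cfsg.Sz F m)) → ∀ a,
      ¬ 2 ∣ a → x ^ a = 1 → x = 1 := by
    intro P x hx a ha hxa
    obtain ⟨j, hj⟩ := P.2 ⟨x, hx⟩
    refine orderOf_eq_one_iff.mp (Nat.eq_one_of_dvd_coprimes ?_ (orderOf_dvd_of_pow_eq_one hxa)
      (orderOf_dvd_of_pow_eq_one (congrArg Subtype.val hj : x ^ 2 ^ j = 1)))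
    exact Nat.Coprime.pow_right j ((Nat.prime_two.coprime_iff_not_dvd).mpr ha).symm
  -- cyclic case: the centraliser
  have hcyc : ∀ W : Subgroup (Cfsg.Sz F m), IsCyclic W → Nat.card W ∈ ({q - 1, k₁, k₂} : Set ℕ) →
      W = Subgroup.centralizer {g} → ∀ U : Subgroup (Cfsg.Sz F m),
      ((∃ P : Sylow 2 (Cfsg.Sz F m), U = (P : Subgroup (Cfsg.Sz F m))) ∨
      (IsCyclic U ∧ Nat.card U ∈ ({q - 1, k₁, k₂} : Set ℕ))) ∧ g ∈ U → U = W := by
    rintro W hW hWc hWg U ⟨⟨P, rfl⟩ | ⟨hU, hUc⟩, hgU⟩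
    · exfalso
      have hgW : g ∈ W := hWg ▸ Subgroup.mem_centralizer_singleton_iff.mpr rfl
      exact hg (hsyl2 P g hgU _ (hodd _ hWc) (congrArg Subtype.val (pow_card_eq_one' (x := (⟨g, hgW⟩ : W)))))
    · have hle : U ≤ W := by
        rw [hWg]; intro x hx
        rw [Subgroup.mem_centralizer_singleton_iff]
        exact congrArg Subtype.val (IsMulCommutative.is_comm.comm (⟨x, hx⟩ : U) ⟨g, hgU⟩)
      exact Subgroup.eq_of_le_of_card_ge hle (hset _ _ hUc hWc (Subgroup.card_dvd_of_le hle)).ge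
  by_cases hf : Fpf g
  · obtain ⟨c, hc⟩ := hcov g hf
    refine ⟨Subgroup.centralizer {g}, ⟨Or.inr ⟨h.cyclic_cent hg hf, ?_⟩, Subgroup.mem_centralizer_singleton_iff.mpr rfl⟩,
      hcyc _ (h.cyclic_cent hg hf) ?_ rfl⟩
    all_goals
      rcases hc with e | e
      · rw [e, card_cj, ek₁]; simp [k₁, q]
      · rw [e, card_cj, ek₂]; simp [k₂, q]
  · unfold Fpf at hf; push Not at hf
    obtain ⟨p, hp⟩ := hf
    obtain ⟨k, hk, ⟨a, b, hne, e⟩ | ⟨d, hd, e⟩⟩ := h.classify hg hp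
    · obtain ⟨P₀, hP₀⟩ := h.exists_sylow
      have hPk : ((k • P₀ : Sylow 2 (Cfsg.Sz F m)) : Subgroup (Cfsg.Sz F m)) = h.Q.map (MulAut.conj k).toMonoidHom := by
        rw [Sylow.coe_subgroup_smul, hP₀]; rfl
      have hgP : g ∈ ((k • P₀ : Sylow 2 (Cfsg.Sz F m)) : Subgroup (Cfsg.Sz F m)) := by
        rw [hPk, e]; exact ⟨_, ⟨a, b, rfl⟩, rfl⟩
      refine ⟨_, ⟨Or.inl ⟨k • P₀, rfl⟩, hgP⟩, ?_⟩
      rintro U ⟨⟨P, rfl⟩ | ⟨hU, hUc⟩, hgU⟩
      · obtain ⟨c, hc⟩ := h.sylow_two_conj P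
        rw [hPk, hc]
        rw [hc] at hgU
        obtain ⟨_, ⟨a', b', rfl⟩, e'⟩ := hgU
        change c * h.tG a' b' * c⁻¹ = g at e'
        have hne' : h.tG a' b' ≠ 1 := fun e1 => hg (by rw [← e', e1]; group)
        have hcI : c • oI F m = p := by
          have hfix : h.tG a' b' • (c⁻¹ • p) = c⁻¹ • p := by
            rw [← mul_smul, show h.tG a' b' * c⁻¹ = c⁻¹ * g by rw [← e']; group, mul_smul, hp]
          rw [← h.tG_fix hne' hfix, smul_inv_smul]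
        have hs : (k⁻¹ * c) • oI F m = oI F m := by rw [mul_smul, hcI, inv_smul_eq_iff, hk]
        ext x
        simp only [Subgroup.mem_map]
        constructor
        · rintro ⟨y, hy, rfl⟩
          exact ⟨_, h.stab_conj_Q hs hy, by simp [mul_assoc]⟩
        · rintro ⟨y, hy, rfl⟩
          exact ⟨_, h.stab_conj_Q (k := (k⁻¹ * c)⁻¹) (inv_smul_eq_iff.mpr hs.symm) hy, by simp [mul_assoc]⟩
      · exact absurd (hsyl2 _ g hgP _ (hodd _ hUc) (congrArg Subtype.val (pow_card_eq_one' (x := (⟨g, hgU⟩ : U))))) hg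
    · have hcent : Subgroup.centralizer {g} = h.hG.range.map (MulAut.conj k).toMonoidHom := by
        rw [e, centralizer_conj, h.cent_hG hd]
      have hWc : Nat.card (Subgroup.centralizer {g}) = q - 1 := by
        rw [hcent, Nat.card_congr (Subgroup.equivMapOfInjective _ _ (MulAut.conj k).injective).toEquiv.symm, h.card_range, hF]
      have hW : IsCyclic (Subgroup.centralizer {g}) := by
        rw [hcent]
        have : IsCyclic h.hG.range := isCyclic_of_surjective h.hG.rangeRestrict h.hG.rangeRestrict_surjective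
        exact isCyclic_of_surjective _ (Subgroup.equivMapOfInjective _ (MulAut.conj k).toMonoidHom (MulAut.conj k).injective).surjective
      have hm' : Nat.card (Subgroup.centralizer {g}) ∈ ({q - 1, k₁, k₂} : Set ℕ) := Or.inl hWc
      exact ⟨_, ⟨Or.inr ⟨hW, hm'⟩, Subgroup.mem_centralizer_singleton_iff.mpr rfl⟩, hcyc _ hW hm' rfl⟩

end Cfsg.Agent.S2238
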