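import Cfsg.Statements.S2240
import Mathlib
import Cfsg.Agent.Lib.Suzuki.Maximal

set_option autoImplicit false
open Cfsg

namespace Cfsg.Agent.S2240

open CfsgLib.Suzuki
open scoped Pointwise

variable {F : Type*} [Field F] [Fintype F] {m : ℕ}

theorem lam_surj (h : Hyp F m) (μ : F) (hμ : μ ≠ 0) : ∃ d : Fˣ, (d : F) * sg m (d : F) = μ := by
  obtain ⟨x, hx⟩ := (Finite.injective_iff_surjective (f := fun a : F => a * sg m a)).mp (fun a a' e => by
    simp only at e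
    rcases eq_or_ne a' 0 with rfl | hc'
    · rcases mul_eq_zero.mp (show a * sg m a = 0 by rw [e]; simp) with e0 | e0
      · exact e0
      · exact h.sg_inj (by rw [e0, sg_zero])
    · have hs : sg m a' ≠ 0 := pow_ne_zero _ hc'
      have : a / a' = 1 := h.mul_sg_eq_one (by
        rw [div_eq_mul_inv, sg_mul, sg_inv]; field_simp; linear_combination e)
      exact (div_eq_one_iff_eq hc').mp this) μ
  simp only at hx
  have hx0 : x ≠ 0 := fun e => hμ (by rw [← hx, e, zero_mul])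
  exact ⟨Units.mk0 x hx0, hx⟩

theorem conj_Z (h : Hyp F m) (a b z : F) (d : Fˣ) :
    h.tG a b * h.hG d * h.tG 0 z * (h.tG a b * h.hG d)⁻¹ = h.tG 0 ((d : F) * sg m (d : F) * z) := by
  rw [mul_assoc (h.tG a b), h.hG_tG, mul_zero]
  have e : h.tG a b * h.tG 0 ((d : F) * sg m (d : F) * z) = h.tG 0 ((d : F) * sg m (d : F) * z) * h.tG a b := by
    rw [h.tG_mul, h.tG_mul]; simp [sg_zero, add_comm b]
  rw [← mul_assoc, e]; group

theorem forward (h : Hyp F m) {n : ℕ} (E : Subgroup (Cfsg.Sz F m)) (hE : Cfsg.IsElementaryAbelian 2 E)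
    (hc : Nat.card E = 2 ^ n) (hn : n ≠ 0) (hQ : E ≤ h.Q)
    (hTI : ∀ x, E ⊓ E.map (MulAut.conj x).toMonoidHom ≠ ⊥ → x ∈ Subgroup.normalizer (E : Set (Cfsg.Sz F m))) :
    n ∣ 2 * m + 1 := by
  have := h.charP
  have hz : ∀ x ∈ E, ∃ z, x = h.tG 0 z := by
    intro x hx
    obtain ⟨a, b, rfl⟩ := hQ hx
    have := hE.2 _ hx
    rw [sq, h.tG_mul, ← h.tG_zero] at this
    have e2 := (h.tG_inj this).2
    rw [h.add_self, zero_add] at e2
    rcases mul_eq_zero.mp e2 with e | e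
    · exact ⟨b, by rw [h.sg_inj (e.trans (sg_zero m).symm)]⟩
    · exact ⟨b, by rw [e]⟩
  let V : AddSubgroup F :=
    { carrier := {z | h.tG 0 z ∈ E}
      add_mem' := fun {x y} hx hy => by
        have := mul_mem (show h.tG 0 x ∈ E from hx) (show h.tG 0 y ∈ E from hy)
        rw [h.tG_mul] at this
        simpa using this
      zero_mem' := show h.tG 0 0 ∈ E by rw [h.tG_zero]; exact one_mem E
      neg_mem' := fun {x} hx => by show h.tG 0 (-x) ∈ E; rw [show -x = x by linear_combination -x * h.two]; exact hx }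
  have hV : Nat.card V = 2 ^ n := by
    rw [← hc]
    refine Nat.card_eq_of_bijective (fun z => (⟨h.tG 0 z.1, z.2⟩ : E)) ⟨fun z w e => ?_, ?_⟩
    · exact Subtype.ext (h.tG_inj (congrArg Subtype.val e)).2
    · rintro ⟨x, hx⟩
      obtain ⟨z, rfl⟩ := hz x hx
      exact ⟨⟨z, hx⟩, rfl⟩
  obtain ⟨⟨v0, hv0⟩, hne⟩ : ∃ v : V, v ≠ 0 := by
    by_contra hall; push Not at hall
    have : Nat.card V = 1 := Nat.card_eq_one_iff_unique.mpr ⟨⟨fun a b => by rw [hall a, hall b]⟩, ⟨0⟩⟩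
    rw [hV] at this
    exact absurd ((Nat.pow_eq_one).mp this) (by simp [hn])
  have hv00 : v0 ≠ 0 := fun e => hne (Subtype.ext e)
  have key : ∀ μ : F, ∀ v ∈ V, v ≠ 0 → μ * v ∈ V → μ ≠ 0 → ∀ w ∈ V, μ * w ∈ V := by
    intro μ v hv hv0' hμv hμ w hw
    obtain ⟨d, hd⟩ := lam_surj h μ hμ
    have hconj : ∀ z, h.hG d * h.tG 0 z * (h.hG d)⁻¹ = h.tG 0 (μ * z) := fun z => by
      have := conj_Z h 0 0 z d
      rwa [h.tG_zero, one_mul, hd] at this
    have hN := hTI (h.hG d) (fun hbot => by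
      have hm' : h.tG 0 (μ * v) ∈ E ⊓ E.map (MulAut.conj (h.hG d)).toMonoidHom :=
        Subgroup.mem_inf.mpr ⟨hμv, ⟨h.tG 0 v, hv, hconj v⟩⟩
      rw [hbot, Subgroup.mem_bot, ← h.tG_zero] at hm'
      exact mul_ne_zero hμ hv0' (h.tG_inj hm').2)
    have := (Subgroup.mem_normalizer_iff.mp hN (h.tG 0 w)).mp hw
    rwa [hconj] at this
  let K : Subfield F :=
    { carrier := {μ | ∀ v ∈ V, μ * v ∈ V}
      mul_mem' := fun {x y} hx hy v hv => by rw [mul_assoc]; exact hx _ (hy v hv)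
      one_mem' := fun v hv => by rwa [one_mul]
      add_mem' := fun {x y} hx hy v hv => by rw [add_mul]; exact V.add_mem (hx v hv) (hy v hv)
      zero_mem' := fun v hv => by rw [zero_mul]; exact V.zero_mem
      neg_mem' := fun {x} hx v hv => by rw [neg_mul]; exact V.neg_mem (hx v hv)
      inv_mem' := fun x hx v hv => by
        rcases eq_or_ne x 0 with rfl | hx0
        · rw [inv_zero, zero_mul]; exact V.zero_mem
        · exact key x⁻¹ (x * v0) (hx v0 hv0) (mul_ne_zero hx0 hv00) (by rw [inv_mul_cancel_left₀ hx0]; exact hv0) (inv_ne_zero hx0) v hv }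
  have hK : Nat.card K = 2 ^ n := by
    rw [← hV]
    refine Nat.card_eq_of_bijective (fun μ : K => (⟨μ.1 * v0, μ.2 v0 hv0⟩ : V)) ⟨fun a b e => ?_, ?_⟩
    · exact Subtype.ext (mul_right_cancel₀ hv00 (congrArg Subtype.val e))
    · rintro ⟨w, hw⟩
      refine ⟨⟨w / v0, fun v hv => ?_⟩, Subtype.ext (div_mul_cancel₀ w hv00)⟩
      rcases eq_or_ne w 0 with rfl | hw0
      · rw [zero_div, zero_mul]; exact V.zero_mem
      · exact key (w / v0) v0 hv0 hv00 (by rw [div_mul_cancel₀ w hv00]; exact hw) (div_ne_zero hw0 hv00) v hv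
  have hF := Module.natCard_eq_pow_finrank (K := K) (V := F)
  rw [hK, Nat.card_eq_fintype_card, h.card, ← pow_mul] at hF
  exact ⟨_, Nat.pow_right_injective le_rfl hF⟩

theorem backward (h : Hyp F m) {n : ℕ} (hdvd : n ∣ 2 * m + 1) :
    ∃ E : Subgroup (Cfsg.Sz F m), Cfsg.IsElementaryAbelian 2 E ∧ Nat.card E = 2 ^ n ∧
      ∀ x, E ⊓ E.map (MulAut.conj x).toMonoidHom ≠ ⊥ → x ∈ Subgroup.normalizer (E : Set (Cfsg.Sz F m)) := by
  classical
  have := h.charP
  have hn : n ≠ 0 := fun e => by subst e; simp at hdvd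
  let K : Subfield F := (iterateFrobenius F 2 n).eqLocusField (RingHom.id F)
  have hmem : ∀ x, x ∈ K ↔ x ^ 2 ^ n = x := fun x => by
    show iterateFrobenius F 2 n x = x ↔ _
    rw [iterateFrobenius_def]
  have hK : Nat.card K = 2 ^ n := by
    have hu : Nat.card Kˣ = Nat.card (powMonoidHom (2 ^ n - 1) : Fˣ →* Fˣ).ker := by
      refine Nat.card_eq_of_bijective (fun u => (⟨Units.map K.subtype.toMonoidHom u, ?_⟩ :
        (powMonoidHom (2 ^ n - 1) : Fˣ →* Fˣ).ker)) ⟨fun a b e => ?_, ?_⟩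
      · rw [MonoidHom.mem_ker, powMonoidHom_apply]
        apply Units.ext
        have e := (hmem ((u : K) : F)).mp (u : K).2
        have hu0 : ((u : K) : F) ≠ 0 := by simpa using u.ne_zero
        rw [Units.val_pow_eq_pow_val, Units.val_one]
        refine mul_right_cancel₀ hu0 ?_
        show ((u : K) : F) ^ (2 ^ n - 1) * ((u : K) : F) = 1 * ((u : K) : F)
        rw [← pow_succ, Nat.sub_add_cancel Nat.one_le_two_pow, e, one_mul]
      · exact Units.map_injective (f := K.subtype.toMonoidHom) Subtype.val_injective (congrArg Subtype.val e)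
      · rintro ⟨u, hu⟩
        rw [MonoidHom.mem_ker, powMonoidHom_apply] at hu
        have hK' : (u : F) ∈ K := (hmem _).mpr (by
          conv_lhs => rw [← Nat.sub_add_cancel (Nat.one_le_two_pow : 1 ≤ 2 ^ n), pow_succ, ← Units.val_pow_eq_pow_val, hu, Units.val_one, one_mul])
        exact ⟨Units.mk0 ⟨(u : F), hK'⟩ (fun e => u.ne_zero (congrArg Subtype.val e)), Subtype.ext (Units.ext rfl)⟩
    rw [IsCyclic.card_powMonoidHom_ker, Nat.card_units, Nat.card_units] at hu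
    rw [Nat.card_eq_fintype_card (α := F), h.card,
      Nat.gcd_eq_right (Nat.pow_sub_one_dvd_pow_sub_one 2 hdvd)] at hu
    have : 0 < Nat.card K := Nat.card_pos
    have := Nat.one_le_two_pow (n := n)
    omega
  let E : Subgroup (Cfsg.Sz F m) :=
    { carrier := {x | ∃ z ∈ K, x = h.tG 0 z}
      mul_mem' := by
        rintro _ _ ⟨x, hx, rfl⟩ ⟨y, hy, rfl⟩
        exact ⟨x + y, K.add_mem hx hy, by rw [h.tG_mul]; simp⟩
      one_mem' := ⟨0, K.zero_mem, h.tG_zero.symm⟩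
      inv_mem' := by
        rintro _ ⟨x, hx, rfl⟩
        exact ⟨x, hx, by rw [h.tG_inv]; simp⟩ }
  refine ⟨E, ⟨⟨⟨fun ⟨_, x, _, e1⟩ ⟨_, y, _, e2⟩ => Subtype.ext ?_⟩⟩, ?_⟩, ?_, ?_⟩
  · subst e1 e2
    show h.tG 0 x * h.tG 0 y = h.tG 0 y * h.tG 0 x
    rw [h.tG_mul, h.tG_mul]; simp [add_comm x]
  · rintro _ ⟨x, -, rfl⟩
    rw [sq, h.tG_mul]; simp [h.add_self, h.tG_zero]
  · rw [← hK]
    refine (Nat.card_eq_of_bijective (fun z : K => (⟨h.tG 0 z.1, z.1, z.2, rfl⟩ : E)) ⟨fun a b e => ?_, ?_⟩).symm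
    · exact Subtype.ext (h.tG_inj (congrArg Subtype.val e)).2
    · rintro ⟨_, z, hz, rfl⟩; exact ⟨⟨z, hz⟩, rfl⟩
  · intro x hx
    obtain ⟨y, hy, hy1⟩ := (Subgroup.bot_or_exists_ne_one _).resolve_left hx
    obtain ⟨⟨z', hz', rfl⟩, ⟨_, ⟨z, hz, rfl⟩, hxz⟩⟩ := Subgroup.mem_inf.mp hy
    change x * h.tG 0 z * x⁻¹ = h.tG 0 z' at hxz
    have hz0 : z ≠ 0 := fun e => hy1 (by rw [← hxz, e, h.tG_zero]; group)
    have hxI : x • oI F m = oI F m := h.tG_fix hy1 (by
      rw [← hxz, mul_smul, mul_smul, inv_smul_smul, h.tG_oI])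
    obtain ⟨a, b, d, rfl⟩ := h.exists_th hxI
    rw [conj_Z] at hxz
    have hl : (d : F) * sg m (d : F) ∈ K := by
      rw [show (d : F) * sg m (d : F) = z' / z by rw [← (h.tG_inj hxz).2]; field_simp]
      exact K.div_mem hz' hz
    have hle : E.map (MulAut.conj (h.tG a b * h.hG d)).toMonoidHom ≤ E := by
      rintro _ ⟨_, ⟨w, hw, rfl⟩, rfl⟩
      exact ⟨_, K.mul_mem hl hw, conj_Z h a b w d⟩
    rw [Subgroup.mem_normalizer_iff_map_conj_eq]
    exact Subgroup.eq_of_le_of_card_ge hle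
      (Nat.card_congr (E.equivMapOfInjective _ (MulAut.conj (h.tG a b * h.hG d)).injective).toEquiv).le

/-- Elementary abelian TI-subgroups of the Suzuki group: let q = 2^(2m+1) with m ≥ 1, the group realised as the stabiliser in SL₄ of the Suzuki–Tits ovoid, and n ≥ 2. There is an elementary abelian 2-subgroup E of order 2^n that is a TI-subgroup (every conjugate of E meeting E nontrivially is E itself) if and only if n divides 2m + 1. -/
theorem result {F : Type*} [Field F] [Fintype F] {m : ℕ} (hm : 1 ≤ m) (hF : Fintype.card F = 2 ^ (2 * m + 1)) (n : ℕ) (hn : 2 ≤ n) :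
    (∃ E : Subgroup ↥(Cfsg.Sz F m), Cfsg.IsElementaryAbelian 2 E ∧ Nat.card ↥E = 2 ^ n ∧
      ∀ x : ↥(Cfsg.Sz F m), E ⊓ E.map (MulAut.conj x).toMonoidHom ≠ ⊥ → x ∈ Subgroup.normalizer (E : Set ↥(Cfsg.Sz F m))) ↔ n ∣ 2 * m + 1 := by
  have h : CfsgLib.Suzuki.Hyp F m := ⟨hm, hF⟩
  refine ⟨?_, backward h⟩
  rintro ⟨E, hE, hc, hTI⟩
  have : Fact (Nat.Prime 2) := ⟨Nat.prime_two⟩
  obtain ⟨P, hP⟩ := (IsPGroup.of_card (n := n) hc : IsPGroup 2 E).exists_le_sylow
  obtain ⟨c, hcP⟩ := h.sylow_two_conj P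
  set E' := E.map (MulAut.conj c⁻¹).toMonoidHom with hE'
  have hEQ : E' ≤ h.Q := by
    rintro _ ⟨x, hx, rfl⟩
    have := hP hx
    rw [hcP] at this
    obtain ⟨y, hy, rfl⟩ := this
    simpa [mul_assoc] using hy
  refine forward h E' ⟨?_, ?_⟩ ?_ (by omega) hEQ ?_
  · have := hE.1
    exact Subgroup.map_isMulCommutative E _
  · rintro _ ⟨x, hx, rfl⟩
    rw [← map_pow, hE.2 x hx, map_one]
  · rw [hE', Nat.card_congr (E.equivMapOfInjective _ (MulAut.conj c⁻¹).injective).toEquiv.symm, hc]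
  · intro x hx
    have hx' : E ⊓ E.map (MulAut.conj (c * x * c⁻¹)).toMonoidHom ≠ ⊥ := by
      intro hbot
      refine hx ((Subgroup.eq_bot_iff_forall _).mpr fun y hy => ?_)
      obtain ⟨⟨u, hu, eu⟩, ⟨_, ⟨w, hw, rfl⟩, ew⟩⟩ := Subgroup.mem_inf.mp hy
      change c⁻¹ * u * c⁻¹⁻¹ = y at eu
      change x * (c⁻¹ * w * c⁻¹⁻¹) * x⁻¹ = y at ew
      have hu1 : u ∈ E ⊓ E.map (MulAut.conj (c * x * c⁻¹)).toMonoidHom := by
        refine Subgroup.mem_inf.mpr ⟨hu, w, hw, ?_⟩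
        show c * x * c⁻¹ * w * (c * x * c⁻¹)⁻¹ = u
        calc c * x * c⁻¹ * w * (c * x * c⁻¹)⁻¹ = c * (x * (c⁻¹ * w * c⁻¹⁻¹) * x⁻¹) * c⁻¹ := by group
          _ = u := by rw [ew, ← eu]; group
      rw [hbot, Subgroup.mem_bot] at hu1
      rw [← eu, hu1]; group
    have hN := hTI _ hx'
    rw [Subgroup.mem_normalizer_iff] at hN ⊢
    intro y
    have hmem : ∀ z, z ∈ E' ↔ c * z * c⁻¹ ∈ E := fun z => by
      rw [hE']
      constructor
      · rintro ⟨u, hu, rfl⟩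
        simpa [mul_assoc] using hu
      · intro hz; exact ⟨_, hz, by simp [mul_assoc]⟩
    rw [hmem, hmem, hN, show c * x * c⁻¹ * (c * y * c⁻¹) * (c * x * c⁻¹)⁻¹ = c * (x * y * x⁻¹) * c⁻¹ by group]

end Cfsg.Agent.S2240
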