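import Cfsg.Statements.S2241
import Mathlib
import Cfsg.Agent.Lib.Suzuki.Maximal

set_option autoImplicit false
open Cfsg

namespace Cfsg.Agent.S2241

open CfsgLib.Suzuki

/-- Real 2-elements of the Suzuki group: with q = 2^(2m+1), m ≥ 1, and the group realised as the stabiliser in SL₄ of the Suzuki–Tits ovoid, a non-identity element of a Sylow 2-subgroup is conjugate to its inverse if and only if it is an involution; in particular no element of order 4 is conjugate to its inverse. -/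
theorem result {F : Type*} [Field F] [Fintype F] {m : ℕ} (hm : 1 ≤ m) (hF : Fintype.card F = 2 ^ (2 * m + 1)) (P : Sylow 2 ↥(Cfsg.Sz F m)) (g : ↥(Cfsg.Sz F m)) (hg : g ∈ (P : Subgroup ↥(Cfsg.Sz F m))) (h1 : g ≠ 1) :
    IsConj g g⁻¹ ↔ orderOf g = 2 := by
  have h : Hyp F m := ⟨hm, hF⟩
  obtain ⟨c, hc⟩ := h.sylow_two_conj P
  rw [hc] at hg
  obtain ⟨_, ⟨a, b, rfl⟩, rfl⟩ := hg
  have hg1 : (MulAut.conj c).toMonoidHom (h.tG a b) = c * h.tG a b * c⁻¹ := rfl
  rw [hg1] at h1 ⊢
  constructor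
  · intro hconj
    have hconj' : IsConj (h.tG a b) (h.tG a b)⁻¹ := by
      obtain ⟨k, hk⟩ := isConj_iff.mp hconj
      refine isConj_iff.mpr ⟨c⁻¹ * k * c, ?_⟩
      calc c⁻¹ * k * c * h.tG a b * (c⁻¹ * k * c)⁻¹ = c⁻¹ * (k * (c * h.tG a b * c⁻¹) * k⁻¹) * c := by group
        _ = (h.tG a b)⁻¹ := by rw [hk]; group
    have hne : h.tG a b ≠ 1 := fun e => h1 (by rw [e]; group)
    obtain ⟨k, hk⟩ := isConj_iff.mp hconj'
    have hfix : (h.tG a b)⁻¹ • oI F m = oI F m := inv_smul_eq_iff.mpr (h.tG_oI a b).symm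
    have hkI : k • oI F m = oI F m := by
      rw [h.tG_inv] at hk
      have hne' : h.tG a (b + sg m a * a) ≠ 1 := by rw [← h.tG_inv]; exact inv_ne_one.mpr hne
      exact h.tG_fix hne' (by rw [← hk, mul_smul, mul_smul, inv_smul_smul, h.tG_oI])
    obtain ⟨a', b', d, rfl⟩ := h.exists_th hkI
    have e : h.tG a b * (1 : Cfsg.Sz F m) = h.tG a b := mul_one _
    rw [mul_inv_rev, show h.tG a' b' * h.hG d * h.tG a b * ((h.hG d)⁻¹ * (h.tG a' b')⁻¹) =
      h.tG a' b' * (h.hG d * h.tG a b) * (h.hG d)⁻¹ * (h.tG a' b')⁻¹ by group, h.hG_tG, h.tG_inv, h.tG_inv,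
      ← mul_assoc, mul_inv_cancel_right, h.tG_mul, h.tG_mul] at hk
    obtain ⟨ea, eb⟩ := h.tG_inj hk
    have hda : (d : F) * a = a := by linear_combination ea - a' * h.two
    rcases eq_or_ne a 0 with rfl | ha
    · refine orderOf_eq_prime ?_ h1
      rw [sq, show c * h.tG 0 b * c⁻¹ * (c * h.tG 0 b * c⁻¹) = c * (h.tG 0 b * h.tG 0 b) * c⁻¹ by group,
        h.tG_mul, h.add_self, h.add_self, sg_zero, zero_mul, add_zero, h.tG_zero]
      group
    · exfalso
      have hd : (d : F) = 1 := (mul_eq_right₀ ha).mp hda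
      rw [hd, sg_one] at eb
      simp only [one_mul, mul_one, h.sg_add] at eb
      have e2 : sg m a' * a + sg m a * a' + sg m a * a = 0 := by
        linear_combination eb - (b' + sg m a' * a' - sg m a * a) * h.two
      have hsa : sg m a ≠ 0 := pow_ne_zero _ ha
      have e1 : sg m (a' / a) + (a' / a) + 1 = 0 := by
        rw [div_eq_mul_inv, sg_mul, sg_inv]; field_simp; linear_combination e2
      generalize a' / a = t at e1
      have ht : sg m t = t + 1 := by linear_combination e1 - (t + 1) * h.two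
      have e3 := congrArg (sg m) ht
      rw [h.sg_sg, h.sg_add, sg_one, ht] at e3
      rcases mul_eq_zero.mp (show t * (t - 1) = 0 by linear_combination e3 + h.two) with h0 | h0
      · rw [h0, sg_zero] at ht; exact one_ne_zero (α := F) (by linear_combination -ht)
      · rw [sub_eq_zero.mp h0, sg_one] at ht; exact one_ne_zero (α := F) (by linear_combination -ht)
  · intro ho
    have hi : (c * h.tG a b * c⁻¹)⁻¹ = c * h.tG a b * c⁻¹ := inv_eq_of_mul_eq_one_right (by
      rw [← sq, ← ho, pow_orderOf_eq_one])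
    rw [hi]

end Cfsg.Agent.S2241
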