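import Cfsg.Statements.S2245
import Cfsg.Agent.Lib.Perm.SylowTwoFixed
open CfsgLib
open Equiv Equiv.Perm

set_option autoImplicit false
open Cfsg

namespace Cfsg.Agent.S2245

/-- For n ≥ 5 with n ≠ 6, a Sylow 2-subgroup of the alternating group A_n lies in exactly one maximal subgroup of A_n if and only if n = 2^k + 1 for some k ≥ 2; the same holds for the symmetric group S_n. -/
theorem result (n : ℕ) (hn : 5 ≤ n) (h6 : n ≠ 6) :
    ((∀ R : Sylow 2 ↥(alternatingGroup (Fin n)), (∃! M : Subgroup ↥(alternatingGroup (Fin n)), IsCoatom M ∧ (R : Subgroup ↥(alternatingGroup (Fin n))) ≤ M) ↔ ∃ k : ℕ, 2 ≤ k ∧ n = 2 ^ k + 1) ∧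
    (∀ R : Sylow 2 (Equiv.Perm (Fin n)), (∃! M : Subgroup (Equiv.Perm (Fin n)), IsCoatom M ∧ (R : Subgroup (Equiv.Perm (Fin n))) ≤ M) ↔ ∃ k : ℕ, 2 ≤ k ∧ n = 2 ^ k + 1)) := by
  have hF : Fintype.card (Fin n) = n := Fintype.card_fin n
  have hnoA : ∀ f : Fin n, ¬ alternatingGroup (Fin n) ≤ MulAction.stabilizer (Perm (Fin n)) f := by
    intro f hle
    obtain ⟨a, ha⟩ := SylowTwoPerm.exists_notMem_list [f] (by simp; omega)
    obtain ⟨b, hb⟩ := SylowTwoPerm.exists_notMem_list [f, a] (by simp; omega)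
    simp only [List.mem_cons, List.not_mem_nil, or_false, not_or] at ha hb
    obtain ⟨c, -, hc, hcf, -⟩ := SylowTwoPerm.threeCycle_mk (Ne.symm ha) (Ne.symm hb.1) (Ne.symm hb.2)
    exact ha (hcf.symm.trans (hle hc))
  constructor
  · set A := alternatingGroup (Fin n) with hA
    intro R
    obtain ⟨P, hP⟩ := SylowTwoPerm.exists_sylow_perm R
    have hRle : ∀ x : A, x ∈ (R : Subgroup A) → x.1 ∈ (P : Subgroup (Perm (Fin n))) := fun x hx =>
      ((le_of_eq hP) ⟨x, hx, rfl⟩).1
    constructor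
    · rintro ⟨M, ⟨hM, hRM⟩, huniq⟩
      by_contra hcon
      push Not at hcon
      obtain ⟨M₁, M₂, h1, h2, hn1, hn2, hgen⟩ :=
        SylowTwoPerm.exists_two P (by omega) (fun k hk => by rw [hF]; exact hcon k hk)
      have key : ∀ N : Subgroup (Perm (Fin n)), (P : Subgroup (Perm (Fin n))) ≤ N → ¬ A ≤ N →
          N ⊓ A ≤ M.map A.subtype := by
        intro N hPN hN
        rcases eq_top_or_exists_le_coatom (N.subgroupOf A) with h | ⟨M', hM', hle⟩
        · exact absurd (Subgroup.subgroupOf_eq_top.mp h) hN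
        · have := huniq M' ⟨hM', fun x hx => hle (hPN (hRle x hx))⟩
          subst this
          rintro x ⟨hxN, hxA⟩
          exact ⟨⟨x, hxA⟩, hle hxN, rfl⟩
      have htop := hgen _ (key M₁ h1 hn1) (key M₂ h2 hn2)
      apply hM.1
      rw [Subgroup.eq_top_iff']
      intro x
      obtain ⟨y, hy, e⟩ := htop x.2
      rwa [← Subtype.ext e]
    · rintro ⟨k, hk, rfl⟩
      obtain ⟨f, hPf, hgen⟩ := SylowTwoPerm.exists_fixed P hk hF
      have key : ∀ M : Subgroup A, (R : Subgroup A) ≤ M →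
          (∃ g ∈ M, g.1 f ≠ f) → M = ⊤ := by
        intro M hRM ⟨g, hg, hgf⟩
        have := hgen (M.map A.subtype) (hP ▸ Subgroup.map_mono hRM)
          ⟨g.1, ⟨⟨g, hg, rfl⟩, g.2⟩, hgf⟩
        rw [Subgroup.eq_top_iff']
        intro x
        obtain ⟨y, hy, e⟩ := this x.2
        rwa [← Subtype.ext e]
      set S₀ := (MulAction.stabilizer (Perm (Fin (2 ^ k + 1))) f).subgroupOf A with hS₀
      have hRS : (R : Subgroup A) ≤ S₀ := fun x hx => hPf (hRle x hx)
      have hS : IsCoatom S₀ := by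
        refine ⟨fun h => hnoA f (Subgroup.subgroupOf_eq_top.mp h), fun M hM => ?_⟩
        obtain ⟨g, hg, hgf⟩ := SetLike.exists_of_lt hM
        exact key M (hRS.trans hM.le) ⟨g, hg, hgf⟩
      refine ⟨S₀, ⟨hS, hRS⟩, fun M ⟨hM, hRM⟩ => ?_⟩
      by_cases h : M ≤ S₀
      · exact (hM.le_iff.mp h).resolve_left hS.1 |>.symm
      · obtain ⟨g, hg, hgf⟩ := SetLike.not_le_iff_exists.mp h
        exact absurd (key M hRM ⟨g, hg, hgf⟩) hM.1
  · intro P
    obtain ⟨z, hz⟩ := SylowTwoPerm.exists_pairing P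
    obtain ⟨a, ha⟩ : ∃ a, z a ≠ a := by
      by_contra hc
      push Not at hc
      exact absurd (hz.fix ⟨0, by omega⟩ ⟨1, by omega⟩ (hc _) (hc _)) (by simp)
    have hodd : Equiv.Perm.sign (swap a (z a)) = -1 := sign_swap (Ne.symm ha)
    -- an overgroup of `P` containing the alternating group is everything
    have hup : ∀ M : Subgroup (Perm (Fin n)), (P : Subgroup (Perm (Fin n))) ≤ M →
        alternatingGroup (Fin n) ≤ M → M = ⊤ := by
      intro M hPM hAM
      rw [Subgroup.eq_top_iff']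
      intro x
      rcases Int.units_eq_one_or (Equiv.Perm.sign x) with h | h
      · exact hAM (mem_alternatingGroup.mpr h)
      · have h1 : x * swap a (z a) ∈ M :=
          hAM (mem_alternatingGroup.mpr (by rw [Equiv.Perm.sign_mul, h, hodd]; decide))
        simpa using mul_mem h1 (hPM (hz.swap_mem a))
    constructor
    · rintro ⟨M, ⟨hM, hRM⟩, huniq⟩
      by_contra hcon
      push Not at hcon
      obtain ⟨M₁, M₂, h1, h2, hn1, hn2, hgen⟩ :=
        SylowTwoPerm.exists_two P (by omega) (fun k hk => by rw [hF]; exact hcon k hk)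
      have key : ∀ N : Subgroup (Perm (Fin n)), (P : Subgroup (Perm (Fin n))) ≤ N →
          ¬ alternatingGroup (Fin n) ≤ N → N ⊓ alternatingGroup (Fin n) ≤ M := by
        intro N hPN hN
        rcases eq_top_or_exists_le_coatom N with h | ⟨M', hM', hle⟩
        · exact absurd (h ▸ le_top) hN
        · have := huniq M' ⟨hM', hPN.trans hle⟩
          subst this
          exact inf_le_left.trans hle
      exact hM.1 (hup M hRM (hgen _ (key M₁ h1 hn1) (key M₂ h2 hn2)))
    · rintro ⟨k, hk, rfl⟩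
      obtain ⟨f, hPf, hgen⟩ := SylowTwoPerm.exists_fixed P hk hF
      have key : ∀ M : Subgroup (Perm (Fin (2 ^ k + 1))), (P : Subgroup _) ≤ M →
          (∃ g ∈ M, g f ≠ f) → M = ⊤ := by
        intro M hPM ⟨g, hg, hgf⟩
        refine hup M hPM (hgen M (inf_le_left.trans hPM) ?_)
        rcases Int.units_eq_one_or (Equiv.Perm.sign g) with h | h
        · exact ⟨g, ⟨hg, mem_alternatingGroup.mpr h⟩, hgf⟩
        · refine ⟨g * swap a (z a), ⟨mul_mem hg (hPM (hz.swap_mem a)),
            mem_alternatingGroup.mpr (by rw [Equiv.Perm.sign_mul, h, hodd]; decide)⟩, ?_⟩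
          rw [mul_apply, show swap a (z a) f = f from hPf (hz.swap_mem a)]
          exact hgf
      have hS : IsCoatom (MulAction.stabilizer (Perm (Fin (2 ^ k + 1))) f) := by
        refine ⟨fun h => hnoA f (h ▸ le_top), fun M hM => ?_⟩
        obtain ⟨g, hg, hgf⟩ := SetLike.exists_of_lt hM
        exact key M (hPf.trans hM.le) ⟨g, hg, hgf⟩
      refine ⟨_, ⟨hS, hPf⟩, fun M ⟨hM, hRM⟩ => ?_⟩
      by_cases h : M ≤ MulAction.stabilizer (Perm (Fin (2 ^ k + 1))) f
      · exact (hM.le_iff.mp h).resolve_left hS.1 |>.symm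
      · obtain ⟨g, hg, hgf⟩ := SetLike.not_le_iff_exists.mp h
        exact absurd (key M hRM ⟨g, hg, hgf⟩) hM.1

end Cfsg.Agent.S2245
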