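import Cfsg.Statements.S2268
import Mathlib.GroupTheory.Sylow
import Mathlib.GroupTheory.Index

set_option autoImplicit false
open Cfsg

namespace Cfsg.Agent.S2268

/-- Let G be a finite group with an abelian Sylow p-subgroup P and let Q ≤ P. Then N_G(Q) = (N_G(Q) ∩ N_G(P))·C_G(Q), so that N_G(Q)/C_G(Q) is a homomorphic image of the subgroup (N_G(Q) ∩ N_G(P))/C_G(P) of N_G(P)/C_G(P); in particular the order of N_G(Q)/C_G(Q) divides the order of N_G(P)/C_G(P). -/
theorem result {G : Type*} [Group G] [Finite G] {p : ℕ} [Fact p.Prime]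
    (P : Sylow p G) (hP : IsMulCommutative (P : Subgroup G)) (Q : Subgroup G) (hQ : Q ≤ (P : Subgroup G)) :
    Subgroup.normalizer (Q : Set G) =
      (Subgroup.normalizer (Q : Set G) ⊓ Subgroup.normalizer ((P : Subgroup G) : Set G)) ⊔ Subgroup.centralizer (Q : Set G) ∧
    ((Subgroup.centralizer (Q : Set G)).subgroupOf (Subgroup.normalizer (Q : Set G))).index ∣ ((Subgroup.centralizer ((P : Subgroup G) : Set G)).subgroupOf (Subgroup.normalizer ((P : Subgroup G) : Set G))).index := by
  classical
  set N := Subgroup.normalizer (Q : Set G) with hN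
  set NP := Subgroup.normalizer ((P : Subgroup G) : Set G) with hNP
  set C := Subgroup.centralizer (Q : Set G) with hC
  have hPC : (P : Subgroup G) ≤ C := fun x hx => by
    rw [hC, Subgroup.mem_centralizer_iff]
    intro y hy
    exact congrArg Subtype.val (hP.is_comm.comm (⟨y, hQ hy⟩ : (P : Subgroup G)) ⟨x, hx⟩)
  have hCN : C ≤ N := fun x hx => by
    rw [hN, Subgroup.mem_normalizer_iff]
    intro y
    rw [hC, Subgroup.mem_centralizer_iff] at hx
    constructor
    · intro hy
      rw [← hx y hy, mul_inv_cancel_right]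
      exact hy
    · intro hy
      have h := hx _ hy
      rw [inv_mul_cancel_right] at h
      have h' : x * (x * y * x⁻¹) = x * y := h.symm
      rwa [mul_left_cancel h'] at hy
  have hgen : N = (N ⊓ NP) ⊔ C := by
    refine le_antisymm (fun g hg => ?_) (sup_le inf_le_left hCN)
    have hgPC : ((g • P : Sylow p G) : Subgroup G) ≤ C := by
      rintro _ ⟨x, hx, rfl⟩
      show g * x * g⁻¹ ∈ C
      rw [hC, Subgroup.mem_centralizer_iff]
      intro y hy
      have hy' : g⁻¹ * y * g ∈ Q := (Subgroup.mem_normalizer_iff''.mp hg y).mp hy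
      have h := Subgroup.mem_centralizer_iff.mp (hPC hx) _ hy'
      calc y * (g * x * g⁻¹) = g * ((g⁻¹ * y * g) * x) * g⁻¹ := by group
        _ = g * (x * (g⁻¹ * y * g)) * g⁻¹ := by rw [h]
        _ = (g * x * g⁻¹) * y := by group
    obtain ⟨c, hc⟩ := MulAction.exists_smul_eq C ((g • P).subtype hgPC) (P.subtype hPC)
    have hc' : (c : G) • (g • P) = P := by
      rw [Sylow.smul_subtype] at hc
      exact Sylow.subtype_injective hc
    have hmem : (c : G) * g ∈ NP := by
      rw [← mul_smul, Sylow.smul_eq_iff_mem_normalizer] at hc'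
      exact hc'
    have h1 : (c : G) * g ∈ (N ⊓ NP) := ⟨N.mul_mem (hCN c.2) hg, hmem⟩
    rw [show g = (c : G)⁻¹ * (c * g) by group]
    exact mul_mem (Subgroup.mem_sup_right (inv_mem c.2)) (Subgroup.mem_sup_left h1)
  refine ⟨hgen, ?_⟩
  set M := N ⊓ NP with hM
  show C.relIndex N ∣ (Subgroup.centralizer ((P : Subgroup G) : Set G)).relIndex NP
  set CP := Subgroup.centralizer ((P : Subgroup G) : Set G) with hCP
  have h1 : C.relIndex N = C.relIndex M := by
    haveI : (C.subgroupOf N).Normal := by
      rw [hC, hN]; infer_instance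
    have hMN : M ≤ N := inf_le_left
    have htop : (M.subgroupOf N) ⊔ (C.subgroupOf N) = ⊤ := by
      rw [← Subgroup.subgroupOf_sup hMN hCN, ← hgen, Subgroup.subgroupOf_self]
    rw [← Subgroup.relIndex_subgroupOf hMN]
    show (C.subgroupOf N).index = _
    rw [← Subgroup.relIndex_top_right, ← htop, Subgroup.relIndex_sup_right]
  rw [h1]
  have hCPC : CP ≤ C := Subgroup.centralizer_le hQ
  refine (Subgroup.relIndex_dvd_of_le_left M hCPC).trans ?_
  haveI : (CP.subgroupOf NP).Normal := by
    rw [hCP, hNP]; infer_instance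
  have hMNP : M ≤ NP := inf_le_right
  rw [← Subgroup.relIndex_subgroupOf hMNP]
  exact Subgroup.relIndex_dvd_index_of_normal _ _

end Cfsg.Agent.S2268
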