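import Cfsg.Statements.S2270
import Cfsg.Agent.S2268
import Mathlib.GroupTheory.Perm.Cycle.Type
import Mathlib.GroupTheory.Perm.Cycle.PossibleTypes
import Mathlib.GroupTheory.Sylow

set_option autoImplicit false
open Cfsg

namespace Cfsg.Agent.S2270

/-- Let n ≥ 3, p an odd prime, and P an abelian Sylow p-subgroup of the symmetric group S_n (with p dividing n!, so that P ≠ 1). Then N(P)/C(P) has even order. -/
theorem result (n : ℕ) (hn : 3 ≤ n) {p : ℕ} [Fact p.Prime] (hp : p ≠ 2) (hpn : p ≤ n)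
    (P : Sylow p (Equiv.Perm (Fin n))) (hP : IsMulCommutative (P : Subgroup (Equiv.Perm (Fin n)))) :
    2 ∣ ((Subgroup.centralizer ((P : Subgroup (Equiv.Perm (Fin n))) : Set (Equiv.Perm (Fin n)))).subgroupOf (Subgroup.normalizer ((P : Subgroup (Equiv.Perm (Fin n))) : Set (Equiv.Perm (Fin n))))).index := by
  classical
  have hp' : p.Prime := Fact.out
  obtain ⟨σ₀, hσ₀⟩ := (Equiv.Perm.exists_with_cycleType_iff (α := Fin n) (m := {p})).mpr
    ⟨by simpa using hpn, by simp [hp'.two_le]⟩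
  have hσ₀o : orderOf σ₀ = p := by rw [← Equiv.Perm.lcm_cycleType, hσ₀]; simp
  obtain ⟨R, hR⟩ := (IsPGroup.of_card (n := 1)
    (by rw [Nat.card_zpowers, hσ₀o, pow_one]) : IsPGroup p (Subgroup.zpowers σ₀)).exists_le_sylow
  obtain ⟨c, hc⟩ := MulAction.exists_smul_eq (Equiv.Perm (Fin n)) R P
  set σ := c * σ₀ * c⁻¹ with hσ
  have hσP : σ ∈ (P : Subgroup (Equiv.Perm (Fin n))) := by
    rw [← hc]
    exact ⟨σ₀, hR (Subgroup.mem_zpowers σ₀), rfl⟩
  set Q := Subgroup.zpowers σ with hQ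
  have hQP : Q ≤ (P : Subgroup (Equiv.Perm (Fin n))) := by rwa [hQ, Subgroup.zpowers_le]
  refine dvd_trans ?_ (Cfsg.Agent.S2268.result P hP Q hQP).2
  obtain ⟨τ, hτ⟩ : ∃ τ, τ * σ * τ⁻¹ = σ⁻¹ :=
    isConj_iff.mp (Equiv.Perm.isConj_iff_cycleType_eq.mpr (by rw [Equiv.Perm.cycleType_inv]))
  have hτN : τ ∈ Subgroup.normalizer (Q : Set (Equiv.Perm (Fin n))) := by
    rw [Subgroup.mem_normalizer_iff_map_conj_eq, hQ, MonoidHom.map_zpowers]
    show Subgroup.zpowers (τ * σ * τ⁻¹) = _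
    rw [hτ, Subgroup.zpowers_inv]
  set N := Subgroup.normalizer (Q : Set (Equiv.Perm (Fin n)))
  set C := (Subgroup.centralizer (Q : Set (Equiv.Perm (Fin n)))).subgroupOf N with hC
  haveI : C.Normal := by rw [hC]; infer_instance
  have hmem : ∀ y : N, y ∈ C ↔ (y : Equiv.Perm (Fin n)) * σ = σ * y := by
    intro y
    rw [hC, Subgroup.mem_subgroupOf, Subgroup.mem_centralizer_iff]
    constructor
    · exact fun h => (h σ (Subgroup.mem_zpowers σ)).symm
    · intro h z hz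
      obtain ⟨k, rfl⟩ := Subgroup.mem_zpowers_iff.mp hz
      exact ((Commute.zpow_right (h : Commute (y : Equiv.Perm (Fin n)) σ) k).eq).symm
  have h1 : orderOf (QuotientGroup.mk (⟨τ, hτN⟩ : N) : N ⧸ C) = 2 := by
    haveI := Fact.mk Nat.prime_two
    refine orderOf_eq_prime ?_ fun h => ?_
    · rw [← QuotientGroup.mk_pow, QuotientGroup.eq_one_iff, hmem]
      show τ ^ 2 * σ = σ * τ ^ 2
      have h2 : τ * σ⁻¹ * τ⁻¹ = σ := by
        rw [← inv_inj]
        simpa [mul_assoc] using hτ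
      calc τ ^ 2 * σ = τ * (τ * σ * τ⁻¹) * τ := by rw [pow_two]; group
        _ = τ * σ⁻¹ * τ := by rw [hτ]
        _ = (τ * σ⁻¹ * τ⁻¹) * τ ^ 2 := by rw [pow_two]; group
        _ = σ * τ ^ 2 := by rw [h2]
    · rw [QuotientGroup.eq_one_iff, hmem] at h
      have h2 : σ ^ 2 = 1 := by
        have : τ * σ * τ⁻¹ = σ := by
          rw [show τ * σ = σ * τ from h, mul_inv_cancel_right]
        rw [hτ] at this
        rw [pow_two]
        exact mul_eq_one_iff_eq_inv.mpr this.symm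
      have h3 : orderOf σ = p := (MulEquiv.orderOf_eq (MulAut.conj c) σ₀).trans hσ₀o
      have h4 := orderOf_dvd_iff_pow_eq_one.mpr h2
      rw [h3, Nat.prime_dvd_prime_iff_eq hp' Nat.prime_two] at h4
      exact hp h4
  rw [Subgroup.index_eq_card]
  exact h1 ▸ orderOf_dvd_natCard _

end Cfsg.Agent.S2270
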