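import Cfsg.Statements.S2336
import Mathlib
import Cfsg.Agent.Lib.Perm.Centraliser
import Cfsg.Agent.Lib.Chars.Orth
import Cfsg.Agent.Lib.Chars.Linear

set_option autoImplicit false
open Cfsg

namespace Cfsg.Agent.S2336

set_option maxHeartbeats 1000000

open CfsgLib.Chars CfsgLib.Perm.Centraliser
open scoped ComplexConjugate

theorem exists_det_map {F V : Type*} [Field F] [AddCommGroup V] [Module F V] [FiniteDimensional F V]
    (hn : 3 ≤ Module.finrank F V) (u u' : Fin 2 → V) (hu : LinearIndependent F u) (hu' : LinearIndependent F u') :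
    ∃ e : V ≃ₗ[F] V, LinearMap.det (e : V →ₗ[F] V) = 1 ∧ e (u 0) = u' 0 ∧ e (u 1) = u' 1 := by
  classical
  have hb : ∀ w : Fin 2 → V, LinearIndependent F w → ∃ b : Module.Basis (Fin 2 ⊕ Fin (Module.finrank F V - 2)) F V, ∀ i, b (Sum.inl i) = w i := by
    intro w hw
    let W := Submodule.span F (Set.range w)
    obtain ⟨C, hC⟩ := Submodule.exists_isCompl W
    have hW : Module.finrank F W = 2 := by rw [finrank_span_eq_card hw]; rfl
    have hCd : Module.finrank F C = Module.finrank F V - 2 := by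
      have := Submodule.finrank_add_eq_of_isCompl hC
      omega
    let bW : Module.Basis (Fin 2) F W := Module.Basis.span hw
    let bC : Module.Basis (Fin (Module.finrank F V - 2)) F C := (Module.finBasisOfFinrankEq F C hCd)
    refine ⟨(bW.prod bC).map (Submodule.prodEquivOfIsCompl W C hC), fun i => ?_⟩
    simp [bW, Submodule.coe_prodEquivOfIsCompl']
    exact Module.Basis.coe_span_apply hw i
  obtain ⟨b, hb1⟩ := hb u hu
  obtain ⟨b', hb2⟩ := hb u' hu'
  let e₀ := b.equiv b' (Equiv.refl _)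
  have hd : LinearMap.det (e₀ : V →ₗ[F] V) ≠ 0 := (LinearEquiv.isUnit_det' e₀).ne_zero
  let k : Fin 2 ⊕ Fin (Module.finrank F V - 2) := Sum.inr ⟨0, by omega⟩
  let w : Fin 2 ⊕ Fin (Module.finrank F V - 2) → Fˣ := fun i => if i = k then (Units.mk0 _ hd)⁻¹ else 1
  let h := b'.equiv (b'.unitsSMul w) (Equiv.refl _)
  have hh : LinearMap.det (h : V →ₗ[F] V) = (LinearMap.det (e₀ : V →ₗ[F] V))⁻¹ := by
    rw [← LinearMap.det_toMatrix b', show LinearMap.toMatrix b' b' (h : V →ₗ[F] V) = Matrix.diagonal (fun i => (w i : F)) from ?_,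
      Matrix.det_diagonal, Finset.prod_eq_single k (fun i _ hi => by simp [w, hi]) (by simp)]
    · simp [w]
    · ext i j
      rw [LinearMap.toMatrix_apply, LinearEquiv.coe_coe, Module.Basis.equiv_apply, Equiv.refl_apply, Module.Basis.unitsSMul_apply]
      rcases eq_or_ne i j with rfl | hij
      · simp [Units.smul_def]
      · simp [Units.smul_def, hij, Finsupp.single_apply, Ne.symm hij]
  have key : ∀ i, (e₀.trans h) (u i) = u' i := by
    intro i
    show h (e₀ (u i)) = _
    rw [← hb1 i, show e₀ (b (Sum.inl i)) = b' (Sum.inl i) by simp [e₀],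
      show h (b' (Sum.inl i)) = b'.unitsSMul w (Sum.inl i) by simp [h], Module.Basis.unitsSMul_apply, hb2]
    simp [w, k]
  exact ⟨e₀.trans h, by rw [LinearEquiv.coe_trans, LinearMap.det_comp, hh, inv_mul_cancel₀ hd], key 0, key 1⟩

theorem sum_hom {T : Type*} [CommGroup T] [Fintype T] [DecidableEq T] [Fintype (T →* ℂˣ)] (a : T) :
    ∑ l : T →* ℂˣ, (l a : ℂ) = if a = 1 then (Fintype.card (T →* ℂˣ) : ℂ) else 0 := by
  split_ifs with h
  · subst h; simp
  · obtain ⟨m, hm⟩ := CommGroup.exists_apply_ne_one_of_hasEnoughRootsOfUnity T ℂ h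
    have hs : (m a : ℂ) * ∑ l : T →* ℂˣ, (l a : ℂ) = ∑ l : T →* ℂˣ, (l a : ℂ) := by
      rw [Finset.mul_sum]
      exact Fintype.sum_equiv (Equiv.mulLeft m) _ _ (fun l => by simp)
    by_contra hne
    exact hm (Units.ext (mul_right_cancel₀ hne (hs.trans (one_mul _).symm)))


/-- Let F be a finite field with q elements and n ≥ 3. The permutation character of SL_n(F) on the non-zero vectors of F^n (the function sending a matrix to the number of non-zero vectors it fixes) is the sum of the principal character and q − 1 pairwise distinct irreducible complex characters. -/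
theorem result {F : Type*} [Field F] [Fintype F] [DecidableEq F] (n : ℕ) (hn : 3 ≤ n) :
    ∃ χ : Fin (Fintype.card F - 1) → (Matrix.SpecialLinearGroup (Fin n) F → ℂ),
      (∀ i, Cfsg.IsIrrCharacter (Matrix.SpecialLinearGroup (Fin n) F) (χ i)) ∧ Function.Injective χ ∧
      ∀ g : Matrix.SpecialLinearGroup (Fin n) F,
        (Nat.card {v : Fin n → F // v ≠ 0 ∧ (g : Matrix (Fin n) (Fin n) F).mulVec v = v} : ℂ) = 1 + ∑ i, χ i g := by
  classical
  let X := {v : Fin n → F // v ≠ 0}
  have hne : ∀ (g : (Matrix.SpecialLinearGroup (Fin n) F)) (v : Fin n → F), v ≠ 0 → (g : Matrix (Fin n) (Fin n) F).mulVec v ≠ 0 := by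
    intro g v hv h0
    apply hv
    have e := congrArg ((g⁻¹ : (Matrix.SpecialLinearGroup (Fin n) F)) : Matrix (Fin n) (Fin n) F).mulVec h0
    rwa [Matrix.mulVec_mulVec, ← Matrix.SpecialLinearGroup.coe_mul, inv_mul_cancel, Matrix.SpecialLinearGroup.coe_one, Matrix.one_mulVec, Matrix.mulVec_zero] at e
  let act : (Matrix.SpecialLinearGroup (Fin n) F) × Fˣ → X → X := fun x v => ⟨(x.2 : F) • (x.1 : Matrix (Fin n) (Fin n) F).mulVec v.1, smul_ne_zero x.2.ne_zero (hne _ _ v.2)⟩
  letI : SMul ((Matrix.SpecialLinearGroup (Fin n) F) × Fˣ) X := ⟨act⟩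
  have hsmul : ∀ (x : (Matrix.SpecialLinearGroup (Fin n) F) × Fˣ) (v : X), (x • v).1 = (x.2 : F) • (x.1 : Matrix (Fin n) (Fin n) F).mulVec v.1 := fun x v => rfl
  letI : MulAction ((Matrix.SpecialLinearGroup (Fin n) F) × Fˣ) X :=
    { one_smul := fun v => Subtype.ext (by rw [hsmul]; simp)
      mul_smul := fun x y v => Subtype.ext (by
        rw [hsmul, hsmul, hsmul]
        simp [Matrix.mulVec_smul, Matrix.mulVec_mulVec, smul_smul]) }
  haveI : Fintype X := Fintype.ofFinite X
  haveI : Fintype (Fˣ →* ℂˣ) := Fintype.ofFinite _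
  let fx : (Matrix.SpecialLinearGroup (Fin n) F) → Fˣ → ℕ := fun g a => Nat.card (MulAction.fixedBy X ((g, a) : (Matrix.SpecialLinearGroup (Fin n) F) × Fˣ))
  have hfx : ∀ g a, fx g a = (Finset.univ.filter fun v : X => ((g, a) : (Matrix.SpecialLinearGroup (Fin n) F) × Fˣ) • v = v).card := by
    intro g a
    rw [← Fintype.card_subtype, ← Nat.card_eq_fintype_card]
    rfl
  set qm := Fintype.card Fˣ with hqm
  have hqm0 : (qm : ℂ) ≠ 0 := Nat.cast_ne_zero.2 Fintype.card_ne_zero
  have hG0 : (Nat.card (Matrix.SpecialLinearGroup (Fin n) F) : ℂ) ≠ 0 := Nat.cast_ne_zero.2 Nat.card_pos.ne'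
  have hcardHom : Fintype.card (Fˣ →* ℂˣ) = qm := by
    rw [← Nat.card_eq_fintype_card, CommGroup.card_monoidHom_of_hasEnoughRootsOfUnity, Nat.card_eq_fintype_card]
  -- transitivity
  have hmove : ∀ u u' : Fin 2 → Fin n → F, LinearIndependent F u → LinearIndependent F u' →
      ∃ g : (Matrix.SpecialLinearGroup (Fin n) F), (g : Matrix (Fin n) (Fin n) F).mulVec (u 0) = u' 0 ∧ (g : Matrix (Fin n) (Fin n) F).mulVec (u 1) = u' 1 := by
    intro u u' hu hu'
    obtain ⟨e, he, h0, h1⟩ := exists_det_map (by rw [Module.finrank_fin_fun]; exact hn) u u' hu hu'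
    refine ⟨⟨LinearMap.toMatrix' (e : (Fin n → F) →ₗ[F] (Fin n → F)), by rw [LinearMap.det_toMatrix']; exact he⟩, ?_, ?_⟩ <;>
      simp [LinearMap.toMatrix'_mulVec, h0, h1]
  have hex2 : ∀ v : X, ∃ w : Fin n → F, LinearIndependent F ![v.1, w] := fun v =>
    exists_linearIndependent_pair_of_one_lt_finrank (by rw [Module.finrank_fin_fun]; omega) v.2
  have htr1 : ∀ v v' : X, ∃ g : (Matrix.SpecialLinearGroup (Fin n) F), (g : Matrix (Fin n) (Fin n) F).mulVec v.1 = v'.1 := by
    intro v v'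
    obtain ⟨w, hw⟩ := hex2 v
    obtain ⟨w', hw'⟩ := hex2 v'
    obtain ⟨g, h, -⟩ := hmove _ _ hw hw'
    exact ⟨g, h⟩
  -- counting
  have hone : ∀ f : X → X, ∑ v : X, (Finset.univ.filter fun g : (Matrix.SpecialLinearGroup (Fin n) F) => (g : Matrix (Fin n) (Fin n) F).mulVec v.1 = (f v).1).card = Fintype.card (Matrix.SpecialLinearGroup (Fin n) F) := by
    intro f
    obtain ⟨v₀⟩ : Nonempty X := ⟨⟨Pi.single ⟨0, by omega⟩ 1, by simp⟩⟩
    have hconst : ∀ v v' : X, (Finset.univ.filter fun g : (Matrix.SpecialLinearGroup (Fin n) F) => (g : Matrix (Fin n) (Fin n) F).mulVec v.1 = v'.1).card =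
        (Finset.univ.filter fun g : (Matrix.SpecialLinearGroup (Fin n) F) => (g : Matrix (Fin n) (Fin n) F).mulVec v₀.1 = v₀.1).card := by
      intro v v'
      obtain ⟨a, ha⟩ := htr1 v₀ v
      obtain ⟨b, hb⟩ := htr1 v' v₀
      refine Finset.card_equiv ((Equiv.mulLeft b).trans (Equiv.mulRight a)) (fun g => ?_)
      simp only [Finset.mem_filter, Finset.mem_univ, true_and, Equiv.trans_apply, Equiv.coe_mulLeft, Equiv.coe_mulRight,
        Matrix.SpecialLinearGroup.coe_mul, ← Matrix.mulVec_mulVec, ha]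
      constructor
      · intro h; rw [h, hb]
      · intro h
        have e := congrArg ((b⁻¹ : (Matrix.SpecialLinearGroup (Fin n) F)) : Matrix (Fin n) (Fin n) F).mulVec (h.trans hb.symm)
        simp only [Matrix.mulVec_mulVec, ← Matrix.SpecialLinearGroup.coe_mul, inv_mul_cancel_left, inv_mul_cancel, Matrix.SpecialLinearGroup.coe_one, Matrix.one_mulVec] at e
        exact e
    have hpart := Finset.card_eq_sum_card_fiberwise (s := (Finset.univ : Finset (Matrix.SpecialLinearGroup (Fin n) F))) (t := (Finset.univ : Finset X))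
      (f := fun g : Matrix.SpecialLinearGroup (Fin n) F => (⟨(g : Matrix (Fin n) (Fin n) F).mulVec v₀.1, hne g _ v₀.2⟩ : X)) (fun g _ => Finset.mem_univ _)
    rw [Finset.card_univ] at hpart
    rw [hpart]
    refine Finset.sum_congr rfl fun v _ => ?_
    rw [hconst v (f v), ← hconst v₀ v]
    refine congrArg Finset.card (Finset.filter_congr fun g _ => ?_)
    exact ⟨fun h => Subtype.ext h, fun h => congrArg Subtype.val h⟩
  let P := {p : X × X // LinearIndependent F ![p.1.1, p.2.1]}
  have hPmap : ∀ (g : (Matrix.SpecialLinearGroup (Fin n) F)) (p : P), LinearIndependent F ![(g : Matrix (Fin n) (Fin n) F).mulVec p.1.1.1, (g : Matrix (Fin n) (Fin n) F).mulVec p.1.2.1] := by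
    intro g p
    rw [LinearIndependent.pair_iff]
    intro s t hst
    refine (LinearIndependent.pair_iff.1 p.2) s t ?_
    have e := congrArg ((g⁻¹ : (Matrix.SpecialLinearGroup (Fin n) F)) : Matrix (Fin n) (Fin n) F).mulVec hst
    rw [← Matrix.mulVec_smul, ← Matrix.mulVec_smul, ← Matrix.mulVec_add, Matrix.mulVec_mulVec, ← Matrix.SpecialLinearGroup.coe_mul,
      inv_mul_cancel, Matrix.SpecialLinearGroup.coe_one, Matrix.one_mulVec, Matrix.mulVec_zero] at e
    exact e
  let gp : (Matrix.SpecialLinearGroup (Fin n) F) → P → P := fun g p => ⟨(⟨_, hne g _ p.1.1.2⟩, ⟨_, hne g _ p.1.2.2⟩), hPmap g p⟩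
  have hgp : ∀ g h p, gp (g * h) p = gp g (gp h p) := fun g h p => by
    refine Subtype.ext (Prod.ext (Subtype.ext ?_) (Subtype.ext ?_)) <;>
      simp [gp, Matrix.SpecialLinearGroup.coe_mul, Matrix.mulVec_mulVec]
  have hgp1 : ∀ p, gp 1 p = p := fun p => by
    refine Subtype.ext (Prod.ext (Subtype.ext ?_) (Subtype.ext ?_)) <;> simp [gp]
  have htr2 : ∀ p p' : P, ∃ g, gp g p = p' := by
    intro p p'
    obtain ⟨g, h0, h1⟩ := hmove _ _ p.2 p'.2
    exact ⟨g, Subtype.ext (Prod.ext (Subtype.ext h0) (Subtype.ext h1))⟩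
  have hP0 : Nonempty P := by
    obtain ⟨w, hw⟩ := hex2 ⟨Pi.single ⟨0, by omega⟩ 1, by simp⟩
    exact ⟨⟨(_, ⟨w, hw.ne_zero 1⟩), hw⟩⟩
  have htwo : ∀ f : P → P, ∑ p : P, (Finset.univ.filter fun g : (Matrix.SpecialLinearGroup (Fin n) F) => gp g p = f p).card = Fintype.card (Matrix.SpecialLinearGroup (Fin n) F) := by
    intro f
    obtain ⟨p₀⟩ := hP0
    have hconst : ∀ p p' : P, (Finset.univ.filter fun g : (Matrix.SpecialLinearGroup (Fin n) F) => gp g p = p').card = (Finset.univ.filter fun g : (Matrix.SpecialLinearGroup (Fin n) F) => gp g p₀ = p₀).card := by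
      intro p p'
      obtain ⟨a, ha⟩ := htr2 p₀ p
      obtain ⟨b, hb⟩ := htr2 p' p₀
      refine Finset.card_equiv ((Equiv.mulLeft b).trans (Equiv.mulRight a)) (fun g => ?_)
      simp only [Finset.mem_filter, Finset.mem_univ, true_and, Equiv.trans_apply, Equiv.coe_mulLeft, Equiv.coe_mulRight, hgp, ha]
      constructor
      · intro h; rw [h, hb]
      · intro h
        have e := congrArg (gp b⁻¹) (h.trans hb.symm)
        simp only [← hgp, ← mul_assoc, inv_mul_cancel, one_mul, hgp1] at e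
        exact e
    have hpart := Finset.card_eq_sum_card_fiberwise (s := (Finset.univ : Finset (Matrix.SpecialLinearGroup (Fin n) F))) (t := (Finset.univ : Finset P))
      (f := fun g => gp g p₀) (fun g _ => Finset.mem_univ _)
    rw [Finset.card_univ] at hpart
    rw [hpart]
    exact Finset.sum_congr rfl fun p _ => by rw [hconst p (f p), ← hconst p₀ p]
  let sX : Fˣ → X → X := fun a v => ⟨(a : F) • v.1, smul_ne_zero a.ne_zero v.2⟩
  have hfixiff : ∀ (g : (Matrix.SpecialLinearGroup (Fin n) F)) (a : Fˣ) (v : X), ((g, a) : (Matrix.SpecialLinearGroup (Fin n) F) × Fˣ) • v = v ↔ (g : Matrix (Fin n) (Fin n) F).mulVec v.1 = (sX a⁻¹ v).1 := by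
    intro g a v
    rw [Subtype.ext_iff, hsmul]
    show (a : F) • _ = _ ↔ _ = ((a⁻¹ : Fˣ) : F) • v.1
    rw [← Units.smul_def, ← Units.smul_def, eq_inv_smul_iff]
  have hS1 : ∀ a, ∑ g : (Matrix.SpecialLinearGroup (Fin n) F), fx g a = Fintype.card (Matrix.SpecialLinearGroup (Fin n) F) := by
    intro a
    rw [Finset.sum_congr rfl (fun g _ => hfx g a), Finset.sum_congr rfl (fun g _ => Finset.card_filter _ _), Finset.sum_comm,
      ← hone (sX a⁻¹)]
    refine Finset.sum_congr rfl fun v _ => ?_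
    rw [Finset.card_filter]
    exact Finset.sum_congr rfl fun g _ => if_congr (hfixiff g a v) rfl rfl
  have hS2 : ∀ a b, ∑ g : (Matrix.SpecialLinearGroup (Fin n) F), fx g a * fx g b = Fintype.card (Matrix.SpecialLinearGroup (Fin n) F) + (if a = b then qm * Fintype.card (Matrix.SpecialLinearGroup (Fin n) F) else 0) := by
    intro a b
    have h1 : ∀ g : (Matrix.SpecialLinearGroup (Fin n) F), fx g a * fx g b = ∑ p : X × X, if ((g, a) : (Matrix.SpecialLinearGroup (Fin n) F) × Fˣ) • p.1 = p.1 ∧ ((g, b) : (Matrix.SpecialLinearGroup (Fin n) F) × Fˣ) • p.2 = p.2 then 1 else 0 := by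
      intro g
      rw [hfx, hfx, Finset.card_filter, Finset.card_filter, Finset.sum_mul_sum, ← Finset.sum_product', Finset.univ_product_univ]
      refine Finset.sum_congr rfl fun p _ => ?_
      split_ifs <;> simp_all
    rw [Finset.sum_congr rfl (fun g _ => h1 g), Finset.sum_comm,
      ← Fintype.sum_subtype_add_sum_subtype (fun p : X × X => LinearIndependent F ![p.1.1, p.2.1])]
    congr 1
    · let sP : P → P := fun p => ⟨(sX a⁻¹ p.1.1, sX b⁻¹ p.1.2), by
        rw [LinearIndependent.pair_iff]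
        intro s t hst
        have h := (LinearIndependent.pair_iff.1 p.2) (s * ((a⁻¹ : Fˣ) : F)) (t * ((b⁻¹ : Fˣ) : F)) (by rw [← smul_smul, ← smul_smul]; exact hst)
        exact ⟨(mul_eq_zero.1 h.1).resolve_right (a⁻¹).ne_zero, (mul_eq_zero.1 h.2).resolve_right (b⁻¹).ne_zero⟩⟩
      rw [← htwo sP]
      refine Fintype.sum_congr _ _ fun p => ?_
      rw [Finset.card_filter]
      refine Finset.sum_congr rfl fun g _ => if_congr ?_ rfl rfl
      rw [hfixiff, hfixiff]
      exact ⟨fun h => Subtype.ext (Prod.ext (Subtype.ext h.1) (Subtype.ext h.2)),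
        fun h => ⟨congrArg (fun z : P => z.1.1.1) h, congrArg (fun z : P => z.1.2.1) h⟩⟩
    · let pr : X × Fˣ → {p : X × X // ¬ LinearIndependent F ![p.1.1, p.2.1]} := fun z =>
        ⟨(z.1, sX z.2 z.1), by
          intro h
          have := (LinearIndependent.pair_iff.1 h) (z.2 : F) (-1) (by simp [sX])
          simp at this⟩
      have hpr : Function.Bijective pr := by
        constructor
        · rintro ⟨v, c⟩ ⟨v', c'⟩ h
          have e1 : v = v' := congrArg (fun z : {p : X × X // ¬ LinearIndependent F ![p.1.1, p.2.1]} => z.1.1) h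
          subst e1
          have e2 : (c : F) • v.1 = (c' : F) • v.1 := congrArg (fun z : {p : X × X // ¬ LinearIndependent F ![p.1.1, p.2.1]} => z.1.2.1) h
          exact Prod.ext rfl (Units.ext (smul_left_injective F v.2 e2))
        · rintro ⟨⟨v, w⟩, h⟩
          rw [LinearIndependent.pair_iff' v.2] at h
          push Not at h
          obtain ⟨c, hc⟩ := h
          have hc0 : c ≠ 0 := fun e => w.2 (by rw [← hc, e, zero_smul])
          exact ⟨(v, Units.mk0 c hc0), Subtype.ext (Prod.ext rfl (Subtype.ext hc))⟩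
      rw [← (Equiv.ofBijective pr hpr).sum_comp, Fintype.sum_prod_type]
      split_ifs with hab
      · subst hab
        rw [Finset.sum_comm, show qm * Fintype.card (Matrix.SpecialLinearGroup (Fin n) F) = ∑ _c : Fˣ, Fintype.card (Matrix.SpecialLinearGroup (Fin n) F) by simp [hqm]]
        refine Finset.sum_congr rfl fun c _ => ?_
        rw [← hone (sX a⁻¹)]
        refine Finset.sum_congr rfl fun v _ => ?_
        rw [Finset.card_filter]
        refine Finset.sum_congr rfl fun g _ => if_congr ?_ rfl rfl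
        simp only [Equiv.ofBijective_apply, pr]
        rw [hfixiff, hfixiff]
        refine ⟨fun h => h.1, fun h => ⟨h, ?_⟩⟩
        show (g : Matrix (Fin n) (Fin n) F).mulVec ((c : F) • v.1) = ((a⁻¹ : Fˣ) : F) • ((c : F) • v.1)
        rw [Matrix.mulVec_smul, h]
        exact smul_comm _ _ _
      · refine Finset.sum_eq_zero fun v _ => Finset.sum_eq_zero fun c _ => Finset.sum_eq_zero fun g _ => if_neg ?_
        simp only [Equiv.ofBijective_apply, pr]
        rw [hfixiff, hfixiff]
        rintro ⟨h1, h2⟩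
        apply hab
        change (g : Matrix (Fin n) (Fin n) F).mulVec ((c : F) • v.1) = ((b⁻¹ : Fˣ) : F) • ((c : F) • v.1) at h2
        rw [Matrix.mulVec_smul, h1] at h2
        change (c : F) • ((a⁻¹ : Fˣ) : F) • v.1 = _ at h2
        rw [smul_smul, smul_smul, mul_comm] at h2
        exact inv_inj.1 (Units.ext (mul_right_cancel₀ c.ne_zero (smul_left_injective F v.2 h2)))
  -- the characters
  let χ : (Fˣ →* ℂˣ) → (Matrix.SpecialLinearGroup (Fin n) F) → ℂ := fun l g => (qm : ℂ)⁻¹ * ∑ a : Fˣ, (l a : ℂ) * (fx g a : ℂ)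
  have hlconj : ∀ (l : Fˣ →* ℂˣ) (a : Fˣ), conj (l a : ℂ) = (l a⁻¹ : ℂ) := by
    intro l a
    have h := hom_mul_conj l a
    rw [map_inv, Units.val_inv_eq_inv_val]
    exact eq_inv_of_mul_eq_one_right h
  have hπ : IsCharacter ((Matrix.SpecialLinearGroup (Fin n) F) × Fˣ) (π ((Matrix.SpecialLinearGroup (Fin n) F) × Fˣ) X) := isCharacter_π
  have hclass : ∀ l, IsClassFunction (Matrix.SpecialLinearGroup (Fin n) F) (χ l) := by
    intro l g h
    show (qm : ℂ)⁻¹ * _ = (qm : ℂ)⁻¹ * _
    congr 1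
    refine Finset.sum_congr rfl fun a _ => ?_
    have := (IsCharacter.isClassFunction hπ) (g, a) (h, 1)
    rw [show ((h, 1) : (Matrix.SpecialLinearGroup (Fin n) F) × Fˣ) * (g, a) * (h, 1)⁻¹ = (h * g * h⁻¹, a) by simp] at this
    exact congrArg (fun z => (l a : ℂ) * z) this
  have hmult : ∀ l (ψ : IrrCharacter (Matrix.SpecialLinearGroup (Fin n) F)), ∃ m : ℕ, classInner (χ l) (ψ : (Matrix.SpecialLinearGroup (Fin n) F) → ℂ) = (m : ℂ) := by
    intro l ψ
    let χ' : IrrCharacter ((Matrix.SpecialLinearGroup (Fin n) F) × Fˣ) := ⟨_, IsIrrCharacter.comp ψ.2 (MonoidHom.fst (Matrix.SpecialLinearGroup (Fin n) F) Fˣ) (fun g => ⟨(g, 1), rfl⟩)⟩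
    let Ψ : IrrCharacter ((Matrix.SpecialLinearGroup (Fin n) F) × Fˣ) := ⟨_, isIrrCharacter_hom_mul ((l.comp invMonoidHom).comp (MonoidHom.snd (Matrix.SpecialLinearGroup (Fin n) F) Fˣ)) χ'⟩
    obtain ⟨m, hm⟩ := exists_mult hπ Ψ
    refine ⟨m, ?_⟩
    rw [← hm]
    simp only [classInner, Ψ, χ', χ, Nat.card_prod, Finset.mul_sum, Finset.sum_mul]
    rw [Fintype.sum_prod_type]
    rw [Nat.card_eq_fintype_card (α := Fˣ), ← hqm]
    refine Finset.sum_congr rfl fun g _ => Finset.sum_congr rfl fun a _ => ?_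
    simp [hlconj, π, fx, mul_inv]
    ring
  have hinner : ∀ l m, classInner (χ l) (χ m) = (if l = 1 ∧ m = 1 then 1 else 0) + (if l = m then 1 else 0) := by
    intro l m
    have horth : ∀ k : Fˣ →* ℂˣ, ∑ a : Fˣ, (k a : ℂ) = if k = 1 then (qm : ℂ) else 0 := by
      intro k
      split_ifs with h
      · subst h; simp [hqm]
      · obtain ⟨b, hb⟩ : ∃ b, k b ≠ 1 := by
          by_contra hno
          push Not at hno
          exact h (MonoidHom.ext hno)
        have hs : (k b : ℂ) * ∑ a : Fˣ, (k a : ℂ) = ∑ a : Fˣ, (k a : ℂ) := by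
          rw [Finset.mul_sum]
          exact Fintype.sum_equiv (Equiv.mulLeft b) _ _ (fun a => by simp)
        by_contra hne'
        exact hb (Units.ext (mul_right_cancel₀ hne' (hs.trans (one_mul _).symm)))
    have e1 : classInner (χ l) (χ m) = (qm : ℂ)⁻¹ * (qm : ℂ)⁻¹ * (Nat.card (Matrix.SpecialLinearGroup (Fin n) F) : ℂ)⁻¹ *
        ∑ a : Fˣ, ∑ b : Fˣ, (l a : ℂ) * (m b⁻¹ : ℂ) * ((∑ g : (Matrix.SpecialLinearGroup (Fin n) F), fx g a * fx g b : ℕ) : ℂ) := by
      simp only [classInner, χ, map_mul, map_sum, map_inv₀, Complex.conj_natCast, hlconj, Nat.cast_sum, Nat.cast_mul, Finset.mul_sum, Finset.sum_mul]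
      rw [Finset.sum_comm]
      refine Finset.sum_comm_cycle.trans ?_
      refine Finset.sum_congr rfl fun a _ => ?_
      refine Finset.sum_congr rfl fun b _ => Finset.sum_congr rfl fun g _ => ?_
      ring
    rw [e1]
    simp only [hS2, Nat.cast_add, Nat.cast_ite, Nat.cast_mul, Nat.cast_zero, mul_add, Finset.sum_add_distrib, mul_ite, mul_zero, Finset.sum_ite_eq, Finset.mem_univ, if_true]
    rw [Nat.card_eq_fintype_card] at hG0 ⊢
    have t1 : ∑ a : Fˣ, ∑ b : Fˣ, (l a : ℂ) * (m b⁻¹ : ℂ) * (Fintype.card (Matrix.SpecialLinearGroup (Fin n) F) : ℂ) = (if l = 1 ∧ m = 1 then (qm : ℂ) * qm else 0) * Fintype.card (Matrix.SpecialLinearGroup (Fin n) F) := by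
      have hm' : ∑ b : Fˣ, (m b⁻¹ : ℂ) = if m = 1 then (qm : ℂ) else 0 :=
        (Fintype.sum_equiv (Equiv.inv Fˣ) (fun b => (m b⁻¹ : ℂ)) (fun b => (m b : ℂ)) (fun b => rfl)).trans (horth m)
      rw [← Finset.sum_congr rfl (fun a _ => Finset.sum_mul ..), ← Finset.sum_mul]
      congr 1
      rw [← Finset.sum_mul_sum, horth l, hm']
      split_ifs <;> simp_all
    have t2 : ∑ a : Fˣ, (l a : ℂ) * (m a⁻¹ : ℂ) * ((qm : ℂ) * Fintype.card (Matrix.SpecialLinearGroup (Fin n) F)) = (if l = m then (qm : ℂ) else 0) * ((qm : ℂ) * Fintype.card (Matrix.SpecialLinearGroup (Fin n) F)) := by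
      rw [← Finset.sum_mul]
      congr 1
      rw [Finset.sum_congr rfl (fun a _ => show (l a : ℂ) * (m a⁻¹ : ℂ) = ((l * m⁻¹) a : ℂ) by simp), horth]
      exact if_congr ⟨fun h => MonoidHom.ext fun a => by have := DFunLike.congr_fun h a; simpa [mul_inv_eq_one] using this, fun h => by subst h; ext a; simp⟩ rfl rfl
    rw [t1, t2]
    split_ifs <;> field_simp <;> ring
  have hinner1 : ∀ l, classInner (χ l) (fun _ => (1 : ℂ)) = if l = 1 then 1 else 0 := by
    intro l
    simp only [classInner, χ, map_one, mul_one]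
    rw [← Finset.mul_sum, Finset.sum_comm]
    simp only [← Finset.mul_sum, ← Nat.cast_sum, hS1]
    rw [← Finset.sum_mul, Nat.card_eq_fintype_card]
    rw [Nat.card_eq_fintype_card] at hG0
    split_ifs with h
    · subst h
      simp [← hqm]
      field_simp
    · obtain ⟨b, hb⟩ : ∃ b, l b ≠ 1 := by
        by_contra hno
        push Not at hno
        exact h (MonoidHom.ext hno)
      have hz : ∑ a : Fˣ, (l a : ℂ) = 0 := by
        have hs : (l b : ℂ) * ∑ a : Fˣ, (l a : ℂ) = ∑ a : Fˣ, (l a : ℂ) := by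
          rw [Finset.mul_sum]
          exact Fintype.sum_equiv (Equiv.mulLeft b) _ _ (fun a => by simp)
        by_contra hne'
        exact hb (Units.ext (mul_right_cancel₀ hne' (hs.trans (one_mul _).symm)))
      simp [hz]
  let φ : (Fˣ →* ℂˣ) → (Matrix.SpecialLinearGroup (Fin n) F) → ℂ := fun l g => χ l g - if l = 1 then 1 else 0
  have hφinner : ∀ l ψ, classInner (φ l) ψ = classInner (χ l) ψ - (if l = 1 then 1 else 0) * classInner (fun _ : (Matrix.SpecialLinearGroup (Fin n) F) => (1 : ℂ)) ψ := by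
    intro l ψ
    simp only [classInner, φ, sub_mul, Finset.sum_sub_distrib, mul_sub, one_mul, ← Finset.mul_sum]
    ring
  have hswap : ∀ f : (Matrix.SpecialLinearGroup (Fin n) F) → ℂ, classInner (fun _ : (Matrix.SpecialLinearGroup (Fin n) F) => (1 : ℂ)) f = conj (classInner f (fun _ => (1 : ℂ))) := by
    intro f
    simp [classInner]
  have hone1 : classInner (fun _ : (Matrix.SpecialLinearGroup (Fin n) F) => (1 : ℂ)) (fun _ : (Matrix.SpecialLinearGroup (Fin n) F) => (1 : ℂ)) = 1 := by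
    simp [classInner, Nat.card_eq_fintype_card]
  have hswap2 : ∀ (f : (Matrix.SpecialLinearGroup (Fin n) F) → ℂ) (g : (Matrix.SpecialLinearGroup (Fin n) F) → ℂ), classInner f g = conj (classInner g f) := by
    intro f g
    simp [classInner, mul_comm]
  have hφself : ∀ l, classInner (φ l) (φ l) = 1 := by
    intro l
    rw [hφinner, hswap2 (χ l) (φ l), hswap2 (fun _ : (Matrix.SpecialLinearGroup (Fin n) F) => (1 : ℂ)) (φ l), hφinner, hφinner, hinner, hinner1, hswap (χ l), hinner1, hone1]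
    clear hswap hswap2 hφinner
    split_ifs <;> simp_all
  have hφchar : ∀ l, IsCharacter (Matrix.SpecialLinearGroup (Fin n) F) (φ l) := by
    intro l
    refine isCharacter_of_mult (fun g h => by show χ l _ - _ = χ l _ - _; rw [hclass l g h]) (fun ψ => ?_)
    obtain ⟨m, hm⟩ := hmult l ψ
    rw [hφinner, hm]
    by_cases hl : l = 1
    · rw [if_pos hl, one_mul]
      let one : IrrCharacter (Matrix.SpecialLinearGroup (Fin n) F) := ⟨_, isIrrCharacter_one (Matrix.SpecialLinearGroup (Fin n) F)⟩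
      have := classInner_irr one ψ
      rw [show ((one : IrrCharacter (Matrix.SpecialLinearGroup (Fin n) F)) : (Matrix.SpecialLinearGroup (Fin n) F) → ℂ) = fun _ => (1 : ℂ) from rfl] at this
      rw [this]
      split_ifs with h1
      · subst h1
        have := hinner1 l
        rw [if_pos hl] at this
        exact ⟨0, by rw [← hm, show ((one : IrrCharacter (Matrix.SpecialLinearGroup (Fin n) F)) : (Matrix.SpecialLinearGroup (Fin n) F) → ℂ) = fun _ => (1 : ℂ) from rfl, this]; simp⟩
      · exact ⟨m, by simp⟩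
    · exact ⟨m, by simp [hl]⟩
  obtain ⟨e⟩ : Nonempty (Fin (Fintype.card F - 1) ≃ (Fˣ →* ℂˣ)) :=
    ⟨(Fintype.equivFinOfCardEq (hcardHom.trans (by rw [hqm, Fintype.card_units]))).symm⟩
  refine ⟨fun i => φ (e i), fun i => isIrrCharacter_of_norm_one (hφchar _) (hφself _), fun i j hij => ?_, fun g => ?_⟩
  · by_contra hne'
    have hne'' : e i ≠ e j := fun h => hne' (e.injective h)
    have h1 := hφself (e i)
    conv_lhs at h1 => arg 2; rw [show φ (e i) = φ (e j) from hij]
    rw [hφinner, hswap2 (χ (e i)) (φ (e j)), hswap2 (fun _ : (Matrix.SpecialLinearGroup (Fin n) F) => (1 : ℂ)) (φ (e j)), hφinner, hφinner, hinner, hinner1, hswap (χ (e i)), hinner1, hone1] at h1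
    clear hswap hswap2 hφinner
    split_ifs at h1 <;> simp_all
  · rw [Equiv.sum_comp e (fun l => φ l g)]
    simp only [φ, Finset.sum_sub_distrib, Finset.sum_ite_eq', Finset.mem_univ, if_true, χ, ← Finset.mul_sum]
    rw [Finset.sum_comm]
    simp only [← Finset.sum_mul, sum_hom, ite_mul, zero_mul, Finset.sum_ite_eq', Finset.mem_univ, if_true, hcardHom]
    rw [inv_mul_cancel_left₀ hqm0, add_sub_cancel]
    refine congrArg Nat.cast (Nat.card_congr ?_)
    exact
      { toFun := fun v => ⟨⟨v.1, v.2.1⟩, Subtype.ext (by rw [hsmul]; simpa using v.2.2)⟩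
        invFun := fun v => ⟨v.1.1, v.1.2, by simpa [hsmul] using congrArg Subtype.val v.2⟩
        left_inv := fun v => rfl
        right_inv := fun v => rfl }

end Cfsg.Agent.S2336
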