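import Cfsg.Statements.S2337
import Cfsg.Agent.Lib.Suzuki.MinDegree

set_option autoImplicit false
open Cfsg

namespace Cfsg.Agent.S2337

open CfsgLib.Suzuki

/-- For the Suzuki group Sz(q), q = 2^(2m+1) with m ≥ 1 (realised inside Sp₄ over the field with q elements), every irreducible complex representation of degree at least 2 has degree at least 2^m·(q − 1). -/

theorem result {F : Type*} [Field F] [Fintype F] (m : ℕ) (hm : 1 ≤ m) (hF : Fintype.card F = 2 ^ (2 * m + 1)) :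
    (∀ (k : ℕ) (ρ : Representation ℂ (Cfsg.Lie.Sz F (2 ^ (m + 1))) (Fin k → ℂ)), ρ.IsIrreducible → 2 ≤ k → 2 ^ m * (2 ^ (2 * m + 1) - 1) ≤ k) := by
  intro k ρ hρ hk
  have h : Hyp F m := ⟨hm, hF⟩
  obtain ⟨e⟩ := h.nonempty_equiv
  let σ : Cfsg.Sz F m →* ((Fin k → ℂ) →ₗ[ℂ] (Fin k → ℂ)) := ρ.comp e.symm.toMonoidHom
  have hdeg : (∃ b, σ (h.tG 0 b) ≠ 1) → 2 ^ m * (2 ^ (2 * m + 1) - 1) ≤ k := fun hf => by
    have := h.degree_ge σ hf
    rwa [hF, Module.finrank_fin_fun] at this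
  refine hdeg ?_
  by_contra hcon
  push Not at hcon
  haveI := h.simple
  rcases IsSimpleGroup.eq_bot_or_eq_top_of_normal σ.ker (MonoidHom.normal_ker σ) with hb | ht
  · have h1 : h.tG 0 1 ∈ σ.ker := hcon 1
    rw [hb, Subgroup.mem_bot, ← h.tG_zero] at h1
    exact one_ne_zero (h.tG_inj h1).2
  · have htriv : ∀ g, ρ g = 1 := fun g => by
      have : σ (e g) = 1 := MonoidHom.mem_ker.1 (ht ▸ Subgroup.mem_top (e g))
      simpa [σ] using this
    let i0 : Fin k := ⟨0, by omega⟩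
    let i1 : Fin k := ⟨1, by omega⟩
    have hinv : ∀ g ⦃v : Fin k → ℂ⦄, v ∈ Submodule.span ℂ {Pi.single i0 (1 : ℂ)} →
        ρ g v ∈ Submodule.span ℂ {(Pi.single i0 (1 : ℂ) : Fin k → ℂ)} := fun g v hv => by rw [htriv]; exact hv
    let W : Subrepresentation ρ := ⟨Submodule.span ℂ {Pi.single i0 1}, hinv⟩
    haveI : IsSimpleOrder (Subrepresentation ρ) := hρ
    rcases IsSimpleOrder.eq_bot_or_eq_top W with hW | hW
    · have hm' : (Pi.single i0 (1 : ℂ) : Fin k → ℂ) ∈ W.toSubmodule := Submodule.mem_span_singleton_self _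
      rw [hW] at hm'
      have := congrFun (show (Pi.single i0 (1 : ℂ) : Fin k → ℂ) = 0 from hm') i0
      simp at this
    · have hm' : (Pi.single i1 (1 : ℂ) : Fin k → ℂ) ∈ W.toSubmodule := by rw [hW]; trivial
      obtain ⟨c, hc⟩ := Submodule.mem_span_singleton.1 hm'
      have := congrFun hc i1
      simp [i0, i1, Pi.single_apply] at this

end Cfsg.Agent.S2337
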