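import Cfsg.Statements.S2354
import Cfsg.Agent.Lib.LawFree.PingPong
import Mathlib.FieldTheory.Finite.Basic
import Mathlib.Algebra.CharP.Two

set_option autoImplicit false
open Cfsg

namespace Cfsg.Agent.S2354

open Matrix

universe u

variable {F : Type u} [Field F] [CharP F 2]

theorem z_sq (b c : F) :
    (!![1, 0, 0, 0; 0, 1, 0, 0; b, 0, 1, 0; c, b, 0, 1] : Matrix (Fin 4) (Fin 4) F) *
      !![1, 0, 0, 0; 0, 1, 0, 0; b, 0, 1, 0; c, b, 0, 1] = 1 := by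
  ext i j
  fin_cases i <;> fin_cases j <;> simp [Matrix.mul_apply, Fin.sum_univ_four, CharTwo.add_self_eq_zero]

theorem w_sq :
    (!![0, 0, 0, 1; 0, 0, 1, 0; 0, 1, 0, 0; 1, 0, 0, 0] : Matrix (Fin 4) (Fin 4) F) *
      !![0, 0, 0, 1; 0, 0, 1, 0; 0, 1, 0, 0; 1, 0, 0, 0] = 1 := by
  ext i j
  fin_cases i <;> fin_cases j <;> simp [Matrix.mul_apply, Fin.sum_univ_four]

theorem m_inv :
    (!![1, 0, 0, 0; 1, 1, 0, 0; 0, 1, 1, 0; 1, 1, 1, 1] : Matrix (Fin 4) (Fin 4) F) *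
      !![1, 0, 0, 0; 1, 1, 0, 0; 1, 1, 1, 0; 1, 0, 1, 1] = 1 := by
  ext i j
  fin_cases i <;> fin_cases j <;> simp [Matrix.mul_apply, Fin.sum_univ_four, CharTwo.add_self_eq_zero]

/-- A root element of the Suzuki group. -/
def zElt (θ : ℕ) (b : F) : GL (Fin 4) F :=
  ⟨!![1, 0, 0, 0; 0, 1, 0, 0; b, 0, 1, 0; b ^ θ, b, 0, 1],
    !![1, 0, 0, 0; 0, 1, 0, 0; b, 0, 1, 0; b ^ θ, b, 0, 1], z_sq b _, z_sq b _⟩

/-- The long Weyl element. -/
def wElt : GL (Fin 4) F :=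
  ⟨!![0, 0, 0, 1; 0, 0, 1, 0; 0, 1, 0, 0; 1, 0, 0, 0],
    !![0, 0, 0, 1; 0, 0, 1, 0; 0, 1, 0, 0; 1, 0, 0, 0], w_sq, w_sq⟩

/-- A fixed unipotent element. -/
def mElt : GL (Fin 4) F :=
  ⟨!![1, 0, 0, 0; 1, 1, 0, 0; 0, 1, 1, 0; 1, 1, 1, 1],
    !![1, 0, 0, 0; 1, 1, 0, 0; 1, 1, 1, 0; 1, 0, 1, 1], m_inv, mul_eq_one_comm.mp m_inv⟩

/-- A torus element. -/
def dElt (θ : ℕ) (t : Fˣ) : GL (Fin 4) F :=
  ⟨diagonal ![(t : F), ((t ^ (θ - 1) : Fˣ) : F), (((t ^ (θ - 1))⁻¹ : Fˣ) : F), ((t⁻¹ : Fˣ) : F)],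
    diagonal ![((t⁻¹ : Fˣ) : F), (((t ^ (θ - 1))⁻¹ : Fˣ) : F), ((t ^ (θ - 1) : Fˣ) : F), (t : F)],
    by rw [diagonal_mul_diagonal]; ext i j; fin_cases i <;> fin_cases j <;> simp,
    by rw [diagonal_mul_diagonal]; ext i j; fin_cases i <;> fin_cases j <;> simp⟩

theorem mem_of_generator {θ : ℕ} {g : GL (Fin 4) F}
    (h1 : ∀ u v : Fin 4 → F, Cfsg.Lie.altForm4 ((g : Matrix (Fin 4) (Fin 4) F) *ᵥ u)
      ((g : Matrix (Fin 4) (Fin 4) F) *ᵥ v) = Cfsg.Lie.altForm4 u v)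
    (h2 : Cfsg.Lie.star4 (g : Matrix (Fin 4) (Fin 4) F) =
      (g : Matrix (Fin 4) (Fin 4) F).map (fun x => x ^ θ)) :
    g ∈ Cfsg.Lie.Sz F θ :=
  Subgroup.subset_closure ⟨h1, h2⟩

theorem zElt_mem {θ : ℕ} (hθ : θ ≠ 0) (hsq : ∀ x : F, (x ^ θ) ^ θ = x ^ 2) (b : F) :
    zElt θ b ∈ Cfsg.Lie.Sz F θ := by
  refine mem_of_generator (fun u v => ?_) ?_
  · simp [zElt, Cfsg.Lie.altForm4, Matrix.mulVec, dotProduct, Fin.sum_univ_four]
    linear_combination (b * u 0 * v 1 + b * u 1 * v 0 + b ^ θ * u 0 * v 0) *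
      (CharTwo.two_eq_zero (R := F))
  · ext i j
    fin_cases i <;> fin_cases j <;>
      simp [zElt, Cfsg.Lie.star4, Cfsg.Lie.pairOf, zero_pow hθ, hsq, sq, CharTwo.sub_eq_add]

theorem wElt_mem {θ : ℕ} (hθ : θ ≠ 0) : (wElt : GL (Fin 4) F) ∈ Cfsg.Lie.Sz F θ := by
  refine mem_of_generator (fun u v => ?_) ?_
  · simp [wElt, Cfsg.Lie.altForm4, Matrix.mulVec, dotProduct, Fin.sum_univ_four]
    ring
  · ext i j
    fin_cases i <;> fin_cases j <;>
      simp [wElt, Cfsg.Lie.star4, Cfsg.Lie.pairOf, zero_pow hθ, CharTwo.sub_eq_add]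

theorem mElt_mem {θ : ℕ} (hθ : θ ≠ 0) : (mElt : GL (Fin 4) F) ∈ Cfsg.Lie.Sz F θ := by
  refine mem_of_generator (fun u v => ?_) ?_
  · simp [mElt, Cfsg.Lie.altForm4, Matrix.mulVec, dotProduct, Fin.sum_univ_four]
    linear_combination (u 0 * v 0 + u 0 * v 1 + u 1 * v 0 + u 1 * v 1 + u 0 * v 2 + u 2 * v 0) *
      (CharTwo.two_eq_zero (R := F))
  · ext i j
    fin_cases i <;> fin_cases j <;>
      simp [mElt, Cfsg.Lie.star4, Cfsg.Lie.pairOf, zero_pow hθ, CharTwo.sub_eq_add,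
        CharTwo.add_self_eq_zero]

theorem dElt_mem {θ : ℕ} (hθ : θ ≠ 0) (hsq : ∀ x : F, (x ^ θ) ^ θ = x ^ 2) (t : Fˣ) :
    dElt θ t ∈ Cfsg.Lie.Sz F θ := by
  set v : Fˣ := t ^ (θ - 1) with hv_def
  have h1 : t * v = t ^ θ := by
    rw [hv_def, ← pow_succ', Nat.sub_add_cancel (Nat.one_le_iff_ne_zero.mpr hθ)]
  have h2 : t * v⁻¹ = v ^ θ := by
    have hv : v = t⁻¹ * t ^ θ := by rw [← h1, inv_mul_cancel_left]
    have hsq' : (t ^ θ) ^ θ = t ^ 2 := Units.ext (by simpa using hsq (t : F))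
    rw [hv, mul_pow, hsq', inv_pow, _root_.mul_inv_rev, inv_inv, mul_left_comm, sq]
  have e1 : (t : F) * (v : F) = (t : F) ^ θ := by exact_mod_cast congrArg Units.val h1
  have e2 : (t : F) * ((v⁻¹ : Fˣ) : F) = (v : F) ^ θ := by
    simpa using congrArg Units.val h2
  have e3 : (v : F) * ((t⁻¹ : Fˣ) : F) = ((v⁻¹ : Fˣ) : F) ^ θ := by
    have := congrArg Units.val (congrArg (·⁻¹) h2)
    simpa [mul_comm] using this
  have e4 : ((v⁻¹ : Fˣ) : F) * ((t⁻¹ : Fˣ) : F) = ((t⁻¹ : Fˣ) : F) ^ θ := by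
    have := congrArg Units.val (congrArg (·⁻¹) h1)
    simpa [mul_comm] using this
  refine mem_of_generator (fun a b => ?_) ?_
  · simp [dElt, ← hv_def, Cfsg.Lie.altForm4, Matrix.mulVec, dotProduct, Fin.sum_univ_four]
    field_simp
  · ext i j
    fin_cases i <;> fin_cases j <;>
      simp [dElt, ← hv_def, Cfsg.Lie.star4, Cfsg.Lie.pairOf, zero_pow hθ] <;>
      first | exact e1 | exact e2 | exact e3 | exact e4 |
        simpa using e1 | simpa using e2 | simpa using e3 | simpa using e4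

/-- The ping-pong configuration in the Suzuki group. -/
def szConfig (θ : ℕ) (b : ℕ → F) : CfsgLib.LawFree.Config F (Fin 4) ℕ where
  P a := ((zElt θ (b a) * wElt * mElt : GL (Fin 4) F) : Matrix (Fin 4) (Fin 4) F)
  Q a := (((zElt θ (b a) * wElt * mElt)⁻¹ : GL (Fin 4) F) : Matrix (Fin 4) (Fin 4) F)
  d x := if x then ![θ, 2 * θ - 2, 0, θ - 2] else ![θ - 2, 0, 2 * θ - 2, θ]
  top x := if x then 1 else 2
  e := 2 * θ - 2

theorem torus_scalar {θ : ℕ} (hθ : 2 < θ) (t : Fˣ) :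
    ((dElt θ t : GL (Fin 4) F) : Matrix (Fin 4) (Fin 4) F) =
      (((t : F) ^ (θ - 1))⁻¹) • diagonal (fun i => (t : F) ^ (![θ, 2 * θ - 2, 0, θ - 2]) i) ∧
    (((dElt θ t)⁻¹ : GL (Fin 4) F) : Matrix (Fin 4) (Fin 4) F) =
      (((t : F) ^ (θ - 1))⁻¹) • diagonal (fun i => (t : F) ^ (![θ - 2, 0, 2 * θ - 2, θ]) i) := by
  obtain ⟨r, rfl⟩ : ∃ r, θ = r + 2 := ⟨θ - 2, by omega⟩
  rw [show r + 2 - 1 = r + 1 by omega, show 2 * (r + 2) - 2 = 2 * r + 2 by omega,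
    show r + 2 - 2 = r by omega]
  have ht : (t : F) ≠ 0 := t.ne_zero
  constructor <;> ext i j <;> fin_cases i <;> fin_cases j <;>
    simp [dElt, Units.inv_mk] <;> field_simp <;> ring

theorem sz_entries {θ : ℕ} (b b' : F) (hadd : (b + b') ^ θ = b ^ θ + b' ^ θ) :
    let A := (((zElt θ b * wElt * mElt)⁻¹ : GL (Fin 4) F) : Matrix (Fin 4) (Fin 4) F) *
      ((zElt θ b' * wElt * mElt : GL (Fin 4) F) : Matrix (Fin 4) (Fin 4) F)
    A 1 1 = (b + b') ^ θ + 1 ∧ A 1 2 = (b + b') ^ θ ∧ A 2 1 = (b + b') ^ θ ∧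
      A 2 2 = (b + b') ^ θ + 1 := by
  intro A
  have h2 := CharTwo.two_eq_zero (R := F)
  simp only [A, _root_.mul_inv_rev, Units.val_mul]
  simp [zElt, wElt, mElt, Units.inv_mk, Matrix.mul_apply, Fin.sum_univ_four, hadd]
  refine ⟨?_, ?_, ?_, ?_⟩ <;> grind

/-- A non-trivial law holds in only finitely many Suzuki groups: for every non-trivial element w of the free group on countably many generators there is N such that for q = 2^(2m+1) with m ≥ N some substitution of elements of the Suzuki group over the field with q elements into w is not the identity. -/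
theorem result (w : FreeGroup ℕ) (hw : w ≠ 1) :
    ∃ N : ℕ, ∀ (F : Type*) [Field F] [Fintype F] (m : ℕ), 1 ≤ m → N ≤ m →
      Fintype.card F = 2 ^ (2 * m + 1) →
      ∃ f : ℕ → ↥(Cfsg.Lie.Sz F (2 ^ (m + 1))), FreeGroup.lift f w ≠ 1 := by
  refine ⟨4 * w.toWord.length + 4 * CfsgLib.LawFree.genBound w + 4, fun F _ _ m _ hm hF => ?_⟩
  classical
  have := Fact.mk Nat.prime_two
  have : CharP F 2 := charP_of_card_eq_prime_pow hF
  set θ := 2 ^ (m + 1) with hθ_def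
  have hθm : m + 1 < θ := Nat.lt_two_pow_self
  have hθ0 : θ ≠ 0 := by omega
  have hθθ : θ * θ = 2 * Fintype.card F := by
    rw [hF, hθ_def, ← pow_add, ← pow_succ']; congr 1; omega
  have hsq : ∀ x : F, (x ^ θ) ^ θ = x ^ 2 := fun x => by
    rw [← pow_mul, hθθ, mul_comm, pow_mul, FiniteField.pow_card]
  have hadd : ∀ x y : F, (x + y) ^ θ = x ^ θ + y ^ θ := fun x y => by
    rw [hθ_def]; exact add_pow_char_pow ..
  obtain ⟨b, hb⟩ := CfsgLib.LawFree.exists_separated ({1} : Finset F)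
    (CfsgLib.LawFree.genBound w) (by
      have : 2 * m + 1 < Fintype.card F := hF ▸ Nat.lt_two_pow_self
      simp only [Finset.card_singleton]; omega)
  have hne : ∀ x : F, x ≠ 0 → x ≠ 1 → x ^ θ ≠ 0 ∧ x ^ θ + 1 ≠ 0 := fun x h0 h1 => by
    refine ⟨pow_ne_zero _ h0, fun h => h1 ?_⟩
    rw [CharTwo.add_eq_zero] at h
    have h' := hsq x
    rw [h, one_pow] at h'
    have h2 : (x + 1) ^ 2 = 0 := by
      rw [CharTwo.add_sq, ← h', one_pow, CharTwo.add_self_eq_zero]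
    exact CharTwo.add_eq_zero.mp (sq_eq_zero_iff.mp h2)
  have hgood : (szConfig θ b).Good {a | ∃ x, (a, x) ∈ w.toWord} := by
    refine ⟨fun a _ => ?_, ?_, ?_, ?_⟩
    · exact Units.inv_mul (zElt θ (b a) * wElt * mElt)
    · intro x i hi
      cases x <;> fin_cases i <;> simp [szConfig] at hi ⊢ <;> omega
    · intro x
      cases x <;> simp [szConfig]
    · intro a ⟨x, hx⟩ a' ⟨x', hx'⟩ haa y y'
      obtain ⟨h0, h1⟩ := hb a (CfsgLib.LawFree.lt_genBound hx) a' (CfsgLib.LawFree.lt_genBound hx') haa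
      rw [CharTwo.sub_eq_add] at h0 h1
      rw [Finset.mem_singleton] at h1
      obtain ⟨n0, n1⟩ := hne _ h0 h1
      obtain ⟨e1, e2, e3, e4⟩ := sz_entries (θ := θ) (b a) (b a') (hadd _ _)
      cases y <;> cases y' <;> simp only [szConfig, Bool.false_eq_true, if_false, if_true]
      · exact e4.symm ▸ n1
      · exact e3.symm ▸ n0
      · exact e2.symm ▸ n0
      · exact e1.symm ▸ n1
  obtain ⟨t, ht, hmain⟩ := CfsgLib.LawFree.exists_param_not_scalar (szConfig θ b) w hw hgood (by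
    show w.toWord.length * (2 * θ - 2) + 1 < Fintype.card F
    have h1 : w.toWord.length * (2 * θ - 2) ≤ 2 * (w.toWord.length * θ) := by
      calc w.toWord.length * (2 * θ - 2) ≤ w.toWord.length * (2 * θ) :=
            Nat.mul_le_mul_left _ (Nat.sub_le _ _)
        _ = 2 * (w.toWord.length * θ) := by ring
    have h2 : (4 * w.toWord.length + 4) * θ ≤ θ * θ := Nat.mul_le_mul_right _ (by omega)
    have h3 : (4 * w.toWord.length + 4) * θ = 4 * (w.toWord.length * θ) + 4 * θ := by ring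
    omega)
  obtain ⟨hD, hDinv⟩ := torus_scalar (F := F) (θ := θ) (by omega) (Units.mk0 t ht)
  have hg : ∀ a, zElt θ (b a) * wElt * mElt ∈ Cfsg.Lie.Sz F θ := fun a =>
    mul_mem (mul_mem (zElt_mem hθ0 hsq _) (wElt_mem hθ0)) (mElt_mem hθ0)
  refine ⟨fun a => ⟨(zElt θ (b a) * wElt * mElt) * dElt θ (Units.mk0 t ht) *
    (zElt θ (b a) * wElt * mElt)⁻¹,
    mul_mem (mul_mem (hg a) (dElt_mem hθ0 hsq _)) (inv_mem (hg a))⟩, fun hone => ?_⟩
  refine hmain ((Units.coeHom _).comp (Cfsg.Lie.Sz F θ).subtype) _ ((t ^ (θ - 1))⁻¹)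
    (inv_ne_zero (pow_ne_zero _ ht)) ?_ 1 (by rw [hone, map_one, one_smul])
  intro a _
  simp only [Units.val_mk0] at hD hDinv
  constructor
  · simp only [MonoidHom.comp_apply, Units.coeHom_apply, Subgroup.coe_subtype, Units.val_mul, hD,
      szConfig, if_true, Matrix.mul_smul, Matrix.smul_mul]
  · simp only [MonoidHom.comp_apply, Units.coeHom_apply, Subgroup.coe_subtype, InvMemClass.coe_inv,
      _root_.mul_inv_rev, inv_inv, Units.val_mul, hDinv, szConfig, Bool.false_eq_true, if_false,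
      Matrix.mul_smul, Matrix.smul_mul, Matrix.mul_assoc]

end Cfsg.Agent.S2354
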