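import Cfsg.Statements.S2355
import Cfsg.Agent.Lib.LawFree.Classical

set_option autoImplicit false
open Cfsg

namespace Cfsg.Agent.S2355

open CfsgLib.LawFree Matrix MatrixGroups

universe u

section bound

variable {G : Type u} [Group G] [Finite G] {F : Type} [Field F] [Fintype F]

theorem law_false {H : Type*} [Group H] (e : G ≃* H) (w : FreeGroup ℕ)
    (hlaw : ∀ f : ℕ → G, FreeGroup.lift f w = 1) (h : ∃ f : ℕ → H, FreeGroup.lift f w ≠ 1) :
    False := by
  obtain ⟨f, hf⟩ := h
  refine hf ?_
  have h1 : FreeGroup.lift f = e.toMonoidHom.comp (FreeGroup.lift (fun i => e.symm (f i))) := by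
    ext i
    simp
  rw [h1, MonoidHom.comp_apply, hlaw, map_one]

theorem card_le_of_injective {H : Type} {ι : Type} [Fintype ι] [DecidableEq ι]
    (f : H → Matrix ι ι F) (hf : Function.Injective f) :
    Nat.card H ≤ Fintype.card F ^ (Fintype.card ι * Fintype.card ι) := by
  refine (Nat.card_le_card_of_injective f hf).trans (le_of_eq ?_)
  show Nat.card (ι → ι → F) = _
  rw [Nat.card_fun, Nat.card_fun, Nat.card_eq_fintype_card, Nat.card_eq_fintype_card, pow_mul]

theorem card_quotient_le {H : Type} [Group H] (Z : Subgroup H) [Z.Normal] {ι : Type} [Fintype ι]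
    [DecidableEq ι] (e : G ≃* H ⧸ Z) (f : H → Matrix ι ι F) (hf : Function.Injective f) {A D : ℕ}
    (hA : Fintype.card F ≤ A) (hD : Fintype.card ι ≤ D) :
    Nat.card G ≤ A ^ (D * D) := by
  have : Finite H := Finite.of_injective f hf
  rw [Nat.card_congr e.toEquiv]
  refine (Nat.card_le_card_of_surjective QuotientGroup.mk (Quot.mk_surjective)).trans
    ((card_le_of_injective f hf).trans ?_)
  exact (Nat.pow_le_pow_left hA _).trans
    (Nat.pow_le_pow_right (Fintype.card_pos.trans_le hA) (Nat.mul_le_mul hD hD))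

theorem exists_hom (P : ℕ) [Fact P.Prime] (w : FreeGroup ℕ) (hP : sl2Bound w ≤ P) {m : ℕ}
    (hm : 2 ≤ m) (h : P ^ 2 ≤ m ∨ sl2Bound w ≤ Fintype.card F) :
    ∃ (K : Type) (_ : Field K) (_ : Fintype K) (φ : SL(2, K) →* GL (Fin m) F),
      sl2Bound w ≤ Fintype.card K ∧ Function.Injective φ := by
  rcases h with h | h
  · obtain ⟨π, hπ⟩ := exists_perm_hom (K := ZMod P) (n := m) (by rwa [ZMod.card])
    refine ⟨ZMod P, inferInstance, inferInstance, (permGL F m).comp π, by rwa [ZMod.card], ?_⟩
    rw [MonoidHom.coe_comp]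
    exact (permGL_injective m).comp hπ
  · refine ⟨F, inferInstance, inferInstance,
      (cornerHom hm).comp Matrix.SpecialLinearGroup.toGL, h, ?_⟩
    rw [MonoidHom.coe_comp]
    exact (cornerHom_injective hm).comp Matrix.SpecialLinearGroup.toGL_injective

theorem omega_bound (P : ℕ) [Fact P.Prime] (w : FreeGroup ℕ) (hw : w ≠ 1) (hP : sl2Bound w ≤ P)
    {m : ℕ} (hm : 2 ≤ m) {ι : Type} [Fintype ι] [DecidableEq ι] (hι : Fintype.card ι ≤ 2 * m + 3)
    (Q : (ι → F) → F) (L : GL (Fin m) F →* GL ι F) (hLinj : Function.Injective L)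
    (hL : ∀ g, L g ∈ Cfsg.isometryGroup F Q)
    (e : G ≃* Cfsg.POmega F Q) (hlaw : ∀ f : ℕ → G, FreeGroup.lift f w = 1) :
    Nat.card G ≤ (sl2Bound w ^ 2) ^ ((2 * P ^ 2 + 7) * (2 * P ^ 2 + 7)) := by
  by_cases h : P ^ 2 ≤ m ∨ sl2Bound w ≤ Fintype.card F
  · obtain ⟨K, _, _, φ, hK, hφ⟩ := exists_hom P w hP hm h
    exact (law_false e w hlaw (pomega_word w hw hK Q (L.comp φ)
      (fun x y hxy => hφ (hLinj hxy)) (fun x => hL (φ x)))).elim
  · simp only [not_or, not_le] at h
    exact card_quotient_le _ e (fun x => ((x.1.1 : GL ι F) : Matrix ι ι F))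
      (fun x y hxy => Subtype.ext (Subtype.ext (Units.ext hxy)))
      ((Nat.le_of_lt h.2).trans (Nat.le_self_pow two_ne_zero _)) (by omega)

end bound

/-- A non-trivial law is satisfied by only finitely many finite simple groups that are alternating or classical, up to isomorphism: for every non-trivial element w of the free group on countably many generators there is a bound N such that every alternating group of degree ≥ 5 and every simple classical group (linear, symplectic, unitary or orthogonal, in this problem's sense) in which w is a law has order at most N. -/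
theorem result (w : FreeGroup ℕ) (hw : w ≠ 1) :
    ∃ N : ℕ, ∀ (G : Type*) [Group G] [Finite G],
      (Cfsg.IsAlternating G ∨ Cfsg.IsPSL G ∨ Cfsg.IsPSp G ∨ Cfsg.IsPSU G ∨ Cfsg.IsPOmegaOdd G ∨
          Cfsg.IsPOmegaPlus G ∨ Cfsg.IsPOmegaMinus G) →
      (∀ f : ℕ → G, FreeGroup.lift f w = 1) → Nat.card G ≤ N := by
  obtain ⟨P, hP, hprime⟩ := Nat.exists_infinite_primes (sl2Bound w)
  have := Fact.mk hprime
  refine ⟨max (P ^ 2).factorial ((sl2Bound w ^ 2) ^ ((2 * P ^ 2 + 7) * (2 * P ^ 2 + 7))),
    fun G _ _ hfam hlaw => ?_⟩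
  rcases hfam with ⟨n, -, ⟨e⟩⟩ | ⟨F, _, _, n, hn, -, ⟨e⟩⟩ | ⟨F, _, _, m, hm, -, ⟨e⟩⟩ |
    ⟨F, _, _, n, q, hF, hn, -, ⟨e⟩⟩ | ⟨F, _, _, m, hm, -, ⟨e⟩⟩ | ⟨F, _, _, m, hm, ⟨e⟩⟩ |
    ⟨F, _, _, m, a, b, hm, -, ⟨e⟩⟩
  · refine le_max_of_le_left ?_
    by_cases h : P ^ 2 ≤ n
    · exact (law_false e w hlaw
        (alternating_word (K := ZMod P) w hw (by rwa [ZMod.card]) (by rwa [ZMod.card]))).elim
    · rw [Nat.card_congr e.toEquiv]
      refine (Nat.card_le_card_of_injective _ Subtype.val_injective).trans ?_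
      rw [Nat.card_perm, Nat.card_fin]
      exact Nat.factorial_le (by omega)
  · refine le_max_of_le_right ?_
    by_cases h : P ^ 2 ≤ n ∨ sl2Bound w ≤ Fintype.card F
    · obtain ⟨K, _, _, φ, hK, hφ⟩ := exists_hom P w hP hn h
      exact (law_false e w hlaw (psl_word w hw hK φ hφ)).elim
    · simp only [not_or, not_le] at h
      exact card_quotient_le _ e (fun x => (x : Matrix (Fin n) (Fin n) F)) Subtype.val_injective
        ((Nat.le_of_lt h.2).trans (Nat.le_self_pow two_ne_zero _))
        (by rw [Fintype.card_fin]; omega)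
  · refine le_max_of_le_right ?_
    by_cases h : P ^ 2 ≤ m ∨ sl2Bound w ≤ Fintype.card F
    · obtain ⟨K, _, _, φ, hK, hφ⟩ := exists_hom P w hP hm h
      exact (law_false e w hlaw (psp_word w hw hK φ hφ)).elim
    · simp only [not_or, not_le] at h
      exact card_quotient_le _ e
        (fun x => (x : Matrix (Fin m ⊕ Fin m) (Fin m ⊕ Fin m) F)) Subtype.val_injective
        ((Nat.le_of_lt h.2).trans (Nat.le_self_pow two_ne_zero _))
        (by rw [Fintype.card_sum, Fintype.card_fin]; omega)
  · refine le_max_of_le_right ?_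
    by_cases h : P ^ 2 ≤ n
    · obtain ⟨π, hπ⟩ := exists_perm_hom (K := ZMod P) (n := n) (by rwa [ZMod.card])
      exact (law_false e w hlaw (psu_word (K := ZMod P) w hw (by rwa [ZMod.card])
        ((permGL F n).comp π) (fun x y hxy => hπ (permGL_injective n hxy))
        (fun x => hermForm_perm (π x)))).elim
    by_cases hq : sl2Bound w ≤ q
    · obtain ⟨K, _, _, φ, hK, hφ, hmem⟩ := exists_sl2_unitary (F := F) (n := n)
        (by unfold sl2Bound at hq; omega) (by omega) hF
      exact (law_false e w hlaw (psu_word w hw (by rwa [hK]) φ hφ hmem)).elim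
    · exact card_quotient_le _ e
        (fun x => (x.1 : Matrix (Fin n) (Fin n) F))
        (fun x y hxy => Subtype.ext (Subtype.ext hxy))
        (hF ▸ Nat.pow_le_pow_left (by omega) 2) (by rw [Fintype.card_fin]; omega)
  · refine le_max_of_le_right (omega_bound P w hw hP (m := m) (by omega) (by simp; omega)
      (Cfsg.quadFormOdd m F)
      ((reindexGL (Equiv.sumComm (Fin m ⊕ Fin m) Unit)).comp ((padGL (β := Unit)).comp leviHom))
      (fun x y hxy => leviHom_injective (padGL_injective (reindexGL_injective _ hxy)))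
      (fun g => levi_mem_odd g) e hlaw)
  · refine le_max_of_le_right (omega_bound P w hw hP (m := m) (by omega) (by simp; omega)
      (Cfsg.quadFormPlus m F) leviHom leviHom_injective (fun g => levi_mem_plus g) e hlaw)
  · refine le_max_of_le_right (omega_bound P w hw hP (m := m - 1) (by omega) (by simp; omega)
      (Cfsg.quadFormMinus (m - 1) F a b) ((padGL (β := Fin 2)).comp leviHom)
      (fun x y hxy => leviHom_injective (padGL_injective hxy))
      (fun g => levi_mem_minus a b g) e hlaw)

end Cfsg.Agent.S2355
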