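import Cfsg.Statements.S2670
import Mathlib
import Cfsg.Agent.Lib.Semisimple.CharpolyConj

set_option autoImplicit false
open Cfsg

namespace Cfsg.Agent.S2670


open Polynomial in
theorem realizeC {F : Type*} [Field F] (r : ℕ) (c : F) (s : Multiset F[X])
    (hs : ∀ φ ∈ s, φ.Monic ∧ Irreducible φ ∧ φ ∣ X ^ r - C c) :
    ∀ m : ℕ, (s.map natDegree).sum = m →
      ∃ A : Matrix (Fin m) (Fin m) F, A ^ r = algebraMap F (Matrix (Fin m) (Fin m) F) c ∧ A.charpoly = s.prod := by
  classical
  induction s using Multiset.induction with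
  | empty =>
    intro m hm
    simp only [Multiset.map_zero, Multiset.sum_zero] at hm
    subst hm
    exact ⟨0, Subsingleton.elim _ _, by rw [Multiset.prod_zero, Matrix.charpoly, Matrix.det_isEmpty]⟩
  | cons φ s ih =>
    intro m hm
    obtain ⟨hmon, hirr, hdvd⟩ := hs φ (Multiset.mem_cons_self _ _)
    obtain ⟨B, hB, hBc⟩ := ih (fun ψ h => hs ψ (Multiset.mem_cons_of_mem h)) _ rfl
    rw [Multiset.map_cons, Multiset.sum_cons] at hm
    let pb := AdjoinRoot.powerBasis hmon.ne_zero
    let A := Algebra.leftMulMatrix pb.basis pb.gen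
    have hA : A ^ r = algebraMap F _ c := by
      rw [← map_pow]
      have h1 : (AdjoinRoot.root φ) ^ r - algebraMap F (AdjoinRoot φ) c = 0 := by
        have h2 := AdjoinRoot.mk_eq_zero.2 hdvd
        rw [map_sub, map_pow, AdjoinRoot.mk_X, AdjoinRoot.mk_C] at h2
        exact h2
      rw [show pb.gen = AdjoinRoot.root φ from AdjoinRoot.powerBasis_gen _, sub_eq_zero.1 h1, AlgHom.commutes]
    have hAc : A.charpoly = φ := by
      rw [charpoly_leftMulMatrix]
      exact AdjoinRoot.minpoly_powerBasis_gen_of_monic hmon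
    have hdim : pb.dim = φ.natDegree := AdjoinRoot.powerBasis_dim _
    let e : Fin pb.dim ⊕ Fin (s.map natDegree).sum ≃ Fin m := finSumFinEquiv.trans (finCongr (by omega))
    refine ⟨Matrix.reindexAlgEquiv F F e (Matrix.fromBlocks A 0 0 B), ?_, ?_⟩
    · rw [← map_pow, Matrix.fromBlocks_diagonal_pow, hA, hB]
      rw [show Matrix.fromBlocks (algebraMap F (Matrix (Fin pb.dim) (Fin pb.dim) F) c) 0 0 (algebraMap F (Matrix (Fin (s.map natDegree).sum) (Fin (s.map natDegree).sum) F) c)
        = algebraMap F (Matrix (Fin pb.dim ⊕ Fin (s.map natDegree).sum) (Fin pb.dim ⊕ Fin (s.map natDegree).sum) F) c from ?_, AlgEquiv.commutes]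
      rw [Algebra.algebraMap_eq_smul_one, Algebra.algebraMap_eq_smul_one, Algebra.algebraMap_eq_smul_one, ← Matrix.fromBlocks_one, Matrix.fromBlocks_smul]
      simp
    · rw [Matrix.coe_reindexAlgEquiv, Matrix.charpoly_reindex, Matrix.charpoly_fromBlocks_zero₁₂, hAc, hBc, Multiset.prod_cons]

variable {F : Type*} [Field F] {n : ℕ}

/-- Scalar matrices. -/
def sc (n : ℕ) : Fˣ →* GL (Fin n) F := Units.map (Matrix.scalar (Fin n)).toMonoidHom

theorem sc_val (a : Fˣ) : ((sc n a : GL (Fin n) F) : Matrix (Fin n) (Fin n) F) = Matrix.scalar (Fin n) (a : F) := rfl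

theorem sc_comm (a : Fˣ) (g : GL (Fin n) F) : Commute (sc n a) g :=
  Units.ext (Matrix.scalar_commute (a : F) (fun _ => Commute.all _ _) (g : Matrix (Fin n) (Fin n) F)).eq

theorem mem_center_iff_sc [NeZero n] (g : GL (Fin n) F) : g ∈ Subgroup.center (GL (Fin n) F) ↔ ∃ a, g = sc n a := by
  constructor
  · intro hg
    obtain ⟨a, ha⟩ := Matrix.GeneralLinearGroup.mem_center_iff_val_mem_range_scalar.1 hg
    have ha0 : a ≠ 0 := by
      rintro rfl
      have := ((Matrix.isUnit_iff_isUnit_det _).1 g.isUnit).ne_zero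
      rw [← ha] at this
      simp at this
    exact ⟨Units.mk0 a ha0, Units.ext (by rw [sc_val, Units.val_mk0, ha])⟩
  · rintro ⟨a, rfl⟩
    rw [Subgroup.mem_center_iff]
    exact fun h => (sc_comm a h).eq.symm

/-- Diagonal matrices. -/
def dg (d : Fin n → Fˣ) : GL (Fin n) F :=
  Matrix.GeneralLinearGroup.mkOfDetNeZero (Matrix.diagonal fun i => (d i : F))
    (by rw [Matrix.det_diagonal]; exact Finset.prod_ne_zero_iff.2 fun i _ => (d i).ne_zero)

theorem dg_val (d : Fin n → Fˣ) : ((dg d : GL (Fin n) F) : Matrix (Fin n) (Fin n) F) = Matrix.diagonal fun i => (d i : F) := rfl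

theorem sc_mul_dg (a : Fˣ) (d : Fin n → Fˣ) : sc n a * dg d = dg (fun i => a * d i) := by
  refine Units.ext ?_
  rw [Units.val_mul, sc_val, dg_val, dg_val, Matrix.scalar_apply, Matrix.diagonal_mul_diagonal]
  exact congrArg Matrix.diagonal (funext fun i => (Units.val_mul a (d i)).symm)

theorem dg_pow (d : Fin n → Fˣ) (k : ℕ) : dg d ^ k = dg (fun i => d i ^ k) := by
  refine Units.ext ?_
  rw [Units.val_pow_eq_pow_val, dg_val, dg_val, Matrix.diagonal_pow]
  exact congrArg Matrix.diagonal (funext fun i => by simp)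

theorem roots_dg (d : Fin n → Fˣ) :
    ((dg d : GL (Fin n) F) : Matrix (Fin n) (Fin n) F).charpoly.roots = (Finset.univ.val.map d).map (fun u : Fˣ => (u : F)) := by
  rw [dg_val, Matrix.charpoly_diagonal, Finset.prod,
    show Finset.univ.val.map (fun i => Polynomial.X - Polynomial.C ((d i : F))) = ((Finset.univ.val.map d).map (fun u : Fˣ => (u : F))).map (fun a => Polynomial.X - Polynomial.C a) from by
      rw [Multiset.map_map, Multiset.map_map]; rfl,
    Polynomial.roots_multiset_prod_X_sub_C]

theorem charpoly_isConj {g h : GL (Fin n) F} (hgh : IsConj g h) :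
    (g : Matrix (Fin n) (Fin n) F).charpoly = (h : Matrix (Fin n) (Fin n) F).charpoly := by
  obtain ⟨c, hc⟩ := isConj_iff.1 hgh
  rw [← hc, Units.val_mul, Units.val_mul, Matrix.coe_units_inv, Matrix.charpoly_units_conj]

theorem conj_of_charpoly {r : ℕ} (hr : (r : F) ≠ 0) {c : Fˣ} {g h : GL (Fin n) F} (hg : g ^ r = sc n c) (hh : h ^ r = sc n c)
    (hc : (g : Matrix (Fin n) (Fin n) F).charpoly = (h : Matrix (Fin n) (Fin n) F).charpoly) : IsConj g h := by
  classical
  have hss : ∀ x : GL (Fin n) F, x ^ r = sc n c →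
      Module.End.IsSemisimple (Matrix.toLin' (x : Matrix (Fin n) (Fin n) F)) := fun x hx =>
    Module.End.isSemisimple_of_squarefree_aeval_eq_zero
      ((Polynomial.separable_X_pow_sub_C (c : F) hr c.ne_zero).squarefree)
      (by
        have h1 : (x : Matrix (Fin n) (Fin n) F) ^ r = algebraMap F _ (c : F) := by
          rw [← Units.val_pow_eq_pow_val, hx]; rfl
        have h2 : (Matrix.toLin' (x : Matrix (Fin n) (Fin n) F)) ^ r = algebraMap F (Module.End F (Fin n → F)) (c : F) := by
          rw [← Matrix.toLin'_pow, h1, Algebra.algebraMap_eq_smul_one, Algebra.algebraMap_eq_smul_one, map_smul, Matrix.toLin'_one]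
          rfl
        simp [h2])
  obtain ⟨e, he⟩ := CfsgLib.Semisimple.CharpolyConj.exists_conj _ _ (hss g hg) (hss h hh)
    (by rw [Matrix.charpoly_toLin', Matrix.charpoly_toLin', hc])
  let E := Matrix.GeneralLinearGroup.toLin.symm (LinearMap.GeneralLinearGroup.ofLinearEquiv e)
  refine isConj_iff.2 ⟨E, ?_⟩
  rw [mul_inv_eq_iff_eq_mul]
  apply Units.ext
  apply Matrix.toLin'.injective
  rw [Units.val_mul, Units.val_mul, Matrix.toLin'_mul, Matrix.toLin'_mul]
  have hE : Matrix.toLin' (E : Matrix (Fin n) (Fin n) F) = (e : (Fin n → F) →ₗ[F] (Fin n → F)) :=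
    Matrix.toLin'_toMatrix' _
  rw [hE]
  exact LinearMap.ext he

open Polynomial in
theorem factor_dvd {r : ℕ} {c : Fˣ} {g : GL (Fin n) F} (hg : g ^ r = sc n c) {φ : F[X]} (hirr : Irreducible φ)
    (hdvd : φ ∣ (g : Matrix (Fin n) (Fin n) F).charpoly) : φ ∣ X ^ r - C (c : F) := by
  classical
  haveI := Fact.mk hirr
  apply AdjoinRoot.mk_eq_zero.1
  let ι := algebraMap F (AdjoinRoot φ)
  let z := AdjoinRoot.root φ
  let gL := ι.mapMatrix (g : Matrix (Fin n) (Fin n) F)
  have hroot : (Matrix.scalar (Fin n) z - gL).det = 0 := by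
    rw [← Matrix.eval_charpoly]
    show ((g : Matrix (Fin n) (Fin n) F).map ι).charpoly.eval z = 0
    rw [Matrix.charpoly_map]
    obtain ⟨d, hd⟩ := hdvd
    rw [hd, Polynomial.map_mul, eval_mul, eval_map]
    show φ.eval₂ (AdjoinRoot.of φ) (AdjoinRoot.root φ) * _ = 0
    rw [AdjoinRoot.eval₂_root, zero_mul]
  have hgL : gL ^ r = Matrix.scalar (Fin n) (ι c) := by
    rw [← map_pow, ← Units.val_pow_eq_pow_val, hg, sc_val, RingHom.mapMatrix_apply, Matrix.scalar_apply, Matrix.scalar_apply,
      Matrix.diagonal_map (map_zero ι)]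
  obtain ⟨M, hM⟩ := (Matrix.scalar_commute z (fun _ => Commute.all _ _) gL).sub_dvd_pow_sub_pow r
  have hdet : (Matrix.scalar (Fin n) (z ^ r - ι c)).det = 0 := by
    rw [map_sub, map_pow, ← hgL, hM, Matrix.det_mul, hroot, zero_mul]
  rw [Matrix.scalar_apply, Matrix.det_diagonal, Finset.prod_const] at hdet
  rw [map_sub, map_pow, AdjoinRoot.mk_X, AdjoinRoot.mk_C]
  exact eq_zero_of_pow_eq_zero hdet


/-- Number of conjugacy classes of elements of prime order r in PGL_n(q) = GL_n(q)/scalars when r divides q − 1 (n ≥ 2): the classes of elements with a diagonalisable lift correspond to the orbits of the cyclic rotation on the r-tuples of eigenvalue multiplicities (a_0, …, a_(r−1)) summing to n with every a_j < n, and when r divides n there are r − 1 further classes (lifts acting irreducibly on blocks of size r); in all (C(n+r−1, r−1) − r − [r ∣ n])/r + r·[r ∣ n] classes. -/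
theorem result {F : Type*} [Field F] [Fintype F] {q : ℕ} (hF : Fintype.card F = q) {n r : ℕ} (hn : 2 ≤ n) (hr : r.Prime) (hrq : r ∣ q - 1) : Nat.card {C : ConjClasses (GL (Fin n) F ⧸ Subgroup.center (GL (Fin n) F)) // ∃ g : GL (Fin n) F ⧸ Subgroup.center (GL (Fin n) F), ConjClasses.mk g = C ∧ orderOf g = r} = (Nat.choose (n + r - 1) (r - 1) - r - (if r ∣ n then 1 else 0)) / r + r * (if r ∣ n then 1 else 0) := by
  classical
  haveI : NeZero n := ⟨by omega⟩
  haveI : NeZero r := ⟨hr.ne_zero⟩
  haveI := Fact.mk hr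
  have hr2 := hr.two_le
  have hrF : (r : F) ≠ 0 := by
    obtain ⟨k, hk⟩ := hrq
    intro h0
    have h1 : ((q - 1 : ℕ) : F) = 0 := by rw [hk, Nat.cast_mul, h0, zero_mul]
    rw [Nat.cast_sub (by rw [← hF]; exact Fintype.card_pos), ← hF, Nat.cast_card_eq_zero, Nat.cast_one] at h1
    rw [zero_sub, neg_eq_zero] at h1
    exact one_ne_zero h1
  let μ : Subgroup Fˣ := (powMonoidHom r : Fˣ →* Fˣ).ker
  have hμ : ∀ z : μ, (z : Fˣ) ^ r = 1 := fun z => z.2
  have hμcard : Fintype.card μ = r := by
    rw [← Nat.card_eq_fintype_card, IsCyclic.card_powMonoidHom_ker, Nat.card_units, Nat.card_eq_fintype_card, hF,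
      Nat.gcd_eq_right hrq]
  haveI : Nontrivial μ := Fintype.one_lt_card_iff_nontrivial.1 (by omega)
  obtain ⟨ζ, hζ⟩ := exists_ne (1 : μ)
  have hζo : orderOf ((ζ : Fˣ) : F) = r := by
    rw [orderOf_units]
    exact orderOf_eq_prime (hμ ζ) (fun h => hζ (Subtype.ext h))
  have hprim : IsPrimitiveRoot ((ζ : Fˣ) : F) r := hζo ▸ IsPrimitiveRoot.orderOf _
  let Z := Subgroup.center (GL (Fin n) F)
  let π : GL (Fin n) F →* GL (Fin n) F ⧸ Z := QuotientGroup.mk' Z
  have hZ : ∀ g, g ∈ Z ↔ ∃ a, g = sc n a := fun g => mem_center_iff_sc g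
  have hπsc : ∀ a g, π (sc n a * g) = π g := by
    intro a g
    rw [map_mul, show π (sc n a) = 1 from (QuotientGroup.eq_one_iff _).2 ((hZ _).2 ⟨a, rfl⟩), one_mul]
  have hπeq : ∀ g h : GL (Fin n) F, IsConj g h → IsConj (π g) (π h) := fun g h => π.map_isConj
  have hπconj : ∀ g h : GL (Fin n) F, IsConj (π g) (π h) → ∃ a, IsConj g (sc n a * h) := by
    intro g h hc
    obtain ⟨x, hx⟩ := isConj_iff.1 hc
    obtain ⟨x, rfl⟩ := QuotientGroup.mk'_surjective Z x
    have h1 : π (x * g * x⁻¹) = π h := by rw [map_mul, map_mul, map_inv]; exact hx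
    obtain ⟨a, ha⟩ := (hZ _).1 (QuotientGroup.eq.1 h1.symm)
    refine ⟨a, isConj_iff.2 ⟨x, ?_⟩⟩
    rw [(sc_comm a h).eq, ← ha, mul_inv_cancel_left]
  -- multisets of roots of unity
  let X := {s : Sym μ n // ∀ z : μ, s ≠ Sym.replicate n z}
  haveI : Fintype X := Subtype.fintype _
  have hd : ∀ s : X, ∃ d : Fin n → μ, (Finset.univ.val.map d) = s.1.1 := by
    intro s
    have hl : s.1.1.toList.length = n := by rw [Multiset.length_toList]; exact s.1.2
    refine ⟨fun i => s.1.1.toList.get (i.cast hl.symm), ?_⟩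
    rw [Fin.univ_val_map, ← List.ofFn_congr hl, List.ofFn_get, Multiset.coe_toList]
  choose d hd using hd
  let D : X → GL (Fin n) F := fun s => dg (fun i => (d s i : Fˣ))
  have hDpow : ∀ s, D s ^ r = sc n 1 := by
    intro s
    rw [dg_pow]
    refine Units.ext ?_
    rw [dg_val, sc_val, Matrix.scalar_apply]
    exact congrArg Matrix.diagonal (funext fun i => by rw [hμ])
  let act : μ → X → X := fun z s => ⟨Sym.map (fun w => z * w) s.1, fun w h => s.2 (z⁻¹ * w) (by
    apply Subtype.ext
    have h' := congrArg (fun m : Sym μ n => m.1.map fun v => z⁻¹ * v) h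
    show s.1.1 = Multiset.replicate n (z⁻¹ * w)
    have e1 : (s.1.1.map fun v => z * v).map (fun v => z⁻¹ * v) = s.1.1 := by
      rw [Multiset.map_map]
      simp [Function.comp_def]
    rw [← e1, ← Multiset.map_replicate (fun v => z⁻¹ * v)]
    exact h')⟩
  letI : SMul μ X := ⟨act⟩
  have hsmul : ∀ (z : μ) (s : X), (z • s).1.1 = s.1.1.map (fun w => z * w) := fun z s => rfl
  letI : MulAction μ X :=
    { one_smul := fun s => Subtype.ext (Subtype.ext (by
        show s.1.1.map (fun w => (1 : μ) * w) = s.1.1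
        simp))
      mul_smul := fun a b s => Subtype.ext (Subtype.ext (by
        show s.1.1.map (fun w => a * b * w) = (s.1.1.map (fun w => b * w)).map (fun w => a * w)
        rw [Multiset.map_map]
        exact Multiset.map_congr rfl fun w _ => mul_assoc a b w)) }
  let Ω := Quotient (MulAction.orbitRel μ X)
  haveI : Fintype Ω := Fintype.ofFinite Ω
  -- the other cosets
  let R : Subgroup Fˣ := (powMonoidHom r : Fˣ →* Fˣ).range
  let B := {x : Fˣ ⧸ R // x ≠ 1 ∧ r ∣ n}
  haveI : Finite B := Subtype.finite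
  have hirr : ∀ c : Fˣ, c ∉ R → Irreducible (Polynomial.X ^ r - Polynomial.C (c : F)) := by
    intro c hc
    refine X_pow_sub_C_irreducible_of_prime hr fun b hb => hc ?_
    have hb0 : b ≠ 0 := fun h => c.ne_zero (by rw [← hb, h, zero_pow hr.ne_zero])
    exact ⟨Units.mk0 b hb0, Units.ext (by simpa using hb)⟩
  have hB0 : ∀ x : B, x.1.out ∉ R := fun x h => x.2.1 (by rw [← QuotientGroup.out_eq' x.1]; exact (QuotientGroup.eq_one_iff _).2 h)
  have hgB : ∀ x : B, ∃ g : GL (Fin n) F, g ^ r = sc n x.1.out ∧ (g : Matrix (Fin n) (Fin n) F).charpoly = (Polynomial.X ^ r - Polynomial.C ((x.1.out : Fˣ) : F)) ^ (n / r) := by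
    intro x
    have hmon : (Polynomial.X ^ r - Polynomial.C ((x.1.out : Fˣ) : F)).Monic := Polynomial.monic_X_pow_sub_C _ hr.ne_zero
    obtain ⟨A, hA, hAc⟩ := realizeC r ((x.1.out : Fˣ) : F) (Multiset.replicate (n / r) (Polynomial.X ^ r - Polynomial.C ((x.1.out : Fˣ) : F)))
      (fun φ hφ => by rw [Multiset.eq_of_mem_replicate hφ]; exact ⟨hmon, hirr _ (hB0 x), dvd_rfl⟩) n
      (by rw [Multiset.map_replicate, Multiset.sum_replicate, Polynomial.natDegree_X_pow_sub_C, smul_eq_mul, Nat.div_mul_cancel x.2.2])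
    have hAu : IsUnit A := by
      rw [← isUnit_pow_iff hr.ne_zero, hA]
      exact (isUnit_iff_ne_zero.2 (Units.ne_zero _)).map _
    exact ⟨hAu.unit, Units.ext (by rw [Units.val_pow_eq_pow_val, IsUnit.unit_spec, hA]; rfl),
      by rw [IsUnit.unit_spec, hAc, Multiset.prod_replicate]⟩
  choose gB hgBp hgBc using hgB
  let T := {C : ConjClasses (GL (Fin n) F ⧸ Z) // ∃ g : GL (Fin n) F ⧸ Z, ConjClasses.mk g = C ∧ orderOf g = r}
  have hord : ∀ (g : GL (Fin n) F) (c : Fˣ), g ^ r = sc n c → (¬ ∃ a, g = sc n a) → orderOf (π g) = r := by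
    intro g c hg hng
    refine orderOf_eq_prime ?_ ?_
    · rw [← map_pow, hg, ← mul_one (sc n c), hπsc, map_one]
    · intro h
      exact hng ((hZ g).1 ((QuotientGroup.eq_one_iff g).1 h))
  have hDns : ∀ s, ¬ ∃ a, D s = sc n a := by
    rintro s ⟨a, ha⟩
    have hda : ∀ i, ((d s i : μ) : Fˣ) = a := fun i => Units.ext (by
      have := congrArg (fun g : GL (Fin n) F => (g : Matrix (Fin n) (Fin n) F) i i) ha
      simpa [D, dg_val, sc_val, Matrix.scalar_apply] using this)
    refine s.2 (d s 0) (Subtype.ext ?_)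
    show s.1.1 = Multiset.replicate n (d s 0)
    rw [← hd s, Multiset.map_congr rfl (fun i _ => Subtype.ext ((hda i).trans (hda 0).symm) : ∀ i ∈ Finset.univ.val, d s i = d s 0),
      Multiset.map_const']
    simp
  have hBns : ∀ x, ¬ ∃ a, gB x = sc n a := by
    rintro x ⟨a, ha⟩
    have h1 := hgBp x
    rw [ha, ← map_pow] at h1
    have h2 := congrArg (fun g : GL (Fin n) F => (g : Matrix (Fin n) (Fin n) F) 0 0) h1
    simp only [sc_val, Matrix.scalar_apply, Matrix.diagonal_apply_eq] at h2
    exact hB0 x ⟨a, Units.ext h2⟩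
  let Ψ : Ω ⊕ B → T := fun y => match y with
    | Sum.inl ω => ⟨ConjClasses.mk (π (D ω.out)), π (D ω.out), rfl, hord _ _ (hDpow _) (hDns _)⟩
    | Sum.inr x => ⟨ConjClasses.mk (π (gB x)), π (gB x), rfl, hord _ _ (hgBp x) (hBns x)⟩
  have hroots : ∀ s t : X, IsConj (D s) (D t) → s = t := by
    intro s t h
    have h1 := congrArg Polynomial.roots (charpoly_isConj h)
    rw [roots_dg, roots_dg, Multiset.map_map, Multiset.map_map] at h1
    have h2 : (s.1.1.map (fun z : μ => ((z : Fˣ) : F))) = t.1.1.map (fun z : μ => ((z : Fˣ) : F)) := by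
      rw [← hd s, ← hd t, Multiset.map_map, Multiset.map_map]
      exact h1
    exact Subtype.ext (Subtype.ext (Multiset.map_injective (fun a b hab => Subtype.ext (Units.ext hab)) h2))
  have hconjD : ∀ (e : Fin n → μ) (s : X), Finset.univ.val.map e = s.1.1 → IsConj (dg fun i => (e i : Fˣ)) (D s) := by
    intro e s he
    refine conj_of_charpoly hrF (c := 1) ?_ (hDpow s) ?_
    · rw [dg_pow]
      refine Units.ext ?_
      rw [dg_val, sc_val, Matrix.scalar_apply]
      exact congrArg Matrix.diagonal (funext fun i => by rw [hμ])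
    · rw [dg_val, dg_val, Matrix.charpoly_diagonal, Matrix.charpoly_diagonal, Finset.prod, Finset.prod]
      have h1 : (Finset.univ.val.map e).map (fun z : μ => Polynomial.X - Polynomial.C ((z : Fˣ) : F))
          = (Finset.univ.val.map (d s)).map (fun z : μ => Polynomial.X - Polynomial.C ((z : Fˣ) : F)) := by rw [he, hd]
      rw [Multiset.map_map, Multiset.map_map] at h1
      exact congrArg Multiset.prod h1
  have hsame : ∀ (z : μ) (s : X), IsConj (sc n (z : Fˣ) * D s) (D (z • s)) := by
    intro z s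
    rw [sc_mul_dg]
    refine hconjD (fun i => z * d s i) (z • s) ?_
    rw [hsmul, ← hd s, Multiset.map_map]
    rfl
  have hpow_a : ∀ (g h : GL (Fin n) F) (c c' : Fˣ) (a : Fˣ), g ^ r = sc n c → h ^ r = sc n c' → IsConj g (sc n a * h) → c = a ^ r * c' := by
    intro g h c c' a hg hh hc
    obtain ⟨x, hx⟩ := isConj_iff.1 hc
    have h1 : x * g ^ r * x⁻¹ = (sc n a * h) ^ r := by rw [← conj_pow, hx]
    rw [hg, (sc_comm a h).mul_pow, hh, ← map_pow, ← map_mul, (sc_comm c x).symm.eq, mul_assoc, mul_inv_cancel, mul_one] at h1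
    have h2 := congrArg (fun g : GL (Fin n) F => (g : Matrix (Fin n) (Fin n) F) 0 0) h1
    simp only [sc_val, Matrix.scalar_apply, Matrix.diagonal_apply_eq] at h2
    exact Units.ext h2
  have hΨ : Function.Bijective Ψ := by
    constructor
    · rintro (ω | x) (ω' | x') h <;> have h' := ConjClasses.mk_eq_mk_iff_isConj.1 (congrArg Subtype.val h)
      · obtain ⟨a, ha⟩ := hπconj _ _ h'
        have har : a ^ r = 1 := by
          have := hpow_a _ _ _ _ a (hDpow _) (hDpow _) ha
          simpa using this.symm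
        have h2 := hroots _ _ (ha.trans (hsame ⟨a, har⟩ ω'.out))
        have h3 : (Quotient.mk (MulAction.orbitRel μ X) ω.out : Ω) = Quotient.mk (MulAction.orbitRel μ X) ω'.out :=
          Quotient.sound (MulAction.orbitRel_apply.2 (h2 ▸ MulAction.mem_orbit _ _))
        rw [Quotient.out_eq, Quotient.out_eq] at h3
        rw [h3]
      · exfalso
        obtain ⟨a, ha⟩ := hπconj _ _ h'
        have := hpow_a _ _ _ _ a (hDpow _) (hgBp x') ha
        exact hB0 x' ⟨a⁻¹, by
          rw [powMonoidHom_apply, inv_pow]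
          exact inv_eq_of_mul_eq_one_right this.symm⟩
      · exfalso
        obtain ⟨a, ha⟩ := hπconj _ _ h'
        have := hpow_a _ _ _ _ a (hgBp x) (hDpow _) ha
        exact hB0 x ⟨a, by rw [powMonoidHom_apply, this, mul_one]⟩
      · obtain ⟨a, ha⟩ := hπconj _ _ h'
        have := hpow_a _ _ _ _ a (hgBp x) (hgBp x') ha
        have h2 : x.1 = x'.1 := by
          rw [← QuotientGroup.out_eq' x.1, ← QuotientGroup.out_eq' x'.1]
          refine (QuotientGroup.eq.2 ?_).symm
          refine ⟨a, ?_⟩
          rw [powMonoidHom_apply, this, mul_comm (a ^ r), inv_mul_cancel_left]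
        exact congrArg Sum.inr (Subtype.ext h2)
    · rintro ⟨C, y, rfl, hy⟩
      obtain ⟨g, rfl⟩ := QuotientGroup.mk'_surjective Z y
      have hgns : ¬ ∃ a, g = sc n a := by
        rintro ⟨a, rfl⟩
        rw [show QuotientGroup.mk' Z (sc n a) = 1 from (QuotientGroup.eq_one_iff _).2 ((hZ _).2 ⟨a, rfl⟩), orderOf_one] at hy
        exact hr.ne_one hy.symm
      obtain ⟨c, hc⟩ : ∃ c, g ^ r = sc n c := (hZ _).1 ((QuotientGroup.eq_one_iff _).1 (by
        show π (g ^ r) = 1
        rw [map_pow, ← hy]; exact pow_orderOf_eq_one _))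
      have hscale : ∀ b c₀ : Fˣ, c = b ^ r * c₀ → (sc n b⁻¹ * g) ^ r = sc n c₀ := by
        intro b c₀ hb
        rw [(sc_comm _ g).mul_pow, hc, ← map_pow, ← map_mul, hb, inv_pow, inv_mul_cancel_left]
      have hfactors : ∀ (h : GL (Fin n) F) (c₀ : Fˣ), h ^ r = sc n c₀ →
          ∀ φ ∈ UniqueFactorizationMonoid.normalizedFactors (h : Matrix (Fin n) (Fin n) F).charpoly,
            φ.Monic ∧ Irreducible φ ∧ φ ∣ Polynomial.X ^ r - Polynomial.C (c₀ : F) := by
        intro h c₀ hh φ hφ
        obtain ⟨hirr', hmon, hdvd⟩ := (Polynomial.mem_normalizedFactors_iff (Matrix.charpoly_monic _).ne_zero).1 hφ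
        exact ⟨hmon, hirr', factor_dvd hh hirr' hdvd⟩
      have hprodf : ∀ h : GL (Fin n) F,
          (UniqueFactorizationMonoid.normalizedFactors (h : Matrix (Fin n) (Fin n) F).charpoly).prod = (h : Matrix (Fin n) (Fin n) F).charpoly := by
        intro h
        rw [UniqueFactorizationMonoid.prod_normalizedFactors_eq (Matrix.charpoly_monic _).ne_zero, (Matrix.charpoly_monic _).normalize_eq_self]
      have hdegf : ∀ h : GL (Fin n) F, (∀ φ ∈ UniqueFactorizationMonoid.normalizedFactors (h : Matrix (Fin n) (Fin n) F).charpoly, φ.Monic) →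
          ((UniqueFactorizationMonoid.normalizedFactors (h : Matrix (Fin n) (Fin n) F).charpoly).map Polynomial.natDegree).sum = n := by
        intro h hm
        rw [← Polynomial.natDegree_multiset_prod_of_monic _ hm, hprodf, Matrix.charpoly_natDegree_eq_dim, Fintype.card_fin]
      by_cases hcR : c ∈ R
      · obtain ⟨b, hb⟩ := hcR
        rw [powMonoidHom_apply] at hb
        set h := sc n b⁻¹ * g with hhdef
        have hh : h ^ r = sc n 1 := hscale b 1 (by rw [hb, mul_one])
        set fs := UniqueFactorizationMonoid.normalizedFactors (h : Matrix (Fin n) (Fin n) F).charpoly with hfs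
        have hlin : ∀ φ ∈ fs, ∃ z : μ, φ = Polynomial.X - Polynomial.C ((z : Fˣ) : F) := by
          intro φ hφ
          obtain ⟨hmon, hirr', hdvd⟩ := hfactors h 1 hh φ hφ
          haveI := Fact.mk hirr'
          have h1 : (AdjoinRoot.root φ) ^ r = 1 := by
            have h2 := AdjoinRoot.mk_eq_zero.2 hdvd
            rw [map_sub, map_pow, AdjoinRoot.mk_X, AdjoinRoot.mk_C, Units.val_one, map_one] at h2
            exact sub_eq_zero.1 h2
          obtain ⟨i, -, hi⟩ := (hprim.map_of_injective (AdjoinRoot.of φ).injective).eq_pow_of_pow_eq_one h1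
          refine ⟨ζ ^ i, ?_⟩
          have h3 : φ ∣ Polynomial.X - Polynomial.C (((ζ ^ i : μ) : Fˣ) : F) := by
            apply AdjoinRoot.mk_eq_zero.1
            rw [map_sub, AdjoinRoot.mk_X, AdjoinRoot.mk_C, SubmonoidClass.coe_pow, Units.val_pow_eq_pow_val, map_pow, hi, sub_self]
          exact Polynomial.eq_of_monic_of_associated hmon (Polynomial.monic_X_sub_C _)
            (hirr'.associated_of_dvd (Polynomial.irreducible_X_sub_C _) h3)
        choose z hz using hlin
        let ms : Multiset μ := fs.attach.map (fun φ => z φ.1 φ.2)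
        have hms : ms.map (fun w : μ => Polynomial.X - Polynomial.C ((w : Fˣ) : F)) = fs := by
          rw [Multiset.map_map]
          conv_rhs => rw [← Multiset.attach_map_val fs]
          exact Multiset.map_congr rfl fun φ _ => (hz φ.1 φ.2).symm
        have hcard : ms.card = n := by
          have := hdegf h (fun φ hφ => (hfactors h 1 hh φ hφ).1)
          rw [← hfs, ← hms, Multiset.map_map, Function.comp_def, Multiset.map_congr rfl (fun w _ => Polynomial.natDegree_X_sub_C _ : ∀ w ∈ ms, _ = 1),
            Multiset.map_const', Multiset.sum_replicate, smul_eq_mul, mul_one] at this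
          exact this
        obtain ⟨e, he⟩ : ∃ e : Fin n → μ, Finset.univ.val.map e = ms := by
          have hl : ms.toList.length = n := by rw [Multiset.length_toList]; exact hcard
          refine ⟨fun i => ms.toList.get (i.cast hl.symm), ?_⟩
          rw [Fin.univ_val_map, ← List.ofFn_congr hl, List.ofFn_get, Multiset.coe_toList]
        have hconj : IsConj h (dg fun i => (e i : Fˣ)) := by
          refine conj_of_charpoly hrF (c := 1) hh ?_ ?_
          · rw [dg_pow]
            refine Units.ext ?_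
            rw [dg_val, sc_val, Matrix.scalar_apply]
            exact congrArg Matrix.diagonal (funext fun i => by rw [hμ])
          · rw [← hprodf h, ← hfs, ← hms, ← he, dg_val, Matrix.charpoly_diagonal, Finset.prod, Multiset.map_map]
            rfl
        let sX : X := ⟨⟨ms, hcard⟩, fun w hw => by
          have hew : ∀ i, e i = w := fun i => Multiset.eq_of_mem_replicate (n := n) (by
            have hi : e i ∈ ms := he ▸ Multiset.mem_map_of_mem _ (Finset.mem_univ i)
            rwa [show ms = Multiset.replicate n w from congrArg Subtype.val hw] at hi)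
          have h1 : (dg fun i => (e i : Fˣ)) = sc n (w : Fˣ) := by
            refine Units.ext ?_
            rw [dg_val, sc_val, Matrix.scalar_apply]
            exact congrArg Matrix.diagonal (funext fun i => by rw [hew i])
          rw [h1] at hconj
          obtain ⟨u, hu⟩ := isConj_iff.1 hconj.symm
          rw [(sc_comm _ u).symm.eq, mul_inv_cancel_right] at hu
          apply hgns
          refine ⟨b * (w : Fˣ), ?_⟩
          rw [map_mul, hu, hhdef, ← mul_assoc, ← map_mul, mul_inv_cancel, map_one, one_mul]⟩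
        let ω : Ω := Quotient.mk _ sX
        have hrel : ω.out ∈ MulAction.orbit μ sX := MulAction.orbitRel_apply.1 (Quotient.exact (Quotient.out_eq ω))
        obtain ⟨w, hw⟩ := hrel
        refine ⟨Sum.inl ω, Subtype.ext (ConjClasses.mk_eq_mk_iff_isConj.2 ?_)⟩
        have h1 : IsConj (π h) (π (D sX)) := hπeq _ _ (hconj.trans (hconjD e sX he))
        have h2 := hπeq _ _ (hsame w sX)
        rw [hπsc, show w • sX = ω.out from hw] at h2
        rw [hhdef, hπsc] at h1
        exact (h1.trans h2).symm
      · let x₀ : Fˣ ⧸ R := QuotientGroup.mk c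
        obtain ⟨b, hb⟩ : ∃ b : Fˣ, c = b ^ r * x₀.out := by
          obtain ⟨b, hb⟩ := QuotientGroup.eq.1 (QuotientGroup.out_eq' x₀)
          refine ⟨b, ?_⟩
          rw [powMonoidHom_apply] at hb
          rw [hb, mul_comm, mul_inv_cancel_left]
        set h := sc n b⁻¹ * g with hhdef
        have hh : h ^ r = sc n x₀.out := hscale b _ hb
        have hx0 : x₀ ≠ 1 := fun h0 => hcR ((QuotientGroup.eq_one_iff c).1 h0)
        have hout : x₀.out ∉ R := fun h0 => hx0 (by rw [← QuotientGroup.out_eq' x₀]; exact (QuotientGroup.eq_one_iff _).2 h0)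
        set P := Polynomial.X ^ r - Polynomial.C ((x₀.out : Fˣ) : F) with hP
        have hall : ∀ φ ∈ UniqueFactorizationMonoid.normalizedFactors (h : Matrix (Fin n) (Fin n) F).charpoly, φ = P := by
          intro φ hφ
          obtain ⟨hmon, hirr', hdvd⟩ := hfactors h _ hh φ hφ
          exact Polynomial.eq_of_monic_of_associated hmon (Polynomial.monic_X_pow_sub_C _ hr.ne_zero)
            (hirr'.associated_of_dvd (hirr _ hout) hdvd)
        have hrep := Multiset.eq_replicate_card.2 hall
        have hdeg := hdegf h (fun φ hφ => (hfactors h _ hh φ hφ).1)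
        rw [hrep, Multiset.map_replicate, Multiset.sum_replicate, hP, Polynomial.natDegree_X_pow_sub_C, smul_eq_mul] at hdeg
        set m := Multiset.card (UniqueFactorizationMonoid.normalizedFactors (h : Matrix (Fin n) (Fin n) F).charpoly)
        have hrn : r ∣ n := ⟨m, by rw [mul_comm]; exact hdeg.symm⟩
        have hm : m = n / r := by rw [← hdeg, Nat.mul_div_cancel _ hr.pos]
        let x : B := ⟨x₀, hx0, hrn⟩
        refine ⟨Sum.inr x, Subtype.ext (ConjClasses.mk_eq_mk_iff_isConj.2 ?_)⟩
        have hc' : (h : Matrix (Fin n) (Fin n) F).charpoly = (gB x : Matrix (Fin n) (Fin n) F).charpoly := by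
          rw [hgBc, ← hprodf h, hrep, Multiset.prod_replicate, hm]
        have h1 := hπeq _ _ (conj_of_charpoly hrF hh (hgBp x) hc')
        rw [hhdef, hπsc] at h1
        exact h1.symm
  -- counting
  set e := if r ∣ n then 1 else 0 with he
  have hBcard : Nat.card B = (r - 1) * e := by
    by_cases hrn : r ∣ n
    · have h1 : Nat.card (Fˣ ⧸ R) = r := by
        rw [← Subgroup.index_eq_card, IsCyclic.index_powMonoidHom_range, Nat.card_units, Nat.card_eq_fintype_card, hF, Nat.gcd_eq_right hrq]
      rw [he, if_pos hrn, mul_one, Nat.card_congr (Equiv.subtypeEquivRight (fun x => and_iff_left hrn) : B ≃ {x : Fˣ ⧸ R // x ≠ 1})]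
      haveI : Fintype (Fˣ ⧸ R) := Fintype.ofFinite _
      rw [Nat.card_eq_fintype_card, Fintype.card_subtype_compl, Fintype.card_subtype_eq, ← Nat.card_eq_fintype_card, h1]
    · haveI : IsEmpty B := ⟨fun x => hrn x.2.2⟩
      rw [he, if_neg hrn, Nat.card_of_isEmpty, mul_zero]
  have hXcard : Fintype.card X = (n + r - 1).choose (r - 1) - r := by
    have hsplit : Fintype.card (Sym μ n) = Fintype.card X + r := by
      have hinj : Function.Injective (fun z : μ => Sym.replicate n z) := fun a b h => by
        have h2 := congrArg Subtype.val h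
        have h3 : a ∈ Multiset.replicate n b := by
          rw [← show Multiset.replicate n a = Multiset.replicate n b from h2]
          exact Multiset.mem_replicate.2 ⟨by omega, rfl⟩
        exact Multiset.eq_of_mem_replicate h3
      rw [Fintype.card_subtype]
      have h2 : (Finset.univ.filter fun s : Sym μ n => ∀ z : μ, s ≠ Sym.replicate n z) = Finset.univ \ Finset.univ.image (fun z : μ => Sym.replicate n z) := by
        ext s; simp [eq_comm]
      rw [h2, Finset.card_sdiff_of_subset (Finset.subset_univ _), Finset.card_image_of_injective _ hinj, Finset.card_univ, Finset.card_univ, hμcard,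
        Nat.sub_add_cancel]
      exact le_of_eq_of_le hμcard.symm (Fintype.card_le_of_injective _ hinj)
    rw [Sym.card_sym_eq_choose, hμcard, Nat.add_comm r n] at hsplit
    have hsym : (n + r - 1).choose (r - 1) = (n + r - 1).choose n := by
      rw [← Nat.choose_symm (show n ≤ n + r - 1 by omega)]
      congr 1
      omega
    omega
  have hfix : ∀ z : μ, z ≠ 1 → Fintype.card (MulAction.fixedBy X z) = e := by
    intro z hz
    have hgen : ∀ w : μ, ∃ i : ℕ, z ^ i = w := by
      intro w
      obtain ⟨i, hi⟩ := Submonoid.mem_powers_iff _ _ |>.1 (mem_powers_of_prime_card (p := r) (by rw [Nat.card_eq_fintype_card]; exact hμcard) hz : w ∈ Submonoid.powers z)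
      exact ⟨i, hi⟩
    have hconst : ∀ s : MulAction.fixedBy X z, ∀ w, s.1.1.1.count w = s.1.1.1.count 1 := by
      intro s w
      obtain ⟨i, rfl⟩ := hgen w
      induction i with
      | zero => rw [pow_zero]
      | succ i ih =>
        have h1 := congrArg (fun x : X => x.1.1) (show z • s.1 = s.1 from s.2)
        rw [hsmul] at h1
        conv_lhs => rw [← h1]
        rw [pow_succ', Multiset.count_map_eq_count' _ _ (mul_right_injective z), ih]
    have hsum : ∀ s : MulAction.fixedBy X z, r * s.1.1.1.count 1 = n := by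
      intro s
      have h1 := Multiset.sum_count_eq_card (s := Finset.univ) (m := s.1.1.1) (fun a _ => Finset.mem_univ a)
      rw [Finset.sum_congr rfl (fun w _ => hconst s w), Finset.sum_const, Finset.card_univ, hμcard, smul_eq_mul] at h1
      exact h1.trans s.1.1.2
    by_cases hrn : r ∣ n
    · rw [he, if_pos hrn, Fintype.card_eq_one_iff]
      let ms : Multiset μ := (n / r) • (Finset.univ : Finset μ).val
      have hcount : ∀ w, ms.count w = n / r := fun w => by
        rw [Multiset.count_nsmul, Multiset.count_eq_one_of_mem Finset.univ.nodup (Finset.mem_univ w), mul_one]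
      have hmc : ms.card = n := by
        rw [Multiset.card_nsmul, ← Finset.card_def, Finset.card_univ, hμcard, Nat.div_mul_cancel hrn]
      have hpos : 0 < n / r := Nat.div_pos (Nat.le_of_dvd (by omega) hrn) hr.pos
      let s₀ : X := ⟨⟨ms, hmc⟩, fun w hw => by
        obtain ⟨w', hw'⟩ := exists_ne w
        have h1 := hcount w'
        rw [show ms = Multiset.replicate n w from congrArg Subtype.val hw, Multiset.count_replicate, if_neg (Ne.symm hw')] at h1
        omega⟩
      refine ⟨⟨s₀, Subtype.ext (Subtype.ext (Multiset.ext.2 fun w => ?_))⟩, fun s => ?_⟩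
      · show Multiset.count w (z • s₀).1.1 = ms.count w
        rw [hsmul, show w = z * (z⁻¹ * w) by rw [mul_inv_cancel_left], Multiset.count_map_eq_count' _ _ (mul_right_injective z)]
        show ms.count _ = ms.count _
        rw [hcount, hcount]
      · refine Subtype.ext (Subtype.ext (Subtype.ext (Multiset.ext.2 fun w => ?_)))
        show s.1.1.1.count w = ms.count w
        rw [hcount, hconst s w]
        exact (Nat.div_eq_of_eq_mul_right hr.pos (hsum s).symm).symm
    · rw [he, if_neg hrn, Fintype.card_eq_zero_iff]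
      exact ⟨fun s => hrn ⟨_, (hsum s).symm⟩⟩
  have hburn := MulAction.sum_card_fixedBy_eq_card_orbits_mul_card_group μ X
  rw [← Finset.add_sum_erase _ _ (Finset.mem_univ (1 : μ)), Finset.sum_congr rfl (fun z hz => hfix z (Finset.ne_of_mem_erase hz)),
    Finset.sum_const, Finset.card_erase_of_mem (Finset.mem_univ _), Finset.card_univ, hμcard, smul_eq_mul] at hburn
  have hone : Fintype.card (MulAction.fixedBy X (1 : μ)) = Fintype.card X :=
    Fintype.card_congr (Equiv.subtypeUnivEquiv fun s => one_smul μ s)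
  rw [hone] at hburn
  have hT : Nat.card T = Nat.card Ω + Nat.card B := by
    rw [← Nat.card_congr (Equiv.ofBijective Ψ hΨ), Nat.card_sum]
  show Nat.card T = _
  rw [hT, hBcard, Nat.card_eq_fintype_card]
  have hΩ : Fintype.card X + (r - 1) * e = Fintype.card Ω * r := by
    convert hburn using 2
  have hXe : e ≤ Fintype.card X := by
    by_cases hrn : r ∣ n
    · rw [← hfix ζ hζ]
      exact Fintype.card_subtype_le _
    · simp [he, hrn]
  rw [hXcard] at hΩ hXe
  obtain ⟨r', rfl⟩ : ∃ r', r = r' + 1 := ⟨r - 1, by omega⟩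
  simp only [show n + (r' + 1) - 1 = n + r' by omega, Nat.add_sub_cancel] at hΩ hXe hXcard ⊢
  set N := (n + r').choose r' - (r' + 1) with hN
  have heΩ : e ≤ Fintype.card Ω := Nat.le_of_mul_le_mul_right (show e * (r' + 1) ≤ Fintype.card Ω * (r' + 1) by rw [← hΩ, mul_add, mul_comm e r']; omega) (Nat.succ_pos _)
  obtain ⟨k, hk⟩ := Nat.exists_eq_add_of_le heΩ
  have hNk : N - e = k * (r' + 1) := by
    rw [hk, add_mul, mul_add e r' 1, mul_comm e r'] at hΩ
    omega
  rw [hNk, Nat.mul_div_cancel _ (Nat.succ_pos _), hk, add_mul]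
  ring

end Cfsg.Agent.S2670
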