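import Cfsg.Statements.S2672
import Mathlib
import Cfsg.Agent.S2670
import Cfsg.Agent.Lib.Unitary.Conj
import Cfsg.Agent.Lib.Unitary.FieldNorm

set_option autoImplicit false
open Cfsg

namespace Cfsg.Agent.S2672


open Cfsg.Agent.S2670 (sc sc_val sc_comm dg dg_val dg_pow sc_mul_dg roots_dg charpoly_isConj conj_of_charpoly factor_dvd realizeC)

variable {K : Type*} [Field K] {n : ℕ}

theorem sc_injective [NeZero n] : Function.Injective (sc n : Kˣ → GL (Fin n) K) := by
  intro a b h
  have h2 := congrArg (fun g : GL (Fin n) K => (g : Matrix (Fin n) (Fin n) K) 0 0) h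
  simp only [sc_val, Matrix.scalar_apply, Matrix.diagonal_apply_eq] at h2
  exact Units.ext h2

open Polynomial in
/-- An element with irreducible binomial `r`-th power has the forced characteristic polynomial. -/
theorem charpoly_of_irreducible {r : ℕ} (hr : 0 < r) {c : Kˣ} {h : GL (Fin n) K} (hh : h ^ r = sc n c)
    (hirr : Irreducible (X ^ r - C (c : K))) :
    r ∣ n ∧ (h : Matrix (Fin n) (Fin n) K).charpoly = (X ^ r - C (c : K)) ^ (n / r) := by
  classical
  set χ := (h : Matrix (Fin n) (Fin n) K).charpoly with hχ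
  have hm : χ.Monic := Matrix.charpoly_monic _
  set fs := UniqueFactorizationMonoid.normalizedFactors χ with hfs
  have hall : ∀ φ ∈ fs, φ = X ^ r - C (c : K) := by
    intro φ hφ
    obtain ⟨hirr', hmon, hdvd⟩ := (Polynomial.mem_normalizedFactors_iff hm.ne_zero).1 hφ
    exact Polynomial.eq_of_monic_of_associated hmon (Polynomial.monic_X_pow_sub_C _ hr.ne')
      (hirr'.associated_of_dvd hirr (factor_dvd hh hirr' hdvd))
  have hprod : fs.prod = χ := by
    rw [UniqueFactorizationMonoid.prod_normalizedFactors_eq hm.ne_zero, hm.normalize_eq_self]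
  rw [Multiset.eq_replicate_card.2 hall, Multiset.prod_replicate] at hprod
  have hd := congrArg Polynomial.natDegree hprod
  rw [Polynomial.natDegree_pow, Polynomial.natDegree_X_pow_sub_C, hχ, Matrix.charpoly_natDegree_eq_dim, Fintype.card_fin] at hd
  refine ⟨⟨fs.card, by rw [mul_comm]; exact hd.symm⟩, ?_⟩
  rw [← hprod, ← hd, Nat.mul_div_cancel _ hr]

variable [Fintype K] {q : ℕ}

theorem dg_mem (hK : Fintype.card K = q ^ 2) {κ : K →+* K} (hκ : ∀ x, κ x = x ^ q) (d : Fin n → Kˣ)
    (hd : ∀ i, d i ^ (q + 1) = 1) : dg d ∈ Cfsg.GU n K q := by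
  rw [CfsgLib.Unitary.Conj.mem_GU hK hκ, dg_val, CfsgLib.Unitary.Conj.adj, Matrix.diagonal_map (map_zero κ),
    Matrix.diagonal_transpose, Matrix.diagonal_mul_diagonal, ← Matrix.diagonal_one]
  refine congrArg Matrix.diagonal (funext fun i => ?_)
  show κ (d i : K) * (d i : K) = 1
  rw [hκ, ← pow_succ, ← Units.val_pow_eq_pow_val, hd, Units.val_one]

theorem sc_mem_iff [NeZero n] (hK : Fintype.card K = q ^ 2) {κ : K →+* K} (hκ : ∀ x, κ x = x ^ q) (a : Kˣ) :
    sc n a ∈ Cfsg.GU n K q ↔ a ^ (q + 1) = 1 := by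
  constructor
  · intro h
    rw [CfsgLib.Unitary.Conj.mem_GU hK hκ, sc_val, CfsgLib.Unitary.Conj.adj, Matrix.scalar_apply,
      Matrix.diagonal_map (map_zero κ), Matrix.diagonal_transpose, Matrix.diagonal_mul_diagonal] at h
    have h2 := congrArg (fun M : Matrix (Fin n) (Fin n) K => M 0 0) h
    rw [Matrix.diagonal_apply_eq, Matrix.one_apply_eq] at h2
    exact Units.ext (by rw [Units.val_pow_eq_pow_val, pow_succ, ← hκ]; exact h2)
  · intro h
    have e : sc n a = dg (fun _ : Fin n => a) := Units.ext (by rw [sc_val, dg_val, Matrix.scalar_apply])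
    rw [e]
    exact dg_mem hK hκ _ fun _ => h

/-- The centre of the unitary group is scalar. -/
theorem center_scalar [NeZero n] (hK : Fintype.card K = q ^ 2) {κ : K →+* K} (hκ : ∀ x, κ x = x ^ q)
    {u : Kˣ} (hu : u ^ (q + 1) = 1) (hu1 : u ≠ 1) (z : ↥(Cfsg.GU n K q)) (hz : z ∈ Subgroup.center ↥(Cfsg.GU n K q)) :
    ∃ a : Kˣ, a ^ (q + 1) = 1 ∧ (z : GL (Fin n) K) = sc n a := by
  classical
  set Z : Matrix (Fin n) (Fin n) K := ((z : GL (Fin n) K) : Matrix (Fin n) (Fin n) K) with hZ
  have hcomm : ∀ g ∈ Cfsg.GU n K q, (g : Matrix (Fin n) (Fin n) K) * Z = Z * (g : Matrix (Fin n) (Fin n) K) := fun g hg =>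
    congrArg (fun x : ↥(Cfsg.GU n K q) => ((x : GL (Fin n) K) : Matrix (Fin n) (Fin n) K)) (Subgroup.mem_center_iff.1 hz ⟨g, hg⟩)
  have hoff : ∀ i j, i ≠ j → Z i j = 0 := by
    intro i j hij
    have h := congrFun (congrFun (hcomm _ (dg_mem hK hκ (fun k => if k = i then u else 1) (fun k => by split_ifs <;> simp [hu]))) i) j
    rw [dg_val, Matrix.diagonal_mul, Matrix.mul_diagonal, if_pos rfl, if_neg (Ne.symm hij), Units.val_one, mul_one] at h
    by_contra hne
    exact hu1 (Units.ext (mul_right_cancel₀ hne (h.trans (one_mul _).symm)))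
  have hdiag : ∀ i j, Z i i = Z j j := by
    intro i j
    let P := (Equiv.swap i j).toPEquiv.toMatrix (α := K)
    have hPP : P * P = 1 := by
      show (Equiv.swap i j).toPEquiv.toMatrix * (Equiv.swap i j).toPEquiv.toMatrix = _
      rw [← PEquiv.toMatrix_trans, ← Equiv.toPEquiv_trans, Equiv.swap_swap, Equiv.toPEquiv_refl, PEquiv.toMatrix_refl]
    let Pu : GL (Fin n) K := ⟨P, P, hPP, hPP⟩
    have hPadj : CfsgLib.Unitary.Conj.adj κ P = P := by
      ext a b
      simp only [CfsgLib.Unitary.Conj.adj, Matrix.transpose_apply, Matrix.map_apply, P, PEquiv.toMatrix_apply, Equiv.toPEquiv_apply,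
        Option.mem_def, Option.some.injEq, apply_ite κ, map_one, map_zero]
      refine if_congr ?_ rfl rfl
      constructor <;> rintro rfl <;> simp
    have hmem : Pu ∈ Cfsg.GU n K q := by
      rw [CfsgLib.Unitary.Conj.mem_GU hK hκ]
      show CfsgLib.Unitary.Conj.adj κ P * P = 1
      rw [hPadj, hPP]
    have h := congrFun (congrFun (hcomm _ hmem) i) j
    simp only [Pu, P, PEquiv.toMatrix_toPEquiv_mul, PEquiv.mul_toMatrix_toPEquiv, Matrix.submatrix_apply, Equiv.symm_swap, id,
      Equiv.swap_apply_left, Equiv.swap_apply_right] at h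
    exact h.symm
  have hne : Z 0 0 ≠ 0 := by
    intro h0
    apply ((Matrix.isUnit_iff_isUnit_det _).1 (z : GL (Fin n) K).isUnit).ne_zero
    refine Matrix.det_eq_zero_of_row_eq_zero 0 fun k => ?_
    rcases eq_or_ne 0 k with rfl | hk
    · exact h0
    · exact hoff 0 k hk
  have hz' : (z : GL (Fin n) K) = sc n (Units.mk0 _ hne) := by
    refine Units.ext ?_
    rw [sc_val, Matrix.scalar_apply]
    ext i j
    rcases eq_or_ne i j with rfl | hij
    · rw [Matrix.diagonal_apply_eq]; exact hdiag i 0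
    · rw [Matrix.diagonal_apply_ne _ hij]; exact hoff i j hij
  exact ⟨_, (sc_mem_iff hK hκ _).1 (hz' ▸ z.2), hz'⟩


/-- Number of conjugacy classes of elements of odd prime order r in PGU_n(q) = GU_n(q)/scalars (n ≥ 3) when r divides q + 1: as in the linear case with q − 1 replaced by q + 1, the classes correspond to the rotation orbits on r-tuples of eigenvalue multiplicities summing to n with every entry < n, plus r − 1 further classes when r divides n; in all (C(n+r−1, r−1) − r − [r ∣ n])/r + r·[r ∣ n]. -/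
theorem result {K : Type*} [Field K] [Fintype K] {q n r : ℕ} (hK : Fintype.card K = q ^ 2) (hn : 3 ≤ n) (hr : r.Prime) (hr2 : r ≠ 2) (hrq : r ∣ q + 1) : Nat.card {C : ConjClasses (↥(Cfsg.GU n K q) ⧸ Subgroup.center ↥(Cfsg.GU n K q)) // ∃ g : ↥(Cfsg.GU n K q) ⧸ Subgroup.center ↥(Cfsg.GU n K q), ConjClasses.mk g = C ∧ orderOf g = r} = (Nat.choose (n + r - 1) (r - 1) - r - (if r ∣ n then 1 else 0)) / r + r * (if r ∣ n then 1 else 0) := by
  classical
  haveI : NeZero n := ⟨by omega⟩
  haveI : NeZero r := ⟨hr.ne_zero⟩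
  haveI := Fact.mk hr
  obtain ⟨κ, hκ, hκκ⟩ := CfsgLib.Unitary.FieldNorm.exists_conj hK
  have hq2 := CfsgLib.Unitary.FieldNorm.two_le_q hK
  have hr3 : 3 ≤ r := by have := hr.two_le; omega
  have hrF : (r : K) ≠ 0 := by
    obtain ⟨k, hk⟩ := hrq
    intro h0
    have hqK : (q : K) = 0 := by
      have := Nat.cast_card_eq_zero K
      rw [hK, Nat.cast_pow] at this
      exact eq_zero_of_pow_eq_zero this
    have h1 : ((q + 1 : ℕ) : K) = 0 := by rw [hk, Nat.cast_mul, h0, zero_mul]
    rw [Nat.cast_add, hqK, Nat.cast_one, zero_add] at h1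
    exact one_ne_zero h1
  have hq21 : q ^ 2 - 1 = (q + 1) * (q - 1) := by simpa using Nat.sq_sub_sq q 1
  have hcardK : Nat.card Kˣ = (q + 1) * (q - 1) := by rw [Nat.card_units, Nat.card_eq_fintype_card, hK, hq21]
  let μ : Subgroup Kˣ := (powMonoidHom r : Kˣ →* Kˣ).ker
  let U : Subgroup Kˣ := (powMonoidHom (q + 1) : Kˣ →* Kˣ).ker
  have hμ : ∀ z : μ, (z : Kˣ) ^ r = 1 := fun z => z.2
  have hU : ∀ a : U, (a : Kˣ) ^ (q + 1) = 1 := fun a => a.2
  have hμU : μ ≤ U := fun z hz => by
    obtain ⟨k, hk⟩ := hrq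
    show z ^ (q + 1) = 1
    rw [hk, pow_mul, show z ^ r = 1 from hz, one_pow]
  have hμcard : Fintype.card μ = r := by
    rw [← Nat.card_eq_fintype_card, IsCyclic.card_powMonoidHom_ker, hcardK, Nat.gcd_eq_right (dvd_mul_of_dvd_left hrq _)]
  have hUcard : Nat.card U = q + 1 := by
    rw [IsCyclic.card_powMonoidHom_ker, hcardK, Nat.gcd_eq_right (dvd_mul_right _ _)]
  haveI : Nontrivial μ := Fintype.one_lt_card_iff_nontrivial.1 (by omega)
  obtain ⟨ζ, hζ⟩ := exists_ne (1 : μ)
  have hζo : orderOf ((ζ : Kˣ) : K) = r := by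
    rw [orderOf_units]
    exact orderOf_eq_prime (hμ ζ) (fun h => hζ (Subtype.ext h))
  have hprim : IsPrimitiveRoot ((ζ : Kˣ) : K) r := hζo ▸ IsPrimitiveRoot.orderOf _
  let G := Cfsg.GU n K q
  let Z := Subgroup.center ↥G
  let π : ↥G →* ↥G ⧸ Z := QuotientGroup.mk' Z
  let scU : U →* ↥G := ((sc n).comp U.subtype).codRestrict G (fun a => (sc_mem_iff hK hκ _).2 (hU a))
  have hscU : ∀ a : U, ((scU a : ↥G) : GL (Fin n) K) = sc n (a : Kˣ) := fun a => rfl
  have hscc : ∀ (a : U) (g : ↥G), Commute (scU a) g := fun a g => Subtype.ext (sc_comm (a : Kˣ) (g : GL (Fin n) K)).eq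
  have hZ : ∀ g, g ∈ Z ↔ ∃ a, g = scU a := by
    intro g
    constructor
    · intro hg
      obtain ⟨a, ha, e⟩ := center_scalar hK hκ (hU ⟨ζ, hμU ζ.2⟩) (fun h => hζ (Subtype.ext h)) g hg
      exact ⟨⟨a, ha⟩, Subtype.ext e⟩
    · rintro ⟨a, rfl⟩
      exact Subgroup.mem_center_iff.2 fun h => (hscc a h).eq.symm
  have hπsc : ∀ a g, π (scU a * g) = π g := by
    intro a g
    rw [map_mul, show π (scU a) = 1 from (QuotientGroup.eq_one_iff _).2 ((hZ _).2 ⟨a, rfl⟩), one_mul]
  have hπeq : ∀ g h : ↥G, IsConj g h → IsConj (π g) (π h) := fun g h => π.map_isConj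
  have hπconj : ∀ g h : ↥G, IsConj (π g) (π h) → ∃ a, IsConj g (scU a * h) := by
    intro g h hc
    obtain ⟨x, hx⟩ := isConj_iff.1 hc
    obtain ⟨x, rfl⟩ := QuotientGroup.mk'_surjective Z x
    have h1 : π (x * g * x⁻¹) = π h := by rw [map_mul, map_mul, map_inv]; exact hx
    obtain ⟨a, ha⟩ := (hZ _).1 (QuotientGroup.eq.1 h1.symm)
    refine ⟨a, isConj_iff.2 ⟨x, ?_⟩⟩
    rw [(hscc a h).eq, ← ha, mul_inv_cancel_left]
  have hGL : ∀ g h : ↥G, IsConj g h → IsConj (g : GL (Fin n) K) (h : GL (Fin n) K) := fun g h => G.subtype.map_isConj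
  have hGU : ∀ g h : ↥G, IsConj (g : GL (Fin n) K) (h : GL (Fin n) K) → IsConj g h := by
    intro g h hc
    obtain ⟨P, hP⟩ := isConj_iff.1 hc
    obtain ⟨c, hc, hce⟩ := CfsgLib.Unitary.Conj.conj_in_GU hK hκ hκκ g.2 h.2 P hP
    exact isConj_iff.2 ⟨⟨c, hc⟩, Subtype.ext hce⟩
  -- multisets of roots of unity
  let X := {s : Sym μ n // ∀ z : μ, s ≠ Sym.replicate n z}
  haveI : Fintype X := Subtype.fintype _
  have hd : ∀ s : X, ∃ d : Fin n → μ, (Finset.univ.val.map d) = s.1.1 := by
    intro s
    have hl : s.1.1.toList.length = n := by rw [Multiset.length_toList]; exact s.1.2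
    refine ⟨fun i => s.1.1.toList.get (i.cast hl.symm), ?_⟩
    rw [Fin.univ_val_map, ← List.ofFn_congr hl, List.ofFn_get, Multiset.coe_toList]
  choose d hd using hd
  let D : X → ↥G := fun s => ⟨dg (fun i => (d s i : Kˣ)), dg_mem hK hκ _ (fun i => hμU (d s i).2)⟩
  have hDpow : ∀ s, D s ^ r = scU 1 := by
    intro s
    refine Subtype.ext ?_
    rw [SubgroupClass.coe_pow, hscU]
    show dg _ ^ r = sc n 1
    rw [dg_pow]
    refine Units.ext ?_
    rw [dg_val, sc_val, Matrix.scalar_apply]
    exact congrArg Matrix.diagonal (funext fun i => by rw [hμ])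
  let act : μ → X → X := fun z s => ⟨Sym.map (fun w => z * w) s.1, fun w h => s.2 (z⁻¹ * w) (by
    apply Subtype.ext
    have h' := congrArg (fun m : Sym μ n => m.1.map fun v => z⁻¹ * v) h
    show s.1.1 = Multiset.replicate n (z⁻¹ * w)
    have e1 : (s.1.1.map fun v => z * v).map (fun v => z⁻¹ * v) = s.1.1 := by
      rw [Multiset.map_map]
      simp [Function.comp_def]
    rw [← e1, ← Multiset.map_replicate (fun v => z⁻¹ * v)]
    exact h')⟩
  letI : SMul μ X := ⟨act⟩
  have hsmul : ∀ (z : μ) (s : X), (z • s).1.1 = s.1.1.map (fun w => z * w) := fun z s => rfl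
  letI : MulAction μ X :=
    { one_smul := fun s => Subtype.ext (Subtype.ext (by
        show s.1.1.map (fun w => (1 : μ) * w) = s.1.1
        simp))
      mul_smul := fun a b s => Subtype.ext (Subtype.ext (by
        show s.1.1.map (fun w => a * b * w) = (s.1.1.map (fun w => b * w)).map (fun w => a * w)
        rw [Multiset.map_map]
        exact Multiset.map_congr rfl fun w _ => mul_assoc a b w)) }
  let Ω := Quotient (MulAction.orbitRel μ X)
  haveI : Fintype Ω := Fintype.ofFinite Ω
  -- the other cosets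
  let R : Subgroup U := (powMonoidHom r : U →* U).range
  let B := {x : U ⧸ R // x ≠ 1 ∧ r ∣ n}
  haveI : Finite B := Subtype.finite
  have hirr : ∀ c : U, c ∉ R → Irreducible (Polynomial.X ^ r - Polynomial.C ((c : Kˣ) : K)) := by
    intro c hc
    refine X_pow_sub_C_irreducible_of_prime hr fun b hb => hc ?_
    have hb0 : b ≠ 0 := fun h => (c : Kˣ).ne_zero (by rw [← hb, h, zero_pow hr.ne_zero])
    have hbr : Units.mk0 b hb0 ^ r = (c : Kˣ) := Units.ext (by rw [Units.val_pow_eq_pow_val, Units.val_mk0, hb])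
    have hx1 : (Units.mk0 b hb0 ^ (q + 1)) ^ r = 1 := by rw [pow_right_comm, hbr]; exact hU c
    have hx2 : (Units.mk0 b hb0 ^ (q + 1)) ^ (q - 1) = 1 := by rw [← pow_mul, ← hcardK]; exact pow_card_eq_one'
    have hco : Nat.gcd r (q - 1) = 1 := by
      refine (hr.coprime_iff_not_dvd.2 fun h => ?_)
      have h2 : r ∣ 2 := by
        have := Nat.dvd_sub hrq h
        rwa [show q + 1 - (q - 1) = 2 by omega] at this
      have := Nat.le_of_dvd (by omega) h2
      omega
    have hbU : Units.mk0 b hb0 ^ (q + 1) = 1 := by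
      have := pow_gcd_eq_one.2 ⟨hx1, hx2⟩
      rwa [hco, pow_one] at this
    exact ⟨⟨Units.mk0 b hb0, hbU⟩, Subtype.ext hbr⟩
  have hB0 : ∀ x : B, x.1.out ∉ R := fun x h => x.2.1 (by rw [← QuotientGroup.out_eq' x.1]; exact (QuotientGroup.eq_one_iff _).2 h)
  have hgB : ∀ x : B, ∃ g : ↥G, g ^ r = scU x.1.out := by
    intro x
    set c : Kˣ := ((x.1.out : U) : Kˣ) with hc
    have hP := hirr _ (hB0 x)
    obtain ⟨A, hA, hAc⟩ := realizeC r (c : K) (Multiset.replicate (n / r) (Polynomial.X ^ r - Polynomial.C (c : K)))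
      (fun φ hφ => by rw [Multiset.eq_of_mem_replicate hφ]; exact ⟨Polynomial.monic_X_pow_sub_C _ hr.ne_zero, hP, dvd_rfl⟩) n
      (by rw [Multiset.map_replicate, Multiset.sum_replicate, Polynomial.natDegree_X_pow_sub_C, smul_eq_mul, Nat.div_mul_cancel x.2.2])
    have hAu : IsUnit A := by
      rw [← isUnit_pow_iff hr.ne_zero, hA]
      exact (isUnit_iff_ne_zero.2 (Units.ne_zero _)).map _
    let g := hAu.unit
    have hg : g ^ r = sc n c := Units.ext (by rw [Units.val_pow_eq_pow_val, IsUnit.unit_spec, hA]; rfl)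
    let ga : GL (Fin n) K := (CfsgLib.Unitary.Conj.isUnit_adj κ g.isUnit).unit
    have hga : (ga : Matrix (Fin n) (Fin n) K) = CfsgLib.Unitary.Conj.adj κ (g : Matrix (Fin n) (Fin n) K) := IsUnit.unit_spec _
    have hgar : ga ^ r = sc n (c⁻¹) := by
      refine Units.ext ?_
      rw [Units.val_pow_eq_pow_val, hga, ← CfsgLib.Unitary.Conj.adj_pow, ← Units.val_pow_eq_pow_val, hg, sc_val, sc_val]
      rw [show Matrix.scalar (Fin n) (c : K) = algebraMap K _ (c : K) from rfl, CfsgLib.Unitary.Conj.adj_algebraMap]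
      refine congrArg (algebraMap K (Matrix (Fin n) (Fin n) K)) ?_
      have h1 : c ^ q = c⁻¹ := eq_inv_of_mul_eq_one_left (by rw [← pow_succ]; exact hU _)
      rw [hκ, ← h1, Units.val_pow_eq_pow_val]
    have hgbr : ga⁻¹ ^ r = sc n c := by rw [inv_pow, hgar, ← map_inv, inv_inv]
    obtain ⟨C, hC⟩ := isConj_iff.1 (conj_of_charpoly hrF hg hgbr (by
      rw [(charpoly_of_irreducible hr.pos hg hP).2, (charpoly_of_irreducible hr.pos hgbr hP).2]))
    have hX : ga * C * g = C := by
      have h1 : C * g = ga⁻¹ * C := by rw [← hC, inv_mul_cancel_right]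
      rw [mul_assoc, h1, mul_inv_cancel_left]
    have hX' := congrArg Units.val hX
    rw [Units.val_mul, Units.val_mul, hga] at hX'
    obtain ⟨e, he⟩ := CfsgLib.Unitary.Conj.exists_conj_mem hK hκ hκκ g C hX'
    refine ⟨⟨e * g * e⁻¹, he⟩, Subtype.ext ?_⟩
    show (e * g * e⁻¹) ^ r = sc n c
    rw [conj_pow, hg, (sc_comm c e).symm.eq, mul_inv_cancel_right]
  choose gB hgBp using hgB
  let T := {C : ConjClasses (↥G ⧸ Z) // ∃ g : ↥G ⧸ Z, ConjClasses.mk g = C ∧ orderOf g = r}
  have hord : ∀ (g : ↥G) (c : U), g ^ r = scU c → (¬ ∃ a, g = scU a) → orderOf (π g) = r := by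
    intro g c hg hng
    refine orderOf_eq_prime ?_ ?_
    · rw [← map_pow, hg, ← mul_one (scU c), hπsc, map_one]
    · intro h
      exact hng ((hZ g).1 ((QuotientGroup.eq_one_iff g).1 h))
  have hDns : ∀ s, ¬ ∃ a, D s = scU a := by
    rintro s ⟨a, ha⟩
    have hda : ∀ i, ((d s i : μ) : Kˣ) = (a : Kˣ) := fun i => Units.ext (by
      have := congrArg (fun g : ↥G => ((g : GL (Fin n) K) : Matrix (Fin n) (Fin n) K) i i) ha
      simpa [D, hscU, dg_val, sc_val, Matrix.scalar_apply] using this)
    refine s.2 (d s 0) (Subtype.ext ?_)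
    show s.1.1 = Multiset.replicate n (d s 0)
    rw [← hd s, Multiset.map_congr rfl (fun i _ => Subtype.ext ((hda i).trans (hda 0).symm) : ∀ i ∈ Finset.univ.val, d s i = d s 0),
      Multiset.map_const']
    simp
  have hscinj : Function.Injective scU := fun a b h => Subtype.ext (sc_injective (n := n) (congrArg Subtype.val h))
  have hBns : ∀ x, ¬ ∃ a, gB x = scU a := by
    rintro x ⟨a, ha⟩
    have h1 := hgBp x
    rw [ha, ← map_pow] at h1
    exact hB0 x ⟨a, hscinj h1⟩
  let Ψ : Ω ⊕ B → T := fun y => match y with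
    | Sum.inl ω => ⟨ConjClasses.mk (π (D ω.out)), π (D ω.out), rfl, hord _ _ (hDpow _) (hDns _)⟩
    | Sum.inr x => ⟨ConjClasses.mk (π (gB x)), π (gB x), rfl, hord _ _ (hgBp x) (hBns x)⟩
  have hroots : ∀ s t : X, IsConj (D s) (D t) → s = t := by
    intro s t h
    have h1 := congrArg Polynomial.roots (charpoly_isConj (hGL _ _ h))
    simp only [D] at h1
    rw [roots_dg, roots_dg, Multiset.map_map, Multiset.map_map] at h1
    have h2 : (s.1.1.map (fun z : μ => ((z : Kˣ) : K))) = t.1.1.map (fun z : μ => ((z : Kˣ) : K)) := by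
      rw [← hd s, ← hd t, Multiset.map_map, Multiset.map_map]
      exact h1
    exact Subtype.ext (Subtype.ext (Multiset.map_injective (fun a b hab => Subtype.ext (Units.ext hab)) h2))
  have hsc1 : ((scU 1 : ↥G) : GL (Fin n) K) = sc n 1 := hscU 1
  have hconjD : ∀ (e : Fin n → μ) (s : X), Finset.univ.val.map e = s.1.1 → IsConj (dg fun i => (e i : Kˣ)) (D s : GL (Fin n) K) := by
    intro e s he
    refine conj_of_charpoly hrF (c := 1) ?_ (by rw [← SubgroupClass.coe_pow, hDpow s, hsc1]) ?_
    · rw [dg_pow]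
      refine Units.ext ?_
      rw [dg_val, sc_val, Matrix.scalar_apply]
      exact congrArg Matrix.diagonal (funext fun i => by rw [hμ])
    · show _ = ((dg fun i => (d s i : Kˣ) : GL (Fin n) K) : Matrix (Fin n) (Fin n) K).charpoly
      rw [dg_val, dg_val, Matrix.charpoly_diagonal, Matrix.charpoly_diagonal, Finset.prod, Finset.prod]
      have h1 : (Finset.univ.val.map e).map (fun z : μ => Polynomial.X - Polynomial.C ((z : Kˣ) : K))
          = (Finset.univ.val.map (d s)).map (fun z : μ => Polynomial.X - Polynomial.C ((z : Kˣ) : K)) := by rw [he, hd]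
      rw [Multiset.map_map, Multiset.map_map] at h1
      exact congrArg Multiset.prod h1
  have hsame : ∀ (z : μ) (s : X), IsConj (scU (Subgroup.inclusion hμU z) * D s) (D (z • s)) := by
    intro z s
    apply hGU
    show IsConj (sc n (z : Kˣ) * dg _) _
    rw [sc_mul_dg]
    refine hconjD (fun i => z * d s i) (z • s) ?_
    rw [hsmul, ← hd s, Multiset.map_map]
    rfl
  have hpow_a : ∀ (g h : ↥G) (c c' a : U), g ^ r = scU c → h ^ r = scU c' → IsConj g (scU a * h) → c = a ^ r * c' := by
    intro g h c c' a hg hh hc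
    obtain ⟨x, hx⟩ := isConj_iff.1 hc
    have h1 : x * g ^ r * x⁻¹ = (scU a * h) ^ r := by rw [← conj_pow, hx]
    rw [hg, (hscc a h).mul_pow, hh, ← map_pow, ← map_mul, (hscc c x).symm.eq, mul_assoc, mul_inv_cancel, mul_one] at h1
    exact hscinj h1
  have hΨ : Function.Bijective Ψ := by
    constructor
    · rintro (ω | x) (ω' | x') h <;> have h' := ConjClasses.mk_eq_mk_iff_isConj.1 (congrArg Subtype.val h)
      · obtain ⟨a, ha⟩ := hπconj _ _ h'
        have har : a ^ r = 1 := by
          have := hpow_a _ _ _ _ a (hDpow _) (hDpow _) ha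
          simpa using this.symm
        let z : μ := ⟨(a : Kˣ), show (a : Kˣ) ^ r = 1 by rw [← SubgroupClass.coe_pow, har]; rfl⟩
        have h2 := hroots _ _ (ha.trans (show IsConj (scU a * D ω'.out) _ from hsame z ω'.out))
        have h3 : (Quotient.mk (MulAction.orbitRel μ X) ω.out : Ω) = Quotient.mk (MulAction.orbitRel μ X) ω'.out :=
          Quotient.sound (MulAction.orbitRel_apply.2 (h2 ▸ MulAction.mem_orbit _ _))
        rw [Quotient.out_eq, Quotient.out_eq] at h3
        rw [h3]
      · exfalso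
        obtain ⟨a, ha⟩ := hπconj _ _ h'
        have := hpow_a _ _ _ _ a (hDpow _) (hgBp x') ha
        exact hB0 x' ⟨a⁻¹, by
          rw [powMonoidHom_apply, inv_pow]
          exact inv_eq_of_mul_eq_one_right this.symm⟩
      · exfalso
        obtain ⟨a, ha⟩ := hπconj _ _ h'
        have := hpow_a _ _ _ _ a (hgBp x) (hDpow _) ha
        exact hB0 x ⟨a, by rw [powMonoidHom_apply, this, mul_one]⟩
      · obtain ⟨a, ha⟩ := hπconj _ _ h'
        have := hpow_a _ _ _ _ a (hgBp x) (hgBp x') ha
        have h2 : x.1 = x'.1 := by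
          rw [← QuotientGroup.out_eq' x.1, ← QuotientGroup.out_eq' x'.1]
          refine (QuotientGroup.eq.2 ?_).symm
          refine ⟨a, ?_⟩
          rw [powMonoidHom_apply, this, mul_comm (a ^ r), inv_mul_cancel_left]
        exact congrArg Sum.inr (Subtype.ext h2)
    · rintro ⟨C, y, rfl, hy⟩
      obtain ⟨g, rfl⟩ := QuotientGroup.mk'_surjective Z y
      have hgns : ¬ ∃ a, g = scU a := by
        rintro ⟨a, rfl⟩
        rw [show QuotientGroup.mk' Z (scU a) = 1 from (QuotientGroup.eq_one_iff _).2 ((hZ _).2 ⟨a, rfl⟩), orderOf_one] at hy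
        exact hr.ne_one hy.symm
      obtain ⟨c, hc⟩ : ∃ c, g ^ r = scU c := (hZ _).1 ((QuotientGroup.eq_one_iff _).1 (by
        show π (g ^ r) = 1
        rw [map_pow, ← hy]; exact pow_orderOf_eq_one _))
      have hscale : ∀ b c₀ : U, c = b ^ r * c₀ → (scU b⁻¹ * g) ^ r = scU c₀ := by
        intro b c₀ hb
        rw [(hscc _ g).mul_pow, hc, ← map_pow, ← map_mul, hb, inv_pow, inv_mul_cancel_left]
      by_cases hcR : c ∈ R
      · obtain ⟨b, hb⟩ := hcR
        rw [powMonoidHom_apply] at hb
        set hh0 := scU b⁻¹ * g with hhdef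
        have hh : (hh0 : GL (Fin n) K) ^ r = sc n 1 := by
          rw [← SubgroupClass.coe_pow, hscale b 1 (by rw [hb, mul_one]), hsc1]
        set fs := UniqueFactorizationMonoid.normalizedFactors ((hh0 : GL (Fin n) K) : Matrix (Fin n) (Fin n) K).charpoly with hfs
        have hm := Matrix.charpoly_monic ((hh0 : GL (Fin n) K) : Matrix (Fin n) (Fin n) K)
        have hprodf : fs.prod = ((hh0 : GL (Fin n) K) : Matrix (Fin n) (Fin n) K).charpoly := by
          rw [UniqueFactorizationMonoid.prod_normalizedFactors_eq hm.ne_zero, hm.normalize_eq_self]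
        have hlin : ∀ φ ∈ fs, ∃ z : μ, φ = Polynomial.X - Polynomial.C ((z : Kˣ) : K) := by
          intro φ hφ
          obtain ⟨hirr', hmon, hdvd'⟩ := (Polynomial.mem_normalizedFactors_iff hm.ne_zero).1 hφ
          have hdvd := factor_dvd hh hirr' hdvd'
          haveI := Fact.mk hirr'
          have h1 : (AdjoinRoot.root φ) ^ r = 1 := by
            have h2 := AdjoinRoot.mk_eq_zero.2 hdvd
            rw [map_sub, map_pow, AdjoinRoot.mk_X, AdjoinRoot.mk_C, Units.val_one, map_one] at h2
            exact sub_eq_zero.1 h2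
          obtain ⟨i, -, hi⟩ := (hprim.map_of_injective (AdjoinRoot.of φ).injective).eq_pow_of_pow_eq_one h1
          refine ⟨ζ ^ i, ?_⟩
          have h3 : φ ∣ Polynomial.X - Polynomial.C (((ζ ^ i : μ) : Kˣ) : K) := by
            apply AdjoinRoot.mk_eq_zero.1
            rw [map_sub, AdjoinRoot.mk_X, AdjoinRoot.mk_C, SubmonoidClass.coe_pow, Units.val_pow_eq_pow_val, map_pow, hi, sub_self]
          exact Polynomial.eq_of_monic_of_associated hmon (Polynomial.monic_X_sub_C _)
            (hirr'.associated_of_dvd (Polynomial.irreducible_X_sub_C _) h3)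
        choose z hz using hlin
        let ms : Multiset μ := fs.attach.map (fun φ => z φ.1 φ.2)
        have hms : ms.map (fun w : μ => Polynomial.X - Polynomial.C ((w : Kˣ) : K)) = fs := by
          rw [Multiset.map_map]
          conv_rhs => rw [← Multiset.attach_map_val fs]
          exact Multiset.map_congr rfl fun φ _ => (hz φ.1 φ.2).symm
        have hcard : ms.card = n := by
          have h4 := congrArg Polynomial.natDegree hprodf
          rw [Polynomial.natDegree_multiset_prod_of_monic _ (fun φ hφ => ((Polynomial.mem_normalizedFactors_iff hm.ne_zero).1 hφ).2.1),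
            Matrix.charpoly_natDegree_eq_dim, Fintype.card_fin, ← hfs, ← hms, Multiset.map_map, Function.comp_def,
            Multiset.map_congr rfl (fun w _ => Polynomial.natDegree_X_sub_C _ : ∀ w ∈ ms, _ = 1),
            Multiset.map_const', Multiset.sum_replicate, smul_eq_mul, mul_one] at h4
          exact h4
        obtain ⟨e, he⟩ : ∃ e : Fin n → μ, Finset.univ.val.map e = ms := by
          have hl : ms.toList.length = n := by rw [Multiset.length_toList]; exact hcard
          refine ⟨fun i => ms.toList.get (i.cast hl.symm), ?_⟩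
          rw [Fin.univ_val_map, ← List.ofFn_congr hl, List.ofFn_get, Multiset.coe_toList]
        have hconj : IsConj (hh0 : GL (Fin n) K) (dg fun i => (e i : Kˣ)) := by
          refine conj_of_charpoly hrF (c := 1) hh ?_ ?_
          · rw [dg_pow]
            refine Units.ext ?_
            rw [dg_val, sc_val, Matrix.scalar_apply]
            exact congrArg Matrix.diagonal (funext fun i => by rw [hμ])
          · rw [← hprodf, ← hms, ← he, dg_val, Matrix.charpoly_diagonal, Finset.prod, Multiset.map_map]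
            rfl
        let sX : X := ⟨⟨ms, hcard⟩, fun w hw => by
          have hew : ∀ i, e i = w := fun i => Multiset.eq_of_mem_replicate (n := n) (by
            have hi : e i ∈ ms := he ▸ Multiset.mem_map_of_mem _ (Finset.mem_univ i)
            rwa [show ms = Multiset.replicate n w from congrArg Subtype.val hw] at hi)
          have h1 : (dg fun i => (e i : Kˣ)) = sc n (w : Kˣ) := by
            refine Units.ext ?_
            rw [dg_val, sc_val, Matrix.scalar_apply]
            exact congrArg Matrix.diagonal (funext fun i => by rw [hew i])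
          rw [h1] at hconj
          obtain ⟨u, hu⟩ := isConj_iff.1 hconj.symm
          rw [(sc_comm _ u).symm.eq, mul_inv_cancel_right] at hu
          apply hgns
          refine ⟨b * Subgroup.inclusion hμU w, ?_⟩
          have h5 : hh0 = scU (Subgroup.inclusion hμU w) := Subtype.ext (by rw [hscU]; exact hu.symm)
          rw [map_mul, ← h5, hhdef, ← mul_assoc, ← map_mul, mul_inv_cancel, map_one, one_mul]⟩
        let ω : Ω := Quotient.mk _ sX
        have hrel : ω.out ∈ MulAction.orbit μ sX := MulAction.orbitRel_apply.1 (Quotient.exact (Quotient.out_eq ω))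
        obtain ⟨w, hw⟩ := hrel
        refine ⟨Sum.inl ω, Subtype.ext (ConjClasses.mk_eq_mk_iff_isConj.2 ?_)⟩
        have h1 : IsConj (π hh0) (π (D sX)) := hπeq _ _ (hGU _ _ (hconj.trans (hconjD e sX he)))
        have h2 := hπeq _ _ (hsame w sX)
        rw [hπsc, show w • sX = ω.out from hw] at h2
        rw [hhdef, hπsc] at h1
        exact (h1.trans h2).symm
      · let x₀ : U ⧸ R := QuotientGroup.mk c
        obtain ⟨b, hb⟩ : ∃ b : U, c = b ^ r * x₀.out := by
          obtain ⟨b, hb⟩ := QuotientGroup.eq.1 (QuotientGroup.out_eq' x₀)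
          refine ⟨b, ?_⟩
          rw [powMonoidHom_apply] at hb
          rw [hb, mul_comm, mul_inv_cancel_left]
        set hh0 := scU b⁻¹ * g with hhdef
        have hh : hh0 ^ r = scU x₀.out := hscale b _ hb
        have hhL : (hh0 : GL (Fin n) K) ^ r = sc n ((x₀.out : U) : Kˣ) := by rw [← SubgroupClass.coe_pow, hh, hscU]
        have hx0 : x₀ ≠ 1 := fun h0 => hcR ((QuotientGroup.eq_one_iff c).1 h0)
        have hout : x₀.out ∉ R := fun h0 => hx0 (by rw [← QuotientGroup.out_eq' x₀]; exact (QuotientGroup.eq_one_iff _).2 h0)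
        have hP := hirr _ hout
        let x : B := ⟨x₀, hx0, (charpoly_of_irreducible hr.pos hhL hP).1⟩
        refine ⟨Sum.inr x, Subtype.ext (ConjClasses.mk_eq_mk_iff_isConj.2 ?_)⟩
        have hxL : (gB x : GL (Fin n) K) ^ r = sc n ((x₀.out : U) : Kˣ) := by rw [← SubgroupClass.coe_pow, hgBp, hscU]
        have h1 := hπeq _ _ (hGU _ _ (conj_of_charpoly hrF hhL hxL (by
          rw [(charpoly_of_irreducible hr.pos hhL hP).2, (charpoly_of_irreducible hr.pos hxL hP).2])))
        rw [hhdef, hπsc] at h1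
        exact h1.symm
  -- counting
  set e := if r ∣ n then 1 else 0 with he
  have hBcard : Nat.card B = (r - 1) * e := by
    by_cases hrn : r ∣ n
    · have h1 : Nat.card (U ⧸ R) = r := by
        rw [← Subgroup.index_eq_card, IsCyclic.index_powMonoidHom_range, hUcard, Nat.gcd_eq_right hrq]
      rw [he, if_pos hrn, mul_one, Nat.card_congr (Equiv.subtypeEquivRight (fun x => and_iff_left hrn) : B ≃ {x : U ⧸ R // x ≠ 1})]
      haveI : Fintype (U ⧸ R) := Fintype.ofFinite _
      rw [Nat.card_eq_fintype_card, Fintype.card_subtype_compl, Fintype.card_subtype_eq, ← Nat.card_eq_fintype_card, h1]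
    · haveI : IsEmpty B := ⟨fun x => hrn x.2.2⟩
      rw [he, if_neg hrn, Nat.card_of_isEmpty, mul_zero]
  have hXcard : Fintype.card X = (n + r - 1).choose (r - 1) - r := by
    have hsplit : Fintype.card (Sym μ n) = Fintype.card X + r := by
      have hinj : Function.Injective (fun z : μ => Sym.replicate n z) := fun a b h => by
        have h2 := congrArg Subtype.val h
        have h3 : a ∈ Multiset.replicate n b := by
          rw [← show Multiset.replicate n a = Multiset.replicate n b from h2]
          exact Multiset.mem_replicate.2 ⟨by omega, rfl⟩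
        exact Multiset.eq_of_mem_replicate h3
      rw [Fintype.card_subtype]
      have h2 : (Finset.univ.filter fun s : Sym μ n => ∀ z : μ, s ≠ Sym.replicate n z) = Finset.univ \ Finset.univ.image (fun z : μ => Sym.replicate n z) := by
        ext s; simp [eq_comm]
      rw [h2, Finset.card_sdiff_of_subset (Finset.subset_univ _), Finset.card_image_of_injective _ hinj, Finset.card_univ, Finset.card_univ, hμcard,
        Nat.sub_add_cancel]
      exact le_of_eq_of_le hμcard.symm (Fintype.card_le_of_injective _ hinj)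
    rw [Sym.card_sym_eq_choose, hμcard, Nat.add_comm r n] at hsplit
    have hsym : (n + r - 1).choose (r - 1) = (n + r - 1).choose n := by
      rw [← Nat.choose_symm (show n ≤ n + r - 1 by omega)]
      congr 1
      omega
    omega
  have hfix : ∀ z : μ, z ≠ 1 → Fintype.card (MulAction.fixedBy X z) = e := by
    intro z hz
    have hgen : ∀ w : μ, ∃ i : ℕ, z ^ i = w := by
      intro w
      obtain ⟨i, hi⟩ := Submonoid.mem_powers_iff _ _ |>.1 (mem_powers_of_prime_card (p := r) (by rw [Nat.card_eq_fintype_card]; exact hμcard) hz : w ∈ Submonoid.powers z)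
      exact ⟨i, hi⟩
    have hconst : ∀ s : MulAction.fixedBy X z, ∀ w, s.1.1.1.count w = s.1.1.1.count 1 := by
      intro s w
      obtain ⟨i, rfl⟩ := hgen w
      induction i with
      | zero => rw [pow_zero]
      | succ i ih =>
        have h1 := congrArg (fun x : X => x.1.1) (show z • s.1 = s.1 from s.2)
        rw [hsmul] at h1
        conv_lhs => rw [← h1]
        rw [pow_succ', Multiset.count_map_eq_count' _ _ (mul_right_injective z), ih]
    have hsum : ∀ s : MulAction.fixedBy X z, r * s.1.1.1.count 1 = n := by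
      intro s
      have h1 := Multiset.sum_count_eq_card (s := Finset.univ) (m := s.1.1.1) (fun a _ => Finset.mem_univ a)
      rw [Finset.sum_congr rfl (fun w _ => hconst s w), Finset.sum_const, Finset.card_univ, hμcard, smul_eq_mul] at h1
      exact h1.trans s.1.1.2
    by_cases hrn : r ∣ n
    · rw [he, if_pos hrn, Fintype.card_eq_one_iff]
      let ms : Multiset μ := (n / r) • (Finset.univ : Finset μ).val
      have hcount : ∀ w, ms.count w = n / r := fun w => by
        rw [Multiset.count_nsmul, Multiset.count_eq_one_of_mem Finset.univ.nodup (Finset.mem_univ w), mul_one]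
      have hmc : ms.card = n := by
        rw [Multiset.card_nsmul, ← Finset.card_def, Finset.card_univ, hμcard, Nat.div_mul_cancel hrn]
      have hpos : 0 < n / r := Nat.div_pos (Nat.le_of_dvd (by omega) hrn) hr.pos
      let s₀ : X := ⟨⟨ms, hmc⟩, fun w hw => by
        obtain ⟨w', hw'⟩ := exists_ne w
        have h1 := hcount w'
        rw [show ms = Multiset.replicate n w from congrArg Subtype.val hw, Multiset.count_replicate, if_neg (Ne.symm hw')] at h1
        omega⟩
      refine ⟨⟨s₀, Subtype.ext (Subtype.ext (Multiset.ext.2 fun w => ?_))⟩, fun s => ?_⟩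
      · show Multiset.count w (z • s₀).1.1 = ms.count w
        rw [hsmul, show w = z * (z⁻¹ * w) by rw [mul_inv_cancel_left], Multiset.count_map_eq_count' _ _ (mul_right_injective z)]
        show ms.count _ = ms.count _
        rw [hcount, hcount]
      · refine Subtype.ext (Subtype.ext (Subtype.ext (Multiset.ext.2 fun w => ?_)))
        show s.1.1.1.count w = ms.count w
        rw [hcount, hconst s w]
        exact (Nat.div_eq_of_eq_mul_right hr.pos (hsum s).symm).symm
    · rw [he, if_neg hrn, Fintype.card_eq_zero_iff]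
      exact ⟨fun s => hrn ⟨_, (hsum s).symm⟩⟩
  have hburn := MulAction.sum_card_fixedBy_eq_card_orbits_mul_card_group μ X
  rw [← Finset.add_sum_erase _ _ (Finset.mem_univ (1 : μ)), Finset.sum_congr rfl (fun z hz => hfix z (Finset.ne_of_mem_erase hz)),
    Finset.sum_const, Finset.card_erase_of_mem (Finset.mem_univ _), Finset.card_univ, hμcard, smul_eq_mul] at hburn
  have hone : Fintype.card (MulAction.fixedBy X (1 : μ)) = Fintype.card X :=
    Fintype.card_congr (Equiv.subtypeUnivEquiv fun s => one_smul μ s)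
  rw [hone] at hburn
  have hT : Nat.card T = Nat.card Ω + Nat.card B := by
    rw [← Nat.card_congr (Equiv.ofBijective Ψ hΨ), Nat.card_sum]
  show Nat.card T = _
  rw [hT, hBcard, Nat.card_eq_fintype_card]
  have hΩ : Fintype.card X + (r - 1) * e = Fintype.card Ω * r := by
    convert hburn using 2
  have hXe : e ≤ Fintype.card X := by
    by_cases hrn : r ∣ n
    · rw [← hfix ζ hζ]
      exact Fintype.card_subtype_le _
    · simp [he, hrn]
  rw [hXcard] at hΩ hXe
  obtain ⟨r', rfl⟩ : ∃ r', r = r' + 1 := ⟨r - 1, by omega⟩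
  simp only [show n + (r' + 1) - 1 = n + r' by omega, Nat.add_sub_cancel] at hΩ hXe hXcard ⊢
  set N := (n + r').choose r' - (r' + 1) with hN
  have heΩ : e ≤ Fintype.card Ω := Nat.le_of_mul_le_mul_right (show e * (r' + 1) ≤ Fintype.card Ω * (r' + 1) by rw [← hΩ, mul_add, mul_comm e r']; omega) (Nat.succ_pos _)
  obtain ⟨k, hk⟩ := Nat.exists_eq_add_of_le heΩ
  have hNk : N - e = k * (r' + 1) := by
    rw [hk, add_mul, mul_add e r' 1, mul_comm e r'] at hΩ
    omega
  rw [hNk, Nat.mul_div_cancel _ (Nat.succ_pos _), hk, add_mul]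
  ring

end Cfsg.Agent.S2672
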