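import Cfsg.Statements.S2360
import Mathlib
import Cfsg.Agent.S0278
import Cfsg.Agent.S2672
import Cfsg.Agent.Lib.Unitary.Order
import Cfsg.Agent.Lib.Unitary.SpecialConj
import Cfsg.Agent.Lib.Unitary.FieldNorm

set_option autoImplicit false
open Cfsg

namespace Cfsg.Agent.S2360

set_option maxHeartbeats 1600000

open Matrix

variable {F : Type*} [Field F]

local notation "M3" => Matrix (Fin 3) (Fin 3) F

/-- The model involution. -/
def s0 : M3 := !![1, 0, 0; 0, -1, 0; 0, 0, -1]

theorem commute_s0 (h2 : (2 : F) ≠ 0) {g : M3} (h : g * s0 = s0 * g) :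
    g 0 1 = 0 ∧ g 0 2 = 0 ∧ g 1 0 = 0 ∧ g 2 0 = 0 := by
  have key : ∀ a : F, -a = a → a = 0 := fun a ha => (mul_eq_zero.1 (show (2 : F) * a = 0 by linear_combination -ha)).resolve_left h2
  have e := fun i j => congrFun (congrFun h i) j
  have e1 := e 0 1; have e2 := e 0 2; have e3 := e 1 0; have e4 := e 2 0
  simp [s0, Matrix.mul_apply, Fin.sum_univ_three] at e1 e2 e3 e4
  exact ⟨key _ e1, key _ e2, key _ e3.symm, key _ e4.symm⟩

/-- An involution of determinant one commuting with the model is the model or has the shape `(-1, A)`. -/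
theorem shape (h2 : (2 : F) ≠ 0) {g : M3} (hg : g * s0 = s0 * g) (hgg : g * g = 1) (hd : g.det = 1) (h1 : g ≠ 1) (hs : g ≠ s0) :
    g 0 0 = -1 ∧ g 1 1 + g 2 2 = 0 ∧ g 1 1 * g 2 2 - g 1 2 * g 2 1 = -1 := by
  obtain ⟨a1, a2, a3, a4⟩ := commute_s0 h2 hg
  have e := fun i j => congrFun (congrFun hgg i) j
  have e00 := e 0 0; have e11 := e 1 1; have e12 := e 1 2; have e21 := e 2 1; have e22 := e 2 2
  simp [Matrix.mul_apply, Fin.sum_univ_three, a1, a2, a3, a4] at e00 e11 e12 e21 e22
  simp [Matrix.det_fin_three, a1, a2, a3, a4] at hd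
  have ha : g 0 0 = -1 := by
    rcases mul_self_eq_one_iff.1 e00 with h | h
    · exfalso
      rw [h] at hd
      simp only [one_mul] at hd
      have ht : g 1 1 + g 2 2 ≠ 0 := by
        intro h0
        exact h2 (by linear_combination -e11 - hd + g 1 1 * h0)
      have hb : g 1 2 = 0 := (mul_eq_zero.1 (show (g 1 1 + g 2 2) * g 1 2 = 0 by linear_combination e12)).resolve_left ht
      have hc : g 2 1 = 0 := (mul_eq_zero.1 (show (g 1 1 + g 2 2) * g 2 1 = 0 by linear_combination e21)).resolve_left ht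
      rw [hb, zero_mul, add_zero] at e11
      rw [hc, zero_mul, zero_add] at e22
      rw [hb, zero_mul, sub_zero] at hd
      have hed : g 2 2 = g 1 1 := by linear_combination g 1 1 * hd - g 2 2 * e11
      rcases mul_self_eq_one_iff.1 e11 with h' | h'
      · apply h1
        ext i j
        fin_cases i <;> fin_cases j <;> simp [a1, a2, a3, a4, hb, hc, h, h', hed]
      · apply hs
        ext i j
        fin_cases i <;> fin_cases j <;> simp [s0, a1, a2, a3, a4, hb, hc, h, h', hed]
    · exact h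
  rw [ha] at hd
  have hdet : g 1 1 * g 2 2 - g 1 2 * g 2 1 = -1 := by linear_combination -hd
  refine ⟨ha, ?_, hdet⟩
  by_contra ht
  have hb : g 1 2 = 0 := (mul_eq_zero.1 (show (g 1 1 + g 2 2) * g 1 2 = 0 by linear_combination e12)).resolve_left ht
  rw [hb] at hdet e11 e22
  apply ht
  linear_combination g 1 1 * hdet - g 2 2 * e11

theorem third_unique (h2 : (2 : F) ≠ 0) {x y : M3} (hx : x * s0 = s0 * x) (hxx : x * x = 1) (hxd : x.det = 1) (hx1 : x ≠ 1) (hxs : x ≠ s0)
    (hy : y * s0 = s0 * y) (hyy : y * y = 1) (hyd : y.det = 1) (hy1 : y ≠ 1) (hys : y ≠ s0) (hxy : x * y = y * x) :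
    y = x ∨ y = s0 * x := by
  obtain ⟨a0, at', ad⟩ := shape h2 hx hxx hxd hx1 hxs
  obtain ⟨b0, bt, bd⟩ := shape h2 hy hyy hyd hy1 hys
  obtain ⟨a1, a2, a3, a4⟩ := commute_s0 h2 hx
  obtain ⟨b1, b2, b3, b4⟩ := commute_s0 h2 hy
  have a22 : x 2 2 = -x 1 1 := by linear_combination at'
  have b22 : y 2 2 = -y 1 1 := by linear_combination bt
  have e := fun i j => congrFun (congrFun hxy i) j
  have f11 := e 1 1; have f12 := e 1 2; have f21 := e 2 1
  simp [Matrix.mul_apply, Fin.sum_univ_three, a1, a2, a3, a4, b1, b2, b3, b4, a22, b22] at f11 f12 f21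
  rw [a22] at ad
  rw [b22] at bd
  have cA : x 1 2 * y 2 1 = y 1 2 * x 2 1 := by linear_combination f11
  have cB : x 1 1 * y 1 2 = y 1 1 * x 1 2 :=
    mul_left_cancel₀ h2 (by linear_combination f12)
  have cC : x 1 1 * y 2 1 = y 1 1 * x 2 1 :=
    mul_left_cancel₀ h2 (by linear_combination -f21)
  set k := x 1 1 * y 1 1 + x 1 2 * y 2 1 with hk
  have r1 : y 1 1 = k * x 1 1 := by rw [hk]; linear_combination y 1 1 * ad - x 1 2 * cC
  have r2 : y 1 2 = k * x 1 2 := by rw [hk]; linear_combination y 1 2 * ad + x 1 1 * cB - x 1 2 * cA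
  have r3 : y 2 1 = k * x 2 1 := by rw [hk]; linear_combination y 2 1 * ad + x 1 1 * cC
  have hk2 : k * k = 1 := by
    rw [r1, r2, r3] at bd
    linear_combination -bd + k * k * ad
  rcases mul_self_eq_one_iff.1 hk2 with hk1 | hk1
  · left
    ext i j
    fin_cases i <;> fin_cases j <;> simp [a0, b0, a1, a2, a3, a4, b1, b2, b3, b4, a22, b22, r1, r2, r3, hk1]
  · right
    ext i j
    fin_cases i <;> fin_cases j <;> simp [s0, Matrix.mul_apply, Fin.sum_univ_three, a0, b0, a1, a2, a3, a4, b1, b2, b3, b4, a22, b22, r1, r2, r3, hk1]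


/-- Let q be odd, F the field with q² elements and S = SU_3(F) (determinant-one isometries of the standard Hermitian form). Then all involutions of S are conjugate; there are exactly q²(q²−q+1) of them; the centralizer of an involution has order q(q+1)(q²−1), the order of the full unitary group of degree 2; and for two distinct commuting involutions t and x there is exactly one further involution commuting with both. -/
theorem result {F : Type*} [Field F] [Fintype F] {q : ℕ} (hq : Odd q)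
    (hF : Fintype.card F = q ^ 2) (t : ↥(Cfsg.SU 3 F q)) (ht : t ≠ 1) (ht2 : t * t = 1) :
    (∀ x : ↥(Cfsg.SU 3 F q), x ≠ 1 → x * x = 1 → ∃ g : ↥(Cfsg.SU 3 F q), g * t * g⁻¹ = x) ∧
    Nat.card {x : ↥(Cfsg.SU 3 F q) // x ≠ 1 ∧ x * x = 1} = q ^ 2 * (q ^ 2 - q + 1) ∧
    Nat.card ↥(Subgroup.centralizer ({t} : Set ↥(Cfsg.SU 3 F q))) = q * (q + 1) * (q ^ 2 - 1) ∧
    ∀ x : ↥(Cfsg.SU 3 F q), x ≠ 1 → x * x = 1 → x ≠ t → Commute t x →
      Nat.card {y : ↥(Cfsg.SU 3 F q) // y ≠ 1 ∧ y * y = 1 ∧ y ≠ t ∧ y ≠ x ∧ Commute t y ∧ Commute x y} = 1 := by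
  classical
  obtain ⟨κ, hκ, hκκ⟩ := CfsgLib.Unitary.FieldNorm.exists_conj hF
  have hq2 := CfsgLib.Unitary.FieldNorm.two_le_q hF
  have hF2 : (2 : F) ≠ 0 := by
    intro h
    have h1 : ringChar F = 2 := by
      haveI : CharP F 2 := CharTwo.of_one_ne_zero_of_two_eq_zero one_ne_zero h
      exact ringChar.eq F 2
    have := FiniteField.even_card_iff_char_two.1 h1
    rw [hF, Nat.pow_mod, Nat.odd_iff.1 hq] at this
    exact absurd this (by norm_num)
  let val : ↥(Cfsg.SU 3 F q) → Matrix (Fin 3) (Fin 3) F := fun g => ((g : Matrix.SpecialLinearGroup (Fin 3) F) : Matrix (Fin 3) (Fin 3) F)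
  have hvinj : Function.Injective val := fun g h e => Subtype.ext (Subtype.ext e)
  have hvmul : ∀ g h, val (g * h) = val g * val h := fun g h => rfl
  have hv1 : val 1 = 1 := rfl
  have hvd : ∀ g, (val g).det = 1 := fun g => (g : Matrix.SpecialLinearGroup (Fin 3) F).2
  have hs0 : (s0 : Matrix (Fin 3) (Fin 3) F).det = 1 := by simp [s0, Matrix.det_fin_three]
  have hadj0 : CfsgLib.Unitary.Conj.adj κ (s0 : Matrix (Fin 3) (Fin 3) F) * s0 = 1 := by
    ext i j
    fin_cases i <;> fin_cases j <;> simp [s0, CfsgLib.Unitary.Conj.adj, Matrix.mul_apply, Fin.sum_univ_three]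
  let s : ↥(Cfsg.SU 3 F q) := ⟨⟨s0, hs0⟩, (CfsgLib.Unitary.SpecialConj.mem_GU_iff _).2 ((CfsgLib.Unitary.Conj.mem_GU hF hκ _).2 hadj0)⟩
  have hs : val s = s0 := rfl
  -- every involution is conjugate to the model
  have hconj : ∀ x : ↥(Cfsg.SU 3 F q), x ≠ 1 → x * x = 1 → IsConj x s := by
    intro x hx hxx
    let X := Matrix.SpecialLinearGroup.toGL (x : Matrix.SpecialLinearGroup (Fin 3) F)
    let S := Matrix.SpecialLinearGroup.toGL (s : Matrix.SpecialLinearGroup (Fin 3) F)
    have hXv : (X : Matrix (Fin 3) (Fin 3) F) = val x := rfl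
    have hX2 : X ^ 2 = Cfsg.Agent.S2670.sc 3 1 := by
      rw [map_one, sq]
      exact Units.ext (by rw [Units.val_mul, hXv, ← hvmul, hxx]; rfl)
    have hS2 : S ^ 2 = Cfsg.Agent.S2670.sc 3 1 := by
      rw [map_one, sq]
      refine Units.ext ?_
      show s0 * s0 = (1 : Matrix (Fin 3) (Fin 3) F)
      ext i j
      fin_cases i <;> fin_cases j <;> simp [s0, Matrix.mul_apply, Fin.sum_univ_three]
    set χ := (val x).charpoly with hχ
    have hm : χ.Monic := Matrix.charpoly_monic _
    set fs := UniqueFactorizationMonoid.normalizedFactors χ with hfs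
    have hprod : fs.prod = χ := by
      rw [UniqueFactorizationMonoid.prod_normalizedFactors_eq hm.ne_zero, hm.normalize_eq_self]
    have hcase : ∀ φ ∈ fs, φ = Polynomial.X - Polynomial.C 1 ∨ φ = Polynomial.X - Polynomial.C (-1) := by
      intro φ hφ
      obtain ⟨hirr, hmon, hdvd⟩ := (Polynomial.mem_normalizedFactors_iff hm.ne_zero).1 hφ
      have h := Cfsg.Agent.S2670.factor_dvd hX2 hirr hdvd
      rw [show (Polynomial.X ^ 2 - Polynomial.C ((1 : Fˣ) : F)) = (Polynomial.X - Polynomial.C 1) * (Polynomial.X - Polynomial.C (-1)) by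
        rw [Units.val_one, map_neg, map_one]; ring] at h
      rcases hirr.prime.dvd_or_dvd h with h | h
      · exact Or.inl (Polynomial.eq_of_monic_of_associated hmon (Polynomial.monic_X_sub_C _) (hirr.associated_of_dvd (Polynomial.irreducible_X_sub_C _) h))
      · exact Or.inr (Polynomial.eq_of_monic_of_associated hmon (Polynomial.monic_X_sub_C _) (hirr.associated_of_dvd (Polynomial.irreducible_X_sub_C _) h))
    set a := fs.count (Polynomial.X - Polynomial.C 1) with ha
    set b := (fs.filter (fun φ => ¬ φ = Polynomial.X - Polynomial.C 1)).card with hb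
    have hsplit : χ = (Polynomial.X - Polynomial.C 1) ^ a * (Polynomial.X - Polynomial.C (-1)) ^ b := by
      rw [← hprod, ← Multiset.filter_add_not (fun φ => φ = Polynomial.X - Polynomial.C 1) fs, Multiset.prod_add,
        Multiset.filter_eq', Multiset.prod_replicate]
      congr 1
      rw [Multiset.eq_replicate_card.2 (fun φ hφ => ((hcase φ (Multiset.mem_filter.1 hφ).1).resolve_left (Multiset.mem_filter.1 hφ).2)),
        Multiset.prod_replicate]
    have hab : a + b = 3 := by
      have h := congrArg Polynomial.natDegree hsplit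
      rw [Polynomial.Monic.natDegree_mul ((Polynomial.monic_X_sub_C _).pow _) ((Polynomial.monic_X_sub_C _).pow _),
        Polynomial.natDegree_pow, Polynomial.natDegree_pow, Polynomial.natDegree_X_sub_C, Polynomial.natDegree_X_sub_C,
        hχ, Matrix.charpoly_natDegree_eq_dim, Fintype.card_fin] at h
      omega
    have hbe : Even b := by
      have h := congrArg (fun f => Polynomial.eval 0 f) hsplit
      simp only [hχ, Matrix.eval_charpoly, map_zero, zero_sub, Matrix.det_neg, Fintype.card_fin, hvd, Polynomial.eval_mul,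
        Polynomial.eval_pow, Polynomial.eval_sub, Polynomial.eval_X, Polynomial.eval_C, neg_neg, one_pow, mul_one] at h
      by_contra ho
      rcases Nat.even_or_odd a with hae | hao
      · rw [hae.neg_one_pow] at h
        exact hF2 (by linear_combination -h)
      · have := hao.add_odd (Nat.not_even_iff_odd.1 ho)
        rw [hab] at this
        exact absurd this (by decide)
    obtain ⟨u, hu⟩ := hbe
    have hu' : u = 0 ∨ u = 1 := by omega
    rcases hu' with rfl | rfl
    · exfalso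
      obtain ⟨c, hc⟩ := isConj_iff.1 (Cfsg.Agent.S2670.conj_of_charpoly (r := 2) (c := 1) (by exact_mod_cast hF2) hX2
        (h := (1 : GL (Fin 3) F)) (by rw [one_pow, map_one])
        (by rw [hXv, ← hχ, hsplit, Units.val_one, Matrix.charpoly_one, Fintype.card_fin, show b = 0 by omega, show a = 3 by omega]; simp))
      rw [mul_inv_eq_one, mul_eq_left] at hc
      exact hx (hvinj (congrArg Units.val hc))
    · obtain ⟨P, hP⟩ := isConj_iff.1 (Cfsg.Agent.S2670.conj_of_charpoly (r := 2) (c := 1) (by exact_mod_cast hF2) hX2 hS2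
        (by
          have hsd : s0 = Matrix.diagonal (![(1 : F), -1, -1]) := by
            ext i j
            fin_cases i <;> fin_cases j <;> simp [s0]
          rw [hXv, ← hχ, hsplit, show (S : Matrix (Fin 3) (Fin 3) F) = s0 from rfl, hsd, Matrix.charpoly_diagonal, Fin.prod_univ_three,
            show b = 2 by omega, show a = 1 by omega]
          simp
          ring))
      obtain ⟨c, hc, hce⟩ := CfsgLib.Unitary.Conj.conj_in_GU hF hκ hκκ (x.2 : X ∈ Cfsg.GU 3 F q) (s.2 : S ∈ Cfsg.GU 3 F q) P hP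
      set d := (c : Matrix (Fin 3) (Fin 3) F).det with hd
      have hd0 : d ≠ 0 := ((Matrix.isUnit_iff_isUnit_det _).1 c.isUnit).ne_zero
      let D := Cfsg.Agent.S2670.dg (F := F) ![(Units.mk0 d hd0)⁻¹, 1, 1]
      have hdn := CfsgLib.Unitary.SpecialConj.det_norm hF hκ hc
      have hD : D ∈ Cfsg.GU 3 F q := Cfsg.Agent.S2672.dg_mem hF hκ _ (fun i => by
        fin_cases i
        · exact Units.ext (by simp [hd, hdn])
        · simp
        · simp)
      refine CfsgLib.Unitary.SpecialConj.isConj_of_det x s (D * c) (mul_mem hD hc) ?_ ?_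
      · rw [Units.val_mul, Matrix.det_mul, Cfsg.Agent.S2670.dg_val, Matrix.det_diagonal, Fin.prod_univ_three, ← hd]
        simp [hd0]
      · rw [Units.val_mul, mul_assoc]
        have h3 : (c : Matrix (Fin 3) (Fin 3) F) * val x = s0 * (c : Matrix (Fin 3) (Fin 3) F) :=
          congrArg Units.val (mul_inv_eq_iff_eq_mul.1 hce)
        rw [show ((x : Matrix.SpecialLinearGroup (Fin 3) F) : Matrix (Fin 3) (Fin 3) F) = val x from rfl, h3, ← mul_assoc,
          show ((s : Matrix.SpecialLinearGroup (Fin 3) F) : Matrix (Fin 3) (Fin 3) F) = s0 from rfl, ← mul_assoc]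
        congr 1
        rw [Cfsg.Agent.S2670.dg_val]
        ext i j
        fin_cases i <;> fin_cases j <;> simp [s0, Matrix.mul_apply, Fin.sum_univ_three]
  have hclass : ∀ x, x ≠ 1 → x * x = 1 → ∃ g, g * t * g⁻¹ = x := fun x hx hxx =>
    isConj_iff.1 ((hconj t ht ht2).trans (hconj x hx hxx).symm)
  obtain ⟨g₀, hg₀⟩ := isConj_iff.1 (hconj t ht ht2)
  let e : ↥(Cfsg.SU 3 F q) ≃* ↥(Cfsg.SU 3 F q) := MulAut.conj g₀
  have het : e t = s := hg₀
  -- centraliser of the model
  let C := Subgroup.centralizer ({s} : Set ↥(Cfsg.SU 3 F q))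
  have hCmem : ∀ g, g ∈ C ↔ val g * s0 = s0 * val g := by
    intro g
    rw [Subgroup.mem_centralizer_singleton_iff, ← hs, ← hvmul, ← hvmul, hvinj.eq_iff]
    try exact eq_comm
  have hCshape := fun (g : C) => commute_s0 hF2 ((hCmem g.1).1 g.2)
  have hCU := fun (g : C) => (CfsgLib.Unitary.Conj.mem_GU hF hκ _).1 ((CfsgLib.Unitary.SpecialConj.mem_GU_iff _).1 g.1.2)
  let f : C → Matrix (Fin 2) (Fin 2) F := fun g => !![val g.1 1 1, val g.1 1 2; val g.1 2 1, val g.1 2 2]
  have hfU : ∀ g : C, CfsgLib.Unitary.Conj.adj κ (f g) * f g = 1 := by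
    intro g
    obtain ⟨a1, a2, a3, a4⟩ := hCshape g
    have e := fun i j => congrFun (congrFun (hCU g) i) j
    ext i j
    fin_cases i <;> fin_cases j
    · have := e 1 1; simpa [f, val, CfsgLib.Unitary.Conj.adj, Matrix.mul_apply, Fin.sum_univ_three, Fin.sum_univ_two, a1, a2] using this
    · have := e 1 2; simpa [f, val, CfsgLib.Unitary.Conj.adj, Matrix.mul_apply, Fin.sum_univ_three, Fin.sum_univ_two, a1, a2] using this
    · have := e 2 1; simpa [f, val, CfsgLib.Unitary.Conj.adj, Matrix.mul_apply, Fin.sum_univ_three, Fin.sum_univ_two, a1, a2] using this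
    · have := e 2 2; simpa [f, val, CfsgLib.Unitary.Conj.adj, Matrix.mul_apply, Fin.sum_univ_three, Fin.sum_univ_two, a1, a2] using this
  have hfu : ∀ g, IsUnit (f g) := fun g => IsUnit.of_mul_eq_one_right _ (hfU g)
  let φ : C → ↥(Cfsg.GU 2 F q) := fun g => ⟨(hfu g).unit, (CfsgLib.Unitary.Conj.mem_GU hF hκ _).2 (by rw [IsUnit.unit_spec]; exact hfU g)⟩
  have hφ : Function.Bijective φ := by
    constructor
    · intro g h hgh
      have h' : f g = f h := congrArg (fun z : ↥(Cfsg.GU 2 F q) => ((z : GL (Fin 2) F) : Matrix (Fin 2) (Fin 2) F)) hgh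
      have h11 := congrFun (congrFun h' 0) 0
      have h12 := congrFun (congrFun h' 0) 1
      have h21 := congrFun (congrFun h' 1) 0
      have h22 := congrFun (congrFun h' 1) 1
      simp [f] at h11 h12 h21 h22
      obtain ⟨a1, a2, a3, a4⟩ := hCshape g
      obtain ⟨b1, b2, b3, b4⟩ := hCshape h
      have hd := hvd g.1
      have hd' := hvd h.1
      simp [Matrix.det_fin_three, a1, a2, a3, a4] at hd
      simp [Matrix.det_fin_three, b1, b2, b3, b4, ← h11, ← h12, ← h21, ← h22] at hd'
      have h00 : val g.1 0 0 = val h.1 0 0 := by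
        linear_combination val h.1 0 0 * hd - val g.1 0 0 * hd'
      refine Subtype.ext (hvinj ?_)
      ext i j
      fin_cases i <;> fin_cases j <;> simp [a1, a2, a3, a4, b1, b2, b3, b4, h11, h12, h21, h22, h00]
    · intro A
      set M := ((A : GL (Fin 2) F) : Matrix (Fin 2) (Fin 2) F) with hM
      have hMU := (CfsgLib.Unitary.Conj.mem_GU hF hκ _).1 A.2
      have hd0 : M.det ≠ 0 := ((Matrix.isUnit_iff_isUnit_det _).1 (A : GL (Fin 2) F).isUnit).ne_zero
      let G : Matrix (Fin 3) (Fin 3) F := !![M.det⁻¹, 0, 0; 0, M 0 0, M 0 1; 0, M 1 0, M 1 1]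
      have hGd : G.det = 1 := by
        rw [Matrix.det_fin_three]
        simp [G]
        rw [← inv_mul_cancel₀ hd0, Matrix.det_fin_two]
        ring
      have hdn := CfsgLib.Unitary.SpecialConj.det_norm hF hκ A.2
      have e := fun i j => congrFun (congrFun hMU i) j
      have e00 := e 0 0; have e01 := e 0 1; have e10 := e 1 0; have e11 := e 1 1
      simp [CfsgLib.Unitary.Conj.adj, Matrix.mul_apply, Fin.sum_univ_two, ← hM] at e00 e01 e10 e11
      have hdk : κ M.det⁻¹ * M.det⁻¹ = 1 := by rw [hκ, ← pow_succ, inv_pow, hdn, inv_one]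
      have hGU : CfsgLib.Unitary.Conj.adj κ G * G = 1 := by
        ext i j
        fin_cases i <;> fin_cases j <;> simp [G, CfsgLib.Unitary.Conj.adj, Matrix.mul_apply, Fin.sum_univ_three] <;>
          first | exact e00 | exact e01 | exact e10 | exact e11 | simpa using hdk
      let g : ↥(Cfsg.SU 3 F q) := ⟨⟨G, hGd⟩, (CfsgLib.Unitary.SpecialConj.mem_GU_iff _).2 ((CfsgLib.Unitary.Conj.mem_GU hF hκ _).2 hGU)⟩
      refine ⟨⟨g, (hCmem g).2 ?_⟩, Subtype.ext (Units.ext ?_)⟩
      · show G * s0 = s0 * G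
        ext i j
        fin_cases i <;> fin_cases j <;> simp [G, s0, Matrix.mul_apply, Fin.sum_univ_three]
      · show f _ = M
        ext i j
        fin_cases i <;> fin_cases j <;> simp [f, g, val, G]
  have hCcard : Nat.card C = q * (q + 1) * (q ^ 2 - 1) := by
    rw [Nat.card_congr (Equiv.ofBijective φ hφ), CfsgLib.Unitary.Order.card_GU hF]
    simp [Finset.prod_range_succ]
    ring
  have hcent : Nat.card ↥(Subgroup.centralizer ({t} : Set ↥(Cfsg.SU 3 F q))) = q * (q + 1) * (q ^ 2 - 1) := by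
    rw [← hCcard]
    refine Nat.card_congr (e.toEquiv.subtypeEquiv fun g => ?_)
    show g ∈ Subgroup.centralizer ({t} : Set ↥(Cfsg.SU 3 F q)) ↔ e g ∈ Subgroup.centralizer ({s} : Set ↥(Cfsg.SU 3 F q))
    rw [Subgroup.mem_centralizer_singleton_iff, Subgroup.mem_centralizer_singleton_iff, ← het, ← map_mul, ← map_mul, e.injective.eq_iff]
  refine ⟨hclass, ?_, hcent, ?_⟩
  · let Ct := Subgroup.centralizer ({t} : Set ↥(Cfsg.SU 3 F q))
    have hrel : ∀ a b : ↥(Cfsg.SU 3 F q), a * t * a⁻¹ = b * t * b⁻¹ ↔ (QuotientGroup.mk a : ↥(Cfsg.SU 3 F q) ⧸ Ct) = QuotientGroup.mk b := by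
      intro a b
      rw [QuotientGroup.eq, Subgroup.mem_centralizer_singleton_iff]
      constructor
      · intro h
        calc a⁻¹ * b * t = a⁻¹ * (b * t * b⁻¹) * b := by group
          _ = t * (a⁻¹ * b) := by rw [← h]; group
      · intro h
        calc a * t * a⁻¹ = a * (t * (a⁻¹ * b)) * b⁻¹ := by group
          _ = b * t * b⁻¹ := by rw [← h]; group
    let o : {x : ↥(Cfsg.SU 3 F q) // x ≠ 1 ∧ x * x = 1} → ↥(Cfsg.SU 3 F q) ⧸ Ct := fun x => QuotientGroup.mk (hclass x.1 x.2.1 x.2.2).choose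
    have ho : Function.Bijective o := by
      constructor
      · intro x y hxy
        have := (hrel _ _).2 hxy
        rw [(hclass x.1 x.2.1 x.2.2).choose_spec, (hclass y.1 y.2.1 y.2.2).choose_spec] at this
        exact Subtype.ext this
      · intro z
        obtain ⟨a, rfl⟩ := QuotientGroup.mk_surjective z
        have h1 : a * t * a⁻¹ ≠ 1 := fun h => ht (conj_eq_one_iff.1 h)
        have h2 : (a * t * a⁻¹) * (a * t * a⁻¹) = 1 := by rw [← sq, conj_pow, sq, ht2, mul_one, mul_inv_cancel]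
        exact ⟨⟨_, h1, h2⟩, (hrel _ _).1 (hclass _ h1 h2).choose_spec⟩
    rw [Nat.card_congr (Equiv.ofBijective o ho)]
    have hS := Cfsg.Agent.S0278.result hF 3 (by norm_num)
    rw [Subgroup.card_eq_card_quotient_mul_card_subgroup Ct, hcent] at hS
    simp [Finset.prod_range_succ] at hS
    obtain ⟨w, rfl⟩ : ∃ w, q = w + 2 := ⟨q - 2, by omega⟩
    have h1 : (w + 2) ^ 2 - (w + 2) + 1 = w * w + 3 * w + 3 := by
      rw [show (w + 2) ^ 2 = (w * w + 3 * w + 2) + (w + 2) by ring, Nat.add_sub_cancel]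
    have h2 : (w + 2) ^ 2 - 1 = w * w + 4 * w + 3 := by
      rw [show (w + 2) ^ 2 = (w * w + 4 * w + 3) + 1 by ring, Nat.add_sub_cancel]
    rw [h2] at hS
    rw [h1]
    have hpos : 0 < ((w + 2) + 1) * ((w + 2) * ((w + 2) + 1) * (w * w + 4 * w + 3)) := by positivity
    refine Nat.eq_of_mul_eq_mul_right hpos ?_
    simp only [Nat.card_eq_fintype_card] at hS ⊢
    linear_combination hS
  · intro x hx hxx hxt hc
    have hprop : ∀ y : ↥(Cfsg.SU 3 F q), y ≠ 1 → y * y = 1 → y ≠ t → Commute t y →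
        val (e y) * s0 = s0 * val (e y) ∧ val (e y) * val (e y) = 1 ∧ val (e y) ≠ 1 ∧ val (e y) ≠ s0 := by
      intro y h1 h2 h3 h4
      refine ⟨?_, by rw [← hvmul, ← map_mul, h2, map_one, hv1], fun h => h1 (e.map_eq_one_iff.1 (hvinj h)), fun h => h3 (e.injective (hvinj (h.trans (hs.symm.trans (congrArg val het.symm)))))⟩
      rw [← hs, ← hvmul, ← hvmul, ← het, ← map_mul, ← map_mul, h4.eq]
    obtain ⟨x1, x2, x3, x4⟩ := hprop x hx hxx hxt hc
    rw [Nat.card_eq_one_iff_unique]
    refine ⟨⟨fun y y' => ?_⟩, ⟨⟨t * x, ?_, ?_, ?_, ?_, ?_, ?_⟩⟩⟩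
    · suffices key : ∀ z : {y : ↥(Cfsg.SU 3 F q) // y ≠ 1 ∧ y * y = 1 ∧ y ≠ t ∧ y ≠ x ∧ Commute t y ∧ Commute x y}, z.1 = t * x from
        Subtype.ext ((key y).trans (key y').symm)
      rintro ⟨z, h1, h2, h3, h4, h5, h6⟩
      obtain ⟨z1, z2, z3, z4⟩ := hprop z h1 h2 h3 h5
      rcases third_unique hF2 x1 x2 (hvd _) x3 x4 z1 z2 (hvd _) z3 z4 (by rw [← hvmul, ← hvmul, ← map_mul, ← map_mul, h6.eq]) with h | h
      · exact absurd (e.injective (hvinj h)) h4
      · rw [← hs, ← het, ← hvmul, ← map_mul] at h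
        exact e.injective (hvinj h)
    · intro h
      exact hxt ((mul_left_cancel (h.trans ht2.symm)))
    · rw [← sq, hc.mul_pow, sq, sq, ht2, hxx, one_mul]
    · intro h; exact hx (mul_eq_left.1 h)
    · intro h; exact ht (mul_eq_right.1 h)
    · exact (Commute.refl t).mul_right hc
    · exact hc.symm.mul_right (Commute.refl x)

end Cfsg.Agent.S2360
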