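import Cfsg.Statements.S2356
import Mathlib
import Cfsg.Agent.S2360
import Cfsg.Agent.S2672
import Cfsg.Agent.Lib.Unitary.Order
import Cfsg.Agent.Lib.Unitary.SpecialConj
import Cfsg.Agent.Lib.Unitary.FieldNorm

set_option autoImplicit false
open Cfsg

namespace Cfsg.Agent.S2356

set_option maxHeartbeats 1600000

open Matrix Cfsg.Agent.S2360

variable {F : Type*} [Field F]

local notation "M3" => Matrix (Fin 3) (Fin 3) F

/-- The reflection attached to a vector with `N` the inverse of half its length. -/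
def refl (κ : F →+* F) (c : Fin 3 → F) (d : F) : M3 := Matrix.of (fun i j => d * c i * κ (c j)) - 1

theorem refl_mul (κ : F →+* F) (c c' : Fin 3 → F) (d d' : F) :
    refl κ c d * refl κ c' d' = Matrix.of (fun i j => d * c i * (∑ k, κ (c k) * c' k) * d' * κ (c' j))
      - Matrix.of (fun i j => d * c i * κ (c j)) - Matrix.of (fun i j => d' * c' i * κ (c' j)) + 1 := by
  have h : Matrix.of (fun i j => d * c i * κ (c j)) * Matrix.of (fun i j => d' * c' i * κ (c' j))
      = Matrix.of (fun i j => d * c i * (∑ k, κ (c k) * c' k) * d' * κ (c' j)) := by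
    ext i j
    simp only [Matrix.mul_apply, Matrix.of_apply, Finset.mul_sum, Finset.sum_mul]
    exact Finset.sum_congr rfl fun k _ => by ring
  rw [refl, refl, sub_mul, mul_sub, mul_one, one_mul, h]
  abel

theorem refl_sq (κ : F →+* F) (c : Fin 3 → F) (d : F) (hd : d * (∑ k, κ (c k) * c k) = 2) : refl κ c d * refl κ c d = 1 := by
  rw [refl_mul]
  ext i j
  simp only [Matrix.add_apply, Matrix.sub_apply, Matrix.of_apply]
  linear_combination (d * c i * κ (c j)) * hd

theorem refl_comm (κ : F →+* F) (c c' : Fin 3 → F) (d d' : F) (h : ∑ k, κ (c k) * c' k = 0) (h' : ∑ k, κ (c' k) * c k = 0) :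
    refl κ c d * refl κ c' d' = refl κ c' d' * refl κ c d := by
  rw [refl_mul, refl_mul, h, h']
  ext i j
  simp only [Matrix.add_apply, Matrix.sub_apply, Matrix.of_apply]
  ring

theorem refl_adj (κ : F →+* F) (hκκ : ∀ x, κ (κ x) = x) (c : Fin 3 → F) (d : F) (hd : κ d = d) :
    CfsgLib.Unitary.Conj.adj κ (refl κ c d) = refl κ c d := by
  rw [refl, CfsgLib.Unitary.Conj.adj_sub, CfsgLib.Unitary.Conj.adj_one]
  congr 1
  ext i j
  simp only [CfsgLib.Unitary.Conj.adj, Matrix.transpose_apply, Matrix.map_apply, Matrix.of_apply, map_mul, hκκ, hd]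
  ring

theorem refl_det (κ : F →+* F) (c : Fin 3 → F) (d : F) (hd : d * (∑ k, κ (c k) * c k) = 2) : (refl κ c d).det = 1 := by
  have e : refl κ c d = -((1 : M3) + (Matrix.of fun (i : Fin 3) (_ : Fin 1) => -(d * c i)) * (Matrix.of fun (_ : Fin 1) (j : Fin 3) => κ (c j))) := by
    ext i j
    simp [refl, Matrix.mul_apply]
    ring
  rw [e, Matrix.det_neg, Matrix.det_one_add_mul_comm, Matrix.det_fin_one, Fintype.card_fin]
  simp [Matrix.mul_apply, Fin.sum_univ_three] at hd ⊢
  linear_combination hd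

theorem refl_ne_one (h2 : (2 : F) ≠ 0) (κ : F →+* F) (c : Fin 3 → F) (d : F) (hd : d * (∑ k, κ (c k) * c k) = 2) : refl κ c d ≠ 1 := by
  intro h
  have hd' := refl_det κ c d hd
  have e : Matrix.of (fun i j => d * c i * κ (c j)) = (2 : F) • (1 : M3) := by
    rw [refl, sub_eq_iff_eq_add] at h
    rw [h, two_smul]
  have h00 : d * c 0 * κ (c 0) = 2 := by simpa using congrFun (congrFun e 0) 0
  have h01 : d * c 0 * κ (c 1) = 0 := by simpa using congrFun (congrFun e 0) 1
  have h11 : d * c 1 * κ (c 1) = 2 := by simpa using congrFun (congrFun e 1) 1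
  rcases mul_eq_zero.1 h01 with h' | h'
  · rw [h', zero_mul] at h00; exact h2 h00.symm
  · rw [h', mul_zero] at h11; exact h2 h11.symm

/-- Two common neighbours of two non-commuting involutions coincide or commute. -/
theorem commute_of_common [Fintype F] {q : ℕ} (hF : Fintype.card F = q ^ 2) (hq : Odd q) (t x y y' : ↥(Cfsg.SU 3 F q))
    (ht : t ≠ 1) (ht2 : t * t = 1) (hx : x ≠ 1) (hxx : x * x = 1) (hy : y ≠ 1) (hyy : y * y = 1) (hy' : y' ≠ 1) (hyy' : y' * y' = 1)
    (htx : ¬ Commute t x) (h1 : Commute t y) (h2 : Commute t y') (h3 : Commute y x) (h4 : Commute y' x) : Commute y y' := by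
  classical
  obtain ⟨κ, hκ, hκκ⟩ := CfsgLib.Unitary.FieldNorm.exists_conj hF
  have hF2 : (2 : F) ≠ 0 := by
    intro h
    have hr : ringChar F = 2 := by
      haveI : CharP F 2 := CharTwo.of_one_ne_zero_of_two_eq_zero one_ne_zero h
      exact ringChar.eq F 2
    have := FiniteField.even_card_iff_char_two.1 hr
    rw [hF, Nat.pow_mod, Nat.odd_iff.1 hq] at this
    exact absurd this (by norm_num)
  let val : ↥(Cfsg.SU 3 F q) → M3 := fun g => ((g : Matrix.SpecialLinearGroup (Fin 3) F) : M3)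
  have hvinj : Function.Injective val := fun g h e => Subtype.ext (Subtype.ext e)
  have hvmul : ∀ g h, val (g * h) = val g * val h := fun g h => rfl
  have hs0 : (s0 : M3).det = 1 := by simp [s0, Matrix.det_fin_three]
  have hadj0 : CfsgLib.Unitary.Conj.adj κ (s0 : M3) * s0 = 1 := by
    ext i j
    fin_cases i <;> fin_cases j <;> simp [s0, CfsgLib.Unitary.Conj.adj, Matrix.mul_apply, Fin.sum_univ_three]
  let s : ↥(Cfsg.SU 3 F q) := ⟨⟨s0, hs0⟩, (CfsgLib.Unitary.SpecialConj.mem_GU_iff _).2 ((CfsgLib.Unitary.Conj.mem_GU hF hκ _).2 hadj0)⟩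
  have hss : s ≠ 1 ∧ s * s = 1 := by
    refine ⟨fun h => ?_, hvinj ?_⟩
    · have h' : (s0 : M3) 1 1 = (1 : M3) 1 1 := congrArg (fun z => val z 1 1) h
      simp [s0] at h'
      exact hF2 (by linear_combination -h')
    · show s0 * s0 = (1 : M3)
      ext i j
      fin_cases i <;> fin_cases j <;> simp [s0, Matrix.mul_apply, Fin.sum_univ_three]
  obtain ⟨g, hg⟩ := (Cfsg.Agent.S2360.result hq hF t ht ht2).1 s hss.1 hss.2
  let e := MulAut.conj g
  have het : e t = s := hg
  suffices key : ∀ y y' x : ↥(Cfsg.SU 3 F q), y * y = 1 → y ≠ 1 → y' * y' = 1 → y' ≠ 1 → x * x = 1 → ¬ Commute s x →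
      Commute s y → Commute s y' → Commute y x → Commute y' x → Commute y y' by
    have hm : ∀ {a b : ↥(Cfsg.SU 3 F q)}, Commute a b → Commute (e a) (e b) := fun h => h.map e.toMonoidHom
    have h := key (e y) (e y') (e x) (by rw [← map_mul, hyy, map_one]) (fun h => hy (e.map_eq_one_iff.1 h))
      (by rw [← map_mul, hyy', map_one]) (fun h => hy' (e.map_eq_one_iff.1 h)) (by rw [← map_mul, hxx, map_one])
      (fun h => htx (e.injective (by rw [map_mul, map_mul, het]; exact h.eq)))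
      (het ▸ hm h1) (het ▸ hm h2) (hm h3) (hm h4)
    exact e.injective (by rw [map_mul, map_mul]; exact h.eq)
  clear! t x y y'
  intro y y' x hy2 hy1 hy2' hy1' hx2 hsx h1 h2 h3 h4
  by_cases hys : y = s
  · exact hys ▸ h2
  by_cases hys' : y' = s
  · exact hys' ▸ h1.symm
  have hc : ∀ z, Commute s z → val z * s0 = s0 * val z := fun z h => (congrArg val h.eq).symm
  have hherm : ∀ z : ↥(Cfsg.SU 3 F q), z * z = 1 → ∀ i j, κ (val z i j) = val z j i := by
    intro z hz i j
    have hu := (CfsgLib.Unitary.Conj.mem_GU hF hκ _).1 ((CfsgLib.Unitary.SpecialConj.mem_GU_iff _).1 z.2)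
    have e1 : CfsgLib.Unitary.Conj.adj κ (val z) = val z := by
      calc CfsgLib.Unitary.Conj.adj κ (val z) = CfsgLib.Unitary.Conj.adj κ (val z) * (val z * val z) := by
            rw [← hvmul, hz]; exact (mul_one _).symm
        _ = val z := by rw [← mul_assoc, show CfsgLib.Unitary.Conj.adj κ (val z) * val z = 1 from hu, one_mul]
    exact congrFun (congrFun e1 j) i
  obtain ⟨a0, at', ad⟩ := shape hF2 (hc y h1) (by rw [← hvmul, hy2]; rfl) (y : Matrix.SpecialLinearGroup (Fin 3) F).2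
    (fun h => hy1 (hvinj h)) (fun h => hys (hvinj h))
  obtain ⟨b0, bt, bd⟩ := shape hF2 (hc y' h2) (by rw [← hvmul, hy2']; rfl) (y' : Matrix.SpecialLinearGroup (Fin 3) F).2
    (fun h => hy1' (hvinj h)) (fun h => hys' (hvinj h))
  obtain ⟨a1, a2, a3, a4⟩ := commute_s0 hF2 (hc y h1)
  obtain ⟨b1, b2, b3, b4⟩ := commute_s0 hF2 (hc y' h2)
  -- the entries of `x` linking the model line to its complement
  set c1 := val x 1 0 with hc1
  set c2 := val x 2 0 with hc2
  have e3 := congrArg val h3.eq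
  have e4 := congrArg val h4.eq
  rw [hvmul, hvmul] at e3 e4
  have p1 := congrFun (congrFun e3 1) 0
  have p2 := congrFun (congrFun e3 2) 0
  have r1 := congrFun (congrFun e4 1) 0
  have r2 := congrFun (congrFun e4 2) 0
  simp [Matrix.mul_apply, Fin.sum_univ_three, a0, a3, a4, b0, b3, b4, ← hc1, ← hc2] at p1 p2 r1 r2
  have hne : ¬ (c1 = 0 ∧ c2 = 0) := by
    rintro ⟨z1, z2⟩
    refine hsx (hvinj ?_)
    have z1' : val x 0 1 = 0 := by rw [← hherm x hx2 1 0, ← hc1, z1, map_zero]
    have z2' : val x 0 2 = 0 := by rw [← hherm x hx2 2 0, ← hc2, z2, map_zero]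
    rw [hvmul, hvmul]
    show s0 * val x = val x * s0
    ext i j
    fin_cases i <;> fin_cases j <;> simp [s0, Matrix.mul_apply, Fin.sum_univ_three, z1', z2', ← hc1, ← hc2, z1, z2]
  have a22 : val y 2 2 = -val y 1 1 := by linear_combination at'
  have b22 : val y' 2 2 = -val y' 1 1 := by linear_combination bt
  rw [a22] at p2
  rw [b22] at r2
  set a := val y 1 1 with ha
  set β := val y 1 2 with hβ
  set a' := val y' 1 1 with ha'
  set β' := val y' 1 2 with hβ'
  have hβc : val y 2 1 = κ β := (hherm y hy2 1 2).symm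
  have hβc' : val y' 2 1 = κ β' := (hherm y' hy2' 1 2).symm
  have hka : κ a = a := hherm y hy2 1 1
  have hka' : κ a' = a' := hherm y' hy2' 1 1
  rw [hβc] at p2
  rw [hβc'] at r2
  have q1 : (a + 1) * c1 + β * c2 = 0 := by linear_combination p1
  have q2 : κ β * c1 + (1 - a) * c2 = 0 := by linear_combination p2
  have q1' : (a' + 1) * c1 + β' * c2 = 0 := by linear_combination r1
  have q2' : κ β' * c1 + (1 - a') * c2 = 0 := by linear_combination r2
  have k1 := congrArg κ q1
  have k1' := congrArg κ q1'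
  simp only [map_add, map_mul, map_one, map_zero, hka, hka'] at k1 k1'
  have m : (a + 1) * (κ c1 * c1) = (1 - a) * (κ c2 * c2) := by linear_combination c1 * k1 - κ c2 * q2
  have m' : (a' + 1) * (κ c1 * c1) = (1 - a') * (κ c2 * c2) := by linear_combination c1 * k1' - κ c2 * q2'
  have hsum : κ c1 * c1 + κ c2 * c2 ≠ 0 := by
    intro h
    have h0 : (2 : F) * (κ c1 * c1) = 0 := by linear_combination m + (1 - a) * h
    have h1 : κ c1 * c1 = 0 := (mul_eq_zero.1 h0).resolve_left hF2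
    have h2 : κ c2 * c2 = 0 := by linear_combination h - h1
    have z1 : c1 = 0 := by
      rcases mul_eq_zero.1 h1 with h' | h'
      · exact (map_eq_zero κ).1 h'
      · exact h'
    have z2 : c2 = 0 := by
      rcases mul_eq_zero.1 h2 with h' | h'
      · exact (map_eq_zero κ).1 h'
      · exact h'
    exact hne ⟨z1, z2⟩
  have haa : a = a' := mul_right_cancel₀ hsum (by linear_combination m - m')
  have hββ : β = β' := by
    by_cases z2 : c2 = 0
    · have z1 : c1 ≠ 0 := fun z1 => hne ⟨z1, z2⟩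
      rw [z2, mul_zero, add_zero] at q2 q2'
      apply κ.injective
      rw [(mul_eq_zero.1 q2).resolve_right z1, (mul_eq_zero.1 q2').resolve_right z1]
    · exact mul_right_cancel₀ z2 (by linear_combination q1 - q1' - c1 * haa)
  have heq : y = y' := by
    refine hvinj ?_
    ext i j
    fin_cases i <;> fin_cases j <;> simp [a0, b0, a1, a2, a3, a4, b1, b2, b3, b4, a22, b22, hβc, hβc', ← ha, ← ha', ← hβ, ← hβ', haa, hββ]
  rw [heq]


/-- Let q be odd, F the field with q² elements, S = SU_3(F) (determinant-one isometries of the standard Hermitian form) and t an involution of S. Then: exactly q(q−1) involutions other than t commute with t; exactly q(q−2)(q²−1) involutions do not commute with t but commute with some involution commuting with t; exactly (q+1)(q²−1) involutions x do not commute with t and admit no involution commuting with both t and x; and every involution can be reached from t in at most three steps, each step going to an involution that commutes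 with the previous one (the commuting involution graph is connected of diameter 3). -/
theorem result {F : Type*} [Field F] [Fintype F] {q : ℕ} (hq : Odd q)
    (hF : Fintype.card F = q ^ 2) (t : ↥(Cfsg.SU 3 F q)) (ht : t ≠ 1) (ht2 : t * t = 1) :
    Nat.card {x : ↥(Cfsg.SU 3 F q) // x ≠ 1 ∧ x * x = 1 ∧ x ≠ t ∧ Commute t x} = q * (q - 1) ∧
    Nat.card {x : ↥(Cfsg.SU 3 F q) // x ≠ 1 ∧ x * x = 1 ∧ ¬ Commute t x ∧
        ∃ y : ↥(Cfsg.SU 3 F q), y ≠ 1 ∧ y * y = 1 ∧ Commute t y ∧ Commute y x} = q * (q - 2) * (q ^ 2 - 1) ∧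
    Nat.card {x : ↥(Cfsg.SU 3 F q) // x ≠ 1 ∧ x * x = 1 ∧ ¬ Commute t x ∧
        ∀ y : ↥(Cfsg.SU 3 F q), y ≠ 1 → y * y = 1 → ¬ (Commute t y ∧ Commute y x)} = (q + 1) * (q ^ 2 - 1) ∧
    ∀ x : ↥(Cfsg.SU 3 F q), x ≠ 1 → x * x = 1 →
      ∃ y z : ↥(Cfsg.SU 3 F q), y ≠ 1 ∧ y * y = 1 ∧ z ≠ 1 ∧ z * z = 1 ∧
        Commute t y ∧ Commute y z ∧ Commute z x := by
  classical
  obtain ⟨κ, hκ, hκκ⟩ := CfsgLib.Unitary.FieldNorm.exists_conj hF
  have hq2 := CfsgLib.Unitary.FieldNorm.two_le_q hF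
  have hF2 : (2 : F) ≠ 0 := by
    intro h
    have h1 : ringChar F = 2 := by
      haveI : CharP F 2 := CharTwo.of_one_ne_zero_of_two_eq_zero one_ne_zero h
      exact ringChar.eq F 2
    have := FiniteField.even_card_iff_char_two.1 h1
    rw [hF, Nat.pow_mod, Nat.odd_iff.1 hq] at this
    exact absurd this (by norm_num)
  let val : ↥(Cfsg.SU 3 F q) → Matrix (Fin 3) (Fin 3) F := fun g => ((g : Matrix.SpecialLinearGroup (Fin 3) F) : Matrix (Fin 3) (Fin 3) F)
  have hvinj : Function.Injective val := fun g h e => Subtype.ext (Subtype.ext e)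
  have hvmul : ∀ g h, val (g * h) = val g * val h := fun g h => rfl
  have hv1 : val 1 = 1 := rfl
  have hvd : ∀ g, (val g).det = 1 := fun g => (g : Matrix.SpecialLinearGroup (Fin 3) F).2
  have hs0 : (s0 : Matrix (Fin 3) (Fin 3) F).det = 1 := by simp [s0, Matrix.det_fin_three]
  have hadj0 : CfsgLib.Unitary.Conj.adj κ (s0 : Matrix (Fin 3) (Fin 3) F) * s0 = 1 := by
    ext i j
    fin_cases i <;> fin_cases j <;> simp [s0, CfsgLib.Unitary.Conj.adj, Matrix.mul_apply, Fin.sum_univ_three]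
  let s : ↥(Cfsg.SU 3 F q) := ⟨⟨s0, hs0⟩, (CfsgLib.Unitary.SpecialConj.mem_GU_iff _).2 ((CfsgLib.Unitary.Conj.mem_GU hF hκ _).2 hadj0)⟩
  have hs : val s = s0 := rfl
  -- every involution is conjugate to the model
  have hconj : ∀ x : ↥(Cfsg.SU 3 F q), x ≠ 1 → x * x = 1 → IsConj x s := by
    intro x hx hxx
    let X := Matrix.SpecialLinearGroup.toGL (x : Matrix.SpecialLinearGroup (Fin 3) F)
    let S := Matrix.SpecialLinearGroup.toGL (s : Matrix.SpecialLinearGroup (Fin 3) F)
    have hXv : (X : Matrix (Fin 3) (Fin 3) F) = val x := rfl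
    have hX2 : X ^ 2 = Cfsg.Agent.S2670.sc 3 1 := by
      rw [map_one, sq]
      exact Units.ext (by rw [Units.val_mul, hXv, ← hvmul, hxx]; rfl)
    have hS2 : S ^ 2 = Cfsg.Agent.S2670.sc 3 1 := by
      rw [map_one, sq]
      refine Units.ext ?_
      show s0 * s0 = (1 : Matrix (Fin 3) (Fin 3) F)
      ext i j
      fin_cases i <;> fin_cases j <;> simp [s0, Matrix.mul_apply, Fin.sum_univ_three]
    set χ := (val x).charpoly with hχ
    have hm : χ.Monic := Matrix.charpoly_monic _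
    set fs := UniqueFactorizationMonoid.normalizedFactors χ with hfs
    have hprod : fs.prod = χ := by
      rw [UniqueFactorizationMonoid.prod_normalizedFactors_eq hm.ne_zero, hm.normalize_eq_self]
    have hcase : ∀ φ ∈ fs, φ = Polynomial.X - Polynomial.C 1 ∨ φ = Polynomial.X - Polynomial.C (-1) := by
      intro φ hφ
      obtain ⟨hirr, hmon, hdvd⟩ := (Polynomial.mem_normalizedFactors_iff hm.ne_zero).1 hφ
      have h := Cfsg.Agent.S2670.factor_dvd hX2 hirr hdvd
      rw [show (Polynomial.X ^ 2 - Polynomial.C ((1 : Fˣ) : F)) = (Polynomial.X - Polynomial.C 1) * (Polynomial.X - Polynomial.C (-1)) by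
        rw [Units.val_one, map_neg, map_one]; ring] at h
      rcases hirr.prime.dvd_or_dvd h with h | h
      · exact Or.inl (Polynomial.eq_of_monic_of_associated hmon (Polynomial.monic_X_sub_C _) (hirr.associated_of_dvd (Polynomial.irreducible_X_sub_C _) h))
      · exact Or.inr (Polynomial.eq_of_monic_of_associated hmon (Polynomial.monic_X_sub_C _) (hirr.associated_of_dvd (Polynomial.irreducible_X_sub_C _) h))
    set a := fs.count (Polynomial.X - Polynomial.C 1) with ha
    set b := (fs.filter (fun φ => ¬ φ = Polynomial.X - Polynomial.C 1)).card with hb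
    have hsplit : χ = (Polynomial.X - Polynomial.C 1) ^ a * (Polynomial.X - Polynomial.C (-1)) ^ b := by
      rw [← hprod, ← Multiset.filter_add_not (fun φ => φ = Polynomial.X - Polynomial.C 1) fs, Multiset.prod_add,
        Multiset.filter_eq', Multiset.prod_replicate]
      congr 1
      rw [Multiset.eq_replicate_card.2 (fun φ hφ => ((hcase φ (Multiset.mem_filter.1 hφ).1).resolve_left (Multiset.mem_filter.1 hφ).2)),
        Multiset.prod_replicate]
    have hab : a + b = 3 := by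
      have h := congrArg Polynomial.natDegree hsplit
      rw [Polynomial.Monic.natDegree_mul ((Polynomial.monic_X_sub_C _).pow _) ((Polynomial.monic_X_sub_C _).pow _),
        Polynomial.natDegree_pow, Polynomial.natDegree_pow, Polynomial.natDegree_X_sub_C, Polynomial.natDegree_X_sub_C,
        hχ, Matrix.charpoly_natDegree_eq_dim, Fintype.card_fin] at h
      omega
    have hbe : Even b := by
      have h := congrArg (fun f => Polynomial.eval 0 f) hsplit
      simp only [hχ, Matrix.eval_charpoly, map_zero, zero_sub, Matrix.det_neg, Fintype.card_fin, hvd, Polynomial.eval_mul,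
        Polynomial.eval_pow, Polynomial.eval_sub, Polynomial.eval_X, Polynomial.eval_C, neg_neg, one_pow, mul_one] at h
      by_contra ho
      rcases Nat.even_or_odd a with hae | hao
      · rw [hae.neg_one_pow] at h
        exact hF2 (by linear_combination -h)
      · have := hao.add_odd (Nat.not_even_iff_odd.1 ho)
        rw [hab] at this
        exact absurd this (by decide)
    obtain ⟨u, hu⟩ := hbe
    have hu' : u = 0 ∨ u = 1 := by omega
    rcases hu' with rfl | rfl
    · exfalso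
      obtain ⟨c, hc⟩ := isConj_iff.1 (Cfsg.Agent.S2670.conj_of_charpoly (r := 2) (c := 1) (by exact_mod_cast hF2) hX2
        (h := (1 : GL (Fin 3) F)) (by rw [one_pow, map_one])
        (by rw [hXv, ← hχ, hsplit, Units.val_one, Matrix.charpoly_one, Fintype.card_fin, show b = 0 by omega, show a = 3 by omega]; simp))
      rw [mul_inv_eq_one, mul_eq_left] at hc
      exact hx (hvinj (congrArg Units.val hc))
    · obtain ⟨P, hP⟩ := isConj_iff.1 (Cfsg.Agent.S2670.conj_of_charpoly (r := 2) (c := 1) (by exact_mod_cast hF2) hX2 hS2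
        (by
          have hsd : s0 = Matrix.diagonal (![(1 : F), -1, -1]) := by
            ext i j
            fin_cases i <;> fin_cases j <;> simp [s0]
          rw [hXv, ← hχ, hsplit, show (S : Matrix (Fin 3) (Fin 3) F) = s0 from rfl, hsd, Matrix.charpoly_diagonal, Fin.prod_univ_three,
            show b = 2 by omega, show a = 1 by omega]
          simp
          ring))
      obtain ⟨c, hc, hce⟩ := CfsgLib.Unitary.Conj.conj_in_GU hF hκ hκκ (x.2 : X ∈ Cfsg.GU 3 F q) (s.2 : S ∈ Cfsg.GU 3 F q) P hP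
      set d := (c : Matrix (Fin 3) (Fin 3) F).det with hd
      have hd0 : d ≠ 0 := ((Matrix.isUnit_iff_isUnit_det _).1 c.isUnit).ne_zero
      let D := Cfsg.Agent.S2670.dg (F := F) ![(Units.mk0 d hd0)⁻¹, 1, 1]
      have hdn := CfsgLib.Unitary.SpecialConj.det_norm hF hκ hc
      have hD : D ∈ Cfsg.GU 3 F q := Cfsg.Agent.S2672.dg_mem hF hκ _ (fun i => by
        fin_cases i
        · exact Units.ext (by simp [hd, hdn])
        · simp
        · simp)
      refine CfsgLib.Unitary.SpecialConj.isConj_of_det x s (D * c) (mul_mem hD hc) ?_ ?_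
      · rw [Units.val_mul, Matrix.det_mul, Cfsg.Agent.S2670.dg_val, Matrix.det_diagonal, Fin.prod_univ_three, ← hd]
        simp [hd0]
      · rw [Units.val_mul, mul_assoc]
        have h3 : (c : Matrix (Fin 3) (Fin 3) F) * val x = s0 * (c : Matrix (Fin 3) (Fin 3) F) :=
          congrArg Units.val (mul_inv_eq_iff_eq_mul.1 hce)
        rw [show ((x : Matrix.SpecialLinearGroup (Fin 3) F) : Matrix (Fin 3) (Fin 3) F) = val x from rfl, h3, ← mul_assoc,
          show ((s : Matrix.SpecialLinearGroup (Fin 3) F) : Matrix (Fin 3) (Fin 3) F) = s0 from rfl, ← mul_assoc]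
        congr 1
        rw [Cfsg.Agent.S2670.dg_val]
        ext i j
        fin_cases i <;> fin_cases j <;> simp [s0, Matrix.mul_apply, Fin.sum_univ_three]
  have hclass : ∀ x, x ≠ 1 → x * x = 1 → ∃ g, g * t * g⁻¹ = x := fun x hx hxx =>
    isConj_iff.1 ((hconj t ht ht2).trans (hconj x hx hxx).symm)
  obtain ⟨g₀, hg₀⟩ := isConj_iff.1 (hconj t ht ht2)
  let e : ↥(Cfsg.SU 3 F q) ≃* ↥(Cfsg.SU 3 F q) := MulAut.conj g₀
  have het : e t = s := hg₀
  -- centraliser of the model
  let C := Subgroup.centralizer ({s} : Set ↥(Cfsg.SU 3 F q))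
  have hCmem : ∀ g, g ∈ C ↔ val g * s0 = s0 * val g := by
    intro g
    rw [Subgroup.mem_centralizer_singleton_iff, ← hs, ← hvmul, ← hvmul, hvinj.eq_iff]
    try exact eq_comm
  have hCshape := fun (g : C) => commute_s0 hF2 ((hCmem g.1).1 g.2)
  have hCU := fun (g : C) => (CfsgLib.Unitary.Conj.mem_GU hF hκ _).1 ((CfsgLib.Unitary.SpecialConj.mem_GU_iff _).1 g.1.2)
  let f : C → Matrix (Fin 2) (Fin 2) F := fun g => !![val g.1 1 1, val g.1 1 2; val g.1 2 1, val g.1 2 2]
  have hfU : ∀ g : C, CfsgLib.Unitary.Conj.adj κ (f g) * f g = 1 := by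
    intro g
    obtain ⟨a1, a2, a3, a4⟩ := hCshape g
    have e := fun i j => congrFun (congrFun (hCU g) i) j
    ext i j
    fin_cases i <;> fin_cases j
    · have := e 1 1; simpa [f, val, CfsgLib.Unitary.Conj.adj, Matrix.mul_apply, Fin.sum_univ_three, Fin.sum_univ_two, a1, a2] using this
    · have := e 1 2; simpa [f, val, CfsgLib.Unitary.Conj.adj, Matrix.mul_apply, Fin.sum_univ_three, Fin.sum_univ_two, a1, a2] using this
    · have := e 2 1; simpa [f, val, CfsgLib.Unitary.Conj.adj, Matrix.mul_apply, Fin.sum_univ_three, Fin.sum_univ_two, a1, a2] using this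
    · have := e 2 2; simpa [f, val, CfsgLib.Unitary.Conj.adj, Matrix.mul_apply, Fin.sum_univ_three, Fin.sum_univ_two, a1, a2] using this
  have hfu : ∀ g, IsUnit (f g) := fun g => IsUnit.of_mul_eq_one_right _ (hfU g)
  let φ : C → ↥(Cfsg.GU 2 F q) := fun g => ⟨(hfu g).unit, (CfsgLib.Unitary.Conj.mem_GU hF hκ _).2 (by rw [IsUnit.unit_spec]; exact hfU g)⟩
  have hφ : Function.Bijective φ := by
    constructor
    · intro g h hgh
      have h' : f g = f h := congrArg (fun z : ↥(Cfsg.GU 2 F q) => ((z : GL (Fin 2) F) : Matrix (Fin 2) (Fin 2) F)) hgh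
      have h11 := congrFun (congrFun h' 0) 0
      have h12 := congrFun (congrFun h' 0) 1
      have h21 := congrFun (congrFun h' 1) 0
      have h22 := congrFun (congrFun h' 1) 1
      simp [f] at h11 h12 h21 h22
      obtain ⟨a1, a2, a3, a4⟩ := hCshape g
      obtain ⟨b1, b2, b3, b4⟩ := hCshape h
      have hd := hvd g.1
      have hd' := hvd h.1
      simp [Matrix.det_fin_three, a1, a2, a3, a4] at hd
      simp [Matrix.det_fin_three, b1, b2, b3, b4, ← h11, ← h12, ← h21, ← h22] at hd'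
      have h00 : val g.1 0 0 = val h.1 0 0 := by
        linear_combination val h.1 0 0 * hd - val g.1 0 0 * hd'
      refine Subtype.ext (hvinj ?_)
      ext i j
      fin_cases i <;> fin_cases j <;> simp [a1, a2, a3, a4, b1, b2, b3, b4, h11, h12, h21, h22, h00]
    · intro A
      set M := ((A : GL (Fin 2) F) : Matrix (Fin 2) (Fin 2) F) with hM
      have hMU := (CfsgLib.Unitary.Conj.mem_GU hF hκ _).1 A.2
      have hd0 : M.det ≠ 0 := ((Matrix.isUnit_iff_isUnit_det _).1 (A : GL (Fin 2) F).isUnit).ne_zero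
      let G : Matrix (Fin 3) (Fin 3) F := !![M.det⁻¹, 0, 0; 0, M 0 0, M 0 1; 0, M 1 0, M 1 1]
      have hGd : G.det = 1 := by
        rw [Matrix.det_fin_three]
        simp [G]
        rw [← inv_mul_cancel₀ hd0, Matrix.det_fin_two]
        ring
      have hdn := CfsgLib.Unitary.SpecialConj.det_norm hF hκ A.2
      have e := fun i j => congrFun (congrFun hMU i) j
      have e00 := e 0 0; have e01 := e 0 1; have e10 := e 1 0; have e11 := e 1 1
      simp [CfsgLib.Unitary.Conj.adj, Matrix.mul_apply, Fin.sum_univ_two, ← hM] at e00 e01 e10 e11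
      have hdk : κ M.det⁻¹ * M.det⁻¹ = 1 := by rw [hκ, ← pow_succ, inv_pow, hdn, inv_one]
      have hGU : CfsgLib.Unitary.Conj.adj κ G * G = 1 := by
        ext i j
        fin_cases i <;> fin_cases j <;> simp [G, CfsgLib.Unitary.Conj.adj, Matrix.mul_apply, Fin.sum_univ_three] <;>
          first | exact e00 | exact e01 | exact e10 | exact e11 | simpa using hdk
      let g : ↥(Cfsg.SU 3 F q) := ⟨⟨G, hGd⟩, (CfsgLib.Unitary.SpecialConj.mem_GU_iff _).2 ((CfsgLib.Unitary.Conj.mem_GU hF hκ _).2 hGU)⟩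
      refine ⟨⟨g, (hCmem g).2 ?_⟩, Subtype.ext (Units.ext ?_)⟩
      · show G * s0 = s0 * G
        ext i j
        fin_cases i <;> fin_cases j <;> simp [G, s0, Matrix.mul_apply, Fin.sum_univ_three]
      · show f _ = M
        ext i j
        fin_cases i <;> fin_cases j <;> simp [f, g, val, G]
  have hφmul : ∀ g h : C, f (g * h) = f g * f h := by
    intro g h
    obtain ⟨a1, a2, a3, a4⟩ := hCshape g
    obtain ⟨b1, b2, b3, b4⟩ := hCshape h
    ext i j
    fin_cases i <;> fin_cases j <;>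
      simp [f, hvmul, Subgroup.coe_mul, Matrix.mul_apply, Fin.sum_univ_three, Fin.sum_univ_two, a1, a2, a3, a4]
  let φh : C →* ↥(Cfsg.GU 2 F q) := MonoidHom.mk' φ (fun g h => Subtype.ext (Units.ext (hφmul g h)))
  have hs1det : (!![-1, 0, 0; 0, 1, 0; 0, 0, -1] : Matrix (Fin 3) (Fin 3) F).det = 1 := by simp [Matrix.det_fin_three]
  have hs1adj : CfsgLib.Unitary.Conj.adj κ (!![-1, 0, 0; 0, 1, 0; 0, 0, -1] : Matrix (Fin 3) (Fin 3) F) * !![-1, 0, 0; 0, 1, 0; 0, 0, -1] = 1 := by
    ext i j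
    fin_cases i <;> fin_cases j <;> simp [CfsgLib.Unitary.Conj.adj, Matrix.mul_apply, Fin.sum_univ_three]
  let s1 : ↥(Cfsg.SU 3 F q) := ⟨⟨_, hs1det⟩, (CfsgLib.Unitary.SpecialConj.mem_GU_iff _).2 ((CfsgLib.Unitary.Conj.mem_GU hF hκ _).2 hs1adj)⟩
  have hs1 : val s1 = !![-1, 0, 0; 0, 1, 0; 0, 0, -1] := rfl
  have hs1C : s1 ∈ C := (hCmem s1).2 (by
    rw [hs1]; ext i j
    fin_cases i <;> fin_cases j <;> simp [s0, Matrix.mul_apply, Fin.sum_univ_three])
  let d1 : C := ⟨s1, hs1C⟩
  -- the common centraliser of the two models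
  let U := (powMonoidHom (q + 1) : Fˣ →* Fˣ).ker
  let D := Subgroup.centralizer ({d1} : Set C)
  have hDdiag : ∀ g : D, val g.1.1 1 2 = 0 ∧ val g.1.1 2 1 = 0 := by
    intro g
    have h := congrArg (fun z : C => val z.1) (Subgroup.mem_centralizer_singleton_iff.1 g.2)
    simp only [Subgroup.coe_mul, hvmul, d1, hs1] at h
    have h12 := congrFun (congrFun h 1) 2
    have h21 := congrFun (congrFun h 2) 1
    simp [Matrix.mul_apply, Fin.sum_univ_three] at h12 h21
    exact ⟨(mul_eq_zero.1 (show (2 : F) * val g.1.1 1 2 = 0 by linear_combination -h12)).resolve_left hF2,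
      (mul_eq_zero.1 (show (2 : F) * val g.1.1 2 1 = 0 by linear_combination h21)).resolve_left hF2⟩
  have hDu : ∀ g : D, κ (val g.1.1 1 1) * val g.1.1 1 1 = 1 ∧ κ (val g.1.1 2 2) * val g.1.1 2 2 = 1 := by
    intro g
    obtain ⟨a1, a2, a3, a4⟩ := hCshape g.1
    obtain ⟨b1, b2⟩ := hDdiag g
    constructor
    · have := congrFun (congrFun (hCU g.1) 1) 1
      simpa [val, CfsgLib.Unitary.Conj.adj, Matrix.mul_apply, Fin.sum_univ_three, a1, a2, b1, b2] using this
    · have := congrFun (congrFun (hCU g.1) 2) 2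
      simpa [val, CfsgLib.Unitary.Conj.adj, Matrix.mul_apply, Fin.sum_univ_three, a1, a2, b1, b2] using this
  have hDne : ∀ g : D, val g.1.1 1 1 ≠ 0 ∧ val g.1.1 2 2 ≠ 0 := fun g =>
    ⟨fun h0 => by simpa [h0] using (hDu g).1, fun h0 => by simpa [h0] using (hDu g).2⟩
  let ψ : D → U × U := fun g =>
    (⟨Units.mk0 _ (hDne g).1, Units.ext (by show val g.1.1 1 1 ^ (q + 1) = 1; rw [pow_succ, ← hκ]; exact (hDu g).1)⟩,
     ⟨Units.mk0 _ (hDne g).2, Units.ext (by show val g.1.1 2 2 ^ (q + 1) = 1; rw [pow_succ, ← hκ]; exact (hDu g).2)⟩)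
  have hψ : Function.Bijective ψ := by
    constructor
    · intro g h hgh
      have h1 : val g.1.1 1 1 = val h.1.1 1 1 := congrArg (fun z : U × U => ((z.1 : Fˣ) : F)) hgh
      have h2 : val g.1.1 2 2 = val h.1.1 2 2 := congrArg (fun z : U × U => ((z.2 : Fˣ) : F)) hgh
      refine Subtype.ext (hφ.1 (Subtype.ext (Units.ext ?_)))
      show f g.1 = f h.1
      ext i j
      fin_cases i <;> fin_cases j <;> simp [f, h1, h2, (hDdiag g).1, (hDdiag g).2, (hDdiag h).1, (hDdiag h).2]
    · rintro ⟨u, v⟩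
      have hu : ((u : Fˣ) : F) ^ (q + 1) = 1 := by rw [← Units.val_pow_eq_pow_val, show (u : Fˣ) ^ (q + 1) = 1 from u.2, Units.val_one]
      have hv : ((v : Fˣ) : F) ^ (q + 1) = 1 := by rw [← Units.val_pow_eq_pow_val, show (v : Fˣ) ^ (q + 1) = 1 from v.2, Units.val_one]
      have hM : Cfsg.Agent.S2670.dg ![(u : Fˣ), (v : Fˣ)] ∈ Cfsg.GU 2 F q := Cfsg.Agent.S2672.dg_mem hF hκ _ (fun i => by
        fin_cases i
        · exact u.2
        · exact v.2)
      obtain ⟨g, hg⟩ := hφ.2 ⟨_, hM⟩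
      have hg' : f g = Matrix.diagonal (fun i => (((![(u : Fˣ), (v : Fˣ)]) i : Fˣ) : F)) :=
        congrArg (fun z : ↥(Cfsg.GU 2 F q) => ((z : GL (Fin 2) F) : Matrix (Fin 2) (Fin 2) F)) hg
      have h11 : val g.1 1 1 = (u : Fˣ) := by simpa [f] using congrFun (congrFun hg' 0) 0
      have h22 : val g.1 2 2 = (v : Fˣ) := by simpa [f] using congrFun (congrFun hg' 1) 1
      have h12 : val g.1 1 2 = 0 := by simpa [f] using congrFun (congrFun hg' 0) 1
      have h21 : val g.1 2 1 = 0 := by simpa [f] using congrFun (congrFun hg' 1) 0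
      have hgD : g ∈ D := by
        rw [Subgroup.mem_centralizer_singleton_iff]
        refine Subtype.ext (hvinj ?_)
        simp only [Subgroup.coe_mul, hvmul, d1, hs1]
        obtain ⟨a1, a2, a3, a4⟩ := hCshape g
        ext i j
        fin_cases i <;> fin_cases j <;> simp [Matrix.mul_apply, Fin.sum_univ_three, a1, a2, a3, a4, h12, h21]
      exact ⟨⟨g, hgD⟩, Prod.ext (Subtype.ext (Units.ext h11)) (Subtype.ext (Units.ext h22))⟩
  have hDcard : Nat.card D = (q + 1) * (q + 1) := by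
    rw [Nat.card_congr (Equiv.ofBijective ψ hψ), Nat.card_prod, CfsgLib.Unitary.FieldNorm.card_ker_succ hF]
  have hCcard : Nat.card C = q * (q + 1) * (q ^ 2 - 1) := by
    rw [Nat.card_congr (Equiv.ofBijective φ hφ), CfsgLib.Unitary.Order.card_GU hF]
    simp [Finset.prod_range_succ]
    ring
  -- neighbours of the model
  let K := fun y : ↥(Cfsg.SU 3 F q) => {x : ↥(Cfsg.SU 3 F q) // x ≠ 1 ∧ x * x = 1 ∧ x ≠ y ∧ Commute y x}
  have hKC : ∀ x : K s, x.1 ∈ C := fun x => Subgroup.mem_centralizer_singleton_iff.2 x.2.2.2.2.eq.symm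
  have hs1K : s1 ≠ 1 ∧ s1 * s1 = 1 ∧ s1 ≠ s ∧ Commute s s1 := by
    refine ⟨fun h => ?_, hvinj ?_, fun h => ?_, (Subgroup.mem_centralizer_singleton_iff.1 hs1C).symm⟩
    · have h' := congrFun (congrFun (congrArg val h) 0) 0
      rw [hs1, hv1] at h'
      simp at h'
      exact hF2 (by linear_combination -h')
    · rw [hvmul, hv1, hs1]; ext i j
      fin_cases i <;> fin_cases j <;> simp [Matrix.mul_apply, Fin.sum_univ_three]
    · have h' := congrFun (congrFun (congrArg val h) 0) 0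
      rw [hs1, hs] at h'
      simp [s0] at h'
      exact hF2 (by linear_combination -h')
  have htrans : ∀ x : K s, ∃ g : C, g * d1 * g⁻¹ = ⟨x.1, hKC x⟩ := by
    intro x
    let xC : C := ⟨x.1, hKC x⟩
    have hx2 : xC * xC = 1 := Subtype.ext x.2.2.1
    obtain ⟨a0, at', ad⟩ := shape hF2 ((hCmem x.1).1 (hKC x)) (by rw [← hvmul, x.2.2.1, hv1]) (hvd _)
      (fun h => x.2.1 (hvinj h)) (fun h => x.2.2.2.1 (hvinj h))
    have hd12 : d1 * d1 = 1 := Subtype.ext hs1K.2.1
    have hpow : ∀ z : C, z * z = 1 → ((φh z : ↥(Cfsg.GU 2 F q)) : GL (Fin 2) F) ^ 2 = Cfsg.Agent.S2670.sc 2 1 := by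
      intro z hz
      rw [map_one, sq, ← Subgroup.coe_mul, ← map_mul, hz, map_one]
      rfl
    obtain ⟨P, hP⟩ := isConj_iff.1 (Cfsg.Agent.S2670.conj_of_charpoly (r := 2) (c := 1) (by exact_mod_cast hF2) (hpow d1 hd12) (hpow xC hx2) (by
      show (f d1).charpoly = (f xC).charpoly
      rw [Matrix.charpoly_fin_two, Matrix.charpoly_fin_two]
      have e1 : (f d1).trace = (f xC).trace := by
        simp [f, d1, hs1, Matrix.trace_fin_two, xC]
        linear_combination -at'
      have e2 : (f d1).det = (f xC).det := by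
        simp [f, d1, hs1, Matrix.det_fin_two, xC]
        linear_combination -ad
      rw [e1, e2]))
    obtain ⟨c, hc, hce⟩ := CfsgLib.Unitary.Conj.conj_in_GU hF hκ hκκ (φh d1).2 (φh xC).2 P hP
    obtain ⟨g, hg⟩ := hφ.2 ⟨c, hc⟩
    refine ⟨g, hφ.1 ?_⟩
    show φh (g * d1 * g⁻¹) = φh xC
    rw [map_mul, map_mul, map_inv, show φh g = ⟨c, hc⟩ from hg]
    exact Subtype.ext hce
  have hKs : Nat.card (K s) = q * (q - 1) := by
    let o : K s → C ⧸ D := fun x => QuotientGroup.mk (htrans x).choose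
    have hrel : ∀ a b : C, a * d1 * a⁻¹ = b * d1 * b⁻¹ ↔ (QuotientGroup.mk a : C ⧸ D) = QuotientGroup.mk b := by
      intro a b
      rw [QuotientGroup.eq, Subgroup.mem_centralizer_singleton_iff]
      constructor
      · intro h
        calc a⁻¹ * b * d1 = a⁻¹ * (b * d1 * b⁻¹) * b := by group
          _ = d1 * (a⁻¹ * b) := by rw [← h]; group
      · intro h
        calc a * d1 * a⁻¹ = a * (d1 * (a⁻¹ * b)) * b⁻¹ := by group
          _ = b * d1 * b⁻¹ := by rw [← h]; group
    have ho : Function.Bijective o := by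
      constructor
      · intro x y hxy
        have := (hrel _ _).2 hxy
        rw [(htrans x).choose_spec, (htrans y).choose_spec] at this
        exact Subtype.ext (congrArg Subtype.val this :)
      · intro z
        obtain ⟨a, rfl⟩ := QuotientGroup.mk_surjective z
        have hd12 : d1 * d1 = 1 := Subtype.ext hs1K.2.1
        have h1 : a * d1 * a⁻¹ ≠ 1 := fun h => hs1K.1 (congrArg Subtype.val (conj_eq_one_iff.1 h) :)
        have hsC : ∀ g : C, Commute s g.1 := fun g => (Subgroup.mem_centralizer_singleton_iff.1 g.2).symm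
        let x : K s := ⟨(a * d1 * a⁻¹).1, fun h => h1 (Subtype.ext h), by
          rw [← Subgroup.coe_mul, ← sq, conj_pow, sq, hd12, mul_one, mul_inv_cancel]; rfl,
          fun h => hs1K.2.2.1 (by
            have h' : (a : ↥(Cfsg.SU 3 F q)) * s1 * (a : ↥(Cfsg.SU 3 F q))⁻¹ = s := h
            rw [mul_inv_eq_iff_eq_mul, (hsC a).eq] at h'
            exact mul_left_cancel h'), hsC _⟩
        exact ⟨x, (hrel _ _).1 ((htrans x).choose_spec.trans (Subtype.ext rfl))⟩
    have hmul := Subgroup.card_eq_card_quotient_mul_card_subgroup D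
    rw [hCcard, hDcard, ← Nat.card_congr (Equiv.ofBijective o ho)] at hmul
    obtain ⟨w, rfl⟩ : ∃ w, q = w + 1 := ⟨q - 1, by omega⟩
    have h2 : (w + 1) ^ 2 - 1 = w * (w + 2) := by
      rw [show (w + 1) ^ 2 = w * (w + 2) + 1 by ring, Nat.add_sub_cancel]
    rw [h2] at hmul
    rw [Nat.add_sub_cancel]
    have hpos : 0 < (w + 1 + 1) * (w + 1 + 1) := by positivity
    refine Nat.eq_of_mul_eq_mul_right hpos ?_
    linear_combination -hmul
  have hK : ∀ y : ↥(Cfsg.SU 3 F q), y ≠ 1 → y * y = 1 → Nat.card (K y) = q * (q - 1) := by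
    intro y hy hyy
    obtain ⟨g, hg⟩ := isConj_iff.1 (hconj y hy hyy)
    rw [← hKs]
    refine Nat.card_congr ((MulAut.conj g).toEquiv.subtypeEquiv fun x => ?_)
    have hg' : MulAut.conj g y = s := hg
    show _ ↔ MulAut.conj g x ≠ 1 ∧ MulAut.conj g x * MulAut.conj g x = 1 ∧ MulAut.conj g x ≠ s ∧ Commute s (MulAut.conj g x)
    refine and_congr (not_congr (map_eq_one_iff _ (MulAut.conj g).injective).symm) (and_congr ?_ (and_congr ?_ ?_))
    · rw [← map_mul, map_eq_one_iff _ (MulAut.conj g).injective]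
    · rw [← hg', Ne, Ne, (MulAut.conj g).injective.eq_iff]
    · rw [← hg', Commute, Commute, SemiconjBy, SemiconjBy, ← map_mul, ← map_mul, (MulAut.conj g).injective.eq_iff]
  have hthird : ∀ y x : ↥(Cfsg.SU 3 F q), y ≠ 1 → y * y = 1 → x ≠ 1 → x * x = 1 → x ≠ y → Commute y x → ∀ z, z ≠ 1 → z * z = 1 →
      z ≠ y → z ≠ x → Commute y z → Commute x z → z = y * x := by
    intro y x hy hyy hx hxx hxy hyx z h1 h2 h3 h4 h5 h6
    have h := (Cfsg.Agent.S2360.result hq hF y hy hyy).2.2.2 x hx hxx hxy hyx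
    rw [Nat.card_eq_one_iff_unique] at h
    have hxy2 : (y * x) * (y * x) = 1 := by rw [← sq, hyx.mul_pow, sq, sq, hyy, hxx, one_mul]
    have hmem : y * x ≠ 1 ∧ (y * x) * (y * x) = 1 ∧ y * x ≠ y ∧ y * x ≠ x ∧ Commute y (y * x) ∧ Commute x (y * x) :=
      ⟨fun h => hxy ((mul_left_cancel (h.trans hyy.symm))), hxy2, fun h => hx (mul_eq_left.1 h), fun h => hy (mul_eq_right.1 h),
        (Commute.refl y).mul_right hyx, hyx.symm.mul_right (Commute.refl x)⟩
    exact congrArg Subtype.val (@Subsingleton.elim _ h.1 ⟨z, h1, h2, h3, h4, h5, h6⟩ ⟨y * x, hmem⟩)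
  let W := {x : ↥(Cfsg.SU 3 F q) // x ≠ 1 ∧ x * x = 1 ∧ ¬ Commute t x ∧
        ∃ y : ↥(Cfsg.SU 3 F q), y ≠ 1 ∧ y * y = 1 ∧ Commute t y ∧ Commute y x}
  have hW : Nat.card W = q * (q - 1) * (q * (q - 1) - 2) := by
    have huniq : ∀ x : W, ∀ y y' : K t, Commute y.1 x.1 → Commute y'.1 x.1 → y = y' := by
      intro x y y' h h'
      by_contra hne
      have hne' : y'.1 ≠ y.1 := fun e' => hne (Subtype.ext e'.symm)
      apply x.2.2.2.1
      have hc : Commute y.1 y'.1 := commute_of_common hF hq t x.1 y.1 y'.1 ht ht2 x.2.1 x.2.2.1 y.2.1 y.2.2.1 y'.2.1 y'.2.2.1 x.2.2.2.1 y.2.2.2.2 y'.2.2.2.2 h h'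
      have ht' := hthird y.1 y'.1 y.2.1 y.2.2.1 y'.2.1 y'.2.2.1 hne' hc t ht ht2 (Ne.symm y.2.2.2.1) (Ne.symm y'.2.2.2.1) y.2.2.2.2.symm y'.2.2.2.2.symm
      exact (congrArg (fun a => Commute a x.1) ht').mpr (h.mul_left h')
    let τ : (Σ y : K t, {x : K y.1 // ¬ Commute t x.1}) → W := fun z =>
      ⟨z.2.1.1, z.2.1.2.1, z.2.1.2.2.1, z.2.2, z.1.1, z.1.2.1, z.1.2.2.1, z.1.2.2.2.2, z.2.1.2.2.2.2⟩
    have hτ : Function.Bijective τ := by
      constructor
      · rintro ⟨y, x, hx⟩ ⟨y', x', hx'⟩ h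
        have h1 : x.1 = x'.1 := congrArg Subtype.val h
        have h2 : y = y' := huniq (τ ⟨y, x, hx⟩) y y' x.2.2.2.2 (show Commute y'.1 x.1 from h1.symm ▸ x'.2.2.2.2)
        subst h2
        have h3 : x = x' := Subtype.ext h1
        subst h3
        rfl
      · rintro ⟨x, h1, h2, h3, y, h4, h5, h6, h7⟩
        have hyt : y ≠ t := fun e' => h3 (e' ▸ h7)
        have hxy : x ≠ y := fun e' => h3 (e' ▸ h6)
        exact ⟨⟨⟨y, h4, h5, hyt, h6⟩, ⟨x, h1, h2, hxy, h7⟩, h3⟩, rfl⟩
    have hfib : ∀ y : K t, Nat.card {x : K y.1 // ¬ Commute t x.1} = q * (q - 1) - 2 := by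
      intro y
      have htot := hK y.1 y.2.1 y.2.2.1
      have hty : Commute t y.1 := y.2.2.2.2
      have h2 : Nat.card {x : K y.1 // Commute t x.1} = 2 := by
        let a : {x : K y.1 // Commute t x.1} := ⟨⟨t, ht, ht2, Ne.symm y.2.2.2.1, hty.symm⟩, Commute.refl t⟩
        let b : {x : K y.1 // Commute t x.1} := ⟨⟨t * y.1, fun h => y.2.2.2.1 (mul_left_cancel (h.trans ht2.symm)),
          by rw [← sq, hty.mul_pow, sq, sq, ht2, y.2.2.1, one_mul], fun h => ht (mul_eq_right.1 h), hty.symm.mul_right (Commute.refl y.1)⟩, (Commute.refl t).mul_right hty⟩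
        have hab : a ≠ b := fun h => y.2.1 (mul_eq_left.1 (congrArg (fun z : {x : K y.1 // Commute t x.1} => z.1.1) h).symm)
        rw [Nat.card_eq_two_iff]
        refine ⟨a, b, hab, Set.eq_univ_of_forall fun z => ?_⟩
        by_cases hz : z.1.1 = t
        · left; exact Subtype.ext (Subtype.ext hz)
        · right
          exact Subtype.ext (Subtype.ext (hthird t y.1 ht ht2 y.2.1 y.2.2.1 y.2.2.2.1 hty z.1.1 z.1.2.1 z.1.2.2.1 hz z.1.2.2.2.1 z.2 z.1.2.2.2.2))
      have h3 := Nat.card_congr (Equiv.sumCompl (fun x : K y.1 => Commute t x.1))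
      rw [Nat.card_sum, htot, h2] at h3
      omega
    rw [← Nat.card_congr (Equiv.ofBijective τ hτ), Nat.card_sigma, Finset.sum_congr rfl (fun y _ => hfib y), Finset.sum_const,
      Finset.card_univ, smul_eq_mul, ← Nat.card_eq_fintype_card, hK t ht ht2]
  refine ⟨hK t ht ht2, ?_, ?_, ?_⟩
  · show Nat.card W = _
    rw [hW]
    obtain ⟨w, rfl⟩ : ∃ w, q = w + 3 := ⟨q - 3, by obtain ⟨k, hk⟩ := hq; omega⟩
    have e1 : (w + 3) * (w + 3 - 1) - 2 = (w + 1) * (w + 4) := by
      rw [show w + 3 - 1 = w + 2 by omega, show (w + 3) * (w + 2) = (w + 1) * (w + 4) + 2 by ring, Nat.add_sub_cancel]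
    have e2 : (w + 3) ^ 2 - 1 = (w + 2) * (w + 4) := by
      rw [show (w + 3) ^ 2 = (w + 2) * (w + 4) + 1 by ring, Nat.add_sub_cancel]
    rw [e1, e2, show w + 3 - 1 = w + 2 by omega, show w + 3 - 2 = w + 1 by omega]
    ring
  · let Inv := {x : ↥(Cfsg.SU 3 F q) // x ≠ 1 ∧ x * x = 1}
    have htot : Nat.card Inv = q ^ 2 * (q ^ 2 - q + 1) := (Cfsg.Agent.S2360.result hq hF t ht ht2).2.1
    have h1 : Nat.card {x : Inv // Commute t x.1} = q * (q - 1) + 1 := by
      rw [← hK t ht ht2, Nat.card_congr (Equiv.sumCompl (fun x : {x : Inv // Commute t x.1} => x.1.1 = t)).symm, Nat.card_sum,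
        Nat.card_congr (β := K t) (Equiv.ofBijective (fun x : {x : {x : Inv // Commute t x.1} // ¬ x.1.1 = t} => (⟨x.1.1.1, x.1.1.2.1, x.1.1.2.2, x.2, x.1.2⟩ : K t))
          ⟨fun a b h => by
            apply Subtype.ext; apply Subtype.ext; apply Subtype.ext
            exact (congrArg Subtype.val h :),
           fun k => ⟨⟨⟨⟨k.1, k.2.1, k.2.2.1⟩, k.2.2.2.2⟩, k.2.2.2.1⟩, rfl⟩⟩)]
      haveI : Unique {x : {x : Inv // Commute t x.1} // x.1.1 = t} :=
        { default := ⟨⟨⟨t, ht, ht2⟩, Commute.refl t⟩, rfl⟩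
          uniq := fun a => Subtype.ext (Subtype.ext (Subtype.ext a.2)) }
      rw [Nat.card_unique, add_comm]
    have h2 := Nat.card_congr (Equiv.sumCompl (fun x : Inv => Commute t x.1))
    rw [Nat.card_sum, htot, h1] at h2
    let Far := {x : ↥(Cfsg.SU 3 F q) // x ≠ 1 ∧ x * x = 1 ∧ ¬ Commute t x ∧
        ∀ y : ↥(Cfsg.SU 3 F q), y ≠ 1 → y * y = 1 → ¬ (Commute t y ∧ Commute y x)}
    have h3 : Nat.card {x : Inv // ¬ Commute t x.1} = Nat.card W + Nat.card Far := by
      rw [← Nat.card_congr (Equiv.sumCompl (fun x : {x : Inv // ¬ Commute t x.1} => ∃ y : ↥(Cfsg.SU 3 F q), y ≠ 1 ∧ y * y = 1 ∧ Commute t y ∧ Commute y x.1.1)), Nat.card_sum]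
      congr 1
      · exact Nat.card_congr
          { toFun := fun x => ⟨x.1.1.1, x.1.1.2.1, x.1.1.2.2, x.1.2, x.2⟩
            invFun := fun x => ⟨⟨⟨x.1, x.2.1, x.2.2.1⟩, x.2.2.2.1⟩, x.2.2.2.2⟩
            left_inv := fun x => rfl
            right_inv := fun x => rfl }
      · exact Nat.card_congr
          { toFun := fun x => ⟨x.1.1.1, x.1.1.2.1, x.1.1.2.2, x.1.2, fun y a b c => x.2 ⟨y, a, b, c.1, c.2⟩⟩
            invFun := fun x => ⟨⟨⟨x.1, x.2.1, x.2.2.1⟩, x.2.2.2.1⟩, fun ⟨y, a, b, c, c'⟩ => x.2.2.2.2 y a b ⟨c, c'⟩⟩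
            left_inv := fun x => rfl
            right_inv := fun x => rfl }
    rw [h3, hW] at h2
    show Nat.card Far = _
    obtain ⟨w, rfl⟩ : ∃ w, q = w + 3 := ⟨q - 3, by obtain ⟨k, hk⟩ := hq; omega⟩
    have e1 : (w + 3) * (w + 3 - 1) - 2 = (w + 1) * (w + 4) := by
      rw [show w + 3 - 1 = w + 2 by omega, show (w + 3) * (w + 2) = (w + 1) * (w + 4) + 2 by ring, Nat.add_sub_cancel]
    have e2 : (w + 3) ^ 2 - 1 = (w + 2) * (w + 4) := by
      rw [show (w + 3) ^ 2 = (w + 2) * (w + 4) + 1 by ring, Nat.add_sub_cancel]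
    have e3 : (w + 3) ^ 2 - (w + 3) + 1 = (w + 3) * (w + 2) + 1 := by
      rw [show (w + 3) ^ 2 = (w + 3) * (w + 2) + (w + 3) by ring, Nat.add_sub_cancel]
    rw [e1, e3, show w + 3 - 1 = w + 2 by omega] at h2
    rw [e2]
    linear_combination h2
  · intro x hx hxx
    obtain ⟨g, hg⟩ := isConj_iff.1 ((hconj x hx hxx).symm)
    have hκ2 : κ (2 : F) = 2 := map_ofNat κ 2
    have key : ∀ a : F, ∀ M : Matrix (Fin 3) (Fin 3) F, CfsgLib.Unitary.Conj.adj κ M = M → M * M = 1 → M.det = 1 → M ≠ 1 →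
        ∃ z : ↥(Cfsg.SU 3 F q), val z = M ∧ z ≠ 1 ∧ z * z = 1 := by
      intro a M h1 h2 h3 h4
      refine ⟨⟨⟨M, h3⟩, (CfsgLib.Unitary.SpecialConj.mem_GU_iff _).2 ((CfsgLib.Unitary.Conj.mem_GU hF hκ _).2 (?_ : CfsgLib.Unitary.Conj.adj κ M * M = 1))⟩, rfl, fun e' => h4 (congrArg val e'), hvinj h2⟩
      rw [h1, h2]
    have mkz : ∀ c : Fin 3 → F, ∑ k, κ (c k) * c k ≠ 0 →
        ∃ z : ↥(Cfsg.SU 3 F q), val z = refl κ c (2 / ∑ k, κ (c k) * c k) ∧ z ≠ 1 ∧ z * z = 1 := by
      intro c hc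
      have hd : 2 / (∑ k, κ (c k) * c k) * (∑ k, κ (c k) * c k) = 2 := div_mul_cancel₀ _ hc
      refine key 0 _ (refl_adj κ hκκ c _ ?_) (refl_sq κ c _ hd) (refl_det κ c _ hd) (refl_ne_one hF2 κ c _ hd)
      rw [map_div₀, hκ2, map_sum]
      congr 1
      exact Finset.sum_congr rfl fun k _ => by rw [map_mul, hκκ, mul_comm]
    -- coordinates of `x` and `t` after moving `t` to the model
    obtain ⟨h, hh⟩ := isConj_iff.1 (hconj t ht ht2)
    obtain ⟨x', hx'⟩ : ∃ x', x' = h * x * h⁻¹ := ⟨_, rfl⟩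
    obtain ⟨g', hg'⟩ := isConj_iff.1 ((hconj x' (fun e' => hx (conj_eq_one_iff.1 (hx'.symm.trans e'))) (by rw [hx', ← sq, conj_pow, sq, hxx, mul_one, mul_inv_cancel])).symm)
    let v : Fin 3 → F := fun i => val g' i 0
    have hgu := (CfsgLib.Unitary.Conj.mem_GU hF hκ _).1 ((CfsgLib.Unitary.SpecialConj.mem_GU_iff _).1 g'.2)
    have hvN : ∑ k, κ (v k) * v k = 1 := by
      have := congrFun (congrFun hgu 0) 0
      simpa [v, val, CfsgLib.Unitary.Conj.adj, Matrix.mul_apply] using this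
    have hxv : val x' = refl κ v 2 := by
      have e1 : val x' * val g' = val g' * s0 := by rw [← hvmul, ← hs, ← hvmul, ← hg', inv_mul_cancel_right]
      have e2 : val g' * CfsgLib.Unitary.Conj.adj κ (val g') = 1 := mul_eq_one_comm.1 hgu
      have e3 : val x' = val g' * s0 * CfsgLib.Unitary.Conj.adj κ (val g') := by rw [← e1, mul_assoc, e2, mul_one]
      ext i j
      have e4 := congrFun (congrFun e2 i) j
      rw [e3, refl, Matrix.sub_apply, ← e4]
      simp [s0, v, CfsgLib.Unitary.Conj.adj, Matrix.mul_apply, Fin.sum_univ_three, Matrix.vecMul, dotProduct]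
      ring
    have hcs : ∀ z : ↥(Cfsg.SU 3 F q), ∀ c : Fin 3 → F, ∀ d : F, val z = refl κ c d → c 0 = 0 → Commute s z := by
      intro z c d hz h0
      refine hvinj ?_
      rw [hvmul, hvmul, hs, hz]
      ext i j
      fin_cases i <;> fin_cases j <;> simp [s0, refl, Matrix.mul_apply, Fin.sum_univ_three, h0]
    have hcx : ∀ z : ↥(Cfsg.SU 3 F q), ∀ c : Fin 3 → F, ∀ d : F, val z = refl κ c d →
        ∑ k, κ (c k) * v k = 0 → Commute z x' := by
      intro z c d hz h1
      refine hvinj ?_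
      rw [hvmul, hvmul, hz, hxv]
      refine refl_comm κ c v d 2 h1 ?_
      have h2 := congrArg κ h1
      rw [map_sum, map_zero] at h2
      rw [← h2]
      exact Finset.sum_congr rfl fun k _ => by rw [map_mul, hκκ, mul_comm]
    suffices hmain : ∃ y z : ↥(Cfsg.SU 3 F q), y ≠ 1 ∧ y * y = 1 ∧ z ≠ 1 ∧ z * z = 1 ∧ Commute s y ∧ Commute y z ∧ Commute z x' by
      obtain ⟨y, z, h1, h2, h3, h4, h5, h6, h7⟩ := hmain
      let e' := MulAut.conj h
      have het' : e' t = s := hh
      have hback : ∀ {a b : ↥(Cfsg.SU 3 F q)}, Commute a b → Commute (e'.symm a) (e'.symm b) := fun hab => hab.map e'.symm.toMonoidHom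
      refine ⟨e'.symm y, e'.symm z, fun e'' => h1 (by simpa using congrArg e' e''), by rw [← map_mul, h2, map_one],
        fun e'' => h3 (by simpa using congrArg e' e''), by rw [← map_mul, h4, map_one], ?_, hback h6, ?_⟩
      · have := hback h5
        rwa [← het', MulEquiv.symm_apply_apply] at this
      · have := hback h7
        rwa [show x' = e' x from hx', MulEquiv.symm_apply_apply] at this
    have hsum : κ (v 0) * v 0 + κ (v 1) * v 1 + κ (v 2) * v 2 = 1 := by simpa [Fin.sum_univ_three] using hvN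
    by_cases h1 : κ (v 1) * v 1 = 1
    · by_cases h2 : κ (v 2) * v 2 = 1
      · have hc : ∑ k, κ ((![0, -κ (v 2), κ (v 1)] : Fin 3 → F) k) * (![0, -κ (v 2), κ (v 1)] : Fin 3 → F) k ≠ 0 := by
          have : ∑ k, κ ((![0, -κ (v 2), κ (v 1)] : Fin 3 → F) k) * (![0, -κ (v 2), κ (v 1)] : Fin 3 → F) k = 2 := by
            simp [Fin.sum_univ_three, hκκ]
            linear_combination h1 + h2
          rw [this]; exact hF2
        obtain ⟨y, hy, hy1, hy2⟩ := mkz _ hc
        exact ⟨y, x', hy1, hy2, fun e' => hx (conj_eq_one_iff.1 (hx'.symm.trans e')), by rw [hx', ← sq, conj_pow, sq, hxx, mul_one, mul_inv_cancel],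
          hcs y _ _ hy rfl, hcx y _ _ hy (by simp [Fin.sum_univ_three, hκκ]; ring), Commute.refl _⟩
      · obtain ⟨y, hy, hy1, hy2⟩ := mkz ![0, 0, 1] (by simp [Fin.sum_univ_three])
        obtain ⟨z, hz, hz1, hz2⟩ := mkz ![-κ (v 1), κ (v 0), 0] (by
          simp [Fin.sum_univ_three, hκκ]
          intro e'
          exact h2 (by linear_combination hsum - e'))
        refine ⟨y, z, hy1, hy2, hz1, hz2, hcs y _ _ hy rfl, hvinj ?_, hcx z _ _ hz (by simp [Fin.sum_univ_three, hκκ]; ring)⟩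
        rw [hvmul, hvmul, hy, hz]
        exact refl_comm κ _ _ _ _ (by simp [Fin.sum_univ_three]) (by simp [Fin.sum_univ_three])
    · obtain ⟨y, hy, hy1, hy2⟩ := mkz ![0, 1, 0] (by simp [Fin.sum_univ_three])
      obtain ⟨z, hz, hz1, hz2⟩ := mkz ![-κ (v 2), 0, κ (v 0)] (by
        simp [Fin.sum_univ_three, hκκ]
        intro e'
        exact h1 (by linear_combination hsum - e'))
      refine ⟨y, z, hy1, hy2, hz1, hz2, hcs y _ _ hy rfl, hvinj ?_, hcx z _ _ hz (by simp [Fin.sum_univ_three, hκκ]; ring)⟩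
      rw [hvmul, hvmul, hy, hz]
      exact refl_comm κ _ _ _ _ (by simp [Fin.sum_univ_three]) (by simp [Fin.sum_univ_three])

end Cfsg.Agent.S2356
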