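import Cfsg.Statements.S2455
import Cfsg.Agent.Lib.SL2Cover.Square

set_option autoImplicit false
open Cfsg

namespace Cfsg.Agent.S2455

/-- A strong covering result in the direction of Thompson's conjecture (non-identity elements) for PSL(2,q), q odd: let F be a finite field of odd characteristic p with at least 5 elements and let x ∈ PSL(2,F) have order greater than 2 and not divisible by p (so x is not unipotent). Then every non-identity element of PSL(2,F) is a product of two conjugates of x. -/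
theorem result {F : Type*} [Field F] [Fintype F] (p : ℕ) [Fact p.Prime] [CharP F p] (hp : p ≠ 2) (h5 : 5 ≤ Fintype.card F)
    (x : Matrix.ProjectiveSpecialLinearGroup (Fin 2) F) (hx2 : 2 < orderOf x) (hxp : ¬ p ∣ orderOf x) : ∀ g : Matrix.ProjectiveSpecialLinearGroup (Fin 2) F, g ≠ 1 → ∃ u v : Matrix.ProjectiveSpecialLinearGroup (Fin 2) F, g = (u * x * u⁻¹) * (v * x * v⁻¹) := by
  classical
  obtain ⟨h, rfl⟩ := CfsgLib.PSL2Klein.π_surj x
  have hring : ringChar F ≠ 2 := by rw [ringChar.eq F p]; exact hp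
  have h2 : (2 : F) ≠ 0 := Ring.two_ne_zero hring
  intro g hg
  obtain ⟨g, rfl⟩ := CfsgLib.PSL2Klein.π_surj g
  have hns : ¬ ∃ c : F, (h : Matrix (Fin 2) (Fin 2) F) = c • (1 : Matrix (Fin 2) (Fin 2) F) := fun hh => by
    rw [CfsgLib.SL2Torus.mk_scalar hh, orderOf_one] at hx2
    omega
  have ha : CfsgLib.SL2Torus.tr h ^ 2 ≠ 4 := fun h4 => by
    obtain ⟨y, b, hb, hy⟩ := CfsgLib.SL2Torus.π_u_of_unip hns h4
    have h1 : (y⁻¹ * CfsgLib.PSL2Klein.π h * y) ^ p = 1 := by rw [hy]; exact CfsgLib.SL2Torus.π_u_pow_char p b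
    rw [show y⁻¹ * CfsgLib.PSL2Klein.π h * y = y⁻¹ * CfsgLib.PSL2Klein.π h * (y⁻¹)⁻¹ by rw [inv_inv], conj_pow,
      conj_eq_one_iff] at h1
    rcases (Nat.dvd_prime (Fact.out : p.Prime)).mp (orderOf_dvd_of_pow_eq_one h1) with h3 | h3
    · omega
    · exact hxp (dvd_of_eq h3.symm)
  have ha0 : CfsgLib.SL2Torus.tr h ≠ 0 := fun h0 => by
    have h1 : h * h = -1 := Subtype.ext (by
      rw [Matrix.SpecialLinearGroup.coe_mul, CfsgLib.SL2Torus.sq_eq, h0, zero_smul, zero_sub]
      simp)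
    have h3 : (CfsgLib.PSL2Klein.π h) ^ 2 = 1 := by
      rw [← map_pow, sq, h1, CfsgLib.PSL2Klein.π_eq_one]
      exact Or.inr rfl
    have := Nat.le_of_dvd two_pos (orderOf_dvd_of_pow_eq_one h3)
    omega
  exact CfsgLib.SL2Cover.cover_odd h2 ha0 ha hg

end Cfsg.Agent.S2455
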