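import Cfsg.Statements.S2456
import Cfsg.Agent.Lib.SL2Cover.Square

set_option autoImplicit false
open Cfsg

namespace Cfsg.Agent.S2456

/-- A strong covering result in the direction of Thompson's conjecture (non-identity elements) for PSL(2,q), q even: let F be a finite field of characteristic 2 with q ≥ 4 elements and let x ∈ PSL(2,F) have order greater than 2 and not dividing q + 1. Then every non-identity element of PSL(2,F) is a product of two conjugates of x. -/
theorem result {F : Type*} [Field F] [Fintype F] [CharP F 2] (h4 : 4 ≤ Fintype.card F)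
    (x : Matrix.ProjectiveSpecialLinearGroup (Fin 2) F) (hx2 : 2 < orderOf x) (hxq : ¬ orderOf x ∣ Fintype.card F + 1) : ∀ g : Matrix.ProjectiveSpecialLinearGroup (Fin 2) F, g ≠ 1 → ∃ u v : Matrix.ProjectiveSpecialLinearGroup (Fin 2) F, g = (u * x * u⁻¹) * (v * x * v⁻¹) := by
  classical
  obtain ⟨h, rfl⟩ := CfsgLib.PSL2Klein.π_surj x
  have h2 : (2 : F) = 0 := CharTwo.two_eq_zero
  intro g hg
  obtain ⟨g, rfl⟩ := CfsgLib.PSL2Klein.π_surj g
  have hns : ¬ ∃ c : F, (h : Matrix (Fin 2) (Fin 2) F) = c • (1 : Matrix (Fin 2) (Fin 2) F) := fun hh => by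
    rw [CfsgLib.SL2Torus.mk_scalar hh, orderOf_one] at hx2
    omega
  haveI : Fact (Nat.Prime 2) := ⟨Nat.prime_two⟩
  have ha : CfsgLib.SL2Torus.tr h ^ 2 ≠ 4 := fun h4 => by
    obtain ⟨y, b, hb, hy⟩ := CfsgLib.SL2Torus.π_u_of_unip hns h4
    have h1 : (y⁻¹ * CfsgLib.PSL2Klein.π h * y) ^ 2 = 1 := by rw [hy]; exact CfsgLib.SL2Torus.π_u_pow_char 2 b
    rw [show y⁻¹ * CfsgLib.PSL2Klein.π h * y = y⁻¹ * CfsgLib.PSL2Klein.π h * (y⁻¹)⁻¹ by rw [inv_inv], conj_pow,
      conj_eq_one_iff] at h1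
    have := Nat.le_of_dvd two_pos (orderOf_dvd_of_pow_eq_one h1)
    omega
  have hs : CfsgLib.SL2Torus.Split (CfsgLib.SL2Torus.tr h) := by
    by_contra hs
    apply hxq
    have h1 := pow_card_eq_one' (x := (⟨h, CfsgLib.SL2Torus.self_mem_cent h⟩ : CfsgLib.SL2Torus.cent h))
    rw [CfsgLib.SL2Torus.card_cent_elliptic ha hs] at h1
    refine orderOf_dvd_of_pow_eq_one ?_
    rw [← map_pow, show h ^ (Fintype.card F + 1) = 1 from congrArg Subtype.val h1, map_one]
  exact CfsgLib.SL2Cover.cover_even h2 ha hs hg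

end Cfsg.Agent.S2456
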