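import Cfsg.Statements.S2466
import Mathlib.GroupTheory.Perm.Cycle.Type
import Mathlib.GroupTheory.SpecificGroups.Alternating
import Mathlib.GroupTheory.Perm.Cycle.PossibleTypes
import Mathlib.Tactic.Linarith

set_option autoImplicit false
open Cfsg

namespace Cfsg.Agent.S2466

/-- Adjacency of odd primes in the prime graph of the alternating groups: let r ≠ s be odd primes at most n. The alternating group of degree n has an element of order r·s if and only if r + s ≤ n. -/
theorem result (n r s : ℕ) (hr : r.Prime) (hs : s.Prime) (hr2 : r ≠ 2) (hs2 : s ≠ 2) (hrs : r ≠ s) (hrn : r ≤ n) (hsn : s ≤ n) :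
    (r * s ∈ Set.range (orderOf : alternatingGroup (Fin n) → ℕ)) ↔ r + s ≤ n := by
  classical
  constructor
  · rintro ⟨g, hg⟩
    set T := (g : Equiv.Perm (Fin n)).cycleType with hT
    have hlcm : T.lcm = r * s := by
      rw [hT, Equiv.Perm.lcm_cycleType, Subgroup.orderOf_coe, hg]
    have hsum : T.sum ≤ n := by
      rw [hT, Equiv.Perm.sum_cycleType]
      exact (Finset.card_le_univ _).trans (le_of_eq (Fintype.card_fin n))
    have hfind : ∀ t : ℕ, t.Prime → t ∣ T.lcm → ∀ U : Multiset ℕ, U = T → ∃ a ∈ U, t ∣ a := by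
      intro t ht htd U hU
      subst hU
      clear hsum hlcm hT
      revert htd
      induction T using Multiset.induction_on with
      | empty => intro h; simp at h; exact absurd h ht.ne_one
      | cons a U ih =>
        intro h
        rw [Multiset.lcm_cons] at h
        rcases ht.dvd_or_dvd (h.trans (Nat.lcm_dvd_mul _ _)) with h1 | h1
        · exact ⟨a, Multiset.mem_cons_self _ _, h1⟩
        · obtain ⟨b, hb, hbd⟩ := ih h1
          exact ⟨b, Multiset.mem_cons_of_mem hb, hbd⟩
    obtain ⟨a, ha, hra⟩ := hfind r hr (hlcm ▸ dvd_mul_right r s) T rfl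
    obtain ⟨b, hb, hsb⟩ := hfind s hs (hlcm ▸ dvd_mul_left s r) T rfl
    have hpos : ∀ x ∈ T, 0 < x := fun x hx =>
      lt_of_lt_of_le two_pos (Equiv.Perm.two_le_of_mem_cycleType hx)
    by_cases hab : a = b
    · subst hab
      have h1 : r * s ≤ a := Nat.le_of_dvd (hpos a ha)
        (((Nat.coprime_primes hr hs).mpr hrs).mul_dvd_of_dvd_of_dvd hra hsb)
      have h2 : a ≤ T.sum := Multiset.le_sum_of_mem ha
      have := hr.two_le
      have := hs.two_le
      nlinarith
    · obtain ⟨U, hU⟩ := Multiset.exists_cons_of_mem ha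
      have hbU : b ∈ U := by
        rw [hU] at hb
        exact (Multiset.mem_cons.mp hb).resolve_left (Ne.symm hab)
      have h3 : b ≤ U.sum := Multiset.le_sum_of_mem hbU
      have h4 := Nat.le_of_dvd (hpos a ha) hra
      have h5 := Nat.le_of_dvd (hpos b hb) hsb
      rw [hU, Multiset.sum_cons] at hsum
      omega
  · intro hle
    obtain ⟨g, hg⟩ := (Equiv.Perm.exists_with_cycleType_iff (α := Fin n) (m := {r, s})).mpr
      ⟨by simpa using hle, by simp [hr.two_le, hs.two_le]⟩
    have hsign : g ∈ alternatingGroup (Fin n) := by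
      rw [Equiv.Perm.mem_alternatingGroup, Equiv.Perm.sign_of_cycleType, hg]
      refine (neg_one_pow_eq_one_iff_even (by decide)).mpr ?_
      have := Nat.odd_iff.mp (hr.odd_of_ne_two hr2)
      have := Nat.odd_iff.mp (hs.odd_of_ne_two hs2)
      simp [Nat.even_iff]
      omega
    refine ⟨⟨g, hsign⟩, ?_⟩
    rw [← Subgroup.orderOf_coe]
    show orderOf g = _
    rw [← Equiv.Perm.lcm_cycleType, hg]
    simp only [Multiset.insert_eq_cons, Multiset.lcm_cons, Multiset.lcm_singleton, normalize_eq]
    exact Nat.Coprime.lcm_eq_mul ((Nat.coprime_primes hr hs).mpr hrs)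

end Cfsg.Agent.S2466
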