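import Cfsg.Statements.S2467
import Mathlib.GroupTheory.Perm.Cycle.Type
import Mathlib.GroupTheory.SpecificGroups.Alternating
import Mathlib.GroupTheory.Perm.Cycle.PossibleTypes
import Mathlib.Tactic.Linarith

set_option autoImplicit false
open Cfsg

namespace Cfsg.Agent.S2467

/-- Adjacency of 2 and an odd prime in the prime graph of the alternating groups: let r be an odd prime at most n, with n ≥ 4. The alternating group of degree n has an element of order 2r if and only if r + 4 ≤ n. -/
theorem result (n r : ℕ) (hn : 4 ≤ n) (hr : r.Prime) (hr2 : r ≠ 2) (hrn : r ≤ n) :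
    (2 * r ∈ Set.range (orderOf : alternatingGroup (Fin n) → ℕ)) ↔ r + 4 ≤ n := by
  classical
  constructor
  · rintro ⟨g, hg⟩
    set T := (g : Equiv.Perm (Fin n)).cycleType with hT
    have hlcm : T.lcm = 2 * r := by
      rw [hT, Equiv.Perm.lcm_cycleType, Subgroup.orderOf_coe, hg]
    have hsum : T.sum ≤ n := by
      rw [hT, Equiv.Perm.sum_cycleType]
      exact (Finset.card_le_univ _).trans (le_of_eq (Fintype.card_fin n))
    have hfind : ∀ t : ℕ, t.Prime → ∀ U : Multiset ℕ, t ∣ U.lcm → ∃ a ∈ U, t ∣ a := by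
      intro t ht U
      induction U using Multiset.induction_on with
      | empty => intro h; simp at h; exact absurd h ht.ne_one
      | cons a U ih =>
        intro h
        rw [Multiset.lcm_cons] at h
        rcases ht.dvd_or_dvd (h.trans (Nat.lcm_dvd_mul _ _)) with h1 | h1
        · exact ⟨a, Multiset.mem_cons_self _ _, h1⟩
        · obtain ⟨b, hb, hbd⟩ := ih h1
          exact ⟨b, Multiset.mem_cons_of_mem hb, hbd⟩
    have hsign : Even (T.sum + Multiset.card T) := by
      have h := Equiv.Perm.mem_alternatingGroup.mp g.2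
      rw [Equiv.Perm.sign_of_cycleType, ← hT] at h
      exact neg_one_pow_eq_one_iff_even (by decide) |>.mp h
    have hpos : ∀ x ∈ T, 2 ≤ x := fun x hx => Equiv.Perm.two_le_of_mem_cycleType hx
    obtain ⟨a, ha, hra⟩ := hfind r hr T (hlcm ▸ dvd_mul_left r 2)
    obtain ⟨b, hb, h2b⟩ := hfind 2 Nat.prime_two T (hlcm ▸ dvd_mul_right 2 r)
    have hevens : ∃ b, b ∈ T ∧ 2 ∣ b ∧ ∃ c ∈ T.erase b, 2 ∣ c := by
      refine ⟨b, hb, h2b, ?_⟩
      by_contra hcon
      simp only [not_exists, not_and] at hcon
      obtain ⟨U, hU⟩ := Multiset.exists_cons_of_mem hb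
      rw [hU, Multiset.erase_cons_head] at hcon
      have hUeven : Even (U.sum + Multiset.card U) := by
        clear hU
        induction U using Multiset.induction_on with
        | empty => simp
        | cons x U ih =>
          have hx : ¬ 2 ∣ x := hcon x (Multiset.mem_cons_self _ _)
          have h := ih (fun y hy => hcon y (Multiset.mem_cons_of_mem hy))
          rw [Multiset.sum_cons, Multiset.card_cons]
          rw [Nat.even_iff] at h ⊢
          omega
      rw [hU, Multiset.sum_cons, Multiset.card_cons] at hsign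
      rw [Nat.even_iff] at hsign hUeven
      omega
    have hr3 : 3 ≤ r := by
      have := hr.two_le
      omega
    have hale : r ≤ a := Nat.le_of_dvd (lt_of_lt_of_le two_pos (hpos a ha)) hra
    obtain ⟨b, hb, h2b, c, hc, h2c⟩ := hevens
    obtain ⟨U, hU⟩ := Multiset.exists_cons_of_mem hb
    rw [hU, Multiset.erase_cons_head] at hc
    obtain ⟨V, hV⟩ := Multiset.exists_cons_of_mem hc
    have hb2 := hpos b hb
    have hc2 := hpos c (hU ▸ Multiset.mem_cons_of_mem hc)
    rw [hU, hV, Multiset.sum_cons, Multiset.sum_cons] at hsum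
    have hbig : ∀ x, r ∣ x → 2 ∣ x → 0 < x → 2 * r ≤ x := fun x h1 h2' h3 =>
      Nat.le_of_dvd h3
        (((Nat.coprime_primes Nat.prime_two hr).mpr (Ne.symm hr2)).mul_dvd_of_dvd_of_dvd h2' h1)
    rw [hU, hV, Multiset.mem_cons, Multiset.mem_cons] at ha
    rcases ha with rfl | rfl | ha
    · have := hbig a hra h2b (by omega)
      omega
    · have := hbig a hra h2c (by omega)
      omega
    · have : a ≤ V.sum := Multiset.le_sum_of_mem ha
      omega
  · intro hle
    obtain ⟨g, hg⟩ := (Equiv.Perm.exists_with_cycleType_iff (α := Fin n) (m := {r, 2, 2})).mpr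
      ⟨by simp; omega, by simp [hr.two_le]⟩
    have hsign : g ∈ alternatingGroup (Fin n) := by
      rw [Equiv.Perm.mem_alternatingGroup, Equiv.Perm.sign_of_cycleType, hg]
      have hrodd := Nat.odd_iff.mp (hr.odd_of_ne_two hr2)
      refine (neg_one_pow_eq_one_iff_even (by decide)).mpr ?_
      simp [Nat.even_iff]
      omega
    refine ⟨⟨g, hsign⟩, ?_⟩
    rw [← Subgroup.orderOf_coe]
    show orderOf g = _
    rw [← Equiv.Perm.lcm_cycleType, hg]
    have hcop : Nat.Coprime r 2 := (Nat.coprime_primes hr Nat.prime_two).mpr hr2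
    simp [mul_comm 2 r]
    exact hcop.lcm_eq_mul

end Cfsg.Agent.S2467
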