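import Cfsg.Statements.S2471
import Cfsg.Agent.Lib.SL2Classes.Unipotent
import Mathlib.FieldTheory.Finite.Basic
import Mathlib.LinearAlgebra.Matrix.SpecialLinearGroup

set_option autoImplicit false
open Cfsg

namespace Cfsg.Agent.S2471

/-- In PSL(2,q) with q odd, the characteristic p is isolated from 2 in the prime graph: for F a finite field of odd characteristic p with at least 5 elements, PSL(2,F) has no element of order 2p. -/
theorem result {F : Type*} [Field F] [Fintype F] (p : ℕ) [Fact p.Prime] [CharP F p] (hp : p ≠ 2) (h5 : 5 ≤ Fintype.card F) (g : Matrix.ProjectiveSpecialLinearGroup (Fin 2) F) :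
    orderOf g ≠ 2 * p := by
  classical
  have hp' : p.Prime := Fact.out
  have hodd : Odd p := hp'.odd_of_ne_two hp
  have h2 : (2 : F) ≠ 0 := Ring.two_ne_zero (by rw [ringChar.eq F p]; exact hp)
  intro hg
  set π := QuotientGroup.mk' (Subgroup.center (Matrix.SpecialLinearGroup (Fin 2) F)) with hπ
  have hcen : ∀ A : Matrix.SpecialLinearGroup (Fin 2) F, π A = 1 → A = 1 ∨ A = -1 := by
    intro A hA
    have hA' : A ∈ Subgroup.center (Matrix.SpecialLinearGroup (Fin 2) F) :=
      (QuotientGroup.eq_one_iff A).mp hA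
    obtain ⟨r, hr, hrA⟩ := Matrix.SpecialLinearGroup.mem_center_iff.mp hA'
    rw [Fintype.card_fin, sq_eq_one_iff] at hr
    rcases hr with rfl | rfl
    · exact Or.inl (Subtype.ext (by rw [← hrA]; simp))
    · exact Or.inr (Subtype.ext (by rw [← hrA]; ext i j; fin_cases i <;> fin_cases j <;> simp))
  have hneg : π (-1 : Matrix.SpecialLinearGroup (Fin 2) F) = 1 := by
    rw [hπ]
    refine (QuotientGroup.eq_one_iff _).mpr (Subgroup.mem_center_iff.mpr fun A => ?_)
    apply Subtype.ext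
    simp
  obtain ⟨G, rfl⟩ := QuotientGroup.mk'_surjective _ g
  have hGp : (π (G ^ 2)) ^ p = 1 := by
    rw [map_pow, ← pow_mul, ← hg]
    exact pow_orderOf_eq_one _
  obtain ⟨X, hXπ, hX⟩ : ∃ X : Matrix.SpecialLinearGroup (Fin 2) F, π X = π (G ^ 2) ∧ X ^ p = 1 := by
    rcases hcen _ (by rw [map_pow]; exact hGp : π ((G ^ 2) ^ p) = 1) with h | h
    · exact ⟨_, rfl, h⟩
    · refine ⟨-(G ^ 2), by rw [← neg_one_mul, map_mul, hneg, one_mul], ?_⟩
      rw [hodd.neg_pow, h, neg_neg]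
  have hX1 : X ≠ 1 := by
    intro h1
    have h := orderOf_dvd_iff_pow_eq_one.mpr (show (π G) ^ 2 = 1 by rw [← map_pow, ← hXπ, h1, map_one])
    rw [hg] at h
    have := Nat.le_of_dvd two_pos h
    have := hp'.two_le
    omega
  have hXo : orderOf X = p := orderOf_eq_prime hX hX1
  set Y := G ^ p with hY
  have hY2 : π Y * π Y = 1 := by
    rw [hY, map_pow, ← pow_two, ← pow_mul, mul_comm p 2, ← hg]
    exact pow_orderOf_eq_one _
  have hcomm : Y * X = X * Y := by
    have h1 : π (Y * X * Y⁻¹ * X⁻¹) = 1 := by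
      rw [map_mul, map_mul, map_mul, map_inv, map_inv, hXπ, hY, map_pow, map_pow]
      have h := (Commute.pow_pow_self (π G) p 2).eq
      rw [h, mul_inv_cancel_right, mul_inv_cancel]
    rcases hcen _ h1 with h | h
    · rwa [mul_inv_eq_one, mul_inv_eq_iff_eq_mul] at h
    · exfalso
      rw [mul_inv_eq_iff_eq_mul, neg_one_mul] at h
      have h' := congrArg (· ^ p) h
      simp only [conj_pow, hX, hodd.neg_pow, mul_one, mul_inv_cancel] at h'
      have h00 := congrFun (congrFun (congrArg Subtype.val h') 0) 0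
      simp at h00
      exact h2 (by linear_combination h00)
  obtain ⟨d, hd, hP⟩ := CfsgLib.SL2Classes.exists_sl_normal_form p hXo
  obtain ⟨P, hdet, hXP⟩ := hP 1 one_ne_zero
  have hPu : IsUnit P.det := isUnit_iff_ne_zero.mpr (by rw [hdet, one_pow, one_mul]; exact hd)
  set Z : Matrix (Fin 2) (Fin 2) F := P⁻¹ * (Y : Matrix (Fin 2) (Fin 2) F) * P with hZ
  have hPP : P * P⁻¹ = 1 := Matrix.mul_nonsing_inv P hPu
  have hPP' : P⁻¹ * P = 1 := Matrix.nonsing_inv_mul P hPu
  have hPcan : ∀ M : Matrix (Fin 2) (Fin 2) F, P⁻¹ * (P * M) = M := fun M => by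
    rw [← mul_assoc, hPP', one_mul]
  have hPcan' : ∀ M : Matrix (Fin 2) (Fin 2) F, P * (P⁻¹ * M) = M := fun M => by
    rw [← mul_assoc, hPP, one_mul]
  have hJ : (!![1, 1; 0, 1] : Matrix (Fin 2) (Fin 2) F) = P⁻¹ * (X : Matrix (Fin 2) (Fin 2) F) * P := by
    rw [mul_assoc, hXP, hPcan]
  have hYX : (Y : Matrix (Fin 2) (Fin 2) F) * (X : Matrix (Fin 2) (Fin 2) F) =
      (X : Matrix (Fin 2) (Fin 2) F) * (Y : Matrix (Fin 2) (Fin 2) F) := congrArg Subtype.val hcomm
  have hZJ : Z * !![1, 1; 0, 1] = !![1, 1; 0, 1] * Z := by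
    rw [hJ, hZ]
    simp only [mul_assoc, hPcan']
    rw [← mul_assoc (Y : Matrix (Fin 2) (Fin 2) F), hYX, mul_assoc]
  have e00 := congrFun (congrFun hZJ 0) 0
  have e01 := congrFun (congrFun hZJ 0) 1
  simp [Matrix.mul_apply, Fin.sum_univ_two] at e00 e01
  have hZ2 : Z * Z = 1 ∨ Z * Z = -1 := by
    have hzz : Z * Z = P⁻¹ * ((Y * Y : Matrix.SpecialLinearGroup (Fin 2) F) : Matrix (Fin 2) (Fin 2) F) * P := by
      rw [hZ, Matrix.SpecialLinearGroup.coe_mul]
      simp only [mul_assoc, hPcan']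
    rcases hcen (Y * Y) (by rw [map_mul, hY2]) with h | h
    · left
      rw [hzz, h, Matrix.SpecialLinearGroup.coe_one, mul_one, hPP']
    · right
      rw [hzz, h, Matrix.SpecialLinearGroup.coe_neg, Matrix.SpecialLinearGroup.coe_one, mul_neg,
        mul_one, neg_mul, hPP']
  have hdetZ : Z.det = 1 := by
    rw [hZ, Matrix.det_mul, Matrix.det_mul, Y.2, mul_one, ← Matrix.det_mul, hPP', Matrix.det_one]
  rw [Matrix.det_fin_two] at hdetZ
  have e2 : 2 * (Z 0 0 * Z 0 1) = 0 := by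
    rcases hZ2 with h | h <;> have e := congrFun (congrFun h 0) 1 <;>
      simp [Matrix.mul_apply, Fin.sum_univ_two] at e <;> linear_combination e + Z 0 1 * e01
  have ha : Z 0 0 ≠ 0 := fun h0 => by
    rw [h0, e00] at hdetZ
    simp at hdetZ
  have hb : Z 0 1 = 0 := (mul_eq_zero.mp ((mul_eq_zero.mp e2).resolve_left h2)).resolve_left ha
  have hscal : Z = Z 0 0 • (1 : Matrix (Fin 2) (Fin 2) F) := by
    ext i j
    fin_cases i <;> fin_cases j <;> simp [hb, e00]
    linear_combination -e01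
  have hYs : (Y : Matrix (Fin 2) (Fin 2) F) = Z 0 0 • (1 : Matrix (Fin 2) (Fin 2) F) := by
    calc (Y : Matrix (Fin 2) (Fin 2) F) = P * Z * P⁻¹ := by
          rw [hZ]; simp only [mul_assoc, hPP, mul_one, hPcan']
      _ = P * (Z 0 0 • (1 : Matrix (Fin 2) (Fin 2) F)) * P⁻¹ := by rw [← hscal]
      _ = _ := by rw [Matrix.mul_smul, mul_one, Matrix.smul_mul, hPP]
  have hYc : π Y = 1 := by
    rw [hπ]
    refine (QuotientGroup.eq_one_iff _).mpr (Subgroup.mem_center_iff.mpr fun A => ?_)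
    apply Subtype.ext
    simp [hYs]
  have h := orderOf_dvd_iff_pow_eq_one.mpr (show (π G) ^ p = 1 by rw [← map_pow]; exact hYc)
  rw [hg] at h
  have := Nat.le_of_dvd hp'.pos h
  have := hp'.pos
  omega

end Cfsg.Agent.S2471
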