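import Cfsg.Statements.S2475
import Mathlib
import Cfsg.Agent.Lib.SL2.Elements

set_option autoImplicit false
open Cfsg

namespace Cfsg.Agent.S2475

/-- The set of element orders of PSL(2,q): let F be a finite field of characteristic p with q ≥ 4 elements and d = gcd(2, q − 1). The orders of elements of PSL(2,F) are exactly the divisors of p, of (q − 1)/d and of (q + 1)/d. -/
theorem result {F : Type*} [Field F] [Fintype F] (p : ℕ) [Fact p.Prime] [CharP F p] (h4 : 4 ≤ Fintype.card F) :
    Set.range (orderOf : Matrix.ProjectiveSpecialLinearGroup (Fin 2) F → ℕ) =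
      {m : ℕ | m ∣ p ∨ m ∣ (Fintype.card F - 1) / Nat.gcd 2 (Fintype.card F - 1) ∨ m ∣ (Fintype.card F + 1) / Nat.gcd 2 (Fintype.card F - 1)} := by
  open CfsgLib.SL2Torus CfsgLib.PSL2Klein in
  ext m
  rw [Set.mem_range, Set.mem_ofPred_eq]
  constructor
  · rintro ⟨x, rfl⟩
    rcases trichotomy x with h | ⟨g, rfl, hg⟩ | ⟨g, rfl, hs, ht⟩
    · rw [h, orderOf_one]; exact Or.inl (one_dvd p)
    · right
      have h1 := orderOf_dvd_of_pow_eq_one (pow_π_semisimple g)
      rcases card_cent hg with h | h <;> rw [h] at h1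
      · exact Or.inl h1
      · exact Or.inr h1
    · left
      obtain ⟨y, b, -, h⟩ := π_u_of_unip hs ht
      have : orderOf (y⁻¹ * π g * y) = orderOf (π g) := by
        have e := MulEquiv.orderOf_eq (MulAut.conj y⁻¹) (π g)
        rwa [MulAut.conj_apply, inv_inv] at e
      rw [← this, h]
      exact orderOf_dvd_of_pow_eq_one (π_u_pow_char p b)
  · rintro (h | h | h)
    · rcases (Nat.dvd_prime Fact.out).1 h with rfl | rfl
      · exact ⟨1, orderOf_one⟩
      · refine ⟨π (u 1), orderOf_eq_prime (π_u_pow_char _ 1) fun h1 => ?_⟩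
        exact u_not_scalar (one_ne_zero (α := F)) (by
          rcases (π_eq_one _).1 h1 with e | e
          · exact ⟨1, by rw [e]; simp⟩
          · exact ⟨-1, by rw [e]; simp⟩)
    · obtain ⟨t, ht, hs⟩ := exists_split h4
      exact exists_orderOf_π (g := comp t) (by rw [tr_comp]; exact ht) (by
        rw [card_cent_split (by rw [tr_comp]; exact ht) (by rw [tr_comp]; exact hs)]; exact h)
    · obtain ⟨t, ht, hs⟩ := exists_elliptic (F := F)
      exact exists_orderOf_π (g := comp t) (by rw [tr_comp]; exact ht) (by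
        rw [card_cent_elliptic (by rw [tr_comp]; exact ht) (by rw [tr_comp]; exact hs)]; exact h)

end Cfsg.Agent.S2475
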