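import Cfsg.Statements.S2503
import Cfsg.Agent.Lib.SL2Borel.DegreeSet
import Cfsg.Agent.Lib.SL2.Trace

set_option autoImplicit false
open Cfsg

set_option maxHeartbeats 1000000

namespace Cfsg.Agent.S2503

/-- Let F be a finite field with q = 2^t ≥ 4 elements and L = PSL(2,F). Then L has a cyclic subgroup A of order q + 1 and an elementary abelian 2-subgroup B of order q such that L = ABA: every element of L is a product a·b·a' with a, a' ∈ A and b ∈ B. -/
theorem result {F : Type*} [Field F] [Fintype F]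
    (h2 : 2 ∣ Fintype.card F) (h4 : 4 ≤ Fintype.card F) :
    ∃ A B : Subgroup (Matrix.ProjectiveSpecialLinearGroup (Fin 2) F),
      IsCyclic A ∧ Nat.card A = Fintype.card F + 1 ∧ IsMulCommutative B ∧ (∀ b ∈ B, b * b = 1) ∧
        Nat.card B = Fintype.card F ∧
        ∀ g : Matrix.ProjectiveSpecialLinearGroup (Fin 2) F, ∃ a ∈ A, ∃ b ∈ B, ∃ c ∈ A, g = a * b * c := by
  classical
  open CfsgLib.SL2Torus CfsgLib.SL2Borel in
  haveI : Fintype (Matrix.SpecialLinearGroup (Fin 2) F) := Fintype.ofFinite _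
  have heven : Even (Fintype.card F) := even_iff_two_dvd.2 h2
  have h20 : (2 : F) = 0 := by
    haveI := ringChar.of_eq (FiniteField.even_card_iff_char_two.2 (Nat.even_iff.1 heven))
    exact CharTwo.two_eq_zero
  obtain ⟨t, ht4, hts⟩ := CfsgLib.SL2Torus.exists_elliptic (F := F)
  set a₀ : Matrix.SpecialLinearGroup (Fin 2) F := CfsgLib.SL2Torus.comp t with ha₀
  have hta : CfsgLib.SL2Torus.tr a₀ = t := CfsgLib.SL2Torus.tr_comp t
  have hg4 : CfsgLib.SL2Torus.tr a₀ ^ 2 ≠ 4 := by rw [hta]; exact ht4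
  set A := CfsgLib.SL2Torus.cent a₀ with hA
  have hAcard : Nat.card A = Fintype.card F + 1 := CfsgLib.SL2Torus.card_cent_elliptic hg4 (by rw [hta]; exact hts)
  let π := QuotientGroup.mk' (Subgroup.center (Matrix.SpecialLinearGroup (Fin 2) F))
  have hπ : Function.Bijective π := ⟨by
    rw [← MonoidHom.ker_eq_bot_iff, QuotientGroup.ker_mk', CfsgLib.SL2Borel.center_eq_bot_of_even heven],
    QuotientGroup.mk'_surjective _⟩
  let ι : Multiplicative F →* Matrix.SpecialLinearGroup (Fin 2) F :=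
    { toFun := fun c => CfsgLib.SL2Torus.u c.toAdd
      map_one' := CfsgLib.SL2Torus.u_zero
      map_mul' := fun c d => (CfsgLib.SL2Torus.u_add c.toAdd d.toAdd).symm }
  have hι : Function.Injective ι := fun a b h => Multiplicative.toAdd.injective (CfsgLib.SL2Torus.u_injective h)
  -- the double coset invariant
  let k : Matrix.SpecialLinearGroup (Fin 2) F → F := fun g => CfsgLib.SL2Torus.tr (a₀ * (g * a₀ * g⁻¹))
  have hk : ∀ a ∈ A, ∀ c ∈ A, ∀ g, k (a * g * c) = k g := by
    intro a ha c hc g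
    have hac : a₀ * a = a * a₀ := CfsgLib.SL2Torus.mem_cent.1 ha
    have hcc : c * a₀ * c⁻¹ = a₀ := by rw [← CfsgLib.SL2Torus.mem_cent.1 hc, mul_inv_cancel_right]
    show CfsgLib.SL2Torus.tr _ = CfsgLib.SL2Torus.tr _
    rw [← CfsgLib.SL2Torus.tr_conj (a₀ * (g * a₀ * g⁻¹)) a]
    congr 1
    calc a₀ * (a * g * c * a₀ * (a * g * c)⁻¹) = a₀ * a * (g * (c * a₀ * c⁻¹) * g⁻¹) * a⁻¹ := by group
      _ = a * (a₀ * (g * a₀ * g⁻¹)) * a⁻¹ := by rw [hcc, hac]; group
  have hku : ∀ x : F, k (CfsgLib.SL2Torus.u x) = x * x + t * t := by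
    intro x
    have hinv : (CfsgLib.SL2Torus.u x)⁻¹ = CfsgLib.SL2Torus.u (-x) := inv_eq_of_mul_eq_one_right (by
      rw [CfsgLib.SL2Torus.u_add, add_neg_cancel, CfsgLib.SL2Torus.u_zero])
    show CfsgLib.SL2Torus.tr _ = _
    rw [hinv, CfsgLib.SL2Torus.tr, Matrix.SpecialLinearGroup.coe_mul, Matrix.SpecialLinearGroup.coe_mul,
      Matrix.SpecialLinearGroup.coe_mul, ha₀]
    simp [CfsgLib.SL2Torus.u, CfsgLib.SL2Torus.comp, Matrix.trace_fin_two, Matrix.mul_apply, Fin.sum_univ_two]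
    linear_combination (-1 - x * x : F) * h20
  have hksep : ∀ x y : F, k (CfsgLib.SL2Torus.u x) = k (CfsgLib.SL2Torus.u y) → x = y := by
    intro x y h
    rw [hku, hku] at h
    have : (x - y) * (x - y) = 0 := by linear_combination h + (y * y - x * y) * h20
    exact sub_eq_zero.1 (mul_self_eq_zero.1 this)
  set Af := Finset.univ.filter (fun g : Matrix.SpecialLinearGroup (Fin 2) F => g ∈ A) with hAf
  have hAfc : Af.card = Fintype.card F + 1 := by
    rw [← hAcard, Nat.card_eq_fintype_card, ← Fintype.card_coe]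
    exact Fintype.card_congr (Equiv.subtypeEquivRight fun g => by simp [Af])
  let S : F → Finset (Matrix.SpecialLinearGroup (Fin 2) F) := fun x =>
    (Af ×ˢ Af).image fun p => p.1 * CfsgLib.SL2Torus.u x * p.2
  have hmemA : ∀ {g}, g ∈ Af → g ∈ A := fun {g} h => (Finset.mem_filter.1 h).2
  have hlow : ∀ x, Fintype.card F + 1 ≤ (S x).card := fun x => by
    rw [← hAfc]
    refine Finset.card_le_card_of_injOn (fun a => a * CfsgLib.SL2Torus.u x * 1) (fun a ha => ?_) (fun a _ b _ h => ?_)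
    · exact Finset.mem_image.2 ⟨(a, 1), Finset.mem_product.2 ⟨ha, Finset.mem_filter.2 ⟨Finset.mem_univ _, one_mem A⟩⟩, rfl⟩
    · simpa using h
  have hfree : ∀ x, x ≠ 0 → x ≠ t → (S x).card = (Fintype.card F + 1) * (Fintype.card F + 1) := by
    intro x hx0 hxt
    rw [Finset.card_image_of_injOn, Finset.card_product, hAfc]
    rintro ⟨a, c⟩ hac ⟨a', c'⟩ hac' h
    simp only [Finset.coe_product, Set.mem_prod, Finset.mem_coe] at hac hac'
    simp only at h
    set b := CfsgLib.SL2Torus.u x with hb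
    by_contra hne
    set e := a'⁻¹ * a with he
    have heA : e ∈ A := mul_mem (inv_mem (hmemA hac'.1)) (hmemA hac.1)
    have hconj : b⁻¹ * e * b = c' * c⁻¹ := by
      calc b⁻¹ * e * b = b⁻¹ * a'⁻¹ * (a * b * c) * c⁻¹ := by rw [he]; group
        _ = c' * c⁻¹ := by rw [h]; group
    have he1 : e ≠ 1 := by
      intro e1
      apply hne
      have haa : a = a' := by
        have := congrArg (a' * ·) (he.symm.trans e1)
        simpa [mul_assoc] using this
      subst haa
      exact Prod.ext rfl (mul_left_cancel h)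
    have hes : ¬ ∃ z : F, (e : Matrix (Fin 2) (Fin 2) F) = z • (1 : Matrix (Fin 2) (Fin 2) F) := by
      refine CfsgLib.SL2Torus.ne_scalar' he1 fun e2 => he1 ?_
      rw [e2]
      refine Subtype.ext ?_
      rw [Matrix.SpecialLinearGroup.coe_neg, Matrix.SpecialLinearGroup.coe_one]
      ext i j
      fin_cases i <;> fin_cases j <;> simp <;> linear_combination -h20
    have hcent : CfsgLib.SL2Torus.cent e = A := CfsgLib.SL2Torus.cent_eq (CfsgLib.SL2Torus.ne_scalar hg4) heA hes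
    have he' : b⁻¹ * e * b ∈ A := by rw [hconj]; exact mul_mem (hmemA hac'.2) (inv_mem (hmemA hac.2))
    -- `b` normalises the torus
    have hba : b * a₀ * b⁻¹ ∈ A := by
      rw [← hcent, CfsgLib.SL2Torus.mem_cent]
      have h1 : a₀ * (b⁻¹ * e * b) = b⁻¹ * e * b * a₀ := CfsgLib.SL2Torus.mem_cent.1 he'
      calc e * (b * a₀ * b⁻¹) = b * (b⁻¹ * e * b * a₀) * b⁻¹ := by group
        _ = b * (a₀ * (b⁻¹ * e * b)) * b⁻¹ := by rw [h1]
        _ = b * a₀ * b⁻¹ * e := by group
    have hk' : k b = x * x + t * t := hku x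
    rcases CfsgLib.SL2Torus.eq_or_inv_of_tr hg4 hba (CfsgLib.SL2Torus.tr_conj a₀ b) with h1 | h1
    · apply hx0
      refine hksep x 0 ?_
      rw [CfsgLib.SL2Torus.u_zero]
      show CfsgLib.SL2Torus.tr (a₀ * (b * a₀ * b⁻¹)) = CfsgLib.SL2Torus.tr (a₀ * (1 * a₀ * 1⁻¹))
      rw [h1, one_mul, inv_one, mul_one]
    · apply hxt
      refine hksep x t ?_
      rw [hku t]
      show CfsgLib.SL2Torus.tr (a₀ * (b * a₀ * b⁻¹)) = _
      rw [h1, mul_inv_cancel, CfsgLib.SL2Torus.tr, Matrix.SpecialLinearGroup.coe_one, Matrix.trace_fin_two]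
      simp
      linear_combination (1 - t * t) * h20
  have hdis : Set.PairwiseDisjoint (↑(Finset.univ : Finset F)) S := by
    intro x _ y _ hxy
    refine Finset.disjoint_left.2 fun g hg hg' => hxy (hksep x y ?_)
    obtain ⟨⟨a, c⟩, hac, rfl⟩ := Finset.mem_image.1 hg
    obtain ⟨⟨a', c'⟩, hac', he⟩ := Finset.mem_image.1 hg'
    rw [Finset.mem_product] at hac hac'
    rw [← hk a (hmemA hac.1) c (hmemA hac.2) (CfsgLib.SL2Torus.u x), ← hk a' (hmemA hac'.1) c' (hmemA hac'.2) (CfsgLib.SL2Torus.u y)]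
    dsimp only at he
    rw [he]
  have ht0 : t ≠ 0 := fun h => ht4 (by rw [h]; linear_combination (-2 : F) * h20)
  set q := Fintype.card F with hq
  have hsumcard : (Finset.univ.biUnion S).card = Fintype.card (Matrix.SpecialLinearGroup (Fin 2) F) := by
    refine le_antisymm (Finset.card_le_univ _) ?_
    rw [Finset.card_biUnion hdis, ← Nat.card_eq_fintype_card (α := Matrix.SpecialLinearGroup (Fin 2) F), CfsgLib.SL2Borel.card_SL2, ← hq]
    have hsub : ({0, t} : Finset F) ⊆ Finset.univ := Finset.subset_univ _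
    rw [← Finset.sum_sdiff hsub, Finset.sum_pair ht0.symm,
      Finset.sum_congr rfl (g := fun _ => (q + 1) * (q + 1)) (fun x hx => by
        simp only [Finset.mem_sdiff, Finset.mem_insert, Finset.mem_singleton, not_or] at hx
        exact hfree x hx.2.1 hx.2.2),
      Finset.sum_const, smul_eq_mul, Finset.card_sdiff_of_subset hsub, Finset.card_pair ht0.symm, Finset.card_univ, ← hq]
    have h0 := hlow 0
    have h1 := hlow t
    obtain ⟨j, hj⟩ : ∃ j, q = j + 2 := ⟨q - 2, by omega⟩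
    rw [hj] at h0 h1 ⊢
    rw [show j + 2 - 2 = j by omega]
    have e : (j + 2) ^ 2 - 1 = (j + 1) * (j + 3) := by
      rw [show (j + 2) ^ 2 = (j + 1) * (j + 3) + 1 by ring, Nat.add_sub_cancel]
    rw [e]
    nlinarith
  have huniv := Finset.eq_univ_of_card _ hsumcard
  refine ⟨A.map π, ι.range.map π, ?_, ?_, ?_, ?_, ?_, fun g => ?_⟩
  · haveI := CfsgLib.SL2Torus.cent_isCyclic hg4
    exact isCyclic_of_surjective _ (A.equivMapOfInjective π hπ.1).surjective
  · rw [Subgroup.card_map_of_injective hπ.1, hAcard]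
  · refine ⟨⟨fun x y => ?_⟩⟩
    obtain ⟨_, ⟨a, rfl⟩, ha⟩ := x.2
    obtain ⟨_, ⟨b, rfl⟩, hb⟩ := y.2
    refine Subtype.ext ?_
    rw [Subgroup.coe_mul, Subgroup.coe_mul, ← ha, ← hb, ← map_mul, ← map_mul, ← map_mul, ← map_mul, mul_comm]
  · rintro _ ⟨_, ⟨a, rfl⟩, rfl⟩
    rw [← map_mul, ← map_mul]
    have : a * a = 1 := by
      refine Multiplicative.toAdd.injective ?_
      rw [toAdd_mul, toAdd_one, ← two_mul, h20, zero_mul]
    rw [this, map_one, map_one]
  · rw [Subgroup.card_map_of_injective hπ.1, Nat.card_congr (MonoidHom.ofInjective hι).symm.toEquiv,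
      Nat.card_eq_fintype_card, Fintype.card_multiplicative]
  · obtain ⟨g, rfl⟩ := hπ.2 g
    have hg := Finset.mem_univ g
    rw [← huniv] at hg
    obtain ⟨x, -, hx⟩ := Finset.mem_biUnion.1 hg
    obtain ⟨⟨a, c⟩, hac, he⟩ := Finset.mem_image.1 hx
    rw [Finset.mem_product] at hac
    exact ⟨π a, ⟨a, hmemA hac.1, rfl⟩, π (CfsgLib.SL2Torus.u x), ⟨_, ⟨Multiplicative.ofAdd x, rfl⟩, rfl⟩,
      π c, ⟨c, hmemA hac.2, rfl⟩, by rw [← map_mul, ← map_mul, ← he]⟩

end Cfsg.Agent.S2503
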