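import Cfsg.Statements.S2504
import Cfsg.Agent.Lib.Perm.AbelianOrder
import Mathlib

set_option autoImplicit false
open Cfsg

namespace Cfsg.Agent.S2504

open CfsgLib.Perm.AbelianOrder

/-- The largest order of an abelian subgroup of the alternating group of degree n is 3^k when n = 3k, 4·3^(k−1) when n = 3k + 1, and 16·3^(k−2) when n = 3k + 2, for every k ≥ 2 (so for all degrees n ≥ 6). -/
theorem result (k : ℕ) (hk : 2 ≤ k) :
    IsGreatest {c : ℕ | ∃ A : Subgroup (alternatingGroup (Fin (3 * k))), IsMulCommutative A ∧ Nat.card A = c} (3 ^ k) ∧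
    IsGreatest {c : ℕ | ∃ A : Subgroup (alternatingGroup (Fin (3 * k + 1))), IsMulCommutative A ∧ Nat.card A = c}
      (4 * 3 ^ (k - 1)) ∧
    IsGreatest {c : ℕ | ∃ A : Subgroup (alternatingGroup (Fin (3 * k + 2))), IsMulCommutative A ∧ Nat.card A = c}
      (16 * 3 ^ (k - 2)) := by
  obtain ⟨q, rfl⟩ : ∃ q, k = q + 2 := ⟨k - 2, by omega⟩
  refine ⟨greatest_alt (real_threes _) ?_, greatest_alt ?_ ?_, greatest_alt ?_ ?_⟩
  · rw [B_eq_of_ne (by omega), B, if_pos (by omega), show 3 * (q + 2) / 3 = q + 2 by omega]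
  · have h := (real_threes (q + 1)).add real_four
    rw [show 3 * (q + 1) + 4 = 3 * (q + 2) + 1 by omega, show 3 ^ (q + 1) * 4 = 4 * 3 ^ (q + 2 - 1) by rw [show q + 2 - 1 = q + 1 by omega]; ring] at h
    exact h
  · rw [B_eq_of_ne (by omega), B, if_neg (by omega), if_pos (by omega), if_neg (by omega),
      show (3 * (q + 2) + 1) / 3 - 1 = q + 1 by omega]
    rfl
  · have h := ((real_threes q).add real_four).add real_four
    rw [show 3 * q + 4 + 4 = 3 * (q + 2) + 2 by omega, show 3 ^ q * 4 * 4 = 16 * 3 ^ q by ring] at h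
    exact h
  · rw [C, if_pos (by omega), if_neg (by omega), if_neg (by omega), show (3 * (q + 2) + 2) / 3 - 2 = q by omega]
    rfl

end Cfsg.Agent.S2504
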