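import Cfsg.Statements.S2505
import Cfsg.Agent.Lib.Perm.AbelianOrder
import Mathlib

set_option autoImplicit false
open Cfsg

namespace Cfsg.Agent.S2505

open CfsgLib.Perm.AbelianOrder

/-- The largest order of an abelian subgroup of the symmetric group of degree n is 3^k when n = 3k, 4·3^(k−1) when n = 3k + 1, and 2·3^k when n = 3k + 2, for every k ≥ 1. -/
theorem result (k : ℕ) (hk : 1 ≤ k) :
    IsGreatest {c : ℕ | ∃ A : Subgroup (Equiv.Perm (Fin (3 * k))), IsMulCommutative A ∧ Nat.card A = c} (3 ^ k) ∧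
    IsGreatest {c : ℕ | ∃ A : Subgroup (Equiv.Perm (Fin (3 * k + 1))), IsMulCommutative A ∧ Nat.card A = c}
      (4 * 3 ^ (k - 1)) ∧
    IsGreatest {c : ℕ | ∃ A : Subgroup (Equiv.Perm (Fin (3 * k + 2))), IsMulCommutative A ∧ Nat.card A = c}
      (2 * 3 ^ k) := by
  obtain ⟨q, rfl⟩ : ∃ q, k = q + 1 := ⟨k - 1, by omega⟩
  refine ⟨greatest_perm (real_threes _).weaken ?_, greatest_perm ?_ ?_, greatest_perm ?_ ?_⟩
  · rw [B, if_pos (by omega), show 3 * (q + 1) / 3 = q + 1 by omega]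
  · have h := (real_threes q).add real_four
    rw [show 3 * q + 4 = 3 * (q + 1) + 1 by omega, show 3 ^ q * 4 = 4 * 3 ^ (q + 1 - 1) by rw [Nat.add_sub_cancel]; ring] at h
    exact h.weaken
  · rw [B, if_neg (by omega), if_pos (by omega), if_neg (by omega), show (3 * (q + 1) + 1) / 3 - 1 = q by omega]
    rfl
  · have h := (real_threes (q + 1)).weaken.add real_two
    rwa [show 3 ^ (q + 1) * 2 = 2 * 3 ^ (q + 1) by ring] at h
  · rw [B, if_neg (by omega), if_neg (by omega), show (3 * (q + 1) + 2) / 3 = q + 1 by omega]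

end Cfsg.Agent.S2505
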