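import Cfsg.Statements.S2507
import Mathlib
import Cfsg.Agent.Lib.SL2.Elements

set_option autoImplicit false
open Cfsg

namespace Cfsg.Agent.S2507

open CfsgLib.SL2Torus CfsgLib.PSL2Klein

theorem idx_of_card {G : Type*} [Group G] [Finite G] (H : Subgroup G) {a b : ℕ} (hG : Nat.card G = a * b)
    (hH : Nat.card H = b) : H.index = a := by
  have h := H.index_mul_card
  rw [hG, hH] at h
  exact Nat.eq_of_mul_eq_mul_right (hH ▸ Nat.card_pos) h

/-- Let F be a finite field with q = 2^f ≥ 4 elements. The conjugacy class sizes of PSL(2,F) are exactly 1, q(q − 1), q² − 1 and q(q + 1). -/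
theorem result {F : Type*} [Field F] [Fintype F]
    (h2 : 2 ∣ Fintype.card F) (h4 : 4 ≤ Fintype.card F) :
    Set.range (fun g : (Matrix.ProjectiveSpecialLinearGroup (Fin 2) F) => (Subgroup.centralizer ({g} : Set (Matrix.ProjectiveSpecialLinearGroup (Fin 2) F))).index) =
      {1, Fintype.card F * (Fintype.card F - 1), Fintype.card F ^ 2 - 1, Fintype.card F * (Fintype.card F + 1)} := by
  open CfsgLib.SL2Torus CfsgLib.PSL2Klein in
  set q := Fintype.card F with hq
  have h2F : (2 : F) = 0 := two_eq_of_even (Nat.mod_eq_zero_of_dvd h2)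
  have hd := gcd_eq_one_of_two h2F
  have hG : Nat.card (Matrix.ProjectiveSpecialLinearGroup (Fin 2) F) = q * (q ^ 2 - 1) := by
    rw [← card_L_eq, ← card_PL_mul, hd, one_mul]
  have hsq : q ^ 2 - 1 = (q + 1) * (q - 1) := by simpa using Nat.sq_sub_sq q 1
  ext m
  simp only [Set.mem_range, Set.mem_insert_iff, Set.mem_singleton_iff]
  constructor
  · rintro ⟨g, rfl⟩
    by_cases hg : g = 1
    · left; rw [hg]; exact Subgroup.index_eq_one.2 (eq_top_iff.2 fun x _ => Subgroup.mem_centralizer_singleton_iff.2 (by simp))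
    rcases centralizer_cases hg with h | h | h | ⟨h, -⟩
    · exact Or.inr (Or.inr (Or.inl (idx_of_card _ (hG.trans (mul_comm _ _)) h)))
    · rw [hd, one_mul] at h
      exact Or.inr (Or.inr (Or.inr (idx_of_card _ (by rw [hG, hsq]; ring) h)))
    · rw [hd, one_mul] at h
      exact Or.inr (Or.inl (idx_of_card _ (by rw [hG, hsq]; ring) h))
    · exact absurd h2F h
  · rintro (rfl | rfl | rfl | rfl)
    · exact ⟨1, Subgroup.index_eq_one.2 (eq_top_iff.2 fun x _ => Subgroup.mem_centralizer_singleton_iff.2 (by simp))⟩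
    · obtain ⟨t, ht, hs⟩ := exists_elliptic (F := F)
      refine ⟨π (comp t), idx_of_card _ (b := q + 1) (by rw [hG, hsq]; ring) ?_⟩
      have h := card_centralizer_π (g := comp t) (Or.inr h2F)
      rwa [hd, one_mul, card_cent_elliptic (by rw [tr_comp]; exact ht) (by rw [tr_comp]; exact hs)] at h
    · exact ⟨π (u 1), idx_of_card _ (b := q) (hG.trans (mul_comm _ _)) (card_centralizer_u one_ne_zero)⟩
    · obtain ⟨t, ht, hs⟩ := exists_split h4
      refine ⟨π (comp t), idx_of_card _ (b := q - 1) (by rw [hG, hsq]; ring) ?_⟩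
      have h := card_centralizer_π (g := comp t) (Or.inr h2F)
      rwa [hd, one_mul, card_cent_split (by rw [tr_comp]; exact ht) (by rw [tr_comp]; exact hs)] at h

end Cfsg.Agent.S2507
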