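import Cfsg.Statements.S2508
import Mathlib
import Cfsg.Agent.Lib.SL2.Elements

set_option autoImplicit false
open Cfsg

namespace Cfsg.Agent.S2508

open CfsgLib.SL2Torus CfsgLib.PSL2Klein

theorem idx_of_card {G : Type*} [Group G] [Finite G] (H : Subgroup G) {a b : ℕ} (hG : Nat.card G = a * b)
    (hH : Nat.card H = b) : H.index = a := by
  have h := H.index_mul_card
  rw [hG, hH] at h
  exact Nat.eq_of_mul_eq_mul_right (hH ▸ Nat.card_pos) h

theorem exists_generic {F : Type*} [Field F] [Fintype F] (h2 : (2 : F) ≠ 0) {g : Matrix.SpecialLinearGroup (Fin 2) F}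
    (hg : tr g ^ 2 ≠ 4) (h5 : 5 ≤ Nat.card (cent g)) :
    ∃ a : Matrix.SpecialLinearGroup (Fin 2) F, tr a ≠ 0 ∧ Nat.card (cent a) = Nat.card (cent g) := by
  obtain ⟨a, ha, hao⟩ := exists_generator hg
  have h4 : a ^ 4 ≠ 1 := fun h => by
    have := Nat.le_of_dvd (by norm_num) (orderOf_dvd_of_pow_eq_one h)
    omega
  have hns : ¬ ∃ c : F, (a : Matrix (Fin 2) (Fin 2) F) = c • (1 : Matrix (Fin 2) (Fin 2) F) := fun h => by
    rcases CfsgLib.Dickson.scalar_cases h with e | e
    · exact h4 (by rw [e, one_pow])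
    · exact h4 (by rw [e, show (4 : ℕ) = 2 * 2 from rfl, pow_mul, _root_.neg_one_sq, one_pow])
  refine ⟨a, fun h0 => h4 ?_, by rw [cent_eq (ne_scalar hg) ha hns]⟩
  have e : a * a = -1 := by
    apply Subtype.ext
    show (a : Matrix (Fin 2) (Fin 2) F) * a = _
    rw [sq_eq, h0, zero_smul, zero_sub]
    simp
  rw [show a ^ 4 = (a * a) * (a * a) by simp [pow_succ, mul_assoc], e, neg_mul_neg, one_mul]

/-- Let F be a finite field with q elements, q odd and q ≥ 7. If q ≡ 1 (mod 4) the conjugacy class sizes of PSL(2,F) are exactly 1, (q² − 1)/2, q(q + 1)/2, q(q − 1) and q(q + 1); if q ≡ 3 (mod 4) they are exactly 1, (q² − 1)/2, q(q − 1)/2, q(q + 1) and q(q − 1). -/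
theorem result {F : Type*} [Field F] [Fintype F]
    (hodd : ¬ 2 ∣ Fintype.card F) (h7 : 7 ≤ Fintype.card F) :
    (Fintype.card F % 4 = 1 →
      Set.range (fun g : (Matrix.ProjectiveSpecialLinearGroup (Fin 2) F) => (Subgroup.centralizer ({g} : Set (Matrix.ProjectiveSpecialLinearGroup (Fin 2) F))).index) =
        {1, (Fintype.card F ^ 2 - 1) / 2, Fintype.card F * (Fintype.card F + 1) / 2,
          Fintype.card F * (Fintype.card F - 1), Fintype.card F * (Fintype.card F + 1)}) ∧
    (Fintype.card F % 4 = 3 →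
      Set.range (fun g : (Matrix.ProjectiveSpecialLinearGroup (Fin 2) F) => (Subgroup.centralizer ({g} : Set (Matrix.ProjectiveSpecialLinearGroup (Fin 2) F))).index) =
        {1, (Fintype.card F ^ 2 - 1) / 2, Fintype.card F * (Fintype.card F - 1) / 2,
          Fintype.card F * (Fintype.card F + 1), Fintype.card F * (Fintype.card F - 1)}) := by
  open CfsgLib.SL2Torus CfsgLib.PSL2Klein in
  set q := Fintype.card F with hq
  have hodd' : Fintype.card F % 2 = 1 := by rw [← hq]; omega
  have h2F : (2 : F) ≠ 0 := two_ne_of_odd hodd'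
  have hd := gcd_eq_two_of_two_ne h2F
  have hG2 : 2 * Nat.card (Matrix.ProjectiveSpecialLinearGroup (Fin 2) F) = q * (q ^ 2 - 1) := by
    rw [← card_L_eq, ← card_PL_mul, hd]
  obtain ⟨k, hk⟩ : ∃ k, q = 2 * k + 1 := ⟨q / 2, by omega⟩
  have hsq : q ^ 2 - 1 = (2 * k + 2) * (2 * k) := by
    have : q ^ 2 - 1 = (q + 1) * (q - 1) := by simpa using Nat.sq_sub_sq q 1
    rw [this, hk]; simp
  have hG : Nat.card (Matrix.ProjectiveSpecialLinearGroup (Fin 2) F) = (2 * k + 1) * ((2 * k + 2) * k) := by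
    rw [hsq, hk, show (2 * k + 1) * ((2 * k + 2) * (2 * k)) = 2 * ((2 * k + 1) * ((2 * k + 2) * k)) by ring] at hG2
    exact Nat.eq_of_mul_eq_mul_left (by norm_num) hG2
  have e1 : (q ^ 2 - 1) / 2 = (2 * k + 2) * k := by
    rw [hsq, show (2 * k + 2) * (2 * k) = (2 * k + 2) * k * 2 by ring, Nat.mul_div_cancel _ (by norm_num)]
  have e2 : q * (q - 1) / 2 = (2 * k + 1) * k := by
    rw [hk, Nat.add_sub_cancel, show (2 * k + 1) * (2 * k) = (2 * k + 1) * k * 2 by ring, Nat.mul_div_cancel _ (by norm_num)]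
  have e3 : q * (q + 1) / 2 = (2 * k + 1) * (k + 1) := by
    rw [hk, show (2 * k + 1) * (2 * k + 1 + 1) = (2 * k + 1) * (k + 1) * 2 by ring, Nat.mul_div_cancel _ (by norm_num)]
  have e4 : q * (q - 1) = (2 * k + 1) * (2 * k) := by rw [hk, Nat.add_sub_cancel]
  have e5 : q * (q + 1) = (2 * k + 1) * (2 * k + 2) := by rw [hk]
  have hone : (Subgroup.centralizer ({1} : Set (Matrix.ProjectiveSpecialLinearGroup (Fin 2) F))).index = 1 :=
    Subgroup.index_eq_one.2 (eq_top_iff.2 fun x _ => Subgroup.mem_centralizer_singleton_iff.2 (by simp))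
  -- the four kinds of nontrivial classes
  have kinds : ∀ g : Matrix.ProjectiveSpecialLinearGroup (Fin 2) F,
      (Subgroup.centralizer {g}).index = 1 ∨ (Subgroup.centralizer {g}).index = (q ^ 2 - 1) / 2 ∨
      (Subgroup.centralizer {g}).index = q * (q + 1) ∨ (Subgroup.centralizer {g}).index = q * (q - 1) ∨
      (Subgroup.centralizer {g}).index * Nat.card (CfsgLib.PSL2Two.rot F) = (2 * k + 1) * ((2 * k + 2) * k) := by
    intro g
    by_cases hg : g = 1
    · exact Or.inl (hg ▸ hone)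
    rcases centralizer_cases hg with h | h | h | ⟨-, h⟩
    · exact Or.inr (Or.inl (e1.symm ▸ idx_of_card _ (b := q) (by rw [hG, hk]; ring) h))
    · refine Or.inr (Or.inr (Or.inl (e5.symm ▸ idx_of_card _ (b := k) (by rw [hG]; ring) ?_)))
      rw [hd] at h; omega
    · refine Or.inr (Or.inr (Or.inr (Or.inl (e4.symm ▸ idx_of_card _ (b := k + 1) (by rw [hG]; ring) ?_))))
      rw [hd] at h; omega
    · right; right; right; right
      rw [← h, ← hG, Subgroup.index_mul_card]
  obtain ⟨t, ht, hs⟩ := exists_split (F := F) (by omega)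
  obtain ⟨s, hs4, hns⟩ := exists_elliptic (F := F)
  have hU : ∃ g : Matrix.ProjectiveSpecialLinearGroup (Fin 2) F, (Subgroup.centralizer {g}).index = (q ^ 2 - 1) / 2 :=
    ⟨π (u 1), e1.symm ▸ idx_of_card _ (b := q) (by rw [hG, hk]; ring) (card_centralizer_u one_ne_zero)⟩
  have hS : ∃ g : Matrix.ProjectiveSpecialLinearGroup (Fin 2) F, (Subgroup.centralizer {g}).index = q * (q + 1) := by
    have hc := card_cent_split (g := comp t) (by rw [tr_comp]; exact ht) (by rw [tr_comp]; exact hs)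
    obtain ⟨a, ha, hac⟩ := exists_generic h2F (g := comp t) (by rw [tr_comp]; exact ht) (by omega)
    have h := card_centralizer_π (g := a) (Or.inl ha)
    rw [hac, hc, hd] at h
    exact ⟨π a, e5.symm ▸ idx_of_card _ (b := k) (by rw [hG]; ring) (by omega)⟩
  have hE : ∃ g : Matrix.ProjectiveSpecialLinearGroup (Fin 2) F, (Subgroup.centralizer {g}).index = q * (q - 1) := by
    have hc := card_cent_elliptic (g := comp s) (by rw [tr_comp]; exact hs4) (by rw [tr_comp]; exact hns)
    obtain ⟨a, ha, hac⟩ := exists_generic h2F (g := comp s) (by rw [tr_comp]; exact hs4) (by omega)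
    have h := card_centralizer_π (g := a) (Or.inl ha)
    rw [hac, hc, hd] at h
    exact ⟨π a, e4.symm ▸ idx_of_card _ (b := k + 1) (by rw [hG]; ring) (by omega)⟩
  obtain ⟨hr1, hr3⟩ := CfsgLib.PSL2Two.card_rot' hodd'
  have hI := CfsgLib.PSL2Klein.card_centralizer hodd'
  refine ⟨fun h1 => ?_, fun h3 => ?_⟩
  · have hr : Nat.card (CfsgLib.PSL2Two.rot F) = 2 * k := by rw [hr1 h1]; omega
    have hi : ∀ {i : ℕ}, i * Nat.card (CfsgLib.PSL2Two.rot F) = (2 * k + 1) * ((2 * k + 2) * k) → i = q * (q + 1) / 2 := by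
      intro i h
      rw [hr] at h
      rw [e3]
      exact Nat.eq_of_mul_eq_mul_right (show 0 < 2 * k by omega) (h.trans (by ring))
    ext m
    simp only [Set.mem_range, Set.mem_insert_iff, Set.mem_singleton_iff]
    constructor
    · rintro ⟨g, rfl⟩
      rcases kinds g with h | h | h | h | h
      · exact Or.inl h
      · exact Or.inr (Or.inl h)
      · exact Or.inr (Or.inr (Or.inr (Or.inr h)))
      · exact Or.inr (Or.inr (Or.inr (Or.inl h)))
      · exact Or.inr (Or.inr (Or.inl (hi h)))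
    · rintro (rfl | rfl | rfl | rfl | rfl)
      exacts [⟨1, hone⟩, hU, ⟨x₀, hi (by rw [← hI, ← hG, Subgroup.index_mul_card])⟩, hE, hS]
  · have hr : Nat.card (CfsgLib.PSL2Two.rot F) = 2 * k + 2 := by rw [hr3 h3]; omega
    have hi : ∀ {i : ℕ}, i * Nat.card (CfsgLib.PSL2Two.rot F) = (2 * k + 1) * ((2 * k + 2) * k) → i = q * (q - 1) / 2 := by
      intro i h
      rw [hr] at h
      rw [e2]
      exact Nat.eq_of_mul_eq_mul_right (show 0 < 2 * k + 2 by omega) (h.trans (by ring))
    ext m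
    simp only [Set.mem_range, Set.mem_insert_iff, Set.mem_singleton_iff]
    constructor
    · rintro ⟨g, rfl⟩
      rcases kinds g with h | h | h | h | h
      · exact Or.inl h
      · exact Or.inr (Or.inl h)
      · exact Or.inr (Or.inr (Or.inr (Or.inl h)))
      · exact Or.inr (Or.inr (Or.inr (Or.inr h)))
      · exact Or.inr (Or.inr (Or.inl (hi h)))
    · rintro (rfl | rfl | rfl | rfl | rfl)
      exacts [⟨1, hone⟩, hU, ⟨x₀, hi (by rw [← hI, ← hG, Subgroup.index_mul_card])⟩, hS, hE]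

end Cfsg.Agent.S2508
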