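import Cfsg.Statements.S2510
import Cfsg.Agent.Lib.Spectrum.SLSpectrum
open CfsgLib

set_option autoImplicit false
open Cfsg

namespace Cfsg.Agent.S2510

/-- Let F be a finite field with q = p^a elements, n ≥ 2 (with q ≥ 4 when n = 2), L = PSL(n, F), and let r be a prime dividing q − 1 and not dividing n. Then for every m the direct product L × L × L × (ℤ/r)^m has the same set of element orders as L × L × L; and if n − 1 ≠ p^j for every j ≥ 0 (so never when n = 2, since 1 = p^0), then already L × L × (ℤ/r)^m has the same set of element orders as L × L. -/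
theorem result {F : Type*} [Field F] [Fintype F] (p a n r m : ℕ) (hp : p.Prime) (ha : 1 ≤ a) (hF : Fintype.card F = p ^ a)
    (hn : 2 ≤ n) (hn2 : n = 2 → 4 ≤ Fintype.card F) (hr : r.Prime) (hrq : r ∣ Fintype.card F - 1) (hrn : ¬ r ∣ n) :
    Set.range (orderOf : Matrix.ProjectiveSpecialLinearGroup (Fin n) F × Matrix.ProjectiveSpecialLinearGroup (Fin n) F × Matrix.ProjectiveSpecialLinearGroup (Fin n) F × Multiplicative (Fin m → ZMod r) → ℕ) =
      Set.range (orderOf : Matrix.ProjectiveSpecialLinearGroup (Fin n) F × Matrix.ProjectiveSpecialLinearGroup (Fin n) F × Matrix.ProjectiveSpecialLinearGroup (Fin n) F → ℕ) ∧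
    ((¬ ∃ j : ℕ, n - 1 = p ^ j) →
      Set.range (orderOf : Matrix.ProjectiveSpecialLinearGroup (Fin n) F × Matrix.ProjectiveSpecialLinearGroup (Fin n) F × Multiplicative (Fin m → ZMod r) → ℕ) =
        Set.range (orderOf : Matrix.ProjectiveSpecialLinearGroup (Fin n) F × Matrix.ProjectiveSpecialLinearGroup (Fin n) F → ℕ)) := by
  classical
  have : Fact p.Prime := ⟨hp⟩
  have : NeZero r := ⟨hr.ne_zero⟩
  have hc : ∀ c : Multiplicative (Fin m → ZMod r), orderOf c = 1 ∨ orderOf c = r := by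
    intro c
    have h : c ^ r = 1 := by
      apply Multiplicative.toAdd.injective
      funext i
      simp
    exact (Nat.dvd_prime hr).mp (orderOf_dvd_of_pow_eq_one h)
  refine ⟨Set.Subset.antisymm ?_ ?_, fun hne => Set.Subset.antisymm ?_ ?_⟩
  · rintro _ ⟨⟨x, y, z, c⟩, rfl⟩
    rcases hc c with h | h
    · exact ⟨(x, y, z), by simp only [Prod.orderOf, h, Nat.lcm_one_right]⟩
    · obtain ⟨w, hw⟩ := Spectrum.cube_absorb hF hr hrq hrn hn x y z
      exact ⟨w, by rw [hw]; simp only [Prod.orderOf, h]; ac_rfl⟩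
  · rintro _ ⟨⟨x, y, z⟩, rfl⟩
    exact ⟨(x, y, z, 1), by simp only [Prod.orderOf, orderOf_one, Nat.lcm_one_right]⟩
  · rintro _ ⟨⟨x, y, c⟩, rfl⟩
    rcases hc c with h | h
    · exact ⟨(x, y), by simp only [Prod.orderOf, h, Nat.lcm_one_right]⟩
    · obtain ⟨w, hw⟩ := Spectrum.square_absorb hF hr hrq hrn hn hne x y
      exact ⟨w, by rw [hw]; simp only [Prod.orderOf, h]; ac_rfl⟩
  · rintro _ ⟨⟨x, y⟩, rfl⟩
    exact ⟨(x, y, 1), by simp only [Prod.orderOf, orderOf_one, Nat.lcm_one_right]⟩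

end Cfsg.Agent.S2510
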