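import Cfsg.Statements.S2513
import Cfsg.Agent.Lib.Spectrum.GLTwo
open CfsgLib.Spectrum

set_option autoImplicit false
open Cfsg

namespace Cfsg.Agent.S2513

/-- Let F be the field with two elements, n ≥ 2, L = PSL(n, F) and k₀ = ⌊(n + 3)/2⌋. Then for every k ≥ k₀ the direct product of k copies of L has the same set of element orders as the direct product of k₀ copies of L. -/
theorem result {F : Type*} [Field F] [Fintype F] (hF : Fintype.card F = 2) (n k : ℕ) (hn : 2 ≤ n) (hk : (n + 3) / 2 ≤ k) :
    Set.range (orderOf : (Fin k → Matrix.ProjectiveSpecialLinearGroup (Fin n) F) → ℕ) = Set.range (orderOf : (Fin ((n + 3) / 2) → Matrix.ProjectiveSpecialLinearGroup (Fin n) F) → ℕ) := by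
  classical
  have hunit : ∀ u : F, u ≠ 0 → u = 1 := fun u hu => by
    have := FiniteField.pow_card_sub_one_eq_one u hu
    rwa [hF, pow_one] at this
  let σ : F ≃+* ZMod 2 := FiniteField.ringEquivOfCardEq (by rw [hF, ZMod.card])
  let φ : Matrix.SpecialLinearGroup (Fin n) F →* GL (Fin n) (ZMod 2) :=
    (Units.mapEquiv σ.mapMatrix.toMulEquiv).toMonoidHom.comp Matrix.SpecialLinearGroup.toGL
  have hcen : ∀ g : Matrix.SpecialLinearGroup (Fin n) F, g ∈ Subgroup.center _ → g = 1 := by
    intro g hg
    obtain ⟨r, hr, hrg⟩ := Matrix.SpecialLinearGroup.mem_center_iff.mp hg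
    apply Subtype.ext
    rw [← hrg, hunit r (fun h => by rw [h, Fintype.card_fin, zero_pow (by omega)] at hr; exact zero_ne_one hr)]
    simp
  have hbot : Subgroup.center (Matrix.SpecialLinearGroup (Fin n) F) = ⊥ :=
    eq_bot_iff.mpr fun g hg => Subgroup.mem_bot.mpr (hcen g hg)
  have hφ : Function.Bijective φ := by
    constructor
    · intro a b h
      have := congrArg (fun u : GL (Fin n) (ZMod 2) => (u : Matrix (Fin n) (Fin n) (ZMod 2))) h
      exact Subtype.ext (σ.mapMatrix.injective this)
    · intro g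
      let g' : GL (Fin n) F := (Units.mapEquiv σ.mapMatrix.toMulEquiv).symm g
      have hdet : (g' : Matrix (Fin n) (Fin n) F).det = 1 :=
        hunit _ ((Matrix.isUnit_iff_isUnit_det _).mp g'.isUnit).ne_zero
      refine ⟨⟨(g' : Matrix (Fin n) (Fin n) F), hdet⟩, ?_⟩
      apply Units.ext
      show σ.mapMatrix (g' : Matrix (Fin n) (Fin n) F) = _
      simp [g']
      ext i j
      simp
  let e : Matrix.ProjectiveSpecialLinearGroup (Fin n) F ≃* GL (Fin n) (ZMod 2) :=
    ((QuotientGroup.quotientMulEquivOfEq hbot).trans QuotientGroup.quotientBot).trans (MulEquiv.ofBijective φ hφ)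
  have hexp : ∀ x : Matrix.ProjectiveSpecialLinearGroup (Fin n) F, x ^ glTwoExp n = 1 := fun x =>
    e.injective (by rw [map_pow, map_one, pow_glTwoExp])
  obtain ⟨f, hf⟩ := exists_attain n hn
  set a : Fin ((n + 3) / 2) → Matrix.ProjectiveSpecialLinearGroup (Fin n) F := fun i => e.symm (f i) with ha
  have hao : orderOf a = glTwoExp n := by
    refine Nat.dvd_antisymm (orderOf_dvd_of_pow_eq_one (funext fun i => hexp _)) (hf _ fun i => ?_)
    have := congrFun (pow_orderOf_eq_one a) i
    rw [Pi.pow_apply, Pi.one_apply, ha] at this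
    apply e.symm.injective
    rw [map_pow, map_one]
    exact this
  apply Set.Subset.antisymm
  · rintro _ ⟨x, rfl⟩
    have hd : orderOf x ∣ orderOf a := hao ▸ orderOf_dvd_of_pow_eq_one (funext fun i => hexp _)
    refine ⟨a ^ (orderOf a / orderOf x), ?_⟩
    have hne : orderOf a / orderOf x ≠ 0 :=
      (Nat.div_pos (Nat.le_of_dvd (orderOf_pos a) hd) (orderOf_pos x)).ne'
    rw [orderOf_pow_of_dvd hne (Nat.div_dvd_of_dvd hd), Nat.div_div_self hd (orderOf_pos a).ne']
  · rintro _ ⟨x, rfl⟩
    let ι : (Fin ((n + 3) / 2) → Matrix.ProjectiveSpecialLinearGroup (Fin n) F) →* (Fin k → Matrix.ProjectiveSpecialLinearGroup (Fin n) F) :=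
      { toFun := fun y j => if h : (j : ℕ) < (n + 3) / 2 then y ⟨j, h⟩ else 1
        map_one' := by ext j; split <;> rfl
        map_mul' := fun y z => by ext j; simp only [Pi.mul_apply]; split <;> simp }
    have hι : Function.Injective ι := fun y z h => funext fun i => by
      have := congrFun h ⟨i, lt_of_lt_of_le i.2 hk⟩
      simpa [ι, i.2] using this
    exact ⟨ι x, orderOf_injective ι hι x⟩

end Cfsg.Agent.S2513
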