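import Cfsg.Statements.S2514
import Mathlib.Data.Set.Card
import Mathlib.GroupTheory.OrderOfElement

set_option autoImplicit false
open Cfsg

namespace Cfsg.Agent.S2514

/-- For a finite group X write μ(X) for the set of element orders of X that are maximal under divisibility. Let G and H be finite groups and k ≥ 1 such that μ(H) ⊆ μ(G) and μ(G) has fewer than k elements outside μ(H). Then the direct product of k copies of G has the same set of element orders as the direct product of k − 1 copies of G with H. -/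
theorem result {G H : Type*} [Group G] [Finite G] [Group H] [Finite H] (k : ℕ) (hk : 1 ≤ k)
    (hsub : {n : ℕ | n ∈ Set.range (orderOf : H → ℕ) ∧ ∀ m ∈ Set.range (orderOf : H → ℕ), n ∣ m → m = n} ⊆ {n : ℕ | n ∈ Set.range (orderOf : G → ℕ) ∧ ∀ m ∈ Set.range (orderOf : G → ℕ), n ∣ m → m = n})
    (hfew : ({n : ℕ | n ∈ Set.range (orderOf : G → ℕ) ∧ ∀ m ∈ Set.range (orderOf : G → ℕ), n ∣ m → m = n} \ {n : ℕ | n ∈ Set.range (orderOf : H → ℕ) ∧ ∀ m ∈ Set.range (orderOf : H → ℕ), n ∣ m → m = n}).ncard < k) :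
    Set.range (orderOf : (Fin k → G) → ℕ) = Set.range (orderOf : (Fin (k - 1) → G) × H → ℕ) := by
  classical
  set μG := {n : ℕ | n ∈ Set.range (orderOf : G → ℕ) ∧ ∀ m ∈ Set.range (orderOf : G → ℕ), n ∣ m → m = n}
    with hμG
  set μH := {n : ℕ | n ∈ Set.range (orderOf : H → ℕ) ∧ ∀ m ∈ Set.range (orderOf : H → ℕ), n ∣ m → m = n}
    with hμH
  haveI := Fintype.ofFinite G
  haveI := Fintype.ofFinite H
  have topG : ∀ g : G, ∃ M ∈ μG, orderOf g ∣ M := by
    intro g
    obtain ⟨x, hx, hmax⟩ := Finset.exists_max_image (Finset.univ.filter fun x : G => orderOf g ∣ orderOf x)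
      orderOf ⟨g, by simp⟩
    refine ⟨orderOf x, ⟨⟨x, rfl⟩, ?_⟩, (Finset.mem_filter.mp hx).2⟩
    rintro _ ⟨y, rfl⟩ hdvd
    exact le_antisymm (hmax y (by simp [(Finset.mem_filter.mp hx).2.trans hdvd]))
      (Nat.le_of_dvd (orderOf_pos y) hdvd)
  have topH : ∀ g : H, ∃ M ∈ μH, orderOf g ∣ M := by
    intro g
    obtain ⟨x, hx, hmax⟩ := Finset.exists_max_image (Finset.univ.filter fun x : H => orderOf g ∣ orderOf x)
      orderOf ⟨g, by simp⟩
    refine ⟨orderOf x, ⟨⟨x, rfl⟩, ?_⟩, (Finset.mem_filter.mp hx).2⟩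
    rintro _ ⟨y, rfl⟩ hdvd
    exact le_antisymm (hmax y (by simp [(Finset.mem_filter.mp hx).2.trans hdvd]))
      (Nat.le_of_dvd (orderOf_pos y) hdvd)
  have shrinkG : ∀ (M d : ℕ), M ∈ Set.range (orderOf : G → ℕ) → d ∣ M → ∃ g : G, orderOf g = d := by
    rintro _ d ⟨x, rfl⟩ hd
    exact ⟨x ^ (orderOf x / d), orderOf_pow_orderOf_div (orderOf_pos x).ne' hd⟩
  have shrinkH : ∀ (M d : ℕ), M ∈ Set.range (orderOf : H → ℕ) → d ∣ M → ∃ g : H, orderOf g = d := by
    rintro _ d ⟨x, rfl⟩ hd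
    exact ⟨x ^ (orderOf x / d), orderOf_pow_orderOf_div (orderOf_pos x).ne' hd⟩
  have hpi : ∀ {m : ℕ} (f : Fin m → G) (N : ℕ), orderOf f ∣ N ↔ ∀ i, orderOf (f i) ∣ N := by
    intro m f N
    simp [orderOf_dvd_iff_pow_eq_one, funext_iff]
  have hprod : ∀ {m : ℕ} (f : Fin m → G) (h : H) (N : ℕ),
      orderOf (f, h) ∣ N ↔ (∀ i, orderOf (f i) ∣ N) ∧ orderOf h ∣ N := by
    intro m f h N
    simp [orderOf_dvd_iff_pow_eq_one, funext_iff, Prod.ext_iff]
  have heq : ∀ a b : ℕ, (∀ N, a ∣ N ↔ b ∣ N) → a = b := fun a b h =>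
    Nat.dvd_antisymm ((h b).mpr dvd_rfl) ((h a).mp dvd_rfl)
  obtain ⟨l, rfl⟩ : ∃ l, k = l + 1 := ⟨k - 1, by omega⟩
  ext n
  constructor
  · rintro ⟨f, rfl⟩
    choose M hM hMdvd using fun i => topG (f i)
    by_cases hin : ∃ i, M i ∈ μH
    · obtain ⟨i, hi⟩ := hin
      obtain ⟨h, hh⟩ := shrinkH _ _ hi.1 (hMdvd i)
      refine ⟨(fun j => f (i.succAbove j), h), heq _ _ fun N => ?_⟩
      rw [hprod, hpi, hh, Fin.forall_iff_succAbove i]
      exact and_comm
    simp only [not_exists] at hin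
    obtain ⟨i, j, hij, hMij⟩ : ∃ i j, i ≠ j ∧ M i = M j := by
      by_contra hcon
      simp only [not_exists, not_and] at hcon
      have hinj : Function.Injective M := fun i j h => by
        by_contra hne
        exact hcon i j hne h
      have hfin : (μG \ μH).Finite :=
        ((Set.finite_range (orderOf : G → ℕ)).subset fun x hx => hx.1.1)
      have h1 : (l + 1) ≤ (μG \ μH).ncard := by
        rw [← Nat.card_fin (l + 1), ← Nat.card_coe_set_eq]
        have := hfin.to_subtype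
        exact Nat.card_le_card_of_injective (fun i => ⟨M i, hM i, hin i⟩)
          (fun a b h => hinj (congrArg Subtype.val h))
      omega
    obtain ⟨j', hj'⟩ := Fin.exists_succAbove_eq (Ne.symm hij)
    obtain ⟨g, hg⟩ := shrinkG (M i) (Nat.lcm (orderOf (f i)) (orderOf (f j))) (hM i).1
      (Nat.lcm_dvd (hMdvd i) (hMij ▸ hMdvd j))
    refine ⟨(Function.update (fun a => f (i.succAbove a)) j' g, 1), heq _ _ fun N => ?_⟩
    rw [hprod, hpi]
    constructor
    · rintro ⟨hall, -⟩ a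
      have hgN : orderOf g ∣ N := by simpa using hall j'
      rw [hg, Nat.lcm_dvd_iff] at hgN
      rcases Fin.eq_self_or_eq_succAbove i a with rfl | ⟨a', rfl⟩
      · exact hgN.1
      · by_cases ha : a' = j'
        · subst ha
          rw [hj']
          exact hgN.2
        · simpa [ha] using hall a'
    · intro hall
      refine ⟨fun a => ?_, by simp⟩
      by_cases ha : a = j'
      · subst ha
        rw [Function.update_self, hg]
        exact Nat.lcm_dvd (hall i) (hall j)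
      · rw [Function.update_of_ne ha]
        exact hall _
  · rintro ⟨⟨f, h⟩, rfl⟩
    obtain ⟨M, hM, hMd⟩ := topH h
    obtain ⟨g, hg⟩ := shrinkG M (orderOf h) (hsub hM).1 hMd
    refine ⟨Fin.cons g f, heq _ _ fun N => ?_⟩
    rw [hpi, hprod, Fin.forall_fin_succ]
    simp only [Fin.cons_zero, Fin.cons_succ, hg]
    exact and_comm

end Cfsg.Agent.S2514
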