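import Cfsg.Statements.S2516
import Mathlib.LinearAlgebra.Eigenspace.Minpoly
import Mathlib.GroupTheory.OrderOfElement

set_option autoImplicit false
open Cfsg

namespace Cfsg.Agent.S2516

/-- Let F be a field of characteristic p > 0, V a non-zero finite-dimensional F-vector space, G a finite group and ρ a representation of G on V; form the semidirect product V ⋊ G. For g ∈ G of order k, the coset Vg contains an element of order pk if and only if the minimal polynomial of ρ(g) does not divide 1 + X + ⋯ + X^(k−1). -/
theorem result {F : Type*} [Field F] (p : ℕ) [Fact p.Prime] [CharP F p] {V : Type*} [AddCommGroup V] [Module F V] [FiniteDimensional F V] [Nontrivial V]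
    {G : Type*} [Group G] [Finite G] (ρ : Representation F G V) (g : G) :
    (∃ x : Multiplicative V ⋊[(MulAutMultiplicative V).symm.toMonoidHom.comp
        ((DistribMulAction.toAddAut ((V →ₗ[F] V)ˣ) V).comp ρ.asGroupHom)] G,
        x.right = g ∧ orderOf x = p * orderOf g) ↔
      ¬ (minpoly F (ρ g) ∣ ∑ i ∈ Finset.range (orderOf g), (Polynomial.X : Polynomial F) ^ i) := by
  classical
  set k := orderOf g with hk
  have hk0 : 0 < k := orderOf_pos g
  set S : Module.End F V := Polynomial.aeval (ρ g) (∑ i ∈ Finset.range k, (Polynomial.X : Polynomial F) ^ i)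
    with hS
  have hSapply : ∀ v, S v = ∑ i ∈ Finset.range k, (ρ g ^ i) v := fun v => by
    simp [hS, LinearMap.sum_apply]
  rw [minpoly.dvd_iff]
  constructor
  · rintro ⟨x, hxg, hx⟩ hzero
    have hpow : ∀ j : ℕ, (x ^ j).right = g ^ j ∧
        Multiplicative.toAdd (x ^ j).left = ∑ i ∈ Finset.range j, (ρ g ^ i) (Multiplicative.toAdd x.left) := by
      intro j
      induction j with
      | zero => exact ⟨(congrArg SemidirectProduct.right (pow_zero _)).trans (by simp),
          (congrArg (fun z => Multiplicative.toAdd (SemidirectProduct.left z)) (pow_zero _)).trans (by simp)⟩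
      | succ j ih =>
        rw [pow_succ, SemidirectProduct.mul_right, SemidirectProduct.mul_left, ih.1, hxg, pow_succ]
        refine ⟨rfl, ?_⟩
        rw [Finset.sum_range_succ, toAdd_mul, ih.2]
        congr 1
        rw [← map_pow]
        rfl
    have h1 : x ^ k = 1 := by
      refine SemidirectProduct.ext ?_ ?_
      · apply Multiplicative.toAdd.injective
        have hz : S (Multiplicative.toAdd x.left) = 0 := by rw [hS, hzero]; rfl
        rw [(hpow k).2, ← hSapply, hz]
        rfl
      · rw [(hpow k).1, hk, pow_orderOf_eq_one]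
        rfl
    have h2 := Nat.le_of_dvd hk0 (orderOf_dvd_iff_pow_eq_one.mpr h1)
    rw [hx] at h2
    have := (Fact.out : p.Prime).two_le
    nlinarith
  · intro hne
    obtain ⟨v, hv⟩ : ∃ v, S v ≠ 0 := by
      by_contra hall
      simp only [not_exists, not_not] at hall
      exact hne (LinearMap.ext hall)
    refine ⟨⟨Multiplicative.ofAdd v, g⟩, rfl, ?_⟩
    set x : Multiplicative V ⋊[(MulAutMultiplicative V).symm.toMonoidHom.comp
        ((DistribMulAction.toAddAut ((V →ₗ[F] V)ˣ) V).comp ρ.asGroupHom)] G :=
      ⟨Multiplicative.ofAdd v, g⟩ with hx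
    have hpow : ∀ j : ℕ, (x ^ j).right = g ^ j ∧
        Multiplicative.toAdd (x ^ j).left = ∑ i ∈ Finset.range j, (ρ g ^ i) v := by
      intro j
      induction j with
      | zero => exact ⟨(congrArg SemidirectProduct.right (pow_zero _)).trans (by simp),
          (congrArg (fun z => Multiplicative.toAdd (SemidirectProduct.left z)) (pow_zero _)).trans (by simp)⟩
      | succ j ih =>
        rw [pow_succ, SemidirectProduct.mul_right, SemidirectProduct.mul_left, ih.1, pow_succ]
        refine ⟨rfl, ?_⟩
        rw [Finset.sum_range_succ, toAdd_mul, ih.2]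
        congr 1
        rw [← map_pow]
        rfl
    set y := x ^ k with hy
    have hyr : y.right = 1 := by rw [hy, (hpow k).1, hk, pow_orderOf_eq_one]
    have hyl : Multiplicative.toAdd y.left = S v := by rw [hy, (hpow k).2, hSapply]
    have hyp : ∀ j : ℕ, (y ^ j).right = 1 ∧ Multiplicative.toAdd (y ^ j).left = j • S v := by
      intro j
      induction j with
      | zero => exact ⟨(congrArg SemidirectProduct.right (pow_zero _)).trans (by simp),
          (congrArg (fun z => Multiplicative.toAdd (SemidirectProduct.left z)) (pow_zero _)).trans (by simp)⟩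
      | succ j ih =>
        rw [pow_succ, SemidirectProduct.mul_right, SemidirectProduct.mul_left, ih.1, hyr]
        refine ⟨mul_one 1, ?_⟩
        rw [map_one, MulAut.one_apply, toAdd_mul, ih.2, hyl, succ_nsmul]
    have hyo : orderOf y = p := by
      refine orderOf_eq_prime ?_ fun h => hv ?_
      · refine SemidirectProduct.ext ?_ (hyp p).1
        apply Multiplicative.toAdd.injective
        rw [(hyp p).2, ← Nat.cast_smul_eq_nsmul F, CharP.cast_eq_zero, zero_smul]
        rfl
      · rw [← hyl, h]
        rfl
    have hkdvd : k ∣ orderOf x := by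
      rw [hk, orderOf_dvd_iff_pow_eq_one, ← (hpow (orderOf x)).1, pow_orderOf_eq_one]
      rfl
    have hxk : orderOf y = orderOf x / k := by
      rw [hy, orderOf_pow_of_dvd hk0.ne' hkdvd]
    rw [hyo] at hxk
    rw [← Nat.div_mul_cancel hkdvd, ← hxk]

end Cfsg.Agent.S2516
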