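import Cfsg.Statements.S2521
import Mathlib.GroupTheory.Complement

set_option autoImplicit false
open Cfsg

namespace Cfsg.Agent.S2521

/-- Let B be a finite group that is the semidirect product of a nilpotent normal subgroup U by an abelian subgroup T (U ∩ T = 1, UT = B), and let t ∈ T have centralizer exactly T. Then every element of the coset tU is conjugate to t in B: for each u ∈ U there is b ∈ B with b t b⁻¹ = t u. -/
theorem result {B : Type*} [Group B] [Finite B] (U T : Subgroup B) [U.Normal] (hU : Group.IsNilpotent ↥U) (hT : IsMulCommutative ↥T)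
    (hcompl : Subgroup.IsComplement' U T) (t : B) (ht : t ∈ T) (hreg : Subgroup.centralizer ({t} : Set B) = T) (u : B) (hu : u ∈ U) :
    ∃ b : B, b * t * b⁻¹ = t * u := by
  have hinj : Function.Injective (fun x : U => (⟨t⁻¹ * x * t * (x : B)⁻¹, mul_mem (by
      simpa [mul_assoc] using (inferInstance : U.Normal).conj_mem x x.2 t⁻¹) (inv_mem x.2)⟩ : U)) := by
    intro x y h
    have h' : t⁻¹ * x * t * (x : B)⁻¹ = t⁻¹ * y * t * (y : B)⁻¹ := congrArg Subtype.val h
    have hc : (y : B)⁻¹ * x ∈ Subgroup.centralizer ({t} : Set B) := by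
      rw [Subgroup.mem_centralizer_singleton_iff]
      calc (y : B)⁻¹ * x * t = (y : B)⁻¹ * t * (t⁻¹ * x * t * (x : B)⁻¹) * x := by group
        _ = (y : B)⁻¹ * t * (t⁻¹ * y * t * (y : B)⁻¹) * x := by rw [h']
        _ = t * ((y : B)⁻¹ * x) := by group
    rw [hreg] at hc
    have h1 : (y : B)⁻¹ * x = 1 := by
      have hmem : (y : B)⁻¹ * x ∈ U ⊓ T := ⟨U.mul_mem (U.inv_mem y.2) x.2, hc⟩
      rw [hcompl.disjoint.eq_bot] at hmem
      exact hmem
    exact Subtype.ext (inv_mul_eq_one.mp h1).symm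
  obtain ⟨x, hx⟩ := (Finite.injective_iff_surjective.mp hinj) ⟨u, hu⟩
  have hx' : t⁻¹ * x * t * (x : B)⁻¹ = u := congrArg Subtype.val hx
  refine ⟨x, ?_⟩
  rw [← hx']
  group

end Cfsg.Agent.S2521
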