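import Cfsg.Statements.S2896
import Cfsg.Agent.Lib.CharPLocal

set_option autoImplicit false
open Cfsg

namespace Cfsg.Agent.S2896
open CfsgLib.CharPLocal CfsgLib.GenFitting

/-- Let p be a prime dividing the order of the finite group G, S a Sylow p-subgroup of G and X a subgroup of S. (i) If some nontrivial element z of the centre of X has F*(C_G(z)) = O_p(C_G(z)), then F*(N_G(X)) = O_p(N_G(X)). (ii) G has parabolic characteristic p if and only if F*(C_G(z)) = O_p(C_G(z)) for every nontrivial z ∈ Ω₁(Z(S)). (iii) If F*(C_G(z)) = O_p(C_G(z)) for every element z of S of order p, then G has local characteristic p. -/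
theorem result {G : Type*} [Group G] [Finite G] {p : ℕ} [Fact p.Prime] (hdiv : p ∣ Nat.card G) (S : Sylow p G) (X : Subgroup G) (hX : X ≤ (S : Subgroup G)) : (∀ z : G, z ≠ 1 → z ∈ X → (∀ x ∈ X, x * z = z * x) → Cfsg.generalizedFittingSubgroup ↥(Subgroup.centralizer ({z} : Set G)) = Cfsg.pCore p ↥(Subgroup.centralizer ({z} : Set G)) → Cfsg.generalizedFittingSubgroup ↥(Subgroup.normalizer (X : Set G)) = Cfsg.pCore p ↥(Subgroup.normalizer (X : Set G))) ∧ (Cfsg.IsOfParabolicCharacteristic p G ↔ ∀ z : G, z ≠ 1 → z ∈ Cfsg.omegaOne p ((S : Subgroup G) ⊓ Subgroup.centralizer ((S : Subgroup G) : Set G)) → Cfsg.generalizedFittingSubgroup ↥(Subgroup.centralizer ({z} : Set G)) = Cfsg.pCore p ↥(Subgroup.centralizer ({z} : Set G))) ∧ ((∀ z : G, z ∈ (S : Subgroup G) → orderOf z = p → Cfsg.generalizedFittingSubgroup ↥(Subgroup.centralizer ({z} : Set G)) = Cfsg.pCore p ↥(Subgroup.centralizer ({z} : Set G))) → Cfsg.IsOfLocalCharacteristic p G) := by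
  classical
  refine ⟨fun z _ hzX hzc h => genFitting_eq_of_charP (charP_normalizer_of_central (S.2.to_le hX) hzc hzX
    (charP_of_genFitting_eq h)), ⟨fun hG z hz1 hz => ?_, fun h => parabolic_of_centralizers S fun z hzS hz hzc => ?_⟩,
    fun h => ⟨hdiv, fun T hT hTne => ?_⟩⟩
  · obtain ⟨hzS, hzC⟩ : z ∈ (S : Subgroup G) ∧ z ∈ Subgroup.centralizer ((S : Subgroup G) : Set G) :=
      Subgroup.mem_inf.mp ((Subgroup.closure_le _).mpr (fun x hx => hx.1) hz)
    exact genFitting_eq_of_charP (charP_centralizer_of_parabolic hG S hzS hz1 hzC)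
  · refine charP_of_genFitting_eq (h z (fun e => ?_) (Subgroup.subset_closure ⟨Subgroup.mem_inf.mpr ⟨hzS, hzc⟩, hz ▸ pow_orderOf_eq_one z⟩))
    rw [e, orderOf_one] at hz
    exact (Fact.out : p.Prime).one_lt.ne hz
  · obtain ⟨z, hzT, hz, hzc⟩ := exists_central_order hT le_rfl Subgroup.le_normalizer hTne
    obtain ⟨g, -, hg⟩ := CfsgLib.LocalBasic.exists_conj_le_sylow S (M := ⊤) (R := T) le_top hT le_top
    have hw := charP_centralizer_conj g⁻¹ (g * z * g⁻¹) (charP_of_genFitting_eq (h _ (hg z hzT) (by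
      simpa [hz] using orderOf_injective (MulAut.conj g).toMonoidHom (MulEquiv.injective _) z)))
    rw [show g⁻¹ * (g * z * g⁻¹) * g⁻¹⁻¹ = z by group] at hw
    exact charP_normalizer_of_central hT hzc hzT hw

end Cfsg.Agent.S2896
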