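import Cfsg.Statements.S2897
import Cfsg.Agent.Lib.CharP
import Cfsg.Agent.Lib.LocalBasic
import Cfsg.Agent.Lib.PReduced
import Cfsg.Agent.Lib.SPE
import Cfsg.Agent.Lib.Thompson.Kegel

set_option autoImplicit false
open Cfsg

namespace Cfsg.Agent.S2897

open CfsgLib.LocalBasic CfsgLib.CharP CfsgLib.PReduced
open scoped Pointwise


/-- Let p be a prime dividing the order of the finite group G, suppose G has parabolic characteristic p, let S be a Sylow p-subgroup of G and G₁ a normal subgroup of G. If Ω₁(Z(S ∩ G₁)) is nontrivial and contained in Ω₁(Z(S)), then G₁ has parabolic characteristic p. -/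
theorem result {G : Type*} [Group G] [Finite G] {p : ℕ} [Fact p.Prime] (hdiv : p ∣ Nat.card G) (hG : Cfsg.IsOfParabolicCharacteristic p G) (S : Sylow p G) (G₁ : Subgroup G) [G₁.Normal] (hne : Cfsg.omegaOne p (((S : Subgroup G) ⊓ G₁) ⊓ Subgroup.centralizer (((S : Subgroup G) ⊓ G₁ : Subgroup G) : Set G)) ≠ ⊥) (hle : Cfsg.omegaOne p (((S : Subgroup G) ⊓ G₁) ⊓ Subgroup.centralizer (((S : Subgroup G) ⊓ G₁ : Subgroup G) : Set G)) ≤ Cfsg.omegaOne p ((S : Subgroup G) ⊓ Subgroup.centralizer ((S : Subgroup G) : Set G))) : Cfsg.IsOfParabolicCharacteristic p ↥G₁ := by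
  intro R hR hR1 hpar
  haveI hpc : ∀ {X : Type _} [Group X] [Finite X], (pCore p X).Characteristic :=
    fun {X} _ _ => CfsgLib.Core.pCore_characteristic (G := X) p
  obtain ⟨T, hTN⟩ := hpar
  set N := Subgroup.normalizer (R : Set ↥G₁) with hN
  have hRT : R ≤ (T : Subgroup ↥G₁) := by
    have hRN : R ≤ N := Subgroup.le_normalizer
    haveI : (R.subgroupOf N).Normal := Subgroup.normal_in_normalizer
    have := CfsgLib.Core.sylow_inf_le (T.subtype hTN) (N := R.subgroupOf N) hR.comap_subtype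
    intro x hx
    have h2 := this (show (⟨x, hRN hx⟩ : ↥N) ∈ R.subgroupOf N from hx)
    rwa [Sylow.coe_subtype, Subgroup.mem_subgroupOf] at h2
  have hRT1 : R.subgroupOf (T : Subgroup ↥G₁) ≠ ⊥ := fun h => hR1 (le_bot_iff.mp fun x hx => by
    have : (⟨x, hRT hx⟩ : ↥(T : Subgroup ↥G₁)) = 1 := Subgroup.mem_bot.mp (h ▸ (show (⟨x, hRT hx⟩ : ↥(T : Subgroup ↥G₁)) ∈ R.subgroupOf _ from hx))
    exact congrArg Subtype.val this)
  haveI : (R.subgroupOf (T : Subgroup ↥G₁)).Normal := (Subgroup.normal_subgroupOf_iff_le_normalizer hRT).mpr hTN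
  obtain ⟨z₀, hz₀R, hz₀1, hz₀p, hz₀c⟩ :=
    CfsgLib.ThompsonNPC.exists_central_of_normal T.2 (R.subgroupOf (T : Subgroup ↥G₁)) hRT1
  set z₁ : ↥G₁ := (z₀ : ↥G₁) with hz₁
  set z : G := (z₁ : G) with hz
  have hz1 : z ≠ 1 := fun h => hz₀1 (Subtype.ext (Subtype.ext h))
  have hzp : z ^ p = 1 := by
    have := congrArg (fun u : ↥(T : Subgroup ↥G₁) => ((u : ↥G₁) : G)) hz₀p
    simpa using this
  have hzT : ∀ t ∈ (T : Subgroup ↥G₁), t * z₁ = z₁ * t := fun t ht => congrArg Subtype.val (hz₀c ⟨t, ht⟩)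
  -- a Sylow subgroup of `G` centralizes `z`
  obtain ⟨g, -, hg⟩ := exists_conj_le_sylow S (M := ⊤) le_top (T.2.map G₁.subtype) le_top
  set T' := ((T : Subgroup ↥G₁).map G₁.subtype).map (MulAut.conj g).toMonoidHom with hT'
  have hT'eq : T' = (S : Subgroup G) ⊓ G₁ := by
    refine Subgroup.eq_of_le_of_card_ge ?_ ?_
    · rintro _ ⟨u, hu, rfl⟩
      exact ⟨hg u hu, (inferInstance : G₁.Normal).conj_mem u (Subgroup.map_subtype_le _ hu) g⟩
    · rw [hT', CfsgLib.SPE.card_map_conj, Subgroup.card_map_of_injective G₁.subtype_injective,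
        ← Nat.card_congr (Subgroup.subgroupOfEquivOfLe (inf_le_right : (S : Subgroup G) ⊓ G₁ ≤ G₁)).toEquiv]
      obtain ⟨Q, hQ⟩ := ((S.2.to_le (inf_le_left : (S : Subgroup G) ⊓ G₁ ≤ _)).comap_subtype (K := G₁)).exists_le_sylow
      exact (Subgroup.card_le_of_le hQ).trans (by rw [Q.card_eq_multiplicity, T.card_eq_multiplicity])
  have hzZ : g * z * g⁻¹ ∈ omegaOne p ((S : Subgroup G) ⊓ Subgroup.centralizer ((S : Subgroup G) : Set G)) := by
    refine hle (mem_omegaZ.mpr ⟨⟨?_, ?_⟩, by rw [conj_pow, hzp, mul_one, mul_inv_cancel]⟩)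
    · rw [← hT'eq]; exact ⟨z, ⟨z₁, z₀.2, rfl⟩, rfl⟩
    · rw [← hT'eq]
      rintro _ ⟨_, ⟨t, ht, rfl⟩, rfl⟩
      have h := congrArg (fun u : ↥G₁ => (u : G)) (hzT t ht)
      simp only [Subgroup.coe_mul] at h
      show g * (t : G) * g⁻¹ * (g * z * g⁻¹) = g * z * g⁻¹ * (g * (t : G) * g⁻¹)
      calc g * (t : G) * g⁻¹ * (g * z * g⁻¹) = g * ((t : G) * z) * g⁻¹ := by group
        _ = g * (z * (t : G)) * g⁻¹ := by rw [h]
        _ = g * z * g⁻¹ * (g * (t : G) * g⁻¹) := by group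
  have hSC : ((g⁻¹ • S : Sylow p G) : Subgroup G) ≤ Subgroup.centralizer ({z} : Set G) := by
    rintro _ ⟨s, hs, rfl⟩
    rw [Subgroup.mem_centralizer_singleton_iff]
    have := ((omegaZ_le _ hzZ).2 s hs)
    show g⁻¹ * s * g⁻¹⁻¹ * z = z * (g⁻¹ * s * g⁻¹⁻¹)
    calc g⁻¹ * s * g⁻¹⁻¹ * z = g⁻¹ * (s * (g * z * g⁻¹)) * g := by group
      _ = g⁻¹ * ((g * z * g⁻¹) * s) * g := by rw [this]
      _ = z * (g⁻¹ * s * g⁻¹⁻¹) := by group
  have hord : orderOf z = p := orderOf_eq_prime hzp hz1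
  have hCN := CfsgLib.SPE.centralizer_le_normalizer_zpowers z
  have hloc := hG (Subgroup.zpowers z) (CfsgLib.SPE.isPGroup_zpowers hord) (CfsgLib.SPE.zpowers_ne_bot hord)
    ⟨g⁻¹ • S, hSC.trans hCN⟩
  haveI : ((Subgroup.centralizer ({z} : Set G)).subgroupOf (Subgroup.normalizer ((Subgroup.zpowers z : Subgroup G) : Set G))).Normal := by
    refine (Subgroup.normal_subgroupOf_iff_le_normalizer hCN).mpr ?_
    rw [show Subgroup.centralizer ({z} : Set G) = Subgroup.centralizer ((Subgroup.zpowers z : Subgroup G) : Set G) by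
      rw [Subgroup.zpowers_eq_closure, Subgroup.centralizer_closure]]
    exact normalizer_centralizer_ge le_rfl
  have hC : HasCharP p ↥(Subgroup.centralizer ({z} : Set G)) :=
    charP_congr (Subgroup.subgroupOfEquivOfLe hCN) (charP_of_normal hloc _)
  -- pass to `G₁`
  set X := Subgroup.centralizer ({z₁} : Set ↥G₁) with hX
  have hXeq : X = (Subgroup.centralizer ({z} : Set G)).subgroupOf G₁ := by
    ext u
    rw [hX, Subgroup.mem_subgroupOf, Subgroup.mem_centralizer_singleton_iff, Subgroup.mem_centralizer_singleton_iff]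
    exact ⟨fun h => congrArg Subtype.val h, fun h => Subtype.ext h⟩
  have hXc : HasCharP p ↥X := by
    haveI : ((Subgroup.centralizer ({z} : Set G) ⊓ G₁).subgroupOf (Subgroup.centralizer ({z} : Set G))).Normal := by
      rw [Subgroup.inf_subgroupOf_left]; infer_instance
    have h2 := charP_congr (Subgroup.subgroupOfEquivOfLe (inf_le_left : Subgroup.centralizer ({z} : Set G) ⊓ G₁ ≤ _))
      (charP_of_normal hC ((Subgroup.centralizer ({z} : Set G) ⊓ G₁).subgroupOf (Subgroup.centralizer ({z} : Set G))))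
    refine charP_congr ?_ h2
    rw [hXeq, ← Subgroup.inf_subgroupOf_right]
    exact (Subgroup.subgroupOfEquivOfLe inf_le_right).symm
  have hTX : (T : Subgroup ↥G₁) ≤ X := fun t ht => Subgroup.mem_centralizer_singleton_iff.mpr (hzT t ht)
  have hL : HasCharP p ↥(X.subgroupOf N) := by
    have h1 : HasCharP p ↥(N.subgroupOf X) := by
      refine charP_of_pCore_le_normalizer hXc _ (le_trans ?_ Subgroup.le_normalizer)
      intro x hx
      have h2 := CfsgLib.Core.pCore_le_sylow (T.subtype hTX) hx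
      rw [Sylow.coe_subtype, Subgroup.mem_subgroupOf] at h2
      exact hTN h2
    refine charP_congr ?_ h1
    exact ((Subgroup.inf_subgroupOf_left N X ▸ Subgroup.subgroupOfEquivOfLe (inf_le_left : X ⊓ N ≤ X)) :
      ↥(N.subgroupOf X) ≃* ↥(X ⊓ N : Subgroup ↥G₁)).trans
        (Subgroup.inf_subgroupOf_right X N ▸ (Subgroup.subgroupOfEquivOfLe (inf_le_right : X ⊓ N ≤ N)).symm)
  show Subgroup.centralizer (pCore p ↥N : Set ↥N) ≤ pCore p ↥N
  set D := Subgroup.centralizer (pCore p ↥N : Set ↥N) with hD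
  have hDL : D ≤ X.subgroupOf N := by
    intro d hd
    have hzN : (⟨z₁, Subgroup.le_normalizer hz₀R⟩ : ↥N) ∈ pCore p ↥N := by
      have hn : (R.subgroupOf N).Normal := Subgroup.normal_in_normalizer
      exact CfsgLib.Core.le_pCore hn hR.comap_subtype hz₀R
    rw [Subgroup.mem_subgroupOf, hX, Subgroup.mem_centralizer_singleton_iff]
    exact (congrArg Subtype.val (hd _ hzN)).symm
  haveI : D.Normal := inferInstance
  have hDc : HasCharP p ↥D :=
    charP_congr (Subgroup.subgroupOfEquivOfLe hDL) (charP_of_normal hL (D.subgroupOf (X.subgroupOf N)))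
  intro d hd
  have hdD : (⟨d, hd⟩ : ↥D) ∈ pCore p ↥D := by
    refine hDc fun o ho => Subtype.ext ?_
    exact hd (o : ↥N) (CfsgLib.Core.pCore_subgroup_map_le p D ⟨o, ho, rfl⟩)
  exact CfsgLib.Core.pCore_subgroup_map_le p D ⟨⟨d, hd⟩, hdD, rfl⟩

end Cfsg.Agent.S2897
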