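import Cfsg.Statements.S2898
import Cfsg.Agent.Lib.CharPLocal
import Mathlib.GroupTheory.FixedPointFree

set_option autoImplicit false
open Cfsg

namespace Cfsg.Agent.S2898
open CfsgLib.CharPLocal
open scoped commutatorElement

/-- Let G be a finite group of even order with parabolic characteristic 2. If the centre of G ⧸ O(G) is trivial, then O(G) = 1. -/
theorem result {G : Type*} [Group G] [Finite G] (h2 : 2 ∣ Nat.card G) (hG : Cfsg.IsOfParabolicCharacteristic 2 G) [hN : (Cfsg.oddCore G).Normal] (hZ : Subgroup.center (G ⧸ Cfsg.oddCore G) = ⊥) : Cfsg.oddCore G = ⊥ := by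
  classical
  haveI := Fact.mk Nat.prime_two
  by_contra hO
  set O := Cfsg.oddCore G
  have hOodd : (Nat.card ↥O).Coprime 2 := CfsgLib.Core.card_pPrimeCore_coprime 2
  -- an involution central in a Sylow subgroup fixes nothing in `O`
  have key : ∀ (S : Sylow 2 G) (z : G), z ∈ (S : Subgroup G) → z ≠ 1 →
      (∀ s ∈ (S : Subgroup G), s * z = z * s) → ∀ x ∈ O, x * z = z * x → x = 1 := by
    intro S z hzS hz1 hzc x hx hxz
    set C := Subgroup.centralizer ({z} : Set G)
    have hb := CfsgLib.PConstrained.charP_pPrimeCore_eq_bot (charP_centralizer_of_parabolic hG S hzS hz1 hzc)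
    have hcop : (Nat.card ↥(O.subgroupOf C)).Coprime 2 :=
      hOodd.coprime_dvd_left (Subgroup.card_comap_dvd_of_injective O C.subtype C.subtype_injective)
    have : (⟨x, Subgroup.mem_centralizer_singleton_iff.mpr hxz⟩ : ↥C) ∈ Cfsg.pPrimeCore 2 ↥C :=
      CfsgLib.Core.le_pPrimeCore inferInstance hcop (Subgroup.mem_subgroupOf.mpr hx)
    rw [hb, Subgroup.mem_bot] at this
    exact congrArg Subtype.val this
  obtain ⟨S⟩ := (inferInstance : Nonempty (Sylow 2 G))
  have hSne : (S : Subgroup G) ≠ ⊥ := fun h => S.ne_bot_of_dvd_card h2 h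
  obtain ⟨z, hzS, hz, hzc⟩ := exists_central_order S.2 le_rfl Subgroup.le_normalizer hSne
  have hz1 : z ≠ 1 := fun e => by rw [e, orderOf_one] at hz; omega
  have hzz : z * z = 1 := by rw [← pow_two, ← hz, pow_orderOf_eq_one]
  -- so its conjugates invert `O`
  have hinv : ∀ x ∈ O, z * x * z⁻¹ = x⁻¹ := by
    let φ : ↥O →* ↥O := (MulAut.conjNormal z).toMonoidHom
    have hφ : ∀ x : ↥O, ((φ x : ↥O) : G) = z * x * z⁻¹ := fun x => rfl
    have hfpf : MonoidHom.FixedPointFree φ := fun x hx => Subtype.ext (key S z hzS hz1 hzc x x.2 (by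
      have h := congrArg Subtype.val hx
      rw [hφ] at h
      exact (mul_inv_eq_iff_eq_mul.mp h).symm))
    have hinvol : Function.Involutive φ := fun x => Subtype.ext (by
      rw [hφ, hφ, show z * (z * (x : G) * z⁻¹) * z⁻¹ = z * z * x * (z * z)⁻¹ by group, hzz, inv_one, one_mul, mul_one])
    intro x hx
    have h := congrFun (hfpf.coe_eq_inv_of_involutive hinvol) ⟨x, hx⟩
    exact congrArg Subtype.val h
  set CC := Subgroup.centralizer (O : Set G) with hCC
  have hCCodd : (Nat.card ↥CC).Coprime 2 := by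
    by_contra hnc
    have hdvd : 2 ∣ Nat.card ↥CC := by
      by_contra h'
      exact hnc (Nat.prime_two.coprime_iff_not_dvd.mpr h').symm
    obtain ⟨⟨u, huC⟩, hu⟩ := exists_prime_orderOf_dvd_card' 2 hdvd
    obtain ⟨g, -, hg⟩ := CfsgLib.LocalBasic.exists_conj_le_sylow S (M := ⊤) (R := Subgroup.zpowers u) le_top
      (IsPGroup.of_card (n := 1) (by rw [Nat.card_zpowers, ← Subgroup.orderOf_mk u huC, hu, pow_one])) le_top
    have hne : (S : Subgroup G) ⊓ CC ≠ ⊥ := fun h => by
      have hmem : g * u * g⁻¹ ∈ (S : Subgroup G) ⊓ CC :=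
        Subgroup.mem_inf.mpr ⟨hg u (Subgroup.mem_zpowers u), (inferInstance : CC.Normal).conj_mem u huC g⟩
      rw [h, Subgroup.mem_bot, mul_inv_eq_one] at hmem
      have : u = 1 := by simpa using hmem
      subst this
      rw [Subgroup.orderOf_mk, orderOf_one] at hu
      omega
    obtain ⟨v, hv, hv2, hvc⟩ := exists_central_order S.2 inf_le_left (CfsgLib.LocalBasic.normalizer_inf_ge Subgroup.le_normalizer
      (by rw [Subgroup.normalizer_eq_top CC]; exact le_top)) hne
    refine hO ((Subgroup.eq_bot_iff_forall _).mpr fun x hx => ?_)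
    exact key S v hv.1 (fun e => by rw [e, orderOf_one] at hv2; omega) hvc x hx (Subgroup.mem_centralizer_iff.mp hv.2 x hx)
  have hCCO : CC ≤ O := CfsgLib.Core.le_pPrimeCore inferInstance hCCodd
  have hcen : (QuotientGroup.mk z : G ⧸ O) ∈ Subgroup.center (G ⧸ O) := by
    rw [Subgroup.mem_center_iff]
    intro q
    obtain ⟨g, rfl⟩ := QuotientGroup.mk'_surjective O q
    rw [QuotientGroup.mk'_apply, ← QuotientGroup.mk_mul, ← QuotientGroup.mk_mul, QuotientGroup.eq]
    refine hCCO (Subgroup.mem_centralizer_iff.mpr fun x hx => ?_)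
    have hn : ∀ a : G, ∀ y ∈ O, a * y * a⁻¹ ∈ O := fun a y hy => hN.conj_mem y hy a
    -- `(g z)⁻¹ (z g) = z⁻¹ (g⁻¹ z g)`
    have h1 : g⁻¹ * z * g * x * (g⁻¹ * z * g)⁻¹ = x⁻¹ := by
      have := hinv (g * x * g⁻¹) (hn g x hx)
      calc g⁻¹ * z * g * x * (g⁻¹ * z * g)⁻¹ = g⁻¹ * (z * (g * x * g⁻¹) * z⁻¹) * g := by group
        _ = x⁻¹ := by rw [this]; group
    have h2 : (g * z)⁻¹ * (z * g) * x * ((g * z)⁻¹ * (z * g))⁻¹ = x := by
      calc (g * z)⁻¹ * (z * g) * x * ((g * z)⁻¹ * (z * g))⁻¹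
          = z⁻¹ * (g⁻¹ * z * g * x * (g⁻¹ * z * g)⁻¹) * z := by group
        _ = z⁻¹ * x⁻¹ * z := by rw [h1]
        _ = z⁻¹ * (z * x * z⁻¹) * z := by rw [hinv x hx]
        _ = x := by group
    exact (mul_inv_eq_iff_eq_mul.mp h2).symm
  rw [hZ, Subgroup.mem_bot, QuotientGroup.eq_one_iff] at hcen
  have := Nat.dvd_gcd (hz ▸ Subgroup.orderOf_dvd_natCard O hcen) (dvd_refl 2)
  rw [hOodd] at this
  omega

end Cfsg.Agent.S2898
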