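import Cfsg.Statements.S2905
import Cfsg.Agent.Lib.PIrr
import Cfsg.Agent.Lib.PReduced
import Cfsg.Agent.Lib.SPE
import Cfsg.Agent.Lib.BasicProperty
import Cfsg.Agent.Lib.GroupB.Subnormal

set_option autoImplicit false
open Cfsg

namespace Cfsg.Agent.S2905

open CfsgLib.LocalBasic CfsgLib.PIrr
open scoped commutatorElement

theorem index_eq_relIndex {G : Type*} [Group G] [Finite G] {N K : Subgroup G} [K.Normal] (h : N ⊔ K = ⊤) :
    N.index = N.relIndex K := by
  have e1 : K.index = K.relIndex N := by
    rw [← Subgroup.relIndex_top_right, ← h, Subgroup.relIndex_sup_right]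
  have e2 := Subgroup.relIndex_mul_relIndex ⊥ (N ⊓ K) N bot_le inf_le_left
  have e3 := Subgroup.relIndex_mul_relIndex ⊥ (N ⊓ K) K bot_le inf_le_right
  simp only [Subgroup.relIndex_bot_left, Subgroup.inf_relIndex_left, Subgroup.inf_relIndex_right] at e2 e3
  have e4 := K.card_mul_index.trans N.card_mul_index.symm
  rw [e1, ← e2, ← e3] at e4
  have h5 : 0 < Nat.card ↥(N ⊓ K : Subgroup G) * K.relIndex N := by rw [e2]; exact Nat.card_pos
  apply Nat.eq_of_mul_eq_mul_left h5
  rw [← e4]; ring

variable {P : Type*} [Group P] [Finite P] {p : ℕ} [hpf : Fact p.Prime]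

theorem two_primes (S : Sylow p P) (M : Subgroup P) (hM : IsCoatom M) (hSM : (S : Subgroup P) ≤ M)
    (huniq : ∀ X : Subgroup P, X ≠ ⊤ → (S : Subgroup P) ≤ X → X ≤ M) (K : Subgroup P) [K.Normal]
    (hKS : (S : Subgroup P) ⊔ K = ⊤) (T : Sylow p ↥K) (hT : (T : Subgroup ↥K).Normal) :
    (Nat.card P).primeFactors.card ≤ 2 := by
  classical
  haveI := T.characteristic_of_normal hT
  set T' := (T : Subgroup ↥K).map K.subtype with hT'def
  haveI hT'n : T'.Normal := inferInstance
  have hT'S : T' ≤ (S : Subgroup P) :=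
    (CfsgLib.Core.le_pCore hT'n (T.2.map K.subtype)).trans (CfsgLib.Core.pCore_le_sylow S)
  by_contra hgt
  apply hM.1
  have key : ∀ q ∈ (Nat.card P).primeFactors, q ^ (Nat.card P).factorization q ∣ Nat.card M := by
    intro q hq
    have hqp : q.Prime := Nat.prime_of_mem_primeFactors hq
    by_cases hqp' : q = p
    · subst hqp'
      rw [← S.card_eq_multiplicity]
      exact Subgroup.card_dvd_of_le hSM
    haveI := Fact.mk hqp
    obtain ⟨R⟩ := (inferInstance : Nonempty (Sylow q ↥K))
    set R' := (R : Subgroup ↥K).map K.subtype with hR'def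
    have hR' : IsPGroup q ↥R' := R.2.map _
    have hR'K : R' ≤ K := Subgroup.map_subtype_le _
    set W := T' ⊔ R' with hW
    have hRW : Subgroup.normalizer (R' : Set P) ≤ Subgroup.normalizer (W : Set P) :=
      normalizer_sup_ge (by rw [Subgroup.normalizer_eq_top T']; exact le_top) le_rfl
    have hTW : T' ≤ Subgroup.normalizer (W : Set P) := le_sup_left.trans Subgroup.le_normalizer
    have hind : ¬ q ∣ R'.relIndex K := by
      rw [Subgroup.relIndex, hR'def, Subgroup.subgroupOf, Subgroup.comap_map_eq_self_of_injective K.subtype_injective]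
      exact R.not_dvd_index
    have hsup : Subgroup.normalizer (W : Set P) ⊔ K = ⊤ := by
      refine eq_top_iff.mpr fun g _ => ?_
      have hle : R'.map (MulAut.conj g).toMonoidHom ≤ K := by
        rintro _ ⟨r, hr, rfl⟩; exact (inferInstance : K.Normal).conj_mem r (hR'K hr) g
      obtain ⟨b, hb, hbeq⟩ := CfsgLib.SPE.exists_conj_of_sylow_in hR'K hle hR' (hR'.map _) hind
        (CfsgLib.SPE.card_map_conj R' g)
      have hbg : b * g ∈ Subgroup.normalizer (R' : Set P) := by
        refine mem_normalizer_of_conj_map_eq ?_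
        refine Eq.trans ?_ hbeq
        conv_rhs => rw [Subgroup.map_map]
        rw [map_mul]
        rfl
      have : g = b⁻¹ * (b * g) := by group
      rw [this]
      exact Subgroup.mul_mem _ (Subgroup.mem_sup_right (K.inv_mem hb)) (Subgroup.mem_sup_left (hRW hbg))
    have hnd : ¬ p ∣ (Subgroup.normalizer (W : Set P)).index := by
      rw [index_eq_relIndex hsup]
      intro hd
      have h1 := hd.trans (Subgroup.relIndex_dvd_of_le_left K hTW)
      rw [Subgroup.relIndex, hT'def, Subgroup.subgroupOf, Subgroup.comap_map_eq_self_of_injective K.subtype_injective] at h1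
      exact T.not_dvd_index h1
    obtain ⟨m, hm⟩ := CfsgLib.BasicProperty.exists_conj_sylow_le hnd S
    set W' := W.map (MulAut.conj m⁻¹).toMonoidHom with hW'
    have hSW : (S : Subgroup P) ≤ Subgroup.normalizer (W' : Set P) := by
      intro s hs
      refine mem_normalizer_of_conj_map_eq ?_
      conv_rhs => rw [hW', ← conj_map_eq_of_mem_normalizer (hm s hs)]
      rw [hW', Subgroup.map_map, Subgroup.map_map]
      congr 1
      ext x
      simp [mul_assoc]
    have hRdvd : q ^ (Nat.card P).factorization q ∣ Nat.card W' := by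
      have hKq : q ^ (Nat.card P).factorization q ∣ Nat.card K := by
        have h1 : Nat.card P ∣ Nat.card (S : Subgroup P) * Nat.card K := by
          have := CfsgLib.Core.card_sup_dvd_of_normal (S : Subgroup P) K
          rwa [hKS, Subgroup.card_top] at this
        refine Nat.Coprime.dvd_of_dvd_mul_left ?_ ((Nat.ordProj_dvd _ _).trans h1)
        rw [S.card_eq_multiplicity]
        exact Nat.Coprime.pow _ _ ((Nat.coprime_primes hqp hpf.out).mpr hqp')
      have h2 : q ^ (Nat.card P).factorization q ∣ Nat.card R' := by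
        rw [hR'def, Subgroup.card_map_of_injective K.subtype_injective, R.card_eq_multiplicity]
        exact Nat.pow_dvd_pow _ ((hqp.pow_dvd_iff_le_factorization Nat.card_pos.ne').mp hKq)
      rw [hW', Subgroup.card_map_of_injective (MulEquiv.injective (MulAut.conj m⁻¹))]
      exact h2.trans (Subgroup.card_dvd_of_le le_sup_right)
    by_cases htop : (S : Subgroup P) ⊔ W' = ⊤
    · exfalso
      apply hgt
      have hWd : Nat.card W' ∣ Nat.card R' * Nat.card T' := by
        rw [hW', Subgroup.card_map_of_injective (MulEquiv.injective (MulAut.conj m⁻¹)), hW, sup_comm]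
        exact CfsgLib.Core.card_sup_dvd_of_normal R' T'
      have hPd : Nat.card P ∣ Nat.card (S : Subgroup P) * Nat.card W' := by
        haveI : W'.Normal := Subgroup.normalizer_eq_top_iff.mp
          (eq_top_iff.mpr (htop ▸ sup_le hSW Subgroup.le_normalizer))
        have := CfsgLib.Core.card_sup_dvd_of_normal (S : Subgroup P) W'
        rwa [htop, Subgroup.card_top] at this
      refine (Finset.card_le_card (t := {p, q}) fun r hr => ?_).trans Finset.card_le_two
      have hr' := Nat.prime_of_mem_primeFactors hr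
      have := ((Nat.dvd_of_mem_primeFactors hr).trans hPd).trans (Nat.mul_dvd_mul_left _ hWd)
      obtain ⟨a, ha⟩ := S.2.exists_card_eq
      obtain ⟨b, hb⟩ := hR'.exists_card_eq
      obtain ⟨c, hc⟩ := (S.2.to_le hT'S).exists_card_eq
      rw [ha, hb, hc] at this
      simp only [Finset.mem_insert, Finset.mem_singleton]
      rcases hr'.dvd_mul.mp this with h | h
      · exact Or.inl ((Nat.prime_dvd_prime_iff_eq hr' hpf.out).mp (hr'.dvd_of_dvd_pow h))
      rcases hr'.dvd_mul.mp h with h | h
      · exact Or.inr ((Nat.prime_dvd_prime_iff_eq hr' hqp).mp (hr'.dvd_of_dvd_pow h))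
      · exact Or.inl ((Nat.prime_dvd_prime_iff_eq hr' hpf.out).mp (hr'.dvd_of_dvd_pow h))
    · exact hRdvd.trans (Subgroup.card_dvd_of_le (le_sup_right.trans (huniq _ htop le_sup_left)))
  refine Subgroup.eq_top_of_card_eq M (Nat.dvd_antisymm (Subgroup.card_subgroup_dvd_card M) ?_)
  rw [← Nat.factorization_le_iff_dvd Nat.card_pos.ne' Nat.card_pos.ne']
  intro q
  by_cases hq : q ∈ (Nat.card P).primeFactors
  · exact ((Nat.prime_of_mem_primeFactors hq).pow_dvd_iff_le_factorization Nat.card_pos.ne').mp (key q hq)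
  · rw [← Nat.support_factorization, Finsupp.notMem_support_iff] at hq
    simp [hq]


/-- Let P be a finite p-minimal group (a Sylow p-subgroup S is not normal and lies in a unique maximal subgroup M of P) and let F be the normal core of M. Then: every subnormal subgroup N of P contained in M satisfies N ∩ S ≤ O_p(P); if O^p(P) has a normal Sylow p-subgroup then the order of P has at most two prime divisors; every normal subgroup N of P either contains O^p(P) or is contained in F; and O^p(P)F ⧸ F is a minimal normal subgroup of P ⧸ F. -/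
theorem result {P : Type*} [Group P] [Finite P] {p : ℕ} [Fact p.Prime] (hP : Cfsg.IsPMinimal p P) (S : Sylow p P) (M : Subgroup P) (hM : IsCoatom M) (hSM : (S : Subgroup P) ≤ M) [hF : M.normalCore.Normal] : (∀ N : Subgroup P, N.IsSubnormal → N ≤ M → N ⊓ (S : Subgroup P) ≤ Cfsg.pCore p P) ∧ ((∀ T : Sylow p ↥(Cfsg.pResidual p P), (T : Subgroup ↥(Cfsg.pResidual p P)).Normal) → (Nat.card P).primeFactors.card ≤ 2) ∧ (∀ N : Subgroup P, N.Normal → Cfsg.pResidual p P ≤ N ∨ N ≤ M.normalCore) ∧ (∀ N : Subgroup P, N.Normal → M.normalCore ≤ N → N ≤ Cfsg.pResidual p P ⊔ M.normalCore → N = M.normalCore ∨ N = Cfsg.pResidual p P ⊔ M.normalCore) ∧ M.normalCore < Cfsg.pResidual p P ⊔ M.normalCore := by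
  obtain ⟨hnn, M₀, ⟨hM₀, hSM₀⟩, hu⟩ := hP S
  have hMu : ∀ X : Subgroup P, X ≠ ⊤ → (S : Subgroup P) ≤ X → X ≤ M := by
    intro X hX hSX
    obtain ⟨X', hX', hle⟩ := (eq_top_or_exists_le_coatom X).resolve_left hX
    rw [hu M ⟨hM, hSM⟩, ← hu X' ⟨hX', hSX.trans hle⟩]
    exact hle
  haveI := CfsgLib.PResidual.pResidual_characteristic (G := P) (p := p)
  have hKS : (S : Subgroup P) ⊔ pResidual p P = ⊤ := CfsgLib.PResidual.sup_pResidual_eq_top S
  have h3 : ∀ N : Subgroup P, N.Normal → pResidual p P ≤ N ∨ N ≤ M.normalCore := by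
    intro N hN
    haveI := hN
    by_cases htop : N ⊔ (S : Subgroup P) = ⊤
    · exact Or.inl (pResidual_le_of_le_sup S.2 (htop ▸ le_top))
    · exact Or.inr (Subgroup.normal_le_normalCore.mpr (le_sup_left.trans (hMu _ htop le_sup_right)))
  have h5 : ¬ pResidual p P ≤ M.normalCore := fun h =>
    hM.1 (top_le_iff.mp (hKS.ge.trans (sup_le hSM (h.trans M.normalCore_le))))
  have hcore : M.normalCore ⊓ (S : Subgroup P) ≤ pCore p P := by
    set N := M.normalCore with hN
    obtain ⟨Q, hQ⟩ := CfsgLib.PReduced.exists_sylow_inf S (C := N) (by rw [Subgroup.normalizer_eq_top]; exact le_top)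
    have hfr := Sylow.normalizer_sup_eq_top Q
    have hQ' : (Q : Subgroup ↥N).map N.subtype = (S : Subgroup P) ⊓ N := by
      rw [hQ, Subgroup.map_subgroupOf_eq_of_le inf_le_right]
    rw [hQ'] at hfr
    by_cases hn : Subgroup.normalizer (((S : Subgroup P) ⊓ N : Subgroup P) : Set P) = ⊤
    · rw [inf_comm]
      exact CfsgLib.Core.le_pCore (Subgroup.normalizer_eq_top_iff.mp hn) (S.2.to_le inf_le_left)
    · exfalso
      have hle := hMu _ hn (normalizer_inf_ge Subgroup.le_normalizer (by rw [Subgroup.normalizer_eq_top N]; exact le_top))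
      exact hM.1 (top_le_iff.mp (hfr.ge.trans (sup_le hle M.normalCore_le)))
  refine ⟨fun N hN hNM => ?_, fun h => ?_, h3, fun N hN h1 h2 => ?_, ?_⟩
  · obtain ⟨D, hND, hDM, hMD, hD⟩ := CfsgLib.GroupB.Subnormal.exists_invariant hN hNM
    have hDtop : D ≠ ⊤ := fun e => hM.1 (top_le_iff.mp (e ▸ hDM))
    have hnD : Subgroup.normalizer (D : Set P) = ⊤ := by
      by_contra hc
      exact hD.resolve_left hDtop (hMu _ hc (hSM.trans hMD))
    haveI := Subgroup.normalizer_eq_top_iff.mp hnD
    exact (inf_le_inf_right _ (hND.trans (Subgroup.normal_le_normalCore.mpr hDM))).trans hcore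
  · obtain ⟨T⟩ := (inferInstance : Nonempty (Sylow p ↥(pResidual p P)))
    exact two_primes S M hM hSM hMu (pResidual p P) hKS T (h T)
  · rcases h3 N hN with h | h
    · exact Or.inr (le_antisymm h2 (sup_le h h1))
    · exact Or.inl (le_antisymm h h1)
  · exact right_lt_sup.mpr h5

end Cfsg.Agent.S2905
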