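import Cfsg.Statements.S2906
import Cfsg.Agent.Lib.GenFitting
import Cfsg.Agent.Lib.FStarComm
import Cfsg.Agent.Lib.SubnormalSylow
import Cfsg.Agent.Lib.GroupB.Coprime

set_option autoImplicit false
open Cfsg

namespace Cfsg.Agent.S2906
open scoped commutatorElement Pointwise
open Cfsg CfsgLib.Components CfsgLib.GroupB.Coprime

variable {G : Type*} [Group G] [Finite G] {p : ℕ} [hp : Fact p.Prime]

theorem le_M {S M : Subgroup G} (hu : ∀ N, IsCoatom N → S ≤ N → N = M) {U : Subgroup G} (hSU : S ≤ U) (hU : U ≠ ⊤) :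
    U ≤ M := by
  obtain ⟨N, hN, hUN⟩ := (IsCoatomic.eq_top_or_exists_le_coatom U).resolve_left hU
  exact hu N hN (hSU.trans hUN) ▸ hUN

theorem sylow_normal_of_le {S M : Subgroup G} (hM : M ≠ ⊤) (hu : ∀ N, IsCoatom N → S ≤ N → N = M)
    {N : Subgroup G} [N.Normal] (hNM : N ≤ M) {r : ℕ} [Fact r.Prime] {R : Subgroup G} (hR : IsSylowOf r R N)
    (hSR : S ≤ Subgroup.normalizer (R : Set G)) : R.Normal := by
  obtain ⟨Q, hQ⟩ := hR.exists_sylow
  have hfr := Sylow.normalizer_sup_eq_top Q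
  rw [hQ] at hfr
  rw [← Subgroup.normalizer_eq_top_iff]
  by_contra h
  exact hM (top_le_iff.mp (hfr.ge.trans (sup_le (le_M hu hSR h) hNM)))

theorem coprime_of_le_M (hO : pCore p G = ⊥) (S : Sylow p G) {M : Subgroup G} (hM : M ≠ ⊤)
    (hu : ∀ N, IsCoatom N → (S : Subgroup G) ≤ N → N = M) {N : Subgroup G} [N.Normal] (hNM : N ≤ M) :
    (Nat.card ↥N).Coprime p := by
  have hsy : IsSylowOf p ((S : Subgroup G) ⊓ N) N :=
    ⟨inf_le_right, CfsgLib.SubnormalSylow.card_sylow_inf S.2 S.not_dvd_index (Subgroup.Normal.isSubnormal inferInstance)⟩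
  have hn := sylow_normal_of_le hM hu hNM hsy (CfsgLib.LocalBasic.normalizer_inf_ge Subgroup.le_normalizer
    (by rw [Subgroup.normalizer_eq_top N]; exact le_top))
  have hb : (S : Subgroup G) ⊓ N = ⊥ := le_bot_iff.mp (hO ▸ CfsgLib.Core.le_pCore hn (S.2.to_le inf_le_left))
  refine Nat.Coprime.symm (hp.out.coprime_iff_not_dvd.mpr fun hd => ?_)
  have := hsy.2
  rw [hb, Subgroup.card_bot] at this
  have h0 := (Nat.pow_eq_one.mp this.symm).resolve_left hp.out.ne_one
  have := hp.out.factorization_pos_of_dvd Nat.card_pos.ne' hd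
  omega

theorem nilpotent_of_coprime (S : Sylow p G) {M : Subgroup G} (hM : M ≠ ⊤)
    (hu : ∀ N, IsCoatom N → (S : Subgroup G) ≤ N → N = M) {N : Subgroup G} [hN : N.Normal]
    (hc : (Nat.card ↥N).Coprime p) : Group.IsNilpotent ↥N := by
  have hSN : (S : Subgroup G) ≤ Subgroup.normalizer (N : Set G) := by rw [Subgroup.normalizer_eq_top N]; exact le_top
  obtain ⟨k, hk⟩ := IsPGroup.iff_card.mp S.2
  have hcop : (Nat.card ↥(S : Subgroup G)).Coprime (Nat.card ↥N) := by rw [hk]; exact (hc.pow_right k).symm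
  have hsol : Group.IsSolvable ↥(S : Subgroup G) := haveI := S.2.isNilpotent; inferInstance
  have hinv : ∀ r : ℕ, r.Prime → ∃ R : Subgroup G, IsSylowOf r R N ∧ (S : Subgroup G) ≤ Subgroup.normalizer (R : Set G) :=
    fun r hr => haveI := Fact.mk hr; (invariant_sylow hSN hcop (Or.inr hsol) r).1
  by_cases hall : ∀ r : ℕ, r.Prime → ∀ R : Subgroup G, IsSylowOf r R N → (S : Subgroup G) ≤ Subgroup.normalizer (R : Set G) → R ≤ M
  · have hNM : N ≤ M := by
      have hd : Nat.card ↥N ∣ Nat.card ↥(N ⊓ M : Subgroup G) := by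
        rw [← Nat.factorization_le_iff_dvd Nat.card_pos.ne' Nat.card_pos.ne']
        intro r
        by_cases hr : r.Prime
        · obtain ⟨R, hR, hSR⟩ := hinv r hr
          have h1 := Subgroup.card_dvd_of_le (le_inf hR.1 (hall r hr R hR hSR))
          rw [hR.2] at h1
          exact (hr.pow_dvd_iff_le_factorization Nat.card_pos.ne').mp h1
        · simp [Nat.factorization_eq_zero_of_not_prime _ hr]
      exact inf_eq_left.mp (Subgroup.eq_of_le_of_card_ge inf_le_left (Nat.le_of_dvd Nat.card_pos hd))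
    refine (Group.isNilpotent_of_finite_tfae.out 0 3 rfl rfl).mpr fun r hr Q => ?_
    obtain ⟨R, hR, hSR⟩ := hinv r hr.out
    haveI := sylow_normal_of_le hM hu hNM hR hSR
    obtain ⟨Q', hQ'⟩ := hR.exists_sylow
    haveI hQ'n : (Q' : Subgroup ↥N).Normal := by
      have : (Q' : Subgroup ↥N) = R.subgroupOf N := by
        rw [← hQ']; exact (Subgroup.comap_map_eq_self_of_injective N.subtype_injective _).symm
      rw [this]; infer_instance
    haveI := Sylow.unique_of_normal Q' hQ'n
    rwa [Subsingleton.elim Q Q']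
  · push Not at hall
    obtain ⟨r, hr, R, hR, hSR, hRM⟩ := hall
    haveI := Fact.mk hr
    have htop : R ⊔ (S : Subgroup G) = ⊤ := by
      by_contra h
      exact hRM (le_sup_left.trans (le_M hu le_sup_right h))
    have hNR : N ≤ R := by
      intro n hn
      have h := htop.ge (Subgroup.mem_top n)
      rw [mem_sup_of_le_normalizer hSR] at h
      obtain ⟨a, ha, s, hs, rfl⟩ := h
      have hsN : s ∈ N := by simpa using mul_mem (inv_mem (hR.1 ha)) hn
      have : s = 1 := orderOf_eq_one_iff.mp (Nat.eq_one_of_dvd_coprimes hcop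
        (Subgroup.orderOf_dvd_natCard _ hs) (Subgroup.orderOf_dvd_natCard _ hsN))
      rw [this, mul_one]; exact ha
    haveI := (hR.isPGroup.to_le hNR).isNilpotent
    infer_instance

theorem coe_smul (g : G) (Q : Sylow p G) :
    ((g • Q : Sylow p G) : Subgroup G) = (Q : Subgroup G).map (MulAut.conj g).toMonoidHom := rfl

theorem isPerfect_not_nilpotent {N : Subgroup G} {K : Subgroup G} (hK : IsComponent K) (hKN : K ≤ N) :
    ¬ Group.IsNilpotent ↥N := fun _ => component_ne_bot hK
  (eq_bot_of_perfect_solvable (component_perfect hK)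
    (Group.isSolvable_of_isSolvable_injective (Subgroup.inclusion_injective hKN)))

theorem normal_big (hO : pCore p G = ⊥) (S : Sylow p G) {M : Subgroup G} (hM : M ≠ ⊤)
    (hu : ∀ N, IsCoatom N → (S : Subgroup G) ≤ N → N = M) {N : Subgroup G} [hN : N.Normal] {K : Subgroup G}
    (hK : IsComponent K) (hKN : K ≤ N) :
    N ⊔ (S : Subgroup G) = ⊤ ∧ pResidual p G ≤ N ∧ p ∣ Nat.card ↥N := by
  have hd : p ∣ Nat.card ↥N := by
    by_contra h
    exact isPerfect_not_nilpotent hK hKN (nilpotent_of_coprime S hM hu (hp.out.coprime_iff_not_dvd.mpr h).symm)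
  have htop : N ⊔ (S : Subgroup G) = ⊤ := by
    by_contra h
    exact hp.out.coprime_iff_not_dvd.mp (coprime_of_le_M hO S hM hu (le_sup_left.trans (le_M hu le_sup_right h))).symm hd
  refine ⟨htop, CfsgLib.PResidual.pResidual_le fun x => ?_, hd⟩
  obtain ⟨g, rfl⟩ := QuotientGroup.mk'_surjective N x
  obtain ⟨a, ha, s, hs, rfl⟩ := Subgroup.mem_sup_of_normal_left.mp (htop.ge (Subgroup.mem_top g))
  obtain ⟨k, hk⟩ := S.2 ⟨s, hs⟩
  refine ⟨k, ?_⟩
  rw [map_mul, show QuotientGroup.mk' N a = 1 from (QuotientGroup.eq_one_iff a).mpr ha, one_mul, ← map_pow,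
    show s ^ p ^ k = 1 by simpa using congrArg Subtype.val hk, map_one]

theorem component_le_pResidual {K : Subgroup G} (hK : IsComponent K) : K ≤ pResidual p G := by
  haveI : (pResidual p G).Characteristic := CfsgLib.PResidual.pResidual_characteristic
  have hperf : ⁅K.map (QuotientGroup.mk' (pResidual p G)), K.map (QuotientGroup.mk' (pResidual p G))⁆ =
      K.map (QuotientGroup.mk' (pResidual p G)) := by rw [← Subgroup.map_commutator, component_perfect hK]
  haveI := ((CfsgLib.PResidual.isPGroup_quotient (p := p) (G := G)).to_subgroup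
    (K.map (QuotientGroup.mk' (pResidual p G)))).isNilpotent
  have h := eq_bot_of_perfect_solvable hperf inferInstance
  rwa [Subgroup.map_eq_bot_iff, QuotientGroup.ker_mk'] at h

theorem sylow_inf_sSup (S : Sylow p G) {T : Set (Subgroup G)} (hT : ∀ A ∈ T, A.IsSubnormal ∧ (S : Subgroup G) ⊓ A = ⊥) :
    (S : Subgroup G) ⊓ sSup T = ⊥ := by
  induction T, (Set.toFinite T) using Set.Finite.induction_on with
  | empty => simp
  | @insert a s _ _ ih =>
    rw [sSup_insert, CfsgLib.SubnormalSylow.sylow_sup S.2 S.not_dvd_index (hT a (Set.mem_insert _ _)).1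
      (CfsgLib.GroupB.Subnormal.sSup s fun A hA => (hT A (Set.mem_insert_of_mem _ hA)).1),
      (hT a (Set.mem_insert _ _)).2, ih (fun A hA => hT A (Set.mem_insert_of_mem _ hA)), bot_sup_eq]

/-- The orbit of a component under `S`. -/
theorem layer_eq_orbit (hO : pCore p G = ⊥) (S : Sylow p G) {M : Subgroup G} (hM : M ≠ ⊤)
    (hu : ∀ N, IsCoatom N → (S : Subgroup G) ≤ N → N = M) {K : Subgroup G} (hK : IsComponent K) :
    pResidual p G = layer G ∧ layer G ⊔ (S : Subgroup G) = ⊤ ∧
      layer G = ⨆ s : ↥(S : Subgroup G), K.map (MulAut.conj (s : G)).toMonoidHom := by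
  obtain ⟨htop, hle, -⟩ := normal_big hO S hM hu hK (component_le_layer hK) (N := layer G)
  set W := ⨆ s : ↥(S : Subgroup G), K.map (MulAut.conj (s : G)).toMonoidHom with hW
  have hWE : W ≤ layer G := iSup_le fun s => component_le_layer (component_map_conj hK _)
  haveI hWn : W.Normal := by
    rw [← Subgroup.normalizer_eq_top_iff, eq_top_iff, ← htop]
    refine sup_le ?_ ?_
    · refine le_normalizer_of_conj_mem fun e he x hx => ?_
      have h : W.map (MulAut.conj e).toMonoidHom ≤ W := by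
        rw [hW, Subgroup.map_iSup]
        refine iSup_mono fun s => ?_
        exact (mem_normalizer_iff_map_conj_eq.mp (component_normal_in_layer (component_map_conj hK (s : G)) he)).le
      exact h ⟨x, hx, rfl⟩
    · refine le_normalizer_of_conj_mem fun t ht x hx => ?_
      have h : W.map (MulAut.conj t).toMonoidHom ≤ W := by
        rw [hW, Subgroup.map_iSup]
        refine iSup_le fun s => ?_
        refine le_of_eq_of_le ?_ (le_iSup (fun s : ↥(S : Subgroup G) => K.map (MulAut.conj (s : G)).toMonoidHom)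
          (⟨t, ht⟩ * s))
        rw [Subgroup.map_map]; congr 1; ext y; simp [mul_assoc]
      exact h ⟨x, hx, rfl⟩
  obtain ⟨-, hle', -⟩ := normal_big hO S hM hu hK (N := W)
    (le_iSup_of_le 1 (by rw [OneMemClass.coe_one, map_one]; exact (Subgroup.map_id K).ge))
  exact ⟨le_antisymm hle (sSup_le fun L hL => component_le_pResidual hL), htop,
    le_antisymm ((sSup_le fun L hL => component_le_pResidual hL).trans hle') hWE⟩

theorem main_aux (hO : pCore p G = ⊥) (S : Sylow p G) {M : Subgroup G} (hMc : IsCoatom M) (hSM : (S : Subgroup G) ≤ M)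
    (hu : ∀ N, IsCoatom N → (S : Subgroup G) ≤ N → N = M) {K : Subgroup G} (hK : IsComponent K)
    {H T : Subgroup G} (hT : T = (S : Subgroup G) ⊓ Subgroup.normalizer (K : Set G)) (hH : H = K ⊔ T) :
    ¬ p ∣ (T.subgroupOf H).index ∧ ¬ (T.subgroupOf H).Normal ∧
      ∃! N : Subgroup ↥H, IsCoatom N ∧ T.subgroupOf H ≤ N := by
  classical
  obtain ⟨-, htop, horb⟩ := layer_eq_orbit hO S hMc.1 hu hK
  have hpE : p ∣ Nat.card ↥(layer G) := (normal_big hO S hMc.1 hu hK (component_le_layer hK) (N := layer G)).2.2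
  set E := layer G with hE
  have hTN : T ≤ Subgroup.normalizer (K : Set G) := hT ▸ inf_le_right
  have hTS : T ≤ (S : Subgroup G) := hT ▸ inf_le_left
  have hSK : (S : Subgroup G) ⊓ K ≤ T := hT ▸ inf_le_inf_left _ Subgroup.le_normalizer
  have hKH : K ≤ H := hH ▸ le_sup_left
  have hTH : T ≤ H := hH ▸ le_sup_right
  set C := sSup {L : Subgroup G | IsComponent L ∧ L ≠ K} with hC
  have hCs : C.IsSubnormal := CfsgLib.GroupB.Subnormal.sSup _ fun L hL => hL.1.1
  have hCK : C ≤ Subgroup.centralizer (K : Set G) := sSup_le fun L hL =>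
    Subgroup.commutator_eq_bot_iff_le_centralizer.mp (component_comm hL.1 hK hL.2)
  have hEKC : E ≤ K ⊔ C := sSup_le fun L hL => by
    by_cases h : L = K
    · exact h ▸ le_sup_left
    · exact le_sup_of_le_right (le_sSup ⟨hL, h⟩)
  have hpK : p ∣ Nat.card ↥K := by
    by_contra h
    have hbot : ∀ s : ↥(S : Subgroup G), (S : Subgroup G) ⊓ K.map (MulAut.conj (s : G)).toMonoidHom = ⊥ := by
      intro s
      refine le_bot_iff.mp fun x hx => ?_
      obtain ⟨hxS, y, hy, rfl⟩ := hx
      have hyS : y ∈ (S : Subgroup G) := by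
        have := mul_mem (mul_mem (inv_mem s.2) hxS) s.2
        simpa [mul_assoc] using this
      obtain ⟨k, hk⟩ := IsPGroup.iff_orderOf.mp S.2 ⟨y, hyS⟩
      rw [Subgroup.orderOf_mk] at hk
      have hy1 : y = 1 := orderOf_eq_one_iff.mp (Nat.eq_one_of_dvd_coprimes
        ((hp.out.coprime_iff_not_dvd.mpr h).pow_left k) (dvd_of_eq hk) (Subgroup.orderOf_dvd_natCard _ hy))
      simp [hy1]
    have h0 : (S : Subgroup G) ⊓ E = ⊥ := by
      rw [horb, ← sSup_range]
      refine sylow_inf_sSup S ?_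
      rintro _ ⟨s, rfl⟩
      exact ⟨(component_map_conj hK _).1, hbot s⟩
    have hc := CfsgLib.SubnormalSylow.card_sylow_inf S.2 S.not_dvd_index
      (Subgroup.Normal.isSubnormal (inferInstance : E.Normal))
    rw [h0, Subgroup.card_bot] at hc
    have := hp.out.factorization_pos_of_dvd Nat.card_pos.ne' hpE
    have := (Nat.pow_eq_one.mp hc.symm).resolve_left hp.out.ne_one
    omega
  have hKM : ¬ K ≤ M := fun h => hMc.1 (top_le_iff.mp (htop.ge.trans (sup_le (by
    rw [horb]; exact iSup_le fun s => by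
      rintro _ ⟨y, hy, rfl⟩
      exact mul_mem (mul_mem (hSM s.2) (h hy)) (inv_mem (hSM s.2))) hSM)))
  have hmemH : ∀ h ∈ H, ∃ k ∈ K, ∃ t ∈ T, k * t = h := fun h hh => (mem_sup_of_le_normalizer hTN).mp (hH ▸ hh)
  refine ⟨?_, fun hn => ?_, ?_⟩
  · intro hd
    have h1 : T.relIndex H ∣ ((S : Subgroup G) ⊓ K).relIndex K := by
      have e : Nat.card ↥K * K.relIndex (K ⊔ T) = Nat.card ↥T * T.relIndex (K ⊔ T) := by
        rw [← Subgroup.relIndex_bot_left K, ← Subgroup.relIndex_bot_left T,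
          Subgroup.relIndex_mul_relIndex _ _ _ bot_le le_sup_left, Subgroup.relIndex_mul_relIndex _ _ _ bot_le le_sup_right]
      have e2 : K.relIndex (K ⊔ T) * Nat.card ↥((S : Subgroup G) ⊓ K : Subgroup G) = Nat.card ↥T := by
        rw [relIndex_sup_of_le_normalizer hTN, show (S : Subgroup G) ⊓ K = K ⊓ T from
          le_antisymm (le_inf inf_le_right hSK) (le_inf (inf_le_right.trans hTS) inf_le_left), mul_comm,
          ← Subgroup.inf_relIndex_right, ← Subgroup.relIndex_bot_left (K ⊓ T),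
          Subgroup.relIndex_mul_relIndex _ _ _ bot_le inf_le_right, Subgroup.relIndex_bot_left]
      have e3 : Nat.card ↥K = Nat.card ↥((S : Subgroup G) ⊓ K : Subgroup G) * ((S : Subgroup G) ⊓ K).relIndex K := by
        rw [← Subgroup.relIndex_bot_left ((S : Subgroup G) ⊓ K), Subgroup.relIndex_mul_relIndex _ _ _ bot_le inf_le_right,
          Subgroup.relIndex_bot_left]
      rw [hH]
      refine dvd_of_eq (Nat.eq_of_mul_eq_mul_left (Nat.card_pos (α := ↥T)) ?_)
      rw [← e, e3, ← e2]; ring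
    exact CfsgLib.SubnormalSylow.sylow_of_subnormal S.not_dvd_index hK.1 (hd.trans h1)
  · have hnorm : H ≤ Subgroup.normalizer (T : Set G) := (Subgroup.normal_subgroupOf_iff_le_normalizer hTH).mp hn
    set D := (S : Subgroup G) ⊓ K with hD
    have hDK : D = K ⊓ T := le_antisymm (le_inf inf_le_right hSK) (le_inf (inf_le_right.trans hTS) inf_le_left)
    have hKD : K ≤ Subgroup.normalizer (D : Set G) :=
      hDK ▸ CfsgLib.LocalBasic.normalizer_inf_ge Subgroup.le_normalizer (hKH.trans hnorm)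
    have hsc : D.IsSubnormal := subnormal_of_normalized inf_le_right hK.1 hKD
    have hnil : Group.IsNilpotent ↥D := (S.2.to_le (inf_le_left : D ≤ (S : Subgroup G))).isNilpotent
    have hDF := nilpotent_subnormal_le hsc hnil
    have hD1 : D ≠ ⊥ := by
      intro h
      have hc := CfsgLib.SubnormalSylow.card_sylow_inf S.2 S.not_dvd_index hK.1
      rw [← hD, h, Subgroup.card_bot] at hc
      have := hp.out.factorization_pos_of_dvd Nat.card_pos.ne' hpK
      have := (Nat.pow_eq_one.mp hc.symm).resolve_left hp.out.ne_one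
      omega
    obtain ⟨k, hk⟩ := IsPGroup.iff_card.mp (S.2.to_le (inf_le_left : D ≤ (S : Subgroup G)))
    exact hD1 (Subgroup.card_eq_one.mp (Nat.eq_one_of_dvd_coprimes ((CfsgLib.FStarComm.fitting_coprime hO).pow_right k)
      (Subgroup.card_dvd_of_le hDF) (dvd_of_eq hk)))
  set Y := M.subgroupOf H with hY
  have hTY : T.subgroupOf H ≤ Y := fun x hx => Subgroup.mem_subgroupOf.mpr (hSM (hTS (Subgroup.mem_subgroupOf.mp hx)))
  have hYtop : Y ≠ ⊤ := fun h => hKM (hKH.trans (Subgroup.subgroupOf_eq_top.mp h))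
  -- the proper overgroups of T lie in M
  have key : ∀ U : Subgroup ↥H, T.subgroupOf H ≤ U → U ≠ ⊤ → U ≤ Y := by
    intro U hTU hU
    set U' := U.map H.subtype with hU'
    have hTU' : T ≤ U' := fun x hx => ⟨⟨x, hTH hx⟩, hTU (Subgroup.mem_subgroupOf.mpr hx), rfl⟩
    set X := U' ⊓ K with hX
    have hXK : ¬ K ≤ X := by
      intro h
      refine hU (eq_top_iff.mpr fun x _ => ?_)
      obtain ⟨k, hk, t, ht, e⟩ := hmemH x x.2
      obtain ⟨u, hu', eu⟩ := mul_mem (Subgroup.mem_inf.mp (h hk)).1 (hTU' ht)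
      rw [e] at eu
      exact Subtype.ext eu ▸ hu'
    suffices hXM : X ≤ M by
      intro x hx
      obtain ⟨k, hk, t, ht, e⟩ := hmemH x x.2
      refine Subgroup.mem_subgroupOf.mpr ?_
      rw [← e]
      refine mul_mem (hXM (Subgroup.mem_inf.mpr ⟨?_, hk⟩)) (hSM (hTS ht))
      rw [show k = (x : G) * t⁻¹ by rw [← e]; group]
      exact mul_mem ⟨x, hx, rfl⟩ (inv_mem (hTU' ht))
    set W := ⨆ s : ↥(S : Subgroup G), X.map (MulAut.conj (s : G)).toMonoidHom with hW
    have hWXC : W ≤ X ⊔ C := by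
      refine iSup_le fun s => ?_
      by_cases hs : K.map (MulAut.conj (s : G)).toMonoidHom = K
      · refine le_sup_of_le_left ?_
        have hsT : (s : G) ∈ T := hT ▸ Subgroup.mem_inf.mpr ⟨s.2, mem_normalizer_iff_map_conj_eq.mpr hs⟩
        exact (mem_normalizer_iff_map_conj_eq.mp
          (CfsgLib.LocalBasic.normalizer_inf_ge (hTU'.trans Subgroup.le_normalizer) hTN hsT)).le
      · exact le_sup_of_le_right ((Subgroup.map_mono inf_le_right).trans (le_sSup ⟨component_map_conj hK _, hs⟩))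
    have hWE : W ≤ E :=
      iSup_le fun s => (Subgroup.map_mono inf_le_right).trans (component_le_layer (component_map_conj hK _))
    have hSW : (S : Subgroup G) ≤ Subgroup.normalizer (W : Set G) := by
      refine le_normalizer_of_conj_mem fun t ht x hx => ?_
      have h : W.map (MulAut.conj t).toMonoidHom ≤ W := by
        rw [hW, Subgroup.map_iSup]
        refine iSup_le fun s => ?_
        refine le_of_eq_of_le ?_ (le_iSup (fun s : ↥(S : Subgroup G) => X.map (MulAut.conj (s : G)).toMonoidHom)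
          (⟨t, ht⟩ * s))
        rw [Subgroup.map_map]; congr 1; ext y; simp [mul_assoc]
      exact h ⟨x, hx, rfl⟩
    have hne : W ⊔ (S : Subgroup G) ≠ ⊤ := by
      intro h
      have hSE : (S : Subgroup G) ⊓ E ≤ X ⊔ C := by
        refine (inf_le_inf_left _ hEKC).trans ?_
        rw [CfsgLib.SubnormalSylow.sylow_sup S.2 S.not_dvd_index hK.1 hCs]
        exact sup_le_sup (le_inf (hSK.trans hTU') inf_le_right) inf_le_right
      have hKXC : K ≤ X ⊔ C := by
        intro k hk
        obtain ⟨w, hw, s, hs, e⟩ := (mem_sup_of_le_normalizer hSW).mp (h.ge (Subgroup.mem_top k))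
        have hsE : s ∈ E := by
          rw [show s = w⁻¹ * k by rw [← e]; group]
          exact mul_mem (inv_mem (hWE hw)) (component_le_layer hK hk)
        rw [← e]
        exact mul_mem (hWXC hw) (hSE (Subgroup.mem_inf.mpr ⟨hs, hsE⟩))
      refine hXK ((component_perfect hK).ge.trans (Subgroup.commutator_le.mpr fun a ha b hb => ?_))
      have hdec : ∀ a ∈ K, ∃ x ∈ X, ∃ c ∈ Subgroup.centralizer (K : Set G), c ∈ K ∧ a = x * c := by
        intro a ha
        have hn : X ≤ Subgroup.normalizer (Subgroup.centralizer (K : Set G) : Set G) :=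
          CfsgLib.LocalBasic.normalizer_centralizer_ge (inf_le_right.trans Subgroup.le_normalizer)
        have h1 : a ∈ X ⊔ Subgroup.centralizer (K : Set G) := (sup_le_sup_left hCK X) (hKXC ha)
        rw [sup_comm, mem_sup_of_le_normalizer hn] at h1
        obtain ⟨c, hc, x, hx, rfl⟩ := h1
        have hcK : c ∈ K := by simpa using mul_mem ha (inv_mem (Subgroup.mem_inf.mp hx).2)
        exact ⟨x, hx, c, hc, hcK, (Subgroup.mem_centralizer_iff.mp hc x (Subgroup.mem_inf.mp hx).2).symm⟩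
      obtain ⟨x, hx, c, hc, hcK, rfl⟩ := hdec a ha
      obtain ⟨y, hy, d, hd, hdK, rfl⟩ := hdec b hb
      have hxK := (Subgroup.mem_inf.mp hx).2
      have hyK := (Subgroup.mem_inf.mp hy).2
      have hc' := Subgroup.mem_centralizer_iff.mp hc
      have hd' := Subgroup.mem_centralizer_iff.mp hd
      have e : ⁅x * c, y * d⁆ = ⁅x, y⁆ := by
        rw [commutatorElement_def, commutatorElement_def]
        calc x * c * (y * d) * (x * c)⁻¹ * (y * d)⁻¹ = x * (c * y) * d * c⁻¹ * x⁻¹ * d⁻¹ * y⁻¹ := by group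
          _ = x * (y * c) * d * c⁻¹ * x⁻¹ * d⁻¹ * y⁻¹ := by rw [hc' y hyK]
          _ = x * y * (c * (d * c⁻¹)) * x⁻¹ * d⁻¹ * y⁻¹ := by group
          _ = x * y * (c * (c⁻¹ * d)) * x⁻¹ * d⁻¹ * y⁻¹ := by rw [hd' c⁻¹ (inv_mem hcK)]
          _ = x * y * (d * x⁻¹) * d⁻¹ * y⁻¹ := by group
          _ = x * y * (x⁻¹ * d) * d⁻¹ * y⁻¹ := by rw [hd' x⁻¹ (inv_mem hxK)]
          _ = x * y * x⁻¹ * y⁻¹ := by group
      rw [e, commutatorElement_def]
      exact mul_mem (mul_mem (mul_mem hx hy) (inv_mem hx)) (inv_mem hy)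
    have hid : X ≤ W := le_iSup_of_le 1 (by rw [OneMemClass.coe_one, map_one]; exact (Subgroup.map_id X).ge)
    exact hid.trans (le_sup_left.trans (le_M hu le_sup_right hne))
  have hYc : IsCoatom Y := ⟨hYtop, fun U hU => by
    by_contra h
    exact hU.not_ge (key U (hTY.trans hU.le) h)⟩
  refine ⟨Y, ⟨hYc, hTY⟩, fun N hN => ?_⟩
  have := key N hN.2 hN.1.1
  by_contra hne
  exact hYtop (hN.1.2 Y (lt_of_le_of_ne this hne))

/-- Let P be a finite p-minimal group with O_p(P) = 1, S a Sylow p-subgroup of P and K a component of P. Then O^p(P) = F*(P) = E(P) is generated by the S-conjugates of K, and the subgroup K·N_S(K) is again p-minimal. -/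
theorem result {P : Type*} [Group P] [Finite P] {p : ℕ} [Fact p.Prime] (hP : Cfsg.IsPMinimal p P) (hOp : Cfsg.pCore p P = ⊥) (S : Sylow p P) (K : Subgroup P) (hK : Cfsg.IsComponent K) : Cfsg.pResidual p P = Cfsg.generalizedFittingSubgroup P ∧ Cfsg.generalizedFittingSubgroup P = Cfsg.layer P ∧ Cfsg.layer P = ⨆ s : ↥(S : Subgroup P), K.map (MulAut.conj (s : P)).toMonoidHom ∧ Cfsg.IsPMinimal p ↥(K ⊔ ((S : Subgroup P) ⊓ Subgroup.normalizer (K : Set P))) := by
  obtain ⟨hSn, M, ⟨hMc, hSM⟩, hu'⟩ := hP S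
  have hu : ∀ N, IsCoatom N → (S : Subgroup P) ≤ N → N = M := fun N h1 h2 => hu' N ⟨h1, h2⟩
  obtain ⟨h1, htop, h2⟩ := layer_eq_orbit hOp S hMc.1 hu hK
  have hF : fittingSubgroup P ≤ layer P := by
    rw [← h1]
    exact fun x hx => CfsgLib.PResidual.mem_pResidual (Nat.Coprime.coprime_dvd_left
      (Subgroup.orderOf_dvd_natCard _ hx) (CfsgLib.FStarComm.fitting_coprime hOp))
  have hgF : generalizedFittingSubgroup P = layer P := by
    rw [CfsgLib.GenFitting.genFitting_eq]; exact sup_eq_left.mpr hF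
  refine ⟨h1.trans hgF.symm, hgF, h2, ?_⟩
  obtain ⟨T, hT⟩ : ∃ T, T = (S : Subgroup P) ⊓ Subgroup.normalizer (K : Set P) := ⟨_, rfl⟩
  obtain ⟨hi, -, -⟩ := main_aux hOp S hMc hSM hu hK hT rfl
  rw [← hT]
  intro Q
  let T₀ : Sylow p ↥(K ⊔ T) := ((S.2.to_le (hT ▸ inf_le_left : T ≤ (S : Subgroup P))).comap_subtype (K := K ⊔ T)).toSylow hi
  obtain ⟨h, rfl⟩ := MulAction.exists_smul_eq ↥(K ⊔ T) T₀ Q
  obtain ⟨-, M', ⟨hMc', hSM'⟩, hu''⟩ := hP ((h : P) • S)
  have hhN : (h : P) ∈ Subgroup.normalizer (K : Set P) :=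
    (sup_le Subgroup.le_normalizer (hT ▸ inf_le_right : T ≤ Subgroup.normalizer (K : Set P))) h.2
  have hT' : T.map (MulAut.conj (h : P)).toMonoidHom =
      (((h : P) • S : Sylow p P) : Subgroup P) ⊓ Subgroup.normalizer (K : Set P) := by
    refine (congrArg (Subgroup.map (MulAut.conj (h : P)).toMonoidHom) hT).trans ?_
    rw [coe_smul, Subgroup.map_inf _ _ _ (MulAut.conj (h : P)).injective]
    congr 1
    exact mem_normalizer_iff_map_conj_eq.mp (Subgroup.le_normalizer hhN)
  have hH : K ⊔ T = K ⊔ T.map (MulAut.conj (h : P)).toMonoidHom := by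
    have e := mem_normalizer_iff_map_conj_eq.mp (Subgroup.le_normalizer h.2 : (h : P) ∈ Subgroup.normalizer ((K ⊔ T : Subgroup P) : Set P))
    rw [Subgroup.map_sup, mem_normalizer_iff_map_conj_eq.mp hhN] at e
    exact e.symm
  have hQ : ((h • T₀ : Sylow p ↥(K ⊔ T)) : Subgroup ↥(K ⊔ T)) =
      (T.map (MulAut.conj (h : P)).toMonoidHom).subgroupOf (K ⊔ T) := by
    refine Subgroup.map_injective (K ⊔ T).subtype_injective ?_
    rw [Subgroup.map_subgroupOf_eq_of_le (le_of_le_of_eq le_sup_right hH.symm), coe_smul,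
      show (T₀ : Subgroup ↥(K ⊔ T)) = T.subgroupOf (K ⊔ T) from rfl]
    refine Eq.trans ?_ (congrArg (Subgroup.map (MulAut.conj (h : P)).toMonoidHom)
      (Subgroup.map_subgroupOf_eq_of_le (H := T) (K := K ⊔ T) le_sup_right))
    rw [Subgroup.map_map, Subgroup.map_map]
    congr 1
  obtain ⟨-, hn, hx⟩ := main_aux hOp ((h : P) • S) hMc' hSM' (fun N a b => hu'' N ⟨a, b⟩) hK hT' hH
  rw [hQ]
  exact ⟨hn, hx⟩

end Cfsg.Agent.S2906
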