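import Cfsg.Statements.S2907
import Cfsg.Agent.Lib.LocalBasic

set_option autoImplicit false
open Cfsg

namespace Cfsg.Agent.S2907
open CfsgLib.LocalBasic
open scoped commutatorElement

/-- Let X be a finite semi-extraspecial p-group and x an element of X outside the centre. Then the index of C_X(x) in X equals the order of Z(X), and the commutators [x, y], y ∈ X, form exactly the centre Z(X). -/
theorem result {X : Type*} [Group X] [Finite X] {p : ℕ} [Fact p.Prime] (hX : Cfsg.IsSemiExtraspecial p X) (x : X) (hx : x ∉ Subgroup.center X) : (Subgroup.centralizer ({x} : Set X)).index = Nat.card ↥(Subgroup.center X) ∧ {z : X | ∃ y : X, z = x * y * x⁻¹ * y⁻¹} = (Subgroup.center X : Set X) := by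
  obtain ⟨⟨hXp, hfr, hder⟩, hquot⟩ := hX
  set Z := Subgroup.center X with hZ
  have hcomm : ∀ a b : X, ⁅a, b⁆ ∈ Z := fun a b => hder ▸ Subgroup.commutator_mem_commutator (Subgroup.mem_top a) (Subgroup.mem_top b)
  let φ : X →* X := MonoidHom.mk' (fun y => ⁅x, y⁆) fun a b => by
    show ⁅x, a * b⁆ = ⁅x, a⁆ * ⁅x, b⁆
    have h : a * ⁅x, b⁆ * a⁻¹ = ⁅x, b⁆ := by
      rw [Subgroup.mem_center_iff.mp (hcomm x b) a, mul_inv_cancel_right]
    calc ⁅x, a * b⁆ = ⁅x, a⁆ * (a * ⁅x, b⁆ * a⁻¹) := by simp only [commutatorElement_def]; group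
      _ = _ := by rw [h]
  have hker : φ.ker = Subgroup.centralizer ({x} : Set X) := by
    ext y
    rw [MonoidHom.mem_ker, Subgroup.mem_centralizer_singleton_iff]
    show ⁅x, y⁆ = 1 ↔ _
    rw [commutatorElement_eq_one_iff_mul_comm, eq_comm]
  have hrange : φ.range = Z := by
    refine le_antisymm (by rintro _ ⟨y, rfl⟩; exact hcomm x y) ?_
    by_contra hne
    have hW : φ.range.subgroupOf Z ≠ ⊤ := fun h => hne (Subgroup.subgroupOf_eq_top.mp h)
    obtain ⟨Y', hY', hle⟩ := (eq_top_or_exists_le_coatom _).resolve_left hW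
    set Y := Y'.map Z.subtype with hYdef
    have hYZ : Y ≤ Z := Subgroup.map_subtype_le _
    have hYsub : Y.subgroupOf Z = Y' := Subgroup.comap_map_eq_self_of_injective Z.subtype_injective _
    obtain ⟨hYn, ⟨hQ, hQfr, hQd⟩, hQc⟩ := hquot Y hYZ (by rw [hYsub]; exact hY')
    set π := QuotientGroup.mk' Y with hπ
    have hxc : π x ∈ Subgroup.center (X ⧸ Y) := by
      rw [Subgroup.mem_center_iff]
      intro b
      obtain ⟨b, rfl⟩ := QuotientGroup.mk'_surjective Y b
      have h1 : ⁅x, b⁆ ∈ Y := ⟨⟨_, hcomm x b⟩, hle (Subgroup.mem_subgroupOf.mpr ⟨b, rfl⟩), rfl⟩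
      have h2 : π ⁅x, b⁆ = 1 := (QuotientGroup.eq_one_iff _).mpr h1
      rw [map_commutatorElement, commutatorElement_eq_one_iff_mul_comm] at h2
      exact h2.symm
    have hZc : Z.map π ≤ Subgroup.center (X ⧸ Y) := by
      rintro _ ⟨z, hz, rfl⟩
      rw [Subgroup.mem_center_iff]
      intro b
      obtain ⟨b, rfl⟩ := QuotientGroup.mk'_surjective Y b
      rw [← map_mul, ← map_mul, Subgroup.mem_center_iff.mp hz b]
    have hZne : Z.map π ≠ ⊥ := by
      rw [Ne, Subgroup.map_eq_bot_iff, QuotientGroup.ker_mk']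
      exact fun h => hY'.1 (by rw [← hYsub]; exact Subgroup.subgroupOf_eq_top.mpr h)
    haveI : Fact (Nat.card ↥(Subgroup.center (X ⧸ Y))).Prime := ⟨hQc.symm ▸ (Fact.out : p.Prime)⟩
    have heq : Z.map π = Subgroup.center (X ⧸ Y) := by
      refine Subgroup.eq_of_le_of_card_ge hZc ?_
      rw [hQc]
      obtain ⟨n, hn⟩ := (hQ.to_subgroup (Z.map π)).exists_card_eq
      rw [hn]
      refine Nat.le_self_pow (fun h0 => hZne ?_) p
      rw [h0, pow_zero] at hn
      exact Subgroup.card_eq_one.mp hn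
    obtain ⟨z, hz, hzx⟩ := heq.ge hxc
    have h3 : z⁻¹ * x ∈ Y := (QuotientGroup.eq_one_iff _).mp (by
      show π (z⁻¹ * x) = 1
      rw [map_mul, map_inv, hzx, inv_mul_cancel])
    exact hx (by simpa using Z.mul_mem hz (hYZ h3))
  refine ⟨?_, ?_⟩
  · rw [← hker, Subgroup.index_ker, hrange]
  · ext z
    constructor
    · rintro ⟨y, rfl⟩; exact hcomm x y
    · intro hz
      obtain ⟨y, rfl⟩ := hrange.ge hz
      exact ⟨y, rfl⟩

end Cfsg.Agent.S2907
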