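import Cfsg.Statements.S2908
import Cfsg.Agent.Lib.LocalBasic

set_option autoImplicit false
open Cfsg

namespace Cfsg.Agent.S2908
open CfsgLib.LocalBasic
open scoped commutatorElement Pointwise

/-- iterated commutators with `H` -/
def qSer {G : Type*} [Group G] (P H : Subgroup G) : ℕ → Subgroup G
  | 0 => P
  | n + 1 => ⁅qSer P H n, H⁆

/-- Let P be a p-subgroup of a finite group, normalized by a p-subgroup A and by a subgroup B of order prime to p that commutes elementwise with A. If [P, B] ≤ [P, A], then B centralizes P. -/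
theorem result {G : Type*} [Group G] [Finite G] {p : ℕ} [Fact p.Prime] (P A B : Subgroup G) (hP : IsPGroup p ↥P) (hA : IsPGroup p ↥A) (hB : ¬ p ∣ Nat.card ↥B) (hnA : A ≤ Subgroup.normalizer (P : Set G)) (hnB : B ≤ Subgroup.normalizer (P : Set G)) (hAB : ⁅A, B⁆ = ⊥) (hcomm : ⁅P, B⁆ ≤ ⁅P, A⁆) : ⁅P, B⁆ = ⊥ := by
  set H := P ⊔ A with hH
  have hHp : IsPGroup p ↥H := IsPGroup.to_sup_of_normal_left' hP hA hnA
  have hBA : B ≤ Subgroup.centralizer (A : Set G) :=
    Subgroup.commutator_eq_bot_iff_le_centralizer.mp (by rw [Subgroup.commutator_comm]; exact hAB)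
  have hBnA : B ≤ Subgroup.normalizer (A : Set G) := fun b hb => by
    rw [mem_normalizer_iff_conj_map]
    ext x
    constructor
    · rintro ⟨a, ha, rfl⟩
      have := Subgroup.mem_centralizer_iff.mp (hBA hb) a ha
      simp only [MulEquiv.coe_toMonoidHom, MulAut.conj_apply]
      rwa [← this, mul_inv_cancel_right]
    · intro hx
      refine ⟨x, hx, ?_⟩
      simp only [MulEquiv.coe_toMonoidHom, MulAut.conj_apply]
      rw [← Subgroup.mem_centralizer_iff.mp (hBA hb) x hx, mul_inv_cancel_right]
  have hBnH : B ≤ Subgroup.normalizer (H : Set G) := normalizer_sup_ge hnB hBnA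
  have hHnP : H ≤ Subgroup.normalizer (P : Set G) := sup_le Subgroup.le_normalizer hnA
  set Q : ℕ → Subgroup G := qSer P H
  have hQs : ∀ n, Q (n + 1) = ⁅Q n, H⁆ := fun n => rfl
  have hQH : ∀ n, H ≤ Subgroup.normalizer ((Q n : Subgroup G) : Set G) := by
    intro n
    induction n with
    | zero => exact hHnP
    | succ n ih => exact normalizer_commutator_ge ih Subgroup.le_normalizer
  have hQB : ∀ n, B ≤ Subgroup.normalizer ((Q n : Subgroup G) : Set G) := by
    intro n
    induction n with
    | zero => exact hnB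
    | succ n ih => exact normalizer_commutator_ge ih hBnH
  have hQP : ∀ n, Q n ≤ P := by
    intro n
    induction n with
    | zero => exact le_rfl
    | succ n ih =>
      refine (Subgroup.commutator_mono ih le_rfl).trans ?_
      rw [Subgroup.commutator_le]
      intro x hx h hh
      rw [commutatorElement_def, mul_assoc, mul_assoc, ← mul_assoc h]
      exact P.mul_mem hx ((Subgroup.mem_normalizer_iff.mp (hHnP hh) _).mp (P.inv_mem hx))
  have hQlcs : ∀ n, Q n ≤ H.lowerCentralSeries n := by
    intro n
    induction n with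
    | zero => exact le_sup_left
    | succ n ih => exact Subgroup.commutator_mono ih le_rfl
  obtain ⟨m, hm⟩ := (Subgroup.isNilpotent_iff_lowerCentralSeries H).mp hHp.isNilpotent
  have hPB : ⁅P, B⁆ ≤ Q 1 := hcomm.trans (Subgroup.commutator_mono le_rfl le_sup_right)
  have hHB : ⁅H, B⁆ ≤ Q 1 := by
    rw [Subgroup.commutator_le]
    intro x hx b hb
    have hset : ↑H = (P : Set G) * (A : Set G) := Subgroup.coe_mul_of_right_le_normalizer_left P A hnA
    rw [← SetLike.mem_coe, hset] at hx
    obtain ⟨y, hy, a, ha, rfl⟩ := hx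
    have hab := Subgroup.mem_centralizer_iff.mp (hBA hb) a ha
    have : ⁅y * a, b⁆ = ⁅y, b⁆ := by
      rw [commutatorElement_def, commutatorElement_def, mul_inv_rev]
      calc y * a * b * (a⁻¹ * y⁻¹) * b⁻¹ = y * (a * b) * a⁻¹ * y⁻¹ * b⁻¹ := by group
        _ = y * (b * a) * a⁻¹ * y⁻¹ * b⁻¹ := by rw [hab]
        _ = _ := by group
    show ⁅y * a, b⁆ ∈ Q 1
    rw [this]
    exact hPB (Subgroup.commutator_mem_commutator hy hb)
  have hQone : ∀ n, ⁅Q n, ⁅H, H⁆⁆ ≤ Q (n + 2) := by
    intro n
    rw [Subgroup.commutator_comm]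
    refine three_subgroup (hQH _) (hQH _) (((hQP n).trans le_sup_left).trans (hQH _)) ?_ ?_
    · rw [Subgroup.commutator_comm H (Q n)]; exact le_rfl
    · exact le_rfl
  have hstep : ∀ n, ⁅Q n, B⁆ ≤ Q (n + 1) := by
    intro n
    induction n with
    | zero => exact hPB
    | succ n ih =>
      refine three_subgroup (((hQP n).trans le_sup_left).trans (hQH _)) (hQH _) (hQB _) ?_ ?_
      · refine (Subgroup.commutator_mono hHB le_rfl).trans ?_
        rw [Subgroup.commutator_comm]
        refine (Subgroup.commutator_mono le_rfl ?_).trans (hQone n)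
        exact Subgroup.commutator_mono le_sup_left le_rfl
      · refine (Subgroup.commutator_mono ?_ le_rfl).trans (hQs (n + 1)).ge
        rw [Subgroup.commutator_comm]; exact ih
  rw [Subgroup.commutator_eq_bot_iff_le_centralizer]
  suffices h : ∀ k n, n + k = m → ∀ x ∈ Q n, ∀ b ∈ B, b * x = x * b by
    intro x hx
    exact Subgroup.mem_centralizer_iff.mpr fun b hb => h m 0 (Nat.zero_add m) x hx b hb
  intro k
  induction k with
  | zero =>
    intro n hn x hx b _
    have : x ∈ H.lowerCentralSeries n := hQlcs n hx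
    rw [← hn, Nat.add_zero] at hm
    rw [hm, Subgroup.mem_bot] at this
    simp [this]
  | succ k ih =>
    intro n hn x hx b hb
    set c := ⁅b, x⁆ with hc
    have hcQ : c ∈ Q (n + 1) := hstep n (Subgroup.commutator_comm (Q n) B ▸ Subgroup.commutator_mem_commutator hb hx)
    have hbc : b * c = c * b := ih (n + 1) (by omega) c hcQ b hb
    have hbx : b * x = c * x * b := by rw [hc, commutatorElement_def]; group
    have hpow : ∀ j : ℕ, b ^ j * x = c ^ j * x * b ^ j := by
      intro j
      induction j with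
      | zero => simp
      | succ j ihj =>
        have hbcj : b * c ^ j = c ^ j * b := ((show Commute b c from hbc).pow_right j).eq
        calc b ^ (j + 1) * x = b * (b ^ j * x) := by rw [pow_succ', mul_assoc]
          _ = b * c ^ j * x * b ^ j := by rw [ihj]; group
          _ = c ^ j * (b * x) * b ^ j := by rw [hbcj]; group
          _ = c ^ j * c * x * (b * b ^ j) := by rw [hbx]; group
          _ = c ^ (j + 1) * x * b ^ (j + 1) := by rw [← pow_succ, ← pow_succ']
    have hb1 : b ^ Nat.card ↥B = 1 := by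
      have := pow_card_eq_one' (x := (⟨b, hb⟩ : ↥B))
      have h := congrArg Subtype.val this
      rwa [Subgroup.coe_pow] at h
    have hcB : c ^ Nat.card ↥B = 1 := by
      have h := hpow (Nat.card ↥B)
      rw [hb1, one_mul, mul_one] at h
      simpa using h.symm
    obtain ⟨j, hj⟩ := hP ⟨c, hQP _ hcQ⟩
    have hj' : c ^ p ^ j = 1 := by simpa using congrArg Subtype.val hj
    have hcop : Nat.Coprime (Nat.card ↥B) (p ^ j) :=
      (((Fact.out : p.Prime).coprime_iff_not_dvd.mpr hB).symm).pow_right j
    have hg := pow_gcd_eq_one.mpr ⟨hcB, hj'⟩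
    rw [hcop, pow_one] at hg
    rw [hbx, hg, one_mul]

end Cfsg.Agent.S2908
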