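import Cfsg.Statements.S2909
import Cfsg.Agent.Lib.CoprimeGen
import Cfsg.Agent.Lib.GenFitting
import Cfsg.Agent.S0012
import Mathlib.GroupTheory.Frattini
import Mathlib.Tactic

set_option autoImplicit false
open Cfsg
open scoped commutatorElement

namespace Cfsg.Agent.S2909

/-- Let p be a prime, E a normal p-subgroup of the finite group G, and U a non-cyclic elementary abelian p-subgroup of G such that either C_E(U) = C_E(u) for every nontrivial u ∈ U, or [E, U] = [E, ⟨u⟩] for every nontrivial u ∈ U. If R is a subgroup of order prime to p normalized by U, then [R, U] centralizes E. -/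
theorem result {G : Type*} [Group G] [Finite G] {p : ℕ} [Fact p.Prime] (E : Subgroup G) [E.Normal] (hE : IsPGroup p ↥E) (U : Subgroup G) (hU : Cfsg.IsElementaryAbelian p U) (hnc : ¬ IsCyclic ↥U) (hcond : (∀ u ∈ U, u ≠ 1 → E ⊓ Subgroup.centralizer (U : Set G) = E ⊓ Subgroup.centralizer ({u} : Set G)) ∨ (∀ u ∈ U, u ≠ 1 → ⁅E, U⁆ = ⁅E, Subgroup.zpowers u⁆)) (R : Subgroup G) (hR : ¬ p ∣ Nat.card ↥R) (hRU : U ≤ Subgroup.normalizer (R : Set G)) : ⁅R, U⁆ ≤ Subgroup.centralizer (E : Set G) := by
  classical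
  have hp : p.Prime := Fact.out
  obtain ⟨hUab, hUp⟩ := hU
  have hUc : ∀ a ∈ U, ∀ b ∈ U, a * b = b * a := fun a ha b hb =>
    congrArg Subtype.val (hUab.is_comm.comm (⟨a, ha⟩ : U) ⟨b, hb⟩)
  have hUpg : IsPGroup p ↥U := fun a => ⟨1, Subtype.ext (by simp [hUp _ a.2])⟩
  have hcard : p ^ 2 ≤ Nat.card ↥U := by
    obtain ⟨n, hn⟩ := hUpg.exists_card_eq
    rw [hn]
    refine Nat.pow_le_pow_right hp.pos (le_of_not_gt fun hlt => hnc ?_)
    interval_cases n
    · haveI : Subsingleton ↥U := (Nat.card_eq_one_iff_unique.mp (by simpa using hn)).1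
      infer_instance
    · exact isCyclic_of_prime_card (by simpa using hn)
  have hRc : (Nat.card ↥R).Coprime p := (hp.coprime_iff_not_dvd.mpr hR).symm
  set V := ⁅R, U⁆ with hV
  have hVR : V ≤ R := CfsgLib.GroupB.Coprime.commutator_le_of_le_normalizer hRU
  have hUV : U ≤ Subgroup.normalizer (V : Set G) :=
    le_sup_right.trans (CfsgLib.GroupB.Coprime.le_normalizer_commutator R U)
  have hVc : (Nat.card ↥V).Coprime p := hRc.coprime_dvd_left (Subgroup.card_dvd_of_le hVR)
  have hEn : ∀ g : G, g ∈ Subgroup.normalizer (E : Set G) := fun g => by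
    rw [Subgroup.normalizer_eq_top]; trivial
  have hzp : ∀ u ∈ U, IsPGroup p ↥(Subgroup.zpowers u) := fun u hu =>
    hUpg.to_le (Subgroup.zpowers_le.mpr hu)
  have hco : ∀ c ∈ V, (orderOf c).Coprime p := fun c hc =>
    hVc.coprime_dvd_left (Subgroup.orderOf_dvd_natCard V hc)
  refine CfsgLib.CoprimeGen.le_of_centralizers_le V U _ hUV hVc hUab hUp hcard fun u hu hu1 c hc => ?_
  have hcu : ∀ w ∈ Subgroup.zpowers u, c * w = w * c := by
    intro w hw
    obtain ⟨i, rfl⟩ := hw
    exact ((show Commute c u from (Subgroup.mem_centralizer_singleton_iff.mp hc.2)).zpow_right i).eq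
  suffices h : ∀ x ∈ E, c * x = x * c from Subgroup.mem_centralizer_iff.mpr fun x hx => (h x hx).symm
  rcases hcond with hcond | hcond
  · refine CfsgLib.GenFitting.thompson_pq (hzp u hu) hE (fun w _ => hEn w) (hco c hc.1) hcu (hEn c) ?_
    intro x hx
    have hC0 : Subgroup.centralizer ((Subgroup.zpowers u : Subgroup G) : Set G) = Subgroup.centralizer ({u} : Set G) := by
      rw [Subgroup.zpowers_eq_closure, Subgroup.centralizer_closure]
    set C0 := E ⊓ Subgroup.centralizer (U : Set G)
    have hxC : x ∈ C0 := by rw [hC0] at hx; rw [show C0 = E ⊓ Subgroup.centralizer ({u} : Set G) from hcond u hu hu1]; exact hx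
    have hRN : R ≤ Subgroup.normalizer (C0 : Set G) := by
      refine CfsgLib.CoprimeGen.le_of_centralizers_le R U _ hRU hRc hUab hUp hcard fun v hv hv1 r hr => ?_
      rw [show C0 = E ⊓ Subgroup.centralizer ({v} : Set G) from hcond v hv hv1]
      have key : ∀ r : G, Commute r v → ∀ y ∈ E ⊓ Subgroup.centralizer ({v} : Set G),
          r * y * r⁻¹ ∈ E ⊓ Subgroup.centralizer ({v} : Set G) := fun r hrv y hy =>
        ⟨(Subgroup.mem_normalizer_iff.mp (hEn r) y).mp hy.1, Subgroup.mem_centralizer_singleton_iff.mpr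
          (((hrv.mul_left (show Commute y v from Subgroup.mem_centralizer_singleton_iff.mp hy.2)).mul_left hrv.inv_left).eq)⟩
      have hrv : Commute r v := Subgroup.mem_centralizer_singleton_iff.mp hr.2
      refine Subgroup.mem_normalizer_iff.mpr fun y => ⟨key r hrv y, fun hy => ?_⟩
      simpa [mul_assoc] using key r⁻¹ hrv.inv_left _ hy
    have hVC : V ≤ Subgroup.centralizer (C0 : Set G) := by
      rw [hV, Subgroup.commutator_le]
      intro r hr v hv
      have hcv : ∀ w ∈ U, w ∈ Subgroup.centralizer (C0 : Set G) := fun w hw y hy =>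
        (Subgroup.mem_centralizer_iff.mp hy.2 w hw).symm
      rw [commutatorElement_def]
      refine mul_mem ?_ (hcv _ (inv_mem hv))
      rw [Subgroup.mem_centralizer_iff]
      intro y hy
      have h3 := Subgroup.mem_centralizer_iff.mp (hcv v hv) (r⁻¹ * y * r⁻¹⁻¹)
        ((Subgroup.mem_normalizer_iff.mp (inv_mem (hRN hr)) y).mp hy)
      calc y * (r * v * r⁻¹) = r * ((r⁻¹ * y * r⁻¹⁻¹) * v) * r⁻¹ := by group
        _ = r * (v * (r⁻¹ * y * r⁻¹⁻¹)) * r⁻¹ := by rw [h3]
        _ = r * v * r⁻¹ * y := by group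
    exact (Subgroup.mem_centralizer_iff.mp (hVC hc.1) x hxC).symm
  · set M := ⁅E, U⁆ with hM
    have hME : M ≤ E := CfsgLib.GroupB.Coprime.commutator_le_of_le_normalizer fun w _ => hEn w
    have hRM : R ≤ Subgroup.normalizer (M : Set G) := by
      refine CfsgLib.CoprimeGen.le_of_centralizers_le R U _ hRU hRc hUab hUp hcard fun v hv hv1 r hr => ?_
      rw [hcond v hv hv1]
      refine Subgroup.mem_normalizer_fintype (fun y hy => ?_)
      have hle : (⁅E, Subgroup.zpowers v⁆).map (MulAut.conj r).toMonoidHom ≤ ⁅E, Subgroup.zpowers v⁆ := by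
        rw [Subgroup.map_commutator]
        refine Subgroup.commutator_mono ?_ ?_
        · rintro _ ⟨e, he, rfl⟩
          exact (Subgroup.mem_normalizer_iff.mp (hEn r) e).mp he
        · rintro _ ⟨w, ⟨i, rfl⟩, rfl⟩
          show r * v ^ i * r⁻¹ ∈ _
          rw [((show Commute r v from Subgroup.mem_centralizer_singleton_iff.mp hr.2).zpow_right i).eq, mul_inv_cancel_right]
          exact ⟨i, rfl⟩
      exact hle ⟨y, hy, rfl⟩
    have hUM : U ≤ Subgroup.normalizer (M : Set G) :=
      le_sup_right.trans (CfsgLib.GroupB.Coprime.le_normalizer_commutator E U)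
    -- the commutator acts trivially modulo `M`
    have hact : ∀ g ∈ V, g ∈ Subgroup.normalizer (M : Set G) ∧ ∀ e ∈ E, e * g * e⁻¹ * g⁻¹ ∈ M := by
      have hUact : ∀ w ∈ U, ∀ e ∈ E, w * e * w⁻¹ * e⁻¹ ∈ M := fun w hw e he => by
        have := inv_mem (Subgroup.commutator_mem_commutator he hw : ⁅e, w⁆ ∈ M)
        simpa [commutatorElement_def, mul_assoc] using this
      intro g hg
      suffices h : g ∈ Subgroup.normalizer (M : Set G) ∧ ∀ e ∈ E, g * e * g⁻¹ * e⁻¹ ∈ M from
        ⟨h.1, fun e he => by simpa [mul_assoc] using inv_mem (h.2 e he)⟩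
      induction hg using Subgroup.closure_induction with
      | mem g hg =>
        obtain ⟨r, hr, w, hw, rfl⟩ := hg
        refine ⟨?_, fun e he => ?_⟩
        · rw [commutatorElement_def]
          exact mul_mem (mul_mem (mul_mem (hRM hr) (hUM hw)) (inv_mem (hRM hr))) (inv_mem (hUM hw))
        · set e1 := w⁻¹ * e * w⁻¹⁻¹ with he1
          have he1E : e1 ∈ E := (Subgroup.mem_normalizer_iff.mp (hEn _) e).mp he
          have h1 : (r * w * r⁻¹) * e1 * (r * w * r⁻¹)⁻¹ * e1⁻¹ ∈ M := by
            have := (Subgroup.mem_normalizer_iff.mp (hRM hr) _).mp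
              (hUact w hw (r⁻¹ * e1 * r⁻¹⁻¹) ((Subgroup.mem_normalizer_iff.mp (hEn _) e1).mp he1E))
            simpa [mul_assoc] using this
          have h2 : e1 * e⁻¹ ∈ M := by
            have := hUact w⁻¹ (inv_mem hw) e he
            simpa [he1, mul_assoc] using this
          have e' : ⁅r, w⁆ * e * ⁅r, w⁆⁻¹ * e⁻¹ = (r * w * r⁻¹) * e1 * (r * w * r⁻¹)⁻¹ * e1⁻¹ * (e1 * e⁻¹) := by
            rw [he1, commutatorElement_def]; group
          rw [e']; exact mul_mem h1 h2
      | one => exact ⟨one_mem _, by simp⟩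
      | mul y z _ _ hy hz =>
        refine ⟨mul_mem hy.1 hz.1, fun e he => ?_⟩
        have := mul_mem ((Subgroup.mem_normalizer_iff.mp hy.1 _).mp (hz.2 e he)) (hy.2 e he)
        simpa [mul_assoc] using this
      | inv y _ hy =>
        refine ⟨inv_mem hy.1, fun e he => ?_⟩
        have := inv_mem ((Subgroup.mem_normalizer_iff.mp (inv_mem hy.1) _).mp (hy.2 e he))
        simpa [mul_assoc] using this
    have hA : Subgroup.zpowers c ≤ Subgroup.normalizer (E : Set G) := fun w _ => hEn w
    have hcopA : (Nat.card ↥(Subgroup.zpowers c)).Coprime (Nat.card ↥E) := by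
      obtain ⟨j, hj⟩ := hE.exists_card_eq
      rw [Nat.card_zpowers, hj]; exact (hco c hc.1).pow_right j
    haveI := hE.isNilpotent
    have hE2 := CfsgLib.GroupB.Coprime.centralizer_sup_commutator hA hcopA (Or.inl inferInstance)
    have hcM : ⁅E, Subgroup.zpowers c⁆ ≤ M := by
      rw [Subgroup.commutator_le]
      intro e he w hw
      exact (hact w (Subgroup.zpowers_le.mpr hc.1 hw)).2 e he
    -- inside the `p`-group `E⟨u⟩` commutators are redundant
    set T := E ⊔ Subgroup.zpowers u with hT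
    have hTp : IsPGroup p ↥T := hE.to_sup_of_normal_left (hzp u hu)
    set D := (T ⊓ Subgroup.centralizer ({c} : Set G)).subgroupOf T
    have hMT : M ≤ (commutator ↥T).map T.subtype := by
      rw [hcond u hu hu1, commutator_def, Subgroup.map_commutator, ← MonoidHom.range_eq_map, Subgroup.range_subtype]
      exact Subgroup.commutator_mono le_sup_left le_sup_right
    have hDtop : D = ⊤ := by
      refine frattini_nongenerating (eq_top_iff.mpr ?_)
      have hle : T ≤ (D ⊔ frattini ↥T).map T.subtype := by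
        rw [Subgroup.map_sup, Subgroup.map_subgroupOf_eq_of_le inf_le_left]
        refine sup_le ?_ ?_
        · refine hE2.ge.trans (sup_le ?_ ?_)
          · rintro e ⟨he, hec⟩
            refine Subgroup.mem_sup_left ⟨Subgroup.mem_sup_left he, Subgroup.mem_centralizer_singleton_iff.mpr ?_⟩
            exact (Subgroup.mem_centralizer_iff.mp hec c (Subgroup.mem_zpowers c)).symm
          · exact hcM.trans (hMT.trans ((Subgroup.map_mono (Cfsg.Agent.S0012.result p hTp).1).trans le_sup_right))
        · exact fun w hw => Subgroup.mem_sup_left ⟨Subgroup.mem_sup_right hw,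
            Subgroup.mem_centralizer_singleton_iff.mpr (hcu w hw).symm⟩
      rintro x -
      obtain ⟨y, hy, hyx⟩ := hle x.2
      rwa [← Subtype.ext hyx]
    intro x hx
    have hxD : (⟨x, Subgroup.mem_sup_left hx⟩ : T) ∈ D := hDtop ▸ Subgroup.mem_top _
    exact (Subgroup.mem_centralizer_singleton_iff.mp hxD.2).symm

end Cfsg.Agent.S2909
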