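import Cfsg.Statements.S2910
import Cfsg.Agent.Lib.NPCFix

set_option autoImplicit false
open Cfsg

namespace Cfsg.Agent.S2910

/-- Let p be an odd prime dividing the order of the finite group G and P a Sylow p-subgroup of G. If Ω₁(P) (generated by the elements of order dividing p) is contained in the centre of G, then G has a normal p-complement. In particular, if G is quasisimple then Ω₁(P) is not central in G. -/
theorem result {G : Type*} [Group G] [Finite G] {p : ℕ} [Fact p.Prime] (hp : p ≠ 2) (hdiv : p ∣ Nat.card G) (P : Sylow p G) (hZ : Cfsg.omegaOne p (P : Subgroup G) ≤ Subgroup.center G) : Cfsg.HasNormalPComplement p G ∧ ¬ Cfsg.IsQuasisimple G := by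
  have hN : Cfsg.HasNormalPComplement p G := by
    refine CfsgLib.NPCFix.npc_of_central fun a ha g => ?_
    have ha' : a ^ p = 1 := ha.resolve_right fun h => hp h.1
    have hpa : IsPGroup p (Subgroup.zpowers a) := by
      obtain ⟨i, _, hi⟩ := (Nat.dvd_prime_pow (Fact.out : p.Prime)).mp
        (show orderOf a ∣ p ^ 1 by rw [pow_one]; exact orderOf_dvd_of_pow_eq_one ha')
      exact IsPGroup.of_card (n := i) (by rw [Nat.card_zpowers, hi])
    obtain ⟨S, hS⟩ := hpa.exists_le_sylow
    obtain ⟨c, hc⟩ := MulAction.exists_smul_eq G S P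
    have hcP : c * a * c⁻¹ ∈ (P : Subgroup G) := by
      rw [← hc, Sylow.coe_subgroup_smul]
      exact ⟨a, hS (Subgroup.mem_zpowers a), rfl⟩
    have h1 : c * a * c⁻¹ ∈ Subgroup.center G :=
      hZ (Subgroup.subset_closure ⟨hcP, by rw [conj_pow, ha']; simp⟩)
    have h2 : a ∈ Subgroup.center G := by
      have := (inferInstance : (Subgroup.center G).Normal).conj_mem _ h1 c⁻¹
      simpa [mul_assoc] using this
    exact Subgroup.mem_center_iff.mp h2 g
  refine ⟨hN, fun hq => ?_⟩
  obtain ⟨P0, N, hNn, hc⟩ := hN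
  haveI := hNn
  obtain ⟨k, hk⟩ := P0.isPGroup'.exists_card_eq
  have hPi : IsPGroup p (G ⧸ N) := IsPGroup.of_card (n := k) (by
    rw [← Subgroup.index_eq_card, hc.symm.index_eq_card, hk])
  have hperf : commutator G = ⊤ := Group.isPerfect_def.mp hq.1
  haveI := hPi.isNilpotent
  have htop : N = ⊤ := by
    by_contra hne
    haveI : Nontrivial (G ⧸ N) := QuotientGroup.nontrivial_iff.mpr hne
    haveI : Group.IsSolvable (G ⧸ N) := inferInstance
    refine (Group.IsSolvable.commutator_lt_top_of_nontrivial (G ⧸ N)).ne ?_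
    have hs := QuotientGroup.mk'_surjective N
    rw [commutator_def, ← Subgroup.map_top_of_surjective _ hs, ← Subgroup.map_commutator, ← commutator_def, hperf]
  have h1 : Nat.card ↥(P0 : Subgroup G) = 1 := by
    rw [← hc.symm.index_eq_card, htop, Subgroup.index_top]
  exact P0.ne_bot_of_dvd_card hdiv (Subgroup.card_eq_one.mp h1)

end Cfsg.Agent.S2910
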