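import Cfsg.Statements.S2912
import Cfsg.Agent.Lib.CoprimeGen
import Cfsg.Agent.Lib.UniqueOrderP
import Cfsg.Agent.Lib.LocalBasic

set_option autoImplicit false
open Cfsg

namespace Cfsg.Agent.S2912

open CfsgLib.LocalBasic CfsgLib.UniqueOrderP
open scoped commutatorElement

universe u v

/-- The difference map of an automorphism. -/
def diffHom {V : Type v} [CommGroup V] (f : MulAut V) : V →* V where
  toFun x := f x * x⁻¹
  map_one' := by simp
  map_mul' x y := by rw [map_mul, mul_inv, mul_mul_mul_comm]

/-- The fixed points of an automorphism. -/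
def fixed {V : Type v} [CommGroup V] (f : MulAut V) : Subgroup V := (diffHom f).ker

theorem mem_fixed {V : Type v} [CommGroup V] {f : MulAut V} {x : V} : x ∈ fixed f ↔ f x = x := by
  rw [fixed, MonoidHom.mem_ker]
  exact mul_inv_eq_one

theorem fixed_invariant {V : Type v} [CommGroup V] {f g : MulAut V} (h : Commute f g) {x : V} (hx : x ∈ fixed f) :
    g x ∈ fixed f := by
  rw [mem_fixed] at hx ⊢
  rw [← MulAut.mul_apply, h.eq, MulAut.mul_apply, hx]

/-- The action restricted to an invariant subgroup. -/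
def restrictHom {P : Type u} [Group P] {V : Type v} [CommGroup V] (ρ : P →* MulAut V) (U : Subgroup V)
    (hU : ∀ x : P, ∀ y ∈ U, ρ x y ∈ U) : P →* MulAut ↥U where
  toFun x :=
    { toFun := fun y => ⟨ρ x y, hU x y y.2⟩
      invFun := fun y => ⟨ρ x⁻¹ y, hU x⁻¹ y y.2⟩
      left_inv := fun y => Subtype.ext (show ρ x⁻¹ (ρ x y) = y by rw [map_inv]; exact (ρ x).symm_apply_apply _)
      right_inv := fun y => Subtype.ext (show ρ x (ρ x⁻¹ y) = y by rw [map_inv]; exact (ρ x).apply_symm_apply _)
      map_mul' := fun a b => Subtype.ext (map_mul (ρ x) (a : V) b) }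
  map_one' := MulEquiv.ext fun y => Subtype.ext (by simp)
  map_mul' a b := MulEquiv.ext fun y => Subtype.ext (by simp)

theorem main {p r n : ℕ} [hp : Fact p.Prime] [hr : Fact r.Prime] (hpr : p ≠ r)
    (hmin : ∀ k : ℕ, 1 ≤ k → p ∣ r ^ k - 1 → n ≤ k) : ∀ (w : ℕ) (P : Type u) [Group P] [Finite P],
    Nat.card P = p ^ (2 * w + 1) → ∀ z : P, orderOf z = p → Subgroup.center P = Subgroup.zpowers z →
      (∀ a b : P, ⁅a, b⁆ ∈ Subgroup.zpowers z) → ∀ (V : Type v) [CommGroup V] [Finite V],
        (∀ x : V, x ^ r = 1) → Nontrivial V → ∀ ρ : P →* MulAut V, (∀ x : V, ρ z x = x → x = 1) →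
          r ^ (n * p ^ w) ≤ Nat.card V := by
  intro w
  induction w with
  | zero =>
    intro P _ _ hcard z hz _ _ V _ _ hV _ ρ hfix
    have hVp : IsPGroup r V := fun x => ⟨1, by rw [pow_one]; exact hV x⟩
    obtain ⟨k, hk⟩ := IsPGroup.iff_card.mp hVp
    rw [pow_zero, mul_one, hk]
    refine Nat.pow_le_pow_right hr.out.pos (hmin k ?_ ?_)
    · rcases Nat.eq_zero_or_pos k with h | h
      · rw [h, pow_zero] at hk
        exact absurd hk (Finite.one_lt_card (α := V)).ne'
      · exact h
    letI : MulAction ↥(Subgroup.zpowers z) V := MulAction.compHom V (ρ.comp (Subgroup.zpowers z).subtype)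
    have hzp : IsPGroup p ↥(Subgroup.zpowers z) := IsPGroup.of_card (n := 1) (by rw [Nat.card_zpowers, hz, pow_one])
    have hfp : MulAction.fixedPoints ↥(Subgroup.zpowers z) V = {1} := by
      ext x
      rw [Set.mem_singleton_iff]
      constructor
      · intro h
        exact hfix x (h ⟨z, Subgroup.mem_zpowers z⟩)
      · rintro rfl g
        exact map_one (ρ g)
    have := hzp.card_modEq_card_fixedPoints V
    rw [hfp, hk] at this
    simp only [Nat.card_coe_set_eq, Set.ncard_singleton] at this
    exact (Nat.modEq_iff_dvd' (Nat.one_le_pow _ _ hr.out.pos)).mp this.symm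
  | succ w ih =>
    intro P _ _ hcard z hz hZ hcomm V _ _ hV hne ρ hfix
    have hPp : IsPGroup p P := IsPGroup.of_card hcard
    have hVcop : ∀ x : V, x ^ p = 1 → x = 1 := fun x hx => by
      have hc : Nat.gcd p r = 1 := (Nat.coprime_primes hp.out hr.out).mpr hpr
      have := pow_gcd_eq_one.mpr ⟨hx, hV x⟩
      rwa [hc, pow_one] at this
    have hzc : ∀ y : P, y * z = z * y := Subgroup.mem_center_iff.mp (hZ ▸ Subgroup.mem_zpowers z)
    by_cases hex : ∃ a : P, a ^ p = 1 ∧ a ∉ Subgroup.zpowers z
    · obtain ⟨a, hap, haZ⟩ := hex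
      obtain ⟨e₀, he₀⟩ : ∃ e₀ : P, ¬ e₀ * a = a * e₀ := by
        by_contra hc
        push Not at hc
        exact haZ (hZ ▸ Subgroup.mem_center_iff.mpr hc)
      have hprime : ∀ c ∈ Subgroup.zpowers z, c ≠ 1 → z ∈ Subgroup.zpowers c := by
        intro c hc hc1
        have h1 : Subgroup.zpowers c = Subgroup.zpowers z := by
          refine Subgroup.eq_of_le_of_card_ge (Subgroup.zpowers_le.mpr hc) ?_
          rw [Nat.card_zpowers, Nat.card_zpowers, hz]
          have hd : orderOf c ∣ p := hz ▸ Nat.card_zpowers z ▸ Subgroup.orderOf_dvd_natCard _ hc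
          rcases (Nat.dvd_prime hp.out).mp hd with h | h
          · exact absurd (orderOf_eq_one_iff.mp h) hc1
          · exact h.ge
        exact h1 ▸ Subgroup.mem_zpowers z
      -- commutator with a fixed element is a hom
      have hhom : ∀ x y b : P, ⁅x * y, b⁆ = ⁅x, b⁆ * ⁅y, b⁆ := by
        intro x y b
        have h1 : x * ⁅y, b⁆ = ⁅y, b⁆ * x :=
          Subgroup.mem_center_iff.mp (hZ ▸ hcomm y b : ⁅y, b⁆ ∈ Subgroup.center P) x
        calc ⁅x * y, b⁆ = (x * ⁅y, b⁆) * (b * x⁻¹ * b⁻¹) := by simp only [commutatorElement_def]; group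
          _ = ⁅y, b⁆ * ⁅x, b⁆ := by rw [h1]; simp only [commutatorElement_def]; group
          _ = ⁅x, b⁆ * ⁅y, b⁆ :=
            (Subgroup.mem_center_iff.mp (hZ ▸ hcomm y b : ⁅y, b⁆ ∈ Subgroup.center P) _).symm
      let f : P → P →* ↥(Subgroup.zpowers z) := fun b => MonoidHom.mk' (fun x => ⟨⁅x, b⁆, hcomm x b⟩)
        (fun x y => Subtype.ext (hhom x y b))
      let F : P →* ↥(Subgroup.zpowers z) × ↥(Subgroup.zpowers z) := (f a).prod (f e₀)
      set E' := F.ker with hE'
      have hmemE' : ∀ x : P, x ∈ E' ↔ x * a = a * x ∧ x * e₀ = e₀ * x := by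
        intro x
        rw [hE', MonoidHom.mem_ker, Prod.ext_iff]
        simp only [F, f, MonoidHom.prod_apply, MonoidHom.mk'_apply, Prod.fst_one, Prod.snd_one, Subtype.ext_iff,
          OneMemClass.coe_one, commutatorElement_eq_one_iff_mul_comm]
      have hsurj : Function.Surjective F := by
        intro y
        have h1 : z ∈ Subgroup.zpowers ⁅e₀, a⁆ := hprime _ (hcomm _ _) (by
          rw [Ne, commutatorElement_eq_one_iff_mul_comm]; exact he₀)
        have h2 : z ∈ Subgroup.zpowers ⁅a, e₀⁆ := hprime _ (hcomm _ _) (by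
          rw [Ne, commutatorElement_eq_one_iff_mul_comm]; exact fun h => he₀ h.symm)
        obtain ⟨i, hi⟩ := Subgroup.mem_zpowers_iff.mp y.1.2
        obtain ⟨j, hj⟩ := Subgroup.mem_zpowers_iff.mp y.2.2
        obtain ⟨k, hk⟩ := Subgroup.mem_zpowers_iff.mp h1
        obtain ⟨l, hl⟩ := Subgroup.mem_zpowers_iff.mp h2
        refine ⟨(e₀ ^ k) ^ i * (a ^ l) ^ j, Prod.ext (Subtype.ext ?_) (Subtype.ext ?_)⟩
        · show (((f a) ((e₀ ^ k) ^ i * (a ^ l) ^ j) : ↥(Subgroup.zpowers z)) : P) = y.1
          simp only [map_mul, map_zpow, Subgroup.coe_mul, SubgroupClass.coe_zpow]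
          show (⁅e₀, a⁆ ^ k) ^ i * (⁅a, a⁆ ^ l) ^ j = _
          rw [commutatorElement_self, one_zpow, one_zpow, mul_one, hk, hi]
        · show (((f e₀) ((e₀ ^ k) ^ i * (a ^ l) ^ j) : ↥(Subgroup.zpowers z)) : P) = y.2
          simp only [map_mul, map_zpow, Subgroup.coe_mul, SubgroupClass.coe_zpow]
          show (⁅e₀, e₀⁆ ^ k) ^ i * (⁅a, e₀⁆ ^ l) ^ j = _
          rw [commutatorElement_self, one_zpow, one_zpow, one_mul, hl, hj]
      have hcardE : Nat.card ↥E' = p ^ (2 * w + 1) := by
        have h1 := E'.card_mul_index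
        rw [hE', Subgroup.index_ker, MonoidHom.range_eq_top.mpr hsurj, Subgroup.card_top, Nat.card_prod,
          Nat.card_zpowers, hz, hcard] at h1
        apply Nat.eq_of_mul_eq_mul_right (Nat.mul_pos hp.out.pos hp.out.pos)
        rw [hE', h1]; ring
      have hzE : z ∈ E' := (hmemE' z).mpr ⟨(hzc a).symm, (hzc e₀).symm⟩
      have hcenter : Subgroup.center ↥E' = Subgroup.zpowers (⟨z, hzE⟩ : ↥E') := by
        refine le_antisymm (fun x hx => ?_) (Subgroup.zpowers_le.mpr (Subgroup.mem_center_iff.mpr fun y => Subtype.ext (hzc y)))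
        have hxc : (x : P) ∈ Subgroup.center P := by
          refine Subgroup.mem_center_iff.mpr fun y => ?_
          obtain ⟨ha1, he1⟩ := (hmemE' x).mp x.2
          -- every element is a product of an element of `E'` and powers of `a`, `e₀`
          have h1 : z ∈ Subgroup.zpowers ⁅e₀, a⁆ := hprime _ (hcomm _ _) (by
            rw [Ne, commutatorElement_eq_one_iff_mul_comm]; exact he₀)
          have h2 : z ∈ Subgroup.zpowers ⁅a, e₀⁆ := hprime _ (hcomm _ _) (by
            rw [Ne, commutatorElement_eq_one_iff_mul_comm]; exact fun h => he₀ h.symm)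
          obtain ⟨i, hi⟩ := Subgroup.mem_zpowers_iff.mp (F y).1.2
          obtain ⟨j, hj⟩ := Subgroup.mem_zpowers_iff.mp (F y).2.2
          obtain ⟨k, hk⟩ := Subgroup.mem_zpowers_iff.mp h1
          obtain ⟨l, hl⟩ := Subgroup.mem_zpowers_iff.mp h2
          set u := (e₀ ^ k) ^ i * (a ^ l) ^ j with hu
          have hyu : y * u⁻¹ ∈ E' := by
            rw [hE', MonoidHom.mem_ker, map_mul, map_inv, mul_inv_eq_one]
            refine Prod.ext (Subtype.ext ?_) (Subtype.ext ?_)
            · show _ = (((f a) u : ↥(Subgroup.zpowers z)) : P)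
              simp only [hu, map_mul, map_zpow, Subgroup.coe_mul, SubgroupClass.coe_zpow]
              show _ = (⁅e₀, a⁆ ^ k) ^ i * (⁅a, a⁆ ^ l) ^ j
              rw [commutatorElement_self, one_zpow, one_zpow, mul_one, hk, hi]
            · show _ = (((f e₀) u : ↥(Subgroup.zpowers z)) : P)
              simp only [hu, map_mul, map_zpow, Subgroup.coe_mul, SubgroupClass.coe_zpow]
              show _ = (⁅e₀, e₀⁆ ^ k) ^ i * (⁅a, e₀⁆ ^ l) ^ j
              rw [commutatorElement_self, one_zpow, one_zpow, one_mul, hl, hj]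
          have hxu : Commute (x : P) u :=
            (((show Commute (x : P) e₀ from he1).zpow_right k).zpow_right i).mul_right
              (((show Commute (x : P) a from ha1).zpow_right l).zpow_right j)
          have hxy : Commute (x : P) (y * u⁻¹) :=
            (congrArg Subtype.val (Subgroup.mem_center_iff.mp hx ⟨_, hyu⟩)).symm
          have := hxy.mul_right hxu
          rw [inv_mul_cancel_right] at this
          exact this.eq.symm
        rw [hZ] at hxc
        obtain ⟨i, hi⟩ := Subgroup.mem_zpowers_iff.mp hxc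
        exact Subgroup.mem_zpowers_iff.mpr ⟨i, Subtype.ext (by rw [Subgroup.coe_zpow]; exact hi)⟩
      have hcomm' : ∀ x y : ↥E', ⁅x, y⁆ ∈ Subgroup.zpowers (⟨z, hzE⟩ : ↥E') := fun x y => by
        obtain ⟨i, hi⟩ := Subgroup.mem_zpowers_iff.mp (hcomm (x : P) y)
        exact Subgroup.mem_zpowers_iff.mpr ⟨i, Subtype.ext (by
          rw [Subgroup.coe_zpow]; simpa [commutatorElement_def] using hi)⟩
      let U : ℕ → Subgroup V := fun i => fixed (ρ (z ^ i * a))
      have hUinv : ∀ (i : ℕ) (x : ↥E') (v : V), v ∈ U i → ρ x v ∈ U i := fun i x v hv =>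
        fixed_invariant (((show Commute z (x : P) from (hzc x).symm).pow_left i).mul_left
          (show Commute a (x : P) from ((hmemE' x).mp x.2).1.symm) |>.map ρ) hv
      have hone : ∀ i, U i ≠ ⊥ → r ^ (n * p ^ w) ≤ Nat.card ↥(U i) := by
        intro i hi
        refine ih ↥E' hcardE ⟨z, hzE⟩ ?_ hcenter hcomm' ↥(U i) (fun x => Subtype.ext (by simpa using hV x))
          ((Subgroup.nontrivial_iff_ne_bot _).mpr hi)
          (restrictHom (ρ.comp E'.subtype) (U i) (fun x v hv => hUinv i x v hv)) ?_
        · rw [← hz]; exact (Subgroup.orderOf_coe _).symm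
        · exact fun x hx => Subtype.ext (hfix x (congrArg Subtype.val hx))
      -- conjugation by `e₀` moves `U i` onto the others
      have hconj : ∀ i : ℕ, ∀ t : P, ∀ v ∈ U i, ∀ j : ℕ, t * (z ^ i * a) * t⁻¹ = z ^ j * a → ρ t v ∈ U j := by
        intro i t v hv j hj
        have hv' : ρ (z ^ i * a) v = v := mem_fixed.mp hv
        refine mem_fixed.mpr ?_
        rw [← hj]
        simp only [map_mul, map_inv, MulAut.mul_apply, MulAut.inv_apply, MulEquiv.symm_apply_apply]
        show ρ t ((ρ (z ^ i) * ρ a) v) = _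
        rw [← map_mul, hv']
      have hzp : z ^ p = 1 := hz ▸ pow_orderOf_eq_one z
      have hfinz : ∀ c ∈ Subgroup.zpowers z, ∃ i : ℕ, i < p ∧ z ^ i = c := by
        intro c hc
        classical
        rw [(isOfFinOrder_of_finite z).mem_zpowers_iff_mem_range_orderOf, Finset.mem_image, hz] at hc
        obtain ⟨i, hi, hi'⟩ := hc
        exact ⟨i, Finset.mem_range.mp hi, hi'⟩
      obtain ⟨k, hk⟩ := Subgroup.mem_zpowers_iff.mp (hprime _ (hcomm e₀ a) (by
        rw [Ne, commutatorElement_eq_one_iff_mul_comm]; exact he₀))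
      have hta : e₀ ^ k * a * (e₀ ^ k)⁻¹ = z * a := by
        have h := map_zpow (f a) e₀ k
        have h2 := congrArg Subtype.val h
        simp only [f, MonoidHom.mk'_apply, SubgroupClass.coe_zpow] at h2
        rw [hk, commutatorElement_def] at h2
        rw [← h2]; group
      have hshift : ∀ i, Nat.card ↥(U i) ≤ Nat.card ↥(U (i + 1)) := by
        intro i
        have hle : (U i).map (ρ (e₀ ^ k)).toMonoidHom ≤ U (i + 1) := by
          rintro _ ⟨v, hv, rfl⟩
          refine hconj i _ v hv _ ?_
          calc e₀ ^ k * (z ^ i * a) * (e₀ ^ k)⁻¹ = z ^ i * (e₀ ^ k * a * (e₀ ^ k)⁻¹) := by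
                rw [← mul_assoc (e₀ ^ k), ((show Commute (e₀ ^ k) z from hzc _).pow_right i).eq]; group
            _ = z ^ (i + 1) * a := by rw [hta, pow_succ, mul_assoc]
        exact (Subgroup.card_map_of_injective (ρ (e₀ ^ k)).injective).ge.trans (Subgroup.card_le_of_le hle)
      have hper : ∀ i, U (i + p) = U i := fun i => by
        show fixed _ = fixed _
        rw [pow_add, hzp, mul_one]
      obtain ⟨i₀, hi₀⟩ : ∃ i, U i ≠ ⊥ := by
        by_contra hc
        push Not at hc
        obtain ⟨x, hx⟩ := exists_ne (1 : V)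
        refine hx (hVcop x (Subgroup.mem_bot.mp (CfsgLib.CoprimeGen.pow_mem_of_fixed_le (p := p) (ρ z) (ρ a)
          ((show Commute z a from (hzc a).symm).map ρ) (by rw [← map_pow, hzp, map_one])
          (by rw [← map_pow, hap, map_one]) ⊥ (fun m hm => Subgroup.mem_bot.mpr (hfix m hm)) (fun i m hm => ?_) x)))
        rw [← hc i.val]
        refine mem_fixed.mpr ?_
        rwa [map_mul, map_pow]
      have hchain : ∀ i d, Nat.card ↥(U i) ≤ Nat.card ↥(U (i + d)) := by
        intro i d
        induction d with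
        | zero => exact le_rfl
        | succ d ihd => exact ihd.trans (hshift (i + d))
      have hlow : ∀ i, r ^ (n * p ^ w) ≤ Nat.card ↥(U i) := by
        intro i
        refine (hone i₀ hi₀).trans ?_
        have hperm : ∀ j, U (i + p * j) = U i := by
          intro j
          induction j with
          | zero => rw [mul_zero, add_zero]
          | succ j ihj => rw [mul_add, mul_one, ← add_assoc, hper, ihj]
        rw [← hperm i₀]
        have hle : i₀ ≤ i + p * i₀ := le_add_left (Nat.le_mul_of_pos_left _ hp.out.pos)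
        calc Nat.card ↥(U i₀) ≤ Nat.card ↥(U (i₀ + (i + p * i₀ - i₀))) := hchain _ _
          _ = _ := by rw [Nat.add_sub_cancel' hle]
      -- independence
      have hind : ∀ m ≤ p, ∃ W : Subgroup V, r ^ (n * p ^ w * m) ≤ Nat.card ↥W ∧
          ∀ i, m ≤ i → i < p → W ⊓ U i = ⊥ := by
        suffices h : ∀ m ≤ p, ∃ (W : Subgroup V) (T : V →* V), r ^ (n * p ^ w * m) ≤ Nat.card ↥W ∧
            W ≤ T.ker ∧ (∀ i, m ≤ i → i < p → ∀ v ∈ U i, T v = 1 → v = 1) ∧
              (∀ x : P, x * a = a * x → ∀ v, ρ x (T v) = T (ρ x v)) by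
          intro m hm
          obtain ⟨W, T, h1, h2, h3, -⟩ := h m hm
          exact ⟨W, h1, fun i hi hip => (Subgroup.eq_bot_iff_forall _).mpr fun v hv => h3 i hi hip v hv.2 (h2 hv.1)⟩
        intro m
        induction m with
        | zero =>
          exact fun _ => ⟨⊥, MonoidHom.id V, by simp, bot_le, fun _ _ _ v _ hv => hv, fun _ _ _ => rfl⟩
        | succ m ihm =>
          intro hm
          obtain ⟨W, T, h1, h2, h3, h4⟩ := ihm (by omega)
          refine ⟨W ⊔ U m, (diffHom (ρ (z ^ m * a))).comp T, ?_, ?_, ?_, ?_⟩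
          · have hdisj : W ⊓ U m = ⊥ :=
              (Subgroup.eq_bot_iff_forall _).mpr fun v hv => h3 m le_rfl (by omega) v hv.2 (h2 hv.1)
            have hmul : Nat.card ↥W * Nat.card ↥(U m) ≤ Nat.card ↥(W ⊔ U m : Subgroup V) := by
              rw [← Nat.card_prod]
              refine Nat.card_le_card_of_injective
                (fun q : ↥W × ↥(U m) => (⟨q.1 * q.2, Subgroup.mul_mem_sup q.1.2 q.2.2⟩ : ↥(W ⊔ U m))) ?_
              rintro ⟨⟨w₁, hw₁⟩, ⟨u₁, hu₁⟩⟩ ⟨⟨w₂, hw₂⟩, ⟨u₂, hu₂⟩⟩ h
              simp only [Subtype.mk.injEq] at h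
              have e : w₂⁻¹ * w₁ = u₂ * u₁⁻¹ := by
                rw [eq_mul_inv_iff_mul_eq, mul_assoc, h, inv_mul_cancel_left]
              have : w₂⁻¹ * w₁ ∈ W ⊓ U m :=
                ⟨W.mul_mem (W.inv_mem hw₂) hw₁, e ▸ (U m).mul_mem hu₂ ((U m).inv_mem hu₁)⟩
              rw [hdisj, Subgroup.mem_bot] at this
              have h5 : w₁ = w₂ := (inv_mul_eq_one.mp this).symm
              subst h5
              simp [mul_left_cancel h]
            refine le_trans ?_ hmul
            rw [mul_add, mul_one, pow_add]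
            exact Nat.mul_le_mul h1 (hlow m)
          · refine sup_le (fun v hv => ?_) fun v hv => ?_
            · rw [MonoidHom.mem_ker, MonoidHom.comp_apply, MonoidHom.mem_ker.mp (h2 hv), map_one]
            · rw [MonoidHom.mem_ker, MonoidHom.comp_apply]
              refine mem_fixed.mpr ?_
              rw [h4 _ (by rw [mul_assoc, ← mul_assoc a, ((show Commute a z from hzc a).pow_right m).eq, mul_assoc]),
                mem_fixed.mp hv]
          · intro i hi hip v hv hTv
            rw [MonoidHom.comp_apply] at hTv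
            have hfx : ρ (z ^ m * a) (T v) = T v := mem_fixed.mp hTv
            have hfi : ρ (z ^ i * a) (T v) = T v := by
              rw [h4 _ (by rw [mul_assoc, ← mul_assoc a, ((show Commute a z from hzc a).pow_right i).eq, mul_assoc]),
                mem_fixed.mp hv]
            refine h3 i (by omega) hip v hv ?_
            -- `z ^ (i - m)` fixes `T v`
            have hd : ρ (z ^ (i - m)) (T v) = T v := by
              have e : z ^ i * a = z ^ (i - m) * (z ^ m * a) := by
                rw [← mul_assoc, ← pow_add, Nat.sub_add_cancel (by omega)]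
              rw [e, map_mul, MulAut.mul_apply, hfx] at hfi
              exact hfi
            obtain ⟨l, hl⟩ : ∃ l : ℕ, (z ^ (i - m)) ^ l = z := by
              refine exists_pow_eq_self_of_coprime ?_
              rw [hz]
              exact (hp.out.coprime_iff_not_dvd.mpr fun h => by
                have := Nat.le_of_dvd (by omega) h; omega).symm
            apply hfix
            rw [← hl, map_pow]
            have hall : ∀ j : ℕ, (ρ (z ^ (i - m)) ^ j) (T v) = T v := by
              intro j
              induction j with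
              | zero => simp
              | succ j ihj => rw [pow_succ', MulAut.mul_apply, ihj, hd]
            exact hall l
          · intro x hx v
            simp only [MonoidHom.comp_apply]
            show ρ x (ρ (z ^ m * a) (T v) * (T v)⁻¹) = ρ (z ^ m * a) (T (ρ x v)) * (T (ρ x v))⁻¹
            rw [map_mul, map_inv, ← h4 x hx v, ← MulAut.mul_apply, ← map_mul, ← MulAut.mul_apply, ← map_mul]
            rw [show x * (z ^ m * a) = z ^ m * a * x by
              rw [mul_assoc, ← hx, ← mul_assoc, ← mul_assoc, ((show Commute x z from hzc x).pow_right m).eq]]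
      obtain ⟨W, hW, -⟩ := hind p le_rfl
      refine le_trans (le_of_eq ?_) (hW.trans (Subgroup.card_le_card_group W))
      rw [pow_succ, mul_assoc]
    · -- `P` is quaternion of order 8
      push Not at hex
      have hu : Uniq p P := fun x y hx hy => by
        have h1 : Subgroup.zpowers x = Subgroup.zpowers z := Subgroup.eq_of_le_of_card_ge
          (Subgroup.zpowers_le.mpr (hex x (hx ▸ pow_orderOf_eq_one x))) (by rw [Nat.card_zpowers, Nat.card_zpowers, hx, hz])
        exact h1 ▸ hex y (hy ▸ pow_orderOf_eq_one y)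
      have hnab : ¬ ∀ x y : P, x * y = y * x := by
        intro h
        have hc : Subgroup.center P = ⊤ := eq_top_iff.mpr fun x _ => Subgroup.mem_center_iff.mpr fun y => h y x
        have := congrArg (fun K : Subgroup P => Nat.card ↥K) hc
        simp only [hZ, Nat.card_zpowers, hz, Subgroup.card_top, hcard] at this
        have h2 := Nat.pow_right_injective hp.out.two_le (show p ^ 1 = p ^ (2 * (w + 1) + 1) by rwa [pow_one])
        omega
      rcases cyclic_or_quaternion hPp hu with hc | ⟨hp2, k, ⟨e⟩⟩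
      · exfalso
        apply hnab
        letI := IsCyclic.commGroup (α := P)
        exact fun x y => mul_comm x y
      subst hp2
      have hw : w = 0 := by
        have hc : Nat.card P = 4 * 2 ^ k := by
          rw [Nat.card_congr e.toEquiv, Nat.card_eq_fintype_card, QuaternionGroup.card]
        have hk : k ≤ 1 := by
          by_contra hk
          have hord : (orderOf ⁅e.symm (QuaternionGroup.a 1), e.symm (QuaternionGroup.xa 0)⁆) ∣ 2 := by
            have h := Subgroup.orderOf_dvd_natCard _ (hcomm (e.symm (QuaternionGroup.a 1)) (e.symm (QuaternionGroup.xa 0)))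
            rwa [Nat.card_zpowers, hz] at h
          rw [← map_commutatorElement, MulEquiv.orderOf_eq, commutatorElement_def] at hord
          have hval : (QuaternionGroup.a 1 : QuaternionGroup (2 ^ k)) * QuaternionGroup.xa 0 *
              (QuaternionGroup.a 1)⁻¹ * (QuaternionGroup.xa 0)⁻¹ = QuaternionGroup.a 2 := by
            rw [mul_inv_eq_iff_eq_mul, mul_inv_eq_iff_eq_mul]
            simp only [QuaternionGroup.a_mul_xa, QuaternionGroup.a_mul_a, QuaternionGroup.xa_mul_a]
            congr 1
            ring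
          rw [hval] at hord
          have h4 := orderOf_dvd_iff_pow_eq_one.mp hord
          rw [pow_two, QuaternionGroup.a_mul_a, ← QuaternionGroup.a_zero] at h4
          injection h4 with h5
          have h6 : ((4 : ℕ) : ZMod (2 * 2 ^ k)) = 0 := by push_cast; linear_combination h5
          rw [ZMod.natCast_eq_zero_iff] at h6
          have h7 := Nat.le_of_dvd (by norm_num) h6
          have h8 : 2 ^ 2 ≤ 2 ^ k := Nat.pow_le_pow_right (by norm_num) (by omega)
          omega
        have : 2 ^ (2 * (w + 1) + 1) ≤ 2 ^ 3 := by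
          rw [← hcard, hc, show (2 : ℕ) ^ 3 = 4 * 2 ^ 1 by norm_num]
          exact Nat.mul_le_mul_left 4 (Nat.pow_le_pow_right (by norm_num) hk)
        have := (Nat.pow_le_pow_iff_right (by norm_num : 1 < 2)).mp this
        omega
      subst hw
      have hn1 : n ≤ 1 := by
        refine hmin 1 le_rfl ?_
        rw [pow_one]
        have hodd := hr.out.odd_of_ne_two (fun h => hpr h.symm)
        obtain ⟨i, hi⟩ := hodd
        exact ⟨i, by omega⟩
      have hVp : IsPGroup r V := fun x => ⟨1, by rw [pow_one]; exact hV x⟩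
      obtain ⟨j, hj⟩ := IsPGroup.iff_card.mp hVp
      rw [hj]
      refine Nat.pow_le_pow_right hr.out.pos ?_
      have hj2 : 2 ≤ j := by
        by_contra hlt
        haveI : IsCyclic V := by
          rcases Nat.le_one_iff_eq_zero_or_eq_one.mp (by omega : j ≤ 1) with h | h
          · rw [h, pow_zero] at hj
            exact absurd hj (Finite.one_lt_card (α := V)).ne'
          · exact isCyclic_of_prime_card (p := r) (by rw [hj, h, pow_one])
        obtain ⟨x, y, hxy⟩ : ∃ x y : P, x * y ≠ y * x := by by_contra hc; push Not at hc; exact hnab hc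
        have hcV : ρ x * ρ y = ρ y * ρ x := by
          apply (IsCyclic.mulAutMulEquiv V).injective
          rw [map_mul, map_mul, mul_comm]
        have h1 : ρ ⁅x, y⁆ = 1 := by
          rw [map_commutatorElement, commutatorElement_eq_one_iff_mul_comm]; exact hcV
        have h2 : z ∈ Subgroup.zpowers ⁅x, y⁆ := by
          have hne' : ⁅x, y⁆ ≠ 1 := fun h => hxy (commutatorElement_eq_one_iff_mul_comm.mp h)
          have he : Subgroup.zpowers ⁅x, y⁆ = Subgroup.zpowers z := by
            refine Subgroup.eq_of_le_of_card_ge (Subgroup.zpowers_le.mpr (hcomm x y)) ?_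
            rw [Nat.card_zpowers, Nat.card_zpowers, hz]
            rcases (Nat.dvd_prime Nat.prime_two).mp (hz ▸ Nat.card_zpowers z ▸ Subgroup.orderOf_dvd_natCard _ (hcomm x y))
              with h | h
            · exact absurd (orderOf_eq_one_iff.mp h) hne'
            · exact h.ge
          exact he ▸ Subgroup.mem_zpowers z
        obtain ⟨i, hi⟩ := Subgroup.mem_zpowers_iff.mp h2
        obtain ⟨u, hu'⟩ := exists_ne (1 : V)
        exact hu' (hfix u (by rw [← hi, map_zpow, h1, one_zpow, MulAut.one_apply]))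
      calc n * 2 ^ (0 + 1) ≤ 1 * 2 := Nat.mul_le_mul hn1 (by norm_num)
        _ ≤ j := by omega


/-- Let p and r be distinct primes, let E be an extraspecial subgroup of order p^(2w+1) of a finite group, and let A be an elementary abelian r-subgroup normalized by E on which E acts faithfully (C_E(A) = 1). If n ≥ 1 is least with p dividing rⁿ − 1 (the smallest dimension of a faithful representation of a group of order p over the field with r elements), then the order of A is at least r^(n·p^w). -/
theorem result {G : Type*} [Group G] [Finite G] {p r : ℕ} [Fact p.Prime] [hr : Fact r.Prime] (hpr : p ≠ r) (E A : Subgroup G) (w : ℕ) (hE : Cfsg.IsExtraspecial p ↥E) (hEcard : Nat.card ↥E = p ^ (2 * w + 1)) (hA : Cfsg.IsElementaryAbelian r A) (hnorm : E ≤ Subgroup.normalizer (A : Set G)) (hfaith : E ⊓ Subgroup.centralizer (A : Set G) = ⊥) (n : ℕ) (hn : 1 ≤ n) (hdiv : p ∣ r ^ n - 1) (hmin : ∀ k : ℕ, 1 ≤ k → p ∣ r ^ k - 1 → n ≤ k) : r ^ (n * p ^ w) ≤ Nat.card ↥A := by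
  classical
  obtain ⟨⟨hEp, -, hcomm⟩, hZcard⟩ := hE
  letI : IsMulCommutative ↥A := hA.1
  letI : CommGroup ↥A := { (inferInstance : Group ↥A) with mul_comm := fun a b => mul_comm' a b }
  haveI : Fact (Nat.card ↥(Subgroup.center ↥E)).Prime := ⟨hZcard ▸ Fact.out⟩
  haveI : IsCyclic ↥(Subgroup.center ↥E) := isCyclic_of_prime_card rfl
  obtain ⟨z, hz⟩ := IsCyclic.exists_generator (α := ↥(Subgroup.center ↥E))
  have hzord : orderOf (z : ↥E) = p := by rw [Subgroup.orderOf_coe, orderOf_eq_card_of_forall_mem_zpowers hz, hZcard]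
  have hcenter : Subgroup.center ↥E = Subgroup.zpowers (z : ↥E) :=
    (Subgroup.eq_of_le_of_card_ge (Subgroup.zpowers_le.mpr z.2) (by rw [Nat.card_zpowers, hzord, hZcard])).symm
  let ρ₀ : ↥E →* MulAut ↥A :=
    { toFun := fun e =>
        { toFun := fun a => ⟨(e : G) * a * (e : G)⁻¹, (Subgroup.mem_normalizer_iff.mp (hnorm e.2) a).mp a.2⟩
          invFun := fun a => ⟨(e : G)⁻¹ * a * (e : G), (Subgroup.mem_normalizer_iff''.mp (hnorm e.2) a).mp a.2⟩
          left_inv := fun a => Subtype.ext (by simp [mul_assoc])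
          right_inv := fun a => Subtype.ext (by simp [mul_assoc])
          map_mul' := fun a b => Subtype.ext (by simp [mul_assoc]) }
      map_one' := MulEquiv.ext fun a => Subtype.ext (by simp)
      map_mul' := fun a b => MulEquiv.ext fun c => Subtype.ext (by simp [mul_assoc]) }
  let D : Subgroup ↥A := (diffHom (ρ₀ z)).range
  have hDinv : ∀ (e : ↥E), ∀ v ∈ D, ρ₀ e v ∈ D := by
    rintro e _ ⟨v, rfl⟩
    refine ⟨ρ₀ e v, ?_⟩
    show ρ₀ z (ρ₀ e v) * (ρ₀ e v)⁻¹ = ρ₀ e (ρ₀ z v * v⁻¹)
    rw [map_mul, map_inv, ← MulAut.mul_apply, ← map_mul, ← Subgroup.mem_center_iff.mp z.2 e, map_mul, MulAut.mul_apply]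
  have hA' : ∀ x : ↥A, x ^ r = 1 := fun x => Subtype.ext (by simpa using hA.2 x x.2)
  have hDne : D ≠ ⊥ := by
    intro h
    have hzc : ((z : ↥E) : G) ∈ E ⊓ Subgroup.centralizer (A : Set G) := by
      refine ⟨(z : ↥E).2, fun a ha => ?_⟩
      have : diffHom (ρ₀ z) ⟨a, ha⟩ = 1 := Subgroup.mem_bot.mp (h ▸ ⟨_, rfl⟩)
      have h2 := congrArg Subtype.val (mul_inv_eq_one.mp this)
      calc a * ((z : ↥E) : G) = (((z : ↥E) : G) * a * ((z : ↥E) : G)⁻¹) * ((z : ↥E) : G) := by
            congr 1; exact h2.symm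
        _ = ((z : ↥E) : G) * a := by group
    rw [hfaith, Subgroup.mem_bot] at hzc
    have : (z : ↥E) = 1 := Subtype.ext hzc
    rw [this, orderOf_one] at hzord
    exact (Fact.out : p.Prime).ne_one hzord.symm
  -- `z` fixes nothing in `[A, z]`
  have hfix : ∀ x : ↥D, restrictHom ρ₀ D hDinv (z : ↥E) x = x → x = 1 := by
    rintro ⟨_, v, rfl⟩ hx
    have hx1 : ρ₀ z (diffHom (ρ₀ z) v) = diffHom (ρ₀ z) v := congrArg Subtype.val hx
    set c := diffHom (ρ₀ z) v with hc
    have hzv : ρ₀ z v = c * v := by rw [hc]; exact (inv_mul_cancel_right (ρ₀ z v) v).symm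
    have hiter : ∀ i : ℕ, ((ρ₀ z) ^ i) v = c ^ i * v := by
      intro i
      induction i with
      | zero => simp
      | succ i ihi => rw [pow_succ', MulAut.mul_apply, ihi, map_mul, map_pow, hx1, hzv, pow_succ, mul_assoc]
    have h1 := hiter p
    rw [← map_pow, show (z : ↥E) ^ p = 1 from hzord ▸ pow_orderOf_eq_one _, map_one, MulAut.one_apply] at h1
    have hcp : c ^ p = 1 := mul_eq_right.mp h1.symm
    have := pow_gcd_eq_one.mpr ⟨hcp, hA' c⟩
    rw [(Nat.coprime_primes (Fact.out : p.Prime) hr.out).mpr hpr, pow_one] at this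
    exact Subtype.ext this
  refine le_trans (main hpr hmin w ↥E hEcard (z : ↥E) hzord hcenter ?_ ↥D
    (fun x => Subtype.ext (by simpa using hA' x)) ((Subgroup.nontrivial_iff_ne_bot _).mpr hDne)
    (restrictHom ρ₀ D hDinv) hfix) (Subgroup.card_le_card_group D)
  intro a b
  rw [← hcenter, ← hcomm, commutator_def]
  exact Subgroup.commutator_mem_commutator (Subgroup.mem_top a) (Subgroup.mem_top b)

end Cfsg.Agent.S2912
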