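import Cfsg.Statements.S2924
import Cfsg.Agent.Lib.GenFitting
import Cfsg.Agent.Lib.CoprimeGen

set_option autoImplicit false
open Cfsg

namespace Cfsg.Agent.S2924
open scoped commutatorElement
set_option linter.style.haveILetI false
set_option linter.unusedSectionVars false

variable {X : Type*} [Group X] [Finite X]

/-- `O(C(y))` as a subgroup of the ambient group. -/
abbrev th (y : X) : Subgroup X :=
  (Cfsg.oddCore ↥(Subgroup.centralizer ({y} : Set X))).map (Subgroup.centralizer ({y} : Set X)).subtype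

theorem th_le (y : X) : th y ≤ Subgroup.centralizer ({y} : Set X) := Subgroup.map_subtype_le _

theorem th_cop (y : X) : (Nat.card ↥(th y)).Coprime 2 := by
  rw [Subgroup.card_map_of_injective (Subgroup.subtype_injective _)]
  exact CfsgLib.Core.card_pPrimeCore_coprime 2

theorem th_conj {y c u : X} (hc : c ∈ Subgroup.centralizer ({y} : Set X)) (hu : u ∈ th y) : c * u * c⁻¹ ∈ th y := by
  obtain ⟨v, hv, rfl⟩ := hu
  haveI : (Cfsg.oddCore ↥(Subgroup.centralizer ({y} : Set X))).Normal := by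
    have := CfsgLib.Core.pPrimeCore_characteristic (G := ↥(Subgroup.centralizer ({y} : Set X))) 2
    exact inferInstanceAs (Cfsg.pPrimeCore 2 ↥(Subgroup.centralizer ({y} : Set X))).Normal
  exact ⟨_, Subgroup.Normal.conj_mem inferInstance v hv ⟨c, hc⟩, rfl⟩

theorem mem_cz {a b : X} (h : a * b = b * a) : a ∈ Subgroup.centralizer ({b} : Set X) :=
  Subgroup.mem_centralizer_singleton_iff.mpr h

theorem cop_of_mem {U : Subgroup X} (hU : (Nat.card ↥U).Coprime 2) {u : X} (hu : u ∈ U) : (orderOf u).Coprime 2 :=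
  hU.coprime_dvd_left (U.orderOf_dvd_natCard hu)

/-- Elements of `O(C(x))` centralized by a commuting involution `y` centralize `O₂(C(y))`. -/
theorem centralizes_core {x y : X} (hx2 : x ^ 2 = 1) (hxy : x * y = y * x) {u : X} (hu : u ∈ th x)
    (huy : u * y = y * u) :
    ∀ q ∈ Cfsg.pCore 2 ↥(Subgroup.centralizer ({y} : Set X)), (⟨u, mem_cz huy⟩ : ↥(Subgroup.centralizer ({y} : Set X))) * q =
      q * ⟨u, mem_cz huy⟩ := by
  set C := Subgroup.centralizer ({y} : Set X)
  set Q := Cfsg.pCore 2 ↥C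
  have hQn : Q.Normal := by
    have := CfsgLib.Core.pCore_characteristic (G := ↥C) 2
    exact inferInstance
  let x' : ↥C := ⟨x, mem_cz hxy⟩
  let u' : ↥C := ⟨u, mem_cz huy⟩
  have hux : u * x = x * u := Subgroup.mem_centralizer_singleton_iff.mp (th_le x hu)
  have hco : (orderOf u').Coprime 2 := by
    rw [← Subgroup.orderOf_coe]; exact cop_of_mem (th_cop x) hu
  have hxp : IsPGroup 2 ↥(Subgroup.zpowers x') := by
    refine IsPGroup.of_card (n := (orderOf x').factorization 2) ?_
    rw [Nat.card_zpowers]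
    rcases (Nat.dvd_prime Nat.prime_two).mp (orderOf_dvd_of_pow_eq_one (show x' ^ 2 = 1 from Subtype.ext hx2)) with h | h <;>
      rw [h] <;> simp [Nat.Prime.factorization_self Nat.prime_two]
  intro q hq
  refine CfsgLib.GenFitting.thompson_pq (P := Subgroup.zpowers x') (Q := Q) (c := u') hxp
    (CfsgLib.Core.isPGroup_pCore 2) (by rw [Subgroup.normalizer_eq_top Q]; exact le_top) hco ?_
    (by rw [Subgroup.normalizer_eq_top Q]; exact Subgroup.mem_top _) ?_ q hq
  · intro z hz
    obtain ⟨m, rfl⟩ := hz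
    exact ((show Commute u' x' from Subtype.ext hux).zpow_right m).eq
  · intro w hw
    obtain ⟨hwQ, hwP⟩ := Subgroup.mem_inf.mp hw
    have hwx : (w : X) * x = x * (w : X) :=
      congrArg Subtype.val (Subgroup.mem_centralizer_iff.mp hwP x' (Subgroup.mem_zpowers x')).symm
    have hd1 : ((⁅u', w⁆ : ↥C) : X) ∈ th x := by
      show u * (w : X) * u⁻¹ * (w : X)⁻¹ ∈ th x
      rw [mul_assoc, mul_assoc, ← mul_assoc (w : X)]
      exact mul_mem hu (th_conj (mem_cz hwx) (inv_mem hu))
    have hd2 : ⁅u', w⁆ ∈ Q := by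
      rw [commutatorElement_def]
      exact mul_mem (hQn.conj_mem w hwQ u') (inv_mem hwQ)
    have h1 : ⁅u', w⁆ = 1 := by
      obtain ⟨k, hk⟩ := IsPGroup.iff_orderOf.mp (CfsgLib.Core.isPGroup_pCore 2) ⟨_, hd2⟩
      rw [Subgroup.orderOf_mk] at hk
      refine orderOf_eq_one_iff.mp (Nat.eq_one_of_dvd_coprimes ((cop_of_mem (th_cop x) hd1).pow_right k) ?_ (hk ▸ dvd_rfl))
      rw [Subgroup.orderOf_coe]
    exact commutatorElement_eq_one_iff_mul_comm.mp h1

/-- A group of odd order on which an involution fixes nothing but `1` is inverted by it. -/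
theorem inverts {z : X} (hz2 : z ^ 2 = 1) (U : Subgroup X) (hn : ∀ u ∈ U, z * u * z⁻¹ ∈ U)
    (hfix : ∀ u ∈ U, z * u * z⁻¹ = u → u = 1) : ∀ u ∈ U, z * u * z⁻¹ = u⁻¹ := by
  let f : ↥U → ↥U := fun u => ⟨(u : X)⁻¹ * (z * u * z⁻¹), mul_mem (inv_mem u.2) (hn u u.2)⟩
  have hinj : Function.Injective f := by
    intro a b hab
    have h : (a : X)⁻¹ * (z * a * z⁻¹) = (b : X)⁻¹ * (z * b * z⁻¹) := congrArg Subtype.val hab
    have h2 : z * ((b : X) * (a : X)⁻¹) * z⁻¹ = (b : X) * (a : X)⁻¹ := by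
      calc z * ((b : X) * (a : X)⁻¹) * z⁻¹ = (b : X) * ((b : X)⁻¹ * (z * b * z⁻¹)) * ((a : X)⁻¹ * (z * a * z⁻¹))⁻¹ * (a : X)⁻¹ := by group
        _ = (b : X) * (a : X)⁻¹ := by rw [h, mul_inv_cancel_right]
    exact Subtype.ext (mul_inv_eq_one.mp (hfix _ (mul_mem b.2 (inv_mem a.2)) h2)).symm
  intro u hu
  obtain ⟨v, hv⟩ := Finite.surjective_of_injective hinj ⟨u, hu⟩
  have hzz : z * z = 1 := by rw [← sq]; exact hz2
  have hzi : z⁻¹ = z := inv_eq_of_mul_eq_one_right hzz
  rw [← show (v : X)⁻¹ * (z * v * z⁻¹) = u from congrArg Subtype.val hv, hzi]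
  calc z * ((v : X)⁻¹ * (z * v * z)) * z = z * (v : X)⁻¹ * z * v * (z * z) := by group
    _ = z * (v : X)⁻¹ * z * v := by rw [hzz, mul_one]
    _ = ((v : X)⁻¹ * (z * v * z))⁻¹ := by rw [mul_inv_rev, mul_inv_rev, mul_inv_rev, inv_inv, hzi]; group

theorem comm_of_inverts {z : X} {U : Subgroup X} (h : ∀ u ∈ U, z * u * z⁻¹ = u⁻¹) {a b : X} (ha : a ∈ U) (hb : b ∈ U) :
    a * b = b * a := by
  have e : z * (a * b) * z⁻¹ = (z * a * z⁻¹) * (z * b * z⁻¹) := by group
  rw [h _ (mul_mem ha hb), h a ha, h b hb, mul_inv_rev] at e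
  calc a * b = (b⁻¹ * a⁻¹)⁻¹ := by group
    _ = (a⁻¹ * b⁻¹)⁻¹ := by rw [e]
    _ = b * a := by group

/-- Let X be a finite group and Y an elementary abelian 2-subgroup of X of order at least 8 such that C_X(x) has no components (E(C_X(x)) = 1) for every nontrivial x ∈ Y, and F*(C_X(z)) = O₂(C_X(z)) for some nontrivial z ∈ Y. Then the subgroup generated by the cores O(C_X(y)), y ∈ Y nontrivial, has odd order and is normalized by N_X(Y). -/
theorem result {X : Type*} [Group X] [Finite X] (Y : Subgroup X) (hY : Cfsg.IsElementaryAbelian 2 Y) (h8 : 8 ≤ Nat.card ↥Y) (hE : ∀ x ∈ Y, x ≠ 1 → Cfsg.layer ↥(Subgroup.centralizer ({x} : Set X)) = ⊥) (hz : ∃ z ∈ Y, z ≠ 1 ∧ Cfsg.generalizedFittingSubgroup ↥(Subgroup.centralizer ({z} : Set X)) = Cfsg.pCore 2 ↥(Subgroup.centralizer ({z} : Set X))) : Odd (Nat.card ↥(⨆ y : {y : X // y ∈ Y ∧ y ≠ 1}, (Cfsg.oddCore ↥(Subgroup.centralizer ({(y : X)} : Set X))).map (Subgroup.centralizer ({(y : X)} : Set X)).subtype)) ∧ Subgroup.normalizer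 (Y : Set X) ≤ Subgroup.normalizer ((⨆ y : {y : X // y ∈ Y ∧ y ≠ 1}, (Cfsg.oddCore ↥(Subgroup.centralizer ({(y : X)} : Set X))).map (Subgroup.centralizer ({(y : X)} : Set X)).subtype : Subgroup X) : Set X) := by
  obtain ⟨z, hzY, hz1, hzF⟩ := hz
  obtain ⟨hYc, hYp⟩ := hY
  have hsq : ∀ a ∈ Y, a ^ 2 = 1 := hYp
  have hcm : ∀ a ∈ Y, ∀ b ∈ Y, a * b = b * a := fun a ha b hb => congrArg Subtype.val (hYc.is_comm.comm ⟨a, ha⟩ ⟨b, hb⟩)
  -- balance with respect to `z`
  have hbalz : ∀ x ∈ Y, ∀ u ∈ th x, u * z = z * u → u = 1 := by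
    intro x hx u hu huz
    have hcp := CfsgLib.GenFitting.charP_of_genFitting_eq hzF
    have h := CfsgLib.CharP.eq_one_of_centralizes hcp (c := ⟨u, mem_cz huz⟩)
      (by rw [← Subgroup.orderOf_coe]; exact cop_of_mem (th_cop x) hu)
      (centralizes_core (hsq x hx) (hcm x hx z hzY) hu huz)
    exact congrArg Subtype.val h
  have hnorm : ∀ x ∈ Y, ∀ a ∈ Y, ∀ u ∈ th x, a * u * a⁻¹ ∈ th x := fun x hx a ha u hu =>
    th_conj (mem_cz (hcm a ha x hx)) hu
  have hinv : ∀ x ∈ Y, ∀ u ∈ th x, z * u * z⁻¹ = u⁻¹ := fun x hx =>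
    inverts (hsq z hzY) _ (hnorm x hx z hzY) fun u hu he =>
      hbalz x hx u hu (mul_inv_eq_iff_eq_mul.mp he).symm
  -- balance
  have hbal : ∀ x ∈ Y, ∀ y ∈ Y, y ≠ 1 → ∀ u ∈ th x, u * y = y * u → u ∈ th y := by
    intro x hx y hy hy1 u hu huy
    set C := Subgroup.centralizer ({y} : Set X)
    set O := Cfsg.oddCore ↥C
    set u' : ↥C := ⟨u, mem_cz huy⟩
    have hOn : O.Normal := by
      have := CfsgLib.Core.pPrimeCore_characteristic (G := ↥C) 2
      exact inferInstanceAs (Cfsg.pPrimeCore 2 ↥C).Normal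
    haveI := hOn
    have hco : (orderOf u').Coprime 2 := by
      rw [← Subgroup.orderOf_coe]; exact cop_of_mem (th_cop x) hu
    have huO : ∀ q ∈ O, u' * q = q * u' := by
      intro q hq
      have hq1 := hinv y hy (q : X) ⟨q, hq, rfl⟩
      have hq2 := hinv y hy (u * (q : X) * u⁻¹) (th_conj (mem_cz huy) ⟨q, hq, rfl⟩)
      have h2 : (u * (q : X) * u⁻¹)⁻¹ = u⁻¹ * (q : X)⁻¹ * u := by
        rw [← hq2, show z * (u * (q : X) * u⁻¹) * z⁻¹ = (z * u * z⁻¹) * (z * (q : X) * z⁻¹) * (z * u * z⁻¹)⁻¹ by group,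
          hinv x hx u hu, hq1, inv_inv]
      have hA : u * (q : X) * u⁻¹ = u⁻¹ * (q : X) * u := by
        calc u * (q : X) * u⁻¹ = ((u * (q : X) * u⁻¹)⁻¹)⁻¹ := by rw [inv_inv]
          _ = (u⁻¹ * (q : X)⁻¹ * u)⁻¹ := by rw [h2]
          _ = u⁻¹ * (q : X) * u := by group
      have hcomm2 : Commute (u ^ 2) (q : X) := by
        show u ^ 2 * (q : X) = (q : X) * u ^ 2
        calc u ^ 2 * (q : X) = u * (u * (q : X) * u⁻¹) * u := by simp [sq, mul_assoc]
          _ = u * (u⁻¹ * (q : X) * u) * u := by rw [hA]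
          _ = (q : X) * u ^ 2 := by simp [sq, mul_assoc]
      have hodd : Odd (orderOf u) := Nat.coprime_two_right.mp (cop_of_mem (th_cop x) hu)
      obtain ⟨m, hm⟩ := hodd
      have hu' : u = (u ^ 2) ^ (m + 1) := by
        rw [← pow_mul, show 2 * (m + 1) = orderOf u + 1 by omega, pow_succ, pow_orderOf_eq_one, one_mul]
      refine Subtype.ext ?_
      show u * (q : X) = (q : X) * u
      rw [hu']
      exact (hcomm2.pow_left (m + 1)).eq
    have hF : Cfsg.fittingSubgroup ↥C ≤ Cfsg.pCore 2 ↥C ⊔ O := by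
      rw [CfsgLib.Core.fittingSubgroup_eq_iSup_pCore]
      refine iSup_le fun q => ?_
      by_cases hq : (q : ℕ) = 2
      · rw [hq]; exact le_sup_left
      · refine le_sup_of_le_right (CfsgLib.Core.le_pPrimeCore ?_ ?_)
        · have := CfsgLib.Core.pCore_characteristic (G := ↥C) (q : ℕ)
          exact inferInstance
        · haveI := Fact.mk q.2
          obtain ⟨k, hk⟩ := (CfsgLib.Core.isPGroup_pCore (G := ↥C) (q : ℕ)).exists_card_eq
          rw [hk]; exact ((Nat.coprime_primes q.2 Nat.prime_two).mpr hq).pow_left k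
    have huF : u' ∈ Cfsg.fittingSubgroup ↥C := by
      refine CfsgLib.GenFitting.centralizer_fitting_le_iff.mpr (hE y hy hy1) ?_
      have hle : Cfsg.pCore 2 ↥C ⊔ O ≤ Subgroup.centralizer ({u'} : Set ↥C) := by
        refine sup_le (fun q hq => ?_) fun q hq => ?_
        · exact Subgroup.mem_centralizer_singleton_iff.mpr (centralizes_core (hsq x hx) (hcm x hx y hy) hu huy q hq).symm
        · exact Subgroup.mem_centralizer_singleton_iff.mpr (huO q hq).symm
      rw [Subgroup.mem_centralizer_iff]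
      exact fun q hq => Subgroup.mem_centralizer_singleton_iff.mp (hle (hF hq))
    obtain ⟨a, ha, b, hb, hab⟩ := Subgroup.mem_sup_of_normal_right.mp (hF huF)
    refine ⟨u', ?_, rfl⟩
    have ha' : (a : ↥C ⧸ O) = (u' : ↥C ⧸ O) := by
      rw [← hab, QuotientGroup.mk_mul, (QuotientGroup.eq_one_iff b).mpr hb, mul_one]
    obtain ⟨k, hk⟩ := IsPGroup.iff_orderOf.mp (CfsgLib.Core.isPGroup_pCore 2) ⟨a, ha⟩
    rw [Subgroup.orderOf_mk] at hk
    refine (QuotientGroup.eq_one_iff u').mp (orderOf_eq_one_iff.mp (Nat.eq_one_of_dvd_coprimes (hco.pow_right k)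
      (orderOf_map_dvd (QuotientGroup.mk' O) u') ?_))
    rw [← ha', ← hk]
    exact orderOf_map_dvd (QuotientGroup.mk' O) a
  -- any two of the cores commute elementwise
  have hfour : ∀ b e : X, b ∈ Y → e ∈ Y → b ≠ 1 → e ≠ 1 → e ≠ b → ∀ x ∈ Y, ∀ W : Subgroup X,
      (∀ c, (c = b ∨ c = e ∨ c = b * e) → ∀ u ∈ th x, u * c = c * u → u ∈ W) → th x ≤ W := by
    intro b e hb he hb1 he1 hne x hx W hW
    let A' : Subgroup X :=
      { carrier := {c | ∃ i j : ℕ, c = b ^ i * e ^ j}
        one_mem' := ⟨0, 0, by simp⟩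
        mul_mem' := fun {c d} hc hd => by
          obtain ⟨i, j, rfl⟩ := hc
          obtain ⟨k, l, rfl⟩ := hd
          exact ⟨i + k, j + l, by
            rw [pow_add, pow_add]
            exact Commute.mul_mul_mul_comm ((show Commute e b from hcm e he b hb).pow_pow j k) _ _⟩
        inv_mem' := fun {c} hc => by
          have h2 : c * c = 1 := by
            obtain ⟨i, j, rfl⟩ := hc
            rw [← sq]; exact hsq _ (mul_mem (pow_mem hb i) (pow_mem he j))
          rw [inv_eq_of_mul_eq_one_right h2]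
          exact hc }
    have hA'Y : A' ≤ Y := by
      rintro c ⟨i, j, rfl⟩
      exact mul_mem (pow_mem hb i) (pow_mem he j)
    have hA'mem : ∀ c ∈ A', c = 1 ∨ c = b ∨ c = e ∨ c = b * e := by
      rintro c ⟨i, j, rfl⟩
      rw [pow_eq_pow_mod i (hsq b hb), pow_eq_pow_mod j (hsq e he)]
      rcases Nat.mod_two_eq_zero_or_one i with h | h <;> rcases Nat.mod_two_eq_zero_or_one j with h' | h' <;> simp [h, h']
    refine CfsgLib.CoprimeGen.le_of_centralizers_le (p := 2) (th x) A' W ?_ (th_cop x)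
      ⟨⟨fun c d => Subtype.ext (hcm c (hA'Y c.2) d (hA'Y d.2))⟩⟩ (fun c hc => hsq c (hA'Y hc)) ?_ ?_
    · intro c hc
      rw [Subgroup.mem_normalizer_iff]
      intro u
      refine ⟨hnorm x hx c (hA'Y hc) u, fun hu => ?_⟩
      have := hnorm x hx c⁻¹ (inv_mem (hA'Y hc)) _ hu
      simpa [mul_assoc] using this
    · have hbe1 : b * e ≠ 1 := fun h => hne (by
        rw [← inv_eq_of_mul_eq_one_right h]
        exact (inv_eq_of_mul_eq_one_right (by rw [← sq]; exact hsq b hb)))
      let f : Fin 4 → ↥A' := ![⟨1, 0, 0, by simp⟩, ⟨b, 1, 0, by simp⟩, ⟨e, 0, 1, by simp⟩, ⟨b * e, 1, 1, by simp⟩]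
      have hf : Function.Injective f := by
        intro i j hij
        have h := congrArg Subtype.val hij
        fin_cases i <;> fin_cases j <;> simp [f] at h ⊢
        all_goals first
          | exact hb1 h | exact hb1 h.symm | exact he1 h | exact he1 h.symm | exact hne h | exact hne h.symm
          | exact hbe1 h | exact hbe1 h.symm
      calc 2 ^ 2 = Nat.card (Fin 4) := by simp
        _ ≤ Nat.card ↥A' := Nat.card_le_card_of_injective f hf
    · rintro c hc hc1 u ⟨hu, huc⟩
      exact hW c ((hA'mem c hc).resolve_left hc1) u hu (Subgroup.mem_centralizer_singleton_iff.mp huc)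
  have hkey : ∀ a ∈ Y, ∀ b ∈ Y, a ≠ 1 → b ≠ 1 → ∀ u ∈ th a, ∀ v ∈ th b, u * v = v * u := by
    intro a ha b hb ha1 hb1
    classical
    obtain ⟨e, he, heab⟩ : ∃ e ∈ Y, e ∉ ({1, a, b, a * b} : Finset X) := by
      classical
      by_contra hcon
      simp only [not_exists, not_and, not_not] at hcon
      have h1 : Nat.card ↥Y ≤ ({1, a, b, a * b} : Finset X).card := by
        rw [← Nat.card_eq_finsetCard]
        exact Nat.card_le_card_of_injective (fun c : ↥Y => (⟨c, hcon c c.2⟩ : ↥({1, a, b, a * b} : Finset X)))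
          fun c d h => Subtype.ext (congrArg (fun w : ↥({1, a, b, a * b} : Finset X) => (w : X)) h)
      have h2 : ({1, a, b, a * b} : Finset X).card ≤ 4 := Finset.card_le_four
      omega
    simp only [Finset.mem_insert, Finset.mem_singleton, not_or] at heab
    obtain ⟨he1, hea, heb, heab⟩ := heab
    have hmul : ∀ c ∈ Y, ∀ u : X, ∀ d ∈ Y, u * c = c * u → u * d = d * u → u * (c * d) = (c * d) * u := fun c _ u d _ h1 h2 =>
      (Commute.mul_right (show Commute u c from h1) (show Commute u d from h2)).eq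
    -- a common nontrivial element centralizing both pieces
    suffices h : th a ≤ Subgroup.centralizer (th b : Set X) from fun u hu v hv =>
      (Subgroup.mem_centralizer_iff.mp (h hu) v hv).symm
    refine hfour b e hb he hb1 he1 heb a ha _ fun c hc u hu huc => ?_
    have hua : u * a = a * u := Subgroup.mem_centralizer_singleton_iff.mp (th_le a hu)
    suffices h : th b ≤ Subgroup.centralizer ({u} : Set X) from Subgroup.mem_centralizer_iff.mpr fun v hv =>
      Subgroup.mem_centralizer_singleton_iff.mp (h hv)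
    refine hfour a e ha he ha1 he1 hea b hb _ fun d hd v hv hvd => ?_
    have hvb : v * b = b * v := Subgroup.mem_centralizer_singleton_iff.mp (th_le b hv)
    refine Subgroup.mem_centralizer_singleton_iff.mpr ?_
    have fin : ∀ w ∈ Y, w ≠ 1 → u * w = w * u → v * w = w * v → v * u = u * v := fun w hw hw1 h1 h2 =>
      comm_of_inverts (hinv w hw) (hbal b hb w hw hw1 v hv h2) (hbal a ha w hw hw1 u hu h1)
    have hee : e * e = 1 := by rw [← sq]; exact hsq e he
    have haa : a * a = 1 := by rw [← sq]; exact hsq a ha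
    have hbb : b * b = 1 := by rw [← sq]; exact hsq b hb
    rcases hc with rfl | rfl | rfl
    · exact fin c hb hb1 huc hvb
    · rcases hd with rfl | rfl | rfl
      · exact fin d ha ha1 hua hvd
      · exact fin d he he1 huc hvd
      · refine fin (a * c) (mul_mem ha he) (fun h => hea ?_) (hmul a ha u c he hua huc) hvd
        rw [← inv_eq_of_mul_eq_one_right h]; exact inv_eq_of_mul_eq_one_right haa
    · rcases hd with rfl | rfl | rfl
      · exact fin d ha ha1 hua hvd
      · refine fin (b * d) (mul_mem hb he) (fun h => heb ?_) huc (hmul b hb v d he hvb hvd)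
        rw [← inv_eq_of_mul_eq_one_right h]; exact inv_eq_of_mul_eq_one_right hbb
      · refine fin (a * (b * e)) (mul_mem ha (mul_mem hb he)) (fun h => heab ?_) (hmul a ha u (b * e) (mul_mem hb he) hua huc) ?_
        · rw [← mul_assoc] at h
          rw [← inv_eq_of_mul_eq_one_right h, mul_inv_rev, inv_eq_of_mul_eq_one_right haa, inv_eq_of_mul_eq_one_right hbb]
          exact hcm b hb a ha
        · rw [show a * (b * e) = b * (a * e) by rw [← mul_assoc, hcm a ha b hb, mul_assoc]]
          exact hmul b hb v (a * e) (mul_mem ha he) hvb hvd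
  let S : {y : X // y ∈ Y ∧ y ≠ 1} → Subgroup X := fun y => th (y : X)
  have hWab : IsMulCommutative ↥(⨆ y, S y) := by
    have h1 : ∀ y, S y ≤ Subgroup.centralizer ((⨆ y, S y : Subgroup X) : Set X) := by
      intro y
      rw [Subgroup.le_centralizer_iff]
      exact iSup_le fun y' v hv => Subgroup.mem_centralizer_iff.mpr fun u hu =>
        (hkey y y.2.1 y' y'.2.1 y.2.2 y'.2.2 u hu v hv)
    exact ⟨⟨fun c d => Subtype.ext (Subgroup.mem_centralizer_iff.mp ((iSup_le h1) d.2) c c.2)⟩⟩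
  refine ⟨?_, ?_⟩
  · haveI : Fact (Nat.Prime 2) := ⟨Nat.prime_two⟩
    show Odd (Nat.card ↥(⨆ y, S y))
    rw [← Nat.coprime_two_right]
    refine CfsgLib.ThompsonNPC.card_coprime_of_forall fun w hw => ?_
    induction hw using Subgroup.iSup_induction' with
    | hp i u hu => exact cop_of_mem (th_cop _) hu
    | h1 => simp
    | hmul u v hu hv h1 h2 =>
      have hc : Commute u v := congrArg Subtype.val (hWab.is_comm.comm ⟨u, hu⟩ ⟨v, hv⟩)
      exact (h1.mul_left h2).coprime_dvd_left hc.orderOf_mul_dvd_mul_orderOf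
  · intro n hn
    have key : ∀ g ∈ Subgroup.normalizer (Y : Set X), ∀ w ∈ (⨆ y, S y : Subgroup X), g * w * g⁻¹ ∈ (⨆ y, S y : Subgroup X) := by
      intro g hg w hw
      induction hw using Subgroup.iSup_induction' with
      | hp i u hu =>
        refine Subgroup.mem_iSup_of_mem (⟨g * (i : X) * g⁻¹, (Subgroup.mem_normalizer_iff.mp hg _).mp i.2.1,
          fun h => i.2.2 (by simpa using h)⟩ : {y : X // y ∈ Y ∧ y ≠ 1}) ?_
        obtain ⟨v, hv, rfl⟩ := hu
        have he : (Subgroup.centralizer ({(i : X)} : Set X)).map (MulAut.conj g).toMonoidHom =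
            Subgroup.centralizer ({g * (i : X) * g⁻¹} : Set X) := by
          ext w
          refine (Subgroup.mem_map_equiv (f := MulAut.conj g)).trans ?_
          rw [Subgroup.mem_centralizer_singleton_iff, Subgroup.mem_centralizer_singleton_iff]
          show g⁻¹ * w * g * (i : X) = (i : X) * (g⁻¹ * w * g) ↔ _
          constructor <;> intro h
          · calc w * (g * (i : X) * g⁻¹) = g * (g⁻¹ * w * g * (i : X)) * g⁻¹ := by group
              _ = g * ((i : X) * (g⁻¹ * w * g)) * g⁻¹ := by rw [h]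
              _ = _ := by group
          · calc g⁻¹ * w * g * (i : X) = g⁻¹ * (w * (g * (i : X) * g⁻¹)) * g := by group
              _ = g⁻¹ * (g * (i : X) * g⁻¹ * w) * g := by rw [h]
              _ = _ := by group
        let e : ↥(Subgroup.centralizer ({(i : X)} : Set X)) ≃* ↥(Subgroup.centralizer ({g * (i : X) * g⁻¹} : Set X)) :=
          ((MulAut.conj g).subgroupMap _).trans (MulEquiv.subgroupCongr he)
        refine ⟨e v, ?_, rfl⟩
        have hn' : (Cfsg.oddCore ↥(Subgroup.centralizer ({(i : X)} : Set X))).Normal := by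
          have := CfsgLib.Core.pPrimeCore_characteristic (G := ↥(Subgroup.centralizer ({(i : X)} : Set X))) 2
          exact inferInstanceAs (Cfsg.pPrimeCore 2 ↥(Subgroup.centralizer ({(i : X)} : Set X))).Normal
        exact CfsgLib.Core.le_pPrimeCore (hn'.map e.toMonoidHom e.surjective)
          (by rw [Subgroup.card_map_of_injective (f := e.toMonoidHom) e.injective]; exact CfsgLib.Core.card_pPrimeCore_coprime 2) ⟨v, hv, rfl⟩
      | h1 => simp
      | hmul u v _ _ h1 h2 => have := mul_mem h1 h2; simpa [mul_assoc] using this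
    rw [Subgroup.mem_normalizer_iff]
    refine fun w => ⟨key n hn w, fun hw => ?_⟩
    have := key n⁻¹ (inv_mem hn) _ hw
    simpa [mul_assoc] using this

end Cfsg.Agent.S2924
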