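import Cfsg.Statements.S2925
import Cfsg.Agent.Lib.Layer2
import Cfsg.Agent.Lib.Components
import Cfsg.Agent.Lib.SubnormalSylow
import Cfsg.Agent.Lib.LocalBasic

set_option autoImplicit false
open Cfsg

namespace Cfsg.Agent.S2925

open scoped commutatorElement

/-- Let K be a component of the finite group X and T a Sylow 2-subgroup of X. If some abelian normal subgroup Y of T does not normalize K, then K ⧸ Z(K) has abelian Sylow 2-subgroups. -/
theorem result {X : Type*} [Group X] [Finite X] (K : Subgroup X) (hK : Cfsg.IsComponent K) (T : Sylow 2 X) (Y : Subgroup X) (hYT : Y ≤ (T : Subgroup X)) (hYn : (Y.subgroupOf (T : Subgroup X)).Normal) (hYab : IsMulCommutative ↥Y) (hnot : ¬ Y ≤ Subgroup.normalizer (K : Set X)) (P : Sylow 2 (↥K ⧸ Subgroup.center ↥K)) : IsMulCommutative ↥(P : Subgroup (↥K ⧸ Subgroup.center ↥K)) := by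
  haveI : Fact (Nat.Prime 2) := ⟨Nat.prime_two⟩
  obtain ⟨y, hyY, hy⟩ : ∃ y ∈ Y, y ∉ Subgroup.normalizer (K : Set X) := by
    by_contra h
    simp only [not_exists, not_and, not_not] at h
    exact hnot h
  have hne : K.map (MulAut.conj y).toMonoidHom ≠ K := fun h => hy (CfsgLib.LocalBasic.mem_normalizer_of_conj_map_eq h)
  have hcomm := CfsgLib.Components.component_comm (CfsgLib.Layer2.isComponent_map_equiv (MulAut.conj y) hK) hK hne
  have hc : ∀ a ∈ K.map (MulAut.conj y).toMonoidHom, ∀ b ∈ K, a * b = b * a := fun a ha b hb =>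
    ((Subgroup.commutator_eq_bot_iff_le_centralizer.mp hcomm) ha b hb).symm
  have hS : ¬ 2 ∣ (T : Subgroup X).index := T.not_dvd_index
  -- the Sylow subgroup `T ∩ K` of `K` is abelian modulo the centre
  obtain ⟨Q, hQ⟩ : ∃ Q : Subgroup ↥K, Q = (T : Subgroup X).subgroupOf K := ⟨_, rfl⟩
  have hQp : IsPGroup 2 ↥Q := hQ ▸ T.isPGroup'.comap_subtype
  have hQi : ¬ 2 ∣ Q.index := by
    have h1 := CfsgLib.SubnormalSylow.sylow_of_subnormal (S := (T : Subgroup X)) hS hK.1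
    rw [Subgroup.inf_relIndex_right] at h1
    rw [hQ]; exact h1
  have hQab : ∀ a ∈ Q, ∀ b ∈ Q, a * b * a⁻¹ * b⁻¹ ∈ Subgroup.center ↥K := by
    intro a ha b hb
    have key : ∀ x : ↥K, x ∈ Q → y * (x : X) * y⁻¹ * (x : X)⁻¹ ∈ Y := by
      intro x hx
      have hxT : (x : X) ∈ (T : Subgroup X) := Subgroup.mem_subgroupOf.mp (hQ ▸ hx)
      have h2 : (x : X) * y⁻¹ * (x : X)⁻¹ ∈ Y := Subgroup.mem_subgroupOf.mp
        (hYn.conj_mem (⟨y⁻¹, hYT (Y.inv_mem hyY)⟩ : ↥(T : Subgroup X)) (Subgroup.mem_subgroupOf.mpr (Y.inv_mem hyY)) ⟨x, hxT⟩)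
      have := Y.mul_mem hyY h2
      rwa [show y * ((x : X) * y⁻¹ * (x : X)⁻¹) = y * (x : X) * y⁻¹ * (x : X)⁻¹ by group] at this
    have h1 := congrArg Subtype.val (hYab.is_comm.comm ⟨_, key _ (Q.inv_mem ha)⟩ ⟨_, key _ (Q.inv_mem hb)⟩)
    simp only [Subgroup.coe_mul, InvMemClass.coe_inv, inv_inv] at h1
    obtain ⟨A, hA, hAK⟩ : ∃ A, A = y * (a : X)⁻¹ * y⁻¹ ∧ A ∈ K.map (MulAut.conj y).toMonoidHom :=
      ⟨_, rfl, (a : X)⁻¹, K.inv_mem a.2, rfl⟩
    obtain ⟨B, hB, hBK⟩ : ∃ B, B = y * (b : X)⁻¹ * y⁻¹ ∧ B ∈ K.map (MulAut.conj y).toMonoidHom :=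
      ⟨_, rfl, (b : X)⁻¹, K.inv_mem b.2, rfl⟩
    rw [← hA, ← hB] at h1
    -- separate the two components
    have h3 : A * B * ((a : X) * b) = B * A * ((b : X) * a) := by
      calc A * B * ((a : X) * b) = A * (B * a) * b := by group
        _ = A * (a * B) * b := by rw [hc B hBK a a.2]
        _ = A * a * (B * b) := by group
        _ = B * b * (A * a) := h1
        _ = B * (b * A) * a := by group
        _ = B * (A * b) * a := by rw [hc A hAK b b.2]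
        _ = B * A * ((b : X) * a) := by group
    have h4 : (a : X) * b * ((b : X) * a)⁻¹ = (A * B)⁻¹ * (B * A) := by
      rw [mul_inv_eq_iff_eq_mul, mul_assoc, ← h3, inv_mul_cancel_left]
    refine Subgroup.mem_center_iff.mpr fun g => Subtype.ext ?_
    have hm : (A * B)⁻¹ * (B * A) ∈ K.map (MulAut.conj y).toMonoidHom :=
      mul_mem (inv_mem (mul_mem hAK hBK)) (mul_mem hBK hAK)
    have h5 : ((a * b * a⁻¹ * b⁻¹ : ↥K) : X) = (A * B)⁻¹ * (B * A) := by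
      rw [← h4]
      simp [mul_assoc]
    simp only [Subgroup.coe_mul] at h5 ⊢
    rw [h5]
    exact (hc _ hm g g.2).symm
  obtain ⟨Q', hQ'⟩ : ∃ Q' : Subgroup (↥K ⧸ Subgroup.center ↥K), Q' = Q.map (QuotientGroup.mk' _) := ⟨_, rfl⟩
  have hQ'ab : ∀ u ∈ Q', ∀ v ∈ Q', u * v = v * u := by
    intro u hu v hv
    rw [hQ'] at hu hv
    obtain ⟨a, ha, rfl⟩ := hu
    obtain ⟨b, hb, rfl⟩ := hv
    rw [← map_mul, ← map_mul]
    refine (QuotientGroup.eq.mpr ?_).symm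
    have := hQab _ (Q.inv_mem ha) _ (Q.inv_mem hb)
    rwa [show a⁻¹ * b⁻¹ * a⁻¹⁻¹ * b⁻¹⁻¹ = (b * a)⁻¹ * (a * b) by group] at this
  have hQ'p : IsPGroup 2 ↥Q' := hQ' ▸ hQp.map _
  have hQ'i : ¬ 2 ∣ Q'.index := fun h => hQi (h.trans (hQ' ▸ Subgroup.index_map_dvd _ (QuotientGroup.mk'_surjective _)))
  obtain ⟨g, hg⟩ := MulAction.exists_smul_eq (↥K ⧸ Subgroup.center ↥K) (hQ'p.toSylow hQ'i) P
  refine ⟨⟨fun u v => Subtype.ext ?_⟩⟩
  have hsub : ∀ w : ↥(P : Subgroup (↥K ⧸ Subgroup.center ↥K)), g⁻¹ * (w : ↥K ⧸ Subgroup.center ↥K) * g ∈ Q' := by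
    intro w
    obtain ⟨z, hz, hzw⟩ := (hg.symm ▸ w.2 : (w : ↥K ⧸ Subgroup.center ↥K) ∈ ((g • hQ'p.toSylow hQ'i : Sylow 2 _) : Subgroup _))
    rw [← hzw]
    show g⁻¹ * (g * z * g⁻¹) * g ∈ Q'
    rwa [show g⁻¹ * (g * z * g⁻¹) * g = z by group]
  have h6 := hQ'ab _ (hsub u) _ (hsub v)
  have h7 := congrArg (fun t => g * t * g⁻¹) h6
  simpa [mul_assoc] using h7

end Cfsg.Agent.S2925
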