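import Cfsg.Statements.S2939
import Mathlib.GroupTheory.Sylow
import Cfsg.Agent.Lib.LocalBasic

set_option autoImplicit false
open Cfsg

namespace Cfsg.Agent.S2939

open CfsgLib.LocalBasic

theorem conj_smul_coe {G : Type*} [Group G] {p : ℕ} (z : G) (S : Sylow p G) :
    ((z • S : Sylow p G) : Subgroup G) = (S : Subgroup G).map (MulAut.conj z).toMonoidHom := rfl

theorem mem_map_conj_iff {G : Type*} [Group G] {z w : G} {S : Subgroup G} :
    w ∈ S.map (MulAut.conj z).toMonoidHom ↔ z⁻¹ * w * z ∈ S := by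
  rw [Subgroup.mem_map_equiv, MulAut.conj_symm_apply]

theorem map_conj_comp {G : Type*} [Group G] (a b : G) (X : Subgroup G) :
    (X.map (MulAut.conj b).toMonoidHom).map (MulAut.conj a).toMonoidHom = X.map (MulAut.conj (a * b)).toMonoidHom := by
  rw [Subgroup.map_map]; congr 1; ext y; simp [mul_assoc]

theorem sylowMembers_conj {G : Type*} [Group G] [Finite G] {p : ℕ} [Fact p.Prime] {𝓕 : Set (Subgroup G)}
    (h𝓕 : Cfsg.IsNormalSet 𝓕) {S X : Subgroup G} (z : G) (h : X ∈ Cfsg.sylowMembers p 𝓕 S) :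
    X.map (MulAut.conj z).toMonoidHom ∈ Cfsg.sylowMembers p 𝓕 (S.map (MulAut.conj z).toMonoidHom) := by
  obtain ⟨hX, P, hP⟩ := h
  refine ⟨?_, ?_⟩
  · have := h𝓕 X hX z⁻¹
    rwa [Cfsg.subgroupConjRight, inv_inv] at this
  · set e := X.equivMapOfInjective (MulAut.conj z).toMonoidHom (MulAut.conj z).injective with he
    have hs : Function.Surjective e.toMonoidHom := e.surjective
    refine ⟨P.mapSurjective hs, ?_⟩
    rw [Sylow.coe_mapSurjective, Subgroup.map_map, ← Subgroup.map_inf _ _ _ (MulAut.conj z).injective, ← hP,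
      Subgroup.map_map]
    congr 1

/-- Let p be a prime dividing the order of the finite group G and 𝓕 a family of subgroups of G closed under conjugation, with conjugates taken as X^g = g⁻¹Xg. Then 𝓕 controls Sylow p-intersections in G (any two distinct Sylow p-subgroups S and T with S ∩ T ≠ 1 are joined by a chain S = S₀, S₁, …, Sₙ = T of Sylow p-subgroups where, for each i, some member Xᵢ of 𝓕 meets both S_{i-1} and Sᵢ in Sylow p-subgroups of Xᵢ, satisfies S ∩ T ≤ Sᵢ ∩ Xᵢ, and contains an element xᵢ with Sᵢ^{xᵢ} = S_{i-1}) if and only if 𝓕 strongly controls p-fusion in G (whenever A is a subset of a Sylow p-subgroup S, A contains an element other than 1, and A^g ⊆ S, the element g factorises as g = y₁⋯yₙy with y ∈ N_G(S) and each yᵢ in a member Yᵢ of 𝓕 that meets S in a Sylow p-subgroup of Yᵢ, with A^{y₁⋯yᵢ} ⊆ S ∩ Yᵢ for each i). -/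
theorem result {G : Type*} [Group G] [Finite G] {p : ℕ} [Fact p.Prime] (hdiv : p ∣ Nat.card G) (𝓕 : Set (Subgroup G)) (h𝓕 : Cfsg.IsNormalSet 𝓕) : Cfsg.ControlsSylowIntersections p 𝓕 ↔ Cfsg.FamilyStronglyControlsFusion p 𝓕 := by
  constructor
  · intro hcs S A g hA hne hAg
    obtain ⟨a, haA, ha1⟩ := hne
    have hgA : ∀ b ∈ A, g⁻¹ * b * g ∈ (S : Subgroup G) := fun b hb => hAg ⟨b, hb, rfl⟩
    by_cases hT : g • S = S
    · refine ⟨0, Fin.elim0, Fin.elim0, g, ?_, fun i => i.elim0, by simp, fun i => i.elim0⟩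
      exact mem_normalizer_of_conj_map_eq (congrArg Sylow.toSubgroup hT)
    have hD : ∀ b ∈ A, b ∈ (S : Subgroup G) ⊓ ((g • S : Sylow p G) : Subgroup G) := fun b hb =>
      Subgroup.mem_inf.mpr ⟨hA hb, by rw [conj_smul_coe]; exact mem_map_conj_iff.mpr (hgA b hb)⟩
    obtain ⟨n, c, X, x, hc0, hcn, h⟩ := hcs S (g • S) (fun e => hT e.symm)
      (fun hb => ha1 (Subgroup.mem_bot.mp (hb ▸ hD a haA)))
    let z : ℕ → G := fun k => Nat.rec 1 (fun j zj => (if hj : j < n then x ⟨j, hj⟩ else 1) * zj) k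
    have hzs : ∀ k (hk : k < n), z (k + 1) = x ⟨k, hk⟩ * z k := by
      intro k hk
      show (if hj : k < n then x ⟨k, hj⟩ else 1) * z k = _
      rw [dif_pos hk]
    have hcz : ∀ k (hk : k < n + 1), (c ⟨k, hk⟩ : Subgroup G) = (S : Subgroup G).map (MulAut.conj (z k)).toMonoidHom := by
      intro k
      induction k with
      | zero =>
        intro hk
        rw [show (⟨0, hk⟩ : Fin (n + 1)) = 0 from rfl, hc0]
        ext w
        rw [mem_map_conj_iff]
        simp [z]
      | succ k ih =>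
        intro hk
        have hk' : k < n := Nat.lt_of_succ_lt_succ hk
        obtain ⟨-, -, -, h4, -⟩ := h ⟨k, hk'⟩
        rw [Cfsg.subgroupConjRight] at h4
        rw [hzs k hk', ← map_conj_comp, ← ih (Nat.lt_of_succ_lt hk)]
        show _ = Subgroup.map (MulAut.conj (x ⟨k, hk'⟩)).toMonoidHom (c (Fin.castSucc ⟨k, hk'⟩) : Subgroup G)
        rw [← h4, map_conj_comp, mul_inv_cancel]
        ext w
        rw [mem_map_conj_iff]
        simp
    refine ⟨n, fun i => (X i).map (MulAut.conj (z i.val)⁻¹).toMonoidHom, fun i => (z i.val)⁻¹ * z (i.val + 1),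
      (z n)⁻¹ * g, ?_, fun i => ⟨?_, ?_⟩, ?_, ?_⟩
    · refine mem_normalizer_of_conj_map_eq ?_
      rw [← map_conj_comp, ← conj_smul_coe g S, ← hcn]
      show Subgroup.map _ (c ⟨n, Nat.lt_succ_self n⟩ : Subgroup G) = _
      rw [hcz n, map_conj_comp, inv_mul_cancel]
      ext w
      rw [mem_map_conj_iff]
      simp
    · have := sylowMembers_conj h𝓕 (z i.val)⁻¹ (h i).1
      rw [show (c i.castSucc : Subgroup G) = _ from hcz i.val (Nat.lt_succ_of_lt i.2), map_conj_comp, inv_mul_cancel] at this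
      convert this using 2
      ext w
      rw [mem_map_conj_iff]
      simp
    · beta_reduce
      rw [mem_map_conj_iff, hzs i.val i.2]
      simpa [mul_assoc] using (h i).2.2.1
    all_goals
      have hprod : ∀ k, k ≤ n → ((List.ofFn fun i : Fin n => (z i.val)⁻¹ * z (i.val + 1)).take k).prod = z k := by
        intro k
        induction k with
        | zero => intro _; simp [z]
        | succ k ih =>
          intro hk
          rw [List.prod_take_succ _ k (by simp; omega), ih (by omega)]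
          simp
    · have := hprod n le_rfl
      rw [List.take_of_length_le (by simp)] at this
      rw [this, mul_inv_cancel_left]
    · intro i
      rw [hprod (i.val + 1) i.2]
      rintro _ ⟨b, hb, rfl⟩
      obtain ⟨hb1, hb2⟩ := Subgroup.mem_inf.mp ((h i).2.2.2.2 (hD b hb))
      refine ⟨?_, ?_⟩
      · rw [show (c i.succ : Subgroup G) = _ from hcz (i.val + 1) (Nat.succ_lt_succ i.2), mem_map_conj_iff] at hb1
        exact hb1
      · show (z (i.val + 1))⁻¹ * b * z (i.val + 1) ∈ (X i).map (MulAut.conj (z i.val)⁻¹).toMonoidHom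
        rw [mem_map_conj_iff, hzs i.val i.2]
        have := (X i).mul_mem ((X i).mul_mem ((X i).inv_mem (h i).2.2.1) hb2) (h i).2.2.1
        simpa [mul_assoc] using this
  · intro hsc S T hST hne
    obtain ⟨g, rfl⟩ := MulAction.exists_smul_eq G S T
    set D := (S : Subgroup G) ⊓ ((g • S : Sylow p G) : Subgroup G) with hD
    obtain ⟨⟨a, ha⟩, ha1⟩ := Subgroup.ne_bot_iff_exists_ne_one.mp hne
    obtain ⟨n, Y, y, y₀, hy₀, hY, hg, hA⟩ := hsc S (D : Set G) g inf_le_left
      ⟨a, ha, fun h => ha1 (Subtype.ext h)⟩ (by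
        rintro _ ⟨b, hb, rfl⟩
        exact mem_map_conj_iff.mp hb.2)
    let z : ℕ → G := fun k => ((List.ofFn y).take k).prod
    have hzs : ∀ i : Fin n, z (i.val + 1) = z i.val * y i := by
      intro i
      show ((List.ofFn y).take (i.val + 1)).prod = _
      rw [List.prod_take_succ _ i.val (by simp)]
      simp [z]
    refine ⟨n, fun k => z k.val • S, fun i => (Y i).map (MulAut.conj (z i.val)).toMonoidHom,
      fun i => z i.val * y i * (z i.val)⁻¹, ?_, ?_, fun i => ⟨?_, ?_, ?_, ?_, ?_⟩⟩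
    · simp [z]
    · show z n • S = g • S
      rw [hg, show z n = (List.ofFn y).prod from congrArg List.prod (List.take_of_length_le (by simp)),
        mul_smul]
      congr 1
      exact (Sylow.ext (conj_map_eq_of_mem_normalizer hy₀)).symm
    · show _ ∈ Cfsg.sylowMembers p 𝓕 ((z i.val • S : Sylow p G) : Subgroup G)
      exact sylowMembers_conj h𝓕 _ (hY i).1
    · show _ ∈ Cfsg.sylowMembers p 𝓕 ((z (i.val + 1) • S : Sylow p G) : Subgroup G)
      have h := sylowMembers_conj h𝓕 (z (i.val + 1)) (hY i).1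
      have e : (Y i).map (MulAut.conj (z (i.val + 1))).toMonoidHom = (Y i).map (MulAut.conj (z i.val)).toMonoidHom := by
        rw [hzs, ← map_conj_comp, conj_map_eq_of_mem_normalizer (Subgroup.le_normalizer (hY i).2)]
      rw [e, ← conj_smul_coe] at h
      exact h
    · exact mem_map_conj_iff.mpr (by simpa [mul_assoc] using (hY i).2)
    · show Subgroup.map _ ((z (i.val + 1) • S : Sylow p G) : Subgroup G) = ((z i.val • S : Sylow p G) : Subgroup G)
      rw [conj_smul_coe, conj_smul_coe, map_conj_comp, hzs]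
      congr 2
      simp [mul_assoc]
    · intro b hb
      have h1 := hA i ⟨b, hb, rfl⟩
      refine Subgroup.mem_inf.mpr ⟨mem_map_conj_iff.mpr h1.1, mem_map_conj_iff.mpr ?_⟩
      have h2 : (z (i.val + 1))⁻¹ * b * z (i.val + 1) ∈ Y i := h1.2
      rw [hzs] at h2
      have := (Y i).mul_mem ((Y i).mul_mem (hY i).2 h2) ((Y i).inv_mem (hY i).2)
      simpa [mul_assoc] using this

end Cfsg.Agent.S2939
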