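import Cfsg.Statements.S2940
import Cfsg.Agent.Lib.LocalBasic

set_option autoImplicit false
open Cfsg

namespace Cfsg.Agent.S2940
open CfsgLib.LocalBasic
open scoped Pointwise

/-- Let S be a Sylow p-subgroup of the finite group G and G₁, G₂ subgroups containing S with G = G₁G₂. Then for every g ∈ G there is a Sylow p-subgroup U of G with S ∩ S^g ≤ U ≤ G₁ ∩ G₂^g (conjugates taken as X^g = g⁻¹Xg). -/
theorem result {G : Type*} [Group G] [Finite G] {p : ℕ} [Fact p.Prime] (S : Sylow p G) (G₁ G₂ : Subgroup G) (h1 : (S : Subgroup G) ≤ G₁) (h2 : (S : Subgroup G) ≤ G₂) (hfact : ∀ g : G, ∃ g₁ ∈ G₁, ∃ g₂ ∈ G₂, g = g₁ * g₂) (g : G) : ∃ U : Sylow p G, (S : Subgroup G) ⊓ Cfsg.subgroupConjRight g (S : Subgroup G) ≤ (U : Subgroup G) ∧ (U : Subgroup G) ≤ G₁ ⊓ Cfsg.subgroupConjRight g G₂ := by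
  obtain ⟨a, ha, b, hb, hab⟩ := hfact g⁻¹
  have hA : (((a • S) : Sylow p G) : Subgroup G) ≤ G₁ ⊓ Cfsg.subgroupConjRight g G₂ := by
    intro u hu
    rw [Sylow.coe_subgroup_smul, Subgroup.mem_pointwise_smul_iff_inv_smul_mem, MulAut.smul_def] at hu
    have hu' : a⁻¹ * u * a ∈ (S : Subgroup G) := by simpa [MulAut.conj_symm_apply] using hu
    refine ⟨?_, ⟨g * u * g⁻¹, ?_, by simp [mul_assoc]⟩⟩
    · have := G₁.mul_mem (G₁.mul_mem ha (h1 hu')) (G₁.inv_mem ha)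
      simpa [mul_assoc] using this
    · have := G₂.mul_mem (G₂.mul_mem (G₂.inv_mem hb) (h2 hu')) hb
      have e : g = b⁻¹ * a⁻¹ := by rw [← mul_inv_rev, ← hab, inv_inv]
      rw [e]
      simpa [mul_assoc] using this
  have hI : IsPGroup p ↥((S : Subgroup G) ⊓ Cfsg.subgroupConjRight g (S : Subgroup G) : Subgroup G) :=
    S.2.to_le inf_le_left
  obtain ⟨m, hm, hmI⟩ := exists_conj_le_sylow (a • S) hA hI
    (inf_le_inf h1 (Subgroup.map_mono h2))
  refine ⟨m⁻¹ • a • S, fun u hu => ?_, fun u hu => ?_⟩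
  · rw [Sylow.coe_subgroup_smul, Subgroup.mem_pointwise_smul_iff_inv_smul_mem, MulAut.smul_def]
    simpa [MulAut.conj_symm_apply] using hmI u hu
  · rw [Sylow.coe_subgroup_smul, Subgroup.mem_pointwise_smul_iff_inv_smul_mem, MulAut.smul_def] at hu
    have hu' : m * u * m⁻¹ ∈ G₁ ⊓ Cfsg.subgroupConjRight g G₂ := hA (by simpa [MulAut.conj_symm_apply] using hu)
    simpa [mul_assoc] using Subgroup.mul_mem _ (Subgroup.mul_mem _ (inv_mem hm) hu') hm

end Cfsg.Agent.S2940
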