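import Cfsg.Statements.S2955
import Cfsg.Agent.Lib.SPE2

set_option autoImplicit false
open Cfsg

namespace Cfsg.Agent.S2955
open scoped Pointwise

/-- Let p be a prime dividing the order of the finite group G and 𝓕 a conjugation-closed family of subgroups that controls Sylow p-intersections in G. Suppose the Sylow p-subgroups of G are chain-connected: any two of them are joined by a chain of Sylow p-subgroups, consecutive ones distinct with nontrivial intersection, all containing the intersection of the two ends (equivalently, the graph on the Sylow p-subgroups whose edges are the distinct pairs meeting nontrivially is connected). Then for every Sylow p-subgroup S, G is generated by N_G(S) together with the members of 𝓕 that meet S in a Sylow p-subgroup of themselves. -/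
theorem result {G : Type*} [Group G] [Finite G] (p : ℕ) [Fact p.Prime] (hdiv : p ∣ Nat.card G)
    (𝓕 : Set (Subgroup G)) (h𝓕 : Cfsg.IsNormalSet 𝓕) (hc : Cfsg.ControlsSylowIntersections p 𝓕)
    (hconn : Cfsg.IsSylowChainConnected p G) (S : Sylow p G) :
    (⨆ X ∈ Cfsg.sylowMembers p 𝓕 (S : Subgroup G), X) ⊔ Subgroup.normalizer ((S : Subgroup G) : Set G) = ⊤ := by
  classical
  set H := (⨆ X ∈ Cfsg.sylowMembers p 𝓕 (S : Subgroup G), X) ⊔ Subgroup.normalizer ((S : Subgroup G) : Set G)
  -- a member at a conjugate by an element of `H` lies in `H`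
  have hmem : ∀ k ∈ H, ∀ X ∈ Cfsg.sylowMembers p 𝓕 ((k • S : Sylow p G) : Subgroup G), X ≤ H := by
    rintro k hk X ⟨hX, P, hP⟩
    have hconj := h𝓕 X hX k
    set X' := Cfsg.subgroupConjRight k X
    have hX' : X' ∈ Cfsg.sylowMembers p 𝓕 (S : Subgroup G) := by
      refine ⟨hconj, ?_⟩
      let e : ↥X ≃* ↥X' := Subgroup.equivMapOfInjective X (MulAut.conj k⁻¹).toMonoidHom (MulEquiv.injective _)
      refine ⟨P.mapSurjective (f := e.toMonoidHom) e.surjective, ?_⟩
      show ((P : Subgroup ↥X).map e.toMonoidHom).map X'.subtype = _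
      rw [Subgroup.map_map,
        show X'.subtype.comp e.toMonoidHom = (MulAut.conj k⁻¹).toMonoidHom.comp X.subtype from rfl, ← Subgroup.map_map, hP,
        Subgroup.map_inf _ _ _ (MulEquiv.injective _), Sylow.coe_subgroup_smul]
      congr 1
      show ((S : Subgroup G).map (MulAut.conj k).toMonoidHom).map (MulAut.conj k⁻¹).toMonoidHom = (S : Subgroup G)
      rw [Subgroup.map_map]
      convert Subgroup.map_id (S : Subgroup G)
      ext x; simp [mul_assoc]
    intro x hx
    have h1 : k⁻¹ * x * k ∈ H := Subgroup.mem_sup_left ((le_biSup (fun X : Subgroup G => X) hX') ⟨x, hx, by simp⟩)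
    simpa [mul_assoc] using H.mul_mem (H.mul_mem hk h1) (H.inv_mem hk)
  have hfirst : ∀ k ∈ H, ∀ T : Sylow p G, k • S ≠ T → ((k • S : Sylow p G) : Subgroup G) ⊓ (T : Subgroup G) ≠ ⊥ →
      ∃ k' ∈ H, T = k' • S := by
    intro k hk T hne hbot
    obtain ⟨n, c, X, x, hc0, hcl, hstep⟩ := hc _ T hne hbot
    have : ∀ i : Fin (n + 1), ∃ k' ∈ H, c i = k' • S := by
      intro i
      induction i using Fin.induction with
      | zero => exact ⟨k, hk, hc0⟩
      | succ i ih =>
        obtain ⟨k', hk', he⟩ := ih
        obtain ⟨hX1, -, hx, hconj, -⟩ := hstep i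
        refine ⟨x i * k', H.mul_mem (hmem k' hk' _ (he ▸ hX1) hx) hk', ?_⟩
        rw [mul_smul, ← he]
        refine Sylow.ext ?_
        rw [Sylow.coe_subgroup_smul]
        have h2 := congrArg (Subgroup.map (MulAut.conj (x i)).toMonoidHom) hconj
        rw [Cfsg.subgroupConjRight, Subgroup.map_map] at h2
        refine Eq.trans ?_ h2
        symm
        convert Subgroup.map_id _
        ext y; simp [mul_assoc]
    obtain ⟨k', hk', he⟩ := this (Fin.last n)
    exact ⟨k', hk', hcl ▸ he⟩
  refine eq_top_iff.mpr fun g _ => ?_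
  obtain ⟨n, c, hc0, hcl, -, hadj⟩ := hconn S (g • S)
  have : ∀ i : Fin (n + 1), ∃ k' ∈ H, c i = k' • S := by
    intro i
    induction i using Fin.induction with
    | zero => exact ⟨1, H.one_mem, by rw [one_smul, hc0]⟩
    | succ i ih =>
      obtain ⟨k', hk', he⟩ := ih
      obtain ⟨h1, h2⟩ := hadj i
      rw [he] at h1 h2
      exact hfirst k' hk' _ h1 h2
  obtain ⟨k, hk, he⟩ := this (Fin.last n)
  have hn : k⁻¹ * g ∈ Subgroup.normalizer ((S : Subgroup G) : Set G) :=
    Sylow.smul_eq_iff_mem_normalizer.mp (by rw [mul_smul, ← hcl, he, inv_smul_smul])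
  simpa using H.mul_mem hk (Subgroup.mem_sup_right hn)

end Cfsg.Agent.S2955
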