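import Cfsg.Agent.Lib.SylowChainRel
import Mathlib.GroupTheory.Nilpotent

set_option autoImplicit false
open Cfsg
open scoped Pointwise

namespace Cfsg.Agent.S2956

open Subgroup CfsgLib.SylowChainRel

section
variable {G : Type*} [Group G] [Finite G] {p : ℕ} [Fact p.Prime]

theorem rel_mono {𝓕 : Set (Subgroup G)} {A B : Subgroup G} (hAB : A ≤ B) {U V : Sylow p G}
    (h : Relation.ReflTransGen (Step 𝓕 B) U V) : Relation.ReflTransGen (Step 𝓕 A) U V := by
  induction h with
  | refl => exact .refl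
  | tail _ hs ih =>
    obtain ⟨X, x, h1, h2, h3, h4, h5⟩ := hs
    exact ih.tail ⟨X, x, h1, h2, h3, h4, hAB.trans h5⟩

theorem lt_inf_normalizer {A S : Subgroup G} (hS : IsPGroup p S) (hAS : A < S) :
    A < S ⊓ normalizer (A : Set G) := by
  haveI := hS.isNilpotent
  have h1 : A.subgroupOf S < ⊤ := lt_top_iff_ne_top.mpr fun h => hAS.not_ge (subgroupOf_eq_top.mp h)
  obtain ⟨y, hy1, hy2⟩ := SetLike.exists_of_lt (Group.normalizerCondition_of_isNilpotent _ h1)
  refine SetLike.lt_iff_le_and_exists.mpr ⟨le_inf hAS.le le_normalizer, (y : G), mem_inf.mpr ⟨y.2, ?_⟩, fun h => hy2 (mem_subgroupOf.mpr h)⟩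
  have h2 := le_normalizer_map S.subtype (mem_map_of_mem S.subtype hy1)
  rwa [subgroupOf_map_subtype, inf_eq_left.mpr hAS.le] at h2

theorem exists_sylow_of_sub {M : Subgroup G} (P : Subgroup G) (hP : IsPGroup p P) (hPM : P ≤ M) :
    ∃ W₀ : Sylow p M, P ≤ (W₀ : Subgroup M).map M.subtype := by
  have h1 : IsPGroup p (P.subgroupOf M) := hP.comap_subtype
  obtain ⟨W₀, hW⟩ := h1.exists_le_sylow
  exact ⟨W₀, fun z hz => ⟨⟨z, hPM hz⟩, hW (mem_subgroupOf.mpr hz), rfl⟩⟩

theorem inf_eq_map {M : Subgroup G} {W : Sylow p G} {W₀ : Sylow p M}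
    (h : (W₀ : Subgroup M).map M.subtype ≤ (W : Subgroup G)) :
    (W : Subgroup G) ⊓ M = (W₀ : Subgroup M).map M.subtype := by
  refine le_antisymm ?_ (le_inf h (map_subtype_le _))
  have h1 : IsPGroup p ((W : Subgroup G).subgroupOf M) := W.2.comap_subtype
  have h2 : (W₀ : Subgroup M) ≤ (W : Subgroup G).subgroupOf M := fun y hy => h ⟨y, hy, rfl⟩
  rw [← subgroupOf_map_subtype (W : Subgroup G) M, W₀.3 h1 h2]

theorem conj_coe (g : G) (W : Sylow p G) :
    ((g • W : Sylow p G) : Subgroup G) = (W : Subgroup G).map (MulAut.conj g).toMonoidHom := rfl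

theorem map_conj_inv (g : G) (X : Subgroup G) :
    (X.map (MulAut.conj g).toMonoidHom).map (MulAut.conj g⁻¹).toMonoidHom = X := by
  rw [Subgroup.map_map]
  convert Subgroup.map_id X
  ext z; simp [mul_assoc]

theorem conj_right_smul (g : G) (W : Sylow p G) :
    Cfsg.subgroupConjRight g ((g • W : Sylow p G) : Subgroup G) = (W : Subgroup G) := by
  rw [Cfsg.subgroupConjRight, conj_coe, map_conj_inv]

theorem map_self_of_mem {M : Subgroup G} {g : G} (hg : g ∈ M) : M.map (MulAut.conj g).toMonoidHom = M :=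
  mem_normalizer_iff_map_conj_eq.mp (le_normalizer hg)

variable {f : Subgroup G → Set (Subgroup G)} {𝓖 : Set (Subgroup G)}
  (hf : Cfsg.IsNormalizerFunctor p f)
  (hf1 : ∀ P : Subgroup G, IsPGroup p ↥P → P ≠ ⊥ → ∀ F ∈ f P, F ≠ ⊥)
  (hG1 : ∀ P : Sylow p G, ∀ F ∈ f (P : Subgroup G), normalizer (F : Set G) ∈ 𝓖)
  (hG2 : ∀ M : Subgroup G, Cfsg.IsMaximalPLocal p M → ¬ Cfsg.IsFunctorRegular p f M → M ∈ 𝓖)

theorem exists_maximal_pLocal {N : Subgroup G} (hN : Cfsg.IsPLocal p N) :
    ∃ M : Subgroup G, Cfsg.IsMaximalPLocal p M ∧ N ≤ M := by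
  obtain ⟨M, hNM, hM⟩ := Finite.exists_le_maximal (p := fun M : Subgroup G => Cfsg.IsPLocal p M) hN
  exact ⟨M, ⟨hM.1, fun L hL hle => (hM.eq_of_le hL hle).symm⟩, hNM⟩

include hf hf1 hG1 hG2 in
/-- Linking inside a maximal local subgroup, given linking for all larger intersections. -/
theorem link_local {A : Subgroup G} (hA : A ≠ ⊥)
    (hbig : ∀ (B : Subgroup G) (U V : Sylow p G), A < B → B ≤ (U : Subgroup G) → B ≤ (V : Subgroup G) →
      Relation.ReflTransGen (Step 𝓖 A) U V) :
    ∀ k, ∀ M : Subgroup G, Cfsg.IsMaximalPLocal p M → ∀ (M₁ : Sylow p M), Nat.card G ≤ Nat.card (M₁ : Subgroup M) + k →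
      ∀ (U : Sylow p G), (M₁ : Subgroup M).map M.subtype ≤ (U : Subgroup G) →
      A < (M₁ : Subgroup M).map M.subtype → ∀ n ∈ M, A ≤ ((n • U : Sylow p G) : Subgroup G) →
      Relation.ReflTransGen (Step 𝓖 A) U (n • U) := by
  intro k
  induction k using Nat.strong_induction_on with
  | _ k ih =>
  intro M hM M₁ hk U hU hAU n hn hAn
  have hUM : (U : Subgroup G) ⊓ M = (M₁ : Subgroup M).map M.subtype := inf_eq_map hU
  have hAM : A ≤ M := hAU.le.trans (map_subtype_le _)
  set M₂ : Sylow p M := (⟨n, hn⟩ : M) • M₁ with hM₂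
  have hM₂U : (M₂ : Subgroup M).map M.subtype ≤ ((n • U : Sylow p G) : Subgroup G) := by
    rintro _ ⟨y, hy, rfl⟩
    rw [SetLike.mem_coe, hM₂, Sylow.coe_subgroup_smul, mem_pointwise_smul_iff_inv_smul_mem] at hy
    have h2 := hU ⟨_, hy, rfl⟩
    rw [conj_coe, mem_map_equiv, MulAut.conj_symm_apply]
    simpa [MulAut.smul_def, mul_assoc] using h2
  have hnUM : ((n • U : Sylow p G) : Subgroup G) ⊓ M = (M₂ : Subgroup M).map M.subtype := inf_eq_map hM₂U
  have hAM₂ : A ≤ (M₂ : Subgroup M).map M.subtype := hnUM ▸ le_inf hAn hAM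
  by_cases hreg : Cfsg.IsFunctorRegular p f M
  swap
  · refine .single ⟨M, n, ⟨hG2 M hM hreg, M₁, hUM.symm⟩, ⟨hG2 M hM hreg, M₂, hnUM.symm⟩, hn,
      conj_right_smul n U, le_inf hAn hAM⟩
  by_cases heq : M₁ = M₂
  · refine hbig _ _ _ hAU hU ?_
    rw [heq]; exact hM₂U
  have hinf : ((M₁ : Subgroup M)) ⊓ (M₂ : Subgroup M) ≠ ⊥ := by
    intro h
    refine hA (eq_bot_iff.mpr fun a ha => ?_)
    obtain ⟨y, hy, hya⟩ := hAU.le ha
    obtain ⟨z, hz, hza⟩ := hAM₂ ha
    have e : y = z := M.subtype_injective (hya.trans hza.symm)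
    have h1 : y ∈ (M₁ : Subgroup M) ⊓ (M₂ : Subgroup M) := ⟨hy, e ▸ hz⟩
    rw [h, mem_bot] at h1
    subst h1
    exact mem_bot.mpr hya.symm
  obtain ⟨m, c, X, x, hc0, hcl, hstep⟩ := hreg M₁ M₂ heq hinf
  -- every member of the chain properly contains `A`
  have hsize : ∀ Q : Sylow p M, Nat.card ((Q : Subgroup M).map M.subtype) = Nat.card ((M₁ : Subgroup M).map M.subtype) := by
    intro Q
    rw [card_map_of_injective M.subtype_injective, card_map_of_injective M.subtype_injective,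
      Sylow.card_eq_multiplicity, Sylow.card_eq_multiplicity]
  have hcA : ∀ i : Fin (m + 1), A ≤ (c i : Subgroup M).map M.subtype := by
    intro i
    induction i using Fin.cases with
    | zero => rw [hc0]; exact hAU.le
    | succ i =>
      intro a ha
      obtain ⟨y, hy, hya⟩ := hAU.le ha
      obtain ⟨z, hz, hza⟩ := hAM₂ ha
      have e : y = z := M.subtype_injective (hya.trans hza.symm)
      exact ⟨y, ((hstep i).2.2.2.2 ⟨hy, e ▸ hz⟩).1, hya⟩
  have hclt : ∀ i : Fin (m + 1), A < (c i : Subgroup M).map M.subtype := fun i => by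
    refine lt_of_le_of_ne (hcA i) fun h => hAU.ne (eq_of_le_of_card_ge hAU.le ?_)
    rw [← hsize (c i), ← h]
  suffices h : ∀ (i : Fin (m + 1)) (W : Sylow p G), (c i : Subgroup M).map M.subtype ≤ (W : Subgroup G) →
      Relation.ReflTransGen (Step 𝓖 A) U W by
    exact h (Fin.last m) (n • U) (by rw [hcl]; exact hM₂U)
  intro i
  induction i using Fin.induction with
  | zero =>
    intro W hW
    exact hbig _ _ _ hAU hU (by rwa [hc0] at hW)
  | succ i ih' =>
    intro W hW
    obtain ⟨h1, h2, h3, h4, h5⟩ := hstep i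
    obtain ⟨Y, hY, hYX⟩ := h1.1
    obtain ⟨P, F, hF, rfl⟩ := hY
    set P' := (P : Subgroup M).map M.subtype with hP'
    have hPp : IsPGroup p P' := P.2.map _
    have hPN : P' ≤ normalizer (F : Set G) := le_normalizer.trans ((hf _ hPp).1 F hF).2
    have hPX : (P : Subgroup M) ≤ X i := by
      rw [← hYX]
      exact fun y hy => mem_subgroupOf.mpr ⟨y.2, hPN ⟨y, hy, rfl⟩⟩
    have hfull : ∀ Q : Sylow p M, X i ∈ Cfsg.sylowMembers p ((fun X : Subgroup G => X.subgroupOf M) '' Cfsg.functorFamily p f M) (Q : Subgroup M) →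
        (Q : Subgroup M).map M.subtype ≤ normalizer (F : Set G) := by
      rintro Q ⟨-, R, hR⟩
      have h6 : Nat.card (R : Subgroup (X i)) = Nat.card (P.subtype hPX : Subgroup (X i)) := by
        rw [Sylow.card_eq_multiplicity, Sylow.card_eq_multiplicity]
      rw [Sylow.coe_subtype, Nat.card_congr (subgroupOfEquivOfLe hPX).toEquiv] at h6
      have h7 : Nat.card ((Q : Subgroup M) ⊓ X i : Subgroup M) = Nat.card (P : Subgroup M) := by
        rw [← hR, card_map_of_injective (X i).subtype_injective, h6]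
      have h8 : Nat.card (P : Subgroup M) = Nat.card (Q : Subgroup M) := by
        rw [Sylow.card_eq_multiplicity, Sylow.card_eq_multiplicity]
      have h9 := inf_eq_left.mp (eq_of_le_of_card_ge inf_le_left (h8.symm.le.trans h7.symm.le))
      rintro _ ⟨y, hy, rfl⟩
      have h10 := h9 hy
      rw [← hYX] at h10
      exact (mem_subgroupOf.mp h10).2
    have hx : (x i : G) ∈ normalizer (F : Set G) := by
      rw [← hYX] at h3; exact (mem_subgroupOf.mp h3).2
    set Q₀ := (c i.castSucc : Subgroup M).map M.subtype with hQ₀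
    set Q₁ := (c i.succ : Subgroup M).map M.subtype with hQ₁
    have hQ01 : Q₁.map (MulAut.conj (x i : G)⁻¹).toMonoidHom = Q₀ := by
      rw [hQ₀, ← h4, Cfsg.subgroupConjRight, hQ₁, Subgroup.map_map, Subgroup.map_map]
      congr 1
    have hQ10 : Q₁ = Q₀.map (MulAut.conj (x i : G)).toMonoidHom := by
      rw [← hQ01, Subgroup.map_map]
      symm
      convert Subgroup.map_id Q₁
      ext z; simp [mul_assoc]
    have hQ₀F := hfull _ h1
    have hQ₁F := hfull _ h2
    have hPne : P' ≠ ⊥ := by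
      intro h
      have h0 := hsize P
      rw [← hP', h, card_bot, eq_comm, Subgroup.card_eq_one] at h0
      exact not_le_of_gt hAU (h0.le.trans bot_le)
    obtain ⟨Pg, hPg⟩ := hPp.exists_le_sylow
    by_cases hfl : P' = (Pg : Subgroup G)
    · -- `N(F)` is a member of the family
      have hcard : ∀ Q : Sylow p M, ∀ T : Sylow p G, (Q : Subgroup M).map M.subtype ≤ (T : Subgroup G) →
          (Q : Subgroup M).map M.subtype = (T : Subgroup G) := by
        intro Q T hle
        refine eq_of_le_of_card_ge hle ?_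
        rw [hsize Q, ← hsize P, ← hP', hfl, Sylow.card_eq_multiplicity, Sylow.card_eq_multiplicity]
      rw [hfl] at hF
      obtain ⟨T, hT⟩ := ((c i.castSucc).2.map M.subtype).exists_le_sylow
      refine (ih' T hT).tail ?_
      have hT0 : Q₀ = (T : Subgroup G) := hcard _ T hT
      have hW1 : Q₁ = (W : Subgroup G) := hcard _ W hW
      have hmem : ∀ T' : Sylow p G, (T' : Subgroup G) ≤ normalizer (F : Set G) →
          normalizer (F : Set G) ∈ Cfsg.sylowMembers p 𝓖 (T' : Subgroup G) := fun T' hle =>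
        ⟨hG1 Pg F hF, T'.subtype hle, by rw [Sylow.coe_subtype, subgroupOf_map_subtype]⟩
      refine ⟨normalizer (F : Set G), (x i : G), hmem T (hT0 ▸ hQ₀F), hmem W (hW1 ▸ hQ₁F), hx, ?_, ?_⟩
      · rw [Cfsg.subgroupConjRight, ← hW1, hQ01, hT0]
      · exact le_inf ((hcA _).trans hW) ((hcA _).trans hQ₁F)
    -- otherwise `N(F)` lies in a maximal local subgroup with a larger Sylow subgroup
    have hlt : P' < (Pg : Subgroup G) ⊓ normalizer (P' : Set G) := lt_inf_normalizer Pg.2 (lt_of_le_of_ne hPg hfl)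
    obtain ⟨M', hM', hNM'⟩ := exists_maximal_pLocal (p := p) (N := normalizer (F : Set G))
      ⟨F, hPp.to_le ((hf _ hPp).1 F hF).1, hf1 _ hPp hPne F hF, rfl⟩
    obtain ⟨W₀, hW₀⟩ := exists_sylow_of_sub Q₀ ((c i.castSucc).2.map _) (hQ₀F.trans hNM')
    have hbigger : Nat.card (M₁ : Subgroup M) < Nat.card (W₀ : Subgroup M') := by
      obtain ⟨Z, hZ⟩ := exists_sylow_of_sub ((Pg : Subgroup G) ⊓ normalizer (P' : Set G)) (Pg.2.to_le inf_le_left)
        ((inf_le_right.trans ((hf _ hPp).1 F hF).2).trans hNM')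
      have h6 : Nat.card P' < Nat.card ((Pg : Subgroup G) ⊓ normalizer (P' : Set G) : Subgroup G) := by
        refine lt_of_le_of_ne (card_le_of_le hlt.le) fun h => hlt.ne (eq_of_le_of_card_ge hlt.le h.ge)
      have h7 := card_le_of_le hZ
      rw [card_map_of_injective M'.subtype_injective] at h7
      have h8 : Nat.card (Z : Subgroup M') = Nat.card (W₀ : Subgroup M') := by
        rw [Sylow.card_eq_multiplicity, Sylow.card_eq_multiplicity]
      have h9 : Nat.card P' = Nat.card (M₁ : Subgroup M) := by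
        rw [hP', card_map_of_injective M.subtype_injective, Sylow.card_eq_multiplicity, Sylow.card_eq_multiplicity]
      omega
    obtain ⟨T, hT⟩ := (W₀.2.map M'.subtype).exists_le_sylow
    have hQ₀T : Q₀ ≤ (T : Subgroup G) := hW₀.trans hT
    have hQ₁T : Q₁ ≤ (((x i : G) • T : Sylow p G) : Subgroup G) := by
      rw [hQ10, conj_coe]; exact map_mono hQ₀T
    have r1 : Relation.ReflTransGen (Step 𝓖 A) T ((x i : G) • T) := by
      have hGc : Nat.card (W₀ : Subgroup M') ≤ Nat.card G :=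
        (card_le_card_group _).trans (card_le_card_group M')
      exact ih (Nat.card G - Nat.card (W₀ : Subgroup M')) (by omega) M' hM' W₀ (by omega) T hT
        ((hclt _).trans_le hW₀) _ (hNM' hx) ((hcA _).trans hQ₁T)
    exact (ih' T hQ₀T).trans (r1.trans (hbig Q₁ _ W (hclt _) hQ₁T hW))

include hf hf1 hG1 hG2 in
theorem link (A : Subgroup G) (hA : A ≠ ⊥) (U V : Sylow p G) (hU : A ≤ (U : Subgroup G)) (hV : A ≤ (V : Subgroup G)) :
    Relation.ReflTransGen (Step 𝓖 A) U V := by
  induction hm : Nat.card G - Nat.card A using Nat.strong_induction_on generalizing A U V with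
  | _ m ih =>
  have hbig : ∀ (B : Subgroup G) (U V : Sylow p G), A < B → B ≤ (U : Subgroup G) → B ≤ (V : Subgroup G) →
      Relation.ReflTransGen (Step 𝓖 A) U V := by
    intro B U' V' hAB hBU hBV
    have h1 : Nat.card A < Nat.card B :=
      lt_of_le_of_ne (card_le_of_le hAB.le) fun h => hAB.ne (eq_of_le_of_card_ge hAB.le h.ge)
    have h2 := card_le_card_group B
    exact rel_mono hAB.le (ih _ (by omega) B (fun h => hA (le_bot_iff.mp (h ▸ hAB.le))) U' V' hBU hBV rfl)
  by_cases hUV : U = V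
  · subst hUV; exact .refl
  by_cases hAU : A = (U : Subgroup G)
  · exact absurd (Sylow.ext (U.3 V.2 (hAU ▸ hV)).symm) hUV
  by_cases hAV : A = (V : Subgroup G)
  · exact absurd (Sylow.ext (V.3 U.2 (hAV ▸ hU))) hUV
  have hltU := lt_inf_normalizer U.2 (lt_of_le_of_ne hU hAU)
  have hltV := lt_inf_normalizer V.2 (lt_of_le_of_ne hV hAV)
  set N := normalizer (A : Set G) with hN
  obtain ⟨S₁, hS₁⟩ := exists_sylow_of_sub (M := N) _ (U.2.to_le inf_le_left) inf_le_right
  obtain ⟨S₂, hS₂⟩ := exists_sylow_of_sub (M := N) _ (V.2.to_le inf_le_left) inf_le_right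
  obtain ⟨n, hn⟩ := MulAction.exists_smul_eq N S₁ S₂
  obtain ⟨M, hM, hNM⟩ := exists_maximal_pLocal (p := p) (N := N) ⟨A, U.2.to_le hU, hA, rfl⟩
  obtain ⟨M₁, hM₁⟩ := exists_sylow_of_sub (M := M) ((S₁ : Subgroup N).map N.subtype) (S₁.2.map _)
    ((map_subtype_le _).trans hNM)
  obtain ⟨R, hR⟩ := (M₁.2.map M.subtype).exists_le_sylow
  have hUR : (U : Subgroup G) ⊓ N ≤ (R : Subgroup G) := (hS₁.trans hM₁).trans hR
  have hVR : (V : Subgroup G) ⊓ N ≤ ((( n : G) • R : Sylow p G) : Subgroup G) := by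
    refine hS₂.trans ?_
    rw [← hn]
    rintro _ ⟨y, hy, rfl⟩
    rw [SetLike.mem_coe, Sylow.coe_subgroup_smul, mem_pointwise_smul_iff_inv_smul_mem] at hy
    have h2 := hR (hM₁ ⟨_, hy, rfl⟩)
    rw [conj_coe, mem_map_equiv, MulAut.conj_symm_apply]
    simpa [MulAut.smul_def, mul_assoc] using h2
  have r1 := hbig _ U R hltU inf_le_left hUR
  have r3 := hbig _ ((n : G) • R) V hltV hVR inf_le_left
  have r2 := link_local hf hf1 hG1 hG2 hA hbig (Nat.card G) M hM M₁ (by omega) R hR
    (hltU.trans_le (hS₁.trans hM₁)) n (hNM n.2) (hltV.le.trans hVR)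
  exact (r1.trans r2).trans r3

end

/-- Let p be a prime dividing the order of the finite group G, and f an assignment to every p-subgroup P of a set f(P) of subgroups of P, each normalized by N_G(P), compatible with conjugation, such that for P ≠ 1 the members of f(P) are nontrivial. Let 𝓕 be the family of the normalizers N_G(F) of the members F of f(S) over the Sylow p-subgroups S of G, and 𝓕' the family of the maximal p-local subgroups M of G that are singular for f (the corresponding family of normalizers inside M does not control Sylow p-intersections in M). Then 𝓕 ∪ 𝓕' controls Sylow p-intersections in G. -/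
theorem result {G : Type*} [Group G] [Finite G] (p : ℕ) [Fact p.Prime] (hdiv : p ∣ Nat.card G)
    (f : Subgroup G → Set (Subgroup G)) (hf : Cfsg.IsNormalizerFunctor p f)
    (hf1 : ∀ P : Subgroup G, IsPGroup p ↥P → P ≠ ⊥ → ∀ F ∈ f P, F ≠ ⊥)
    (𝓕 𝓕' : Set (Subgroup G)) (h𝓕 : 𝓕 = Cfsg.functorFamily p f ⊤)
    (h𝓕' : 𝓕' = {M | Cfsg.IsMaximalPLocal p M ∧ ¬ Cfsg.IsFunctorRegular p f M}) :
    Cfsg.ControlsSylowIntersections p (𝓕 ∪ 𝓕') := by
  intro S T hne hbot
  refine CfsgLib.SylowChainRel.chain_of_rel (link hf hf1 ?_ ?_ _ hbot S T inf_le_left inf_le_right)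
  · intro P F hF
    refine Or.inl (h𝓕 ▸ ⟨P.subtype le_top, F, ?_, (top_inf_eq _).symm⟩)
    rwa [Sylow.coe_subtype, Subgroup.subgroupOf_map_subtype, inf_top_eq]
  · exact fun M hM hr => Or.inr (h𝓕' ▸ ⟨hM, hr⟩)

end Cfsg.Agent.S2956
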