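import Cfsg.Statements.S2957
import Mathlib.GroupTheory.Sylow

set_option autoImplicit false
open Cfsg

namespace Cfsg.Agent.S2957
open scoped commutatorElement
open Cfsg

variable {G : Type*} [Group G] [Finite G] {p : ℕ} [Fact p.Prime] {f : Subgroup G → Set (Subgroup G)}

theorem conj_conj (a b : G) (K : Subgroup G) :
    (K.map (MulAut.conj b).toMonoidHom).map (MulAut.conj a).toMonoidHom = K.map (MulAut.conj (a * b)).toMonoidHom := by
  rw [Subgroup.map_map]; congr 1; ext x; simp [mul_assoc]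

theorem conj_one (K : Subgroup G) : K.map (MulAut.conj (1 : G)).toMonoidHom = K := by
  rw [map_one]; exact Subgroup.map_id K

/-- One step of a chain, inside `M`. -/
def Step (p : ℕ) (f : Subgroup G → Set (Subgroup G)) (M D A B : Subgroup G) : Prop :=
  (∃ P : Sylow p G, (P : Subgroup G) = A) ∧ (∃ P : Sylow p G, (P : Subgroup G) = B) ∧
  ∃ X ∈ functorFamily p f M, ∃ x ∈ X, A ≤ X ∧ B ≤ X ∧ B.map (MulAut.conj x⁻¹).toMonoidHom = A ∧ D ≤ B

theorem step_top (hf : IsNormalizerFunctor p f) {M D A B : Subgroup G} (hM : ∃ P : Sylow p G, (P : Subgroup G) ≤ M)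
    (h : Step p f M D A B) : Step p f ⊤ D A B := by
  obtain ⟨hA, hB, X, ⟨P, F, hF, rfl⟩, x, hx, hAX, hBX, he, hD⟩ := h
  obtain ⟨P₀, hP₀⟩ := hM
  have hcard : Nat.card ↥((P : Subgroup ↥M).map M.subtype) = Nat.card ↥(P₀ : Subgroup G) := by
    rw [Subgroup.card_map_of_injective M.subtype_injective, ← Nat.card_congr ((P₀.subtype hP₀).equiv P).toEquiv]
    exact Nat.card_congr (Subgroup.subgroupOfEquivOfLe hP₀).toEquiv
  have hcard' : Nat.card ↥((P : Subgroup ↥M).map M.subtype) = p ^ (Nat.card G).factorization p :=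
    hcard.trans P₀.card_eq_multiplicity
  let Q : Sylow p G := Sylow.ofCard ((P : Subgroup ↥M).map M.subtype) hcard'
  refine ⟨hA, hB, (⊤ : Subgroup G) ⊓ Subgroup.normalizer (F : Set G), ⟨Q.subtype le_top, F, ?_, rfl⟩, x,
    Subgroup.mem_inf.mpr ⟨Subgroup.mem_top _, (Subgroup.mem_inf.mp hx).2⟩,
    hAX.trans (inf_le_inf_right _ le_top), hBX.trans (inf_le_inf_right _ le_top), he, hD⟩
  rwa [show (((Q.subtype (le_top : (Q : Subgroup G) ≤ ⊤)) : Subgroup ↥(⊤ : Subgroup G)).map (⊤ : Subgroup G).subtype) =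
    (P : Subgroup ↥M).map M.subtype from Subgroup.map_subgroupOf_eq_of_le le_top]

theorem step_conj (hf : IsNormalizerFunctor p f) (h : G) {D A B : Subgroup G} (hs : Step p f ⊤ D A B) :
    Step p f ⊤ (D.map (MulAut.conj h).toMonoidHom) (A.map (MulAut.conj h).toMonoidHom)
      (B.map (MulAut.conj h).toMonoidHom) := by
  obtain ⟨⟨PA, rfl⟩, ⟨PB, rfl⟩, X, ⟨P, F, hF, rfl⟩, x, hx, hAX, hBX, he, hD⟩ := hs
  have hPp : IsPGroup p ↥((P : Subgroup ↥(⊤ : Subgroup G)).map (⊤ : Subgroup G).subtype) := P.2.map _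
  have hcard : Nat.card ↥(((P : Subgroup ↥(⊤ : Subgroup G)).map (⊤ : Subgroup G).subtype).map (MulAut.conj h).toMonoidHom) =
      p ^ (Nat.card G).factorization p := by
    rw [Subgroup.card_map_of_injective (f := (MulAut.conj h).toMonoidHom) (MulAut.conj h).injective,
      Subgroup.card_map_of_injective (Subgroup.subtype_injective _), P.card_eq_multiplicity, Subgroup.card_top]
  have hF' : F.map (MulAut.conj h).toMonoidHom ∈
      f (((P : Subgroup ↥(⊤ : Subgroup G)).map (⊤ : Subgroup G).subtype).map (MulAut.conj h).toMonoidHom) := by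
    rw [(hf _ hPp).2 h]; exact ⟨F, hF, rfl⟩
  have hX : ((⊤ : Subgroup G) ⊓ Subgroup.normalizer (F : Set G)).map (MulAut.conj h).toMonoidHom =
      ⊤ ⊓ Subgroup.normalizer ((F.map (MulAut.conj h).toMonoidHom : Subgroup G) : Set G) := by
    rw [top_inf_eq, top_inf_eq]; exact Subgroup.map_equiv_normalizer_eq F (MulAut.conj h)
  let Q : Sylow p G := Sylow.ofCard _ hcard
  refine ⟨⟨h • PA, rfl⟩, ⟨h • PB, rfl⟩,
    (⊤ : Subgroup G) ⊓ Subgroup.normalizer ((F.map (MulAut.conj h).toMonoidHom : Subgroup G) : Set G),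
    ⟨Q.subtype le_top, F.map (MulAut.conj h).toMonoidHom, ?_, rfl⟩, h * x * h⁻¹, hX ▸ ⟨x, hx, rfl⟩,
    hX ▸ Subgroup.map_mono hAX, hX ▸ Subgroup.map_mono hBX, ?_, Subgroup.map_mono hD⟩
  · rwa [show (((Q.subtype (le_top : (Q : Subgroup G) ≤ ⊤)) : Subgroup ↥(⊤ : Subgroup G)).map (⊤ : Subgroup G).subtype) =
      _ from Subgroup.map_subgroupOf_eq_of_le le_top]
  · rw [← he, conj_conj, conj_conj]; congr 2; group

theorem chain_of_regular (hf : IsNormalizerFunctor p f) {M D : Subgroup G} (hreg : IsFunctorRegular p f M)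
    (S T : Sylow p G) (hS : (S : Subgroup G) ≤ M) (hT : (T : Subgroup G) ≤ M) (hD : D ≤ (S : Subgroup G) ⊓ T)
    (hD1 : D ≠ ⊥) : Relation.ReflTransGen (Step p f ⊤ D) (S : Subgroup G) (T : Subgroup G) := by
  by_cases hST : S = T
  · rw [hST]
  have hne : S.subtype hS ≠ T.subtype hT := by
    intro e
    refine hST (Sylow.ext ?_)
    have := congrArg (fun R : Sylow p ↥M => (R : Subgroup ↥M).map M.subtype) e
    simpa [Subgroup.map_subgroupOf_eq_of_le hS, Subgroup.map_subgroupOf_eq_of_le hT] using this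
  have hne' : (S.subtype hS : Subgroup ↥M) ⊓ (T.subtype hT : Subgroup ↥M) ≠ ⊥ := by
    intro e
    refine hD1 (eq_bot_iff.mpr fun d hd => ?_)
    obtain ⟨hdS, hdT⟩ := Subgroup.mem_inf.mp (hD hd)
    have hm : (⟨d, hS hdS⟩ : ↥M) ∈ (S.subtype hS : Subgroup ↥M) ⊓ (T.subtype hT : Subgroup ↥M) :=
      Subgroup.mem_inf.mpr ⟨Subgroup.mem_subgroupOf.mpr hdS, Subgroup.mem_subgroupOf.mpr hdT⟩
    rw [e, Subgroup.mem_bot] at hm
    exact congrArg Subtype.val hm
  obtain ⟨n, c, X, x, h0, hl, hc⟩ := hreg _ _ hne hne'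
  have hsy : ∀ i, ∃ P : Sylow p G, (P : Subgroup G) = (c i : Subgroup ↥M).map M.subtype := fun i => by
    refine ⟨Sylow.ofCard ((c i : Subgroup ↥M).map M.subtype) ?_, rfl⟩
    rw [Subgroup.card_map_of_injective M.subtype_injective, Nat.card_congr ((c i).equiv (S.subtype hS)).toEquiv, ← S.card_eq_multiplicity]
    exact Nat.card_congr (Subgroup.subgroupOfEquivOfLe hS).toEquiv
  have hstep : ∀ i : Fin n, Step p f ⊤ D ((c i.castSucc : Subgroup ↥M).map M.subtype) ((c i.succ : Subgroup ↥M).map M.subtype) := by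
    intro i
    obtain ⟨⟨hX1, R1, hR1⟩, ⟨-, R2, hR2⟩, hx, he, hle⟩ := hc i
    obtain ⟨X₀, hX₀, hX₀eq⟩ := hX1
    obtain ⟨P, F, hF, rfl⟩ := id hX₀
    have hPX : (P : Subgroup ↥M) ≤ X i := by
      rw [← hX₀eq]
      intro a ha
      refine Subgroup.mem_subgroupOf.mpr (Subgroup.mem_inf.mpr ⟨a.2, ?_⟩)
      exact ((hf _ (P.2.map _)).1 F hF).2 (Subgroup.le_normalizer ⟨a, ha, rfl⟩)
    have hcX : ∀ (C : Sylow p ↥M) (R : Sylow p ↥(X i)), (R : Subgroup ↥(X i)).map (X i).subtype = (C : Subgroup ↥M) ⊓ X i →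
        (C : Subgroup ↥M) ≤ X i := by
      intro C R hR
      have hle : Nat.card ↥(C : Subgroup ↥M) ≤ Nat.card ↥((C : Subgroup ↥M) ⊓ X i : Subgroup ↥M) := by
        rw [← hR, Subgroup.card_map_of_injective (X i).subtype_injective, Nat.card_congr (C.equiv P).toEquiv,
          Nat.card_congr (R.equiv (P.subtype hPX)).toEquiv]
        exact (Nat.card_congr (Subgroup.subgroupOfEquivOfLe hPX).toEquiv).ge
      exact inf_eq_left.mp (Subgroup.eq_of_le_of_card_ge inf_le_left hle)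
    have h1 := Subgroup.map_mono (f := M.subtype) (hcX _ R1 hR1)
    have h2 := Subgroup.map_mono (f := M.subtype) (hcX _ R2 hR2)
    rw [← hX₀eq, Subgroup.map_subgroupOf_eq_of_le inf_le_left] at h1 h2
    refine step_top hf ⟨S, hS⟩ ⟨hsy _, hsy _, _, hX₀, (x i : G), Subgroup.mem_subgroupOf.mp (show x i ∈ (M ⊓ Subgroup.normalizer (F : Set G)).subgroupOf M by rw [show (M ⊓ Subgroup.normalizer (F : Set G)).subgroupOf M = X i from hX₀eq]; exact hx), h1, h2, ?_, ?_⟩
    · rw [← he, subgroupConjRight, Subgroup.map_map, Subgroup.map_map]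
      congr 1
    · intro d hd
      obtain ⟨hdS, hdT⟩ := Subgroup.mem_inf.mp (hD hd)
      exact ⟨⟨d, hS hdS⟩, (hle (Subgroup.mem_inf.mpr ⟨Subgroup.mem_subgroupOf.mpr hdS, Subgroup.mem_subgroupOf.mpr hdT⟩ :
        (⟨d, hS hdS⟩ : ↥M) ∈ (S.subtype hS : Subgroup ↥M) ⊓ (T.subtype hT : Subgroup ↥M))).1, rfl⟩
  have hall : ∀ i : Fin (n + 1), Relation.ReflTransGen (Step p f ⊤ D) ((c 0 : Subgroup ↥M).map M.subtype)
      ((c i : Subgroup ↥M).map M.subtype) := by
    intro i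
    induction i using Fin.induction with
    | zero => exact Relation.ReflTransGen.refl
    | succ i ih => exact ih.tail (hstep i)
  have := hall (Fin.last n)
  rwa [h0, hl, show (S.subtype hS : Subgroup ↥M).map M.subtype = S from Subgroup.map_subgroupOf_eq_of_le hS,
    show (T.subtype hT : Subgroup ↥M).map M.subtype = T from Subgroup.map_subgroupOf_eq_of_le hT] at this

theorem chain_out {D : Subgroup ↥(⊤ : Subgroup G)} {A B : Subgroup G} (T : Sylow p ↥(⊤ : Subgroup G))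
    (h : Relation.ReflTransGen (Step p f ⊤ (D.map (⊤ : Subgroup G).subtype)) A B)
    (hB : B = (T : Subgroup ↥(⊤ : Subgroup G)).map (⊤ : Subgroup G).subtype) :
    ∀ S : Sylow p ↥(⊤ : Subgroup G), A = (S : Subgroup ↥(⊤ : Subgroup G)).map (⊤ : Subgroup G).subtype →
    ∃ (n : ℕ) (c : Fin (n + 1) → Sylow p ↥(⊤ : Subgroup G)) (X : Fin n → Subgroup ↥(⊤ : Subgroup G))
      (x : Fin n → ↥(⊤ : Subgroup G)),
      c 0 = S ∧ c (Fin.last n) = T ∧ ∀ i : Fin n,
        X i ∈ sylowMembers p ((fun X : Subgroup G => X.subgroupOf ⊤) '' functorFamily p f ⊤) (c i.castSucc : Subgroup _) ∧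
        X i ∈ sylowMembers p ((fun X : Subgroup G => X.subgroupOf ⊤) '' functorFamily p f ⊤) (c i.succ : Subgroup _) ∧
        x i ∈ X i ∧ subgroupConjRight (x i) (c i.succ : Subgroup _) = (c i.castSucc : Subgroup _) ∧
        D ≤ (c i.succ : Subgroup _) ⊓ X i := by
  induction h using Relation.ReflTransGen.head_induction_on with
  | refl =>
    intro S hS
    refine ⟨0, fun _ => S, Fin.elim0, Fin.elim0, rfl, Sylow.ext ?_, fun i => i.elim0⟩
    exact Subgroup.map_injective (Subgroup.subtype_injective _) (hS.symm.trans hB)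
  | @head A' C hstep _ ih =>
    intro S hS
    obtain ⟨-, ⟨PC, hPC⟩, X₀, hX₀, x, hx, hAX, hCX, he, hD⟩ := hstep
    obtain ⟨n, c, X, xs, h0, hl, hc⟩ := ih (PC.subtype le_top)
      (by rw [← hPC]; exact (Subgroup.map_subgroupOf_eq_of_le le_top).symm)
    refine ⟨n + 1, Fin.cons S c, Fin.cons (X₀.subgroupOf ⊤) X, Fin.cons ⟨x, Subgroup.mem_top x⟩ xs, rfl, ?_, ?_⟩
    · rw [← Fin.succ_last, Fin.cons_succ, hl]
    refine Fin.cases ?_ (fun i => ?_)
    · simp only [Fin.castSucc_zero, Fin.cons_zero, Fin.cons_succ, h0]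
      have hSX : (S : Subgroup ↥(⊤ : Subgroup G)) ≤ X₀.subgroupOf ⊤ := fun a ha =>
        Subgroup.mem_subgroupOf.mpr (hAX (hS ▸ ⟨a, ha, rfl⟩))
      have hPX : (PC.subtype le_top : Subgroup ↥(⊤ : Subgroup G)) ≤ X₀.subgroupOf ⊤ := fun a ha =>
        Subgroup.mem_subgroupOf.mpr (hCX (hPC ▸ Subgroup.mem_subgroupOf.mp ha))
      refine ⟨⟨⟨X₀, hX₀, rfl⟩, S.subtype hSX, ?_⟩, ⟨⟨X₀, hX₀, rfl⟩, (PC.subtype le_top).subtype hPX, ?_⟩,
        Subgroup.mem_subgroupOf.mpr hx, ?_, ?_⟩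
      · rw [inf_eq_left.mpr hSX]; exact Subgroup.map_subgroupOf_eq_of_le hSX
      · rw [inf_eq_left.mpr hPX]; exact Subgroup.map_subgroupOf_eq_of_le hPX
      · refine Subgroup.map_injective (Subgroup.subtype_injective _) ?_
        rw [← hS, ← he, ← hPC, subgroupConjRight]
        conv_rhs => rw [← Subgroup.map_subgroupOf_eq_of_le (H := (PC : Subgroup G)) (K := ⊤) le_top]
        rw [Subgroup.map_map, Subgroup.map_map]
        congr 1
      · intro d hd
        have hdC : (d : G) ∈ (PC : Subgroup G) := hPC ▸ hD ⟨d, hd, rfl⟩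
        exact Subgroup.mem_inf.mpr ⟨Subgroup.mem_subgroupOf.mpr hdC, hPX (Subgroup.mem_subgroupOf.mpr hdC)⟩
    · simp only [Fin.castSucc_succ, Fin.cons_succ]
      exact hc i

/-- Let p be a prime dividing the order of the finite group G, f an equivariant assignment of a set of subgroups f(P) of P to every p-subgroup P, each normalized by N_G(P), and S a Sylow p-subgroup. If G = G₁G₂ for subgroups G₁, G₂ both containing S and both regular for f (in each Gᵢ, the family of normalizers in Gᵢ of the members of f(P), P a Sylow p-subgroup of Gᵢ, controls Sylow p-intersections), then G itself is regular for f. -/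
theorem result {G : Type*} [Group G] [Finite G] (p : ℕ) [Fact p.Prime] (hdiv : p ∣ Nat.card G)
    (f : Subgroup G → Set (Subgroup G)) (hf : Cfsg.IsNormalizerFunctor p f) (S : Sylow p G)
    (G₁ G₂ : Subgroup G) (h₁ : (S : Subgroup G) ≤ G₁) (h₂ : (S : Subgroup G) ≤ G₂)
    (hprod : ∀ g : G, ∃ g₁ ∈ G₁, ∃ g₂ ∈ G₂, g = g₁ * g₂)
    (hr₁ : Cfsg.IsFunctorRegular p f G₁) (hr₂ : Cfsg.IsFunctorRegular p f G₂) :
    Cfsg.IsFunctorRegular p f ⊤ := by
  intro S₀ T₀ hne hbot
  set D := ((S₀ : Subgroup ↥(⊤ : Subgroup G)) ⊓ (T₀ : Subgroup ↥(⊤ : Subgroup G))).map (⊤ : Subgroup G).subtype with hD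
  have hcard : ∀ P : Sylow p ↥(⊤ : Subgroup G),
      Nat.card ↥((P : Subgroup ↥(⊤ : Subgroup G)).map (⊤ : Subgroup G).subtype) = p ^ (Nat.card G).factorization p := fun P => by
    rw [Subgroup.card_map_of_injective (Subgroup.subtype_injective _), P.card_eq_multiplicity, Subgroup.card_top]
  let P : Sylow p G := Sylow.ofCard _ (hcard S₀)
  let T : Sylow p G := Sylow.ofCard _ (hcard T₀)
  have hD1 : D ≠ ⊥ := fun h => hbot ((Subgroup.map_eq_bot_iff_of_injective _ (Subgroup.subtype_injective _)).mp h)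
  have hDP : D ≤ (P : Subgroup G) := Subgroup.map_mono inf_le_left
  have hDT : D ≤ (T : Subgroup G) := Subgroup.map_mono inf_le_right
  refine chain_out T₀ ?_ rfl S₀ rfl
  show Relation.ReflTransGen (Step p f ⊤ D) (P : Subgroup G) (T : Subgroup G)
  -- move P to S
  obtain ⟨h, hP⟩ := MulAction.exists_smul_eq G S P
  obtain ⟨g, hg⟩ := MulAction.exists_smul_eq G S (h⁻¹ • T)
  obtain ⟨D', hD'⟩ : ∃ K, K = D.map (MulAut.conj h⁻¹).toMonoidHom := ⟨_, rfl⟩
  have hsm : ∀ (a : G) (Q : Sylow p G), ((a • Q : Sylow p G) : Subgroup G) = (Q : Subgroup G).map (MulAut.conj a).toMonoidHom :=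
    fun a Q => rfl
  have hD'S : D' ≤ (S : Subgroup G) := by
    rw [hD', show S = h⁻¹ • P by rw [← hP, inv_smul_smul], hsm]; exact Subgroup.map_mono hDP
  have hD'T : D' ≤ ((g • S : Sylow p G) : Subgroup G) := by
    rw [hg, hsm, hD']; exact Subgroup.map_mono hDT
  have hD'1 : D' ≠ ⊥ := fun e => hD1
    ((Subgroup.map_eq_bot_iff_of_injective _ (f := (MulAut.conj h⁻¹).toMonoidHom) (MulAut.conj h⁻¹).injective).mp (hD' ▸ e))
  obtain ⟨g₁, hg₁, g₂, hg₂, rfl⟩ := hprod g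
  have hD'p : IsPGroup p ↥D' := hD' ▸ (T.2.to_le hDT).map _
  -- conjugate D' into a Sylow subgroup of both factors
  obtain ⟨E, hE⟩ : ∃ K, K = D'.map (MulAut.conj g₁⁻¹).toMonoidHom := ⟨_, rfl⟩
  have hEG : E ≤ G₁ ⊓ G₂ := by
    rw [hE]
    refine le_inf ?_ ?_
    · rintro _ ⟨d, hd, rfl⟩
      exact mul_mem (mul_mem (inv_mem hg₁) (h₁ (hD'S hd))) (inv_mem (inv_mem hg₁))
    · refine (Subgroup.map_mono hD'T).trans ?_
      rw [hsm, conj_conj, show g₁⁻¹ * (g₁ * g₂) = g₂ by group]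
      rintro _ ⟨s, hs, rfl⟩
      exact mul_mem (mul_mem hg₂ (h₂ hs)) (inv_mem hg₂)
  obtain ⟨R, hR⟩ := ((show IsPGroup p ↥E from hE ▸ hD'p.map _).comap_of_injective (G₁ ⊓ G₂).subtype
    (Subgroup.subtype_injective _)).exists_le_sylow
  obtain ⟨b, hb⟩ := MulAction.exists_smul_eq ↥(G₁ ⊓ G₂) (S.subtype (le_inf h₁ h₂)) R
  have hEb : E ≤ (S : Subgroup G).map (MulAut.conj (b : G)).toMonoidHom := by
    intro e he
    have hm := hR (show (⟨e, hEG he⟩ : ↥(G₁ ⊓ G₂)) ∈ E.comap (G₁ ⊓ G₂).subtype from he)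
    rw [← hb] at hm
    obtain ⟨s, hs, hse⟩ := hm
    exact ⟨(s : G), Subgroup.mem_subgroupOf.mp hs, congrArg Subtype.val hse⟩
  set k := g₁ * (b : G) with hk
  have hk₁ : k ∈ G₁ := mul_mem hg₁ (Subgroup.mem_inf.mp b.2).1
  have hDU : D' ≤ ((k • S : Sylow p G) : Subgroup G) := by
    have := Subgroup.map_mono (f := (MulAut.conj g₁).toMonoidHom) hEb
    rwa [hE, conj_conj, conj_conj, mul_inv_cancel, conj_one, ← hk, ← hsm] at this
  set l := (b : G)⁻¹ * g₂ with hl
  have hl₂ : l ∈ G₂ := mul_mem (inv_mem (Subgroup.mem_inf.mp b.2).2) hg₂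
  have hkl : k * l = g₁ * g₂ := by rw [hk, hl]; group
  -- first factor
  have c1 := chain_of_regular hf hr₁ S (k • S) h₁ (by
    rw [hsm]; rintro _ ⟨s, hs, rfl⟩; exact mul_mem (mul_mem hk₁ (h₁ hs)) (inv_mem hk₁)) (le_inf hD'S hDU) hD'1
  -- second factor
  obtain ⟨D'', hD''⟩ : ∃ K, K = D'.map (MulAut.conj k⁻¹).toMonoidHom := ⟨_, rfl⟩
  have c2 := chain_of_regular (D := D'') hf hr₂ S (l • S) h₂ (by
    rw [hsm]; rintro _ ⟨s, hs, rfl⟩; exact mul_mem (mul_mem hl₂ (h₂ hs)) (inv_mem hl₂)) (le_inf (by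
      have := Subgroup.map_mono (f := (MulAut.conj k⁻¹).toMonoidHom) hDU
      rwa [← hD'', hsm, conj_conj, inv_mul_cancel, conj_one] at this) (by
      have := Subgroup.map_mono (f := (MulAut.conj k⁻¹).toMonoidHom) hD'T
      rwa [← hD'', hsm, conj_conj, ← hkl, inv_mul_cancel_left, ← hsm] at this))
    (fun e => hD'1 ((Subgroup.map_eq_bot_iff_of_injective _ (f := (MulAut.conj k⁻¹).toMonoidHom) (MulAut.conj k⁻¹).injective).mp (hD'' ▸ e)))
  have hlift : ∀ (a : G) {D A B : Subgroup G}, Relation.ReflTransGen (Step p f ⊤ D) A B →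
      Relation.ReflTransGen (Step p f ⊤ (D.map (MulAut.conj a).toMonoidHom)) (A.map (MulAut.conj a).toMonoidHom)
        (B.map (MulAut.conj a).toMonoidHom) := fun a {D A B} hh =>
    Relation.ReflTransGen.lift _ (fun u v huv => step_conj hf a huv) _ _ hh
  have c2' := hlift k c2
  rw [hD'', conj_conj, mul_inv_cancel, conj_one, ← hsm, ← hsm, smul_smul, hkl] at c2'
  have c3 := hlift h (c1.trans c2')
  rwa [hD', conj_conj, mul_inv_cancel, conj_one, hg, ← hsm, ← hsm, hP, smul_inv_smul] at c3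

end Cfsg.Agent.S2957
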