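import Cfsg.Statements.S2958

set_option autoImplicit false
open Cfsg

namespace Cfsg.Agent.S2958

/-- Let X, A, B be subgroups of a group G such that G is generated by the conjugates of X and every conjugate of X is contained in A or in B. Then A = G or B = G. -/
theorem result {G : Type*} [Group G] (X A B : Subgroup G) (hgen : (⨆ g : G, X.map (MulAut.conj g).toMonoidHom) = ⊤) (hcover : ∀ g : G, X.map (MulAut.conj g).toMonoidHom ≤ A ∨ X.map (MulAut.conj g).toMonoidHom ≤ B) : A = ⊤ ∨ B = ⊤ := by
  by_cases hA : A = ⊤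
  · exact Or.inl hA
  right
  set C : G → Subgroup G := fun g => X.map (MulAut.conj g).toMonoidHom with hCdef
  set B' : Subgroup G := ⨆ (g : G) (_ : ¬ C g ≤ A), C g with hB'
  have hB'B : B' ≤ B := iSup₂_le fun g hg => (hcover g).resolve_left hg
  have hle : ∀ g, ¬ C g ≤ A → C g ≤ B' := fun g hg => le_iSup₂ (f := fun g (_ : ¬ C g ≤ A) => C g) g hg
  have hcomp : ∀ a g : G, (C g).map (MulAut.conj a).toMonoidHom = C (a * g) := by
    intro a g
    simp only [hCdef, Subgroup.map_map]
    congr 1
    ext x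
    simp [mul_assoc]
  have hAnorm : A ≤ Subgroup.normalizer (B' : Set G) := by
    have hmap : ∀ a ∈ A, B'.map (MulAut.conj a).toMonoidHom ≤ B' := by
      intro a ha
      simp only [hB', Subgroup.map_iSup]
      refine iSup₂_le fun g hg => ?_
      rw [hcomp]
      refine le_iSup₂_of_le (a * g) ?_ le_rfl
      intro hle
      apply hg
      intro x hx
      have h1 : a * x * a⁻¹ ∈ A := hle (hcomp a g ▸ ⟨x, hx, by simp⟩)
      have h2 := A.mul_mem (A.mul_mem (A.inv_mem ha) h1) ha
      simpa [mul_assoc] using h2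
    intro a ha
    rw [Subgroup.mem_normalizer_iff]
    intro x
    constructor
    · intro hx; exact hmap a ha ⟨x, hx, by simp⟩
    · intro hx
      have := hmap a⁻¹ (A.inv_mem ha) ⟨a * x * a⁻¹, hx, rfl⟩
      simpa [mul_assoc] using this
  have hnorm : B'.Normal := by
    refine Subgroup.normalizer_eq_top_iff.mp (top_le_iff.mp ?_)
    rw [← hgen]
    refine iSup_le fun g => ?_
    by_cases h : C g ≤ A
    · exact h.trans hAnorm
    · exact (hle g h).trans Subgroup.le_normalizer
  obtain ⟨g, hg⟩ : ∃ g, ¬ C g ≤ A := by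
    by_contra hcon
    simp only [not_exists, not_not] at hcon
    exact hA (top_le_iff.mp (hgen ▸ iSup_le hcon))
  refine top_le_iff.mp ((?_ : ⊤ ≤ B').trans hB'B)
  rw [← hgen]
  refine iSup_le fun k => ?_
  change C k ≤ B'
  rintro x hx
  rw [show C k = (C g).map (MulAut.conj (k * g⁻¹)).toMonoidHom by rw [hcomp, inv_mul_cancel_right]] at hx
  obtain ⟨y, hy, rfl⟩ := hx
  simpa [mul_assoc] using hnorm.conj_mem y (hle g hg hy) (k * g⁻¹)

end Cfsg.Agent.S2958
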