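import Cfsg.Statements.S2961
import Cfsg.Agent.Lib.CharP

set_option autoImplicit false
open Cfsg

namespace Cfsg.Agent.S2961
open CfsgLib.CharP
open scoped commutatorElement

/-- Let G be a finite group of characteristic p (C_G(O_p(G)) ≤ O_p(G)), p prime, T a Sylow p-subgroup of G and Q a normal subgroup of T with C_T(Q) ≤ Q. Then every subgroup L of G containing Q has characteristic p: C_L(O_p(L)) ≤ O_p(L). -/
theorem result {G : Type*} [Group G] [Finite G] {p : ℕ} [Fact p.Prime] (hG : Subgroup.centralizer (Cfsg.pCore p G : Set G) ≤ Cfsg.pCore p G) (T : Sylow p G) (Q : Subgroup G) (hQT : Q ≤ (T : Subgroup G)) (hQn : (T : Subgroup G) ≤ Subgroup.normalizer (Q : Set G)) (hC : (T : Subgroup G) ⊓ Subgroup.centralizer (Q : Set G) ≤ Q) (L : Subgroup G) (hQL : Q ≤ L) : Subgroup.centralizer (Cfsg.pCore p ↥L : Set ↥L) ≤ Cfsg.pCore p ↥L := by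
  classical
  have hCQ := centralizer_le_of_sylow hG T hQT hQn hC
  set R := Cfsg.pCore p G with hR
  have hRn : R.Normal := by
    have := CfsgLib.Core.pCore_characteristic (G := G) p
    exact inferInstance
  have hRp : IsPGroup p ↥R := CfsgLib.Core.isPGroup_pCore p
  have hPn : (Cfsg.pCore p ↥L).Normal := by
    have := CfsgLib.Core.pCore_characteristic (G := ↥L) p
    exact inferInstance
  have hR0 : ∀ x : ↥L, (x : G) ∈ R → x ∈ Cfsg.pCore p ↥L := fun x hx =>
    CfsgLib.Core.le_pCore (inferInstance : (R.subgroupOf L).Normal) hRp.comap_subtype hx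
  refine charP_of_forall (G := ↥L) fun c hc hcent => ?_
  have hKn : (Subgroup.centralizer (Cfsg.pCore p ↥L : Set ↥L)).Normal := inferInstance
  let W : Subgroup ↥L :=
    { carrier := {g | g ∈ Subgroup.centralizer (Cfsg.pCore p ↥L : Set ↥L) ∧ ∀ x ∈ R, (g : G) * x * (g : G)⁻¹ * x⁻¹ ∈ L}
      one_mem' := ⟨one_mem _, fun x _ => by simp⟩
      mul_mem' := by
        rintro a b ⟨ha, ha'⟩ ⟨hb, hb'⟩
        refine ⟨mul_mem ha hb, fun x hx => ?_⟩
        have h := mul_mem (mul_mem (mul_mem a.2 (hb' x hx)) (inv_mem a.2)) (ha' x hx)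
        convert h using 1
        simp only [Subgroup.coe_mul]; group
      inv_mem' := by
        rintro a ⟨ha, ha'⟩
        refine ⟨inv_mem ha, fun x hx => ?_⟩
        have h := inv_mem (ha' _ (hRn.conj_mem x hx (a : G)⁻¹))
        convert h using 1
        simp only [Subgroup.coe_inv]; group }
  have hWn : W.Normal := ⟨fun g hg l => ⟨hKn.conj_mem g hg.1 l, fun x hx => by
    have h := mul_mem (mul_mem l.2 (hg.2 _ (hRn.conj_mem x hx (l : G)⁻¹))) (inv_mem l.2)
    convert h using 1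
    simp only [Subgroup.coe_mul, Subgroup.coe_inv]; group⟩⟩
  have hWp : W ≤ Cfsg.pCore p ↥L := by
    refine CfsgLib.Core.le_pCore hWn (CfsgLib.LocalBasic.isPGroup_of_coprime_elements fun g hg => Subtype.ext (Subtype.ext ?_))
    refine eq_one_of_centralizes hG (c := ((g : ↥L) : G)) (by rwa [Subgroup.orderOf_coe, Subgroup.orderOf_coe]) fun x hx => ?_
    have hmR : ⁅((g : ↥L) : G), x⁆ ∈ R := by
      rw [commutatorElement_def]; exact R.mul_mem (hRn.conj_mem x hx _) (inv_mem hx)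
    have hmL : ⁅((g : ↥L) : G), x⁆ ∈ L := by rw [commutatorElement_def]; exact g.2.2 x hx
    obtain ⟨j, hj⟩ := hRp ⟨_, hmR⟩
    refine CfsgLib.LocalBasic.commute_of_commutator_fixed (j := j) ?_ (by simpa using congrArg Subtype.val hj)
      (by rwa [Subgroup.orderOf_coe, Subgroup.orderOf_coe])
    exact (congrArg Subtype.val (g.2.1 ⟨_, hmL⟩ (hR0 ⟨_, hmL⟩ hmR))).symm
  apply Subtype.ext
  refine CfsgLib.ThompsonNPC.eq_one_of_coprime_of_mem (T.2.to_le hQT) (hCQ ?_) (by rwa [Subgroup.orderOf_coe])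
  intro q hq
  have hcK : c ∈ Subgroup.centralizer (Cfsg.pCore p ↥L : Set ↥L) := fun x hx => (hcent x hx).symm
  set q' : ↥L := ⟨q, hQL hq⟩ with hq'
  have hd : ⁅c, q'⁆ ∈ W := by
    refine ⟨?_, fun x hx => ?_⟩
    · rw [commutatorElement_def, mul_assoc, mul_assoc, ← mul_assoc q']
      exact mul_mem hcK (hKn.conj_mem _ (inv_mem hcK) q')
    · have hQR : ∀ y ∈ R, ∀ u ∈ Q, u * y * u⁻¹ * y⁻¹ ∈ L := fun y hy u hu => by
        rw [show u * y * u⁻¹ * y⁻¹ = u * (y * u⁻¹ * y⁻¹) by group]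
        exact L.mul_mem (hQL hu) (hQL ((Subgroup.mem_normalizer_iff.mp
          (hQn (CfsgLib.Core.pCore_le_sylow T hy)) _).mp (inv_mem hu)))
      -- `[c, q] = (c q c⁻¹) q⁻¹`
      set z := q⁻¹ * x * q
      have hz : z ∈ R := by simpa using hRn.conj_mem x hx q⁻¹
      have h1 := mul_mem (mul_mem c.2 (hQR _ (hRn.conj_mem z hz (c : G)⁻¹) q hq)) (inv_mem c.2)
      have h2 := hQR x hx q⁻¹ (inv_mem hq)
      convert mul_mem h1 h2 using 1
      simp only [commutatorElement_def, Subgroup.coe_mul, Subgroup.coe_inv, hq', z]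
      group
  obtain ⟨j, hj⟩ := (CfsgLib.Core.isPGroup_pCore p : IsPGroup p ↥(Cfsg.pCore p ↥L)) ⟨_, hWp hd⟩
  have := CfsgLib.LocalBasic.commute_of_commutator_fixed (hcent _ (hWp hd)) (j := j)
    (by simpa using congrArg Subtype.val hj) hc
  exact (congrArg Subtype.val this).symm

end Cfsg.Agent.S2961
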