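import Cfsg.Statements.S2963

set_option autoImplicit false
open Cfsg

namespace Cfsg.Agent.S2963

/-- Let n be odd. If the symmetric group of degree n is a minimal parabolic group for the prime 2, that is, a Sylow 2-subgroup is not normal and lies in exactly one maximal subgroup, then n = 2^m + 1 for some natural number m. -/
theorem result (n : ℕ) (hn : Odd n) (h : Cfsg.IsPMinimal 2 (Equiv.Perm (Fin n))) : ∃ m : ℕ, n = 2 ^ m + 1 := by
  classical
  haveI : Fact (Nat.Prime 2) := ⟨Nat.prime_two⟩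
  obtain ⟨S⟩ : Nonempty (Sylow 2 (Equiv.Perm (Fin n))) := inferInstance
  obtain ⟨hSn, M, ⟨hM, hSM⟩, huniq⟩ := h S
  have hle : ∀ H : Subgroup (Equiv.Perm (Fin n)), (S : Subgroup (Equiv.Perm (Fin n))) ≤ H → H ≠ ⊤ → H ≤ M := by
    intro H hSH hH
    obtain ⟨N, hN, hHN⟩ := (eq_top_or_exists_le_coatom H).resolve_left hH
    exact hHN.trans (huniq N ⟨hN, hSH.trans hHN⟩).le
  obtain ⟨x, hx⟩ := S.2.nonempty_fixed_point_of_prime_not_dvd_card (Fin n) (by
    rw [Nat.card_eq_fintype_card, Fintype.card_fin]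
    exact fun h2 => (Nat.not_even_iff_odd.mpr hn) (even_iff_two_dvd.mpr h2))
  -- all orbits away from `x` are everything
  by_cases hex : ∃ y, y ≠ x
  swap
  · refine absurd ?_ hSn
    push Not at hex
    haveI : Subsingleton (Fin n) := ⟨fun a b => (hex a).trans (hex b).symm⟩
    exact ⟨fun a ha g => by rw [Subsingleton.elim (g * a * g⁻¹) 1]; exact one_mem _⟩
  obtain ⟨y₀, hy₀⟩ := hex
  set B : Set (Fin n) := MulAction.orbit ↥(S : Subgroup (Equiv.Perm (Fin n))) y₀ with hB
  have hxB : x ∉ B := by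
    rintro ⟨s, hs⟩
    refine hy₀ ?_
    calc y₀ = s⁻¹ • (s • y₀) := (inv_smul_smul s y₀).symm
      _ = x := by rw [show s • y₀ = x from hs]; exact hx s⁻¹
  by_cases hall : ∀ y, y ≠ x → y ∈ B
  · obtain ⟨m, hm⟩ := S.2.card_orbit y₀
    refine ⟨m, ?_⟩
    have hBe : B = {x}ᶜ := Set.ext fun y => ⟨fun hy e => hxB ((show y = x from e) ▸ hy), fun hy => hall y hy⟩
    have := Set.ncard_add_ncard_compl ({x} : Set (Fin n))
    rw [← hBe, Set.ncard_singleton, Nat.card_eq_fintype_card, Fintype.card_fin, hB, ← Nat.card_coe_set_eq, hm] at this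
    omega
  push Not at hall
  obtain ⟨y, hyx, hyB⟩ := hall
  exfalso
  -- the set stabilizer of the orbit and the point stabilizer both lie in `M`
  let P : Subgroup (Equiv.Perm (Fin n)) := MulAction.stabilizer (Equiv.Perm (Fin n)) x
  let T : Subgroup (Equiv.Perm (Fin n)) :=
    { carrier := {g | ∀ z, g z ∈ B ↔ z ∈ B}
      one_mem' := fun z => Iff.rfl
      mul_mem' := fun {a b} ha hb z => (ha (b z)).trans (hb z)
      inv_mem' := fun {a} ha z => by
        have := ha (a⁻¹ z)
        rw [← Equiv.Perm.mul_apply, mul_inv_cancel, Equiv.Perm.one_apply] at this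
        exact this.symm }
  have hSP : (S : Subgroup (Equiv.Perm (Fin n))) ≤ P := fun s hs => hx ⟨s, hs⟩
  have hST : (S : Subgroup (Equiv.Perm (Fin n))) ≤ T := fun s hs z => by
    show (⟨s, hs⟩ : ↥(S : Subgroup (Equiv.Perm (Fin n)))) • z ∈ B ↔ z ∈ B
    rw [hB]; exact ⟨fun hz => MulAction.orbit_eq_iff.mp ((MulAction.orbit_smul _ z).symm.trans (MulAction.orbit_eq_iff.mpr hz)),
      fun hz => MulAction.mem_orbit_of_mem_orbit _ hz⟩
  have hPM : P ≤ M := hle P hSP fun e => hy₀ (by
    have h1 : Equiv.swap x y₀ ∈ P := e ▸ Subgroup.mem_top _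
    simpa using (show Equiv.swap x y₀ x = x from h1))
  have hTM : T ≤ M := hle T hST fun e => by
    have h1 : Equiv.swap x y₀ ∈ T := e ▸ Subgroup.mem_top _
    have := (h1 y₀).mpr (MulAction.mem_orbit_self y₀)
    rw [Equiv.swap_apply_right] at this
    exact hxB this
  have hxy : Equiv.swap x y ∈ M := hTM fun z => by
    rw [Equiv.swap_apply_def]
    split_ifs with h1 h2
    · subst h1; exact iff_of_false hyB hxB
    · subst h2; exact iff_of_false hxB hyB
    · exact Iff.rfl
  have hoff : ∀ a b : Fin n, a ≠ x → b ≠ x → Equiv.swap a b ∈ M := fun a b ha hb => hPM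
    (Equiv.swap_apply_of_ne_of_ne (Ne.symm ha) (Ne.symm hb))
  have hxz : ∀ z, z ≠ x → Equiv.swap x z ∈ M := by
    intro z hz
    rcases eq_or_ne z y with rfl | hzy
    · exact hxy
    · have e : Equiv.swap x z = Equiv.swap y z * Equiv.swap x y * Equiv.swap y z := by
        rw [Equiv.swap_mul_swap_mul_swap (Ne.symm hyx) (Ne.symm hz), Equiv.swap_comm]
      rw [e]
      exact M.mul_mem (M.mul_mem (hoff y z hyx hz) hxy) (hoff y z hyx hz)
  refine hM.1 (eq_top_iff.mpr ?_)
  rw [← Equiv.Perm.closure_isSwap, Subgroup.closure_le]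
  rintro _ ⟨a, b, hab, rfl⟩
  rcases eq_or_ne a x with rfl | ha
  · exact hxz b (Ne.symm hab)
  rcases eq_or_ne b x with rfl | hb
  · rw [Equiv.swap_comm]; exact hxz a ha
  exact hoff a b ha hb

end Cfsg.Agent.S2963
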