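import Cfsg.Statements.S2983
import Cfsg.Agent.Lib.LocalBasic
import Cfsg.Agent.Lib.Thompson.Jsub
import Cfsg.Agent.Lib.PReduced

set_option autoImplicit false
open Cfsg

namespace Cfsg.Agent.S2983

open CfsgLib.LocalBasic CfsgLib.ThompsonNPC
open scoped commutatorElement Pointwise

variable {G : Type*} [Group G] [Finite G] {p : ℕ} [hp : Fact p.Prime]

theorem J_eq_of_le (T T₁ : Sylow p G) (h : J p (T : Subgroup G) ≤ (T₁ : Subgroup G)) :
    J p (T₁ : Subgroup G) = J p (T : Subgroup G) := by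
  obtain ⟨g, hg⟩ := MulAction.exists_smul_eq G T₁ T
  have hTg : (T : Subgroup G) = (T₁ : Subgroup G).map (MulAut.conj g).toMonoidHom := by
    rw [← hg, Sylow.coe_subgroup_smul]; rfl
  have hle : J p (T : Subgroup G) ≤ J p (T₁ : Subgroup G) := by
    refine sSup_le fun A hA => le_sSup ⟨(le_sSup hA).trans h, hA.2.1, fun B hB hBe => ?_⟩
    have hinj := (MulAut.conj g).injective
    have h1 := hA.2.2 (B.map (MulAut.conj g).toMonoidHom) (hTg ▸ Subgroup.map_mono hB)
      ((abExp_map (injOn_of_injective (f := (MulAut.conj g).toMonoidHom) hinj B) le_rfl).mpr hBe)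
    rwa [Subgroup.card_map_of_injective hinj] at h1
  refine (Subgroup.eq_of_le_of_card_ge hle (le_of_eq ?_)).symm
  rw [hTg, ← J_map p (injOn_of_injective (f := (MulAut.conj g).toMonoidHom) (MulAut.conj g).injective _),
    Subgroup.card_map_of_injective]
  exact (MulAut.conj g).injective

theorem le_normalizer_baumann (T : Sylow p G) :
    (T : Subgroup G) ≤ Subgroup.normalizer ((baumannSubgroupOf p (T : Subgroup G) : Subgroup G) : Set G) ∧
    (T : Subgroup G) ≤ Subgroup.normalizer
      ((Subgroup.centralizer (omegaOne p (centerThompsonOf p (T : Subgroup G)) : Set G) : Subgroup G) : Set G) := by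
  have h0 : (T : Subgroup G) ≤ Subgroup.normalizer ((thompsonSubgroupOf p (T : Subgroup G) : Subgroup G) : Set G) := by
    rw [thompsonSubgroupOf_eq]
    exact Subgroup.le_normalizer.trans (normalizer_le_normalizer_J p _)
  have h1 : (T : Subgroup G) ≤ Subgroup.normalizer ((centerThompsonOf p (T : Subgroup G) : Subgroup G) : Set G) :=
    normalizer_inf_ge h0 (normalizer_centralizer_ge h0)
  have h2 : (T : Subgroup G) ≤
      Subgroup.normalizer ((omegaOne p (centerThompsonOf p (T : Subgroup G)) : Subgroup G) : Set G) := by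
    intro t ht
    refine CfsgLib.LocalBasic.mem_normalizer_of_conj_map_eq (Subgroup.eq_of_le_of_card_ge ?_
      (Subgroup.card_map_of_injective (MulEquiv.injective _)).ge)
    rw [omegaOne, MonoidHom.map_closure]
    refine Subgroup.closure_mono ?_
    rintro _ ⟨x, ⟨hx, hxp⟩, rfl⟩
    exact ⟨(Subgroup.mem_normalizer_iff.mp (h1 ht) x).mp hx, by rw [← map_pow, hxp, map_one]⟩
  exact ⟨normalizer_inf_ge Subgroup.le_normalizer (normalizer_centralizer_ge h2), normalizer_centralizer_ge h2⟩

theorem baumann_eq_of_le (T T₁ : Sylow p G) (h : baumannSubgroupOf p (T : Subgroup G) ≤ (T₁ : Subgroup G)) :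
    baumannSubgroupOf p (T₁ : Subgroup G) = baumannSubgroupOf p (T : Subgroup G) := by
  have hJB : J p (T : Subgroup G) ≤ baumannSubgroupOf p (T : Subgroup G) := by
    refine le_inf (J_le _ _) ?_
    intro j hj x hx
    have hxc : x ∈ centerThompsonOf p (T : Subgroup G) := (Subgroup.closure_le _).mpr (fun y hy => hy.1) hx
    exact (hxc.2 j (by rwa [thompsonSubgroupOf_eq])).symm
  have hJ := J_eq_of_le T T₁ (hJB.trans h)
  have hc : centerThompsonOf p (T₁ : Subgroup G) = centerThompsonOf p (T : Subgroup G) := by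
    simp only [centerThompsonOf, thompsonSubgroupOf_eq, hJ]
  set C := Subgroup.centralizer ((omegaOne p (centerThompsonOf p (T : Subgroup G)) : Subgroup G) : Set G) with hC
  obtain ⟨P, hP⟩ := CfsgLib.PReduced.exists_sylow_inf T (le_normalizer_baumann T).2
  show (T₁ : Subgroup G) ⊓ Subgroup.centralizer (omegaOne p (centerThompsonOf p (T₁ : Subgroup G)) : Set G) = _
  rw [hc]
  refine le_antisymm ?_ (le_inf h inf_le_right)
  intro x hx
  have h3 := P.3 ((T₁.2.to_le (inf_le_left : (T₁ : Subgroup G) ⊓ C ≤ _)).comap_subtype (K := C)) (by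
    rw [hP]; exact Subgroup.comap_mono (le_inf h inf_le_right))
  have : (⟨x, hx.2⟩ : ↥C) ∈ (P : Subgroup ↥C) := h3 ▸ (show x ∈ (T₁ : Subgroup G) ⊓ C from hx)
  rw [hP] at this
  exact this


/-- Let G be a finite group of characteristic p (C_G(O_p(G)) ≤ O_p(G)), T a Sylow p-subgroup and E a B(T)-block of G. If Q is a p-subgroup of G normalized by both B(T) and E, then Q normalizes E. -/
theorem result {G : Type*} [Group G] [Finite G] {p : ℕ} [Fact p.Prime] (hG : Subgroup.centralizer (Cfsg.pCore p G : Set G) ≤ Cfsg.pCore p G) (T : Sylow p G) (E : Subgroup G) (hE : Cfsg.IsBaumannBlock p (T : Subgroup G) E) (Q : Subgroup G) (hQ : IsPGroup p ↥Q) (hBQ : Cfsg.baumannSubgroupOf p (T : Subgroup G) ≤ Subgroup.normalizer (Q : Set G)) (hEQ : E ≤ Subgroup.normalizer (Q : Set G)) : Q ≤ Subgroup.normalizer (E : Set G) := by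
  obtain ⟨hEO, hEB', -, -, -⟩ := hE
  set B := baumannSubgroupOf p (T : Subgroup G) with hBdef
  have hBp : IsPGroup p ↥B := T.2.to_le inf_le_left
  obtain ⟨T₁, hT₁⟩ := (hBp.to_sup_of_normal_right' hQ hBQ).exists_le_sylow
  have hBeq : baumannSubgroupOf p (T₁ : Subgroup G) = B := baumann_eq_of_le T T₁ (le_sup_left.trans hT₁)
  have hQB : Q ≤ Subgroup.normalizer (B : Set G) := hBeq ▸ (le_sup_right.trans hT₁).trans (le_normalizer_baumann T₁).1
  have hBE : B ≤ Subgroup.normalizer (E : Set G) := Subgroup.le_normalizer_iff_commutator_le_left.mpr hEB'.le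
  set R := E ⊔ B with hR
  have hRQ : R ≤ Subgroup.normalizer (Q : Set G) := sup_le hEQ hBQ
  set C : Set G := {x | ∃ r ∈ R, ∃ j ∈ B, x = r * j * r⁻¹} with hC
  have hRC : R ≤ Subgroup.closure C := by
    have hJC : B ≤ Subgroup.closure C := fun j hj => Subgroup.subset_closure ⟨1, R.one_mem, j, hj, by simp⟩
    refine sup_le ?_ hJC
    rw [← hEB', Subgroup.commutator_le]
    intro k hk j hj
    rw [commutatorElement_def]
    exact Subgroup.mul_mem _ (Subgroup.subset_closure ⟨k, Subgroup.mem_sup_left hk, j, hj, rfl⟩)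
      (Subgroup.inv_mem _ (hJC hj))
  have hQR : ∀ q ∈ Q, R.map (MulAut.conj q).toMonoidHom = R := by
    intro q hq
    refine Subgroup.eq_of_le_of_card_ge ?_ (Subgroup.card_map_of_injective (MulEquiv.injective _)).ge
    refine (Subgroup.map_mono hRC).trans ?_
    rw [MonoidHom.map_closure, Subgroup.closure_le]
    rintro _ ⟨_, ⟨r, hr, j, hj, rfl⟩, rfl⟩
    have hq' : r⁻¹ * q * r ∈ Q := by
      simpa using (Subgroup.mem_normalizer_iff.mp ((Subgroup.normalizer (Q : Set G)).inv_mem (hRQ hr)) q).mp hq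
    have hj' : (r⁻¹ * q * r) * j * (r⁻¹ * q * r)⁻¹ ∈ B := (Subgroup.mem_normalizer_iff.mp (hQB hq') j).mp hj
    show q * (r * j * r⁻¹) * q⁻¹ ∈ R
    rw [show q * (r * j * r⁻¹) * q⁻¹ = r * ((r⁻¹ * q * r) * j * (r⁻¹ * q * r)⁻¹) * r⁻¹ by group]
    exact R.mul_mem (R.mul_mem hr (Subgroup.mem_sup_right hj')) (R.inv_mem hr)
  have hodd : ∀ x ∈ R, (orderOf x).Coprime p → x ∈ E := by
    intro x hx hxo
    rw [← SetLike.mem_coe, hR, Subgroup.coe_mul_of_right_le_normalizer_left _ _ hBE, Set.mem_mul] at hx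
    obtain ⟨k, hk, j, hj, rfl⟩ := hx
    have key : ∀ n : ℕ, (k * j) ^ n * (j ^ n)⁻¹ ∈ E := by
      intro n
      induction n with
      | zero => simp
      | succ n ih =>
        have h : (k * j) ^ (n + 1) * (j ^ (n + 1))⁻¹ = (k * j) ^ n * (j ^ n)⁻¹ * (j ^ n * k * (j ^ n)⁻¹) := by
          rw [pow_succ, pow_succ]; group
        rw [h]
        exact E.mul_mem ih ((Subgroup.mem_normalizer_iff.mp ((Subgroup.normalizer (E : Set G)).pow_mem (hBE hj) n) k).mp hk)
    obtain ⟨m, hm⟩ := hBp ⟨j, hj⟩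
    have hm' : j ^ p ^ m = 1 := by simpa using congrArg Subtype.val hm
    have h2 := key (p ^ m)
    rw [hm', inv_one, mul_one] at h2
    obtain ⟨t, ht⟩ := exists_pow_eq_self_of_coprime
      (x := k * j) (n := p ^ m) (hxo.symm.pow_left m)
    rw [← ht]; exact E.pow_mem h2 t
  intro q hq
  refine CfsgLib.LocalBasic.mem_normalizer_of_conj_map_eq (Subgroup.eq_of_le_of_card_ge ?_
    (Subgroup.card_map_of_injective (MulEquiv.injective _)).ge)
  nth_rewrite 1 [← hEO]
  rw [pResidualOf, pResidual, MonoidHom.map_closure, MonoidHom.map_closure, Subgroup.closure_le]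
  rintro _ ⟨_, ⟨x, hxo, rfl⟩, rfl⟩
  refine hodd _ ?_ ?_
  · rw [← hQR q hq]; exact ⟨x, Subgroup.mem_sup_left x.2, rfl⟩
  · rw [orderOf_injective (MulAut.conj q).toMonoidHom (MulAut.conj q).injective, Subgroup.coe_subtype,
      Subgroup.orderOf_coe]
    exact hxo

end Cfsg.Agent.S2983
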