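import Cfsg.Statements.S2984
import Cfsg.Agent.S2983
import Cfsg.Agent.Lib.BlockModule
import Cfsg.Agent.Lib.PCoreOf
import Cfsg.Agent.Lib.PReduced2

set_option autoImplicit false
open Cfsg

namespace Cfsg.Agent.S2984

open CfsgLib.LocalBasic
open scoped commutatorElement

variable {G : Type*} [Group G] [Finite G] {p : ℕ} [hp : Fact p.Prime]

theorem comm_eq_bot_of_centralizes {X Y : Subgroup G} (h : X ≤ Subgroup.centralizer (Y : Set G)) : ⁅X, Y⁆ = ⊥ :=
  Subgroup.commutator_eq_bot_iff_le_centralizer.mpr h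

/-- `O_p(G)` normalises a block and centralizes `[W, E]`. -/
theorem block_pCore (hG : Subgroup.centralizer (pCore p G : Set G) ≤ pCore p G) (T : Sylow p G) (E : Subgroup G)
    (hE : IsBaumannBlock p (T : Subgroup G) E) :
    pCore p G ≤ Subgroup.normalizer (E : Set G) ∧
      ⁅omegaOneCenter p (pCoreOf p E), E⁆ ≤ Subgroup.centralizer (pCore p G : Set G) := by
  haveI := CfsgLib.Core.pCore_characteristic (G := G) p
  set O := pCore p G with hO
  have hall : ∀ X : Subgroup G, X ≤ Subgroup.normalizer (O : Set G) := fun X => by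
    rw [Subgroup.normalizer_eq_top O]; exact le_top
  have hON : O ≤ Subgroup.normalizer (E : Set G) :=
    Cfsg.Agent.S2983.result hG T E hE O (CfsgLib.Core.isPGroup_pCore p) (hall _) (hall _)
  refine ⟨hON, ?_⟩
  obtain ⟨hEW, -, hirr⟩ := CfsgLib.BlockModule.block_irred hE
  set Q := pCoreOf p E with hQ
  set W := omegaOneCenter p Q with hW
  set Z := W ⊓ Subgroup.centralizer (E : Set G) with hZ
  have hWQ : W ≤ Q := (CfsgLib.PReduced.omegaZ_le Q).trans inf_le_left
  have hWc : W ≤ Subgroup.centralizer (Q : Set G) := (CfsgLib.PReduced.omegaZ_le Q).trans inf_le_right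
  have hOQ : O ≤ Subgroup.normalizer (Q : Set G) := hON.trans (CfsgLib.PCoreOf.normalizer_le_pcoreOf E)
  have hOW : O ≤ Subgroup.normalizer (W : Set G) := by
    intro o ho
    refine mem_normalizer_of_conj_map_eq ?_
    show (CfsgLib.PReduced.omegaZ p Q).map _ = _
    rw [CfsgLib.PReduced.omegaZ_map, conj_map_eq_of_mem_normalizer (hOQ ho)]
    rfl
  have hOE : ⁅O, E⁆ ≤ Q := by
    refine le_trans (le_inf (Subgroup.commutator_le_left O E) (Subgroup.le_normalizer_iff_commutator_le_right.mp hON)) ?_
    exact CfsgLib.PCoreOf.le_pcoreOf inf_le_right (normalizer_inf_ge (hall E) Subgroup.le_normalizer)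
      ((CfsgLib.Core.isPGroup_pCore p).to_le inf_le_left)
  have hQW : ⁅Q, W⁆ = ⊥ := by
    rw [Subgroup.commutator_comm]; exact comm_eq_bot_of_centralizes hWc
  have hWO : ⁅W, O⁆ ≤ W := Subgroup.le_normalizer_iff_commutator_le_left.mp hOW
  have h3 : ⁅W, O⁆ ≤ Z := by
    rcases hirr ⁅W, O⁆ hWO (normalizer_commutator_ge hEW (hall E)) with h | h
    · exact h
    -- `W ≤ [W,O]·Z` would make the descending series stationary
    by_contra hc
    have hZC : ∀ z ∈ Z, ∀ e ∈ E, e * z = z * e := fun z hz e he => hz.2 e he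
    have hnil : Group.IsNilpotent ↥((W ⊔ O : Subgroup G)) := by
      have hWp : IsPGroup p ↥W := (CfsgLib.PCoreOf.isPGroup_pcoreOf E).to_le hWQ
      exact (hWp.to_sup_of_normal_right' (CfsgLib.Core.isPGroup_pCore p) (hall W)).isNilpotent
    let f : ℕ → Subgroup G := fun n => n.rec W (fun _ X => ⁅X, O⁆)
    have hfW : ∀ n, f n ≤ W := by
      intro n; induction n with
      | zero => exact le_rfl
      | succ n ih => exact (Subgroup.commutator_mono ih le_rfl).trans hWO
    have hfE : ∀ n, E ≤ Subgroup.normalizer (SetLike.coe (f n)) := by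
      intro n; induction n with
      | zero => exact hEW
      | succ n ih => exact normalizer_commutator_ge ih (hall E)
    have hZO : ⁅Z, O⁆ ≤ Z := by
      refine le_inf ((Subgroup.commutator_mono inf_le_left le_rfl).trans hWO) ?_
      rw [← Subgroup.commutator_eq_bot_iff_le_centralizer]
      refine Subgroup.commutator_commutator_eq_bot_of_rotate ?_ ?_
      · refine le_bot_iff.mp ((Subgroup.commutator_mono (hOE : ⁅O, E⁆ ≤ Q) (inf_le_left : Z ≤ W)).trans hQW.le)
      · rw [Subgroup.commutator_comm E Z, comm_eq_bot_of_centralizes (inf_le_right : Z ≤ _), Subgroup.commutator_bot_left]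
    have hstat : ∀ n, W ≤ f n ⊔ Z := by
      intro n
      induction n with
      | zero => exact le_sup_left
      | succ n ih =>
        refine h.trans (sup_le ?_ le_sup_right)
        rw [Subgroup.commutator_le]
        intro w hw o ho
        have hw' := ih hw
        rw [← SetLike.mem_coe, Subgroup.coe_mul_of_left_le_normalizer_right _ _ ?_, Set.mem_mul] at hw'
        · obtain ⟨a, ha, z, hz, rfl⟩ := hw'
          have e : ⁅a * z, o⁆ = a * ⁅z, o⁆ * a⁻¹ * ⁅a, o⁆ := by
            simp only [commutatorElement_def]; group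
          rw [e]
          refine Subgroup.mul_mem _ ?_ (Subgroup.mem_sup_left (Subgroup.commutator_mem_commutator ha ho))
          have hzo := hZO (Subgroup.commutator_mem_commutator hz ho)
          have : a * ⁅z, o⁆ * a⁻¹ = ⁅z, o⁆ := by
            rw [((Subgroup.mem_centralizer_iff.mp (hWc hzo.1)) a (hWQ (hfW n ha)))]
            group
          rw [this]
          exact Subgroup.mem_sup_right hzo
        · intro a ha
          refine mem_normalizer_of_conj_map_eq (Subgroup.eq_of_le_of_card_ge ?_ (Subgroup.card_map_of_injective (MulEquiv.injective _)).ge)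
          rintro _ ⟨z, hz, rfl⟩
          show a * z * a⁻¹ ∈ Z
          rwa [Subgroup.mem_centralizer_iff.mp (hWc hz.1) a (hWQ (hfW n ha)), mul_inv_cancel_right]
    obtain ⟨m, hm⟩ := (Subgroup.isNilpotent_iff_lowerCentralSeries (W ⊔ O)).mp hnil
    have hle : ∀ n, f n ≤ (W ⊔ O).lowerCentralSeries n := by
      intro n; induction n with
      | zero => exact le_sup_left
      | succ n ih =>
        rw [Subgroup.lowerCentralSeries_succ]
        exact Subgroup.commutator_mono ih le_sup_right
    have h0 : W ≤ Z := (hstat m).trans (sup_le ((hle m).trans (hm.le.trans bot_le)) le_rfl)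
    exact hc ((hWO.trans h0))
  rw [← Subgroup.commutator_eq_bot_iff_le_centralizer, Subgroup.commutator_comm W E]
  refine Subgroup.commutator_commutator_eq_bot_of_rotate ?_ ?_
  · exact comm_eq_bot_of_centralizes (h3.trans inf_le_right)
  · exact le_bot_iff.mp ((Subgroup.commutator_mono hOE le_rfl).trans hQW.le)


/-- Let G be a finite group of characteristic p (C_G(O_p(G)) ≤ O_p(G)), T a Sylow p-subgroup and E a B(T)-block of G, with W_E = [Ω₁(Z(O_p(E))), E]. Then E = O^p(E·O_p(G)), W_E ≤ Ω₁(Z(O_p(G))), and [W_E, J(T)] ≠ 1, where J(T) is generated by the elementary abelian p-subgroups of T of largest order. -/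
theorem result {G : Type*} [Group G] [Finite G] {p : ℕ} [Fact p.Prime] (hG : Subgroup.centralizer (Cfsg.pCore p G : Set G) ≤ Cfsg.pCore p G) (T : Sylow p G) (E : Subgroup G) (hE : Cfsg.IsBaumannBlock p (T : Subgroup G) E) : Cfsg.pResidualOf p (E ⊔ Cfsg.pCore p G) = E ∧ ⁅Cfsg.omegaOneCenter p (Cfsg.pCoreOf p E), E⁆ ≤ Cfsg.omegaOneCenter p (Cfsg.pCore p G) ∧ ⁅⁅Cfsg.omegaOneCenter p (Cfsg.pCoreOf p E), E⁆, Cfsg.thompsonSubgroupOf p (T : Subgroup G)⁆ ≠ ⊥ := by
  haveI := CfsgLib.Core.pCore_characteristic (G := G) p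
  obtain ⟨hON, hcent⟩ := block_pCore hG T E hE
  obtain ⟨hEW, hnt, -⟩ := CfsgLib.BlockModule.block_irred hE
  set W := omegaOneCenter p (pCoreOf p E) with hW
  set O := pCore p G with hO
  set WE := ⁅W, E⁆ with hWE
  have hWEW : WE ≤ W := Subgroup.le_normalizer_iff_commutator_le_left.mp hEW
  have hWp : ∀ x ∈ W, x ^ p = 1 := fun x hx => (CfsgLib.PReduced.mem_omegaZ.mp hx).2
  have hWEO : WE ≤ omegaOneCenter p O := fun x hx =>
    CfsgLib.PReduced.mem_omegaZ.mpr ⟨⟨hG (hcent hx), hcent hx⟩, hWp x (hWEW hx)⟩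
  refine ⟨?_, hWEO, ?_⟩
  · refine le_antisymm ?_ ?_
    · rw [pResidualOf, pResidual, MonoidHom.map_closure, Subgroup.closure_le]
      rintro _ ⟨⟨x, hx⟩, hxo, rfl⟩
      replace hxo : (orderOf x).Coprime p := by simpa [Subgroup.orderOf_mk] using hxo
      rw [← SetLike.mem_coe, Subgroup.coe_mul_of_right_le_normalizer_left _ _ hON, Set.mem_mul] at hx
      obtain ⟨k, hk, j, hj, rfl⟩ := hx
      have key : ∀ n : ℕ, (k * j) ^ n * (j ^ n)⁻¹ ∈ E := by
        intro n
        induction n with
        | zero => simp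
        | succ n ih =>
          have h : (k * j) ^ (n + 1) * (j ^ (n + 1))⁻¹ = (k * j) ^ n * (j ^ n)⁻¹ * (j ^ n * k * (j ^ n)⁻¹) := by
            rw [pow_succ, pow_succ]; group
          rw [h]
          exact E.mul_mem ih ((Subgroup.mem_normalizer_iff.mp ((Subgroup.normalizer (E : Set G)).pow_mem (hON hj) n) k).mp hk)
      obtain ⟨m, hm⟩ := (CfsgLib.Core.isPGroup_pCore (G := G) p) ⟨j, hj⟩
      have hm' : j ^ p ^ m = 1 := by simpa using congrArg Subtype.val hm
      have h2 := key (p ^ m)
      rw [hm', inv_one, mul_one] at h2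
      obtain ⟨t, ht⟩ := exists_pow_eq_self_of_coprime (x := k * j) (n := p ^ m) (hxo.symm.pow_left m)
      show k * j ∈ E
      rw [← ht]; exact E.pow_mem h2 t
    · nth_rewrite 1 [← hE.1]
      rw [pResidualOf, pResidual, MonoidHom.map_closure, Subgroup.closure_le]
      rintro _ ⟨x, hx, rfl⟩
      refine ⟨⟨x, Subgroup.mem_sup_left x.2⟩, Subgroup.subset_closure ?_, rfl⟩
      simpa [Subgroup.orderOf_coe, Subgroup.orderOf_mk] using hx
  · intro hJ
    have hWT : WE ≤ (T : Subgroup G) :=
      (hWEO.trans ((CfsgLib.PReduced.omegaZ_le O).trans inf_le_left)).trans (CfsgLib.Core.pCore_le_sylow T)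
    have hJc := Subgroup.commutator_eq_bot_iff_le_centralizer.mp hJ
    have hWom : WE ≤ omegaOne p (centerThompsonOf p (T : Subgroup G)) := by
      refine fun x hx => Subgroup.subset_closure ⟨⟨?_, hJc hx⟩, hWp x (hWEW hx)⟩
      rw [CfsgLib.ThompsonNPC.thompsonSubgroupOf_eq]
      obtain ⟨A, hA⟩ := CfsgLib.ThompsonNPC.exists_maxAb p (T : Subgroup G)
      refine le_sSup hA ?_
      have hAx : ∀ a ∈ A, a * x = x * a := fun a ha => by
        have hmem : a ∈ thompsonSubgroupOf p (T : Subgroup G) := by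
          rw [CfsgLib.ThompsonNPC.thompsonSubgroupOf_eq]; exact le_sSup hA ha
        exact hJc hx a hmem
      have hxp := hWp x (hWEW hx)
      let B := A ⊔ Subgroup.zpowers x
      have hBe : CfsgLib.ThompsonNPC.AbExp p B := by
        have hn : Subgroup.zpowers x ≤ Subgroup.centralizer (A : Set G) := Subgroup.zpowers_le.mpr hAx
        have hBeq := Subgroup.coe_mul_of_right_le_normalizer_left A (Subgroup.zpowers x)
          (hn.trans (CfsgLib.PReduced2.centralizer_le_normalizer_self A))
        have hmem : ∀ y ∈ B, ∃ a ∈ A, ∃ i : ℤ, y = a * x ^ i := fun y hy => by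
          have hy' : y ∈ ((A ⊔ Subgroup.zpowers x : Subgroup G) : Set G) := hy
          rw [hBeq, Set.mem_mul] at hy'
          obtain ⟨a, ha, z, hz, rfl⟩ := hy'
          obtain ⟨i, rfl⟩ := Subgroup.mem_zpowers_iff.mp hz
          exact ⟨a, ha, i, rfl⟩
        refine ⟨fun u hu v hv => ?_, fun u hu => ?_⟩
        · obtain ⟨a, ha, i, rfl⟩ := hmem u hu
          obtain ⟨b, hb, j, rfl⟩ := hmem v hv
          exact ((Commute.mul_left (show Commute a b from hA.2.1.1 a ha b hb)
            ((show Commute b x from hAx b hb).zpow_right i).symm).mul_right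
            ((Commute.mul_left ((show Commute a x from hAx a ha).zpow_right j) ((Commute.refl x).zpow_zpow i j))))
        · obtain ⟨a, ha, i, rfl⟩ := hmem u hu
          rw [((show Commute a x from hAx a ha).zpow_right i).mul_pow, hA.2.1.2 a ha, one_mul,
            ← zpow_natCast (x ^ i), ← zpow_mul, mul_comm, zpow_mul, zpow_natCast, hxp, one_zpow]
      have heq := Subgroup.eq_of_le_of_card_ge (le_sup_left : A ≤ B)
        (hA.2.2 B (sup_le hA.1 (Subgroup.zpowers_le.mpr (hWT hx))) hBe)
      exact heq.symm.le (Subgroup.mem_sup_right (Subgroup.mem_zpowers x))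
    have hBW : ⁅baumannSubgroupOf p (T : Subgroup G), WE⁆ = ⊥ := by
      refine Subgroup.commutator_eq_bot_iff_le_centralizer.mpr ?_
      exact inf_le_right.trans (Subgroup.centralizer_le (SetLike.coe_subset_coe.mpr hWom))
    have hEWE : ⁅E, WE⁆ = ⊥ := by
      conv_lhs => rw [← hE.2.1]
      refine Subgroup.commutator_commutator_eq_bot_of_rotate ?_ ?_
      · rw [hBW, Subgroup.commutator_bot_left]
      · rw [← le_bot_iff]
        refine (Subgroup.commutator_mono ?_ le_rfl).trans (by rw [Subgroup.commutator_comm, hBW])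
        exact Subgroup.le_normalizer_iff_commutator_le_left.mp (normalizer_commutator_ge hEW Subgroup.le_normalizer)
    apply hnt
    -- `E = O^p(E)` acts trivially on `W`
    have key : E ≤ Subgroup.centralizer (W : Set G) := by
      nth_rewrite 1 [← hE.1]
      rw [pResidualOf, pResidual, MonoidHom.map_closure, Subgroup.closure_le]
      rintro _ ⟨x, hxo, rfl⟩
      intro w hw
      have hc : ⁅(x : G), w⁆ ∈ WE := by
        rw [hWE, Subgroup.commutator_comm]; exact Subgroup.commutator_mem_commutator x.2 hw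
      have hx' : (orderOf (x : G)).Coprime p := by rwa [Subgroup.orderOf_coe]
      have hfix : (x : G) * ⁅(x : G), w⁆ = ⁅(x : G), w⁆ * x :=
        (Subgroup.commutator_eq_bot_iff_le_centralizer.mp hEWE x.2 _ hc).symm
      exact (commute_of_commutator_fixed hfix (j := 1) (by rw [pow_one]; exact hWp _ (hWEW hc)) hx').symm
    exact Subgroup.le_centralizer_iff.mp key

end Cfsg.Agent.S2984
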