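import Cfsg.Statements.S2998
import Cfsg.Agent.Lib.LocalBasic

set_option autoImplicit false
open Cfsg

namespace Cfsg.Agent.S2998
open CfsgLib.LocalBasic
open scoped Pointwise

/-- Let G be a finite group, p a prime, P a Sylow p-subgroup of G and x ∈ P an element such that N_G(R) ≤ C_G(x) for every nontrivial subgroup R of P. Then P ≤ C_G(x); every G-conjugate of x lying in P equals x (so g ∈ C_G(x) whenever g x g⁻¹ ∈ P); and for every normal subgroup N of G, the image of x in G ⧸ N has the same property with respect to the image of P: the normalizer of every nontrivial subgroup of the image of P centralizes the image of x. -/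
theorem result {G : Type*} [Group G] [Finite G] {p : ℕ} [Fact p.Prime] (P : Sylow p G) (x : G) (hxP : x ∈ (P : Subgroup G)) (hlc : ∀ R : Subgroup G, R ≤ (P : Subgroup G) → R ≠ ⊥ → Subgroup.normalizer (R : Set G) ≤ Subgroup.centralizer ({x} : Set G)) : (P : Subgroup G) ≤ Subgroup.centralizer ({x} : Set G) ∧ (∀ g : G, g * x * g⁻¹ ∈ (P : Subgroup G) → g * x * g⁻¹ = x) ∧ ∀ (N : Subgroup G) [N.Normal], ∀ R : Subgroup (G ⧸ N), R ≤ (P : Subgroup G).map (QuotientGroup.mk' N) → R ≠ ⊥ → Subgroup.normalizer (R : Set (G ⧸ N)) ≤ Subgroup.centralizer ({(QuotientGroup.mk x : G ⧸ N)} : Set (G ⧸ N)) := by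
  have key : ∀ g : G, g * x * g⁻¹ ∈ (P : Subgroup G) → g * x * g⁻¹ = x := by
    intro g hg
    by_cases hx1 : x = 1
    · subst hx1; simp
    set x' := g * x * g⁻¹ with hx'
    have hP1 : (P : Subgroup G) ≠ ⊥ := fun h => hx1 (by rwa [h, Subgroup.mem_bot] at hxP)
    have hPC : (P : Subgroup G) ≤ Subgroup.centralizer ({x} : Set G) :=
      Subgroup.le_normalizer.trans (hlc P le_rfl hP1)
    have hne : Subgroup.zpowers x' ≠ ⊥ := by
      rw [Ne, Subgroup.zpowers_eq_bot, hx', conj_eq_one_iff]; exact hx1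
    have hCx' : ((g • P : Sylow p G) : Subgroup G) ≤ Subgroup.centralizer ({x} : Set G) := by
      refine le_trans ?_ (hlc _ (Subgroup.zpowers_le.mpr hg) hne)
      rw [Sylow.coe_subgroup_smul]
      intro u hu
      rw [Subgroup.mem_pointwise_smul_iff_inv_smul_mem, MulAut.smul_def] at hu
      have h1 : g⁻¹ * u * g * x = x * (g⁻¹ * u * g) := by
        have := Subgroup.mem_centralizer_singleton_iff.mp (hPC hu)
        simpa [MulAut.conj_symm_apply] using this
      refine mem_normalizer_of_conj_map_eq ?_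
      rw [MonoidHom.map_zpowers]
      congr 1
      show u * x' * u⁻¹ = x'
      calc u * x' * u⁻¹ = g * (g⁻¹ * u * g * x) * g⁻¹ * u⁻¹ := by rw [hx']; group
        _ = g * (x * (g⁻¹ * u * g)) * g⁻¹ * u⁻¹ := by rw [h1]
        _ = x' := by rw [hx']; group
    obtain ⟨c, hc, hcP⟩ := exists_conj_le_sylow P hPC (g • P).2 hCx'
    have hcg : c * g ∈ Subgroup.normalizer ((P : Subgroup G) : Set G) := by
      refine mem_normalizer_of_conj_map_eq (Subgroup.eq_of_le_of_card_ge ?_
        (Subgroup.card_map_of_injective (MulEquiv.injective _)).ge)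
      rintro _ ⟨u, hu, rfl⟩
      have := hcP _ (show g * u * g⁻¹ ∈ ((g • P : Sylow p G) : Subgroup G) by
        rw [Sylow.coe_subgroup_smul]; exact Subgroup.smul_mem_pointwise_smul u (MulAut.conj g) _ hu)
      simpa [mul_assoc] using this
    have h1 := Subgroup.mem_centralizer_singleton_iff.mp (hlc P le_rfl hP1 hcg)
    have h2 := Subgroup.mem_centralizer_singleton_iff.mp hc
    calc g * x * g⁻¹ = c⁻¹ * (c * g * x) * g⁻¹ := by group
      _ = c⁻¹ * (x * (c * g)) * g⁻¹ := by rw [h1]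
      _ = c⁻¹ * (x * c) := by group
      _ = c⁻¹ * (c * x) := by rw [h2]
      _ = x := inv_mul_cancel_left c x
  have hPC : (P : Subgroup G) ≤ Subgroup.centralizer ({x} : Set G) := by
    by_cases hP1 : (P : Subgroup G) = ⊥
    · rw [hP1]; exact bot_le
    · exact Subgroup.le_normalizer.trans (hlc P le_rfl hP1)
  refine ⟨hPC, key, fun N hN R hR hR1 nbar hnbar => ?_⟩
  obtain ⟨n, rfl⟩ := QuotientGroup.mk'_surjective N nbar
  set π := QuotientGroup.mk' N with hπ
  set R0 := (P : Subgroup G) ⊓ R.comap π with hR0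
  have hmap : R0.map π = R := by
    refine le_antisymm (Subgroup.map_le_iff_le_comap.mpr inf_le_right) fun r hr => ?_
    obtain ⟨u, hu, rfl⟩ := hR hr
    exact ⟨u, ⟨hu, hr⟩, rfl⟩
  have hR01 : R0 ≠ ⊥ := fun h => by rw [h, Subgroup.map_bot] at hmap; exact hR1 hmap.symm
  have hR0P : R0 ≤ (P : Subgroup G) := inf_le_left
  have himg : ∀ u ∈ R0, n * u * n⁻¹ ∈ R.comap π := fun u hu => by
    show π (n * u * n⁻¹) ∈ R
    rw [map_mul, map_mul, map_inv]
    exact (Subgroup.mem_normalizer_iff.mp hnbar _).mp hu.2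
  have hM : R0.map (MulAut.conj n).toMonoidHom ≤ (P : Subgroup G) ⊔ N := by
    rintro _ ⟨u, hu, rfl⟩
    obtain ⟨v, hv, hv'⟩ := hR (himg u hu)
    have e : (MulAut.conj n).toMonoidHom u = v * (v⁻¹ * (n * u * n⁻¹)) := by simp
    rw [e]
    refine Subgroup.mul_mem_sup hv ?_
    rw [← QuotientGroup.eq_one_iff]
    show π (v⁻¹ * (n * u * n⁻¹)) = 1
    rw [map_mul, map_inv, hv', inv_mul_cancel]
  obtain ⟨m, hm, hmconj⟩ := exists_conj_le_sylow P le_sup_left ((P.2.to_le hR0P).map (MulAut.conj n).toMonoidHom) hM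
  obtain ⟨a, ha, b, hb, rfl⟩ := Subgroup.mem_sup_of_normal_right.mp hm
  have hπb : π b = 1 := (QuotientGroup.eq_one_iff b).mpr hb
  have hbn : b * n ∈ Subgroup.normalizer (R0 : Set G) := by
    refine mem_normalizer_of_conj_map_eq (Subgroup.eq_of_le_of_card_ge ?_
      (Subgroup.card_map_of_injective (MulEquiv.injective _)).ge)
    rintro _ ⟨u, hu, rfl⟩
    refine ⟨?_, ?_⟩
    · have h1 := hmconj _ ⟨u, hu, rfl⟩
      have h2 := Subgroup.mul_mem _ (Subgroup.mul_mem _ (inv_mem ha) h1) ha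
      simp [mul_assoc] at h2 ⊢
      exact h2
    · show π (b * n * u * (b * n)⁻¹) ∈ R
      have h1 : π (n * u * n⁻¹) ∈ R := himg u hu
      rw [show b * n * u * (b * n)⁻¹ = b * (n * u * n⁻¹) * b⁻¹ by group, map_mul, map_mul, map_inv, hπb]
      simpa using h1
  have h1 := congrArg π (Subgroup.mem_centralizer_singleton_iff.mp (hlc R0 hR0P hR01 hbn))
  rw [Subgroup.mem_centralizer_singleton_iff]
  simp only [map_mul, hπb, one_mul] at h1
  exact h1

end Cfsg.Agent.S2998
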