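import Cfsg.Statements.S3003
import Cfsg.Agent.Lib.Large
import Cfsg.Agent.Lib.Signalizer

set_option autoImplicit false
open Cfsg

namespace Cfsg.Agent.S3003

open CfsgLib.LocalBasic
open scoped commutatorElement


/-- Let G be a finite group, p a prime and Q a large p-subgroup of G: C_G(Q) ≤ Q and N_G(U) ≤ N_G(Q) for every nontrivial subgroup U of C_G(Q). Let Q ≤ G₁ ≤ G, let R be a subgroup of order prime to p normalized by G₁, and let U ≤ G₁ be a p-subgroup. If U contains a nontrivial element which is G₁-conjugate to an element of Z(Q), then C_R(U) = 1. In particular, if U is elementary abelian of order at least p² and every maximal subgroup of U contains a nontrivial element G₁-conjugate into Z(Q), then R = 1. -/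
theorem result {G : Type*} [Group G] [Finite G] {p : ℕ} [Fact p.Prime] (Q : Subgroup G) (hQp : IsPGroup p ↥Q) (hlarge : Cfsg.IsLarge Q) (G₁ : Subgroup G) (hQG : Q ≤ G₁) (R : Subgroup G) (hR : (Nat.card ↥R).Coprime p) (hGR : G₁ ≤ Subgroup.normalizer (R : Set G)) (U : Subgroup G) (hUG : U ≤ G₁) (hUp : IsPGroup p ↥U) : ((∃ x ∈ U, x ≠ 1 ∧ ∃ g ∈ G₁, g * x * g⁻¹ ∈ Q ⊓ Subgroup.centralizer (Q : Set G)) → R ⊓ Subgroup.centralizer (U : Set G) = ⊥) ∧ (Cfsg.IsElementaryAbelian p U → p ^ 2 ≤ Nat.card ↥U → (∀ U₀ : Subgroup G, U₀ ≤ U → IsCoatom (U₀.subgroupOf U) → ∃ x ∈ U₀, x ≠ 1 ∧ ∃ g ∈ G₁, g * x * g⁻¹ ∈ Q ⊓ Subgroup.centralizer (Q : Set G)) → R = ⊥) := by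
  have hRQ : R ⊓ Q = ⊥ := by
    rw [← Subgroup.card_eq_one]
    obtain ⟨k, hk⟩ := (hQp.to_le (inf_le_right : R ⊓ Q ≤ Q)).exists_card_eq
    have h2 := hR.coprime_dvd_left (Subgroup.card_dvd_of_le (inf_le_left : R ⊓ Q ≤ R))
    rw [hk] at h2 ⊢
    by_cases hk0 : k = 0
    · rw [hk0, pow_zero]
    · exact absurd ((Nat.coprime_pow_left_iff (Nat.pos_of_ne_zero hk0) _ _).mp h2)
        fun h => (Fact.out : p.Prime).ne_one (Nat.coprime_self p |>.mp h)
  have key : ∀ x : G, x ≠ 1 → (∃ g ∈ G₁, g * x * g⁻¹ ∈ Q ⊓ Subgroup.centralizer (Q : Set G)) →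
      R ⊓ Subgroup.centralizer ({x} : Set G) = ⊥ := by
    rintro x hx1 ⟨g, hg, hgx⟩
    rw [eq_bot_iff]
    rintro r ⟨hr, hrx⟩
    replace hrx : r * x = x * r := Subgroup.mem_centralizer_singleton_iff.mp hrx
    set r' := g * r * g⁻¹ with hr'
    have hr'R : r' ∈ R := (Subgroup.mem_normalizer_iff.mp (hGR hg) r).mp hr
    have hr'y : r' ∈ Subgroup.centralizer ({g * x * g⁻¹} : Set G) := by
      rw [Subgroup.mem_centralizer_singleton_iff, hr']
      calc g * r * g⁻¹ * (g * x * g⁻¹) = g * (r * x) * g⁻¹ := by group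
        _ = g * (x * r) * g⁻¹ := by rw [hrx]
        _ = g * x * g⁻¹ * (g * r * g⁻¹) := by group
    have hn := CfsgLib.Large.centralizer_le_normalizer hlarge (by simpa using hx1) hgx.2 hr'y
    have hrQ : r' ∈ Q := by
      refine hlarge.1 fun q hq => ?_
      have h1 : r' * q * r'⁻¹ * q⁻¹ ∈ R ⊓ Q := by
        refine ⟨?_, Q.mul_mem ((Subgroup.mem_normalizer_iff.mp hn q).mp hq) (Q.inv_mem hq)⟩
        have e : r' * q * r'⁻¹ * q⁻¹ = r' * (q * r'⁻¹ * q⁻¹) := by group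
        rw [e]
        exact R.mul_mem hr'R ((Subgroup.mem_normalizer_iff.mp (hGR (hQG hq)) _).mp (R.inv_mem hr'R))
      rw [hRQ, Subgroup.mem_bot] at h1
      calc q * r' = (r' * q * r'⁻¹ * q⁻¹)⁻¹ * (r' * q) := by group
        _ = r' * q := by rw [h1, inv_one, one_mul]
    have h0 : r' ∈ R ⊓ Q := ⟨hr'R, hrQ⟩
    rw [hRQ, Subgroup.mem_bot, hr'] at h0
    simpa using h0
  have part1 : ∀ U' : Subgroup G, (∃ x ∈ U', x ≠ 1 ∧ ∃ g ∈ G₁, g * x * g⁻¹ ∈ Q ⊓ Subgroup.centralizer (Q : Set G)) →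
      R ⊓ Subgroup.centralizer (U' : Set G) = ⊥ := by
    rintro U' ⟨x, hx, hx1, hg⟩
    rw [eq_bot_iff, ← key x hx1 hg]
    exact inf_le_inf_left _ (Subgroup.centralizer_le (Set.singleton_subset_iff.mpr hx))
  refine ⟨part1 U, fun hU h2 hall => le_bot_iff.mp ?_⟩
  refine (CfsgLib.Signalizer.le_iSup_hyperplane hU h2 ((Fact.out : p.Prime).coprime_iff_not_dvd.mp hR.symm)
    (hUG.trans hGR)).trans (iSup_le fun ⟨D, hDU, hDp⟩ => (part1 D (hall D hDU ?_)).le)
  refine ⟨fun h => ?_, fun K hK => ?_⟩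
  · rw [Subgroup.relIndex, h, Subgroup.index_top] at hDp
    exact (Fact.out : p.Prime).ne_one hDp.symm
  · by_contra hK1
    have hd := Subgroup.relIndex_mul_index hK.le
    rw [show (D.subgroupOf U).index = p from hDp] at hd
    rcases (Nat.dvd_prime (Fact.out : p.Prime)).mp ⟨_, hd.symm⟩ with h | h
    · exact hK.not_ge (Subgroup.relIndex_eq_one.mp h)
    · rw [h] at hd
      exact hK1 (Subgroup.index_eq_one.mp ((Nat.mul_eq_left (Fact.out : p.Prime).ne_zero).mp hd))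

end Cfsg.Agent.S3003
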