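import Cfsg.Statements.S3007
import Cfsg.Agent.Lib.ChermakDelgado

set_option autoImplicit false
open Cfsg

namespace Cfsg.Agent.S3007
open CfsgLib.ChermakDelgado Subgroup
open scoped Pointwise

theorem card_part {P : Type*} [Group P] [Finite P] {Q R : Subgroup P}
    (hQ : Cfsg.IsMinimalCentrallyLarge Q) (hR : Cfsg.IsMinimalCentrallyLarge R) :
    Nat.card ↥Q = Nat.card ↥R ∧ Nat.card ↥(centralizer (Q : Set P)) = Nat.card ↥(centralizer (R : Set P)) := by
  obtain ⟨hQ1, hQ2⟩ := centrallyLarge_iff.mp hQ.1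
  obtain ⟨hR1, hR2⟩ := centrallyLarge_iff.mp hR.1
  obtain ⟨eQ, -, zQ⟩ := minimal_eq hQ hR
  obtain ⟨eR, -, zR⟩ := minimal_eq hR hQ
  rw [inf_comm R Q] at eR zR
  set M := Q ⊓ R
  have key : ∀ (T : Subgroup P), M ⊔ centralizer (T : Set P) = T → centralizer (T : Set P) ≤ T →
      M ≤ T → Nat.card ↥T * Nat.card ↥(M ⊓ centralizer (T : Set P) : Subgroup P) = Nat.card ↥M * Nat.card ↥(centralizer (T : Set P)) := by
    intro T hT hT2 hMT
    refine le_antisymm ?_ ((card_mul_le_sup M _).trans (le_of_eq (by rw [hT])))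
    have hn : M ≤ normalizer (centralizer (T : Set P) : Set P) :=
      (hMT.trans (le_centralizer_iff.mp le_rfl : T ≤ centralizer (centralizer (T : Set P) : Set P))).trans (centralizer_le_normalizer _)
    have hset := coe_mul_of_left_le_normalizer_right M (centralizer (T : Set P)) hn
    rw [hT] at hset
    rw [show Nat.card ↥T = Nat.card ↥((M : Set P) * (centralizer (T : Set P) : Set P)) by rw [← hset]; rfl]
    exact (mul_card_le M (centralizer (T : Set P)))
  have kQ := key Q eQ hQ2 inf_le_left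
  have kR := key R eR hR2 inf_le_right
  rw [zQ] at kQ
  rw [zR] at kR
  set q := Nat.card ↥Q
  set r := Nat.card ↥R
  set a := Nat.card ↥(centralizer (Q : Set P))
  set b := Nat.card ↥(centralizer (R : Set P))
  set m := Nat.card ↥M
  set d := Nat.card ↥(M ⊓ centralizer (M : Set P) : Subgroup P)
  have hf : q * a = r * b := (hQ1 : q * a = _).trans (hR1 : r * b = _).symm
  have hm : 0 < m := Nat.card_pos
  have hd : 0 < d := Nat.card_pos
  have hab : a * a = b * b := by
    refine Nat.eq_of_mul_eq_mul_left hm ?_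
    calc m * (a * a) = (q * d) * a := by rw [kQ]; ring
      _ = (r * d) * b := by rw [mul_right_comm, hf]; ring
      _ = m * (b * b) := by rw [kR]; ring
  have hab' : a = b := Nat.mul_self_inj.mp hab
  refine ⟨?_, hab'⟩
  rw [← hab'] at hf
  exact Nat.eq_of_mul_eq_mul_right Nat.card_pos hf

/-- Let P be a finite p-group and Q, R minimal centrally large subgroups of P (centrally large: |Q|·|Z(Q)| maximal among subgroups of P; minimal among such under inclusion). Then Q = (Q ∩ R)·Z(Q), the derived subgroups [Q, Q] and [R, R] coincide, |Q| = |R| and |Z(Q)| = |Z(R)|; and if Q is abelian then the minimal centrally large subgroups of P are exactly the abelian subgroups of P of largest order. -/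
theorem result {p : ℕ} [Fact p.Prime] (P : Type*) [Group P] [Finite P] (hP : IsPGroup p P) (Q R : Subgroup P) (hQ : Cfsg.IsMinimalCentrallyLarge Q) (hR : Cfsg.IsMinimalCentrallyLarge R) : (Q ⊓ R) ⊔ (Q ⊓ Subgroup.centralizer (Q : Set P)) = Q ∧ ⁅Q, Q⁆ = ⁅R, R⁆ ∧ Nat.card ↥Q = Nat.card ↥R ∧ Nat.card ↥(Q ⊓ Subgroup.centralizer (Q : Set P)) = Nat.card ↥(R ⊓ Subgroup.centralizer (R : Set P)) ∧ (IsMulCommutative ↥Q → ∀ X : Subgroup P, Cfsg.IsMinimalCentrallyLarge X ↔ X ∈ Cfsg.maxAbelianSubgroups P) := by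
  obtain ⟨hQ1, hQ2⟩ := centrallyLarge_iff.mp hQ.1
  obtain ⟨hR1, hR2⟩ := centrallyLarge_iff.mp hR.1
  obtain ⟨eQ, cQ, -⟩ := minimal_eq hQ hR
  obtain ⟨-, cR, -⟩ := minimal_eq hR hQ
  obtain ⟨e1, e2⟩ := card_part hQ hR
  rw [inf_eq_right.mpr hQ2, inf_eq_right.mpr hR2]
  refine ⟨eQ, by rw [cQ, cR, inf_comm], e1, e2, fun hab X => ?_⟩
  have hCQ : centralizer (Q : Set P) = Q := le_antisymm hQ2 (isMulCommutative_iff_le.mp hab)
  have hle : ∀ B : Subgroup P, IsMulCommutative ↥B → Nat.card ↥B ≤ Nat.card ↥Q := fun B hB => by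
    refine Nat.mul_self_le_mul_self_iff.mp ?_
    calc Nat.card ↥B * Nat.card ↥B ≤ meas B := Nat.mul_le_mul_left _ (card_le_of_le (isMulCommutative_iff_le.mp hB))
      _ ≤ _ := meas_le B
      _ = Nat.card ↥Q * Nat.card ↥(centralizer (Q : Set P)) := hQ1.symm
      _ = _ := by rw [hCQ]
  constructor
  · intro hX
    have hXab : IsMulCommutative ↥X := by
      rw [isMulCommutative_iff_le, ← commutator_eq_bot_iff_le_centralizer]
      obtain ⟨-, cX, -⟩ := minimal_eq hX hQ
      rw [cX, eq_bot_iff]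
      refine (commutator_mono inf_le_right inf_le_right).trans ?_
      rw [commutator_eq_bot_iff_le_centralizer.mpr (isMulCommutative_iff_le.mp hab)]
    exact ⟨hXab, fun B hB => (hle B hB).trans (card_part hQ hX).1.le⟩
  · intro hX
    have hXQ : Nat.card ↥X = Nat.card ↥Q := le_antisymm (hle X hX.1) (hX.2 Q hab)
    have hCX : centralizer (X : Set P) = X := centralizer_maxAbelian hX
    have hlarge : Cfsg.IsCentrallyLarge X := centrallyLarge_iff.mpr ⟨large_of_le (by
      show _ ≤ Nat.card ↥X * Nat.card ↥(centralizer (X : Set P))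
      rw [hCX, hXQ]
      exact hQ1.ge.trans (le_of_eq (by rw [hCQ]))), hCX.le⟩
    refine ⟨hlarge, fun R' hR' hl => ?_⟩
    obtain ⟨hl1, hl2⟩ := centrallyLarge_iff.mp hl
    have h' : IsMulCommutative ↥R' := isMulCommutative_iff_le.mpr
      (hR'.trans ((isMulCommutative_iff_le.mp hX.1).trans (centralizer_le (SetLike.coe_subset_coe.mpr hR'))))
    have hCR' : centralizer (R' : Set P) = R' := le_antisymm hl2 (isMulCommutative_iff_le.mp h')
    refine eq_of_le_of_card_ge hR' ?_
    refine Nat.mul_self_le_mul_self_iff.mp ?_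
    calc Nat.card ↥X * Nat.card ↥X = Nat.card ↥Q * Nat.card ↥(centralizer (Q : Set P)) := by rw [hXQ, hCQ]
      _ = Nat.card ↥R' * Nat.card ↥(centralizer (R' : Set P)) := hQ1.trans hl1.symm
      _ ≤ _ := by rw [hCR']

end Cfsg.Agent.S3007
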