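import Cfsg.Statements.S3011
import Cfsg.Agent.Lib.BaerSuzuki
import Cfsg.Agent.Lib.Core

set_option autoImplicit false
open Cfsg

namespace Cfsg.Agent.S3011
open Subgroup

theorem odd_sq_eq_one {G : Type*} [Group G] {x : G} (hx : Odd (orderOf x)) (h : x = x⁻¹) : x = 1 := by
  have h2 : orderOf x ∣ 2 := orderOf_dvd_of_pow_eq_one (by rw [pow_two]; nth_rw 2 [h]; exact mul_inv_cancel x)
  exact orderOf_eq_one_iff.mp (Nat.Coprime.eq_one_of_dvd (Nat.coprime_two_right.mpr hx) h2)

/-- Let G be a finite group and V a nontrivial elementary abelian 2-subgroup of G of order at most 4 such that, whenever an element of V inverts an element h of G of odd order, some nontrivial element of V commutes with h. Then V meets O₂(G) nontrivially. (The case of order at most 4 has a short argument from the Baer–Suzuki theorem.) -/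
theorem result {G : Type*} [Group G] [Finite G] (V : Subgroup G) (hV : Cfsg.IsElementaryAbelian 2 V) (hV1 : V ≠ ⊥) (hS : Cfsg.IsSidkiPair V) (h4 : Nat.card V ≤ 4) : V ⊓ Cfsg.pCore 2 G ≠ ⊥ := by
  classical
  intro hbot
  have hV2 : ∀ v ∈ V, v * v = 1 := fun v hv => by rw [← pow_two]; exact hV.2 v hv
  have hinv : ∀ v ∈ V, v⁻¹ = v := fun v hv => inv_eq_of_mul_eq_one_right (hV2 v hv)
  have hVc : ∀ u ∈ V, ∀ v ∈ V, u * v = v * u := fun u hu v hv => by
    have := hV.1
    exact Subgroup.mul_comm_of_mem_isMulCommutative V hu hv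
  have hD : ∀ v ∈ V, v ≠ 1 → ∃ h : G, h ≠ 1 ∧ Odd (orderOf h) ∧ v * h * v⁻¹ = h⁻¹ := by
    intro v hv hv1
    refine CfsgLib.BaerSuzuki.exists_inverted_odd v (orderOf_eq_prime (hV.2 v hv) hv1) fun N hN hN2 hvN => hv1 ?_
    exact (Subgroup.eq_bot_iff_forall _).mp hbot v ⟨hv, CfsgLib.Core.le_pCore hN hN2 hvN⟩
  obtain ⟨a, ha, ha1⟩ : ∃ a ∈ V, a ≠ 1 := by
    by_contra hc
    push Not at hc
    exact hV1 ((Subgroup.eq_bot_iff_forall _).mpr hc)
  obtain ⟨h, hh1, hho, hah⟩ := hD a ha ha1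
  obtain ⟨b, hb, hb1, hbh⟩ := hS h a ha hho hah
  have hab : b ≠ a := by
    rintro rfl
    apply hh1
    refine odd_sq_eq_one hho ?_
    rw [← hah, hbh, mul_inv_cancel_right]
  -- the four elements
  have hfour : ∀ w ∈ V, w = 1 ∨ w = a ∨ w = b ∨ w = a * b := by
    intro w hw
    by_contra hc
    push Not at hc
    obtain ⟨hw1, hwa, hwb, hwab⟩ := hc
    have e1 : a * b ≠ 1 := fun e => hab (by rw [← hinv a ha]; exact (inv_eq_of_mul_eq_one_right e).symm)
    have e2 : a * b ≠ a := fun e => hb1 (mul_eq_left.mp e)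
    have e3 : a * b ≠ b := fun e => ha1 (mul_eq_right.mp e)
    let f : Fin 5 → ↥V := ![1, ⟨a, ha⟩, ⟨b, hb⟩, ⟨a * b, V.mul_mem ha hb⟩, ⟨w, hw⟩]
    have hf : Function.Injective f := by
      intro i j hij
      have h' := congrArg Subtype.val hij
      fin_cases i <;> fin_cases j <;>
        simp [f, ha1, hb1, hw1, e1, hab, hwa, hwb, hwab, e2, e3, Ne.symm ha1, Ne.symm hb1, Ne.symm hw1, Ne.symm e1,
          Ne.symm hab, Ne.symm hwa, Ne.symm hwb, Ne.symm hwab, Ne.symm e2, Ne.symm e3] at h' ⊢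
    have := Nat.card_le_card_of_injective f hf
    rw [Nat.card_fin] at this
    omega
  obtain ⟨k, hk1, hko, hbk⟩ := hD b hb hb1
  rw [hinv b hb] at hbk
  rw [hinv a ha] at hah
  have hbh' : b * h * b = h := by rw [hbh, mul_assoc, hV2 b hb, mul_one]
  have hba := hVc b hb a ha
  -- conjugation lemmas
  have conjmul : ∀ (v : G), v * v = 1 → ∀ x y : G, v * (x * y) * v = (v * x * v) * (v * y * v) := by
    intro v hv x y
    calc v * (x * y) * v = v * x * (v * v) * y * v := by rw [hv]; group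
      _ = _ := by group
  -- w'' for k
  have hcases : ∀ k : G, Odd (orderOf k) → k ≠ 1 → b * k * b = k⁻¹ → a * k * a = k ∨ a * k * a = k⁻¹ := by
    intro k hko hk1 hbk
    obtain ⟨w, hw, hw1, hwk⟩ := hS k b hb hko (by rw [hinv b hb]; exact hbk)
    rcases hfour w hw with rfl | rfl | rfl | rfl
    · exact absurd rfl hw1
    · left; rw [hwk, mul_assoc, hV2 _ ha, mul_one]
    · exfalso; apply hk1; refine odd_sq_eq_one hko ?_
      rw [← hbk, hwk, mul_assoc, hV2 _ hb, mul_one]
    · right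
      have h1 : a * (b * k * b) * a = k := by
        calc a * (b * k * b) * a = (a * b) * k * (b * a) := by group
          _ = k * ((a * b) * (a * b)) := by rw [hwk, hba]; group
          _ = k := by rw [hV2 _ (V.mul_mem ha hb), mul_one]
      rw [hbk] at h1
      have h2 : (a * k⁻¹ * a)⁻¹ = k⁻¹ := by rw [h1]
      rw [mul_inv_rev, mul_inv_rev, inv_inv, hinv a ha, ← mul_assoc] at h2
      exact h2
  obtain ⟨m, hm⟩ := hho
  set s := h ^ (m + 1) with hs
  have hs2 : s * s = h := by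
    rw [hs, ← pow_add, show m + 1 + (m + 1) = orderOf h + 1 by omega, pow_succ, pow_orderOf_eq_one, one_mul]
  have has : a * s * a = s⁻¹ := by
    rw [hs, ← inv_pow, ← hah]
    conv_lhs => rw [← hinv a ha, hinv a ha]
    rw [show a * h * a = MulAut.conj a h by rw [MulAut.conj_apply, hinv a ha], ← map_pow, MulAut.conj_apply, hinv a ha]
  have hbs : b * s * b = s := by
    rw [show b * s * b = MulAut.conj b s by rw [MulAut.conj_apply, hinv b hb], hs, map_pow, MulAut.conj_apply, hinv b hb, hbh']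
  have hbsi : b * s⁻¹ * b = s⁻¹ := by
    have e : (b * s * b)⁻¹ = s⁻¹ := by rw [hbs]
    rwa [mul_inv_rev, mul_inv_rev, hinv b hb, ← mul_assoc] at e
  have hasi : a * s⁻¹ * a = s := by
    have e : (a * s * a)⁻¹ = s := by rw [has, inv_inv]
    rwa [mul_inv_rev, mul_inv_rev, hinv a ha, ← mul_assoc] at e
  set k' := s⁻¹ * k * s with hk'
  have hk'o : Odd (orderOf k') := by
    rwa [hk', show s⁻¹ * k * s = MulAut.conj s⁻¹ k by simp, MulEquiv.orderOf_eq]
  have hbk' : b * k' * b = k'⁻¹ := by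
    rw [hk', conjmul b (hV2 b hb), conjmul b (hV2 b hb), hbsi, hbs, hbk]; group
  have hk'1 : k' ≠ 1 := fun e => hk1 (by
    rw [hk'] at e
    have := congrArg (fun z => s * z * s⁻¹) e
    simpa [mul_assoc] using this)
  have hak' : a * k' * a = s * (a * k * a) * s⁻¹ := by
    rw [hk', conjmul a (hV2 a ha), conjmul a (hV2 a ha), hasi, has]
  -- so h and k commute
  have hcomm : Commute h k := by
    have key : h * k * h⁻¹ = k ∨ h * k * h⁻¹ = k⁻¹ := by
      have hlift : ∀ z, s * z * s⁻¹ = s⁻¹ * k * s → h * z * h⁻¹ = k := fun z hz => by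
        calc h * z * h⁻¹ = s * (s * z * s⁻¹) * s⁻¹ := by rw [← hs2]; group
          _ = k := by rw [hz]; group
      have hlift' : ∀ z, s * z * s⁻¹ = (s⁻¹ * k * s)⁻¹ → h * z * h⁻¹ = k⁻¹ := fun z hz => by
        calc h * z * h⁻¹ = s * (s * z * s⁻¹) * s⁻¹ := by rw [← hs2]; group
          _ = k⁻¹ := by rw [hz]; group
      have hinvc : ∀ {u : G}, h * k⁻¹ * h⁻¹ = u → h * k * h⁻¹ = u⁻¹ := fun {u} hu => by
        rw [← hu]; group
      rcases hcases k' hk'o hk'1 hbk' with e' | e' <;> rw [hak'] at e' <;> rcases hcases k hko hk1 hbk with e | e <;>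
        rw [e] at e'
      · exact Or.inl (hlift _ e')
      · exact Or.inr (hinvc (hlift _ e'))
      · exact Or.inr (hlift' _ e')
      · exact Or.inl ((hinvc (hlift' _ e')).trans (inv_inv k))
    rcases key with e | e
    · exact mul_inv_eq_iff_eq_mul.mp e
    · exfalso
      apply hk1
      have hpow : ∀ i : ℕ, h ^ (2 * i) * k * (h ^ (2 * i))⁻¹ = k := by
        intro i
        induction i with
        | zero => simp
        | succ i ih =>
          have h2 : h * (h * k * h⁻¹) * h⁻¹ = k := by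
            rw [e]
            calc h * k⁻¹ * h⁻¹ = (h * k * h⁻¹)⁻¹ := by group
              _ = k := by rw [e, inv_inv]
          calc h ^ (2 * (i + 1)) * k * (h ^ (2 * (i + 1)))⁻¹
              = h ^ (2 * i) * (h * (h * k * h⁻¹) * h⁻¹) * (h ^ (2 * i))⁻¹ := by
                rw [show 2 * (i + 1) = 2 * i + 1 + 1 by ring, pow_succ, pow_succ]; group
            _ = k := by rw [h2, ih]
      have h3 := hpow (m + 1)
      rw [show 2 * (m + 1) = orderOf h + 1 by omega, pow_succ, pow_orderOf_eq_one, one_mul, e] at h3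
      exact odd_sq_eq_one hko h3.symm
  have hodd : Odd (orderOf (h * k)) := by
    have hd := hcomm.orderOf_mul_dvd_mul_orderOf
    exact (Odd.mul (⟨m, hm⟩ : Odd (orderOf h)) hko).of_dvd_nat hd
  have hneh : h ≠ k⁻¹ := fun e => hk1 (by
    refine odd_sq_eq_one hko ?_
    have h1 : b * k⁻¹ * b = k⁻¹ := e ▸ hbh'
    have h2 : (b * k * b)⁻¹ = k⁻¹ := by
      rw [mul_inv_rev, mul_inv_rev, hinv b hb, ← mul_assoc]; exact h1
    rw [hbk, inv_inv] at h2
    exact h2)
  have hb' : b * (h * k) * b = h * k⁻¹ := by rw [conjmul b (hV2 b hb), hbh', hbk]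
  have hc_conj : ∀ z : G, (a * b) * z * (a * b) = a * (b * z * b) * a := fun z => by
    calc (a * b) * z * (a * b) = (a * b) * z * (b * a) := by rw [hba]
      _ = _ := by group
  have hinvhk : (h * k)⁻¹ = h⁻¹ * k⁻¹ := by rw [hcomm.eq, mul_inv_rev]
  have hhk1 : h * k ≠ 1 := fun e => hneh (eq_inv_of_mul_eq_one_left e)
  rcases hcases k hko hk1 hbk with e | e
  · -- a b inverts h k
    have hc : (a * b) * (h * k) * (a * b) = (h * k)⁻¹ := by
      rw [hc_conj, hb', conjmul a (hV2 a ha), hah, hinvhk]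
      congr 1
      have e2 : (a * k * a)⁻¹ = k⁻¹ := by rw [e]
      rwa [mul_inv_rev, mul_inv_rev, hinv a ha, ← mul_assoc] at e2
    obtain ⟨w, hw, hw1, hwk⟩ := hS (h * k) (a * b) (V.mul_mem ha hb) hodd (by rw [hinv _ (V.mul_mem ha hb)]; exact hc)
    have hfix : w * (h * k) * w = h * k := by rw [hwk, mul_assoc, hV2 _ hw, mul_one]
    rcases hfour w hw with rfl | rfl | rfl | rfl
    · exact hw1 rfl
    · rw [conjmul _ (hV2 _ hw), hah, e] at hfix
      exact hh1 (odd_sq_eq_one ⟨m, hm⟩ (mul_right_cancel hfix).symm)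
    · rw [hb'] at hfix
      exact hk1 (odd_sq_eq_one hko (mul_left_cancel hfix).symm)
    · exact hhk1 (odd_sq_eq_one hodd (hfix.symm.trans hc))
  · -- a inverts h k
    have hc : a * (h * k) * a = (h * k)⁻¹ := by rw [conjmul a (hV2 a ha), hah, e, hinvhk]
    obtain ⟨w, hw, hw1, hwk⟩ := hS (h * k) a ha hodd (by rw [hinv a ha]; exact hc)
    have hfix : w * (h * k) * w = h * k := by rw [hwk, mul_assoc, hV2 _ hw, mul_one]
    rcases hfour w hw with rfl | rfl | rfl | rfl
    · exact hw1 rfl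
    · exact hhk1 (odd_sq_eq_one hodd (hfix.symm.trans hc))
    · rw [hb'] at hfix
      exact hk1 (odd_sq_eq_one hko (mul_left_cancel hfix).symm)
    · rw [hc_conj, hb', conjmul a (hV2 a ha), hah] at hfix
      have e2 : a * k⁻¹ * a = k := by
        have e3 : (a * k * a)⁻¹ = k := by rw [e, inv_inv]
        rwa [mul_inv_rev, mul_inv_rev, hinv a ha, ← mul_assoc] at e3
      rw [e2] at hfix
      exact hh1 (odd_sq_eq_one ⟨m, hm⟩ (mul_right_cancel hfix).symm)

end Cfsg.Agent.S3011
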