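import Cfsg.Statements.S3012
import Cfsg.Agent.Lib.LocalBasic

set_option autoImplicit false
open Cfsg

namespace Cfsg.Agent.S3012
open CfsgLib.LocalBasic

/-- Let G be a finite group, V a nontrivial elementary abelian 2-subgroup of G satisfying the Sidki pair condition (every odd-order element inverted by an element of V commutes with a nontrivial element of V), and K a normal subgroup of G with V ∩ K = 1. Then the image of V in G/K satisfies the Sidki pair condition in G/K. -/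
theorem result {G : Type*} [Group G] [Finite G] (V K : Subgroup G) [K.Normal] (hV : Cfsg.IsElementaryAbelian 2 V) (hV1 : V ≠ ⊥) (hS : Cfsg.IsSidkiPair V) (hVK : V ⊓ K = ⊥) : Cfsg.IsSidkiPair (V.map (QuotientGroup.mk' K)) := by
  intro hbar vbar hvbar hodd hinv
  obtain ⟨v, hv, rfl⟩ := hvbar
  obtain ⟨a, rfl⟩ := QuotientGroup.mk'_surjective K hbar
  set π := QuotientGroup.mk' K with hπ
  have hvv : v * v = 1 := by
    have := hV.2 v hv
    rwa [pow_two] at this
  have hvinv : v⁻¹ = v := inv_eq_of_mul_eq_one_right hvv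
  set x := v * a * v * a⁻¹ with hx
  have hxinv : v * x * v⁻¹ = x⁻¹ := by
    rw [hvinv, hx]
    simp only [mul_inv_rev, inv_inv, hvinv, mul_assoc]
    rw [← mul_assoc v v, hvv, one_mul]
  obtain ⟨k, m, hm, hkm⟩ := Nat.exists_eq_pow_mul_and_not_dvd (orderOf_pos x).ne' 2 (by norm_num)
  have hπx : π x = (π a)⁻¹ * (π a)⁻¹ := by
    rw [hx, map_mul, map_mul, map_mul, map_inv]
    have h1 : π v * π a * π v = (π a)⁻¹ := by
      conv_lhs => arg 2; rw [← hvinv, map_inv]
      exact hinv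
    rw [h1]
  have hoy : Odd (orderOf (x ^ 2 ^ k)) := by
    rw [orderOf_pow' x (pow_ne_zero k two_ne_zero), hkm, Nat.gcd_mul_right_left,
      Nat.mul_div_cancel_left _ (pow_pos two_pos k)]
    exact Nat.not_even_iff_odd.mp (fun h => hm h.two_dvd)
  have hyinv : v * x ^ 2 ^ k * v⁻¹ = (x ^ 2 ^ k)⁻¹ := by rw [← conj_pow, hxinv, inv_pow]
  obtain ⟨w, hw, hw1, hwy⟩ := hS (x ^ 2 ^ k) v hv hoy hyinv
  refine ⟨π w, ⟨w, hw, rfl⟩, fun h => hw1 ?_, ?_⟩
  · have : w ∈ V ⊓ K := ⟨hw, (QuotientGroup.eq_one_iff w).mp h⟩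
    rwa [hVK, Subgroup.mem_bot] at this
  · have hgen : π a ∈ Subgroup.zpowers (π (x ^ 2 ^ k)) := by
      rw [map_pow, hπx, ← pow_two, ← pow_mul, inv_pow, Subgroup.zpowers_inv]
      obtain ⟨j, hj⟩ := exists_pow_eq_self_of_coprime (x := π a) (n := 2 * 2 ^ k) (by
        rw [← pow_succ']
        exact ((Nat.coprime_two_left).mpr hodd).pow_left _)
      exact Subgroup.mem_zpowers_iff.mpr ⟨j, by rw [zpow_natCast, hj]⟩
    obtain ⟨i, hi⟩ := Subgroup.mem_zpowers_iff.mp hgen
    have hc : Commute (π w) (π (x ^ 2 ^ k)) := by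
      show π w * π (x ^ 2 ^ k) = π (x ^ 2 ^ k) * π w
      rw [← map_mul, ← map_mul, hwy]
    rw [← hi]
    exact (hc.zpow_right i).eq

end Cfsg.Agent.S3012
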