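import Cfsg.Statements.S3013
import Cfsg.Agent.Lib.LocalBasic

set_option autoImplicit false
open Cfsg

namespace Cfsg.Agent.S3013
open CfsgLib.LocalBasic

/-- Let G be a finite group and V a nontrivial elementary abelian 2-subgroup of G satisfying the Sidki pair condition. Let v ∈ V and let x be an element of odd order inverted by v, and put C = C_G(v) ∩ C_G(x), the centralizer of the dihedral subgroup generated by v and x. Then C ∩ V is nontrivial and satisfies the Sidki pair condition inside C: every odd-order element of C inverted by an element of C ∩ V commutes with a nontrivial element of C ∩ V. -/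
theorem result {G : Type*} [Group G] [Finite G] (V : Subgroup G) (hV : Cfsg.IsElementaryAbelian 2 V) (hV1 : V ≠ ⊥) (hS : Cfsg.IsSidkiPair V) (v x : G) (hv : v ∈ V) (hx : Odd (orderOf x)) (hinv : v * x * v⁻¹ = x⁻¹) (C : Subgroup G) (hC : C = Subgroup.centralizer ({v} : Set G) ⊓ Subgroup.centralizer ({x} : Set G)) : C ⊓ V ≠ ⊥ ∧ Cfsg.IsSidkiPair ((C ⊓ V).subgroupOf C) := by
  obtain ⟨w, hw, hw1, hwx⟩ := hS x v hv hx hinv
  have hVc : ∀ a ∈ V, ∀ b ∈ V, a * b = b * a := fun a ha b hb =>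
    congrArg Subtype.val (hV.1.is_comm.comm ⟨a, ha⟩ ⟨b, hb⟩)
  have hwC : w ∈ C := by
    rw [hC]
    exact ⟨Subgroup.mem_centralizer_singleton_iff.mpr (hVc w hw v hv),
      Subgroup.mem_centralizer_singleton_iff.mpr hwx⟩
  refine ⟨fun h => hw1 ?_, fun h u hu hodd hinv2 => ?_⟩
  · have : w ∈ C ⊓ V := ⟨hwC, hw⟩
    rwa [h, Subgroup.mem_bot] at this
  rw [Subgroup.mem_subgroupOf] at hu
  have hmem : ∀ z ∈ C, z * v = v * z ∧ z * x = x * z := fun z hz => by
    rw [hC] at hz
    exact ⟨Subgroup.mem_centralizer_singleton_iff.mp hz.1, Subgroup.mem_centralizer_singleton_iff.mp hz.2⟩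
  obtain ⟨hhv, hhx⟩ := hmem _ h.2
  obtain ⟨huv, hux⟩ := hmem _ hu.1
  have hinv3 : (u : G) * h * (u : G)⁻¹ = (h : G)⁻¹ := by simpa using congrArg Subtype.val hinv2
  rw [← Subgroup.orderOf_coe] at hodd
  have hcm : Commute (h : G) x := hhx
  have hy : Odd (orderOf ((h : G) * x)) := (hodd.mul hx).of_dvd_nat hcm.orderOf_mul_dvd_mul_orderOf
  have hinvy : (u : G) * v * ((h : G) * x) * ((u : G) * v)⁻¹ = ((h : G) * x)⁻¹ := by
    calc (u : G) * v * ((h : G) * x) * ((u : G) * v)⁻¹
        = (u : G) * ((v * h * v⁻¹) * (v * x * v⁻¹)) * (u : G)⁻¹ := by group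
      _ = (u : G) * ((h : G) * x⁻¹) * (u : G)⁻¹ := by rw [hinv, ← hhv, mul_inv_cancel_right]
      _ = ((u : G) * h * (u : G)⁻¹) * ((u : G) * x⁻¹ * (u : G)⁻¹) := by group
      _ = (h : G)⁻¹ * x⁻¹ := by rw [hinv3, (show Commute (u : G) x from hux).inv_right.eq, mul_inv_cancel_right]
      _ = ((h : G) * x)⁻¹ := by rw [mul_inv_rev, hcm.inv_left.inv_right.eq]
  obtain ⟨z, hz, hz1, hzy⟩ := hS ((h : G) * x) ((u : G) * v) (V.mul_mem hu.2 hv) hy hinvy
  have hzv := hVc z hz v hv
  have hzy' : z * ((h : G) * x⁻¹) = (h : G) * x⁻¹ * z := by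
    have hcz : Commute z ((h : G) * x) := hzy
    have h1 : v * ((h : G) * x) * v⁻¹ = (h : G) * x⁻¹ := by
      calc v * ((h : G) * x) * v⁻¹ = (v * h * v⁻¹) * (v * x * v⁻¹) := by group
        _ = (h : G) * x⁻¹ := by rw [hinv, ← hhv, mul_inv_cancel_right]
    rw [← h1]
    exact (((show Commute z v from hzv).mul_right hcz).mul_right (show Commute z v from hzv).inv_right).eq
  have hz2 : Commute z ((h : G) ^ 2) := by
    have h1 : (h : G) * x * ((h : G) * x⁻¹) = (h : G) ^ 2 := by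
      calc (h : G) * x * ((h : G) * x⁻¹) = (h : G) * (x * h) * x⁻¹ := by group
        _ = (h : G) * (h * x) * x⁻¹ := by rw [hhx]
        _ = (h : G) ^ 2 := by rw [pow_two]; group
    rw [← h1]
    exact (show Commute z _ from hzy).mul_right hzy'
  have hzh : Commute z (h : G) := by
    obtain ⟨j, hj⟩ := exists_pow_eq_self_of_coprime (x := (h : G)) (n := 2) (Nat.coprime_two_left.mpr hodd)
    rw [← hj]; exact hz2.pow_right j
  have hzx : Commute z x := by
    have e : x = (h : G)⁻¹ * ((h : G) * x) := by group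
    rw [e]
    exact hzh.inv_right.mul_right hzy
  have hzC : z ∈ C := by
    rw [hC]
    exact ⟨Subgroup.mem_centralizer_singleton_iff.mpr hzv, Subgroup.mem_centralizer_singleton_iff.mpr hzx.eq⟩
  exact ⟨⟨z, hzC⟩, Subgroup.mem_subgroupOf.mpr ⟨hzC, hz⟩, fun h => hz1 (congrArg Subtype.val h), Subtype.ext hzh.eq⟩

end Cfsg.Agent.S3013
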