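import Cfsg.Statements.S3014
import Cfsg.Agent.Lib.FrobWielandt

set_option autoImplicit false
open Cfsg

namespace Cfsg.Agent.S3014
open CfsgLib.LocalBasic

/-- Let G be a finite group and H ≤ M ≤ G subgroups such that for every g ∈ G the subgroup generated by H and g H g⁻¹ meets M exactly in H. If H is a maximal subgroup of M and M is a maximal subgroup of G, then the normal closure of H in G meets M exactly in H. -/
theorem result {G : Type*} [Group G] [Finite G] (H M : Subgroup G) (hHM : H ≤ M) (hcl : ∀ g : G, (H ⊔ H.map (MulAut.conj g).toMonoidHom) ⊓ M = H) (hmaxH : IsCoatom (H.subgroupOf M)) (hmaxM : IsCoatom M) : Subgroup.normalClosure (H : Set G) ⊓ M = H := by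
  refine le_antisymm ?_ (le_inf (Subgroup.subset_normalClosure.trans' le_rfl) hHM)
  set N := Subgroup.normalClosure (H : Set G) with hN
  have hHN : H ≤ N := Subgroup.subset_normalClosure
  have hMn : M ≤ Subgroup.normalizer (H : Set G) := by
    intro m hm
    refine mem_normalizer_of_conj_map_eq (Subgroup.eq_of_le_of_card_ge ?_
      (Subgroup.card_map_of_injective (MulEquiv.injective _)).ge)
    intro y hy
    have hle : H.map (MulAut.conj m).toMonoidHom ≤ M := by
      rintro _ ⟨u, hu, rfl⟩
      exact M.mul_mem (M.mul_mem hm (hHM hu)) (M.inv_mem hm)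
    rw [← hcl m]
    exact ⟨Subgroup.mem_sup_right hy, hle hy⟩
  have hne : H.subgroupOf M ≠ ⊤ := hmaxH.1
  by_cases htop : Subgroup.normalizer (H : Set G) = ⊤
  · have : H.Normal := Subgroup.normalizer_eq_top_iff.mp htop
    exact inf_le_left.trans (Subgroup.normalClosure_le_normal le_rfl)
  have hnorm : Subgroup.normalizer (H : Set G) = M := (hmaxM.le_iff.mp hMn).resolve_left htop
  have hnorm_of : ∀ g : G, H.map (MulAut.conj g).toMonoidHom ≤ M → g ∈ M := by
    intro g hg
    rw [← hnorm]
    refine mem_normalizer_of_conj_map_eq (Subgroup.eq_of_le_of_card_ge ?_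
      (Subgroup.card_map_of_injective (MulEquiv.injective _)).ge)
    exact le_trans (le_inf le_sup_right hg) (hcl g).le
  by_contra hNM
  have hMN : M ≤ N := by
    have h1 : (H ⊔ (N ⊓ M)).subgroupOf M = ⊤ := hmaxH.2 _ (lt_of_le_of_ne (Subgroup.comap_mono le_sup_left) (fun he => hNM (by
      intro x hx
      have h2 : (⟨x, hx.2⟩ : ↥M) ∈ (H ⊔ (N ⊓ M)).subgroupOf M :=
        Subgroup.mem_subgroupOf.mpr (Subgroup.mem_sup_right hx)
      rw [← he] at h2
      exact Subgroup.mem_subgroupOf.mp h2)))
    exact (Subgroup.subgroupOf_eq_top.mp h1).trans (sup_le hHN inf_le_left)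
  have hNtop : N = ⊤ := (hmaxM.le_iff.mp hMN).resolve_right fun hNeq => by
    apply hmaxM.1
    rw [eq_top_iff]
    intro g _
    refine hnorm_of g ?_
    rintro _ ⟨u, hu, rfl⟩
    rw [← hNeq]
    exact (Subgroup.normalClosure_normal).conj_mem u (hHN hu) g
  have key : ∀ g : G, g ∉ M → M ⊓ M.map (MulAut.conj g).toMonoidHom ≤ H := by
    intro g hg
    set X := M ⊓ M.map (MulAut.conj g).toMonoidHom
    set K := H ⊔ H.map (MulAut.conj g).toMonoidHom with hK
    by_contra hX
    have hHX : H ⊔ X = M := by
      have h1 : (H ⊔ X).subgroupOf M = ⊤ := hmaxH.2 _ (lt_of_le_of_ne (Subgroup.comap_mono le_sup_left) (fun he => hX (by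
        intro x hx
        have : (⟨x, hx.1⟩ : ↥M) ∈ (H ⊔ X).subgroupOf M :=
          Subgroup.mem_subgroupOf.mpr (Subgroup.mem_sup_right hx)
        rw [← he] at this
        exact Subgroup.mem_subgroupOf.mp this)))
      exact le_antisymm (sup_le hHM inf_le_left) (Subgroup.subgroupOf_eq_top.mp h1)
    have hMK : M ≤ Subgroup.normalizer (K : Set G) := by
      rw [← hHX]
      refine sup_le (le_sup_left.trans Subgroup.le_normalizer) ?_
      refine normalizer_sup_ge (inf_le_left.trans hMn) ?_
      rintro x ⟨-, u, hu, rfl⟩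
      refine mem_normalizer_of_conj_map_eq ?_
      have e : ((MulAut.conj ((MulAut.conj g).toMonoidHom u)).toMonoidHom).comp (MulAut.conj g).toMonoidHom =
          ((MulAut.conj g).toMonoidHom).comp (MulAut.conj u).toMonoidHom := by ext z; simp [mul_assoc]
      rw [Subgroup.map_map, e, ← Subgroup.map_map, conj_map_eq_of_mem_normalizer (hMn hu)]
    by_cases hKn : Subgroup.normalizer (K : Set G) = ⊤
    · have : K.Normal := Subgroup.normalizer_eq_top_iff.mp hKn
      have hNK : N ≤ K := Subgroup.normalClosure_le_normal (le_sup_left : H ≤ K)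
      apply hne
      rw [Subgroup.subgroupOf_eq_top]
      exact (le_inf (hMN.trans hNK) le_rfl).trans (hcl g).le
    · have hKM : K ≤ M := by
        rw [← (hmaxM.le_iff.mp hMK).resolve_left hKn]; exact Subgroup.le_normalizer
      have hKH : K = H := (inf_eq_left.mpr hKM).symm.trans (hcl g)
      apply hg
      rw [← hnorm]
      refine mem_normalizer_of_conj_map_eq (Subgroup.eq_of_le_of_card_ge ?_
        (Subgroup.card_map_of_injective (MulEquiv.injective _)).ge)
      exact le_sup_right.trans hKH.le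
  haveI : (H.subgroupOf M).Normal := (Subgroup.normal_subgroupOf_iff_le_normalizer hHM).mpr hMn
  obtain ⟨V, hV⟩ := CfsgLib.FrobWielandt.exists_extension (H.subgroupOf M)
    (CfsgLib.FrobWielandt.quotient_comm_of_coatom hmaxH)
    (fun g hg => by rw [Subgroup.map_subgroupOf_eq_of_le hHM]; exact key g hg)
  have hNV : N ≤ V.ker := by
    refine Subgroup.normalClosure_le_normal ?_
    intro x hx
    rw [SetLike.mem_coe, MonoidHom.mem_ker]
    show V ((⟨x, hHM hx⟩ : ↥M) : G) = 1
    rw [hV, QuotientGroup.eq_one_iff, Subgroup.mem_subgroupOf]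
    exact hx
  refine hNM fun x hx => ?_
  obtain ⟨hxN, hxM⟩ := hx
  have h1 : V ((⟨x, hxM⟩ : ↥M) : G) = 1 := MonoidHom.mem_ker.mp (hNV hxN)
  rw [hV, QuotientGroup.eq_one_iff, Subgroup.mem_subgroupOf] at h1
  exact h1

end Cfsg.Agent.S3014
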