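import Cfsg.Statements.S3015
import Cfsg.Agent.Lib.FrobWielandt
import Cfsg.Prelude.Def_Transfer

set_option autoImplicit false
open Cfsg

namespace Cfsg.Agent.S3015
open CfsgLib.LocalBasic

theorem coprime_elements_le {G : Type*} [Group G] [Finite G] {q : ℕ} [Fact q.Prime] {M H : Subgroup G} (hHn : (H.subgroupOf M).Normal)
    (hidx : H.relIndex M = q) {x : G} (hx : x ∈ M) (hc : (orderOf x).Coprime q) : x ∈ H := by
  haveI := hHn
  have h1 : (QuotientGroup.mk ⟨x, hx⟩ : ↥M ⧸ H.subgroupOf M) = 1 := by
    rw [← orderOf_eq_one_iff]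
    refine Nat.eq_one_of_dvd_coprimes hc ?_ ?_
    · rw [← Subgroup.orderOf_mk x hx]
      exact orderOf_map_dvd (QuotientGroup.mk' (H.subgroupOf M)) _
    · rw [← hidx]
      exact orderOf_dvd_natCard _
  exact Subgroup.mem_subgroupOf.mp ((QuotientGroup.eq_one_iff _).mp h1)

/-- Let G be a finite non-abelian simple group, M a maximal subgroup of G and H a normal subgroup of M of prime index in M. Then G is generated by H together with one of its conjugates. -/
theorem result {G : Type*} [Group G] [Finite G] [IsSimpleGroup G] (hG : ¬ IsMulCommutative G) (M H : Subgroup G) (hmaxM : IsCoatom M) (hHM : H ≤ M) (hHn : (H.subgroupOf M).Normal) (hidx : (H.relIndex M).Prime) : ∃ g : G, H ⊔ H.map (MulAut.conj g).toMonoidHom = ⊤ := by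
  haveI hqf := Fact.mk hidx
  set q := H.relIndex M with hq
  by_contra hno
  simp only [not_exists] at hno
  have hMne : M ≠ ⊤ := hmaxM.1
  have hsimple : ∀ X : Subgroup G, X.Normal → X = ⊥ ∨ X = ⊤ := fun X hX => IsSimpleGroup.eq_bot_or_eq_top_of_normal X hX
  have hM1 : M ≠ ⊥ := by
    intro h
    apply hidx.ne_one
    rw [hq, h, Subgroup.relIndex_bot_right]
  have hNM : Subgroup.normalizer (M : Set G) = M :=
    (hmaxM.le_iff.mp Subgroup.le_normalizer).resolve_left fun h => by
      rcases hsimple M (Subgroup.normalizer_eq_top_iff.mp h) with h' | h'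
      exacts [hM1 h', hMne h']
  have hMn : M ≤ Subgroup.normalizer (H : Set G) := (Subgroup.normal_subgroupOf_iff_le_normalizer hHM).mp hHn
  have hHne : H.subgroupOf M ≠ ⊤ := by
    intro h
    apply hidx.ne_one
    rw [hq, Subgroup.relIndex, h, Subgroup.index_top]
  have hco : IsCoatom (H.subgroupOf M) := by
    refine ⟨hHne, fun X hX => ?_⟩
    have h1 := Subgroup.relIndex_mul_index hX.le
    have h2 : X.index ∣ q := ⟨(H.subgroupOf M).relIndex X, by rw [mul_comm, h1]; rfl⟩
    rcases hidx.eq_one_or_self_of_dvd _ h2 with h | h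
    · exact Subgroup.index_eq_one.mp h
    · exfalso
      rw [h] at h1
      have h3 : (H.subgroupOf M).relIndex X = 1 := by
        have : (H.subgroupOf M).relIndex X * q = 1 * q := by rw [h1, one_mul]; rfl
        exact Nat.eq_of_mul_eq_mul_right hidx.pos this
      exact hX.not_ge (Subgroup.relIndex_eq_one.mp h3)
  -- the only conjugate of `H` inside `M` is `H`
  have hconj : ∀ g : G, g ∉ M → H ≠ ⊥ → ¬ H.map (MulAut.conj g).toMonoidHom ≤ M := by
    intro g hg hH1 hgH
    set R := Subgroup.closure {x : G | x ∈ M ∧ (orderOf x).Coprime q} with hR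
    have hRg : R.map (MulAut.conj g).toMonoidHom ≤ R := by
      rw [hR, MonoidHom.map_closure, Subgroup.closure_le]
      rintro _ ⟨x, ⟨hx, hxc⟩, rfl⟩
      refine Subgroup.subset_closure ⟨hgH ⟨x, coprime_elements_le hHn hq.symm hx hxc, rfl⟩, ?_⟩
      rwa [orderOf_injective _ (MulEquiv.injective _) x]
    have hMR : M ≤ Subgroup.normalizer (R : Set G) := by
      intro m hm
      refine mem_normalizer_of_conj_map_eq (Subgroup.eq_of_le_of_card_ge ?_
        (Subgroup.card_map_of_injective (MulEquiv.injective _)).ge)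
      rw [hR, MonoidHom.map_closure, Subgroup.closure_le]
      rintro _ ⟨x, ⟨hx, hxc⟩, rfl⟩
      refine Subgroup.subset_closure ⟨M.mul_mem (M.mul_mem hm hx) (M.inv_mem hm), ?_⟩
      rwa [orderOf_injective _ (MulEquiv.injective _) x]
    have hgR : g ∈ Subgroup.normalizer (R : Set G) := mem_normalizer_of_conj_map_eq
      (Subgroup.eq_of_le_of_card_ge hRg (Subgroup.card_map_of_injective (MulEquiv.injective _)).ge)
    have hRn : Subgroup.normalizer (R : Set G) = ⊤ :=
      (hmaxM.le_iff.mp hMR).resolve_right fun h => hg (h ▸ hgR)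
    have hRM : R ≤ M := (Subgroup.closure_le _).mpr fun x hx => hx.1
    have hR1 : R = ⊥ := (hsimple R (Subgroup.normalizer_eq_top_iff.mp hRn)).resolve_right
      fun h => hMne (top_le_iff.mp (h ▸ hRM))
    have hMp : IsPGroup q ↥M := isPGroup_of_coprime_elements fun x hx => by
      have : (x : G) ∈ R := Subgroup.subset_closure ⟨x.2, by rwa [Subgroup.orderOf_coe]⟩
      rw [hR1, Subgroup.mem_bot] at this
      exact Subtype.ext this
    set H' := H.map (MulAut.conj g).toMonoidHom with hH'
    have hlt : ¬ M ⊓ Subgroup.normalizer (H' : Set G) ≤ H' := fun h => by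
      have heq := eq_of_normalizer_inf_le hMp hgH h
      apply hHne
      rw [Subgroup.subgroupOf_eq_top]
      refine (Subgroup.eq_of_le_of_card_ge hHM ?_).ge
      rw [← heq, hH', Subgroup.card_map_of_injective (MulEquiv.injective _)]
    obtain ⟨x, hx, hxH⟩ := SetLike.not_le_iff_exists.mp hlt
    have hH'n : M ≤ Subgroup.normalizer (H' : Set G) := by
      have hq' : H'.relIndex M = q := by
        have h1 := (H'.subgroupOf M).card_mul_index
        have h2 := (H.subgroupOf M).card_mul_index
        rw [Nat.card_congr (Subgroup.subgroupOfEquivOfLe hgH).toEquiv, hH',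
          Subgroup.card_map_of_injective (MulEquiv.injective _)] at h1
        rw [Nat.card_congr (Subgroup.subgroupOfEquivOfLe hHM).toEquiv] at h2
        exact Nat.eq_of_mul_eq_mul_left Nat.card_pos (h1.trans h2.symm)
      have hle : H' ≤ M ⊓ Subgroup.normalizer (H' : Set G) := le_inf hgH Subgroup.le_normalizer
      have h1 := Subgroup.relIndex_mul_relIndex _ _ _ hle (inf_le_left : M ⊓ Subgroup.normalizer (H' : Set G) ≤ M)
      rw [hq'] at h1
      rcases hidx.eq_one_or_self_of_dvd _ (Dvd.intro_left _ h1) with h | h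
      · exact (Subgroup.relIndex_eq_one.mp h).trans inf_le_right
      · exfalso
        rw [h] at h1
        exact hxH (Subgroup.relIndex_eq_one.mp (Nat.eq_of_mul_eq_mul_right hidx.pos (h1.trans (one_mul q).symm)) hx)
    have hn : Subgroup.normalizer (H' : Set G) = ⊤ := by
      refine (hmaxM.le_iff.mp hH'n).resolve_right fun h => hg ?_
      rw [← hNM]
      refine mem_normalizer_of_conj_map_eq (Subgroup.eq_of_le_of_card_ge ?_
        (Subgroup.card_map_of_injective (MulEquiv.injective _)).ge)
      rintro _ ⟨m, hm, rfl⟩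
      rw [← h, hH']
      refine mem_normalizer_of_conj_map_eq ?_
      have e : ((MulAut.conj ((MulAut.conj g).toMonoidHom m)).toMonoidHom).comp (MulAut.conj g).toMonoidHom =
          ((MulAut.conj g).toMonoidHom).comp (MulAut.conj m).toMonoidHom := by ext z; simp [mul_assoc]
      rw [Subgroup.map_map, e, ← Subgroup.map_map, conj_map_eq_of_mem_normalizer (hMn hm)]
    rcases hsimple H' (Subgroup.normalizer_eq_top_iff.mp hn) with h | h
    · exact hH1 ((Subgroup.map_eq_bot_iff_of_injective _ (MulEquiv.injective _)).mp h)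
    · exact hMne (top_le_iff.mp (h ▸ hgH))
  have key : ∀ g : G, g ∉ M → M ⊓ M.map (MulAut.conj g).toMonoidHom ≤ H := by
    intro g hg
    set X := M ⊓ M.map (MulAut.conj g).toMonoidHom
    set K := H ⊔ H.map (MulAut.conj g).toMonoidHom with hK
    by_contra hX
    have hHX : H ⊔ X = M := by
      have h1 : (H ⊔ X).subgroupOf M = ⊤ := hco.2 _ (lt_of_le_of_ne (Subgroup.comap_mono le_sup_left) (fun he => hX (by
        intro x hx
        have : (⟨x, hx.1⟩ : ↥M) ∈ (H ⊔ X).subgroupOf M :=
          Subgroup.mem_subgroupOf.mpr (Subgroup.mem_sup_right hx)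
        rw [← he] at this
        exact Subgroup.mem_subgroupOf.mp this)))
      exact le_antisymm (sup_le hHM inf_le_left) (Subgroup.subgroupOf_eq_top.mp h1)
    by_cases hH1 : H = ⊥
    · apply hg
      rw [← hNM]
      refine mem_normalizer_of_conj_map_eq (Subgroup.eq_of_le_of_card_ge ?_ ?_).symm
      · conv_lhs => rw [← hHX, hH1, bot_sup_eq]
        exact (inf_le_right : M ⊓ M.map (MulAut.conj g).toMonoidHom ≤ _)
      · rw [Subgroup.card_map_of_injective (MulEquiv.injective _)]
    have hMK : M ≤ Subgroup.normalizer (K : Set G) := by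
      rw [← hHX]
      refine sup_le (le_sup_left.trans Subgroup.le_normalizer) ?_
      refine normalizer_sup_ge (inf_le_left.trans hMn) ?_
      rintro x ⟨-, u, hu, rfl⟩
      refine mem_normalizer_of_conj_map_eq ?_
      have e : ((MulAut.conj ((MulAut.conj g).toMonoidHom u)).toMonoidHom).comp (MulAut.conj g).toMonoidHom =
          ((MulAut.conj g).toMonoidHom).comp (MulAut.conj u).toMonoidHom := by ext z; simp [mul_assoc]
      rw [Subgroup.map_map, e, ← Subgroup.map_map, conj_map_eq_of_mem_normalizer (hMn hu)]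
    refine hconj g hg hH1 (le_sup_right.trans (b := K) ?_)
    rw [← (hmaxM.le_iff.mp hMK).resolve_left fun h => ?_]
    · exact Subgroup.le_normalizer
    · rcases hsimple K (Subgroup.normalizer_eq_top_iff.mp h) with h' | h'
      · exact hH1 (le_bot_iff.mp (h' ▸ le_sup_left))
      · exact hno g h'
  haveI := hHn
  obtain ⟨V, hV⟩ := CfsgLib.FrobWielandt.exists_extension (H.subgroupOf M)
    (CfsgLib.FrobWielandt.quotient_comm_of_coatom hco)
    (fun g hg => by rw [Subgroup.map_subgroupOf_eq_of_le hHM]; exact key g hg)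
  rcases hsimple V.ker inferInstance with h | h
  · apply hG
    refine ⟨⟨fun a b => ?_⟩⟩
    apply (MonoidHom.ker_eq_bot_iff V).mp h
    rw [map_mul, map_mul]
    exact CfsgLib.FrobWielandt.quotient_comm_of_coatom hco _ _
  · apply hHne
    rw [eq_top_iff]
    intro m _
    have h1 : V m = 1 := MonoidHom.mem_ker.mp (h ▸ Subgroup.mem_top (m : G))
    rwa [hV, QuotientGroup.eq_one_iff] at h1

end Cfsg.Agent.S3015
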