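import Cfsg.Statements.S3020
import Cfsg.Agent.Lib.LocalBasic
import Cfsg.Agent.Lib.Core
import Mathlib.GroupTheory.Transfer

set_option autoImplicit false
open Cfsg

namespace Cfsg.Agent.S3020
open CfsgLib.LocalBasic

/-- Let G be a finite group, p a prime and H an abelian p-subgroup of G that is extremely closed (for every g, the subgroup generated by H and g H g⁻¹ meets N_G(H) exactly in H). Then for every g ∈ G, the subgroup T generated by H and g H g⁻¹ is the product of H with O_{p'}(T), and H meets O_{p'}(T) trivially; that is, O_{p'}(T) is a normal p-complement of H in T. -/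
theorem result {G : Type*} [Group G] [Finite G] {p : ℕ} [Fact p.Prime] (H : Subgroup G) (hHp : IsPGroup p H) (hHab : IsMulCommutative H) (hcl : Cfsg.IsExtremelyClosed H) (g : G) (T : Subgroup G) (hT : T = H ⊔ H.map (MulAut.conj g).toMonoidHom) : H ⊔ (Cfsg.pPrimeCore p ↥T).map T.subtype = T ∧ H ⊓ (Cfsg.pPrimeCore p ↥T).map T.subtype = ⊥ := by
  have hHT : H ≤ T := hT ▸ le_sup_left
  have hnorm : T ⊓ Subgroup.normalizer (H : Set G) ≤ H := hT ▸ (hcl g).le
  set H' := H.subgroupOf T with hH'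
  obtain ⟨P, hP⟩ := (hHp.comap_subtype (K := T)).exists_le_sylow
  have hPH : (P : Subgroup ↥T) = H' := by
    refine (eq_of_normalizer_inf_le P.2 hP ?_).symm
    rintro x ⟨-, hx⟩
    change x ∈ Subgroup.normalizer ((H.subgroupOf T : Subgroup ↥T) : Set ↥T) at hx
    rw [← Subgroup.subgroupOf_normalizer_eq hHT, Subgroup.mem_subgroupOf] at hx
    exact Subgroup.mem_subgroupOf.mpr (hnorm ⟨x.2, hx⟩)
  have hNC : Subgroup.normalizer ((P : Subgroup ↥T) : Set ↥T) ≤ Subgroup.centralizer ((P : Subgroup ↥T) : Set ↥T) := by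
    rw [hPH]
    intro x hx u hu
    rw [← Subgroup.subgroupOf_normalizer_eq hHT, Subgroup.mem_subgroupOf] at hx
    exact Subtype.ext (by simpa using congrArg Subtype.val (hHab.is_comm.comm ⟨_, Subgroup.mem_subgroupOf.mp hu⟩ ⟨_, hnorm ⟨x.2, hx⟩⟩))
  have hc := MonoidHom.ker_transferSylow_isComplement' P hNC
  set K := (MonoidHom.transferSylow P hNC).ker
  have hKO : K ≤ Cfsg.pPrimeCore p ↥T := by
    refine CfsgLib.Core.le_pPrimeCore inferInstance ?_
    rw [← hc.index_eq_card]
    exact (((Fact.out : p.Prime).coprime_iff_not_dvd.mpr P.not_dvd_index)).symm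
  constructor
  · refine le_antisymm (sup_le hHT (Subgroup.map_subtype_le _)) fun x hx => ?_
    have h1 : (⟨x, hx⟩ : ↥T) ∈ H' ⊔ Cfsg.pPrimeCore p ↥T := by
      refine sup_le_sup le_rfl hKO ?_
      rw [← hPH, sup_comm, hc.sup_eq_top]
      exact Subgroup.mem_top _
    have h2 := Subgroup.mem_map_of_mem T.subtype h1
    rwa [Subgroup.map_sup, Subgroup.map_subgroupOf_eq_of_le hHT] at h2
  · rw [eq_bot_iff]
    rintro x ⟨hxH, y, hy, rfl⟩
    rw [Subgroup.mem_bot, ← orderOf_eq_one_iff]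
    obtain ⟨k, hk⟩ := IsPGroup.iff_orderOf.mp hHp ⟨_, hxH⟩
    rw [Subgroup.orderOf_mk] at hk
    refine Nat.eq_one_of_dvd_coprimes ((CfsgLib.Core.card_pPrimeCore_coprime (G := ↥T) p).pow_right k) ?_ hk.dvd
    rw [T.coe_subtype, Subgroup.orderOf_coe]
    exact Subgroup.orderOf_dvd_natCard _ hy

end Cfsg.Agent.S3020
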