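import Cfsg.Statements.S3021
import Cfsg.Agent.Lib.LocalBasic

set_option autoImplicit false
open Cfsg

namespace Cfsg.Agent.S3021
open CfsgLib.LocalBasic

/-- Let G be a finite group, p a prime and H a p-subgroup of G that is extremely closed (for every g, the subgroup generated by H and g H g⁻¹ meets N_G(H) exactly in H). Then every p-subgroup Q of G containing H has N_G(Q) ≤ N_G(H); in particular every Sylow p-subgroup P of G containing H normalizes H, and H is strongly closed in P with respect to G. -/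
theorem result {G : Type*} [Group G] [Finite G] {p : ℕ} [Fact p.Prime] (H : Subgroup G) (hHp : IsPGroup p H) (hcl : Cfsg.IsExtremelyClosed H) : (∀ Q : Subgroup G, IsPGroup p Q → H ≤ Q → Subgroup.normalizer (Q : Set G) ≤ Subgroup.normalizer (H : Set G)) ∧ ∀ P : Sylow p G, H ≤ (P : Subgroup G) → (P : Subgroup G) ≤ Subgroup.normalizer (H : Set G) ∧ Cfsg.IsStronglyClosed H (P : Subgroup G) := by
  have key : ∀ g : G, H.map (MulAut.conj g).toMonoidHom ≤ Subgroup.normalizer (H : Set G) →
      g ∈ Subgroup.normalizer (H : Set G) := by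
    intro g hg
    refine mem_normalizer_of_conj_map_eq (Subgroup.eq_of_le_of_card_ge ?_
      (Subgroup.card_map_of_injective (MulEquiv.injective _)).ge)
    exact (le_inf le_sup_right hg).trans (hcl g).le
  have hQ : ∀ Q : Subgroup G, IsPGroup p Q → H ≤ Q → Q ≤ Subgroup.normalizer (H : Set G) := by
    intro Q hQ hHQ
    refine inf_eq_left.mp (eq_of_normalizer_inf_le hQ inf_le_left ?_)
    rintro x ⟨hxQ, hxn⟩
    refine ⟨hxQ, key x ?_⟩
    rintro _ ⟨h, hh, rfl⟩
    exact ((Subgroup.mem_normalizer_iff.mp hxn h).mp ⟨hHQ hh, Subgroup.le_normalizer hh⟩).2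
  refine ⟨fun Q hQp hHQ n hn => key n ?_, fun P hHP => ⟨hQ _ P.2 hHP, hHP, fun x hx g hg => ?_⟩⟩
  · refine le_trans ?_ (hQ Q hQp hHQ)
    rintro _ ⟨h, hh, rfl⟩
    exact (Subgroup.mem_normalizer_iff.mp hn h).mp (hHQ hh)
  · exact (hcl g).le ⟨Subgroup.mem_sup_right ⟨x, hx, rfl⟩, hQ _ P.2 hHP hg⟩

end Cfsg.Agent.S3021
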