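import Cfsg.Statements.S3023
import Cfsg.Agent.Lib.CharPLocal
import Cfsg.Agent.Lib.Fusion.Group

set_option autoImplicit false
open Cfsg

namespace Cfsg.Agent.S3023
open CfsgLib.CharPLocal
theorem sylow_subnormal {G : Type*} [Group G] [Finite G] {p : ℕ} [Fact p.Prime] (S : Sylow p G) {A : Subgroup G}
    (hA : A.IsSubnormal) : ¬ p ∣ ((S : Subgroup G) ⊓ A).relIndex A := by
  induction hA with
  | top => rw [inf_top_eq, Subgroup.relIndex_top_right]; exact S.not_dvd_index
  | step H K hle _ hN ih =>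
    have h := CfsgLib.Fusion.sylow_inf_normal ih inf_le_right hle ((Subgroup.normal_subgroupOf_iff_le_normalizer hle).mp hN)
    rwa [inf_assoc, inf_eq_right.mpr hle] at h

/-- Let p be a prime, G a finite group of parabolic characteristic p (every p-local subgroup containing a Sylow p-subgroup of G has characteristic p), S a Sylow p-subgroup of G and G₁ a subnormal subgroup of G. If the centre of S ∩ G₁ is nontrivial and contained in the centre of S, then G₁ has parabolic characteristic p. -/
theorem result {G : Type*} [Group G] [Finite G] {p : ℕ} [Fact p.Prime] (hG : Cfsg.IsOfParabolicCharacteristic p G) (S : Sylow p G) (G₁ : Subgroup G) (hsn : G₁.IsSubnormal) (hne : ((S : Subgroup G) ⊓ G₁) ⊓ Subgroup.centralizer (((S : Subgroup G) ⊓ G₁ : Subgroup G) : Set G) ≠ ⊥) (hle : ((S : Subgroup G) ⊓ G₁) ⊓ Subgroup.centralizer (((S : Subgroup G) ⊓ G₁ : Subgroup G) : Set G) ≤ (S : Subgroup G) ⊓ Subgroup.centralizer ((S : Subgroup G) : Set G)) : Cfsg.IsOfParabolicCharacteristic p ↥G₁ := by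
  classical
  have hS1 : IsPGroup p ↥(((S : Subgroup G) ⊓ G₁).subgroupOf G₁) := (S.2.to_le inf_le_left).comap_subtype
  refine parabolic_of_centralizers (hS1.toSylow (sylow_subnormal S hsn)) fun z hzS hz hzc => ?_
  have hzmem : (z : G) ∈ (S : Subgroup G) ⊓ G₁ := hzS
  have hzC := (Subgroup.mem_inf.mp (hle (Subgroup.mem_inf.mpr ⟨hzmem, Subgroup.mem_centralizer_iff.mpr fun s hs =>
    congrArg Subtype.val (hzc ⟨s, hs.2⟩ hs)⟩))).2
  have hz1 : (z : G) ≠ 1 := fun e => by
    rw [← Subgroup.orderOf_coe, e, orderOf_one] at hz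
    exact (Fact.out : p.Prime).one_lt.ne hz
  set C := Subgroup.centralizer ({(z : G)} : Set G)
  have h1 := CfsgLib.CharP.charP_of_subnormal (charP_centralizer_of_parabolic hG S hzmem.1 hz1 hzC)
    (hsn.subgroupOf (K := C))
  let e : ↥(G₁.subgroupOf C) ≃* ↥(Subgroup.centralizer ({z} : Set ↥G₁)) :=
    { toFun := fun x => ⟨⟨((x : ↥C) : G), x.2⟩, Subgroup.mem_centralizer_singleton_iff.mpr (Subtype.ext
        (Subgroup.mem_centralizer_singleton_iff.mp (x : ↥C).2))⟩
      invFun := fun x => ⟨⟨((x : ↥G₁) : G), Subgroup.mem_centralizer_singleton_iff.mpr (congrArg Subtype.val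
        (Subgroup.mem_centralizer_singleton_iff.mp x.2))⟩, (x : ↥G₁).2⟩
      left_inv := fun x => rfl
      right_inv := fun x => rfl
      map_mul' := fun x y => rfl }
  exact CfsgLib.CharP.charP_congr e h1

end Cfsg.Agent.S3023
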