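import Cfsg.Statements.S3025
import Cfsg.Agent.Lib.UniqueOrderP
import Cfsg.Agent.Lib.LocalBasic
import Mathlib.GroupTheory.SpecificGroups.Cyclic

set_option autoImplicit false
open Cfsg

namespace Cfsg.Agent.S3025

open CfsgLib.LocalBasic CfsgLib.UniqueOrderP
open scoped commutatorElement

variable {F : Type*} [Group F] [Finite F]

theorem exists_minimal_normal (N : Subgroup F) (hN : N ≠ ⊥) :
    ∃ M : Subgroup F, M ≤ N ∧ M ≠ ⊥ ∧ N ≤ Subgroup.normalizer (M : Set F) ∧
      ∀ M' : Subgroup F, M' ≤ M → M' ≠ ⊥ → N ≤ Subgroup.normalizer (M' : Set F) → M' = M := by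
  obtain ⟨M, ⟨hM1, hM2, hM3⟩, hmin⟩ := Set.exists_min_image
    {M : Subgroup F | M ≤ N ∧ M ≠ ⊥ ∧ N ≤ Subgroup.normalizer (M : Set F)} (fun M => Nat.card ↥M) (Set.toFinite _)
    ⟨N, le_rfl, hN, Subgroup.le_normalizer⟩
  exact ⟨M, hM1, hM2, hM3, fun M' h1 h2 h3 =>
    Subgroup.eq_of_le_of_card_ge h1 (hmin M' ⟨h1.trans hM1, h2, h3⟩)⟩

theorem simple_monolith {H : Subgroup F} (hH : H ≠ ⊥)
    (hmin : ∀ R : Subgroup F, R ≠ ⊥ → H ≤ Subgroup.normalizer (R : Set F) → H ≤ R) :
    IsSimpleGroup ↥(Subgroup.normalClosure (H : Set F)) := by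
  set N := Subgroup.normalClosure (H : Set F) with hN
  have hHN : H ≤ N := Subgroup.subset_normalClosure
  have hN1 : N ≠ ⊥ := fun h => hH (le_bot_iff.mp (h ▸ hHN))
  haveI : Nontrivial ↥N := (Subgroup.nontrivial_iff_ne_bot N).mpr hN1
  obtain ⟨M, hMN, hM1, hNM, hMmin⟩ := exists_minimal_normal N hN1
  have hMeq : N = M := by
    refine le_antisymm ?_ hMN
    have hMconj : ∀ g : F, M.map (MulAut.conj g).toMonoidHom = M := by
      intro g
      set M' := M.map (MulAut.conj g).toMonoidHom with hM'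
      have hM'1 : M' ≠ ⊥ := fun h => hM1 ((Subgroup.map_eq_bot_iff_of_injective _ (MulEquiv.injective _)).mp h)
      have hNM' : N ≤ Subgroup.normalizer (M' : Set F) := by
        intro n hn
        have hn' : g⁻¹ * n * g ∈ N := by
          simpa using (inferInstance : N.Normal).conj_mem n hn g⁻¹
        refine mem_normalizer_of_conj_map_eq ?_
        conv_rhs => rw [hM', ← conj_map_eq_of_mem_normalizer (hNM hn')]
        rw [hM', Subgroup.map_map, Subgroup.map_map]
        congr 1
        ext x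
        simp [mul_assoc]
      have h1 := hmin M hM1 (hHN.trans hNM)
      have h2 := hmin M' hM'1 (hHN.trans hNM')
      have h3 := hMmin (M ⊓ M') inf_le_left (fun h => hH (le_bot_iff.mp (h ▸ le_inf h1 h2)))
        (normalizer_inf_ge hNM hNM')
      exact (Subgroup.eq_of_le_of_card_ge (h3.ge.trans inf_le_right)
        (Subgroup.card_map_of_injective (MulEquiv.injective (MulAut.conj g))).le).symm
    haveI : M.Normal := Subgroup.normalizer_eq_top_iff.mp
      (eq_top_iff.mpr fun g _ => mem_normalizer_of_conj_map_eq (hMconj g))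
    exact Subgroup.normalClosure_le_normal (hmin M hM1 (hHN.trans hNM))
  refine ⟨fun K hK => or_iff_not_imp_left.mpr fun hK1 => ?_⟩
  have hK' : K.map N.subtype = M := by
    refine hMmin _ ((Subgroup.map_subtype_le K).trans hMeq.le)
      (fun h => hK1 ((Subgroup.map_eq_bot_iff_of_injective _ N.subtype_injective).mp h)) ?_
    refine (Subgroup.normal_subgroupOf_iff_le_normalizer (Subgroup.map_subtype_le K)).mp ?_
    rw [Subgroup.subgroupOf, Subgroup.comap_map_eq_self_of_injective N.subtype_injective]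
    exact hK
  apply Subgroup.map_injective N.subtype_injective
  rw [hK', ← MonoidHom.range_eq_map, Subgroup.range_subtype, hMeq]

theorem unique_in_centralizer {H N : Subgroup F} (hHN : H ≤ N) (hH : H ≠ ⊥) {p : ℕ} (hp : p.Prime) (hcard : Nat.card ↥N = p)
    (hmin : ∀ R : Subgroup F, R ≠ ⊥ → H ≤ Subgroup.normalizer (R : Set F) → H ≤ R) :
    ∀ R : Subgroup F, R ≠ ⊥ → R ≤ Subgroup.centralizer (N : Set F) → N ≤ R := by
  haveI := Fact.mk hp
  intro R hR hRC
  have hHeq : H = N := by
    rcases (Nat.dvd_prime hp).mp (hcard ▸ Subgroup.card_dvd_of_le hHN) with h | h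
    · exact absurd (Subgroup.card_eq_one.mp h) hH
    · exact Subgroup.eq_of_le_of_card_ge hHN (by rw [h, hcard])
  subst hHeq
  refine hmin R hR fun h hh => mem_normalizer_of_conj_map_eq (Subgroup.eq_of_le_of_card_ge ?_
    (Subgroup.card_map_of_injective (MulEquiv.injective _)).ge)
  rintro _ ⟨r, hr, rfl⟩
  show h * r * h⁻¹ ∈ R
  rwa [hRC hr h hh, mul_inv_cancel_right]


/-- Let F be a finite group and H a nontrivial subgroup of F that is contained in every nontrivial subgroup of F which H normalizes. Then F has a nontrivial normal subgroup N contained in every nontrivial normal subgroup of F (a unique minimal normal subgroup), N is simple, and one of the following holds: C_F(N) = 1; or H = N has prime order p, C_F(N) is cyclic of order a power of p, and F/C_F(N) is cyclic of order dividing p − 1; or H = N has order 2, N is central in F, and F is a generalized quaternion group. -/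
theorem result {F : Type*} [Group F] [Finite F] (H : Subgroup F) (hH : H ≠ ⊥)
    (hmin : ∀ R : Subgroup F, R ≠ ⊥ → H ≤ Subgroup.normalizer (R : Set F) → H ≤ R) :
    ∃ N : Subgroup F, N.Normal ∧ N ≠ ⊥ ∧ (∀ M : Subgroup F, M.Normal → M ≠ ⊥ → N ≤ M) ∧ IsSimpleGroup ↥N ∧
      (Subgroup.centralizer (N : Set F) = ⊥ ∨
       (H = N ∧ (Nat.card N).Prime ∧ IsCyclic ↥(Subgroup.centralizer (N : Set F)) ∧
          (∃ k : ℕ, 1 ≤ k ∧ Nat.card ↥(Subgroup.centralizer (N : Set F)) = Nat.card N ^ k) ∧
          (∃ g : F, Subgroup.centralizer (N : Set F) ⊔ Subgroup.zpowers g = ⊤) ∧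
          (Subgroup.centralizer (N : Set F)).index ∣ Nat.card N - 1) ∨
       (H = N ∧ Nat.card N = 2 ∧ Subgroup.centralizer (N : Set F) = ⊤ ∧
          ∃ k : ℕ, 1 ≤ k ∧ Nonempty (F ≃* QuaternionGroup (2 ^ k)))) := by
  set N := Subgroup.normalClosure (H : Set F) with hN
  have hHN : H ≤ N := Subgroup.subset_normalClosure
  have hN1 : N ≠ ⊥ := fun h => hH (le_bot_iff.mp (h ▸ hHN))
  have huniv : ∀ M : Subgroup F, M.Normal → M ≠ ⊥ → N ≤ M := fun M hM hM1 => by
    haveI := hM
    exact Subgroup.normalClosure_le_normal (hmin M hM1 (by rw [Subgroup.normalizer_eq_top M]; exact le_top))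
  haveI hs : IsSimpleGroup ↥N := simple_monolith hH hmin
  refine ⟨N, inferInstance, hN1, huniv, hs, ?_⟩
  by_cases hC : Subgroup.centralizer (N : Set F) = ⊥
  · exact Or.inl hC
  refine Or.inr ?_
  set C := Subgroup.centralizer (N : Set F) with hCdef
  have hNC : N ≤ C := huniv C inferInstance hC
  haveI : IsMulCommutative ↥N := Subgroup.le_centralizer_iff_isMulCommutative.mp hNC
  haveI hcyc : IsCyclic ↥N := by
    letI : CommGroup ↥N := { (inferInstance : Group ↥N) with mul_comm := fun a b => mul_comm' a b }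
    infer_instance
  have hprime : (Nat.card ↥N).Prime := by
    letI : CommGroup ↥N := { (inferInstance : Group ↥N) with mul_comm := fun a b => mul_comm' a b }
    exact IsSimpleGroup.prime_card
  haveI := Fact.mk hprime
  set p := Nat.card ↥N with hpdef
  have hHeq : H = N := by
    rcases (Nat.dvd_prime hprime).mp (Subgroup.card_dvd_of_le hHN) with h | h
    · exact absurd (Subgroup.card_eq_one.mp h) hH
    · exact Subgroup.eq_of_le_of_card_ge hHN (by rw [h])
  have hu := unique_in_centralizer hHN hH hprime hpdef.symm hmin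
  have hCp : IsPGroup p ↥C := by
    rw [IsPGroup.iff_card]
    refine ⟨_, Nat.eq_prime_pow_of_unique_prime_dvd Nat.card_pos.ne' fun {q} hq hqd => ?_⟩
    haveI := Fact.mk hq
    obtain ⟨x, hx⟩ := exists_prime_orderOf_dvd_card' q hqd
    have h1 := hu (Subgroup.zpowers (x : F))
      (by rw [Ne, Subgroup.zpowers_eq_bot, ← orderOf_eq_one_iff, Subgroup.orderOf_coe, hx]; exact hq.ne_one)
      (Subgroup.zpowers_le.mpr x.2)
    have h2 := Subgroup.card_dvd_of_le h1
    rw [Nat.card_zpowers, Subgroup.orderOf_coe, hx] at h2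
    exact ((Nat.prime_dvd_prime_iff_eq hprime hq).mp h2).symm
  have hUniq : Uniq p ↥C := by
    intro x y hx hy
    have hz : ∀ z : ↥C, orderOf z = p → Subgroup.zpowers (z : F) = N := fun z hz =>
      (Subgroup.eq_of_le_of_card_ge (hu _
        (by rw [Ne, Subgroup.zpowers_eq_bot, ← orderOf_eq_one_iff, Subgroup.orderOf_coe, hz]; exact hprime.ne_one)
        (Subgroup.zpowers_le.mpr z.2)) (by rw [Nat.card_zpowers, Subgroup.orderOf_coe, hz])).symm
    have h1 : (y : F) ∈ Subgroup.zpowers (x : F) := hz x hx ▸ hz y hy ▸ Subgroup.mem_zpowers _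
    obtain ⟨i, hi⟩ := Subgroup.mem_zpowers_iff.mp h1
    exact Subgroup.mem_zpowers_iff.mpr ⟨i, Subtype.ext (by rw [Subgroup.coe_zpow]; exact hi)⟩
  let f : F →* MulAut ↥N := MulAut.conjNormal
  have hker : f.ker = C := by
    ext x
    rw [MonoidHom.mem_ker, hCdef, Subgroup.mem_centralizer_iff]
    constructor
    · intro h n hn
      have := congrArg Subtype.val (DFunLike.congr_fun h ⟨n, hn⟩)
      simp only [f, MulAut.conjNormal_apply, MulAut.one_apply] at this
      calc n * x = x * n * x⁻¹ * x := by rw [this]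
        _ = x * n := by group
    · intro h
      ext n
      simp only [f, MulAut.conjNormal_apply, MulAut.one_apply]
      rw [← h n n.2, mul_inv_cancel_right]
  have hindex : C.index ∣ p - 1 := by
    rw [← hker, Subgroup.index_ker]
    have := Subgroup.card_subgroup_dvd_card f.range
    rwa [IsCyclic.card_mulAut, Nat.totient_prime hprime] at this
  have hgen : ∃ g : F, C ⊔ Subgroup.zpowers g = ⊤ := by
    haveI : IsCyclic (MulAut ↥N) := by
      haveI : IsCyclic (ZMod (Nat.card ↥N))ˣ := (inferInstance : IsCyclic (ZMod p)ˣ)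
      exact isCyclic_of_injective (IsCyclic.mulAutMulEquiv ↥N).toMonoidHom (IsCyclic.mulAutMulEquiv ↥N).injective
    obtain ⟨⟨_, g, rfl⟩, hg⟩ := IsCyclic.exists_generator (α := f.range)
    refine ⟨g, eq_top_iff.mpr fun x _ => ?_⟩
    obtain ⟨i, hi⟩ := Subgroup.mem_zpowers_iff.mp (hg ⟨f x, x, rfl⟩)
    have hxC : x * (g ^ i)⁻¹ ∈ C := by
      rw [← hker, MonoidHom.mem_ker, map_mul, map_inv, map_zpow]
      have := congrArg Subtype.val hi
      simp only [SubgroupClass.coe_zpow] at this
      rw [this, mul_inv_cancel]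
    have : x = x * (g ^ i)⁻¹ * g ^ i := by group
    rw [this]
    exact Subgroup.mul_mem _ (Subgroup.mem_sup_left hxC) (Subgroup.mem_sup_right (Subgroup.zpow_mem_zpowers g i))
  have hk : ∃ k : ℕ, 1 ≤ k ∧ Nat.card ↥C = p ^ k := by
    obtain ⟨k, hk⟩ := IsPGroup.iff_card.mp hCp
    refine ⟨k, Nat.one_le_iff_ne_zero.mpr fun h => ?_, hk⟩
    rw [h, pow_zero] at hk
    exact hC (Subgroup.card_eq_one.mp hk)
  rcases cyclic_or_quaternion hCp hUniq with hc | ⟨hp2, n, ⟨e⟩⟩
  · exact Or.inl ⟨hHeq, hprime, hc, hk, hgen, hindex⟩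
  · by_cases hn0 : n = 0
    · subst hn0
      refine Or.inl ⟨hHeq, hprime, ?_, hk, hgen, hindex⟩
      haveI : IsCyclic (QuaternionGroup (2 ^ 0)) :=
        isCyclic_of_orderOf_eq_card (QuaternionGroup.xa 0) (by rw [QuaternionGroup.orderOf_xa, Nat.card_eq_fintype_card, QuaternionGroup.card]; rfl)
      exact isCyclic_of_injective e.toMonoidHom e.injective
    · have hCtop : C = ⊤ := by
        rw [← Subgroup.index_eq_one]
        exact Nat.dvd_one.mp (by simpa [hp2] using hindex)
      refine Or.inr ⟨hHeq, hp2, hCtop, n, Nat.one_le_iff_ne_zero.mpr hn0, ⟨?_⟩⟩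
      exact (Subgroup.topEquiv.symm.trans (MulEquiv.subgroupCongr hCtop.symm)).trans e

end Cfsg.Agent.S3025
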