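import Cfsg.Statements.S3027
import Cfsg.Agent.Lib.Components

set_option autoImplicit false
open Cfsg

namespace Cfsg.Agent.S3027

/-- Let G be a finite group and D a normal subgroup of G such that G/D is perfect (that is, G = G′D). Then among the subnormal subgroups B of G with BD = G there is a least one, and it is normal in G. -/
theorem result {G : Type*} [Group G] [Finite G] (D : Subgroup G) [D.Normal] (hperf : ⁅(⊤ : Subgroup G), (⊤ : Subgroup G)⁆ ⊔ D = ⊤) :
    ∃ B : Subgroup G, B.Normal ∧ B ⊔ D = ⊤ ∧ ∀ B' : Subgroup G, B'.IsSubnormal → B' ⊔ D = ⊤ → B ≤ B' := by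
  classical
  let Q : Subgroup G → Prop := fun B => B ⊔ D = ⊤
  have hcomm : ∀ B C : Subgroup G, Q B → Q C → ⁅B, C⁆ ⊔ D = ⊤ := by
    intro B C hB hC
    have h := congrArg (Subgroup.map (QuotientGroup.mk' D)) hperf
    have hD : D.map (QuotientGroup.mk' D) = ⊥ := by rw [Subgroup.map_eq_bot_iff, QuotientGroup.ker_mk']
    rw [Subgroup.map_sup, Subgroup.map_commutator, hD, sup_bot_eq] at h
    have img : ∀ E : Subgroup G, Q E → E.map (QuotientGroup.mk' D) = (⊤ : Subgroup G).map (QuotientGroup.mk' D) := by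
      intro E hE
      rw [← hE, Subgroup.map_sup, hD, sup_bot_eq]
    have h2 : ⁅B, C⁆.map (QuotientGroup.mk' D) = (⊤ : Subgroup G).map (QuotientGroup.mk' D) := by
      rw [Subgroup.map_commutator, img B hB, img C hC, h]
    have h3 := congrArg (Subgroup.comap (QuotientGroup.mk' D)) h2
    rwa [Subgroup.comap_map_eq, Subgroup.comap_map_eq, QuotientGroup.ker_mk', top_sup_eq] at h3
  obtain ⟨B, -, hB⟩ := Finite.exists_le_minimal (p := fun B : Subgroup G => B.Normal ∧ Q B) (a := ⊤)
    ⟨inferInstance, top_sup_eq D⟩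
  obtain ⟨⟨hBn, hBQ⟩, hBmin⟩ := hB
  refine ⟨B, hBn, hBQ, fun B' hB' hB'Q => ?_⟩
  -- a least supplement among the subgroups normal in `B`
  obtain ⟨Y, -, hY⟩ := Finite.exists_le_minimal
    (p := fun Y : Subgroup G => Y ≤ B ∧ B ≤ Subgroup.normalizer (Y : Set G) ∧ Q Y) (a := B)
    ⟨le_rfl, Subgroup.le_normalizer, hBQ⟩
  obtain ⟨⟨hYB, hYn, hYQ⟩, hYmin⟩ := hY
  have hleast : ∀ Z : Subgroup G, Z ≤ B → B ≤ Subgroup.normalizer (Z : Set G) → Q Z → Y ≤ Z := by
    intro Z hZB hZn hZQ
    refine le_trans (hYmin ⟨inf_le_left.trans hYB, CfsgLib.LocalBasic.normalizer_inf_ge hYn hZn, ?_⟩ inf_le_left) inf_le_right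
    refine le_antisymm le_top ((hcomm Y Z hYQ hZQ).ge.trans (sup_le_sup_right (le_inf ?_ ?_) _))
    · exact Subgroup.le_normalizer_iff_commutator_le_left.mp (hZB.trans hYn)
    · rw [Subgroup.commutator_comm]
      exact Subgroup.le_normalizer_iff_commutator_le_left.mp (hYB.trans hZn)
  have hYnorm : Y.Normal := by
    refine ⟨fun y hy g => ?_⟩
    have hconj : B.map (MulAut.conj g⁻¹).toMonoidHom = B :=
      CfsgLib.LocalBasic.conj_map_eq_of_mem_normalizer (by haveI := hBn; rw [Subgroup.normalizer_eq_top]; trivial)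
    have h := hleast (Y.map (MulAut.conj g⁻¹).toMonoidHom) ((Subgroup.map_mono hYB).trans hconj.le) ?_ ?_ hy
    · obtain ⟨y', hy', he⟩ := h
      have he' : g⁻¹ * y' * g⁻¹⁻¹ = y := he
      rw [← he', show g * (g⁻¹ * y' * g⁻¹⁻¹) * g⁻¹ = y' by group]
      exact hy'
    · conv_lhs => rw [← hconj]
      exact (Subgroup.map_mono hYn).trans (Subgroup.le_normalizer_map _)
    · have h := congrArg (Subgroup.map (MulAut.conj g⁻¹).toMonoidHom) hYQ
      rwa [Subgroup.map_sup, CfsgLib.LocalBasic.conj_map_eq_of_mem_normalizer (show g⁻¹ ∈ Subgroup.normalizer (D : Set G) by rw [Subgroup.normalizer_eq_top]; trivial),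
        Subgroup.map_top_of_surjective _ (MulAut.conj g⁻¹).surjective] at h
  have hYBeq : Y = B := le_antisymm hYB (hBmin ⟨hYnorm, hYQ⟩ hYB)
  -- climb the chain
  have hmain : ∀ W : Subgroup G, W.IsSubnormal → W ⊔ D = ⊤ → B ≤ W := by
    intro W hW
    induction hW with
    | top => exact fun _ => le_top
    | step H K hle _ hN ih =>
      intro hH
      have hK : B ≤ K := ih (top_le_iff.mp (hH ▸ sup_le_sup_right hle _))
      have hKn : K ≤ Subgroup.normalizer (H : Set G) := (Subgroup.normal_subgroupOf_iff_le_normalizer hle).mp hN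
      have hBH : Q (B ⊓ H) := by
        refine le_antisymm le_top ((hcomm B H hBQ hH).ge.trans (sup_le_sup_right (le_inf ?_ ?_) _))
        · haveI := hBn; exact Subgroup.commutator_le_left B H
        · rw [Subgroup.commutator_comm]; exact Subgroup.le_normalizer_iff_commutator_le_left.mp (hK.trans hKn)
      have := hleast (B ⊓ H) inf_le_left (CfsgLib.LocalBasic.normalizer_inf_ge Subgroup.le_normalizer (hK.trans hKn)) hBH
      rw [hYBeq] at this
      exact this.trans inf_le_right
  exact hmain B' hB' hB'Q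

end Cfsg.Agent.S3027
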