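import Cfsg.Statements.S3031
import Cfsg.Agent.S0081
import Cfsg.Agent.Lib.Puig
import Cfsg.Agent.Lib.RigidAut
import Cfsg.Agent.Lib.LocalBasic

set_option autoImplicit false
open Cfsg

namespace Cfsg.Agent.S3031
open CfsgLib.LocalBasic
set_option linter.style.haveILetI false

theorem normal_of_H {G : Type*} [Group G] [Finite G] {p : ℕ} [Fact p.Prime] {S E : Subgroup G} (hS : IsPGroup p ↥S)
    (hES : E ≤ S) (hH : ∀ g : G, E.map (MulAut.conj g).toMonoidHom ⊓ Subgroup.normalizer (E : Set G) ≤ E) :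
    S ≤ Subgroup.normalizer (E : Set G) := by
  have hR : S ⊓ Subgroup.normalizer (E : Set G) = S := by
    refine eq_of_normalizer_inf_le hS inf_le_left fun g hg => ?_
    refine Subgroup.mem_inf.mpr ⟨(Subgroup.mem_inf.mp hg).1, mem_normalizer_of_conj_map_eq ?_⟩
    have hle : E.map (MulAut.conj g).toMonoidHom ≤ Subgroup.normalizer (E : Set G) := by
      rintro _ ⟨x, hx, rfl⟩
      have hx' : x ∈ S ⊓ Subgroup.normalizer (E : Set G) := Subgroup.mem_inf.mpr ⟨hES hx, Subgroup.le_normalizer hx⟩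
      exact (Subgroup.mem_inf.mp ((Subgroup.mem_normalizer_iff.mp (Subgroup.mem_inf.mp hg).2 x).mp hx')).2
    refine Subgroup.eq_of_le_of_card_ge ((le_inf le_rfl hle).trans (hH g)) ?_
    rw [Subgroup.card_map_of_injective (f := (MulAut.conj g).toMonoidHom) (MulAut.conj g).injective]
  exact hR.ge.trans inf_le_right

/-- Let G be a finite group, p the smallest prime dividing |G| and P a Sylow p-subgroup. Suppose that P is cyclic, or that P has a subgroup D with 1 < |D| < |P| such that every subgroup E of P of order |D|, and also every subgroup E of P of order 4 when |D| = 2, satisfies g E g⁻¹ ∩ N_G(E) ≤ E for all g ∈ G (E is strongly closed in its normalizer with respect to G). Then G has a normal p-complement. -/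
theorem result {G : Type*} [Group G] [Finite G] {p : ℕ} [Fact p.Prime] (hdiv : p ∣ Nat.card G)
    (hmin : ∀ q : ℕ, q.Prime → q ∣ Nat.card G → p ≤ q) (P : Sylow p G)
    (h : IsCyclic ↥(P : Subgroup G) ∨ ∃ D : Subgroup G, D ≤ (P : Subgroup G) ∧ 1 < Nat.card D ∧ Nat.card D < Nat.card (P : Subgroup G) ∧
      ∀ E : Subgroup G, E ≤ (P : Subgroup G) → (Nat.card E = Nat.card D ∨ (Nat.card D = 2 ∧ Nat.card E = 4)) →
        ∀ g : G, E.map (MulAut.conj g).toMonoidHom ⊓ Subgroup.normalizer (E : Set G) ≤ E) :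
    Cfsg.HasNormalPComplement p G := by
  classical
  set S := (P : Subgroup G)
  have hp := (Fact.out : p.Prime)
  set Φ' := (frattini ↥S).map S.subtype
  obtain ⟨hcom, hpow⟩ := Cfsg.Agent.S0012.result p P.2
  -- automorphisms of order prime to `p` move elements inside the Frattini subgroup
  have hcore : ∀ (Q : Subgroup G), Q ≤ S → ∀ α : MulAut ↥Q, (∃ g : G, ∀ x : Q, ((α x : Q) : G) = g * (x : G) * g⁻¹) →
      (orderOf α).Coprime p → ∀ x : Q, (x : G)⁻¹ * ((α x : Q) : G) ∈ Φ' := by
    rintro Q hQ α ⟨g, hg⟩ hco x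
    have hQp : IsPGroup p ↥Q := P.2.to_le hQ
    have hdvd : orderOf α ∣ Nat.card G := by
      refine (orderOf_dvd_of_pow_eq_one ?_).trans (orderOf_dvd_natCard g)
      have hm : ∀ (m : ℕ) (y : Q), (((α ^ m) y : Q) : G) = g ^ m * (y : G) * (g ^ m)⁻¹ := by
        intro m
        induction m with
        | zero => intro y; simp
        | succ m ih => intro y; rw [pow_succ', MulAut.mul_apply, hg, ih, pow_succ']; group
      refine MulEquiv.ext fun y => Subtype.ext ?_
      rw [hm, pow_orderOf_eq_one]; simp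
    have hα : (orderOf α).Coprime (p * (p - 1)) := by
      refine Nat.Coprime.mul_right hco (Nat.coprime_of_dvd fun q hq hq1 hq2 => ?_)
      have h1 := hmin q hq (hq1.trans hdvd)
      have h2 := Nat.le_of_dvd (Nat.sub_pos_of_lt hp.one_lt) hq2
      have := hp.one_lt
      omega
    rcases h with hcyc | ⟨D, hDP, hD1, hD2, hD⟩
    · haveI : IsCyclic ↥Q := Subgroup.isCyclic_of_le hQ
      obtain ⟨e, he⟩ := IsCyclic.exists_zpow_surjective (G := ↥Q)
      have hee : α e = e := CfsgLib.RigidAut.fix_of_zpowers hQp α hα (he (α e))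
      obtain ⟨m, hm⟩ := he x
      rw [show α x = x by rw [← hm]; simp [map_zpow, hee], inv_mul_cancel]
      exact one_mem _
    obtain ⟨k, hk⟩ := (P.2.to_le hDP).exists_card_eq
    have hk0 : 0 < k := Nat.pos_of_ne_zero fun h0 => by rw [hk, h0, pow_zero] at hD1; omega
    have hnorm : ∀ E : Subgroup G, E ≤ S → (Nat.card E = Nat.card D ∨ (Nat.card D = 2 ∧ Nat.card E = 4)) →
        ∀ z ∈ E, ∀ h : g * z * g⁻¹ ∈ S, g * z * g⁻¹ ∈ E := fun E hES hE z hz h' =>
      hD E hES hE g (Subgroup.mem_inf.mpr ⟨⟨z, hz, rfl⟩, normal_of_H P.2 hES (hD E hES hE) h'⟩)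
    by_cases hbig : p ^ k < Nat.card ↥Q
    · have h1 : α = 1 := by
        refine CfsgLib.RigidAut.eq_one_of_fix_order _ rfl hQp α hα k hk0 hbig fun E hE z hz => ?_
        have h2 := hnorm (E.map Q.subtype) ((Subgroup.map_subtype_le _).trans hQ)
          (by rw [Subgroup.card_map_of_injective Q.subtype_injective, hk]; exact hE) z ⟨z, hz, rfl⟩ (hg z ▸ hQ (α z).2)
        rw [← hg] at h2
        obtain ⟨w, hw, hwz⟩ := h2
        rwa [show α z = w from Subtype.ext hwz.symm]
      rw [h1]; simp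
    -- `|Q| ≤ |D|`
    let toS : ↥Q → ↥S := fun y => ⟨y, hQ y.2⟩
    have hco' : ∀ z : Q, ∃ j : ℕ, toS (α z) * (toS z ^ j)⁻¹ ∈ frattini ↥S := by
      intro z
      refine CfsgLib.RigidAut.mem_of_coatoms P.2 fun H hH hzH => ?_
      obtain ⟨b, hb⟩ := P.2.exists_card_eq
      obtain ⟨a, ha⟩ := (P.2.to_subgroup H).exists_card_eq
      have hkb : k < b := (Nat.pow_lt_pow_iff_right hp.one_lt).mp (by rw [← hk, ← hb]; exact hD2)
      have hka : k ≤ a := by
        by_contra hc
        obtain ⟨E, hE, hHE⟩ := Sylow.exists_subgroup_card_pow_prime_le p (n := a) (m := k) (G := ↥S)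
          (by rw [hb]; exact Nat.pow_dvd_pow p hkb.le) H ha (by omega)
        rcases eq_or_lt_of_le hHE with he | he
        · rw [he, hE] at ha; have := Nat.pow_right_injective hp.two_le ha; omega
        · rw [hH.2 E he, Subgroup.card_top, hb] at hE; have := Nat.pow_right_injective hp.two_le hE; omega
      obtain ⟨i, hi⟩ := IsPGroup.iff_orderOf.mp P.2 (toS z)
      have hik : i ≤ k := by
        refine (Nat.pow_le_pow_iff_right hp.one_lt).mp ?_
        rw [← hi, ← Subgroup.orderOf_coe]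
        refine le_trans ?_ (not_lt.mp hbig)
        show orderOf ((z : Q) : G) ≤ _
        rw [Subgroup.orderOf_coe]
        exact Nat.le_of_dvd Nat.card_pos (orderOf_dvd_natCard z)
      obtain ⟨E1, hE1, hzE1⟩ := Sylow.exists_subgroup_card_pow_prime_le p (n := i) (m := k) (G := ↥H)
        (by rw [ha]; exact Nat.pow_dvd_pow p hka) (Subgroup.zpowers (⟨toS z, hzH⟩ : H))
        (by rw [Nat.card_zpowers, ← hi, ← Subgroup.orderOf_coe]) hik
      have h2 := hnorm ((E1.map H.subtype).map S.subtype) (Subgroup.map_subtype_le _)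
        (Or.inl (by rw [Subgroup.card_map_of_injective S.subtype_injective,
          Subgroup.card_map_of_injective H.subtype_injective, hE1, hk])) (toS z : G)
        ⟨toS z, ⟨⟨toS z, hzH⟩, hzE1 (Subgroup.mem_zpowers _), rfl⟩, rfl⟩ (by
          show g * (z : G) * g⁻¹ ∈ S
          rw [← hg]; exact hQ (α z).2)
      obtain ⟨w, ⟨v, hv, rfl⟩, hw⟩ := h2
      have : toS (α z) = (v : ↥S) := Subtype.ext ((hg z).trans hw.symm)
      rw [this]; exact v.2
    let N : Subgroup ↥Q := Φ'.subgroupOf Q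
    have hNmem : ∀ y : ↥Q, y ∈ N ↔ toS y ∈ frattini ↥S := fun y =>
      ⟨fun hy => by
        obtain ⟨w, hw, hwy⟩ := Subgroup.mem_subgroupOf.mp hy
        rwa [show toS y = w from Subtype.ext hwy.symm],
      fun hy => Subgroup.mem_subgroupOf.mpr ⟨toS y, hy, rfl⟩⟩
    haveI : N.Normal := ⟨fun y hy z => (hNmem _).mpr
      ((inferInstance : (frattini ↥S).Normal).conj_mem _ ((hNmem y).mp hy) (toS z))⟩
    have hNinv : ∀ c ∈ N, α c ∈ N := fun c hc => by
      obtain ⟨j, hj⟩ := hco' c
      refine (hNmem _).mpr ?_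
      have := mul_mem hj (pow_mem ((hNmem c).mp hc) j)
      rwa [inv_mul_cancel_right] at this
    obtain ⟨j, hj⟩ := hco' x
    have h3 := CfsgLib.RigidAut.fix_mod N α hNinv (x := x) (j := j) ((hNmem _).mpr hj) (by
      obtain ⟨l, -, hl⟩ := (Nat.dvd_prime_pow hp).mp (show orderOf (x : ↥Q ⧸ N) ∣ p ^ 1 from orderOf_dvd_of_pow_eq_one (by
        rw [pow_one, ← QuotientGroup.mk_pow, QuotientGroup.eq_one_iff]; exact (hNmem _).mpr (hpow (toS x))))
      rw [hl]; exact CfsgLib.RigidAut.coprime_totient hp hα)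
    exact Subgroup.mem_subgroupOf.mp h3
  -- the hyperfocal subgroup
  have hhyp : Cfsg.pResidual p G ⊓ S ≤ Φ' := by
    rw [inf_comm, ← CfsgLib.Puig.hyp_eq P]
    refine (Subgroup.closure_le _).mpr ?_
    rintro _ ⟨Q, α, x, hQ, hα, rfl⟩
    revert x
    induction hα using Subgroup.closure_induction with
    | mem β hβ =>
      intro x
      have hmem : (β : MulAut ↥Q) ∈ Cfsg.autInducedBy ⊤ Q := by rw [← CfsgLib.Fusion.group_autGroup hQ]; exact β.2
      obtain ⟨g, -, hg⟩ := (CfsgLib.Fusion.mem_autInducedBy _).mp hmem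
      exact hcore Q hQ _ ⟨g, hg⟩ (by rw [Subgroup.orderOf_coe]; exact hβ) x
    | one => intro x; simp
    | mul a b _ _ ha hb =>
      intro x
      have := mul_mem (hb x) (ha ((b : MulAut ↥Q) x))
      rw [SetLike.mem_coe]
      show (x : G)⁻¹ * (((a : MulAut ↥Q) ((b : MulAut ↥Q) x) : Q) : G) ∈ Φ'
      simpa [mul_assoc] using this
    | inv a _ ha =>
      intro x
      have := inv_mem (ha (((a : MulAut ↥Q))⁻¹ x))
      rw [mul_inv_rev, inv_inv, MulAut.apply_inv_self] at this
      exact this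
  haveI : (Cfsg.pResidual p G).Normal := inferInstance
  have h81 := Cfsg.Agent.S0081.result P (Cfsg.pResidual p G) hhyp
  rw [CfsgLib.ThompsonNPC.hasNPC_subgroup_iff] at h81
  rw [CfsgLib.ThompsonNPC.hasNPC_iff]
  intro u _ v _ hu hv
  exact h81 u (Subgroup.subset_closure hu) v (Subgroup.subset_closure hv) hu hv

end Cfsg.Agent.S3031
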