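import Cfsg.Statements.S3032
import Cfsg.Agent.S3031
import Cfsg.Agent.Lib.RigidReach

set_option autoImplicit false
open Cfsg

namespace Cfsg.Agent.S3032
open CfsgLib.Supersolvable CfsgLib.ThompsonNPC
set_option linter.style.haveILetI false

/-- The hypothesis on the non-cyclic Sylow subgroups of `E`. -/
def Hyp {G : Type*} [Group G] (E : Subgroup G) : Prop :=
  ∀ (p : ℕ), p.Prime → ∀ P : Subgroup G, P ≤ E → IsPGroup p P → ¬ p ∣ P.relIndex E → ¬ IsCyclic ↥P →
      ∃ D : Subgroup G, D ≤ P ∧ 1 < Nat.card D ∧ Nat.card D < Nat.card P ∧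
        ∀ F : Subgroup G, F ≤ P → (Nat.card F = Nat.card D ∨ (Nat.card D = 2 ∧ Nat.card F = 4)) →
          ∀ g : G, F.map (MulAut.conj g).toMonoidHom ⊓ Subgroup.normalizer (F : Set G) ≤ F

theorem reach_of_hyp {G : Type*} [Group G] [Finite G] (n : ℕ) :
    ∀ E : Subgroup G, E.Normal → Nat.card ↥E = n → Hyp E → Reach E := by
  induction n using Nat.strong_induction_on with
  | _ n ih =>
  intro E hEn hn h
  haveI := hEn
  by_cases hE1 : E = ⊥
  · rw [hE1]; exact Reach.bot
  obtain ⟨p, hp, hpd, hmin⟩ : ∃ p, p.Prime ∧ p ∣ Nat.card ↥E ∧ ∀ q : ℕ, q.Prime → q ∣ Nat.card ↥E → p ≤ q :=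
    ⟨(Nat.card ↥E).minFac, Nat.minFac_prime fun h1 => hE1 (Subgroup.card_eq_one.mp h1), Nat.minFac_dvd _,
      fun q hq hqd => Nat.minFac_le_of_dvd hq.two_le hqd⟩
  haveI := Fact.mk hp
  obtain ⟨P0⟩ := (inferInstance : Nonempty (Sylow p ↥E))
  set P := (P0 : Subgroup ↥E).map E.subtype
  have hPE : P ≤ E := Subgroup.map_subtype_le _
  have hPp : IsPGroup p ↥P := P0.2.map _
  have hsub : P.subgroupOf E = P0 := Subgroup.comap_map_eq_self_of_injective E.subtype_injective _
  have hrel : ¬ p ∣ P.relIndex E := by rw [Subgroup.relIndex, hsub]; exact P0.not_dvd_index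
  have hcyc : IsCyclic ↥(P0 : Subgroup ↥E) ↔ IsCyclic ↥P :=
    ((P0 : Subgroup ↥E).equivMapOfInjective _ E.subtype_injective).isCyclic
  have hD := fun hnc : ¬ IsCyclic ↥P => h p hp P hPE hPp hrel hnc
  have h3031 : Cfsg.HasNormalPComplement p ↥E := by
    refine Cfsg.Agent.S3031.result hpd hmin P0 ?_
    by_cases hc : IsCyclic ↥P
    · exact Or.inl (hcyc.mpr hc)
    obtain ⟨D, hDP, hD1, hD2, hD⟩ := hD hc
    have hcardD : Nat.card ↥(D.subgroupOf E) = Nat.card ↥D :=
      Nat.card_congr (Subgroup.subgroupOfEquivOfLe (hDP.trans hPE)).toEquiv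
    refine Or.inr ⟨D.subgroupOf E, hsub ▸ Subgroup.comap_mono hDP, hcardD ▸ hD1, ?_, fun F hF hFc g z hz => ?_⟩
    · rw [hcardD, ← Subgroup.card_map_of_injective (K := (P0 : Subgroup ↥E)) E.subtype_injective]; exact hD2
    obtain ⟨⟨y, hy, rfl⟩, hzN⟩ := Subgroup.mem_inf.mp hz
    have h1 := hD (F.map E.subtype) (Subgroup.map_mono hF)
      (by rw [Subgroup.card_map_of_injective E.subtype_injective, ← hcardD]; exact hFc) (g : G)
      (Subgroup.mem_inf.mpr ⟨⟨(y : G), ⟨y, hy, rfl⟩, rfl⟩,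
        Subgroup.le_normalizer_map E.subtype ⟨_, hzN, rfl⟩⟩)
    obtain ⟨w, hw, hwz⟩ := h1
    rwa [show (MulAut.conj g).toMonoidHom y = w from Subtype.ext hwz.symm]
  have hpc : PCOn p E := hasNPC_subgroup_iff.mp h3031
  set N := pcore' hpc
  have hNE : N ≤ E := pcore'_le hpc
  haveI hNn : N.Normal := Subgroup.normalizer_eq_top_iff.mp (top_unique (by
    have := normalizer_le_pcore' hpc
    rwa [Subgroup.normalizer_eq_top_iff.mpr hEn] at this))
  have hNp : (Nat.card ↥N).Coprime p := card_pcore'_coprime hpc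
  have hsup : E ≤ P ⊔ N := by
    intro x hx
    have h1 : (⟨x, hx⟩ : ↥E) ∈ (P0 : Subgroup ↥E) ⊔ Cfsg.pResidual p ↥E := by
      rw [CfsgLib.PResidual.sup_pResidual_eq_top P0]; exact Subgroup.mem_top _
    have h2 : ((P0 : Subgroup ↥E) ⊔ Cfsg.pResidual p ↥E).map E.subtype ≤ P ⊔ N := by
      rw [Subgroup.map_sup]
      refine sup_le_sup le_rfl ?_
      rw [Cfsg.pResidual, MonoidHom.map_closure]
      refine (Subgroup.closure_le _).mpr ?_
      rintro _ ⟨z, hz, rfl⟩
      exact ⟨z.2, by rw [Subgroup.coe_subtype, Subgroup.orderOf_coe]; exact hz⟩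
    exact h2 ⟨_, h1, rfl⟩
  have hPN : P ⊓ N = ⊥ := by
    refine Subgroup.card_eq_one.mp ?_
    obtain ⟨a, ha⟩ := (hPp.to_le (inf_le_left : P ⊓ N ≤ P)).exists_card_eq
    exact Nat.eq_one_of_dvd_coprimes (hNp.symm.pow_left a) (ha ▸ dvd_rfl)
      (ha ▸ Subgroup.card_dvd_of_le (inf_le_right : P ⊓ N ≤ N))
  have hfrat : Subgroup.normalizer (P : Set G) ⊔ N = ⊤ := by
    refine top_unique ?_
    rw [← Sylow.normalizer_sup_eq_top P0]
    exact sup_le le_sup_left ((hsup.trans (sup_le_sup Subgroup.le_normalizer le_rfl)))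
  -- the complement satisfies the hypothesis
  have hlt : Nat.card ↥N < n := by
    refine hn ▸ lt_of_le_of_ne (Subgroup.card_le_of_le hNE) fun he => ?_
    exact hp.ne_one (Nat.eq_one_of_dvd_coprimes hNp (he ▸ hpd) dvd_rfl)
  have hNhyp : Hyp N := by
    intro q hq Q hQN hQq hQrel hQc
    refine h q hq Q (hQN.trans hNE) hQq ?_ hQc
    rw [← Subgroup.relIndex_mul_relIndex Q N E hQN hNE]
    intro hd
    rcases hq.dvd_mul.mp hd with hd | hd
    · exact hQrel hd
    by_cases hqp : q = p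
    · subst hqp
      refine hQc ?_
      obtain ⟨a, ha⟩ := hQq.exists_card_eq
      have h1 : Nat.card ↥Q = 1 := Nat.eq_one_of_dvd_coprimes (hNp.symm.pow_left a) (ha ▸ dvd_rfl)
        (ha ▸ Subgroup.card_dvd_of_le hQN)
      haveI : Subsingleton ↥Q := (Nat.card_eq_one_iff_unique.mp h1).1
      infer_instance
    have h2 : N.relIndex E ∣ Nat.card ↥P := by
      rw [show E = P ⊔ N from le_antisymm hsup (sup_le hPE hNE), Subgroup.relIndex_sup_right]
      exact Subgroup.relIndex_dvd_card N P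
    obtain ⟨a, ha⟩ := hPp.exists_card_eq
    exact hqp ((Nat.prime_dvd_prime_iff_eq hq hp).mp (hq.dvd_of_dvd_pow (ha ▸ hd.trans h2)))
  have hRN : Reach N := ih _ hlt N hNn rfl hNhyp
  -- the quotient
  set f := QuotientGroup.mk' N with hf
  haveI : (E.map f).Normal := hEn.map f (QuotientGroup.mk'_surjective N)
  have hQe : E.map f = P.map f := by
    refine le_antisymm ?_ (Subgroup.map_mono hPE)
    refine (Subgroup.map_mono hsup).trans ?_
    rw [Subgroup.map_sup, hf, QuotientGroup.map_mk'_self, sup_bot_eq]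
  have hQp : IsPGroup p ↥(E.map f) := hQe ▸ hPp.map f
  let r : ↥P →* G ⧸ N := f.comp P.subtype
  have hr : Function.Injective r := by
    rw [← MonoidHom.ker_eq_bot_iff, eq_bot_iff]
    intro x hx
    have : (x : G) ∈ P ⊓ N := Subgroup.mem_inf.mpr ⟨x.2, (QuotientGroup.eq_one_iff _).mp hx⟩
    rw [hPN, Subgroup.mem_bot] at this
    exact Subgroup.mem_bot.mpr (Subtype.ext this)
  have hrange : r.range = E.map f := by
    rw [hQe, MonoidHom.range_comp, Subgroup.range_subtype]
  have hreach : Reach (E.map f) := by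
    refine CfsgLib.RigidReach.reach_of_order (p := p) _ hQp ?_
    by_cases hc : IsCyclic ↥P
    · exact Or.inl (hrange ▸ isCyclic_of_surjective r.rangeRestrict r.rangeRestrict_surjective)
    obtain ⟨D, hDP, hD1, hD2, hD⟩ := hD hc
    obtain ⟨k, hk⟩ := (hPp.to_le hDP).exists_card_eq
    refine Or.inr ⟨k, Nat.pos_of_ne_zero fun h0 => by rw [hk, h0, pow_zero] at hD1; omega, ?_, fun F hF hFc => ?_⟩
    · rw [← hk, ← hrange, ← Nat.card_congr (MonoidHom.ofInjective hr).toEquiv]; exact hD2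
    have hF1 : (F.comap r).map r = F := Subgroup.map_comap_eq_self (hrange ▸ hF)
    set F2 := (F.comap r).map P.subtype
    have hF2P : F2 ≤ P := Subgroup.map_subtype_le _
    have hF2f : F2.map f = F := by rw [Subgroup.map_map]; exact hF1
    have hcard : Nat.card ↥F2 = Nat.card ↥F := by
      rw [Subgroup.card_map_of_injective P.subtype_injective, ← Subgroup.card_map_of_injective (K := F.comap r) hr, hF1]
    have hH := hD F2 hF2P (by rw [hcard, hk]; exact hFc)
    refine ⟨fun y hy g' => ?_⟩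
    obtain ⟨g, rfl⟩ := QuotientGroup.mk'_surjective N g'
    obtain ⟨m, hm, c, hc, rfl⟩ := Subgroup.mem_sup_of_normal_right.mp (hfrat ▸ Subgroup.mem_top g : g ∈ Subgroup.normalizer (P : Set G) ⊔ N)
    rw [← hF2f] at hy ⊢
    obtain ⟨x, hx, rfl⟩ := hy
    refine ⟨m * x * m⁻¹, hH m (Subgroup.mem_inf.mpr ⟨⟨x, hx, rfl⟩,
      Cfsg.Agent.S3031.normal_of_H hPp hF2P hH ((Subgroup.mem_normalizer_iff.mp hm x).mp (hF2P hx))⟩), ?_⟩
    have h1 : f c = 1 := (QuotientGroup.eq_one_iff c).mpr hc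
    simp only [← hf, map_mul, map_inv, h1, mul_one]
  have hfinal := reach_comap hRN hreach
  rwa [Subgroup.comap_map_eq_self (by rw [QuotientGroup.ker_mk']; exact hNE)] at hfinal

/-- Let G be a finite group and E a normal subgroup with G/E supersolvable. Suppose that for every prime p and every non-cyclic Sylow p-subgroup P of E there is a subgroup D of P with 1 < |D| < |P| such that every subgroup F of P of order |D|, and also every subgroup F of P of order 4 when |D| = 2, satisfies g F g⁻¹ ∩ N_G(F) ≤ F for all g ∈ G. Then G is supersolvable. -/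
theorem result {G : Type*} [Group G] [Finite G] (E : Subgroup G) [E.Normal] (hGE : Cfsg.IsSupersolvable (G ⧸ E))
    (h : ∀ (p : ℕ), p.Prime → ∀ P : Subgroup G, P ≤ E → IsPGroup p P → ¬ p ∣ P.relIndex E → ¬ IsCyclic ↥P →
      ∃ D : Subgroup G, D ≤ P ∧ 1 < Nat.card D ∧ Nat.card D < Nat.card P ∧
        ∀ F : Subgroup G, F ≤ P → (Nat.card F = Nat.card D ∨ (Nat.card D = 2 ∧ Nat.card F = 4)) →
          ∀ g : G, F.map (MulAut.conj g).toMonoidHom ⊓ Subgroup.normalizer (F : Set G) ≤ F) :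
    Cfsg.IsSupersolvable G := by
  exact CfsgLib.Supersolvable.of_reach_quotient (reach_of_hyp _ E inferInstance rfl h) hGE

end Cfsg.Agent.S3032
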