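import Cfsg.Statements.S3053
import Cfsg.Agent.Lib.LocalBasic
import Cfsg.Agent.Lib.Fusion.Group
import Mathlib.GroupTheory.Frattini
import Mathlib.Tactic.LinearCombination

set_option autoImplicit false
open Cfsg

namespace Cfsg.Agent.S3053
open Subgroup
open scoped commutatorElement

/-- The facts used from an extraspecial group of order `p³`. -/
theorem extraFacts {Q : Type*} [Group Q] [Finite Q] {p : ℕ} [hp : Fact p.Prime] (hE : Cfsg.IsExtraspecial p Q) :
    (∀ a b : Q, ⁅a, b⁆ ∈ center Q) ∧ (∀ a : Q, a ^ p ∈ center Q) ∧ ∀ z : Q, z ∈ center Q → z ≠ 1 → center Q = zpowers z := by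
  refine ⟨fun a b => hE.1.2.2 ▸ commutator_mem_commutator (mem_top a) (mem_top b), fun a => ?_, fun z hz hz1 => ?_⟩
  · rw [← hE.1.2.1]
    simp only [frattini, Order.radical, mem_iInf]
    intro M hM
    haveI : Group.IsNilpotent Q := hE.1.1.isNilpotent
    haveI hn : M.Normal := NormalizerCondition.normal_of_coatom M Group.normalizerCondition_of_isNilpotent hM
    by_contra ha
    obtain ⟨k, hk⟩ := IsPGroup.iff_card.mp (hE.1.1.to_quotient M)
    rcases k with _ | _ | k
    · exact hM.1 (Subgroup.index_eq_one.mp (by rw [index_eq_card, hk, pow_zero]))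
    · exact ha (by simpa [hk, index_eq_card] using M.pow_index_mem a)
    · obtain ⟨K, hK⟩ := Sylow.exists_subgroup_card_pow_prime p (G := Q ⧸ M) (n := 1) (by rw [hk]; exact pow_dvd_pow p (by omega))
      have hle : M ≤ K.comap (QuotientGroup.mk' M) := by
        intro m hm
        rw [mem_comap, QuotientGroup.mk'_apply, (QuotientGroup.eq_one_iff m).mpr hm]
        exact one_mem _
      rcases hle.eq_or_lt with he | hlt
      · have : K = ⊥ := by
          rw [← map_comap_eq_self_of_surjective (QuotientGroup.mk'_surjective M) K, ← he, Subgroup.map_eq_bot_iff, QuotientGroup.ker_mk']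
        rw [this, Subgroup.card_bot, pow_one] at hK
        exact hp.out.ne_one hK.symm
      · have : K = ⊤ := by
          rw [← map_comap_eq_self_of_surjective (QuotientGroup.mk'_surjective M) K, hM.2 _ hlt,
            map_top_of_surjective _ (QuotientGroup.mk'_surjective M)]
        rw [this, card_top, hk] at hK
        have := Nat.pow_right_injective hp.out.two_le hK
        omega
  · refine (eq_of_le_of_card_ge (zpowers_le.mpr hz) ?_).symm
    rw [hE.2, Nat.card_zpowers]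
    have hd := orderOf_dvd_natCard (center Q) hz
    rw [hE.2] at hd
    exact ((Nat.dvd_prime hp.out).mp hd).resolve_left (fun h => hz1 (orderOf_eq_one_iff.mp h)) ▸ le_rfl

variable {G : Type*} [Group G] [Finite G] {p : ℕ} [hp : Fact p.Prime]

/-- A power of an element acting nontrivially on `⟨e, z⟩` moves `e` to `e z`. -/
theorem scale {x e z : G} {i : ℤ} (hp' : orderOf z = p) (hxz : x * z * x⁻¹ = z) (hx : x * e * x⁻¹ = e * z ^ i)
    (hne : x * e * x⁻¹ ≠ e) : ∃ k : ℕ, x ^ k * e * (x ^ k)⁻¹ = e * z ∧ x ^ k * z * (x ^ k)⁻¹ = z := by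
  have hpow : ∀ k : ℕ, x ^ k * e * (x ^ k)⁻¹ = e * z ^ (i * k) ∧ x ^ k * z * (x ^ k)⁻¹ = z := by
    intro k
    induction k with
    | zero => simp
    | succ k ih =>
      constructor
      · rw [pow_succ', show x * x ^ k * e * (x * x ^ k)⁻¹ = x * (x ^ k * e * (x ^ k)⁻¹) * x⁻¹ by group, ih.1, ← conj_mul, hx,
          ← conj_zpow, hxz, mul_assoc, ← zpow_add]
        push_cast; ring_nf
      · rw [pow_succ', show x * x ^ k * z * (x * x ^ k)⁻¹ = x * (x ^ k * z * (x ^ k)⁻¹) * x⁻¹ by group, ih.2, hxz]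
  have hi : ¬ (p : ℤ) ∣ i := fun hd => hne (by
    rw [hx, show z ^ i = 1 from orderOf_dvd_iff_zpow_eq_one.mp (hp' ▸ hd), mul_one])
  obtain ⟨u, v, huv⟩ := ((Int.isCoprime_iff_gcd_eq_one).mpr (show Int.gcd (p : ℤ) i = 1 by
    rw [Int.gcd_eq_natAbs, Int.natAbs_natCast]
    exact hp.out.coprime_iff_not_dvd.mpr (fun h => hi (Int.natCast_dvd.mpr h))))
  obtain ⟨k, hk⟩ : ∃ k : ℕ, (p : ℤ) ∣ (k : ℤ) - v := by
    refine ⟨(v % p).toNat, ?_⟩
    rw [Int.toNat_of_nonneg (Int.emod_nonneg _ (by exact_mod_cast hp.out.ne_zero))]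
    exact dvd_sub_comm.mp (Int.dvd_self_sub_emod)
  refine ⟨k, ?_, (hpow k).2⟩
  rw [(hpow k).1]
  congr 1
  obtain ⟨t, ht⟩ := hk
  have : i * k = p * (i * t - u) + 1 := by linear_combination i * ht + huv
  rw [this, zpow_add, zpow_one, zpow_mul, show z ^ (p : ℤ) = 1 by rw [zpow_natCast, ← hp', pow_orderOf_eq_one], one_zpow, one_mul]


/-- Let p be an odd prime and G a finite group with a Sylow p-subgroup P that is extraspecial of order p³ and exponent p². Then the centre of P is strongly closed in P with respect to G: a G-conjugate of an element of Z(P) that lies in P already lies in Z(P). In particular a nontrivial central element of P is conjugate in G to no noncentral element of P. -/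
theorem result {G : Type*} [Group G] [Finite G]
    {p : ℕ} [Fact p.Prime] (hp : p ≠ 2) (P : Sylow p G) (hE : Cfsg.IsExtraspecial p ↥P)
    (hcard : Nat.card P = p ^ 3) (hexp : Monoid.exponent ↥P = p ^ 2) :
    Cfsg.IsStronglyClosed ((Subgroup.center ↥P).map (P : Subgroup G).subtype) (P : Subgroup G) := by
  classical
  have hp_one : 1 < p := (Fact.out : p.Prime).one_lt
  have hp_pos : 0 < p := (Fact.out : p.Prime).pos
  set H := (P : Subgroup G)
  change Cfsg.IsExtraspecial p ↥H at hE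
  change Nat.card ↥H = p ^ 3 at hcard
  change Monoid.exponent ↥H = p ^ 2 at hexp
  obtain ⟨hcom, hpowc, hcyc⟩ := extraFacts hE
  refine ⟨map_subtype_le _, ?_⟩
  rintro _ ⟨z, hz, rfl⟩ g he
  simp only [coe_subtype] at he ⊢
  by_contra hnZ
  have hz1 : z ≠ 1 := fun h => hnZ (by subst h; simp)
  have hzz := hcyc z hz hz1
  have hzp : orderOf z = p := by rw [← Nat.card_zpowers, ← hzz, hE.2]
  have hzpG : orderOf (z : G) = p := (orderOf_coe z).trans hzp
  set e : ↥H := ⟨g * (z : G) * g⁻¹, he⟩ with hedef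
  have heG : (e : G) = g * (z : G) * g⁻¹ := rfl
  have hep : orderOf e = p := by
    rw [← orderOf_coe e, heG]
    exact (orderOf_injective (MulAut.conj g).toMonoidHom (MulEquiv.injective _) (z : G)).trans hzpG
  have heZ : e ∉ center ↥H := fun h => hnZ ⟨e, h, rfl⟩
  -- `E = C_P(e) = ⟨e, z⟩`
  set CP := centralizer ({e} : Set ↥H) with hCP
  set W := closure ({z, e} : Set ↥H) with hW
  have hWC : W ≤ CP := by
    refine (closure_le _).mpr ?_
    rintro w (rfl | rfl)
    · exact mem_centralizer_singleton_iff.mpr (mem_center_iff.mp hz e).symm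
    · exact mem_centralizer_singleton_iff.mpr rfl
  have hCPne : CP ≠ ⊤ := fun h => heZ (mem_center_iff.mpr fun y => mem_centralizer_singleton_iff.mp (h.ge (mem_top y)))
  have hWcard : Nat.card ↥W = p ^ 2 ∧ W = CP := by
    obtain ⟨a, ha⟩ := IsPGroup.iff_card.mp (P.2.to_subgroup W)
    obtain ⟨b, hb⟩ := IsPGroup.iff_card.mp (P.2.to_subgroup CP)
    have h1 : zpowers z < W := lt_of_le_of_ne (zpowers_le.mpr (subset_closure (Or.inl rfl))) fun h =>
      heZ (hzz ▸ h.ge (subset_closure (Or.inr rfl)))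
    have h1' : p < p ^ a := by
      refine (le_of_eq (by rw [Nat.card_zpowers, hzp] : p = Nat.card ↥(zpowers z))).trans_lt ?_
      rw [← ha]
      exact lt_of_le_of_ne (card_le_of_le h1.le) fun h => h1.ne (eq_of_le_of_card_ge h1.le h.ge)
    have h2 : p ^ b < p ^ 3 := by
      rw [← hb, ← hcard]
      exact lt_of_le_of_ne (Subgroup.card_le_card_group _) fun h => hCPne (Subgroup.eq_top_of_card_eq _ h)
    have h3 : p ^ a ≤ p ^ b := by rw [← ha, ← hb]; exact card_le_of_le hWC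
    have e1 : 1 < a := (Nat.pow_lt_pow_iff_right hp_one).mp (by rwa [pow_one])
    have e2 : b < 3 := (Nat.pow_lt_pow_iff_right hp_one).mp h2
    have e3 : a ≤ b := (Nat.pow_le_pow_iff_right hp_one).mp h3
    obtain rfl : a = 2 := by omega
    exact ⟨ha, eq_of_le_of_card_ge hWC (by rw [ha, hb, show b = 2 by omega])⟩
  have hWcomm : ∀ a ∈ W, ∀ b ∈ W, a * b = b * a := fun a ha b hb => by
    have hzy : ∀ x ∈ ({z, e} : Set ↥H), ∀ y ∈ ({z, e} : Set ↥H), x * y = y * x := by
      rintro x (rfl | rfl) y (rfl | rfl) <;>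
        first | rfl | exact (mem_center_iff.mp hz _) | exact (mem_center_iff.mp hz _).symm
    exact congrArg Subtype.val ((isMulCommutative_closure hzy).is_comm.comm ⟨a, ha⟩ ⟨b, hb⟩)
  have hWexp : ∀ a ∈ W, a ^ p = 1 := by
    intro a ha
    induction ha using closure_induction with
    | mem a ha => rcases ha with rfl | rfl; exacts [orderOf_dvd_iff_pow_eq_one.mp hzp.dvd, orderOf_dvd_iff_pow_eq_one.mp hep.dvd]
    | one => exact one_pow _
    | mul a b ha hb iha ihb => rw [(show Commute a b from hWcomm a ha b hb).mul_pow, iha, ihb, one_mul]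
    | inv a _ iha => rw [inv_pow, iha, inv_one]
  set E := W.map H.subtype with hEdef
  have hzE : (z : G) ∈ E := ⟨z, subset_closure (Or.inl rfl), rfl⟩
  have heE : (e : G) ∈ E := ⟨e, subset_closure (Or.inr rfl), rfl⟩
  -- the element of `P` moving `e`
  obtain ⟨x₀, hx₀⟩ : ∃ x : ↥H, x * e * x⁻¹ ≠ e := by
    by_contra h
    push Not at h
    exact heZ (mem_center_iff.mpr fun y => mul_inv_eq_iff_eq_mul.mp (h y))
  obtain ⟨i, hi⟩ : e⁻¹ * (x₀ * e * x₀⁻¹) ∈ zpowers z := by
    rw [← hzz, show e⁻¹ * (x₀ * e * x₀⁻¹) = ⁅e⁻¹, x₀⁆ by rw [commutatorElement_def]; group]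
    exact hcom _ _
  obtain ⟨k, hxe, hxz⟩ := scale (x := (x₀ : G)) (e := (e : G)) (z := (z : G)) (i := i) hzpG
    (mul_inv_eq_iff_eq_mul.mpr (congrArg Subtype.val (mem_center_iff.mp hz x₀)))
    (congrArg Subtype.val (show x₀ * e * x₀⁻¹ = e * z ^ i by rw [show z ^ i = e⁻¹ * (x₀ * e * x₀⁻¹) from hi, mul_inv_cancel_left]))
    (fun h => hx₀ (Subtype.ext h))
  set x := (x₀ : G) ^ k
  -- a second Sylow subgroup, in which `e` is central
  have hCe : ∀ w ∈ E, w * (e : G) = e * w := by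
    rintro _ ⟨w, hw, rfl⟩
    exact congrArg Subtype.val (hWcomm w hw e (subset_closure (Or.inr rfl)))
  have hEp : IsPGroup p ↥E := (P.2.to_subgroup W).map _
  obtain ⟨R, hR⟩ : ∃ R : Sylow p G, E ≤ (R : Subgroup G) ∧ ∀ r ∈ (R : Subgroup G), r * (e : G) = e * r := by
    set M := centralizer ({(e : G)} : Set G)
    have hgP : H.map (MulAut.conj g).toMonoidHom ≤ M := by
      rintro _ ⟨y, hy, rfl⟩
      refine mem_centralizer_singleton_iff.mpr ?_
      simp only [MulEquiv.coe_toMonoidHom, MulAut.conj_apply, heG]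
      calc g * y * g⁻¹ * (g * (z : G) * g⁻¹) = g * (y * (z : G)) * g⁻¹ := by group
        _ = g * ((z : G) * y) * g⁻¹ := by rw [show y * (z : G) = z * y from congrArg Subtype.val (mem_center_iff.mp hz ⟨y, hy⟩)]
        _ = _ := by group
    obtain ⟨m, hm, hmE⟩ := CfsgLib.LocalBasic.exists_conj_le_sylow (g • P) (M := M) (R := E)
      (by rw [Sylow.coe_subgroup_smul]; exact hgP) hEp (fun w hw => mem_centralizer_singleton_iff.mpr (hCe w hw))
    refine ⟨(m⁻¹ * g) • P, fun w hw => ?_, fun r hr => ?_⟩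
    · have h := hmE w hw
      rw [Sylow.coe_subgroup_smul] at h
      rw [Sylow.coe_subgroup_smul]
      obtain ⟨y, hy, hye⟩ := h
      refine ⟨y, hy, ?_⟩
      simp at hye ⊢
      calc _ = m⁻¹ * (g * y * g⁻¹) * m := by group
        _ = w := by rw [hye]; group
    · rw [Sylow.coe_subgroup_smul] at hr
      obtain ⟨y, hy, rfl⟩ := hr
      have h := mem_centralizer_singleton_iff.mp (mul_mem (mul_mem (inv_mem hm) (hgP ⟨y, hy, rfl⟩)) hm)
      simp at h ⊢
      simpa [mul_assoc] using h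
  obtain ⟨hER, hRc⟩ := hR
  have eiso : ↥(R : Subgroup G) ≃* ↥H := Sylow.equiv R P
  have hRcomm : ∀ a b : ↥(R : Subgroup G), ⁅a, b⁆ ∈ zpowers (⟨e, hER heE⟩ : ↥(R : Subgroup G)) := by
    intro a b
    have hec : eiso ⟨e, hER heE⟩ ∈ center ↥H := mem_center_iff.mpr fun y => by
      obtain ⟨r, rfl⟩ := eiso.surjective y
      rw [← map_mul, ← map_mul]
      exact congrArg eiso (Subtype.ext (hRc r r.2))
    have hne1 : eiso ⟨e, hER heE⟩ ≠ 1 := fun h => heZ (by
      have : e = 1 := Subtype.ext (congrArg Subtype.val ((map_eq_one_iff eiso eiso.injective).mp h) :)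
      rw [this]; exact one_mem _)
    have := hcom (eiso a) (eiso b)
    rw [hcyc _ hec hne1, ← map_commutatorElement, mem_zpowers_iff] at this
    obtain ⟨j, hj⟩ := this
    exact ⟨j, eiso.injective (by rw [← hj]; exact map_zpow eiso _ _)⟩
  obtain ⟨y₀, hy₀⟩ : ∃ y : ↥(R : Subgroup G), (y : G) * z * (y : G)⁻¹ ≠ z := by
    by_contra h
    push Not at h
    have hzc : eiso ⟨z, hER hzE⟩ ∈ center ↥H := mem_center_iff.mpr fun w => by
      obtain ⟨r, rfl⟩ := eiso.surjective w
      rw [← map_mul, ← map_mul]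
      exact congrArg eiso (Subtype.ext (mul_inv_eq_iff_eq_mul.mp (h r)))
    have hec : eiso ⟨e, hER heE⟩ ∈ center ↥H := mem_center_iff.mpr fun w => by
      obtain ⟨r, rfl⟩ := eiso.surjective w
      rw [← map_mul, ← map_mul]
      exact congrArg eiso (Subtype.ext (hRc r r.2))
    have hne1 : eiso ⟨z, hER hzE⟩ ≠ 1 := fun h1 => hz1 (Subtype.ext (congrArg Subtype.val ((map_eq_one_iff eiso eiso.injective).mp h1) :))
    rw [hcyc _ hzc hne1, mem_zpowers_iff] at hec
    obtain ⟨j, hj⟩ := hec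
    rw [← map_zpow] at hj
    have : (z : G) ^ j = e := congrArg Subtype.val (eiso.injective hj)
    exact heZ ((show z ^ j = e from Subtype.ext (by rw [coe_zpow]; exact this)) ▸ zpow_mem hz j)
  obtain ⟨j, hj⟩ := hRcomm y₀ ⟨z, hER hzE⟩
  have hj' : (e : G) ^ j = (y₀ : G) * z * (y₀ : G)⁻¹ * (z : G)⁻¹ := congrArg Subtype.val hj
  have hye' : (y₀ : G) * z * (y₀ : G)⁻¹ = (z : G) * (e : G)⁻¹ ^ (-j) := by
    rw [inv_zpow', neg_neg, ((show Commute (z : G) (e : G) from hCe z hzE).zpow_right j).eq, hj', inv_mul_cancel_right]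
  have heinv : orderOf (e : G)⁻¹ = p := by rw [orderOf_inv, orderOf_coe, hep]
  obtain ⟨l, hyz, hye⟩ := scale (x := (y₀ : G)) (e := (z : G)) (z := (e : G)⁻¹) (i := -j) heinv
    (by rw [← conj_inv, mul_inv_eq_iff_eq_mul.mpr (hRc y₀ y₀.2)]) hye' hy₀
  set y := (y₀ : G) ^ l
  have hye₁ : y * e * y⁻¹ = (e : G) := by rw [← inv_inj, conj_inv]; exact hye
  -- `w = x y x` has order four on `E`
  set c : G → G := fun u => x * y * x * u * (x * y * x)⁻¹ with hcdef
  have hcm : ∀ u v, c (u * v) = c u * c v := fun u v => (conj_mul).symm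
  have hce : c e = z := by
    show x * y * x * (e : G) * (x * y * x)⁻¹ = _
    calc x * y * x * (e : G) * (x * y * x)⁻¹ = x * (y * (x * e * x⁻¹) * y⁻¹) * x⁻¹ := by group
      _ = x * ((y * e * y⁻¹) * (y * z * y⁻¹)) * x⁻¹ := by rw [hxe, conj_mul]
      _ = x * ((e : G) * ((z : G) * (e : G)⁻¹)) * x⁻¹ := by rw [hye₁, hyz]
      _ = x * z * x⁻¹ := by rw [← mul_assoc (e : G), ← hCe z hzE, mul_inv_cancel_right]
      _ = z := hxz
  have hcz : c z = (e : G)⁻¹ := by
    show x * y * x * (z : G) * (x * y * x)⁻¹ = _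
    calc x * y * x * (z : G) * (x * y * x)⁻¹ = x * (y * (x * z * x⁻¹) * y⁻¹) * x⁻¹ := by group
      _ = x * ((z : G) * (e : G)⁻¹) * x⁻¹ := by rw [hxz, hyz]
      _ = (x * z * x⁻¹) * (x * e * x⁻¹)⁻¹ := by group
      _ = (z : G) * ((e : G) * z)⁻¹ := by rw [hxz, hxe]
      _ = _ := by rw [mul_inv_rev, mul_inv_cancel_left]
  set t := x * y * x * (x * y * x)
  have htc : ∀ u, t * u * t⁻¹ = c (c u) := fun u => by simp only [t, hcdef]; group
  have hcinv : ∀ u, c u⁻¹ = (c u)⁻¹ := fun u => (conj_inv).symm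
  have hte : t * e * t⁻¹ = (e : G)⁻¹ := by rw [htc, hce, hcz]
  have htz : t * z * t⁻¹ = (z : G)⁻¹ := by rw [htc, hcz, hcinv, hce]
  have hinv : ∀ w ∈ E, t * w * t⁻¹ = w⁻¹ := by
    rintro _ ⟨w, hw, rfl⟩
    induction hw using closure_induction with
    | mem a ha => rcases ha with rfl | rfl; exacts [htz, hte]
    | one => simp
    | mul a b ha hb iha ihb =>
      simp only [map_mul, ← conj_mul, iha, ihb]
      rw [← mul_inv_rev]
      congr 1
      exact (congrArg Subtype.val (hWcomm b hb a ha) :)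
    | inv a _ iha => simp only [map_inv, ← conj_inv, iha]
  set C := centralizer (E : Set G)
  have hPE : H ≤ normalizer (E : Set G) := by
    intro s hs
    refine CfsgLib.LocalBasic.mem_normalizer_iff_conj_map.mpr (eq_of_le_of_card_ge ?_ (card_map_of_injective (MulEquiv.injective _)).ge)
    rintro _ ⟨_, ⟨w, hw, rfl⟩, rfl⟩
    refine ⟨⟨s, hs⟩ * w * ⟨s, hs⟩⁻¹, ?_, by simp⟩
    have hc2 : w⁻¹ * (⟨s, hs⟩ * w * ⟨s, hs⟩⁻¹) ∈ zpowers z := by
      rw [← hzz, show w⁻¹ * (⟨s, hs⟩ * w * ⟨s, hs⟩⁻¹) = ⁅w⁻¹, (⟨s, hs⟩ : ↥H)⁆ by rw [commutatorElement_def]; group]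
      exact hcom _ _
    have := mul_mem hw (zpowers_le.mpr (show z ∈ W from subset_closure (Or.inl rfl)) hc2)
    rwa [mul_inv_cancel_left] at this
  have htN : t ∈ normalizer (E : Set G) := by
    refine CfsgLib.LocalBasic.mem_normalizer_iff_conj_map.mpr (eq_of_le_of_card_ge ?_ (card_map_of_injective (MulEquiv.injective _)).ge)
    rintro _ ⟨w, hw, rfl⟩
    show t * w * t⁻¹ ∈ E
    rw [hinv w hw]
    exact inv_mem hw
  set X := H ⊔ C
  have hHC : H ≤ normalizer (C : Set G) := CfsgLib.LocalBasic.normalizer_centralizer_ge hPE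
  have hXt : H.map (MulAut.conj t).toMonoidHom ≤ X := by
    rintro _ ⟨s, hs, rfl⟩
    have hmem : t * s * t⁻¹ * s⁻¹ ∈ C := by
      refine mem_centralizer_iff.mpr fun w hw => ?_
      have h1 : ∀ u ∈ E, t⁻¹ * u * t = u⁻¹ := fun u hu => by
        have := hinv u hu
        rw [← inv_inj] at this
        rw [inv_inv] at this
        calc t⁻¹ * u * t = t⁻¹ * (t * u * t⁻¹)⁻¹ * t := by rw [this]
          _ = u⁻¹ := by group
      have hs' : s⁻¹ * w * s ∈ E := (Subgroup.mem_normalizer_iff''.mp (hPE hs) w).mp hw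
      symm
      rw [← mul_inv_eq_iff_eq_mul]
      calc t * s * t⁻¹ * s⁻¹ * w * (t * s * t⁻¹ * s⁻¹)⁻¹ = t * (s * (t⁻¹ * (s⁻¹ * w * s) * t) * s⁻¹) * t⁻¹ := by group
        _ = t * (s * (s⁻¹ * w * s)⁻¹ * s⁻¹) * t⁻¹ := by rw [h1 _ hs']
        _ = (t * w * t⁻¹)⁻¹ := by group
        _ = w := by rw [hinv w hw, inv_inv]
    have := mul_mem (mem_sup_right (S := H) hmem) (mem_sup_left (T := C) hs)
    rw [inv_mul_cancel_right] at this
    exact this
  obtain ⟨m, hm, hmle⟩ := CfsgLib.LocalBasic.exists_conj_le_sylow P (M := X) le_sup_left (R := H.map (MulAut.conj t).toMonoidHom) (P.2.map _) hXt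
  rw [← SetLike.mem_coe, coe_mul_of_left_le_normalizer_right H C hHC] at hm
  obtain ⟨q, hq, d, hd, rfl⟩ := hm
  set n := d * t
  have hnH : ∀ s ∈ H, n * s * n⁻¹ ∈ H := fun s hs => by
    have := mul_mem (mul_mem (inv_mem hq) (hmle _ ⟨s, hs, rfl⟩)) hq
    simpa [n, mul_assoc] using this
  have hninv : ∀ w ∈ E, n * w * n⁻¹ = w⁻¹ := fun w hw => by
    rw [show n * w * n⁻¹ = d * (t * w * t⁻¹) * d⁻¹ by simp only [n]; group, hinv w hw,
      ← mem_centralizer_iff.mp hd _ (inv_mem hw), mul_inv_cancel_right]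
  obtain ⟨a, ha⟩ : ∃ a : ↥H, a ^ p ≠ 1 := by
    by_contra h
    push Not at h
    have := Monoid.exponent_dvd_of_forall_pow_eq_one h
    rw [hexp] at this
    have hlt : p < p ^ 2 := by rw [pow_two]; exact lt_mul_of_one_lt_left hp_pos hp_one
    exact absurd (Nat.le_of_dvd hp_pos this) (not_le.mpr hlt)
  set a' : ↥H := ⟨n * (a : G) * n⁻¹, hnH a a.2⟩
  have hdW : a⁻¹ * a' ∈ W := by
    rw [hWcard.2]
    refine mem_centralizer_singleton_iff.mpr (Subtype.ext ?_)
    show (a : G)⁻¹ * (n * a * n⁻¹) * (e : G) = e * ((a : G)⁻¹ * (n * a * n⁻¹))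
    have hae : (a : G) * e * (a : G)⁻¹ ∈ E := (Subgroup.mem_normalizer_iff.mp (hPE a.2) e).mp heE
    have h2 : n⁻¹ * e * n = (e : G)⁻¹ := by
      rw [show (e : G) = n * (e : G)⁻¹ * n⁻¹ by rw [hninv _ (inv_mem heE), inv_inv]]
      rw [hninv _ (inv_mem heE), inv_inv]
      calc n⁻¹ * (e : G) * n = n⁻¹ * (n * (e : G)⁻¹ * n⁻¹) * n := by rw [hninv _ (inv_mem heE), inv_inv]
        _ = (e : G)⁻¹ := by group
    calc (a : G)⁻¹ * (n * a * n⁻¹) * e = (a : G)⁻¹ * (n * (a * (n⁻¹ * e * n) * (a : G)⁻¹) * n⁻¹) * a * ((a : G)⁻¹ * (n * a * n⁻¹)) := by group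
      _ = (a : G)⁻¹ * ((n * ((a : G) * e * (a : G)⁻¹) * n⁻¹)⁻¹) * a * ((a : G)⁻¹ * (n * a * n⁻¹)) := by rw [h2]; group
      _ = _ := by rw [hninv _ hae, inv_inv]; group
  -- `(a d)^p = a^p`
  set w := a⁻¹ * a'
  set c₀ := ⁅w, a⁆
  have hc0 : c₀ ∈ center ↥H := hcom w a
  have hswap : ∀ m : ℕ, w ^ m * a = a * w ^ m * c₀ ^ m := by
    intro m
    induction m with
    | zero => simp
    | succ m ih =>
      have hwa : w * a = a * w * c₀ := by
        rw [mem_center_iff.mp hc0 (a * w)]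
        show w * a = ⁅w, a⁆ * (a * w)
        rw [commutatorElement_def]; group
      calc w ^ (m + 1) * a = w * (w ^ m * a) := by rw [pow_succ', mul_assoc]
        _ = (w * a) * w ^ m * c₀ ^ m := by rw [ih]; group
        _ = a * w * (c₀ * w ^ m) * c₀ ^ m := by rw [hwa]; group
        _ = a * w * (w ^ m * c₀) * c₀ ^ m := by rw [← mem_center_iff.mp hc0]
        _ = _ := by rw [pow_succ', pow_succ']; group
  have hcol : ∀ m : ℕ, (a * w) ^ m = a ^ m * w ^ m * c₀ ^ m.choose 2 := by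
    intro m
    induction m with
    | zero => simp
    | succ m ih =>
      have hcc : c₀ ^ m.choose 2 * (a * w) = a * w * c₀ ^ m.choose 2 := (mem_center_iff.mp (pow_mem hc0 _) _).symm
      rw [pow_succ, ih, Nat.choose_succ_succ, Nat.choose_one_right, mul_assoc, hcc,
        show a ^ m * w ^ m * (a * w * c₀ ^ m.choose 2) = a ^ m * (w ^ m * a) * w * c₀ ^ m.choose 2 by group, hswap m,
        show a ^ m * (a * w ^ m * c₀ ^ m) * w * c₀ ^ m.choose 2 = a ^ m * a * w ^ m * (c₀ ^ m * w) * c₀ ^ m.choose 2 by group,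
        ← mem_center_iff.mp (pow_mem hc0 m) w, pow_add, pow_succ a, pow_succ w]
      group
  have hc0p : c₀ ^ p = 1 := by
    have := orderOf_dvd_natCard (center ↥H) hc0
    rw [hE.2] at this
    exact orderOf_dvd_iff_pow_eq_one.mp this
  obtain ⟨r, hr⟩ : p ∣ p.choose 2 := (Fact.out : p.Prime).dvd_choose_self (by omega) (by
    have := (Fact.out : p.Prime).two_le; omega)
  have hap : a' ^ p = a ^ p := by
    rw [show a' = a * w by simp only [w]; group, hcol, hWexp w hdW, mul_one, hr, pow_mul, hc0p, one_pow, mul_one]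
  have hzin : ((a ^ p : ↥H) : G) ∈ E := by
    refine ⟨a ^ p, ?_, rfl⟩
    exact (zpowers_le.mpr (show z ∈ W from subset_closure (Or.inl rfl))) (hzz ▸ hpowc a)
  have hfin := congrArg Subtype.val hap
  rw [show ((a' ^ p : ↥H) : G) = n * ((a ^ p : ↥H) : G) * n⁻¹ by simp only [coe_pow, a', conj_pow],
    hninv _ hzin] at hfin
  refine ha ?_
  have h2 : (a ^ p) ^ 2 = 1 := Subtype.ext (by
    rw [coe_pow, pow_two]
    nth_rewrite 1 [← hfin]
    rw [inv_mul_cancel, coe_one])
  have h3 : (a ^ p) ^ p = 1 := hWexp _ (zpowers_le.mpr (show z ∈ W from subset_closure (Or.inl rfl)) (hzz ▸ hpowc a))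
  have hgc := pow_gcd_eq_one.mpr ⟨h2, h3⟩
  rwa [(Nat.coprime_primes Nat.prime_two Fact.out).mpr (Ne.symm hp), pow_one] at hgc

end Cfsg.Agent.S3053
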