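import Cfsg.Statements.S3057
import Cfsg.Agent.Lib.SPE2

set_option autoImplicit false
open Cfsg

namespace Cfsg.Agent.S3057
open CfsgLib.SPE

/-- Let p be a prime and G a finite p-solvable group of order divisible by p, with Sylow p-subgroup P. Then the Sylow p-subgroups of G fail to be chain-connected through nontrivial intersections (equivalently, G has a strongly p-embedded subgroup) if and only if O_p(G) = 1 and P is cyclic or, for p = 2, generalized quaternion. -/
theorem result {G : Type*} [Group G] [Finite G]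
    (p : ℕ) [Fact p.Prime] (hdiv : p ∣ Nat.card G) (hsol : Cfsg.IsPSolvable p G) (P : Sylow p G) :
    ¬ Cfsg.IsSylowChainConnected p G ↔
      Cfsg.pCore p G = ⊥ ∧ (IsCyclic ↥P ∨ (p = 2 ∧ ∃ n : ℕ, Nonempty (↥P ≃* QuaternionGroup (2 ^ n)))) := by
  rw [not_chainConnected_iff]
  constructor
  swap
  · rintro ⟨hO, hP⟩
    refine ⟨_, spe_of_uniq hO P (sylow_ne_bot P hdiv) (uniq_of_cyclic_or_quaternion P.2 ?_)⟩
    exact hP.imp id fun ⟨_, n, hn⟩ => ⟨2 ^ n, hn⟩
  rintro ⟨H, hH⟩
  obtain ⟨hd, hne, hn⟩ := spe_iff_normClosed.mp hH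
  refine ⟨pCore_eq_bot_of_spe hH, ?_⟩
  obtain ⟨S, hS⟩ := exists_sylow_le hn hd
  suffices hu : CfsgLib.UniqueOrderP.Uniq p ↥(S : Subgroup G) from
    CfsgLib.UniqueOrderP.cyclic_or_quaternion P.2 (uniq_congr (S.equiv P) hu)
  by_contra hu
  simp only [CfsgLib.UniqueOrderP.Uniq, not_forall] at hu
  obtain ⟨x, y, hx, hy, hxy⟩ := hu
  have hSnt : Nontrivial ↥(S : Subgroup G) := (Subgroup.nontrivial_iff_ne_bot _).mpr (sylow_ne_bot S hdiv)
  have hcnt := IsPGroup.center_nontrivial S.2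
  obtain ⟨z, hzc, hz⟩ := exists_orderOf_eq (dvd_card_of_ne_bot (S.2.to_subgroup (Subgroup.center ↥(S : Subgroup G)))
    ((Subgroup.nontrivial_iff_ne_bot _).mp hcnt))
  obtain ⟨w, hw, hwz⟩ : ∃ w : ↥(S : Subgroup G), orderOf w = p ∧ w ∉ Subgroup.zpowers z := by
    by_cases h1 : x ∈ Subgroup.zpowers z
    · by_cases h2 : y ∈ Subgroup.zpowers z
      · exfalso
        apply hxy
        rw [Subgroup.eq_of_le_of_card_ge (Subgroup.zpowers_le.mpr h1) (by rw [Nat.card_zpowers, Nat.card_zpowers, hx, hz])]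
        exact h2
      · exact ⟨y, hy, h2⟩
    · exact ⟨x, hx, h1⟩
  set O := Cfsg.pPrimeCore p G
  haveI := CfsgLib.Core.pPrimeCore_characteristic (G := G) p
  have hO : O ≤ H := by
    refine le_of_two_elements hn (CfsgLib.Core.card_pPrimeCore_coprime p) (a := (z : G)) (b := (w : G))
      (hS z.2) (hS w.2) (by rw [Subgroup.orderOf_coe, hz]) (by rw [Subgroup.orderOf_coe, hw]) ?_ ?_
    · exact congrArg Subtype.val (Subgroup.mem_center_iff.mp hzc w).symm
    · rintro ⟨i, hi⟩
      exact hwz ⟨i, Subtype.ext (by simpa using hi)⟩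
  obtain ⟨n, K, h0, hl, hmono, hnorm, hstep⟩ := hsol
  obtain ⟨i, hi, hi'⟩ : ∃ i : Fin n, ¬ p ∣ Nat.card ↥(K i.castSucc) ∧ p ∣ Nat.card ↥(K i.succ) := by
    by_contra hall
    have key : ∀ j, ¬ p ∣ Nat.card ↥(K j) := by
      intro j
      induction j using Fin.induction with
      | zero => rw [h0, Subgroup.card_bot]; exact (Fact.out : p.Prime).not_dvd_one
      | succ j ih => exact fun h => hall ⟨j, ih, h⟩
    exact key (Fin.last n) (by rw [hl, Subgroup.card_top]; exact hdiv)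
  haveI := hnorm i.castSucc
  haveI := hnorm i.succ
  set A := K i.castSucc
  set B := K i.succ
  have hAB : A ≤ B := hmono (Fin.castSucc_lt_succ (i := i)).le
  have hmul : A.relIndex B * Nat.card ↥A = Nat.card ↥B := by
    have := (A.subgroupOf B).index_mul_card
    rwa [Nat.card_congr (Subgroup.subgroupOfEquivOfLe hAB).toEquiv] at this
  obtain ⟨m, hm⟩ : ∃ m, A.relIndex B = p ^ m := by
    refine (hstep i).resolve_right fun hco => ?_
    rw [← hmul] at hi'
    rcases (Fact.out : p.Prime).dvd_mul.mp hi' with h | h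
    · exact (Fact.out : p.Prime).coprime_iff_not_dvd.mp hco.symm h
    · exact hi h
  have hcopA : (Nat.card ↥A).Coprime p := ((Fact.out : p.Prime).coprime_iff_not_dvd.mpr hi).symm
  have hAH : A ≤ H ⊓ B := le_inf ((CfsgLib.Core.le_pPrimeCore (hnorm i.castSucc) hcopA).trans hO) hAB
  have hBH : B ≤ H := by
    obtain ⟨X⟩ := (inferInstance : Nonempty (Sylow p ↥B))
    obtain ⟨c, -, hc⟩ := CfsgLib.LocalBasic.exists_conj_le_sylow S (M := ⊤) le_top (X.2.map B.subtype) le_top
    have hXle : ((X : Subgroup ↥B).map B.subtype).map (MulAut.conj c).toMonoidHom ≤ H ⊓ B := by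
      rintro _ ⟨a, ha, rfl⟩
      exact ⟨hS (hc a ha), (hnorm i.succ).conj_mem a (Subgroup.map_subtype_le _ ha) c⟩
    have h1 : p ^ m ∣ Nat.card ↥(H ⊓ B : Subgroup G) := by
      refine (X.pow_dvd_card_of_pow_dvd_card ⟨Nat.card ↥A, by rw [← hmul, hm]⟩).trans ?_
      refine dvd_trans ?_ (Subgroup.card_dvd_of_le hXle)
      rw [card_map_conj, Subgroup.card_map_of_injective B.subtype_injective]
    have h2 : Nat.card ↥B ∣ Nat.card ↥(H ⊓ B : Subgroup G) := by
      rw [← hmul, hm]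
      exact ((hcopA.pow_right m).symm).mul_dvd_of_dvd_of_dvd h1 (Subgroup.card_dvd_of_le hAH)
    exact (Subgroup.eq_of_le_of_card_ge inf_le_right (Nat.le_of_dvd Nat.card_pos h2)).symm.le.trans inf_le_left
  refine hne (top_le_iff.mp (le_of_normal_le hn hBH hi' ?_))
  rw [Subgroup.normalizer_eq_top B]

end Cfsg.Agent.S3057
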