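import Cfsg.Statements.S3058
import Cfsg.Agent.Lib.SPE2

set_option autoImplicit false
open Cfsg

namespace Cfsg.Agent.S3058
open CfsgLib.SPE
open scoped commutatorElement

/-- Let p be a prime and G a finite group whose Sylow p-subgroups are not chain-connected through nontrivial intersections (so G has a strongly p-embedded subgroup). If N and M are normal subgroups of G whose orders are both divisible by p, then the order of N ∩ M is divisible by p. Consequently, among the normal subgroups of G whose order is divisible by p there is a smallest one (the intersection of all of them). -/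
theorem result {G : Type*} [Group G] [Finite G]
    (p : ℕ) [Fact p.Prime] (hG : ¬ Cfsg.IsSylowChainConnected p G)
    (N M : Subgroup G) [N.Normal] [M.Normal] (hN : p ∣ Nat.card N) (hM : p ∣ Nat.card M) :
    p ∣ Nat.card ↥(N ⊓ M) := by
  obtain ⟨H, hH⟩ := not_chainConnected_iff.mp hG
  obtain ⟨hd, hne, hn⟩ := spe_iff_normClosed.mp hH
  have hp : p.Prime := Fact.out
  obtain ⟨S, hS⟩ := exists_sylow_le hn hd
  by_contra hD
  set D := N ⊓ M
  have hmem : ∀ L : Subgroup G, L.Normal → p ∣ Nat.card ↥L → ∃ a ∈ L, a ∈ (S : Subgroup G) ∧ orderOf a = p := by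
    intro L hL hpL
    obtain ⟨a, ha, hap⟩ := exists_orderOf_eq hpL
    obtain ⟨c, -, hc⟩ := CfsgLib.LocalBasic.exists_conj_le_sylow S (M := ⊤) le_top (isPGroup_zpowers hap) le_top
    exact ⟨c * a * c⁻¹, hL.conj_mem a ha c, hc a (Subgroup.mem_zpowers a), by
      have := MulEquiv.orderOf_eq (MulAut.conj c) a
      simpa [hap] using this⟩
  obtain ⟨a, haN, haS, hap⟩ := hmem N inferInstance hN
  obtain ⟨b, hbM, hbS, hbp⟩ := hmem M inferInstance hM
  have hcop : (Nat.card ↥D).Coprime p := (hp.coprime_iff_not_dvd.mpr hD).symm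
  have hcomm : ∀ n ∈ N, ∀ m ∈ M, ⁅n, m⁆ ∈ D := fun n hn m hm => by
    rw [commutatorElement_def]
    refine ⟨?_, M.mul_mem ((inferInstance : M.Normal).conj_mem m hm n) (M.inv_mem hm)⟩
    have e : n * m * n⁻¹ * m⁻¹ = n * (m * n⁻¹ * m⁻¹) := by group
    rw [e]
    exact N.mul_mem hn ((inferInstance : N.Normal).conj_mem _ (N.inv_mem hn) m)
  have hab : a * b = b * a := by
    rw [← commutatorElement_eq_one_iff_mul_comm, ← orderOf_eq_one_iff]
    refine Nat.eq_one_of_dvd_coprimes ?_ (Subgroup.orderOf_dvd_natCard _ (hcomm a haN b hbM))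
      (Subgroup.orderOf_dvd_natCard (S : Subgroup G) ?_)
    · obtain ⟨k, hk⟩ := S.2.exists_card_eq
      rw [hk]; exact hcop.pow_right k
    · rw [commutatorElement_def]
      exact Subgroup.mul_mem _ (Subgroup.mul_mem _ (Subgroup.mul_mem _ haS hbS) (inv_mem haS)) (inv_mem hbS)
  have hba : b ∉ Subgroup.zpowers a := fun h => hD (by
    rw [← hbp]; exact Subgroup.orderOf_dvd_natCard _ ⟨Subgroup.zpowers_le.mpr haN h, hbM⟩)
  have hDH : D ≤ H := le_of_two_elements hn hcop (hS haS) (hS hbS) hap hbp hab hba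
  have hf := intersectCoprime_iff_fusion.mp (intersectCoprime_of_normClosed hn)
  have hMH : M ≤ H := fun m hm => by
    refine hf a (hS haS) hap m ?_
    have h1 : ⁅a, m⁻¹⁆⁻¹ ∈ H := H.inv_mem (hDH (hcomm a haN m⁻¹ (M.inv_mem hm)))
    have e : m⁻¹ * a * m = ⁅a, m⁻¹⁆⁻¹ * a := by rw [commutatorElement_def]; group
    rw [e]
    exact H.mul_mem h1 (hS haS)
  refine hne (top_le_iff.mp (le_of_normal_le hn hMH hM ?_))
  rw [Subgroup.normalizer_eq_top M]

end Cfsg.Agent.S3058
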