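import Cfsg.Statements.S3059
import Cfsg.Agent.Lib.LocalBasic

set_option autoImplicit false
open Cfsg

namespace Cfsg.Agent.S3059
open CfsgLib.LocalBasic

/-- Let p be a prime and H a strongly p-embedded subgroup of the finite group G in the classical sense: H is proper, p divides the order of H, and H ∩ gHg⁻¹ has order prime to p for every g outside H. Then for every normal subgroup N of G of order divisible by p, G = H · O^p(N), where O^p(N) is the subgroup generated by the elements of N of order prime to p. -/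
theorem result {G : Type*} [Group G] [Finite G]
    (p : ℕ) [Fact p.Prime] (H : Subgroup G) (hH : H ≠ ⊤) (hpH : p ∣ Nat.card H)
    (hse : ∀ g : G, g ∉ H → ¬ p ∣ Nat.card ↥(H ⊓ H.map (MulAut.conj g).toMonoidHom))
    (N : Subgroup G) [N.Normal] (hN : p ∣ Nat.card N) :
    H ⊔ Subgroup.closure {g : G | g ∈ N ∧ (orderOf g).Coprime p} = ⊤ := by
  classical
  have hp : p.Prime := Fact.out
  have hnorm : ∀ X : Subgroup G, IsPGroup p ↥X → X ≠ ⊥ → X ≤ H → Subgroup.normalizer (X : Set G) ≤ H := by
    intro X hX hX1 hXH g hg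
    by_contra hgH
    apply hse g hgH
    have hle : X ≤ H ⊓ H.map (MulAut.conj g).toMonoidHom := le_inf hXH fun x hx => by
      rw [← conj_map_eq_of_mem_normalizer hg] at hx
      exact Subgroup.map_mono hXH hx
    obtain ⟨n, hn⟩ := hX.exists_card_eq
    refine dvd_trans ?_ (Subgroup.card_dvd_of_le hle)
    rw [hn]
    refine dvd_pow_self p fun h0 => hX1 ?_
    rw [h0, pow_zero] at hn
    exact Subgroup.card_eq_one.mp hn
  obtain ⟨S, hS⟩ : ∃ S : Sylow p G, (S : Subgroup G) ≤ H := by
    obtain ⟨R⟩ := (inferInstance : Nonempty (Sylow p ↥H))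
    obtain ⟨S, hRS⟩ := (R.2.map H.subtype).exists_le_sylow
    refine ⟨S, ?_⟩
    have hne : (R : Subgroup ↥H).map H.subtype ≠ ⊥ := by
      intro h
      rw [Subgroup.map_eq_bot_iff_of_injective _ H.subtype_injective] at h
      have := R.dvd_card_of_dvd_card hpH
      rw [h, Subgroup.card_bot] at this
      exact hp.not_dvd_one this
    have hmax : (S : Subgroup G) ⊓ H ≤ (R : Subgroup ↥H).map H.subtype := by
      intro x ⟨hxS, hxH⟩
      refine ⟨⟨x, hxH⟩, ?_, rfl⟩
      have := R.3 (S.2.comap_subtype (K := H)) (fun y hy => Subgroup.mem_subgroupOf.mpr (hRS ⟨y, hy, rfl⟩))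
      exact this ▸ Subgroup.mem_subgroupOf.mpr hxS
    have heq := eq_of_normalizer_inf_le S.2 hRS fun x ⟨hxS, hxn⟩ =>
      hmax ⟨hxS, hnorm _ (R.2.map H.subtype) hne (Subgroup.map_subtype_le _) hxn⟩
    exact heq ▸ Subgroup.map_subtype_le _
  obtain ⟨P0⟩ := (inferInstance : Nonempty (Sylow p ↥N))
  obtain ⟨T, hT⟩ := (P0.2.map N.subtype).exists_le_sylow
  obtain ⟨g, hg⟩ := MulAction.exists_smul_eq G T S
  set X := ((P0 : Subgroup ↥N).map N.subtype).map (MulAut.conj g).toMonoidHom with hX
  have hXS : X ≤ (S : Subgroup G) := by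
    rw [← hg, Sylow.coe_subgroup_smul]
    rintro _ ⟨y, hy, rfl⟩
    exact Subgroup.smul_mem_pointwise_smul y (MulAut.conj g) _ (hT hy)
  have hN' : N.map (MulAut.conj g).toMonoidHom = N :=
    conj_map_eq_of_mem_normalizer (by rw [Subgroup.normalizer_eq_top N]; exact Subgroup.mem_top g)
  have hXN : X ≤ N := by
    exact (Subgroup.map_mono (Subgroup.map_subtype_le _)).trans hN'.le
  have hX1 : X ≠ ⊥ := by
    intro h
    rw [hX, Subgroup.map_eq_bot_iff_of_injective _ (MulEquiv.injective _),
      Subgroup.map_eq_bot_iff_of_injective _ N.subtype_injective] at h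
    have := P0.dvd_card_of_dvd_card hN
    rw [h, Subgroup.card_bot] at this
    exact hp.not_dvd_one this
  have hfr : Subgroup.normalizer (X : Set G) ⊔ N = ⊤ := by
    have h := congrArg (Subgroup.map (MulAut.conj g).toMonoidHom) (Sylow.normalizer_sup_eq_top P0)
    rw [Subgroup.map_sup, hN', Subgroup.map_top_of_surjective _ (MulEquiv.surjective _)] at h
    rw [← top_le_iff, ← h]
    refine sup_le_sup_right ?_ N
    rintro _ ⟨y, hy, rfl⟩
    refine mem_normalizer_of_conj_map_eq ?_
    rw [hX, Subgroup.map_map]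
    have e : ((MulAut.conj ((MulAut.conj g).toMonoidHom y)).toMonoidHom).comp (MulAut.conj g).toMonoidHom =
        ((MulAut.conj g).toMonoidHom).comp (MulAut.conj y).toMonoidHom := by
      ext x; simp [mul_assoc]
    rw [e, ← Subgroup.map_map, conj_map_eq_of_mem_normalizer hy]
  set Mp := Subgroup.closure {g : G | g ∈ N ∧ (orderOf g).Coprime p} with hMp
  have hNle : N ≤ Mp ⊔ X := by
    have hr : (Mp ⊔ X).relIndex N = 1 := by
      by_contra hne
      obtain ⟨q, hq, hqd⟩ := Nat.exists_prime_and_dvd hne
      haveI := Fact.mk hq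
      by_cases hqp : q = p
      · subst hqp
        have hXindex : ¬ q ∣ X.relIndex N := by
          rw [show X.relIndex N = X.relIndex (N.map (MulAut.conj g).toMonoidHom) from by rw [hN'], hX,
            Subgroup.relIndex_map_map_of_injective _ _ (f := (MulAut.conj g).toMonoidHom) (MulEquiv.injective _),
            show ((P0 : Subgroup ↥N).map N.subtype).relIndex N = ((P0 : Subgroup ↥N)).index from ?_]
          · exact Sylow.not_dvd_index P0
          · rw [← Subgroup.relIndex_subgroupOf le_rfl, Subgroup.subgroupOf_self, Subgroup.relIndex_top_right]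
            exact congrArg Subgroup.index (Subgroup.comap_map_eq_self_of_injective N.subtype_injective _)
        exact hXindex (hqd.trans (Subgroup.relIndex_dvd_of_le_left N le_sup_right))
      · obtain ⟨Q⟩ := (inferInstance : Nonempty (Sylow q ↥N))
        refine Sylow.not_dvd_index Q (hqd.trans (Subgroup.index_dvd_of_le ?_))
        intro x hx
        rw [Subgroup.mem_subgroupOf]
        refine Subgroup.mem_sup_left (Subgroup.subset_closure ⟨x.2, ?_⟩)
        obtain ⟨k, hk⟩ := Q.2 ⟨x, hx⟩
        have hk' : (x : G) ^ q ^ k = 1 := by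
          have := congrArg (fun y : ↥(Q : Subgroup ↥N) => ((y : ↥N) : G)) hk
          simpa using this
        exact Nat.Coprime.coprime_dvd_left (orderOf_dvd_of_pow_eq_one hk') ((Nat.coprime_primes hq hp).mpr hqp |>.pow_left k)
    exact Subgroup.relIndex_eq_one.mp hr
  rw [← top_le_iff, ← hfr]
  refine sup_le ((hnorm X (S.2.to_le hXS) hX1 (hXS.trans hS)).trans le_sup_left) (hNle.trans ?_)
  exact sup_le le_sup_right ((hXS.trans hS).trans le_sup_left)

end Cfsg.Agent.S3059
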