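import Cfsg.Statements.S3060
import Cfsg.Agent.Lib.DStar
import Cfsg.Agent.Lib.Fusion.Group
import Cfsg.Agent.Lib.Glauberman.Core

set_option autoImplicit false
open Cfsg

namespace Cfsg.Agent.S3060
set_option linter.style.haveILetI false
open CfsgLib.LocalBasic
open scoped commutatorElement

theorem class_two {G : Type*} [Group G] {A : Subgroup G} {x : G} (hA : ∀ a ∈ A, ∀ b ∈ A, a * b = b * a)
    (h1 : ∀ a ∈ A, ∀ b ∈ A, ⁅a, x⁆ * b = b * ⁅a, x⁆) (h2 : ∀ a ∈ A, ⁅a, x⁆ * x = x * ⁅a, x⁆) :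
    ⁅⁅A ⊔ Subgroup.zpowers x, A ⊔ Subgroup.zpowers x⁆, A ⊔ Subgroup.zpowers x⁆ = ⊥ := by
  set W := Subgroup.closure {w : G | ∃ a ∈ A, ⁅a, x⁆ = w}
  have hU : A ⊔ Subgroup.zpowers x ≤ Subgroup.centralizer (W : Set G) := by
    rw [Subgroup.le_centralizer_iff, Subgroup.closure_le]
    rintro _ ⟨a, ha, rfl⟩
    rw [SetLike.mem_coe, Subgroup.mem_centralizer_iff]
    intro y hy
    have hle : A ⊔ Subgroup.zpowers x ≤ Subgroup.centralizer ({⁅a, x⁆} : Set G) :=
      sup_le (fun b hb => Subgroup.mem_centralizer_singleton_iff.mpr (h1 a ha b hb).symm)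
        (Subgroup.zpowers_le.mpr (Subgroup.mem_centralizer_singleton_iff.mpr (h2 a ha).symm))
    exact Subgroup.mem_centralizer_singleton_iff.mp (hle hy)
  have hn : A ⊔ Subgroup.zpowers x ≤ Subgroup.normalizer (W : Set G) := hU.trans (Subgroup.centralizer_le_normalizer _)
  have hAA : ⁅A, A⁆ ≤ W := by
    rw [Subgroup.commutator_le]; intro a ha b hb
    rw [commutatorElement_eq_one_iff_mul_comm.mpr (hA a ha b hb)]; exact one_mem _
  have hAx : ⁅A, Subgroup.zpowers x⁆ ≤ W := by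
    rw [Subgroup.commutator_le]
    intro a ha u hu
    obtain ⟨i, rfl⟩ := Subgroup.mem_zpowers_iff.mp hu
    let C : Subgroup G :=
      { carrier := {g | g ∈ Subgroup.zpowers x ∧ ⁅a, g⁆ ∈ W}
        one_mem' := ⟨one_mem _, by rw [commutatorElement_one_right]; exact W.one_mem⟩
        mul_mem' := fun {g g'} hg hg' => ⟨mul_mem hg.1 hg'.1, by
          rw [show ⁅a, g * g'⁆ = ⁅a, g⁆ * (g * ⁅a, g'⁆ * g⁻¹) by simp only [commutatorElement_def]; group]
          exact W.mul_mem hg.2 ((Subgroup.mem_normalizer_iff.mp (hn (Subgroup.mem_sup_right hg.1)) _).mp hg'.2)⟩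
        inv_mem' := fun {g} hg => ⟨inv_mem hg.1, by
          rw [show ⁅a, g⁻¹⁆ = g⁻¹ * ⁅a, g⁆⁻¹ * g⁻¹⁻¹ by simp only [commutatorElement_def]; group]
          exact (Subgroup.mem_normalizer_iff.mp (hn (Subgroup.mem_sup_right (inv_mem hg.1))) _).mp (W.inv_mem hg.2)⟩ }
    have hx : x ∈ C := ⟨Subgroup.mem_zpowers x, Subgroup.subset_closure ⟨a, ha, rfl⟩⟩
    exact (zpow_mem hx i : x ^ i ∈ C).2
  have hxx : ⁅Subgroup.zpowers x, Subgroup.zpowers x⁆ ≤ W := by
    rw [Subgroup.commutator_self_eq_bot_iff.mpr inferInstance]; exact bot_le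
  have hA' : A ≤ Subgroup.normalizer (W : Set G) := le_sup_left.trans hn
  have hx' : Subgroup.zpowers x ≤ Subgroup.normalizer (W : Set G) := le_sup_right.trans hn
  rw [Subgroup.commutator_eq_bot_iff_le_centralizer]
  refine le_trans ?_ (Subgroup.le_centralizer_iff.mp hU)
  refine commutator_sup_le hA' hx' ?_ ?_ <;> rw [Subgroup.commutator_comm] <;> refine commutator_sup_le hA' hx' ?_ ?_
  · exact hAA
  · rw [Subgroup.commutator_comm]; exact hAx
  · exact hAx
  · exact hxx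


/-- The D*-Theorem. For a finite p-group S let D*(S) be the subgroup generated by the abelian subgroups A of S such that every x ∈ S with ⟨A, x⟩ of nilpotency class at most two centralizes A. Let p be an odd prime and H a finite p-stable group with Sylow p-subgroup S. Here H is p-stable in the following sense: the largest normal p-subgroup O_p(H) contains its centralizer in H, and for every normal p-subgroup P of H, every element acting quadratically on P has image in O_p(H/C_H(P)). Then D*(S) is a normal subgroup of H. -/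
theorem result {G : Type*} [Group G] [Finite G] {p : ℕ} [Fact p.Prime] (hp : p ≠ 2)
    (hc : Subgroup.centralizer (Cfsg.pCore p G : Set G) ≤ Cfsg.pCore p G)
    (hst : ∀ (P : Subgroup G) [P.Normal], IsPGroup p P → Cfsg.IsPStableOn p P) (S : Sylow p G) :
    (Cfsg.dStarOf (S : Subgroup G)).Normal := by
  haveI : Group.IsNilpotent ↥(S : Subgroup G) := S.2.isNilpotent
  have hnil : Group.IsNilpotent ↥(S : Subgroup G) := inferInstance
  set Z := Cfsg.dStarOf (S : Subgroup G) with hZ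
  obtain ⟨hDc, hDx⟩ := CfsgLib.DStar.dStar_mem hnil
  haveI hDn := CfsgLib.DStar.dStar_normal (S := ↥(S : Subgroup G))
  have hZS : Z ≤ (S : Subgroup G) := Subgroup.map_subtype_le _
  have hmemZ : ∀ z ∈ Z, ∃ h : z ∈ (S : Subgroup G), (⟨z, h⟩ : ↥(S : Subgroup G)) ∈ Cfsg.dStar ↥(S : Subgroup G) := by
    rintro _ ⟨z, hz, rfl⟩
    exact ⟨z.2, hz⟩
  have hZab : ∀ a ∈ Z, ∀ b ∈ Z, a * b = b * a := by
    intro a ha b hb
    obtain ⟨h1, h1'⟩ := hmemZ a ha
    obtain ⟨h2, h2'⟩ := hmemZ b hb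
    exact congrArg (fun w : ↥(Cfsg.dStar ↥(S : Subgroup G)) => ((w : ↥(S : Subgroup G)) : G))
      (hDc.is_comm.comm ⟨_, h1'⟩ ⟨_, h2'⟩)
  have hSZ : ∀ s ∈ (S : Subgroup G), ∀ z ∈ Z, s * z * s⁻¹ ∈ Z := by
    intro s hs z hz
    obtain ⟨h1, h1'⟩ := hmemZ z hz
    exact ⟨_, hDn.conj_mem _ h1' ⟨s, hs⟩, rfl⟩
  -- transfer of the defining property to `G`
  have hprop : ∀ x ∈ (S : Subgroup G), (∀ a ∈ Z, ∀ b ∈ Z, ⁅a, x⁆ * b = b * ⁅a, x⁆) →
      (∀ a ∈ Z, ⁅a, x⁆ * x = x * ⁅a, x⁆) → ∀ a ∈ Z, a * x = x * a := by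
    intro x hx h1 h2 a ha
    obtain ⟨h3, h3'⟩ := hmemZ a ha
    refine congrArg Subtype.val (hDx ⟨x, hx⟩ (class_two (fun u hu w hw => Subtype.ext (hZab u ⟨u, hu, rfl⟩ w ⟨w, hw, rfl⟩))
      (fun u hu w hw => Subtype.ext (h1 u ⟨u, hu, rfl⟩ w ⟨w, hw, rfl⟩))
      (fun u hu => Subtype.ext (h2 u ⟨u, hu, rfl⟩))) ⟨a, h3⟩ h3')
  set Q := Cfsg.pCore p G with hQ
  haveI hQn : Q.Normal := Cfsg.pCore_normal p G
  have hQp : IsPGroup p ↥Q := CfsgLib.Core.isPGroup_pCore p
  have hQS : Q ≤ (S : Subgroup G) := CfsgLib.Core.pCore_le_sylow S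
  have hZQ : Z ≤ Q := by
    intro z hz
    have hq : ∀ v ∈ Q, ⁅⁅v, z⁆, z⁆ = 1 := fun v hv => commutatorElement_eq_one_iff_mul_comm.mpr
      (hZab _ (by rw [commutatorElement_def]; exact Z.mul_mem (hSZ v (hQS hv) z hz) (Z.inv_mem hz)) z hz)
    set C := Subgroup.centralizer (Q : Set G)
    refine CfsgLib.Core.le_pCore ((Cfsg.pCore_normal p _).comap (QuotientGroup.mk' C))
      ((CfsgLib.Core.isPGroup_pCore p).comap_of_ker_isPGroup _ ?_)
      (hst Q hQp z (CfsgLib.Glauberman.comm_zpowers_eq_bot hq))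
    rw [QuotientGroup.ker_mk']
    exact hQp.to_le hc
  set V := Subgroup.normalClosure (Z : Set G) with hV
  haveI hVn : V.Normal := Subgroup.normalClosure_normal
  have hZV : Z ≤ V := Subgroup.subset_normalClosure
  have hVQ : V ≤ Q := Subgroup.normalClosure_le_normal fun z hz => hZQ hz
  have hconj : ∀ g : G, ∀ a ∈ Z, ∀ b ∈ Z, a * (g * b * g⁻¹) = (g * b * g⁻¹) * a := by
    intro g
    have hmem : ∀ b ∈ Z, ∀ q ∈ Q, q * (g * b * g⁻¹) * q⁻¹ * (g * b * g⁻¹)⁻¹ ∈ Z.map (MulAut.conj g).toMonoidHom := by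
      intro b hb q hq
      refine ⟨(g⁻¹ * q * g) * b * (g⁻¹ * q * g)⁻¹ * b⁻¹, Z.mul_mem (hSZ _ (hQS ?_) b hb) (Z.inv_mem hb), ?_⟩
      · simpa using hQn.conj_mem q hq g⁻¹
      · simp [mul_assoc]
    intro a ha b hb
    set x := g * b * g⁻¹ with hx
    have hxQ : x ∈ Q := hQn.conj_mem b (hZQ hb) g
    have hin : ∀ c ∈ Z, ⁅c, x⁆ ∈ Z ∧ ⁅c, x⁆ ∈ Z.map (MulAut.conj g).toMonoidHom := fun c hc' => by
      refine ⟨?_, by rw [commutatorElement_def]; exact hmem b hb c (hZQ hc')⟩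
      rw [show ⁅c, x⁆ = c * (x * c⁻¹ * x⁻¹) by rw [commutatorElement_def]; group]
      exact Z.mul_mem hc' (hSZ x (hQS hxQ) _ (Z.inv_mem hc'))
    refine hprop x (hQS hxQ) (fun c hc' d hd => hZab _ (hin c hc').1 d hd) (fun c hc' => ?_) a ha
    obtain ⟨w, hw, hwe⟩ := (hin c hc').2
    rw [← hwe, hx]
    show g * w * g⁻¹ * (g * b * g⁻¹) = g * b * g⁻¹ * (g * w * g⁻¹)
    calc g * w * g⁻¹ * (g * b * g⁻¹) = g * (w * b) * g⁻¹ := by group
      _ = g * (b * w) * g⁻¹ := by rw [hZab w hw b hb]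
      _ = _ := by group
  have hVab : ∀ a ∈ V, ∀ b ∈ V, a * b = b * a := by
    have key : V ≤ Subgroup.centralizer (V : Set G) := by
      haveI : (Subgroup.centralizer (V : Set G)).Normal := inferInstance
      refine Subgroup.normalClosure_le_normal fun a ha => ?_
      have h : V ≤ Subgroup.centralizer ({a} : Set G) := by
        refine (Subgroup.closure_le _).mpr ?_
        intro y hy
        obtain ⟨b, hb, hby⟩ := Group.mem_conjugatesOfSet_iff.mp hy
        obtain ⟨g, rfl⟩ := isConj_iff.mp hby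
        exact Subgroup.mem_centralizer_singleton_iff.mpr (hconj g a ha b hb).symm
      exact Subgroup.mem_centralizer_iff.mpr fun y hy => (Subgroup.mem_centralizer_singleton_iff.mp (h hy))
    exact fun a ha b hb => (Subgroup.mem_centralizer_iff.mp (key hb) a ha)
  -- quadratic elements of `S` centralise `V`
  have hquad : ∀ x ∈ (S : Subgroup G), (∀ v ∈ V, ⁅⁅v, x⁆, x⁆ = 1) → ∀ v ∈ V, v * x = x * v := by
    intro x hxS hx
    have hxZ : ∀ y ∈ (S : Subgroup G), (∀ v ∈ V, ⁅⁅v, y⁆, y⁆ = 1) → ∀ a ∈ Z, a * y = y * a := by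
      intro y hy hyq
      have hin : ∀ a ∈ Z, ⁅a, y⁆ ∈ V := fun a ha => by
        rw [show ⁅a, y⁆ = a * (y * a⁻¹ * y⁻¹) by rw [commutatorElement_def]; group]
        exact V.mul_mem (hZV ha) (hVn.conj_mem _ (V.inv_mem (hZV ha)) y)
      exact hprop y hy (fun a ha b hb => hVab _ (hin a ha) b (hZV hb))
        (fun a ha => commutatorElement_eq_one_iff_mul_comm.mp (hyq a (hZV ha)))
    set C := Subgroup.centralizer (V : Set G)
    have hVp : IsPGroup p ↥V := hQp.to_le hVQ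
    set K := (Cfsg.pCore p (G ⧸ C)).comap (QuotientGroup.mk' C)
    haveI : K.Normal := (Cfsg.pCore_normal p _).comap _
    have hxK : x ∈ K := hst V hVp x (CfsgLib.Glauberman.comm_zpowers_eq_bot hx)
    set T := (S : Subgroup G) ⊓ K
    have hKT : ∀ k ∈ K, ∃ t ∈ T, t⁻¹ * k ∈ C := by
      intro k hk
      have h1 : Cfsg.pCore p (G ⧸ C) ≤ ((S.mapSurjective (QuotientGroup.mk'_surjective C) : Sylow p (G ⧸ C)) : Subgroup (G ⧸ C)) :=
        CfsgLib.Core.pCore_le_sylow _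
      rw [Sylow.coe_mapSurjective] at h1
      obtain ⟨t, ht, hte⟩ := h1 hk
      refine ⟨t, ⟨ht, ?_⟩, QuotientGroup.eq.mp hte⟩
      show (QuotientGroup.mk' C) t ∈ Cfsg.pCore p (G ⧸ C)
      rw [hte]; exact hk
    have hi : ¬ p ∣ ((S : Subgroup G).comap K.subtype).index := fun hd => by
      have h : (S : Subgroup G).relIndex ((S : Subgroup G) ⊔ K) = (S : Subgroup G).relIndex K :=
        CfsgLib.Fusion.relIndex_sup_of_normalizer (by rw [Subgroup.normalizer_eq_top K]; exact le_top)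
      exact S.not_dvd_index ((show p ∣ (S : Subgroup G).relIndex ((S : Subgroup G) ⊔ K) from h ▸ hd).trans
        (Dvd.intro _ (Subgroup.relIndex_mul_index le_sup_left)))
    let T' : Sylow p ↥K := (S.2.comap_subtype (K := K)).toSylow hi
    intro v hv
    suffices hx' : ∀ g : G, ∀ a ∈ Z, (g * a * g⁻¹) * x = x * (g * a * g⁻¹) by
      have hle : V ≤ Subgroup.centralizer ({x} : Set G) := by
        refine (Subgroup.closure_le _).mpr ?_
        intro y hy
        obtain ⟨b, hb, hby⟩ := Group.mem_conjugatesOfSet_iff.mp hy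
        obtain ⟨g, rfl⟩ := isConj_iff.mp hby
        exact Subgroup.mem_centralizer_singleton_iff.mpr (hx' g b hb)
      exact Subgroup.mem_centralizer_singleton_iff.mp (hle hv)
    intro g a ha
    have hfr : g ∈ Subgroup.normalizer (T : Set G) ⊔ K := by
      have h := Sylow.normalizer_sup_eq_top T'
      have e : (T' : Subgroup ↥K).map K.subtype = T := by
        show ((S : Subgroup G).subgroupOf K).map K.subtype = T
        rw [Subgroup.subgroupOf_map_subtype]
      rw [e] at h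
      rw [h]; exact Subgroup.mem_top g
    rw [← SetLike.mem_coe, Subgroup.coe_mul_of_left_le_normalizer_right _ _ (by rw [Subgroup.normalizer_eq_top K]; exact le_top)] at hfr
    obtain ⟨n, hn, k, hk, rfl⟩ := hfr
    obtain ⟨t, ht, htc⟩ := hKT k hk
    -- `n * k = (n * t) * c`
    have hnt : n * t ∈ Subgroup.normalizer (T : Set G) := mul_mem hn (Subgroup.le_normalizer ht)
    set n' := n * t
    have hfix : (n * k) * a * (n * k)⁻¹ = n' * a * n'⁻¹ := by
      have h1 := Subgroup.mem_centralizer_iff.mp htc a (hZV ha)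
      calc (n * k) * a * (n * k)⁻¹ = n' * ((t⁻¹ * k) * a * (t⁻¹ * k)⁻¹) * n'⁻¹ := by simp only [n']; group
        _ = n' * a * n'⁻¹ := by rw [← h1, mul_inv_cancel_right]
    rw [hfix]
    have hyS : n'⁻¹ * x * n' ∈ T := (Subgroup.mem_normalizer_iff''.mp hnt x).mp ⟨hxS, hxK⟩
    have hy := hxZ _ hyS.1 (fun w hw => by
      have h := congrArg (MulAut.conj n'⁻¹) (hx (n' * w * n'⁻¹) (hVn.conj_mem w hw n'))
      rw [map_one, map_commutatorElement, map_commutatorElement] at h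
      simpa [mul_assoc] using h) a ha
    calc n' * a * n'⁻¹ * x = n' * (a * (n'⁻¹ * x * n')) * n'⁻¹ := by group
      _ = n' * ((n'⁻¹ * x * n') * a) * n'⁻¹ := by rw [hy]
      _ = _ := by group
  have hVS : V ≤ (S : Subgroup G) := hVQ.trans hQS
  have hfam : V.subgroupOf (S : Subgroup G) ∈ Cfsg.dStarFamily ↥(S : Subgroup G) := by
    refine ⟨⟨⟨fun a b => Subtype.ext (Subtype.ext (hVab _ a.2 _ b.2))⟩⟩, fun x hx a ha => Subtype.ext ?_⟩
    refine hquad x x.2 (fun v hv => ?_) a ha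
    have h1 : ⁅⁅(⟨v, hVS hv⟩ : ↥(S : Subgroup G)), x⁆, x⁆ = 1 := Subgroup.mem_bot.mp (hx ▸
      Subgroup.commutator_mem_commutator (Subgroup.commutator_mem_commutator (Subgroup.mem_sup_left hv)
        (Subgroup.mem_sup_right (Subgroup.mem_zpowers x))) (Subgroup.mem_sup_right (Subgroup.mem_zpowers x)))
    exact congrArg Subtype.val h1
  have : V = Z := le_antisymm (fun v hv => ⟨⟨v, hVS hv⟩, le_sSup hfam (show (⟨v, hVS hv⟩ : ↥(S : Subgroup G)) ∈ V.subgroupOf (S : Subgroup G) from hv), rfl⟩) hZV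
  exact this ▸ hVn

end Cfsg.Agent.S3060
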