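import Cfsg.Statements.S3063
import Cfsg.Agent.Lib.ChermakDelgado

set_option autoImplicit false
open Cfsg

namespace Cfsg.Agent.S3063
open Subgroup CfsgLib.ChermakDelgado
open scoped Pointwise commutatorElement

/-- A weak replacement Theorem for metabelian p-groups: let S be a finite p-group whose derived subgroup is abelian and A an abelian subgroup of S of largest possible order. Then the normal closure of A in S contains an abelian subgroup B of the same order as A that is normal in S. -/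
theorem result {S : Type*} [Group S] [Finite S] {p : ℕ} [Fact p.Prime]
    (hS : IsPGroup p S) (hmeta : IsMulCommutative ↥(commutator S))
    (A : Subgroup S) (hA : A ∈ Cfsg.maxAbelianSubgroups S) :
    ∃ B ∈ Cfsg.maxAbelianSubgroups S, B.Normal ∧ B ≤ Subgroup.normalClosure (A : Set S) := by
  classical
  set D := Subgroup.normalClosure (A : Set S) with hD
  set M := commutator S with hM
  have hfin : {B : Subgroup S | B ∈ Cfsg.maxAbelianSubgroups S ∧ B ≤ D}.Finite := Set.toFinite _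
  obtain ⟨B, ⟨hB, hBD⟩, hmax⟩ := hfin.exists_maximalFor (fun B : Subgroup S => Nat.card ↥(B ⊓ M : Subgroup S)) _
    ⟨A, hA, Subgroup.le_normalClosure⟩
  refine ⟨B, hB, ?_, hBD⟩
  by_contra hn
  obtain ⟨g, hg⟩ : ∃ g : S, B.map (MulAut.conj g).toMonoidHom ≠ B := by
    by_contra hc
    push_neg at hc
    exact hn (normalizer_eq_top_iff.mp (eq_top_iff.mpr fun g _ => CfsgLib.LocalBasic.mem_normalizer_of_conj_map_eq (hc g)))
  set C := B.map (MulAut.conj g).toMonoidHom with hC
  have hCcard : Nat.card ↥C = Nat.card ↥B := Subgroup.card_map_of_injective (MulEquiv.injective _)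
  have hBc := hB.1
  have hCc : IsMulCommutative ↥C := ⟨⟨fun ⟨x, hx⟩ ⟨y, hy⟩ => by
    obtain ⟨a, ha, rfl⟩ := hx
    obtain ⟨b, hb, rfl⟩ := hy
    apply Subtype.ext
    simp only [Subgroup.coe_mul, ← map_mul]
    rw [Subgroup.mul_comm_of_mem_isMulCommutative B ha hb]⟩⟩
  have hCD : C ≤ D := by
    rintro _ ⟨a, ha, rfl⟩
    exact (Subgroup.normalClosure_normal (s := (A : Set S))).conj_mem a (hBD ha) g
  set J := B ⊔ C with hJ
  have hJM : J ≤ B ⊔ M := sup_le le_sup_left (by
    rintro _ ⟨a, ha, rfl⟩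
    rw [show (MulAut.conj g).toMonoidHom a = ⁅g, a⁆ * a by simp [commutatorElement_def, mul_assoc]]
    exact mul_mem (mem_sup_right (commutator_mem_commutator (mem_top g) (mem_top a))) (mem_sup_left ha))
  have hset : (J : Set S) ⊆ (B : Set S) * ((J ⊓ M : Subgroup S) : Set S) := by
    intro x hx
    obtain ⟨a, ha, m, hm, rfl⟩ := Subgroup.mem_sup_of_normal_right.mp (hJM hx)
    refine ⟨a, ha, m, ⟨?_, hm⟩, rfl⟩
    simpa using mul_mem (inv_mem (mem_sup_left ha : a ∈ J)) hx
  have e0 : B ⊓ (J ⊓ M) = B ⊓ M := by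
    rw [← inf_assoc, inf_eq_left.mpr (le_sup_left : B ≤ J)]
  have h1 : Nat.card ↥J * Nat.card ↥(B ⊓ M : Subgroup S) ≤ Nat.card ↥B * Nat.card ↥(J ⊓ M : Subgroup S) := by
    rw [← e0]
    exact (Nat.mul_le_mul_right _ (Nat.card_mono (Set.toFinite _) hset)).trans
      (CfsgLib.ChermakDelgado.mul_card_le _ _)
  have h2 : Nat.card ↥B * Nat.card ↥B ≤ Nat.card ↥J * Nat.card ↥(B ⊓ C : Subgroup S) := by
    conv_lhs => arg 2; rw [← hCcard]
    exact card_mul_le_sup B C
  set B' := (J ⊓ M) ⊔ (B ⊓ C) with hB'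
  have h3 : Nat.card ↥(J ⊓ M : Subgroup S) * Nat.card ↥(B ⊓ C : Subgroup S) ≤ Nat.card ↥B' * Nat.card ↥(B ⊓ M : Subgroup S) :=
    (card_mul_le_sup _ _).trans (Nat.mul_le_mul_left _ (Subgroup.card_le_of_le
      (le_inf (inf_le_right.trans inf_le_left) (inf_le_left.trans inf_le_right))))
  have hJc : J ≤ centralizer ((B ⊓ C : Subgroup S) : Set S) :=
    sup_le ((isMulCommutative_iff_le.mp hBc).trans (centralizer_le (SetLike.coe_subset_coe.mpr inf_le_left)))
      ((isMulCommutative_iff_le.mp hCc).trans (centralizer_le (SetLike.coe_subset_coe.mpr inf_le_right)))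
  have hB'c : IsMulCommutative ↥B' := by
    rw [isMulCommutative_iff_le, centralizer_sup]
    refine le_inf (sup_le ?_ ?_) (sup_le (inf_le_left.trans hJc) ?_)
    · exact inf_le_right.trans ((isMulCommutative_iff_le.mp hmeta).trans (centralizer_le (SetLike.coe_subset_coe.mpr inf_le_right)))
    · exact le_centralizer_iff.mp (inf_le_left.trans hJc)
    · exact inf_le_left.trans ((isMulCommutative_iff_le.mp hBc).trans (centralizer_le (SetLike.coe_subset_coe.mpr inf_le_left)))
  have hpos : 0 < Nat.card ↥(B ⊓ M : Subgroup S) := Nat.card_pos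
  have hle : Nat.card ↥B ≤ Nat.card ↥B' := by
    have hmul := Nat.mul_le_mul h2 (le_refl (Nat.card ↥(B ⊓ M : Subgroup S)))
    have h13 : Nat.card ↥J * Nat.card ↥(B ⊓ M : Subgroup S) * Nat.card ↥(B ⊓ C : Subgroup S)
        ≤ Nat.card ↥B * (Nat.card ↥B' * Nat.card ↥(B ⊓ M : Subgroup S)) :=
      (Nat.mul_le_mul_right _ h1).trans (by rw [mul_assoc]; exact Nat.mul_le_mul_left _ h3)
    have hBpos : 0 < Nat.card ↥B := Nat.card_pos
    nlinarith [hmul, h13, Nat.mul_pos hBpos hpos]
  have hB'mem : B' ∈ Cfsg.maxAbelianSubgroups S := ⟨hB'c, fun X hX => (hB.2 X hX).trans hle⟩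
  have hB'D : B' ≤ D := sup_le (inf_le_left.trans (sup_le hBD hCD)) (inf_le_left.trans hBD)
  have hlt : Nat.card ↥(B ⊓ M : Subgroup S) < Nat.card ↥(J ⊓ M : Subgroup S) := by
    by_contra hc
    have : Nat.card ↥J ≤ Nat.card ↥B :=
      Nat.le_of_mul_le_mul_right (h1.trans (Nat.mul_le_mul_left _ (not_lt.mp hc))) hpos
    have hJB : B = J := Subgroup.eq_of_le_of_card_ge le_sup_left this
    exact hg (Subgroup.eq_of_le_of_card_ge (hJB ▸ le_sup_right) hCcard.ge)
  have h4 : Nat.card ↥(J ⊓ M : Subgroup S) ≤ Nat.card ↥(B' ⊓ M : Subgroup S) :=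
    Subgroup.card_le_of_le (le_inf le_sup_left inf_le_right)
  have := hmax ⟨hB'mem, hB'D⟩ (hlt.trans_le h4).le
  simp only at this
  omega

end Cfsg.Agent.S3063
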