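import Cfsg.Statements.S3064
import Cfsg.Agent.Lib.BasicProperty
import Cfsg.Agent.Lib.GroupB.Frobenius

set_option autoImplicit false
open Cfsg

namespace Cfsg.Agent.S3064

open CfsgLib.LocalBasic
open scoped Pointwise

/-- A subgroup containing the hypotheses of the statement all of whose proper subgroups through `x` centralize `x`. -/
theorem step {G : Type*} [Group G] [Finite G] {p : ℕ} [hp : Fact p.Prime] (x : G) (hxp : IsPGroup p ↥(Subgroup.zpowers x))
    (hU : ∀ P : Subgroup G, IsPGroup p ↥P → ∀ g : G, x ∈ P → g * x * g⁻¹ ∈ P → g * x * g⁻¹ = x)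
    (hb : ∀ H : Subgroup G, (Nat.card H).Coprime p → (∀ h ∈ H, x * h * x⁻¹ ∈ H) → ∀ h ∈ H, x * h = h * x)
    (hmin : ∀ H : Subgroup G, H ≠ ⊤ → x ∈ H → H ≤ Subgroup.centralizer ({x} : Set G)) :
    x ∈ Subgroup.center G := by
  classical
  by_contra hx
  set M := Subgroup.centralizer ({x} : Set G) with hM
  have hxM : x ∈ M := Subgroup.mem_centralizer_singleton_iff.mpr rfl
  have hMtop : M ≠ ⊤ := fun h => hx (Subgroup.mem_center_iff.mpr fun g =>
    Subgroup.mem_centralizer_singleton_iff.mp (h ▸ Subgroup.mem_top g : g ∈ M))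
  have hgen : ∀ g : G, g ∉ M → Subgroup.zpowers x ⊔ Subgroup.zpowers (g * x * g⁻¹) = ⊤ := by
    intro g hg
    by_contra hc
    have hle := hmin _ hc (Subgroup.mem_sup_left (Subgroup.mem_zpowers x))
    have hy : g * x * g⁻¹ ∈ M := hle (Subgroup.mem_sup_right (Subgroup.mem_zpowers _))
    have hyp : IsPGroup p ↥(Subgroup.zpowers (g * x * g⁻¹)) := by
      obtain ⟨k, hk⟩ := hxp ⟨x, Subgroup.mem_zpowers x⟩
      have hk' : x ^ p ^ k = 1 := by simpa using congrArg Subtype.val hk
      exact isPGroup_zpowers_of_pow_eq_one (k := k) (by rw [conj_pow, hk', mul_one, mul_inv_cancel])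
    have hn : Subgroup.zpowers (g * x * g⁻¹) ≤ Subgroup.normalizer ((Subgroup.zpowers x : Subgroup G) : Set G) := by
      refine Subgroup.zpowers_le.mpr (mem_normalizer_of_conj_map_eq ?_)
      rw [MonoidHom.map_zpowers]
      congr 1
      show (g * x * g⁻¹) * x * (g * x * g⁻¹)⁻¹ = x
      rw [Subgroup.mem_centralizer_singleton_iff.mp hy, mul_inv_cancel_right]
    have heq := hU _ (hxp.to_sup_of_normal_left' hyp hn) g (Subgroup.mem_sup_left (Subgroup.mem_zpowers x))
      (Subgroup.mem_sup_right (Subgroup.mem_zpowers _))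
    apply hg
    rw [hM, Subgroup.mem_centralizer_singleton_iff]
    calc g * x = g * x * g⁻¹ * g := by group
      _ = x * g := by rw [heq]
  have hR : ∀ g : G, g ∉ M → ∀ r : G, r ∈ M → g⁻¹ * r * g ∈ M → r ∈ Subgroup.center G := by
    intro g hg r hr hr'
    have h1 : Subgroup.zpowers x ⊔ Subgroup.zpowers (g * x * g⁻¹) ≤ Subgroup.centralizer ({r} : Set G) := by
      refine sup_le (Subgroup.zpowers_le.mpr ?_) (Subgroup.zpowers_le.mpr ?_)
      · exact Subgroup.mem_centralizer_singleton_iff.mpr (Subgroup.mem_centralizer_singleton_iff.mp hr).symm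
      · rw [Subgroup.mem_centralizer_singleton_iff]
        rw [hM, Subgroup.mem_centralizer_singleton_iff] at hr'
        calc g * x * g⁻¹ * r = g * (x * (g⁻¹ * r * g)) * g⁻¹ := by group
          _ = g * ((g⁻¹ * r * g) * x) * g⁻¹ := by rw [hr']
          _ = r * (g * x * g⁻¹) := by group
    rw [hgen g hg] at h1
    exact Subgroup.mem_center_iff.mpr fun y => Subgroup.mem_centralizer_singleton_iff.mp (h1 (Subgroup.mem_top y))
  obtain ⟨S, hS⟩ := hxp.exists_le_sylow
  have hxS : x ∈ (S : Subgroup G) := hS (Subgroup.mem_zpowers x)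
  have hSM : (S : Subgroup G) ≤ M := by
    intro s hs
    have h := hU _ S.2 s hxS ((S : Subgroup G).mul_mem ((S : Subgroup G).mul_mem hs hxS) ((S : Subgroup G).inv_mem hs))
    rw [hM, Subgroup.mem_centralizer_singleton_iff]
    calc s * x = s * x * s⁻¹ * s := by group
      _ = x * s := by rw [h]
  set Z := Subgroup.center G with hZ
  have hZM : Z ≤ M := Subgroup.center_le_centralizer _
  let π := QuotientGroup.mk' Z
  have hπ : Function.Surjective π := QuotientGroup.mk'_surjective Z
  have hker : π.ker = Z := QuotientGroup.ker_mk' Z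
  have hcomap : (M.map π).comap π = M := Subgroup.comap_map_eq_self (hker.le.trans hZM)
  have hFrob : IsFrobeniusComplement (M.map π) := by
    refine ⟨fun h => hx ?_, fun h => hMtop ?_, fun γ hγ => ?_⟩
    · rw [Subgroup.map_eq_bot_iff, hker] at h
      exact h hxM
    · rw [← hcomap, h, Subgroup.comap_top]
    · obtain ⟨g, rfl⟩ := hπ γ
      have hg : g ∉ M := fun h => hγ ⟨g, h, rfl⟩
      rw [eq_bot_iff]
      rintro u ⟨hu1, hu2⟩
      obtain ⟨r, rfl⟩ := hπ u
      rw [Subgroup.mem_bot, ← MonoidHom.mem_ker, hker]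
      refine hR g hg r (hcomap ▸ hu1) ?_
      have h2 : (π g)⁻¹ * π r * π g ∈ M.map π := by
        have := Subgroup.mem_pointwise_smul_iff_inv_smul_mem.mp hu2
        simpa [MulAut.smul_def, mul_assoc] using this
      rw [← map_inv, ← map_mul, ← map_mul] at h2
      exact hcomap ▸ h2
  obtain ⟨Nb, -, hNn, hcompl⟩ := CfsgLib.GroupB.Frobenius.exists_kernel_subgroup hFrob
  haveI := hNn
  set K := Nb.comap π with hK
  have hZK : Z ≤ K := fun z hz => by
    show π z ∈ Nb
    rw [(hker.symm ▸ hz : z ∈ π.ker)]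
    exact Nb.one_mem
  have hKM : K ⊓ M ≤ Z := by
    rintro k ⟨hk1, hk2⟩
    have : π k ∈ Nb ⊓ M.map π := ⟨hk1, k, hk2, rfl⟩
    rw [disjoint_iff.mp hcompl.disjoint, Subgroup.mem_bot, ← MonoidHom.mem_ker, hker] at this
    exact this
  have hrel : Z.relIndex K = Nat.card ↥Nb := by
    have h1 := Subgroup.relIndex_comap (⊥ : Subgroup (G ⧸ Z)) π K
    rw [MonoidHom.comap_bot, hker, hK, Subgroup.map_comap_eq_self_of_surjective hπ, Subgroup.relIndex_bot_left] at h1
    exact h1
  have hnp : ¬ p ∣ Nat.card ↥Nb := by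
    intro h
    have h1 : Nat.card ↥Nb = (M.map π).index := (hcompl.index_eq_card).symm
    have h2 : (M.map π).index = M.index := by
      rw [← Subgroup.index_comap_of_surjective _ hπ, hcomap]
    rw [h1, h2] at h
    exact S.not_dvd_index (h.trans (Subgroup.index_dvd_of_le hSM))
  apply hFrob.2.1
  have hone : Nat.card ↥Nb = 1 := by
    by_contra hne
    obtain ⟨q, hq, hqd⟩ := Nat.exists_prime_and_dvd hne
    haveI := Fact.mk hq
    have hqp : q ≠ p := fun h => hnp (h ▸ hqd)
    obtain ⟨Q⟩ := (inferInstance : Nonempty (Sylow q ↥K))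
    set Q' := (Q : Subgroup ↥K).map K.subtype with hQ'
    have hfr : Subgroup.normalizer (Q' : Set G) ⊔ K = ⊤ := Sylow.normalizer_sup_eq_top Q
    have hZN : Z ≤ Subgroup.normalizer (Q' : Set G) := fun z hz => mem_normalizer_of_conj_map_eq (by
      ext y
      simp [Subgroup.mem_map, ← Subgroup.mem_center_iff.mp hz])
    have hnd : ¬ p ∣ (Subgroup.normalizer (Q' : Set G)).index := by
      intro hd
      have e : (Subgroup.normalizer (Q' : Set G)).index = (Subgroup.normalizer (Q' : Set G)).relIndex K := by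
        set N := Subgroup.normalizer (Q' : Set G)
        have e1 : K.index = K.relIndex N := by
          rw [← Subgroup.relIndex_top_right, ← hfr, Subgroup.relIndex_sup_right]
        have e2 := Subgroup.relIndex_mul_relIndex ⊥ (N ⊓ K) N bot_le inf_le_left
        have e3 := Subgroup.relIndex_mul_relIndex ⊥ (N ⊓ K) K bot_le inf_le_right
        simp only [Subgroup.relIndex_bot_left, Subgroup.inf_relIndex_left, Subgroup.inf_relIndex_right] at e2 e3
        have e4 := K.card_mul_index.trans N.card_mul_index.symm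
        rw [e1, ← e2, ← e3] at e4
        have h5 : 0 < Nat.card ↥(N ⊓ K : Subgroup G) * K.relIndex N := by rw [e2]; exact Nat.card_pos
        apply Nat.eq_of_mul_eq_mul_left h5
        rw [← e4]; ring
      exact hnp (hrel ▸ (e ▸ hd).trans (Subgroup.relIndex_dvd_of_le_left K hZN))
    obtain ⟨m, hm⟩ := CfsgLib.BasicProperty.exists_conj_sylow_le hnd S
    set W := Q'.map (MulAut.conj m⁻¹).toMonoidHom with hW
    have hWc : (Nat.card W).Coprime p := by
      obtain ⟨k, hk⟩ := ((Q.2.map K.subtype).map (MulAut.conj m⁻¹).toMonoidHom).exists_card_eq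
      rw [hW, hQ', hk]
      exact ((Nat.coprime_primes hq hp.out).mpr hqp).pow_left k
    have hWx : ∀ h ∈ W, x * h * x⁻¹ ∈ W := by
      rintro _ ⟨y, hy, rfl⟩
      refine ⟨(m * x * m⁻¹) * y * (m * x * m⁻¹)⁻¹, (Subgroup.mem_normalizer_iff.mp (hm x hxS) y).mp hy, ?_⟩
      simp [mul_assoc]
    have hQZ : Q' ≤ Z := by
      intro y hy
      have hw : m⁻¹ * y * m ∈ W := ⟨y, hy, by simp⟩
      have hwM : m⁻¹ * y * m ∈ M :=
        Subgroup.mem_centralizer_singleton_iff.mpr (hb W hWc hWx _ hw).symm
      have hwK : m⁻¹ * y * m ∈ K := by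
        simpa using (inferInstance : K.Normal).conj_mem y (Subgroup.map_subtype_le _ hy) m⁻¹
      have hwZ := hKM ⟨hwK, hwM⟩
      have h := (inferInstance : Z.Normal).conj_mem _ hwZ m
      simpa [mul_assoc] using h
    refine Q.not_dvd_index ?_
    have h1 : (Z.subgroupOf K).index ∣ (Q : Subgroup ↥K).index :=
      Subgroup.index_dvd_of_le fun u hu => hQZ ⟨u, hu, rfl⟩
    refine dvd_trans ?_ h1
    rw [← Subgroup.relIndex, hrel]
    exact hqd
  have hb2 : Nb = ⊥ := Subgroup.card_eq_one.mp hone
  rw [← Subgroup.index_eq_one, hcompl.index_eq_card, hb2, Subgroup.card_bot]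


/-- Let S be a Sylow p-subgroup of the finite group G and x an element of S such that (i) x is the only G-conjugate of x lying in S, and (ii) x centralizes every subgroup of order prime to p that it normalizes. Then x lies in the centre of G. -/
theorem result {G : Type*} [Group G] [Finite G] {p : ℕ} [Fact p.Prime]
    (S : Sylow p G) (x : G) (hx : x ∈ S)
    (hU : ∀ g : G, g⁻¹ * x * g ∈ S → g⁻¹ * x * g = x)
    (hb : ∀ H : Subgroup G, (Nat.card H).Coprime p → (∀ h ∈ H, x * h * x⁻¹ ∈ H) → ∀ h ∈ H, x * h = h * x) :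
    x ∈ Subgroup.center G := by
  classical
  have hxp : IsPGroup p ↥(Subgroup.zpowers x) := S.2.to_le (Subgroup.zpowers_le.mpr hx)
  have hU' : ∀ P : Subgroup G, IsPGroup p ↥P → ∀ g : G, x ∈ P → g * x * g⁻¹ ∈ P → g * x * g⁻¹ = x := by
    intro P hP g h1 h2
    obtain ⟨a, -, ha⟩ := exists_conj_le_sylow S (M := ⊤) le_top hP le_top
    have e1 : a * x * a⁻¹ = x := by
      have := hU a⁻¹ (by rw [inv_inv]; exact ha x h1)
      rwa [inv_inv] at this
    have e2 : a * (g * x * g⁻¹) * a⁻¹ = x := by
      have := hU (a * g)⁻¹ (by have := ha _ h2; show _ ∈ (S : Subgroup G); convert this using 1; group)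
      convert this using 1; group
    have e3 : a * x * a⁻¹ = a * (g * x * g⁻¹) * a⁻¹ := e1.trans e2.symm
    exact (mul_left_cancel (mul_right_cancel e3)).symm
  have main : ∀ n, ∀ H : Subgroup G, Nat.card ↥H = n → x ∈ H → H ≤ Subgroup.centralizer ({x} : Set G) := by
    intro n
    induction n using Nat.strong_induction_on with
    | _ n ih =>
      intro H hn hxH h hh
      have hcen : (⟨x, hxH⟩ : ↥H) ∈ Subgroup.center ↥H := by
        refine step (p := p) _ ?_ ?_ ?_ ?_
        · obtain ⟨k, hk⟩ := hxp ⟨x, Subgroup.mem_zpowers x⟩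
          exact isPGroup_zpowers_of_pow_eq_one (k := k) (Subtype.ext (by simpa using congrArg Subtype.val hk))
        · intro P hP g h1 h2
          exact Subtype.ext (hU' (P.map H.subtype) (hP.map _) g ⟨_, h1, rfl⟩ ⟨_, h2, rfl⟩)
        · intro J hJc hJ j hj
          refine Subtype.ext (hb (J.map H.subtype) ?_ ?_ j ⟨j, hj, rfl⟩)
          · rwa [Subgroup.card_map_of_injective H.subtype_injective]
          · rintro _ ⟨u, hu, rfl⟩
            exact ⟨_, hJ u hu, rfl⟩
        · intro J hJ hxJ j hj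
          have hlt : Nat.card ↥(J.map H.subtype) < n := by
            rw [Subgroup.card_map_of_injective H.subtype_injective, ← hn]
            exact lt_of_le_of_ne (Subgroup.card_le_card_group J) fun e => hJ (Subgroup.eq_top_of_card_eq J e)
          have := ih _ hlt (J.map H.subtype) rfl ⟨_, hxJ, rfl⟩ ⟨j, hj, rfl⟩
          rw [Subgroup.mem_centralizer_singleton_iff] at this ⊢
          exact Subtype.ext this
      rw [Subgroup.mem_centralizer_singleton_iff]
      exact congrArg Subtype.val (Subgroup.mem_center_iff.mp hcen ⟨h, hh⟩)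
  exact Subgroup.mem_center_iff.mpr fun g =>
    Subgroup.mem_centralizer_singleton_iff.mp (main _ ⊤ rfl (Subgroup.mem_top x) (Subgroup.mem_top g))

end Cfsg.Agent.S3064
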