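import Cfsg.Statements.S3069
import Cfsg.Agent.Lib.Glauberman.KInfFocal

set_option autoImplicit false
open Cfsg

namespace Cfsg.Agent.S3069

/-- Let p ≥ 7 be a prime and S a nontrivial Sylow p-subgroup of the finite group G. If N_G(S)/C_G(S) is a p-group (every element of N_G(S) of order prime to p centralizes S), then O^p(G) < G, i.e. G has a nontrivial p-factor group. -/
theorem result {G : Type*} [Group G] [Finite G] {p : ℕ} [Fact p.Prime]
    (hp : 7 ≤ p) (S : Sylow p G) (hS : (S : Subgroup G) ≠ ⊥)
    (hN : ∀ g ∈ Subgroup.normalizer ((S : Subgroup G) : Set G), (orderOf g).Coprime p →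
      g ∈ Subgroup.centralizer ((S : Subgroup G) : Set G)) :
    Cfsg.pResidual p G ≠ ⊤ := by
  intro htop
  refine CfsgLib.Glauberman.sylow_not_le_commutator (by omega) _ G rfl S hS hN fun x hx => ?_
  let f := QuotientGroup.mk' (commutator G)
  have key : ∀ g ∈ Cfsg.pResidual p G, (orderOf (f g)).Coprime p := by
    intro g hg
    refine Subgroup.closure_induction (p := fun g _ => (orderOf (f g)).Coprime p) ?_ ?_ ?_ ?_ hg
    · exact fun a ha => (show (orderOf a).Coprime p from ha).coprime_dvd_left (orderOf_map_dvd f a)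
    · simp
    · intro a b _ _ ha hb
      rw [map_mul]
      exact (Nat.Coprime.mul_left ha hb).coprime_dvd_left
        ((Commute.all (Abelianization.of a) (Abelianization.of b)).orderOf_mul_dvd_mul_orderOf)
    · intro a _ ha
      rwa [map_inv, orderOf_inv]
  have h1 := key x (htop ▸ Subgroup.mem_top x)
  obtain ⟨k, hk⟩ := S.2 ⟨x, hx⟩
  have h2 : orderOf (f x) ∣ p ^ k := (orderOf_map_dvd f x).trans (orderOf_dvd_of_pow_eq_one (by simpa using congrArg Subtype.val hk))
  refine (QuotientGroup.eq_one_iff x).mp (orderOf_eq_one_iff.mp ?_)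
  exact Nat.eq_one_of_dvd_coprimes (h1.pow_right k) dvd_rfl h2

end Cfsg.Agent.S3069
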