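import Cfsg.Statements.S3071
import Cfsg.Agent.Lib.Glauberman.QdFree

set_option autoImplicit false
open Cfsg

namespace Cfsg.Agent.S3071

theorem exists_section {G A : Type*} [Group G] [Group A] {N : Set G} (H : Subgroup G) (hH : (H : Set G) ⊆ N) (χ : ↥H →* A)
    (hχ : Function.Surjective χ) :
    ∃ (H K : Subgroup G) (_ : (K.subgroupOf H).Normal), (H : Set G) ⊆ N ∧ Nonempty ((H ⧸ K.subgroupOf H) ≃* A) := by
  have h : (χ.ker.map H.subtype).subgroupOf H = χ.ker := Subgroup.comap_map_eq_self_of_injective H.subtype_injective _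
  haveI hn : ((χ.ker.map H.subtype).subgroupOf H).Normal := by rw [h]; infer_instance
  exact ⟨H, χ.ker.map H.subtype, hn, hH,
    ⟨(QuotientGroup.quotientMulEquivOfEq h).trans (QuotientGroup.quotientKerEquivOfSurjective χ hχ)⟩⟩

open Cfsg.FusionSystem CfsgLib.Glauberman CfsgLib.ThompsonNPC CfsgLib.Fusion in
/-- Let p be an odd prime and S a Sylow p-subgroup of the finite group G such that, for every subgroup P with Z(S) ≤ P ≤ S, the normalizer N_G(P) has no section isomorphic to SL₂(p). Let J(S) be the subgroup generated by the abelian subgroups of S of largest order. Then two elements of S are conjugate in G if and only if they are conjugate in N_G(Z(J(S))). -/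
theorem result {G : Type*} [Group G] [Finite G] {p : ℕ} [Fact p.Prime]
    (hp : p ≠ 2) (S : Sylow p G)
    (hfree : ∀ P : Subgroup G, (S : Subgroup G) ⊓ Subgroup.centralizer ((S : Subgroup G) : Set G) ≤ P → P ≤ S →
      ¬ ∃ (H K : Subgroup G) (hK : (K.subgroupOf H).Normal), H ≤ Subgroup.normalizer (P : Set G) ∧
        Nonempty ((H ⧸ K.subgroupOf H) ≃* Matrix.SpecialLinearGroup (Fin 2) (ZMod p))) :
    ∀ x ∈ S, ∀ y ∈ S, (∃ g : G, g * x * g⁻¹ = y) ↔
      ∃ n ∈ Subgroup.normalizer (Cfsg.centerThompsonAOf (S : Subgroup G) : Set G), n * x * n⁻¹ = y := by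
  have hsat := group_isSaturated (S := S)
  have hqd : (groupFusionSystem (S : Subgroup G)).IsSectionFree p ↥(Cfsg.qd p) := by
    intro Q hQn hQc E hE L _ ι hL hi
    obtain ⟨f, hf, -⟩ := exists_surjection_model S hQn hQc E hE hL
    obtain ⟨K, φ, hφ⟩ := involves_iff.mp (involves_of_surjective hi f hf)
    let e := MulEquiv.subgroupCongr (CfsgLib.Qd.qd_eq p)
    let χ := CfsgLib.Qd.blk.comp (e.toMonoidHom.comp φ)
    have hχ : Function.Surjective χ := CfsgLib.Qd.blk_surjective.comp (e.surjective.comp hφ)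
    let N := Subgroup.normalizer (Q : Set G)
    refine hfree Q (fun z hz => hQc.2 Q (CfsgLib.Fusion.IsConj.refl _ hQn.1) ⟨hz.1, fun y hy => hz.2 y (hQn.1 hy)⟩) hQn.1 ?_
    exact exists_section (K.map N.subtype) (Subgroup.map_subtype_le K)
      (χ.comp (K.equivMapOfInjective N.subtype N.subtype_injective).symm.toMonoidHom)
      (hχ.comp (K.equivMapOfInjective N.subtype N.subtype_injective).symm.surjective)
  have hW := isNormal_of_qdFree hp S.2 hsat hqd (Or.inl rfl) (stronglyClosed_self _)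
  rw [centerThompsonAOf_eq]
  intro x hx y hy
  refine ⟨fun ⟨g, hg⟩ => ?_, fun ⟨n, _, hn⟩ => ⟨n, hn⟩⟩
  obtain ⟨n, hn, he⟩ := (controls_of_isNormal S hW {x} (Set.singleton_subset_iff.mpr hx)).2 g
    (by rintro _ ⟨_, rfl, rfl⟩; show g * _ * g⁻¹ ∈ (S : Subgroup G); rw [hg]; exact hy)
  exact ⟨n, hn, (he x rfl).symm.trans hg⟩

end Cfsg.Agent.S3071
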