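import Cfsg.Statements.S3073
import Cfsg.Agent.S1990
import Cfsg.Agent.Lib.KInfControl
import Cfsg.Agent.Lib.LocalBasic
import Cfsg.Agent.Lib.Thompson.PClosed

set_option autoImplicit false
universe u
open Cfsg

namespace Cfsg.Agent.S3073

open CfsgLib.ThompsonNPC

/-- For an odd prime p, every finite p-group S has a characteristic subgroup K with C_S(K) ≤ K such that, whenever S is (isomorphic to) a Sylow p-subgroup of a finite group G, G has a normal p-complement if and only if N_G(K)/C_G(K) is a p-group, i.e. every element of N_G(K) of order prime to p centralizes K (K transported into G along the isomorphism). -/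
theorem result (p : ℕ) [Fact p.Prime] (hp : p ≠ 2)
    (S : Type u) [Group S] [Finite S] (hS : IsPGroup p S) :
    ∃ K : Subgroup S, K.Characteristic ∧ Subgroup.centralizer (K : Set S) ≤ K ∧
      ∀ (G : Type u) [Group G] [Finite G] (P : Sylow p G) (e : ↥(P : Subgroup G) ≃* S),
        Cfsg.HasNormalPComplement p G ↔
          ∀ g ∈ Subgroup.normalizer (((K.comap (e : ↥(P : Subgroup G) →* S)).map (P : Subgroup G).subtype : Subgroup G) : Set G),
            (orderOf g).Coprime p →
              g ∈ Subgroup.centralizer (((K.comap (e : ↥(P : Subgroup G) →* S)).map (P : Subgroup G).subtype : Subgroup G) : Set G) := by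
  have hW := CfsgLib.KInfStable.charP_upper.{u} (p := p)
  have hcen : Subgroup.centralizer ((Cfsg.kInfUpper S : Subgroup S) : Set S) ≤ Cfsg.kInfUpper S := by
    obtain ⟨n, hn⟩ := CfsgLib.KInf.eventually_const (P := S)
    rw [← (hn (n + 1) (Nat.le_succ n)).2]
    exact CfsgLib.KInf.centralizer_odd_succ_le hS.isNilpotent n
  have hchar : (Cfsg.kInfUpper S).Characteristic :=
    Subgroup.characteristic_iff_map_eq.mpr fun φ => hW.2 S S hS φ
  refine ⟨Cfsg.kInfUpper S, hchar, hcen, fun G _ _ P e => ?_⟩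
  obtain ⟨W, hWdef⟩ : ∃ W, W = Cfsg.inducedFunctor (G := G) Cfsg.kInfUpper (P : Subgroup G) := ⟨_, rfl⟩
  have hKeq : ((Cfsg.kInfUpper S).comap (e : ↥(P : Subgroup G) →* S)).map (P : Subgroup G).subtype = W := by
    rw [hWdef, Cfsg.inducedFunctor, ← hW.2 ↥(P : Subgroup G) S P.2 e]
    congr 1
    exact Subgroup.comap_map_eq_self_of_injective e.injective _
  rw [hKeq]
  have hWP : W ≤ (P : Subgroup G) := hWdef ▸ Subgroup.map_subtype_le _
  have hWp : IsPGroup p ↥W := P.2.to_le hWP
  have hPN : (P : Subgroup G) ≤ Subgroup.normalizer (W : Set G) := by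
    intro g hg
    refine CfsgLib.LocalBasic.mem_normalizer_of_conj_map_eq ?_
    rw [hWdef, Cfsg.inducedFunctor, Subgroup.map_map,
      show (MulAut.conj g).toMonoidHom.comp (P : Subgroup G).subtype =
        (P : Subgroup G).subtype.comp (MulAut.conj (⟨g, hg⟩ : ↥(P : Subgroup G))).toMonoidHom by ext x; simp,
      ← Subgroup.map_map, hW.2 ↥(P : Subgroup G) ↥(P : Subgroup G) P.2 (MulAut.conj ⟨g, hg⟩)]
  constructor
  · intro h g hg hgc
    have h2 : PCOn p (Subgroup.normalizer (W : Set G)) := (hasNPC_iff.mp h).mono le_top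
    exact pcore'_le_centralizer h2 hWp (hWP.trans hPN) le_rfl ⟨hg, hgc⟩
  · intro hN
    refine Cfsg.Agent.S1990.result hp Cfsg.kInfUpper hW P (hWdef ▸ hasNPC_subgroup_iff.mpr ?_)
      fun K R hR hst T => CfsgLib.KInfStable.upper_controls (CfsgLib.KInfStable.stable_sec hst) _
        CfsgLib.SectionReduce.Sec.refl T
    -- the centralizer of `W` has a central Sylow subgroup
    have hCW : (P : Subgroup G) ⊓ Subgroup.centralizer (W : Set G) ≤ W := by
      rintro x ⟨hxP, hxC⟩
      rw [← hKeq]
      refine ⟨⟨x, hxP⟩, hcen (Subgroup.mem_centralizer_iff.mpr fun y hy => ?_), rfl⟩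
      obtain ⟨z, rfl⟩ := e.surjective y
      show e z * e ⟨x, hxP⟩ = e ⟨x, hxP⟩ * e z
      rw [← map_mul, ← map_mul]
      refine congrArg e (Subtype.ext ?_)
      exact Subgroup.mem_centralizer_iff.mp hxC _ (hKeq.le ⟨z, hy, rfl⟩)
    obtain ⟨C, hC⟩ : ∃ C, C = Subgroup.centralizer (W : Set G) := ⟨_, rfl⟩
    have hNpc : PCOn p C := by
      obtain ⟨Q⟩ := (inferInstance : Nonempty (Sylow p ↥C))
      have hQC : (Q : Subgroup ↥C) ≤ Subgroup.center ↥C := by
        intro q hq
        obtain ⟨n, hn, hnle⟩ := CfsgLib.LocalBasic.exists_conj_le_sylow P (M := Subgroup.normalizer (W : Set G)) hPN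
          (Q.2.map C.subtype) ((Subgroup.map_subtype_le _).trans (hC ▸ Subgroup.centralizer_le_normalizer _))
        have h1 : n * (q : G) * n⁻¹ ∈ (P : Subgroup G) ⊓ Subgroup.centralizer (W : Set G) := by
          refine ⟨hnle _ ⟨q, hq, rfl⟩, Subgroup.mem_centralizer_iff.mpr fun w hw => ?_⟩
          have hw' : n⁻¹ * w * n ∈ W := (Subgroup.mem_normalizer_iff''.mp hn w).mp hw
          have h2 := Subgroup.mem_centralizer_iff.mp (hC.le q.2) _ hw'
          calc w * (n * q * n⁻¹) = n * (n⁻¹ * w * n * q) * n⁻¹ := by group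
            _ = n * (q * (n⁻¹ * w * n)) * n⁻¹ := by rw [h2]
            _ = _ := by group
        have h3 : (q : G) ∈ W := (Subgroup.mem_normalizer_iff.mp hn _).mpr (hCW h1)
        refine Subgroup.mem_center_iff.mpr fun c => Subtype.ext ?_
        exact (Subgroup.mem_centralizer_iff.mp (hC.le c.2) _ h3).symm
      have hburn : Subgroup.normalizer ((Q : Subgroup ↥C) : Set ↥C) ≤ Subgroup.centralizer ((Q : Subgroup ↥C) : Set ↥C) :=
        fun g _ x hx => (Subgroup.mem_center_iff.mp (hQC hx) g).symm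
      exact hasNPC_subgroup_iff.mp ⟨Q, (MonoidHom.transferSylow Q hburn).ker, inferInstance,
        MonoidHom.ker_transferSylow_isComplement' Q hburn⟩
    intro x hx y hy h1 h2
    exact hNpc x (hC ▸ hN x hx h1) y (hC ▸ hN y hy h2) h1 h2

end Cfsg.Agent.S3073
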