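import Cfsg.Statements.S3074
import Cfsg.Agent.Lib.Qd
import Cfsg.Agent.Lib.PCube
import Cfsg.Agent.Lib.Unipotent.Basic

set_option autoImplicit false
open Cfsg

namespace Cfsg.Agent.S3074
open CfsgLib.Qd CfsgLib.Linear.GL2Unipotent
open scoped Matrix

variable (p : ℕ) [Fact p.Prime]

local notation "K" => ZMod p

theorem card_comap : Nat.card ↥(Subgroup.comap (blk : ↥(aff K) →* _) (V : Subgroup (Matrix.SpecialLinearGroup (Fin 2) K))) = p ^ 3 := by
  rw [Nat.card_congr ({
    toFun := fun M => (vec M.1, (⟨blk M.1, M.2⟩ : ↥(V : Subgroup (Matrix.SpecialLinearGroup (Fin 2) K))))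
    invFun := fun q => ⟨trl q.1 * lift (q.2 : Matrix.SpecialLinearGroup (Fin 2) K), by simp [Subgroup.mem_comap]⟩
    left_inv := fun M => Subtype.ext (eq_trl_mul_lift M.1).symm
    right_inv := fun q => by simp [vec_mul] } :
      ↥(Subgroup.comap (blk : ↥(aff K) →* _) (V : Subgroup (Matrix.SpecialLinearGroup (Fin 2) K))) ≃
        (Fin 2 → K) × ↥(V : Subgroup (Matrix.SpecialLinearGroup (Fin 2) K))),
    Nat.card_prod, Nat.card_fun, Nat.card_fin, card_V, Nat.card_zmod]
  ring

theorem pow_p_eq_one (hp : p ≠ 2) (M : ↥(aff K)) (hM : blk M ∈ (V : Subgroup (Matrix.SpecialLinearGroup (Fin 2) K))) :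
    M ^ p = 1 := by
  refine Subtype.ext (Subtype.ext ?_)
  show ((((M : ↥(aff K)) : Matrix.SpecialLinearGroup (Fin 3) K) ^ p : Matrix.SpecialLinearGroup (Fin 3) K) :
    Matrix (Fin 3) (Fin 3) K) = 1
  have h3 : 3 ≤ p := by have := (Fact.out : p.Prime).two_le; omega
  have hs := CfsgLib.Unipotent.sub_one_pow p
    ((M : Matrix.SpecialLinearGroup (Fin 3) K) : Matrix (Fin 3) (Fin 3) K) 1
  rw [pow_one] at hs
  rw [Matrix.SpecialLinearGroup.coe_pow, ← sub_eq_zero, ← hs]
  refine pow_eq_zero_of_le h3 ?_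
  obtain ⟨c, hc⟩ := hM
  have h := congrArg Subtype.val hc
  rw [v_coe, blk_coe] at h
  have e00 := congrFun (congrFun h 0) 0; have e01 := congrFun (congrFun h 0) 1
  have e10 := congrFun (congrFun h 1) 0; have e11 := congrFun (congrFun h 1) 1
  simp at e00 e01 e10 e11
  ext i j
  fin_cases i <;> fin_cases j <;>
    simp [pow_succ, Matrix.mul_apply, Fin.sum_univ_three, ← e00, ← e01, ← e11, M.2.1, M.2.2.1, M.2.2.2]

theorem main (hp : p ≠ 2) (P : Sylow p ↥(aff K)) :
    Cfsg.IsExtraspecial p ↥P ∧ Nat.card P = p ^ 3 ∧ Monoid.exponent ↥P = p := by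
  set H : Subgroup ↥(aff K) := Subgroup.comap (blk : ↥(aff K) →* _) (V : Subgroup (Matrix.SpecialLinearGroup (Fin 2) K))
  obtain ⟨Q⟩ := (inferInstance : Nonempty (Sylow p (Matrix.SpecialLinearGroup (Fin 2) K)))
  have hQ := card_sylow_SL p Q
  rw [Q.card_eq_multiplicity, ZMod.card] at hQ
  have hfac : (Nat.card (Matrix.SpecialLinearGroup (Fin 2) K)).factorization p = 1 :=
    Nat.pow_right_injective (Fact.out : p.Prime).two_le (by simpa using hQ)
  let R : Sylow p ↥(aff K) := Sylow.ofCard H (by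
    rw [card_comap, card_aff, Nat.factorization_mul (pow_ne_zero _ Nat.card_pos.ne') Nat.card_pos.ne', Finsupp.add_apply,
      Nat.factorization_pow, Finsupp.smul_apply, Nat.card_zmod, (Fact.out : p.Prime).factorization_self, hfac]
    norm_num)
  obtain ⟨g, hg⟩ := MulAction.exists_smul_eq ↥(aff K) R P
  have hPH : (P : Subgroup ↥(aff K)) = H.map (MulAut.conj g).toMonoidHom := by rw [← hg]; rfl
  have hcard : Nat.card P = p ^ 3 := by
    rw [show Nat.card P = Nat.card ↥(P : Subgroup ↥(aff K)) from rfl, hPH,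
      Subgroup.card_map_of_injective (MulEquiv.injective _), card_comap]
  let e : ↥H ≃* ↥(P : Subgroup ↥(aff K)) :=
    (H.equivMapOfInjective _ (MulEquiv.injective (MulAut.conj g))).trans (MulEquiv.subgroupCongr hPH.symm)
  let a : ↥H := ⟨lift (v 1), by simp [H, Subgroup.mem_comap]; exact ⟨1, rfl⟩⟩
  let b : ↥H := ⟨trl ![1, 0], by simp [H, Subgroup.mem_comap]⟩
  have hab : a * b ≠ b * a := by
    intro h
    have h1 := congrArg vec (congrArg Subtype.val h)
    simp [a, b, vec_mul] at h1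
    have h2 := congrFun h1 1
    simp at h2
  refine ⟨CfsgLib.PCube.isExtraspecial_of_card hcard (e a) (e b) fun h => hab (e.injective (by rw [map_mul, map_mul, h])),
    hcard, ?_⟩
  have hexp : Monoid.exponent ↥(P : Subgroup ↥(aff K)) = Monoid.exponent ↥H := (Monoid.exponent_eq_of_mulEquiv e).symm
  rw [show Monoid.exponent ↥P = Monoid.exponent ↥(P : Subgroup ↥(aff K)) from rfl, hexp]
  rcases (Nat.dvd_prime (Fact.out : p.Prime)).mp
    (Monoid.exponent_dvd_of_forall_pow_eq_one fun x : ↥H => Subtype.ext (pow_p_eq_one p hp x.1 x.2)) with h | h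
  · exact absurd (by
      have := Monoid.exp_eq_one_iff.mp h
      exact Subsingleton.elim _ _) hab
  · exact h

/-- Let p be an odd prime. A Sylow p-subgroup of Qd(p), the split extension of an elementary abelian group of order p² by SL₂(p) acting naturally, is extraspecial of order p³ and exponent p. -/
theorem result (p : ℕ) [Fact p.Prime] (hp : p ≠ 2) (P : Sylow p ↥(Cfsg.qd p)) :
    Cfsg.IsExtraspecial p ↥P ∧ Nat.card P = p ^ 3 ∧ Monoid.exponent ↥P = p := by
  revert P
  rw [qd_eq]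
  exact main p hp

end Cfsg.Agent.S3074
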