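import Cfsg.Statements.S3075
import Cfsg.Agent.Lib.LocalBasic
import Mathlib.GroupTheory.SpecificGroups.Cyclic
import Mathlib.LinearAlgebra.Matrix.SpecialLinearGroup
import Mathlib.Tactic

set_option autoImplicit false
open Cfsg

namespace Cfsg.Agent.S3075

open scoped commutatorElement


/-- Let p be an odd prime and N a finite group with a normal elementary abelian subgroup A of order p² that is its own centralizer in N, such that N/A is isomorphic to SL₂(p) (over any field F with p elements). Then N splits over A: some subgroup U of N satisfies A ∩ U = 1 and AU = N. -/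
theorem result {N : Type*} [Group N] [Finite N] {p : ℕ} [Fact p.Prime] (hp : p ≠ 2)
    (A : Subgroup N) [A.Normal] (hAcomm : IsMulCommutative A) (hAcard : Nat.card A = p ^ 2) (hAexp : Monoid.exponent ↥A = p)
    (hAself : Subgroup.centralizer (A : Set N) = A)
    {F : Type*} [Field F] [Fintype F] (hF : Fintype.card F = p) (e : N ⧸ A ≃* Matrix.SpecialLinearGroup (Fin 2) F) :
    ∃ U : Subgroup N, A ⊓ U = ⊥ ∧ A ⊔ U = ⊤ := by
  classical
  have hAc : ∀ a ∈ A, ∀ b ∈ A, a * b = b * a := fun a ha b hb =>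
    congrArg Subtype.val (hAcomm.is_comm.comm ⟨a, ha⟩ ⟨b, hb⟩)
  haveI := Fintype.ofFinite N
  have hchar : (2 : F) ≠ 0 := by
    intro h
    haveI : CharP F 2 := CharTwo.of_one_ne_zero_of_two_eq_zero one_ne_zero h
    obtain ⟨n, hn2, hn⟩ := FiniteField.card F 2
    rw [hF] at hn
    exact hp ((Nat.prime_dvd_prime_iff_eq (Fact.out : p.Prime) Nat.prime_two).mp
      ((Fact.out : p.Prime).dvd_of_dvd_pow hn.dvd))
  obtain ⟨t, ht⟩ := QuotientGroup.mk_surjective (s := A) (e.symm (-1))
  have htA : t ∉ A := by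
    intro h
    rw [(QuotientGroup.eq_one_iff t).mpr h, eq_comm, e.symm.map_eq_one_iff] at ht
    have := congrArg (fun M : Matrix.SpecialLinearGroup (Fin 2) F => (M : Matrix (Fin 2) (Fin 2) F) 0 0) ht
    simp at this
    exact hchar (by linear_combination -this)
  have hcent : ∀ g : N, ⁅g, t⁆ ∈ A := by
    intro g
    rw [← QuotientGroup.eq_one_iff, ← QuotientGroup.mk'_apply, map_commutatorElement, commutatorElement_eq_one_iff_mul_comm,
      QuotientGroup.mk'_apply, QuotientGroup.mk'_apply, ht]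
    apply e.injective
    rw [map_mul, map_mul, e.apply_symm_apply]
    simp
  -- `a ↦ [t, a]` on `A`
  have hn : ∀ (g : N), ∀ a ∈ A, g * a * g⁻¹ ∈ A := fun g a ha => (inferInstance : A.Normal).conj_mem a ha g
  let d : ↥A →* ↥A :=
    { toFun := fun a => ⟨a * (t * a * t⁻¹)⁻¹, A.mul_mem a.2 (A.inv_mem (hn t a a.2))⟩
      map_one' := Subtype.ext (by simp)
      map_mul' := fun a b => Subtype.ext (by
        show (a : N) * b * (t * (a * b) * t⁻¹)⁻¹ = a * (t * a * t⁻¹)⁻¹ * (b * (t * b * t⁻¹)⁻¹)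
        have h1 := hAc _ b.2 _ (A.inv_mem (hn t a a.2))
        have h2 := hAc _ (A.inv_mem (hn t a a.2)) _ (A.inv_mem (hn t b b.2))
        calc (a : N) * b * (t * (a * b) * t⁻¹)⁻¹ = a * b * ((t * b * t⁻¹)⁻¹ * (t * a * t⁻¹)⁻¹) := by group
          _ = a * b * ((t * a * t⁻¹)⁻¹ * (t * b * t⁻¹)⁻¹) := by rw [h2]
          _ = a * (b * (t * a * t⁻¹)⁻¹) * (t * b * t⁻¹)⁻¹ := by group
          _ = a * ((t * a * t⁻¹)⁻¹ * b) * (t * b * t⁻¹)⁻¹ := by rw [h1]
          _ = _ := by group) }
  have hdker : ∀ a : ↥A, d a = 1 ↔ t * a = a * t := by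
    intro a
    rw [Subtype.ext_iff]
    show (a : N) * (t * a * t⁻¹)⁻¹ = 1 ↔ _
    rw [mul_inv_eq_one]
    exact ⟨fun h => by nth_rewrite 2 [h]; group, fun h => by rw [h]; group⟩
  by_cases hinj : Function.Injective d
  · refine ⟨Subgroup.centralizer ({t} : Set N), ?_, ?_⟩
    · refine (Subgroup.eq_bot_iff_forall _).mpr fun a ha => ?_
      have : d ⟨a, ha.1⟩ = d 1 := by
        rw [map_one, hdker]; exact (Subgroup.mem_centralizer_singleton_iff.mp ha.2).symm
      exact congrArg Subtype.val (hinj this)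
    · refine eq_top_iff.mpr fun g _ => ?_
      obtain ⟨b, hb⟩ := Finite.surjective_of_injective hinj ⟨⁅g, t⁆, hcent g⟩
      have hb' : (b : N) * (t * b * t⁻¹)⁻¹ = g * t * g⁻¹ * t⁻¹ := by
        have := congrArg Subtype.val hb
        rw [← commutatorElement_def]
        exact this
      have hc : (b : N)⁻¹ * g ∈ Subgroup.centralizer ({t} : Set N) := by
        rw [Subgroup.mem_centralizer_singleton_iff]
        calc (b : N)⁻¹ * g * t = (b : N)⁻¹ * (g * t * g⁻¹ * t⁻¹) * t * g := by group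
          _ = (b : N)⁻¹ * ((b : N) * (t * b * t⁻¹)⁻¹) * t * g := by rw [hb']
          _ = t * ((b : N)⁻¹ * g) := by group
      have := Subgroup.mul_mem_sup (S := A) b.2 hc
      simpa using this
  · exfalso
    set L := d.ker
    set M := d.range
    have hL : L ≠ ⊥ := fun h => hinj ((MonoidHom.ker_eq_bot_iff d).mp h)
    have hLtop : L ≠ ⊤ := by
      intro h
      apply htA
      rw [← hAself]
      intro a ha
      exact ((hdker ⟨a, ha⟩).mp (MonoidHom.mem_ker.mp (h ▸ Subgroup.mem_top _ : (⟨a, ha⟩ : ↥A) ∈ L))).symm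
    have hcard : Nat.card ↥L * Nat.card ↥M = p ^ 2 := by
      rw [← Subgroup.index_ker, Subgroup.card_mul_index, hAcard]
    have hLM : Nat.card ↥L = p ∧ Nat.card ↥M = p := by
      obtain ⟨i, hi, hLi⟩ := (Nat.dvd_prime_pow (Fact.out : p.Prime)).mp ⟨_, hcard.symm⟩
      interval_cases i
      · exact absurd (Subgroup.card_eq_one.mp (by simpa using hLi)) hL
      · rw [pow_one] at hLi
        refine ⟨hLi, ?_⟩
        rw [hLi, pow_two] at hcard
        exact Nat.eq_of_mul_eq_mul_left (Fact.out : p.Prime).pos hcard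
      · exact absurd (Subgroup.eq_top_of_card_eq L (by rw [hLi, hAcard])) hLtop
    -- both are invariant
    let c : N →* MulAut ↥A := MulAut.conjNormal
    have hcd : ∀ g a, c g (d a) = d (c g a) := by
      intro g a
      apply Subtype.ext
      show g * ((a : N) * (t * a * t⁻¹)⁻¹) * g⁻¹ = (g * a * g⁻¹) * (t * (g * a * g⁻¹) * t⁻¹)⁻¹
      have hw : ⁅g, t⁆ * (t * (g * a * g⁻¹) * t⁻¹) = t * (g * a * g⁻¹) * t⁻¹ * ⁅g, t⁆ :=
        hAc _ (hcent g) _ (hn t _ (hn g a a.2))
      have key : g * (t * a * t⁻¹) * g⁻¹ = t * (g * a * g⁻¹) * t⁻¹ := by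
        calc g * (t * a * t⁻¹) * g⁻¹ = ⁅g, t⁆ * (t * (g * a * g⁻¹) * t⁻¹) * ⁅g, t⁆⁻¹ := by
              simp only [commutatorElement_def]; group
          _ = t * (g * a * g⁻¹) * t⁻¹ := by rw [hw, mul_inv_cancel_right]
      rw [← key]; group
    have hinv : ∀ (S : Subgroup ↥A), (∀ g a, a ∈ S → c g a ∈ S) → Nat.card ↥S = p →
        ∀ x y : N, ∀ a ∈ S, c x (c y a) = c y (c x a) := by
      intro S hS hcardS x y a ha
      haveI : IsCyclic ↥S := isCyclic_of_prime_card hcardS
      obtain ⟨m, hm⟩ := IsCyclic.exists_generator (α := ↥S)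
      have hsc : ∀ z : N, ∃ k : ℤ, ∀ b ∈ S, c z b = b ^ k := by
        intro z
        obtain ⟨k, hk⟩ := Subgroup.mem_zpowers_iff.mp (hm ⟨c z m, hS z m m.2⟩)
        refine ⟨k, fun b hb => ?_⟩
        obtain ⟨j, hj⟩ := Subgroup.mem_zpowers_iff.mp (hm ⟨b, hb⟩)
        have hb' : b = (m : ↥A) ^ j := by rw [← Subgroup.coe_zpow, hj]
        have hk' : c z (m : ↥A) = (m : ↥A) ^ k := by rw [← Subgroup.coe_zpow, hk]
        rw [hb', map_zpow, hk', ← zpow_mul, ← zpow_mul, mul_comm]
      obtain ⟨i, hi⟩ := hsc x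
      obtain ⟨j, hj⟩ := hsc y
      rw [hj a ha, hi a ha, map_zpow, map_zpow, hi a ha, hj a ha, ← zpow_mul, ← zpow_mul, mul_comm]
    have hLinv : ∀ g a, a ∈ L → c g a ∈ L := fun g a ha =>
      MonoidHom.mem_ker.mpr (by rw [← hcd, MonoidHom.mem_ker.mp ha, map_one])
    have hMinv : ∀ g a, a ∈ M → c g a ∈ M := by
      rintro g _ ⟨a, rfl⟩; exact ⟨c g a, (hcd g a).symm⟩
    have hLMinf : L ⊓ M = ⊥ := by
      by_contra hc
      have hd1 : p ∣ Nat.card ↥(L ⊓ M : Subgroup ↥A) := by
        rcases (Nat.dvd_prime (Fact.out : p.Prime)).mp (hLM.1 ▸ Subgroup.card_dvd_of_le (inf_le_left : L ⊓ M ≤ L)) with h | h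
        · exact absurd (Subgroup.card_eq_one.mp h) hc
        · rw [h]
      have hML : M ≤ L := by
        have : L ⊓ M = M := Subgroup.eq_of_le_of_card_ge inf_le_right (hLM.2.le.trans (Nat.le_of_dvd Nat.card_pos hd1))
        exact this ▸ inf_le_left
      -- then `t` stabilises a series, so `t ^ p` centralizes `A`
      have htp : t ^ p ∈ A := by
        rw [← hAself]
        intro a ha
        set u := d ⟨a, ha⟩ with hu
        have hut : t * (u : N) = u * t := (hdker u).mp (MonoidHom.mem_ker.mp (hML ⟨_, rfl⟩))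
        have h1 : t * a * t⁻¹ = (u : N)⁻¹ * a := by
          show _ = (a * (t * a * t⁻¹)⁻¹)⁻¹ * a
          group
        have hiter : ∀ k : ℕ, t ^ k * a * (t ^ k)⁻¹ = ((u : N)⁻¹) ^ k * a := by
          intro k
          induction k with
          | zero => simp
          | succ k ih =>
            have hc : t * ((u : N)⁻¹) ^ k = ((u : N)⁻¹) ^ k * t :=
              ((show Commute t (u : N) from hut).inv_right.pow_right k).eq
            calc t ^ (k + 1) * a * (t ^ (k + 1))⁻¹ = t * (t ^ k * a * (t ^ k)⁻¹) * t⁻¹ := by rw [pow_succ']; group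
              _ = t * ((u : N)⁻¹) ^ k * a * t⁻¹ := by rw [ih]; group
              _ = ((u : N)⁻¹) ^ k * (t * a * t⁻¹) := by rw [hc]; group
              _ = _ := by rw [h1, pow_succ]; group
        have hup : ((u : N)⁻¹) ^ p = 1 := by
          have h : u ^ p = 1 := by rw [← hAexp]; exact Monoid.pow_exponent_eq_one u
          rw [inv_pow]; simpa using congrArg Subtype.val h
        have := hiter p
        rw [hup, one_mul] at this
        calc a * t ^ p = t ^ p * a * (t ^ p)⁻¹ * t ^ p := by rw [this]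
          _ = t ^ p * a := by group
      rw [← QuotientGroup.eq_one_iff, QuotientGroup.mk_pow, ht, ← map_pow, e.symm.map_eq_one_iff] at htp
      obtain ⟨i, hi⟩ := (Fact.out : p.Prime).odd_of_ne_two hp
      rw [hi, pow_succ, pow_mul, show ((-1 : Matrix.SpecialLinearGroup (Fin 2) F)) ^ 2 = 1 by
        apply Subtype.ext; simp [pow_two], one_pow, one_mul] at htp
      have := congrArg (fun M : Matrix.SpecialLinearGroup (Fin 2) F => (M : Matrix (Fin 2) (Fin 2) F) 0 0) htp
      simp at this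
      exact hchar (by linear_combination -this)
    have hsup : L ⊔ M = ⊤ := by
      refine Subgroup.eq_top_of_card_eq _ (le_antisymm (Subgroup.card_le_card_group _) ?_)
      rw [hAcard, ← hcard, ← Nat.card_prod]
      refine Nat.card_le_card_of_injective
        (fun q : ↥L × ↥M => (⟨q.1 * q.2, Subgroup.mul_mem_sup q.1.2 q.2.2⟩ : ↥(L ⊔ M))) ?_
      rintro ⟨⟨w₁, hw₁⟩, ⟨u₁, hu₁⟩⟩ ⟨⟨w₂, hw₂⟩, ⟨u₂, hu₂⟩⟩ h
      simp only [Subtype.mk.injEq] at h
      have e' : w₂⁻¹ * w₁ = u₂ * u₁⁻¹ := by rw [eq_mul_inv_iff_mul_eq, mul_assoc, h, inv_mul_cancel_left]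
      have : w₂⁻¹ * w₁ ∈ L ⊓ M := ⟨L.mul_mem (L.inv_mem hw₂) hw₁, e' ▸ M.mul_mem hu₂ (M.inv_mem hu₁)⟩
      rw [hLMinf, Subgroup.mem_bot] at this
      have h5 : w₁ = w₂ := (inv_mul_eq_one.mp this).symm
      subst h5
      simp [mul_left_cancel h]
    have hcommall : ∀ x y : N, ⁅x, y⁆ ∈ A := by
      intro x y
      have hxy : ∀ a : ↥A, c (x * y) a = c (y * x) a := by
        intro a
        have ha : a ∈ ((L ⊔ M : Subgroup ↥A) : Set ↥A) := by rw [hsup]; trivial
        letI : L.Normal := MonoidHom.normal_ker d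
        rw [Subgroup.normal_mul L M, Set.mem_mul] at ha
        obtain ⟨l, hl, m, hm, rfl⟩ := ha
        rw [map_mul, map_mul, map_mul, map_mul, MulAut.mul_apply, MulAut.mul_apply, MulAut.mul_apply, MulAut.mul_apply,
          hinv L hLinv hLM.1 x y l hl, hinv M hMinv hLM.2 x y m hm]
      rw [← hAself]
      intro a ha
      have h : c (x * y) = c (y * x) := MulEquiv.ext hxy
      have h1 : c ⁅x, y⁆ = 1 := by
        rw [map_commutatorElement, commutatorElement_eq_one_iff_mul_comm, ← map_mul, ← map_mul, h]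
      have h2 := congrArg Subtype.val (DFunLike.congr_fun h1 ⟨a, ha⟩)
      simp only [c, MulAut.conjNormal_apply, MulAut.one_apply] at h2
      calc a * ⁅x, y⁆ = ⁅x, y⁆ * a * ⁅x, y⁆⁻¹ * ⁅x, y⁆ := by rw [h2]
        _ = ⁅x, y⁆ * a := by group
    have hab : ∀ u v : Matrix.SpecialLinearGroup (Fin 2) F, u * v = v * u := by
      intro u v
      obtain ⟨x, hx⟩ := QuotientGroup.mk_surjective (s := A) (e.symm u)
      obtain ⟨y, hy⟩ := QuotientGroup.mk_surjective (s := A) (e.symm v)
      have := (QuotientGroup.eq_one_iff _).mpr (hcommall x y)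
      rw [← QuotientGroup.mk'_apply, map_commutatorElement, commutatorElement_eq_one_iff_mul_comm,
        QuotientGroup.mk'_apply, QuotientGroup.mk'_apply, hx, hy, ← map_mul, ← map_mul] at this
      exact e.symm.injective this
    obtain ⟨u, hu⟩ : ∃ u : Matrix.SpecialLinearGroup (Fin 2) F, (u : Matrix (Fin 2) (Fin 2) F) = !![1, 1; 0, 1] :=
      ⟨⟨!![1, 1; 0, 1], by simp [Matrix.det_fin_two_of]⟩, rfl⟩
    obtain ⟨v, hv⟩ : ∃ v : Matrix.SpecialLinearGroup (Fin 2) F, (v : Matrix (Fin 2) (Fin 2) F) = !![1, 0; 1, 1] :=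
      ⟨⟨!![1, 0; 1, 1], by simp [Matrix.det_fin_two_of]⟩, rfl⟩
    have := congrArg (fun M : Matrix.SpecialLinearGroup (Fin 2) F => (M : Matrix (Fin 2) (Fin 2) F) 0 0) (hab u v)
    simp only [Matrix.SpecialLinearGroup.coe_mul, hu, hv] at this
    simp [Matrix.mul_apply, Fin.sum_univ_two] at this

end Cfsg.Agent.S3075
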