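import Cfsg.Statements.S3076
import Cfsg.Agent.Lib.Core
import Cfsg.Agent.Lib.Fusion.Group
import Mathlib.GroupTheory.Transfer

set_option autoImplicit false
open Cfsg

namespace Cfsg.Agent.S3076
set_option linter.style.haveILetI false
open scoped Pointwise

theorem core {M : Type*} [Group M] [Finite M] {p : ℕ} [Fact p.Prime] (H : Subgroup M) [H.Normal] (hH : IsPGroup p ↥H)
    (T : Sylow p M) (hHT : H ≤ (T : Subgroup M)) (C : Subgroup M) [C.Normal] (hC : C = Subgroup.centralizer (H : Set M)) :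
    (H ≤ (Cfsg.pCore p (M ⧸ C)).comap (QuotientGroup.mk' C) ∧
      ¬ p ∣ H.relIndex ((Cfsg.pCore p (M ⧸ C)).comap (QuotientGroup.mk' C))) ↔
    ((T : Subgroup M) ⊓ C ≤ H ∧ Cfsg.pPrimePCore p M = H ⊔ C) := by
  set π := QuotientGroup.mk' C
  set K := (Cfsg.pCore p (M ⧸ C)).comap π
  haveI : K.Normal := (Cfsg.pCore_normal p _).comap π
  haveI hOn : (Cfsg.pPrimeCore p M).Normal := inferInstance
  set O := Cfsg.pPrimeCore p M
  set L := Cfsg.pPrimePCore p M
  have hHK : H ≤ K := fun x hx => CfsgLib.Core.le_pCore ((inferInstance : H.Normal).map π (QuotientGroup.mk'_surjective C))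
    (hH.map π) ⟨x, hx, rfl⟩
  have hCK : C ≤ K := fun x hx => by
    show π x ∈ Cfsg.pCore p (M ⧸ C)
    rw [show π x = 1 from (QuotientGroup.eq_one_iff x).mpr hx]
    exact one_mem _
  have hTK : ∀ x ∈ K, ∃ t ∈ (T : Subgroup M) ⊓ K, t⁻¹ * x ∈ C := by
    intro x hx
    have h1 := CfsgLib.Core.pCore_le_sylow (T.mapSurjective (QuotientGroup.mk'_surjective C))
    rw [Sylow.coe_mapSurjective] at h1
    obtain ⟨t, ht, hte⟩ := h1 hx
    refine ⟨t, ⟨ht, ?_⟩, QuotientGroup.eq.mp hte⟩
    show π t ∈ Cfsg.pCore p (M ⧸ C)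
    rw [hte]; exact hx
  have hiff : ∀ U : Subgroup M, U.Normal → H ≤ U → ((¬ p ∣ H.relIndex U) ↔ (T : Subgroup M) ⊓ U ≤ H) := by
    intro U hU hHU
    haveI := hU
    have h1 : ¬ p ∣ ((T : Subgroup M) ⊓ U).relIndex U :=
      CfsgLib.Fusion.sylow_inf_normal (H := ⊤) (by rw [Subgroup.relIndex_top_right]; exact T.not_dvd_index) le_top le_top
        (by rw [Subgroup.normalizer_eq_top U])
    constructor
    · intro h
      have hle : H ≤ (T : Subgroup M) ⊓ U := le_inf hHT hHU
      have hcard : Nat.card ↥((T : Subgroup M) ⊓ U) ≤ Nat.card ↥H :=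
        CfsgLib.Fusion.card_le_of_sylow h hH (T.2.to_le inf_le_left) inf_le_right
      exact (Subgroup.eq_of_le_of_card_ge hle hcard).ge
    · intro h
      rwa [le_antisymm (le_inf hHT hHU) h]
  -- structure of the centraliser
  have hstruct : (T : Subgroup M) ⊓ C ≤ H → C ≤ L := by
    intro hTC
    let P₀ : Sylow p ↥C := ((T.2.to_le (inf_le_left : (T : Subgroup M) ⊓ C ≤ T)).comap_subtype (K := C)).toSylow
      (CfsgLib.Fusion.sylow_inf_normal (H := ⊤) (by rw [Subgroup.relIndex_top_right]; exact T.not_dvd_index) le_top le_top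
        (by rw [Subgroup.normalizer_eq_top C]))
    have hP₀ : Subgroup.normalizer ((P₀ : Subgroup ↥C) : Set ↥C) ≤ Subgroup.centralizer ((P₀ : Subgroup ↥C) : Set ↥C) :=
      fun x _ => Subgroup.mem_centralizer_iff.mpr fun y hy => Subtype.ext
        (Subgroup.mem_centralizer_iff.mp (hC ▸ x.2) (y : M) (hTC hy))
    haveI : P₀.1.FiniteIndex := inferInstance
    set O₁ := (MonoidHom.transferSylow P₀ hP₀).ker
    have hcO : (Nat.card ↥O₁).Coprime p :=
      ((Fact.out : p.Prime).coprime_iff_not_dvd.mpr (MonoidHom.not_dvd_card_ker_transferSylow P₀ hP₀)).symm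
    have hO₁ : O₁.map C.subtype ≤ O := by
      refine le_trans (Subgroup.map_mono (CfsgLib.Core.le_pPrimeCore inferInstance hcO)) ?_
      haveI := CfsgLib.Core.pPrimeCore_characteristic (G := ↥C) p
      refine CfsgLib.Core.le_pPrimeCore inferInstance ?_
      rw [Subgroup.card_map_of_injective C.subtype_injective]
      exact CfsgLib.Core.card_pPrimeCore_coprime p
    intro c hc
    have hx : (⟨c, hc⟩ : ↥C) ∈ ((O₁ : Subgroup ↥C) : Set ↥C) * ((P₀ : Subgroup ↥C) : Set ↥C) := by
      rw [(MonoidHom.ker_transferSylow_isComplement' P₀ hP₀).mul_eq]; trivial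
    obtain ⟨o, ho, h, hh, hoh⟩ := hx
    have e : c = (o : M) * (h : M) := (congrArg Subtype.val hoh).symm
    rw [e]
    refine L.mul_mem ?_ ?_
    · show (QuotientGroup.mk' O) (o : M) ∈ Cfsg.pCore p (M ⧸ O)
      rw [show (QuotientGroup.mk' O) (o : M) = 1 from (QuotientGroup.eq_one_iff _).mpr (hO₁ ⟨o, ho, rfl⟩)]
      exact one_mem _
    · exact CfsgLib.Core.le_pCore ((inferInstance : H.Normal).map _ (QuotientGroup.mk'_surjective O))
        (hH.map _) ⟨h, hTC hh, rfl⟩
  have hHL : H ≤ L := fun x hx => CfsgLib.Core.le_pCore ((inferInstance : H.Normal).map _ (QuotientGroup.mk'_surjective O))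
    (hH.map _) ⟨x, hx, rfl⟩
  have hOC : O ≤ C := by
    rw [hC]
    intro o ho
    refine Subgroup.mem_centralizer_iff.mpr fun h hh => ?_
    exact Subgroup.commute_of_normal_of_disjoint _ _ (inferInstance : H.Normal) hOn
      (disjoint_iff.mpr (le_bot_iff.mp (le_trans (inf_le_inf_right _ (CfsgLib.Core.le_pCore inferInstance hH))
        (CfsgLib.Core.pCore_inf_pPrimeCore (G := M) p Fact.out).le))) h o hh ho
  have hLK : L ≤ K := by
    intro x hx
    let ψ : M ⧸ O →* M ⧸ C := QuotientGroup.map O C (MonoidHom.id M) hOC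
    have hψ : Function.Surjective ψ := fun y => by
      obtain ⟨z, rfl⟩ := QuotientGroup.mk'_surjective C y
      exact ⟨QuotientGroup.mk z, rfl⟩
    exact CfsgLib.Core.pCore_map_le ψ hψ p ⟨_, hx, rfl⟩
  constructor
  · rintro ⟨-, hi⟩
    have hTKH := (hiff K inferInstance hHK).mp hi
    have hTC : (T : Subgroup M) ⊓ C ≤ H := (inf_le_inf_left _ hCK).trans hTKH
    refine ⟨hTC, le_antisymm (hLK.trans fun x hx => ?_) (sup_le hHL (hstruct hTC))⟩
    obtain ⟨t, ht, htc⟩ := hTK x hx
    rw [show x = t * (t⁻¹ * x) by group]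
    exact Subgroup.mul_mem_sup (hTKH ht) htc
  · rintro ⟨hTC, hL⟩
    refine ⟨hHK, (hiff K inferInstance hHK).mpr ?_⟩
    have hKL : K ≤ L := by
      have hKp : IsPGroup p ↥(K.map (QuotientGroup.mk' O)) := by
        have hle : K.map (QuotientGroup.mk' O) ≤
            ((T : Subgroup M) ⊓ K).map (QuotientGroup.mk' O) ⊔ L.map (QuotientGroup.mk' O) := by
          rintro _ ⟨x, hx, rfl⟩
          obtain ⟨t, ht, htc⟩ := hTK x hx
          rw [show x = t * (t⁻¹ * x) by group, map_mul]
          exact Subgroup.mul_mem_sup ⟨t, ht, rfl⟩ ⟨_, hstruct hTC htc, rfl⟩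
        have hLm : L.map (QuotientGroup.mk' O) = Cfsg.pCore p (M ⧸ O) :=
          Subgroup.map_comap_eq_self_of_surjective (QuotientGroup.mk'_surjective _) _
        haveI : (L.map (QuotientGroup.mk' O)).Normal := by rw [hLm]; exact Cfsg.pCore_normal p _
        exact IsPGroup.to_le (((T.2.to_le inf_le_left).map _).to_sup_of_normal_right
          (by rw [hLm]; exact CfsgLib.Core.isPGroup_pCore p)) hle
      intro x hx
      exact CfsgLib.Core.le_pCore ((inferInstance : K.Normal).map _ (QuotientGroup.mk'_surjective O)) hKp ⟨x, hx, rfl⟩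
    intro x hx
    have h1 : x ∈ ((H ⊔ C : Subgroup M) : Set M) := hL ▸ hKL hx.2
    rw [Subgroup.coe_mul_of_right_le_normalizer_left H C (by rw [Subgroup.normalizer_eq_top H]; exact le_top)] at h1
    obtain ⟨h, hh, c, hc, rfl⟩ := h1
    refine H.mul_mem hh (hTC ⟨?_, hc⟩)
    have := (T : Subgroup M).mul_mem ((T : Subgroup M).inv_mem (hHT hh)) hx.1
    rwa [inv_mul_cancel_left] at this


/-- Let P be a Sylow p-subgroup of the finite group G and H ≤ P a subgroup with N_P(H) a Sylow p-subgroup of N_G(H). Let N be the preimage in N_G(H) of O_p(N_G(H)/C_G(H)). Then H is a Sylow p-subgroup of N if and only if C_P(H) ≤ H and O_{p',p}(N_G(H)) = H·C_G(H). -/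
theorem result {G : Type*} [Group G] [Finite G] {p : ℕ} [Fact p.Prime]
    (P : Sylow p G) (H : Subgroup G) (hHP : H ≤ (P : Subgroup G))
    (hSyl : ¬ p ∣ ((P : Subgroup G) ⊓ Subgroup.normalizer (H : Set G)).relIndex (Subgroup.normalizer (H : Set G)))
    [hC : ((Subgroup.centralizer (H : Set G)).subgroupOf (Subgroup.normalizer (H : Set G))).Normal] :
    (H ≤ ((Cfsg.pCore p (↥(Subgroup.normalizer (H : Set G)) ⧸
              (Subgroup.centralizer (H : Set G)).subgroupOf (Subgroup.normalizer (H : Set G)))).comap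
            (QuotientGroup.mk' _)).map (Subgroup.normalizer (H : Set G)).subtype ∧
      ¬ p ∣ H.relIndex (((Cfsg.pCore p (↥(Subgroup.normalizer (H : Set G)) ⧸
              (Subgroup.centralizer (H : Set G)).subgroupOf (Subgroup.normalizer (H : Set G)))).comap
            (QuotientGroup.mk' _)).map (Subgroup.normalizer (H : Set G)).subtype)) ↔
    ((P : Subgroup G) ⊓ Subgroup.centralizer (H : Set G) ≤ H ∧
      (Cfsg.pPrimePCore p ↥(Subgroup.normalizer (H : Set G))).map (Subgroup.normalizer (H : Set G)).subtype =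
        H ⊔ Subgroup.centralizer (H : Set G)) := by
  set N := Subgroup.normalizer (H : Set G) with hN
  have hHN : H ≤ N := Subgroup.le_normalizer
  haveI : (H.subgroupOf N).Normal := (Subgroup.normal_subgroupOf_iff_le_normalizer hHN).mpr le_rfl
  obtain ⟨T, hT⟩ := (CfsgLib.Fusion.exists_sylow_iff (p := p) (inf_le_right : (P : Subgroup G) ⊓ N ≤ N)).mpr
    ⟨P.2.to_le inf_le_left, hSyl⟩
  have hHp : IsPGroup p ↥(H.subgroupOf N) := (P.2.to_le hHP).comap_of_injective N.subtype N.subtype_injective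
  have hHT : H.subgroupOf N ≤ (T : Subgroup ↥N) := by
    rw [hT]; exact fun x hx => ⟨hHP hx, x.2⟩
  have hcent : (Subgroup.centralizer (H : Set G)).subgroupOf N = Subgroup.centralizer ((H.subgroupOf N : Subgroup ↥N) : Set ↥N) := by
    ext x
    rw [Subgroup.mem_subgroupOf, Subgroup.mem_centralizer_iff, Subgroup.mem_centralizer_iff]
    exact ⟨fun h y hy => Subtype.ext (h y hy), fun h y hy => congrArg Subtype.val (h ⟨y, hHN hy⟩ hy)⟩
  have hmap : (H.subgroupOf N).map N.subtype = H := Subgroup.map_subgroupOf_eq_of_le hHN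
  have hCmap : ((Subgroup.centralizer (H : Set G)).subgroupOf N).map N.subtype = Subgroup.centralizer (H : Set G) :=
    Subgroup.map_subgroupOf_eq_of_le (Subgroup.centralizer_le_normalizer _)
  have h := core (H.subgroupOf N) hHp T hHT _ hcent
  have hinj := N.subtype_injective
  have e1 : ∀ U : Subgroup ↥N, (H ≤ U.map N.subtype ↔ H.subgroupOf N ≤ U) := fun U => by
    conv_lhs => rw [← hmap]
    exact Subgroup.map_le_map_iff_of_injective hinj
  have e2 : ∀ U : Subgroup ↥N, H.relIndex (U.map N.subtype) = (H.subgroupOf N).relIndex U := fun U => by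
    conv_lhs => rw [← hmap]
    exact Subgroup.relIndex_map_map_of_injective _ _ hinj
  rw [e1, e2, h]
  refine and_congr ?_ ?_
  · rw [hT]
    constructor
    · intro h1 x hx
      exact h1 (x := (⟨x, Subgroup.centralizer_le_normalizer _ hx.2⟩ : ↥N)) ⟨⟨hx.1, Subgroup.centralizer_le_normalizer _ hx.2⟩, hx.2⟩
    · intro h1 x hx
      exact h1 ⟨hx.1.1, hx.2⟩
  · rw [show H ⊔ Subgroup.centralizer (H : Set G) = (H.subgroupOf N ⊔ (Subgroup.centralizer (H : Set G)).subgroupOf N).map N.subtype from by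
      rw [Subgroup.map_sup, hmap, hCmap]]
    exact (Subgroup.map_injective hinj).eq_iff.symm

end Cfsg.Agent.S3076
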