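import Cfsg.Statements.S3078
import Cfsg.Agent.Lib.Glauberman.Replacement

set_option linter.style.haveILetI false

set_option autoImplicit false
open Cfsg CfsgLib.ThompsonNPC CfsgLib.Glauberman
open scoped commutatorElement

namespace Cfsg.Agent.S3078

variable {G : Type*} [Group G]

theorem exact_replacement [Finite G] {p : ℕ} [hp : Fact p.Prime] (hp2 : p ≠ 2)
    {P A B : Subgroup G} (hP : IsPGroup p P) (hAP : A ≤ P) (hBP : B ≤ P)
    (hBn : P ≤ Subgroup.normalizer (B : Set G))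
    (hB2 : ∀ x ∈ B, ∀ y ∈ B, ∀ z ∈ B, ⁅x, y⁆ * z = z * ⁅x, y⁆)
    {e₀ : ℕ} (hA : AbExp e₀ A) (hBA : ∀ x ∈ B, ∀ y ∈ B, ⁅x, y⁆ ∈ A) (hne : ¬ B ≤ Subgroup.normalizer (A : Set G)) :
    ∃ A' : Subgroup G, (∀ x ∈ A', ∀ y ∈ A', x * y = y * x) ∧ Nat.card A' = Nat.card A ∧ A ⊓ B < A' ⊓ B ∧
      A' ≤ Subgroup.normalizer (A : Set G) ∧ A' ≤ A ⊔ ⁅B, A⁆ ∧
      (∀ e : ℕ, Odd e → (∀ a ∈ A, a ^ e = 1) → ∀ x ∈ A', x ^ e = 1) ∧
      Nat.card ↥(Cfsg.omegaOne p A) ≤ Nat.card ↥(Cfsg.omegaOne p A') := by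
  obtain ⟨x, hx, hxN, hu⟩ := exists_moved hP hAP hBP hBn hne
  set u : G → G := fun a => ⁅x, a⁆ with hudef
  set t : G → G → G := fun a b => (u b)⁻¹ * (a * u b * a⁻¹) with htdef
  have huB : ∀ a ∈ A, u a ∈ B := fun a ha => by
    show ⁅x, a⁆ ∈ B
    rw [commutatorElement_def, show x * a * x⁻¹ * a⁻¹ = x * (a * x⁻¹ * a⁻¹) by group]
    exact B.mul_mem hx ((Subgroup.mem_normalizer_iff.mp (hBn (hAP ha)) _).mp (B.inv_mem hx))
  have hσ : ∀ a b, a * u b * a⁻¹ = u b * t a b := fun a b => by simp only [htdef]; group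
  have htA : ∀ a ∈ A, ∀ b ∈ A, t a b ∈ A := fun a ha b hb => by
    have h1 := (Subgroup.mem_normalizer_iff.mp (inv_mem (hu b hb)) a).mp ha
    have h2 := A.mul_mem h1 (A.inv_mem ha)
    convert h2 using 1
    simp only [htdef, hudef]; group
  have htB : ∀ a ∈ A, ∀ b ∈ A, t a b ∈ B := fun a ha b hb =>
    B.mul_mem (B.inv_mem (huB b hb)) ((Subgroup.mem_normalizer_iff.mp (hBn (hAP ha)) _).mp (huB b hb))
  have hx' : ∀ d, d * x * d⁻¹ = (u d)⁻¹ * x := fun d => by simp only [hudef, commutatorElement_def]; group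
  -- commutators inside `B` are fixed by `A`
  have hfix : ∀ v ∈ B, ∀ w ∈ B, ∀ d ∈ A, ⁅d * v * d⁻¹, d * w * d⁻¹⁆ = ⁅v, w⁆ := by
    intro v hv w hw d hd
    rw [show ⁅d * v * d⁻¹, d * w * d⁻¹⁆ = d * ⁅v, w⁆ * d⁻¹ by simp only [commutatorElement_def]; group,
      hA.1 d hd _ (hBA v hv w hw), mul_inv_cancel_right]
  have hcen : ∀ v ∈ B, ∀ w ∈ B, ∀ z ∈ B, z * ⁅v, w⁆ * z⁻¹ = ⁅v, w⁆ := fun v hv w hw z hz => by
    rw [← hB2 v hv w hw z hz, mul_inv_cancel_right]
  have hT : ∀ z ∈ A, z ∈ B → ∀ d ∈ A, u d * z = z * u d := by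
    intro z hzA hzB d hd
    have h1 := hfix x hx z hzB d hd
    rw [hx' d, show d * z * d⁻¹ = z by rw [hA.1 d hd z hzA, mul_inv_cancel_right], comm_mul_left,
      hcen x hx z hzB _ (B.inv_mem (huB d hd))] at h1
    have h2 : Commute (u d)⁻¹ z := commutatorElement_eq_one_iff_commute.mp (mul_eq_left.mp h1)
    exact Commute.inv_left_iff.mp h2
  have hinvcomm : ∀ v ∈ B, ∀ w ∈ B, ⁅v⁻¹, w⁆ = ⁅v, w⁆⁻¹ := by
    intro v hv w hw
    have h1 : ⁅v⁻¹ * v, w⁆ = 1 := by rw [inv_mul_cancel]; exact commutatorElement_one_left w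
    rw [comm_mul_left, hcen v hv w hw _ (B.inv_mem hv)] at h1
    exact eq_inv_of_mul_eq_one_right h1
  have hc : ∀ a ∈ A, ∀ b ∈ A, ⁅x, t a b⁆ = ⁅u a, u b⁆ := by
    intro a ha b hb
    have hw := huB b hb
    have ht := htB a ha b hb
    have hv := B.inv_mem (huB a ha)
    have h1 := hfix x hx (u b) hw a ha
    have h2 : ⁅(u a)⁻¹, u b * t a b⁆ = ⁅u a, u b⁆⁻¹ := by
      rw [comm_mul_right, hcen _ hv _ ht _ hw, hinvcomm _ (huB a ha) _ ht,
        commutatorElement_eq_one_iff_commute.mpr (show Commute (u a) (t a b) from hT _ (htA a ha b hb) ht a ha),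
        inv_one, mul_one, hinvcomm _ (huB a ha) _ hw]
    rw [hx' a, hσ a b, comm_mul_left, hcen x hx _ (B.mul_mem hw ht) _ hv, h2, comm_mul_right,
      hcen x hx _ ht _ hw, mul_assoc] at h1
    exact mul_inv_eq_one.mp (mul_eq_left.mp h1)
  have huu : ∀ a ∈ A, ∀ b ∈ A, u (a * b) = u a * u b * t a b := by
    intro a _ b _
    rw [mul_assoc, ← hσ]
    show ⁅x, a * b⁆ = ⁅x, a⁆ * (a * ⁅x, b⁆ * a⁻¹)
    exact comm_mul_right x a b
  have hswap : ∀ a ∈ A, ∀ b ∈ A, t b a = ⁅(u a)⁻¹, (u b)⁻¹⁆ * t a b := by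
    intro a ha b hb
    have h1 := (huu a ha b hb).symm.trans ((congrArg u (hA.1 a ha b hb)).trans (huu b hb a ha))
    calc t b a = (u b * u a)⁻¹ * (u b * u a * t b a) := by group
      _ = (u b * u a)⁻¹ * (u a * u b * t a b) := by rw [h1]
      _ = _ := by simp only [commutatorElement_def]; group
  have hcomm : ∀ a ∈ A, ∀ b ∈ A, u a * u b = u b * u a := by
    intro a ha b hb
    have hk := hcen _ (B.inv_mem (huB a ha)) _ (B.inv_mem (huB b hb))
    have h1 : ⁅x, t b a⁆ = ⁅x, t a b⁆ := by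
      rw [hswap a ha b hb, comm_mul_right, hcen x hx _ (htB a ha b hb) _ (by
        rw [commutatorElement_def]
        exact B.mul_mem (B.mul_mem (B.mul_mem (B.inv_mem (huB a ha)) (B.inv_mem (huB b hb)))
          (B.inv_mem (B.inv_mem (huB a ha)))) (B.inv_mem (B.inv_mem (huB b hb))))]
      rw [show ⁅x, ⁅(u a)⁻¹, (u b)⁻¹⁆⁆ = 1 from commutatorElement_eq_one_iff_commute.mpr
        (hB2 _ (B.inv_mem (huB a ha)) _ (B.inv_mem (huB b hb)) x hx).symm, one_mul]
    rw [hc b hb a ha, hc a ha b hb, ← commutatorElement_inv (u a) (u b)] at h1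
    set c := ⁅u a, u b⁆ with hcdef
    have hc2 : c ^ 2 = 1 := by
      rw [sq]; nth_rewrite 1 [← h1]; exact inv_mul_cancel c
    obtain ⟨k, hk'⟩ := hP ⟨c, hAP (hBA _ (huB a ha) _ (huB b hb))⟩
    have hk'' : c ^ p ^ k = 1 := congrArg Subtype.val hk'
    have hcop : Nat.Coprime 2 (p ^ k) :=
      ((Nat.coprime_primes Nat.prime_two hp.out).mpr (Ne.symm hp2)).pow_right k
    exact commutatorElement_eq_one_iff_commute.mp
      (orderOf_eq_one_iff.mp (Nat.eq_one_of_dvd_coprimes hcop (orderOf_dvd_of_pow_eq_one hc2) (orderOf_dvd_of_pow_eq_one hk'')))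
  have hts : ∀ a ∈ A, ∀ b ∈ A, t b a = t a b := by
    intro a ha b hb
    rw [hswap a ha b hb, commutatorElement_eq_one_iff_commute.mpr
      ((show Commute (u a) (u b) from hcomm a ha b hb).inv_inv), one_mul]
  have htM : ∀ a ∈ A, ∀ b ∈ A, t a b = (u b)⁻¹ * (u a)⁻¹ * u (a * b) := fun a ha b hb => by
    rw [huu a ha b hb]; group
  -- the elements moved into `A`
  let K : Subgroup G :=
    { carrier := {d | d ∈ A ∧ u d ∈ A}
      one_mem' := ⟨A.one_mem, by show ⁅x, 1⁆ ∈ A; rw [commutatorElement_one_right]; exact A.one_mem⟩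
      mul_mem' := fun {a b} ha hb => ⟨A.mul_mem ha.1 hb.1, by
        rw [huu a ha.1 b hb.1]; exact A.mul_mem (A.mul_mem ha.2 hb.2) (htA a ha.1 b hb.1)⟩
      inv_mem' := fun {a} ha => ⟨A.inv_mem ha.1, by
        have h := huu a ha.1 a⁻¹ (A.inv_mem ha.1)
        rw [mul_inv_cancel, show u 1 = 1 from commutatorElement_one_right x] at h
        rw [show u a⁻¹ = (u a)⁻¹ * (t a a⁻¹)⁻¹ by
          calc u a⁻¹ = (u a)⁻¹ * (u a * u a⁻¹ * t a a⁻¹) * (t a a⁻¹)⁻¹ := by group
            _ = _ := by rw [← h, mul_one]]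
        exact A.mul_mem (A.inv_mem ha.2) (A.inv_mem (htA a ha.1 a⁻¹ (A.inv_mem ha.1)))⟩ }
  have hKM : ∀ d ∈ K, ∀ c ∈ A, Commute (u c) d := by
    intro d hd c hc'
    have h6 : t d c = 1 := by
      rw [hts c hc' d hd.1]
      show (u d)⁻¹ * (c * u d * c⁻¹) = 1
      rw [hA.1 c hc' _ hd.2, mul_inv_cancel_right, inv_mul_cancel]
    have h7 := hσ d c
    rw [h6, mul_one] at h7
    exact (mul_inv_eq_iff_eq_mul.mp h7).symm
  have hMab : ∀ E : Subgroup G, E ≤ A → ∀ v ∈ Subgroup.closure (u '' (E : Set G)) ⊔ (K ⊓ E),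
      ∀ w ∈ Subgroup.closure (u '' (E : Set G)) ⊔ (K ⊓ E), v * w = w * v := by
    intro E hEA v hv w hw
    rw [← Subgroup.closure_eq (K ⊓ E), ← Subgroup.closure_union] at hv hw
    refine (abExp_closure (e := 0) ?_ (fun _ _ => pow_zero _)).1 v hv w hw
    rintro v (⟨a, ha, rfl⟩ | hv) w (⟨b, hb, rfl⟩ | hw)
    · exact hcomm a (hEA ha) b (hEA hb)
    · exact hKM w hw.1 a (hEA ha)
    · exact (hKM v hv.1 b (hEA hb)).symm
    · exact hA.1 v hv.1.1 w hw.1.1
  have hcount : ∀ E : Subgroup G, E ≤ A →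
      Nat.card E * Nat.card ↥(Subgroup.closure (u '' (E : Set G)) ⊓ A) =
        Nat.card ↥(K ⊓ E : Subgroup G) * Nat.card ↥(Subgroup.closure (u '' (E : Set G))) := by
    intro E hEA
    set ME := Subgroup.closure (u '' (E : Set G))
    set L : Subgroup ↥ME := A.subgroupOf ME
    have hcm : ∀ v w : ↥ME, v * w = w * v := fun v w => Subtype.ext
      (hMab E hEA v (Subgroup.mem_sup_left v.2) w (Subgroup.mem_sup_left w.2))
    haveI : L.Normal := ⟨fun n hn g => by rw [hcm g n, mul_inv_cancel_right]; exact hn⟩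
    let φ : ↥E →* ↥ME ⧸ L := MonoidHom.mk'
      (fun a => QuotientGroup.mk ⟨u a, Subgroup.subset_closure ⟨a, a.2, rfl⟩⟩) fun a b => by
        rw [← QuotientGroup.mk_mul, eq_comm, QuotientGroup.eq, Subgroup.mem_subgroupOf]
        show (u a * u b)⁻¹ * u ((a : G) * b) ∈ A
        rw [huu a (hEA a.2) b (hEA b.2), inv_mul_cancel_left]
        exact htA a (hEA a.2) b (hEA b.2)
    have hsurj : Function.Surjective φ := by
      intro q
      obtain ⟨⟨m, hm⟩, rfl⟩ := QuotientGroup.mk_surjective q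
      induction hm using Subgroup.closure_induction with
      | mem g hg =>
        obtain ⟨a, ha, rfl⟩ := hg
        exact ⟨⟨a, ha⟩, rfl⟩
      | one => exact ⟨1, map_one φ⟩
      | mul g h hg hh ihg ihh =>
        obtain ⟨a, ha⟩ := ihg
        obtain ⟨b, hb⟩ := ihh
        exact ⟨a * b, by rw [map_mul, ha, hb]; rfl⟩
      | inv g hg ihg =>
        obtain ⟨a, ha⟩ := ihg
        exact ⟨a⁻¹, by rw [map_inv, ha]; rfl⟩
    have hker : φ.ker = (K ⊓ E).subgroupOf E := by
      ext a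
      rw [MonoidHom.mem_ker, MonoidHom.mk'_apply, QuotientGroup.eq_one_iff, Subgroup.mem_subgroupOf,
        Subgroup.mem_subgroupOf]
      exact ⟨fun h => ⟨⟨hEA a.2, h⟩, a.2⟩, fun h => h.1.2⟩
    have h1 := φ.ker.card_mul_index
    rw [Subgroup.index_ker, MonoidHom.range_eq_top.mpr hsurj, Subgroup.card_top, hker,
      Nat.card_congr (Subgroup.subgroupOfEquivOfLe (inf_le_right : K ⊓ E ≤ E)).toEquiv] at h1
    have h2 := Subgroup.card_eq_card_quotient_mul_card_subgroup L
    have h3 : Nat.card L = Nat.card ↥(ME ⊓ A) := by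
      rw [show L = (ME ⊓ A).subgroupOf ME by rw [Subgroup.inf_subgroupOf_left]]
      exact Nat.card_congr (Subgroup.subgroupOfEquivOfLe inf_le_left).toEquiv
    rw [← h1, h2, h3, mul_assoc]
  have hprod : ∀ E : Subgroup G, E ≤ A →
      Nat.card ↥(Subgroup.closure (u '' (E : Set G)) ⊔ (K ⊓ E)) *
          Nat.card ↥(Subgroup.closure (u '' (E : Set G)) ⊓ (K ⊓ E)) =
        Nat.card ↥(Subgroup.closure (u '' (E : Set G))) * Nat.card ↥(K ⊓ E : Subgroup G) := by
    intro E hEA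
    set ME := Subgroup.closure (u '' (E : Set G))
    set KE := K ⊓ E
    set T : Subgroup G := ME ⊔ KE
    have hMT : ME ≤ T := le_sup_left
    have hKT : KE ≤ T := le_sup_right
    haveI hn : (KE.subgroupOf T).Normal := ⟨fun n hn g => by
      rw [Subgroup.mem_subgroupOf] at hn ⊢
      show (g : G) * n * (g : G)⁻¹ ∈ KE
      rw [hMab E hEA g g.2 n n.2, mul_inv_cancel_right]
      exact hn⟩
    let ψ : ↥ME →* ↥T ⧸ KE.subgroupOf T := (QuotientGroup.mk' _).comp (Subgroup.inclusion hMT)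
    have hψ : Function.Surjective ψ := by
      intro q
      obtain ⟨⟨v, hv⟩, rfl⟩ := QuotientGroup.mk_surjective q
      have hv' : v ∈ ((ME ⊔ KE : Subgroup G) : Set G) := hv
      rw [Subgroup.coe_mul_of_right_le_normalizer_left] at hv'
      · obtain ⟨m, hm, k, hk, rfl⟩ := hv'
        refine ⟨⟨m, hm⟩, QuotientGroup.eq.mpr ?_⟩
        rw [Subgroup.mem_subgroupOf]
        show m⁻¹ * (m * k) ∈ KE
        rw [inv_mul_cancel_left]; exact hk
      · exact fun k hk => mem_normalizer_of_conj_mem fun m hm => by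
          rw [← hMab E hEA m (hMT hm) k (hKT hk), mul_inv_cancel_right]; exact hm
    have hker : ψ.ker = (ME ⊓ KE).subgroupOf ME := by
      ext m
      rw [MonoidHom.mem_ker, Subgroup.mem_subgroupOf]
      show ((Subgroup.inclusion hMT m : ↥T) : ↥T ⧸ KE.subgroupOf T) = 1 ↔ _
      rw [QuotientGroup.eq_one_iff, Subgroup.mem_subgroupOf]
      exact ⟨fun h => ⟨m.2, h⟩, fun h => h.2⟩
    have h1 := ψ.ker.card_mul_index
    rw [Subgroup.index_ker, MonoidHom.range_eq_top.mpr hψ, Subgroup.card_top, hker,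
      Nat.card_congr (Subgroup.subgroupOfEquivOfLe (inf_le_left : ME ⊓ KE ≤ ME)).toEquiv] at h1
    have h2 := Subgroup.card_eq_card_quotient_mul_card_subgroup (KE.subgroupOf T)
    rw [Nat.card_congr (Subgroup.subgroupOfEquivOfLe hKT).toEquiv] at h2
    rw [← h1, h2]; ring
  set M := Subgroup.closure (u '' (A : Set G)) with hMdef
  have hKA : K ⊓ A = K := inf_eq_left.mpr fun d hd => hd.1
  have hMB : M ≤ B := (Subgroup.closure_le _).mpr (by rintro _ ⟨a, ha, rfl⟩; exact huB a ha)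
  have hABK : A ⊓ B ≤ K := fun z hz => ⟨hz.1, hBA x hx z hz.2⟩
  have hMK : M ⊓ A = M ⊓ K := le_antisymm (le_inf inf_le_left fun z hz => hABK ⟨hz.2, hMB hz.1⟩)
    (inf_le_inf_left _ fun d hd => hd.1)
  have hcard : Nat.card ↥(M ⊔ K) = Nat.card A := by
    have h1 := hcount A le_rfl
    have h2 := hprod A le_rfl
    rw [← hMdef, hKA] at h1 h2
    rw [hMK] at h1
    refine Nat.eq_of_mul_eq_mul_right (Nat.card_pos (α := ↥(M ⊓ K))) ?_
    rw [h2, h1, mul_comm]
  obtain ⟨a₀, ha₀, hua₀⟩ : ∃ a ∈ A, u a ∉ A := by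
    by_contra hc'
    push Not at hc'
    refine hxN (mem_normalizer_of_conj_mem fun a ha => ?_)
    have := A.mul_mem (hc' a ha) ha
    convert this using 1
    simp only [hudef, commutatorElement_def]; group
  have hAb : ∀ v ∈ M ⊔ K, ∀ w ∈ M ⊔ K, v * w = w * v := by
    have := hMab A le_rfl
    rwa [← hMdef, hKA] at this
  have hpow : ∀ a ∈ A, ∀ n : ℕ, u (a ^ n) = u a ^ n * t a a ^ n.choose 2 := by
    intro a ha n
    have hut : Commute (u a) (t a a) := hT _ (htA a ha a ha) (htB a ha a ha) a ha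
    induction n with
    | zero => simp [hudef]
    | succ n ih =>
      have h1 : u (a ^ (n + 1)) = u a * (a * u (a ^ n) * a⁻¹) := by
        rw [pow_succ']; exact comm_mul_right x a (a ^ n)
      have h2 : a * (u a ^ n * t a a ^ n.choose 2) * a⁻¹ = (u a * t a a) ^ n * t a a ^ n.choose 2 := by
        rw [show a * (u a ^ n * t a a ^ n.choose 2) * a⁻¹ = (a * u a ^ n * a⁻¹) * (a * t a a ^ n.choose 2 * a⁻¹) by group,
          ← conj_pow, ← hσ, hA.1 a ha _ (A.pow_mem (htA a ha a ha) _), mul_inv_cancel_right]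
      rw [h1, ih, h2, hut.mul_pow, Nat.choose_succ_succ', Nat.choose_one_right]
      show u a * (u a ^ n * t a a ^ n * t a a ^ n.choose 2) = u a ^ (n + 1) * t a a ^ (n + n.choose 2)
      rw [pow_add (t a a), pow_succ']
      simp only [mul_assoc]
  have hexpo : ∀ E : Subgroup G, E ≤ A → ∀ e : ℕ, Odd e → (∀ a ∈ E, a ^ e = 1) → ∀ a ∈ E, u a ^ e = 1 := by
    intro E hEA e ho hE a ha
    have h := hpow a (hEA ha) e
    have ht : t a a ^ e = 1 := by
      have e1 : t a a = ((u a)⁻¹ * a * u a) * a⁻¹ := by simp only [htdef]; group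
      have hconjA : (u a)⁻¹ * a * u a ∈ A := by
        have := (Subgroup.mem_normalizer_iff.mp (inv_mem (hu a (hEA ha))) a).mp (hEA ha)
        rwa [inv_inv] at this
      rw [e1, (show Commute ((u a)⁻¹ * a * u a) a⁻¹ from
        hA.1 _ hconjA _ (A.inv_mem (hEA ha))).mul_pow, inv_pow, hE a ha, inv_one, mul_one]
      have := conj_pow (i := e) (a := (u a)⁻¹) (b := a)
      rw [inv_inv] at this
      rw [this, hE a ha, mul_one, inv_mul_cancel]
    obtain ⟨j, hj⟩ := ho
    have hch : e.choose 2 = e * j := by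
      rw [Nat.choose_two_right, hj, show 2 * j + 1 - 1 = 2 * j by omega, mul_left_comm,
        Nat.mul_div_cancel_left _ (by norm_num : 0 < 2)]
    rw [hE a ha, show u 1 = 1 from commutatorElement_one_right x, hch, pow_mul, ht, one_pow, mul_one] at h
    exact h.symm
  refine ⟨M ⊔ K, hAb, hcard, lt_of_le_of_ne (le_inf (hABK.trans le_sup_right) inf_le_right) fun h => hua₀ ?_,
    sup_le ((Subgroup.closure_le _).mpr (by rintro _ ⟨a, ha, rfl⟩; exact hu a ha))
      (fun d hd => Subgroup.le_normalizer hd.1),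
    sup_le ((Subgroup.closure_le _).mpr (by
      rintro _ ⟨a, ha, rfl⟩
      exact Subgroup.mem_sup_right (Subgroup.commutator_mem_commutator hx ha)))
      (fun d hd => Subgroup.mem_sup_left hd.1), ?_, ?_⟩
  · have : u a₀ ∈ A ⊓ B := h.ge ⟨(le_sup_left : M ≤ M ⊔ K) (Subgroup.subset_closure ⟨a₀, ha₀, rfl⟩), huB a₀ ha₀⟩
    exact this.1
  · intro e ho hAe v hv
    rw [← Subgroup.closure_eq K, hMdef, ← Subgroup.closure_union] at hv
    refine (abExp_closure (e := e) ?_ ?_).2 v hv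
    · intro a ha b hb
      refine hAb a ?_ b ?_
      · rcases ha with ⟨c, hc', rfl⟩ | h
        · exact Subgroup.mem_sup_left (Subgroup.subset_closure ⟨c, hc', rfl⟩)
        · exact Subgroup.mem_sup_right h
      · rcases hb with ⟨c, hc', rfl⟩ | h
        · exact Subgroup.mem_sup_left (Subgroup.subset_closure ⟨c, hc', rfl⟩)
        · exact Subgroup.mem_sup_right h
    · rintro _ (⟨a, ha, rfl⟩ | h)
      · exact hexpo A le_rfl e ho hAe a ha
      · exact hAe _ h.1
  · set E := Cfsg.omegaOne p A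
    have hEA : E ≤ A := (Subgroup.closure_le _).mpr fun a ha => ha.1
    have hE : ∀ a ∈ E, a ^ p = 1 := (abExp_closure (e := p) (s := {z : G | z ∈ A ∧ z ^ p = 1})
      (fun a ha b hb => hA.1 a ha.1 b hb.1) fun a ha => ha.2).2
    set ME := Subgroup.closure (u '' (E : Set G))
    have h1 := hcount E hEA
    have h2 := hprod E hEA
    have hle : Nat.card ↥(ME ⊓ (K ⊓ E)) ≤ Nat.card ↥(ME ⊓ A) :=
      Subgroup.card_le_of_le (inf_le_inf_left _ (inf_le_right.trans hEA))
    have h3 : Nat.card E ≤ Nat.card ↥(ME ⊔ (K ⊓ E)) := by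
      refine Nat.le_of_mul_le_mul_right ?_ (Nat.card_pos (α := ↥(ME ⊓ A)))
      rw [h1, mul_comm, ← h2]
      exact Nat.mul_le_mul_left _ hle
    refine h3.trans (Subgroup.card_le_of_le (sup_le ((Subgroup.closure_le _).mpr ?_) ?_))
    · rintro _ ⟨a, ha, rfl⟩
      exact Subgroup.subset_closure ⟨Subgroup.mem_sup_left (Subgroup.subset_closure ⟨a, hEA ha, rfl⟩),
        hexpo E hEA p (hp.out.odd_of_ne_two hp2) hE a ha⟩
    · intro d hd
      exact Subgroup.subset_closure ⟨Subgroup.mem_sup_right hd.1, hE d hd.2⟩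

/-- A replacement Theorem for abelian subgroups of p-groups, p odd. Let G be a finite p-group with p odd, A an abelian subgroup of G, and B a subgroup of nilpotency class at most 2 with [B, B] ≤ A, such that A normalizes B but B does not normalize A. Then there is an abelian subgroup A* of G of the same order as A with A ∩ B strictly contained in A* ∩ B, A* contained in N_G(A) and in the normal closure of A, the exponent of A* dividing the exponent of A, and with the subgroup generated by the elements of order dividing p in A of order at most that of the corresponding subgroup of A* (the rank of A is at most the rank of A*). -/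
theorem result {G : Type*} [Group G] [Finite G] {p : ℕ} [Fact p.Prime] (hp : p ≠ 2) (hG : IsPGroup p G) (A B : Subgroup G) (hA : IsMulCommutative A) (hB2 : ⁅⁅B, B⁆, B⁆ = ⊥) (hBA : ⁅B, B⁆ ≤ A) (hAB : A ≤ Subgroup.normalizer (B : Set G)) (hBnA : ¬ B ≤ Subgroup.normalizer (A : Set G)) : ∃ Astar : Subgroup G, IsMulCommutative Astar ∧ Nat.card Astar = Nat.card A ∧ A ⊓ B < Astar ⊓ B ∧ Astar ≤ Subgroup.normalizer (A : Set G) ∧ Astar ≤ Subgroup.normalClosure (A : Set G) ∧ Monoid.exponent Astar ∣ Monoid.exponent A ∧ Nat.card (Cfsg.omegaOne p A) ≤ Nat.card (Cfsg.omegaOne p Astar) := by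
  have hAc : ∀ a ∈ A, ∀ b ∈ A, a * b = b * a := fun a ha b hb =>
    congrArg Subtype.val (hA.is_comm.comm (⟨a, ha⟩ : A) ⟨b, hb⟩)
  obtain ⟨A', hab, hc, hlt, hN, hle, hexp, hom⟩ := exact_replacement (p := p) hp
    (hG.to_subgroup (A ⊔ B)) le_sup_left le_sup_right (sup_le hAB Subgroup.le_normalizer)
    (fun x hx y hy z hz => commutatorElement_eq_one_iff_mul_comm.mp (by
      have := Subgroup.commutator_mem_commutator (Subgroup.commutator_mem_commutator hx hy) hz
      rw [hB2] at this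
      exact this))
    (e₀ := 0) ⟨hAc, fun _ _ => pow_zero _⟩
    (fun x hx y hy => hBA (Subgroup.commutator_mem_commutator hx hy)) hBnA
  refine ⟨A', ⟨⟨fun a b => Subtype.ext (hab a a.2 b b.2)⟩⟩, hc, hlt, hN, hle.trans ?_, ?_, hom⟩
  · haveI := Subgroup.normalClosure_normal (s := (A : Set G))
    refine sup_le Subgroup.le_normalClosure (Subgroup.commutator_le.mpr fun b _ a ha => ?_)
    rw [commutatorElement_def]
    exact mul_mem (Subgroup.Normal.conj_mem inferInstance a (Subgroup.subset_normalClosure ha) b)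
      (inv_mem (Subgroup.subset_normalClosure ha))
  · obtain ⟨k, hk⟩ := IsPGroup.iff_card.mp (hG.to_subgroup A)
    have ho : Odd (Monoid.exponent ↥A) :=
      (((Fact.out : p.Prime).odd_of_ne_two hp).pow (n := k)).of_dvd_nat (hk ▸ Group.exponent_dvd_nat_card)
    refine Monoid.exponent_dvd_of_forall_pow_eq_one fun v => Subtype.ext ?_
    exact hexp _ ho (fun a ha => congrArg Subtype.val (Monoid.pow_exponent_eq_one (⟨a, ha⟩ : A))) v v.2

end Cfsg.Agent.S3078
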