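import Cfsg.Statements.S3087
import Cfsg.Agent.Lib.LocalBasic

set_option autoImplicit false
open Cfsg

namespace Cfsg.Agent.S3087
open scoped Pointwise

/-- Let p be a prime, G a finite group acting linearly on a finite vector space V over the field with p elements, W a G-invariant subspace, and A a subgroup of G with |A|·|C_V(A)| ≥ |B|·|C_V(B)| for every subgroup B of A. Then |A|·|C_W(A)| ≥ |B|·|C_W(B)| for every subgroup B of A that contains C_A(W); that is, the image of A in the group induced on W satisfies the same maximality condition. -/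
theorem result {G V : Type*} [Group G] [Finite G] [AddCommGroup V] [Finite V] (p : ℕ) [Fact p.Prime] [Module (ZMod p) V]
    (ρ : Representation (ZMod p) G V) (W : Submodule (ZMod p) V) (hW : ∀ g : G, ∀ w ∈ W, ρ g w ∈ W)
    (A : Subgroup G)
    (hP : ∀ B : Subgroup G, B ≤ A →
      Nat.card ↥B * Nat.card {v : V // ∀ b ∈ B, ρ b v = v} ≤ Nat.card ↥A * Nat.card {v : V // ∀ a ∈ A, ρ a v = v})
    (B : Subgroup G) (hBA : B ≤ A) (hCB : ∀ a ∈ A, (∀ w ∈ W, ρ a w = w) → a ∈ B) :
    Nat.card ↥B * Nat.card {w : W // ∀ b ∈ B, ρ b w = w} ≤ Nat.card ↥A * Nat.card {w : W // ∀ a ∈ A, ρ a w = w} := by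
  have key := hP B hBA
  let fix_ : Subgroup G → AddSubgroup V := fun C =>
    { carrier := {v | ∀ c ∈ C, ρ c v = v}
      zero_mem' := fun c _ => map_zero _
      add_mem' := fun {a b} ha hb c hc => by rw [map_add, ha c hc, hb c hc]
      neg_mem' := fun {a} ha c hc => by rw [map_neg, ha c hc] }
  let Xs : AddSubgroup V := W.toAddSubgroup ⊓ fix_ B
  let toM : AddSubgroup V → Subgroup (Multiplicative V) := fun X => AddSubgroup.toSubgroup X
  have h1 := CfsgLib.LocalBasic.card_mul_le (toM Xs) (toM (fix_ A))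
  have hsub : ((toM Xs : Set (Multiplicative V)) * (toM (fix_ A) : Set (Multiplicative V))) ⊆
      (toM (fix_ B) : Set (Multiplicative V)) := by
    rintro _ ⟨u, hu, v, hv, rfl⟩
    intro c hc
    show ρ c (Multiplicative.toAdd u + Multiplicative.toAdd v) = _
    rw [map_add, hu.2 c hc, hv c (hBA hc)]
    rfl
  have h2 := h1.trans (Nat.mul_le_mul_right _ (Nat.card_mono (Set.toFinite _) hsub))
  have eA : Nat.card ↥(toM (fix_ A)) = Nat.card {v : V // ∀ a ∈ A, ρ a v = v} :=
    Nat.card_congr (Equiv.subtypeEquiv Multiplicative.toAdd fun _ => Iff.rfl)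
  have eB : Nat.card ↥(toM (fix_ B)) = Nat.card {v : V // ∀ b ∈ B, ρ b v = v} :=
    Nat.card_congr (Equiv.subtypeEquiv Multiplicative.toAdd fun _ => Iff.rfl)
  have eX : Nat.card ↥(toM Xs) = Nat.card {w : W // ∀ b ∈ B, ρ b w = w} :=
    Nat.card_congr
      { toFun := fun x => ⟨⟨Multiplicative.toAdd x.1, x.2.1⟩, x.2.2⟩
        invFun := fun w => ⟨Multiplicative.ofAdd (w.1 : V), w.1.2, w.2⟩
        left_inv := fun x => rfl
        right_inv := fun w => rfl }
  have eI : Nat.card ↥(toM Xs ⊓ toM (fix_ A) : Subgroup (Multiplicative V)) =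
      Nat.card {w : W // ∀ a ∈ A, ρ a w = w} :=
    Nat.card_congr
      { toFun := fun x => ⟨⟨Multiplicative.toAdd x.1, x.2.1.1⟩, x.2.2⟩
        invFun := fun w => ⟨Multiplicative.ofAdd (w.1 : V), ⟨w.1.2, fun c hc => w.2 c (hBA hc)⟩, w.2⟩
        left_inv := fun x => rfl
        right_inv := fun w => rfl }
  change Nat.card ↥(toM Xs) * Nat.card ↥(toM (fix_ A)) ≤
    Nat.card ↥(toM (fix_ B)) * Nat.card ↥(toM Xs ⊓ toM (fix_ A) : Subgroup (Multiplicative V)) at h2
  rw [eA, eB, eX, eI] at h2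
  set FA := Nat.card {v : V // ∀ a ∈ A, ρ a v = v}
  have hFA : 0 < FA := by
    haveI : Nonempty {v : V // ∀ a ∈ A, ρ a v = v} := ⟨⟨0, fun a _ => map_zero _⟩⟩
    exact Nat.card_pos
  refine Nat.le_of_mul_le_mul_right ?_ hFA
  calc _ = Nat.card ↥B * (Nat.card {w : W // ∀ b ∈ B, ρ b w = w} * FA) := by ring
    _ ≤ Nat.card ↥B * (Nat.card {v : V // ∀ b ∈ B, ρ b v = v} * Nat.card {w : W // ∀ a ∈ A, ρ a w = w}) :=
        Nat.mul_le_mul_left _ h2
    _ ≤ Nat.card ↥A * FA * Nat.card {w : W // ∀ a ∈ A, ρ a w = w} := by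
        rw [← mul_assoc]; exact Nat.mul_le_mul_right _ key
    _ = _ := by ring

end Cfsg.Agent.S3087
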