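import Cfsg.Statements.S3155
import Mathlib.LinearAlgebra.Determinant
import Mathlib.Algebra.Module.ZMod
import Mathlib.LinearAlgebra.Dimension.Free
import Mathlib.LinearAlgebra.Dimension.Constructions
import Mathlib.LinearAlgebra.FreeModule.StrongRankCondition
import Mathlib.Tactic

set_option autoImplicit false
open Cfsg

namespace Cfsg.Agent.S3155

/-- Let B be the direct product of three cyclic groups of order 4. Then the automorphism of B inverting every element is not the square of any automorphism of B. -/
theorem result {B : Type*} [CommGroup B] [Finite B] (hB : Nonempty (B ≃* Multiplicative (ZMod 4 × ZMod 4 × ZMod 4)))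
    (τ : B ≃* B) : τ.trans τ ≠ MulEquiv.inv B := by
  intro hτ
  have : Fact (1 < 4) := ⟨by norm_num⟩
  obtain ⟨e⟩ := hB
  let φ : (ZMod 4 × ZMod 4 × ZMod 4) →+ (ZMod 4 × ZMod 4 × ZMod 4) :=
    { toFun := fun m => (e (τ (e.symm (Multiplicative.ofAdd m)))).toAdd
      map_zero' := by simp
      map_add' := fun x y => by simp }
  let f := φ.toZModLinearMap 4
  have hf : f ∘ₗ f = (-1 : ZMod 4) • LinearMap.id := by
    refine LinearMap.ext fun m => ?_
    have h := DFunLike.congr_fun hτ (e.symm (Multiplicative.ofAdd m))
    simp only [MulEquiv.trans_apply, MulEquiv.inv_apply] at h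
    simp [f, φ, h]
  have hd := congrArg LinearMap.det hf
  rw [LinearMap.det_comp, LinearMap.det_smul, LinearMap.det_id, mul_one,
    show Module.finrank (ZMod 4) (ZMod 4 × ZMod 4 × ZMod 4) = 3 by rw [Module.finrank_prod, Module.finrank_prod, Module.finrank_self]] at hd
  generalize LinearMap.det f = x at hd
  revert hd
  revert x
  decide

end Cfsg.Agent.S3155
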