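import Cfsg.Statements.S3162
import Mathlib
import Cfsg.Agent.Lib.Unitary.SylowTwoAut
import Cfsg.Agent.Lib.Core

set_option autoImplicit false
open Cfsg CfsgLib.Unitary.SylowTwo CfsgLib.Unitary.FieldNorm CfsgLib.Unitary.Basic

namespace Cfsg.Agent.S3162

variable {F : Type*} [Field F] [Fintype F] [CharP F 2] {q : ℕ}

/-- the fixed field as an additive group -/
def Fix (hF : Fintype.card F = q ^ 2) : AddSubgroup F where
  carrier := {c | c ^ q = c}
  zero_mem' := zero_pow (q_ne_zero hF)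
  add_mem' := fun {a b} ha hb => by show (a + b) ^ q = a + b; rw [add_pow_q hF, ha, hb]
  neg_mem' := fun {a} ha => by show (-a) ^ q = -a; rw [neg_pow_q hF, ha]

theorem fix_mem (hF : Fintype.card F = q ^ 2) (c : Fix hF) : (c : F) ^ q = c := c.2

theorem img_cond (hF : Fintype.card F = q ^ 2) (b : F) (ψ : RingAut F) (z : F →+ Fix hF) {x y : F}
    (h : y + y ^ q = x ^ (q + 1)) :
    b ^ (q + 1) * ψ y + (z x : F) + (b ^ (q + 1) * ψ y + (z x : F)) ^ q = (b * ψ x) ^ (q + 1) := by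
  have h2 := two_eq_zero (F := F)
  have h1 := congrArg ψ h
  rw [map_add, map_pow, map_pow] at h1
  rw [add_pow_q hF, mul_pow, fixed_norm hF, fix_mem hF, mul_pow]
  linear_combination b ^ (q + 1) * h1 + (z x : F) * h2

theorem exists_aut (hF : Fintype.card F = q ^ 2) (b : Fˣ) (ψ : RingAut F) (z : F →+ Fix hF) :
    ∃ φ : MulAut (U hF), ∀ x y h, φ (mk hF x y h) =
      mk hF ((b : F) * ψ x) ((b : F) ^ (q + 1) * ψ y + (z x : F)) (img_cond hF b ψ z h) := by
  have hs := fun g : U hF => mk_surj hF g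
  choose X Y H E using hs
  let f : U hF → U hF := fun g =>
    mk hF ((b : F) * ψ (X g)) ((b : F) ^ (q + 1) * ψ (Y g) + (z (X g) : F)) (img_cond hF b ψ z (H g))
  have hf : ∀ x y h, f (mk hF x y h) =
      mk hF ((b : F) * ψ x) ((b : F) ^ (q + 1) * ψ y + (z x : F)) (img_cond hF b ψ z h) := fun x y h => by
    obtain ⟨e1, e2⟩ := (mk_ext hF).mp (E (mk hF x y h))
    exact (mk_ext hF).mpr ⟨by rw [e1], by rw [e1, e2]⟩
  let φ : U hF →* U hF := MonoidHom.mk' f fun u v => by
    obtain ⟨x, y, h, rfl⟩ := mk_surj hF u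
    obtain ⟨x', y', h', rfl⟩ := mk_surj hF v
    rw [mk_mul hF, hf, hf, hf, mk_mul hF, mk_ext hF, map_add, map_add, map_add, map_mul, map_pow, map_add,
      AddSubgroup.coe_add, mul_pow, pow_succ]
    exact ⟨by ring, by ring⟩
  have hinj : Function.Injective φ := fun u v e => by
    obtain ⟨x, y, h, rfl⟩ := mk_surj hF u
    obtain ⟨x', y', h', rfl⟩ := mk_surj hF v
    change f _ = f _ at e
    rw [hf, hf, mk_ext hF] at e
    have hx : x = x' := ψ.injective (mul_left_cancel₀ b.ne_zero e.1)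
    subst hx
    exact (mk_ext hF).mpr ⟨rfl, ψ.injective (mul_left_cancel₀ (pow_ne_zero _ b.ne_zero) (add_right_cancel e.2))⟩
  exact ⟨MulEquiv.ofBijective φ (Finite.injective_iff_bijective.mp hinj), hf⟩

noncomputable def aut (hF : Fintype.card F = q ^ 2) (p : (Fˣ × RingAut F) × (F →+ Fix hF)) : MulAut (U hF) :=
  (exists_aut hF p.1.1 p.1.2 p.2).choose

theorem aut_mk (hF : Fintype.card F = q ^ 2) (b : Fˣ) (ψ : RingAut F) (z : F →+ Fix hF) (x y : F)
    (h : y + y ^ q = x ^ (q + 1)) : aut hF ((b, ψ), z) (mk hF x y h) =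
      mk hF ((b : F) * ψ x) ((b : F) ^ (q + 1) * ψ y + (z x : F)) (img_cond hF b ψ z h) :=
  (exists_aut hF b ψ z).choose_spec x y h

theorem aut_bij (hF : Fintype.card F = q ^ 2) : Function.Bijective (aut hF) := by
  refine ⟨?_, fun φ => ?_⟩
  · rintro ⟨⟨b, ψ⟩, z⟩ ⟨⟨b', ψ'⟩, z'⟩ e
    have h : ∀ x y (h : y + y ^ q = x ^ (q + 1)),
        (b : F) * ψ x = b' * ψ' x ∧ (b : F) ^ (q + 1) * ψ y + (z x : F) = (b' : F) ^ (q + 1) * ψ' y + (z' x : F) :=
      fun x y h => by
        have := congrArg (fun φ : MulAut (U hF) => φ (mk hF x y h)) e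
        simp only [aut_mk, mk_ext hF] at this
        exact this
    have hb : b = b' := Units.ext (by have := (h 1 _ (lift_cond hF 1)).1; rwa [map_one, map_one, mul_one, mul_one] at this)
    subst hb
    have hψ : ψ = ψ' := RingEquiv.ext fun x => mul_left_cancel₀ b.ne_zero (h x _ (lift_cond hF x)).1
    subst hψ
    have hz : z = z' := AddMonoidHom.ext fun x => Subtype.ext (add_left_cancel (h x _ (lift_cond hF x)).2)
    subst hz
    rfl
  · obtain ⟨b, ψ, hb, hφ⟩ := aut_semilinear hF φ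
    have hψ : Function.Bijective ψ := Finite.injective_iff_bijective.mp ψ.injective
    choose Y H E C using hφ
    have h2 := two_eq_zero (F := F)
    let z0 : F → F := fun x => Y x _ (lift_cond hF x) + b ^ (q + 1) * ψ (aa hF * x ^ (q + 1))
    have hfix : ∀ x, z0 x ^ q = z0 x := fun x => by
      have h1 := H x _ (lift_cond hF x)
      have h3 := congrArg ψ (lift_cond hF x)
      rw [map_add, map_pow, map_pow ψ x] at h3
      rw [mul_pow] at h1
      show (Y x _ _ + _) ^ q = _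
      rw [add_pow_q hF, mul_pow, fixed_norm hF]
      linear_combination h1 + b ^ (q + 1) * h3 + (b ^ (q + 1) * ψ x ^ (q + 1) - Y x _ (lift_cond hF x) - b ^ (q + 1) * ψ (aa hF * x ^ (q + 1))) * h2
    have hY : ∀ x y h, Y x y h = b ^ (q + 1) * ψ y + z0 x := fun x y h => by
      have hc : (y + aa hF * x ^ (q + 1)) ^ q = y + aa hF * x ^ (q + 1) := by
        rw [add_pow_q hF]; linear_combination h + lift_cond hF x + (x ^ (q + 1) - y - aa hF * x ^ (q + 1)) * h2
      have e : mk hF x y h = mk hF x _ (lift_cond hF x) * mk hF 0 _ (zero_cond hF hc) := by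
        rw [mk_mul hF, mk_ext hF]
        exact ⟨(add_zero x).symm, by linear_combination (-(aa hF * x ^ (q + 1))) * h2⟩
      have e' := congrArg φ e
      rw [map_mul, E, E, E, mk_mul hF, mk_ext hF, C _ _ _ rfl, map_zero, mul_zero, mul_zero, add_zero] at e'
      rw [e'.2, map_add]
      show _ = _ + (_ + _)
      ring
    let z : F →+ Fix hF := AddMonoidHom.mk' (fun x => (⟨z0 x, hfix x⟩ : Fix hF)) fun x x' => Subtype.ext (by
      have e := congrArg φ (mk_mul hF (lift_cond hF x) (lift_cond hF x'))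
      rw [map_mul, E, E, E, mk_mul hF, mk_ext hF, hY, hY, hY, map_add, map_add, map_mul ψ _ x', map_pow, mul_pow] at e
      show z0 (x + x') = z0 x + z0 x'
      rw [pow_succ] at e; simp only [map_add] at e
      linear_combination -e.2)
    refine ⟨((Units.mk0 b hb, RingEquiv.ofBijective ψ hψ), z), MulEquiv.ext fun g => ?_⟩
    obtain ⟨x, y, h, rfl⟩ := mk_surj hF g
    rw [aut_mk, E, mk_ext hF, hY]
    exact ⟨rfl, rfl⟩

theorem card_ringAut {n : ℕ} (hF : Fintype.card F = 2 ^ (2 * n)) : Nat.card (RingAut F) = 2 * n := by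
  letI : Algebra (ZMod 2) F := ZMod.algebra F 2
  have h := Module.natCard_eq_pow_finrank (K := ZMod 2) (V := F)
  rw [Nat.card_eq_fintype_card, hF, Nat.card_zmod] at h
  have hd : Module.finrank (ZMod 2) F = 2 * n := (Nat.pow_right_injective le_rfl h).symm
  rw [← hd, ← IsGalois.card_aut_eq_finrank (ZMod 2) F]
  refine Nat.card_congr
    { toFun := fun σ => AlgEquiv.ofRingEquiv (f := σ) fun c => RingHom.congr_fun
        (RingHom.ext_zmod (σ.toRingHom.comp (algebraMap (ZMod 2) F)) (algebraMap (ZMod 2) F)) c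
      invFun := fun e => e.toRingEquiv
      left_inv := fun σ => RingEquiv.ext fun x => rfl
      right_inv := fun e => AlgEquiv.ext fun x => rfl }

theorem card_hom (hF : Fintype.card F = q ^ 2) {n : ℕ} (hq : q = 2 ^ n) :
    Nat.card (F →+ Fix hF) = 2 ^ (2 * n ^ 2) := by
  haveI : Fact (Nat.Prime 2) := ⟨Nat.prime_two⟩
  letI : Algebra (ZMod 2) F := ZMod.algebra F 2
  letI : Module (ZMod 2) (Fix hF) := AddCommGroup.zmodModule fun c => Subtype.ext (by
    rw [AddSubgroup.coe_nsmul, two_nsmul, CharTwo.add_self_eq_zero]; rfl)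
  have hF2 : Nat.card F = 2 ^ (2 * n) := by rw [Nat.card_eq_fintype_card, hF, hq, ← pow_mul, mul_comm]
  have h1 := Module.natCard_eq_pow_finrank (K := ZMod 2) (V := F)
  have h2 := Module.natCard_eq_pow_finrank (K := ZMod 2) (V := Fix hF)
  rw [hF2, Nat.card_zmod] at h1
  rw [show Nat.card (Fix hF) = q from card_fixed hF, Nat.card_zmod] at h2
  replace h2 := hq.symm.trans h2
  have d1 := Nat.pow_right_injective le_rfl h1
  have d2 := Nat.pow_right_injective le_rfl h2
  have e : (F →+ Fix hF) ≃ (F →ₗ[ZMod 2] Fix hF) :=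
    { toFun := AddMonoidHom.toZModLinearMap 2
      invFun := LinearMap.toAddMonoidHom
      left_inv := fun f => AddMonoidHom.ext fun x => rfl
      right_inv := fun f => LinearMap.ext fun x => rfl }
  rw [Nat.card_congr e, Module.natCard_eq_pow_finrank (K := ZMod 2), Module.finrank_linearMap, Nat.card_zmod, ← d1, ← d2]
  ring_nf

/-- Let S be a Sylow 2-subgroup of the special unitary group of dimension 3 with parameter q = 2^n (n ≥ 2; realised over the field with q² elements). Then the largest normal 2-subgroup of the automorphism group of S is elementary abelian of order 2^(2n²), and the automorphism group has order 2^(2n²) · 2n(q² − 1). -/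
theorem result {S : Type*} [Group S] [Finite S] (n : ℕ) (hn : 2 ≤ n) {F : Type*} [Field F] [Fintype F] (hF : Fintype.card F = 4 ^ n)
    (P : Sylow 2 ↥(Cfsg.SU 3 F (2 ^ n))) (hS : Nonempty (S ≃* ↥(P : Subgroup ↥(Cfsg.SU 3 F (2 ^ n))))) :
    Cfsg.IsElementaryAbelian 2 (Cfsg.pCore 2 (MulAut S)) ∧ Nat.card ↥(Cfsg.pCore 2 (MulAut S)) = 2 ^ (2 * n ^ 2) ∧
      Nat.card (MulAut S) = 2 ^ (2 * n ^ 2) * (2 * n * ((2 ^ n) ^ 2 - 1)) := by
  classical
  have hF2 : Fintype.card F = (2 ^ n) ^ 2 := by rw [hF, ← pow_mul, mul_comm, pow_mul]; norm_num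
  haveI : CharP F 2 := CfsgLib.Unitary.SylowTwo.charTwo hF2
  haveI : Fact (Nat.Prime 2) := ⟨Nat.prime_two⟩
  obtain ⟨e0⟩ := hS
  obtain ⟨e1⟩ := sylow_su hF2 rfl P
  let e : U hF2 ≃* S := (e0.trans e1).symm
  let c : MulAut (U hF2) ≃* MulAut S := MulAut.congr e
  have hcardU : Nat.card (MulAut (U hF2)) = 2 ^ (2 * n ^ 2) * (2 * n * ((2 ^ n) ^ 2 - 1)) := by
    rw [← Nat.card_eq_of_bijective _ (aut_bij hF2), Nat.card_prod, Nat.card_prod, card_hom hF2 rfl,
      card_ringAut (n := n) (by rw [hF, pow_mul]; norm_num), Nat.card_units, Nat.card_eq_fintype_card, hF2]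
    ring
  let K : Subgroup (MulAut (U hF2)) :=
    { carrier := {φ | ∀ x y h, ∃ y' h', φ (mk hF2 x y h) = mk hF2 x y' h'}
      one_mem' := fun x y h => ⟨y, h, rfl⟩
      mul_mem' := fun {u v} hu hv x y h => by
        obtain ⟨y', h', e'⟩ := hv x y h
        obtain ⟨y'', h'', e''⟩ := hu x y' h'
        exact ⟨y'', h'', by rw [MulAut.mul_apply, e', e'']⟩
      inv_mem' := fun {u} hu x y h => by
        obtain ⟨x', y', h', e'⟩ := mk_surj hF2 (u⁻¹ (mk hF2 x y h))
        obtain ⟨y'', h'', e''⟩ := hu x' y' h'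
        have := congrArg u e'
        rw [e'', MulAut.apply_inv_self, mk_ext hF2] at this
        obtain ⟨rfl, -⟩ := this
        exact ⟨y', h', e'.symm⟩ }
  have hKmem : ∀ φ, φ ∈ K ↔ ∃ z, aut hF2 ((1, 1), z) = φ := by
    intro φ
    constructor
    · intro hφ
      obtain ⟨⟨⟨b, ψ⟩, z⟩, rfl⟩ := (aut_bij hF2).2 φ
      have hx : ∀ x, (b : F) * ψ x = x := fun x => by
        obtain ⟨y', h', e'⟩ := hφ x _ (lift_cond hF2 x)
        rw [aut_mk, mk_ext hF2] at e'
        exact e'.1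
      have hb : b = 1 := Units.ext (by have := hx 1; rwa [map_one, mul_one] at this)
      subst hb
      have hψ : ψ = 1 := RingEquiv.ext fun x => by have := hx x; rwa [Units.val_one, one_mul] at this
      subst hψ
      exact ⟨z, rfl⟩
    · rintro ⟨z, rfl⟩ x y h
      obtain ⟨x', y', h', e'⟩ := mk_surj hF2 (aut hF2 ((1, 1), z) (mk hF2 x y h))
      have h1 := aut_mk hF2 1 1 z x y h
      rw [← e', mk_ext hF2] at h1
      have : x' = x := h1.1.trans (by simp)
      subst this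
      exact ⟨y', h', e'.symm⟩
  have hmul : ∀ z z', aut hF2 ((1, 1), z) * aut hF2 ((1, 1), z') = aut hF2 ((1, 1), z' + z) := by
    intro z z'
    refine MulEquiv.ext fun g => ?_
    obtain ⟨x, y, h, rfl⟩ := mk_surj hF2 g
    rw [MulAut.mul_apply, aut_mk, aut_mk, aut_mk, mk_ext hF2]
    refine ⟨by simp, ?_⟩
    simp [add_assoc]
  have hKp : ∀ g ∈ K, g ^ 2 = 1 := by
    intro g hg
    obtain ⟨z, rfl⟩ := (hKmem g).mp hg
    rw [sq, hmul]
    refine MulEquiv.ext fun g => ?_
    obtain ⟨x, y, h, rfl⟩ := mk_surj hF2 g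
    rw [aut_mk, MulAut.one_apply, mk_ext hF2]
    exact ⟨by simp, by simp [CharTwo.add_self_eq_zero]⟩
  have hKn : K.Normal := ⟨fun φ hφ g x y h => by
    obtain ⟨⟨⟨b, ψ⟩, z⟩, rfl⟩ := (aut_bij hF2).2 g
    obtain ⟨x', y', h', e'⟩ := mk_surj hF2 ((aut hF2 ((b, ψ), z))⁻¹ (mk hF2 x y h))
    obtain ⟨y'', h'', e''⟩ := hφ x' y' h'
    have hx : (b : F) * ψ x' = x := by
      have := congrArg (aut hF2 ((b, ψ), z)) e'
      rw [MulAut.apply_inv_self, aut_mk, mk_ext hF2] at this
      exact this.1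
    have hex : ∃ y₂ h₂, (aut hF2 ((b, ψ), z) * φ * (aut hF2 ((b, ψ), z))⁻¹) (mk hF2 x y h) =
        mk hF2 ((b : F) * ψ x') y₂ h₂ := ⟨_, _, by
      rw [MulAut.mul_apply, MulAut.mul_apply, ← e', e'', aut_mk]⟩
    obtain ⟨y₂, h₂, e₂⟩ := hex
    subst hx
    exact ⟨y₂, h₂, e₂⟩⟩
  have hKP : IsPGroup 2 K := fun g => ⟨1, Subtype.ext (by rw [pow_one]; exact hKp g g.2)⟩
  have hcore : Cfsg.pCore 2 (MulAut (U hF2)) = K := by
    refine le_antisymm (fun g hg => ?_) (CfsgLib.Core.le_pCore hKn hKP)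
    obtain ⟨⟨⟨b, ψ⟩, z⟩, rfl⟩ := (aut_bij hF2).2 g
    have hP := CfsgLib.Core.isPGroup_pCore (G := MulAut (U hF2)) 2
    haveI := CfsgLib.Core.pCore_characteristic (G := MulAut (U hF2)) 2
    have hodd : Odd ((2 ^ n) ^ 2 - 1) := Nat.Even.sub_odd (Nat.one_le_pow _ _ (Nat.two_pow_pos n))
      ((even_two.pow_of_ne_zero (by omega)).pow_of_ne_zero two_ne_zero) odd_one
    have hunit : ∀ (u : F) (k : ℕ), u ^ (2 ^ k) = 1 → u = 1 := fun u k hu => by
      have hu0 : u ≠ 0 := fun e => by rw [e, zero_pow (Nat.two_pow_pos k).ne'] at hu; exact zero_ne_one hu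
      have h1 : orderOf (Units.mk0 u hu0) = 1 := Nat.eq_one_of_dvd_coprimes
        ((Nat.coprime_two_right.mpr hodd).pow_right k)
        (by have := orderOf_dvd_natCard (Units.mk0 u hu0); rwa [Nat.card_units, Nat.card_eq_fintype_card, hF2] at this)
        (orderOf_dvd_of_pow_eq_one (Units.ext (by simpa using hu)))
      exact congrArg Units.val (orderOf_eq_one_iff.mp h1)
    -- `ψ = 1`
    have hψ : ∀ x, ψ x = x := by
      intro x
      by_cases hx : x = 0
      · rw [hx, map_zero]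
      set m := aut hF2 ((Units.mk0 x hx, 1), 0)
      set a := aut hF2 ((b, ψ), z)
      have hd : a * m * a⁻¹ * m⁻¹ ∈ Cfsg.pCore 2 (MulAut (U hF2)) := by
        rw [mul_assoc, mul_assoc, ← mul_assoc m]
        exact mul_mem hg (Subgroup.Normal.conj_mem inferInstance _ (inv_mem hg) m)
      obtain ⟨k, hk⟩ := hP ⟨_, hd⟩
      have hkk : (a * m * a⁻¹ * m⁻¹) ^ (2 ^ k) = 1 := congrArg Subtype.val hk
      have hone : ∀ u y h, ∃ y' h', (a * m * a⁻¹ * m⁻¹) (mk hF2 u y h) = mk hF2 (ψ x / x * u) y' h' := by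
        intro u y h
        obtain ⟨x1, y1, h1, e1⟩ := mk_surj hF2 (m⁻¹ (mk hF2 u y h))
        obtain ⟨x2, y2, h2, e2⟩ := mk_surj hF2 (a⁻¹ (mk hF2 x1 y1 h1))
        have hu : u = x * x1 := by
          have := congrArg m e1
          rw [MulAut.apply_inv_self, aut_mk, mk_ext hF2] at this
          simpa using this.1.symm
        have hx1 : x1 = (b : F) * ψ x2 := by
          have := congrArg a e2
          rw [MulAut.apply_inv_self, aut_mk, mk_ext hF2] at this
          exact this.1.symm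
        have hex : ∃ y₃ h₃, (a * m * a⁻¹ * m⁻¹) (mk hF2 u y h) = mk hF2 ((b : F) * ψ (x * (1 : RingAut F) x2)) y₃ h₃ :=
          ⟨_, _, by rw [MulAut.mul_apply, MulAut.mul_apply, MulAut.mul_apply, ← e1, ← e2, aut_mk, aut_mk]; rfl⟩
        obtain ⟨y₃, h₃, e₃⟩ := hex
        have hval : (b : F) * ψ (x * (1 : RingAut F) x2) = ψ x / x * u := by
          rw [RingAut.one_apply, map_mul, hu, hx1]; field_simp
        obtain ⟨x', y', h', e'⟩ := mk_surj hF2 (mk hF2 ((b : F) * ψ (x * (1 : RingAut F) x2)) y₃ h₃)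
        obtain ⟨hx', hy'⟩ := (mk_ext hF2).mp e'
        rw [hval] at hx'
        subst hx'
        exact ⟨y', h', e₃.trans e'.symm⟩
      have hpow : ∀ (j : ℕ) u y h, ∃ y' h', ((a * m * a⁻¹ * m⁻¹) ^ j) (mk hF2 u y h) = mk hF2 ((ψ x / x) ^ j * u) y' h' := by
        intro j
        induction j with
        | zero =>
          intro u y h
          obtain ⟨x', y', h', e'⟩ := mk_surj hF2 (mk hF2 u y h)
          obtain ⟨hx', -⟩ := (mk_ext hF2).mp e'
          have hx'' : x' = (ψ x / x) ^ 0 * u := by rw [hx', pow_zero, one_mul]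
          subst hx''
          exact ⟨y', h', by rw [pow_zero, MulAut.one_apply, e']⟩
        | succ j ih =>
          intro u y h
          obtain ⟨y1, h1, e1⟩ := ih u y h
          obtain ⟨y2, h2, e2⟩ := hone _ y1 h1
          obtain ⟨x', y', h', e'⟩ := mk_surj hF2 (mk hF2 (ψ x / x * ((ψ x / x) ^ j * u)) y2 h2)
          obtain ⟨hx', -⟩ := (mk_ext hF2).mp e'
          have hx'' : x' = (ψ x / x) ^ (j + 1) * u := by rw [hx', pow_succ', mul_assoc]
          subst hx''
          exact ⟨y', h', by rw [pow_succ', MulAut.mul_apply, e1, e2, e']⟩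
      obtain ⟨y', h', e'⟩ := hpow (2 ^ k) 1 _ (lift_cond hF2 1)
      rw [hkk, MulAut.one_apply, mk_ext hF2, mul_one] at e'
      have := hunit _ k e'.1.symm
      rwa [div_eq_one_iff_eq hx] at this
    -- `b = 1`
    obtain ⟨k, hk⟩ := hP ⟨_, hg⟩
    have hkk : (aut hF2 ((b, ψ), z)) ^ (2 ^ k) = 1 := congrArg Subtype.val hk
    have hpow : ∀ (j : ℕ) u y h, ∃ x' y' h', x' = (b : F) ^ j * u ∧
        ((aut hF2 ((b, ψ), z)) ^ j) (mk hF2 u y h) = mk hF2 x' y' h' := by
      intro j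
      induction j with
      | zero => intro u y h; exact ⟨u, y, h, by simp, rfl⟩
      | succ j ih =>
        intro u y h
        obtain ⟨x1, y1, h1, rfl, e1⟩ := ih u y h
        refine ⟨(b : F) * ψ ((b : F) ^ j * u), _, _, ?_, by rw [pow_succ', MulAut.mul_apply, e1, aut_mk]⟩
        rw [hψ, pow_succ', mul_assoc]
    obtain ⟨x', y', h', hx', e'⟩ := hpow (2 ^ k) 1 _ (lift_cond hF2 1)
    rw [hkk, MulAut.one_apply, mk_ext hF2] at e'
    have hb : b = 1 := Units.ext (hunit _ k (by rw [← e'.1, mul_one] at hx'; exact hx'.symm))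
    have hψ1 : ψ = 1 := RingEquiv.ext hψ
    subst hb hψ1
    exact (hKmem _).mpr ⟨z, rfl⟩
  have hKcard : Nat.card K = 2 ^ (2 * n ^ 2) := by
    rw [← card_hom hF2 (n := n) rfl]
    refine (Nat.card_eq_of_bijective (fun z => (⟨_, (hKmem _).mpr ⟨z, rfl⟩⟩ : K)) ⟨fun z z' h => ?_, fun g => ?_⟩).symm
    · have := (aut_bij hF2).1 (show aut hF2 ((1, 1), z) = aut hF2 ((1, 1), z') from congrArg Subtype.val h)
      exact congrArg Prod.snd this
    · obtain ⟨z, hz⟩ := (hKmem g).mp g.2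
      exact ⟨z, Subtype.ext hz⟩
  have hmap : (Cfsg.pCore 2 (MulAut (U hF2))).map c.toMonoidHom = Cfsg.pCore 2 (MulAut S) :=
    CfsgLib.Core.pCore_map_equiv c 2
  refine ⟨?_, ?_, ?_⟩
  · rw [← hmap, hcore]
    refine ⟨⟨⟨?_⟩⟩, ?_⟩
    · rintro ⟨_, g, hg, rfl⟩ ⟨_, g', hg', rfl⟩
      obtain ⟨z, rfl⟩ := (hKmem g).mp hg
      obtain ⟨z', rfl⟩ := (hKmem g').mp hg'
      exact Subtype.ext (by simp only [Subgroup.coe_mul]; rw [← map_mul, ← map_mul, hmul, hmul, add_comm])
    · rintro _ ⟨g, hg, rfl⟩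
      rw [← map_pow, hKp g hg, map_one]
  · rw [← hmap, hcore, Subgroup.card_map_of_injective c.injective, hKcard]
  · rw [← hcardU]
    exact (Nat.card_congr c.toEquiv).symm

end Cfsg.Agent.S3162
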