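import Cfsg.Statements.S3179
import Cfsg.Agent.Lib.Linear.Card
import Cfsg.Agent.S1163
import Cfsg.Agent.S0280
import Mathlib.Tactic

set_option autoImplicit false
open Cfsg

namespace Cfsg.Agent.S3179

open Matrix

abbrev V := Fin 5 → ZMod 2

lemma triple_zero : ∀ t : ZMod 2, t + t + t = 0 → t = 0 := by decide

lemma exp_three (y : GL (Fin 5) (ZMod 2)) (h9 : y ^ 9 = 1) : y ^ 3 = 1 := by
  by_contra h3
  have ho : orderOf y = 9 := by
    have := orderOf_eq_prime_pow (p := 3) (n := 1) (x := y) (by simpa using h3) (by simpa using h9)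
    simpa using this
  let A : Module.End (ZMod 2) V := Matrix.toLinAlgEquiv' (y : Matrix (Fin 5) (Fin 5) (ZMod 2))
  let ρ : GL (Fin 5) (ZMod 2) →* Module.End (ZMod 2) V :=
    ((Matrix.toLinAlgEquiv' : Matrix (Fin 5) (Fin 5) (ZMod 2) ≃ₐ[ZMod 2] _).toAlgHom.toRingHom.toMonoidHom).comp
      (Units.coeHom _)
  have hA : ∀ k : ℕ, A ^ k = ρ (y ^ k) := fun k => by rw [map_pow]; rfl
  have hA9 : A ^ 9 = 1 := by rw [hA, h9, map_one]
  set f : Module.End (ZMod 2) V := A ^ 6 + A ^ 3 + 1 with hf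
  have hprod : f * (A ^ 3 - 1) = 0 := by
    rw [hf, add_mul, add_mul, mul_sub, mul_sub, mul_one, mul_one, one_mul, ← pow_add, ← pow_add, hA9]
    abel
  have hinj : LinearMap.ker f = ⊥ := by
    let W := {w : V // f w = 0 ∧ w ≠ 0}
    have hcommA : Commute f A := by
      rw [hf]
      exact ((Commute.pow_self A 6).add_left (Commute.pow_self A 3)).add_left (Commute.one_left A)
    have hstab : ∀ (k : ℕ) (w : V), f w = 0 → f ((A ^ k) w) = 0 := fun k w hw => by
      rw [← Module.End.mul_apply, (hcommA.pow_right k).eq, Module.End.mul_apply, hw, map_zero]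
    let Z := Subgroup.zpowers y
    have hmem : ∀ z : Z, ∃ k : ℕ, ρ (z : GL (Fin 5) (ZMod 2)) = A ^ k := fun z => by
      obtain ⟨k, hk⟩ := Subgroup.mem_zpowers_iff.1 z.2
      refine ⟨(k % 9).toNat, ?_⟩
      rw [hA, ← hk, ← zpow_natCast, Int.toNat_of_nonneg (Int.emod_nonneg k (by norm_num)),
        show (9 : ℤ) = ((orderOf y : ℕ) : ℤ) by rw [ho]; rfl, zpow_mod_orderOf]
    have hρinj : ∀ (z : GL (Fin 5) (ZMod 2)) (w : V), ρ z w = 0 → w = 0 := fun z w hw => by
      have : ρ (z⁻¹ * z) w = 0 := by rw [map_mul, Module.End.mul_apply, hw, map_zero]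
      rwa [inv_mul_cancel, map_one, Module.End.one_apply] at this
    letI : MulAction Z W :=
      { smul := fun z w => ⟨ρ (z : GL (Fin 5) (ZMod 2)) w.1, by
          obtain ⟨k, hk⟩ := hmem z
          exact ⟨hk ▸ hstab k _ w.2.1, fun h0 => w.2.2 (hρinj _ _ h0)⟩⟩
        one_smul := fun w => Subtype.ext (by show ρ ((1 : Z) : GL (Fin 5) (ZMod 2)) w.1 = w.1; simp)
        mul_smul := fun a b w => Subtype.ext (by
          show ρ (((a * b : Z)) : GL (Fin 5) (ZMod 2)) w.1 = ρ (a : GL (Fin 5) (ZMod 2)) (ρ (b : GL (Fin 5) (ZMod 2)) w.1)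
          rw [Subgroup.coe_mul, map_mul]; rfl) }
    have hfree : ∀ w : W, MulAction.stabilizer Z w = ⊥ := by
      intro w
      by_contra hne
      obtain ⟨⟨z, hzZ⟩, hzs, hz1⟩ := (Subgroup.bot_or_exists_ne_one _).resolve_left hne
      have hz1' : z ≠ 1 := fun h => hz1 (Subtype.ext h)
      have hy3 : y ^ 3 ∈ Subgroup.zpowers z := by
        obtain ⟨k, rfl⟩ := Subgroup.mem_zpowers_iff.1 hzZ
        have hk9 : ¬ (9 : ℤ) ∣ k := fun h => hz1' (by
          rw [show (9 : ℤ) = ((orderOf y : ℕ) : ℤ) by rw [ho]; rfl] at h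
          exact orderOf_dvd_iff_zpow_eq_one.1 h)
        obtain ⟨a, b, hab⟩ : ∃ a b : ℤ, k * a + 9 * b = 3 := by
          have hg : Int.gcd k 9 ∣ 9 := by exact_mod_cast Int.gcd_dvd_right k 9
          have hg9 : Int.gcd k 9 ≠ 9 := fun h => hk9 (by
            have := Int.gcd_dvd_left k 9; rw [h] at this; exact_mod_cast this)
          have hd : Int.gcd k 9 ∣ 3 := by
            have := Nat.le_of_dvd (by norm_num) hg
            interval_cases h : Int.gcd k 9 <;> first | omega | decide | (exact absurd hg (by decide))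
          obtain ⟨c, hc⟩ := hd
          refine ⟨Int.gcdA k 9 * c, Int.gcdB k 9 * c, ?_⟩
          have := Int.gcd_eq_gcd_ab k 9
          rw [← mul_assoc, ← mul_assoc, ← add_mul, ← this]
          exact_mod_cast hc.symm
        refine ⟨a, ?_⟩
        show (y ^ k) ^ a = y ^ 3
        rw [← _root_.zpow_mul, show k * a = 3 - 9 * b by linarith, _root_.zpow_sub, _root_.zpow_mul, zpow_ofNat, zpow_ofNat, h9, _root_.one_zpow, inv_one, mul_one]
      have hz3 : (⟨y ^ 3, pow_mem (Subgroup.mem_zpowers y) 3⟩ : Z) ∈ MulAction.stabilizer Z w := by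
        obtain ⟨a, ha⟩ := hy3
        have := (MulAction.stabilizer Z w).zpow_mem hzs a
        convert this using 1
        exact Subtype.ext ha.symm
      have e : ρ (y ^ 3) w.1 = w.1 := congrArg Subtype.val hz3
      rw [← hA] at e
      have hw : (A ^ 6 + A ^ 3 + 1 : Module.End (ZMod 2) V) w.1 = 0 := w.2.1
      rw [LinearMap.add_apply, LinearMap.add_apply, show (6 : ℕ) = 3 + 3 from rfl, pow_add,
        Module.End.mul_apply, e, e, Module.End.one_apply] at hw
      apply w.2.2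
      funext i
      have := congrFun hw i
      simp only [Pi.add_apply, Pi.zero_apply] at this ⊢
      exact triple_zero _ this
    have hdvd : 9 ∣ Nat.card W := by
      rw [Nat.card_congr (MulAction.selfEquivOrbitsQuotientProd hfree), Nat.card_prod]
      have hZ : Nat.card Z = 9 := by rw [Nat.card_zpowers, ho]
      rw [hZ]; exact dvd_mul_left 9 _
    have hW : Nat.card W + 1 = Nat.card (LinearMap.ker f) := by
      classical
      haveI := Fintype.ofFinite (LinearMap.ker f)
      have e : W ≃ {w : LinearMap.ker f // w ≠ 0} :=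
        { toFun := fun w => ⟨⟨w.1, w.2.1⟩, fun h => w.2.2 (congrArg Subtype.val h)⟩
          invFun := fun w => ⟨w.1.1, w.1.2, fun h => w.2 (Subtype.ext h)⟩
          left_inv := fun w => rfl
          right_inv := fun w => rfl }
      rw [Nat.card_congr e, Nat.card_eq_fintype_card, Nat.card_eq_fintype_card, Fintype.card_subtype_compl,
        Fintype.card_subtype_eq]
      have : 0 < Fintype.card (LinearMap.ker f) := Fintype.card_pos
      omega
    haveI : Fact (Nat.Prime 2) := ⟨Nat.prime_two⟩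
    have hc := Module.natCard_eq_pow_finrank (K := ZMod 2) (V := LinearMap.ker f)
    rw [Nat.card_zmod] at hc
    have hk : Module.finrank (ZMod 2) (LinearMap.ker f) ≤ 5 := by
      have := Submodule.finrank_le (LinearMap.ker f); simpa using this
    rw [hc] at hW
    rw [← Submodule.finrank_eq_zero (R := ZMod 2)]
    interval_cases h : Module.finrank (ZMod 2) (LinearMap.ker f) <;> omega
  have hA3 : A ^ 3 = 1 := by
    rw [← sub_eq_zero]
    apply LinearMap.ext; intro v
    have := LinearMap.congr_fun hprod v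
    rw [Module.End.mul_apply, LinearMap.zero_apply] at this
    rw [LinearMap.zero_apply]
    exact (LinearMap.ker_eq_bot'.1 hinj) _ this
  apply h3
  have : ρ (y ^ 3) = ρ 1 := by rw [← hA, hA3, map_one]
  exact Units.ext (Matrix.toLinAlgEquiv'.injective this)

lemma no_nine {H : Subgroup (GL (Fin 5) (ZMod 2))} {K : Subgroup H} [K.Normal] (x : H ⧸ K) : orderOf x ≠ 9 := by
  intro hx
  induction x using QuotientGroup.induction_on with
  | H g =>
    obtain ⟨k, hk⟩ : 9 ∣ orderOf (g : GL (Fin 5) (ZMod 2)) := by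
      rw [← hx, Subgroup.orderOf_coe]; exact orderOf_map_dvd (QuotientGroup.mk' K) g
    have hkpos : 0 < k := by
      rcases Nat.eq_zero_or_pos k with h | h
      · exact absurd (hk.trans (by rw [h])) (orderOf_pos _).ne'
      · exact h
    have h9 : ((g : GL (Fin 5) (ZMod 2)) ^ k) ^ 9 = 1 := by
      rw [← pow_mul, mul_comm, ← hk, pow_orderOf_eq_one]
    have h3 := exp_three _ h9
    rw [← pow_mul] at h3
    have := Nat.le_of_dvd (by omega) (orderOf_dvd_of_pow_eq_one h3)
    omega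

lemma card_GL5 : Nat.card (GL (Fin 5) (ZMod 2)) = 9999360 := by
  haveI : Fact (Nat.Prime 2) := ⟨Nat.prime_two⟩
  rw [Matrix.card_GL_field, Fin.prod_univ_five, ZMod.card]
  rfl

lemma pow_dvd_bound {a : ℕ} (h : 2 ^ a ∣ 29998080) : a ≤ 10 := by
  by_contra hlt
  have : 2 ^ 11 ∣ 29998080 := dvd_trans (pow_dvd_pow 2 (by omega)) h
  omega

/-- an element of order nine in `PSL₂(8)` -/
lemma exists_nine {F : Type} [Field F] [Fintype F] (hF : Fintype.card F = 8) :
    ∃ x : Matrix.ProjectiveSpecialLinearGroup (Fin 2) F, orderOf x = 9 := by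
  classical
  haveI : Fact (Nat.Prime 2) := ⟨Nat.prime_two⟩
  haveI : CharP F 2 := by
    obtain ⟨p, hp⟩ := CharP.exists F
    obtain ⟨n, hpr, hcard⟩ := FiniteField.card F p
    rw [hF] at hcard
    have h8 : p ∣ 2 ^ 3 := ⟨p ^ ((n : ℕ) - 1), by rw [show 2 ^ 3 = 8 from rfl, hcard, ← pow_succ', Nat.sub_add_cancel n.pos]⟩
    have : p = 2 := (Nat.prime_dvd_prime_iff_eq hpr Nat.prime_two).1 (hpr.dvd_of_dvd_pow h8)
    rwa [this] at hp
  have h2 : (2 : F) = 0 := CharTwo.two_eq_zero
  obtain ⟨x, hx0, hx1⟩ : ∃ x : F, x ≠ 0 ∧ x ≠ 1 := by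
    by_contra h
    push Not at h
    have : (Finset.univ : Finset F) ⊆ {0, 1} := fun x _ => by
      by_cases h0 : x = 0
      · simp [h0]
      · simp [h x h0]
    have := (Finset.card_le_card this).trans Finset.card_le_two
    rw [Finset.card_univ, hF] at this
    omega
  have hx7 : x ^ 7 = 1 := by have := FiniteField.pow_card_sub_one_eq_one x hx0; rwa [hF] at this
  obtain ⟨t, ht⟩ : ∃ t : F, t ^ 3 + t + 1 = 0 := by
    have hfac : (x - 1) * ((x ^ 3 + x + 1) * (x ^ 3 + x ^ 2 + 1)) = 0 := by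
      linear_combination hx7 + (x ^ 4 - x ^ 3) * h2
    rcases mul_eq_zero.1 ((mul_eq_zero.1 hfac).resolve_left (sub_ne_zero.2 hx1)) with h | h
    · exact ⟨x, h⟩
    · refine ⟨x⁻¹, ?_⟩
      field_simp
      linear_combination h
  let M : Matrix.SpecialLinearGroup (Fin 2) F := ⟨!![0, 1; 1, t], by
    rw [Matrix.det_fin_two_of]; linear_combination (-1 : F) * h2⟩
  have h3 : (M ^ 3).1 = !![t, 1 + t ^ 2; 1 + t ^ 2, t + (t + t ^ 3)] := by
    rw [pow_succ, pow_two, Matrix.SpecialLinearGroup.coe_mul, Matrix.SpecialLinearGroup.coe_mul]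
    show !![0, 1; 1, t] * !![0, 1; 1, t] * !![0, 1; 1, t] = _
    rw [Matrix.mul_fin_two, Matrix.mul_fin_two]
    ext i j; fin_cases i <;> fin_cases j <;> simp <;> ring
  have h9 : M ^ 9 = 1 := by
    apply Subtype.ext
    rw [show (9 : ℕ) = 3 + 3 + 3 from rfl, pow_add, pow_add, Matrix.SpecialLinearGroup.coe_mul,
      Matrix.SpecialLinearGroup.coe_mul, h3, Matrix.SpecialLinearGroup.coe_one, Matrix.one_fin_two,
      Matrix.mul_fin_two, Matrix.mul_fin_two]
    have ht' : t ^ 3 = t + 1 := by linear_combination ht - (t + 1) * h2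
    ext i j; fin_cases i <;> fin_cases j <;> simp <;> grind
  refine ⟨QuotientGroup.mk M, ?_⟩
  have := orderOf_eq_prime_pow (p := 3) (n := 1) (x := (QuotientGroup.mk M : Matrix.ProjectiveSpecialLinearGroup (Fin 2) F))
    (hp := ⟨Nat.prime_three⟩) ?_ ?_
  · simpa using this
  · rw [pow_one, ← QuotientGroup.mk_pow, QuotientGroup.eq_one_iff]
    intro hc
    obtain ⟨r, -, hr⟩ := Matrix.SpecialLinearGroup.mem_center_iff.1 hc
    have h01 := congrFun (congrFun hr 0) 1
    rw [h3] at h01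
    simp at h01
    have ht1 : t = 1 := by
      have : (t - 1) ^ 2 = 0 := by linear_combination -h01 + (-t) * h2
      exact sub_eq_zero.1 (sq_eq_zero_iff.1 this)
    rw [ht1] at ht
    exact one_ne_zero (show (1 : F) = 0 by linear_combination ht - h2)
  · rw [show 3 ^ (1 + 1) = 9 from rfl, ← QuotientGroup.mk_pow, h9, QuotientGroup.mk_one]


/-- Let X be a section of the general linear group GL(5, 2), that is, a quotient of a subgroup of it. If X is isomorphic to PSL(2, 2^n) for some n ≥ 2, to a Suzuki group over the field with 2^(2m+1) elements for some m ≥ 1, or to PSU(3, 2^n) for some n ≥ 2, then X is isomorphic to PSL(2, 4). -/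
theorem result {H : Subgroup (GL (Fin 5) (ZMod 2))}
    {K : Subgroup ↥H} [K.Normal]
    (hX : (∃ (n : ℕ) (F : Type) (_ : Field F) (_ : Fintype F), 2 ≤ n ∧ Fintype.card F = 2 ^ n ∧
        Nonempty (↥H ⧸ K ≃* Matrix.ProjectiveSpecialLinearGroup (Fin 2) F)) ∨
      (∃ (m : ℕ) (F : Type) (_ : Field F) (_ : Fintype F), 1 ≤ m ∧ Fintype.card F = 2 ^ (2 * m + 1) ∧
        Nonempty (↥H ⧸ K ≃* ↥(Cfsg.Lie.Sz F (2 ^ (m + 1))))) ∨
      (∃ (n : ℕ) (F : Type) (_ : Field F) (_ : Fintype F), 2 ≤ n ∧ Fintype.card F = 4 ^ n ∧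
        Nonempty (↥H ⧸ K ≃* Cfsg.PSU 3 F (2 ^ n)))) :
    ∃ (F : Type) (_ : Field F) (_ : Fintype F), Fintype.card F = 4 ∧
      Nonempty (↥H ⧸ K ≃* Matrix.ProjectiveSpecialLinearGroup (Fin 2) F) := by
  have hdvd : Nat.card (H ⧸ K) ∣ 9999360 := by
    rw [← card_GL5]
    exact (Subgroup.card_quotient_dvd_card K).trans (Subgroup.card_subgroup_dvd_card H)
  rcases hX with ⟨n, F, iF, iFF, hn, hF, ⟨e⟩⟩ | ⟨m, F, iF, iFF, hm, hF, ⟨e⟩⟩ | ⟨n, F, iF, iFF, hn, hF, ⟨e⟩⟩
  · have hsl := CfsgLib.Linear.Card.card_SL (F := F) 2 (by norm_num)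
    have hp := CfsgLib.Linear.Card.card_PSL_mul (F := F) (ι := Fin 2)
    rw [hF, Fin.prod_univ_two] at hsl
    rw [Fintype.card_fin, hF] at hp
    have hodd : Nat.gcd 2 (2 ^ n - 1) = 1 := by
      refine (Nat.coprime_primes Nat.prime_two Nat.prime_three).2 (by norm_num) |> fun _ => ?_
      have he : Even (2 ^ n) := (Nat.even_pow' (by omega)).2 even_two
      have h1 : 1 ≤ 2 ^ n := Nat.one_le_two_pow
      exact (Nat.prime_two.coprime_iff_not_dvd).2 (by rw [even_iff_two_dvd] at he; omega)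
    rw [hodd, one_mul, ← Nat.card_congr e.toEquiv] at hp
    rw [← hp] at hsl
    have h2n : 2 ^ n ∣ Nat.card (H ⧸ K) := by
      have hcp : Nat.Coprime (2 ^ n) (2 ^ n - 1) := by
        apply Nat.Coprime.pow_left
        exact hodd
      refine hcp.dvd_of_dvd_mul_left ?_
      rw [hsl]
      exact Dvd.dvd.mul_left (by
        simp only [Fin.val_one, pow_one]
        rw [show (2 ^ n) ^ 2 - 2 ^ n = 2 ^ n * (2 ^ n - 1) by rw [Nat.mul_sub, mul_one, sq]]
        exact dvd_mul_right _ _) _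
    have hn10 : n ≤ 10 := pow_dvd_bound ((h2n.trans hdvd).trans (by norm_num))
    have hn3 : n ≠ 3 := by
      rintro rfl
      obtain ⟨x, hx⟩ := exists_nine hF
      exact no_nine (e.symm x) (by rw [MulEquiv.orderOf_eq, hx])
    refine ⟨F, iF, iFF, ?_, ⟨e⟩⟩
    have hdv3 := Nat.mul_dvd_mul_left (2 ^ n - 1) hdvd
    rw [hsl] at hdv3
    simp only [Fin.val_zero, Fin.val_one, pow_zero, pow_one] at hdv3
    interval_cases n <;> first | exact hF | exact absurd rfl hn3 | (norm_num at hdv3)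
  · have h := (Cfsg.Agent.S1163.result hm hF).1
    rw [← Nat.card_congr e.toEquiv] at h
    rw [h] at hdvd
    have h2 : 2 ^ ((2 * m + 1) * 2) ∣ 29998080 := by
      rw [pow_mul]; exact dvd_trans (Dvd.intro _ (mul_assoc _ _ _).symm) (hdvd.trans (by norm_num))
    have := pow_dvd_bound h2
    obtain rfl | rfl : m = 1 ∨ m = 2 := by omega
    · norm_num at hdvd
    · norm_num at hdvd
  · have h := Cfsg.Agent.S0280.result (F := F) (q := 2 ^ n) (by rw [hF, show (4 : ℕ) = 2 ^ 2 from rfl, ← pow_mul, ← pow_mul, mul_comm]) 3 (by norm_num)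
    rw [← Nat.card_congr e.toEquiv] at h
    simp only [Finset.prod_range_succ, Finset.prod_range_zero, one_mul] at h
    norm_num at h
    have hgd : Nat.gcd 3 (2 ^ n + 1) ∣ 3 := Nat.gcd_dvd_left _ _
    have hdv2 : Nat.gcd 3 (2 ^ n + 1) * ((2 ^ n + 1) * Nat.card (H ⧸ K)) ∣ 3 * ((2 ^ n + 1) * 9999360) :=
      Nat.mul_dvd_mul hgd (Nat.mul_dvd_mul_left _ hdvd)
    have hcp : Nat.Coprime ((2 ^ n) ^ 3) (2 ^ n + 1) := by
      apply Nat.Coprime.pow_left
      rw [Nat.coprime_self_add_right]; exact Nat.coprime_one_right _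
    have h2 : 2 ^ (n * 3) ∣ 29998080 := by
      rw [pow_mul]
      refine hcp.dvd_of_dvd_mul_left (dvd_trans ?_ (dvd_trans hdv2 (Dvd.intro 1 (by ring))))
      rw [h]; exact dvd_mul_right _ _
    have := pow_dvd_bound h2
    rw [h] at hdv2
    obtain rfl | rfl : n = 2 ∨ n = 3 := by omega
    · norm_num [Nat.even_iff] at hdv2
    · norm_num [Nat.even_iff] at hdv2

end Cfsg.Agent.S3179
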