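import Cfsg.Statements.S3180
import Mathlib.GroupTheory.Sylow

set_option autoImplicit false
open Cfsg

namespace Cfsg.Agent.S3180

/-- Let P be a Sylow p-subgroup of a finite group J and P₁ a subgroup of P that is weakly closed in P with respect to J. If J acts on a set and two points, each fixed by every element of P₁, lie in one J-orbit, then they lie in one orbit of the normalizer of P₁ in J. -/
theorem result {J : Type*} [Group J] [Finite J]
    {p : ℕ} [Fact p.Prime] (P : Sylow p J) (P₁ : Subgroup J) (hW : Cfsg.IsWeaklyClosed P₁ (P : Subgroup J))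
    {Ω : Type*} [MulAction J Ω] (x y : Ω) (hx : ∀ g ∈ P₁, g • x = x) (hy : ∀ g ∈ P₁, g • y = y)
    (hc : ∃ g : J, g • x = y) :
    ∃ g ∈ Subgroup.normalizer (P₁ : Set J), g • x = y := by
  obtain ⟨g, hg⟩ := hc
  set C := MulAction.stabilizer J y
  have hWp : IsPGroup p P₁ := P.isPGroup'.to_le hW.1
  have h1 : P₁ ≤ C := hy
  have h2 : P₁.map (MulAut.conj g).toMonoidHom ≤ C := by
    rintro _ ⟨w, hw, rfl⟩
    show (g * w * g⁻¹) • y = y
    rw [mul_smul, mul_smul, inv_smul_eq_iff.2 hg.symm, hx w hw, hg]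
  obtain ⟨Q₁, hQ₁⟩ := (hWp.comap_subtype (K := C)).exists_le_sylow
  obtain ⟨Q₂, hQ₂⟩ := ((hWp.map (MulAut.conj g).toMonoidHom).comap_subtype (K := C)).exists_le_sylow
  obtain ⟨c, hc⟩ := MulAction.exists_smul_eq C Q₂ Q₁
  obtain ⟨R, hR⟩ := (Q₁.isPGroup'.map C.subtype).exists_le_sylow
  have hWR : P₁ ≤ (R : Subgroup J) := fun w hw => hR ⟨⟨w, h1 hw⟩, hQ₁ hw, rfl⟩
  have hW''R : P₁.map (MulAut.conj ((c : J) * g)).toMonoidHom ≤ (R : Subgroup J) := by
    rintro _ ⟨w, hw, rfl⟩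
    refine hR ⟨c * ⟨g * w * g⁻¹, h2 ⟨w, hw, rfl⟩⟩ * c⁻¹, ?_, by simp [mul_assoc]⟩
    rw [SetLike.mem_coe, ← hc]
    exact Subgroup.smul_mem_pointwise_smul _ (MulAut.conj c) _ (hQ₂ ⟨w, hw, rfl⟩)
  obtain ⟨k, hk⟩ := MulAction.exists_smul_eq J R P
  have key : ∀ a : J, P₁.map (MulAut.conj a).toMonoidHom ≤ (R : Subgroup J) →
      P₁.map (MulAut.conj (k * a)).toMonoidHom = P₁ := fun a ha => by
    apply hW.2
    rw [show (MulAut.conj (k * a)).toMonoidHom =
      (MulAut.conj k).toMonoidHom.comp (MulAut.conj a).toMonoidHom from by ext; simp [mul_assoc],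
      ← Subgroup.map_map, ← hk]
    exact Subgroup.map_mono ha
  have e1 := key _ hW''R
  have e2 := key 1 (by rintro _ ⟨v, hv, rfl⟩; simpa using hWR hv)
  rw [mul_one] at e2
  refine ⟨(c : J) * g, Subgroup.mem_normalizer_iff_map_conj_eq.mpr ?_, ?_⟩
  · apply Subgroup.map_injective (f := (MulAut.conj k).toMonoidHom) (MulAut.conj k).injective
    show _ = Subgroup.map (MulAut.conj k).toMonoidHom P₁
    rw [e2, Subgroup.map_map]
    convert e1 using 2
    ext; simp [mul_assoc]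
  · rw [mul_smul, hg]; exact c.2

end Cfsg.Agent.S3180
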