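import Cfsg.Statements.S3183
import Cfsg.Agent.Lib.LocalBasic

set_option autoImplicit false
set_option linter.style.haveILetI false
open Cfsg

namespace Cfsg.Agent.S3183

/-- Let G be a finite group in which the intersection of any two distinct Sylow 2-subgroups is contained in the centre of some Sylow 2-subgroup, and let S be a Sylow 2-subgroup. Then for every x in S the centralizer of x in S is a Sylow 2-subgroup of the centralizer of x in G (no 2-subgroup centralizing x is larger), and for every other Sylow 2-subgroup T the intersection S ∩ T lies in both the centre of S and the centre of T. -/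
theorem result {G : Type*} [Group G] [Finite G]
    (hCI : ∀ S T : Sylow 2 G, S ≠ T → ∃ U : Sylow 2 G,
      (S : Subgroup G) ⊓ (T : Subgroup G) ≤ (Subgroup.center ↥(U : Subgroup G)).map (U : Subgroup G).subtype)
    (S : Sylow 2 G) :
    (∀ x ∈ (S : Subgroup G), ∀ P : Subgroup G, IsPGroup 2 ↥P → P ≤ Subgroup.centralizer ({x} : Set G) →
        Nat.card ↥P ≤ Nat.card ↥((S : Subgroup G) ⊓ Subgroup.centralizer ({x} : Set G))) ∧
    (∀ T : Sylow 2 G, T ≠ S →
        (S : Subgroup G) ⊓ (T : Subgroup G) ≤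
          (Subgroup.center ↥(S : Subgroup G)).map (S : Subgroup G).subtype ⊓
            (Subgroup.center ↥(T : Subgroup G)).map (T : Subgroup G).subtype) := by
  haveI := Fact.mk Nat.prime_two
  have hZc : ∀ U : Sylow 2 G, ∀ a ∈ (Subgroup.center ↥(U : Subgroup G)).map (U : Subgroup G).subtype,
      a ∈ (U : Subgroup G) ∧ ∀ u ∈ (U : Subgroup G), u * a = a * u := by
    rintro U _ ⟨⟨a, ha⟩, hc, rfl⟩
    exact ⟨ha, fun u hu => congrArg Subtype.val (Subgroup.mem_center_iff.mp hc ⟨u, hu⟩)⟩
  have part1 : ∀ (S : Sylow 2 G), ∀ x ∈ (S : Subgroup G), ∀ P : Subgroup G, IsPGroup 2 ↥P →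
      P ≤ Subgroup.centralizer ({x} : Set G) →
      Nat.card ↥P ≤ Nat.card ↥((S : Subgroup G) ⊓ Subgroup.centralizer ({x} : Set G)) := by
    intro S x hxS P hP hPC
    set C := Subgroup.centralizer ({x} : Set G) with hCdef
    set D0 := (S : Subgroup G) ⊓ C with hD0
    have hD0p : IsPGroup 2 ↥D0 := S.isPGroup'.to_le inf_le_left
    obtain ⟨Q, hQ⟩ := (hD0p.comap_subtype (H := D0) (K := C)).exists_le_sylow
    obtain ⟨P', hP'⟩ := (hP.comap_subtype (H := P) (K := C)).exists_le_sylow
    have hPQ : Nat.card ↥P ≤ Nat.card ↥(Q : Subgroup ↥C) := by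
      rw [Q.card_eq_multiplicity, ← P'.card_eq_multiplicity,
        ← Nat.card_congr (Subgroup.subgroupOfEquivOfLe hPC).toEquiv]
      exact Subgroup.card_le_of_le hP'
    refine hPQ.trans ?_
    set Q' := (Q : Subgroup ↥C).map C.subtype with hQ'
    rw [← Subgroup.card_map_of_injective (K := (Q : Subgroup ↥C)) C.subtype_injective]
    have hD0Q : D0 ≤ Q' := fun d hd => ⟨⟨d, hd.2⟩, hQ (by simpa [Subgroup.mem_subgroupOf] using hd), rfl⟩
    have hQ'C : Q' ≤ C := Subgroup.map_subtype_le _
    obtain ⟨T, hT⟩ := (Q.isPGroup'.map C.subtype).exists_le_sylow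
    by_cases hTS : T = S
    · subst hTS
      exact Subgroup.card_le_of_le (le_inf hT hQ'C)
    exfalso
    obtain ⟨U, hU⟩ := hCI S T (Ne.symm hTS)
    have hxD0 : x ∈ D0 := ⟨hxS, Subgroup.mem_centralizer_singleton_iff.mpr rfl⟩
    set D := (S : Subgroup G) ⊓ (T : Subgroup G) with hD
    have hD0D : D0 ≤ D := le_inf inf_le_left (hD0Q.trans hT)
    have hDD0 : D ≤ D0 := fun d hd => ⟨hd.1, Subgroup.mem_centralizer_singleton_iff.mpr
      (((hZc U x (hU (hD0D hxD0))).2 d ((hZc U d (hU hd)).1)))⟩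
    have hUC : (U : Subgroup G) ≤ Subgroup.centralizer (D : Set G) := fun u hu =>
      Subgroup.mem_centralizer_iff.mpr fun d hd => ((hZc U d (hU hd)).2 u hu).symm
    have hCN : Subgroup.centralizer (D : Set G) ≤ Subgroup.normalizer (D : Set G) :=
      Subgroup.centralizer_le_normalizer _
    have hDS : D = (S : Subgroup G) := by
      refine CfsgLib.LocalBasic.eq_of_normalizer_inf_le S.isPGroup' inf_le_left ?_
      intro r hr
      obtain ⟨m, hm, hm'⟩ := CfsgLib.LocalBasic.exists_conj_le_sylow U (hUC.trans hCN)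
        (S.isPGroup'.to_le (inf_le_left : (S : Subgroup G) ⊓ Subgroup.normalizer (D : Set G) ≤ S)) inf_le_right
      have hmr := Subgroup.mem_centralizer_iff.mp (hUC (hm' r hr))
      refine hD0D ⟨hr.1, Subgroup.mem_centralizer_singleton_iff.mpr ?_⟩
      have h1 := hmr (m * x * m⁻¹) ((Subgroup.mem_normalizer_iff.mp hm x).mp (hD0D hxD0))
      have e1 : m * x * m⁻¹ * (m * r * m⁻¹) = m * (x * r) * m⁻¹ := by group
      have e2 : m * r * m⁻¹ * (m * x * m⁻¹) = m * (r * x) * m⁻¹ := by group
      rw [e1, e2] at h1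
      exact (mul_left_cancel (mul_right_cancel h1)).symm
    exact hTS (Sylow.ext (S.is_maximal' T.isPGroup' (inf_eq_left.mp hDS)))
  refine ⟨part1 S, fun T hT => ?_⟩
  have part2 : ∀ S T : Sylow 2 G, S ≠ T → (S : Subgroup G) ⊓ (T : Subgroup G) ≤
      (Subgroup.center ↥(S : Subgroup G)).map (S : Subgroup G).subtype := by
    intro S T hne d hd
    obtain ⟨U, hU⟩ := hCI S T hne
    have hUC : (U : Subgroup G) ≤ Subgroup.centralizer ({d} : Set G) := fun u hu =>
      Subgroup.mem_centralizer_singleton_iff.mpr ((hZc U d (hU hd)).2 u hu)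
    have h1 := part1 S d hd.1 U U.isPGroup' hUC
    have h2 : (S : Subgroup G) ⊓ Subgroup.centralizer ({d} : Set G) = S :=
      Subgroup.eq_of_le_of_card_ge inf_le_left (le_trans (by
        rw [S.card_eq_multiplicity, ← U.card_eq_multiplicity]) h1)
    refine ⟨⟨d, hd.1⟩, Subgroup.mem_center_iff.mpr fun s => Subtype.ext ?_, rfl⟩
    exact Subgroup.mem_centralizer_singleton_iff.mp ((inf_eq_left.mp h2) s.2)
  exact le_inf (part2 S T hT.symm) (inf_comm (S : Subgroup G) T ▸ part2 T S hT)

end Cfsg.Agent.S3183
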