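import Cfsg.Statements.S3184
import Cfsg.Agent.Lib.ZStar.Main
import Mathlib.GroupTheory.Nilpotent
import Cfsg.Agent.Lib.UniqueOrderP

set_option autoImplicit false
open Cfsg

namespace Cfsg.Agent.S3184

/-- Let G be a finite group in which the intersection of any two distinct Sylow 2-subgroups is contained in the centre of some Sylow 2-subgroup, and let S be a Sylow 2-subgroup. If C is a nontrivial cyclic characteristic subgroup of S, then the involution of C is central modulo the largest normal subgroup of odd order of G: each of its conjugates has the same image in G/O(G). -/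
theorem result {G : Type*} [Group G] [Finite G]
    (hCI : ∀ S T : Sylow 2 G, S ≠ T → ∃ U : Sylow 2 G,
      (S : Subgroup G) ⊓ (T : Subgroup G) ≤ (Subgroup.center ↥(U : Subgroup G)).map (U : Subgroup G).subtype)
    (S : Sylow 2 G) (C : Subgroup ↥(S : Subgroup G)) (hC : C ≠ ⊥) (hCc : IsCyclic ↥C) (hCh : C.Characteristic)
    (c : ↥(S : Subgroup G)) (hc : c ∈ C) (hc2 : orderOf c = 2) :
    ∀ g : G, (QuotientGroup.mk (s := Cfsg.oddCore G) (g * (c : G) * g⁻¹)) =
      QuotientGroup.mk (s := Cfsg.oddCore G) (c : G) := by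
  haveI : Fact (Nat.Prime 2) := ⟨Nat.prime_two⟩
  haveI := hCc
  -- the involution is fixed by all automorphisms
  have hfix : ∀ φ : MulAut (S : Subgroup G), φ c = c := by
    intro φ
    have h1 : φ c ∈ C := by
      have := Subgroup.characteristic_iff_map_eq.mp hCh φ
      exact this ▸ ⟨c, hc, rfl⟩
    have h2 : orderOf (φ c) = 2 := by rw [MulEquiv.orderOf_eq]; exact hc2
    exact congrArg Subtype.val (CfsgLib.TwoSylow.involution_unique (C := C) (a := ⟨φ c, h1⟩)
      (b := ⟨c, hc⟩) (by rw [← Subgroup.orderOf_coe]; exact h2)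
      (by rw [← Subgroup.orderOf_coe]; exact hc2))
  have hcen : ∀ s : G, s ∈ S → s * (c : G) = (c : G) * s := fun s hs => by
    have h := congrArg Subtype.val (hfix (MulAut.conj ⟨s, hs⟩))
    simp only [MulAut.conj_apply, Subgroup.coe_mul, InvMemClass.coe_inv] at h
    exact mul_inv_eq_iff_eq_mul.mp h
  have hiso : Cfsg.IsIsolatedInvolution (c : G) := by
    refine CfsgLib.Isolated.isIsolated_of_sylow (S := S) (by rw [Subgroup.orderOf_coe]; exact hc2)
      fun g hgS => ?_
    set d : G := g * (c : G) * g⁻¹ with hd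
    set A : Subgroup G := (S : Subgroup G) ⊓ Subgroup.centralizer ({d} : Set G)
    have hAS : A ≤ (S : Subgroup G) := inf_le_left
    -- `d` is central in `S`
    have hdS : ∀ s : G, s ∈ S → s * d = d * s := by
      by_contra hcon
      have hne : A ≠ (S : Subgroup G) := fun h => hcon fun s hs =>
        Subgroup.mem_centralizer_singleton_iff.mp (h.ge hs).2
      have hAC : ((A.subgroupOf (Subgroup.centralizer ({d} : Set G)))).map
          (Subgroup.centralizer ({d} : Set G)).subtype = A :=
        Subgroup.map_subgroupOf_eq_of_le inf_le_right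
      obtain ⟨T0, hT0⟩ := ((S.2.to_le hAS).comap_subtype
        (K := Subgroup.centralizer ({d} : Set G))).exists_le_sylow
      obtain ⟨T, hT⟩ := (T0.2.map (Subgroup.centralizer ({d} : Set G)).subtype).exists_le_sylow
      -- `T` centralises `d`
      have hTd : (T : Subgroup G) ≤ Subgroup.centralizer ({d} : Set G) := by
        have hgS' : ((g • S : Sylow 2 G) : Subgroup G) ≤ Subgroup.centralizer ({d} : Set G) := by
          intro w hw
          rw [Sylow.coe_subgroup_smul, Subgroup.mem_pointwise_smul_iff_inv_smul_mem] at hw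
          have hw' : g⁻¹ * w * g ∈ (S : Subgroup G) := by simpa using hw
          rw [Subgroup.mem_centralizer_singleton_iff, hd]
          calc w * (g * (c : G) * g⁻¹) = g * ((g⁻¹ * w * g) * (c : G)) * g⁻¹ := by group
            _ = g * ((c : G) * (g⁻¹ * w * g)) * g⁻¹ := by rw [hcen _ hw']
            _ = g * (c : G) * g⁻¹ * w := by group
        have h1 : Nat.card ((T0 : Subgroup _).map (Subgroup.centralizer ({d} : Set G)).subtype) =
            Nat.card (T : Subgroup G) := by
          rw [Subgroup.card_map_of_injective (Subgroup.subtype_injective _),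
            Nat.card_congr (Sylow.equiv T0 ((g • S).subtype hgS')).toEquiv,
            Nat.card_congr (Sylow.equiv T (g • S)).toEquiv]
          exact Nat.card_congr (Subgroup.subgroupOfEquivOfLe hgS').toEquiv
        rw [← Subgroup.eq_of_le_of_card_ge hT h1.ge]
        exact Subgroup.map_subtype_le _
      have hne' : S ≠ T := fun h => hne (le_antisymm hAS (le_inf le_rfl (h ▸ hTd)))
      obtain ⟨U, hU⟩ := hCI S T hne'
      have hAT : A ≤ (T : Subgroup G) := hAC ▸ (Subgroup.map_mono hT0).trans hT
      have hAU : ∀ u : G, u ∈ U → ∀ a ∈ A, u * a = a * u := by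
        intro u hu a ha
        obtain ⟨z, hz, hza⟩ := hU ⟨hAS ha, hAT ha⟩
        rw [← hza]
        exact congrArg Subtype.val (Subgroup.mem_center_iff.mp hz ⟨u, hu⟩)
      have hUC : (U : Subgroup G) ≤ Subgroup.centralizer (A : Set G) := fun u hu a ha =>
        (hAU u hu a ha).symm
      have hCN := Subgroup.centralizer_le_normalizer (A : Set G)
      haveI : ((Subgroup.centralizer (A : Set G)).subgroupOf
          (Subgroup.normalizer (A : Set G))).Normal := by
        refine ⟨fun w hw k => ?_⟩
        intro a ha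
        have hk := Subgroup.mem_normalizer_iff.mp k.2
        have ha' : (k : G)⁻¹ * a * (k : G) ∈ A := (hk _).mpr (by
          rw [show (k : G) * ((k : G)⁻¹ * a * (k : G)) * (k : G)⁻¹ = a by group]; exact ha)
        have h := hw _ ha'
        simp only [Subgroup.subtype_apply, Subgroup.coe_mul, InvMemClass.coe_inv] at h ⊢
        calc a * ((k : G) * w * (k : G)⁻¹)
            = (k : G) * (((k : G)⁻¹ * a * (k : G)) * w) * (k : G)⁻¹ := by group
          _ = (k : G) * ((w : G) * ((k : G)⁻¹ * a * (k : G))) * (k : G)⁻¹ := by rw [h]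
          _ = (k : G) * w * (k : G)⁻¹ * a := by group
      -- 2-elements normalising `A` centralise it
      have hnc : ∀ v : G, v ∈ S → v ∈ Subgroup.normalizer (A : Set G) → v ∈ A := by
        intro v hvS hvN
        set UN := U.subtype (hUC.trans hCN)
        obtain ⟨R, hR⟩ := (IsPGroup.comap_subtype (K := Subgroup.normalizer (A : Set G))
          (S.2.to_le (inf_le_left :
            (S : Subgroup G) ⊓ Subgroup.normalizer (A : Set G) ≤ S))).exists_le_sylow
        obtain ⟨k, hk⟩ := MulAction.exists_smul_eq (Subgroup.normalizer (A : Set G)) UN R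
        have h1 : (⟨v, hvN⟩ : Subgroup.normalizer (A : Set G)) ∈ (R : Subgroup _) :=
          hR (show v ∈ (S : Subgroup G) ⊓ Subgroup.normalizer (A : Set G) from ⟨hvS, hvN⟩)
        rw [← hk, Sylow.coe_subgroup_smul, Subgroup.mem_pointwise_smul_iff_inv_smul_mem] at h1
        have h2 : k⁻¹ * ⟨v, hvN⟩ * k ∈ (UN : Subgroup (Subgroup.normalizer (A : Set G))) := by
          simpa using h1
        have h3 : k⁻¹ * ⟨v, hvN⟩ * k ∈ (Subgroup.centralizer (A : Set G)).subgroupOf
            (Subgroup.normalizer (A : Set G)) := hUC h2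
        have h4 := Subgroup.Normal.conj_mem inferInstance _ h3 k
        rw [show k * (k⁻¹ * (⟨v, hvN⟩ : Subgroup.normalizer (A : Set G)) * k) * k⁻¹ = ⟨v, hvN⟩
          by group] at h4
        refine ⟨hvS, Subgroup.mem_centralizer_singleton_iff.mpr ?_⟩
        have hdA : d ∈ A := ⟨hgS, Subgroup.mem_centralizer_singleton_iff.mpr rfl⟩
        exact (h4 d hdA).symm
      -- nilpotency
      haveI : Group.IsNilpotent (S : Subgroup G) := S.2.isNilpotent
      have hlt : A.subgroupOf (S : Subgroup G) < ⊤ := lt_top_iff_ne_top.mpr fun h =>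
        hne (le_antisymm hAS (Subgroup.subgroupOf_eq_top.mp h))
      have := Group.normalizerCondition_of_isNilpotent (A.subgroupOf (S : Subgroup G)) hlt
      obtain ⟨v, hv, hv'⟩ := SetLike.exists_of_lt this
      refine hv' (hnc v v.2 ?_)
      rw [Subgroup.mem_normalizer_iff] at hv ⊢
      intro w
      refine ⟨fun hw => (hv ⟨w, hAS hw⟩).mp hw, fun hw => ?_⟩
      have hwS : w ∈ (S : Subgroup G) := by
        have := mul_mem (mul_mem (inv_mem v.2) (hAS hw)) v.2
        simpa [mul_assoc] using this
      exact (hv ⟨w, hwS⟩).mpr hw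
    obtain ⟨m, hm, he⟩ := Sylow.conj_eq_normalizer_conj_of_mem_centralizer S (c : G) g⁻¹
      (fun s hs => hcen s hs) (by rw [inv_inv]; exact fun s hs => hdS s hs)
    rw [inv_inv] at he
    rw [hd, he]
    let φ : MulAut (S : Subgroup G) := MulEquiv.ofBijective
      (⟨⟨fun s => ⟨m⁻¹ * (s : G) * m⁻¹⁻¹,
          (Subgroup.mem_normalizer_iff.mp (inv_mem hm) (s : G)).mp s.2⟩,
        Subtype.ext (by simp)⟩, fun a b => Subtype.ext (by simp; group)⟩ :
          (S : Subgroup G) →* (S : Subgroup G))
      (Finite.injective_iff_bijective.mp fun a b h => Subtype.ext (by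
        simpa using congrArg Subtype.val h))
    have := congrArg Subtype.val (hfix φ)
    simpa [φ] using this
  intro g
  rw [QuotientGroup.eq]
  have hinv : (c : G)⁻¹ = c := CfsgLib.Involution.inv_eq hiso.1
  have h := inv_mem (CfsgLib.ZStar.zstar hiso g)
  rw [show ((c : G) * g * (c : G)⁻¹ * g⁻¹)⁻¹ = (g * (c : G) * g⁻¹) * (c : G)⁻¹ by group] at h
  rw [hinv] at h
  simpa [mul_assoc, hinv] using h

end Cfsg.Agent.S3184
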