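import Cfsg.Statements.S3190
import Mathlib

set_option autoImplicit false
set_option linter.style.haveILetI false
open Cfsg

namespace Cfsg.Agent.S3190

/-- A nontrivial normal subgroup of a finite `p`-group meets the centre. -/
theorem normal_inf_center_ne_bot {p : ℕ} [Fact p.Prime] {P : Type*} [Group P] [Finite P] (hP : IsPGroup p P)
    {N : Subgroup P} (hN : N.Normal) (hNe : N ≠ ⊥) : N ⊓ Subgroup.center P ≠ ⊥ := by
  letI : MulAction P ↥N := MulAction.compHom ↥N (MulAut.conjNormal : P →* MulAut ↥N)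
  haveI : Nontrivial ↥N := (Subgroup.nontrivial_iff_ne_bot N).mpr hNe
  obtain ⟨k, hk0, hk⟩ := (hP.to_subgroup N).nontrivial_iff_card.mp inferInstance
  have h1 : (1 : ↥N) ∈ MulAction.fixedPoints P ↥N := fun g => map_one (MulAut.conjNormal (H := N) g)
  obtain ⟨z, hz, hz1⟩ := hP.exists_fixed_point_of_prime_dvd_card_of_fixed_point ↥N (hk ▸ dvd_pow_self p hk0.ne') h1
  rw [Subgroup.ne_bot_iff_exists_ne_one]
  refine ⟨⟨z, z.2, Subgroup.mem_center_iff.mpr fun g => ?_⟩, fun e => hz1 ?_⟩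
  · have h : (MulAut.conjNormal g z : P) = z := congrArg Subtype.val (hz g)
    rw [MulAut.conjNormal_apply] at h
    exact mul_inv_eq_iff_eq_mul.mp h
  · exact (Subtype.ext (congrArg (fun w : ↥(N ⊓ Subgroup.center P) => (w : P)) e) : z = 1).symm


/-- Let p be an odd prime and, inside a finite group, let P be a p-subgroup normalized by a Klein four-group T. Let R be a subgroup of P, normal in P and normalized by T, such that P is the product of R with the centralizer of T in P. If T centralizes the centre of P, then T centralizes the centre of R. -/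
theorem result {X : Type*} [Group X] [Finite X]
    {p : ℕ} (hp : p.Prime) (hodd : Odd p) (P T R : Subgroup X) (hP : IsPGroup p ↥P) (hT : IsKleinFour ↥T)
    (hTP : T ≤ Subgroup.normalizer (P : Set X)) (hRP : R ≤ P) (hRn : (R.subgroupOf P).Normal)
    (hTR : T ≤ Subgroup.normalizer (R : Set X)) (hfac : R ⊔ (P ⊓ Subgroup.centralizer (T : Set X)) = P)
    (hZ : T ≤ Subgroup.centralizer (((Subgroup.center ↥P).map P.subtype : Subgroup X) : Set X)) :
    T ≤ Subgroup.centralizer (((Subgroup.center ↥R).map R.subtype : Subgroup X) : Set X) := by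
  haveI := Fact.mk hp
  intro t ht
  rw [Subgroup.mem_centralizer_iff]
  rintro z ⟨⟨z', hzR⟩, hzc, rfl⟩
  by_contra hne
  have hTsq : t * t = 1 := by
    have := hT.exponent_two ▸ Monoid.pow_exponent_eq_one (⟨t, ht⟩ : T)
    simpa [pow_two, Subtype.ext_iff] using this
  have htinv : t⁻¹ = t := inv_eq_of_mul_eq_one_right hTsq
  set ZR : Subgroup X := (Subgroup.center ↥R).map R.subtype with hZR
  have hmemZR : ∀ a, a ∈ ZR ↔ a ∈ R ∧ ∀ r ∈ R, r * a = a * r := by
    intro a
    constructor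
    · rintro ⟨⟨a, ha⟩, hc, rfl⟩
      exact ⟨ha, fun r hr => congrArg Subtype.val (Subgroup.mem_center_iff.mp hc ⟨r, hr⟩)⟩
    · rintro ⟨ha, hc⟩
      exact ⟨⟨a, ha⟩, Subgroup.mem_center_iff.mpr fun r => Subtype.ext (hc r r.2), rfl⟩
  have hNR : ∀ g, g ∈ Subgroup.normalizer (R : Set X) → ∀ a ∈ ZR, g * a * g⁻¹ ∈ ZR := by
    intro g hg a ha
    obtain ⟨ha1, ha2⟩ := (hmemZR a).mp ha
    refine (hmemZR _).mpr ⟨(Subgroup.mem_normalizer_iff.mp hg a).mp ha1, fun r hr => ?_⟩
    have := ha2 _ ((Subgroup.mem_normalizer_iff''.mp hg r).mp hr)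
    calc r * (g * a * g⁻¹) = g * (g⁻¹ * r * g * a) * g⁻¹ := by group
      _ = g * (a * (g⁻¹ * r * g)) * g⁻¹ := by rw [this]
      _ = _ := by group
  have hcomm : ∀ a ∈ ZR, ∀ b ∈ ZR, a * b = b * a := fun a ha b hb =>
    ((hmemZR b).mp hb).2 a ((hmemZR a).mp ha).1
  let W : Subgroup X :=
    { carrier := {w | w ∈ ZR ∧ t * w * t⁻¹ = w⁻¹}
      one_mem' := ⟨ZR.one_mem, by simp⟩
      mul_mem' := fun {a b} ha hb => ⟨ZR.mul_mem ha.1 hb.1, by
        rw [← conj_mul, ha.2, hb.2, ← mul_inv_rev, hcomm a ha.1 b hb.1]⟩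
      inv_mem' := fun {a} ha => ⟨ZR.inv_mem ha.1, by rw [← conj_inv, ha.2]⟩ }
  have hWR : W ≤ R := fun w hw => ((hmemZR w).mp hw.1).1
  have hPN : P ≤ Subgroup.normalizer (W : Set X) := by
    rw [← hfac]
    refine sup_le (fun r hr => ?_) (fun c hc => ?_)
    · rw [Subgroup.mem_normalizer_iff]
      intro w
      constructor
      · intro hw
        have := ((hmemZR w).mp hw.1).2 r hr
        rwa [this, mul_inv_cancel_right]
      · intro hw
        have := ((hmemZR _).mp hw.1).2 r⁻¹ (R.inv_mem hr)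
        have e : w = r⁻¹ * (r * w * r⁻¹) * r := by group
        rw [e, this, inv_mul_cancel_right]
        exact hw
    · have hcN : c ∈ Subgroup.normalizer (R : Set X) :=
        (Subgroup.normal_subgroupOf_iff_le_normalizer hRP).mp hRn hc.1
      have hct : c * t = t * c := (Subgroup.mem_centralizer_iff.mp hc.2 t ht).symm
      have key : ∀ g, g * t = t * g → g ∈ Subgroup.normalizer (R : Set X) → ∀ w ∈ W, g * w * g⁻¹ ∈ W := by
        intro g hgt hg w hw
        refine ⟨hNR g hg w hw.1, ?_⟩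
        calc t * (g * w * g⁻¹) * t⁻¹ = (t * g) * w * (t * g)⁻¹ := by group
          _ = (g * t) * w * (g * t)⁻¹ := by rw [hgt]
          _ = g * (t * w * t⁻¹) * g⁻¹ := by group
          _ = _ := by rw [hw.2, conj_inv]
      rw [Subgroup.mem_normalizer_iff]
      intro w
      refine ⟨key c hct hcN w, fun hw => ?_⟩
      have := key c⁻¹ ((Commute.inv_left hct).eq) (inv_mem hcN) _ hw
      simpa [mul_assoc] using this
  have hWne : W ≠ ⊥ := by
    intro hW
    apply hne
    have hz : (z' : X) = z' := rfl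
    have hzZ : z' ∈ ZR := ⟨⟨z', hzR⟩, hzc, rfl⟩
    have htz : t * z' * t⁻¹ ∈ ZR := hNR t (hTR ht) z' hzZ
    have hw : z'⁻¹ * (t * z' * t⁻¹) ∈ W := by
      refine ⟨ZR.mul_mem (ZR.inv_mem hzZ) htz, ?_⟩
      rw [htinv] at htz ⊢
      calc t * (z'⁻¹ * (t * z' * t)) * t = (t * z'⁻¹ * t) * (z' * (t * t)) := by group
        _ = (t * z'⁻¹ * t) * z' := by rw [hTsq, mul_one]
        _ = _ := by
          rw [mul_inv_rev, inv_inv, mul_inv_rev, mul_inv_rev, htinv]
          group
    rw [hW, Subgroup.mem_bot, inv_mul_eq_one, eq_mul_inv_iff_mul_eq] at hw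
    exact hw
  have hPW : (W.subgroupOf P).Normal :=
    (Subgroup.normal_subgroupOf_iff_le_normalizer (hWR.trans hRP)).mpr hPN
  haveI := hPW
  haveI := hP.isNilpotent
  haveI : Nontrivial ↥(W.subgroupOf P) :=
    (Subgroup.nontrivial_iff_ne_bot _).mpr fun h => hWne (by
      rw [Subgroup.subgroupOf_eq_bot, disjoint_iff, inf_eq_left.mpr (hWR.trans hRP)] at h
      exact h)
  obtain ⟨w, ⟨hwW, hwZ⟩, hw1⟩ := (Subgroup.bot_or_exists_ne_one _).resolve_left
    (normal_inf_center_ne_bot hP hPW (Subgroup.nontrivial_iff_ne_bot _ |>.mp inferInstance))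
  have hwt := Subgroup.mem_centralizer_iff.mp (hZ ht) (w : X) ⟨w, hwZ, rfl⟩
  have hwinv := (Subgroup.mem_subgroupOf.mp hwW).2
  rw [← hwt, mul_inv_cancel_right] at hwinv
  apply hw1
  have h2 : w ^ 2 = 1 := Subtype.ext (by rw [pow_two]; exact mul_eq_one_iff_eq_inv.mpr hwinv)
  obtain ⟨k, hk⟩ := hP w
  exact orderOf_eq_one_iff.mp (Nat.eq_one_of_dvd_coprimes
    ((Nat.coprime_two_right.mpr hodd).pow_left k) (orderOf_dvd_of_pow_eq_one hk) (orderOf_dvd_of_pow_eq_one h2))

end Cfsg.Agent.S3190
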