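import Cfsg.Statements.S3195
import Cfsg.Agent.Lib.BaerSuzuki
import Cfsg.Agent.Lib.Core
import Cfsg.Agent.Lib.ModularTwoGroup
import Mathlib.Tactic

set_option autoImplicit false
open Cfsg

namespace Cfsg.Agent.S3195

/-- Let A be a Klein four-subgroup of a finite group G. If every G-conjugate of every involution of A commutes with some involution of A (its centralizer meets A nontrivially), then A meets the largest normal 2-subgroup O₂(G) nontrivially. -/
theorem result {G : Type*} [Group G] [Finite G]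
    (A : Subgroup G) (hA : IsKleinFour ↥A)
    (h : ∀ a ∈ A, a ≠ 1 → ∀ g : G, A ⊓ Subgroup.centralizer ({g * a * g⁻¹} : Set G) ≠ ⊥) :
    A ⊓ Cfsg.pCore 2 G ≠ ⊥ := by
  classical
  haveI : Fact (Nat.Prime 2) := ⟨Nat.prime_two⟩
  have h4 : Nat.card A = 4 := hA.card_four
  have hsq : ∀ a ∈ A, a * a = 1 := by
    intro a ha
    have := Monoid.pow_exponent_eq_one (⟨a, ha⟩ : A)
    rw [hA.exponent_two, sq] at this
    exact congrArg Subtype.val this
  have hcomm : ∀ a ∈ A, ∀ b ∈ A, a * b = b * a := by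
    intro a ha b hb
    have h := hsq _ (A.mul_mem ha hb)
    calc a * b = (a * b) * ((b * a) * (b * a)) := by rw [hsq _ (A.mul_mem hb ha), mul_one]
      _ = a * (b * b) * a * (b * a) := by group
      _ = (a * a) * (b * a) := by rw [hsq b hb]; group
      _ = b * a := by rw [hsq a ha, one_mul]
  have hodd : ∀ {w : G}, Odd (orderOf w) → w * w = 1 → w = 1 := fun {w} ho h =>
    CfsgLib.ModularTwoGroup.eq_one_of_odd ho h (pow_orderOf_eq_one w)
  have hsqc : ∀ {w v : G}, Odd (orderOf w) → v * (w * w) = (w * w) * v → v * w = w * v := by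
    intro w v ho h
    obtain ⟨k, hk⟩ := ho
    have : w = (w * w) ^ (k + 1) := by
      rw [← sq, ← pow_mul, mul_add, mul_one, show 2 * k + 2 = (2 * k + 1) + 1 by ring, pow_succ, ← hk,
        pow_orderOf_eq_one, one_mul]
    rw [this]
    exact (show Commute v (w * w) from h).pow_right _
  by_contra hcon
  -- every involution of `A` inverts some odd element
  have hinv : ∀ a ∈ A, a ≠ 1 → ∃ w : G, w ≠ 1 ∧ Odd (orderOf w) ∧ a * w * a⁻¹ = w⁻¹ := by
    intro a ha ha1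
    refine CfsgLib.BaerSuzuki.exists_inverted_odd a (orderOf_eq_prime (by rw [sq, hsq a ha]) ha1) ?_
    intro N hN hN2 haN
    exact ha1 (Subgroup.mem_bot.1 (hcon ▸ ⟨ha, CfsgLib.Core.le_pCore hN hN2 haN⟩))
  -- such an element commutes with another involution of `A`
  have htype : ∀ a ∈ A, a ≠ 1 → ∀ w : G, w ≠ 1 → Odd (orderOf w) → a * w * a⁻¹ = w⁻¹ →
      ∃ b ∈ A, b ≠ 1 ∧ b ≠ a ∧ b * w = w * b := by
    intro a ha ha1 w hw1 hwo haw
    have hc := h a ha ha1 w
    rw [Ne, Subgroup.eq_bot_iff_forall] at hc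
    push Not at hc
    obtain ⟨b, ⟨hb, hbc⟩, hb1⟩ := hc
    have hwa : w * a * w⁻¹ = (w * w) * a := by
      calc w * a * w⁻¹ = w * (a * w * a⁻¹)⁻¹ * a * (a⁻¹ * a⁻¹)⁻¹ * (a * a)⁻¹ := by group
        _ = (w * w) * a := by rw [haw, inv_inv]; group
    have hbc' := Subgroup.mem_centralizer_singleton_iff.1 hbc
    rw [hwa] at hbc'
    have hba : b * (w * w) = (w * w) * b := by
      have : b * (w * w) * a = (w * w) * b * a := by
        rw [mul_assoc, hbc', mul_assoc (w * w) b a, hcomm b hb a ha, ← mul_assoc]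
      exact mul_right_cancel this
    refine ⟨b, hb, hb1, ?_, hsqc hwo hba⟩
    rintro rfl
    have h2 := hsqc hwo hba
    rw [h2, mul_inv_cancel_right] at haw
    exact hw1 (hodd hwo (mul_eq_one_iff_eq_inv.2 haw))
  haveI : Nontrivial A := Finite.one_lt_card_iff_nontrivial.1 (by omega)
  obtain ⟨⟨a, ha⟩, ha1⟩ := exists_ne (1 : A)
  have ha1' : a ≠ 1 := fun e => ha1 (Subtype.ext e)
  obtain ⟨x, hx1, hxo, hax⟩ := hinv a ha ha1'
  obtain ⟨b, hb, hb1, hba, hbx⟩ := htype a ha ha1' x hx1 hxo hax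
  obtain ⟨y, hy1, hyo, hby⟩ := hinv b hb hb1
  obtain ⟨d, hd, hd1, hdb, hdy⟩ := htype b hb hb1 y hy1 hyo hby
  -- relabel: `d` is `a` or `a * b`, both invert `x`
  have hdcases : d = a ∨ d = a * b := by
    have hab1 : a * b ≠ 1 := fun h => hba (by
      rw [eq_inv_of_mul_eq_one_right h, inv_eq_of_mul_eq_one_right (hsq a ha)])
    have hsub : ({1, a, b, a * b} : Set G) ⊆ (A : Set G) := by
      rintro c (rfl | rfl | rfl | rfl)
      exacts [A.one_mem, ha, hb, A.mul_mem ha hb]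
    have hcard : ({1, a, b, a * b} : Set G).ncard = 4 := by
      rw [Set.ncard_insert_of_notMem (by simp [ha1'.symm, hb1.symm, hab1.symm]),
        Set.ncard_insert_of_notMem (by simp [hba.symm, hb1]),
        Set.ncard_insert_of_notMem (by simp [ha1']), Set.ncard_singleton]
    have heq := Set.eq_of_subset_of_ncard_le hsub (by rw [hcard, ← Nat.card_coe_set_eq]; exact h4.le)
    have hd' : d ∈ ({1, a, b, a * b} : Set G) := heq ▸ hd
    simp only [Set.mem_insert_iff, Set.mem_singleton_iff] at hd'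
    rcases hd' with e | e | e | e
    exacts [absurd e hd1, Or.inl e, absurd e hdb, Or.inr e]
  have hdx : d * x * d⁻¹ = x⁻¹ := by
    rcases hdcases with rfl | rfl
    · exact hax
    · rw [show a * b * x * (a * b)⁻¹ = a * (b * x * b⁻¹) * a⁻¹ by group, hbx, mul_inv_cancel_right, hax]
  -- now `d, b` are involutions, `x` inverted by `d` centralised by `b`, `y` the reverse
  have hdc : d * b = b * d := hcomm d hd b hb
  have hc : d * b ≠ 1 := fun e => hdb (by
    rw [eq_inv_of_mul_eq_one_left e, inv_eq_of_mul_eq_one_right (hsq b hb)])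
  have hdxi : ∀ n : ℕ, d * x ^ n * d⁻¹ = (x ^ n)⁻¹ := fun n => by rw [← conj_pow, hdx, inv_pow]
  have hbyi : ∀ n : ℕ, b * y ^ n * b⁻¹ = (y ^ n)⁻¹ := fun n => by rw [← conj_pow, hby, inv_pow]
  have hbxi : ∀ n : ℕ, b * x ^ n * b⁻¹ = x ^ n := fun n => by rw [← conj_pow, hbx, mul_inv_cancel_right]
  have hdyi : ∀ n : ℕ, d * y ^ n * d⁻¹ = y ^ n := fun n => by rw [← conj_pow, hdy, mul_inv_cancel_right]
  have hX : Odd (orderOf (x ^ 2)) := Odd.of_dvd_nat hxo (orderOf_dvd_of_pow_eq_one (by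
    rw [← pow_mul, mul_comm, pow_mul, pow_orderOf_eq_one, one_pow]))
  have hY : Odd (orderOf (y ^ 2)) := Odd.of_dvd_nat hyo (orderOf_dvd_of_pow_eq_one (by
    rw [← pow_mul, mul_comm, pow_mul, pow_orderOf_eq_one, one_pow]))
  have hX1 : x ^ 2 ≠ 1 := fun e => hx1 (hodd hxo (by rwa [← sq]))
  have hY1 : y ^ 2 ≠ 1 := fun e => hy1 (hodd hyo (by rwa [← sq]))
  -- an odd element cannot be inverted by one
  have hnoinv : ∀ {u w : G}, Odd (orderOf u) → Odd (orderOf w) → u⁻¹ * w * u = w⁻¹ → w = 1 := by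
    intro u w hu hw e
    obtain ⟨k, hk⟩ := hu
    have h2 : (u * u)⁻¹ * w * (u * u) = w := by
      calc (u * u)⁻¹ * w * (u * u) = u⁻¹ * (u⁻¹ * w * u) * u := by group
        _ = (u⁻¹ * w * u)⁻¹ := by conv_lhs => rw [e]
                                  group
        _ = w := by rw [e, inv_inv]
    have h3 : w * (u * u) = (u * u) * w := by
      nth_rewrite 2 [← h2]; group
    have h4' := hsqc (v := w) ⟨k, hk⟩ h3
    rw [mul_assoc, h4', inv_mul_cancel_left] at e
    exact hodd hw (mul_eq_one_iff_eq_inv.2 e)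
  -- the witness
  set g := x * y
  have hu : g * (d * b) * g⁻¹ = (x * y ^ 2 * x) * (d * b) := by
    have ey : y * d * b * y⁻¹ = y ^ 2 * d * b := by
      have hy' : b * y⁻¹ * b⁻¹ = y := by rw [show b * y⁻¹ * b⁻¹ = (b * y * b⁻¹)⁻¹ by group, hby, inv_inv]
      have hd2 : d * y ^ 2 = y ^ 2 * d := mul_inv_eq_iff_eq_mul.1 (hdyi 2)
      calc y * d * b * y⁻¹ = (d * y) * b * y⁻¹ := by rw [hdy]
        _ = d * y * (b * y⁻¹ * b⁻¹) * b := by group
        _ = (d * y ^ 2) * b := by rw [hy', sq]; group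
        _ = y ^ 2 * d * b := by rw [hd2]
    have ex : d * b * x⁻¹ = x * (d * b) := by
      rw [show d * b * x⁻¹ = d * (b * x⁻¹ * b⁻¹) * d⁻¹ * (d * b) by group,
        show b * x⁻¹ * b⁻¹ = (b * x * b⁻¹)⁻¹ by group, hbx, mul_inv_cancel_right,
        show d * x⁻¹ * d⁻¹ = (d * x * d⁻¹)⁻¹ by group, hdx, inv_inv]
    calc g * (d * b) * g⁻¹ = x * (y * d * b * y⁻¹) * x⁻¹ := by simp only [g]; group
      _ = x * y ^ 2 * (d * b * x⁻¹) := by rw [ey]; group
      _ = (x * y ^ 2 * x) * (d * b) := by rw [ex]; group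
  have hcn := h (d * b) (A.mul_mem hd hb) hc g
  rw [Ne, Subgroup.eq_bot_iff_forall] at hcn
  push Not at hcn
  obtain ⟨c, ⟨hcA, hcc⟩, hc1⟩ := hcn
  have hcc' := Subgroup.mem_centralizer_singleton_iff.1 hcc
  rw [hu] at hcc'
  set U := x * y ^ 2 * x
  have hcU : c * U * c⁻¹ = U := by
    have hcdb : c * (d * b) = (d * b) * c := hcomm c hcA _ (A.mul_mem hd hb)
    have : c * U * (d * b) = U * c * (d * b) := by
      rw [mul_assoc c U, hcc', mul_assoc U (d * b), ← hcdb, ← mul_assoc]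
    rw [mul_right_cancel this, mul_inv_cancel_right]
  have hconj : ∀ v : G, v * U * v⁻¹ = (v * x ^ 1 * v⁻¹) * (v * y ^ 2 * v⁻¹) * (v * x ^ 1 * v⁻¹) := fun v => by
    simp only [U]; group
  have hcc2 : c = d ∨ c = b ∨ c = d * b := by
    have hab' : d * b ≠ 1 := hc
    have hsub : ({1, d, b, d * b} : Set G) ⊆ (A : Set G) := by
      rintro e (rfl | rfl | rfl | rfl)
      exacts [A.one_mem, hd, hb, A.mul_mem hd hb]
    have hcard : ({1, d, b, d * b} : Set G).ncard = 4 := by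
      rw [Set.ncard_insert_of_notMem (by simp [hd1.symm, hb1.symm, hab'.symm]),
        Set.ncard_insert_of_notMem (by simp [hdb, hb1, hd1]),
        Set.ncard_insert_of_notMem (by simp [hd1, hdb]), Set.ncard_singleton]
    have heq := Set.eq_of_subset_of_ncard_le hsub (by rw [hcard, ← Nat.card_coe_set_eq]; exact h4.le)
    have hd' : c ∈ ({1, d, b, d * b} : Set G) := heq ▸ hcA
    simp only [Set.mem_insert_iff, Set.mem_singleton_iff] at hd'
    rcases hd' with e | e | e | e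
    exacts [absurd e hc1, Or.inl e, Or.inr (Or.inl e), Or.inr (Or.inr e)]
  rcases hcc2 with rfl | rfl | rfl
  · rw [hconj, hdxi, hdyi, pow_one] at hcU
    -- x² y² x² = y²
    refine hX1 (hnoinv hY hX ?_)
    have : y ^ 2 = x ^ 2 * y ^ 2 * x ^ 2 := by
      calc y ^ 2 = x * (x⁻¹ * y ^ 2 * x⁻¹) * x := by group
        _ = x * U * x := by rw [hcU]
        _ = x ^ 2 * y ^ 2 * x ^ 2 := by simp only [U, sq]; group
    calc (y ^ 2)⁻¹ * x ^ 2 * y ^ 2 = (y ^ 2)⁻¹ * (x ^ 2 * y ^ 2 * x ^ 2) * (x ^ 2)⁻¹ := by group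
      _ = (x ^ 2)⁻¹ := by rw [← this]; group
  · rw [hconj, hbxi, hbyi, pow_one] at hcU
    have : (y ^ 2)⁻¹ = y ^ 2 := mul_left_cancel (mul_right_cancel hcU)
    refine hY1 (hodd hY ?_)
    nth_rewrite 1 [← this]
    exact inv_mul_cancel _
  · have e1 : ∀ n : ℕ, d * b * x ^ n * (d * b)⁻¹ = (x ^ n)⁻¹ := fun n => by
      rw [show d * b * x ^ n * (d * b)⁻¹ = d * (b * x ^ n * b⁻¹) * d⁻¹ by group, hbxi, hdxi]
    have e2 : d * b * y ^ 2 * (d * b)⁻¹ = (y ^ 2)⁻¹ := by
      rw [show d * b * y ^ 2 * (d * b)⁻¹ = d * (b * y ^ 2 * b⁻¹) * d⁻¹ by group, hbyi,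
        show d * (y ^ 2)⁻¹ * d⁻¹ = (d * y ^ 2 * d⁻¹)⁻¹ by group, hdyi]
    rw [hconj, e1, e2, pow_one] at hcU
    set X := x ^ 2 with hXdef
    set Y := y ^ 2 with hYdef
    have z1 : Y * X * Y = X⁻¹ := by
      have : U * U = 1 := by nth_rewrite 1 [← hcU]; simp only [U, hYdef, sq]; group
      calc Y * X * Y = x⁻¹ * (U * U) * x⁻¹ := by simp only [U, hXdef, hYdef, sq]; group
        _ = X⁻¹ := by rw [this, hXdef, sq]; group
    have hbX : b * X * b⁻¹ = X := hbxi 2
    have hbY : b * Y * b⁻¹ = Y⁻¹ := hbyi 2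
    have z2 : Y⁻¹ * X * Y⁻¹ = X⁻¹ := by
      calc Y⁻¹ * X * Y⁻¹ = (b * Y * b⁻¹) * (b * X * b⁻¹) * (b * Y * b⁻¹) := by rw [hbX, hbY]
        _ = b * (Y * X * Y) * b⁻¹ := by group
        _ = (b * X * b⁻¹)⁻¹ := by rw [z1]; group
        _ = X⁻¹ := by rw [hbX]
    have hYY : Odd (orderOf (Y * Y)) := Odd.of_dvd_nat hY (orderOf_dvd_of_pow_eq_one (by
      rw [← sq, ← pow_mul, mul_comm, pow_mul, pow_orderOf_eq_one, one_pow]))
    have hYY1 : Y * Y ≠ 1 := fun e => hY1 (hodd hY e)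
    refine hYY1 (hnoinv hX hYY ?_)
    have z3 : Y * Y * X * (Y * Y) = X := by
      calc Y * Y * X * (Y * Y) = Y * (Y * X * Y) * Y := by group
        _ = Y * (Y⁻¹ * X * Y⁻¹) * Y := by rw [z1, z2]
        _ = X := by group
    calc X⁻¹ * (Y * Y) * X = X⁻¹ * (Y * Y * X * (Y * Y)) * (Y * Y)⁻¹ := by group
      _ = (Y * Y)⁻¹ := by rw [z3]; group

end Cfsg.Agent.S3195
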