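import Cfsg.Statements.S3196
import Mathlib
import Cfsg.Agent.Lib.Core

set_option autoImplicit false
open Cfsg

namespace Cfsg.Agent.S3196

/-- A commuting-closed set of elements of order `p`. -/
structure Geo {G : Type*} [Group G] (p : ℕ) (S : Set G) : Prop where
  hp : p.Prime
  ord : ∀ g ∈ S, orderOf g = p
  conj : ∀ g ∈ S, ∀ a : G, a * g * a⁻¹ ∈ S
  pow : ∀ g ∈ S, ∀ i : ℤ, g ^ i ≠ 1 → g ^ i ∈ S
  line : ∀ g ∈ S, ∀ h ∈ S, h ∉ Subgroup.zpowers g → Commute g h → ∀ i j : ℤ, g ^ i * h ^ j ≠ 1 → g ^ i * h ^ j ∈ S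
  meet : ∀ g ∈ S, ∀ h ∈ S, h ∉ Subgroup.zpowers g → Commute g h → ∀ w ∈ S,
    ∃ i j : ℤ, g ^ i * h ^ j ≠ 1 ∧ Commute w (g ^ i * h ^ j)

variable {G : Type*} [Group G] {p : ℕ} {S : Set G}

theorem Geo.gen (hS : Geo p S) {g : G} (hg : g ∈ S) {i : ℤ} (hi : g ^ i ≠ 1) {a : G} (h : Commute (g ^ i) a) :
    Commute g a := by
  have hd : ¬ (p : ℤ) ∣ i := fun hd => hi (orderOf_dvd_iff_zpow_eq_one.mp (by rw [hS.ord g hg]; exact hd))
  obtain ⟨u, v, huv⟩ := (Nat.prime_iff_prime_int.mp hS.hp).coprime_iff_not_dvd.mpr hd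
  have e : g = (g ^ i) ^ v := by
    rw [← zpow_mul, show i * v = 1 + (p : ℤ) * (-u) by linear_combination huv, zpow_add, zpow_one, zpow_mul,
      zpow_natCast, ← hS.ord g hg, pow_orderOf_eq_one, one_zpow, mul_one]
  rw [e]
  exact h.zpow_left v

theorem Geo.of_mem_zpowers {g h a : G} (hh : h ∈ Subgroup.zpowers g) (hc : Commute g a) : Commute h a := by
  obtain ⟨k, rfl⟩ := hh
  exact hc.zpow_left k

/-- A pair with a commutator centralizing both sees the commutator centralize all neighbours. -/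
theorem Geo.nbr (hS : Geo p S) {x w c : G} (hx : x ∈ S) (hw : w ∈ S) (hxw : ¬ Commute x w)
    (hcx : Commute c x) (hcw : Commute c w) (hc : x * w * x⁻¹ * w⁻¹ = c) :
    ∀ y ∈ S, Commute x y → Commute c y := by
  intro y hy hxy
  by_cases hyx : y ∈ Subgroup.zpowers x
  · exact (Geo.of_mem_zpowers hyx hcx.symm).symm
  obtain ⟨i, j, hne, hu⟩ := hS.meet x hx y hy hyx hxy w hw
  have hj : y ^ j ≠ 1 := fun e => by
    rw [e, mul_one] at hne hu
    exact hxw (hS.gen hx hne hu.symm)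
  have h1 : Commute x (x ^ i * y ^ j) := (Commute.zpow_right (Commute.refl x) i).mul_right (hxy.zpow_right j)
  have h2 : Commute c (x ^ i * y ^ j) := by
    rw [← hc]
    exact ((h1.mul_left hu).mul_left h1.inv_left).mul_left hu.inv_left
  have h3 := (hcx.zpow_right i).inv_right.mul_right h2
  rw [inv_mul_cancel_left] at h3
  exact (hS.gen hy hj h3.symm).symm

theorem Geo.radical_of_pair (hS : Geo p S) {x w c : G} (hx : x ∈ S) (hw : w ∈ S) (hxw : ¬ Commute x w)
    (hcx : Commute c x) (hcw : Commute c w) (hc : x * w * x⁻¹ * w⁻¹ = c) :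
    ∃ z ∈ S, ∀ y ∈ S, Commute z y := by
  have hc1 : c ≠ 1 := fun e => hxw (by
    rw [e, mul_inv_eq_one, mul_inv_eq_iff_eq_mul] at hc; exact hc)
  have hcnx : c ∉ Subgroup.zpowers x := by
    rintro ⟨k, hk : x ^ k = c⟩
    exact hxw (hS.gen hx (hk ▸ hc1) (hk ▸ hcw))
  have hx' : w * x * w⁻¹ = c⁻¹ * x := by rw [← hc]; group
  have hx'S : c⁻¹ * x ∈ S := hx' ▸ hS.conj x hx w
  have hx'c : Commute x (c⁻¹ * x) := hcx.inv_left.symm.mul_right (Commute.refl x)
  have hx'n : c⁻¹ * x ∉ Subgroup.zpowers x := fun h => hcnx (by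
    have := mul_mem (Subgroup.mem_zpowers x) (inv_mem h)
    rwa [show x * (c⁻¹ * x)⁻¹ = c by group] at this)
  have hcS : c ∈ S := by
    have h1 : x ^ (1 : ℤ) * (c⁻¹ * x) ^ (-1 : ℤ) = c := by rw [zpow_one, zpow_neg_one]; group
    exact h1 ▸ hS.line x hx _ hx'S hx'n hx'c 1 (-1) (fun e => hc1 (h1 ▸ e))
  refine ⟨c, hcS, fun v hv => ?_⟩
  obtain ⟨i, j, hne, hu⟩ := hS.meet x hx c hcS hcnx hcx.symm v hv
  by_cases hi : x ^ i = 1
  · rw [hi, one_mul] at hne hu
    exact hS.gen hcS hne hu.symm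
  set u := x ^ i * c ^ j with hudef
  have huS : u ∈ S := hS.line x hx c hcS hcnx hcx.symm i j hne
  have huc : Commute c u := (hcx.zpow_right i).mul_right ((Commute.refl c).zpow_right j)
  have huw : ¬ Commute u w := fun h => hxw (hS.gen hx hi (by
    have := h.mul_left (hcw.zpow_left j).inv_left
    rwa [hudef, mul_inv_cancel_right] at this))
  have hcomm : u * w * u⁻¹ * w⁻¹ = c ^ i := by
    have hs : SemiconjBy w x (c⁻¹ * x) := by show w * x = c⁻¹ * x * w; rw [← hx', inv_mul_cancel_right]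
    have h1 : w * x ^ i = c⁻¹ ^ i * x ^ i * w := by
      rw [← (hcx.inv_left).mul_zpow i]; exact (hs.zpow_right i).eq
    have h2 : x ^ i * w = c ^ i * (w * x ^ i) := by rw [h1, inv_zpow]; group
    calc u * w * u⁻¹ * w⁻¹ = x ^ i * (c ^ j * w * (c ^ j)⁻¹) * (x ^ i)⁻¹ * w⁻¹ := by rw [hudef]; group
      _ = x ^ i * w * (x ^ i)⁻¹ * w⁻¹ := by rw [(hcw.zpow_left j).eq, mul_inv_cancel_right]
      _ = c ^ i := by rw [h2]; group
  have hci : c ^ i ≠ 1 := fun e => huw (by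
    rw [e, mul_inv_eq_one, mul_inv_eq_iff_eq_mul] at hcomm; exact hcomm)
  exact hS.gen hcS hci (hS.nbr huS hw huw (huc.zpow_left i) (hcw.zpow_left i) hcomm v hv hu.symm)

/-- Two non-commuting common neighbours of a non-commuting pair. -/
theorem Geo.radical_of_square (hS : Geo p S) {x w a b : G} (hx : x ∈ S) (hw : w ∈ S) (ha : a ∈ S) (hb : b ∈ S)
    (hxw : ¬ Commute x w) (hab : ¬ Commute a b) (hxa : Commute x a) (hxb : Commute x b)
    (hwa : Commute w a) (hwb : Commute w b) : ∃ z ∈ S, ∀ y ∈ S, Commute z y := by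
  have han : a ∉ Subgroup.zpowers x := fun h => hab (Geo.of_mem_zpowers h hxb)
  have hbn : b ∉ Subgroup.zpowers w := fun h => hab (Geo.of_mem_zpowers h hwa).symm
  have hu1 : x * a ≠ 1 := fun e => han (by rw [eq_inv_of_mul_eq_one_right e]; exact inv_mem (Subgroup.mem_zpowers x))
  have huS : x * a ∈ S := by
    have := hS.line x hx a ha han hxa 1 1 (by simpa using hu1)
    simpa using this
  obtain ⟨i, j, hne, hc⟩ := hS.meet w hw b hb hbn hwb (x * a) huS
  have hi : w ^ i ≠ 1 := fun e => by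
    rw [e, one_mul] at hne hc
    have := ((hxb.zpow_right j).inv_left.mul_left hc)
    rw [inv_mul_cancel_left] at this
    exact hab (hS.gen hb hne this.symm).symm
  set d := x⁻¹ * (w ^ i)⁻¹ * x * w ^ i with hd
  have hdab : d = b ^ j * a * (b ^ j)⁻¹ * a⁻¹ := by
    have e1 : x * w ^ i * (a * b ^ j) = w ^ i * x * (b ^ j * a) := by
      calc x * w ^ i * (a * b ^ j) = x * (w ^ i * a) * b ^ j := by group
        _ = x * (a * w ^ i) * b ^ j := by rw [(hwa.zpow_left i).eq]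
        _ = x * a * (w ^ i * b ^ j) := by group
        _ = w ^ i * b ^ j * (x * a) := hc.eq
        _ = w ^ i * (b ^ j * x) * a := by group
        _ = w ^ i * (x * b ^ j) * a := by rw [(hxb.zpow_right j).eq]
        _ = w ^ i * x * (b ^ j * a) := by group
    calc d = x⁻¹ * (w ^ i)⁻¹ * (x * w ^ i * (a * b ^ j)) * (b ^ j)⁻¹ * a⁻¹ := by rw [hd]; group
      _ = x⁻¹ * (w ^ i)⁻¹ * (w ^ i * x * (b ^ j * a)) * (b ^ j)⁻¹ * a⁻¹ := by rw [e1]
      _ = b ^ j * a * (b ^ j)⁻¹ * a⁻¹ := by group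
  have hdx : Commute d x := hdab ▸
    ((((hxb.zpow_right j).symm.mul_left hxa.symm).mul_left (hxb.zpow_right j).symm.inv_left).mul_left hxa.symm.inv_left)
  have hdw : Commute d w := hdab ▸
    ((((hwb.zpow_right j).symm.mul_left hwa.symm).mul_left (hwb.zpow_right j).symm.inv_left).mul_left hwa.symm.inv_left)
  have hxS : x⁻¹ ∈ S := by
    have := hS.pow x hx (-1) (by
      rw [zpow_neg_one]; intro e; rw [inv_eq_one] at e; exact hxw (e ▸ Commute.one_left w))
    simpa using this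
  have hwS : (w ^ i)⁻¹ ∈ S := by
    have := hS.pow w hw (-i) (by rw [zpow_neg]; simpa using hi)
    simpa using this
  refine hS.radical_of_pair hxS hwS (fun h => hxw ?_) hdx.inv_right (hdw.zpow_right i).inv_right
    (by rw [inv_inv, inv_inv])
  exact (hS.gen hw hi ((Commute.inv_inv_iff.mp h).symm)).symm

theorem Geo.exists_radical (hS : Geo p S) (hex : ∃ g ∈ S, ∃ h ∈ S, h ∉ Subgroup.zpowers g ∧ Commute g h) :
    ∃ z ∈ S, ∀ y ∈ S, Commute z y := by
  obtain ⟨g, hg, h, hh, hgh, hcgh⟩ := hex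
  by_cases hall : ∀ a ∈ S, ∀ b ∈ S, Commute a b
  · exact ⟨g, hg, fun y hy => hall g hg y hy⟩
  push Not at hall
  obtain ⟨x, hx, w, hw, hxw⟩ := hall
  obtain ⟨y, hy, hyx, hxy⟩ : ∃ y ∈ S, y ∉ Subgroup.zpowers x ∧ Commute x y := by
    obtain ⟨i, j, hne, hu⟩ := hS.meet g hg h hh hgh hcgh x hx
    have huS := hS.line g hg h hh hgh hcgh i j hne
    by_cases hux : g ^ i * h ^ j ∈ Subgroup.zpowers x
    · obtain ⟨k, hk : x ^ k = _⟩ := hux
      have h1 : Commute x g := hS.gen hx (hk ▸ hne)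
        (hk ▸ ((Commute.refl g).zpow_left i).mul_left ((hcgh.symm).zpow_left j))
      have h2 : Commute x h := hS.gen hx (hk ▸ hne)
        (hk ▸ ((hcgh).zpow_left i).mul_left ((Commute.refl h).zpow_left j))
      by_cases hgx : g ∈ Subgroup.zpowers x
      · refine ⟨h, hh, fun hhx => hgh ?_, h2⟩
        obtain ⟨a, ha : x ^ a = g⟩ := hgx
        obtain ⟨b, hb : x ^ b = h⟩ := hhx
        have hg1 : g ≠ 1 := fun e => hS.hp.ne_one (by rw [← hS.ord g hg, e, orderOf_one])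
        have hda : ¬ (p : ℤ) ∣ a := fun hd => hg1 (by
          rw [← ha]; exact orderOf_dvd_iff_zpow_eq_one.mp (by rw [hS.ord x hx]; exact hd))
        obtain ⟨u, v, huv⟩ := (Nat.prime_iff_prime_int.mp hS.hp).coprime_iff_not_dvd.mpr hda
        refine ⟨v * b, ?_⟩
        show g ^ (v * b) = h
        rw [← ha, ← hb, ← zpow_mul, show a * (v * b) = b + (p : ℤ) * (-u * b) by linear_combination b * huv,
          zpow_add, zpow_mul x (p : ℤ), zpow_natCast, ← hS.ord x hx, pow_orderOf_eq_one, one_zpow, mul_one]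
      · exact ⟨g, hg, hgx, h1⟩
    · exact ⟨_, huS, hux, hu⟩
  obtain ⟨i, j, hne, hzw⟩ := hS.meet x hx y hy hyx hxy w hw
  have hzS := hS.line x hx y hy hyx hxy i j hne
  set z := x ^ i * y ^ j
  have hxz : Commute x z := (Commute.zpow_right (Commute.refl x) i).mul_right (hxy.zpow_right j)
  by_cases hzall : ∀ v ∈ S, Commute z v
  · exact ⟨z, hzS, hzall⟩
  push Not at hzall
  obtain ⟨v, hv, hzv⟩ := hzall
  have key : ∀ x' w', x' ∈ S → w' ∈ S → ¬ Commute x' w' → Commute x' z → Commute w' z → Commute x' v →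
      ∃ r ∈ S, ∀ y ∈ S, Commute r y := by
    intro x' w' hx' hw' hne' h1 h2 h3
    have hvn : v ∉ Subgroup.zpowers x' := fun hm => hzv (Geo.of_mem_zpowers hm h1).symm
    obtain ⟨k, l, hkl, hu⟩ := hS.meet x' hx' v hv hvn h3 w' hw'
    refine hS.radical_of_square hx' hw' (hS.line x' hx' v hv hvn h3 k l hkl) hzS hne' (fun hc => hzv ?_)
      ((Commute.zpow_right (Commute.refl x') k).mul_right (h3.zpow_right l)) h1 hu h2
    have h4 := (h1.zpow_left k).inv_left.mul_left hc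
    rw [inv_mul_cancel_left] at h4
    by_cases hl : v ^ l = 1
    · rw [hl, mul_one] at hkl hu
      exact absurd (hS.gen hx' hkl hu.symm) hne'
    · exact (hS.gen hv hl h4).symm
  by_cases hxv : Commute x v
  · exact key x w hx hw hxw hxz hzw hxv
  by_cases hwv : Commute w v
  · exact key w x hw hx (fun h => hxw h.symm) hzw hxz hwv
  have mkpt : ∀ q ∈ S, z ∉ Subgroup.zpowers q → Commute q z → ∃ r ∈ S, ∃ a c : ℤ, q ^ a ≠ 1 ∧ r = q ^ a * z ^ c ∧ Commute v r := by
    intro q hq hqn hqz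
    have hzn : z ∉ Subgroup.zpowers q := hqn
    obtain ⟨a, c, hac, hc⟩ := hS.meet q hq z hzS hzn hqz v hv
    refine ⟨_, hS.line q hq z hzS hzn hqz a c hac, a, c, fun e => ?_, rfl, hc⟩
    rw [e, one_mul] at hac hc
    exact hzv (hS.gen hzS hac hc.symm)
  obtain ⟨P, hP, a, c, ha, rfl, hPv⟩ := mkpt x hx (fun ⟨k, (hk : x ^ k = z)⟩ => hxw (hS.gen hx (hk ▸ hne) (hk ▸ hzw.symm))) hxz
  obtain ⟨Q, hQ, a', c', ha', rfl, hQv⟩ := mkpt w hw (fun ⟨k, (hk : w ^ k = z)⟩ => hxw (hS.gen hw (hk ▸ hne) (hk ▸ hxz.symm)).symm) hzw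
  refine hS.radical_of_square hP hQ hzS hv (fun hPQ => hxw ?_) hzv
    ((hxz.zpow_left a).mul_left ((Commute.refl z).zpow_left c)) hPv.symm
    ((hzw.zpow_left a').mul_left ((Commute.refl z).zpow_left c')) hQv.symm
  have h1 : Commute (x ^ a) (w ^ a' * z ^ c') := by
    have := hPQ.mul_left (((hzw.zpow_left a').mul_left ((Commute.refl z).zpow_left c')).symm.zpow_left c).inv_left
    rwa [mul_inv_cancel_right] at this
  have h2 := h1.mul_right ((hxz.zpow_zpow a c')).inv_right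
  rw [mul_inv_cancel_right] at h2
  exact hS.gen hx ha (hS.gen hw ha' h2.symm).symm

/-- Let p be a prime and K a set of subgroups of order p of a finite group G, closed under conjugation, such that at least two distinct members of K commute elementwise, and whenever two distinct members X, Y of K commute: every subgroup of order p of the group XY they generate belongs to K, and every member W of K has centralizer meeting XY nontrivially. Then some member V of K commutes elementwise with every member of K and lies in O_p(G); in particular G is not simple. -/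
theorem result {G : Type*} [Group G] [Finite G]
    {p : ℕ} (hp : p.Prime) (K : Set (Subgroup G)) (hK : ∀ X ∈ K, Nat.card ↥X = p)
    (hKc : ∀ X ∈ K, ∀ g : G, X.map (MulAut.conj g).toMonoidHom ∈ K)
    (hex : ∃ X ∈ K, ∃ Y ∈ K, X ≠ Y ∧ ∀ x ∈ X, ∀ y ∈ Y, x * y = y * x)
    (ha : ∀ X ∈ K, ∀ Y ∈ K, X ≠ Y → (∀ x ∈ X, ∀ y ∈ Y, x * y = y * x) →
      ∀ Z : Subgroup G, Z ≤ X ⊔ Y → Nat.card ↥Z = p → Z ∈ K)
    (hb : ∀ X ∈ K, ∀ Y ∈ K, X ≠ Y → (∀ x ∈ X, ∀ y ∈ Y, x * y = y * x) →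
      ∀ W ∈ K, (X ⊔ Y) ⊓ Subgroup.centralizer (W : Set G) ≠ ⊥) :
    (∃ V ∈ K, (∀ W ∈ K, ∀ v ∈ V, ∀ w ∈ W, v * w = w * v) ∧ V ≤ Cfsg.pCore p G) ∧ ¬ IsSimpleGroup G := by
  classical
  haveI : Fact p.Prime := ⟨hp⟩
  let S : Set G := {g | g ≠ 1 ∧ Subgroup.zpowers g ∈ K}
  have hgenr : ∀ X ∈ K, ∀ g ∈ X, g ≠ 1 → Subgroup.zpowers g = X := fun X hX g hg hg1 => by
    refine Subgroup.eq_of_le_of_card_ge (Subgroup.zpowers_le.mpr hg) ?_
    rw [hK X hX, Nat.card_zpowers]
    have hd := orderOf_dvd_natCard (⟨g, hg⟩ : X)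
    rw [Subgroup.orderOf_mk, hK X hX] at hd
    rcases (Nat.dvd_prime hp).mp hd with h | h
    · exact absurd (orderOf_eq_one_iff.mp h) hg1
    · exact h.ge
  have hord : ∀ g ∈ S, orderOf g = p := fun g hg => by rw [← Nat.card_zpowers, hK _ hg.2]
  have hne' : ∀ g ∈ S, ∀ h ∈ S, h ∉ Subgroup.zpowers g → Subgroup.zpowers g ≠ Subgroup.zpowers h :=
    fun g _ h _ hgh e => hgh (e ▸ Subgroup.mem_zpowers h)
  have hcm : ∀ g h : G, Commute g h → ∀ u ∈ Subgroup.zpowers g, ∀ v ∈ Subgroup.zpowers h, u * v = v * u := by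
    rintro g h hc _ ⟨i, rfl⟩ _ ⟨j, rfl⟩
    exact (hc.zpow_zpow i j).eq
  have hsup : ∀ g h : G, Commute g h → ∀ u, u ∈ Subgroup.zpowers g ⊔ Subgroup.zpowers h →
      ∃ i j : ℤ, u = g ^ i * h ^ j := by
    intro g h hc u hu
    have hn : Subgroup.zpowers g ≤ Subgroup.normalizer (Subgroup.zpowers h : Set G) := by
      refine le_trans (fun u hu => ?_) (Subgroup.centralizer_le_normalizer _)
      exact fun v hv => (hcm g h hc u hu v hv).symm
    rw [← SetLike.mem_coe, Subgroup.coe_mul_of_left_le_normalizer_right _ _ hn, Set.mem_mul] at hu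
    obtain ⟨_, ⟨i, rfl⟩, _, ⟨j, rfl⟩, rfl⟩ := hu
    exact ⟨i, j, rfl⟩
  have hGeo : Geo p S :=
    { hp := hp
      ord := hord
      conj := fun g hg a => ⟨fun e => hg.1 (by
          have := congrArg (fun z => a⁻¹ * z * a) e
          simpa [mul_assoc] using this), by
        have := hKc _ hg.2 a
        rwa [MonoidHom.map_zpowers] at this⟩
      pow := fun g hg i hi => ⟨hi, by rw [hgenr _ hg.2 _ (zpow_mem (Subgroup.mem_zpowers g) i) hi]; exact hg.2⟩
      line := fun g hg h hh hgh hc i j hne => ⟨hne, ha _ hg.2 _ hh.2 (hne' g hg h hh hgh) (hcm g h hc) _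
        (Subgroup.zpowers_le.mpr (mul_mem (Subgroup.mem_sup_left (zpow_mem (Subgroup.mem_zpowers g) i))
          (Subgroup.mem_sup_right (zpow_mem (Subgroup.mem_zpowers h) j)))) (by
          rw [Nat.card_zpowers]
          refine orderOf_eq_prime ?_ hne
          rw [(hc.zpow_zpow i j).mul_pow, ← zpow_natCast, ← zpow_natCast, ← zpow_mul, ← zpow_mul, mul_comm i,
            mul_comm j, zpow_mul, zpow_mul, zpow_natCast, zpow_natCast, ← hord g hg, pow_orderOf_eq_one,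
            show orderOf g = orderOf h by rw [hord g hg, hord h hh], pow_orderOf_eq_one, one_zpow, one_zpow, mul_one])⟩
      meet := fun g hg h hh hgh hc w hw => by
        obtain ⟨⟨u, hu, hu2⟩, hu1⟩ := Subgroup.ne_bot_iff_exists_ne_one.mp
          (hb _ hg.2 _ hh.2 (hne' g hg h hh hgh) (hcm g h hc) _ hw.2)
        obtain ⟨i, j, rfl⟩ := hsup g h hc u hu
        exact ⟨i, j, fun e => hu1 (Subtype.ext e), hu2 w (Subgroup.mem_zpowers w)⟩ }
  have hmem : ∀ X ∈ K, ∃ g ∈ S, Subgroup.zpowers g = X := by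
    intro X hX
    obtain ⟨⟨g, hg⟩, hg1⟩ := (Subgroup.ne_bot_iff_exists_ne_one (H := X)).mp (fun e => hp.ne_one (by
      rw [← hK X hX, e, Subgroup.card_bot]))
    have hg1' : g ≠ 1 := fun e => hg1 (Subtype.ext e)
    exact ⟨g, ⟨hg1', by rw [hgenr X hX g hg hg1']; exact hX⟩, hgenr X hX g hg hg1'⟩
  obtain ⟨X, hX, Y, hY, hXY, hXYc⟩ := hex
  obtain ⟨g, hg, hgX⟩ := hmem X hX
  obtain ⟨h, hh, hhY⟩ := hmem Y hY
  have hgh : h ∉ Subgroup.zpowers g := fun hm => hXY (by
    rw [← hgX, ← hhY]; exact (hgenr _ hg.2 h hm hh.1).symm)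
  obtain ⟨z, hz, hzc⟩ := hGeo.exists_radical ⟨g, hg, h, hh, hgh,
    hXYc g (hgX ▸ Subgroup.mem_zpowers g) h (hhY ▸ Subgroup.mem_zpowers h)⟩
  have hV : ∀ W ∈ K, ∀ v ∈ Subgroup.zpowers z, ∀ w ∈ W, v * w = w * v := by
    intro W hW v hv w hw
    obtain ⟨r, hr, hrW⟩ := hmem W hW
    exact hcm z r (hzc r hr) v hv w (hrW ▸ hw)
  set M := Subgroup.closure S with hM
  haveI : M.Normal := ⟨fun m hm a => by
    refine Subgroup.closure_induction (p := fun m _ => a * m * a⁻¹ ∈ M) (fun s hs => Subgroup.subset_closure (hGeo.conj s hs a))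
      (by simp) (fun u v _ _ hu hv => ?_) (fun u _ hu => ?_) hm
    · have := mul_mem hu hv
      rwa [show a * u * a⁻¹ * (a * v * a⁻¹) = a * (u * v) * a⁻¹ by group] at this
    · have := inv_mem hu
      rwa [show (a * u * a⁻¹)⁻¹ = a * u⁻¹ * a⁻¹ by group] at this⟩
  have hzM : z ∈ M := Subgroup.subset_closure hz
  have hzZ : ∀ m ∈ M, Commute z m := fun m hm =>
    Subgroup.closure_induction (p := fun m _ => Commute z m) (fun s hs => hzc s hs) (Commute.one_right z)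
      (fun _ _ _ _ hu hv => hu.mul_right hv) (fun _ _ hu => hu.inv_right) hm
  let T : Subgroup G :=
    { carrier := {m | m ∈ M ∧ (∀ m' ∈ M, Commute m m') ∧ m ^ p = 1}
      one_mem' := ⟨one_mem M, fun m' _ => Commute.one_left m', one_pow p⟩
      mul_mem' := fun {u v} hu hv => ⟨mul_mem hu.1 hv.1, fun m' hm' => (hu.2.1 m' hm').mul_left (hv.2.1 m' hm'), by
        rw [(hu.2.1 v hv.1).mul_pow, hu.2.2, hv.2.2, one_mul]⟩
      inv_mem' := fun {u} hu => ⟨inv_mem hu.1, fun m' hm' => (hu.2.1 m' hm').inv_left, by rw [inv_pow, hu.2.2, inv_one]⟩ }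
  have hTn : T.Normal := ⟨fun u hu a => ⟨Subgroup.Normal.conj_mem inferInstance u hu.1 a, fun m' hm' => by
      have h1 : Commute u (a⁻¹ * m' * a⁻¹⁻¹) := hu.2.1 _ (Subgroup.Normal.conj_mem inferInstance m' hm' a⁻¹)
      have := h1.map (MulAut.conj a).toMonoidHom
      simp only [MulEquiv.coe_toMonoidHom, MulAut.conj_apply] at this
      rwa [show a * (a⁻¹ * m' * a⁻¹⁻¹) * a⁻¹ = m' by group] at this,
    by rw [conj_pow, hu.2.2, mul_one, mul_inv_cancel]⟩⟩
  have hzT : z ∈ T := ⟨hzM, hzZ, by rw [← hord z hz, pow_orderOf_eq_one]⟩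
  have hTp : IsPGroup p T := fun u => ⟨1, Subtype.ext (by rw [pow_one]; exact u.2.2.2)⟩
  refine ⟨⟨Subgroup.zpowers z, hz.2, hV,
    Subgroup.zpowers_le.mpr (CfsgLib.Core.le_pCore hTn hTp hzT)⟩, fun hsimp => ?_⟩
  rcases hsimp.eq_bot_or_eq_top_of_normal T hTn with e | e
  · rw [e, Subgroup.mem_bot] at hzT; exact hz.1 hzT
  · have hcomm : ∀ u v : G, Commute u v := fun u v =>
      (e ▸ Subgroup.mem_top u : u ∈ T).2.1 v (e ▸ Subgroup.mem_top v : v ∈ T).1
    have hn : (Subgroup.zpowers g).Normal := ⟨fun u hu a => by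
      rw [(hcomm a u).eq, mul_inv_cancel_right]; exact hu⟩
    rcases hsimp.eq_bot_or_eq_top_of_normal _ hn with e | e
    · exact hg.1 (Subgroup.zpowers_eq_bot.mp e)
    · exact hgh (e ▸ Subgroup.mem_top h)

end Cfsg.Agent.S3196
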