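import Cfsg.Statements.S3200
import Cfsg.Agent.S0144
import Cfsg.Agent.Lib.GroupB.Hall

set_option autoImplicit false
set_option linter.style.haveILetI false
open Cfsg

namespace Cfsg.Agent.S3200

open CfsgLib.GroupB.Hall

universe u

theorem solvable_aux (n : ℕ) : ∀ (G : Type u) [Group G] [Finite G], Nat.card G = n →
    ∀ (C : Subgroup G) (k : ℕ), IsMulCommutative ↥C → Odd (Nat.card C) → C.index = 2 ^ k →
      Group.IsSolvable G := by
  induction n using Nat.strong_induction_on with
  | _ n ih =>
  intro G _ _ hn C k hC hodd hk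
  subst hn
  rcases subsingleton_or_nontrivial G with hs | hnt
  · exact Group.isSolvable_of_comm fun x y => Subsingleton.elim _ _
  by_cases hsimple : IsSimpleGroup G
  · by_contra hns
    have hcen : Subgroup.center G = ⊥ :=
      (inferInstance : (Subgroup.center G).Normal).eq_bot_or_eq_top.resolve_right fun h =>
        hns (Group.isSolvable_of_comm fun x y =>
          (Subgroup.mem_center_iff.mp (h ▸ Subgroup.mem_top y) x))
    by_cases hb : C = ⊥
    · subst hb
      haveI := Fact.mk Nat.prime_two
      haveI := (IsPGroup.of_card (p := 2) (n := k) (by rw [← hk, Subgroup.index_bot]) :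
        IsPGroup 2 G).isNilpotent
      exact hns inferInstance
    obtain ⟨z, hzC, hz1⟩ := C.bot_or_exists_ne_one.resolve_left hb
    have hle : C ≤ Subgroup.centralizer ({z} : Set G) := fun x hx =>
      Subgroup.mem_centralizer_singleton_iff.mpr
        (congrArg Subtype.val (hC.is_comm.comm (⟨x, hx⟩ : C) ⟨z, hzC⟩))
    obtain ⟨j, -, hj⟩ := (Nat.dvd_prime_pow Nat.prime_two).mp (hk ▸ Subgroup.index_dvd_of_le hle)
    refine Cfsg.Agent.S0144.no_prime_power_class G Nat.prime_two z ?_ hj
    rw [hcen, Subgroup.mem_bot]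
    exact hz1
  · obtain ⟨N, hN, hbot, htop⟩ : ∃ N : Subgroup G, N.Normal ∧ N ≠ ⊥ ∧ N ≠ ⊤ := by
      by_contra h
      push Not at h
      exact hsimple ⟨fun N hN => or_iff_not_imp_left.mpr (h N hN)⟩
    haveI := hN
    have hmul := Subgroup.card_eq_card_quotient_mul_card_subgroup N
    have h1 : 1 < Nat.card N := (Subgroup.one_lt_card_iff_ne_bot N).mpr hbot
    have hdiv : C.relIndex N ∣ C.index := by
      obtain ⟨t, ht⟩ := Subgroup.relIndex_dvd_index_of_normal N C
      have a : Nat.card ↥(C ⊓ N : Subgroup G) * C.relIndex N = Nat.card N := by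
        have := (C.subgroupOf N).card_mul_index
        rwa [← Subgroup.inf_subgroupOf_right, Nat.card_congr (Subgroup.subgroupOfEquivOfLe
          (inf_le_right : C ⊓ N ≤ N)).toEquiv, Subgroup.inf_subgroupOf_right] at this
      have b : Nat.card ↥(C ⊓ N : Subgroup G) * N.relIndex C = Nat.card C := by
        have := (N.subgroupOf C).card_mul_index
        rwa [← Subgroup.inf_subgroupOf_left, Nat.card_congr (Subgroup.subgroupOfEquivOfLe
          (inf_le_left : C ⊓ N ≤ C)).toEquiv, Subgroup.inf_subgroupOf_left] at this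
      have hp : 0 < Nat.card ↥(C ⊓ N : Subgroup G) * N.relIndex C := b ▸ Nat.card_pos
      refine ⟨t, Nat.eq_of_mul_eq_mul_left hp ?_⟩
      have := C.card_mul_index.trans N.card_mul_index.symm
      rw [← a, ← b, ht] at this
      rw [this]; ring
    obtain ⟨j, -, hj⟩ := (Nat.dvd_prime_pow Nat.prime_two).mp (hk ▸ hdiv)
    haveI : Group.IsSolvable N := by
      refine ih _ (lt_of_le_of_ne (Subgroup.card_le_card_group N)
        fun h => htop (Subgroup.eq_top_of_card_eq _ h)) N rfl (C.subgroupOf N) j ?_ ?_ hj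
      · exact ⟨⟨fun a b => by
          have := congrArg Subtype.val (hC.is_comm.comm (⟨a.1.1, a.2⟩ : C) ⟨b.1.1, b.2⟩)
          exact Subtype.ext (Subtype.ext this)⟩⟩
      · refine hodd.of_dvd_nat ?_
        rw [← Subgroup.inf_subgroupOf_right, Nat.card_congr (Subgroup.subgroupOfEquivOfLe
          (inf_le_right : C ⊓ N ≤ N)).toEquiv]
        exact Subgroup.card_dvd_of_le inf_le_left
    obtain ⟨i, -, hi⟩ := (Nat.dvd_prime_pow Nat.prime_two).mp
      (hk ▸ C.index_map_dvd (f := QuotientGroup.mk' N) (QuotientGroup.mk'_surjective N))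
    haveI : Group.IsSolvable (G ⧸ N) :=
      ih _ (by rw [hmul]; exact lt_mul_of_one_lt_right Nat.card_pos h1) (G ⧸ N) rfl
        (C.map (QuotientGroup.mk' N)) i inferInstance (hodd.of_dvd_nat (C.card_map_dvd _)) hi
    exact Group.isSolvable_of_ker_le_range N.subtype (QuotientGroup.mk' N)
      (by rw [QuotientGroup.ker_mk', Subgroup.range_subtype])

theorem exists_pair {G : Type u} [Group G] [Finite G] (D : Subgroup G) {k : ℕ}
    (hD : IsMulCommutative ↥D) (hodd : Odd (Nat.card D)) (hk : D.index = 2 ^ k) :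
    ∃ (P : Sylow 2 G) (D : Subgroup G), IsMulCommutative ↥D ∧
      Subgroup.IsComplement' (P : Subgroup G) D := by
  haveI := Fact.mk Nat.prime_two
  let P : Sylow 2 G := default
  have hP : Nat.card (P : Subgroup G) = 2 ^ k := by
    rw [P.card_eq_multiplicity]
    have hD2 : ¬ 2 ∣ Nat.card D := fun h => Nat.not_odd_iff_even.mpr (even_iff_two_dvd.mpr h) hodd
    rw [← D.card_mul_index, hk, Nat.factorization_mul Nat.card_pos.ne' (by positivity),
      Finsupp.add_apply, Nat.factorization_eq_zero_of_not_dvd hD2,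
      Nat.prime_two.factorization_pow]
    simp
  refine ⟨P, D, hD, Subgroup.isComplement'_of_coprime ?_ ?_⟩
  · rw [hP, mul_comm, ← hk, D.card_mul_index]
  · rw [hP]
    exact (Nat.coprime_two_left.mpr hodd).pow_left k


/-- Let H be a finite group in which a Sylow 2-subgroup has an abelian complement (an abelian subgroup meeting it trivially whose product with it is all of H). Then H is solvable, and every subgroup and every quotient group of H again has a Sylow 2-subgroup with an abelian complement. -/
theorem result {H : Type*} [Group H] [Finite H]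
    (S : Sylow 2 H) (C : Subgroup H) (hC : IsMulCommutative ↥C) (hSC : Subgroup.IsComplement' (S : Subgroup H) C) :
    Group.IsSolvable H ∧
    (∀ L : Subgroup H, ∃ (P : Sylow 2 ↥L) (D : Subgroup ↥L), IsMulCommutative ↥D ∧ Subgroup.IsComplement' (P : Subgroup ↥L) D) ∧
    (∀ (N : Subgroup H) [N.Normal], ∃ (P : Sylow 2 (H ⧸ N)) (D : Subgroup (H ⧸ N)),
      IsMulCommutative ↥D ∧ Subgroup.IsComplement' (P : Subgroup (H ⧸ N)) D) := by
  haveI := Fact.mk Nat.prime_two
  have hCcard : Nat.card C = (S : Subgroup H).index := hSC.symm.index_eq_card.symm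
  have hodd : Odd (Nat.card C) := by
    rw [← Nat.not_even_iff_odd, even_iff_two_dvd, hCcard]
    exact S.not_dvd_index
  have hidx : C.index = 2 ^ (Nat.card H).factorization 2 := by
    rw [← S.card_eq_multiplicity, hSC.index_eq_card]
  haveI hsol : Group.IsSolvable H := solvable_aux _ H rfl C _ hC hodd hidx
  refine ⟨hsol, fun L => ?_, fun N _ => ?_⟩
  · let π : Set ℕ := {p | p ≠ 2}
    obtain ⟨D, hD⟩ := exists_isPiHall (piSep_of_isSolvable π (G := L))
    obtain ⟨hD1, hD2⟩ := isPiHall_iff.mp hD
    have hCH : IsPiHall π C := isPiHall_iff.mpr ⟨fun p hp hpd h2 => by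
        subst h2; exact Nat.not_even_iff_odd.mpr hodd (even_iff_two_dvd.mpr hpd),
      fun p hp hpd hπ => hπ ((Nat.prime_dvd_prime_iff_eq hp Nat.prime_two).mp
        (hp.dvd_of_dvd_pow (hidx ▸ hpd)))⟩
    have hDcard : Nat.card (D.map L.subtype) = Nat.card D :=
      Subgroup.card_map_of_injective L.subtype_injective
    obtain ⟨g, hg⟩ := exists_conj_le (piSep_of_isSolvable π (G := H)) hCH (hDcard ▸ hD1)
    have hDc : IsMulCommutative ↥D := ⟨⟨fun a b => by
      apply Subtype.ext; apply L.subtype_injective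
      apply (MulAut.conj g).injective
      have ha : MulAut.conj g (a.1 : H) ∈ C := hg ⟨_, ⟨a.1, a.2, rfl⟩, rfl⟩
      have hb : MulAut.conj g (b.1 : H) ∈ C := hg ⟨_, ⟨b.1, b.2, rfl⟩, rfl⟩
      simpa using congrArg Subtype.val (hC.is_comm.comm (⟨_, ha⟩ : C) ⟨_, hb⟩)⟩⟩
    refine exists_pair D (k := (D.index).factorization 2) hDc ?_ ?_
    · rw [← Nat.not_even_iff_odd, even_iff_two_dvd]
      exact fun h => hD1 2 Nat.prime_two h rfl
    · refine Nat.eq_pow_of_factorization_eq_single Subgroup.index_ne_zero_of_finite ?_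
      ext p
      rcases eq_or_ne p 2 with rfl | hp
      · simp
      · rw [Finsupp.single_eq_of_ne hp]
        by_cases hpp : p.Prime
        · exact Nat.factorization_eq_zero_of_not_dvd fun h => hD2 p hpp h hp
        · exact Nat.factorization_eq_zero_of_not_prime _ hpp
  · obtain ⟨i, -, hi⟩ := (Nat.dvd_prime_pow Nat.prime_two).mp
      (hidx ▸ C.index_map_dvd (f := QuotientGroup.mk' N) (QuotientGroup.mk'_surjective N))
    exact exists_pair (C.map (QuotientGroup.mk' N)) inferInstance
      (hodd.of_dvd_nat (C.card_map_dvd _)) hi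

end Cfsg.Agent.S3200
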