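import Cfsg.Statements.S3201
import Mathlib
import Cfsg.Agent.Lib.UniqueOrderP

set_option autoImplicit false
open Cfsg

namespace Cfsg.Agent.S3201

/-- Let S be a finite 2-group whose centre Z(S) has n ≥ 2 distinct maximal subgroups C₁, …, Cₙ with trivial intersection such that each quotient S/Cᵢ is a non-abelian group with exactly one involution (a generalized quaternion group). Then S is the internal direct product of an elementary abelian subgroup and a non-abelian subgroup with exactly one involution. -/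
theorem result {S : Type*} [Group S] [Finite S]
    (hS : IsPGroup 2 S) (n : ℕ) (hn : 2 ≤ n) (C : Fin n → Subgroup ↥(Subgroup.center S))
    (hCmax : ∀ i, IsCoatom (C i)) (hCinj : Function.Injective C) (hCint : ⨅ i, C i = ⊥)
    (hCq : ∀ i, ∃ (_ : ((C i).map (Subgroup.center S).subtype).Normal),
      ¬ IsMulCommutative (S ⧸ (C i).map (Subgroup.center S).subtype) ∧
      ∃! x : S ⧸ (C i).map (Subgroup.center S).subtype, orderOf x = 2) :
    ∃ E Q : Subgroup S, Cfsg.IsInternalDirectProduct E Q ⊤ ∧ Cfsg.IsElementaryAbelian 2 E ∧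
      ¬ IsMulCommutative ↥Q ∧ ∃! x : ↥Q, orderOf x = 2 := by
  classical
  haveI : Fact (Nat.Prime 2) := ⟨Nat.prime_two⟩
  haveI := fun i => (hCq i).choose
  have hDZ : ∀ i, ∀ w ∈ ((C i).map (Subgroup.center S).subtype), w ∈ (Subgroup.center S) := fun i w hw => Subgroup.map_subtype_le _ hw
  have hidx : ∀ i, (C i).index = 2 := by
    intro i
    have hp : IsPGroup 2 (Subgroup.center S) := hS.to_subgroup (Subgroup.center S)
    obtain ⟨k, hk⟩ := IsPGroup.iff_card.mp (hp.to_quotient (C i))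
    have hne : (C i) ≠ ⊤ := (hCmax i).1
    obtain ⟨k, rfl⟩ : ∃ j, k = j + 1 := by
      rcases k with _ | j
      · rw [pow_zero, ← Subgroup.index_eq_card, Subgroup.index_eq_one] at hk; exact absurd hk hne
      · exact ⟨j, rfl⟩
    obtain ⟨w, hw⟩ := exists_prime_orderOf_dvd_card' 2 (hk ▸ dvd_pow_self 2 k.succ_ne_zero)
    have hlt : C i < (Subgroup.zpowers w).comap (QuotientGroup.mk' (C i)) := by
      refine lt_of_le_of_ne (fun x hx => ?_) fun e => ?_
      · show (x : (Subgroup.center S) ⧸ C i) ∈ Subgroup.zpowers w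
        rw [(QuotientGroup.eq_one_iff x).mpr hx]; exact one_mem _
      · obtain ⟨v, rfl⟩ := QuotientGroup.mk'_surjective (C i) w
        have : v ∈ C i := e ▸ Subgroup.mem_zpowers ((QuotientGroup.mk' (C i)) v)
        rw [show QuotientGroup.mk' (C i) v = 1 from (QuotientGroup.eq_one_iff v).mpr this, orderOf_one] at hw
        omega
    have := (hCmax i).2 _ hlt
    have h2 : Subgroup.zpowers w = ⊤ := by
      rw [← Subgroup.map_comap_eq_self_of_surjective (QuotientGroup.mk'_surjective _) (Subgroup.zpowers w), this,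
        Subgroup.map_top_of_surjective _ (QuotientGroup.mk'_surjective _)]
    rw [Subgroup.index_eq_card, ← Subgroup.card_top (G := (Subgroup.center S) ⧸ C i), ← h2, Nat.card_zpowers, hw]
  have hmemD : ∀ i w, ∀ hw : w ∈ (Subgroup.center S), w ∈ ((C i).map (Subgroup.center S).subtype) ↔ (⟨w, hw⟩ : (Subgroup.center S)) ∈ C i := fun i w hw => by
    constructor
    · rintro ⟨v, hv, rfl⟩; exact hv
    · exact fun h => ⟨_, h, rfl⟩
  have hall : ∀ w, (∀ i, w ∈ ((C i).map (Subgroup.center S).subtype)) → w = 1 := by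
    intro w hw
    have hwZ : w ∈ (Subgroup.center S) := hDZ ⟨0, by omega⟩ w (hw _)
    have : (⟨w, hwZ⟩ : (Subgroup.center S)) ∈ ⨅ i, C i := Subgroup.mem_iInf.mpr fun i => (hmemD i w hwZ).mp (hw i)
    rw [hCint, Subgroup.mem_bot] at this
    exact congrArg Subtype.val this
  have hmul : ∀ i u v, u ∈ (Subgroup.center S) → v ∈ (Subgroup.center S) → u ∉ ((C i).map (Subgroup.center S).subtype) → v ∉ ((C i).map (Subgroup.center S).subtype) → u * v ∈ ((C i).map (Subgroup.center S).subtype) := by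
    intro i u v hu hv h1 h2
    rw [hmemD i _ hu] at h1; rw [hmemD i _ hv] at h2
    rw [hmemD i _ (mul_mem hu hv)]
    exact (Subgroup.mul_mem_iff_of_index_two (hidx i) (a := ⟨u, hu⟩) (b := ⟨v, hv⟩)).mpr
      (iff_of_false h1 h2)
  have hsqZ : ∀ w ∈ (Subgroup.center S), w * w = 1 := fun w hw => hall _ fun i => by
    by_cases h : w ∈ ((C i).map (Subgroup.center S).subtype)
    · exact mul_mem h h
    · exact hmul i w w hw hw h h
  have hinvZ : ∀ i, ∃ w ∈ (Subgroup.center S), w ∉ ((C i).map (Subgroup.center S).subtype) := fun i => by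
    by_contra h
    push Not at h
    exact (hCmax i).1 (eq_top_iff.mpr fun w _ => (hmemD i w w.2).mp (h w w.2))
  have hP1 : ∀ i x, x * x ∈ ((C i).map (Subgroup.center S).subtype) → x ∈ (Subgroup.center S) := by
    intro i x hx
    by_cases h : x ∈ ((C i).map (Subgroup.center S).subtype)
    · exact hDZ i x h
    obtain ⟨w, hw, hwD⟩ := hinvZ i
    obtain ⟨u, hu, huniq⟩ := (hCq i).choose_spec.2
    have ho : ∀ y, y * y ∈ ((C i).map (Subgroup.center S).subtype) → y ∉ ((C i).map (Subgroup.center S).subtype) → (QuotientGroup.mk y : S ⧸ ((C i).map (Subgroup.center S).subtype)) = u := fun y h1 h2 => by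
      refine huniq _ (orderOf_eq_prime ?_ fun e => h2 ((QuotientGroup.eq_one_iff y).mp e))
      rw [sq, ← QuotientGroup.mk_mul, QuotientGroup.eq_one_iff]; exact h1
    have e := (ho x hx h).trans (ho w (by rw [hsqZ w hw]; exact one_mem _) hwD).symm
    rw [QuotientGroup.eq] at e
    have := mul_mem hw (inv_mem (hDZ i _ e))
    rwa [show w * (x⁻¹ * w)⁻¹ = x by group] at this
  obtain ⟨i₀⟩ : Nonempty (Fin n) := ⟨⟨0, by omega⟩⟩
  set π := QuotientGroup.mk' (((C i₀).map (Subgroup.center S).subtype)) with hπ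
  have hu0 : CfsgLib.UniqueOrderP.Uniq 2 (S ⧸ ((C i₀).map (Subgroup.center S).subtype)) := fun x y hx hy => by
    obtain ⟨u, -, huq⟩ := (hCq i₀).choose_spec.2
    rw [huq y hy, ← huq x hx]; exact Subgroup.mem_zpowers x
  obtain ⟨k, ⟨e⟩⟩ : ∃ k : ℕ, Nonempty ((S ⧸ ((C i₀).map (Subgroup.center S).subtype)) ≃* QuaternionGroup (2 ^ k)) := by
    rcases CfsgLib.UniqueOrderP.cyclic_or_quaternion (hS.to_quotient (((C i₀).map (Subgroup.center S).subtype))) hu0 with h | ⟨-, k, h⟩
    · exact absurd ⟨⟨fun x y => (IsCyclic.commGroup (α := S ⧸ ((C i₀).map (Subgroup.center S).subtype))).mul_comm x y⟩⟩ (hCq i₀).choose_spec.1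
    · exact ⟨k, h⟩
  obtain ⟨j, rfl⟩ : ∃ j, k = j + 1 := by
    rcases k with _ | j
    · refine absurd ⟨⟨fun x y => e.injective ?_⟩⟩ (hCq i₀).choose_spec.1
      have hcom : ∀ u v : QuaternionGroup (2 ^ 0), u * v = v * u := by decide
      rw [map_mul, map_mul, hcom]
    · exact ⟨j, rfl⟩
  set m := 2 ^ (j + 1) with hm
  obtain ⟨a, ha⟩ := QuotientGroup.mk'_surjective (((C i₀).map (Subgroup.center S).subtype)) (e.symm (QuaternionGroup.a 1))
  obtain ⟨b, hb⟩ := QuotientGroup.mk'_surjective (((C i₀).map (Subgroup.center S).subtype)) (e.symm (QuaternionGroup.xa 0))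
  have ea : ∀ t : ℕ, e (π (a ^ t)) = QuaternionGroup.a (t : ZMod (2 * m)) := fun t => by
    rw [map_pow, ha, map_pow, MulEquiv.apply_symm_apply, QuaternionGroup.a_one_pow]
  have eb : e (π b) = QuaternionGroup.xa 0 := by rw [hb, MulEquiv.apply_symm_apply]
  have hker : ∀ x, x ∈ ((C i₀).map (Subgroup.center S).subtype) ↔ e (π x) = 1 := fun x => by
    rw [e.map_eq_one_iff]; exact (QuotientGroup.eq_one_iff x).symm
  have hm2 : 2 ≤ m := by rw [hm, pow_succ]; have := Nat.two_pow_pos j; omega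
  have hone : (1 : QuaternionGroup m) = QuaternionGroup.a 0 := rfl
  have hanot : ∀ t : ℕ, 0 < t → t < m → a ^ t ∉ (Subgroup.center S) := by
    intro t h1 h2 hZt
    have h3 : a ^ t * a ^ t ∈ ((C i₀).map (Subgroup.center S).subtype) := by rw [hsqZ _ hZt]; exact one_mem _
    rw [hker, ← pow_add, ea, hone, QuaternionGroup.a.injEq, ZMod.natCast_eq_zero_iff] at h3
    have := Nat.le_of_dvd (by omega) h3
    omega
  have hbnot : ∀ t : ℕ, b * a ^ t ∉ (Subgroup.center S) := by
    intro t hZt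
    have h3 : b * a ^ t * (b * a ^ t) ∈ ((C i₀).map (Subgroup.center S).subtype) := by rw [hsqZ _ hZt]; exact one_mem _
    rw [hker, map_mul π, map_mul e, map_mul π, map_mul e, eb, ea, QuaternionGroup.xa_mul_a,
      QuaternionGroup.xa_mul_xa, hone, QuaternionGroup.a.injEq, add_sub_cancel_right,
      ZMod.natCast_eq_zero_iff] at h3
    have := Nat.le_of_dvd (by omega) h3
    omega
  have hamZ : a ^ m ∈ (Subgroup.center S) := by
    refine hP1 i₀ _ ?_
    rw [hker, ← pow_add, ea, ← two_mul, ZMod.natCast_self]; rfl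
  have hamD : ∀ i, a ^ m ∉ ((C i).map (Subgroup.center S).subtype) := fun i h => by
    refine hanot (2 ^ j) (Nat.two_pow_pos j) (by rw [hm, pow_succ]; have := Nat.two_pow_pos j; omega) (hP1 i _ ?_)
    rwa [← pow_add, show 2 ^ j + 2 ^ j = m by rw [hm, pow_succ]; ring]
  have hb2Z : b * b ∈ (Subgroup.center S) := by
    refine hP1 i₀ _ ?_
    rw [hker, map_mul π, map_mul e, map_mul π, map_mul e, eb, QuaternionGroup.xa_mul_xa, QuaternionGroup.a_mul_a,
      hone, QuaternionGroup.a.injEq, sub_zero, add_zero, ← Nat.cast_add, ← two_mul, ZMod.natCast_self]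
  have hb1 : b ∉ (Subgroup.center S) := by simpa using hbnot 0
  have hb2D : ∀ i, b * b ∉ ((C i).map (Subgroup.center S).subtype) := fun i h => hb1 (hP1 i b h)
  set c := b * a * b⁻¹ * a with hc
  have hcD₀ : c ∈ ((C i₀).map (Subgroup.center S).subtype) := by
    rw [hker, hc, map_mul π, map_mul e, map_mul π, map_mul e, map_mul π, map_mul e, map_inv π, map_inv e, eb]
    have := ea 1; rw [pow_one, Nat.cast_one] at this
    rw [this, QuaternionGroup.xa_mul_a]
    show QuaternionGroup.xa (0 + 1) * QuaternionGroup.xa ((m : ZMod (2 * m)) + 0) * QuaternionGroup.a 1 = _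
    rw [QuaternionGroup.xa_mul_xa, QuaternionGroup.a_mul_a, hone, QuaternionGroup.a.injEq]
    have hz : ((2 * m : ℕ) : ZMod (2 * m)) = 0 := ZMod.natCast_self _
    push_cast at hz
    linear_combination hz
  have hcZ : c ∈ (Subgroup.center S) := hDZ _ _ hcD₀
  have hcD : ∀ i, c ∈ ((C i).map (Subgroup.center S).subtype) := fun i => by
    by_contra h
    refine hbnot 1 (hP1 i (b * a ^ 1) ?_)
    have hca : a⁻¹ * (b * b) = b * b * a⁻¹ := Subgroup.mem_center_iff.mp hb2Z a⁻¹
    have e1 : b * a ^ 1 * (b * a ^ 1) = c * (b * b) :=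
      calc b * a ^ 1 * (b * a ^ 1) = c * (a⁻¹ * (b * b)) * a := by rw [hc]; group
        _ = c * (b * b * a⁻¹) * a := by rw [hca]
        _ = c * (b * b) := by group
    rw [e1]
    exact hmul i _ _ hcZ hb2Z h (hb2D i)
  have hc1 : c = 1 := hall c hcD
  have hbb : b * b = a ^ m := by
    have := hall _ fun i => hmul i _ _ hamZ hb2Z (hamD i) (hb2D i)
    rw [eq_inv_of_mul_eq_one_left this, inv_eq_of_mul_eq_one_right (hsqZ _ hb2Z)]
  have hba : SemiconjBy b a a⁻¹ := by
    show b * a = a⁻¹ * b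
    rw [hc] at hc1
    rw [← eq_inv_of_mul_eq_one_left hc1, inv_mul_cancel_right]
  have hba' : ∀ i : ℤ, b * a ^ i = a ^ (-i) * b := fun i => by rw [zpow_neg, ← inv_zpow]; exact (hba.zpow_right i).eq
  let Q : Subgroup S :=
    { carrier := {g | ∃ i : ℤ, g = a ^ i ∨ g = a ^ i * b}
      one_mem' := ⟨0, Or.inl (by simp)⟩
      mul_mem' := by
        rintro g h ⟨i, rfl | rfl⟩ ⟨l, rfl | rfl⟩
        · exact ⟨i + l, Or.inl (zpow_add a i l).symm⟩
        · exact ⟨i + l, Or.inr (by rw [← mul_assoc, zpow_add])⟩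
        · exact ⟨i - l, Or.inr (by rw [mul_assoc, hba', ← mul_assoc, ← zpow_add, sub_eq_add_neg])⟩
        · exact ⟨i - l + m, Or.inl (by
            rw [mul_assoc, ← mul_assoc b, hba', mul_assoc (a ^ (-l)), hbb, ← zpow_natCast, ← zpow_add, ← zpow_add]
            congr 1; ring)⟩
      inv_mem' := by
        rintro g ⟨i, rfl | rfl⟩
        · exact ⟨-i, Or.inl (zpow_neg a i).symm⟩
        · refine ⟨i + m, Or.inr ?_⟩
          rw [inv_eq_iff_mul_eq_one, mul_assoc, ← mul_assoc b, hba', mul_assoc (a ^ (-(i + m : ℤ))), hbb,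
            ← zpow_natCast, ← zpow_add, ← zpow_add]
          simp }
  have haQ : a ∈ Q := ⟨1, Or.inl (zpow_one a).symm⟩
  have hbQ : b ∈ Q := ⟨0, Or.inr (by simp)⟩
  let f : Q →* S ⧸ ((C i₀).map (Subgroup.center S).subtype) := π.comp Q.subtype
  have hinj : Function.Injective f := by
    rw [injective_iff_map_eq_one]
    rintro ⟨g, i, rfl | rfl⟩ hg
    · apply Subtype.ext
      show a ^ i = 1
      have ho : orderOf (e (π a)) = 2 * m := by rw [ha, MulEquiv.apply_symm_apply, QuaternionGroup.orderOf_a_one]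
      have h1 : e (π a) ^ i = 1 := by rw [← map_zpow, ← map_zpow]; exact e.map_eq_one_iff.mpr hg
      rw [← orderOf_dvd_iff_zpow_eq_one, ho] at h1
      obtain ⟨q, rfl⟩ := h1
      rw [zpow_mul, zpow_natCast, mul_comm, pow_mul, sq, hsqZ _ hamZ, one_zpow]
    · exfalso
      have ho : orderOf (e (π a)) = 2 * m := by rw [ha, MulEquiv.apply_symm_apply, QuaternionGroup.orderOf_a_one]
      have h1 : e (π a) ^ i * QuaternionGroup.xa 0 = 1 := by
        rw [← eb, ← map_zpow, ← map_zpow, ← map_mul, ← map_mul]; exact e.map_eq_one_iff.mpr hg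
      have h2 : QuaternionGroup.xa 0 ∈ Subgroup.zpowers (e (π a)) :=
        ⟨-i, by simp only [zpow_neg]; exact inv_eq_of_mul_eq_one_right h1⟩
      rw [ha, MulEquiv.apply_symm_apply] at h2
      obtain ⟨t, ht⟩ := mem_powers_iff_mem_zpowers.mpr h2
      simp [QuaternionGroup.a_one_pow] at ht
  have hrep : ∀ y : S, ∃ q : Q, π q = π y := by
    intro y
    cases h : e (π y) with
    | a t => exact ⟨⟨a ^ t.val, pow_mem haQ _⟩, e.injective (by rw [h]; show e (π (a ^ t.val)) = _; rw [ea, ZMod.natCast_zmod_val])⟩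
    | xa t =>
      refine ⟨⟨b * a ^ t.val, mul_mem hbQ (pow_mem haQ _)⟩, e.injective ?_⟩
      rw [h]; show e (π (b * a ^ t.val)) = _
      rw [map_mul, map_mul, eb, ea, QuaternionGroup.xa_mul_a, zero_add, ZMod.natCast_zmod_val]
  have hsurj : Function.Surjective f := fun y => by
    obtain ⟨y, rfl⟩ := QuotientGroup.mk'_surjective _ y
    exact hrep y
  let E := MulEquiv.ofBijective f ⟨hinj, hsurj⟩
  refine ⟨((C i₀).map (Subgroup.center S).subtype), Q, ⟨le_top, le_top, fun u hu v _ => (Subgroup.mem_center_iff.mp (hDZ _ u hu) v).symm, ?_, ?_⟩,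
    ⟨⟨⟨fun x y => Subtype.ext (Subgroup.mem_center_iff.mp (hDZ _ _ x.2) y).symm⟩⟩,
      fun w hw => by rw [sq]; exact hsqZ w (hDZ _ w hw)⟩, fun hQ => ?_, ?_⟩
  · rw [Subgroup.eq_bot_iff_forall]
    rintro g ⟨hg1, hg2⟩
    have := hinj (a₁ := ⟨g, hg2⟩) (a₂ := 1) (by rw [map_one]; exact (QuotientGroup.eq_one_iff g).mpr hg1)
    exact congrArg Subtype.val this
  · rw [eq_top_iff]
    intro y _
    obtain ⟨q, hq⟩ := hrep y
    have h' : (q : S)⁻¹ * y ∈ ((C i₀).map (Subgroup.center S).subtype) := QuotientGroup.eq.mp hq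
    have := mul_mem (Subgroup.mem_sup_right (S := ((C i₀).map (Subgroup.center S).subtype)) q.2) (Subgroup.mem_sup_left h')
    rwa [mul_inv_cancel_left] at this
  · exact (hCq i₀).choose_spec.1 ⟨⟨fun x y => E.symm.injective (by rw [map_mul, map_mul]; exact hQ.is_comm.comm _ _)⟩⟩
  · obtain ⟨u, hu, huq⟩ := (hCq i₀).choose_spec.2
    refine ⟨E.symm u, by show orderOf (E.symm u) = 2; rw [MulEquiv.orderOf_eq]; exact hu, fun y hy => E.injective ?_⟩
    rw [MulEquiv.apply_symm_apply]
    exact huq _ (by show orderOf (E y) = 2; rw [MulEquiv.orderOf_eq]; exact hy)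

end Cfsg.Agent.S3201
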