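import Cfsg.Statements.S3202
import Mathlib
import Cfsg.Agent.Lib.UniqueOrderP

set_option autoImplicit false
open Cfsg
open scoped commutatorElement

namespace Cfsg.Agent.S3202

/-- Let S be a finite 2-group of 2-rank exactly 2 and D a maximal subgroup of the centre of S such that S/D is a non-abelian group with exactly one involution (a generalized quaternion group). Then S has a nontrivial cyclic characteristic subgroup. -/
theorem result {S : Type*} [Group S]
    [Finite S] (hS : IsPGroup 2 S) (hr2 : Cfsg.PRankLE 2 2 S) (hr1 : ¬ Cfsg.PRankLE 2 1 S)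
    (D : Subgroup ↥(Subgroup.center S)) (hD : IsCoatom D)
    (hq : ∃ (_ : (D.map (Subgroup.center S).subtype).Normal),
      ¬ IsMulCommutative (S ⧸ D.map (Subgroup.center S).subtype) ∧
      ∃! x : S ⧸ D.map (Subgroup.center S).subtype, orderOf x = 2) :
    ∃ C : Subgroup S, C ≠ ⊥ ∧ IsCyclic ↥C ∧ C.Characteristic := by
  classical
  haveI : Fact (Nat.Prime 2) := ⟨Nat.prime_two⟩
  obtain ⟨hn, hnc, hu⟩ := hq
  haveI := hn
  have hu0 : CfsgLib.UniqueOrderP.Uniq 2 (S ⧸ D.map (Subgroup.center S).subtype) := fun x y hx hy => by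
    obtain ⟨u, -, huq⟩ := hu
    rw [huq y hy, ← huq x hx]; exact Subgroup.mem_zpowers x
  set π := QuotientGroup.mk' (D.map (Subgroup.center S).subtype) with hπ
  obtain ⟨k, ⟨e⟩⟩ : ∃ k : ℕ, Nonempty ((S ⧸ D.map (Subgroup.center S).subtype) ≃* QuaternionGroup (2 ^ k)) := by
    rcases CfsgLib.UniqueOrderP.cyclic_or_quaternion (hS.to_quotient _) hu0 with h | ⟨-, k, h⟩
    · exact absurd ⟨⟨fun x y => (IsCyclic.commGroup (α := S ⧸ D.map (Subgroup.center S).subtype)).mul_comm x y⟩⟩ hnc
    · exact ⟨k, h⟩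
  obtain ⟨a, ha⟩ := QuotientGroup.mk'_surjective (D.map (Subgroup.center S).subtype) (e.symm (QuaternionGroup.a 1))
  obtain ⟨b, hb⟩ := QuotientGroup.mk'_surjective (D.map (Subgroup.center S).subtype) (e.symm (QuaternionGroup.xa 0))
  have hZ : ∀ w ∈ D.map (Subgroup.center S).subtype, ∀ g : S, Commute g w := fun w hw g =>
    Subgroup.mem_center_iff.mp (Subgroup.map_subtype_le _ hw) g
  have hwD : b * a * b⁻¹ * a ∈ D.map (Subgroup.center S).subtype := by
    rw [← QuotientGroup.eq_one_iff, ← QuotientGroup.mk'_apply, map_mul, map_mul, map_mul, map_inv, ha, hb]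
    apply e.injective
    rw [map_mul, map_mul, map_mul, map_inv, MulEquiv.apply_symm_apply, MulEquiv.apply_symm_apply, map_one]
    show QuaternionGroup.xa (0 : ZMod (2 * 2 ^ k)) * QuaternionGroup.a 1 *
      QuaternionGroup.xa (((2 ^ k : ℕ) : ZMod (2 * 2 ^ k)) + 0) * QuaternionGroup.a 1 = QuaternionGroup.a 0
    rw [QuaternionGroup.xa_mul_a, QuaternionGroup.xa_mul_xa, QuaternionGroup.a_mul_a, QuaternionGroup.a.injEq]
    have hz : ((2 * 2 ^ k : ℕ) : ZMod (2 * 2 ^ k)) = 0 := ZMod.natCast_self _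
    push_cast at hz ⊢
    linear_combination hz
  set w := b * a * b⁻¹ * a with hw
  have hwc := hZ w hwD
  set c := a * b * a⁻¹ * b⁻¹ with hc
  have hc2 : c = a * a * w⁻¹ := by
    have h1 : b * a⁻¹ * b⁻¹ = a * w⁻¹ := by rw [hw]; group
    calc c = a * (b * a⁻¹ * b⁻¹) := by rw [hc]; group
      _ = a * a * w⁻¹ := by rw [h1, mul_assoc]
  have hca : Commute a c := hc2 ▸ ((Commute.refl a).mul_right (Commute.refl a)).mul_right (hwc a).inv_right
  have hcb : b * c * b⁻¹ = c⁻¹ := by
    have h1 : b * a * b⁻¹ = w * a⁻¹ := by rw [hw]; group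
    rw [hc2]
    calc b * (a * a * w⁻¹) * b⁻¹ = (b * a * b⁻¹) * (b * a * b⁻¹) * (b * w⁻¹ * b⁻¹) := by group
      _ = (w * a⁻¹) * (w * a⁻¹) * w⁻¹ := by rw [← h1, (hwc b).inv_right.eq]; group
      _ = w * (a⁻¹ * w) * a⁻¹ * w⁻¹ := by group
      _ = w * (w * a⁻¹) * a⁻¹ * w⁻¹ := by rw [(hwc a⁻¹).eq]
      _ = w * (w * (a⁻¹ * a⁻¹) * w⁻¹) := by group
      _ = (a * a * w⁻¹)⁻¹ := by rw [(((hwc a⁻¹).mul_left (hwc a⁻¹)).symm).eq]; group
  have hgen : Subgroup.closure (({a, b} : Set S) ∪ (D.map (Subgroup.center S).subtype : Subgroup S)) = ⊤ := by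
    rw [eq_top_iff]
    intro g _
    have hd : ∀ r : S, π r = π g → r ∈ Subgroup.closure (({a, b} : Set S) ∪ (D.map (Subgroup.center S).subtype : Subgroup S)) →
        g ∈ Subgroup.closure (({a, b} : Set S) ∪ (D.map (Subgroup.center S).subtype : Subgroup S)) := fun r hr hrm => by
      have h' : r⁻¹ * g ∈ D.map (Subgroup.center S).subtype := QuotientGroup.eq.mp hr
      have := mul_mem hrm (Subgroup.subset_closure (Or.inr h'))
      rwa [mul_inv_cancel_left] at this
    have hA : a ∈ Subgroup.closure (({a, b} : Set S) ∪ (D.map (Subgroup.center S).subtype : Subgroup S)) :=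
      Subgroup.subset_closure (Or.inl (Or.inl rfl))
    have hB : b ∈ Subgroup.closure (({a, b} : Set S) ∪ (D.map (Subgroup.center S).subtype : Subgroup S)) :=
      Subgroup.subset_closure (Or.inl (Or.inr rfl))
    cases h : e (π g) with
    | a t => exact hd (a ^ t.val) (e.injective (by
        rw [h, map_pow π, ha, map_pow, MulEquiv.apply_symm_apply, QuaternionGroup.a_one_pow, ZMod.natCast_zmod_val])) (pow_mem hA _)
    | xa t => exact hd (b * a ^ t.val) (e.injective (by
        rw [h, map_mul π, map_pow π, ha, hb, map_mul, map_pow, MulEquiv.apply_symm_apply, MulEquiv.apply_symm_apply,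
          QuaternionGroup.a_one_pow, QuaternionGroup.xa_mul_a, zero_add, ZMod.natCast_zmod_val])) (mul_mem hB (pow_mem hA _))
  haveI hN : (Subgroup.zpowers c).Normal := by
    rw [← Subgroup.normalizer_eq_top_iff, eq_top_iff, ← hgen, Subgroup.closure_le]
    intro g hg
    suffices h : g * c * g⁻¹ = c ∨ g * c * g⁻¹ = c⁻¹ by
      refine Subgroup.mem_normalizer_iff_map_conj_eq.mpr ?_
      rw [MonoidHom.map_zpowers]
      show Subgroup.zpowers (g * c * g⁻¹) = _
      rcases h with h | h <;> rw [h]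
      exact Subgroup.zpowers_inv
    rcases hg with (rfl | rfl) | hg
    · exact Or.inl (by rw [hca.eq, mul_inv_cancel_right])
    · exact Or.inr hcb
    · exact Or.inl (by rw [← ((hZ g hg) c).eq, mul_inv_cancel_right])
  have hab : commutator S ≤ Subgroup.zpowers c := by
    have hq : ∀ u v : S, u * v * u⁻¹ * v⁻¹ ∈ Subgroup.zpowers c → Commute (u : S ⧸ Subgroup.zpowers c) v := fun u v h => by
      have := (QuotientGroup.eq_one_iff _).mpr h
      rw [QuotientGroup.mk_mul, QuotientGroup.mk_mul, QuotientGroup.mk_mul, QuotientGroup.mk_inv, QuotientGroup.mk_inv,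
        mul_inv_eq_one, mul_inv_eq_iff_eq_mul] at this
      exact this
    have hpair : ∀ u ∈ ({a, b} : Set S) ∪ (D.map (Subgroup.center S).subtype : Subgroup S),
        ∀ v ∈ ({a, b} : Set S) ∪ (D.map (Subgroup.center S).subtype : Subgroup S), Commute (u : S ⧸ Subgroup.zpowers c) v := by
      intro u hu v hv
      rcases hu with (rfl | rfl) | hu
      · rcases hv with (rfl | rfl) | hv
        · exact Commute.refl _
        · exact hq _ _ (Subgroup.mem_zpowers _)
        · exact (hZ v hv _).map (QuotientGroup.mk' (Subgroup.zpowers c))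
      · rcases hv with (rfl | rfl) | hv
        · exact (hq _ _ (Subgroup.mem_zpowers _)).symm
        · exact Commute.refl _
        · exact (hZ v hv _).map (QuotientGroup.mk' (Subgroup.zpowers c))
      · exact (hZ u hu v).symm.map (QuotientGroup.mk' (Subgroup.zpowers c))
    have hall : ∀ u v : S, Commute (u : S ⧸ Subgroup.zpowers c) v := by
      intro u v
      have hu : u ∈ Subgroup.closure (({a, b} : Set S) ∪ (D.map (Subgroup.center S).subtype : Subgroup S)) := hgen ▸ Subgroup.mem_top u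
      have hv : v ∈ Subgroup.closure (({a, b} : Set S) ∪ (D.map (Subgroup.center S).subtype : Subgroup S)) := hgen ▸ Subgroup.mem_top v
      refine Subgroup.closure_induction₂ (p := fun (u v : S) _ _ => Commute (u : S ⧸ Subgroup.zpowers c) v) (fun u v h1 h2 => hpair u h1 v h2) ?_ ?_ ?_ ?_ ?_ ?_ hu hv
      · intro v _; simp
      · intro u _; simp
      · intro x y z _ _ _ h1 h2; rw [QuotientGroup.mk_mul]; exact h1.mul_left h2
      · intro x y z _ _ _ h1 h2; rw [QuotientGroup.mk_mul]; exact h1.mul_right h2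
      · intro x y _ _ h; rw [QuotientGroup.mk_inv]; exact h.inv_left
      · intro x y _ _ h; rw [QuotientGroup.mk_inv]; exact h.inv_right
    rw [commutator_eq_closure, Subgroup.closure_le]
    rintro _ ⟨u, v, rfl⟩
    show ⁅u, v⁆ ∈ Subgroup.zpowers c
    rw [← QuotientGroup.eq_one_iff, commutatorElement_def, QuotientGroup.mk_mul, QuotientGroup.mk_mul,
      QuotientGroup.mk_mul, QuotientGroup.mk_inv, QuotientGroup.mk_inv, (hall u v).eq, mul_inv_cancel_right, mul_inv_cancel]
  refine ⟨commutator S, fun h => hnc ⟨⟨fun x y => ?_⟩⟩,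
    isCyclic_of_injective (Subgroup.inclusion hab) (Subgroup.inclusion_injective hab), inferInstance⟩
  obtain ⟨x, rfl⟩ := QuotientGroup.mk_surjective x
  obtain ⟨y, rfl⟩ := QuotientGroup.mk_surjective y
  have hm : ⁅x, y⁆ ∈ commutator S := Subgroup.commutator_mem_commutator (Subgroup.mem_top x) (Subgroup.mem_top y)
  rw [h, Subgroup.mem_bot, commutatorElement_eq_one_iff_mul_comm] at hm
  rw [← QuotientGroup.mk_mul, ← QuotientGroup.mk_mul, hm]

end Cfsg.Agent.S3202
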