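import Cfsg.Statements.S3208
import Mathlib.GroupTheory.Sylow
import Mathlib.GroupTheory.IndexNormal
import Mathlib.Tactic

set_option autoImplicit false
open Cfsg

namespace Cfsg.Agent.S3208

/-- Let j be an involution of a finite group G, H a subgroup of G, and T a Sylow 2-subgroup of H ∩ C_G(j) containing j such that ⟨j⟩ is a characteristic subgroup of T. Then T is a Sylow 2-subgroup of H. -/
theorem result {G : Type*} [Group G] [Finite G]
    (j : G) (hj : orderOf j = 2) (H T : Subgroup G) (hT : T ≤ H ⊓ Subgroup.centralizer ({j} : Set G)) (h2 : IsPGroup 2 ↥T)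
    (hSyl : ¬ 2 ∣ T.relIndex (H ⊓ Subgroup.centralizer ({j} : Set G))) (hjT : j ∈ T)
    (hchar : ((Subgroup.zpowers j).subgroupOf T).Characteristic) :
    ¬ 2 ∣ T.relIndex H := by
  haveI : Fact (Nat.Prime 2) := ⟨Nat.prime_two⟩
  set K := H ⊓ Subgroup.centralizer ({j} : Set G)
  have hTH : T ≤ H := le_trans hT inf_le_left
  intro hdvd
  obtain ⟨n, hn⟩ := IsPGroup.iff_card.1 h2
  have hcard : Nat.card ↥(T.subgroupOf H) = 2 ^ n := by
    rw [Nat.card_congr (Subgroup.subgroupOfEquivOfLe hTH).toEquiv, hn]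
  have hpow : 2 ^ (n + 1) ∣ Nat.card H := by
    rw [← (T.subgroupOf H).card_mul_index, hcard, pow_succ]
    exact mul_dvd_mul_left _ hdvd
  obtain ⟨L, hL, hTL⟩ := Sylow.exists_subgroup_card_pow_succ hpow hcard
  set L' := L.map H.subtype
  have hL' : Nat.card L' = 2 ^ (n + 1) := by
    rw [← hL]; exact (Nat.card_congr (L.equivMapOfInjective _ H.subtype_injective).toEquiv).symm
  have hTL' : T ≤ L' := fun x hx => ⟨⟨x, hTH hx⟩, hTL hx, rfl⟩
  have hrel : T.relIndex L' = 2 := by
    have h := Subgroup.relIndex_mul_relIndex ⊥ T L' bot_le hTL'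
    rw [Subgroup.relIndex_bot_left, Subgroup.relIndex_bot_left, hL', hn, pow_succ] at h
    exact mul_left_cancel₀ (by positivity) h
  haveI : (T.subgroupOf L').Normal := Subgroup.normal_of_index_eq_two hrel
  have hLK : L' ≤ K := by
    intro g hg
    refine ⟨?_, Subgroup.mem_centralizer_singleton_iff.mpr ?_⟩
    · obtain ⟨y, -, rfl⟩ := hg; exact y.2
    let φ : MulAut ↥(T.subgroupOf L') := MulAut.conjNormal (⟨g, hg⟩ : ↥L')
    let e := Subgroup.subgroupOfEquivOfLe hTL'
    let ψ : ↥T ≃* ↥T := (e.symm.trans φ).trans e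
    have hval : ∀ x : T, ((ψ x : T) : G) = g * x * g⁻¹ := fun x => rfl
    have hz := Subgroup.characteristic_iff_map_le.1 hchar ψ
    have hmem : ψ ⟨j, hjT⟩ ∈ (Subgroup.zpowers j).subgroupOf T :=
      hz ⟨⟨j, hjT⟩, Subgroup.mem_zpowers j, rfl⟩
    rw [Subgroup.mem_subgroupOf, hval, Subgroup.mem_zpowers_iff] at hmem
    obtain ⟨k, hk⟩ := hmem
    simp only at hk
    have hj2 : j ^ (2 : ℤ) = 1 := by
      rw [show (2 : ℤ) = ((2 : ℕ) : ℤ) by rfl, zpow_natCast, ← hj, pow_orderOf_eq_one]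
    rcases Int.even_or_odd k with ⟨i, rfl⟩ | ⟨i, rfl⟩
    · exfalso
      rw [← two_mul, zpow_mul, hj2, one_zpow] at hk
      have : j = 1 := by
        calc j = g⁻¹ * (g * j * g⁻¹) * g := by group
          _ = 1 := by rw [← hk]; group
      simp [this] at hj
    · rw [zpow_add, zpow_mul, hj2, one_zpow, one_mul, zpow_one] at hk
      exact (mul_inv_eq_iff_eq_mul.1 hk.symm)
  refine hSyl ?_
  rw [← Subgroup.relIndex_mul_relIndex T L' K hTL' hLK, hrel]
  exact Dvd.intro _ rfl

end Cfsg.Agent.S3208
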