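import Cfsg.Statements.S3209
import Cfsg.Agent.Lib.PSL2.Sylow2
import Mathlib.Tactic

set_option autoImplicit false
open Cfsg

namespace Cfsg.Agent.S3209

open CfsgLib.PSL2Two in
lemma root_facts {G : Type*} [Group G] {F : Type*} [Field F] [Fintype F] (hodd : Fintype.card F % 2 = 1)
    (L : Subgroup G) (e : L ≃* Matrix.SpecialLinearGroup (Fin 2) F) (j : G) (hjL : j ∈ L) (hj1 : j ≠ 1) (hjj : j * j = 1) :
    (∀ a ∈ L, a * a = 1 → a = 1 ∨ a = j) ∧ (∃ u ∈ L, u * u = j) ∧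
    (∀ a ∈ L, ∀ b ∈ L, a * a = j → b * b = j → ∃ g ∈ L, g * a * g⁻¹ = b) := by
  have hinv : ∀ g : Matrix.SpecialLinearGroup (Fin 2) F, g ^ 2 = 1 → g = 1 ∨ g = -1 := by
    intro g hg
    have hi : g⁻¹ = g := inv_eq_of_mul_eq_one_right (by rw [← pow_two]; exact hg)
    have hd := entries g
    rw [Matrix.SpecialLinearGroup.SL2_inv_expl] at hi
    have h00 : g.1 1 1 = g.1 0 0 := congrFun (congrFun (congrArg Subtype.val hi) 0) 0
    have h01 : -g.1 0 1 = g.1 0 1 := congrFun (congrFun (congrArg Subtype.val hi) 0) 1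
    have h10 : -g.1 1 0 = g.1 1 0 := congrFun (congrFun (congrArg Subtype.val hi) 1) 0
    have b0 : g.1 0 1 = 0 := (mul_eq_zero.1 (show (2 : F) * g.1 0 1 = 0 by linear_combination -h01)).resolve_left (two_ne hodd)
    have c0 : g.1 1 0 = 0 := (mul_eq_zero.1 (show (2 : F) * g.1 1 0 = 0 by linear_combination -h10)).resolve_left (two_ne hodd)
    rw [b0, c0, h00, mul_zero, sub_zero] at hd
    rcases mul_self_eq_one_iff.1 hd with h | h
    · left; apply ext2 <;> simp [b0, c0, h00, h]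
    · right; apply ext2 <;> simp [b0, c0, h00, h]
  have hej : e ⟨j, hjL⟩ = -1 := by
    rcases hinv (e ⟨j, hjL⟩) (by rw [← map_pow, ← map_one e]; congr 1; exact Subtype.ext (by rw [pow_two]; exact hjj)) with h | h
    · exfalso
      rw [← map_one e] at h
      exact hj1 (congrArg Subtype.val (e.injective h))
    · exact h
  have hsq : ∀ a : L, (a : G) * a = j ↔ (e a) ^ 2 = -1 := fun a => by
    rw [← hej, ← map_pow, e.injective.eq_iff, pow_two, Subtype.ext_iff, Subgroup.coe_mul]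
  refine ⟨fun a ha haa => ?_, ?_, fun a ha b hb haa hbb => ?_⟩
  · rcases hinv (e ⟨a, ha⟩) (by rw [← map_pow, ← map_one e]; congr 1; exact Subtype.ext (by rw [pow_two]; exact haa)) with h | h
    · rw [← map_one e] at h; exact Or.inl (congrArg Subtype.val (e.injective h))
    · rw [← hej] at h; exact Or.inr (congrArg Subtype.val (e.injective h))
  · let w : Matrix.SpecialLinearGroup (Fin 2) F := ⟨!![0, -1; 1, 0], by simp [Matrix.det_fin_two]⟩
    refine ⟨e.symm w, (e.symm w).2, (hsq _).2 ?_⟩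
    rw [e.apply_symm_apply]
    exact (sq_eq_neg_one_iff hodd w).2 (by simp [w])
  · obtain ⟨c, hc⟩ := isConj_iff.1 (isConj_of_sq_eq_neg_one hodd ((hsq ⟨a, ha⟩).1 haa) ((hsq ⟨b, hb⟩).1 hbb))
    refine ⟨e.symm c, (e.symm c).2, ?_⟩
    have := congrArg e.symm hc
    rw [map_mul, map_mul, map_inv, e.symm_apply_apply, e.symm_apply_apply] at this
    exact congrArg Subtype.val this


/-- Let L₁ ≅ SL₂(q₁) and L₂ ≅ SL₂(q₂), q₁ and q₂ odd, be elementwise-commuting subgroups of a finite group meeting in ⟨j⟩ for an involution j. Then L₁L₂ has exactly two conjugacy classes of involutions: the central involution j, and one further class (there is an involution x ≠ j in L₁L₂, and every involution of L₁L₂ other than j is conjugate to x by an element of L₁L₂). -/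
theorem result {G : Type*} [Group G] [Finite G]
    {F₁ : Type*} [Field F₁] [Fintype F₁] {F₂ : Type*} [Field F₂] [Fintype F₂]
    (hF₁ : Odd (Fintype.card F₁)) (hF₂ : Odd (Fintype.card F₂)) (L₁ L₂ : Subgroup G)
    (e₁ : ↥L₁ ≃* Matrix.SpecialLinearGroup (Fin 2) F₁) (e₂ : ↥L₂ ≃* Matrix.SpecialLinearGroup (Fin 2) F₂)
    (hc : ∀ x ∈ L₁, ∀ y ∈ L₂, x * y = y * x) (j : G) (hj : orderOf j = 2) (hm : L₁ ⊓ L₂ = Subgroup.zpowers j) :
    ∃ x ∈ L₁ ⊔ L₂, orderOf x = 2 ∧ x ≠ j ∧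
      ∀ y ∈ L₁ ⊔ L₂, orderOf y = 2 → y = j ∨ ∃ g ∈ L₁ ⊔ L₂, g * x * g⁻¹ = y := by
  have hjm : j ∈ L₁ ⊓ L₂ := by rw [hm]; exact Subgroup.mem_zpowers j
  have hj1 : j ≠ 1 := fun h => by rw [h, orderOf_one] at hj; omega
  have hjj : j * j = 1 := by rw [← pow_two, ← hj]; exact pow_orderOf_eq_one j
  obtain ⟨i1, ⟨u, hu, huu⟩, c1⟩ := root_facts (by rw [← Nat.odd_iff]; exact hF₁) L₁ e₁ j hjm.1 hj1 hjj
  obtain ⟨i2, ⟨v, hv, hvv⟩, c2⟩ := root_facts (by rw [← Nat.odd_iff]; exact hF₂) L₂ e₂ j hjm.2 hj1 hjj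
  have hz : ∀ w, w ∈ L₁ ⊓ L₂ → w = 1 ∨ w = j := fun w hw => i1 w hw.1 (by
    rw [hm] at hw
    obtain ⟨k, rfl⟩ := hw
    show j ^ k * j ^ k = 1
    rw [← zpow_add, ← two_mul, zpow_mul, zpow_two, hjj, one_zpow])
  have hmulsq : ∀ a ∈ L₁, ∀ b ∈ L₂, a * b * (a * b) = a * a * (b * b) := fun a ha b hb => by
    rw [mul_assoc, ← mul_assoc b a b, ← hc a ha b hb]; simp only [mul_assoc]
  have huv1 : u * v ≠ 1 := fun h => by
    have hue : u = v⁻¹ := eq_inv_of_mul_eq_one_left h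
    have hu2 : u ∈ L₂ := hue ▸ L₂.inv_mem hv
    rcases hz u ⟨hu, hu2⟩ with e | e <;> rw [e] at huu
    · exact hj1 (by rw [← huu, one_mul])
    · exact hj1 (huu.symm.trans hjj)
  have huvj : u * v ≠ j := fun h => by
    have hue : u = j * v⁻¹ := eq_mul_inv_of_mul_eq h
    have hu2 : u ∈ L₂ := hue ▸ L₂.mul_mem hjm.2 (L₂.inv_mem hv)
    rcases hz u ⟨hu, hu2⟩ with e | e <;> rw [e] at huu
    · exact hj1 (by rw [← huu, one_mul])
    · exact hj1 (huu.symm.trans hjj)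
  refine ⟨u * v, Subgroup.mul_mem_sup hu hv, ?_, huvj, fun y hy hy2 => ?_⟩
  · exact orderOf_eq_prime (by rw [pow_two, hmulsq u hu v hv, huu, hvv, hjj]) huv1
  obtain ⟨a, ha, b, hb, rfl⟩ : ∃ a ∈ L₁, ∃ b ∈ L₂, a * b = y := by
    rw [← SetLike.mem_coe, Subgroup.coe_mul_of_right_le_normalizer_left L₁ L₂ (fun g hg => by
      rw [Subgroup.mem_normalizer_iff]
      intro h
      constructor
      · intro hh; rwa [← hc h hh g hg, mul_inv_cancel_right]
      · intro hh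
        have e : g⁻¹ * (g * h * g⁻¹) * g = g * h * g⁻¹ := by
          rw [← hc _ hh g⁻¹ (L₂.inv_mem hg), inv_mul_cancel_right]
        rw [show g⁻¹ * (g * h * g⁻¹) * g = h by group] at e
        exact e.symm ▸ hh)] at hy
    obtain ⟨a, ha, b, hb, h⟩ := hy
    exact ⟨a, ha, b, hb, h⟩
  have hyy : a * a * (b * b) = 1 := by rw [← hmulsq a ha b hb, ← pow_two, ← hy2]; exact pow_orderOf_eq_one _
  have ha2 : a * a ∈ L₁ ⊓ L₂ := ⟨L₁.mul_mem ha ha, (eq_inv_of_mul_eq_one_left hyy) ▸ L₂.inv_mem (L₂.mul_mem hb hb)⟩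
  rcases hz _ ha2 with h | h
  · left
    rw [h, one_mul] at hyy
    have hne : a * b ≠ 1 := fun e => by rw [e, orderOf_one] at hy2; omega
    rcases i1 a ha h with rfl | rfl <;> rcases i2 b hb hyy with rfl | rfl
    · exact absurd (one_mul 1) hne
    · exact one_mul _
    · exact mul_one _
    · exact absurd hjj hne
  · right
    rw [h] at hyy
    have hb' : b * b = j := (mul_right_inj j).1 (hyy.trans hjj.symm)
    obtain ⟨g, hg, hga⟩ := c1 u hu a ha huu h
    obtain ⟨k, hk, hkb⟩ := c2 v hv b hb hvv hb'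
    refine ⟨g * k, Subgroup.mul_mem_sup hg hk, ?_⟩
    calc g * k * (u * v) * (g * k)⁻¹ = g * (k * u) * v * k⁻¹ * g⁻¹ := by group
      _ = g * u * (k * v * k⁻¹) * g⁻¹ := by rw [← hc u hu k hk]; group
      _ = g * u * b * g⁻¹ := by rw [hkb]
      _ = g * u * (g⁻¹ * b) := by rw [hc g⁻¹ (L₁.inv_mem hg) b hb]; group
      _ = g * u * g⁻¹ * b := by group
      _ = a * b := by rw [hga]

end Cfsg.Agent.S3209
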