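import Cfsg.Statements.S3210
import Mathlib
import Cfsg.Agent.Lib.Linear.Card

set_option autoImplicit false
open Cfsg

namespace Cfsg.Agent.S3210
open scoped Pointwise

open scoped commutatorElement

universe u

variable {F : Type*} [Field F]

/-- scalar matrices of determinant one and degree two -/
def Sca (g : Matrix.SpecialLinearGroup (Fin 2) F) : Prop := g.1 0 1 = 0 ∧ g.1 1 0 = 0 ∧ g.1 0 0 = g.1 1 1

def up : Matrix.SpecialLinearGroup (Fin 2) F := ⟨!![1, 1; 0, 1], by simp [Matrix.det_fin_two]⟩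
def lo : Matrix.SpecialLinearGroup (Fin 2) F := ⟨!![1, 0; 1, 1], by simp [Matrix.det_fin_two]⟩

/-- if `d` commutes with all conjugates of `a` then one of them is scalar -/
theorem sca_of_comm (h2 : (2 : F) ≠ 0) {a d : Matrix.SpecialLinearGroup (Fin 2) F}
    (h : ∀ g, g * a * g⁻¹ * d = d * (g * a * g⁻¹)) : Sca a ∨ Sca d := by
  by_contra hh
  push Not at hh
  obtain ⟨ha, hd⟩ := hh
  have e1 := congrArg Subtype.val (h 1)
  have e2 := congrArg Subtype.val (h up)
  have e3 := congrArg Subtype.val (h lo)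
  simp only [one_mul, inv_one, mul_one, Matrix.SpecialLinearGroup.coe_mul, Matrix.SpecialLinearGroup.coe_inv] at e1 e2 e3
  rw [Matrix.eta_fin_two a.1, Matrix.eta_fin_two d.1] at e1 e2 e3
  simp only [up, lo, Matrix.adjugate_fin_two, Matrix.mul_fin_two] at e1 e2 e3
  have a1 := congrFun (congrFun e1 0) 0
  have a2 := congrFun (congrFun e1 0) 1
  have a3 := congrFun (congrFun e1 1) 0
  have b1 := congrFun (congrFun e2 0) 0
  have b2 := congrFun (congrFun e2 0) 1
  have b3 := congrFun (congrFun e2 1) 0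
  have c1 := congrFun (congrFun e3 0) 0
  have c2 := congrFun (congrFun e3 0) 1
  have c3 := congrFun (congrFun e3 1) 0
  simp at a1 a2 a3 b1 b2 b3 c1 c2 c3
  simp only [Sca, not_and_or] at ha hd
  -- the traceless parts
  generalize a.1 0 0 = p at *
  generalize a.1 0 1 = β at *
  generalize a.1 1 0 = γ at *
  generalize a.1 1 1 = p' at *
  generalize d.1 0 0 = r at *
  generalize d.1 0 1 = y at *
  generalize d.1 1 0 = z at *
  generalize d.1 1 1 = r' at *
  have k1 : γ * y - β * z = 0 := by linear_combination (-1) * a1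
  have k2 : (p - p') * y - β * (r - r') = 0 := by linear_combination a2
  have k3 : (p - p') * z - γ * (r - r') = 0 := by linear_combination (-1) * a3
  have m1 : γ * y - (β - (p - p') - γ) * z = 0 := by linear_combination (-1) * b1
  have m2 : (p - p' + 2 * γ) * z - γ * (r - r') = 0 := by linear_combination (-1) * b3
  have n1 : (γ + (p - p') - β) * y - β * z = 0 := by linear_combination (-1) * c1
  have n2 : (p - p' - 2 * β) * y - β * (r - r') = 0 := by linear_combination c2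
  have gz : γ * z = 0 := (mul_eq_zero.1 (show 2 * (γ * z) = 0 by linear_combination m2 - k3)).resolve_left h2
  have by' : β * y = 0 := (mul_eq_zero.1 (show 2 * (β * y) = 0 by linear_combination k2 - n2)).resolve_left h2
  have pz : (p - p') * z = 0 := by linear_combination m1 - k1 - gz
  have py : (p - p') * y = 0 := by linear_combination n1 - k1 + by'
  have g0 : γ * (r - r') = 0 := by linear_combination pz - k3
  have b0 : β * (r - r') = 0 := by linear_combination py - k2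
  by_cases hz : z = 0
  · by_cases hy : y = 0
    · have hr : r - r' ≠ 0 := by
        rw [sub_ne_zero]
        rcases hd with h | h | h
        · exact absurd hy h
        · exact absurd hz h
        · exact h
      have hb : β = 0 := (mul_eq_zero.1 b0).resolve_right hr
      have hg : γ = 0 := (mul_eq_zero.1 g0).resolve_right hr
      have hp : p - p' ≠ 0 := by
        rw [sub_ne_zero]
        rcases ha with h | h | h
        · exact absurd hb h
        · exact absurd hg h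
        · exact h
      have : (p - p') * (r - r') = 0 := by subst hz hy hb hg; linear_combination b2
      exact mul_ne_zero hp hr this
    · have hb : β = 0 := (mul_eq_zero.1 by').resolve_right hy
      have hp : p = p' := sub_eq_zero.1 ((mul_eq_zero.1 py).resolve_right hy)
      have hg : γ = 0 := by
        have : γ * y = 0 := by subst hb; linear_combination k1
        exact (mul_eq_zero.1 this).resolve_right hy
      rcases ha with h | h | h <;> contradiction
  · have hg : γ = 0 := (mul_eq_zero.1 gz).resolve_right hz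
    have hp : p = p' := sub_eq_zero.1 ((mul_eq_zero.1 pz).resolve_right hz)
    have hb : β = 0 := by
      have : β * z = 0 := by subst hg; linear_combination (-1) * k1
      exact (mul_eq_zero.1 this).resolve_right hz
    rcases ha with h | h | h <;> contradiction

/-- scalars are `1` or `-1` -/
theorem sca_cases {g : Matrix.SpecialLinearGroup (Fin 2) F} (h : Sca g) : g = 1 ∨ g = -1 := by
  obtain ⟨h01, h10, h00⟩ := h
  have hdet : g.1.det = 1 := g.2
  rw [Matrix.det_fin_two, h01, h10, mul_zero, sub_zero, ← h00] at hdet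
  rcases mul_self_eq_one_iff.1 hdet with h | h
  · left
    ext i j
    fin_cases i <;> fin_cases j
    all_goals first | simpa using h | simpa using h01 | simpa using h10 | simpa [← h00] using h
  · right
    ext i j
    fin_cases i <;> fin_cases j
    all_goals first | simpa using h | simpa using h01 | simpa using h10 | simpa [← h00] using h

theorem not_sca_comm : ¬ Sca (F := F) (⁅(up : Matrix.SpecialLinearGroup (Fin 2) F), lo⁆) := by
  intro h
  have := h.1
  rw [commutatorElement_def, Matrix.SpecialLinearGroup.coe_mul, Matrix.SpecialLinearGroup.coe_mul,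
    Matrix.SpecialLinearGroup.coe_mul, Matrix.SpecialLinearGroup.coe_inv, Matrix.SpecialLinearGroup.coe_inv] at this
  simp [up, lo, Matrix.adjugate_fin_two, Matrix.mul_fin_two] at this

variable {G : Type*} [Group G]

theorem eq_or_eq_one_of_zpowers {j x : G} (hj : orderOf j = 2) (hx : x ∈ Subgroup.zpowers j) : x = 1 ∨ x = j := by
  obtain ⟨k, rfl⟩ := Subgroup.mem_zpowers_iff.1 hx
  rcases Int.emod_two_eq_zero_or_one k with h | h
  · left; rw [← zpow_mod_orderOf, hj]; push_cast; rw [h, zpow_zero]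
  · right; rw [← zpow_mod_orderOf, hj]; push_cast; rw [h, zpow_one]

/-- the facts about one factor that are used -/
structure Fac (L : Subgroup G) (j : G) : Prop where
  two : ∀ A : Set G, A ⊆ L → (∀ g ∈ L, ∀ a ∈ A, g * a * g⁻¹ ∈ A) → ∀ b ∈ L, (∀ a ∈ A, a * b = b * a) →
    b ∈ Subgroup.zpowers j ∨ A ⊆ Subgroup.zpowers j
  derived : ∃ x ∈ L, ∃ y ∈ L, ⁅x, y⁆ ∉ Subgroup.zpowers j

theorem fac (h2 : (2 : F) ≠ 0) {L : Subgroup G} (e : ↥L ≃* Matrix.SpecialLinearGroup (Fin 2) F) {j : G}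
    (hj : orderOf j = 2) (hjL : j ∈ L) : Fac L j := by
  have hje : e ⟨j, hjL⟩ = -1 := by
    have hsq : e ⟨j, hjL⟩ * e ⟨j, hjL⟩ = 1 := by
      rw [← map_mul, ← map_one e]
      congr 1
      exact Subtype.ext (by show j * j = 1; rw [← pow_two, ← hj, pow_orderOf_eq_one])
    have hne : e ⟨j, hjL⟩ ≠ 1 := by
      rw [Ne, map_eq_one_iff e e.injective]
      intro h
      have h' : j = 1 := congrArg Subtype.val h
      rw [h', orderOf_one] at hj
      norm_num at hj
    refine (sca_cases ?_).resolve_left hne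
    generalize e ⟨j, hjL⟩ = J at *
    have hM : J.1 * J.1 = 1 := congrArg Subtype.val hsq
    have hdet : J.1.det = 1 := J.2
    have hinv : J.1.adjugate = J.1 := by
      calc J.1.adjugate = (J.1 * J.1) * J.1.adjugate := by rw [hM, one_mul]
        _ = _ := by rw [mul_assoc, Matrix.mul_adjugate, hdet, one_smul, mul_one]
    have p1 := congrFun (congrFun hinv 0) 1
    have p2 := congrFun (congrFun hinv 1) 0
    have p3 := congrFun (congrFun hinv 0) 0
    simp [Matrix.adjugate_fin_two] at p1 p2 p3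
    exact ⟨(mul_eq_zero.1 (show 2 * J.1 0 1 = 0 by linear_combination (-1) * p1)).resolve_left h2,
      (mul_eq_zero.1 (show 2 * J.1 1 0 = 0 by linear_combination (-1) * p2)).resolve_left h2, p3.symm⟩
  have key : ∀ (x : G) (hx : x ∈ L), Sca (e ⟨x, hx⟩) → x ∈ Subgroup.zpowers j := by
    intro x hx hs
    rcases sca_cases hs with h | h
    · rw [map_eq_one_iff e e.injective] at h
      rw [show x = 1 from congrArg Subtype.val h]
      exact one_mem _
    · rw [← hje, e.injective.eq_iff] at h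
      rw [show x = j from congrArg Subtype.val h]
      exact Subgroup.mem_zpowers j
  constructor
  · intro A hA hconj b hb hcomm
    by_contra hh
    push Not at hh
    obtain ⟨hb', hA'⟩ := hh
    obtain ⟨a, ha, ha'⟩ := Set.not_subset.1 hA'
    have h : ∀ g, g * e ⟨a, hA ha⟩ * g⁻¹ * e ⟨b, hb⟩ = e ⟨b, hb⟩ * (g * e ⟨a, hA ha⟩ * g⁻¹) := by
      intro g
      obtain ⟨g, rfl⟩ := e.surjective g
      simp only [← map_inv, ← map_mul]
      congr 1
      exact Subtype.ext (hcomm _ (hconj g.1 g.2 a ha))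
    rcases sca_of_comm h2 h with h | h
    · exact ha' (key a (hA ha) h)
    · exact hb' (key b hb h)
  · refine ⟨_, (e.symm up).2, _, (e.symm lo).2, fun h => ?_⟩
    have h' : Sca (e ⁅e.symm up, e.symm lo⁆) := by
      have hm : ((⁅e.symm up, e.symm lo⁆ : L) : G) ∈ Subgroup.zpowers j := by
        simpa [commutatorElement_def] using h
      rcases eq_or_eq_one_of_zpowers hj hm with h0 | h0
      · rw [show (⁅e.symm up, e.symm lo⁆ : L) = 1 from Subtype.ext h0, map_one]
        simp [Sca]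
      · rw [show (⁅e.symm up, e.symm lo⁆ : L) = ⟨j, hjL⟩ from Subtype.ext h0, hje]
        simp [Sca]
    rw [map_commutatorElement, MulEquiv.apply_symm_apply, MulEquiv.apply_symm_apply] at h'
    exact not_sca_comm h'

/-- a normal copy of a factor lies in one of the factors -/
theorem sub_factor {L₁ L₂ M : Subgroup G} {j : G} (f₁ : Fac L₁ j) (f₂ : Fac L₂ j) (fM : Fac M j)
    (hc : ∀ x ∈ L₁, ∀ y ∈ L₂, x * y = y * x) (hm : L₁ ⊓ L₂ = Subgroup.zpowers j) (hM : M ≤ L₁ ⊔ L₂)
    (hn : ∀ g ∈ L₁ ⊔ L₂, ∀ x ∈ M, g * x * g⁻¹ ∈ M) (hjc : ∀ g ∈ L₁ ⊔ L₂, g * j = j * g) :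
    M ≤ L₁ ∨ M ≤ L₂ := by
  have hl₁ : L₁ ≤ L₁ ⊔ L₂ := le_sup_left
  have hl₂ : L₂ ≤ L₁ ⊔ L₂ := le_sup_right
  have hdec : ∀ z ∈ L₁ ⊔ L₂, ∃ x ∈ L₁, ∃ y ∈ L₂, z = x * y := by
    intro z hz
    have hle : L₁ ≤ Subgroup.normalizer (L₂ : Set G) := fun x hx =>
      Subgroup.centralizer_le_normalizer _ (Subgroup.mem_centralizer_iff.2 fun y hy => (hc x hx y hy).symm)
    have hz' : z ∈ ((L₁ ⊔ L₂ : Subgroup G) : Set G) := hz
    rw [Subgroup.coe_mul_of_left_le_normalizer_right L₁ L₂ hle] at hz'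
    obtain ⟨x, hx, y, hy, rfl⟩ := hz'
    exact ⟨x, hx, y, hy, rfl⟩
  have hJ1 : Subgroup.zpowers j ≤ L₁ := hm ▸ inf_le_left
  have hJ2 : Subgroup.zpowers j ≤ L₂ := hm ▸ inf_le_right
  have hjz : ∀ g ∈ L₁ ⊔ L₂, ∀ z ∈ Subgroup.zpowers j, g * z = z * g := by
    intro g hg z hz
    obtain ⟨k, rfl⟩ := Subgroup.mem_zpowers_iff.1 hz
    exact (Commute.zpow_right (show Commute g j from hjc g hg) k).eq
  -- the case where the second intersection is central
  have main : ∀ (L K : Subgroup G), L ≤ L₁ ⊔ L₂ → K ≤ L₁ ⊔ L₂ → Fac K j → Subgroup.zpowers j ≤ L →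
      (∀ x ∈ L, ∀ y ∈ K, x * y = y * x) → (∀ z ∈ L₁ ⊔ L₂, ∃ x ∈ L, ∃ y ∈ K, z = x * y) →
      (∀ b ∈ M, b ∈ K → b ∈ Subgroup.zpowers j) → M ≤ L := by
    intro L K hL hK fK hJL hLK hd hB z hz
    obtain ⟨x, hx, y, hy, rfl⟩ := hd z (hM hz)
    have hcom : ∀ w ∈ K, y * w * y⁻¹ * w⁻¹ ∈ Subgroup.zpowers j := by
      intro w hw
      refine hB _ ?_ (K.mul_mem (K.mul_mem (K.mul_mem hy hw) (K.inv_mem hy)) (K.inv_mem hw))
      have h1 := M.mul_mem hz (hn w (hK hw) _ (M.inv_mem hz))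
      have e : x * y * (w * (x * y)⁻¹ * w⁻¹) = y * w * y⁻¹ * w⁻¹ := by
        have c1 := hLK x hx (y * w * y⁻¹) (K.mul_mem (K.mul_mem hy hw) (K.inv_mem hy))
        have c2 := hLK x⁻¹ (L.inv_mem hx) w⁻¹ (K.inv_mem hw)
        calc x * y * (w * (x * y)⁻¹ * w⁻¹) = (x * (y * w * y⁻¹)) * (x⁻¹ * w⁻¹) := by group
          _ = (y * w * y⁻¹ * x) * (w⁻¹ * x⁻¹) := by rw [c1, c2]
          _ = y * w * y⁻¹ * (x * w⁻¹) * x⁻¹ := by group
          _ = y * w * y⁻¹ * (w⁻¹ * x) * x⁻¹ := by rw [hLK x hx _ (K.inv_mem hw)]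
          _ = _ := by group
      rwa [e] at h1
    obtain ⟨a, ha, b, hb, hab⟩ := fK.derived
    have hyK : y ∈ Subgroup.zpowers j := by
      have hfix : ∀ w ∈ K, ∃ c ∈ Subgroup.zpowers j, y * w * y⁻¹ = c * w := fun w hw =>
        ⟨_, hcom w hw, by group⟩
      let A : Set G := {c | ∃ p ∈ K, ∃ q ∈ K, ⁅p, q⁆ = c}
      refine (fK.two A ?_ ?_ y hy ?_).resolve_right fun h => hab (h ⟨a, ha, b, hb, rfl⟩)
      · rintro c ⟨p, hp, q, hq, rfl⟩
        exact K.mul_mem (K.mul_mem (K.mul_mem hp hq) (K.inv_mem hp)) (K.inv_mem hq)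
      · rintro g hg c ⟨p, hp, q, hq, rfl⟩
        exact ⟨_, K.mul_mem (K.mul_mem hg hp) (K.inv_mem hg), _, K.mul_mem (K.mul_mem hg hq) (K.inv_mem hg),
          (conjugate_commutatorElement p q g).symm⟩
      · rintro c ⟨p, hp, q, hq, rfl⟩
        obtain ⟨u, hu, hyp⟩ := hfix p hp
        obtain ⟨v, hv, hyq⟩ := hfix q hq
        have e : y * ⁅p, q⁆ * y⁻¹ = ⁅p, q⁆ := by
          rw [conjugate_commutatorElement, hyp, hyq]
          have u1 := hjz p (hK hp) u hu
          have v1 := hjz q (hK hq) v hv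
          have uv : Commute u q := (hjz q (hK hq) u hu).symm
          have vp : Commute v p := (hjz p (hK hp) v hv).symm
          have uu : Commute u p := u1.symm
          have vv : Commute v q := v1.symm
          have huv : Commute u v := (hjz v (hL (hJL hv)) u hu).symm
          simp only [commutatorElement_def, _root_.mul_inv_rev]
          have hC : p * q * p⁻¹ * q⁻¹ ∈ L₁ ⊔ L₂ :=
            hK (K.mul_mem (K.mul_mem (K.mul_mem hp hq) (K.inv_mem hp)) (K.inv_mem hq))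
          have hCu := hjz _ hC (u * v) ((Subgroup.zpowers j).mul_mem hu hv)
          calc u * p * (v * q) * (p⁻¹ * u⁻¹) * (q⁻¹ * v⁻¹)
              = u * (p * v) * q * p⁻¹ * (u⁻¹ * q⁻¹) * v⁻¹ := by group
            _ = u * (v * p) * q * p⁻¹ * (q⁻¹ * u⁻¹) * v⁻¹ := by rw [vp.eq, uv.inv_inv.eq]
            _ = (u * v) * (p * q * p⁻¹ * q⁻¹) * (u⁻¹ * v⁻¹) := by group
            _ = (p * q * p⁻¹ * q⁻¹) * (u * v) * (u⁻¹ * v⁻¹) := by rw [hCu]
            _ = _ := by rw [huv.eq]; group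
        exact (mul_inv_eq_iff_eq_mul.1 e).symm
    exact L.mul_mem hx (hJL hyK)
  by_cases hA : ∀ a ∈ M, a ∈ L₁ → a ∈ Subgroup.zpowers j
  · right
    refine main L₂ L₁ hl₂ hl₁ f₁ hJ2 (fun x hx y hy => (hc y hy x hx).symm) (fun z hz => ?_) hA
    obtain ⟨x, hx, y, hy, rfl⟩ := hdec z hz
    exact ⟨y, hy, x, hx, hc x hx y hy⟩
  · left
    refine main L₁ L₂ hl₁ hl₂ f₂ hJ1 hc hdec fun b hb hb2 => ?_
    by_contra hbj
    apply hA
    intro a ha ha1
    refine ((fM.two ((M : Set G) ∩ L₂) Set.inter_subset_left ?_ a ha ?_).resolve_right fun h => hbj (h ⟨hb, hb2⟩))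
    · rintro g hg c ⟨hc1, hc2⟩
      refine ⟨M.mul_mem (M.mul_mem hg hc1) (M.inv_mem hg), ?_⟩
      obtain ⟨x, hx, y, hy, rfl⟩ := hdec g (hM hg)
      have hyc : y * c * y⁻¹ ∈ L₂ := L₂.mul_mem (L₂.mul_mem hy hc2) (L₂.inv_mem hy)
      have e : x * y * c * (x * y)⁻¹ = y * c * y⁻¹ := by
        calc x * y * c * (x * y)⁻¹ = x * (y * c * y⁻¹) * x⁻¹ := by group
          _ = _ := by rw [hc x hx _ hyc, mul_inv_cancel_right]
      show x * y * c * (x * y)⁻¹ ∈ L₂
      rw [e]; exact hyc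
    · rintro c ⟨-, hc2⟩
      exact (hc a ha1 c hc2).symm

theorem two_ne {F : Type*} [Field F] [Fintype F] (h : Odd (Fintype.card F)) : (2 : F) ≠ 0 := fun h2 => by
    haveI : CharP F 2 := CharTwo.of_one_ne_zero_of_two_eq_zero one_ne_zero h2
    obtain ⟨⟨k, hk⟩, -, hcard⟩ := FiniteField.card F 2
    rw [hcard] at h
    exact absurd h (Nat.not_odd_iff_even.2 (Nat.even_pow.2 ⟨even_two, hk.ne'⟩))

theorem card_SL2 (F : Type*) [Field F] [Fintype F] :
    Nat.card (Matrix.SpecialLinearGroup (Fin 2) F) = Fintype.card F * (Fintype.card F * Fintype.card F - 1) := by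
  have h := CfsgLib.Linear.Card.card_SL (F := F) 2 (by norm_num)
  simp only [Fin.prod_univ_two, Fin.val_zero, Fin.val_one, pow_zero, pow_one, sq] at h
  have hq : 2 ≤ Fintype.card F := Fintype.one_lt_card
  generalize Fintype.card F = q at *
  obtain ⟨k, rfl⟩ : ∃ k, q = k + 1 := ⟨q - 1, by omega⟩
  have e : (k + 1) * (k + 1) - (k + 1) = (k + 1) * k := by rw [← Nat.mul_sub_one, Nat.add_sub_cancel]
  rw [e, Nat.add_sub_cancel] at h
  refine Nat.eq_of_mul_eq_mul_left (show 0 < k by omega) ?_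
  rw [h]; ring


/-- Let G be a finite group with subgroups L₁ ≅ SL₂(q₁) and L₂ ≅ SL₂(q₂), q₁ and q₂ odd prime powers, which commute elementwise and meet in ⟨j⟩ for an involution j, and suppose L₁L₂ has index 2 in C_G(j). Then every element n of C_G(j) outside L₁L₂ either normalizes both L₁ and L₂, or conjugates L₁ onto L₂; in the second case q₁ = q₂ and there is an element n′ of C_G(j) outside L₁L₂ conjugating L₁ onto L₂ with n′² ∈ ⟨j⟩. -/
theorem result {G : Type*} [Group G] [Finite G]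
    {F₁ : Type*} [Field F₁] [Fintype F₁] {F₂ : Type*} [Field F₂] [Fintype F₂]
    (hF₁ : Odd (Fintype.card F₁)) (hF₂ : Odd (Fintype.card F₂)) (L₁ L₂ : Subgroup G)
    (e₁ : ↥L₁ ≃* Matrix.SpecialLinearGroup (Fin 2) F₁) (e₂ : ↥L₂ ≃* Matrix.SpecialLinearGroup (Fin 2) F₂)
    (hc : ∀ x ∈ L₁, ∀ y ∈ L₂, x * y = y * x) (j : G) (hj : orderOf j = 2) (hm : L₁ ⊓ L₂ = Subgroup.zpowers j)
    (hle : L₁ ⊔ L₂ ≤ Subgroup.centralizer ({j} : Set G)) (hi : (L₁ ⊔ L₂).relIndex (Subgroup.centralizer ({j} : Set G)) = 2) (n : G) (hn : n ∈ Subgroup.centralizer ({j} : Set G)) (hn' : n ∉ L₁ ⊔ L₂) :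
    (L₁.map (MulAut.conj n).toMonoidHom = L₁ ∧ L₂.map (MulAut.conj n).toMonoidHom = L₂) ∨
      (L₁.map (MulAut.conj n).toMonoidHom = L₂ ∧ Fintype.card F₁ = Fintype.card F₂ ∧
        ∃ n' ∈ Subgroup.centralizer ({j} : Set G), n' ∉ L₁ ⊔ L₂ ∧ L₁.map (MulAut.conj n').toMonoidHom = L₂ ∧ n' ^ 2 ∈ Subgroup.zpowers j) := by
  classical
  have hJ1 : Subgroup.zpowers j ≤ L₁ := hm ▸ inf_le_left
  have hJ2 : Subgroup.zpowers j ≤ L₂ := hm ▸ inf_le_right
  have hjc : ∀ g ∈ Subgroup.centralizer ({j} : Set G), g * j = j * g := fun g hg =>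
    Subgroup.mem_centralizer_singleton_iff.1 hg
  have hjj : j ∈ Subgroup.zpowers j := Subgroup.mem_zpowers j
  have f₁ := fac (two_ne hF₁) e₁ hj (hJ1 hjj)
  have f₂ := fac (two_ne hF₂) e₂ hj (hJ2 hjj)
  let L := L₁ ⊔ L₂
  let C := Subgroup.centralizer ({j} : Set G)
  haveI hnorm : (L.subgroupOf C).Normal := Subgroup.normal_of_index_eq_two hi
  have hconj : ∀ m ∈ C, ∀ x ∈ L, m * x * m⁻¹ ∈ L := fun m hm' x hx =>
    hnorm.conj_mem ⟨x, hle hx⟩ hx ⟨m, hm'⟩
  have hnL : ∀ i, i = L₁ ∨ i = L₂ → ∀ g ∈ L, ∀ x ∈ i, g * x * g⁻¹ ∈ i := by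
    intro i hi' g hg x hx
    have hN : L ≤ Subgroup.normalizer (i : Set G) := by
      rcases hi' with rfl | rfl
      · exact sup_le Subgroup.le_normalizer fun y hy =>
          Subgroup.centralizer_le_normalizer _ (Subgroup.mem_centralizer_iff.2 fun x hx => hc x hx y hy)
      · exact sup_le (fun x hx =>
          Subgroup.centralizer_le_normalizer _ (Subgroup.mem_centralizer_iff.2 fun y hy => (hc x hx y hy).symm))
          Subgroup.le_normalizer
    exact (Subgroup.mem_normalizer_iff.1 (hN hg) x).1 hx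
  have hjf : MulAut.conj n j = j := by rw [MulAut.conj_apply, hjc n hn, mul_inv_cancel_right]
  let φ : G →* G := (MulAut.conj n).toMonoidHom
  have hφ : Function.Injective φ := (MulAut.conj n).injective
  have hmapL : L.map φ = L := by
    refine le_antisymm ?_ fun x hx => ?_
    · rintro _ ⟨x, hx, rfl⟩
      exact hconj n hn x hx
    · refine ⟨n⁻¹ * x * n⁻¹⁻¹, hconj n⁻¹ (C.inv_mem hn) x hx, ?_⟩
      show n * (n⁻¹ * x * n⁻¹⁻¹) * n⁻¹ = x
      group
  have himg : ∀ i, i = L₁ ∨ i = L₂ → Fac i j → Fac (i.map φ) j → i.map φ ≤ L₁ ∨ i.map φ ≤ L₂ := by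
    intro i hi' _ fM
    refine sub_factor f₁ f₂ fM hc hm ?_ ?_ (fun g hg => hjc g (hle hg))
    · exact le_trans (Subgroup.map_mono (by rcases hi' with rfl | rfl; exacts [le_sup_left, le_sup_right])) hmapL.le
    · rintro g hg _ ⟨x, hx, rfl⟩
      replace hg : g ∈ L.map φ := hmapL.symm ▸ hg
      obtain ⟨g, hg, rfl⟩ := hg
      exact ⟨g * x * g⁻¹, hnL i hi' g hg x hx, by simp⟩
  have hjmap : ∀ i : Subgroup G, j ∈ i → j ∈ i.map φ := fun i h => ⟨j, h, hjf⟩
  have g₁ := himg L₁ (Or.inl rfl) f₁ (fac (two_ne hF₁) ((Subgroup.equivMapOfInjective L₁ φ hφ).symm.trans e₁) hj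
    (hjmap _ (hJ1 hjj)))
  have g₂ := himg L₂ (Or.inr rfl) f₂ (fac (two_ne hF₂) ((Subgroup.equivMapOfInjective L₂ φ hφ).symm.trans e₂) hj
    (hjmap _ (hJ2 hjj)))
  have hne1 : L ≠ L₁ := by
    intro h
    obtain ⟨a, ha, b, hb, hab⟩ := f₂.derived
    apply hab
    have ha1 : a ∈ L₁ := h ▸ (le_sup_right : L₂ ≤ L) ha
    have hai : a ∈ Subgroup.zpowers j := hm ▸ ⟨ha1, ha⟩
    rw [commutatorElement_eq_one_iff_commute.2 (hc a ha1 b hb)]
    exact one_mem _
  have hne2 : L ≠ L₂ := by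
    intro h
    obtain ⟨a, ha, b, hb, hab⟩ := f₁.derived
    apply hab
    have hb2 : b ∈ L₂ := h ▸ (le_sup_left : L₁ ≤ L) hb
    rw [commutatorElement_eq_one_iff_commute.2 (hc a ha b hb2)]
    exact one_mem _
  have hsup : L₁.map φ ⊔ L₂.map φ = L := by rw [← Subgroup.map_sup]; exact hmapL
  have hcard : ∀ i : Subgroup G, Nat.card (i.map φ : Subgroup G) = Nat.card i := fun i =>
    (Nat.card_congr (Subgroup.equivMapOfInjective i φ hφ).toEquiv).symm
  have hclash : ∀ i : Subgroup G, L₁.map φ ≤ i → L₂.map φ ≤ i → i ≤ L → L = i := fun i h h' h'' =>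
    le_antisymm (hsup ▸ sup_le h h') h''
  rcases g₁ with h1 | h1
  · left
    have h2 := g₂.resolve_left fun h => hne1 (hclash _ h1 h le_sup_left)
    exact ⟨Subgroup.eq_of_le_of_card_ge h1 (hcard _).ge, Subgroup.eq_of_le_of_card_ge h2 (hcard _).ge⟩
  · right
    have h2 := g₂.resolve_right fun h => hne2 (hclash _ h1 h le_sup_right)
    have c1 := (hcard L₁).symm.le.trans (Subgroup.card_le_of_le h1)
    have c2 := (hcard L₂).symm.le.trans (Subgroup.card_le_of_le h2)
    have hmap1 : L₁.map φ = L₂ := Subgroup.eq_of_le_of_card_ge h1 ((hcard L₁).symm ▸ c2)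
    have hmap2 : L₂.map φ = L₁ := Subgroup.eq_of_le_of_card_ge h2 ((hcard L₂).symm ▸ c1)
    refine ⟨hmap1, ?_, ?_⟩
    · have hh : Nat.card L₁ = Nat.card L₂ := le_antisymm c1 c2
      rw [Nat.card_congr e₁.toEquiv, Nat.card_congr e₂.toEquiv, card_SL2, card_SL2] at hh
      have mono : ∀ a b : ℕ, 2 ≤ a → a < b → a * (a * a - 1) < b * (b * b - 1) := fun a b ha hab =>
        Nat.mul_lt_mul_of_lt_of_le hab (Nat.sub_le_sub_right (Nat.mul_le_mul hab.le hab.le) 1)
          (Nat.sub_pos_of_lt (by nlinarith))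
      rcases Nat.lt_trichotomy (Fintype.card F₁) (Fintype.card F₂) with h | h | h
      · exact absurd hh (mono _ _ Fintype.one_lt_card h).ne
      · exact h
      · exact absurd hh (mono _ _ Fintype.one_lt_card h).ne'
    have hn2 : n * n ∈ L := by
      have h := Subgroup.mul_self_mem_of_index_two hi ⟨n, hn⟩
      exact h
    have hL : (L : Set G) = (L₁ : Set G) * (L₂ : Set G) :=
      Subgroup.coe_mul_of_left_le_normalizer_right L₁ L₂ fun x hx =>
        Subgroup.centralizer_le_normalizer _ (Subgroup.mem_centralizer_iff.2 fun y hy => (hc x hx y hy).symm)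
    have hn2' : n * n ∈ (L₁ : Set G) * (L₂ : Set G) := by rw [← hL]; exact hn2
    obtain ⟨a, ha, b, hb, hab⟩ := hn2'
    have hna : n * a * n⁻¹ ∈ L₂ := hmap1 ▸ Subgroup.mem_map_of_mem φ ha
    have hnb : n * b * n⁻¹ ∈ L₁ := hmap2 ▸ Subgroup.mem_map_of_mem φ hb
    have hprod : n * a * n⁻¹ * (n * b * n⁻¹) = a * b := by
      calc n * a * n⁻¹ * (n * b * n⁻¹) = n * (a * b) * n⁻¹ := by group
        _ = n * (n * n) * n⁻¹ := by rw [← hab]
        _ = n * n := by group
        _ = a * b := hab.symm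
    -- the central discrepancy
    have hz : b⁻¹ * (n * a * n⁻¹) ∈ Subgroup.zpowers j := by
      rw [← hm]
      refine ⟨?_, L₂.mul_mem (L₂.inv_mem hb) hna⟩
      have : b⁻¹ * (n * a * n⁻¹) = a * (n * b * n⁻¹)⁻¹ := by
        have e : n * a * n⁻¹ = a * b * (n * b * n⁻¹)⁻¹ := eq_mul_inv_of_mul_eq hprod
        rw [e, hc a ha b hb]; group
      rw [this]
      exact L₁.mul_mem ha (L₁.inv_mem hnb)
    have hzc : ∀ g ∈ C, g * (b⁻¹ * (n * a * n⁻¹)) = b⁻¹ * (n * a * n⁻¹) * g := fun g hg => by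
      obtain ⟨k, hk⟩ := Subgroup.mem_zpowers_iff.1 hz
      rw [← hk]
      exact (Commute.zpow_right (show Commute g j from hjc g hg) k).eq
    have hback : n⁻¹ * a * n = n * a * n⁻¹ := by
      have hbb : b⁻¹ * (n * a * n⁻¹) * b = b⁻¹ * (n * a * n⁻¹) * b := rfl
      calc n⁻¹ * a * n = (n * n)⁻¹ * (n * a * n⁻¹) * (n * n) := by group
        _ = b⁻¹ * a⁻¹ * (n * a * n⁻¹) * (a * b) := by rw [← hab, mul_inv_rev]
        _ = b⁻¹ * ((a⁻¹ * (n * a * n⁻¹)) * a) * b := by group
        _ = b⁻¹ * (n * a * n⁻¹) * b := by rw [hc a⁻¹ (L₁.inv_mem ha) _ hna]; group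
        _ = b * (b⁻¹ * (n * a * n⁻¹)) := (hzc b (hle (le_sup_right (a := L₁) hb))).symm
        _ = n * a * n⁻¹ := by group
    refine ⟨n * a⁻¹, C.mul_mem hn (C.inv_mem (hle (le_sup_left (b := L₂) ha))), fun h => hn' ?_, ?_, ?_⟩
    · have : n * a⁻¹ * a ∈ L := L.mul_mem h (le_sup_left (b := L₂) ha)
      rwa [inv_mul_cancel_right] at this
    · refine le_antisymm ?_ ?_
      · rintro _ ⟨x, hx, rfl⟩
        show n * a⁻¹ * x * (n * a⁻¹)⁻¹ ∈ L₂
        rw [show n * a⁻¹ * x * (n * a⁻¹)⁻¹ = n * (a⁻¹ * x * a) * n⁻¹ by group]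
        exact hmap1 ▸ Subgroup.mem_map_of_mem φ (L₁.mul_mem (L₁.mul_mem (L₁.inv_mem ha) hx) ha)
      · intro y hy
        rw [← hmap1] at hy
        obtain ⟨x, hx, rfl⟩ := hy
        refine ⟨a * x * a⁻¹, L₁.mul_mem (L₁.mul_mem ha hx) (L₁.inv_mem ha), ?_⟩
        show n * a⁻¹ * (a * x * a⁻¹) * (n * a⁻¹)⁻¹ = n * x * n⁻¹
        group
    · have : (n * a⁻¹) ^ 2 = (b⁻¹ * (n * a * n⁻¹))⁻¹ := by
        calc (n * a⁻¹) ^ 2 = (n * n) * (n⁻¹ * a * n)⁻¹ * a⁻¹ := by rw [pow_two]; group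
          _ = a * b * (n * a * n⁻¹)⁻¹ * a⁻¹ := by rw [hback, ← hab]
          _ = a * (b * (n * a * n⁻¹)⁻¹) * a⁻¹ := by group
          _ = _ := by
              rw [hc a ha _ (L₂.mul_mem hb (L₂.inv_mem hna))]
              have := hzc b (hle (le_sup_right (a := L₁) hb))
              have hX : Commute b (n * a * n⁻¹) := by
                have h1 : Commute b (b⁻¹ * (n * a * n⁻¹)) := this
                have h2 := (Commute.refl b).mul_right h1
                rwa [mul_inv_cancel_left] at h2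
              have e : b * (n * a * n⁻¹)⁻¹ = (b⁻¹ * (n * a * n⁻¹))⁻¹ := by
                rw [hX.inv_right.eq]; group
              rw [e]; group
      rw [this]
      exact inv_mem hz

end Cfsg.Agent.S3210
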