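import Cfsg.Statements.S3213
import Mathlib

set_option autoImplicit false
set_option maxHeartbeats 1000000
open scoped Pointwise
open Cfsg

namespace Cfsg.Agent.S3213

open Matrix

def x₀ : Matrix.SpecialLinearGroup (Fin 2) (ZMod 5) := ⟨!![0, 4; 1, 4], by decide⟩

def g₀ : Matrix.SpecialLinearGroup (Fin 2) (ZMod 5) := ⟨!![1, 1; 0, 1], by decide⟩

theorem x₀_pow : x₀ ^ 3 = 1 ∧ x₀ ≠ 1 := by decide

theorem z_pow : ((x₀ * (g₀ * x₀ * g₀⁻¹)) ^ 2) ^ 5 = 1 ∧ (x₀ * (g₀ * x₀ * g₀⁻¹)) ^ 2 ≠ 1 := by decide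

theorem card_sl : Fintype.card (Matrix.SpecialLinearGroup (Fin 2) (ZMod 5)) = 120 := by decide +kernel

section linalg

variable {F : Type*} [Field F] [Fintype F] (hF : Fintype.card F = 3)

abbrev V4 (F : Type*) := Fin 2 ⊕ Fin 2 → F

theorem finrank_range_comp {V : Type*} [AddCommGroup V] [Module F V] [FiniteDimensional F V]
    (f g : Module.End F V) :
    Module.finrank F (LinearMap.range g) ≤
      Module.finrank F (LinearMap.range (f * g)) + Module.finrank F (LinearMap.ker f) := by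
  have h := LinearMap.finrank_range_add_finrank_ker (f.domRestrict (LinearMap.range g))
  have h1 : LinearMap.range (f.domRestrict (LinearMap.range g)) = LinearMap.range (f * g) := by
    ext v
    constructor
    · rintro ⟨⟨-, u, rfl⟩, rfl⟩; exact ⟨u, rfl⟩
    · rintro ⟨u, rfl⟩; exact ⟨⟨g u, u, rfl⟩, rfl⟩
  have h2 : Module.finrank F (LinearMap.ker (f.domRestrict (LinearMap.range g))) ≤
      Module.finrank F (LinearMap.ker f) := by
    have := LinearMap.finrank_le_finrank_of_injective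
      (f := ((LinearMap.range g).subtype.comp (LinearMap.ker (f.domRestrict (LinearMap.range g))).subtype).codRestrict
        (LinearMap.ker f) (fun v => LinearMap.mem_ker.mpr (LinearMap.mem_ker.mp v.2)))
      (fun a b hab => by
        apply Subtype.ext
        apply Subtype.ext
        exact congrArg (fun v : LinearMap.ker f => (v : V)) hab)
    exact this
  rw [h1] at h
  omega

include hF in
theorem charThree : CharP F 3 := by
  obtain ⟨p, _⟩ := CharP.exists F
  haveI : Fact p.Prime := ⟨CharP.char_is_prime F p⟩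
  obtain ⟨n, hp, hn⟩ := FiniteField.card F p
  rw [hF] at hn
  have : p ∣ 3 := hn ▸ dvd_pow_self p n.ne_zero
  rwa [← (Nat.prime_dvd_prime_iff_eq hp Nat.prime_three).mp this]

variable (A : Matrix.symplecticGroup (Fin 2) F)

/-- `A - 1` as an endomorphism. -/
noncomputable def nil : Module.End F (V4 F) :=
  Matrix.toLinAlgEquiv' (A : Matrix (Fin 2 ⊕ Fin 2) (Fin 2 ⊕ Fin 2) F) - 1

theorem nil_apply (v : V4 F) : nil A v = (A : Matrix (Fin 2 ⊕ Fin 2) (Fin 2 ⊕ Fin 2) F).mulVec v - v := rfl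

theorem nil_mul (B : Matrix.symplecticGroup (Fin 2) F) (v : V4 F) :
    nil (A * B) v = nil A ((B : Matrix (Fin 2 ⊕ Fin 2) (Fin 2 ⊕ Fin 2) F).mulVec v) + nil B v := by
  rw [nil_apply, nil_apply, nil_apply, sub_add_sub_cancel, Matrix.mulVec_mulVec]
  rfl

theorem form_isometry (u v : V4 F) :
    dotProduct ((A : Matrix (Fin 2 ⊕ Fin 2) (Fin 2 ⊕ Fin 2) F).mulVec u)
      ((Matrix.J (Fin 2) F).mulVec ((A : Matrix (Fin 2 ⊕ Fin 2) (Fin 2 ⊕ Fin 2) F).mulVec v)) =
    dotProduct u ((Matrix.J (Fin 2) F).mulVec v) := by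
  rw [Matrix.mulVec_mulVec, Matrix.dotProduct_mulVec, Matrix.dotProduct_mulVec, Matrix.vecMul_mulVec,
    ← Matrix.mul_assoc, SymplecticGroup.mem_iff'.mp A.2]

theorem form_skew (u v : V4 F) :
    dotProduct u ((Matrix.J (Fin 2) F).mulVec v) = - dotProduct v ((Matrix.J (Fin 2) F).mulVec u) := by
  rw [Matrix.dotProduct_mulVec, dotProduct_comm, ← Matrix.mulVec_transpose, Matrix.J_transpose, Matrix.neg_mulVec,
    dotProduct_neg]

theorem form_nondeg (w : V4 F) (h : ∀ v, dotProduct w ((Matrix.J (Fin 2) F).mulVec v) = 0) : w = 0 := by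
  funext i
  have := h (-(Matrix.J (Fin 2) F).mulVec (Pi.single i 1))
  rw [Matrix.mulVec_neg, Matrix.mulVec_mulVec, Matrix.J_squared, Matrix.neg_mulVec, neg_neg,
    Matrix.one_mulVec, dotProduct_single, mul_one] at this
  exact this

include hF

theorem nil_cube (h3 : A ^ 3 = 1) : nil A ^ 3 = 0 := by
  haveI := charThree hF
  haveI : CharP (Module.End F (V4 F)) 3 := charP_of_injective_algebraMap
    (R := F) (A := Module.End F (V4 F)) (RingHom.injective _) 3
  haveI : Fact (Nat.Prime 3) := ⟨Nat.prime_three⟩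
  unfold nil
  rw [sub_pow_char_of_commute 3 (Commute.one_right _), one_pow, ← map_pow,
    show ((A : Matrix (Fin 2 ⊕ Fin 2) (Fin 2 ⊕ Fin 2) F)) ^ 3 = ((A ^ 3 : Matrix.symplecticGroup (Fin 2) F) : Matrix _ _ F) from rfl,
    h3]
  simp

theorem form_nil (h3 : A ^ 3 = 1) (u v : V4 F) :
    dotProduct (nil A u) ((Matrix.J (Fin 2) F).mulVec v) =
      dotProduct u ((Matrix.J (Fin 2) F).mulVec (nil A (nil A v) + 2 • nil A v)) := by
  have e : nil A (nil A v) + 2 • nil A v =
      (A : Matrix (Fin 2 ⊕ Fin 2) (Fin 2 ⊕ Fin 2) F).mulVec ((A : Matrix (Fin 2 ⊕ Fin 2) (Fin 2 ⊕ Fin 2) F).mulVec v) - v := by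
    simp only [nil_apply, Matrix.mulVec_sub, two_smul]
    abel
  have h2 : (A : Matrix (Fin 2 ⊕ Fin 2) (Fin 2 ⊕ Fin 2) F).mulVec
      ((A : Matrix (Fin 2 ⊕ Fin 2) (Fin 2 ⊕ Fin 2) F).mulVec ((A : Matrix (Fin 2 ⊕ Fin 2) (Fin 2 ⊕ Fin 2) F).mulVec v)) = v := by
    rw [Matrix.mulVec_mulVec, Matrix.mulVec_mulVec]
    have : (A : Matrix (Fin 2 ⊕ Fin 2) (Fin 2 ⊕ Fin 2) F) * A * A = 1 := by
      rw [← pow_three' (A : Matrix (Fin 2 ⊕ Fin 2) (Fin 2 ⊕ Fin 2) F)]
      exact congrArg Subtype.val h3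
    rw [this, Matrix.one_mulVec]
  rw [e, nil_apply, sub_dotProduct, Matrix.mulVec_sub, dotProduct_sub]
  congr 1
  conv_lhs => rw [← h2]
  exact form_isometry A u _

theorem two_ne : (2 : F) ≠ 0 := by
  haveI := charThree hF
  intro h
  have := (CharP.cast_eq_zero_iff F 3 2).mp (by exact_mod_cast h)
  omega

theorem sq_zero (h3 : A ^ 3 = 1) (hr : Module.finrank F (LinearMap.range (nil A)) = 2) : nil A ^ 2 = 0 := by
  have hcube := nil_cube hF A h3
  have hle : Module.finrank F (LinearMap.range (nil A ^ 2)) ≤ 1 := by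
    by_contra hgt
    have hsub : LinearMap.range (nil A ^ 2) ≤ LinearMap.range (nil A) := by
      rintro _ ⟨u, rfl⟩; exact ⟨nil A u, by rw [pow_two]; rfl⟩
    have heq : LinearMap.range (nil A ^ 2) = LinearMap.range (nil A) :=
      Submodule.eq_of_le_of_finrank_le hsub (by omega)
    have : LinearMap.range (nil A) ≤ ⊥ := by
      rintro _ ⟨u, rfl⟩
      obtain ⟨w, hw⟩ : nil A u ∈ LinearMap.range (nil A ^ 2) := heq.symm ▸ ⟨u, rfl⟩
      obtain ⟨w', hw'⟩ : nil A w ∈ LinearMap.range (nil A ^ 2) := heq.symm ▸ ⟨w, rfl⟩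
      rw [Submodule.mem_bot, ← hw, pow_two, Module.End.mul_apply, ← hw', ← Module.End.mul_apply, ← pow_succ', hcube]
      rfl
    rw [le_bot_iff.mp this, finrank_bot] at hr
    omega
  -- the form `(u, v) ↦ b (N² u) v` is alternating of rank at most one
  have hadj : ∀ u v, dotProduct ((nil A ^ 2) u) ((Matrix.J (Fin 2) F).mulVec v) =
      dotProduct u ((Matrix.J (Fin 2) F).mulVec ((nil A ^ 2) v)) := by
    intro u v
    rw [pow_two, Module.End.mul_apply, form_nil hF A h3, form_nil hF A h3]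
    congr 2
    have hc : ∀ x, nil A (nil A (nil A x)) = 0 := fun x => by
      have := LinearMap.congr_fun hcube x
      rw [pow_three] at this
      exact this
    simp only [map_add, map_nsmul, hc, Module.End.mul_apply, smul_zero, zero_add, smul_smul, map_zero]
    have h3z : (3 : ℕ) • nil A (nil A v) = 0 := by
      haveI := charThree hF
      rw [← Nat.cast_smul_eq_nsmul F, CharP.cast_eq_zero, zero_smul]
    rw [show (2 * 2 : ℕ) = 1 + 3 from rfl, add_smul, one_smul, h3z, add_zero]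
  have hBself : ∀ u, dotProduct ((nil A ^ 2) u) ((Matrix.J (Fin 2) F).mulVec u) = 0 := by
    intro u
    have h1 := hadj u u
    rw [form_skew u ((nil A ^ 2) u)] at h1
    have h2 : (2 : F) * dotProduct ((nil A ^ 2) u) ((Matrix.J (Fin 2) F).mulVec u) = 0 := by linear_combination h1
    exact (mul_eq_zero.mp h2).resolve_left (two_ne hF)
  by_contra hne
  obtain ⟨u₀, hu₀⟩ : ∃ u, (nil A ^ 2) u ≠ 0 := by
    by_contra hall
    push Not at hall
    exact hne (LinearMap.ext hall)
  obtain ⟨w, hwdef⟩ : ∃ w, w = (nil A ^ 2) u₀ := ⟨_, rfl⟩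
  have hspan : ∀ v, ∃ c : F, (nil A ^ 2) v = c • w := by
    intro v
    have hspaneq : Submodule.span F {w} = LinearMap.range (nil A ^ 2) := by
      refine Submodule.eq_of_le_of_finrank_le ?_ (by rw [finrank_span_singleton (hwdef ▸ hu₀)]; exact hle)
      rw [Submodule.span_singleton_le_iff_mem]; exact ⟨u₀, hwdef.symm⟩
    obtain ⟨c, hc⟩ := Submodule.mem_span_singleton.mp (hspaneq.ge ⟨v, rfl⟩)
    exact ⟨c, hc.symm⟩
  refine hu₀ (hwdef ▸ form_nondeg w fun v => ?_)
  obtain ⟨c, hc⟩ := hspan v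
  have hwu : dotProduct w ((Matrix.J (Fin 2) F).mulVec u₀) = 0 := hwdef ▸ hBself u₀
  have h0 := hBself v
  have h1 := hBself (u₀ + v)
  rw [map_add, hc, ← hwdef, add_dotProduct, Matrix.mulVec_add, dotProduct_add, dotProduct_add,
    smul_dotProduct, smul_dotProduct, smul_eq_mul, smul_eq_mul, hwu] at h1
  rw [hc, smul_dotProduct, smul_eq_mul] at h0
  linear_combination h1 - h0

end linalg


/-- Let F be the field with 3 elements and K the field with 5 elements. For every injective homomorphism φ from SL₂(K) into the symplectic group Sp₄(F) (4 × 4 matrices g with g J gᵀ = J for the standard alternating matrix J) and every element x of order 3 of SL₂(K), the vectors of F⁴ fixed by φ(x) form a 2-dimensional subspace that is totally isotropic for the alternating form defined by J. -/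
theorem result {F : Type*} [Field F] [Fintype F] (hF : Fintype.card F = 3)
    {K : Type*} [Field K] [Fintype K] (hK : Fintype.card K = 5)
    (φ : Matrix.SpecialLinearGroup (Fin 2) K →* ↥(Matrix.symplecticGroup (Fin 2) F)) (hφ : Function.Injective φ)
    (x : Matrix.SpecialLinearGroup (Fin 2) K) (hx : orderOf x = 3) :
    Module.finrank F ↥(LinearMap.ker (Matrix.toLin' ((φ x : Matrix (Fin 2 ⊕ Fin 2) (Fin 2 ⊕ Fin 2) F)) - LinearMap.id)) = 2 ∧
      ∀ v w : Fin 2 ⊕ Fin 2 → F, (φ x : Matrix (Fin 2 ⊕ Fin 2) (Fin 2 ⊕ Fin 2) F).mulVec v = v →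
        (φ x : Matrix (Fin 2 ⊕ Fin 2) (Fin 2 ⊕ Fin 2) F).mulVec w = w →
          dotProduct v ((Matrix.J (Fin 2) F).mulVec w) = 0 := by
  classical
  haveI : Fact (Nat.Prime 5) := ⟨by norm_num⟩
  haveI : Fact (Nat.Prime 3) := ⟨Nat.prime_three⟩
  -- move to `ZMod 5`
  let e : ZMod 5 ≃+* K := ZMod.ringEquivOfPrime K (by norm_num) hK
  let E : Matrix.SpecialLinearGroup (Fin 2) (ZMod 5) →* Matrix.SpecialLinearGroup (Fin 2) K :=
    Matrix.SpecialLinearGroup.map e.toRingHom
  have hE : Function.Bijective E := by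
    refine ⟨fun a b h => ?_, fun b => ⟨Matrix.SpecialLinearGroup.map e.symm.toRingHom b, ?_⟩⟩
    · apply Subtype.ext
      ext i j
      have := congrArg (fun M : Matrix.SpecialLinearGroup (Fin 2) K => (M : Matrix (Fin 2) (Fin 2) K) i j) h
      exact e.injective this
    · apply Subtype.ext
      ext i j
      exact e.apply_symm_apply _
  obtain ⟨x', rfl⟩ := hE.2 x
  obtain ⟨ψ, hψdef⟩ : ∃ ψ, ψ = φ.comp E := ⟨_, rfl⟩
  have hψ : Function.Injective ψ := hψdef ▸ hφ.comp hE.1
  have hx' : orderOf x' = 3 := by rw [← orderOf_injective E hE.1]; exact hx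
  rw [show φ (E x') = ψ x' by rw [hψdef]; rfl]
  have h3 : ψ x' ^ 3 = 1 := by rw [← map_pow, ← hx', pow_orderOf_eq_one, map_one]
  have hfix : LinearMap.ker (Matrix.toLin' ((ψ x' : Matrix (Fin 2 ⊕ Fin 2) (Fin 2 ⊕ Fin 2) F)) - LinearMap.id) =
      LinearMap.ker (nil (ψ x')) := rfl
  rw [hfix]
  have hdim : Module.finrank F (V4 F) = 4 := by simp
  have hrk := LinearMap.finrank_range_add_finrank_ker (nil (ψ x'))
  rw [hdim] at hrk
  -- not a transvection
  have key : ¬ Module.finrank F (LinearMap.range (nil (ψ x'))) ≤ 1 := by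
    intro hle
    let T : Matrix.SpecialLinearGroup (Fin 2) (ZMod 5) → Prop := fun g =>
      Module.finrank F (LinearMap.range (nil (ψ g))) ≤ 1
    have hTpow : ∀ n : ℕ, T (x' ^ n) := by
      intro n
      refine le_trans (Submodule.finrank_mono ?_) hle
      induction n with
      | zero =>
        rw [pow_zero, map_one]
        rintro _ ⟨v, rfl⟩
        rw [nil_apply]
        simp
      | succ n ih =>
        rintro _ ⟨v, rfl⟩
        rw [pow_succ', map_mul, nil_mul]
        exact add_mem ⟨_, rfl⟩ (ih ⟨v, rfl⟩)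
    have hTconj : ∀ g h, T h → T (g * h * g⁻¹) := by
      intro g h hh
      refine le_trans ?_ hh
      let L : Module.End F (V4 F) := Matrix.toLinAlgEquiv' (ψ g : Matrix (Fin 2 ⊕ Fin 2) (Fin 2 ⊕ Fin 2) F)
      refine le_trans (Submodule.finrank_mono ?_) (Submodule.finrank_map_le L (LinearMap.range (nil (ψ h))))
      rintro _ ⟨v, rfl⟩
      refine ⟨_, ⟨(ψ g⁻¹ : Matrix (Fin 2 ⊕ Fin 2) (Fin 2 ⊕ Fin 2) F).mulVec v, rfl⟩, ?_⟩
      show (ψ g : Matrix (Fin 2 ⊕ Fin 2) (Fin 2 ⊕ Fin 2) F).mulVec (nil (ψ h) _) = _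
      rw [nil_apply, nil_apply, Matrix.mulVec_sub, Matrix.mulVec_mulVec, Matrix.mulVec_mulVec, Matrix.mulVec_mulVec,
        show (ψ g : Matrix (Fin 2 ⊕ Fin 2) (Fin 2 ⊕ Fin 2) F) * (ψ g⁻¹ : Matrix (Fin 2 ⊕ Fin 2) (Fin 2 ⊕ Fin 2) F) = 1 from
          congrArg Subtype.val (show ψ g * ψ g⁻¹ = 1 by rw [← map_mul, mul_inv_cancel, map_one]),
        Matrix.one_mulVec, map_mul, map_mul]
      rfl
    -- the two test elements
    have ho : orderOf x₀ = 3 := orderOf_eq_prime x₀_pow.1 x₀_pow.2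
    have h120 : Nat.card (Matrix.SpecialLinearGroup (Fin 2) (ZMod 5)) = 120 := by
      rw [Nat.card_eq_fintype_card]; exact card_sl
    have hT₀ : T x₀ := by
      have hcard : ∀ y : Matrix.SpecialLinearGroup (Fin 2) (ZMod 5), orderOf y = 3 →
          Nat.card (Subgroup.zpowers y) = 3 ^ (Nat.card (Matrix.SpecialLinearGroup (Fin 2) (ZMod 5))).factorization 3 := by
        intro y hy
        rw [Nat.card_zpowers, hy, h120]
        have : (120 : ℕ).factorization 3 = 1 := by
          rw [show (120 : ℕ) = 3 ^ 1 * 40 by norm_num, Nat.factorization_mul (by norm_num) (by norm_num),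
            Nat.Prime.factorization_pow Nat.prime_three, Finsupp.add_apply, Finsupp.single_eq_same,
            Nat.factorization_eq_zero_of_not_dvd (by norm_num)]
        rw [this, pow_one]
      obtain ⟨g, hg⟩ := MulAction.exists_smul_eq (Matrix.SpecialLinearGroup (Fin 2) (ZMod 5))
        (Sylow.ofCard _ (hcard x' hx')) (Sylow.ofCard _ (hcard x₀ ho))
      have hmem : x₀ ∈ ((g • Sylow.ofCard _ (hcard x' hx') : Sylow 3 _) : Subgroup _) := by
        rw [hg, Sylow.coe_ofCard]; exact Subgroup.mem_zpowers x₀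
      rw [Sylow.coe_subgroup_smul, Subgroup.mem_smul_pointwise_iff_exists, Sylow.coe_ofCard] at hmem
      obtain ⟨y, hy, hyx⟩ := hmem
      obtain ⟨n, rfl⟩ := (isOfFinOrder_of_finite x').mem_powers_iff_mem_zpowers.mpr hy
      rw [← hyx]
      exact hTconj g _ (hTpow n)
    have hT₁ : T (g₀ * x₀ * g₀⁻¹) := hTconj g₀ x₀ hT₀
    -- an element of order five
    obtain ⟨z, hzdef⟩ : ∃ z, z = (x₀ * (g₀ * x₀ * g₀⁻¹)) ^ 2 := ⟨_, rfl⟩
    have hz5 : z ^ 5 = 1 := hzdef ▸ z_pow.1
    have hz1 : z ≠ 1 := hzdef ▸ z_pow.2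
    obtain ⟨R, hRdef⟩ : ∃ R, R = LinearMap.range (nil (ψ x₀)) ⊔ LinearMap.range (nil (ψ (g₀ * x₀ * g₀⁻¹))) := ⟨_, rfl⟩
    have hR2 : Module.finrank F R ≤ 2 := by
      rw [hRdef]
      exact (Submodule.finrank_add_le_finrank_add_finrank _ _).trans (add_le_add hT₀ hT₁)
    have hzR : LinearMap.range (nil (ψ z)) ≤ R := by
      rintro _ ⟨v, rfl⟩
      rw [hzdef, pow_two, map_mul, map_mul, nil_mul, nil_mul, nil_mul, hRdef]
      exact add_mem (add_mem (Submodule.mem_sup_left ⟨_, rfl⟩) (Submodule.mem_sup_right ⟨_, rfl⟩))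
        (add_mem (Submodule.mem_sup_left ⟨_, rfl⟩) (Submodule.mem_sup_right ⟨_, rfl⟩))
    -- `z` fixes the image of `z - 1`
    obtain ⟨U, hUdef⟩ : ∃ U, U = LinearMap.range (nil (ψ z)) := ⟨_, rfl⟩
    have hUz : ∀ u ∈ U, (ψ z : Matrix (Fin 2 ⊕ Fin 2) (Fin 2 ⊕ Fin 2) F).mulVec u ∈ U := by
      intro u hu
      rw [hUdef] at hu ⊢
      obtain ⟨v, rfl⟩ := hu
      exact ⟨(ψ z : Matrix (Fin 2 ⊕ Fin 2) (Fin 2 ⊕ Fin 2) F).mulVec v, by
        rw [nil_apply, nil_apply, Matrix.mulVec_sub]⟩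
    haveI : Finite U := inferInstance
    have hfixU : ∀ u ∈ U, nil (ψ z) u = 0 := by
      let f : U → U := fun u => ⟨_, hUz u u.2⟩
      have hpow : ∀ (n : ℕ) (u : U), ((f^[n] u : U) : V4 F) =
          ((ψ (z ^ n) : Matrix (Fin 2 ⊕ Fin 2) (Fin 2 ⊕ Fin 2) F)).mulVec u := by
        intro n
        induction n with
        | zero => intro u; rw [pow_zero, map_one]; simp
        | succ n ih =>
          intro u
          rw [Function.iterate_succ_apply', pow_succ', map_mul]
          show (ψ z : Matrix (Fin 2 ⊕ Fin 2) (Fin 2 ⊕ Fin 2) F).mulVec ((f^[n] u : U) : V4 F) = _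
          rw [ih, Matrix.mulVec_mulVec]
          rfl
      have hf5 : ∀ u, f^[5] u = u := fun u => Subtype.ext (by rw [hpow, hz5, map_one]; simp)
      let σ : Equiv.Perm U :=
        ⟨f, f^[4], fun u => hf5 u, fun u => hf5 u⟩
      have hσ : σ ^ 5 ^ 1 = 1 := Equiv.ext fun u => by
        rw [pow_one, Equiv.Perm.coe_pow]; exact hf5 u
      haveI : Fintype U := Fintype.ofFinite _
      have hmod := Equiv.Perm.card_compl_support_modEq hσ
      have hsupp : σ.supportᶜ.card = Nat.card (LinearMap.ker ((nil (ψ z)).comp U.subtype)) := by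
        rw [← Nat.card_eq_finsetCard]
        refine Nat.card_congr (Equiv.subtypeEquivRight fun u => ?_)
        simp only [Finset.mem_compl, Equiv.Perm.mem_support, not_not, LinearMap.mem_ker]
        show σ u = u ↔ nil (ψ z) (u : V4 F) = 0
        rw [nil_apply, sub_eq_zero, Subtype.ext_iff]
        rfl
      obtain ⟨k, hk, hk'⟩ : ∃ k, k = Module.finrank F (LinearMap.ker ((nil (ψ z)).comp U.subtype)) ∧
          k ≤ Module.finrank F U := ⟨_, rfl, Submodule.finrank_le _⟩
      have hU2 : Module.finrank F U ≤ 2 := hUdef ▸ (Submodule.finrank_mono hzR).trans hR2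
      rw [hsupp, Module.natCard_eq_pow_finrank (K := F), ← hk, Fintype.card_eq_nat_card (α := U),
        Module.natCard_eq_pow_finrank (K := F) (V := U), Nat.card_eq_fintype_card, hF] at hmod
      have hkU : k = Module.finrank F U := by
        unfold Nat.ModEq at hmod
        interval_cases Module.finrank F U <;> interval_cases k <;> first | rfl | (norm_num at hmod) | omega
      intro u hu
      have htop : LinearMap.ker ((nil (ψ z)).comp U.subtype) = ⊤ :=
        Submodule.eq_top_of_finrank_eq (hk.symm.trans hkU)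
      have hmem : (⟨u, hu⟩ : U) ∈ LinearMap.ker ((nil (ψ z)).comp U.subtype) := htop ▸ Submodule.mem_top
      exact hmem
    -- so `z = 1`
    refine hz1 (hψ (Subtype.ext (Matrix.toLinAlgEquiv'.injective (LinearMap.ext fun v => ?_))))
    rw [map_one]
    show (ψ z : Matrix (Fin 2 ⊕ Fin 2) (Fin 2 ⊕ Fin 2) F).mulVec v =
      Matrix.mulVec (1 : Matrix (Fin 2 ⊕ Fin 2) (Fin 2 ⊕ Fin 2) F) v
    rw [Matrix.one_mulVec]
    have hlin : ∀ n : ℕ, (ψ (z ^ n) : Matrix (Fin 2 ⊕ Fin 2) (Fin 2 ⊕ Fin 2) F).mulVec v = v + n • nil (ψ z) v := by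
      intro n
      induction n with
      | zero => rw [pow_zero, map_one]; simp
      | succ n ih =>
        rw [pow_succ', map_mul]
        show ((ψ z : Matrix (Fin 2 ⊕ Fin 2) (Fin 2 ⊕ Fin 2) F) * _).mulVec v = _
        rw [← Matrix.mulVec_mulVec, ih, Matrix.mulVec_add, Matrix.mulVec_smul]
        have h0 := hfixU (nil (ψ z) v) (hUdef ▸ ⟨v, rfl⟩)
        rw [nil_apply, sub_eq_zero] at h0
        rw [h0, succ_nsmul', ← add_assoc, nil_apply, add_sub_cancel]
    have h5 := hlin 5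
    rw [hz5, map_one] at h5
    have h5' : (5 : ℕ) • nil (ψ z) v = 0 := by
      rw [show ((1 : Matrix.symplecticGroup (Fin 2) F) : Matrix (Fin 2 ⊕ Fin 2) (Fin 2 ⊕ Fin 2) F) = 1 from rfl,
        Matrix.one_mulVec] at h5
      exact (add_eq_left (a := v)).mp h5.symm
    rw [← Nat.cast_smul_eq_nsmul F, smul_eq_zero] at h5'
    rcases h5' with h5' | h5'
    · exfalso
      haveI := charThree hF
      have := (CharP.cast_eq_zero_iff F 3 5).mp h5'
      omega
    · rw [nil_apply, sub_eq_zero] at h5'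
      exact h5'
  -- rank two
  have hcube := nil_cube hF (ψ x') h3
  have hr2 : Module.finrank F (LinearMap.range (nil (ψ x'))) = 2 := by
    have h1 := finrank_range_comp (nil (ψ x')) (nil (ψ x'))
    have h2 := finrank_range_comp (nil (ψ x')) (nil (ψ x') * nil (ψ x'))
    rw [show nil (ψ x') * (nil (ψ x') * nil (ψ x')) = 0 by rw [← hcube, pow_three], LinearMap.range_zero, finrank_bot] at h2
    omega
  have hsq := sq_zero hF (ψ x') h3 hr2
  have hk2 : Module.finrank F (LinearMap.ker (nil (ψ x'))) = 2 := by omega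
  refine ⟨hk2, fun v w hv hw => ?_⟩
  have hker : LinearMap.ker (nil (ψ x')) = LinearMap.range (nil (ψ x')) := by
    refine (Submodule.eq_of_le_of_finrank_le ?_ (by omega)).symm
    rintro _ ⟨u, rfl⟩
    rw [LinearMap.mem_ker, ← Module.End.mul_apply, ← pow_two, hsq]
    rfl
  have hvm : v ∈ LinearMap.ker (nil (ψ x')) := by rw [LinearMap.mem_ker, nil_apply, hv, sub_self]
  rw [hker] at hvm
  obtain ⟨u, rfl⟩ := hvm
  have hw0 : nil (ψ x') w = 0 := by rw [nil_apply, hw, sub_self]
  rw [form_nil hF (ψ x') h3, hw0, map_zero, smul_zero, add_zero, Matrix.mulVec_zero, dotProduct_zero]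

end Cfsg.Agent.S3213
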