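import Cfsg.Statements.S3215
import Mathlib
import Cfsg.Agent.Lib.PComponents2
import Cfsg.Agent.Lib.GroupB.Coprime
import Cfsg.Agent.Lib.Chars.GlaubermanCount
import Cfsg.Agent.S0341

set_option autoImplicit false
open Cfsg

namespace Cfsg.Agent.S3215

variable {H : Type*} [Group H] [Finite H]

theorem aux_commute (hI : ∀ t : H, orderOf t = 2 → Cfsg.HasNormalPComplement 2 ↥(Subgroup.centralizer ({t} : Set H)))
    {t z : H} (ht : orderOf t = 2) (hz : Odd (orderOf z)) (hzt : z * t = t * z) :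
    ∀ y ∈ Cfsg.pCore 2 H, y * t = t * y → z * y = y * z := by
  intro y hy hyt
  haveI := CfsgLib.Core.pCore_characteristic (G := H) 2
  haveI : Fact (Nat.Prime 2) := ⟨Nat.prime_two⟩
  have hI' := hI t ht
  set C := Subgroup.centralizer ({t} : Set H)
  obtain ⟨P, N, hN, hc⟩ := hI'
  haveI := hN
  let z' : C := ⟨z, Subgroup.mem_centralizer_singleton_iff.mpr hzt⟩
  let y' : C := ⟨y, Subgroup.mem_centralizer_singleton_iff.mpr hyt⟩
  have hzN : z' ∈ N := by
    obtain ⟨m, hm⟩ := IsPGroup.iff_card.mp P.2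
    rw [← QuotientGroup.eq_one_iff, ← orderOf_eq_one_iff]
    refine Nat.eq_one_of_dvd_coprimes ((Nat.coprime_two_right.mpr hz).pow_right m) ?_ ?_
    · have := orderOf_map_dvd (QuotientGroup.mk' N) z'
      rwa [Subgroup.orderOf_mk] at this
    · rw [← hm, ← hc.symm.index_eq_card, Subgroup.index_eq_card]
      exact orderOf_dvd_natCard _
  have hNcop : (Nat.card N).Coprime 2 := by
    rw [← hc.index_eq_card]
    exact (Nat.prime_two.coprime_iff_not_dvd.mpr P.not_dvd_index).symm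
  have hd : z' * y' * z'⁻¹ * y'⁻¹ ∈ N := by
    rw [show z' * y' * z'⁻¹ * y'⁻¹ = z' * (y' * z'⁻¹ * y'⁻¹) by group]
    exact mul_mem hzN (hN.conj_mem _ (inv_mem hzN) _)
  have hdY : z * y * z⁻¹ * y⁻¹ ∈ Cfsg.pCore 2 H :=
    mul_mem (Subgroup.Normal.conj_mem inferInstance y hy z) (inv_mem hy)
  obtain ⟨m, hm⟩ := (CfsgLib.Core.isPGroup_pCore (G := H) 2) ⟨_, hdY⟩
  have h1 : (z' * y' * z'⁻¹ * y'⁻¹) ^ 2 ^ m = 1 := by
    apply Subtype.ext
    have := congrArg Subtype.val hm
    simpa using this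
  have h2 : orderOf (z' * y' * z'⁻¹ * y'⁻¹) = 1 :=
    Nat.eq_one_of_dvd_coprimes (hNcop.pow_right m)
      (by have := orderOf_dvd_natCard (⟨_, hd⟩ : N); rwa [Subgroup.orderOf_mk] at this)
      (orderOf_dvd_of_pow_eq_one h1)
  have h3 := congrArg Subtype.val (orderOf_eq_one_iff.mp h2)
  simp [z', y'] at h3
  exact mul_inv_eq_iff_eq_mul.mp (mul_inv_eq_one.mp h3)

theorem aux_charP (hsol : Group.IsSolvable H) (hO : Cfsg.oddCore H = ⊥) : CfsgLib.CharP.HasCharP 2 H := by
  haveI : Fact (Nat.Prime 2) := ⟨Nat.prime_two⟩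
  haveI := CfsgLib.Core.pPrimeCore_characteristic (G := H) 2
  have h := CfsgLib.PConstrained.isPConstrained_iff.1 (CfsgLib.PComponents.constrained_of_solvable (p := 2) hsol)
  exact CfsgLib.CharP.charP_congr ((QuotientGroup.quotientMulEquivOfEq hO).trans QuotientGroup.quotientBot) h

theorem aux_fpf (hch : CfsgLib.CharP.HasCharP 2 H)
    (hI : ∀ t : H, orderOf t = 2 → Cfsg.HasNormalPComplement 2 ↥(Subgroup.centralizer ({t} : Set H)))
    {z : H} (hz : Odd (orderOf z)) (hz1 : z ≠ 1) : ∀ y ∈ Cfsg.pCore 2 H, y ≠ 1 → z * y ≠ y * z := by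
  intro y hy hy1 hcy
  haveI := CfsgLib.Core.pCore_characteristic (G := H) 2
  haveI : Fact (Nat.Prime 2) := ⟨Nat.prime_two⟩
  obtain ⟨m, hm⟩ := IsPGroup.iff_orderOf.mp (CfsgLib.Core.isPGroup_pCore (G := H) 2) ⟨y, hy⟩
  rw [Subgroup.orderOf_mk] at hm
  have hm0 : m ≠ 0 := fun h => hy1 (orderOf_eq_one_iff.mp (by rw [hm, h, pow_zero]))
  set t := y ^ (orderOf y / 2) with hT
  have ht : orderOf t = 2 := orderOf_pow_orderOf_div (orderOf_pos y).ne' (hm ▸ dvd_pow_self 2 hm0)
  have htY : t ∈ Cfsg.pCore 2 H := pow_mem hy _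
  have hzt : z * t = t * z := (Commute.pow_right (show Commute z y from hcy) _).eq
  apply hz1
  refine CfsgLib.CharP.eq_one_of_centralizes hch (Nat.coprime_two_right.mpr hz) ?_
  refine CfsgLib.GenFitting.thompson_pq (P := Subgroup.zpowers t) ((CfsgLib.Core.isPGroup_pCore 2).to_le
      (Subgroup.zpowers_le.mpr htY)) (CfsgLib.Core.isPGroup_pCore 2)
    (by rw [Subgroup.normalizer_eq_top]; exact le_top) (Nat.coprime_two_right.mpr hz) ?_
    (by rw [Subgroup.normalizer_eq_top]; trivial) ?_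
  · rintro x ⟨k, rfl⟩
    exact (Commute.zpow_right (show Commute z t from hzt) k).eq
  · rintro x ⟨hx, hxt⟩
    exact aux_commute hI ht hz hzt x hx ((hxt t (Subgroup.mem_zpowers t)).symm)

theorem aux_no_inv (hch : CfsgLib.CharP.HasCharP 2 H)
    (hI : ∀ t : H, orderOf t = 2 → Cfsg.HasNormalPComplement 2 ↥(Subgroup.centralizer ({t} : Set H)))
    (hY : Cfsg.pCore 2 H ≠ ⊥)
    {z t : H} (hz : Odd (orderOf z)) (hz1 : z ≠ 1) (ht : orderOf t = 2) : z * t ≠ t * z := by
  intro hzt
  haveI := CfsgLib.Core.pCore_characteristic (G := H) 2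
  haveI : Fact (Nat.Prime 2) := ⟨Nat.prime_two⟩
  haveI : Nontrivial (Cfsg.pCore 2 H) := (Subgroup.nontrivial_iff_ne_bot _).mpr hY
  haveI := (CfsgLib.Core.isPGroup_pCore (G := H) 2).center_nontrivial
  obtain ⟨c, hc⟩ := exists_ne (1 : Subgroup.center (Cfsg.pCore 2 H))
  set y : H := ((c : Cfsg.pCore 2 H) : H) with hy
  have hyY : y ∈ Cfsg.pCore 2 H := (c : Cfsg.pCore 2 H).2
  have hy1 : y ≠ 1 := fun h => hc (Subtype.ext (Subtype.ext h))
  have htt : t * t = 1 := by rw [← sq, ← ht, pow_orderOf_eq_one]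
  have hy' : t * y * t ∈ Cfsg.pCore 2 H := by
    have := Subgroup.Normal.conj_mem inferInstance y hyY t
    rwa [inv_eq_of_mul_eq_one_right htt] at this
  have hcomm : y * (t * y * t) = (t * y * t) * y :=
    congrArg Subtype.val (Subgroup.mem_center_iff.mp c.2 ⟨_, hy'⟩).symm
  by_cases hw : y * (t * y * t) = 1
  · -- `t` inverts `y`; pass to the involution in `⟨y⟩`
    obtain ⟨m, hm⟩ := IsPGroup.iff_orderOf.mp (CfsgLib.Core.isPGroup_pCore (G := H) 2) ⟨y, hyY⟩
    rw [Subgroup.orderOf_mk] at hm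
    have hm0 : m ≠ 0 := fun h => hy1 (orderOf_eq_one_iff.mp (by rw [hm, h, pow_zero]))
    set u := y ^ (orderOf y / 2) with hU
    have hu : orderOf u = 2 := orderOf_pow_orderOf_div (orderOf_pos y).ne' (hm ▸ dvd_pow_self 2 hm0)
    have hui : u⁻¹ = u := inv_eq_of_mul_eq_one_right (by rw [← sq, ← hu, pow_orderOf_eq_one])
    have hsemi : SemiconjBy t y y⁻¹ := by
      show t * y = y⁻¹ * t
      rw [inv_eq_of_mul_eq_one_right hw, mul_assoc (t * y), htt, mul_one]
    have h2 := hsemi.pow_right (orderOf y / 2)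
    rw [inv_pow, ← hU, hui] at h2
    exact aux_fpf hch hI hz hz1 u (pow_mem hyY _) (fun h => by rw [h, orderOf_one] at hu; omega)
      (aux_commute hI ht hz hzt u (pow_mem hyY _) h2.eq.symm)
  · refine aux_fpf hch hI hz hz1 _ (mul_mem hyY hy') hw (aux_commute hI ht hz hzt _ (mul_mem hyY hy') ?_)
    calc y * (t * y * t) * t = y * t * y * (t * t) := by group
      _ = y * t * y := by rw [htt, mul_one]
      _ = t * (t * y * t) * y := by rw [show t * (t * y * t) = (t * t) * y * t by group, htt, one_mul]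
      _ = t * ((t * y * t) * y) := by group
      _ = t * (y * (t * y * t)) := by rw [hcomm]

/-- Nilpotent odd subgroups are cyclic. -/
theorem aux_cyclic (hch : CfsgLib.CharP.HasCharP 2 H)
    (hI : ∀ t : H, orderOf t = 2 → Cfsg.HasNormalPComplement 2 ↥(Subgroup.centralizer ({t} : Set H)))
    {R : Subgroup H} {q : ℕ} [Fact q.Prime] (hR : IsPGroup q R) (hodd : Odd (Nat.card R)) : IsCyclic R := by
  haveI := CfsgLib.Core.pCore_characteristic (G := H) 2
  by_cases hY : Cfsg.pCore 2 H = ⊥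
  · have : R = ⊥ := by
      rw [Subgroup.eq_bot_iff_forall]
      intro r hr
      refine CfsgLib.CharP.eq_one_of_centralizes hch (Nat.coprime_two_right.mpr (hodd.of_dvd_nat ?_))
        (fun x hx => by rw [hY, Subgroup.mem_bot] at hx; simp [hx])
      have := orderOf_dvd_natCard (⟨r, hr⟩ : R)
      rwa [Subgroup.orderOf_mk] at this
    subst this
    infer_instance
  haveI : Nontrivial (Cfsg.pCore 2 H) := (Subgroup.nontrivial_iff_ne_bot _).mpr hY
  refine Cfsg.Agent.S0341.isCyclic_of_fpf ((MulAut.conjNormal (H := Cfsg.pCore 2 H)).comp R.subtype)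
    hR.isNilpotent hodd fun k hk n hn => ?_
  by_contra hn1
  have e := congrArg Subtype.val hn
  rw [MonoidHom.comp_apply, MulAut.conjNormal_apply] at e
  refine aux_fpf hch hI (z := (k : H)) ?_ (fun h => hk (Subtype.ext h)) n n.2
    (fun h => hn1 (Subtype.ext h)) (mul_inv_eq_iff_eq_mul.mp e)
  refine hodd.of_dvd_nat ?_
  rw [Subgroup.orderOf_coe]
  exact orderOf_dvd_natCard _

theorem aux_cent_even (hch : CfsgLib.CharP.HasCharP 2 H)
    (hI : ∀ t : H, orderOf t = 2 → Cfsg.HasNormalPComplement 2 ↥(Subgroup.centralizer ({t} : Set H)))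
    {z : H ⧸ Cfsg.pCore 2 H} {τ : H ⧸ Cfsg.pCore 2 H} (hz : Odd (orderOf z)) (hz1 : z ≠ 1)
    (hτ : orderOf τ = 2) (hc : Commute z τ) : False := by
  classical
  haveI := CfsgLib.Core.pCore_characteristic (G := H) 2
  haveI : Fact (Nat.Prime 2) := ⟨Nat.prime_two⟩
  have hYp : IsPGroup 2 (Cfsg.pCore 2 H) := CfsgLib.Core.isPGroup_pCore (G := H) 2
  set π := QuotientGroup.mk' (Cfsg.pCore 2 H)
  have hsurj : Function.Surjective π := QuotientGroup.mk'_surjective (Cfsg.pCore 2 H)
  obtain ⟨z₀, hz₀⟩ := hsurj z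
  obtain ⟨a, m, hm, he⟩ := Nat.exists_eq_two_pow_mul_odd (orderOf_pos z₀).ne'
  set w := z₀ ^ 2 ^ a with hw
  have hwo : Odd (orderOf w) := by
    rw [hw, orderOf_pow_of_dvd (by positivity) (he ▸ dvd_mul_right _ _), he,
      Nat.mul_div_cancel_left _ (by positivity)]
    exact hm
  have hπw : π w = z ^ 2 ^ a := by rw [hw, map_pow, hz₀]
  have hw1 : w ≠ 1 := by
    intro h
    rw [h, map_one] at hπw
    exact hz1 (orderOf_eq_one_iff.mp (Nat.eq_one_of_dvd_coprimes
      ((Nat.coprime_two_right.mpr hz).pow_right a) dvd_rfl (orderOf_dvd_of_pow_eq_one hπw.symm)))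
  have hY : (Cfsg.pCore 2 H) ≠ ⊥ := by
    intro h
    refine hw1 (CfsgLib.CharP.eq_one_of_centralizes hch (Nat.coprime_two_right.mpr hwo)
      (fun x hx => ?_))
    rw [h, Subgroup.mem_bot] at hx
    simp [hx]
  set G2 := (Subgroup.zpowers τ).comap π with hG2
  have hG2p : IsPGroup 2 G2 := by
    refine IsPGroup.comap_of_ker_isPGroup ?_ π (by rw [QuotientGroup.ker_mk']; exact hYp)
    exact IsPGroup.of_card (n := 1) (by rw [Nat.card_zpowers, hτ, pow_one])
  obtain ⟨g, hg⟩ := hsurj τ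
  have hg2 : g ∈ G2 := by show π g ∈ Subgroup.zpowers τ; rw [hg]; exact Subgroup.mem_zpowers τ
  have hcw : Commute (π w) τ := by rw [hπw]; exact hc.pow_left _
  have hcop : ∀ K : Subgroup H, IsPGroup 2 K → (Nat.card (Subgroup.zpowers w)).Coprime (Nat.card K) := by
    intro K hK
    obtain ⟨i, hi⟩ := IsPGroup.iff_card.mp hK
    rw [hi, Nat.card_zpowers]
    exact (Nat.coprime_two_right.mpr hwo).pow_right i
  have hnorm : Subgroup.zpowers w ≤ Subgroup.normalizer (G2 : Set H) := by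
    rw [Subgroup.zpowers_le, Subgroup.mem_normalizer_iff]
    intro x
    have key : ∀ u, π u ∈ Subgroup.zpowers τ → π w * π u * (π w)⁻¹ = π u := by
      rintro u ⟨i, hi⟩
      rw [← hi, (hcw.zpow_right i).eq, mul_inv_cancel_right]
    simp only [hG2, Subgroup.mem_comap, map_mul, map_inv]
    constructor
    · intro hx; rw [key x hx]; exact hx
    · intro hx
      obtain ⟨i, hi⟩ := hx
      have : π x = τ ^ i := by
        rw [show π x = (π w)⁻¹ * (π w * π x * (π w)⁻¹) * π w by group, ← hi,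
          mul_assoc, ← (hcw.zpow_right i).eq, inv_mul_cancel_left]
      exact ⟨i, this.symm⟩
  obtain ⟨c, ⟨hcG, hcC⟩, hgc⟩ := CfsgLib.GroupB.Coprime.exists_fixed_of_coset (N := (Cfsg.pCore 2 H)) (A := Subgroup.zpowers w)
    (G := G2) (by rw [Subgroup.normalizer_eq_top]; exact le_top) (hcop (Cfsg.pCore 2 H) hYp)
    (Or.inr (Group.isSolvable_of_comm fun a b => by
      obtain ⟨i, hi⟩ := a.2; obtain ⟨j, hj⟩ := b.2
      exact Subtype.ext (by
        show (a : H) * b = b * a
        rw [← hi, ← hj, ← zpow_add, ← zpow_add, add_comm])))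
    hnorm (hcop G2 hG2p)
    (fun x hx => by
      show π x ∈ Subgroup.zpowers τ
      rw [show π x = 1 from (QuotientGroup.eq_one_iff x).mpr hx]
      exact one_mem _)
    hg2 (fun u hu => by
      obtain ⟨i, rfl⟩ := hu
      rw [← QuotientGroup.eq_one_iff, ← QuotientGroup.mk'_apply, map_mul, map_mul, map_mul, map_inv, map_inv,
        map_zpow, hg, mul_assoc τ⁻¹, (hcw.zpow_left i).eq, inv_mul_cancel_left, mul_inv_cancel])
  have hπc : π c = τ := by
    have := (QuotientGroup.eq_one_iff _).mpr hgc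
    rw [← QuotientGroup.mk'_apply, map_mul, map_inv, inv_mul_eq_one] at this
    rw [← hg]
    exact this.symm
  have hc1 : c ≠ 1 := fun h => by rw [h, map_one] at hπc; rw [← hπc, orderOf_one] at hτ; omega
  obtain ⟨j, hj⟩ := IsPGroup.iff_orderOf.mp hG2p ⟨c, hcG⟩
  rw [Subgroup.orderOf_mk] at hj
  have hj0 : j ≠ 0 := fun h => hc1 (orderOf_eq_one_iff.mp (by rw [hj, h, pow_zero]))
  refine aux_no_inv hch hI hY hwo hw1
    (orderOf_pow_orderOf_div (orderOf_pos c).ne' (hj ▸ dvd_pow_self 2 hj0)) ?_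
  exact (Commute.pow_right (hcC w (Subgroup.mem_zpowers w)) _).eq

/-- Let H be a finite solvable group with no nontrivial normal subgroup of odd order in which the centralizer of every involution has a normal 2-complement. Let X be a Hall 2'-subgroup of H (odd order, index a power of 2) and Y = O₂(H). Then no non-identity element of X commutes with a non-identity element of Y (so for X ≠ 1 the group XY is a Frobenius group with kernel Y), every Sylow subgroup of X is cyclic, XY is normal in H, and H/XY is a cyclic 2-group. -/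
theorem result {H : Type*} [Group H] [Finite H] (hsol : Group.IsSolvable H)
    (hO : Cfsg.oddCore H = ⊥)
    (hI : ∀ t : H, orderOf t = 2 → Cfsg.HasNormalPComplement 2 ↥(Subgroup.centralizer ({t} : Set H)))
    (X : Subgroup H) (hXodd : Odd (Nat.card X)) (hXidx : ∃ k : ℕ, X.index = 2 ^ k) :
    (∀ x ∈ X, x ≠ 1 → ∀ y ∈ Cfsg.pCore 2 H, y ≠ 1 → x * y ≠ y * x) ∧
      (∀ (p : ℕ) [Fact p.Prime] (P : Sylow p ↥X), IsCyclic ↥(P : Subgroup ↥X)) ∧
      (X ⊔ Cfsg.pCore 2 H).Normal ∧
      ∀ hN : (X ⊔ Cfsg.pCore 2 H).Normal, IsCyclic (H ⧸ (X ⊔ Cfsg.pCore 2 H)) ∧ IsPGroup 2 (H ⧸ (X ⊔ Cfsg.pCore 2 H)) := by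
  classical
  have hch := aux_charP hsol hO
  haveI := CfsgLib.Core.pCore_characteristic (G := H) 2
  haveI : Fact (Nat.Prime 2) := ⟨Nat.prime_two⟩
  have hord : ∀ x ∈ X, Odd (orderOf x) := fun x hx => hXodd.of_dvd_nat (by
    have := orderOf_dvd_natCard (⟨x, hx⟩ : X)
    rwa [Subgroup.orderOf_mk] at this)
  refine ⟨fun x hx hx1 => aux_fpf hch hI (hord x hx) hx1, fun p _ P => ?_, ?_⟩
  · have hPp : IsPGroup p ((P : Subgroup X).map X.subtype) := P.2.map X.subtype
    haveI := aux_cyclic hch hI hPp (hXodd.of_dvd_nat (by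
      rw [Subgroup.card_map_of_injective X.subtype_injective]
      exact Subgroup.card_subgroup_dvd_card _))
    exact isCyclic_of_injective ((P : Subgroup X).equivMapOfInjective X.subtype X.subtype_injective).toMonoidHom
      (MulEquiv.injective _)
  set Y := Cfsg.pCore 2 H with hYdef
  obtain ⟨k, hk⟩ := hXidx
  have hidx : ∃ j, (X ⊔ Y).index = 2 ^ j := by
    obtain ⟨j, -, hj⟩ := (Nat.dvd_prime_pow Nat.prime_two).mp (hk ▸ Subgroup.index_dvd_of_le (le_sup_left : X ≤ X ⊔ Y))
    exact ⟨j, hj⟩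
  by_cases hX1 : X = ⊥
  · have hHp : IsPGroup 2 H := by
      refine IsPGroup.of_card (n := k) ?_
      rw [← hk, hX1, Subgroup.index_bot]
    have htop : X ⊔ Y = ⊤ := by
      rw [eq_top_iff]
      exact le_trans (CfsgLib.Core.le_pCore (N := (⊤ : Subgroup H)) inferInstance (hHp.to_subgroup ⊤)) le_sup_right
    have hsub : ∀ hN : (X ⊔ Y).Normal, Subsingleton (H ⧸ (X ⊔ Y)) := fun hN => by
      rw [QuotientGroup.subsingleton_iff]; exact htop
    refine ⟨htop ▸ inferInstance, fun hN => ?_⟩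
    haveI := hsub hN
    exact ⟨inferInstance, fun x => ⟨0, Subsingleton.elim _ _⟩⟩
  obtain ⟨x₀, hx₀, hx₀1⟩ : ∃ x ∈ X, x ≠ 1 := by
    by_contra hne; push Not at hne
    exact hX1 ((Subgroup.eq_bot_iff_forall _).mpr hne)
  set π := QuotientGroup.mk' Y with hπ
  have hsurj : Function.Surjective π := QuotientGroup.mk'_surjective Y
  haveI : Nontrivial (H ⧸ Y) := by
    refine ⟨π x₀, 1, fun h => ?_⟩
    exact aux_fpf hch hI (hord x₀ hx₀) hx₀1 x₀ ((QuotientGroup.eq_one_iff _).mp h) hx₀1 rfl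
  haveI : Group.IsSolvable (H ⧸ Y) := Group.isSolvable_of_surjective hsurj
  obtain ⟨q, M, hq, hM, hMp, hMne⟩ := CfsgLib.Chars.Glauberman.exists_normal_pGroup (S := H ⧸ Y)
  haveI := hM
  haveI : Fact q.Prime := ⟨hq⟩
  have hq2 : q ≠ 2 := by
    rintro rfl
    exact hMne (le_bot_iff.mp (le_trans (CfsgLib.Core.le_pCore hM hMp) (CfsgLib.Core.pCore_quotient_eq_bot 2).le))
  have hModd : Odd (Nat.card M) := by
    obtain ⟨i, hi⟩ := IsPGroup.iff_card.mp hMp
    rw [hi]
    exact (hq.odd_of_ne_two hq2).pow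
  haveI : IsCyclic M := by
    set K := M.comap π with hK
    let R : Sylow q K := default
    let f : K →* M := (π.comp K.subtype).codRestrict M fun k => k.2
    have hf : Function.Surjective f := fun z => by
      obtain ⟨w, hw⟩ := hsurj z.1
      exact ⟨⟨w, by show π w ∈ M; rw [hw]; exact z.2⟩, Subtype.ext hw⟩
    have htop : ((R.mapSurjective hf : Sylow q M) : Subgroup M) = ⊤ :=
      ((R.mapSurjective hf).3 (hMp.to_subgroup ⊤) le_top).symm
    rw [Sylow.coe_mapSurjective] at htop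
    have hRodd : Odd (Nat.card ((R : Subgroup K).map K.subtype)) := by
      rw [Subgroup.card_map_of_injective K.subtype_injective]
      obtain ⟨i, hi⟩ := IsPGroup.iff_card.mp R.2
      rw [hi]
      exact (hq.odd_of_ne_two hq2).pow
    haveI := aux_cyclic hch hI (R.2.map K.subtype) hRodd
    haveI : IsCyclic (R : Subgroup K) := isCyclic_of_injective
      ((R : Subgroup K).equivMapOfInjective K.subtype K.subtype_injective).toMonoidHom (MulEquiv.injective _)
    refine isCyclic_of_surjective (f.comp (R : Subgroup K).subtype) fun z => ?_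
    obtain ⟨r, hr, rfl⟩ : z ∈ (R : Subgroup K).map f := htop ▸ Subgroup.mem_top z
    exact ⟨⟨r, hr⟩, rfl⟩
  set C := Subgroup.centralizer (M : Set (H ⧸ Y)) with hC
  haveI : C.Normal := inferInstance
  have hCodd : Odd (Nat.card C) := by
    rw [← Nat.not_even_iff_odd, even_iff_two_dvd]
    intro h2
    obtain ⟨τ, hτ⟩ := exists_prime_orderOf_dvd_card' 2 h2
    obtain ⟨z, hz, hz1⟩ : ∃ z ∈ M, z ≠ 1 := by
      by_contra hne; push Not at hne
      exact hMne ((Subgroup.eq_bot_iff_forall _).mpr hne)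
    refine aux_cent_even hch hI (z := z) (τ := (τ : H ⧸ Y)) (hModd.of_dvd_nat ?_) hz1
      (by rw [Subgroup.orderOf_coe, hτ]) (τ.2 z hz)
    have := orderOf_dvd_natCard (⟨z, hz⟩ : M)
    rwa [Subgroup.orderOf_mk] at this
  haveI hcyc : IsCyclic ((H ⧸ Y) ⧸ C) := by
    obtain ⟨i, hi⟩ := IsPGroup.iff_card.mp hMp
    haveI : IsCyclic (ZMod (Nat.card M))ˣ := by
      rw [hi]; exact ZMod.isCyclic_units_of_prime_pow q hq hq2 i
    haveI : IsCyclic (MulAut M) :=
      isCyclic_of_surjective (IsCyclic.mulAutMulEquiv M).symm (MulEquiv.surjective _)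
    let ρ : (H ⧸ Y) →* MulAut M := MulAut.conjNormal
    have hker : ρ.ker = C := by
      ext g
      rw [MonoidHom.mem_ker, hC, Subgroup.mem_centralizer_iff, MulEquiv.ext_iff]
      constructor
      · intro h m hm
        have := congrArg Subtype.val (h ⟨m, hm⟩)
        rw [MulAut.conjNormal_apply, MulAut.one_apply] at this
        exact (mul_inv_eq_iff_eq_mul.mp this).symm
      · intro h m
        apply Subtype.ext
        rw [MulAut.conjNormal_apply, MulAut.one_apply, mul_inv_eq_iff_eq_mul]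
        exact (h m m.2).symm
    exact isCyclic_of_injective ((QuotientGroup.kerLift ρ).comp
      (QuotientGroup.quotientMulEquivOfEq hker.symm).toMonoidHom)
      ((QuotientGroup.kerLift_injective ρ).comp (MulEquiv.injective _))
  set X' := X.map π with hX'
  have hCX : C ≤ X' := by
    set D := X' ⊔ C with hD
    have h1 : X'.relIndex D ∣ 2 ^ k :=
      hk ▸ ((dvd_of_mul_right_eq _ (Subgroup.relIndex_mul_index (le_sup_left : X' ≤ D))).trans
        (Subgroup.index_map_dvd _ hsurj))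
    have h2 : X'.relIndex D ∣ Nat.card X' * Nat.card C :=
      (Subgroup.relIndex_dvd_card _ _).trans (CfsgLib.Core.card_sup_dvd_of_normal X' C)
    have hXo : Odd (Nat.card X') := hXodd.of_dvd_nat (Subgroup.card_map_dvd _ _)
    have := Nat.eq_one_of_dvd_coprimes ((Nat.coprime_two_right.mpr (hXo.mul hCodd)).pow_right k) h2 h1
    exact le_trans le_sup_right (Subgroup.relIndex_eq_one.mp this)
  haveI hX'n : X'.Normal := by
    haveI : (X'.map (QuotientGroup.mk' C)).Normal := by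
      letI := IsCyclic.commGroup (α := (H ⧸ Y) ⧸ C)
      infer_instance
    rw [show X' = (X'.map (QuotientGroup.mk' C)).comap (QuotientGroup.mk' C) by
      rw [Subgroup.comap_map_eq, QuotientGroup.ker_mk', sup_eq_left.mpr hCX]]
    infer_instance
  have hXY : X ⊔ Y = X'.comap π := by rw [Subgroup.comap_map_eq, QuotientGroup.ker_mk']
  refine ⟨hXY ▸ inferInstance, fun hN => ?_⟩
  haveI := hN
  constructor
  · let ψ : H ⧸ Y →* H ⧸ (X ⊔ Y) := QuotientGroup.lift Y (QuotientGroup.mk' (X ⊔ Y))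
      (fun y hy => (QuotientGroup.eq_one_iff y).mpr (Subgroup.mem_sup_right hy))
    have hψ : C ≤ ψ.ker := fun c hc => by
      obtain ⟨h, rfl⟩ := hsurj c
      exact (QuotientGroup.eq_one_iff h).mpr (hXY ▸ hCX hc)
    refine isCyclic_of_surjective (QuotientGroup.lift C ψ hψ) fun x => ?_
    obtain ⟨h, rfl⟩ := QuotientGroup.mk'_surjective _ x
    exact ⟨QuotientGroup.mk' C (π h), rfl⟩
  · obtain ⟨j, hj⟩ := hidx
    exact IsPGroup.of_card (n := j) (by rw [← hj, Subgroup.index_eq_card])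

end Cfsg.Agent.S3215
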