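import Cfsg.Statements.S3224
import Cfsg.Agent.Lib.MaximalClass

set_option autoImplicit false
open Cfsg

namespace Cfsg.Agent.S3224

/-- A finite 2-group containing an involution whose centralizer has order 4 is dihedral, quasi-dihedral (semidihedral), or of order 4. -/
theorem result {S : Type*} [Group S] [Finite S] (hS : IsPGroup 2 S)
    (x : S) (hx : orderOf x = 2) (hC : Nat.card ↥(Subgroup.centralizer ({x} : Set S)) = 4) :
    (∃ n : ℕ, Nonempty (S ≃* DihedralGroup n)) ∨ Cfsg.IsQuasiDihedral S ∨ Nat.card S = 4 := by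
  by_cases h4 : Nat.card S = 4
  · exact Or.inr (Or.inr h4)
  have hdiv : 4 ∣ Nat.card S := hC ▸ Subgroup.card_subgroup_dvd_card _
  have h8 : 8 ≤ Nat.card S := by
    obtain ⟨k, hk⟩ := hdiv
    have : 0 < Nat.card S := Nat.card_pos
    omega
  obtain ⟨a, hcard, hxa⟩ := CfsgLib.MaximalClass.exists_cyclic_index_two _ rfl hS h8 x hx hC
  obtain ⟨n, ha⟩ := IsPGroup.iff_orderOf.1 hS a
  have hn : 2 ≤ n := by
    by_contra h
    have := Nat.pow_le_pow_right (n := 2) two_pos (show n ≤ 1 by omega)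
    omega
  have hcard' : Nat.card S = 2 * 2 ^ n := by rw [← hcard, ha]
  rcases CfsgLib.MaximalClass.exists_exponent hx hC ha hn hcard' hxa with h | ⟨hn3, h⟩
  · haveI : NeZero (2 ^ n) := ⟨(Nat.two_pow_pos n).ne'⟩
    exact Or.inl ⟨2 ^ n, CfsgLib.MaximalClass.dihedral_iso (N := 2 ^ n)
      (by rw [← sq, ← hx, pow_orderOf_eq_one]) ha hcard' hxa h⟩
  · exact Or.inr (Or.inl ⟨n, hn3, by rw [hcard', pow_succ'], a, x, ha, hx, h⟩)

end Cfsg.Agent.S3224
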