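import Cfsg.Statements.S3247
import Cfsg.Agent.Lib.PConstrained
import Mathlib.GroupTheory.Perm.Cycle.Type
import Mathlib.Tactic

set_option autoImplicit false
open Cfsg

namespace Cfsg.Agent.S3247

/-- Let G be a finite group and p a prime; here a p-local subgroup means the normalizer of a nontrivial p-subgroup, other than G itself. If every p-local subgroup of G that is maximal among p-local subgroups is p-constrained, or if the centralizer of every element of order p of G is p-constrained, then every p-local subgroup of G is p-constrained. -/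
theorem result {G : Type*} [Group G] [Finite G] (p : ℕ) [hp : Fact p.Prime]
    (h : (∀ M : Subgroup G, (∃ T : Subgroup G, IsPGroup p ↥T ∧ T ≠ ⊥ ∧ M = Subgroup.normalizer (T : Set G)) → M ≠ ⊤ →
        (∀ M' : Subgroup G, (∃ T' : Subgroup G, IsPGroup p ↥T' ∧ T' ≠ ⊥ ∧ M' = Subgroup.normalizer (T' : Set G)) → M' ≠ ⊤ → M ≤ M' → M = M') →
        Cfsg.IsPConstrained p ↥M) ∨
      (∀ x : G, orderOf x = p → Cfsg.IsPConstrained p ↥(Subgroup.centralizer ({x} : Set G))))
    (T : Subgroup G) (hT : IsPGroup p ↥T) (hT1 : T ≠ ⊥) (hTG : Subgroup.normalizer (T : Set G) ≠ ⊤) :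
    Cfsg.IsPConstrained p ↥(Subgroup.normalizer (T : Set G)) := by
  classical
  rcases h with h | h
  · -- enlarge to a maximal p-local
    obtain ⟨M, hle, ⟨⟨T', hT', hT'1, rfl⟩, htop⟩, hmax⟩ :=
      Set.Finite.exists_le_maximal (s := {M : Subgroup G | (∃ T' : Subgroup G, IsPGroup p ↥T' ∧ T' ≠ ⊥ ∧
        M = Subgroup.normalizer (T' : Set G)) ∧ M ≠ ⊤}) (Set.toFinite _) (a := Subgroup.normalizer (T : Set G))
        ⟨⟨T, hT, hT1, rfl⟩, hTG⟩
    have hMc := h _ ⟨T', hT', hT'1, rfl⟩ htop fun M' h1 h2 h3 => le_antisymm h3 (hmax ⟨h1, h2⟩ h3)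
    set M := Subgroup.normalizer (T' : Set G)
    have hTM : T ≤ M := Subgroup.le_normalizer.trans hle
    have hN := CfsgLib.PConstrained.normalizer hMc (U := T.subgroupOf M) (hT.comap_subtype (K := M))
    have heq : Subgroup.normalizer ((T.subgroupOf M : Subgroup M) : Set M) =
        (Subgroup.normalizer (T : Set G)).subgroupOf M := by
      ext x
      rw [Subgroup.mem_subgroupOf, Subgroup.mem_normalizer_iff, Subgroup.mem_normalizer_iff]
      constructor
      · intro hx y
        constructor
        · intro hy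
          exact (hx ⟨y, hTM hy⟩).1 hy
        · intro hy
          have := (hx ((x⁻¹ : M) * ⟨_, hTM hy⟩ * x)).2
            (by simpa [Subgroup.mem_subgroupOf, mul_assoc] using hy)
          simpa [Subgroup.mem_subgroupOf, mul_assoc] using this
      · intro hx y
        exact hx y
    rw [heq] at hN
    exact CfsgLib.PConstrained.congr (Subgroup.subgroupOfEquivOfLe hle) hN
  · haveI : Nontrivial T := (Subgroup.nontrivial_iff_ne_bot T).2 hT1
    haveI := hT.center_nontrivial
    obtain ⟨k, hk, hkc⟩ := (IsPGroup.nontrivial_iff_card (hT.to_subgroup (Subgroup.center T))).1 inferInstance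
    obtain ⟨⟨⟨z, hzT⟩, hzc⟩, hz⟩ := exists_prime_orderOf_dvd_card' (G := Subgroup.center T) p
      (by rw [hkc]; exact dvd_pow_self p (by omega))
    rw [Subgroup.orderOf_mk, Subgroup.orderOf_mk] at hz
    set L := Subgroup.centralizer ({z} : Set G)
    have hTL : T ≤ L := fun t ht => Subgroup.mem_centralizer_singleton_iff.2
      (congrArg Subtype.val (Subgroup.mem_center_iff.1 hzc ⟨t, ht⟩))
    have hC := CfsgLib.PConstrained.centralizer (h z hz) (U := T.subgroupOf L) (hT.comap_subtype (K := L))
    set N := Subgroup.normalizer (T : Set G)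
    have hCL : Subgroup.centralizer (T : Set G) ≤ L := fun c hc =>
      Subgroup.mem_centralizer_singleton_iff.2 (hc z hzT).symm
    have e1 : Subgroup.centralizer ((T.subgroupOf L : Subgroup L) : Set L) =
        (Subgroup.centralizer (T : Set G)).subgroupOf L := by
      ext x
      rw [Subgroup.mem_subgroupOf, Subgroup.mem_centralizer_iff, Subgroup.mem_centralizer_iff]
      exact ⟨fun hx t ht => congrArg Subtype.val (hx ⟨t, hTL ht⟩ ht), fun hx t ht => Subtype.ext (hx t ht)⟩
    have e2 : Subgroup.centralizer ((T.subgroupOf N : Subgroup N) : Set N) =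
        (Subgroup.centralizer (T : Set G)).subgroupOf N := by
      ext x
      rw [Subgroup.mem_subgroupOf, Subgroup.mem_centralizer_iff, Subgroup.mem_centralizer_iff]
      exact ⟨fun hx t ht => congrArg Subtype.val (hx ⟨t, Subgroup.le_normalizer ht⟩ ht),
        fun hx t ht => Subtype.ext (hx t ht)⟩
    rw [e1] at hC
    have hC' := CfsgLib.PConstrained.congr ((Subgroup.subgroupOfEquivOfLe hCL).trans
      (Subgroup.subgroupOfEquivOfLe (Subgroup.centralizer_le_normalizer _)).symm) hC
    haveI : (T.subgroupOf N).Normal := Subgroup.normal_in_normalizer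
    refine CfsgLib.PConstrained.of_centralizer (T := T.subgroupOf N) (hT.comap_subtype (K := N)) ?_
    rw [e2]
    exact hC'

end Cfsg.Agent.S3247
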