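import Cfsg.Statements.S3265
import Mathlib

set_option autoImplicit false
open Cfsg

namespace Cfsg.Agent.S3265

open Equiv Function Finset

section core

variable {α : Type*} [Fintype α] [DecidableEq α]

/-- `v` has odd period under `g`. -/
def OP (g : α → α) (v : α) : Prop := ∃ m, Odd m ∧ g^[m] v = v

theorem op_iter {g : α → α} {v : α} (h : OP g v) (i : ℕ) : OP g (g^[i] v) := by
  obtain ⟨m, hm, e⟩ := h
  exact ⟨m, hm, by rw [← iterate_add_apply, add_comm, iterate_add_apply, e]⟩

/-- A first return map with odd return times has the same parity of periods. -/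
theorem op_return {g g' : α → α} {S : Finset α} (hS : ∀ v ∈ S, g v ∈ S)
    (h : ∀ v ∈ S, ∃ k, Odd k ∧ g'^[k] v = g v) {v : α} (hv : v ∈ S) (ho : OP g v) : OP g' v := by
  have key : ∀ j, g^[j] v ∈ S ∧ ∃ N, (Odd N ↔ Odd j) ∧ g'^[N] v = g^[j] v := by
    intro j
    induction j with
    | zero => exact ⟨hv, 0, Iff.rfl, rfl⟩
    | succ j ih =>
      obtain ⟨hin, N, hN, e⟩ := ih
      rw [iterate_succ_apply']
      obtain ⟨k, hk, ek⟩ := h _ hin
      refine ⟨hS _ hin, k + N, ?_, by rw [iterate_add_apply, e, ek]⟩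
      simp only [Nat.odd_add, hk, true_iff, Nat.odd_add_one, ← Nat.not_odd_iff_even, hN]
  obtain ⟨m, hm, e⟩ := ho
  obtain ⟨-, N, hN, e'⟩ := key m
  exact ⟨N, hN.mpr hm, e'.trans e⟩

theorem orderOf_odd_of_op (g : Perm α) (h : ∀ v, OP g v) : Odd (orderOf g) := by
  choose m hm e using h
  have hpow : ∀ (n : ℕ) v, (g ^ n) v = (⇑g)^[n] v := fun n v => by rw [← Equiv.Perm.coe_pow]
  have hodd : Odd (∏ v, m v) :=
    Finset.prod_induction _ Odd (fun a b ha hb => ha.mul hb) odd_one (fun v _ => hm v)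
  refine hodd.of_dvd_nat (orderOf_dvd_of_pow_eq_one (Equiv.ext fun v => ?_))
  obtain ⟨c, hc⟩ := Finset.dvd_prod_of_mem m (Finset.mem_univ v)
  rw [hc, hpow, Equiv.Perm.one_apply, iterate_mul, iterate_fixed (e v)]

variable (x y : Perm α)

/-- number of points of `M` moved by `f`. -/
def mv (f : α → α) (M : Finset α) : ℕ := (M.filter fun v => f v ≠ v).card

def Inv (M : Finset α) : Prop := ∀ v ∈ M, x v ∈ M ∧ y v ∈ M

structure Good (M : Finset α) (z : α → α) : Prop where
  mem : ∀ v ∈ M, z v ∈ M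
  inv : ∀ v ∈ M, z (z v) = v
  card : mv z M = mv x M
  opx : ∀ v ∈ M, OP (fun w => x (z w)) v
  opy : ∀ v ∈ M, OP (fun w => y (z w)) v

theorem mv_union {f : α → α} {A B : Finset α} (h : Disjoint A B) : mv f (A ∪ B) = mv f A + mv f B := by
  rw [mv, filter_union, card_union_of_disjoint (disjoint_filter_filter h)]; rfl

theorem mv_congr {f g : α → α} {A : Finset α} (h : ∀ v ∈ A, f v = g v) : mv f A = mv g A := by
  refine congrArg Finset.card (filter_congr fun v hv => ?_)
  rw [h v hv]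

variable {x y}

theorem op_congr {g g' : α → α} {S : Finset α} (hS : ∀ v ∈ S, g v ∈ S) (h : ∀ v ∈ S, g' v = g v)
    {v : α} (hv : v ∈ S) (ho : OP g v) : OP g' v :=
  op_return hS (fun w hw => ⟨1, odd_one, h w hw⟩) hv ho

theorem glue {A B : Finset α} {f g : α → α} (hd : Disjoint A B) (hA : Inv x y A) (hB : Inv x y B)
    (hf : Good x y A f) (hg : Good x y B g) : Good x y (A ∪ B) (fun v => if v ∈ A then f v else g v) := by
  have h1 : ∀ v ∈ A, (if v ∈ A then f v else g v) = f v := fun v hv => if_pos hv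
  have h2 : ∀ v ∈ B, (if v ∈ A then f v else g v) = g v := fun v hv =>
    if_neg fun h => Finset.disjoint_left.mp hd h hv
  refine ⟨fun v hv => ?_, fun v hv => ?_, ?_, fun v hv => ?_, fun v hv => ?_⟩
  · rcases mem_union.mp hv with h | h
    · simp only [h1 v h]; exact mem_union_left _ (hf.mem v h)
    · simp only [h2 v h]; exact mem_union_right _ (hg.mem v h)
  · show (if (if v ∈ A then f v else g v) ∈ A then f (if v ∈ A then f v else g v) else g (if v ∈ A then f v else g v)) = v
    rcases mem_union.mp hv with h | h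
    · rw [h1 v h, h1 _ (hf.mem v h), hf.inv v h]
    · rw [h2 v h, h2 _ (hg.mem v h), hg.inv v h]
  · rw [mv_union hd, mv_union hd, mv_congr h1, mv_congr h2, hf.card, hg.card]
  · rcases mem_union.mp hv with h | h
    · exact op_congr (g := fun w => x (f w)) (fun w hw => (hA _ (hf.mem w hw)).1)
        (fun w hw => by simp only [h1 w hw]) h (hf.opx v h)
    · exact op_congr (g := fun w => x (g w)) (fun w hw => (hB _ (hg.mem w hw)).1)
        (fun w hw => by simp only [h2 w hw]) h (hg.opx v h)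
  · rcases mem_union.mp hv with h | h
    · exact op_congr (g := fun w => y (f w)) (fun w hw => (hA _ (hf.mem w hw)).2)
        (fun w hw => by simp only [h1 w hw]) h (hf.opy v h)
    · exact op_congr (g := fun w => y (g w)) (fun w hw => (hB _ (hg.mem w hw)).2)
        (fun w hw => by simp only [h2 w hw]) h (hg.opy v h)

/-- The four points of a commuting block. -/
structure K4 (x y : Perm α) (p q r s : α) : Prop where
  xp : x p = q
  xq : x q = p
  xr : x r = s
  xs : x s = r
  yp : y p = r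
  yr : y r = p
  yq : y q = s
  ys : y s = q
  pq : p ≠ q
  pr : p ≠ r
  ps : p ≠ s
  qr : q ≠ r
  qs : q ≠ s
  rs : r ≠ s

theorem K4.inv {p q r s : α} (h : K4 x y p q r s) : Inv x y ({p, q, r, s} : Finset α) := by
  intro v hv
  simp only [mem_insert, mem_singleton] at hv
  rcases hv with rfl | rfl | rfl | rfl <;>
    simp only [h.xp, h.xq, h.xr, h.xs, h.yp, h.yq, h.yr, h.ys, mem_insert, mem_singleton, true_or, or_true, and_self]

theorem K4.mv_eq {p q r s : α} (h : K4 x y p q r s) :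
    mv x ({p, q, r, s} : Finset α) = 4 ∧ mv y ({p, q, r, s} : Finset α) = 4 := by
  have hc : ({p, q, r, s} : Finset α).card = 4 := by
    simp [card_insert_of_notMem, h.pq, h.pr, h.ps, h.qr, h.qs, h.rs]
  constructor <;> rw [mv, filter_true_of_mem ?_, hc] <;> intro v hv <;>
    simp only [mem_insert, mem_singleton] at hv <;> rcases hv with rfl | rfl | rfl | rfl <;>
    simp [h.xp, h.xq, h.xr, h.xs, h.yp, h.yq, h.yr, h.ys, h.pq, h.pr, h.qs, h.rs, h.pq.symm, h.pr.symm, h.qs.symm, h.rs.symm]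

/-- the combinatorial heart of the insertion. -/
theorem insert_op {S : Finset α} {g g' : α → α} {a b p q r s : α} (hg : ∀ v ∈ S, g v ∈ S)
    (ha : a ∈ S) (hb : b ∈ S) (hop : ∀ v ∈ S, OP g v)
    (h0 : ∀ v ∈ S, v ≠ a → v ≠ b → g' v = g v)
    (ha1 : g' a = q) (hq : g' q = s) (hp : g' p = g b ∨ (a = b ∧ g' p = g a)) (hr : g' r = p)
    (hcase : (a ≠ b ∧ g' s = g a ∧ g' b = r ∧ g' p = g b) ∨ (a = b ∧ g' s = r ∧ g' p = g a)) :
    ∀ v, v ∈ S ∨ v = p ∨ v = q ∨ v = r ∨ v = s → OP g' v := by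
  have hret : ∀ v ∈ S, ∃ k, Odd k ∧ g'^[k] v = g v := by
    intro v hv
    rcases hcase with ⟨hab, hs, hb', hp'⟩ | ⟨hab, hs, hp'⟩
    · by_cases hva : v = a
      · subst hva; exact ⟨3, by decide, show g' (g' (g' v)) = _ by rw [ha1, hq, hs]⟩
      by_cases hvb : v = b
      · subst hvb; exact ⟨3, by decide, show g' (g' (g' v)) = _ by rw [hb', hr, hp']⟩
      exact ⟨1, odd_one, h0 v hv hva hvb⟩
    · by_cases hva : v = a
      · subst hva; exact ⟨5, by decide, show g' (g' (g' (g' (g' v)))) = _ by rw [ha1, hq, hs, hr, hp']⟩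
      exact ⟨1, odd_one, h0 v hv hva (hab ▸ hva)⟩
  have hS : ∀ v ∈ S, OP g' v := fun v hv => op_return hg hret hv (hop v hv)
  have oq : OP g' q := ha1 ▸ op_iter (hS a ha) 1
  have os : OP g' s := hq ▸ op_iter oq 1
  have orr : OP g' r := by
    rcases hcase with ⟨-, -, hb', -⟩ | ⟨-, hs, -⟩
    · exact hb' ▸ op_iter (hS b hb) 1
    · exact hs ▸ op_iter os 1
  have op' : OP g' p := hr ▸ op_iter orr 1
  rintro v (hv | rfl | rfl | rfl | rfl)
  exacts [hS v hv, op', oq, orr, os]

theorem exists_insert {S : Finset α} {f : α → α} {p q r s a : α} (hK : K4 x y p q r s) (hI : Inv x y S)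
    (hdis : ∀ v ∈ S, v ≠ p ∧ v ≠ q ∧ v ≠ r ∧ v ≠ s) (ha : a ∈ S) (hf : Good x y S f) :
    ∃ z, Good x y (S ∪ {p, q, r, s}) z := by
  obtain ⟨b, hbdef⟩ : ∃ b, f a = b := ⟨_, rfl⟩
  have hb : b ∈ S := hbdef ▸ hf.mem a ha
  have hfb : f b = a := hbdef ▸ hf.inv a ha
  obtain ⟨hap, haq, har, has⟩ := hdis a ha
  obtain ⟨hbp, hbq, hbr, hbs⟩ := hdis b hb
  let z : α → α := fun v =>
    if v = a then p else if v = p then a else if v = q then r else if v = r then q
    else if v = s then (if a = b then s else b) else if v = b then s else f v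
  have za : z a = p := by simp [z]
  have zp : z p = a := by simp [z, hap.symm]
  have zq : z q = r := by simp [z, haq.symm, hK.pq.symm]
  have zr : z r = q := by simp [z, har.symm, hK.pr.symm, hK.qr.symm]
  have zs : z s = if a = b then s else b := by simp [z, has.symm, hK.ps.symm, hK.qs.symm, hK.rs.symm]
  have zb : a ≠ b → z b = s := fun h => by simp [z, h.symm, hbp, hbq, hbr, hbs]
  have z0 : ∀ v ∈ S, v ≠ a → v ≠ b → z v = f v := fun v hv h1 h2 => by
    obtain ⟨h3, h4, h5, h6⟩ := hdis v hv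
    simp [z, h1, h2, h3, h4, h5, h6]
  have hmem : ∀ v, v ∈ S ∪ {p, q, r, s} ↔ v ∈ S ∨ v = p ∨ v = q ∨ v = r ∨ v = s := fun v => by
    simp only [mem_union, mem_insert, mem_singleton]
  refine ⟨z, fun v hv => ?_, fun v hv => ?_, ?_, fun v hv => ?_, fun v hv => ?_⟩
  · rcases (hmem v).mp hv with h | h | h | h | h
    · by_cases h1 : v = a
      · rw [h1, za]; exact (hmem _).mpr (by simp)
      by_cases h2 : v = b
      · rw [h2, zb (fun e => h1 (h2.trans e.symm))]; exact (hmem _).mpr (by simp)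
      rw [z0 v h h1 h2]; exact (hmem _).mpr (Or.inl (hf.mem v h))
    · rw [h, zp]; exact (hmem _).mpr (Or.inl ha)
    · rw [h, zq]; exact (hmem _).mpr (by simp)
    · rw [h, zr]; exact (hmem _).mpr (by simp)
    · rw [h, zs]; split
      · exact (hmem _).mpr (by simp)
      · exact (hmem _).mpr (Or.inl hb)
  · rcases (hmem v).mp hv with h | h | h | h | h
    · by_cases h1 : v = a
      · rw [h1, za, zp]
      by_cases h2 : v = b
      · have hab : a ≠ b := fun e => h1 (h2.trans e.symm)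
        rw [h2, zb hab, zs, if_neg hab]
      rw [z0 v h h1 h2, z0 _ (hf.mem v h) (fun e => h2 (by rw [← hf.inv v h, e, hbdef]))
        (fun e => h1 (by rw [← hf.inv v h, e, hfb])), hf.inv v h]
    · rw [h, zp, za]
    · rw [h, zq, zr]
    · rw [h, zr, zq]
    · rw [h, zs]; split
      · next e => rw [zs, if_pos e]
      · next e => rw [zb e]
  · have hd : Disjoint S {p, q, r, s} := Finset.disjoint_left.mpr fun v hv => by
      obtain ⟨h3, h4, h5, h6⟩ := hdis v hv
      simp [h3, h4, h5, h6]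
    rw [mv_union hd, mv_union hd, hK.mv_eq.1, ← hf.card]
    by_cases hab : a = b
    · have e1 : S.filter (fun v => z v ≠ v) = insert a (S.filter fun v => f v ≠ v) := by
        ext v
        simp only [mem_filter, mem_insert]
        by_cases h1 : v = a
        · simp [h1, ha, za, hap.symm]
        · simp only [h1, false_or]
          exact and_congr_right fun hv => by rw [z0 v hv h1 (hab ▸ h1)]
      have e2 : ({p, q, r, s} : Finset α).filter (fun v => z v ≠ v) = {p, q, r} := by
        ext v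
        simp only [mem_filter, mem_insert, mem_singleton]
        constructor
        · rintro ⟨rfl | rfl | rfl | rfl, hne⟩
          · simp
          · simp
          · simp
          · exact absurd (by rw [zs, if_pos hab]) hne
        · rintro (rfl | rfl | rfl) <;> simp [zp, zq, zr, hap, hK.qr.symm, hK.qr]
      unfold mv
      rw [e1, e2, card_insert_of_notMem (by simp [hbdef, hab.symm]),
        show ({p, q, r} : Finset α).card = 3 by simp [hK.pq, hK.pr, hK.qr]]
    · have e1 : S.filter (fun v => z v ≠ v) = S.filter (fun v => f v ≠ v) := by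
        refine filter_congr fun v hv => ?_
        by_cases h1 : v = a
        · simp [h1, za, hap.symm, hbdef, Ne.symm hab]
        by_cases h2 : v = b
        · simp [h2, zb hab, hbs.symm, hfb, hab]
        rw [z0 v hv h1 h2]
      have e2 : ({p, q, r, s} : Finset α).filter (fun v => z v ≠ v) = {p, q, r, s} := by
        refine filter_true_of_mem fun v hv => ?_
        simp only [mem_insert, mem_singleton] at hv
        rcases hv with rfl | rfl | rfl | rfl <;> simp [zp, zq, zr, zs, hab, hap, hbs, hK.qr.symm, hK.qr]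
      unfold mv
      rw [e1, e2, show ({p, q, r, s} : Finset α).card = 4 by
        simp [card_insert_of_notMem, hK.pq, hK.pr, hK.ps, hK.qr, hK.qs, hK.rs]]
  · refine insert_op (g := fun w => x (f w)) (a := a) (b := b) (p := p) (q := q) (r := r) (s := s)
      (fun w hw => (hI _ (hf.mem w hw)).1) ha hb hf.opx (fun w hw h1 h2 => by simp only [z0 w hw h1 h2])
      (by simp only [za, hK.xp]) (by simp only [zq, hK.xr]) (Or.inl (by simp only [zp, hfb]))
      (by simp only [zr, hK.xq]) ?_ v ((hmem v).mp hv)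
    by_cases hab : a = b
    · exact Or.inr ⟨hab, by simp only [zs, if_pos hab, hK.xs], by simp only [zp, hbdef]; rw [hab]⟩
    · exact Or.inl ⟨hab, by simp only [zs, if_neg hab, hbdef], by simp only [zb hab, hK.xs], by simp only [zp, hfb]⟩
  · refine insert_op (g := fun w => y (f w)) (a := a) (b := b) (p := p) (q := r) (r := q) (s := s)
      (fun w hw => (hI _ (hf.mem w hw)).2) ha hb hf.opy (fun w hw h1 h2 => by simp only [z0 w hw h1 h2])
      (by simp only [za, hK.yp]) (by simp only [zr, hK.yq]) (Or.inl (by simp only [zp, hfb]))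
      (by simp only [zq, hK.yr]) ?_ v (by rcases (hmem v).mp hv with h | h | h | h | h <;> simp [h])
    by_cases hab : a = b
    · exact Or.inr ⟨hab, by simp only [zs, if_pos hab, hK.ys], by simp only [zp, hbdef]; rw [hab]⟩
    · exact Or.inl ⟨hab, by simp only [zs, if_neg hab, hbdef], by simp only [zb hab, hK.ys], by simp only [zp, hfb]⟩

theorem op_cycle3 {g : α → α} {a b c : α} (h1 : g a = b) (h2 : g b = c) (h3 : g c = a) :
    OP g a ∧ OP g b ∧ OP g c :=
  ⟨⟨3, by decide, show g (g (g a)) = a by rw [h1, h2, h3]⟩,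
   ⟨3, by decide, show g (g (g b)) = b by rw [h2, h3, h1]⟩,
   ⟨3, by decide, show g (g (g c)) = c by rw [h3, h1, h2]⟩⟩

theorem exists_double {p q r s e f g h : α} (hK : K4 x y p q r s) (hL : K4 x y e f g h)
    (hd : ∀ v ∈ ({e, f, g, h} : Finset α), v ≠ p ∧ v ≠ q ∧ v ≠ r ∧ v ≠ s) :
    ∃ z, Good x y ({e, f, g, h} ∪ {p, q, r, s}) z := by
  obtain ⟨ep, eq, er, es⟩ := hd e (by simp)
  obtain ⟨fp, fq, fr, fs⟩ := hd f (by simp)
  obtain ⟨gp, gq, gr, gs⟩ := hd g (by simp)
  obtain ⟨hp, hq, hr, hs⟩ := hd h (by simp)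
  let z : α → α := fun v => if v = p then q else if v = q then p else if v = r then f else if v = f then r
    else if v = s then h else if v = h then s else if v = e then g else e
  have zp : z p = q := by simp [z]
  have zq : z q = p := by simp [z, hK.pq.symm]
  have zr : z r = f := by simp [z, hK.pr.symm, hK.qr.symm]
  have zf : z f = r := by simp [z, fp, fq, fr]
  have zs : z s = h := by simp [z, hK.ps.symm, hK.qs.symm, hK.rs.symm, fs.symm]
  have zh : z h = s := by simp [z, hp, hq, hr, hs, hL.qs.symm]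
  have ze : z e = g := by simp [z, ep, eq, er, es, hL.pq, hL.ps]
  have zg : z g = e := by simp [z, gp, gq, gr, gs, hL.qr.symm, hL.rs, hL.pr.symm]
  have hmem : ∀ v, v ∈ ({e, f, g, h} ∪ {p, q, r, s} : Finset α) ↔
      (v = e ∨ v = f ∨ v = g ∨ v = h) ∨ v = p ∨ v = q ∨ v = r ∨ v = s := fun v => by
    simp only [mem_union, mem_insert, mem_singleton]
  have hd' : Disjoint ({e, f, g, h} : Finset α) {p, q, r, s} := Finset.disjoint_left.mpr fun v hv => by
    obtain ⟨h3, h4, h5, h6⟩ := hd v hv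
    simp [h3, h4, h5, h6]
  refine ⟨z, fun v hv => ?_, fun v hv => ?_, ?_, fun v hv => ?_, fun v hv => ?_⟩
  · rw [hmem] at hv ⊢
    rcases hv with (rfl | rfl | rfl | rfl) | rfl | rfl | rfl | rfl <;> simp [zp, zq, zr, zf, zs, zh, ze, zg]
  · rw [hmem] at hv
    rcases hv with (rfl | rfl | rfl | rfl) | rfl | rfl | rfl | rfl <;> simp [zp, zq, zr, zf, zs, zh, ze, zg]
  · rw [mv_union hd', mv_union hd', hK.mv_eq.1, hL.mv_eq.1]
    unfold mv
    rw [filter_true_of_mem, filter_true_of_mem]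
    · simp [card_insert_of_notMem, hK.pq, hK.pr, hK.ps, hK.qr, hK.qs, hK.rs, hL.pq, hL.pr, hL.ps, hL.qr, hL.qs, hL.rs]
    · intro v hv
      simp only [mem_insert, mem_singleton] at hv
      rcases hv with rfl | rfl | rfl | rfl <;> simp [zp, zq, zr, zs, hK.pq, hK.pq.symm, fr, hs]
    · intro v hv
      simp only [mem_insert, mem_singleton] at hv
      rcases hv with rfl | rfl | rfl | rfl <;> simp [zf, zh, ze, zg, hL.pr, hL.pr.symm, fr.symm, hs.symm]
  · obtain ⟨o1, o2, o3⟩ := op_cycle3 (g := fun w => x (z w)) (a := e) (b := h) (c := r)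
      (by simp only [ze, hL.xr]) (by simp only [zh, hK.xs]) (by simp only [zr, hL.xq])
    obtain ⟨o4, o5, o6⟩ := op_cycle3 (g := fun w => x (z w)) (a := g) (b := f) (c := s)
      (by simp only [zg, hL.xp]) (by simp only [zf, hK.xr]) (by simp only [zs, hL.xs])
    rcases (hmem v).mp hv with (rfl | rfl | rfl | rfl) | rfl | rfl | rfl | rfl
    exacts [o1, o5, o4, o2, ⟨1, odd_one, show x (z v) = v by rw [zp, hK.xq]⟩,
      ⟨1, odd_one, show x (z v) = v by rw [zq, hK.xp]⟩, o3, o6]
  · obtain ⟨o1, o2, o3⟩ := op_cycle3 (g := fun w => y (z w)) (a := p) (b := s) (c := f)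
      (by simp only [zp, hK.yq]) (by simp only [zs, hL.ys]) (by simp only [zf, hK.yr])
    obtain ⟨o4, o5, o6⟩ := op_cycle3 (g := fun w => y (z w)) (a := q) (b := r) (c := h)
      (by simp only [zq, hK.yp]) (by simp only [zr, hL.yq]) (by simp only [zh, hK.ys])
    rcases (hmem v).mp hv with (rfl | rfl | rfl | rfl) | rfl | rfl | rfl | rfl
    exacts [⟨1, odd_one, show y (z v) = v by rw [ze, hL.yr]⟩, o3,
      ⟨1, odd_one, show y (z v) = v by rw [zg, hL.yp]⟩, o6, o1, o4, o5, o2]

/-- the period of `v` under `x * y`. -/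
noncomputable def per (x y : Perm α) (v : α) : ℕ := minimalPeriod (fun w => (x * y) • w) v

theorem per_iff (v : α) (i : ℤ) : ((x * y) ^ i) v = v ↔ (per x y v : ℤ) ∣ i :=
  MulAction.zpow_smul_eq_iff_minimalPeriod_dvd (a := x * y) (b := v) (n := i)

theorem per_eq_iff (v : α) (i j : ℤ) : ((x * y) ^ i) v = ((x * y) ^ j) v ↔ (per x y v : ℤ) ∣ i - j := by
  rw [← per_iff, show i = j + (i - j) by ring, zpow_add, Equiv.Perm.mul_apply]
  simp only [EmbeddingLike.apply_eq_iff_eq, add_sub_cancel_left]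

theorem per_congr {v w : α} (h : ∀ i : ℤ, ((x * y) ^ i) v = v ↔ ((x * y) ^ i) w = w) : per x y v = per x y w := by
  apply Nat.dvd_antisymm <;> rw [← Int.natCast_dvd_natCast, ← per_iff]
  · exact (h _).mpr ((per_iff w _).mpr dvd_rfl)
  · exact (h _).mp ((per_iff v _).mpr dvd_rfl)

theorem per_pos (v : α) : 0 < per x y v := by
  rcases Nat.eq_zero_or_pos (per x y v) with h | h
  · have : ((x * y) ^ ((orderOf (x * y) : ℕ) : ℤ)) v = v := by
      rw [zpow_natCast, pow_orderOf_eq_one]; rfl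
    rw [per_iff, h] at this
    simp only [Nat.cast_zero, zero_dvd_iff, Nat.cast_eq_zero] at this
    exact absurd this (orderOf_pos _).ne'
  · exact h

theorem per_pow (v : α) (j : ℤ) : per x y (((x * y) ^ j) v) = per x y v :=
  per_congr fun i => by
    rw [← Equiv.Perm.mul_apply, (Commute.zpow_zpow_self (x * y) i j).eq, Equiv.Perm.mul_apply,
      EmbeddingLike.apply_eq_iff_eq]

theorem x_pow (hx : x * x = 1) (hy : y * y = 1) (i : ℤ) (v : α) :
    x (((x * y) ^ i) v) = ((x * y) ^ (-i)) (x v) := by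
  have e : SemiconjBy x (x * y) (x * y)⁻¹ := by
    show x * (x * y) = (x * y)⁻¹ * x
    rw [_root_.mul_inv_rev, inv_eq_of_mul_eq_one_right hy, inv_eq_of_mul_eq_one_right hx, mul_assoc y, hx, mul_one,
      ← mul_assoc, hx, one_mul]
  have := congrArg (fun g : Perm α => g v) (e.zpow_right i).eq
  rwa [inv_zpow', Equiv.Perm.mul_apply, Equiv.Perm.mul_apply] at this

theorem y_pow (hx : x * x = 1) (hy : y * y = 1) (i : ℤ) (v : α) :
    y (((x * y) ^ i) v) = ((x * y) ^ (-(i + 1))) (x v) := by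
  rw [← x_pow hx hy, show (x * y) ^ (i + 1) = (x * y) * (x * y) ^ i by rw [add_comm, zpow_one_add],
    Equiv.Perm.mul_apply, Equiv.Perm.mul_apply x y, ← Equiv.Perm.mul_apply x x, hx, Equiv.Perm.one_apply]

theorem per_x (hx : x * x = 1) (hy : y * y = 1) (v : α) : per x y (x v) = per x y v := by
  refine per_congr fun i => ?_
  constructor
  · intro h
    have h2 := congrArg x h
    rw [x_pow hx hy, ← Equiv.Perm.mul_apply x x, hx, Equiv.Perm.one_apply] at h2
    rw [per_iff, dvd_neg, ← per_iff] at h2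
    exact h2
  · intro h
    rw [per_iff, ← dvd_neg, ← per_iff] at h
    rw [← neg_neg i, ← x_pow hx hy, h]

theorem per_y (hx : x * x = 1) (hy : y * y = 1) (v : α) : per x y (y v) = per x y v := by
  have := y_pow (x := x) (y := y) hx hy 0 v
  rw [zpow_zero, Equiv.Perm.one_apply] at this
  rw [this, per_pow, per_x hx hy]

/-- orbit of `x * y`. -/
noncomputable def cyc (x y : Perm α) (v : α) : Finset α :=
  letI := Classical.decPred fun w => ∃ i : ℤ, ((x * y) ^ i) v = w
  univ.filter fun w => ∃ i : ℤ, ((x * y) ^ i) v = w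

theorem mem_cyc {v w : α} : w ∈ cyc x y v ↔ ∃ i : ℤ, ((x * y) ^ i) v = w := by simp [cyc]

theorem card_cyc (v : α) : (cyc x y v).card = per x y v := by
  have : cyc x y v = (range (per x y v)).image fun i : ℕ => ((x * y) ^ (i : ℤ)) v := by
    ext w
    simp only [mem_cyc, mem_image, Finset.mem_range]
    constructor
    · rintro ⟨i, rfl⟩
      have hp : (0 : ℤ) < per x y v := by exact_mod_cast per_pos (x := x) (y := y) v
      refine ⟨(i % per x y v).toNat, ?_, ?_⟩
      · have := Int.emod_lt_of_pos i hp; omega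
      · rw [Int.toNat_of_nonneg (Int.emod_nonneg _ hp.ne'), per_eq_iff]
        exact ⟨-(i / per x y v), by rw [mul_neg, Int.emod_def]; ring⟩
    · rintro ⟨i, -, rfl⟩; exact ⟨i, rfl⟩
  rw [this, card_image_of_injOn, card_range]
  intro i hi j hj e
  simp only [coe_range, Set.mem_Iio] at hi hj
  obtain ⟨c, hc⟩ := (per_eq_iff v i j).mp e
  rcases lt_trichotomy c 0 with h | h | h
  · nlinarith [show (i : ℤ) - j > -(per x y v : ℤ) by omega]
  · subst h; omega
  · nlinarith [show (i : ℤ) - j < (per x y v : ℤ) by omega]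

theorem path_op {g : α → α} {p q : α} (hev : Even (per x y p)) (hp : g p = q) (hq : g q = (x * y) p)
    (h0 : ∀ v ∈ cyc x y p, v ≠ p → g v = (x * y) v) : ∀ v, v = q ∨ v ∈ cyc x y p → OP g v := by
  obtain ⟨l, hl⟩ : ∃ l, per x y p = l + 1 := ⟨per x y p - 1, by have := per_pos (x := x) (y := y) p; omega⟩
  have step : ∀ j, j ≤ l → g^[j] ((x * y) p) = ((x * y) ^ ((j : ℤ) + 1)) p := by
    intro j hj
    induction j with
    | zero => simp
    | succ j ih =>
      rw [iterate_succ_apply', ih (by omega), h0 _ (mem_cyc.mpr ⟨_, rfl⟩) (fun e => ?_), ← Equiv.Perm.mul_apply,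
        ← zpow_one_add]
      · congr 2; push_cast; ring
      · rw [per_iff, hl] at e
        have := Int.le_of_dvd (by positivity) e
        omega
  have hlast : g^[l] ((x * y) p) = p := by
    rw [step l le_rfl, per_iff, hl]; exact ⟨1, by push_cast; ring⟩
  have hu : OP g ((x * y) p) := by
    refine ⟨l + 2, ?_, by rw [show l + 2 = (1 + 1) + l by ring, iterate_add_apply, hlast]; show g (g p) = _; rw [hp, hq]⟩
    rw [hl] at hev
    obtain ⟨c, hc⟩ := hev
    exact ⟨c, by omega⟩
  have hpo : OP g p := hlast ▸ op_iter hu l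
  rintro v (rfl | hv)
  · exact hp ▸ op_iter hpo 1
  obtain ⟨i, rfl⟩ := mem_cyc.mp hv
  have hpp : (0 : ℤ) < per x y p := by exact_mod_cast per_pos (x := x) (y := y) p
  have hlt := Int.emod_lt_of_pos (i - 1) hpp
  have hnn := Int.emod_nonneg (i - 1) hpp.ne'
  have hle : ((i - 1) % per x y p).toNat ≤ l := by omega
  have e : ((x * y) ^ i) p = g^[((i - 1) % per x y p).toNat] ((x * y) p) := by
    rw [step _ hle, Int.toNat_of_nonneg hnn, per_eq_iff, Int.emod_def]
    exact ⟨(i - 1) / per x y p, by ring⟩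
  rw [e]
  exact op_iter hu _

theorem inv_cyc_union (hx : x * x = 1) (hy : y * y = 1) (p : α) :
    Inv x y (cyc x y p ∪ cyc x y (x p)) := by
  intro v hv
  simp only [mem_union, mem_cyc] at hv ⊢
  have hxx : x (x p) = p := by rw [← Equiv.Perm.mul_apply, hx]; rfl
  rcases hv with ⟨i, rfl⟩ | ⟨i, rfl⟩
  · exact ⟨Or.inr ⟨-i, (x_pow hx hy i p).symm⟩, Or.inr ⟨-(i + 1), (y_pow hx hy i p).symm⟩⟩
  · exact ⟨Or.inl ⟨-i, by rw [x_pow hx hy, hxx]⟩, Or.inl ⟨-(i + 1), by rw [y_pow hx hy, hxx]⟩⟩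

theorem long_good (hx : x * x = 1) (hy : y * y = 1) {p : α} (hev : Even (per x y p)) (h4 : 4 ≤ per x y p)
    (hp : ∀ i : ℤ, ((x * y) ^ i) p ≠ x p) :
    ∃ z, Good x y (cyc x y p ∪ cyc x y (x p)) z ∧
      mv x (cyc x y p ∪ cyc x y (x p)) = mv y (cyc x y p ∪ cyc x y (x p)) := by
  set l := per x y p with hl
  set A : ℤ → α := fun i => ((x * y) ^ i) p with hA
  set B : ℤ → α := fun i => x (A i) with hB
  have xA : ∀ i, x (A i) = B i := fun i => rfl
  have xB : ∀ i, x (B i) = A i := fun i => by show x (x (A i)) = A i; rw [← Equiv.Perm.mul_apply, hx]; rfl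
  have yA : ∀ i, y (A i) = B (i + 1) := fun i => by
    show y _ = x _
    rw [y_pow hx hy, x_pow hx hy]
  have yB : ∀ i, y (B i) = A (i - 1) := fun i => by
    rw [show B i = y (A (i - 1)) by rw [yA, sub_add_cancel], ← Equiv.Perm.mul_apply, hy]; rfl
  have AA : ∀ i j, A i = A j ↔ (l : ℤ) ∣ i - j := fun i j => per_eq_iff p i j
  have BB : ∀ i j, B i = B j ↔ (l : ℤ) ∣ i - j := fun i j => x.injective.eq_iff.trans (AA i j)
  have AB : ∀ i j, A i ≠ B j := fun i j e => by
    apply hp (j + i)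
    have e' : A i = ((x * y) ^ (-j)) (x p) := e.trans (x_pow hx hy j p)
    rw [zpow_add, Equiv.Perm.mul_apply]
    show ((x * y) ^ j) (A i) = x p
    rw [e', ← Equiv.Perm.mul_apply, ← zpow_add, add_neg_cancel, zpow_zero]; rfl
  have hsmall : ∀ i j : ℤ, 0 ≤ i → i < l → 0 ≤ j → j < l → (l : ℤ) ∣ i - j → i = j := by
    intro i j h1 h2 h3 h4 ⟨c, hc⟩
    rcases lt_trichotomy c 0 with h | h | h
    · nlinarith
    · subst h; omega
    · nlinarith
  have Ane : ∀ i j : ℤ, 0 ≤ i → i < l → 0 ≤ j → j < l → i ≠ j → A i ≠ A j := fun i j h1 h2 h3 h4 hne e =>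
    hne (hsmall i j h1 h2 h3 h4 ((AA i j).mp e))
  have Bne : ∀ i j : ℤ, 0 ≤ i → i < l → 0 ≤ j → j < l → i ≠ j → B i ≠ B j := fun i j h1 h2 h3 h4 hne e =>
    hne (hsmall i j h1 h2 h3 h4 ((BB i j).mp e))
  let z : α → α := fun w => if w = A 0 then B 1 else if w = B 1 then A 0 else if w = B 0 then B 2 else
    if w = B 2 then B 0 else if w = A 1 then A 2 else if w = A 2 then A 1 else x w
  have l4 : (4 : ℤ) ≤ l := by exact_mod_cast h4
  have zA0 : z (A 0) = B 1 := by simp [z]
  have zB1 : z (B 1) = A 0 := by simp [z, (AB 0 1).symm]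
  have zB0 : z (B 0) = B 2 := by
    simp [z, (AB 0 0).symm, Bne 0 1 (by omega) (by omega) (by omega) (by omega) (by omega)]
  have zB2 : z (B 2) = B 0 := by
    simp [z, (AB 0 2).symm, Bne 2 1 (by omega) (by omega) (by omega) (by omega) (by omega),
      Bne 2 0 (by omega) (by omega) (by omega) (by omega) (by omega)]
  have zA1 : z (A 1) = A 2 := by
    simp [z, AB 1 1, AB 1 0, AB 1 2, Ane 1 0 (by omega) (by omega) (by omega) (by omega) (by omega)]
  have zA2 : z (A 2) = A 1 := by
    simp [z, AB 2 1, AB 2 0, AB 2 2, Ane 2 0 (by omega) (by omega) (by omega) (by omega) (by omega),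
      Ane 2 1 (by omega) (by omega) (by omega) (by omega) (by omega)]
  have zA : ∀ i : ℤ, 3 ≤ i → i < l → z (A i) = B i := fun i h1 h2 => by
    simp [z, AB i 1, AB i 0, AB i 2, Ane i 0 (by omega) h2 (by omega) (by omega) (by omega),
      Ane i 1 (by omega) h2 (by omega) (by omega) (by omega),
      Ane i 2 (by omega) h2 (by omega) (by omega) (by omega), xA]
  have zB : ∀ i : ℤ, 3 ≤ i → i < l → z (B i) = A i := fun i h1 h2 => by
    simp [z, (AB 0 i).symm, (AB 1 i).symm, (AB 2 i).symm, Bne i 0 (by omega) h2 (by omega) (by omega) (by omega),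
      Bne i 1 (by omega) h2 (by omega) (by omega) (by omega),
      Bne i 2 (by omega) h2 (by omega) (by omega) (by omega), xB]
  set O := cyc x y p ∪ cyc x y (x p) with hO
  have hmem : ∀ v ∈ O, ∃ i : ℤ, 0 ≤ i ∧ i < l ∧ (v = A i ∨ v = B i) := by
    intro v hv
    simp only [hO, mem_union, mem_cyc] at hv
    have hlp : (0 : ℤ) < l := by omega
    rcases hv with ⟨i, rfl⟩ | ⟨i, rfl⟩
    · exact ⟨i % l, Int.emod_nonneg _ hlp.ne', Int.emod_lt_of_pos _ hlp,
        Or.inl ((AA _ _).mpr ⟨i / l, by rw [Int.emod_def]; ring⟩)⟩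
    · refine ⟨(-i) % l, Int.emod_nonneg _ hlp.ne', Int.emod_lt_of_pos _ hlp, Or.inr ?_⟩
      have e1 : ((x * y) ^ i) (x p) = B (-i) := by
        show _ = x _
        rw [x_pow hx hy, neg_neg]
      rw [e1, BB]
      exact ⟨(-i) / l, by rw [Int.emod_def]; ring⟩
  have hA_mem : ∀ i, A i ∈ O := fun i => mem_union_left _ (mem_cyc.mpr ⟨i, rfl⟩)
  have hB_mem : ∀ i, B i ∈ O := fun i => mem_union_right _ (mem_cyc.mpr ⟨-i, (x_pow hx hy i p).symm⟩)
  have cases : ∀ {P : α → Prop}, P (A 0) → P (B 1) → P (B 0) → P (B 2) → P (A 1) → P (A 2) →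
      (∀ i : ℤ, 3 ≤ i → i < l → P (A i) ∧ P (B i)) → ∀ v ∈ O, P v := by
    intro P a0 b1 b0 b2 a1 a2 hi v hv
    obtain ⟨i, h1, h2, h⟩ := hmem v hv
    by_cases h3 : 3 ≤ i
    · rcases h with rfl | rfl
      exacts [(hi i h3 h2).1, (hi i h3 h2).2]
    · obtain rfl | rfl | rfl : i = 0 ∨ i = 1 ∨ i = 2 := by omega
      all_goals rcases h with rfl | rfl <;> assumption
  have hxmv : ∀ v ∈ O, x v ≠ v := by
    refine cases ?_ ?_ ?_ ?_ ?_ ?_ fun i _ _ => ⟨?_, ?_⟩ <;>
      first
        | (rw [xA]; exact (AB _ _).symm)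
        | (rw [xB]; exact AB _ _)
  have hymv : ∀ v ∈ O, y v ≠ v := by
    refine cases ?_ ?_ ?_ ?_ ?_ ?_ fun i _ _ => ⟨?_, ?_⟩ <;>
      first
        | (rw [yA]; exact (AB _ _).symm)
        | (rw [yB]; exact AB _ _)
  have hzmv : ∀ v ∈ O, z v ≠ v := by
    refine cases ?_ ?_ ?_ ?_ ?_ ?_ fun i h1 h2 => ⟨?_, ?_⟩
    · rw [zA0]; exact (AB _ _).symm
    · rw [zB1]; exact AB _ _
    · rw [zB0]; exact Bne _ _ (by omega) (by omega) (by omega) (by omega) (by omega)
    · rw [zB2]; exact Bne _ _ (by omega) (by omega) (by omega) (by omega) (by omega)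
    · rw [zA1]; exact Ane _ _ (by omega) (by omega) (by omega) (by omega) (by omega)
    · rw [zA2]; exact Ane _ _ (by omega) (by omega) (by omega) (by omega) (by omega)
    · rw [zA i h1 h2]; exact (AB _ _).symm
    · rw [zB i h1 h2]; exact AB _ _
  refine ⟨z, ⟨?_, ?_, ?_, ?_, ?_⟩, ?_⟩
  · exact cases (zA0 ▸ hB_mem 1) (zB1 ▸ hA_mem 0) (zB0 ▸ hB_mem 2) (zB2 ▸ hB_mem 0) (zA1 ▸ hA_mem 2)
      (zA2 ▸ hA_mem 1) fun i h1 h2 => ⟨zA i h1 h2 ▸ hB_mem i, zB i h1 h2 ▸ hA_mem i⟩
  · exact cases (by rw [zA0, zB1]) (by rw [zB1, zA0]) (by rw [zB0, zB2]) (by rw [zB2, zB0]) (by rw [zA1, zA2])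
      (by rw [zA2, zA1]) fun i h1 h2 => ⟨by rw [zA i h1 h2, zB i h1 h2], by rw [zB i h1 h2, zA i h1 h2]⟩
  · simp only [mv, filter_true_of_mem hxmv, filter_true_of_mem hzmv]
  · obtain ⟨o1, o2, o3⟩ := op_cycle3 (g := fun w => x (z w)) (a := A 0) (b := A 1) (c := B 2)
      (by simp only [zA0, xB]) (by simp only [zA1, xA]) (by simp only [zB2, xB])
    obtain ⟨o4, o5, o6⟩ := op_cycle3 (g := fun w => x (z w)) (a := A 2) (b := B 1) (c := B 0)
      (by simp only [zA2, xA]) (by simp only [zB1, xA]) (by simp only [zB0, xB])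
    exact cases o1 o5 o6 o3 o2 o4 fun i h1 h2 =>
      ⟨⟨1, odd_one, by simp only [iterate_one, zA i h1 h2, xB]⟩, ⟨1, odd_one, by simp only [iterate_one, zB i h1 h2, xA]⟩⟩
  · set g := fun w => y (z w) with hg
    have gA : ∀ i : ℤ, 3 ≤ i → i < l → g (A i) = A (i - 1) := fun i h1 h2 => by simp only [hg, zA i h1 h2, yB]
    have gB : ∀ i : ℤ, 3 ≤ i → i < l → g (B i) = B (i + 1) := fun i h1 h2 => by simp only [hg, zB i h1 h2, yA]
    have gA2 : g (A 2) = B 2 := by simp only [hg, zA2, yA]; norm_num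
    have gB2 : g (B 2) = A ((l : ℤ) - 1) := by
      simp only [hg, zB2, yB]; rw [AA]; exact ⟨-1, by ring⟩
    have gB0 : g (B 0) = A 1 := by simp only [hg, zB0, yB]; norm_num
    have gA1 : g (A 1) = B 3 := by simp only [hg, zA1, yA]; norm_num
    have sA : ∀ j : ℕ, (j : ℤ) ≤ l - 3 → g^[j] (A ((l : ℤ) - 1)) = A ((l : ℤ) - 1 - j) := by
      intro j hj
      induction j with
      | zero => simp
      | succ j ih =>
        rw [iterate_succ_apply', ih (by push_cast at hj; omega), gA _ (by push_cast at hj; omega) (by omega)]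
        congr 1; push_cast; ring
    have sB : ∀ j : ℕ, (j : ℤ) ≤ l - 3 → g^[j] (B 3) = B (3 + j) := by
      intro j hj
      induction j with
      | zero => simp
      | succ j ih =>
        rw [iterate_succ_apply', ih (by push_cast at hj; omega), gB _ (by omega) (by push_cast at hj; omega)]
        rw [BB]; exact ⟨0, by push_cast; ring⟩
    obtain ⟨n, hn⟩ : ∃ n : ℕ, (n : ℤ) = (l : ℤ) - 3 := ⟨l - 3, by omega⟩
    have hnodd : Odd (2 + n) := by
      obtain ⟨c, hc⟩ := hev
      exact ⟨c - 1, by omega⟩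
    have eA : g^[n] (A ((l : ℤ) - 1)) = A 2 := by rw [sA n hn.le, hn]; congr 1; ring
    have eB : g^[n] (B 3) = B 0 := by rw [sB n hn.le, hn, BB]; exact ⟨1, by ring⟩
    have oA : OP g (A ((l : ℤ) - 1)) := ⟨2 + n, hnodd, by
      rw [iterate_add_apply, eA]; show g (g (A 2)) = _; rw [gA2, gB2]⟩
    have oB : OP g (B 3) := ⟨2 + n, hnodd, by
      rw [iterate_add_apply, eB]; show g (g (B 0)) = _; rw [gB0, gA1]⟩
    have oA2 : OP g (A 2) := eA ▸ op_iter oA n
    have oB0 : OP g (B 0) := eB ▸ op_iter oB n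
    refine cases ⟨1, odd_one, by simp only [iterate_one, hg, zA0, yB]; norm_num⟩
      ⟨1, odd_one, by simp only [iterate_one, hg, zB1, yA]; norm_num⟩ oB0 (gA2 ▸ op_iter oA2 1)
      (gB0 ▸ op_iter oB0 1) oA2 fun i h1 h2 => ⟨?_, ?_⟩
    · have := op_iter oA ((l : ℤ) - 1 - i).toNat
      rwa [sA _ (by omega), Int.toNat_of_nonneg (by omega), sub_sub_cancel] at this
    · have := op_iter oB (i - 3).toNat
      rwa [sB _ (by omega), Int.toNat_of_nonneg (by omega), add_sub_cancel] at this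
  · simp only [mv, filter_true_of_mem hxmv, filter_true_of_mem hymv]

theorem mv_path (hx : x * x = 1) (hy : y * y = 1) {p : α} (hp : y p = p) (hev : Even (per x y p)) :
    mv x (cyc x y p) = per x y p ∧ mv y (cyc x y p) + 2 = per x y p ∧ Inv x y (cyc x y p) := by
  have hxp : x p = (x * y) p := by rw [Equiv.Perm.mul_apply, hp]
  have ex : ∀ i : ℤ, x (((x * y) ^ i) p) = ((x * y) ^ (1 - i)) p := fun i => by
    rw [x_pow hx hy, hxp, ← Equiv.Perm.mul_apply, ← zpow_add_one]; congr 2; ring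
  have ey : ∀ i : ℤ, y (((x * y) ^ i) p) = ((x * y) ^ (-i)) p := fun i => by
    rw [y_pow hx hy, hxp, ← Equiv.Perm.mul_apply, ← zpow_add_one]; congr 2; ring
  obtain ⟨a, ha⟩ := hev
  refine ⟨?_, ?_, fun v hv => ?_⟩
  · rw [mv, filter_true_of_mem, card_cyc]
    intro v hv
    obtain ⟨i, rfl⟩ := mem_cyc.mp hv
    rw [ex, Ne, per_eq_iff, ha]
    rintro ⟨c, hc⟩
    push_cast at hc
    have h2 : (2 : ℤ) ∣ 1 := ⟨(a : ℤ) * c + i, by linarith⟩
    norm_num at h2
  · have hfix : (cyc x y p).filter (fun v => ¬ (y v ≠ v)) = {p, ((x * y) ^ (a : ℤ)) p} := by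
      ext v
      simp only [mem_filter, mem_insert, mem_singleton, ne_eq, not_not, mem_cyc]
      constructor
      · rintro ⟨⟨i, rfl⟩, e⟩
        rw [ey, per_eq_iff, ha] at e
        obtain ⟨c, hc⟩ := e
        have hia : i = -((a : ℤ) * c) := by push_cast at hc; linarith
        rcases Int.even_or_odd c with ⟨d, hd⟩ | ⟨d, hd⟩
        · left
          rw [per_iff, ha, hia]; exact ⟨-d, by push_cast; rw [hd]; ring⟩
        · right
          rw [per_eq_iff, ha, hia]; exact ⟨-d - 1, by push_cast; rw [hd]; ring⟩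
      · rintro (rfl | rfl)
        · exact ⟨⟨0, by simp⟩, hp⟩
        · refine ⟨⟨a, rfl⟩, ?_⟩
          rw [ey, per_eq_iff, ha]; exact ⟨-1, by push_cast; ring⟩
    have hsum := card_filter_add_card_filter_not (s := cyc x y p) (fun v => y v ≠ v)
    rw [hfix, card_pair, card_cyc] at hsum
    · exact hsum
    · intro e
      have := (per_iff p (a : ℤ)).mp e.symm
      rw [ha] at this
      have hpos := per_pos (x := x) (y := y) p
      have := Int.le_of_dvd (by omega) this
      omega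
  · obtain ⟨i, rfl⟩ := mem_cyc.mp hv
    exact ⟨mem_cyc.mpr ⟨1 - i, (ex i).symm⟩, mem_cyc.mpr ⟨-i, (ey i).symm⟩⟩

theorem swap_xy (hx : x * x = 1) (hy : y * y = 1) :
    ∀ i : ℤ, (y * x) ^ i = (x * y) ^ (-i) := fun i => by
  rw [zpow_neg, ← inv_zpow, _root_.mul_inv_rev, inv_eq_of_mul_eq_one_right hy, inv_eq_of_mul_eq_one_right hx]

theorem cyc_swap (hx : x * x = 1) (hy : y * y = 1) (q : α) :
    cyc y x q = cyc x y q ∧ per y x q = per x y q := by
  refine ⟨?_, ?_⟩
  · ext w
    simp only [mem_cyc]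
    constructor
    · rintro ⟨i, rfl⟩; exact ⟨-i, by rw [swap_xy hx hy]⟩
    · rintro ⟨i, rfl⟩; exact ⟨-i, by rw [swap_xy hx hy, neg_neg]⟩
  · have key : ∀ i : ℤ, (per y x q : ℤ) ∣ i ↔ (per x y q : ℤ) ∣ i := fun i => by
      rw [← per_iff, swap_xy hx hy, per_iff, dvd_neg]
    apply Nat.dvd_antisymm <;> rw [← Int.natCast_dvd_natCast]
    · exact (key _).mpr dvd_rfl
    · exact (key _).mp dvd_rfl

theorem pair_good (hx : x * x = 1) (hy : y * y = 1) {p q : α} (hp : y p = p) (hq : x q = q)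
    (hpe : Even (per x y p)) (hqe : Even (per x y q)) :
    Inv x y (cyc x y p ∪ cyc x y q) ∧ mv x (cyc x y p ∪ cyc x y q) = mv y (cyc x y p ∪ cyc x y q) ∧
      ∃ z, Good x y (cyc x y p ∪ cyc x y q) z := by
  obtain ⟨mx, my, hPi⟩ := mv_path hx hy hp hpe
  obtain ⟨hc, hper⟩ := cyc_swap hx hy q
  obtain ⟨my', mx', hQi'⟩ := mv_path hy hx hq (by rw [hper]; exact hqe)
  rw [hc, hper] at my' mx'
  rw [hc] at hQi'
  set P := cyc x y p with hP
  set Q := cyc x y q with hQ
  have hPx : ∀ v ∈ P, x v ≠ v := by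
    have h := mx; rw [mv, ← card_cyc] at h
    have e := Finset.eq_of_subset_of_card_le (filter_subset _ _) h.ge
    intro v hv
    rw [hP, ← e] at hv
    exact (Finset.mem_filter.mp hv).2
  have hd : Disjoint P Q := by
    rw [Finset.disjoint_left]
    intro v hv hv'
    obtain ⟨i, rfl⟩ := mem_cyc.mp hv
    obtain ⟨j, hj⟩ := mem_cyc.mp hv'
    refine hPx q (mem_cyc.mpr ⟨-j + i, ?_⟩) hq
    rw [zpow_add, Equiv.Perm.mul_apply, ← hj, ← Equiv.Perm.mul_apply, ← zpow_add, neg_add_cancel, zpow_zero]; rfl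
  have hpP : p ∈ P := mem_cyc.mpr ⟨0, by simp⟩
  have hqQ : q ∈ Q := mem_cyc.mpr ⟨0, by simp⟩
  have hnot : ∀ v ∈ Q, v ∉ P := fun v hv h => Finset.disjoint_left.mp hd h hv
  have hyy : ∀ v, y (y v) = v := fun v => by rw [← Equiv.Perm.mul_apply, hy]; rfl
  have hxx : ∀ v, x (x v) = v := fun v => by rw [← Equiv.Perm.mul_apply, hx]; rfl
  let z : α → α := fun v => if v = p then q else if v = q then p else if v ∈ P then y v else x v
  have zp : z p = q := by simp [z]
  have hpq : p ≠ q := fun e => hnot q hqQ (e ▸ hpP)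
  have zq : z q = p := by simp [z, hpq.symm]
  have zP : ∀ v ∈ P, v ≠ p → z v = y v := fun v hv h => by
    simp [z, h, hv, show v ≠ q from fun e => hnot q hqQ (e ▸ hv)]
  have zQ : ∀ v ∈ Q, v ≠ q → z v = x v := fun v hv h => by
    simp [z, h, hnot v hv, show v ≠ p from fun e => hnot v hv (e ▸ hpP)]
  have hyP : ∀ v ∈ P, v ≠ p → y v ≠ p := fun v _ h e => h (by rw [← hyy v, e, hp])
  have hxQ : ∀ v ∈ Q, v ≠ q → x v ≠ q := fun v _ h e => h (by rw [← hxx v, e, hq])
  refine ⟨fun v hv => ?_, ?_, z, fun v hv => ?_, fun v hv => ?_, ?_, fun v hv => ?_, fun v hv => ?_⟩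
  · rcases mem_union.mp hv with h | h
    · exact ⟨mem_union_left _ (hPi v h).1, mem_union_left _ (hPi v h).2⟩
    · exact ⟨mem_union_right _ (hQi' v h).2, mem_union_right _ (hQi' v h).1⟩
  · rw [mv_union hd, mv_union hd]; omega
  · rcases mem_union.mp hv with h | h
    · by_cases e : v = p
      · rw [e, zp]; exact mem_union_right _ hqQ
      · rw [zP v h e]; exact mem_union_left _ (hPi v h).2
    · by_cases e : v = q
      · rw [e, zq]; exact mem_union_left _ hpP
      · rw [zQ v h e]; exact mem_union_right _ (hQi' v h).2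
  · rcases mem_union.mp hv with h | h
    · by_cases e : v = p
      · rw [e, zp, zq]
      · rw [zP v h e, zP _ (hPi v h).2 (hyP v h e), hyy]
    · by_cases e : v = q
      · rw [e, zq, zp]
      · rw [zQ v h e, zQ _ (hQi' v h).2 (hxQ v h e), hxx]
  · have e1 : P.filter (fun v => z v ≠ v) = insert p (P.filter fun v => y v ≠ v) := by
      ext v
      simp only [mem_filter, mem_insert]
      by_cases e : v = p
      · simp [e, zp, hpP, hpq.symm]
      · simp only [e, false_or]; exact and_congr_right fun h => by rw [zP v h e]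
    have e2 : Q.filter (fun v => z v ≠ v) = insert q (Q.filter fun v => x v ≠ v) := by
      ext v
      simp only [mem_filter, mem_insert]
      by_cases e : v = q
      · simp [e, zq, hqQ, hpq]
      · simp only [e, false_or]; exact and_congr_right fun h => by rw [zQ v h e]
    rw [mv_union hd, mv_union hd]
    unfold mv at mx my mx' my' ⊢
    rw [e1, e2, card_insert_of_notMem (by simp [hp]), card_insert_of_notMem (by simp [hq])]
    omega
  · by_cases h : v = q ∨ v ∈ P
    · exact path_op (g := fun w => x (z w)) hpe (by simp only [zp, hq])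
        (by simp only [zq, Equiv.Perm.mul_apply, hp])
        (fun w hw e => by simp only [zP w hw e, Equiv.Perm.mul_apply]) v h
    · push Not at h
      exact ⟨1, odd_one, by simp only [iterate_one, zQ v ((mem_union.mp hv).resolve_left h.2) h.1, hxx]⟩
  · by_cases h : v = p ∨ v ∈ Q
    · exact path_op (x := y) (y := x) (g := fun w => y (z w)) (p := q) (q := p) (by rw [hper]; exact hqe)
        (by simp only [zq, hp]) (by simp only [zp, Equiv.Perm.mul_apply, hq])
        (fun w hw e => by rw [hc] at hw; simp only [zQ w hw e, Equiv.Perm.mul_apply]) v (by rw [hc]; exact h)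
    · push Not at h
      exact ⟨1, odd_one, by simp only [iterate_one, zP v ((mem_union.mp hv).resolve_right h.2) h.1, hyy]⟩

theorem Inv.sdiff (hx : x * x = 1) (hy : y * y = 1) {M A : Finset α} (hM : Inv x y M) (hA : Inv x y A) :
    Inv x y (M \ A) := by
  have hyy : ∀ v, y (y v) = v := fun v => by rw [← Equiv.Perm.mul_apply, hy]; rfl
  have hxx : ∀ v, x (x v) = v := fun v => by rw [← Equiv.Perm.mul_apply, hx]; rfl
  intro v hv
  rw [Finset.mem_sdiff] at hv
  refine ⟨Finset.mem_sdiff.mpr ⟨(hM v hv.1).1, fun h => hv.2 ?_⟩, Finset.mem_sdiff.mpr ⟨(hM v hv.1).2, fun h => hv.2 ?_⟩⟩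
  · have := (hA _ h).1; rwa [hxx] at this
  · have := (hA _ h).2; rwa [hyy] at this

theorem cyc_subset (hx : x * x = 1) {M : Finset α} (hM : Inv x y M) {p : α} (hp : p ∈ M) : cyc x y p ⊆ M := by
  intro v hv
  obtain ⟨i, rfl⟩ := mem_cyc.mp hv
  have hm : ∀ n : ℕ, ((x * y) ^ n) p ∈ M := by
    intro n
    induction n with
    | zero => simpa using hp
    | succ n ih => rw [pow_succ', Equiv.Perm.mul_apply, Equiv.Perm.mul_apply]; exact (hM _ (hM _ ih).2).1
  have hpp : (0 : ℤ) < per x y p := by exact_mod_cast per_pos (x := x) (y := y) p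
  have e : ((x * y) ^ i) p = ((x * y) ^ ((i % per x y p).toNat : ℤ)) p := by
    rw [Int.toNat_of_nonneg (Int.emod_nonneg _ hpp.ne'), per_eq_iff, Int.emod_def]
    exact ⟨i / per x y p, by ring⟩
  rw [e, zpow_natCast]
  exact hm _

theorem exists_good (hx : x * x = 1) (hy : y * y = 1) : ∀ M : Finset α, Inv x y M → mv x M = mv y M →
    (¬ ∃ p q r s, K4 x y p q r s ∧ M = {p, q, r, s}) → ∃ z, Good x y M z := by
  classical
  have hyy : ∀ v, y (y v) = v := fun v => by rw [← Equiv.Perm.mul_apply, hy]; rfl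
  have hxx : ∀ v, x (x v) = v := fun v => by rw [← Equiv.Perm.mul_apply, hx]; rfl
  intro M
  induction M using Finset.strongInductionOn with
  | _ M ih =>
  intro hM hbal hnk
  have split : ∀ A, A ⊆ M → A.Nonempty → Inv x y A → mv x A = mv y A →
      Inv x y (M \ A) ∧ mv x (M \ A) = mv y (M \ A) ∧ M \ A ⊂ M ∧ Disjoint A (M \ A) ∧ A ∪ (M \ A) = M := by
    intro A hA hne hAi hAb
    have hu : A ∪ (M \ A) = M := Finset.union_sdiff_of_subset hA
    have hd : Disjoint A (M \ A) := Finset.disjoint_sdiff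
    refine ⟨hM.sdiff hx hy hAi, ?_, Finset.sdiff_ssubset hA hne, hd, hu⟩
    have h1 := mv_union (f := ⇑x) hd
    have h2 := mv_union (f := ⇑y) hd
    rw [hu] at h1 h2
    omega
  by_cases hK : ∃ p ∈ M, ∃ q r s, K4 x y p q r s
  · obtain ⟨p, hp, q, r, s, hK⟩ := hK
    have hA : ({p, q, r, s} : Finset α) ⊆ M := by
      intro v hv
      simp only [mem_insert, mem_singleton] at hv
      rcases hv with rfl | rfl | rfl | rfl
      · exact hp
      · exact hK.xp ▸ (hM _ hp).1
      · exact hK.yp ▸ (hM _ hp).2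
      · exact hK.xr ▸ (hM _ (hK.yp ▸ (hM _ hp).2)).1
    obtain ⟨hI, hb, hss, hd, hu⟩ := split _ hA ⟨p, by simp⟩ hK.inv (by rw [hK.mv_eq.1, hK.mv_eq.2])
    have hdis : ∀ v ∈ M \ {p, q, r, s}, v ≠ p ∧ v ≠ q ∧ v ≠ r ∧ v ≠ s := fun v hv => by
      have := (Finset.mem_sdiff.mp hv).2
      simpa [not_or] using this
    rw [← hu, union_comm]
    by_cases h2 : ∃ e f g h, K4 x y e f g h ∧ M \ {p, q, r, s} = {e, f, g, h}
    · obtain ⟨e, f, g, h, hL, heq⟩ := h2
      rw [heq] at hdis ⊢
      exact exists_double hK hL hdis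
    · obtain ⟨a, ha⟩ : (M \ {p, q, r, s}).Nonempty := by
        rw [Finset.sdiff_nonempty]
        exact fun h => hnk ⟨p, q, r, s, hK, le_antisymm h hA⟩
      obtain ⟨z, hz⟩ := ih _ hss hI hb h2
      exact exists_insert hK hI hdis ha hz
  have hnk' : ∀ M', M' ⊆ M → ¬ ∃ p q r s, K4 x y p q r s ∧ M' = {p, q, r, s} := by
    rintro M' hM' ⟨p, q, r, s, hK', rfl⟩
    exact hK ⟨p, hM' (by simp), q, r, s, hK'⟩
  by_cases hO : ∃ v ∈ M, Odd (per x y v)
  · set A := M.filter fun v => Odd (per x y v) with hA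
    have hAi : Inv x y A := fun v hv => by
      rw [hA, mem_filter] at hv
      exact ⟨mem_filter.mpr ⟨(hM v hv.1).1, by rw [per_x hx hy]; exact hv.2⟩,
        mem_filter.mpr ⟨(hM v hv.1).2, by rw [per_y hx hy]; exact hv.2⟩⟩
    have hAb : mv x A = mv y A := by
      have h1 := card_filter_add_card_filter_not (s := A) (fun v => x v ≠ v)
      have h2 := card_filter_add_card_filter_not (s := A) (fun v => y v ≠ v)
      suffices (A.filter fun v => ¬ x v ≠ v).card = (A.filter fun v => ¬ y v ≠ v).card by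
        unfold mv; omega
      refine Finset.card_nbij' (fun v => ((x * y) ^ ((per x y v / 2 : ℕ) : ℤ)) v)
        (fun v => ((x * y) ^ (((per x y v / 2 : ℕ) : ℤ) + 1)) v) ?_ ?_ ?_ ?_
      · intro v hv
        simp only [coe_filter, Set.mem_setOf_eq, ne_eq, not_not] at hv ⊢
        refine ⟨cyc_subset hx hAi hv.1 (mem_cyc.mpr ⟨_, rfl⟩), ?_⟩
        obtain ⟨j, hj⟩ := (mem_filter.mp hv.1).2
        rw [y_pow hx hy, hv.2, per_eq_iff, hj]
        exact ⟨-1, by push_cast; omega⟩
      · intro v hv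
        simp only [coe_filter, Set.mem_setOf_eq, ne_eq, not_not] at hv ⊢
        refine ⟨cyc_subset hx hAi hv.1 (mem_cyc.mpr ⟨_, rfl⟩), ?_⟩
        obtain ⟨j, hj⟩ := (mem_filter.mp hv.1).2
        rw [x_pow hx hy, show x v = (x * y) v by rw [Equiv.Perm.mul_apply, hv.2], ← Equiv.Perm.mul_apply,
          ← zpow_add_one, per_eq_iff, hj]
        exact ⟨-1, by push_cast; omega⟩
      · intro v hv
        simp only [coe_filter, Set.mem_setOf_eq] at hv
        obtain ⟨j, hj⟩ := (mem_filter.mp hv.1).2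
        simp only [per_pow]
        rw [← Equiv.Perm.mul_apply, ← zpow_add, per_iff, hj]
        exact ⟨1, by push_cast; omega⟩
      · intro v hv
        simp only [coe_filter, Set.mem_setOf_eq] at hv
        obtain ⟨j, hj⟩ := (mem_filter.mp hv.1).2
        simp only [per_pow]
        rw [← Equiv.Perm.mul_apply, ← zpow_add, per_iff, hj]
        exact ⟨1, by push_cast; omega⟩
    obtain ⟨v₀, hv₀, hv₀'⟩ := hO
    obtain ⟨hI, hb, hss, hd, hu⟩ := split A (filter_subset _ _) ⟨v₀, mem_filter.mpr ⟨hv₀, hv₀'⟩⟩ hAi hAb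
    obtain ⟨z, hz⟩ := ih _ hss hI hb (hnk' _ Finset.sdiff_subset)
    refine hu ▸ ⟨_, glue (f := ⇑x) hd hAi hI ⟨fun v hv => (hAi v hv).1, fun v _ => hxx v, rfl,
      fun v _ => ⟨1, odd_one, hxx v⟩, fun v hv => ⟨per x y v, (mem_filter.mp hv).2, ?_⟩⟩ hz⟩
    have hyx : (fun w => y (x w)) = ⇑(y * x) := rfl
    rw [hyx, ← Equiv.Perm.coe_pow, ← zpow_natCast, swap_xy hx hy, per_iff, dvd_neg]
  push Not at hO
  have hev : ∀ v ∈ M, Even (per x y v) := fun v hv => Nat.not_odd_iff_even.mp (hO v hv)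
  by_cases hC : ∃ p ∈ M, ∀ i : ℤ, ((x * y) ^ i) p ≠ x p
  · obtain ⟨p, hp, hpx⟩ := hC
    have h4 : 4 ≤ per x y p := by
      by_contra h4
      obtain ⟨c, hc⟩ := hev p hp
      have hpos := per_pos (x := x) (y := y) p
      have h2 : per x y p = 2 := by omega
      have hne : (x * y) p ≠ p := fun e => by
        have : ((x * y) ^ (1 : ℤ)) p = p := by rw [zpow_one]; exact e
        rw [per_iff, h2] at this; norm_num at this
      have hsq : x (y (x (y p))) = p := by
        have h' : ((x * y) ^ ((2 : ℕ) : ℤ)) p = p := by rw [per_iff, h2]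
        rw [zpow_natCast, sq] at h'
        exact h'
      have h1 : x p ≠ p := fun e => hpx 0 (by rw [zpow_zero, e]; rfl)
      have h2' : y p ≠ p := fun e => hpx 1 (by rw [zpow_one, Equiv.Perm.mul_apply, e])
      have e1 : y (x (y p)) = x p := by
        have := congrArg x hsq
        rwa [hxx] at this
      have e2 : y (x p) = x (y p) := by
        have := congrArg y e1
        rw [hyy] at this
        exact this.symm
      exact hK ⟨p, hp, x p, y p, x (y p),
        { xp := rfl, xq := hxx p, xr := rfl, xs := hxx _, yp := rfl, yr := hyy p, yq := e2, ys := e1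
          pq := h1.symm, pr := h2'.symm
          ps := fun e => hne e.symm
          qr := fun e => hne (by rw [Equiv.Perm.mul_apply, ← e, hxx])
          qs := fun e => h2' (x.injective e).symm
          rs := fun e => by rw [← e, hyy] at hsq; exact h1 hsq }⟩
    have hsub : cyc x y p ∪ cyc x y (x p) ⊆ M :=
      union_subset (cyc_subset hx hM hp) (cyc_subset hx hM (hM p hp).1)
    obtain ⟨f, hf, hAb⟩ := long_good hx hy (hev p hp) h4 hpx
    have hAi := inv_cyc_union hx hy p
    obtain ⟨hI, hb, hss, hd, hu⟩ :=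
      split _ hsub ⟨p, mem_union_left _ (mem_cyc.mpr ⟨0, by simp⟩)⟩ hAi hAb
    obtain ⟨z, hz⟩ := ih _ hss hI hb (hnk' _ Finset.sdiff_subset)
    exact hu ▸ ⟨_, glue hd hAi hI hf hz⟩
  push Not at hC
  rcases M.eq_empty_or_nonempty with rfl | hne
  · exact ⟨id, ⟨by simp, by simp, by simp [mv], by simp, by simp⟩⟩
  have hsome : ∀ v ∈ M, (∃ w ∈ M, x w = w) ∨ (∃ w ∈ M, y w = w) := by
    intro v hv
    obtain ⟨c, hc⟩ := hC v hv
    rcases Int.even_or_odd c with ⟨d, rfl⟩ | ⟨d, rfl⟩
    · exact Or.inl ⟨_, cyc_subset hx hM hv (mem_cyc.mpr ⟨d, rfl⟩), by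
        rw [x_pow hx hy, ← hc, ← Equiv.Perm.mul_apply, ← zpow_add]; congr 2; ring⟩
    · exact Or.inr ⟨_, cyc_subset hx hM hv (mem_cyc.mpr ⟨d, rfl⟩), by
        rw [y_pow hx hy, ← hc, ← Equiv.Perm.mul_apply, ← zpow_add]; congr 2; ring⟩
  have hboth : (∃ w ∈ M, x w = w) ∧ (∃ w ∈ M, y w = w) := by
    have hiff : (∃ w ∈ M, x w = w) ↔ (∃ w ∈ M, y w = w) := by
      have key : ∀ f : α → α, (∃ w ∈ M, f w = w) ↔ mv f M < M.card := fun f => by
        constructor
        · rintro ⟨w, hw, e⟩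
          exact Finset.card_lt_card (Finset.filter_ssubset.mpr ⟨w, hw, fun h => h e⟩)
        · intro h
          by_contra h'
          push Not at h'
          rw [mv, Finset.filter_true_of_mem h'] at h
          exact lt_irrefl _ h
      rw [key, key, hbal]
    obtain ⟨v, hv⟩ := hne
    rcases hsome v hv with h | h
    · exact ⟨h, hiff.mp h⟩
    · exact ⟨hiff.mpr h, h⟩
  obtain ⟨⟨q, hqM, hq⟩, ⟨p, hpM, hp⟩⟩ := hboth
  obtain ⟨hAi, hAb, f, hf⟩ := pair_good hx hy hp hq (hev p hpM) (hev q hqM)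
  obtain ⟨hI, hb, hss, hd, hu⟩ := split _ (union_subset (cyc_subset hx hM hpM) (cyc_subset hx hM hqM))
    ⟨p, mem_union_left _ (mem_cyc.mpr ⟨0, by simp⟩)⟩ hAi hAb
  obtain ⟨z, hz⟩ := ih _ hss hI hb (hnk' _ Finset.sdiff_subset)
  exact hu ▸ ⟨_, glue hd hAi hI hf hz⟩

end core

theorem isConj_of_support {α : Type*} [Fintype α] [DecidableEq α] {s t : Perm α} (hs : s * s = 1)
    (ht : orderOf t = 2) (h : s.support.card = t.support.card) : IsConj t s := by
  haveI : Fact (Nat.Prime 2) := ⟨Nat.prime_two⟩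
  have hs1 : s ≠ 1 := fun e => by
    rw [e, Equiv.Perm.support_one, card_empty, eq_comm, card_eq_zero, Equiv.Perm.support_eq_empty_iff] at h
    rw [h, orderOf_one] at ht; omega
  have hso : orderOf s = 2 := orderOf_eq_prime (by rw [sq, hs]) hs1
  obtain ⟨a, ha⟩ := Equiv.Perm.cycleType_prime_order (hso ▸ Nat.prime_two : (orderOf s).Prime)
  obtain ⟨b, hb⟩ := Equiv.Perm.cycleType_prime_order (ht ▸ Nat.prime_two : (orderOf t).Prime)
  rw [hso] at ha; rw [ht] at hb
  rw [Equiv.Perm.isConj_iff_cycleType_eq, ha, hb]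
  have h1 := congrArg Multiset.sum ha
  have h2 := congrArg Multiset.sum hb
  rw [Equiv.Perm.sum_cycleType, Multiset.sum_replicate, smul_eq_mul] at h1 h2
  congr 1
  omega


set_option maxHeartbeats 1600000 in
/-- Let n ≥ 5 and let X be a conjugacy class of involutions of the symmetric group of degree n. The graph on X joining two distinct involutions whose product has odd order is connected and has diameter exactly 2. -/
theorem result (n : ℕ) (hn : 5 ≤ n) (t : Equiv.Perm (Fin n)) (ht : orderOf t = 2) :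
    (SimpleGraph.fromRel fun x y : {x : Equiv.Perm (Fin n) // IsConj t x} =>
        Odd (orderOf (x.1 * y.1))).Connected ∧
      (SimpleGraph.fromRel fun x y : {x : Equiv.Perm (Fin n) // IsConj t x} =>
        Odd (orderOf (x.1 * y.1))).diam = 2 := by
  classical
  set Gr := SimpleGraph.fromRel fun x y : {x : Equiv.Perm (Fin n) // IsConj t x} => Odd (orderOf (x.1 * y.1))
  have htt : t * t = 1 := by rw [← sq, ← ht, pow_orderOf_eq_one]
  have hclass : ∀ x : {x : Equiv.Perm (Fin n) // IsConj t x}, x.1 * x.1 = 1 ∧ x.1.support.card = t.support.card := by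
    rintro ⟨x, hx⟩
    obtain ⟨c, rfl⟩ := isConj_iff.mp hx
    refine ⟨?_, ?_⟩
    · rw [show c * t * c⁻¹ * (c * t * c⁻¹) = c * (t * t) * c⁻¹ by group, htt]; group
    · rw [← Equiv.Perm.sum_cycleType, ← Equiv.Perm.sum_cycleType, Equiv.Perm.isConj_iff_cycleType_eq.mp hx]
  have hmid : ∀ x y : {x : Equiv.Perm (Fin n) // IsConj t x},
      ∃ z : {x : Equiv.Perm (Fin n) // IsConj t x}, Odd (orderOf (x.1 * z.1)) ∧ Odd (orderOf (y.1 * z.1)) := by
    intro x y
    obtain ⟨hx, hx'⟩ := hclass x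
    obtain ⟨hy, hy'⟩ := hclass y
    obtain ⟨z, hz⟩ := exists_good hx hy Finset.univ (fun v _ => ⟨Finset.mem_univ _, Finset.mem_univ _⟩)
      (by show x.1.support.card = y.1.support.card; rw [hx', hy'])
      (by
        rintro ⟨p, q, r, s, hK, e⟩
        have := congrArg Finset.card e
        rw [Finset.card_univ, Fintype.card_fin] at this
        have h4 := Finset.card_le_four (a := p) (b := q) (c := r) (d := s)
        omega)
    let zp : Equiv.Perm (Fin n) := Function.Involutive.toPerm z fun v => hz.inv v (Finset.mem_univ v)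
    have hzc : zp.support.card = t.support.card := by rw [← hx']; exact hz.card
    refine ⟨⟨zp, isConj_of_support (Equiv.ext fun v => hz.inv v (Finset.mem_univ v)) ht hzc⟩, ?_, ?_⟩
    · exact orderOf_odd_of_op _ fun v => hz.opx v (Finset.mem_univ v)
    · exact orderOf_odd_of_op _ fun v => hz.opy v (Finset.mem_univ v)
  have hadj : ∀ {x z : {x : Equiv.Perm (Fin n) // IsConj t x}}, Odd (orderOf (x.1 * z.1)) → x ≠ z → Gr.Adj x z :=
    fun h hne => ⟨hne, Or.inl h⟩
  have hwalk : ∀ x y : {x : Equiv.Perm (Fin n) // IsConj t x}, ∃ w : Gr.Walk x y, w.length ≤ 2 := by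
    intro x y
    obtain ⟨z, h1, h2⟩ := hmid x y
    by_cases hxz : x = z
    · subst hxz
      by_cases hyx : y = x
      · subst hyx; exact ⟨.nil, by simp⟩
      · exact ⟨.cons (hadj h2 hyx).symm .nil, by simp⟩
    · by_cases hyz : y = z
      · subst hyz; exact ⟨.cons (hadj h1 hxz) .nil, by simp⟩
      · exact ⟨.cons (hadj h1 hxz) (.cons (hadj h2 hyz).symm .nil), by simp⟩
  haveI : Nonempty {x : Equiv.Perm (Fin n) // IsConj t x} := ⟨⟨t, IsConj.refl t⟩⟩
  refine ⟨⟨fun x y => ⟨(hwalk x y).choose⟩⟩, ?_⟩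
  -- two distinct commuting members of the class
  obtain ⟨s, hsc, hst, hcomm⟩ : ∃ s, IsConj t s ∧ s ≠ t ∧ Commute t s := by
    obtain ⟨a, ha⟩ : ∃ a, t a ≠ a := by
      by_contra h; push Not at h
      rw [show t = 1 from Equiv.ext h, orderOf_one] at ht
      omega
    have htv : ∀ v, t (t v) = v := fun v => by rw [← Equiv.Perm.mul_apply, htt]; rfl
    have key : ∀ g : Equiv.Perm (Fin n), g * g = 1 → (∀ v, g (t (g (t v))) = t (g (t (g v)))) →
        (∃ v, g (t (g v)) ≠ t v) → ∃ s, IsConj t s ∧ s ≠ t ∧ Commute t s := by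
      intro g hg hc ⟨v, hv⟩
      refine ⟨g * t * g, isConj_iff.mpr ⟨g, by rw [inv_eq_of_mul_eq_one_right hg]⟩, fun e => hv ?_,
        Equiv.ext fun w => (hc w).symm⟩
      exact congrArg (fun f : Equiv.Perm (Fin n) => f v) e
    by_cases hfix : ∃ c d, c ≠ d ∧ t c = c ∧ t d = d
    · obtain ⟨c, d, hcd, hc, hd⟩ := hfix
      have n1 : a ≠ c := fun e => ha (e ▸ hc)
      have n2 : a ≠ d := fun e => ha (e ▸ hd)
      have n3 : t a ≠ c := fun e => n1 (by rw [← htv a, e, hc])
      have n4 : t a ≠ d := fun e => n2 (by rw [← htv a, e, hd])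
      refine key (Equiv.swap a c * Equiv.swap (t a) d) (Equiv.ext fun v => ?_) (fun v => ?_) ⟨a, ?_⟩
      · simp only [Equiv.Perm.mul_apply, Equiv.Perm.one_apply]
        by_cases h1 : v = a
        · simp [h1, Equiv.swap_apply_def, n1, n2, n3, n4, Ne.symm n1, Ne.symm n2, Ne.symm n3, Ne.symm n4, hcd, hcd.symm, ha, Ne.symm ha]
        by_cases h2 : v = t a
        · simp [h2, Equiv.swap_apply_def, n1, n2, n3, n4, Ne.symm n1, Ne.symm n2, Ne.symm n3, Ne.symm n4, hcd, hcd.symm, ha, Ne.symm ha]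
        by_cases h3 : v = c
        · simp [h3, Equiv.swap_apply_def, n1, n2, n3, n4, Ne.symm n1, Ne.symm n2, Ne.symm n3, Ne.symm n4, hcd, hcd.symm, ha, Ne.symm ha]
        by_cases h4 : v = d
        · simp [h4, Equiv.swap_apply_def, n1, n2, n3, n4, Ne.symm n1, Ne.symm n2, Ne.symm n3, Ne.symm n4, hcd, hcd.symm, ha, Ne.symm ha]
        simp [Equiv.swap_apply_def, h1, h2, h3, h4]
      · by_cases h1 : v = a
        · subst h1; simp [Equiv.swap_apply_def, hc, hd, htv, n1, n2, n3, n4, Ne.symm n1, Ne.symm n2, Ne.symm n3, Ne.symm n4, hcd, hcd.symm, ha, Ne.symm ha]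
        by_cases h2 : v = t a
        · subst h2; simp [Equiv.swap_apply_def, hc, hd, htv, n1, n2, n3, n4, Ne.symm n1, Ne.symm n2, Ne.symm n3, Ne.symm n4, hcd, hcd.symm, ha, Ne.symm ha]
        by_cases h3 : v = c
        · subst h3; simp [Equiv.swap_apply_def, hc, hd, htv, n1, n2, n3, n4, Ne.symm n1, Ne.symm n2, Ne.symm n3, Ne.symm n4, hcd, hcd.symm, ha, Ne.symm ha]
        by_cases h4 : v = d
        · subst h4; simp [Equiv.swap_apply_def, hc, hd, htv, n1, n2, n3, n4, Ne.symm n1, Ne.symm n2, Ne.symm n3, Ne.symm n4, hcd, hcd.symm, ha, Ne.symm ha]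
        have h5 : t v ≠ a := fun e => h2 (by rw [← e, htv])
        have h6 : t v ≠ t a := fun e => h1 (t.injective e)
        have h7 : t v ≠ c := fun e => h3 (by rw [← htv v, e, hc])
        have h8 : t v ≠ d := fun e => h4 (by rw [← htv v, e, hd])
        simp [Equiv.swap_apply_def, h1, h2, h3, h4, h5, h6, h7, h8, htv]
      · simp [Equiv.swap_apply_def, hc, hd, n1, n2, n3, n4, Ne.symm n1, Ne.symm n2, Ne.symm n3, Ne.symm n4, hcd, hcd.symm, ha, Ne.symm ha]
    · push Not at hfix
      obtain ⟨c, hc, hca, hcb⟩ : ∃ c, t c ≠ c ∧ c ≠ a ∧ c ≠ t a := by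
        by_contra h; push Not at h
        have h3 : ((Finset.univ : Finset (Fin n)).filter fun v => t v = v).card ≤ 1 :=
          Finset.card_le_one.mpr fun u hu v hv => by
            by_contra hne
            exact hfix u v hne (Finset.mem_filter.mp hu).2 (Finset.mem_filter.mp hv).2
        have hsub : (Finset.univ : Finset (Fin n)) ⊆
            ((Finset.univ : Finset (Fin n)).filter fun v => t v = v) ∪ {a, t a} := fun v _ => by
          simp only [Finset.mem_union, Finset.mem_filter, Finset.mem_univ, true_and, Finset.mem_insert, Finset.mem_singleton]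
          by_cases h1 : t v = v
          · exact Or.inl h1
          by_cases h2 : v = a
          · exact Or.inr (Or.inl h2)
          exact Or.inr (Or.inr (h v h1 h2))
        have := (Finset.card_le_card hsub).trans (Finset.card_union_le _ _)
        rw [Finset.card_univ, Fintype.card_fin] at this
        have := Finset.card_le_two (a := a) (b := t a)
        omega
      have n1 : t c ≠ a := fun e => hcb (by rw [← e, htv])
      have n2 : t c ≠ t a := fun e => hca (t.injective e)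
      refine key (Equiv.swap (t a) c) (Equiv.swap_mul_self _ _) (fun v => ?_) ⟨a, ?_⟩
      · by_cases h1 : v = a
        · subst h1; simp [Equiv.swap_apply_def, htv, hc, Ne.symm hc, hca, hca.symm, hcb, hcb.symm, n1, n2, Ne.symm n1, Ne.symm n2, ha, Ne.symm ha]
        by_cases h2 : v = t a
        · subst h2; simp [Equiv.swap_apply_def, htv, hc, Ne.symm hc, hca, hca.symm, hcb, hcb.symm, n1, n2, Ne.symm n1, Ne.symm n2, ha, Ne.symm ha]
        by_cases h3 : v = c
        · subst h3; simp [Equiv.swap_apply_def, htv, hc, Ne.symm hc, hca, hca.symm, hcb, hcb.symm, n1, n2, Ne.symm n1, Ne.symm n2, ha, Ne.symm ha]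
        by_cases h4 : v = t c
        · subst h4; simp [Equiv.swap_apply_def, htv, hc, Ne.symm hc, hca, hca.symm, hcb, hcb.symm, n1, n2, Ne.symm n1, Ne.symm n2, ha, Ne.symm ha]
        have h5 : t v ≠ t a := fun e => h1 (t.injective e)
        have h6 : t v ≠ c := fun e => h4 (by rw [← e, htv])
        simp [Equiv.swap_apply_def, h1, h2, h3, h4, h5, h6, htv]
      · simp [Equiv.swap_apply_def, htv, hc, Ne.symm hc, hca, hca.symm, hcb, hcb.symm, n1, n2, Ne.symm n1, Ne.symm n2, ha, Ne.symm ha]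
  let X : {x : Equiv.Perm (Fin n) // IsConj t x} := ⟨t, IsConj.refl t⟩
  let Y : {x : Equiv.Perm (Fin n) // IsConj t x} := ⟨s, hsc⟩
  have hss : s * s = 1 := (hclass Y).1
  have hne : X ≠ Y := fun e => hst (congrArg Subtype.val e).symm
  have hno : ∀ {A B : Equiv.Perm (Fin n)}, A * A = 1 → B * B = 1 → Commute A B → A ≠ B → ¬ Odd (orderOf (A * B)) := by
    intro A B hA hB hAB hne' hodd
    have h2 : orderOf (A * B) ∣ 2 := orderOf_dvd_of_pow_eq_one (by rw [hAB.mul_pow, sq, sq, hA, hB, mul_one])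
    have h1 : orderOf (A * B) = 1 := by
      rcases (Nat.dvd_prime Nat.prime_two).mp h2 with h | h
      · exact h
      · exact absurd (h ▸ hodd) (by decide)
    rw [orderOf_eq_one_iff] at h1
    exact hne' ((eq_inv_of_mul_eq_one_left h1).trans (inv_eq_of_mul_eq_one_right hB))
  have hnadj : ¬ Gr.Adj X Y := by
    rintro ⟨-, h | h⟩
    · exact hno htt hss hcomm (Ne.symm hst) h
    · exact hno hss htt hcomm.symm hst h
  have hle : ∀ x y, Gr.edist x y ≤ 2 := fun x y => by
    obtain ⟨w, hw⟩ := hwalk x y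
    exact (SimpleGraph.edist_le w).trans (by exact_mod_cast hw)
  have hd2 : Gr.ediam ≤ 2 := SimpleGraph.ediam_le_of_edist_le hle
  have hfin : Gr.ediam ≠ ⊤ := ne_top_of_le_ne_top (by simp) hd2
  have h2 : 2 ≤ Gr.edist X Y := by
    have h0 : Gr.edist X Y ≠ 0 := fun e => hne (SimpleGraph.edist_eq_zero_iff.mp e)
    have h1 : Gr.edist X Y ≠ 1 := fun e => hnadj (SimpleGraph.edist_eq_one_iff_adj.mp e)
    generalize Gr.edist X Y = e at h0 h1
    induction e with
    | top => simp
    | coe e => norm_cast at h0 h1 ⊢; omega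
  have : Gr.ediam = 2 := le_antisymm hd2 (h2.trans SimpleGraph.edist_le_ediam)
  show Gr.ediam.toNat = 2
  rw [this]; rfl

end Cfsg.Agent.S3265
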