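import Cfsg.Statements.S3266
import Mathlib

set_option autoImplicit false
open Cfsg
set_option maxHeartbeats 1600000

namespace Cfsg.Agent.S3266


open Matrix
open scoped MatrixGroups

section
variable {F : Type*} [Field F]

local notation "SL2F" => Matrix.SpecialLinearGroup (Fin 2) F
local notation "P2F" => Matrix.ProjectiveSpecialLinearGroup (Fin 2) F

/-- The projection. -/
def prj : SL2F →* P2F := QuotientGroup.mk' _

theorem prj_surjective : Function.Surjective (prj (F := F)) := QuotientGroup.mk'_surjective _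

/-- Matrix form of an element. -/
abbrev mt (A : SL2F) : Matrix (Fin 2) (Fin 2) F := A

theorem ch2 (M : Matrix (Fin 2) (Fin 2) F) : M * M = M.trace • M - M.det • 1 := by
  ext i j; fin_cases i <;> fin_cases j <;>
    simp [Matrix.mul_apply, Fin.sum_univ_two, Matrix.trace_fin_two, Matrix.det_fin_two] <;> ring

theorem prj_eq_one (A : SL2F) : prj A = 1 ↔ mt A = 1 ∨ mt A = -1 := by
  rw [show prj A = 1 ↔ A ∈ Subgroup.center SL2F from QuotientGroup.eq_one_iff A,
    Matrix.SpecialLinearGroup.mem_center_iff]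
  simp only [Fintype.card_fin]
  constructor
  · rintro ⟨r, hr, hA⟩
    rcases sq_eq_one_iff.mp hr with rfl | rfl
    · left; show mt A = 1; exact hA.symm.trans (map_one _)
    · right; show mt A = -1; exact hA.symm.trans (by rw [map_neg, map_one])
  · rintro (h | h)
    · exact ⟨1, one_pow 2, by rw [map_one]; exact h.symm⟩
    · exact ⟨-1, by ring, by rw [map_neg, map_one]; exact h.symm⟩

/-- `A` lifts an involution. -/
def IsJ (A : SL2F) : Prop := mt A * mt A = -1 ∧ prj A ≠ 1

theorem sq_eq_one {z : SL2F} (h : mt z * mt z = 1) (h2 : (2 : F) ≠ 0) : mt z = 1 ∨ mt z = -1 := by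
  have hc := ch2 (mt z)
  rw [z.2, one_smul, h] at hc
  have ht : (mt z).trace • mt z = (2 : F) • 1 := by
    rw [two_smul]; exact (eq_sub_iff_add_eq.mp hc).symm
  have ht0 : (mt z).trace ≠ 0 := fun h0 => by
    rw [h0, zero_smul] at ht
    exact h2 (by simpa using congrFun (congrFun ht.symm 0) 0)
  have hz : mt z = ((mt z).trace⁻¹ * 2) • 1 := by rw [mul_smul, ← ht, smul_smul, inv_mul_cancel₀ ht0, one_smul]
  generalize (mt z).trace⁻¹ * 2 = r at hz
  rw [hz] at h
  have hr : r * r = 1 := by simpa using congrFun (congrFun h 0) 0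
  rcases mul_self_eq_one_iff.mp hr with rfl | rfl
  · left; rw [hz, one_smul]
  · right; rw [hz, neg_one_smul]

theorem neg_one_eq (h2 : (2 : F) = 0) : (-1 : Matrix (Fin 2) (Fin 2) F) = 1 := by
  ext i j; fin_cases i <;> fin_cases j <;> simp <;> linear_combination -h2

theorem exists_isJ {x : P2F} (hx : orderOf x = 2) : ∃ A, prj A = x ∧ IsJ A := by
  obtain ⟨A, rfl⟩ := prj_surjective x
  have h1 : prj A ≠ 1 := fun h => by rw [h, orderOf_one] at hx; omega
  have h2 : prj (A * A) = 1 := by
    have h := pow_orderOf_eq_one (prj A)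
    rw [hx] at h
    rwa [map_mul, ← pow_two]
  refine ⟨A, rfl, ?_, h1⟩
  rcases (prj_eq_one _).mp h2 with h | h <;> rw [show mt (A * A) = mt A * mt A from rfl] at h
  · by_cases hc : (2 : F) = 0
    · rw [neg_one_eq hc]; exact h
    · exact absurd ((prj_eq_one A).mpr (sq_eq_one h hc)) h1
  · exact h

theorem orderOf_isJ {A : SL2F} (h : IsJ A) : orderOf (prj A) = 2 := by
  refine orderOf_eq_prime ?_ h.2
  rw [pow_two, ← map_mul, prj_eq_one]
  exact Or.inr h.1

theorem IsJ.trace_zero {A : SL2F} (h : IsJ A) : (mt A).trace = 0 := by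
  have hc := ch2 (mt A)
  rw [A.2, one_smul, h.1, eq_comm, sub_eq_neg_self] at hc
  rcases smul_eq_zero.mp hc with h0 | h0
  · exact h0
  · exfalso
    have := A.2
    rw [show (A : Matrix (Fin 2) (Fin 2) F) = 0 from h0, Matrix.det_zero] at this
    exact zero_ne_one this

theorem IsJ.conj {A : SL2F} (h : IsJ A) (g : SL2F) : IsJ (g * A * g⁻¹) := by
  refine ⟨?_, fun e => h.2 ?_⟩
  · show mt ((g * A * g⁻¹) * (g * A * g⁻¹)) = -1
    rw [show g * A * g⁻¹ * (g * A * g⁻¹) = g * (A * A) * g⁻¹ by group]
    show mt g * (mt A * mt A) * mt g⁻¹ = -1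
    rw [h.1, mul_neg, mul_one, neg_mul, show mt g * mt g⁻¹ = mt (g * g⁻¹) from rfl, mul_inv_cancel]
    rfl
  · rwa [map_mul, map_mul, map_inv, conj_eq_one_iff] at e

/-- The standard element. -/
def J0 : SL2F := ⟨!![0, -1; 1, 0], by simp [Matrix.det_fin_two]⟩

theorem J0_isJ : IsJ (J0 (F := F)) := by
  refine ⟨?_, fun h => ?_⟩
  · ext i j; fin_cases i <;> fin_cases j <;> simp [mt, J0, Matrix.mul_apply, Fin.sum_univ_two]
  · rcases (prj_eq_one _).mp h with h | h
    · simpa [mt, J0] using congrFun (congrFun h 1) 0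
    · simpa [mt, J0] using congrFun (congrFun h 1) 0

theorem exists_conj [Fintype F] {A : SL2F} (h : IsJ A) : ∃ g : SL2F, A = g * J0 * g⁻¹ := by
  classical
  have ht := h.trace_zero
  rw [Matrix.trace_fin_two] at ht
  have hd : (mt A).det = 1 := A.2
  rw [Matrix.det_fin_two] at hd
  have hsol : ∀ x : F, ∃ u v : F, u ^ 2 + v ^ 2 = x := by
    intro x
    by_cases hc : ringChar F = 2
    · obtain ⟨u, hu⟩ := FiniteField.isSquare_of_char_two hc x
      exact ⟨u, 0, by rw [hu]; ring⟩
    · obtain ⟨u, v, huv⟩ := FiniteField.exists_root_sum_quadratic (R := F) (f := Polynomial.X ^ 2)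
        (g := Polynomial.X ^ 2 - Polynomial.C x) (by simp) (by rw [Polynomial.degree_X_pow_sub_C (by norm_num)]; rfl)
        (by
          rcases Nat.even_or_odd (Fintype.card F) with he | ho
          · exact absurd (FiniteField.even_card_iff_char_two.mpr (Nat.even_iff.mp he)) hc
          · exact Nat.odd_iff.mp ho)
      exact ⟨u, v, by simp at huv; linear_combination huv⟩
  -- a vector independent of its image
  obtain ⟨s, t, hst⟩ : ∃ s t : F, s * (mt A 1 0 * s + mt A 1 1 * t) - t * (mt A 0 0 * s + mt A 0 1 * t) ≠ 0 := by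
    by_contra hno
    push Not at hno
    have h10 : mt A 1 0 = 0 := by have := hno 1 0; simpa using this
    have h01 : mt A 0 1 = 0 := by have := hno 0 1; simpa using this
    have h11 : mt A 1 1 = mt A 0 0 := by
      have := hno 1 1
      rw [h10, h01] at this
      linear_combination this
    apply h.2
    rw [prj_eq_one]
    rw [h10, h01, h11] at hd
    have h0 : mt A 0 0 * mt A 0 0 = 1 := by linear_combination hd
    rcases mul_self_eq_one_iff.mp h0 with e | e
    · left; ext i j; fin_cases i <;> fin_cases j <;> simp [h10, h01, h11, e]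
    · right; ext i j; fin_cases i <;> fin_cases j <;> simp [h10, h01, h11, e]
  obtain ⟨u, v, huv⟩ := hsol (s * (mt A 1 0 * s + mt A 1 1 * t) - t * (mt A 0 0 * s + mt A 0 1 * t))⁻¹
  set s2 := mt A 0 0 * s + mt A 0 1 * t with hs2
  set t2 := mt A 1 0 * s + mt A 1 1 * t with ht2
  let g : SL2F := ⟨!![u * s + v * s2, -v * s + u * s2; u * t + v * t2, -v * t + u * t2], by
    rw [Matrix.det_fin_two_of,
      show (u * s + v * s2) * (-v * t + u * t2) - (-v * s + u * s2) * (u * t + v * t2) =
        (u ^ 2 + v ^ 2) * (s * t2 - t * s2) by ring, huv, inv_mul_cancel₀ hst]⟩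
  refine ⟨g, ?_⟩
  rw [eq_mul_inv_iff_mul_eq]
  refine Subtype.ext ?_
  show mt A * mt g = mt g * mt J0
  have e1 : mt A 0 0 * s2 + mt A 0 1 * t2 = -s := by
    rw [hs2, ht2]; linear_combination (mt A 0 0 * s + mt A 0 1 * t) * ht - s * hd
  have e2 : mt A 1 0 * s2 + mt A 1 1 * t2 = -t := by
    rw [hs2, ht2]; linear_combination (mt A 1 0 * s + mt A 1 1 * t) * ht - t * hd
  ext i j; fin_cases i <;> fin_cases j <;> simp [mt, g, J0, Matrix.mul_apply, Fin.sum_univ_two]
  · linear_combination v * e1 - u * hs2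
  · linear_combination u * e1 + v * hs2
  · linear_combination v * e2 - u * ht2
  · linear_combination u * e2 + v * ht2

/-- The adjacency relation on elements. -/
def Adj' (x y : P2F) : Prop := x ≠ y ∧ Odd (orderOf (x * y))

theorem adj_conj {x y : P2F} (h : Adj' x y) (g : P2F) : Adj' (g * x * g⁻¹) (g * y * g⁻¹) := by
  refine ⟨fun e => h.1 (mul_left_cancel (mul_right_cancel e)), ?_⟩
  have e : g * x * g⁻¹ * (g * y * g⁻¹) = MulAut.conj g (x * y) := by rw [MulAut.conj_apply]; group
  rw [e, MulEquiv.orderOf_eq]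
  exact h.2

theorem adj_of_pow {A C : SL2F} {m : ℕ} (hm : Odd m) (hne : prj A ≠ prj C)
    (h : (mt A * mt C) ^ m = 1 ∨ (mt A * mt C) ^ m = -1) : Adj' (prj A) (prj C) := by
  refine ⟨hne, hm.of_dvd_nat (orderOf_dvd_of_pow_eq_one ?_)⟩
  rw [← map_mul, ← map_pow, prj_eq_one]
  rwa [show mt ((A * C) ^ m) = (mt A * mt C) ^ m from Matrix.SpecialLinearGroup.coe_pow _ _]

section finite
variable [Fintype F]

/-- The basic criterion in odd characteristic. -/
theorem adj_crit (h2 : (2 : F) ≠ 0) {A C : SL2F} (hne : prj A ≠ prj C)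
    (h : ¬ IsSquare (4 - (mt A * mt C).trace ^ 2) ∨ (mt A * mt C).trace ^ 2 = 4) : Adj' (prj A) (prj C) := by
  classical
  obtain ⟨p, hp⟩ := CharP.exists F
  have := hp
  obtain ⟨n, hpp, hcard⟩ := FiniteField.card F p
  have := Fact.mk hpp
  have : ExpChar F p := ExpChar.prime hpp
  have : CharP (Matrix (Fin 2) (Fin 2) F) p := inferInstance
  have : ExpChar (Matrix (Fin 2) (Fin 2) F) p := ExpChar.prime hpp
  have hp2 : p ≠ 2 := fun e => h2 (by subst e; exact_mod_cast CharP.cast_eq_zero F 2)
  have hqodd : Odd (Fintype.card F) := hcard ▸ (hpp.odd_of_ne_two hp2).pow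
  set M := mt A * mt C with hM
  set s := M.trace with hs
  have hdet : M.det = 1 := by rw [hM, Matrix.det_mul, A.2, C.2, one_mul]
  have hch : M * M = s • M - 1 := by rw [ch2 M, hdet, one_smul]
  set N := M - (s / 2) • 1 with hN
  have hNN : N * N = ((s ^ 2 - 4) / 4) • 1 := by
    rw [hN, sub_mul, mul_sub, mul_sub, hch]
    simp only [Matrix.smul_mul, Matrix.mul_smul, one_mul, mul_one, smul_smul]
    have h4 : (4 : F) ≠ 0 := by
      rw [show (4 : F) = 2 * 2 by norm_num]; exact mul_ne_zero h2 h2
    match_scalars <;> field_simp <;> ring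
  have hMN : M = N + (s / 2) • 1 := by rw [hN, sub_add_cancel]
  have hcomm : Commute N ((s / 2) • (1 : Matrix (Fin 2) (Fin 2) F)) := (Commute.one_right N).smul_right _
  rcases h with h | h
  · set g := (s ^ 2 - 4) / 4 with hg
    have hMq : M ^ Fintype.card F = (g ^ (Fintype.card F / 2)) • N + (s / 2) • 1 := by
      obtain ⟨k, hk⟩ := hqodd
      conv_lhs => rw [hMN, hcard, add_pow_expChar_pow_of_commute (h := hcomm) ..]
      rw [← hcard, smul_pow, one_pow, FiniteField.pow_card, hk, pow_succ, pow_mul, pow_two, hNN, smul_pow, one_pow,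
        Matrix.smul_mul, one_mul, show (2 * k + 1) / 2 = k by omega]
    have hr2 : (ringChar F) ≠ 2 := by rwa [ringChar.eq F p]
    have hn1 : (-1 : F) ^ (Fintype.card F / 2) = if Fintype.card F % 4 = 3 then -1 else 1 := by
      obtain ⟨k, hk⟩ := hqodd
      rw [hk, show (2 * k + 1) / 2 = k by omega]
      rcases Nat.even_or_odd' k with ⟨l, rfl | rfl⟩
      · rw [pow_mul, neg_one_sq, one_pow, if_neg (by omega)]
      · rw [pow_succ, pow_mul, neg_one_sq, one_pow, one_mul, if_pos (by omega)]
    have hneg : (-g) ^ (Fintype.card F / 2) = -1 := by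
      have hns : ¬ IsSquare (-g) := by
        rintro ⟨r, hr⟩
        refine h ⟨2 * r, ?_⟩
        have h4 : (4 : F) ≠ 0 := by
          rw [show (4 : F) = 2 * 2 by norm_num]; exact mul_ne_zero h2 h2
        rw [hg] at hr
        field_simp at hr
        linear_combination hr
      have hne0 : -g ≠ 0 := fun e => hns (by rw [e]; exact IsSquare.zero)
      exact (FiniteField.pow_dichotomy hr2 hne0).resolve_left fun e => hns ((FiniteField.isSquare_iff hr2 hne0).mpr e)
    have hgp : g ^ (Fintype.card F / 2) = - (-1 : F) ^ (Fintype.card F / 2) := by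
      rw [show g = (-1) * -g by ring, mul_pow, hneg]; ring
    obtain ⟨m, hmodd, hm⟩ : ∃ m, Odd m ∧ M ^ (2 * m) = 1 := by
      rw [hgp, hn1] at hMq
      obtain ⟨k, hk⟩ := hqodd
      by_cases h43 : Fintype.card F % 4 = 3
      · rw [if_pos h43, neg_neg, one_smul, ← hMN] at hMq
        refine ⟨k, Nat.odd_iff.mpr (by omega), ?_⟩
        rw [hk, pow_succ] at hMq
        have hu : IsUnit M := (Matrix.isUnit_iff_isUnit_det M).mpr (by rw [hdet]; exact isUnit_one)
        exact hu.mul_eq_right.mp hMq
      · rw [if_neg h43, neg_one_smul] at hMq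
        refine ⟨k + 1, Nat.odd_iff.mpr (by omega), ?_⟩
        rw [show 2 * (k + 1) = (2 * k + 1) + 1 by ring, ← hk, pow_succ, hMq, hN]
        simp only [neg_sub, sub_mul, add_mul, Matrix.smul_mul, one_mul, hch]
        match_scalars <;> field_simp <;> ring
    refine adj_of_pow hmodd hne ?_
    rw [← hM]
    have hz : mt ((A * C) ^ m) = M ^ m := Matrix.SpecialLinearGroup.coe_pow _ _
    have := sq_eq_one (z := (A * C) ^ m) (by rw [hz, ← pow_add, ← two_mul, hm]) h2
    rwa [hz] at this
  · refine adj_of_pow (hpp.odd_of_ne_two hp2) hne ?_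
    rw [← hM]
    have hN0 : N * N = 0 := by rw [hNN, h, sub_self, zero_div, zero_smul]
    rw [hMN, add_pow_expChar_of_commute (h := hcomm) .., smul_pow, one_pow]
    have hNp : N ^ p = 0 := by
      rw [show p = 2 + (p - 2) by have := hpp.two_le; omega, pow_add, pow_two, hN0, zero_mul]
    have hs2 : s / 2 * (s / 2) = 1 := by
      field_simp
      linear_combination h
    rw [hNp, zero_add]
    rcases mul_self_eq_one_iff.mp hs2 with e | e <;> rw [e]
    · left; rw [one_pow, one_smul]
    · right; rw [(hpp.odd_of_ne_two hp2).neg_one_pow, neg_one_smul]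

/-- Commuting of lifts in characteristic two decides adjacency. -/
theorem adj_char_two (h2 : (2 : F) = 0) {A C : SL2F} (hA : IsJ A) (hne : mt A * mt C ≠ mt C * mt A) (hC : IsJ C) :
    Adj' (prj A) (prj C) := by
  classical
  have hinj : ∀ B : SL2F, prj B = 1 → B = 1 := fun B h => by
    rcases (prj_eq_one B).mp h with e | e
    · exact Subtype.ext e
    · exact Subtype.ext (e.trans (neg_one_eq h2))
  have hne' : prj A ≠ prj C := fun e => hne (by
    have : A = C := by
      have := hinj (A * C⁻¹) (by rw [map_mul, map_inv, e, mul_inv_cancel])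
      exact mul_inv_eq_one.mp this
    rw [this])
  have hAA : A * A = 1 := Subtype.ext (hA.1.trans (neg_one_eq h2))
  have hCC : C * C = 1 := Subtype.ext (hC.1.trans (neg_one_eq h2))
  refine ⟨hne', ?_⟩
  rw [← map_mul, orderOf_injective prj ((injective_iff_map_eq_one _).mpr hinj)]
  by_contra hev
  rw [Nat.not_odd_iff_even] at hev
  obtain ⟨k, hk⟩ := hev
  have hk0 : 0 < k := by have := orderOf_pos (A * C); omega
  set Z := (A * C) ^ k with hZ
  have hZ1 : Z ≠ 1 := fun e => by
    have := Nat.le_of_dvd hk0 (orderOf_dvd_of_pow_eq_one e); omega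
  have hZZ : Z * Z = 1 := by rw [hZ, ← pow_add, ← hk, pow_orderOf_eq_one]
  have hZJ : IsJ Z := ⟨by
    rw [neg_one_eq h2]; exact congrArg Subtype.val hZZ, fun e => hZ1 (hinj Z e)⟩
  have hAZ : A * Z = Z * A := by
    have e1 : A * Z * A⁻¹ = Z⁻¹ := by
      rw [hZ, ← conj_pow, ← inv_pow]
      congr 1
      rw [_root_.mul_inv_rev, inv_eq_of_mul_eq_one_right hAA, inv_eq_of_mul_eq_one_right hCC, ← mul_assoc A A, hAA, one_mul]
    rw [inv_eq_of_mul_eq_one_right hZZ] at e1
    exact mul_inv_eq_iff_eq_mul.mp e1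
  have hMZ : A * C * Z = Z * (A * C) := by rw [hZ]; exact ((Commute.refl (A * C)).pow_right k).eq
  obtain ⟨g, hg⟩ := exists_conj hZJ
  have hform : ∀ B : SL2F, B * Z = Z * B → ∃ a b : F, mt (g⁻¹ * B * g) = !![a, -b; b, a] := by
    intro B hB
    have hB' : g⁻¹ * B * g * J0 = J0 * (g⁻¹ * B * g) := by
      have e : J0 = g⁻¹ * Z * g := by rw [hg]; group
      rw [e]
      simp only [mul_assoc]
      rw [mul_inv_cancel_left, mul_inv_cancel_left, ← mul_assoc B, hB, mul_assoc]
    have e := congrArg mt hB'
    set Y := mt (g⁻¹ * B * g) with hY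
    have e' : Y * mt J0 = mt J0 * Y := e
    refine ⟨Y 0 0, Y 1 0, ?_⟩
    have e00 := congrFun (congrFun e' 0) 0
    have e01 := congrFun (congrFun e' 0) 1
    simp [mt, J0, Matrix.mul_apply, Fin.sum_univ_two] at e00 e01
    ext i j; fin_cases i <;> fin_cases j <;> simp
    · first | linear_combination e00 | linear_combination -e00
    · first | linear_combination e01 | linear_combination -e01
  obtain ⟨a, b, hab⟩ := hform A hAZ
  obtain ⟨a', b', hab'⟩ := hform (A * C) hMZ
  have hcm : mt (g⁻¹ * A * g) * mt (g⁻¹ * (A * C) * g) = mt (g⁻¹ * (A * C) * g) * mt (g⁻¹ * A * g) := by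
    rw [hab, hab']
    ext i j; fin_cases i <;> fin_cases j <;> simp [Matrix.mul_apply, Fin.sum_univ_two] <;> ring
  have hcm' : g⁻¹ * A * g * (g⁻¹ * (A * C) * g) = g⁻¹ * (A * C) * g * (g⁻¹ * A * g) := Subtype.ext hcm
  have : A * (A * C) = A * C * A := by
    have h' := congrArg (fun z => g * z * g⁻¹) hcm'
    simpa [mul_assoc] using h'
  rw [← mul_assoc, hAA, one_mul] at this
  apply hne
  have hfin : A * C = C * A := by
    conv_rhs => rw [this, mul_assoc, hAA, mul_one]
  exact congrArg mt hfin

/-- Points of the sphere. -/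
theorem isJ_of_coords (v a w : F) (h : v ^ 2 - a ^ 2 - w ^ 2 = 1) (h2 : (2 : F) ≠ 0) :
    ∃ C : SL2F, IsJ C ∧ mt C = !![a, w - v; w + v, -a] := by
  let C : SL2F := ⟨!![a, w - v; w + v, -a], by rw [Matrix.det_fin_two_of]; linear_combination h⟩
  refine ⟨C, ⟨?_, fun e => ?_⟩, rfl⟩
  · ext i j; fin_cases i <;> fin_cases j <;> simp [mt, C, Matrix.mul_apply, Fin.sum_univ_two] <;>
      first | ring1 | linear_combination -h
  · have hs : a = -a := by
      rcases (prj_eq_one C).mp e with e | e <;>
      · have e0 := congrFun (congrFun e 0) 0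
        have e1 := congrFun (congrFun e 1) 1
        simp [mt, C] at e0 e1
        first | linear_combination e0 - e1 | linear_combination e0 + e1
    have : a = 0 := by
      have : (2 : F) * a = 0 := by linear_combination hs
      exact (mul_eq_zero.mp this).resolve_left h2
    rcases (prj_eq_one C).mp e with e | e <;>
    · have e0 := congrFun (congrFun e 0) 0
      simp [mt, C, this] at e0

theorem coords_of_isJ (h2 : (2 : F) ≠ 0) {C : SL2F} (hC : IsJ C) :
    ∃ v a w : F, v ^ 2 - a ^ 2 - w ^ 2 = 1 ∧ mt C = !![a, w - v; w + v, -a] := by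
  have ht := hC.trace_zero
  rw [Matrix.trace_fin_two] at ht
  refine ⟨(mt C 1 0 - mt C 0 1) / 2, mt C 0 0, (mt C 1 0 + mt C 0 1) / 2, ?_, ?_⟩
  · have hd : (mt C).det = 1 := C.2
    rw [Matrix.det_fin_two] at hd
    field_simp
    linear_combination 4 * hd - 4 * mt C 0 0 * ht
  · ext i j; fin_cases i <;> fin_cases j <;> simp
    · field_simp; ring
    · field_simp; ring
    · linear_combination ht

theorem trace_coords (v a w v' a' w' : F) :
    (!![a, w - v; w + v, -a] * !![a', w' - v'; w' + v', -a'] : Matrix (Fin 2) (Fin 2) F).trace =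
      -2 * (v * v' - a * a' - w * w') := by
  simp [Matrix.trace_fin_two, Matrix.mul_apply, Fin.sum_univ_two]; ring

theorem J0_coords : mt (J0 (F := F)) = !![(0 : F), 0 - 1; 0 + 1, -0] := by
  simp [mt, J0]

/-- Existence of a common neighbour. -/
theorem common_nbr (hF : 4 ≤ Fintype.card F) {B : SL2F} (hB : IsJ B) (hne : prj J0 ≠ prj B)
    (hnadj : ¬ Adj' (prj J0) (prj B)) : ∃ C, IsJ C ∧ Adj' (prj J0) (prj C) ∧ Adj' (prj C) (prj B) := by
  classical
  by_cases h2 : (2 : F) = 0
  · -- characteristic two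
    have hBJ : mt (J0 (F := F)) * mt B = mt B * mt J0 := by
      by_contra h; exact hnadj (adj_char_two h2 J0_isJ h hB)
    let C : SL2F := ⟨!![1, 1; 0, 1], by simp [Matrix.det_fin_two]⟩
    have hC : IsJ C := by
      refine ⟨?_, fun e => ?_⟩
      · rw [neg_one_eq h2]
        ext i j; fin_cases i <;> fin_cases j <;> simp [mt, C, Matrix.mul_apply, Fin.sum_univ_two] <;> linear_combination h2
      · rcases (prj_eq_one C).mp e with e | e <;> simpa [mt, C] using congrFun (congrFun e 0) 1
    have hJC : mt (J0 (F := F)) * mt C ≠ mt C * mt J0 := fun e => by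
      simpa [mt, C, J0, Matrix.mul_apply, Fin.sum_univ_two] using congrFun (congrFun e 0) 0
    refine ⟨C, hC, adj_char_two h2 J0_isJ hJC hC, adj_char_two h2 hC (fun e => ?_) hB⟩
    -- `B` would be central among the two
    have e00 := congrFun (congrFun e 0) 0
    have e01 := congrFun (congrFun e 0) 1
    have f00 := congrFun (congrFun hBJ 0) 0
    simp [mt, C, J0, Matrix.mul_apply, Fin.sum_univ_two] at e00 e01 f00
    have h10 : mt B 1 0 = 0 := by show (B : Matrix (Fin 2) (Fin 2) F) 1 0 = 0; linear_combination e00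
    have h01 : mt B 0 1 = 0 := by
      have h10' : (B : Matrix (Fin 2) (Fin 2) F) 1 0 = 0 := h10
      show (B : Matrix (Fin 2) (Fin 2) F) 0 1 = 0
      linear_combination -f00 - h10'
    have h11 : mt B 1 1 = mt B 0 0 := by
      show (B : Matrix (Fin 2) (Fin 2) F) 1 1 = (B : Matrix (Fin 2) (Fin 2) F) 0 0
      linear_combination e01
    apply hB.2
    rw [prj_eq_one]
    have hd : (mt B).det = 1 := B.2
    rw [Matrix.det_fin_two, h10, h01, h11] at hd
    have h0 : mt B 0 0 * mt B 0 0 = 1 := by linear_combination hd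
    rcases mul_self_eq_one_iff.mp h0 with e' | e'
    · left; ext i j; fin_cases i <;> fin_cases j <;> simp [h10, h01, h11, e']
    · right; ext i j; fin_cases i <;> fin_cases j <;> simp [h10, h01, h11, e']
  -- odd characteristic
  obtain ⟨α, a₀, w₀, hB1, hBm⟩ := coords_of_isJ h2 hB
  have hJtr : ∀ (C : SL2F) (v a w : F), mt C = !![a, w - v; w + v, -a] → (mt J0 * mt C).trace = -2 * v := by
    intro C v a w h; rw [h, J0_coords, trace_coords]; ring
  have h4 : ∀ x : F, (4 - (-2 * x) ^ 2) = 2 * 2 * (1 - x ^ 2) := fun x => by ring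
  have hsq : IsSquare (1 - α ^ 2) ∧ 1 - α ^ 2 ≠ 0 := by
    refine ⟨?_, fun e => hnadj (adj_crit h2 hne (Or.inr ?_))⟩
    · by_contra hns
      refine hnadj (adj_crit h2 hne (Or.inl ?_))
      rw [hJtr B α a₀ w₀ hBm, h4]
      rintro ⟨r, hr⟩
      exact hns ⟨r / 2, by field_simp; linear_combination hr⟩
    · rw [hJtr B α a₀ w₀ hBm]; linear_combination -4 * e
  obtain ⟨⟨β, hβ⟩, hβ0⟩ := hsq
  have hβne : β ≠ 0 := fun e => hβ0 (by rw [hβ, e, mul_zero])
  have hαp : (1 : F) + α ≠ 0 := fun e => hβ0 (by linear_combination (1 - α) * e)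
  have hαm : (1 : F) - α ≠ 0 := fun e => hβ0 (by linear_combination (1 + α) * e)
  have hab : a₀ ^ 2 + w₀ ^ 2 = -(β * β) := by rw [← hβ]; linear_combination -hB1
  -- points in adapted coordinates
  have hpt : ∀ v l m : F, v ^ 2 + β * β * (l ^ 2 + m ^ 2) = 1 → ∃ C, IsJ C ∧ (mt J0 * mt C).trace = -2 * v ∧
      (mt B * mt C).trace = -2 * (α * v + l * (β * β)) ∧
      mt C = !![l * a₀ - m * w₀, (l * w₀ + m * a₀) - v; (l * w₀ + m * a₀) + v, -(l * a₀ - m * w₀)] := by
    intro v l m h
    obtain ⟨C, hC, hCm⟩ := isJ_of_coords v (l * a₀ - m * w₀) (l * w₀ + m * a₀)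
      (by linear_combination h - (l ^ 2 + m ^ 2) * hab) h2
    refine ⟨C, hC, hJtr C _ _ _ hCm, ?_, hCm⟩
    rw [hBm, hCm, trace_coords]
    linear_combination 2 * l * hab
  by_cases hm1 : IsSquare (-1 : F)
  · obtain ⟨i, hi⟩ := hm1
    obtain ⟨C, hC, t1, t2, hCm⟩ := hpt 1 ((1 - α) / (β * β)) (i / (1 + α)) (by
      field_simp
      linear_combination (-(β * β) ^ 2) * hi + ((1 - α) * (1 + α) + β * β) * hβ)
    have hne1 : prj J0 ≠ prj C := fun e => by
      have e' : prj (J0⁻¹ * C) = 1 := by rw [map_mul, map_inv, e, inv_mul_cancel]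
      have ht : mt C = mt J0 ∨ mt C = -mt J0 := by
        have hx : mt C = mt J0 * mt (J0⁻¹ * C) := by
          show mt C = mt (J0 * (J0⁻¹ * C)); rw [mul_inv_cancel_left]
        rcases (prj_eq_one _).mp e' with h | h <;> rw [h] at hx
        · left; rw [hx, mul_one]
        · right; rw [hx, mul_neg, mul_one]
      have hz : (1 - α) / (β * β) * a₀ - i / (1 + α) * w₀ = 0 ∧ (1 - α) / (β * β) * w₀ + i / (1 + α) * a₀ = 0 := by
        rcases ht with h | h <;> rw [hCm, J0_coords] at h <;>
        · have e0 := congrFun (congrFun h 0) 0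
          have e1 := congrFun (congrFun h 0) 1
          have e2 := congrFun (congrFun h 1) 0
          simp at e0 e1 e2
          exact ⟨by linear_combination e0, mul_left_cancel₀ h2 (by linear_combination e1 + e2)⟩
      have h0 : ((1 - α) / (β * β)) * (a₀ ^ 2 + w₀ ^ 2) = 0 := by linear_combination a₀ * hz.1 + w₀ * hz.2
      rw [hab] at h0
      field_simp at h0
      exact hαm (by linear_combination -h0)
    have hne2 : prj C ≠ prj B := fun e => by
      have e' : prj (C⁻¹ * B) = 1 := by rw [map_mul, map_inv, e, inv_mul_cancel]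
      have ht : mt B = mt C ∨ mt B = -mt C := by
        have hx : mt B = mt C * mt (C⁻¹ * B) := by
          show mt B = mt (C * (C⁻¹ * B)); rw [mul_inv_cancel_left]
        rcases (prj_eq_one _).mp e' with h | h <;> rw [h] at hx
        · left; rw [hx, mul_one]
        · right; rw [hx, mul_neg, mul_one]
      have hJB := hJtr B α a₀ w₀ hBm
      rcases ht with h | h <;> rw [h] at hJB
      · rw [t1] at hJB
        exact hαm (mul_left_cancel₀ h2 (by linear_combination -hJB))
      · rw [mul_neg, Matrix.trace_neg, t1] at hJB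
        exact hαp (mul_left_cancel₀ h2 (by linear_combination hJB))
    refine ⟨C, hC, adj_crit h2 hne1 (Or.inr (by rw [t1]; ring)), adj_crit h2 hne2 (Or.inr ?_)⟩
    rw [Matrix.trace_mul_comm, t2]
    field_simp
    ring
  -- minus one a nonsquare: counting
  set q := Fintype.card F with hq
  have hcirc : ∀ n : F, n ≠ 0 → (Finset.univ.filter fun p : F × F => p.1 ^ 2 + p.2 ^ 2 = n).card = q + 1 := by
    have hden : ∀ m : F, 1 + m ^ 2 ≠ 0 := fun m e => hm1 ⟨m, by linear_combination -e⟩
    let f : Option F → F × F := fun o => o.elim (-1, 0) fun m => ((1 - m ^ 2) / (1 + m ^ 2), 2 * m / (1 + m ^ 2))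
    have hfi : Function.Injective f := by
      intro x y e
      rcases x with _ | m <;> rcases y with _ | m' <;> simp only [f, Option.elim, Prod.mk.injEq] at e
      · rfl
      · exfalso; have := hden m'; field_simp at e; exact h2 (by linear_combination -e.1)
      · exfalso; have := hden m; field_simp at e; exact h2 (by linear_combination e.1)
      · have := hden m; have := hden m'
        field_simp at e
        congr 1
        have hsq2 : m ^ 2 = m' ^ 2 := mul_left_cancel₀ h2 (by linear_combination -e.1)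
        have : (1 + m ^ 2) * (m - m') = 0 := by linear_combination e.2 + m * hsq2
        exact sub_eq_zero.mp ((mul_eq_zero.mp this).resolve_left (hden m))
    have hfim : Finset.univ.image f = Finset.univ.filter fun p : F × F => p.1 ^ 2 + p.2 ^ 2 = 1 := by
      ext ⟨X, Y⟩
      simp only [Finset.mem_image, Finset.mem_univ, true_and, Finset.mem_filter]
      constructor
      · rintro ⟨o, e⟩
        rcases o with _ | m <;> simp only [f, Option.elim, Prod.mk.injEq] at e <;> obtain ⟨rfl, rfl⟩ := e
        · ring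
        · have := hden m; field_simp; ring
      · intro hXY
        by_cases hX : X = -1
        · have hY : Y = 0 := by
            have : Y * Y = 0 := by rw [hX] at hXY; linear_combination hXY
            exact mul_self_eq_zero.mp this
          exact ⟨none, by simp [f, hX, hY]⟩
        · have h1 : 1 + X ≠ 0 := fun e => hX (by linear_combination e)
          refine ⟨some (Y / (1 + X)), ?_⟩
          have := hden (Y / (1 + X))
          simp only [f, Option.elim, Prod.mk.injEq]
          have hYY : Y ^ 2 = 1 - X ^ 2 := by linear_combination hXY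
          have hsum : (1 + X) ^ 2 + Y ^ 2 = 2 * (1 + X) := by linear_combination hXY
          have e1 : 1 + (Y / (1 + X)) ^ 2 = 2 / (1 + X) := by field_simp; linear_combination hsum
          have e2 : 1 - (Y / (1 + X)) ^ 2 = 2 * X / (1 + X) := by field_simp; linear_combination -hYY
          rw [e1, e2]
          constructor <;> field_simp <;> ring
    have h1 : (Finset.univ.filter fun p : F × F => p.1 ^ 2 + p.2 ^ 2 = 1).card = q + 1 := by
      rw [← hfim, Finset.card_image_of_injective _ hfi, Finset.card_univ, Fintype.card_option]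
    intro n hn
    have hr2 : ringChar F ≠ 2 := fun e => h2 (by
      have := ringChar.Nat.cast_ringChar (R := F); rw [e] at this; exact_mod_cast this)
    obtain ⟨u, w, huw⟩ : ∃ u w : F, u ^ 2 + w ^ 2 = n := by
      obtain ⟨u, w, huw⟩ := FiniteField.exists_root_sum_quadratic (R := F) (f := Polynomial.X ^ 2)
        (g := Polynomial.X ^ 2 - Polynomial.C n) (by simp) (by rw [Polynomial.degree_X_pow_sub_C (by norm_num)]; rfl)
        (FiniteField.odd_card_of_char_ne_two hr2)
      exact ⟨u, w, by simp at huw; linear_combination huw⟩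
    rw [← h1]
    symm
    refine Finset.card_bij' (fun p _ => (u * p.1 - w * p.2, u * p.2 + w * p.1))
      (fun p _ => ((u * p.1 + w * p.2) / n, (u * p.2 - w * p.1) / n)) ?_ ?_ ?_ ?_
    · intro p hp
      simp only [Finset.mem_filter, Finset.mem_univ, true_and] at hp ⊢
      linear_combination (u ^ 2 + w ^ 2) * hp + huw
    · intro p hp
      simp only [Finset.mem_filter, Finset.mem_univ, true_and] at hp ⊢
      field_simp
      linear_combination (u ^ 2 + w ^ 2) * hp + n * huw
    · intro p _
      ext <;> field_simp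
      · linear_combination p.1 * huw
      · linear_combination p.2 * huw
    · intro p _
      ext <;> field_simp
      · linear_combination p.1 * huw
      · linear_combination p.2 * huw
  have hcirc0 : (Finset.univ.filter fun p : F × F => p.1 ^ 2 + p.2 ^ 2 = 0).card = 1 := by
    rw [Finset.card_eq_one]
    refine ⟨(0, 0), Finset.eq_singleton_iff_unique_mem.mpr ⟨by simp, fun p hp => ?_⟩⟩
    simp only [Finset.mem_filter, Finset.mem_univ, true_and] at hp
    have hp2 : p.2 = 0 := by
      by_contra h
      exact hm1 ⟨p.1 / p.2, by field_simp; linear_combination -hp⟩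
    rw [hp2] at hp
    exact Prod.ext (mul_self_eq_zero.mp (by linear_combination hp)) hp2
  let good : F → Prop := fun v => IsSquare (1 - v ^ 2)
  set R := Finset.univ.filter good with hR
  have hRc : 2 * R.card = q + 3 := by
    have hc := hcirc 1 one_ne_zero
    rw [Finset.card_eq_sum_card_fiberwise (f := Prod.fst) (t := R) (fun p hp => by
      simp only [Finset.coe_filter, Finset.mem_univ, true_and, Set.mem_setOf_eq] at hp
      simp only [hR, Finset.coe_filter, Finset.mem_univ, true_and, Set.mem_setOf_eq, good]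
      exact ⟨p.2, by linear_combination -hp⟩)] at hc
    have hfib : ∀ v ∈ R, ((Finset.univ.filter fun p : F × F => p.1 ^ 2 + p.2 ^ 2 = 1).filter fun p => p.1 = v).card +
        (if v = 1 ∨ v = -1 then 1 else 0) = 2 := by
      intro v hv
      simp only [hR, Finset.mem_filter, Finset.mem_univ, true_and, good] at hv
      obtain ⟨r, hr⟩ := hv
      have e : ((Finset.univ.filter fun p : F × F => p.1 ^ 2 + p.2 ^ 2 = 1).filter fun p => p.1 = v) = {(v, r), (v, -r)} := by
        ext ⟨X, Y⟩
        simp only [Finset.mem_filter, Finset.mem_univ, true_and, Finset.mem_insert, Finset.mem_singleton, Prod.mk.injEq]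
        constructor
        · rintro ⟨h1, rfl⟩
          have : Y * Y = r * r := by linear_combination h1 + hr
          rcases mul_self_eq_mul_self_iff.mp this with h | h <;> simp [h]
        · rintro (⟨rfl, rfl⟩ | ⟨rfl, rfl⟩) <;> exact ⟨by linear_combination -hr, rfl⟩
      rw [e]
      split_ifs with h
      · have : r = 0 := mul_self_eq_zero.mp (by rcases h with rfl | rfl <;> linear_combination -hr)
        simp [this]
      · rw [Finset.card_pair]
        intro e'
        rw [Prod.mk.injEq] at e'
        have hr0 : r = 0 := (mul_eq_zero.mp (show (2 : F) * r = 0 by linear_combination e'.2)).resolve_left h2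
        rw [hr0, mul_zero, sub_eq_zero] at hr
        exact h (sq_eq_one_iff.mp hr.symm)
    have hs := Finset.sum_congr rfl hfib
    rw [Finset.sum_add_distrib, hc, Finset.sum_boole, Finset.sum_const, smul_eq_mul] at hs
    have h11 : (R.filter fun v => v = 1 ∨ v = -1).card = 2 := by
      rw [Finset.card_eq_two]
      refine ⟨1, -1, fun e => h2 (by linear_combination e), ?_⟩
      ext v
      simp only [hR, good, Finset.mem_filter, Finset.mem_univ, true_and, Finset.mem_insert, Finset.mem_singleton]
      constructor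
      · exact fun h => h.2
      · intro h; refine ⟨⟨0, ?_⟩, h⟩; rcases h with rfl | rfl <;> ring
    simp only [Nat.cast_id] at hs
    omega
  -- sphere points as triples
  let T : Finset (F × F × F) := Finset.univ.filter fun x => x.1 ^ 2 - x.2.1 ^ 2 - x.2.2 ^ 2 = 1
  have hfibre : ∀ V : Finset F, (1 : F) ∈ V → (-1 : F) ∈ V →
      (T.filter fun x => x.1 ∈ V).card = (V.card - 2) * (q + 1) + 2 := by
    intro V h1 hm
    rw [Finset.card_eq_sum_card_fiberwise (f := Prod.fst) (s := T.filter fun x => x.1 ∈ V) (t := V) (fun x hx => (Finset.mem_filter.mp (Finset.mem_coe.mp hx)).2)]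
    have hf : ∀ v ∈ V, ((T.filter fun x => x.1 ∈ V).filter fun x => x.1 = v).card =
        (Finset.univ.filter fun p : F × F => p.1 ^ 2 + p.2 ^ 2 = v ^ 2 - 1).card := by
      intro v hv
      refine Finset.card_bij' (fun x _ => x.2) (fun p _ => (v, p)) ?_ ?_ ?_ ?_
      · intro x hx
        simp only [T, Finset.mem_filter, Finset.mem_univ, true_and] at hx ⊢
        obtain ⟨⟨h, -⟩, rfl⟩ := hx
        linear_combination -h
      · intro p hp
        simp only [T, Finset.mem_filter, Finset.mem_univ, true_and] at hp ⊢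
        exact ⟨⟨by linear_combination -hp, hv⟩, trivial⟩
      · intro x hx
        simp only [Finset.mem_filter] at hx
        exact Prod.ext hx.2.symm rfl
      · intro p _; rfl
    rw [Finset.sum_congr rfl hf]
    have hne11 : (1 : F) ≠ -1 := fun e => h2 (by linear_combination e)
    have hsub : ({1, -1} : Finset F) ⊆ V := by simp [Finset.insert_subset_iff, h1, hm]
    rw [← Finset.sum_sdiff hsub, Finset.sum_pair hne11, show (1 : F) ^ 2 - 1 = 0 by ring,
      show (-1 : F) ^ 2 - 1 = 0 by ring, hcirc0, Finset.sum_const_nat (m := q + 1), Finset.card_sdiff_of_subset hsub,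
      Finset.card_pair hne11]
    intro v hv
    refine hcirc _ fun e => ?_
    rcases sq_eq_one_iff.mp (sub_eq_zero.mp e) with rfl | rfl <;> simp at hv
  have hTc : T.card = (q - 2) * (q + 1) + 2 := by
    have := hfibre Finset.univ (Finset.mem_univ _) (Finset.mem_univ _)
    rwa [Finset.filter_true_of_mem (fun x _ => Finset.mem_univ _), Finset.card_univ] at this
  let toC : F × F × F → Matrix (Fin 2) (Fin 2) F := fun x => !![x.2.1, x.2.2 - x.1; x.2.2 + x.1, -x.2.1]
  have htoC : Function.Injective toC := by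
    intro x y e
    have e0 := congrFun (congrFun e 0) 0
    have e1 := congrFun (congrFun e 0) 1
    have e2 := congrFun (congrFun e 1) 0
    simp [toC] at e0 e1 e2
    exact Prod.ext (mul_left_cancel₀ h2 (by linear_combination e2 - e1))
      (Prod.ext e0 (mul_left_cancel₀ h2 (by linear_combination e2 + e1)))
  let bad : SL2F → Finset (F × F × F) := fun A => T.filter fun x => IsSquare (4 - (mt A * toC x).trace ^ 2)
  have hbadJ : bad J0 = T.filter fun x => x.1 ∈ R := by
    refine Finset.filter_congr fun x _ => ?_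
    simp only [toC, hR, good, Finset.mem_filter, Finset.mem_univ, true_and]
    rw [J0_coords, trace_coords, h4]
    constructor
    · rintro ⟨r, hr⟩
      exact ⟨r / 2, by field_simp; linear_combination hr⟩
    · rintro ⟨r, hr⟩
      exact ⟨2 * r, by linear_combination 4 * hr⟩
  have hbadJc : (bad J0).card = (R.card - 2) * (q + 1) + 2 := by
    rw [hbadJ]
    refine hfibre R ?_ ?_ <;> simp [hR, good]
  have hbadB : (bad B).card ≤ (bad J0).card := by
    obtain ⟨g, hg⟩ := exists_conj hB
    have hx : ∀ x ∈ T, ∃ y ∈ T, toC y = mt g⁻¹ * toC x * mt g := by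
      intro x hx
      simp only [T, Finset.mem_filter, Finset.mem_univ, true_and] at hx
      obtain ⟨C, hC, hCm⟩ := isJ_of_coords x.1 x.2.1 x.2.2 hx h2
      have hD := hC.conj g⁻¹
      rw [inv_inv] at hD
      obtain ⟨v, a, w, hvaw, hDm⟩ := coords_of_isJ h2 hD
      refine ⟨(v, a, w), by simp [T, hvaw], ?_⟩
      show !![a, w - v; w + v, -a] = mt g⁻¹ * !![x.2.1, x.2.2 - x.1; x.2.2 + x.1, -x.2.1] * mt g
      rw [← hDm, ← hCm]; rfl
    choose! φ hφT hφ using hx
    refine Finset.card_le_card_of_injOn φ ?_ ?_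
    · intro x hx
      rw [Finset.mem_coe, Finset.mem_filter] at hx
      simp only [bad, Finset.coe_filter, Set.mem_setOf_eq]
      refine ⟨hφT x hx.1, ?_⟩
      rw [hφ x hx.1]
      have e : (mt J0 * (mt g⁻¹ * toC x * mt g)).trace = (mt B * toC x).trace := by
        rw [hg, ← mul_assoc, ← mul_assoc, Matrix.trace_mul_comm, ← mul_assoc, ← mul_assoc]
        rfl
      rw [e]; exact hx.2
    · intro x hx y hy e
      rw [Finset.mem_coe, Finset.mem_filter] at hx hy
      have e' := congrArg toC e
      rw [hφ x hx.1, hφ y hy.1] at e'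
      apply htoC
      have hgg : mt g * mt g⁻¹ = 1 := by show mt (g * g⁻¹) = 1; rw [mul_inv_cancel]; rfl
      have := congrArg (fun M => mt g * M * mt g⁻¹) e'
      simpa only [← mul_assoc, hgg, one_mul, mul_assoc _ (mt g) (mt g⁻¹), mul_one] using this
  -- common non-neighbours
  let mkT : F × F × F → F × F × F := fun y => (y.1, y.2.1 * a₀ - y.2.2 * w₀, y.2.1 * w₀ + y.2.2 * a₀)
  have hmk : ∀ v l m : F, v ^ 2 + β * β * (l ^ 2 + m ^ 2) = 1 → mkT (v, l, m) ∈ T := by
    intro v l m h
    simp only [mkT, T, Finset.mem_filter, Finset.mem_univ, true_and]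
    linear_combination h - (l ^ 2 + m ^ 2) * hab
  have hmk_inj : Function.Injective mkT := by
    rintro ⟨v, l, m⟩ ⟨v', l', m'⟩ e
    simp only [mkT, Prod.mk.injEq] at e
    obtain ⟨rfl, e1, e2⟩ := e
    have hb : β * β ≠ 0 := mul_ne_zero hβne hβne
    have el : l = l' := mul_left_cancel₀ hb (by linear_combination -a₀ * e1 - w₀ * e2 + (l - l') * hab)
    have em : m = m' := mul_left_cancel₀ hb (by linear_combination w₀ * e1 - a₀ * e2 + (m - m') * hab)
    rw [el, em]
  have hgoodJ : ∀ v l m : F, IsSquare (1 - v ^ 2) → IsSquare (4 - (mt J0 * toC (mkT (v, l, m))).trace ^ 2) := by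
    intro v l m ⟨r, hr⟩
    refine ⟨2 * r, ?_⟩
    show 4 - (mt J0 * !![_, _ - v; _ + v, _]).trace ^ 2 = _
    rw [J0_coords, trace_coords]
    linear_combination 4 * hr
  have hgoodB : ∀ v l m : F, IsSquare (1 - (α * v + l * (β * β)) ^ 2) →
      IsSquare (4 - (mt B * toC (mkT (v, l, m))).trace ^ 2) := by
    intro v l m ⟨r, hr⟩
    refine ⟨2 * r, ?_⟩
    simp only [toC, mkT]
    rw [hBm, trace_coords]
    have e : α * v - a₀ * (l * a₀ - m * w₀) - w₀ * (l * w₀ + m * a₀) = α * v + l * (β * β) := by
      linear_combination -l * hab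
    rw [e]
    linear_combination 4 * hr
  -- the plane and the two poles
  set circ := Finset.univ.filter (fun p : F × F => p.1 ^ 2 + p.2 ^ 2 = 1) with hcircd
  set plane := circ.image (fun p => mkT (p.1, p.2 / β, 0)) with hplane
  have hplanec : plane.card = q + 1 := by
    rw [hplane, Finset.card_image_of_injective, hcirc 1 one_ne_zero]
    intro p p' e
    have := hmk_inj e
    simp only [Prod.mk.injEq] at this
    refine Prod.ext this.1 ?_
    have h' := this.2.1
    field_simp at h'
    exact h'
  -- one more point with equal traces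
  obtain ⟨v₁, m₁, hv₁, hm₁, heq₁⟩ : ∃ v m : F, v ≠ 0 ∧ m ≠ 0 ∧
      v ^ 2 + β * β * (((1 - α) * v / (β * β)) ^ 2 + m ^ 2) = 1 := by
    have hq7 : 7 ≤ q := by
      have hmod : q % 4 = 3 := by
        have := FiniteField.isSquare_neg_one_iff (F := F)
        rw [this] at hm1
        simpa using hm1
      omega
    set K := 1 + (1 - α) ^ 2 / (β * β) with hK
    set bads := Finset.univ.filter (fun x : F => x = 0 ∨ 1 + K * x ^ 2 = 0 ∨ 1 - K * x ^ 2 = 0) with hbads
    have hle : bads.card ≤ 5 := by
      have h01 : ∀ c : F, (Finset.univ.filter fun x : F => c + K * x ^ 2 = 0 ∧ x ≠ 0).card ≤ 2 := by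
        intro c
        by_cases hx : ∃ x₀ : F, c + K * x₀ ^ 2 = 0 ∧ x₀ ≠ 0
        · obtain ⟨x₀, h0, hx0⟩ := hx
          refine (Finset.card_le_card (t := {x₀, -x₀}) fun x hx => ?_).trans (Finset.card_le_two)
          simp only [Finset.mem_filter, Finset.mem_univ, true_and] at hx
          by_cases hK0 : K = 0
          · exfalso
            exact hαp (by
              have : β * β + (1 - α) ^ 2 = 0 := by rw [hK] at hK0; field_simp at hK0; linear_combination hK0
              rw [← hβ] at this
              have h3 : 2 * (1 - α) = 0 := by linear_combination this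
              exact absurd ((mul_eq_zero.mp h3).resolve_left h2) hαm)
          · have : x * x = x₀ * x₀ := mul_left_cancel₀ hK0 (by linear_combination hx.1 - h0)
            rcases mul_self_eq_mul_self_iff.mp this with h | h <;> simp [h]
        · push Not at hx
          rw [Finset.filter_false_of_mem fun x _ h => h.2 (hx x h.1)]
          simp
      have hsub : bads ⊆ insert (0 : F) ((Finset.univ.filter fun x : F => 1 + K * x ^ 2 = 0 ∧ x ≠ 0) ∪
          (Finset.univ.filter fun x : F => -1 + K * x ^ 2 = 0 ∧ x ≠ 0)) := by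
        intro x hx
        simp only [hbads, Finset.mem_filter, Finset.mem_univ, true_and] at hx
        by_cases h0 : x = 0
        · simp [h0]
        · simp only [Finset.mem_insert, Finset.mem_union, Finset.mem_filter, Finset.mem_univ, true_and]
          rcases hx with h | h | h
          · exact absurd h h0
          · exact Or.inr (Or.inl ⟨h, h0⟩)
          · exact Or.inr (Or.inr ⟨by linear_combination -h, h0⟩)
      refine (Finset.card_le_card hsub).trans ((Finset.card_insert_le _ _).trans ?_)
      have := Finset.card_union_le (Finset.univ.filter fun x : F => 1 + K * x ^ 2 = 0 ∧ x ≠ 0)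
        (Finset.univ.filter fun x : F => -1 + K * x ^ 2 = 0 ∧ x ≠ 0)
      have := h01 1; have := h01 (-1); omega
    obtain ⟨x, -, hx⟩ := Finset.exists_mem_notMem_of_card_lt_card (s := bads) (t := Finset.univ)
      (by rw [Finset.card_univ]; omega)
    simp only [hbads, Finset.mem_filter, Finset.mem_univ, true_and, not_or] at hx
    obtain ⟨hx0, hx1, hx2⟩ := hx
    refine ⟨2 * x / (1 + K * x ^ 2), (1 - K * x ^ 2) / (1 + K * x ^ 2) / β,
      div_ne_zero (mul_ne_zero h2 hx0) hx1, div_ne_zero (div_ne_zero hx2 hx1) hβne, ?_⟩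
    rw [show (2 * x / (1 + K * x ^ 2)) ^ 2 + β * β * (((1 - α) * (2 * x / (1 + K * x ^ 2)) / (β * β)) ^ 2 +
        ((1 - K * x ^ 2) / (1 + K * x ^ 2) / β) ^ 2) = (2 * x / (1 + K * x ^ 2)) ^ 2 * K + ((1 - K * x ^ 2) / (1 + K * x ^ 2)) ^ 2 by
      generalize 2 * x / (1 + K * x ^ 2) = v
      generalize (1 - K * x ^ 2) / (1 + K * x ^ 2) = u
      rw [hK]; field_simp; ring]
    rw [div_pow, div_pow, div_mul_eq_mul_div, ← add_div, div_eq_one_iff_eq (pow_ne_zero 2 hx1)]
    ring
  set extra : Finset (F × F × F) := {mkT (0, 0, 1 / β), mkT (0, 0, -1 / β), mkT (v₁, (1 - α) * v₁ / (β * β), m₁)} with hextra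
  have hextrac : extra.card = 3 := by
    have h1 : ∀ x : F, (0, 0, x) ≠ ((v₁, (1 - α) * v₁ / (β * β), m₁) : F × F × F) := fun x e => hv₁ (congrArg Prod.fst e).symm
    have h12 : ((0, 0, 1 / β) : F × F × F) ≠ (0, 0, -1 / β) := fun e => by
      have := (congrArg (fun z => z.2.2) e); simp only at this; field_simp at this
      exact h2 (by linear_combination this)
    rw [hextra, Finset.card_insert_of_notMem, Finset.card_pair (fun e => h1 _ (hmk_inj e))]
    simp only [Finset.mem_insert, Finset.mem_singleton, not_or]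
    exact ⟨fun e => h12 (hmk_inj e), fun e => h1 _ (hmk_inj e)⟩
  have hdisj : Disjoint plane extra := by
    rw [Finset.disjoint_left]
    intro z hz hz'
    simp only [hplane, Finset.mem_image] at hz
    obtain ⟨p, -, rfl⟩ := hz
    simp only [hextra, Finset.mem_insert, Finset.mem_singleton] at hz'
    rcases hz' with h | h | h <;> have h' := congrArg (fun z => z.2.2) (hmk_inj h) <;> simp only at h'
    · exact one_ne_zero (α := F) (by field_simp at h'; linear_combination -h')
    · exact one_ne_zero (α := F) (by field_simp at h'; linear_combination h')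
    · exact hm₁ h'.symm
  by_cases hfin : ∃ x ∈ T, x ∉ bad J0 ∧ x ∉ bad B
  · obtain ⟨x, hxT, hxJ, hxB⟩ := hfin
    obtain ⟨C, hC, hCm⟩ := isJ_of_coords x.1 x.2.1 x.2.2 (Finset.mem_filter.mp hxT).2 h2
    have n1 : ¬ IsSquare (4 - (mt J0 * mt C).trace ^ 2) := fun h => hxJ (Finset.mem_filter.mpr ⟨hxT, by rw [hCm] at h; exact h⟩)
    have n2 : ¬ IsSquare (4 - (mt B * mt C).trace ^ 2) := fun h => hxB (Finset.mem_filter.mpr ⟨hxT, by rw [hCm] at h; exact h⟩)
    have hne_of : ∀ A : SL2F, IsJ A → ¬ IsSquare (4 - (mt A * mt C).trace ^ 2) → prj A ≠ prj C := by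
      intro A hA hn e
      apply hn
      have e' : prj (A⁻¹ * C) = 1 := by rw [map_mul, map_inv, e, inv_mul_cancel]
      have hx' : mt C = mt A * mt (A⁻¹ * C) := by
        show mt C = mt (A * (A⁻¹ * C)); rw [mul_inv_cancel_left]
      refine ⟨0, ?_⟩
      rcases (prj_eq_one _).mp e' with h | h <;> rw [hx', h]
      · rw [mul_one, hA.1, Matrix.trace_neg, Matrix.trace_one, Fintype.card_fin]; push_cast; ring
      · rw [mul_neg, mul_one, mul_neg, hA.1, neg_neg, Matrix.trace_one, Fintype.card_fin]; push_cast; ring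
    refine ⟨C, hC, adj_crit h2 (hne_of J0 J0_isJ n1) (Or.inl n1),
      adj_crit h2 (hne_of B hB n2).symm (Or.inl (by rwa [Matrix.trace_mul_comm]))⟩
  exfalso
  push Not at hfin
  have hsubT : T ⊆ bad J0 ∪ bad B := fun x hx => Finset.mem_union.mpr (or_iff_not_imp_left.mpr (hfin x hx))
  have hinter : plane ⊆ bad J0 ∩ bad B := by
    intro z hz
    simp only [hplane, Finset.mem_image] at hz
    obtain ⟨p, hp, rfl⟩ := hz
    simp only [hcircd, Finset.mem_filter, Finset.mem_univ, true_and] at hp
    have hin : mkT (p.1, p.2 / β, 0) ∈ T := hmk _ _ _ (by field_simp; linear_combination hp)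
    refine Finset.mem_inter.mpr ⟨Finset.mem_filter.mpr ⟨hin, hgoodJ _ _ _ ⟨p.2, by linear_combination -hp⟩⟩,
      Finset.mem_filter.mpr ⟨hin, hgoodB _ _ _ ⟨β * p.1 - α * p.2, ?_⟩⟩⟩
    field_simp
    linear_combination -hp + (p.1 ^ 2 + p.2 ^ 2) * hβ
  have hWin : ∀ m : F, (β * m) ^ 2 = 1 → mkT (0, 0, m) ∈ bad J0 ∩ bad B := by
    intro m hm
    have hin : mkT (0, 0, m) ∈ T := hmk _ _ _ (by linear_combination hm)
    exact Finset.mem_inter.mpr ⟨Finset.mem_filter.mpr ⟨hin, hgoodJ _ _ _ ⟨1, by ring⟩⟩,
      Finset.mem_filter.mpr ⟨hin, hgoodB _ _ _ ⟨1, by ring⟩⟩⟩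
  have hextra_in : extra ⊆ bad J0 ∩ bad B := by
    intro z hz
    simp only [hextra, Finset.mem_insert, Finset.mem_singleton] at hz
    rcases hz with rfl | rfl | rfl
    · exact hWin _ (by field_simp)
    · exact hWin _ (by field_simp)
    · have hin := hmk _ _ _ heq₁
      have hiff : (mt B * toC (mkT (v₁, (1 - α) * v₁ / (β * β), m₁))).trace =
          (mt J0 * toC (mkT (v₁, (1 - α) * v₁ / (β * β), m₁))).trace := by
        simp only [toC, mkT]
        rw [hBm, J0_coords, trace_coords, trace_coords]
        field_simp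
        linear_combination ((1 - α) * v₁) * hab
      rcases Finset.mem_union.mp (hsubT hin) with h | h
      · exact Finset.mem_inter.mpr ⟨h, Finset.mem_filter.mpr ⟨hin, by rw [hiff]; exact (Finset.mem_filter.mp h).2⟩⟩
      · exact Finset.mem_inter.mpr ⟨Finset.mem_filter.mpr ⟨hin, by rw [← hiff]; exact (Finset.mem_filter.mp h).2⟩, h⟩
  have hI := Finset.card_le_card (Finset.union_subset hinter hextra_in)
  rw [Finset.card_union_of_disjoint hdisj, hplanec, hextrac] at hI
  have hU := Finset.card_le_card hsubT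
  have hUI := Finset.card_union_add_card_inter (bad J0) (bad B)
  obtain ⟨k, hk⟩ : ∃ k, R.card = k + 2 := ⟨R.card - 2, by omega⟩
  obtain ⟨j, hj⟩ : ∃ j, q = j + 2 := ⟨q - 2, by omega⟩
  rw [hTc, hj, Nat.add_sub_cancel] at hU
  rw [hk, Nat.add_sub_cancel, hj] at hbadJc
  rw [hj] at hI hRc
  nlinarith

end finite
end


/-- Let F be a finite field with at least 4 elements and let X be a conjugacy class of involutions of PSL(2, F). The graph on X joining two distinct involutions whose product has odd order is connected and has diameter exactly 2. -/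
theorem result {F : Type*} [Field F] [Fintype F] (hF : 4 ≤ Fintype.card F)
    (t : Matrix.ProjectiveSpecialLinearGroup (Fin 2) F) (ht : orderOf t = 2) :
    (SimpleGraph.fromRel fun x y : {x : Matrix.ProjectiveSpecialLinearGroup (Fin 2) F // IsConj t x} =>
        Odd (orderOf (x.1 * y.1))).Connected ∧
      (SimpleGraph.fromRel fun x y : {x : Matrix.ProjectiveSpecialLinearGroup (Fin 2) F // IsConj t x} =>
        Odd (orderOf (x.1 * y.1))).diam = 2 := by
  classical
  obtain ⟨A₀, rfl, hA₀⟩ := exists_isJ ht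
  obtain ⟨g₀, hg₀⟩ := exists_conj hA₀
  have hmem : ∀ C, IsJ C → IsConj (prj A₀) (prj C) := fun C hC => by
    obtain ⟨g, hg⟩ := exists_conj hC
    rw [hg₀, hg]
    refine (isConj_iff.mpr ⟨prj (g * g₀⁻¹), ?_⟩)
    simp only [map_mul, map_inv]
    group
  set Γ := SimpleGraph.fromRel fun x y : {x : Matrix.ProjectiveSpecialLinearGroup (Fin 2) F // IsConj (prj A₀) x} =>
    Odd (orderOf (x.1 * y.1)) with hΓ
  have hadj : ∀ x y : {x : Matrix.ProjectiveSpecialLinearGroup (Fin 2) F // IsConj (prj A₀) x},
      Adj' x.1 y.1 → Γ.Adj x y := fun x y h =>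
    (SimpleGraph.fromRel_adj _ _ _).mpr ⟨fun e => h.1 (congrArg Subtype.val e), Or.inl h.2⟩
  have hdist : ∀ x y, Γ.edist x y ≤ 2 := by
    intro x y
    by_cases hxy : x = y
    · rw [hxy, SimpleGraph.edist_self]; exact bot_le
    by_cases ha : Γ.Adj x y
    · rw [SimpleGraph.edist_eq_one_iff_adj.mpr ha]; norm_num
    have hx2 : orderOf x.1 = 2 := by
      obtain ⟨c, hc⟩ := isConj_iff.mp x.2
      rw [← hc, ← MulAut.conj_apply, MulEquiv.orderOf_eq, ht]
    have hy2 : orderOf y.1 = 2 := by
      obtain ⟨c, hc⟩ := isConj_iff.mp y.2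
      rw [← hc, ← MulAut.conj_apply, MulEquiv.orderOf_eq, ht]
    obtain ⟨A, hA, hAJ⟩ := exists_isJ hx2
    obtain ⟨B, hB, hBJ⟩ := exists_isJ hy2
    obtain ⟨g, hg⟩ := exists_conj hAJ
    have hBg : IsJ (g⁻¹ * B * g) := by
      have := hBJ.conj g⁻¹
      rwa [inv_inv] at this
    have hxc : x.1 = prj g * prj J0 * (prj g)⁻¹ := by rw [← hA, hg, map_mul, map_mul, map_inv]
    have hyc : y.1 = prj g * prj (g⁻¹ * B * g) * (prj g)⁻¹ := by
      rw [← hB, map_mul, map_mul, map_inv]; group
    have hne : prj J0 ≠ prj (g⁻¹ * B * g) := fun e => hxy (Subtype.ext (by rw [hxc, hyc, e]))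
    obtain ⟨C, hC, h1, h2⟩ := common_nbr hF hBg hne (fun h => ha (hadj x y (by
      rw [hxc, hyc]; exact adj_conj h (prj g))))
    let z : {x : Matrix.ProjectiveSpecialLinearGroup (Fin 2) F // IsConj (prj A₀) x} :=
      ⟨prj (g * C * g⁻¹), hmem _ (hC.conj g)⟩
    have hz : z.1 = prj g * prj C * (prj g)⁻¹ := by
      show prj (g * C * g⁻¹) = _; rw [map_mul, map_mul, map_inv]
    have a1 : Γ.Adj x z := hadj x z (by rw [hxc, hz]; exact adj_conj h1 _)
    have a2 : Γ.Adj z y := hadj z y (by rw [hyc, hz]; exact adj_conj h2 _)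
    exact (SimpleGraph.Walk.cons a1 (SimpleGraph.Walk.cons a2 SimpleGraph.Walk.nil)).edist_le
  have hne' : Nonempty {x : Matrix.ProjectiveSpecialLinearGroup (Fin 2) F // IsConj (prj A₀) x} := ⟨⟨_, IsConj.refl _⟩⟩
  have hconn : Γ.Connected := by
    refine ⟨fun x y => SimpleGraph.reachable_of_edist_ne_top ?_⟩
    intro h
    have := hdist x y
    rw [h] at this
    exact absurd this (by decide)
  refine ⟨hconn, ?_⟩
  -- a commuting pair
  obtain ⟨K, hK, hKne, hKc⟩ : ∃ K : Matrix.SpecialLinearGroup (Fin 2) F, IsJ K ∧ prj J0 ≠ prj K ∧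
      (mt (J0 * K * (J0 * K)) = 1 ∨ mt (J0 * K * (J0 * K)) = -1) := by
    by_cases h2 : (2 : F) = 0
    · obtain ⟨b, -, hb⟩ := Finset.exists_mem_notMem_of_card_lt_card (s := ({0, 1} : Finset F)) (t := Finset.univ)
        (lt_of_le_of_lt Finset.card_le_two (by rw [Finset.card_univ]; omega))
      simp only [Finset.mem_insert, Finset.mem_singleton, not_or] at hb
      let K : Matrix.SpecialLinearGroup (Fin 2) F := ⟨!![b, b + 1; b + 1, b], by
        rw [Matrix.det_fin_two_of]; linear_combination (-b - 1) * h2⟩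
      refine ⟨K, ⟨?_, fun e => ?_⟩, fun e => ?_, Or.inl ?_⟩
      · rw [neg_one_eq h2]
        ext i j; fin_cases i <;> fin_cases j <;> simp [mt, K, Matrix.mul_apply, Fin.sum_univ_two] <;>
          first | linear_combination (b ^ 2 + b) * h2 | linear_combination (b * (b + 1)) * h2
      · rcases (prj_eq_one K).mp e with e | e <;>
        · have := congrFun (congrFun e 0) 1
          simp [mt, K] at this
          exact hb.2 (by linear_combination this - h2)
      · have e' : prj (J0⁻¹ * K) = 1 := by rw [map_mul, map_inv, e, inv_mul_cancel]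
        have hx : mt K = mt J0 * mt (J0⁻¹ * K) := by
          show mt K = mt (J0 * (J0⁻¹ * K)); rw [mul_inv_cancel_left]
        rcases (prj_eq_one _).mp e' with h | h <;> rw [h] at hx <;>
        · have := congrFun (congrFun hx 0) 0
          simp [mt, K, J0] at this
          exact hb.1 this
      · show mt J0 * mt K * (mt J0 * mt K) = 1
        ext i j; fin_cases i <;> fin_cases j <;> simp [mt, K, J0, Matrix.mul_apply, Fin.sum_univ_two] <;>
          first | ring1 | (ring_nf; simp [h2]; done) | linear_combination b * h2 | linear_combination -b * h2 | linear_combination (b ^ 2 + b) * h2 | linear_combination (b * (b + 1)) * h2 | linear_combination (-(b * (b + 1))) * h2 | linear_combination (b ^ 2 + 2 * b) * h2 | linear_combination -(b ^ 2 + 2 * b) * h2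
    · have hr2 : ringChar F ≠ 2 := fun e => h2 (by
        have := ringChar.Nat.cast_ringChar (R := F); rw [e] at this; exact_mod_cast this)
      obtain ⟨a, w, haw⟩ := FiniteField.exists_root_sum_quadratic (R := F) (f := Polynomial.X ^ 2)
        (g := Polynomial.X ^ 2 - Polynomial.C (-1 : F)) (by simp)
        (by rw [Polynomial.degree_X_pow_sub_C (by norm_num)]; rfl) (FiniteField.odd_card_of_char_ne_two hr2)
      simp at haw
      obtain ⟨K, hK, hKm⟩ := isJ_of_coords (0 : F) a w (by linear_combination -haw) h2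
      refine ⟨K, hK, fun e => ?_, Or.inr ?_⟩
      · have e' : prj (J0⁻¹ * K) = 1 := by rw [map_mul, map_inv, e, inv_mul_cancel]
        have hx : mt K = mt J0 * mt (J0⁻¹ * K) := by
          show mt K = mt (J0 * (J0⁻¹ * K)); rw [mul_inv_cancel_left]
        rcases (prj_eq_one _).mp e' with h | h <;> rw [h, hKm] at hx <;>
        · have e0 := congrFun (congrFun hx 0) 1
          have e1 := congrFun (congrFun hx 1) 0
          simp [mt, J0] at e0 e1
          exact h2 (by first | linear_combination e0 - e1 | linear_combination e1 - e0)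
      · show mt J0 * mt K * (mt J0 * mt K) = -1
        rw [hKm]
        ext i j; fin_cases i <;> fin_cases j <;> simp [mt, J0, Matrix.mul_apply, Fin.sum_univ_two] <;>
          first | ring1 | linear_combination haw | linear_combination -haw
  let x0 : {x : Matrix.ProjectiveSpecialLinearGroup (Fin 2) F // IsConj (prj A₀) x} := ⟨prj J0, hmem _ J0_isJ⟩
  let y0 : {x : Matrix.ProjectiveSpecialLinearGroup (Fin 2) F // IsConj (prj A₀) x} := ⟨prj K, hmem _ hK⟩
  have hsq : prj (J0 * K) * prj (J0 * K) = 1 := by rw [← map_mul, prj_eq_one]; exact hKc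
  have hnadj : ¬ Γ.Adj x0 y0 := by
    intro h
    have ho : orderOf (prj (J0 (F := F)) * prj K) = 2 := by
      refine orderOf_eq_prime (by rw [pow_two, ← map_mul]; exact hsq) fun e => hKne ?_
      rw [eq_inv_of_mul_eq_one_left e]
      exact inv_eq_of_mul_eq_one_right (by
        have hh := pow_orderOf_eq_one (prj K)
        rw [orderOf_isJ hK] at hh
        rwa [← pow_two])
    have ho' : orderOf (prj K * prj (J0 (F := F))) = 2 := by
      rw [show prj K * prj (J0 (F := F)) = MulAut.conj (prj K) (prj J0 * prj K) by rw [MulAut.conj_apply]; group,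
        MulEquiv.orderOf_eq, ho]
    rcases ((SimpleGraph.fromRel_adj _ _ _).mp h).2 with h | h
    · rw [show (x0.1 * y0.1) = prj J0 * prj K from rfl, ho] at h; exact absurd h (by decide)
    · rw [show (y0.1 * x0.1) = prj K * prj J0 from rfl, ho'] at h; exact absurd h (by decide)
  have h2le : (2 : ℕ∞) ≤ Γ.edist x0 y0 := by
    have h0 : Γ.edist x0 y0 ≠ 0 := fun e => hKne (congrArg Subtype.val (SimpleGraph.edist_eq_zero_iff.mp e))
    have h1 : Γ.edist x0 y0 ≠ 1 := fun e => hnadj (SimpleGraph.edist_eq_one_iff_adj.mp e)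
    generalize Γ.edist x0 y0 = d at h0 h1
    cases d with
    | top => exact le_top
    | coe d =>
      have : 2 ≤ d := by
        rcases d with _ | _ | d
        · exact absurd rfl h0
        · exact absurd rfl h1
        · omega
      exact_mod_cast this
  have hed : Γ.ediam = 2 := le_antisymm (SimpleGraph.ediam_le_of_edist_le fun u v => hdist u v)
    (h2le.trans SimpleGraph.edist_le_ediam)
  show Γ.ediam.toNat = 2
  rw [hed]
  rfl

end Cfsg.Agent.S3266
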