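import Cfsg.Statements.S3276
import Cfsg.Agent.Lib.Involution
import Mathlib

set_option autoImplicit false
set_option linter.style.haveILetI false
open Cfsg

namespace Cfsg.Agent.S3276

/-- Let x and y be commuting, non-conjugate involutions of a finite group G, and suppose that for every involution u commuting with x, each conjugate of y that commutes with u also commutes with y. Then the normal closure of y is a proper, normal, elementary abelian 2-subgroup of G; and if y is the only involution of that normal closure commuting with x, it has order at most 4. -/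
theorem result {G : Type*} [Group G] [Finite G] (x y : G) (hx : orderOf x = 2) (hy : orderOf y = 2)
    (hxy : Commute x y) (hnc : ¬ IsConj x y)
    (hstar : ∀ u : G, orderOf u = 2 → Commute u x → ∀ g : G, Commute (g * y * g⁻¹) u → Commute (g * y * g⁻¹) y) :
    Subgroup.normalClosure ({y} : Set G) ≠ ⊤ ∧ Cfsg.IsElementaryAbelian 2 (Subgroup.normalClosure ({y} : Set G)) ∧
      ((∀ u ∈ Subgroup.normalClosure ({y} : Set G), orderOf u = 2 → Commute u x → u = y) →
        Nat.card ↥(Subgroup.normalClosure ({y} : Set G)) ≤ 4) := by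
  have hall : ∀ g : G, Commute (g * y * g⁻¹) y := by
    intro g
    have hgy : orderOf (g * y * g⁻¹) = 2 := CfsgLib.Involution.orderOf_conj' hy
    rcases Nat.even_or_odd (orderOf (x * (g * y * g⁻¹))) with he | ho
    · obtain ⟨h1, h2, h3⟩ := CfsgLib.Involution.central_involution hx hgy he
      exact hstar _ h1 h2 g h3.symm
    · exact absurd ((CfsgLib.Involution.isConj_of_odd hx hgy ho).trans
        (isConj_iff.mpr ⟨g, rfl⟩ : IsConj y (g * y * g⁻¹)).symm) hnc
  set N := Subgroup.normalClosure ({y} : Set G) with hN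
  have hyN : y ∈ N := Subgroup.subset_normalClosure rfl
  have hNeq : N = Subgroup.closure (Group.conjugatesOfSet ({y} : Set G)) := rfl
  have hpair : ∀ a ∈ Group.conjugatesOfSet ({y} : Set G), ∀ b ∈ Group.conjugatesOfSet ({y} : Set G),
      a * b = b * a := by
    intro a ha b hb
    rw [Group.mem_conjugatesOfSet_iff] at ha hb
    obtain ⟨a', ha', ha⟩ := ha
    obtain ⟨b', hb', hb⟩ := hb
    rw [Set.mem_singleton_iff] at ha' hb'
    rw [ha'] at ha
    rw [hb'] at hb
    obtain ⟨g, rfl⟩ := isConj_iff.mp ha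
    obtain ⟨h, rfl⟩ := isConj_iff.mp hb
    have := (hall (h⁻¹ * g)).map (MulAut.conj h).toMonoidHom
    simp only [MulEquiv.coe_toMonoidHom, MulAut.conj_apply] at this
    have e : h * (h⁻¹ * g * y * (h⁻¹ * g)⁻¹) * h⁻¹ = g * y * g⁻¹ := by group
    rw [e] at this
    exact this.eq
  have hcomm : IsMulCommutative ↥N := hNeq ▸ Subgroup.isMulCommutative_closure hpair
  have hexp : ∀ a ∈ N, a ^ 2 = 1 := by
    intro a ha
    rw [hNeq] at ha
    induction ha using Subgroup.closure_induction with
    | mem z hz =>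
      obtain ⟨z', hz', hz⟩ := Group.mem_conjugatesOfSet_iff.mp hz
      rw [Set.mem_singleton_iff.mp hz'] at hz
      obtain ⟨g, rfl⟩ := isConj_iff.mp hz
      rw [← CfsgLib.Involution.orderOf_conj' (g := g) hy, pow_orderOf_eq_one]
    | one => exact one_pow 2
    | mul a b ha hb iha ihb =>
      rw [← hNeq] at ha hb
      have : Commute a b := congrArg Subtype.val (hcomm.is_comm.comm (⟨a, ha⟩ : N) ⟨b, hb⟩)
      rw [this.mul_pow, iha, ihb, one_mul]
    | inv a _ iha => rw [inv_pow, iha, inv_one]
  have hyy : y * y = 1 := CfsgLib.Involution.mul_self hy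
  refine ⟨fun htop => ?_, ⟨hcomm, hexp⟩, fun honly => ?_⟩
  · have hcen : ∀ a b : G, a * b = b * a := fun a b =>
      congrArg Subtype.val (hcomm.is_comm.comm (⟨a, htop ▸ Subgroup.mem_top a⟩ : N) ⟨b, htop ▸ Subgroup.mem_top b⟩)
    have hle : N ≤ Subgroup.zpowers y := by
      rw [hNeq, Subgroup.closure_le]
      intro z hz
      obtain ⟨z', hz', hz⟩ := Group.mem_conjugatesOfSet_iff.mp hz
      rw [Set.mem_singleton_iff.mp hz'] at hz
      obtain ⟨g, rfl⟩ := isConj_iff.mp hz
      rw [hcen g y, mul_inv_cancel_right]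
      exact Subgroup.mem_zpowers y
    obtain ⟨k, hk⟩ := hle (htop ▸ Subgroup.mem_top x)
    simp only at hk
    rw [← zpow_mod_orderOf y k, hy] at hk
    rcases Int.emod_two_eq k with h | h <;> simp only [Nat.cast_ofNat, h, zpow_zero, zpow_one] at hk
    · exact CfsgLib.Involution.ne_one hx hk.symm
    · exact hnc (hk ▸ IsConj.refl y)
  · have hxn : ∀ n ∈ N, x * n * x⁻¹ ∈ N := fun n hn => Subgroup.normalClosure_normal.conj_mem n hn x
    have hc : ∀ a ∈ N, ∀ b ∈ N, Commute a b := fun a ha b hb =>
      congrArg Subtype.val (hcomm.is_comm.comm (⟨a, ha⟩ : N) ⟨b, hb⟩)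
    have hxx : x * x = 1 := CfsgLib.Involution.mul_self hx
    let f : ↥N →* ↥N := MonoidHom.mk'
      (fun n => ⟨(n : G) * (x * n * x⁻¹), N.mul_mem n.2 (hxn n n.2)⟩)
      (fun a b => Subtype.ext (by
        show (a : G) * b * (x * (a * b) * x⁻¹) = a * (x * a * x⁻¹) * (b * (x * b * x⁻¹))
        rw [show x * ((a : G) * b) * x⁻¹ = x * a * x⁻¹ * (x * b * x⁻¹) by group,
          (hc _ b.2 _ (hxn _ a.2)).mul_mul_mul_comm]))
    have himg : ∀ u : ↥N, Commute (u : G) x → u ∈ Subgroup.zpowers (⟨y, hyN⟩ : ↥N) := by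
      intro u hu
      by_cases h1 : (u : G) = 1
      · rw [show u = 1 from Subtype.ext h1]; exact one_mem _
      · have : (u : G) = y := honly u u.2
          (CfsgLib.Involution.orderOf_eq_two (by rw [← pow_two]; exact hexp u u.2) h1) hu
        rw [show u = ⟨y, hyN⟩ from Subtype.ext this]
        exact Subgroup.mem_zpowers _
    have hrange : f.range ≤ Subgroup.zpowers (⟨y, hyN⟩ : ↥N) := by
      rintro _ ⟨n, rfl⟩
      refine himg _ ?_
      show (n : G) * (x * n * x⁻¹) * x = x * (n * (x * n * x⁻¹))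
      have e1 := hc n n.2 _ (hxn n n.2)
      rw [CfsgLib.Involution.inv_eq hx] at e1 ⊢
      have l : (n : G) * (x * n * x) * x = n * x * n := by simp [mul_assoc, hxx]
      have r : x * ((n : G) * (x * n * x)) = n * x * n := by
        rw [e1.eq]; simp [← mul_assoc, hxx]
      rw [l, r]
    have hker : f.ker ≤ Subgroup.zpowers (⟨y, hyN⟩ : ↥N) := by
      intro n hn
      refine himg _ ?_
      have h : (n : G) * (x * n * x⁻¹) = 1 := congrArg Subtype.val (MonoidHom.mem_ker.mp hn)
      have h' : x * (n : G) * x⁻¹ = n := by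
        rw [← inv_eq_of_mul_eq_one_right h, inv_eq_of_mul_eq_one_right (by rw [← pow_two]; exact hexp n n.2)]
      exact (mul_inv_eq_iff_eq_mul.mp h').symm
    have h2 : Nat.card ↥(Subgroup.zpowers (⟨y, hyN⟩ : ↥N)) = 2 := by
      rw [Nat.card_zpowers, Subgroup.orderOf_mk, hy]
    rw [← f.ker.card_mul_index, Subgroup.index_ker]
    exact (Nat.mul_le_mul ((Subgroup.card_le_of_le hker).trans_eq h2)
      ((Subgroup.card_le_of_le hrange).trans_eq h2))

end Cfsg.Agent.S3276
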