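import Cfsg.Statements.S3279
import Cfsg.Agent.Lib.ZStar.ThreeInv

set_option autoImplicit false
open Cfsg

namespace Cfsg.Agent.S3279

/-- Let G be a finite simple group and x an involution of G whose centralizer contains at most three involutions. Then C_G(x) contains a Sylow 2-subgroup of G, and all involutions of G are conjugate. -/
theorem result {G : Type*} [Group G] [Finite G] [IsSimpleGroup G] (x : G) (hx : orderOf x = 2)
    (h3 : Nat.card {u : ↥(Subgroup.centralizer ({x} : Set G)) // orderOf u = 2} ≤ 3) :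
    (∃ S : Sylow 2 G, (S : Subgroup G) ≤ Subgroup.centralizer ({x} : Set G)) ∧
      ∀ u v : G, orderOf u = 2 → orderOf v = 2 → IsConj u v := by
  haveI : Fact (Nat.Prime 2) := ⟨Nat.prime_two⟩
  refine ⟨?_, fun u v hu hv => (CfsgLib.ZStar.isConj_of_three hx h3 hu).symm.trans
    (CfsgLib.ZStar.isConj_of_three hx h3 hv)⟩
  obtain ⟨T⟩ : Nonempty (Sylow 2 G) := inferInstance
  haveI : Nontrivial (T : Subgroup G) := by
    rw [← Finite.one_lt_card_iff_nontrivial]
    have := T.dvd_card_of_dvd_card (hx ▸ orderOf_dvd_natCard x)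
    exact Nat.lt_of_lt_of_le one_lt_two (Nat.le_of_dvd Nat.card_pos this)
  obtain ⟨z, hz⟩ := exists_prime_orderOf_dvd_card' (G := Subgroup.center (T : Subgroup G)) 2 (by
    haveI : Nontrivial (Subgroup.center (T : Subgroup G)) := T.2.center_nontrivial
    obtain ⟨k, hk, hkc⟩ :=
      (T.2.to_subgroup (Subgroup.center (T : Subgroup G))).nontrivial_iff_card.mp this
    rw [hkc]; exact dvd_pow_self 2 (by omega))
  obtain ⟨g, hg⟩ := isConj_iff.mp (CfsgLib.ZStar.isConj_of_three hx h3
    (u := ((z : (T : Subgroup G)) : G)) (by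
      rw [Subgroup.orderOf_coe, Subgroup.orderOf_coe]; exact hz))
  refine ⟨g⁻¹ • T, fun w hw => Subgroup.mem_centralizer_singleton_iff.mpr ?_⟩
  rw [Sylow.coe_subgroup_smul, Subgroup.mem_pointwise_smul_iff_inv_smul_mem] at hw
  have hw' : g * w * g⁻¹ ∈ (T : Subgroup G) := by simpa using hw
  have h1 : g * w * g⁻¹ * (g * x * g⁻¹) = g * x * g⁻¹ * (g * w * g⁻¹) := by
    rw [hg]
    exact congrArg Subtype.val (Subgroup.mem_center_iff.mp z.2 ⟨_, hw'⟩)
  calc w * x = g⁻¹ * (g * w * g⁻¹ * (g * x * g⁻¹)) * g := by group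
    _ = g⁻¹ * (g * x * g⁻¹ * (g * w * g⁻¹)) * g := by rw [h1]
    _ = x * w := by group

end Cfsg.Agent.S3279
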