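import Cfsg.Statements.S3299
import Mathlib
import Cfsg.Agent.Lib.Extra2.TransferSq
import Cfsg.Agent.Lib.Core

set_option autoImplicit false
open Cfsg

set_option maxHeartbeats 1000000

namespace Cfsg.Agent.S3299

open CfsgLib.Extra2

theorem comm_of_index_two {G : Type*} [Group G] [Finite G] {z : G} {E S : Subgroup G} (hE : IsExt z E) (hSE : S ≤ E)
    (hS : ∃ e ∈ E, e ∉ S ∧ ∀ r ∈ E, r ∈ S ∨ e * r ∈ S) (hcard : 8 < Nat.card E) :
    ∃ u ∈ S, ∃ v ∈ S, u * v = v * u * z := by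
  classical
  by_contra hcon
  push Not at hcon
  obtain ⟨e, he, heS, hd⟩ := hS
  have hcomm : ∀ u ∈ S, ∀ v ∈ S, Commute u v := fun u hu v hv =>
    (hE.cases u (hSE hu) v (hSE hv)).resolve_right (hcon u hu v hv)
  have hcen : ∀ u ∈ S, Commute u e → u ∈ Subgroup.zpowers z := by
    intro u hu hue
    rcases hE.center u (hSE hu) (fun r hr => by
      rcases hd r hr with h | h
      · exact hcomm r h u hu
      · have h1 : Commute (e⁻¹ * (e * r)) u := (hue.symm.inv_left).mul_left (hcomm _ h u hu)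
        rwa [inv_mul_cancel_left] at h1) with h | h
    · rw [h]; exact one_mem _
    · rw [h]; exact Subgroup.mem_zpowers z
  have h1 : Nat.card S ≤ 2 * Nat.card (Subgroup.zpowers z) := card_le_two_mul fun u hu v hv hu' hv' => by
    refine hcen _ (S.mul_mem (S.inv_mem hu) hv) ?_
    rw [hE.commute_mul_iff (E.inv_mem (hSE hu)) (hSE hv) he]
    exact iff_of_false (fun h => hu' (hcen u hu (by simpa using h.inv_left))) (fun h => hv' (hcen v hv h))
  have h2 : Nat.card E ≤ 2 * Nat.card S := card_le_two_mul fun u hu v hv hu' hv' => by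
    have h3 := (hd u hu).resolve_left hu'
    have h4 := (hd v hv).resolve_left hv'
    have h5 := S.mul_mem (S.inv_mem h3) h4
    rwa [mul_inv_rev, mul_assoc, inv_mul_cancel_left] at h5
  rw [Nat.card_zpowers, orderOf_eq_prime (by rw [pow_two]; exact hE.sq) hE.ne_one] at h1
  omega

theorem block_trivial {G X A : Type*} [Group G] [Finite G] [MulAction G X] [CommGroup A] [DecidableEq X]
    {a : G → X → A} (ha : ∀ g h c, a (g * h) c = a g (h • c) * a h c) (hA : ∀ u : A, u ^ 2 = 1)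
    {z : G} {E : Subgroup G} (hE : IsExt z E) (hp : IsPGroup 2 E) (hcard : 8 < Nat.card E)
    {c : X} (hmove : ∃ e ∈ E, e • c ≠ c) {B : Finset X} (hB : ∀ b, b ∈ B ↔ ∃ e ∈ E, e • c = b) {r : G} (hr : r ∈ E) :
    ∏ b ∈ B, a r b = 1 := by
  classical
  haveI : Fact (Nat.Prime 2) := ⟨Nat.prime_two⟩
  obtain ⟨M', hM', hUM⟩ : ∃ M' : Subgroup E, IsCoatom M' ∧ (MulAction.stabilizer G c).subgroupOf E ≤ M' := by
    rcases IsCoatomic.eq_top_or_exists_le_coatom ((MulAction.stabilizer G c).subgroupOf E) with h | h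
    · obtain ⟨e, he, hec⟩ := hmove
      exact absurd ((Subgroup.subgroupOf_eq_top.mp h) he) hec
    · exact h
  have hsq := (CfsgLib.Regular.coatom_facts hp hM').2
  haveI := hp.isNilpotent
  haveI : M'.Normal := Subgroup.NormalizerCondition.normal_of_coatom M' Group.normalizerCondition_of_isNilpotent hM'
  obtain ⟨e, heM'⟩ : ∃ e : E, e ∉ M' := by
    by_contra h
    push Not at h
    exact hM'.1 (eq_top_iff.mpr fun g _ => h g)
  obtain ⟨M, hMdef⟩ : ∃ M : Subgroup G, M = M'.map E.subtype := ⟨_, rfl⟩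
  have hMmem : ∀ (g : G) (hg : g ∈ E), g ∈ M ↔ (⟨g, hg⟩ : E) ∈ M' := fun g hg => by
    rw [hMdef]
    exact ⟨fun ⟨y, hy, hyg⟩ => (show y = ⟨g, hg⟩ from Subtype.ext hyg) ▸ hy, fun h => ⟨_, h, rfl⟩⟩
  have hME : M ≤ E := hMdef ▸ Subgroup.map_subtype_le _
  have heM : (e : G) ∉ M := fun h => heM' ((hMmem e e.2).mp h)
  have hee : (e : G) * e ∈ M := (hMmem _ (E.mul_mem e.2 e.2)).mpr (by
    have := hsq e
    rw [pow_two] at this
    exact this)
  have hdich : ∀ g ∈ E, g ∈ M ∨ (e : G) * g ∈ M := by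
    intro g hg
    by_contra hcon
    push Not at hcon
    have htop : M' ⊔ Subgroup.zpowers e = ⊤ := hM'.2 _ (lt_of_le_of_ne le_sup_left fun h =>
      heM' (h ▸ Subgroup.mem_sup_right (Subgroup.mem_zpowers _)))
    obtain ⟨m, hm, v, hv, hmv⟩ := Subgroup.mem_sup_of_normal_left.mp (htop ▸ Subgroup.mem_top (⟨g, hg⟩ : E))
    obtain ⟨k, hk⟩ := mem_powers_iff_mem_zpowers.mpr hv
    dsimp only at hk
    subst hk
    rcases Nat.even_or_odd k with ⟨j, hj⟩ | ⟨j, hj⟩
    · refine hcon.1 ((hMmem g hg).mpr ?_)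
      rw [← hmv, hj, ← two_mul, pow_mul]
      exact M'.mul_mem hm (M'.pow_mem (hsq e) j)
    · refine hcon.2 ((hMmem _ (E.mul_mem e.2 hg)).mpr ?_)
      rw [show (⟨(e : G) * g, E.mul_mem e.2 hg⟩ : E) = e * ⟨g, hg⟩ from rfl, ← hmv, hj,
        show e * (m * e ^ (2 * j + 1)) = (e * m * e⁻¹) * (e ^ 2) ^ (j + 1) by
          rw [← pow_mul, mul_add, mul_one, show 2 * j + 2 = 1 + (2 * j + 1) by omega, pow_add, pow_one]
          group]
      exact M'.mul_mem (Subgroup.Normal.conj_mem ‹_› m hm e) (M'.pow_mem (hsq e) _)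
  have hstab : ∀ g ∈ E, g • c = c → g ∈ M := fun g hg h => (hMmem g hg).mpr (hUM h)
  let B0 : Finset X := B.filter fun b => ∃ m ∈ M, m • c = b
  have hB0 : ∀ b, b ∈ B0 ↔ ∃ m ∈ M, m • c = b := fun b => by
    simp only [B0, Finset.mem_filter]
    exact ⟨fun h => h.2, fun ⟨m, hm, h⟩ => ⟨(hB _).mpr ⟨m, hME hm, h⟩, m, hm, h⟩⟩
  have hB0inv : ∀ m ∈ M, ∀ b ∈ B0, m • b ∈ B0 := fun m hm b hb => by
    obtain ⟨m', hm', rfl⟩ := (hB0 b).mp hb
    exact (hB0 _).mpr ⟨m * m', M.mul_mem hm hm', mul_smul _ _ _⟩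
  have hdisj : Disjoint B0 (B0.image ((e : G) • ·)) := by
    rw [Finset.disjoint_left]
    intro b hb hb'
    obtain ⟨m, hm, rfl⟩ := (hB0 _).mp hb
    obtain ⟨b', hb', hbe⟩ := Finset.mem_image.mp hb'
    obtain ⟨m', hm', rfl⟩ := (hB0 _).mp hb'
    have hu : m⁻¹ * ((e : G) * m') ∈ M := hstab _ (E.mul_mem (E.inv_mem (hME hm)) (E.mul_mem e.2 (hME hm'))) (by
      rw [mul_smul, mul_smul, hbe, inv_smul_smul])
    exact heM (by simpa using M.mul_mem (M.mul_mem hm hu) (M.inv_mem hm'))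
  have hunion : B = B0 ∪ B0.image ((e : G) • ·) := by
    ext b
    rw [Finset.mem_union]
    constructor
    · intro hb
      obtain ⟨f, hf, rfl⟩ := (hB b).mp hb
      rcases hdich _ (E.mul_mem (E.inv_mem e.2) hf) with h | h
      · exact Or.inr (Finset.mem_image.mpr ⟨_, (hB0 _).mpr ⟨_, h, rfl⟩, by rw [← mul_smul, mul_inv_cancel_left]⟩)
      · exact Or.inl ((hB0 _).mpr ⟨_, h, by rw [mul_inv_cancel_left]⟩)
    · rintro (h | h)
      · exact (Finset.mem_filter.mp h).1
      · obtain ⟨b', hb', rfl⟩ := Finset.mem_image.mp h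
        obtain ⟨m, hm, rfl⟩ := (hB0 _).mp hb'
        exact (hB _).mpr ⟨e * m, E.mul_mem e.2 (hME hm), mul_smul _ _ _⟩
  have hsplit : ∀ f : X → A, ∏ b ∈ B, f b = (∏ b ∈ B0, f b) * ∏ b ∈ B0, f ((e : G) • b) := fun f => by
    rw [hunion, Finset.prod_union hdisj, Finset.prod_image (fun a _ b _ h => MulAction.injective (e : G) h)]
  have hφmul : ∀ g, ∀ m ∈ M, ∏ b ∈ B0, a (g * m) b = (∏ b ∈ B0, a g b) * ∏ b ∈ B0, a m b :=
    fun g m hm => TransferSq.prod_mul ha (hB0inv m hm)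
  obtain ⟨u, hu, v, hv, huv⟩ := comm_of_index_two hE hME ⟨e, e.2, heM, hdich⟩ hcard
  have hzM : z ∈ M := by
    rw [show z = (v * u)⁻¹ * (u * v) by rw [huv]; group]
    exact M.mul_mem (M.inv_mem (M.mul_mem hv hu)) (M.mul_mem hu hv)
  have hφz : ∏ b ∈ B0, a z b = 1 := by
    have h1 : ∏ b ∈ B0, a (u * v) b = ∏ b ∈ B0, a (v * u * z) b := by rw [huv]
    rw [hφmul u v hv, hφmul (v * u) z hzM, hφmul v u hu, mul_comm (∏ b ∈ B0, a v b)] at h1
    exact mul_eq_left.mp h1.symm
  have hφsq : ∀ f ∈ E, ∏ b ∈ B0, a (f * f) b = 1 := fun f hf => by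
    rcases hE.sq_mem hf with h | h <;> rw [h]
    · exact Finset.prod_eq_one fun b _ => TransferSq.map_one' ha b
    · exact hφz
  have hM : ∀ m ∈ M, ∏ b ∈ B, a m b = 1 := by
    intro m hm
    obtain ⟨m', hm'⟩ : ∃ m', m' = (e : G)⁻¹ * m * e := ⟨_, rfl⟩
    have hcases : m' = m ∨ m' = m * z := by
      rcases hE.conj_cases (E.inv_mem e.2) (hME hm) with h | h <;> rw [inv_inv, ← hm'] at h
      exacts [Or.inl h, Or.inr h]
    have hm'M : m' ∈ M := by
      rcases hcases with h | h <;> rw [h]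
      exacts [hm, M.mul_mem hm hzM]
    have key : ∏ b ∈ B0, a m ((e : G) • b) = ∏ b ∈ B0, a m' b := by
      have h1 : ∀ b, a m ((e : G) • b) = a e (m' • b) * a m' b * (a e b)⁻¹ := fun b => by
        have h2 := ha m e b
        rw [show m * (e : G) = e * m' by rw [hm']; group, ha e m' b] at h2
        rw [h2, mul_inv_cancel_right]
      simp only [h1]
      rw [Finset.prod_mul_distrib, Finset.prod_mul_distrib, TransferSq.prod_reindex (hB0inv m' hm'M) (fun b => a e b),
        Finset.prod_inv_distrib, mul_comm (∏ b ∈ B0, a e b), mul_inv_cancel_right]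
    rw [hsplit, key]
    rcases hcases with h | h <;> rw [h]
    · rw [← pow_two, hA]
    · rw [hφmul m z hzM, hφz, mul_one, ← pow_two, hA]
  rcases hdich r hr with h | h
  · exact hM r h
  · have he1 : ∏ b ∈ B, a (e : G) b = 1 := by
      rw [hsplit, ← Finset.prod_mul_distrib, ← hφsq e e.2]
      exact Finset.prod_congr rfl fun b _ => by rw [ha, mul_comm]
    have h2 := hM _ h
    rwa [TransferSq.prod_mul ha (fun b hb => by
      obtain ⟨f, hf, rfl⟩ := (hB b).mp hb
      exact (hB _).mpr ⟨r * f, E.mul_mem hr hf, mul_smul _ _ _⟩), he1, one_mul] at h2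

theorem set_trivial {G X A : Type*} [Group G] [Finite G] [MulAction G X] [CommGroup A] [DecidableEq X]
    {a : G → X → A} (ha : ∀ g h c, a (g * h) c = a g (h • c) * a h c) (hA : ∀ u : A, u ^ 2 = 1)
    {z : G} {E : Subgroup G} (hE : IsExt z E) (hp : IsPGroup 2 E) (hcard : 8 < Nat.card E) {r : G} (hr : r ∈ E) :
    ∀ S : Finset X, (∀ e ∈ E, ∀ b ∈ S, e • b ∈ S) → (∀ b ∈ S, ∃ e ∈ E, e • b ≠ b) → ∏ b ∈ S, a r b = 1 := by
  classical
  intro S
  induction S using Finset.strongInduction with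
  | H S ih =>
    intro hSE hSm
    rcases S.eq_empty_or_nonempty with rfl | ⟨c, hc⟩
    · exact Finset.prod_empty
    let B : Finset X := S.filter fun b => ∃ e ∈ E, e • c = b
    have hB : ∀ b, b ∈ B ↔ ∃ e ∈ E, e • c = b := fun b => by
      simp only [B, Finset.mem_filter]
      exact ⟨fun h => h.2, fun ⟨e, he, h⟩ => ⟨h ▸ hSE e he c hc, e, he, h⟩⟩
    have hBS : B ⊆ S := Finset.filter_subset _ _
    rw [← Finset.prod_sdiff hBS, block_trivial ha hA hE hp hcard (hSm c hc) hB hr, mul_one]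
    refine ih _ (Finset.sdiff_ssubset hBS ⟨c, (hB c).mpr ⟨1, E.one_mem, one_smul _ _⟩⟩) (fun e he b hb => ?_)
      (fun b hb => hSm b (Finset.mem_sdiff.mp hb).1)
    rw [Finset.mem_sdiff] at hb ⊢
    refine ⟨hSE e he b hb.1, fun h => hb.2 ?_⟩
    obtain ⟨f, hf, hfe⟩ := (hB _).mp h
    exact (hB b).mpr ⟨e⁻¹ * f, E.mul_mem (E.inv_mem he) hf, by rw [mul_smul, hfe, inv_smul_smul]⟩



/-- Let G be a finite group with no nontrivial 2-group quotient (O^2(G) = G), z an involution of G with H = C_G(z), and suppose E = O_2(H) is extraspecial with C_G(E) ≤ E and of order 2^(2n+1) with n ≥ 2. Then E is contained in every normal subgroup of H of index 2. -/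
theorem result {G : Type*} [Group G] [Finite G] (hres : Cfsg.pResidual 2 G = ⊤) (z : G) (hz : orderOf z = 2)
    (E : Subgroup G) (hE : E = (Cfsg.pCore 2 ↥(Subgroup.centralizer ({z} : Set G))).map (Subgroup.centralizer ({z} : Set G)).subtype)
    (hext : Cfsg.IsExtraspecial 2 ↥E) (hcent : Subgroup.centralizer (E : Set G) ≤ E) (n : ℕ) (hn : 2 ≤ n) (hcard : Nat.card ↥E = 2 ^ (2 * n + 1))
    (K : Subgroup G) (hKH : K ≤ Subgroup.centralizer ({z} : Set G))
    (hKn : ∀ h ∈ Subgroup.centralizer ({z} : Set G), K.map (MulAut.conj h).toMonoidHom = K)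
    (hKi : K.relIndex (Subgroup.centralizer ({z} : Set G)) = 2) : E ≤ K := by
  classical
  haveI : Fact (Nat.Prime 2) := ⟨Nat.prime_two⟩
  haveI := Fintype.ofFinite G
  let H := Subgroup.centralizer ({z} : Set G)
  obtain ⟨z', hE'⟩ := isExt_of_extraspecial hext
  have hEH : E ≤ H := hE ▸ Subgroup.map_subtype_le _
  have hzE : z ∈ E := hcent fun q hq => Subgroup.mem_centralizer_singleton_iff.mp (hEH hq)
  have hzz' : z = z' := (hE'.center z hzE fun q hq => Subgroup.mem_centralizer_singleton_iff.mp (hEH hq)).resolve_left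
    (fun e => by rw [e, orderOf_one] at hz; omega)
  subst hzz'
  have hEn : ∀ h ∈ H, ∀ e ∈ E, h * e * h⁻¹ ∈ E := by
    intro h hh e he
    rw [hE] at he ⊢
    obtain ⟨e', he', rfl⟩ := he
    haveI := CfsgLib.Core.pCore_characteristic (G := ↥H) 2
    exact ⟨⟨h, hh⟩ * e' * ⟨h, hh⟩⁻¹, Subgroup.Normal.conj_mem inferInstance e' he' _, rfl⟩
  have hEp : IsPGroup 2 E := hE ▸ (CfsgLib.Core.isPGroup_pCore 2).map _
  have hsub : E.subgroupOf H = Cfsg.pCore 2 ↥H := by
    rw [hE]
    exact Subgroup.comap_map_eq_self_of_injective H.subtype_injective _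
  have hcardE : 8 < Nat.card E := by
    rw [hcard]
    have := Nat.pow_le_pow_right (show 2 ≥ 1 by norm_num) (show 2 * n + 1 ≥ 5 by omega)
    omega
  haveI hKn' : (K.subgroupOf H).Normal := ⟨fun x hx h => by
    rw [Subgroup.mem_subgroupOf] at hx ⊢
    rw [← hKn h h.2]
    exact ⟨x, hx, rfl⟩⟩
  have hidx : (K.subgroupOf H).index = 2 := hKi
  have hq2 : ∀ u : H ⧸ K.subgroupOf H, u ^ 2 = 1 := fun u => by
    rw [← hidx, Subgroup.index_eq_card]
    exact pow_card_eq_one'
  letI : CommGroup (H ⧸ K.subgroupOf H) :=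
    { (inferInstance : Group (H ⧸ K.subgroupOf H)) with
      mul_comm := fun u v => by
        have h1 := hq2 (u * v)
        rw [pow_two] at h1
        have hu := inv_eq_of_mul_eq_one_right (by rw [← pow_two]; exact hq2 u : u * u = 1)
        have hv := inv_eq_of_mul_eq_one_right (by rw [← pow_two]; exact hq2 v : v * v = 1)
        rw [← inv_eq_of_mul_eq_one_right h1, mul_inv_rev, hu, hv] }
  let Θ : H →* H ⧸ K.subgroupOf H := QuotientGroup.mk' _
  let c₀ : G ⧸ H := ((1 : G) : G ⧸ H)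
  have hmem : ∀ (g : G) (c : G ⧸ H), (g • c).out⁻¹ * (g * c.out) ∈ H := fun g c => by
    rw [← QuotientGroup.eq, QuotientGroup.out_eq']
    exact (congrArg (g • ·) (QuotientGroup.out_eq' c)).symm
  let a : G → G ⧸ H → (H ⧸ K.subgroupOf H) := fun g c => Θ ⟨_, hmem g c⟩
  have ha : ∀ g h c, a (g * h) c = a g (h • c) * a h c := fun g h c => by
    simp only [a, ← map_mul]
    congr 1
    apply Subtype.ext
    show ((g * h) • c).out⁻¹ * (g * h * c.out) = ((g • (h • c)).out⁻¹ * (g * (h • c).out)) * ((h • c).out⁻¹ * (h * c.out))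
    rw [← mul_smul]
    group
  let V : G →* H ⧸ K.subgroupOf H :=
    { toFun := fun g => ∏ c, a g c
      map_one' := Finset.prod_eq_one fun c _ => TransferSq.map_one' ha c
      map_mul' := fun g h => TransferSq.prod_mul ha (fun b _ => Finset.mem_univ _) }
  have hV : ∀ g, V g = 1 := by
    intro g
    have hg : g ∈ Cfsg.pResidual 2 G := hres ▸ Subgroup.mem_top g
    induction hg using Subgroup.closure_induction with
    | mem x hx =>
      have h1 : orderOf (V x) ∣ 2 := orderOf_dvd_of_pow_eq_one (hq2 _)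
      have h2 : orderOf (V x) ∣ orderOf x := orderOf_map_dvd V x
      exact orderOf_eq_one_iff.mp (Nat.eq_one_of_dvd_coprimes (hx : Nat.Coprime (orderOf x) 2) h2 h1)
    | one => exact map_one V
    | mul x y _ _ hx hy => rw [map_mul, hx, hy, one_mul]
    | inv x _ hx => rw [map_inv, hx, inv_one]
  have hfix : ∀ h ∈ H, h • c₀ = c₀ := fun h hh => by
    rw [MulAction.Quotient.smul_coe, QuotientGroup.eq]
    simpa using hh
  have hmove : ∀ c : G ⧸ H, c ≠ c₀ → ∃ e ∈ E, e • c ≠ c := by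
    intro c hc
    by_contra hcon
    push Not at hcon
    refine hc ?_
    obtain ⟨g, rfl⟩ := QuotientGroup.mk_surjective c
    have h1 : g * z * g⁻¹ ∈ Subgroup.centralizer (E : Set G) := fun e he => by
      have h2 := hcon e he
      rw [MulAction.Quotient.smul_coe, QuotientGroup.eq] at h2
      have h3 := Subgroup.mem_centralizer_singleton_iff.mp h2
      rw [smul_eq_mul, mul_inv_rev] at h3
      have h4 : Commute (g⁻¹ * e⁻¹ * g) z := h3
      have h5 := (h4.inv_left).eq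
      calc e * (g * z * g⁻¹) = g * ((g⁻¹ * e⁻¹ * g)⁻¹ * z) * g⁻¹ := by group
        _ = g * (z * (g⁻¹ * e⁻¹ * g)⁻¹) * g⁻¹ := by rw [h5]
        _ = g * z * g⁻¹ * e := by group
    have h6 : g * z * g⁻¹ = z := by
      refine (hE'.center _ (hcent h1) fun e he => h1 e he).resolve_left fun e => hE'.ne_one (conj_eq_one_iff.mp e)
    rw [QuotientGroup.eq, mul_one, inv_mem_iff, Subgroup.mem_centralizer_singleton_iff]
    exact mul_inv_eq_iff_eq_mul.mp h6
  have hfix : ∀ h ∈ H, h • c₀ = c₀ := fun h hh => by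
    rw [MulAction.Quotient.smul_coe, QuotientGroup.eq]
    simpa using hh
  intro e he
  have h1 := set_trivial ha hq2 hE' hEp hcardE he ((Finset.univ).erase c₀)
    (fun f hf b hb => Finset.mem_erase.mpr ⟨fun e' => (Finset.mem_erase.mp hb).1
      (MulAction.injective f (e'.trans (hfix _ (hEH hf)).symm)), Finset.mem_univ _⟩)
    (fun b hb => hmove b (Finset.mem_erase.mp hb).1)
  have h2 : V e = a e c₀ * ∏ b ∈ Finset.univ.erase c₀, a e b :=
    (Finset.mul_prod_erase _ _ (Finset.mem_univ c₀)).symm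
  have h3 := hV e
  rw [h2, h1, mul_one] at h3
  have hc₀ : c₀.out ∈ H := by
    have h4 := QuotientGroup.eq.mp (QuotientGroup.out_eq' c₀)
    simpa using h4
  have h5 : (⟨_, hmem e c₀⟩ : H) = (⟨c₀.out, hc₀⟩ : H)⁻¹ * ⟨e, hEH he⟩ * ⟨c₀.out, hc₀⟩ := by
    apply Subtype.ext
    simp only [Subgroup.coe_mul, Subgroup.coe_inv, hfix _ (hEH he)]
    group
  change Θ _ = 1 at h3
  rw [h5, map_mul, map_mul, map_inv, mul_comm (Θ _)⁻¹, mul_assoc, inv_mul_cancel, mul_one] at h3
  exact (QuotientGroup.eq_one_iff (N := K.subgroupOf H) (⟨e, hEH he⟩ : H)).mp h3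

end Cfsg.Agent.S3299
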