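import Cfsg.Statements.S3300
import Mathlib
import Cfsg.Agent.Lib.Extra2.TransferSq
import Cfsg.Agent.Lib.Extra2.Core
import Cfsg.Agent.Lib.Core

set_option autoImplicit false
open Cfsg

set_option maxHeartbeats 1000000

namespace Cfsg.Agent.S3300

open CfsgLib.Extra2

theorem nonab_of_quarter {G : Type*} [Group G] [Finite G] {z : G} {E S : Subgroup G} (hE : IsExt z E) (hS : S ≤ E)
    (hcard : 32 < Nat.card E) (h4 : Nat.card E ≤ 4 * Nat.card S) : ∃ u ∈ S, ∃ v ∈ S, u * v = v * u * z := by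
  by_contra hcon
  push Not at hcon
  have hSC : S ≤ E ⊓ Subgroup.centralizer (S : Set G) := fun u hu =>
    ⟨hS hu, fun v hv => ((hE.cases u (hS hu) v (hS hv)).resolve_right (hcon u hu v hv)).symm⟩
  have h1 := hE.card_mono (Nat.card E) S E le_rfl hS (by omega)
  have hCE : E ⊓ Subgroup.centralizer (E : Set G) ≤ Subgroup.zpowers z := by
    rintro c ⟨hc, hc'⟩
    rcases hE.center c hc (fun a ha => hc' a ha) with h | h
    · rw [h]; exact one_mem _
    · rw [h]; exact Subgroup.mem_zpowers z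
  have h2 := Subgroup.card_le_of_le hCE
  rw [Nat.card_zpowers, orderOf_eq_prime (by rw [pow_two]; exact hE.sq) hE.ne_one] at h2
  have h3 := Subgroup.card_le_of_le hSC
  have h5 : Nat.card S * Nat.card S ≤ 2 * Nat.card E := (Nat.mul_le_mul_right _ h3).trans (h1.trans (Nat.mul_le_mul_right _ h2))
  nlinarith

theorem block_trivial {G X A : Type*} [Group G] [Finite G] [MulAction G X] [CommGroup A] [DecidableEq X]
    {a : G → X → A} (ha : ∀ g h c, a (g * h) c = a g (h • c) * a h c) (hA : ∀ u : A, u ^ 2 = 1)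
    {z : G} {E : Subgroup G} (hconj : ∀ u ∈ E, ∀ v ∈ E, u * v * u⁻¹ = v ∨ u * v * u⁻¹ = v * z)
    (hsqz : ∀ u ∈ E, u * u = 1 ∨ u * u = z) (hp : IsPGroup 2 E)
    (hnonab : ∀ S : Subgroup G, S ≤ E → (∃ e ∈ E, e ∉ S ∧ ∀ r ∈ E, r ∈ S ∨ e * r ∈ S) → ∃ u ∈ S, ∃ v ∈ S, u * v = v * u * z)
    {c : X} (hmove : ∃ e ∈ E, e • c ≠ c) {B : Finset X} (hB : ∀ b, b ∈ B ↔ ∃ e ∈ E, e • c = b) {r : G} (hr : r ∈ E) :
    ∏ b ∈ B, a r b = 1 := by
  classical
  haveI : Fact (Nat.Prime 2) := ⟨Nat.prime_two⟩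
  obtain ⟨M', hM', hUM⟩ : ∃ M' : Subgroup E, IsCoatom M' ∧ (MulAction.stabilizer G c).subgroupOf E ≤ M' := by
    rcases IsCoatomic.eq_top_or_exists_le_coatom ((MulAction.stabilizer G c).subgroupOf E) with h | h
    · obtain ⟨e, he, hec⟩ := hmove
      exact absurd ((Subgroup.subgroupOf_eq_top.mp h) he) hec
    · exact h
  have hsq := (CfsgLib.Regular.coatom_facts hp hM').2
  haveI := hp.isNilpotent
  haveI : M'.Normal := Subgroup.NormalizerCondition.normal_of_coatom M' Group.normalizerCondition_of_isNilpotent hM'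
  obtain ⟨e, heM'⟩ : ∃ e : E, e ∉ M' := by
    by_contra h
    push Not at h
    exact hM'.1 (eq_top_iff.mpr fun g _ => h g)
  obtain ⟨M, hMdef⟩ : ∃ M : Subgroup G, M = M'.map E.subtype := ⟨_, rfl⟩
  have hMmem : ∀ (g : G) (hg : g ∈ E), g ∈ M ↔ (⟨g, hg⟩ : E) ∈ M' := fun g hg => by
    rw [hMdef]
    exact ⟨fun ⟨y, hy, hyg⟩ => (show y = ⟨g, hg⟩ from Subtype.ext hyg) ▸ hy, fun h => ⟨_, h, rfl⟩⟩
  have hME : M ≤ E := hMdef ▸ Subgroup.map_subtype_le _
  have heM : (e : G) ∉ M := fun h => heM' ((hMmem e e.2).mp h)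
  have hee : (e : G) * e ∈ M := (hMmem _ (E.mul_mem e.2 e.2)).mpr (by
    have := hsq e
    rw [pow_two] at this
    exact this)
  have hdich : ∀ g ∈ E, g ∈ M ∨ (e : G) * g ∈ M := by
    intro g hg
    by_contra hcon
    push Not at hcon
    have htop : M' ⊔ Subgroup.zpowers e = ⊤ := hM'.2 _ (lt_of_le_of_ne le_sup_left fun h =>
      heM' (h ▸ Subgroup.mem_sup_right (Subgroup.mem_zpowers _)))
    obtain ⟨m, hm, v, hv, hmv⟩ := Subgroup.mem_sup_of_normal_left.mp (htop ▸ Subgroup.mem_top (⟨g, hg⟩ : E))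
    obtain ⟨k, hk⟩ := mem_powers_iff_mem_zpowers.mpr hv
    dsimp only at hk
    subst hk
    rcases Nat.even_or_odd k with ⟨j, hj⟩ | ⟨j, hj⟩
    · refine hcon.1 ((hMmem g hg).mpr ?_)
      rw [← hmv, hj, ← two_mul, pow_mul]
      exact M'.mul_mem hm (M'.pow_mem (hsq e) j)
    · refine hcon.2 ((hMmem _ (E.mul_mem e.2 hg)).mpr ?_)
      rw [show (⟨(e : G) * g, E.mul_mem e.2 hg⟩ : E) = e * ⟨g, hg⟩ from rfl, ← hmv, hj,
        show e * (m * e ^ (2 * j + 1)) = (e * m * e⁻¹) * (e ^ 2) ^ (j + 1) by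
          rw [← pow_mul, mul_add, mul_one, show 2 * j + 2 = 1 + (2 * j + 1) by omega, pow_add, pow_one]
          group]
      exact M'.mul_mem (Subgroup.Normal.conj_mem ‹_› m hm e) (M'.pow_mem (hsq e) _)
  have hstab : ∀ g ∈ E, g • c = c → g ∈ M := fun g hg h => (hMmem g hg).mpr (hUM h)
  let B0 : Finset X := B.filter fun b => ∃ m ∈ M, m • c = b
  have hB0 : ∀ b, b ∈ B0 ↔ ∃ m ∈ M, m • c = b := fun b => by
    simp only [B0, Finset.mem_filter]
    exact ⟨fun h => h.2, fun ⟨m, hm, h⟩ => ⟨(hB _).mpr ⟨m, hME hm, h⟩, m, hm, h⟩⟩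
  have hB0inv : ∀ m ∈ M, ∀ b ∈ B0, m • b ∈ B0 := fun m hm b hb => by
    obtain ⟨m', hm', rfl⟩ := (hB0 b).mp hb
    exact (hB0 _).mpr ⟨m * m', M.mul_mem hm hm', mul_smul _ _ _⟩
  have hdisj : Disjoint B0 (B0.image ((e : G) • ·)) := by
    rw [Finset.disjoint_left]
    intro b hb hb'
    obtain ⟨m, hm, rfl⟩ := (hB0 _).mp hb
    obtain ⟨b', hb', hbe⟩ := Finset.mem_image.mp hb'
    obtain ⟨m', hm', rfl⟩ := (hB0 _).mp hb'
    have hu : m⁻¹ * ((e : G) * m') ∈ M := hstab _ (E.mul_mem (E.inv_mem (hME hm)) (E.mul_mem e.2 (hME hm'))) (by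
      rw [mul_smul, mul_smul, hbe, inv_smul_smul])
    exact heM (by simpa using M.mul_mem (M.mul_mem hm hu) (M.inv_mem hm'))
  have hunion : B = B0 ∪ B0.image ((e : G) • ·) := by
    ext b
    rw [Finset.mem_union]
    constructor
    · intro hb
      obtain ⟨f, hf, rfl⟩ := (hB b).mp hb
      rcases hdich _ (E.mul_mem (E.inv_mem e.2) hf) with h | h
      · exact Or.inr (Finset.mem_image.mpr ⟨_, (hB0 _).mpr ⟨_, h, rfl⟩, by rw [← mul_smul, mul_inv_cancel_left]⟩)
      · exact Or.inl ((hB0 _).mpr ⟨_, h, by rw [mul_inv_cancel_left]⟩)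
    · rintro (h | h)
      · exact (Finset.mem_filter.mp h).1
      · obtain ⟨b', hb', rfl⟩ := Finset.mem_image.mp h
        obtain ⟨m, hm, rfl⟩ := (hB0 _).mp hb'
        exact (hB _).mpr ⟨e * m, E.mul_mem e.2 (hME hm), mul_smul _ _ _⟩
  have hsplit : ∀ f : X → A, ∏ b ∈ B, f b = (∏ b ∈ B0, f b) * ∏ b ∈ B0, f ((e : G) • b) := fun f => by
    rw [hunion, Finset.prod_union hdisj, Finset.prod_image (fun a _ b _ h => MulAction.injective (e : G) h)]
  have hφmul : ∀ g, ∀ m ∈ M, ∏ b ∈ B0, a (g * m) b = (∏ b ∈ B0, a g b) * ∏ b ∈ B0, a m b :=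
    fun g m hm => TransferSq.prod_mul ha (hB0inv m hm)
  obtain ⟨u, hu, v, hv, huv⟩ := hnonab M hME ⟨e, e.2, heM, hdich⟩
  have hzM : z ∈ M := by
    rw [show z = (v * u)⁻¹ * (u * v) by rw [huv]; group]
    exact M.mul_mem (M.inv_mem (M.mul_mem hv hu)) (M.mul_mem hu hv)
  have hφz : ∏ b ∈ B0, a z b = 1 := by
    have h1 : ∏ b ∈ B0, a (u * v) b = ∏ b ∈ B0, a (v * u * z) b := by rw [huv]
    rw [hφmul u v hv, hφmul (v * u) z hzM, hφmul v u hu, mul_comm (∏ b ∈ B0, a v b)] at h1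
    exact mul_eq_left.mp h1.symm
  have hφsq : ∀ f ∈ E, ∏ b ∈ B0, a (f * f) b = 1 := fun f hf => by
    rcases hsqz f hf with h | h <;> rw [h]
    · exact Finset.prod_eq_one fun b _ => TransferSq.map_one' ha b
    · exact hφz
  have hM : ∀ m ∈ M, ∏ b ∈ B, a m b = 1 := by
    intro m hm
    obtain ⟨m', hm'⟩ : ∃ m', m' = (e : G)⁻¹ * m * e := ⟨_, rfl⟩
    have hcases : m' = m ∨ m' = m * z := by
      rcases hconj _ (E.inv_mem e.2) m (hME hm) with h | h <;> rw [inv_inv, ← hm'] at h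
      exacts [Or.inl h, Or.inr h]
    have hm'M : m' ∈ M := by
      rcases hcases with h | h <;> rw [h]
      exacts [hm, M.mul_mem hm hzM]
    have key : ∏ b ∈ B0, a m ((e : G) • b) = ∏ b ∈ B0, a m' b := by
      have h1 : ∀ b, a m ((e : G) • b) = a e (m' • b) * a m' b * (a e b)⁻¹ := fun b => by
        have h2 := ha m e b
        rw [show m * (e : G) = e * m' by rw [hm']; group, ha e m' b] at h2
        rw [h2, mul_inv_cancel_right]
      simp only [h1]
      rw [Finset.prod_mul_distrib, Finset.prod_mul_distrib, TransferSq.prod_reindex (hB0inv m' hm'M) (fun b => a e b),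
        Finset.prod_inv_distrib, mul_comm (∏ b ∈ B0, a e b), mul_inv_cancel_right]
    rw [hsplit, key]
    rcases hcases with h | h <;> rw [h]
    · rw [← pow_two, hA]
    · rw [hφmul m z hzM, hφz, mul_one, ← pow_two, hA]
  rcases hdich r hr with h | h
  · exact hM r h
  · have he1 : ∏ b ∈ B, a (e : G) b = 1 := by
      rw [hsplit, ← Finset.prod_mul_distrib, ← hφsq e e.2]
      exact Finset.prod_congr rfl fun b _ => by rw [ha, mul_comm]
    have h2 := hM _ h
    rwa [TransferSq.prod_mul ha (fun b hb => by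
      obtain ⟨f, hf, rfl⟩ := (hB b).mp hb
      exact (hB _).mpr ⟨r * f, E.mul_mem hr hf, mul_smul _ _ _⟩), he1, one_mul] at h2

/-- The contribution of one orbit of `E`. -/
theorem block2 {G X A : Type*} [Group G] [Finite G] [MulAction G X] [CommGroup A] [DecidableEq X]
    {a : G → X → A} (ha : ∀ g h c, a (g * h) c = a g (h • c) * a h c) (hA : ∀ u : A, u ^ 2 = 1)
    {z : G} {E T : Subgroup G} (hE : IsExt z E) (hcard : 32 < Nat.card E)
    (hT : IsPGroup 2 T) (hET : E ≤ T) (hnorm : ∀ t ∈ T, ∀ e ∈ E, t * e * t⁻¹ ∈ E)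
    {c : X} (hdeep : ∀ e ∈ E, ∃ l ∈ E, l • c ≠ c ∧ (e * l) • c ≠ c) {B : Finset X}
    (hB : ∀ b, b ∈ B ↔ ∃ e ∈ E, e • c = b) {r : G} (hr : r ∈ T) (hrc : r • c ∈ B) :
    ∏ b ∈ B, a r b = 1 := by
  classical
  haveI : Fact (Nat.Prime 2) := ⟨Nat.prime_two⟩
  have hmove : ∃ e ∈ E, e • c ≠ c := by
    obtain ⟨l, hl, h, -⟩ := hdeep 1 E.one_mem
    exact ⟨l, hl, h⟩
  let R : Subgroup G :=
    { carrier := {g | g ∈ T ∧ ∃ e ∈ E, g • c = e • c}
      one_mem' := ⟨T.one_mem, 1, E.one_mem, rfl⟩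
      mul_mem' := fun {g h} hg hh => by
        obtain ⟨hgT, e, he, hge⟩ := hg
        obtain ⟨hhT, f, hf, hhf⟩ := hh
        refine ⟨T.mul_mem hgT hhT, g * f * g⁻¹ * e, E.mul_mem (hnorm g hgT f hf) he, ?_⟩
        rw [mul_smul, hhf, mul_smul (g * f * g⁻¹), ← hge, ← mul_smul, ← mul_smul, inv_mul_cancel_right]
      inv_mem' := fun {g} hg => by
        obtain ⟨hgT, e, he, hge⟩ := hg
        refine ⟨T.inv_mem hgT, (g⁻¹ * e * g⁻¹⁻¹)⁻¹, E.inv_mem (hnorm _ (T.inv_mem hgT) e he), ?_⟩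
        rw [eq_inv_smul_iff, ← mul_smul, inv_mul_cancel_right, mul_smul, ← hge, inv_smul_smul] }
  have hER : E ≤ R := fun e he => ⟨hET he, e, he, rfl⟩
  have hrR : r ∈ R := by
    obtain ⟨e, he, hec⟩ := (hB _).mp hrc
    exact ⟨hr, e, he, hec.symm⟩
  have hRp : IsPGroup 2 R := hT.to_le (fun g hg => hg.1)
  obtain ⟨M', hM', hUM⟩ : ∃ M' : Subgroup R, IsCoatom M' ∧ (MulAction.stabilizer G c).subgroupOf R ≤ M' := by
    rcases IsCoatomic.eq_top_or_exists_le_coatom ((MulAction.stabilizer G c).subgroupOf R) with h | h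
    · obtain ⟨e, he, hec⟩ := hmove
      exact absurd ((Subgroup.subgroupOf_eq_top.mp h) (hER he)) hec
    · exact h
  haveI := hRp.isNilpotent
  haveI hM'n : M'.Normal := Subgroup.NormalizerCondition.normal_of_coatom M' Group.normalizerCondition_of_isNilpotent hM'
  have hsq := (CfsgLib.Regular.coatom_facts hRp hM').2
  obtain ⟨M, hMdef⟩ : ∃ M : Subgroup G, M = M'.map R.subtype := ⟨_, rfl⟩
  have hMmem : ∀ (g : G) (hg : g ∈ R), g ∈ M ↔ (⟨g, hg⟩ : R) ∈ M' := fun g hg => by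
    rw [hMdef]
    exact ⟨fun ⟨y, hy, hyg⟩ => (show y = ⟨g, hg⟩ from Subtype.ext hyg) ▸ hy, fun h => ⟨_, h, rfl⟩⟩
  have hMR : M ≤ R := hMdef ▸ Subgroup.map_subtype_le _
  have hstab : ∀ g ∈ R, g • c = c → g ∈ M := fun g hg h => (hMmem g hg).mpr (hUM h)
  have hMn : ∀ g ∈ R, ∀ m ∈ M, g * m * g⁻¹ ∈ M := fun g hg m hm =>
    (hMmem _ (R.mul_mem (R.mul_mem hg (hMR hm)) (R.inv_mem hg))).mpr (hM'n.conj_mem _ ((hMmem m (hMR hm)).mp hm) ⟨g, hg⟩)
  obtain ⟨e, he, heM⟩ : ∃ e ∈ E, e ∉ M := by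
    by_contra hcon
    push Not at hcon
    refine hM'.1 (eq_top_iff.mpr fun g _ => ?_)
    obtain ⟨-, f, hf, hgf⟩ := g.2
    have h1 : f⁻¹ * (g : G) ∈ M := hstab _ (R.mul_mem (R.inv_mem (hER hf)) g.2) (by rw [mul_smul, hgf, inv_smul_smul])
    have h2 : (g : G) ∈ M := by simpa using M.mul_mem (hcon f hf) h1
    exact (hMmem g g.2).mp h2
  have hee : e * e ∈ M := (hMmem _ (R.mul_mem (hER he) (hER he))).mpr (by
    have := hsq ⟨e, hER he⟩
    rwa [pow_two] at this)
  have hdich : ∀ g ∈ R, g ∈ M ∨ e * g ∈ M := by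
    intro g hg
    have htop : M' ⊔ Subgroup.zpowers (⟨e, hER he⟩ : R) = ⊤ := hM'.2 _ (lt_of_le_of_ne le_sup_left fun h => heM
      ((hMmem e (hER he)).mpr (h ▸ Subgroup.mem_sup_right (Subgroup.mem_zpowers _))))
    obtain ⟨m, hm, v, hv, hmv⟩ := Subgroup.mem_sup_of_normal_left.mp (htop ▸ Subgroup.mem_top (⟨g, hg⟩ : R))
    obtain ⟨k, hk⟩ := mem_powers_iff_mem_zpowers.mpr hv
    dsimp only at hk
    subst hk
    have hgG : g = (m : G) * e ^ k := by simpa using (congrArg Subtype.val hmv).symm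
    have hmM : (m : G) ∈ M := (hMmem m m.2).mpr hm
    rcases Nat.even_or_odd k with ⟨j, hj⟩ | ⟨j, hj⟩
    · left
      rw [hgG, hj, ← two_mul, pow_mul, pow_two]
      exact M.mul_mem hmM (M.pow_mem hee j)
    · right
      rw [hgG, hj, show e * ((m : G) * e ^ (2 * j + 1)) = (e * m * e⁻¹) * (e * e) ^ (j + 1) by
        rw [← pow_two, ← pow_mul, mul_add, mul_one, show 2 * j + 2 = 1 + (2 * j + 1) by omega, pow_add, pow_one]
        group]
      exact M.mul_mem (hMn e (hER he) m hmM) (M.pow_mem hee _)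
  let B0 : Finset X := B.filter fun b => ∃ m ∈ M, m • c = b
  have hRB : ∀ g ∈ R, g • c ∈ B := fun g hg => by
    obtain ⟨-, f, hf, h⟩ := hg
    exact (hB _).mpr ⟨f, hf, h.symm⟩
  have hB0 : ∀ b, b ∈ B0 ↔ ∃ m ∈ M, m • c = b := fun b => by
    simp only [B0, Finset.mem_filter]
    exact ⟨fun h => h.2, fun ⟨m, hm, h⟩ => ⟨h ▸ hRB m (hMR hm), m, hm, h⟩⟩
  have hB0inv : ∀ m ∈ M, ∀ b ∈ B0, m • b ∈ B0 := fun m hm b hb => by
    obtain ⟨m', hm', rfl⟩ := (hB0 b).mp hb
    exact (hB0 _).mpr ⟨m * m', M.mul_mem hm hm', mul_smul _ _ _⟩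
  have hdisj : Disjoint B0 (B0.image (e • ·)) := by
    rw [Finset.disjoint_left]
    intro b hb hb'
    obtain ⟨m, hm, rfl⟩ := (hB0 _).mp hb
    obtain ⟨b', hb', hbe⟩ := Finset.mem_image.mp hb'
    obtain ⟨m', hm', rfl⟩ := (hB0 _).mp hb'
    have hu : m⁻¹ * (e * m') ∈ M := hstab _ (R.mul_mem (R.inv_mem (hMR hm)) (R.mul_mem (hER he) (hMR hm'))) (by
      rw [mul_smul, mul_smul, hbe, inv_smul_smul])
    exact heM (by simpa using M.mul_mem (M.mul_mem hm hu) (M.inv_mem hm'))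
  have hunion : B = B0 ∪ B0.image (e • ·) := by
    ext b
    rw [Finset.mem_union]
    constructor
    · intro hb
      obtain ⟨f, hf, rfl⟩ := (hB b).mp hb
      rcases hdich _ (R.mul_mem (R.inv_mem (hER he)) (hER hf)) with h | h
      · exact Or.inr (Finset.mem_image.mpr ⟨_, (hB0 _).mpr ⟨_, h, rfl⟩, by rw [← mul_smul, mul_inv_cancel_left]⟩)
      · exact Or.inl ((hB0 _).mpr ⟨_, h, by rw [mul_inv_cancel_left]⟩)
    · rintro (h | h)
      · exact (Finset.mem_filter.mp h).1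
      · obtain ⟨b', hb', rfl⟩ := Finset.mem_image.mp h
        obtain ⟨m, hm, rfl⟩ := (hB0 _).mp hb'
        rw [← mul_smul]
        exact hRB _ (R.mul_mem (hER he) (hMR hm))
  have hsplit : ∀ f : X → A, ∏ b ∈ B, f b = (∏ b ∈ B0, f b) * ∏ b ∈ B0, f (e • b) := fun f => by
    rw [hunion, Finset.prod_union hdisj, Finset.prod_image (fun a _ b _ h => MulAction.injective e h)]
  have hφmul : ∀ g, ∀ m ∈ M, ∏ b ∈ B0, a (g * m) b = (∏ b ∈ B0, a g b) * ∏ b ∈ B0, a m b :=
    fun g m hm => TransferSq.prod_mul ha (hB0inv m hm)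
  -- `E ⊓ M` is killed
  obtain ⟨L, hL⟩ : ∃ L : Subgroup G, L = E ⊓ M := ⟨_, rfl⟩
  have hLdich : ∀ f ∈ E, f ∈ L ∨ e * f ∈ L := fun f hf => by
    rw [hL]
    rcases hdich f (hER hf) with h | h
    exacts [Or.inl ⟨hf, h⟩, Or.inr ⟨E.mul_mem he hf, h⟩]
  have hLE : L ≤ E := hL ▸ inf_le_left
  have hLcard : Nat.card E ≤ 2 * Nat.card L := card_le_two_mul fun u hu v hv hu' hv' => by
    have h3 := (hLdich u hu).resolve_left hu'
    have h4 := (hLdich v hv).resolve_left hv'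
    have h5 := L.mul_mem (L.inv_mem h3) h4
    rwa [mul_inv_rev, mul_assoc, inv_mul_cancel_left] at h5
  have hB0L : ∀ b, b ∈ B0 ↔ ∃ l ∈ L, l • c = b := fun b => by
    rw [hB0]
    constructor
    · rintro ⟨m, hm, rfl⟩
      obtain ⟨-, f, hf, hfc⟩ := hMR hm
      have h1 : f⁻¹ * m ∈ M := hstab _ (R.mul_mem (R.inv_mem (hER hf)) (hMR hm)) (by rw [mul_smul, hfc, inv_smul_smul])
      refine ⟨f, hL ▸ ⟨hf, ?_⟩, hfc.symm⟩
      have h2 := M.mul_mem hm (M.inv_mem h1)
      simpa using h2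
    · rintro ⟨l, hl, rfl⟩
      rw [hL] at hl
      exact ⟨l, hl.2, rfl⟩
  have hLmove : ∃ l ∈ L, l • c ≠ c := by
    by_contra hcon
    push Not at hcon
    obtain ⟨l, hl, hl1, hl2⟩ := hdeep e he
    rcases hLdich l hl with h | h
    · exact hl1 (hcon l h)
    · exact hl2 (hcon _ h)
  have hφL : ∀ f ∈ L, ∏ b ∈ B0, a f b = 1 := fun f hf =>
    block_trivial ha hA (fun u hu v hv => hE.conj_cases (hLE hu) (hLE hv)) (fun u hu => hE.sq_mem (hLE hu))
      (hT.to_le (hLE.trans hET))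
      (fun S hS ⟨e', he', _, hd⟩ => nonab_of_quarter hE (hS.trans hLE) hcard (hLcard.trans (by
        have : Nat.card L ≤ 2 * Nat.card S := card_le_two_mul fun u hu v hv hu' hv' => by
          have h3 := (hd u hu).resolve_left hu'
          have h4 := (hd v hv).resolve_left hv'
          have h5 := S.mul_mem (S.inv_mem h3) h4
          rwa [mul_inv_rev, mul_assoc, inv_mul_cancel_left] at h5
        omega)))
      hLmove hB0L hf
  have hM2 : ∀ m ∈ M, ∏ b ∈ B, a m b = 1 := by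
    intro m hm
    obtain ⟨m', hm'⟩ : ∃ m', m' = e⁻¹ * m * e := ⟨_, rfl⟩
    have hm'M : m' ∈ M := by
      have := hMn e⁻¹ (R.inv_mem (hER he)) m hm
      rwa [inv_inv, ← hm'] at this
    have key : ∏ b ∈ B0, a m (e • b) = ∏ b ∈ B0, a m' b := by
      have h1 : ∀ b, a m (e • b) = a e (m' • b) * a m' b * (a e b)⁻¹ := fun b => by
        have h2 := ha m e b
        rw [show m * e = e * m' by rw [hm']; group, ha e m' b] at h2
        rw [h2, mul_inv_cancel_right]
      simp only [h1]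
      rw [Finset.prod_mul_distrib, Finset.prod_mul_distrib, TransferSq.prod_reindex (hB0inv m' hm'M) (fun b => a e b),
        Finset.prod_inv_distrib, mul_comm (∏ b ∈ B0, a e b), mul_inv_cancel_right]
    have hk : m⁻¹ * m' ∈ E := by
      have h1 := hnorm m⁻¹ (T.inv_mem (hMR hm).1) e⁻¹ (E.inv_mem he)
      rw [inv_inv] at h1
      rw [hm', show m⁻¹ * (e⁻¹ * m * e) = (m⁻¹ * e⁻¹ * m) * e by group]
      exact E.mul_mem h1 he
    have hkM : m⁻¹ * m' ∈ M := M.mul_mem (M.inv_mem hm) hm'M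
    rw [hsplit, key, show m' = m * (m⁻¹ * m') by group, hφmul m _ hkM, hφL (m⁻¹ * m') (by rw [hL]; exact Subgroup.mem_inf.mpr ⟨hk, hkM⟩), mul_one, ← pow_two, hA]
  rcases hdich r hrR with h | h
  · exact hM2 r h
  · have he1 : ∏ b ∈ B, a e b = 1 := by
      have he2 : ∏ b ∈ B, a e b = ∏ b ∈ B0, a (e * e) b := by
        rw [hsplit, ← Finset.prod_mul_distrib]
        exact Finset.prod_congr rfl fun b _ => by rw [ha, mul_comm]
      rw [he2, hφL (e * e) (by rw [hL]; exact ⟨E.mul_mem he he, hee⟩)]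
    have hBinv : ∀ b ∈ B, r • b ∈ B := fun b hb => by
      obtain ⟨f, hf, rfl⟩ := (hB b).mp hb
      rw [← mul_smul]
      exact hRB _ (R.mul_mem hrR (hER hf))
    have h2 := hM2 _ h
    rwa [TransferSq.prod_mul ha hBinv, he1, one_mul] at h2

theorem prod_pow_smul2 {G X A : Type*} [Group G] [MulAction G X] [CommGroup A]
    {a : G → X → A} (ha : ∀ g h c, a (g * h) c = a g (h • c) * a h c) (g : G) (b : X) (m : ℕ) :
    ∏ j ∈ Finset.range m, a g (g ^ j • b) = a (g ^ m) b := by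
  induction m with
  | zero => rw [Finset.prod_range_zero, pow_zero, TransferSq.map_one' ha]
  | succ m ih => rw [Finset.prod_range_succ, ih, pow_succ', ha, mul_comm]

/-- An invariant set on which `E` fixes no point contributes an element of order at most two. -/
theorem invariant_set2 {G X A : Type*} [Group G] [Finite G] [MulAction G X] [CommGroup A] [DecidableEq X]
    {a : G → X → A} (ha : ∀ g h c, a (g * h) c = a g (h • c) * a h c) (hA : ∀ u : A, u ^ 2 = 1)
    {z : G} {E T : Subgroup G} (hE : IsExt z E) (hcard : 32 < Nat.card E)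
    (hT : IsPGroup 2 T) (hET : E ≤ T) (hnorm : ∀ t ∈ T, ∀ e ∈ E, t * e * t⁻¹ ∈ E)
    {t : G} (ht : t ∈ T) : ∀ S : Finset X, (∀ b ∈ S, t • b ∈ S) →
    (∀ e ∈ E, ∀ b ∈ S, e • b ∈ S) → (∀ b ∈ S, ∀ e ∈ E, ∃ l ∈ E, l • b ≠ b ∧ (e * l) • b ≠ b) → ∏ b ∈ S, a t b = 1 := by
  classical
  intro S
  induction S using Finset.strongInduction with
  | H S ih =>
    intro hSt hSE hSm
    rcases S.eq_empty_or_nonempty with rfl | ⟨c, hc⟩
    · exact Finset.prod_empty
    let B : Finset X := S.filter fun b => ∃ e ∈ E, e • c = b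
    have hB : ∀ b, b ∈ B ↔ ∃ e ∈ E, e • c = b := fun b => by
      simp only [B, Finset.mem_filter]
      exact ⟨fun h => h.2, fun ⟨e, he, h⟩ => ⟨h ▸ hSE e he c hc, e, he, h⟩⟩
    have hpow : ∀ j : ℕ, ∀ b ∈ S, t ^ j • b ∈ S := fun j => by
      induction j with
      | zero => intro b hb; rwa [pow_zero, one_smul]
      | succ j ihj => intro b hb; rw [pow_succ', mul_smul]; exact hSt _ (ihj b hb)
    have hex : ∃ m : ℕ, 0 < m ∧ t ^ m • c ∈ B := ⟨orderOf t, orderOf_pos t, by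
      rw [pow_orderOf_eq_one, one_smul]; exact (hB c).mpr ⟨1, E.one_mem, one_smul _ _⟩⟩
    obtain ⟨m, ⟨hm0, hmB⟩, hmin⟩ : ∃ m, (0 < m ∧ t ^ m • c ∈ B) ∧ ∀ j, 0 < j → j < m → t ^ j • c ∉ B :=
      ⟨Nat.find hex, Nat.find_spec hex, fun j hj0 hj h => Nat.find_min hex hj ⟨hj0, h⟩⟩
    let D : Finset X := (Finset.range m).biUnion fun j => B.image (t ^ j • ·)
    have hconjpow : ∀ j : ℕ, ∀ e ∈ E, (t ^ j)⁻¹ * e * t ^ j ∈ E := fun j e he => by
      have := hnorm _ (T.inv_mem (T.pow_mem ht j)) e he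
      rwa [inv_inv] at this
    have hmem : ∀ b, b ∈ D ↔ ∃ j < m, ∃ e ∈ E, t ^ j • e • c = b := fun b => by
      simp only [D, Finset.mem_biUnion, Finset.mem_range, Finset.mem_image, hB]
      exact ⟨fun ⟨j, hj, b', ⟨e, he, hb'⟩, h⟩ => ⟨j, hj, e, he, by rw [hb', h]⟩,
        fun ⟨j, hj, e, he, h⟩ => ⟨j, hj, _, ⟨e, he, rfl⟩, h⟩⟩
    have hDS : D ⊆ S := fun b hb => by
      obtain ⟨j, hj, e, he, rfl⟩ := (hmem b).mp hb
      exact hpow j _ (hSE e he c hc)
    have hcD : c ∈ D := (hmem c).mpr ⟨0, hm0, 1, E.one_mem, by rw [pow_zero, one_smul, one_smul]⟩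
    have hDt : ∀ b ∈ D, t • b ∈ D := fun b hb => by
      obtain ⟨j, hj, e, he, rfl⟩ := (hmem b).mp hb
      rw [← mul_smul t, ← pow_succ']
      rcases Nat.lt_or_ge (j + 1) m with h | h
      · exact (hmem _).mpr ⟨j + 1, h, e, he, rfl⟩
      · obtain ⟨f, hf, hfc⟩ := (hB _).mp hmB
        refine (hmem _).mpr ⟨0, hm0, t ^ (j + 1) * e * (t ^ (j + 1))⁻¹ * f,
          E.mul_mem (hnorm _ (T.pow_mem ht _) e he) hf, ?_⟩
        rw [pow_zero, one_smul, mul_smul _ f, hfc, show j + 1 = m by omega, ← mul_smul, ← mul_smul, inv_mul_cancel_right]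
    have hDE : ∀ e ∈ E, ∀ b ∈ D, e • b ∈ D := fun e he b hb => by
      obtain ⟨j, hj, f, hf, rfl⟩ := (hmem b).mp hb
      refine (hmem _).mpr ⟨j, hj, (t ^ j)⁻¹ * e * t ^ j * f, E.mul_mem (hconjpow j e he) hf, ?_⟩
      rw [← mul_smul, ← mul_smul, ← mul_smul]
      congr 1
      group
    have hdisj : ∀ i < m, ∀ j < m, i < j → Disjoint (B.image (t ^ i • ·)) (B.image (t ^ j • ·)) := by
      intro i hi j hj hij
      rw [Finset.disjoint_left]
      intro b hb hb'
      obtain ⟨b₁, hb₁, rfl⟩ := Finset.mem_image.mp hb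
      obtain ⟨b₂, hb₂, h⟩ := Finset.mem_image.mp hb'
      obtain ⟨e₁, he₁, rfl⟩ := (hB _).mp hb₁
      obtain ⟨e₂, he₂, rfl⟩ := (hB _).mp hb₂
      have h1 : t ^ (j - i) • e₂ • c = e₁ • c := by
        have e' : t ^ j = t ^ i * t ^ (j - i) := by rw [← pow_add, Nat.add_sub_cancel' hij.le]
        rw [e', mul_smul] at h
        exact MulAction.injective (t ^ i) h
      refine hmin (j - i) (by omega) (by omega) ((hB _).mpr
        ⟨(t ^ (j - i) * e₂⁻¹ * (t ^ (j - i))⁻¹) * e₁, E.mul_mem (hnorm _ (T.pow_mem ht _) _ (E.inv_mem he₂)) he₁, ?_⟩)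
      rw [mul_smul _ e₁, ← h1, ← mul_smul, ← mul_smul, inv_mul_cancel_right, mul_smul, mul_smul, inv_smul_smul]
    have hD2 : ∏ b ∈ D, a t b = 1 := by
      rw [Finset.prod_biUnion (fun i hi j hj hij => by
        rcases lt_or_gt_of_ne hij with h | h
        · exact hdisj i (Finset.mem_range.mp hi) j (Finset.mem_range.mp hj) h
        · exact (hdisj j (Finset.mem_range.mp hj) i (Finset.mem_range.mp hi) h).symm)]
      rw [Finset.prod_congr rfl fun j _ => Finset.prod_image (f := fun b => a t b)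
        (fun u _ v _ e => MulAction.injective (t ^ j) e), Finset.prod_comm,
        Finset.prod_congr rfl fun b _ => prod_pow_smul2 ha t b m]
      exact block2 ha hA hE hcard hT hET hnorm (hSm c hc) hB (T.pow_mem ht m) hmB
    have hlt : S \ D ⊂ S := Finset.sdiff_ssubset hDS ⟨c, hcD⟩
    rw [← Finset.prod_sdiff hDS, hD2, mul_one]
    refine ih _ hlt (fun b hb => ?_) (fun e he b hb => ?_) (fun b hb => hSm b (Finset.mem_sdiff.mp hb).1)
    · rw [Finset.mem_sdiff] at hb ⊢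
      exact ⟨hSt b hb.1, fun h => hb.2 (by simpa using TransferSq.image_inv hDt _ h)⟩
    · rw [Finset.mem_sdiff] at hb ⊢
      exact ⟨hSE e he b hb.1, fun h => hb.2 (by simpa using hDE e⁻¹ (E.inv_mem he) _ h)⟩

/-- If `z` is weakly closed in `E`, an element of a conjugate set centralises no hyperplane of `E`. -/
theorem deep {G : Type*} [Group G] [Finite G] {z : G} {E : Subgroup G} (hE : IsExt z E) (hcard : 32 < Nat.card E)
    (hn : ∀ h ∈ Subgroup.centralizer ({z} : Set G), ∀ e ∈ E, h * e * h⁻¹ ∈ E)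
    (hcent : Subgroup.centralizer (E : Set G) ≤ E)
    (hwc : ∀ g : G, g * z * g⁻¹ ∈ E → g * z * g⁻¹ = z) {g : G} (hg : g * z * g⁻¹ ≠ z) {e : G} (he : e ∈ E) :
    ∃ l ∈ E, ¬ Commute l (g * z * g⁻¹) ∧ ¬ Commute (e * l) (g * z * g⁻¹) := by
  classical
  by_contra hcon
  push Not at hcon
  obtain ⟨y, hy⟩ : ∃ y, y = g * z * g⁻¹ := ⟨_, rfl⟩
  rw [← hy] at hcon hg
  have hyE : y ∉ E := fun h => hg (by rw [hy] at h ⊢; exact hwc g h)
  obtain ⟨L, hL⟩ : ∃ L : Subgroup G, L = E ⊓ Subgroup.centralizer ({y} : Set G) := ⟨_, rfl⟩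
  have hLmem : ∀ l, l ∈ L ↔ l ∈ E ∧ Commute l y := fun l => by
    rw [hL, Subgroup.mem_inf, Subgroup.mem_centralizer_singleton_iff]; rfl
  have hd : ∀ l ∈ E, l ∈ L ∨ e * l ∈ L := fun l hl => by
    by_cases h : Commute l y
    · exact Or.inl ((hLmem l).mpr ⟨hl, h⟩)
    · exact Or.inr ((hLmem _).mpr ⟨E.mul_mem he hl, hcon l hl h⟩)
  have hLE : L ≤ E := fun l hl => ((hLmem l).mp hl).1
  have hLcard : Nat.card E ≤ 2 * Nat.card L := card_le_two_mul fun u hu v hv hu' hv' => by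
    have h3 := (hd u hu).resolve_left hu'
    have h4 := (hd v hv).resolve_left hv'
    have h5 := L.mul_mem (L.inv_mem h3) h4
    rwa [mul_inv_rev, mul_assoc, inv_mul_cancel_left] at h5
  obtain ⟨u, hu, v, hv, huv⟩ := nonab_of_quarter hE hLE hcard (by omega)
  have hzL : z ∈ L := by
    rw [show z = (v * u)⁻¹ * (u * v) by rw [huv]; group]
    exact L.mul_mem (L.inv_mem (L.mul_mem hv hu)) (L.mul_mem hu hv)
  have hzy : Commute z y := ((hLmem z).mp hzL).2
  have heL : e ∉ L := by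
    intro heL
    refine hyE (hcent fun f hf => ?_)
    rcases hd f hf with h | h
    · exact ((hLmem f).mp h).2
    · exact ((hLmem f).mp (by simpa using L.mul_mem (L.inv_mem heL) h)).2
  have hall : ∀ w, (∀ l ∈ L, Commute l w) → Commute e w → ∀ f ∈ E, Commute f w := fun w hw hew f hf => by
    rcases hd f hf with h | h
    · exact hw f h
    · have := (hew.inv_left).mul_left (hw _ h)
      rwa [inv_mul_cancel_left] at this
  obtain ⟨C, hC⟩ : ∃ C : Subgroup G, C = E ⊓ Subgroup.centralizer (L : Set G) := ⟨_, rfl⟩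
  have hCmem : ∀ c, c ∈ C ↔ c ∈ E ∧ ∀ l ∈ L, Commute l c := fun c => by
    rw [hC, Subgroup.mem_inf, Subgroup.mem_centralizer_iff]; rfl
  have hCcard : Nat.card C ≤ 4 := by
    have h1 : Nat.card C ≤ 2 * Nat.card (Subgroup.zpowers z) := card_le_two_mul fun a ha b hb ha' hb' => by
      obtain ⟨haE, haL⟩ := (hCmem a).mp ha
      obtain ⟨hbE, hbL⟩ := (hCmem b).mp hb
      have hnc : ∀ w, w ∈ E → (∀ l ∈ L, Commute l w) → Commute w e → w ∈ Subgroup.zpowers z := fun w hw hwL hwe => by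
        rcases hE.center w hw (hall w hwL hwe.symm) with h | h
        · rw [h]; exact one_mem _
        · rw [h]; exact Subgroup.mem_zpowers z
      refine hnc _ (E.mul_mem (E.inv_mem haE) hbE) (fun l hl => (haL l hl).inv_right.mul_right (hbL l hl)) ?_
      rw [hE.commute_mul_iff (E.inv_mem haE) hbE he]
      exact iff_of_false (fun h => ha' (hnc a haE haL (by simpa using h.inv_left))) (fun h => hb' (hnc b hbE hbL h))
    rw [Nat.card_zpowers, orderOf_eq_prime (by rw [pow_two]; exact hE.sq) hE.ne_one] at h1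
    exact h1
  -- the map `c ↦ [e, c]`
  have hl : ∀ c, Commute c z → (∀ l ∈ L, Commute l c) → e⁻¹ * (c * e * c⁻¹) ∈ C := by
    intro c hcz hcL
    refine (hCmem _).mpr ⟨E.mul_mem (E.inv_mem he) (hn c (Subgroup.mem_centralizer_singleton_iff.mpr hcz) e he), fun l hl => ?_⟩
    have hel : e * l * e⁻¹ ∈ L := by
      rcases hE.conj_cases he (hLE hl) with h | h <;> rw [h]
      exacts [hl, L.mul_mem hl hzL]
    calc l * (e⁻¹ * (c * e * c⁻¹)) = e⁻¹ * ((e * l * e⁻¹) * c) * e * c⁻¹ := by group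
      _ = e⁻¹ * (c * (e * l * e⁻¹)) * e * c⁻¹ := by rw [(hcL _ hel).eq]
      _ = e⁻¹ * c * e * (l * c⁻¹) := by group
      _ = e⁻¹ * c * e * (c⁻¹ * l) := by rw [((hcL l hl).inv_right).eq]
      _ = _ := by group
  have hinv : ∀ d ∈ C, d * d = 1 → d = 1 ∨ d = z := by
    intro d hd' hdd
    obtain ⟨hdE, hdL⟩ := (hCmem d).mp hd'
    by_contra hne
    push Not at hne
    have hde : ¬ Commute d e := fun h => by
      rcases hE.center d hdE (hall d hdL h.symm) with h | h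
      exacts [hne.1 h, hne.2 h]
    obtain ⟨l, hldef⟩ : ∃ l, l = e⁻¹ * (y * e * y⁻¹) := ⟨_, rfl⟩
    have hlC : l ∈ C := hldef ▸ hl y hzy.symm (fun m hm => ((hLmem m).mp hm).2)
    obtain ⟨hlE, hlL⟩ := (hCmem l).mp hlC
    have hye : y * e * y⁻¹ = e * l := by rw [hldef]; group
    have hdede : d * e * d⁻¹ = e * z := hE.conj_eq_of_not_commute hdE he hde
    have hyinner : ∀ w ∈ E, w * e * w⁻¹ = e * l → (∀ m ∈ L, Commute m w) → False := by
      intro w hw hwe hwL
      refine hyE ?_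
      have h1 : w⁻¹ * y ∈ Subgroup.centralizer (E : Set G) := by
        intro f hf
        have hfy : y * f * y⁻¹ = w * f * w⁻¹ := by
          have hL' : ∀ m ∈ L, y * m * y⁻¹ = w * m * w⁻¹ := fun m hm => by
            rw [← ((hLmem m).mp hm).2.eq, mul_inv_cancel_right, ← (hwL m hm).eq, mul_inv_cancel_right]
          rcases hd f hf with h | h
          · exact hL' f h
          · calc y * f * y⁻¹ = (y * e * y⁻¹)⁻¹ * (y * (e * f) * y⁻¹) := by group
              _ = (w * e * w⁻¹)⁻¹ * (w * (e * f) * w⁻¹) := by rw [hye, hL' _ h, hwe]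
              _ = _ := by group
        calc f * (w⁻¹ * y) = w⁻¹ * (w * f * w⁻¹) * y := by group
          _ = w⁻¹ * (y * f * y⁻¹) * y := by rw [hfy]
          _ = _ := by group
      simpa using E.mul_mem hw (hcent h1)
    by_cases hle : Commute l e
    · rcases hE.center l hlE (hall l hlL hle.symm) with h | h
      · exact hyinner 1 E.one_mem (by rw [h]; group) (fun m _ => Commute.one_right m)
      · exact hyinner d hdE (by rw [h]; exact hdede) hdL
    · -- then `l` is `d` up to the centre, an involution moving `e`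
      have hdl : Commute (d⁻¹ * l) e := by
        rw [hE.commute_mul_iff (E.inv_mem hdE) hlE he]
        exact iff_of_false (fun h => hde (by simpa using h.inv_left)) hle
      have hll : l * l = 1 := by
        have h1 : d⁻¹ * l = 1 ∨ d⁻¹ * l = z :=
          hE.center _ (E.mul_mem (E.inv_mem hdE) hlE) (hall _ (fun m hm => (hdL m hm).inv_right.mul_right (hlL m hm)) hdl.symm)
        rcases h1 with h | h
        · rw [← inv_mul_eq_one.mp h, hdd]
        · rw [show l = d * z by rw [← h, mul_inv_cancel_left], show d * z * (d * z) = d * (z * d) * z by group,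
            (hE.central d hdE).symm.eq, show d * (d * z) * z = (d * d) * (z * z) by group, hdd, hE.sq, one_mul]
      have h1 : y * (e * e) * y⁻¹ = e * e := by
        rcases hE.sq_mem he with h | h <;> rw [h]
        · group
        · rw [← hzy.eq, mul_inv_cancel_right]
      have h2 : e * l * (e * l) = e * e := by
        rw [← hye, show y * e * y⁻¹ * (y * e * y⁻¹) = y * (e * e) * y⁻¹ by group, h1]
      have h3 : l * e = e * l * z := hE.mul_eq_of_not_commute hlE he hle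
      have h4 : e * l * (e * l) = (e * e) * z := by
        calc e * l * (e * l) = e * (l * e) * l := by group
          _ = e * e * l * (z * l) := by rw [h3]; group
          _ = e * e * l * (l * z) := by rw [(hE.central l hlE).symm.eq]
          _ = e * e * (l * l) * z := by group
          _ = _ := by rw [hll, mul_one]
      rw [h4] at h2
      exact hE.ne_one (mul_eq_left.mp h2)
  -- the conjugate `E'` meets `E` trivially
  obtain ⟨E', hE'def⟩ : ∃ E' : Subgroup G, E' = E.map (MulAut.conj g).toMonoidHom := ⟨_, rfl⟩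
  have hX : IsExt y E' := by rw [hy, hE'def]; exact hE.conj g
  have hE'card : Nat.card E' = Nat.card E := by
    rw [hE'def]; exact (Nat.card_congr (E.equivMapOfInjective _ (MulAut.conj g).injective).toEquiv).symm
  have hE'n : ∀ h, Commute h y → ∀ q ∈ E', h * q * h⁻¹ ∈ E' := by
    intro h hh q hq
    rw [hE'def] at hq ⊢
    obtain ⟨q', hq', rfl⟩ := hq
    have hc : g⁻¹ * h * g ∈ Subgroup.centralizer ({z} : Set G) := by
      rw [Subgroup.mem_centralizer_singleton_iff]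
      calc g⁻¹ * h * g * z = g⁻¹ * (h * (g * z * g⁻¹)) * g := by group
        _ = g⁻¹ * ((g * z * g⁻¹) * h) * g := by rw [← hy, hh.eq]
        _ = _ := by group
    refine ⟨_, hn _ hc q' hq', ?_⟩
    show g * (g⁻¹ * h * g * q' * (g⁻¹ * h * g)⁻¹) * g⁻¹ = h * (g * q' * g⁻¹) * h⁻¹
    group
  have hzE' : z ∉ E' := by
    intro h
    rw [hE'def] at h
    obtain ⟨q, hq, hqz⟩ := h
    have hq' : q = g⁻¹ * z * g⁻¹⁻¹ := by
      have : g * q * g⁻¹ = z := hqz
      rw [← this]; group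
    have h1 := hwc g⁻¹ (hq' ▸ hq)
    apply hg
    rw [hy]
    calc g * z * g⁻¹ = g * (g⁻¹ * z * g⁻¹⁻¹) * g⁻¹ := by rw [h1]
      _ = z := by group
  have hD : ∀ d, d ∈ E → d ∈ E' → d = 1 := by
    intro d hdE hdE'
    have hdy : Commute d y := hX.central d hdE'
    have hdL : d ∈ L := (hLmem d).mpr ⟨hdE, hdy⟩
    have hdC : d ∈ C := (hCmem d).mpr ⟨hdE, fun l hl => by
      rcases hE.cases l (hLE hl) d hdE with h | h
      · exact h
      · exfalso
        apply hzE'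
        have h2 : l * d * l⁻¹ ∈ E' := hE'n l ((hLmem l).mp hl).2 d hdE'
        have h3 : l * d * l⁻¹ = d * z := by
          rw [h, mul_assoc d l z, (hE.central l (hLE hl)).eq, mul_assoc, mul_assoc, mul_inv_cancel, mul_one]
        rw [h3] at h2
        simpa using E'.mul_mem (E'.inv_mem hdE') h2⟩
    have hdd : d * d = 1 := (hE.sq_mem hdE).resolve_right fun h => hzE' (h ▸ E'.mul_mem hdE' hdE')
    exact (hinv d hdC hdd).resolve_right fun h => hzE' (h ▸ hdE')
  obtain ⟨P, hP⟩ : ∃ P : Subgroup G, P = E' ⊓ Subgroup.centralizer ({z} : Set G) := ⟨_, rfl⟩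
  have hPmem : ∀ c, c ∈ P ↔ c ∈ E' ∧ Commute c z := fun c => by
    rw [hP, Subgroup.mem_inf, Subgroup.mem_centralizer_singleton_iff]; rfl
  have hPL : ∀ c ∈ P, ∀ l ∈ L, Commute l c := by
    intro c hc l hl
    obtain ⟨hcE, hcz⟩ := (hPmem c).mp hc
    obtain ⟨hlE, hly⟩ := (hLmem l).mp hl
    have h1 : l * c * l⁻¹ * c⁻¹ ∈ E' := E'.mul_mem (hE'n l hly c hcE) (E'.inv_mem hcE)
    have h2 : l * c * l⁻¹ * c⁻¹ ∈ E := by
      rw [show l * c * l⁻¹ * c⁻¹ = l * (c * l⁻¹ * c⁻¹) by group]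
      exact E.mul_mem hlE (hn c (Subgroup.mem_centralizer_singleton_iff.mpr hcz) _ (E.inv_mem hlE))
    exact mul_inv_eq_iff_eq_mul.mp (mul_inv_eq_one.mp (hD _ h2 h1))
  have hPcard : Nat.card P ≤ 4 := by
    refine (Nat.card_le_card_of_injective (fun c : P =>
      (⟨e⁻¹ * ((c : G) * e * (c : G)⁻¹), hl c ((hPmem c).mp c.2).2 (hPL c c.2)⟩ : C)) ?_).trans hCcard
    intro a b hab
    have hab' : (a : G) * e * (a : G)⁻¹ = (b : G) * e * (b : G)⁻¹ :=
      mul_left_cancel (congrArg Subtype.val hab)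
    have hw : (b : G)⁻¹ * a ∈ P := P.mul_mem (P.inv_mem b.2) a.2
    have hwe : Commute ((b : G)⁻¹ * a) e :=
      show _ = _ from calc (b : G)⁻¹ * a * e = (b : G)⁻¹ * ((a : G) * e * (a : G)⁻¹) * a := by group
        _ = (b : G)⁻¹ * ((b : G) * e * (b : G)⁻¹) * a := by rw [hab']
        _ = _ := by group
    have h1 : (b : G)⁻¹ * a ∈ E := hcent fun f hf => hall _ (hPL _ hw) hwe.symm f hf
    have h2 := hD _ h1 ((hPmem _).mp hw).1
    exact Subtype.ext (inv_mul_eq_one.mp h2).symm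
  -- an involution centralises a large part of `E'`
  obtain ⟨w, hwdef⟩ : ∃ w : G → G, ∀ a, w a = z * a * z⁻¹ * a⁻¹ := ⟨_, fun _ => rfl⟩
  have hwE' : ∀ a ∈ E', w a ∈ E' := fun a ha => by
    rw [hwdef]; exact E'.mul_mem (hE'n z hzy a ha) (E'.inv_mem ha)
  have hwmul : ∀ a ∈ E', ∀ b ∈ E', w (a * b) = w a * (a * w b * a⁻¹) := fun a _ b _ => by
    rw [hwdef, hwdef, hwdef]; group
  have hwY : ∀ a ∈ E', ∀ u ∈ Subgroup.zpowers y, a * u * a⁻¹ = u := fun a ha u hu => by
    obtain ⟨k, rfl⟩ := Subgroup.mem_zpowers_iff.mp hu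
    rw [((hX.central a ha).zpow_right k).eq, mul_inv_cancel_right]
  let Q : Subgroup G :=
    { carrier := {a | a ∈ E' ∧ w a ∈ Subgroup.zpowers y}
      one_mem' := ⟨E'.one_mem, by rw [hwdef, show z * 1 * z⁻¹ * (1 : G)⁻¹ = 1 by group]; exact one_mem _⟩
      mul_mem' := fun {a b} ha hb => ⟨E'.mul_mem ha.1 hb.1, by
        rw [hwmul a ha.1 b hb.1, hwY a ha.1 _ hb.2]; exact mul_mem ha.2 hb.2⟩
      inv_mem' := fun {a} ha => ⟨E'.inv_mem ha.1, by
        rw [hwdef, show z * a⁻¹ * z⁻¹ * a⁻¹⁻¹ = a⁻¹ * (z * a * z⁻¹ * a⁻¹)⁻¹ * a⁻¹⁻¹ by group, ← hwdef,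
          hwY _ (E'.inv_mem ha.1) _ (inv_mem ha.2)]
        exact inv_mem ha.2⟩ }
  have hwQ : ∀ a ∈ E', w a ∈ Q := by
    intro a ha
    refine ⟨hwE' a ha, ?_⟩
    have h1 : z * w a * z⁻¹ = (w a)⁻¹ := by
      rw [hwdef]
      calc z * (z * a * z⁻¹ * a⁻¹) * z⁻¹ = (z * z) * a * z⁻¹ * a⁻¹ * z⁻¹ := by group
        _ = a * z * a⁻¹ * z⁻¹ := by rw [hE.sq, inv_eq_of_mul_eq_one_right hE.sq, one_mul]
        _ = _ := by group
    rw [hwdef (w a), h1, ← mul_inv_rev]
    refine inv_mem ?_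
    rcases hX.sq_mem (hwE' a ha) with h | h <;> rw [h]
    exacts [one_mem _, Subgroup.mem_zpowers y]
  have hYQ : Subgroup.zpowers y ≤ Q := Subgroup.zpowers_le.mpr ⟨hX.mem, by
    rw [hwdef, hzy.eq, mul_inv_cancel_right, mul_inv_cancel]; exact one_mem _⟩
  have hQE' : Q ≤ E' := fun a ha => ha.1
  have hidx : (Q.subgroupOf E').index ≤ ((Subgroup.zpowers y).subgroupOf Q).index := by
    rw [Subgroup.index_eq_card, Subgroup.index_eq_card]
    have hrel : ∀ a b : E', (a⁻¹ * b ∈ Q.subgroupOf E' ↔ (w a)⁻¹ * w b ∈ Subgroup.zpowers y) := by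
      intro a b
      have h1 : w (b : G) = w a * ((a : G) * w ((a : G)⁻¹ * b) * (a : G)⁻¹) := by
        rw [← hwmul a a.2 _ (E'.mul_mem (E'.inv_mem a.2) b.2), mul_inv_cancel_left]
      have h2 : (a : G) * w ((a : G)⁻¹ * b) * (a : G)⁻¹ = (w a)⁻¹ * w b := by rw [h1]; group
      change (a : G)⁻¹ * b ∈ Q ↔ _
      constructor
      · intro h
        rw [← h2, hwY a a.2 _ h.2]
        exact h.2
      · intro h
        refine ⟨E'.mul_mem (E'.inv_mem a.2) b.2, ?_⟩
        rw [← h2] at h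
        have h3 := hwY _ (E'.inv_mem a.2) _ h
        rw [show (a : G)⁻¹ * ((a : G) * w ((a : G)⁻¹ * b) * (a : G)⁻¹) * (a : G)⁻¹⁻¹ = w ((a : G)⁻¹ * b) by group] at h3
        rwa [h3]
    refine Nat.card_le_card_of_injective (Quotient.lift (fun a : E' => ((⟨w a, hwQ a a.2⟩ : Q) : Q ⧸ (Subgroup.zpowers y).subgroupOf Q)) ?_) ?_
    · intro a b hab
      exact QuotientGroup.eq.mpr ((hrel a b).mp (QuotientGroup.leftRel_apply.mp hab))
    · rintro ⟨a⟩ ⟨b⟩ hab
      change ((⟨w a, hwQ a a.2⟩ : Q) : Q ⧸ (Subgroup.zpowers y).subgroupOf Q) = ((⟨w b, hwQ b b.2⟩ : Q) : Q ⧸ (Subgroup.zpowers y).subgroupOf Q) at hab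
      exact Quotient.sound (QuotientGroup.leftRel_apply.mpr ((hrel a b).mpr (QuotientGroup.eq.mp hab :)))
  have h1 := (Q.subgroupOf E').card_mul_index
  rw [Nat.card_congr (Subgroup.subgroupOfEquivOfLe hQE').toEquiv, hE'card] at h1
  have h2 := ((Subgroup.zpowers y).subgroupOf Q).card_mul_index
  rw [Nat.card_congr (Subgroup.subgroupOfEquivOfLe hYQ).toEquiv, Nat.card_zpowers,
    orderOf_eq_prime (by rw [pow_two]; exact hX.sq) hX.ne_one] at h2
  have hQP : Nat.card Q ≤ 2 * Nat.card P := card_le_two_mul fun a ha b hb ha' hb' => by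
    have key : ∀ a ∈ Q, a ∉ P → w a = y := fun a ha ha' => by
      rcases mem_zpowers_cases hX.sq ha.2 with h | h
      · exfalso
        apply ha'
        rw [hwdef, mul_inv_eq_one, mul_inv_eq_iff_eq_mul] at h
        exact (hPmem a).mpr ⟨ha.1, h.symm⟩
      · exact h
    refine (hPmem _).mpr ⟨E'.mul_mem (E'.inv_mem ha.1) hb.1, ?_⟩
    have h3 := hwmul a ha.1 _ (E'.mul_mem (E'.inv_mem ha.1) hb.1)
    rw [mul_inv_cancel_left, key a ha ha', key b hb hb', left_eq_mul, conj_eq_one_iff, hwdef, mul_inv_eq_one,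
      mul_inv_eq_iff_eq_mul] at h3
    exact h3.symm
  have h3 := Nat.mul_le_mul_left (Nat.card Q) hidx
  rw [h1] at h3
  nlinarith



/-- Let G be a finite group with no nontrivial 2-group quotient (O^2(G) = G), z an involution of G with H = C_G(z), and suppose E = O_2(H) is extraspecial with C_G(E) ≤ E and of order 2^(2n+1) with n ≥ 3. If H has a normal subgroup of index 2, then z is conjugate in G to an element of E other than z. -/
theorem result {G : Type*} [Group G] [Finite G] (hres : Cfsg.pResidual 2 G = ⊤) (z : G) (hz : orderOf z = 2)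
    (E : Subgroup G) (hE : E = (Cfsg.pCore 2 ↥(Subgroup.centralizer ({z} : Set G))).map (Subgroup.centralizer ({z} : Set G)).subtype)
    (hext : Cfsg.IsExtraspecial 2 ↥E) (hcent : Subgroup.centralizer (E : Set G) ≤ E) (n : ℕ) (hn : 3 ≤ n) (hcard : Nat.card ↥E = 2 ^ (2 * n + 1))
    (K : Subgroup G) (hKH : K ≤ Subgroup.centralizer ({z} : Set G))
    (hKn : ∀ h ∈ Subgroup.centralizer ({z} : Set G), K.map (MulAut.conj h).toMonoidHom = K)
    (hKi : K.relIndex (Subgroup.centralizer ({z} : Set G)) = 2) :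
    ∃ g : G, g * z * g⁻¹ ∈ E ∧ g * z * g⁻¹ ≠ z := by
  classical
  haveI : Fact (Nat.Prime 2) := ⟨Nat.prime_two⟩
  haveI := Fintype.ofFinite G
  let H := Subgroup.centralizer ({z} : Set G)
  obtain ⟨z', hE'⟩ := isExt_of_extraspecial hext
  have hEH : E ≤ H := hE ▸ Subgroup.map_subtype_le _
  have hzE : z ∈ E := hcent fun q hq => Subgroup.mem_centralizer_singleton_iff.mp (hEH hq)
  have hzz' : z = z' := (hE'.center z hzE fun q hq => Subgroup.mem_centralizer_singleton_iff.mp (hEH hq)).resolve_left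
    (fun e => by rw [e, orderOf_one] at hz; omega)
  subst hzz'
  have hEn : ∀ h ∈ H, ∀ e ∈ E, h * e * h⁻¹ ∈ E := by
    intro h hh e he
    rw [hE] at he ⊢
    obtain ⟨e', he', rfl⟩ := he
    haveI := CfsgLib.Core.pCore_characteristic (G := ↥H) 2
    exact ⟨⟨h, hh⟩ * e' * ⟨h, hh⟩⁻¹, Subgroup.Normal.conj_mem inferInstance e' he' _, rfl⟩
  have hEp : IsPGroup 2 E := hE ▸ (CfsgLib.Core.isPGroup_pCore 2).map _
  have hsub : E.subgroupOf H = Cfsg.pCore 2 ↥H := by
    rw [hE]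
    exact Subgroup.comap_map_eq_self_of_injective H.subtype_injective _
  have hcardE : 32 < Nat.card E := by
    rw [hcard]
    have := Nat.pow_le_pow_right (show 2 ≥ 1 by norm_num) (show 2 * n + 1 ≥ 7 by omega)
    omega
  haveI hKn' : (K.subgroupOf H).Normal := ⟨fun x hx h => by
    rw [Subgroup.mem_subgroupOf] at hx ⊢
    rw [← hKn h h.2]
    exact ⟨x, hx, rfl⟩⟩
  have hidx : (K.subgroupOf H).index = 2 := hKi
  have hq2 : ∀ u : H ⧸ K.subgroupOf H, u ^ 2 = 1 := fun u => by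
    rw [← hidx, Subgroup.index_eq_card]
    exact pow_card_eq_one'
  letI : CommGroup (H ⧸ K.subgroupOf H) :=
    { (inferInstance : Group (H ⧸ K.subgroupOf H)) with
      mul_comm := fun u v => by
        have h1 := hq2 (u * v)
        rw [pow_two] at h1
        have hu := inv_eq_of_mul_eq_one_right (by rw [← pow_two]; exact hq2 u : u * u = 1)
        have hv := inv_eq_of_mul_eq_one_right (by rw [← pow_two]; exact hq2 v : v * v = 1)
        rw [← inv_eq_of_mul_eq_one_right h1, mul_inv_rev, hu, hv] }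
  let Θ : H →* H ⧸ K.subgroupOf H := QuotientGroup.mk' _
  let c₀ : G ⧸ H := ((1 : G) : G ⧸ H)
  have hmem : ∀ (g : G) (c : G ⧸ H), (g • c).out⁻¹ * (g * c.out) ∈ H := fun g c => by
    rw [← QuotientGroup.eq, QuotientGroup.out_eq']
    exact (congrArg (g • ·) (QuotientGroup.out_eq' c)).symm
  let a : G → G ⧸ H → (H ⧸ K.subgroupOf H) := fun g c => Θ ⟨_, hmem g c⟩
  have ha : ∀ g h c, a (g * h) c = a g (h • c) * a h c := fun g h c => by
    simp only [a, ← map_mul]
    congr 1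
    apply Subtype.ext
    show ((g * h) • c).out⁻¹ * (g * h * c.out) = ((g • (h • c)).out⁻¹ * (g * (h • c).out)) * ((h • c).out⁻¹ * (h * c.out))
    rw [← mul_smul]
    group
  let V : G →* H ⧸ K.subgroupOf H :=
    { toFun := fun g => ∏ c, a g c
      map_one' := Finset.prod_eq_one fun c _ => TransferSq.map_one' ha c
      map_mul' := fun g h => TransferSq.prod_mul ha (fun b _ => Finset.mem_univ _) }
  have hV : ∀ g, V g = 1 := by
    intro g
    have hg : g ∈ Cfsg.pResidual 2 G := hres ▸ Subgroup.mem_top g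
    induction hg using Subgroup.closure_induction with
    | mem x hx =>
      have h1 : orderOf (V x) ∣ 2 := orderOf_dvd_of_pow_eq_one (hq2 _)
      have h2 : orderOf (V x) ∣ orderOf x := orderOf_map_dvd V x
      exact orderOf_eq_one_iff.mp (Nat.eq_one_of_dvd_coprimes (hx : Nat.Coprime (orderOf x) 2) h2 h1)
    | one => exact map_one V
    | mul x y _ _ hx hy => rw [map_mul, hx, hy, one_mul]
    | inv x _ hx => rw [map_inv, hx, inv_one]
  have hfix : ∀ h ∈ H, h • c₀ = c₀ := fun h hh => by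
    rw [MulAction.Quotient.smul_coe, QuotientGroup.eq]
    simpa using hh
  by_contra hcon
  push Not at hcon
  have hdeep : ∀ c : G ⧸ H, c ≠ c₀ → ∀ e ∈ E, ∃ l ∈ E, l • c ≠ c ∧ (e * l) • c ≠ c := by
    intro c hc e he
    obtain ⟨g, rfl⟩ := QuotientGroup.mk_surjective c
    have hg : g * z * g⁻¹ ≠ z := fun h => hc (by
      rw [QuotientGroup.eq, mul_one, inv_mem_iff, Subgroup.mem_centralizer_singleton_iff]
      exact mul_inv_eq_iff_eq_mul.mp h)
    have hiff : ∀ l : G, l • (g : G ⧸ H) = (g : G ⧸ H) → Commute l (g * z * g⁻¹) := fun l h => by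
      rw [MulAction.Quotient.smul_coe, QuotientGroup.eq] at h
      have h3 := Subgroup.mem_centralizer_singleton_iff.mp h
      rw [smul_eq_mul, mul_inv_rev] at h3
      have h4 : Commute (g⁻¹ * l⁻¹ * g) z := h3
      have h5 := (h4.inv_left).eq
      show l * (g * z * g⁻¹) = g * z * g⁻¹ * l
      calc l * (g * z * g⁻¹) = g * ((g⁻¹ * l⁻¹ * g)⁻¹ * z) * g⁻¹ := by group
        _ = g * (z * (g⁻¹ * l⁻¹ * g)⁻¹) * g⁻¹ := by rw [h5]
        _ = g * z * g⁻¹ * l := by group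
    obtain ⟨l, hl, h1, h2⟩ := deep hE' hcardE hEn hcent hcon hg he
    exact ⟨l, hl, fun h => h1 (hiff l h), fun h => h2 (hiff _ h)⟩
  have key : ∀ (S : Sylow 2 H) (t : H), t ∈ (S : Subgroup H) → Θ t = 1 := by
    intro S t ht
    have hET : E ≤ (S : Subgroup H).map H.subtype := fun e he =>
      ⟨⟨e, hEH he⟩, CfsgLib.Core.pCore_le_sylow S (hsub ▸ he), rfl⟩
    have h1 := invariant_set2 ha hq2 hE' hcardE
      (S.isPGroup'.map H.subtype) hET (fun u hu e he => hEn u (Subgroup.map_subtype_le _ hu) e he)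
      (t := (t : G)) ⟨t, ht, rfl⟩ ((Finset.univ).erase c₀)
      (fun b hb => Finset.mem_erase.mpr ⟨fun e => (Finset.mem_erase.mp hb).1
        (MulAction.injective (t : G) (e.trans (hfix _ t.2).symm)), Finset.mem_univ _⟩)
      (fun e he b hb => Finset.mem_erase.mpr ⟨fun e' => (Finset.mem_erase.mp hb).1
        (MulAction.injective e (e'.trans (hfix _ (hEH he)).symm)), Finset.mem_univ _⟩)
      (fun b hb => hdeep b (Finset.mem_erase.mp hb).1)
    have h2 : V (t : G) = a (t : G) c₀ * ∏ b ∈ Finset.univ.erase c₀, a (t : G) b :=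
      (Finset.mul_prod_erase _ _ (Finset.mem_univ c₀)).symm
    have h3 := hV (t : G)
    rw [h2, h1, mul_one] at h3
    have hc₀ : c₀.out ∈ H := by
      have h4 := QuotientGroup.eq.mp (QuotientGroup.out_eq' c₀)
      simpa using h4
    have h5 : (⟨_, hmem (t : G) c₀⟩ : H) = (⟨c₀.out, hc₀⟩ : H)⁻¹ * t * ⟨c₀.out, hc₀⟩ := by
      apply Subtype.ext
      simp only [Subgroup.coe_mul, Subgroup.coe_inv, hfix _ t.2]
      group
    change Θ _ = 1 at h3
    rwa [h5, map_mul, map_mul, map_inv, mul_comm (Θ _)⁻¹, mul_assoc, inv_mul_cancel, mul_one] at h3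
  have hall : ∀ y : H, Θ y = 1 := by
    intro y
    obtain ⟨m, hm⟩ : ∃ m, orderOf y = 2 ^ (orderOf y).factorization 2 * m := Nat.ordProj_dvd _ _
    have hmodd : ¬ 2 ∣ m := fun ⟨j, hj⟩ => Nat.pow_succ_factorization_not_dvd (orderOf_pos y).ne' Nat.prime_two
      ⟨j, by rw [pow_succ]; conv_lhs => rw [hm, hj]
             ring⟩
    have hpm : IsPGroup 2 (Subgroup.zpowers (y ^ m)) := by
      obtain ⟨j, -, hj⟩ := (Nat.dvd_prime_pow Nat.prime_two).mp (orderOf_dvd_of_pow_eq_one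
        (show (y ^ m) ^ (2 ^ (orderOf y).factorization 2) = 1 by rw [← pow_mul, mul_comm, ← hm, pow_orderOf_eq_one]))
      exact IsPGroup.of_card (n := j) (by rw [Nat.card_zpowers, hj])
    obtain ⟨S, hS⟩ := hpm.exists_le_sylow
    have h3 := key S _ (hS (Subgroup.mem_zpowers _))
    rw [map_pow] at h3
    obtain ⟨j, hj⟩ : Odd m := Nat.odd_iff.mpr (by omega)
    rwa [hj, pow_succ, pow_mul, hq2, one_pow, one_mul] at h3
  have htop : K.subgroupOf H = ⊤ := eq_top_iff.mpr fun y _ => (QuotientGroup.eq_one_iff (N := K.subgroupOf H) y).mp (hall y)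
  rw [htop, Subgroup.index_top] at hidx
  omega

end Cfsg.Agent.S3300
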