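import Cfsg.Statements.S3301
import Mathlib
import Cfsg.Agent.Lib.Extra2.TransferSq
import Cfsg.Agent.Lib.Core

set_option autoImplicit false
open Cfsg

set_option maxHeartbeats 1000000

namespace Cfsg.Agent.S3301

open CfsgLib.Extra2

theorem comm_of_index_two {G : Type*} [Group G] [Finite G] {z : G} {E S : Subgroup G} (hE : IsExt z E) (hSE : S ≤ E)
    (hS : ∃ e ∈ E, e ∉ S ∧ ∀ r ∈ E, r ∈ S ∨ e * r ∈ S) (hcard : 8 < Nat.card E) :
    ∃ u ∈ S, ∃ v ∈ S, u * v = v * u * z := by
  classical
  by_contra hcon
  push Not at hcon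
  obtain ⟨e, he, heS, hd⟩ := hS
  have hcomm : ∀ u ∈ S, ∀ v ∈ S, Commute u v := fun u hu v hv =>
    (hE.cases u (hSE hu) v (hSE hv)).resolve_right (hcon u hu v hv)
  have hcen : ∀ u ∈ S, Commute u e → u ∈ Subgroup.zpowers z := by
    intro u hu hue
    rcases hE.center u (hSE hu) (fun r hr => by
      rcases hd r hr with h | h
      · exact hcomm r h u hu
      · have h1 : Commute (e⁻¹ * (e * r)) u := (hue.symm.inv_left).mul_left (hcomm _ h u hu)
        rwa [inv_mul_cancel_left] at h1) with h | h
    · rw [h]; exact one_mem _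
    · rw [h]; exact Subgroup.mem_zpowers z
  have h1 : Nat.card S ≤ 2 * Nat.card (Subgroup.zpowers z) := card_le_two_mul fun u hu v hv hu' hv' => by
    refine hcen _ (S.mul_mem (S.inv_mem hu) hv) ?_
    rw [hE.commute_mul_iff (E.inv_mem (hSE hu)) (hSE hv) he]
    exact iff_of_false (fun h => hu' (hcen u hu (by simpa using h.inv_left))) (fun h => hv' (hcen v hv h))
  have h2 : Nat.card E ≤ 2 * Nat.card S := card_le_two_mul fun u hu v hv hu' hv' => by
    have h3 := (hd u hu).resolve_left hu'
    have h4 := (hd v hv).resolve_left hv'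
    have h5 := S.mul_mem (S.inv_mem h3) h4
    rwa [mul_inv_rev, mul_assoc, inv_mul_cancel_left] at h5
  rw [Nat.card_zpowers, orderOf_eq_prime (by rw [pow_two]; exact hE.sq) hE.ne_one] at h1
  omega

theorem card_eq_eight {G : Type*} [Group G] [Finite G] {z : G} {E : Subgroup G} (hE : IsExt z E) (hp : IsPGroup 2 E)
    (hn : ∃ u ∈ E, u ≠ 1 ∧ u ≠ z) (h8 : Nat.card E ≤ 8) : Nat.card E = 8 := by
  classical
  haveI := Fintype.ofFinite G
  obtain ⟨u, hu, hu1, huz⟩ := hn
  obtain ⟨v, hv, huv⟩ : ∃ v ∈ E, ¬ Commute v u := by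
    by_contra h
    push Not at h
    rcases hE.center u hu h with e | e
    · exact hu1 e
    · exact huz e
  have hcard : ({1, z, u, u * z, v, v * z} : Finset G).card ≤ Nat.card E := by
    rw [← Fintype.card_coe, ← Nat.card_eq_fintype_card]
    refine Nat.card_le_card_of_injective (fun x => (⟨x.1, ?_⟩ : E)) fun a b e => Subtype.ext (congrArg (fun q : E => (q : G)) e)
    have := x.2
    simp only [Finset.mem_insert, Finset.mem_singleton] at this
    rcases this with e | e | e | e | e | e <;> rw [e]
    exacts [E.one_mem, hE.mem, hu, E.mul_mem hu hE.mem, hv, E.mul_mem hv hE.mem]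
  have hzz : z⁻¹ = z := inv_eq_of_mul_eq_one_right hE.sq
  have n1 : v ≠ u := fun e => huv (e ▸ Commute.refl u)
  have n2 : v ≠ u * z := fun e => huv (e ▸ (Commute.refl u).mul_left (hE.central u hu).symm)
  have n3 : v * z ≠ u := fun e => huv (by
    have : v = u * z := by rw [← e, mul_assoc, hE.sq, mul_one]
    exact absurd this n2)
  have n4 : v * z ≠ u * z := fun e => n1 (mul_right_cancel e)
  have n5 : v ≠ 1 := fun e => huv (e ▸ Commute.one_left u)
  have n6 : v ≠ z := fun e => huv (e ▸ (hE.central u hu).symm)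
  have n7 : u * z ≠ 1 := fun e => huz (by rw [← hzz]; exact eq_inv_of_mul_eq_one_left e)
  have n8 : u * z ≠ z := fun e => hu1 (mul_eq_right.mp e)
  have n9 : v * z ≠ 1 := fun e => n6 (by rw [← hzz]; exact eq_inv_of_mul_eq_one_left e)
  have n10 : v * z ≠ z := fun e => n5 (mul_eq_right.mp e)
  have n11 : u * z ≠ u := fun e => hE.ne_one (mul_eq_left.mp e)
  have n12 : v * z ≠ v := fun e => hE.ne_one (mul_eq_left.mp e)
  rw [Finset.card_insert_of_notMem, Finset.card_insert_of_notMem, Finset.card_insert_of_notMem,
    Finset.card_insert_of_notMem, Finset.card_insert_of_notMem, Finset.card_singleton] at hcard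
  rotate_left
  · simp only [Finset.mem_singleton]; exact n12.symm
  · simp only [Finset.mem_insert, Finset.mem_singleton, not_or]; exact ⟨n2.symm, n4.symm⟩
  · simp only [Finset.mem_insert, Finset.mem_singleton, not_or]; exact ⟨n11.symm, n1.symm, n3.symm⟩
  · simp only [Finset.mem_insert, Finset.mem_singleton, not_or]; exact ⟨huz.symm, n8.symm, n6.symm, n10.symm⟩
  · simp only [Finset.mem_insert, Finset.mem_singleton, not_or]; exact ⟨hE.ne_one.symm, hu1.symm, n7.symm, n5.symm, n9.symm⟩
  obtain ⟨k, hk⟩ := IsPGroup.iff_card.mp hp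
  rw [hk] at hcard h8 ⊢
  have : k ≤ 3 := by
    by_contra h
    have := Nat.pow_le_pow_right (show 2 ≥ 1 by norm_num) (show k ≥ 4 by omega)
    omega
  interval_cases k <;> omega



/-- Let G be a finite group with no nontrivial 2-group quotient (O^2(G) = G), z an involution of G with H = C_G(z), and suppose E = O_2(H) is extraspecial with C_G(E) ≤ E. Then the Sylow 2-subgroups of H/[H, H] are elementary abelian: every element of 2-power order of the abelianization of H has order at most 2. -/
theorem result {G : Type*} [Group G] [Finite G] (hres : Cfsg.pResidual 2 G = ⊤) (z : G) (hz : orderOf z = 2)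
    (E : Subgroup G) (hE : E = (Cfsg.pCore 2 ↥(Subgroup.centralizer ({z} : Set G))).map (Subgroup.centralizer ({z} : Set G)).subtype)
    (hext : Cfsg.IsExtraspecial 2 ↥E) (hcent : Subgroup.centralizer (E : Set G) ≤ E) :
    ∀ q : Abelianization ↥(Subgroup.centralizer ({z} : Set G)), (∃ k : ℕ, orderOf q = 2 ^ k) → q ^ 2 = 1 := by
  classical
  haveI : Fact (Nat.Prime 2) := ⟨Nat.prime_two⟩
  haveI := Fintype.ofFinite G
  obtain ⟨C, hCdef⟩ : ∃ C : Subgroup G, C = Subgroup.centralizer ({z} : Set G) := ⟨_, rfl⟩
  rw [← hCdef]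
  subst hCdef
  let H := Subgroup.centralizer ({z} : Set G)
  obtain ⟨z', hE'⟩ := isExt_of_extraspecial hext
  have hEH : E ≤ H := hE ▸ Subgroup.map_subtype_le _
  have hzE : z ∈ E := hcent fun q hq => Subgroup.mem_centralizer_singleton_iff.mp (hEH hq)
  have hzz' : z = z' := (hE'.center z hzE fun q hq => Subgroup.mem_centralizer_singleton_iff.mp (hEH hq)).resolve_left
    (fun e => by rw [e, orderOf_one] at hz; omega)
  subst hzz'
  have hEn : ∀ h ∈ H, ∀ e ∈ E, h * e * h⁻¹ ∈ E := by
    intro h hh e he
    rw [hE] at he ⊢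
    obtain ⟨e', he', rfl⟩ := he
    haveI := CfsgLib.Core.pCore_characteristic (G := ↥H) 2
    exact ⟨⟨h, hh⟩ * e' * ⟨h, hh⟩⁻¹, Subgroup.Normal.conj_mem inferInstance e' he' _, rfl⟩
  have hEp : IsPGroup 2 E := hE ▸ (CfsgLib.Core.isPGroup_pCore 2).map _
  have hsub : E.subgroupOf H = Cfsg.pCore 2 ↥H := by
    rw [hE]
    exact Subgroup.comap_map_eq_self_of_injective H.subtype_injective _
  -- the main point
  have main : ∀ x : H, ∀ k : ℕ, orderOf (Abelianization.of x) = 2 ^ k →
      ∃ r : Abelianization H, (Abelianization.of x) ^ 2 = r ^ 4 := by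
    by_cases h8 : 8 < Nat.card E
    · let A := Abelianization H ⧸ (powMonoidHom 4 : Abelianization H →* Abelianization H).range
      let Θ : H →* A := (QuotientGroup.mk' _).comp Abelianization.of
      have hA : ∀ u : A, u ^ 4 = 1 := fun u => by
        obtain ⟨v, rfl⟩ := QuotientGroup.mk_surjective u
        rw [← QuotientGroup.mk_pow, QuotientGroup.eq_one_iff]
        exact ⟨v, rfl⟩
      let c₀ : G ⧸ H := ((1 : G) : G ⧸ H)
      have hmem : ∀ (g : G) (c : G ⧸ H), (g • c).out⁻¹ * (g * c.out) ∈ H := fun g c => by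
        rw [← QuotientGroup.eq, QuotientGroup.out_eq']
        exact (congrArg (g • ·) (QuotientGroup.out_eq' c)).symm
      let a : G → G ⧸ H → A := fun g c => Θ ⟨_, hmem g c⟩
      have ha : ∀ g h c, a (g * h) c = a g (h • c) * a h c := fun g h c => by
        simp only [a, ← map_mul]
        congr 1
        apply Subtype.ext
        show ((g * h) • c).out⁻¹ * (g * h * c.out) = ((g • (h • c)).out⁻¹ * (g * (h • c).out)) * ((h • c).out⁻¹ * (h * c.out))
        rw [← mul_smul]
        group
      let V : G →* A :=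
        { toFun := fun g => ∏ c, a g c
          map_one' := Finset.prod_eq_one fun c _ => TransferSq.map_one' ha c
          map_mul' := fun g h => TransferSq.prod_mul ha (fun b _ => Finset.mem_univ _) }
      have hV : ∀ g, V g = 1 := by
        intro g
        have hg : g ∈ Cfsg.pResidual 2 G := hres ▸ Subgroup.mem_top g
        induction hg using Subgroup.closure_induction with
        | mem x hx =>
          have h1 : orderOf (V x) ∣ 4 := orderOf_dvd_of_pow_eq_one (hA _)
          have h2 : orderOf (V x) ∣ orderOf x := orderOf_map_dvd V x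
          have h3 : Nat.Coprime (orderOf x) 4 := by
            rw [show 4 = 2 ^ 2 by norm_num]
            exact Nat.Coprime.pow_right 2 hx
          exact orderOf_eq_one_iff.mp (Nat.eq_one_of_dvd_coprimes h3 h2 h1)
        | one => exact map_one V
        | mul x y _ _ hx hy => rw [map_mul, hx, hy, one_mul]
        | inv x _ hx => rw [map_inv, hx, inv_one]
      have hmove : ∀ c : G ⧸ H, c ≠ c₀ → ∃ e ∈ E, e • c ≠ c := by
        intro c hc
        by_contra hcon
        push Not at hcon
        refine hc ?_
        obtain ⟨g, rfl⟩ := QuotientGroup.mk_surjective c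
        have h1 : g * z * g⁻¹ ∈ Subgroup.centralizer (E : Set G) := fun e he => by
          have h2 := hcon e he
          rw [MulAction.Quotient.smul_coe, QuotientGroup.eq] at h2
          have h3 := Subgroup.mem_centralizer_singleton_iff.mp h2
          rw [smul_eq_mul, mul_inv_rev] at h3
          have h4 : Commute (g⁻¹ * e⁻¹ * g) z := h3
          have h5 := (h4.inv_left).eq
          calc e * (g * z * g⁻¹) = g * ((g⁻¹ * e⁻¹ * g)⁻¹ * z) * g⁻¹ := by group
            _ = g * (z * (g⁻¹ * e⁻¹ * g)⁻¹) * g⁻¹ := by rw [h5]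
            _ = g * z * g⁻¹ * e := by group
        have h6 : g * z * g⁻¹ = z := by
          refine (hE'.center _ (hcent h1) fun e he => h1 e he).resolve_left fun e => hE'.ne_one (conj_eq_one_iff.mp e)
        rw [QuotientGroup.eq, mul_one, inv_mem_iff, Subgroup.mem_centralizer_singleton_iff]
        exact mul_inv_eq_iff_eq_mul.mp h6
      have hfix : ∀ h ∈ H, h • c₀ = c₀ := fun h hh => by
        rw [MulAction.Quotient.smul_coe, QuotientGroup.eq]
        simpa using hh
      have key : ∀ (S : Sylow 2 H) (t : H), t ∈ (S : Subgroup H) → Θ t ^ 2 = 1 := by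
        intro S t ht
        have hET : E ≤ (S : Subgroup H).map H.subtype := fun e he =>
          ⟨⟨e, hEH he⟩, CfsgLib.Core.pCore_le_sylow S (hsub ▸ he), rfl⟩
        have h1 := TransferSq.invariant_set ha hE' hA (fun S' hS' h => comm_of_index_two hE' hS' h h8)
          (S.isPGroup'.map H.subtype) hET (fun u hu e he => hEn u (Subgroup.map_subtype_le _ hu) e he)
          (t := (t : G)) ⟨t, ht, rfl⟩ ((Finset.univ).erase c₀)
          (fun b hb => Finset.mem_erase.mpr ⟨fun e => (Finset.mem_erase.mp hb).1
            (MulAction.injective (t : G) (e.trans (hfix _ t.2).symm)), Finset.mem_univ _⟩)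
          (fun e he b hb => Finset.mem_erase.mpr ⟨fun e' => (Finset.mem_erase.mp hb).1
            (MulAction.injective e (e'.trans (hfix _ (hEH he)).symm)), Finset.mem_univ _⟩)
          (fun b hb => hmove b (Finset.mem_erase.mp hb).1)
        have h2 : V (t : G) = a (t : G) c₀ * ∏ b ∈ Finset.univ.erase c₀, a (t : G) b :=
          (Finset.mul_prod_erase _ _ (Finset.mem_univ c₀)).symm
        have h3 := hV (t : G)
        rw [h2] at h3
        have hc₀ : c₀.out ∈ H := by
          have h4 := QuotientGroup.eq.mp (QuotientGroup.out_eq' c₀)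
          simpa using h4
        have h4 : a (t : G) c₀ = Θ t := by
          have h5 : (⟨_, hmem (t : G) c₀⟩ : H) = (⟨c₀.out, hc₀⟩ : H)⁻¹ * t * ⟨c₀.out, hc₀⟩ := by
            apply Subtype.ext
            simp only [Subgroup.coe_mul, Subgroup.coe_inv, hfix _ t.2]
            group
          show Θ _ = Θ t
          rw [h5, map_mul, map_mul, map_inv, mul_comm (Θ _)⁻¹, mul_assoc, inv_mul_cancel, mul_one]
        rw [← h4, eq_inv_of_mul_eq_one_left h3, inv_pow, h1, inv_one]
      intro x k hk
      have h2 : ∀ y : H, Θ y ^ 2 = 1 := by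
        intro y
        obtain ⟨m, hm⟩ : ∃ m, orderOf y = 2 ^ (orderOf y).factorization 2 * m := Nat.ordProj_dvd _ _
        have hmodd : ¬ 2 ∣ m := fun ⟨j, hj⟩ => Nat.pow_succ_factorization_not_dvd (orderOf_pos y).ne' Nat.prime_two
          ⟨j, by rw [pow_succ]; conv_lhs => rw [hm, hj]
                 ring⟩
        have hpm : IsPGroup 2 (Subgroup.zpowers (y ^ m)) := by
          obtain ⟨j, -, hj⟩ := (Nat.dvd_prime_pow Nat.prime_two).mp (orderOf_dvd_of_pow_eq_one
            (show (y ^ m) ^ (2 ^ (orderOf y).factorization 2) = 1 by rw [← pow_mul, mul_comm, ← hm, pow_orderOf_eq_one]))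
          exact IsPGroup.of_card (n := j) (by rw [Nat.card_zpowers, hj])
        obtain ⟨S, hS⟩ := hpm.exists_le_sylow
        have h3 := key S _ (hS (Subgroup.mem_zpowers _))
        rw [map_pow, ← pow_mul, mul_comm, pow_mul] at h3
        have h4 : (Θ y ^ 2) ^ 2 = 1 := by rw [← pow_mul]; exact hA _
        obtain ⟨j, hj⟩ : Odd m := Nat.odd_iff.mpr (by omega)
        rw [hj, pow_succ, pow_mul, h4, one_pow, one_mul] at h3
        exact h3
      have h3 : (QuotientGroup.mk' (powMonoidHom 4 : Abelianization H →* Abelianization H).range) (Abelianization.of x ^ 2) = 1 := by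
        rw [map_pow]; exact h2 x
      rw [QuotientGroup.mk'_apply, QuotientGroup.eq_one_iff] at h3
      obtain ⟨r, hr⟩ := h3
      exact ⟨r, hr.symm⟩
    · -- the extraspecial group of order eight
      push Not at h8
      obtain ⟨u₀, hu₀, hu₀z, v₀, hv₀, huv₀⟩ : ∃ u ∈ E, (u ≠ 1 ∧ u ≠ z) ∧ ∃ v ∈ E, u * v = v * u * z := by
        by_contra hcon
        push Not at hcon
        have hall : ∀ u ∈ E, u = 1 ∨ u = z := fun u hu => by
          refine hE'.center u hu fun r hr => ?_
          by_cases hu' : u = 1
          · rw [hu']; exact Commute.one_right r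
          by_cases huz : u = z
          · rw [huz]; exact hE'.central r hr
          rcases hE'.cases u hu r hr with h | h
          · exact (show Commute u r from h).symm
          · exact absurd h (hcon u hu ⟨hu', huz⟩ r hr)
        have hcomm : ∀ u v : E, u * v = v * u := fun u v => Subtype.ext (by
          rcases hall u u.2 with h | h
          · show (u : G) * v = v * u
            rw [h, one_mul, mul_one]
          · show (u : G) * v = v * u
            rw [h]; exact (hE'.central v v.2).eq.symm)
        have h1 : Nat.card (Subgroup.center E) = Nat.card E := by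
          rw [show Subgroup.center E = ⊤ from eq_top_iff.mpr fun u _ => Subgroup.mem_center_iff.mpr fun v => hcomm v u, Subgroup.card_top]
        have h3 := hext.1.2.2
        have h4 : commutator E = ⊥ := by
          rw [commutator_def, Subgroup.commutator_eq_bot_iff_le_centralizer]
          exact fun u _ v _ => hcomm v u
        rw [h4] at h3
        have h5 := hext.2
        rw [← h3, Subgroup.card_bot] at h5
        omega
      have hE8 := card_eq_eight hE' hEp ⟨u₀, hu₀, hu₀z⟩ h8
      have hcomap : ∀ (D : Subgroup H) (e : G), e ∈ D.map H.subtype → ∃ he : e ∈ H, (⟨e, he⟩ : H) ∈ D := by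
        rintro D _ ⟨d, hd, rfl⟩
        exact ⟨d.2, hd⟩
      let D : Subgroup G := (commutator H).map H.subtype
      have hDc : ∀ g ∈ H, ∀ h ∈ H, g * h * g⁻¹ * h⁻¹ ∈ D := fun g hg h hh =>
        ⟨⟨g, hg⟩ * ⟨h, hh⟩ * ⟨g, hg⟩⁻¹ * ⟨h, hh⟩⁻¹, Subgroup.commutator_mem_commutator (Subgroup.mem_top _) (Subgroup.mem_top _), rfl⟩
      have hzD : z ∈ D := by
        have h1 := hDc u₀ (hEH hu₀) v₀ (hEH hv₀)
        rwa [huv₀, (hE'.central _ (E.mul_mem hv₀ hu₀)).eq, show z * (v₀ * u₀) * u₀⁻¹ * v₀⁻¹ = z by group] at h1
      have hD1 : ∀ x : H, (x : G) ∈ D → Abelianization.of x = 1 := by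
        intro x hx
        obtain ⟨h, hd⟩ := hcomap _ _ hx
        exact (QuotientGroup.eq_one_iff _).mpr hd
      intro x k hk
      refine ⟨1, ?_⟩
      rw [one_pow]
      have hsq : ∀ e ∈ E, e * e ∈ D := fun e he => by
        rcases hE'.sq_mem he with h | h <;> rw [h]
        exacts [D.one_mem, hzD]
      by_cases hall : ∀ g : H, (g : G) ∈ E
      · rw [← map_pow]
        exact hD1 _ (by rw [SubgroupClass.coe_pow, pow_two]; exact hsq _ (hall x))
      -- `H` permutes the three non-trivial elements of `E` modulo its centre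
      let s : Finset G := Finset.univ.filter fun e => e ∈ E ∧ e ≠ 1 ∧ e ≠ z
      let pr : G → Finset G := fun e => {e, e * z}
      let P : Finset (Finset G) := s.image pr
      have hsmem : ∀ e, e ∈ s ↔ e ∈ E ∧ e ≠ 1 ∧ e ≠ z := fun e => by simp [s]
      have hsz : ∀ e ∈ s, e * z ∈ s := fun e he => by
        rw [hsmem] at he ⊢
        refine ⟨E.mul_mem he.1 hzE, fun h => he.2.2 ?_, fun h => he.2.1 (mul_eq_right.mp h)⟩
        rw [← inv_eq_of_mul_eq_one_right hE'.sq]; exact eq_inv_of_mul_eq_one_left h
      have hpr : ∀ e, pr (e * z) = pr e := fun e => by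
        simp only [pr, mul_assoc, hE'.sq, mul_one, Finset.pair_comm]
      have hpr' : ∀ e f, pr e = pr f → f = e ∨ f = e * z := fun e f h => by
        have : f ∈ pr e := h ▸ Finset.mem_insert_self _ _
        simpa [pr] using this
      have hPcard : P.card = 3 := by
        have h1 : s.card = 6 := by
          have h2 : (Finset.univ.filter fun e => e ∈ E).card = 8 := by
            rw [← hE8, Nat.card_eq_fintype_card, Fintype.card_subtype]
          have h3 : s = ((Finset.univ.filter fun e => e ∈ E).erase 1).erase z := by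
            ext e; simp only [hsmem, Finset.mem_erase, Finset.mem_filter, Finset.mem_univ, true_and]; tauto
          rw [h3, Finset.card_erase_of_mem (by simp [hzE, hE'.ne_one]), Finset.card_erase_of_mem (by simp), h2]
        have h5 : ∀ b ∈ P, (s.filter fun e => pr e = b).card = 2 := by
          intro b hb
          obtain ⟨e, he, rfl⟩ := Finset.mem_image.mp hb
          rw [show (s.filter fun f => pr f = pr e) = {e, e * z} from ?_]
          · exact Finset.card_pair fun h => hE'.ne_one (mul_eq_left.mp h.symm)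
          ext f
          simp only [Finset.mem_filter, Finset.mem_insert, Finset.mem_singleton]
          constructor
          · exact fun h => hpr' e f h.2.symm
          · rintro (rfl | rfl)
            · exact ⟨he, rfl⟩
            · exact ⟨hsz e he, hpr e⟩
        rw [Finset.card_eq_sum_card_image pr s, Finset.sum_congr rfl h5, Finset.sum_const, smul_eq_mul] at h1
        omega
      have hcs : ∀ g ∈ H, ∀ e ∈ s, g * e * g⁻¹ ∈ s := fun g hg e he => by
        rw [hsmem] at he ⊢
        have hgz := Subgroup.mem_centralizer_singleton_iff.mp hg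
        refine ⟨hEn g hg e he.1, fun h => he.2.1 (conj_eq_one_iff.mp h), fun h => he.2.2 ?_⟩
        have : g * e = g * z := by rw [hgz, ← mul_inv_eq_iff_eq_mul, h]
        exact mul_left_cancel this
      have hcp : ∀ g ∈ H, ∀ e, (pr e).image (fun u => g * u * g⁻¹) = pr (g * e * g⁻¹) := fun g hg e => by
        have hgz := Subgroup.mem_centralizer_singleton_iff.mp hg
        simp only [pr, Finset.image_insert, Finset.image_singleton]
        rw [show g * (e * z) * g⁻¹ = g * e * g⁻¹ * (g * z * g⁻¹) by group, hgz, mul_inv_cancel_right]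
      have hcP : ∀ g ∈ H, ∀ b ∈ P, b.image (fun u => g * u * g⁻¹) ∈ P := fun g hg b hb => by
        obtain ⟨e, he, rfl⟩ := Finset.mem_image.mp hb
        rw [hcp g hg]
        exact Finset.mem_image_of_mem _ (hcs g hg e he)
      letI act : MulAction H P :=
        { smul := fun g b => ⟨b.1.image fun u => (g : G) * u * (g : G)⁻¹, hcP g g.2 b b.2⟩
          one_smul := fun b => Subtype.ext (by
            show b.1.image _ = b.1
            simp)
          mul_smul := fun g h b => Subtype.ext (by
            show b.1.image _ = (b.1.image _).image _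
            rw [Finset.image_image]
            congr 1
            funext u
            simp only [Function.comp_apply, Subgroup.coe_mul]
            group) }
      let φ := MulAction.toPermHom H P
      have hmkP : ∀ e, ∀ he : e ∈ s, pr e ∈ P := fun e he => Finset.mem_image_of_mem _ he
      have hφ : ∀ g : H, ∀ e, ∀ he : e ∈ s, (φ g ⟨pr e, hmkP e he⟩ : Finset G) = pr ((g : G) * e * (g : G)⁻¹) :=
        fun g e _ => hcp g g.2 e
      have hker : φ.ker = E.subgroupOf H := by
        ext g
        rw [MonoidHom.mem_ker, Subgroup.mem_subgroupOf]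
        constructor
        · intro hg
          have hgz := Subgroup.mem_centralizer_singleton_iff.mp g.2
          have hgz' : (g : G) * z * (g : G)⁻¹ = z := by rw [hgz, mul_inv_cancel_right]
          obtain ⟨f, hf, hfe⟩ := hE'.exists_inner hgz' (fun e he => by
            by_cases he1 : e = 1
            · subst he1; left; group
            by_cases hez : e = z
            · subst hez; exact Or.inl hgz'
            have hes : e ∈ s := (hsmem e).mpr ⟨he, he1, hez⟩
            have h1 := hφ g e hes
            rw [hg] at h1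
            exact hpr' _ _ h1)
          have hc : f⁻¹ * (g : G) ∈ Subgroup.centralizer (E : Set G) := fun e he => by
            have h1 := hfe e he
            calc e * (f⁻¹ * (g : G)) = f⁻¹ * (f * e * f⁻¹) * (g : G) := by group
              _ = f⁻¹ * ((g : G) * e * (g : G)⁻¹) * (g : G) := by rw [h1]
              _ = f⁻¹ * (g : G) * e := by group
          simpa using E.mul_mem hf (hcent hc)
        · intro hg
          refine Equiv.ext fun b => Subtype.ext ?_
          obtain ⟨e, he, heb⟩ := Finset.mem_image.mp b.2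
          have h1 := hφ g e he
          rw [show (⟨pr e, hmkP e he⟩ : P) = b from Subtype.ext heb] at h1
          rw [h1, show ((1 : Equiv.Perm P) b : Finset G) = pr e from heb.symm]
          rcases hE'.conj_cases hg ((hsmem e).mp he).1 with h | h
          · rw [h]
          · rw [h, hpr]
      have hQ : Nat.card φ.range ∣ 6 := by
        have h1 := Subgroup.card_subgroup_dvd_card φ.range
        rw [Nat.card_perm, Nat.card_eq_finsetCard, hPcard] at h1
        exact h1
      obtain ⟨y, hy⟩ : ∃ y : φ.range, orderOf y = 3 := by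
        haveI : Fact (Nat.Prime 3) := ⟨Nat.prime_three⟩
        refine exists_prime_orderOf_dvd_card' 3 ?_
        by_contra h3
        have h2 : Nat.card φ.range ∣ 2 := by
          have := Nat.Coprime.dvd_of_dvd_mul_right (n := 3) (((Nat.prime_three.coprime_iff_not_dvd).mpr h3).symm) (m := 2) (by simpa using hQ)
          exact this
        refine hall fun g => ?_
        have hp2 : IsPGroup 2 φ.range := by
          rcases (Nat.dvd_prime Nat.prime_two).mp h2 with h | h
          · exact IsPGroup.of_card (n := 0) (by rw [h, pow_zero])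
          · exact IsPGroup.of_card (n := 1) (by rw [h, pow_one])
        have htop : IsPGroup 2 H := by
          intro g
          obtain ⟨j, hj⟩ := hp2 ⟨φ g, g, rfl⟩
          have h4 : g ^ 2 ^ j ∈ φ.ker := by
            rw [MonoidHom.mem_ker, map_pow]
            exact congrArg Subtype.val hj
          rw [hker, Subgroup.mem_subgroupOf] at h4
          obtain ⟨i, hi⟩ := hEp ⟨_, h4⟩
          refine ⟨j + i, Subtype.ext ?_⟩
          have := congrArg Subtype.val hi
          simpa [pow_add, pow_mul] using this
        have h5 : g ∈ E.subgroupOf H := by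
          rw [hsub]
          exact CfsgLib.Core.le_pCore inferInstance (htop.to_subgroup ⊤) (Subgroup.mem_top g)
        exact h5
      obtain ⟨g, hg⟩ := y.2
      have hmove : ∀ b : P, φ g b ≠ b := by
        intro b hb
        have ho : orderOf (φ g) = 3 := by rw [hg, Subgroup.orderOf_coe, hy]
        obtain ⟨n, hn⟩ := Equiv.Perm.cycleType_prime_order (σ := φ g) (by rw [ho]; exact Nat.prime_three)
        have h1 := Equiv.Perm.sum_cycleType (φ g)
        rw [hn, Multiset.sum_replicate, ho, smul_eq_mul] at h1
        have h2 : (φ g).support.card < Fintype.card P :=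
          Finset.card_lt_univ_of_notMem (x := b) (by rw [Equiv.Perm.mem_support, not_not]; exact hb)
        rw [Fintype.card_coe, hPcard] at h2
        omega
      have hw : ∀ e ∈ s, (g : G) * e * (g : G)⁻¹ * e⁻¹ ∈ D ∧ (g : G) * e * (g : G)⁻¹ * e⁻¹ ∈ s := by
        intro e he
        have hm := hmove ⟨pr e, hmkP e he⟩
        have h1 := hφ g e he
        refine ⟨hDc g g.2 e (hEH ((hsmem e).mp he).1), (hsmem _).mpr ⟨E.mul_mem (hEn g g.2 e ((hsmem e).mp he).1) (E.inv_mem ((hsmem e).mp he).1), ?_, ?_⟩⟩
        · intro h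
          rw [mul_inv_eq_one.mp h] at h1
          exact hm (Subtype.ext h1)
        · intro h
          rw [mul_inv_eq_iff_eq_mul, ← (hE'.central e ((hsmem e).mp he).1).eq] at h
          rw [h, hpr] at h1
          exact hm (Subtype.ext h1)
      obtain ⟨e, he⟩ : ∃ e, e ∈ s := ⟨u₀, (hsmem _).mpr ⟨hu₀, hu₀z⟩⟩
      obtain ⟨w, hwdef⟩ : ∃ w, w = (g : G) * e * (g : G)⁻¹ * e⁻¹ := ⟨_, rfl⟩
      obtain ⟨hwD, hws⟩ := hw e he
      rw [← hwdef] at hwD hws
      obtain ⟨hw'D, hw's⟩ := hw w hws
      obtain ⟨w', hw'def⟩ : ∃ w', w' = (g : G) * w * (g : G)⁻¹ * w⁻¹ := ⟨_, rfl⟩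
      rw [← hw'def] at hw'D hw's
      have hwE := ((hsmem w).mp hws).1
      have hw'E := ((hsmem w').mp hw's).1
      have hne : w' ≠ w ∧ w' ≠ w * z := by
        have h1 : (g : G) * w * (g : G)⁻¹ = w' * w := by rw [hw'def, inv_mul_cancel_right]
        have h2 := hcs g g.2 w hws
        rw [h1, hsmem] at h2
        constructor <;> intro h <;> rw [h] at h2
        · rcases hE'.sq_mem hwE with e | e
          · exact h2.2.1 e
          · exact h2.2.2 e
        · rw [mul_assoc, ← (hE'.central w hwE).eq, ← mul_assoc] at h2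
          rcases hE'.sq_mem hwE with e | e <;> rw [e] at h2
          · exact h2.2.2 (one_mul z)
          · exact h2.2.1 hE'.sq
      have hED : E ≤ D := by
        have h4 : Nat.card E ≤ Nat.card (E ⊓ D : Subgroup G) := by
          rw [hE8]
          have h5 : ({1, z, w, w * z, w'} : Finset G).card = 5 := by
            obtain ⟨-, a1, a2⟩ := (hsmem w).mp hws
            obtain ⟨-, b1, b2⟩ := (hsmem w').mp hw's
            obtain ⟨-, c1, c2⟩ := (hsmem _).mp (hsz w hws)
            have c3 : w * z ≠ w := fun h => hE'.ne_one (mul_eq_left.mp h)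
            rw [Finset.card_insert_of_notMem, Finset.card_insert_of_notMem, Finset.card_insert_of_notMem,
              Finset.card_insert_of_notMem, Finset.card_singleton]
            · simp only [Finset.mem_singleton]; exact hne.2.symm
            · simp only [Finset.mem_insert, Finset.mem_singleton, not_or]; exact ⟨c3.symm, hne.1.symm⟩
            · simp only [Finset.mem_insert, Finset.mem_singleton, not_or]; exact ⟨a2.symm, c2.symm, b2.symm⟩
            · simp only [Finset.mem_insert, Finset.mem_singleton, not_or]; exact ⟨hE'.ne_one.symm, a1.symm, c1.symm, b1.symm⟩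
          have h6 : 5 ≤ Nat.card (E ⊓ D : Subgroup G) := by
            rw [← h5, ← Fintype.card_coe, ← Nat.card_eq_fintype_card]
            refine Nat.card_le_card_of_injective (fun x => (⟨x.1, ?_⟩ : (E ⊓ D : Subgroup G))) fun a b e => Subtype.ext (congrArg (fun q : (E ⊓ D : Subgroup G) => (q : G)) e)
            have := x.2
            simp only [Finset.mem_insert, Finset.mem_singleton] at this
            rcases this with e | e | e | e | e <;> rw [e]
            exacts [one_mem _, ⟨hzE, hzD⟩, ⟨hwE, hwD⟩, ⟨E.mul_mem hwE hzE, D.mul_mem hwD hzD⟩, ⟨hw'E, hw'D⟩]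
          obtain ⟨c, hc⟩ := Subgroup.card_dvd_of_le (inf_le_left : E ⊓ D ≤ E)
          rw [hE8] at hc
          rcases c with _ | _ | c
          · omega
          · omega
          · exfalso
            have := Nat.mul_le_mul_left (Nat.card (E ⊓ D : Subgroup G)) (show 2 ≤ c + 1 + 1 by omega)
            omega
        exact inf_eq_left.mp (Subgroup.eq_of_le_of_card_ge inf_le_left h4)
      have h6 : Abelianization.of x ^ 6 = 1 := by
        rw [← map_pow]
        refine hD1 _ (hED ?_)
        have h1 : x ^ 6 ∈ φ.ker := by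
          rw [MonoidHom.mem_ker, map_pow]
          have h2 := orderOf_dvd_natCard (⟨φ x, x, rfl⟩ : φ.range)
          have h3 := orderOf_dvd_iff_pow_eq_one.mp (h2.trans hQ)
          exact congrArg Subtype.val h3
        rwa [hker, Subgroup.mem_subgroupOf] at h1
      have h7 := orderOf_dvd_of_pow_eq_one h6
      rw [hk] at h7
      apply orderOf_dvd_iff_pow_eq_one.mp
      rw [hk]
      have hco : Nat.Coprime (2 ^ k) 3 := Nat.Coprime.pow_left k (by norm_num)
      exact hco.dvd_of_dvd_mul_right (by simpa using h7)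
  -- squares of 2-elements die
  by_contra hcon
  push Not at hcon
  obtain ⟨q₀, hq₀, hq₀'⟩ := hcon
  haveI : Fintype (Abelianization H) := Fintype.ofFinite _
  obtain ⟨q, hq, hmax⟩ := Finset.exists_max_image
    (Finset.univ.filter fun q : Abelianization H => (∃ k, orderOf q = 2 ^ k) ∧ q ^ 2 ≠ 1) orderOf
    ⟨q₀, Finset.mem_filter.mpr ⟨Finset.mem_univ _, hq₀, hq₀'⟩⟩
  obtain ⟨-, ⟨k, hk⟩, hq2⟩ := Finset.mem_filter.mp hq
  obtain ⟨x, hx⟩ := QuotientGroup.mk_surjective q
  obtain ⟨r, hr⟩ := main x k (by rw [show Abelianization.of x = q from hx, hk])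
  rw [show Abelianization.of x = q from hx] at hr
  obtain ⟨m, hm⟩ : ∃ m, orderOf r = 2 ^ (orderOf r).factorization 2 * m := Nat.ordProj_dvd _ _
  obtain ⟨l, hl⟩ : ∃ l, l = (orderOf r).factorization 2 := ⟨_, rfl⟩
  rw [← hl] at hm
  have hmodd : ¬ 2 ∣ m := fun ⟨j, hj⟩ => Nat.pow_succ_factorization_not_dvd (orderOf_pos r).ne' Nat.prime_two
    ⟨j, by rw [← hl, pow_succ]; conv_lhs => rw [hm, hj]
           ring⟩
  have hr' : orderOf (r ^ m) = 2 ^ l := by
    rw [orderOf_pow_of_dvd (show m ≠ 0 from fun h => hmodd (by simp [h])) ⟨2 ^ l, by rw [hm, mul_comm]⟩, hm,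
      Nat.mul_div_cancel _ (Nat.pos_of_ne_zero (fun h => hmodd (by simp [h])))]
  have hk2 : 2 ≤ k := by
    by_contra h
    apply hq2
    apply orderOf_dvd_iff_pow_eq_one.mp
    rw [hk]
    exact pow_dvd_pow 2 (show k ≤ 1 by omega)
  have hco : Nat.Coprime (2 ^ k) m := Nat.Coprime.pow_left k (Nat.prime_two.coprime_iff_not_dvd.mpr hmodd)
  have e1 : (r ^ m) ^ 4 = (q ^ m) ^ 2 := by
    rw [← pow_mul, mul_comm, pow_mul, ← hr, ← pow_mul, mul_comm, pow_mul]
  have hqm : orderOf ((q ^ m) ^ 2) = 2 ^ (k - 1) := by
    rw [orderOf_pow_of_dvd two_ne_zero, Nat.Coprime.orderOf_pow (hk ▸ hco), hk]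
    · have : (2 : ℕ) ^ k = 2 ^ (k - 1) * 2 := by rw [← pow_succ, Nat.sub_add_cancel (by omega)]
      rw [this, Nat.mul_div_cancel _ (by norm_num)]
    · rw [Nat.Coprime.orderOf_pow (hk ▸ hco), hk]
      exact dvd_pow_self 2 (by omega)
  have hl2 : 2 < l := by
    by_contra h
    have h1 : (r ^ m) ^ 4 = 1 := orderOf_dvd_iff_pow_eq_one.mp (by
      rw [hr', show 4 = 2 ^ 2 by norm_num]
      exact pow_dvd_pow 2 (by omega))
    rw [e1] at h1
    rw [h1, orderOf_one] at hqm
    exact (Nat.one_lt_two_pow (show k - 1 ≠ 0 by omega)).ne hqm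
  have hl' : l - 2 = k - 1 := by
    have h1 : orderOf ((r ^ m) ^ 4) = 2 ^ (l - 2) := by
      rw [orderOf_pow_of_dvd (by norm_num) (by rw [hr', show 4 = 2 ^ 2 by norm_num]; exact pow_dvd_pow 2 hl2.le), hr',
        show 4 = 2 ^ 2 by norm_num, Nat.pow_div hl2.le (by norm_num)]
    rw [e1, hqm] at h1
    exact (Nat.pow_right_injective le_rfl h1).symm
  have h5 := hmax (r ^ m) (Finset.mem_filter.mpr ⟨Finset.mem_univ _, ⟨l, hr'⟩, fun h => by
    have := orderOf_dvd_of_pow_eq_one h
    rw [hr'] at this
    have := (Nat.pow_dvd_pow_iff_le_right one_lt_two).mp (this.trans (pow_one 2).symm.dvd)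
    omega⟩)
  rw [hr', hk] at h5
  have := (Nat.pow_le_pow_iff_right one_lt_two).mp h5
  omega

end Cfsg.Agent.S3301
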