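import Cfsg.Statements.S3303
import Mathlib
import Cfsg.Agent.Lib.PComponents2

set_option autoImplicit false
open Cfsg
open scoped Pointwise

namespace Cfsg.Agent.S3303

/-- Let G be a finite solvable group in which the intersection of any two distinct Sylow 2-subgroups is cyclic. Then G/O(G) has a normal Sylow 2-subgroup, where O(G) is the largest normal subgroup of odd order. -/
theorem result {G : Type*} [Group G] [Finite G] (hs : Group.IsSolvable G)
    (hC : ∀ S T : Sylow 2 G, S ≠ T → IsCyclic ↥((S : Subgroup G) ⊓ (T : Subgroup G))) :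
    ∃ P : Sylow 2 (G ⧸ Cfsg.oddCore G), (P : Subgroup (G ⧸ Cfsg.oddCore G)).Normal := by
  classical
  set N := Cfsg.oddCore G with hN
  haveI : N.Characteristic := CfsgLib.Core.pPrimeCore_characteristic (G := G) 2
  have hch : CfsgLib.CharP.HasCharP 2 (G ⧸ N) :=
    CfsgLib.PConstrained.isPConstrained_iff.1 (CfsgLib.PComponents.constrained_of_solvable hs)
  have hsurj := QuotientGroup.mk'_surjective N
  haveI := CfsgLib.Core.pCore_characteristic (G := G ⧸ N) 2
  set Q := Cfsg.pCore 2 (G ⧸ N) with hQ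
  set K : Subgroup G := Q.comap (QuotientGroup.mk' N) with hK
  haveI : K.Normal := inferInstance
  let Q0 : Sylow 2 K := default
  set R : Subgroup G := (Q0 : Subgroup K).map K.subtype with hR
  obtain ⟨S, hS⟩ := (Q0.2.map K.subtype).exists_le_sylow
  set S' := S.mapSurjective hsurj with hS'
  have hQp : IsPGroup 2 Q := CfsgLib.Core.isPGroup_pCore (G := G ⧸ N) 2
  have hQR : R.map (QuotientGroup.mk' N) = Q := by
    refine le_antisymm ?_ ?_
    · rintro _ ⟨_, ⟨q, _, rfl⟩, rfl⟩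
      exact q.2
    · intro y hy
      obtain ⟨x, rfl⟩ := hsurj y
      let f : K →* Q := ((QuotientGroup.mk' N).comp K.subtype).codRestrict Q fun k => k.2
      have hf : Function.Surjective f := fun z => by
        obtain ⟨w, hw⟩ := hsurj z.1
        exact ⟨⟨w, by show QuotientGroup.mk' N w ∈ Q; rw [hw]; exact z.2⟩, Subtype.ext hw⟩
      have htop : ((Q0.mapSurjective hf : Sylow 2 Q) : Subgroup Q) = ⊤ :=
        ((Q0.mapSurjective hf).3 (hQp.to_subgroup ⊤) le_top).symm
      have : (⟨_, hy⟩ : Q) ∈ ((Q0.mapSurjective hf : Sylow 2 Q) : Subgroup Q) := htop ▸ Subgroup.mem_top _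
      rw [Sylow.coe_mapSurjective] at this
      obtain ⟨k, hk, hk'⟩ := this
      exact ⟨k, ⟨k, hk, rfl⟩, congrArg Subtype.val hk'⟩
  have hQS : Q ≤ (S' : Subgroup (G ⧸ N)) := by
    rw [← hQR, Sylow.coe_mapSurjective]
    exact Subgroup.map_mono hS
  by_cases hn : (S' : Subgroup (G ⧸ N)).Normal
  · exact ⟨S', hn⟩
  have hex : ∃ g x : G ⧸ N, x ∈ (S' : Subgroup (G ⧸ N)) ∧ g * x * g⁻¹ ∉ (S' : Subgroup (G ⧸ N)) := by
    by_contra h
    exact hn ⟨fun x hx g => by_contra fun h' => h ⟨g, x, hx, h'⟩⟩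
  obtain ⟨g', x, hx, hgx⟩ := hex
  obtain ⟨g, rfl⟩ := hsurj g'
  have hg : g ∈ Subgroup.normalizer (R : Set G) ⊔ K := by
    rw [hR, Sylow.normalizer_sup_eq_top Q0]; trivial
  obtain ⟨n, hnn, k, hk, rfl⟩ := Subgroup.mem_sup_of_normal_right.mp hg
  have hne : (n • S : Sylow 2 G) ≠ S := by
    intro h
    have hx' : (k : G ⧸ N) * x * (k : G ⧸ N)⁻¹ ∈ (S' : Subgroup (G ⧸ N)) :=
      mul_mem (mul_mem (hQS hk) hx) (inv_mem (hQS hk))
    rw [hS', Sylow.coe_mapSurjective] at hx'
    obtain ⟨s, hs', hse⟩ := hx'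
    apply hgx
    rw [hS', Sylow.coe_mapSurjective]
    refine ⟨n * s * n⁻¹, ?_, ?_⟩
    · have : n * s * n⁻¹ ∈ ((n • S : Sylow 2 G) : Subgroup G) := by
        rw [Sylow.coe_subgroup_smul, Subgroup.mem_pointwise_smul_iff_inv_smul_mem]
        simp only [MulAut.smul_def, map_inv]; simp [mul_assoc]; exact hs'
      rwa [h] at this
    · simp only [map_mul, map_inv, hse]
      show (n : G ⧸ N) * ((k : G ⧸ N) * x * (k : G ⧸ N)⁻¹) * (n : G ⧸ N)⁻¹ =
        (n : G ⧸ N) * (k : G ⧸ N) * x * ((n : G ⧸ N) * (k : G ⧸ N))⁻¹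
      group
  have hle : R ≤ ((n • S : Sylow 2 G) : Subgroup G) ⊓ (S : Subgroup G) := by
    refine le_inf (fun q hq => ?_) hS
    rw [Sylow.coe_subgroup_smul, Subgroup.mem_pointwise_smul_iff_inv_smul_mem]
    have := hS ((Subgroup.mem_normalizer_iff''.mp hnn q).mp hq)
    simpa [MulAut.smul_def] using this
  haveI := hC _ _ hne
  haveI : IsCyclic R := Subgroup.isCyclic_of_le hle
  haveI : IsCyclic Q := by
    let f : R →* Q := ((QuotientGroup.mk' N).comp R.subtype).codRestrict Q fun r =>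
      hQR ▸ Subgroup.mem_map_of_mem _ r.2
    refine isCyclic_of_surjective f fun z => ?_
    obtain ⟨r, hr, hre⟩ : z.1 ∈ R.map (QuotientGroup.mk' N) := hQR.symm ▸ z.2
    exact ⟨⟨r, hr⟩, Subtype.ext hre⟩
  have h2 : IsPGroup 2 (G ⧸ N) := CfsgLib.LocalBasic.isPGroup_of_coprime_elements fun c hc => by
    refine CfsgLib.CharP.eq_one_of_centralizes hch hc fun y hy => ?_
    have hc1 : orderOf (MulAut.conjNormal c : MulAut Q) ∣ orderOf c := orderOf_map_dvd _ c
    have hc2 : orderOf (MulAut.conjNormal c : MulAut Q) ∣ Nat.totient (Nat.card Q) :=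
      IsCyclic.card_mulAut Q ▸ orderOf_dvd_natCard _
    obtain ⟨m, hm⟩ := IsPGroup.iff_card.mp hQp
    have hone : orderOf (MulAut.conjNormal c : MulAut Q) = 1 := by
      apply Nat.eq_one_of_dvd_coprimes (a := orderOf c) (b := 2 ^ m) (hc.pow_right m) hc1
      rcases Nat.eq_zero_or_pos m with rfl | hm0
      · simpa [hm] using hc2
      · rw [hm, Nat.totient_prime_pow Nat.prime_two hm0, Nat.mul_one] at hc2
        exact hc2.trans (pow_dvd_pow 2 (Nat.sub_le m 1))
    have := congrArg (fun e : MulAut Q => (e ⟨y, hy⟩).1) (orderOf_eq_one_iff.mp hone)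
    simp only [MulAut.conjNormal_apply, MulAut.one_apply] at this
    exact mul_inv_eq_iff_eq_mul.mp this
  have htop : (S' : Subgroup (G ⧸ N)) = ⊤ := (S'.3 (h2.to_subgroup ⊤) le_top).symm
  exact ⟨S', htop ▸ inferInstance⟩

end Cfsg.Agent.S3303
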