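import Cfsg.Statements.S3304
import Mathlib
import Cfsg.Agent.Lib.OddQuad
import Cfsg.Agent.Lib.Core
import Cfsg.Agent.Lib.UniqueOrderP
import Cfsg.Agent.Lib.Extra2.Core

set_option autoImplicit false
open Cfsg

set_option maxHeartbeats 4000000
set_option maxRecDepth 4000

namespace Cfsg.Agent.S3304

section gen

theorem normalizes_of {X : Type*} [Group X] [Finite X] {N : Subgroup X} {g : X} (h : ∀ n ∈ N, g * n * g⁻¹ ∈ N) :
    g ∈ Subgroup.normalizer (N : Set X) := by
  rw [Subgroup.mem_normalizer_iff]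
  refine fun n => ⟨h n, fun hn => ?_⟩
  have hf : Function.Injective (fun m : N => (⟨g * m * g⁻¹, h m m.2⟩ : N)) := fun a b e => by
    apply Subtype.ext
    have := congrArg Subtype.val e
    simpa using this
  obtain ⟨m, hm⟩ := (Finite.injective_iff_surjective.mp hf) ⟨g * n * g⁻¹, hn⟩
  have h1 : g * (m : X) * g⁻¹ = g * n * g⁻¹ := congrArg Subtype.val hm
  rw [← mul_left_cancel (mul_right_cancel h1)]
  exact m.2

/-- Elements satisfying the relations of `GL(2,3)`. -/
structure Rel {X : Type*} [Group X] (i y t : X) : Prop where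
  i4 : i ^ 4 = 1
  y3 : y ^ 3 = 1
  t2 : t * t = 1
  tyt : t * y * t = y⁻¹
  tit : t * i * t = i⁻¹
  conj : i * (y * i * y⁻¹) * i⁻¹ = (y * i * y⁻¹)⁻¹
  sq : (y * i * y⁻¹) ^ 2 = i ^ 2
  third : y * (y * i * y⁻¹) * y⁻¹ = i * (y * i * y⁻¹)

theorem Rel.card_le {X : Type*} [Group X] [Finite X] {i y t : X} (h : Rel i y t) :
    Nat.card (Subgroup.closure ({i, y, t} : Set X)) ≤ 48 := by
  classical
  obtain ⟨j, hj⟩ : ∃ j, j = y * i * y⁻¹ := ⟨_, rfl⟩
  have hconj := h.conj
  have hsq := h.sq
  have hthird := h.third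
  rw [← hj] at hconj hsq hthird
  have htinv : t⁻¹ = t := inv_eq_of_mul_eq_one_right h.t2
  obtain ⟨C, hC⟩ : ∃ C : Subgroup X, C = Subgroup.zpowers i := ⟨_, rfl⟩
  obtain ⟨F, hF⟩ : ∃ F : Subgroup X, F = C ⊔ Subgroup.zpowers j := ⟨_, rfl⟩
  obtain ⟨S, hS⟩ : ∃ S : Subgroup X, S = Subgroup.zpowers y ⊔ Subgroup.zpowers t := ⟨_, rfl⟩
  have hiC : i ∈ C := hC ▸ Subgroup.mem_zpowers i
  have hiF : i ∈ F := hF ▸ Subgroup.mem_sup_left hiC
  have hjF : j ∈ F := hF ▸ Subgroup.mem_sup_right (Subgroup.mem_zpowers j)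
  have hji : j * i * j⁻¹ = i⁻¹ := by
    have h1 : j * (i * j) = i := by rw [mul_inv_eq_iff_eq_mul.mp hconj, mul_inv_cancel_left]
    calc j * i * j⁻¹ = j * (i * j) * (j ^ 2)⁻¹ := by group
      _ = i * (i ^ 2)⁻¹ := by rw [h1, hsq]
      _ = i⁻¹ := by group
  have hCn : Subgroup.zpowers j ≤ Subgroup.normalizer (C : Set X) := by
    rw [Subgroup.zpowers_le]
    refine normalizes_of fun c hc => ?_
    rw [hC] at hc ⊢
    obtain ⟨k, rfl⟩ := Subgroup.mem_zpowers_iff.mp hc
    rw [← conj_zpow, hji]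
    exact zpow_mem (inv_mem (Subgroup.mem_zpowers i)) k
  have hFcard : Nat.card F ≤ 8 := by
    have hsub : (F : Set X) ⊆ Set.range (fun q : Fin 4 × Fin 2 => i ^ (q.1 : ℕ) * j ^ (q.2 : ℕ)) := by
      rw [hF, Subgroup.coe_mul_of_right_le_normalizer_left _ _ hCn]
      rintro _ ⟨c, hc, v, hv, rfl⟩
      rw [hC] at hc
      obtain ⟨a, rfl⟩ := mem_powers_iff_mem_zpowers.mpr hc
      obtain ⟨b, rfl⟩ := mem_powers_iff_mem_zpowers.mpr hv
      refine ⟨(⟨(a + 2 * (b / 2)) % 4, Nat.mod_lt _ (by norm_num)⟩, ⟨b % 2, Nat.mod_lt _ (by norm_num)⟩), ?_⟩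
      show i ^ ((a + 2 * (b / 2)) % 4) * j ^ (b % 2) = i ^ a * j ^ b
      conv_rhs => rw [← Nat.div_add_mod b 2, pow_add, pow_mul, hsq, ← pow_mul, ← mul_assoc, ← pow_add]
      rw [← pow_eq_pow_mod _ h.i4]
    have h1 := Set.ncard_le_ncard hsub
    have h2 := Finite.card_range_le (fun q : Fin 4 × Fin 2 => i ^ (q.1 : ℕ) * j ^ (q.2 : ℕ))
    rw [Nat.card_coe_set_eq, Nat.card_prod, Nat.card_fin, Nat.card_fin] at h2
    rw [← Nat.card_coe_set_eq] at h1
    exact h1.trans h2
  have hyn : y ∈ Subgroup.normalizer (F : Set X) := by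
    refine normalizes_of fun c hc => ?_
    have hle : F ≤ F.comap (MulAut.conj y).toMonoidHom := by
      conv_lhs => rw [hF, hC]
      refine sup_le (Subgroup.zpowers_le.mpr ?_) (Subgroup.zpowers_le.mpr ?_)
      · show y * i * y⁻¹ ∈ F
        rw [← hj]; exact hjF
      · show y * j * y⁻¹ ∈ F
        rw [hthird]; exact mul_mem hiF hjF
    exact hle hc
  have htn : t ∈ Subgroup.normalizer (F : Set X) := by
    refine normalizes_of fun c hc => ?_
    have hle : F ≤ F.comap (MulAut.conj t).toMonoidHom := by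
      conv_lhs => rw [hF, hC]
      refine sup_le (Subgroup.zpowers_le.mpr ?_) (Subgroup.zpowers_le.mpr ?_)
      · show t * i * t⁻¹ ∈ F
        rw [htinv, h.tit]; exact inv_mem hiF
      · show t * j * t⁻¹ ∈ F
        have e : t * j * t⁻¹ = (i * j)⁻¹ := by
          calc t * j * t⁻¹ = (t * y * t⁻¹) * (t * i * t⁻¹) * (t * y * t⁻¹)⁻¹ := by rw [hj]; group
            _ = y⁻¹ * i⁻¹ * y⁻¹⁻¹ := by rw [htinv, h.tyt, h.tit]
            _ = y ^ 3 * (y⁻¹ * i⁻¹ * y⁻¹⁻¹) * (y ^ 3)⁻¹ := by rw [h.y3, one_mul, inv_one, mul_one]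
            _ = (y * (y * i * y⁻¹) * y⁻¹)⁻¹ := by simp only [pow_succ, pow_zero, one_mul, mul_inv_rev, inv_inv, mul_assoc, mul_inv_cancel_left, inv_mul_cancel_left, mul_inv_cancel, mul_one]
            _ = (i * j)⁻¹ := by rw [← hj, hthird]
        rw [e]; exact inv_mem (mul_mem hiF hjF)
    exact hle hc
  have hYn : Subgroup.zpowers t ≤ Subgroup.normalizer (Subgroup.zpowers y : Set X) := by
    rw [Subgroup.zpowers_le]
    refine normalizes_of fun c hc => ?_
    obtain ⟨k, rfl⟩ := Subgroup.mem_zpowers_iff.mp hc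
    rw [← conj_zpow, htinv, h.tyt]
    exact zpow_mem (inv_mem (Subgroup.mem_zpowers y)) k
  have hScard : Nat.card S ≤ 6 := by
    have hsub : (S : Set X) ⊆ Set.range (fun q : Fin 3 × Fin 2 => y ^ (q.1 : ℕ) * t ^ (q.2 : ℕ)) := by
      rw [hS, Subgroup.coe_mul_of_right_le_normalizer_left _ _ hYn]
      rintro _ ⟨c, hc, v, hv, rfl⟩
      obtain ⟨a, rfl⟩ := mem_powers_iff_mem_zpowers.mpr hc
      obtain ⟨b, rfl⟩ := mem_powers_iff_mem_zpowers.mpr hv
      refine ⟨(⟨a % 3, Nat.mod_lt _ (by norm_num)⟩, ⟨b % 2, Nat.mod_lt _ (by norm_num)⟩), ?_⟩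
      show y ^ (a % 3) * t ^ (b % 2) = y ^ a * t ^ b
      rw [← pow_eq_pow_mod _ h.y3, ← pow_eq_pow_mod _ (show t ^ 2 = 1 by rw [pow_two]; exact h.t2)]
    have h1 := Set.ncard_le_ncard hsub
    have h2 := Finite.card_range_le (fun q : Fin 3 × Fin 2 => y ^ (q.1 : ℕ) * t ^ (q.2 : ℕ))
    rw [Nat.card_coe_set_eq, Nat.card_prod, Nat.card_fin, Nat.card_fin] at h2
    rw [← Nat.card_coe_set_eq] at h1
    exact h1.trans h2
  have hSn : S ≤ Subgroup.normalizer (F : Set X) := hS ▸ sup_le (Subgroup.zpowers_le.mpr hyn) (Subgroup.zpowers_le.mpr htn)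
  have hle : Subgroup.closure ({i, y, t} : Set X) ≤ F ⊔ S := by
    rw [Subgroup.closure_le]
    rintro g (rfl | rfl | rfl)
    · exact Subgroup.mem_sup_left hiF
    · exact Subgroup.mem_sup_right (hS ▸ Subgroup.mem_sup_left (Subgroup.mem_zpowers _))
    · exact Subgroup.mem_sup_right (hS ▸ Subgroup.mem_sup_right (Subgroup.mem_zpowers _))
  refine (Subgroup.card_le_of_le hle).trans ?_
  have hsub : ((F ⊔ S : Subgroup X) : Set X) ⊆ Set.range (fun q : F × S => (q.1 : X) * q.2) := by
    rw [Subgroup.coe_mul_of_right_le_normalizer_left _ _ hSn]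
    rintro _ ⟨a, ha, b, hb, rfl⟩
    exact ⟨(⟨a, ha⟩, ⟨b, hb⟩), rfl⟩
  have h1 := Set.ncard_le_ncard hsub
  have h2 := Finite.card_range_le (fun q : F × S => (q.1 : X) * q.2)
  rw [Nat.card_coe_set_eq, Nat.card_prod] at h2
  rw [← Nat.card_coe_set_eq] at h1
  exact h1.trans (h2.trans (Nat.mul_le_mul hFcard hScard))

theorem Rel.prod {X Y : Type*} [Group X] [Group Y] {i y t : X} {i' y' t' : Y} (h : Rel i y t) (h' : Rel i' y' t') :
    Rel (i, i') (y, y') (t, t') :=
  ⟨Prod.ext h.i4 h'.i4, Prod.ext h.y3 h'.y3, Prod.ext h.t2 h'.t2, Prod.ext h.tyt h'.tyt, Prod.ext h.tit h'.tit,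
    Prod.ext h.conj h'.conj, Prod.ext h.sq h'.sq, Prod.ext h.third h'.third⟩

/-- Two groups with generators satisfying the relations: a homomorphism. -/
theorem Rel.exists_hom {X Y : Type*} [Group X] [Group Y] [Finite X] [Finite Y] {i y t : X} {i' y' t' : Y}
    (h : Rel i y t) (h' : Rel i' y' t') (hgen : Subgroup.closure ({i, y, t} : Set X) = ⊤) (hX : Nat.card X = 48) :
    ∃ f : X →* Y, f i = i' ∧ f y = y' ∧ f t = t' := by
  classical
  obtain ⟨D, hD⟩ : ∃ D : Subgroup (X × Y), D = Subgroup.closure {(i, i'), (y, y'), (t, t')} := ⟨_, rfl⟩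
  have hcard : Nat.card D ≤ 48 := hD ▸ (h.prod h').card_le
  let π : D →* X := (MonoidHom.fst X Y).comp D.subtype
  have hsurj : Function.Surjective π := by
    rw [← MonoidHom.range_eq_top, eq_top_iff, ← hgen, Subgroup.closure_le]
    rintro g (rfl | rfl | rfl)
    · exact ⟨⟨(g, i'), hD ▸ Subgroup.subset_closure (Or.inl rfl)⟩, rfl⟩
    · exact ⟨⟨(g, y'), hD ▸ Subgroup.subset_closure (Or.inr (Or.inl rfl))⟩, rfl⟩
    · exact ⟨⟨(g, t'), hD ▸ Subgroup.subset_closure (Or.inr (Or.inr rfl))⟩, rfl⟩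
  have hbij : Function.Bijective π := hsurj.bijective_of_nat_card_le (hcard.trans hX.ge)
  let e := MulEquiv.ofBijective π hbij
  refine ⟨((MonoidHom.snd X Y).comp D.subtype).comp e.symm.toMonoidHom, ?_, ?_, ?_⟩
  · have : e.symm i = ⟨(i, i'), hD ▸ Subgroup.subset_closure (Or.inl rfl)⟩ := e.injective (by rw [e.apply_symm_apply]; rfl)
    show ((e.symm i : D) : X × Y).2 = i'
    rw [this]
  · have : e.symm y = ⟨(y, y'), hD ▸ Subgroup.subset_closure (Or.inr (Or.inl rfl))⟩ := e.injective (by rw [e.apply_symm_apply]; rfl)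
    show ((e.symm y : D) : X × Y).2 = y'
    rw [this]
  · have : e.symm t = ⟨(t, t'), hD ▸ Subgroup.subset_closure (Or.inr (Or.inr rfl))⟩ := e.injective (by rw [e.apply_symm_apply]; rfl)
    show ((e.symm t : D) : X × Y).2 = t'
    rw [this]

end gen

theorem q8_facts : ∀ u v : QuaternionGroup 2,
    (u * v = v * u ∨ u * v = v * u * QuaternionGroup.a 2) ∧
    ((u * u = 1 ∧ (u = 1 ∨ u = QuaternionGroup.a 2)) ∨ (u * u = QuaternionGroup.a 2 ∧ u ≠ 1 ∧ u ≠ QuaternionGroup.a 2)) := by
  decide

theorem q8_center : ∀ v : QuaternionGroup 2, (∀ u, u * v = v * u) → v = 1 ∨ v = QuaternionGroup.a 2 := by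
  decide

theorem isExt_q8 {G : Type*} [Group G] (F : Subgroup G) (e : F ≃* QuaternionGroup 2) :
    ∃ z : G, CfsgLib.Extra2.IsExt z F ∧ ∀ u ∈ F, u = 1 ∨ u = z ∨ u * u = z := by
  obtain ⟨z, hzdef⟩ : ∃ z : F, z = e.symm (QuaternionGroup.a 2) := ⟨_, rfl⟩
  have hez : e z = QuaternionGroup.a 2 := by rw [hzdef, MulEquiv.apply_symm_apply]
  refine ⟨(z : G), ⟨z.2, ?_, ?_, ?_, ?_, ?_⟩, ?_⟩
  · have : z * z = 1 := e.injective (by rw [map_mul, hez, map_one]; decide)
    simpa using congrArg Subtype.val this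
  · intro h
    have : z = 1 := Subtype.ext h
    rw [this, map_one] at hez
    revert hez; decide
  · intro a ha
    have : (⟨a, ha⟩ : F) * z = z * ⟨a, ha⟩ := e.injective (by
      rw [map_mul, map_mul, hez]
      generalize e ⟨a, ha⟩ = u
      revert u; decide)
    exact congrArg Subtype.val this
  · intro a ha b hb
    rcases (q8_facts (e ⟨a, ha⟩) (e ⟨b, hb⟩)).1 with h | h
    · left
      have : (⟨a, ha⟩ : F) * ⟨b, hb⟩ = ⟨b, hb⟩ * ⟨a, ha⟩ := e.injective (by rw [map_mul, map_mul, h])
      exact congrArg Subtype.val this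
    · right
      have : (⟨a, ha⟩ : F) * ⟨b, hb⟩ = ⟨b, hb⟩ * ⟨a, ha⟩ * z := e.injective (by rw [map_mul, map_mul, map_mul, hez, h])
      exact congrArg Subtype.val this
  · intro v hv hc
    rcases q8_center (e ⟨v, hv⟩) (fun u => by
      obtain ⟨w, rfl⟩ := e.surjective u
      rw [← map_mul, ← map_mul]
      exact congrArg e (Subtype.ext (hc w w.2).eq)) with h | h
    · left; exact congrArg Subtype.val (e.injective (h.trans (map_one e).symm))
    · right; exact congrArg Subtype.val (e.injective (h.trans hez.symm))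
  · intro u hu
    rcases (q8_facts (e ⟨u, hu⟩) 1).2 with ⟨-, h | h⟩ | ⟨h, -⟩
    · left; exact congrArg Subtype.val (e.injective (h.trans (map_one e).symm))
    · right; left; exact congrArg Subtype.val (e.injective (h.trans hez.symm))
    · right; right
      have : (⟨u, hu⟩ : F) * ⟨u, hu⟩ = z := e.injective (by rw [map_mul, h, hez])
      exact congrArg Subtype.val this

def glI : GL (Fin 2) (ZMod 3) := ⟨!![0, -1; 1, 0], !![0, 1; -1, 0], by decide, by decide⟩
def glY : GL (Fin 2) (ZMod 3) := ⟨!![1, 1; 0, 1], !![1, -1; 0, 1], by decide, by decide⟩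
def glT : GL (Fin 2) (ZMod 3) := ⟨!![1, 0; 0, -1], !![1, 0; 0, -1], by decide, by decide⟩

theorem gl_rel : Rel glI glY glT :=
  ⟨by decide, by decide, by decide, by decide, by decide, by decide, by decide, by decide⟩

/-- The central quotient is the symmetric group on the four Sylow 3-subgroups. -/
theorem sym_four {Q : Type*} [Group Q] [Finite Q] (F : Subgroup Q) (hFn : F.Normal) {z : Q}
    (hE : CfsgLib.Extra2.IsExt z F) (hcls : ∀ u ∈ F, u = 1 ∨ u = z ∨ u * u = z) (hF8 : Nat.card F = 8)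
    (hQ : Nat.card Q = 48) (hC : Subgroup.centralizer (F : Set Q) ≤ F) (hzc : z ∈ Subgroup.center Q)
    (hcen : Nat.card (Subgroup.center Q) = 2) (y : Q) (hy : orderOf y = 3) :
    Nonempty (Q ⧸ Subgroup.center Q ≃* Equiv.Perm (Fin 4)) := by
  classical
  haveI : Fact (Nat.Prime 3) := ⟨Nat.prime_three⟩
  obtain ⟨R⟩ := (inferInstance : Nonempty (Sylow 3 Q))
  have hR3 : Nat.card R = 3 := by
    rw [Sylow.card_eq_multiplicity, hQ, show (48 : ℕ) = 2 ^ 4 * 3 by norm_num, Nat.factorization_mul (by norm_num) (by norm_num),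
      Finsupp.add_apply, Nat.Prime.factorization_self Nat.prime_three,
      Nat.factorization_eq_zero_of_not_dvd (n := 2 ^ 4) (p := 3) (by norm_num)]
    norm_num
  obtain ⟨K, hKdef⟩ : ∃ K, K = (MulAction.toPermHom Q (Sylow 3 Q)).ker := ⟨_, rfl⟩
  have hKn : K.Normal := hKdef ▸ MonoidHom.normal_ker _
  -- elements of order three centralise only the centre of `F`
  have hfix : ∀ r : Q, orderOf r = 3 → ∀ u ∈ F, r * u * r⁻¹ = u → u = 1 ∨ u = z := by
    intro r hr u hu hru
    by_contra hne
    push Not at hne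
    have huu : u * u = z := ((hcls u hu).resolve_left hne.1).resolve_left hne.2
    have hrF : r ∉ F := fun h => by
      have := Subgroup.orderOf_dvd_natCard F h
      rw [hr, hF8] at this
      omega
    refine hrF (hC fun f hf => ?_)
    have hcomm_sq : ∀ f ∈ F, r * f * r⁻¹ = f ∨ r * f * r⁻¹ = f * z → r * f * r⁻¹ = f := by
      intro f _ h
      rcases h with h | h
      · exact h
      exfalso
      have h3 : r ^ 3 * f * (r ^ 3)⁻¹ = f * z := by
        have hzr : r * z * r⁻¹ = z := by rw [Subgroup.mem_center_iff.mp hzc r, mul_inv_cancel_right]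
        have h2 : r * (f * z) * r⁻¹ = f := by
          rw [show r * (f * z) * r⁻¹ = (r * f * r⁻¹) * (r * z * r⁻¹) by group, h, hzr, mul_assoc, hE.sq, mul_one]
        calc r ^ 3 * f * (r ^ 3)⁻¹ = r * (r * (r * f * r⁻¹) * r⁻¹) * r⁻¹ := by simp only [pow_succ, pow_zero, one_mul]; group
          _ = f * z := by rw [h, h2, h]
      rw [show r ^ 3 = 1 by rw [← hr, pow_orderOf_eq_one], one_mul, inv_one, mul_one, left_eq_mul] at h3
      exact hE.ne_one h3
    -- `r` permutes the three cyclic subgroups of order four fixing one of them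
    have hfr : r * f * r⁻¹ = f ∨ r * f * r⁻¹ = f * z := by
      by_contra hcon
      push Not at hcon
      obtain ⟨g, hg⟩ : ∃ g, g = r * f * r⁻¹ := ⟨_, rfl⟩
      rw [← hg] at hcon
      have hgF : g ∈ F := hg ▸ hFn.conj_mem f hf r
      obtain ⟨h, hh⟩ : ∃ h, h = r * g * r⁻¹ := ⟨_, rfl⟩
      have hhF : h ∈ F := hh ▸ hFn.conj_mem g hgF r
      have hrz : r * z * r⁻¹ = z := by rw [Subgroup.mem_center_iff.mp hzc r, mul_inv_cancel_right]
      have hr3 : r * h * r⁻¹ = f := by
        rw [hh, hg, show r * (r * (r * f * r⁻¹) * r⁻¹) * r⁻¹ = r ^ 3 * f * (r ^ 3)⁻¹ by simp only [pow_succ, pow_zero, one_mul]; group,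
          show r ^ 3 = 1 by rw [← hr, pow_orderOf_eq_one], one_mul, inv_one, mul_one]
      have hinj : ∀ a b, r * a * r⁻¹ = r * b * r⁻¹ → a = b := fun a b e => mul_left_cancel (mul_right_cancel e)
      have hru' : ∀ a, r * a * r⁻¹ = u → a = u := fun a e => hinj a u (e.trans hru.symm)
      have hruz : r * (u * z) * r⁻¹ = u * z := by
        rw [show r * (u * z) * r⁻¹ = (r * u * r⁻¹) * (r * z * r⁻¹) by group, hru, hrz]
      have hruz' : ∀ a, r * a * r⁻¹ = u * z → a = u * z := fun a e => hinj a _ (e.trans hruz.symm)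
      have f1 : f ≠ 1 := fun e => hcon.1 (by rw [hg, e]; group)
      have f2 : f ≠ z := fun e => hcon.1 (by rw [hg, e, hrz])
      have f3 : f ≠ u := fun e => hcon.1 (by rw [hg, e, hru])
      have f4 : f ≠ u * z := fun e => hcon.1 (by rw [hg, e, hruz])
      have g1 : g ≠ 1 := fun e => f1 (conj_eq_one_iff.mp (hg ▸ e))
      have g2 : g ≠ z := fun e => f2 (hinj f z (by rw [hrz, ← hg, e]))
      have g3 : g ≠ u := fun e => f3 (hru' f (hg ▸ e))
      have g4 : g ≠ u * z := fun e => f4 (hruz' f (hg ▸ e))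
      have h1 : h ≠ 1 := fun e => g1 (conj_eq_one_iff.mp (hh ▸ e))
      have h2 : h ≠ z := fun e => g2 (hinj g z (by rw [hrz, ← hh, e]))
      have h3 : h ≠ u := fun e => g3 (hru' g (hh ▸ e))
      have h4 : h ≠ u * z := fun e => g4 (hruz' g (hh ▸ e))
      have hzc' : ∀ a, r * (a * z) * r⁻¹ = r * a * r⁻¹ * z := fun a => by
        rw [show r * (a * z) * r⁻¹ = (r * a * r⁻¹) * (r * z * r⁻¹) by group, hrz]
      have hfz : ∀ a, a * z * z = a := fun a => by rw [mul_assoc, hE.sq, mul_one]
      have k1 : h ≠ g := fun e => hcon.1 (hinj g f (by rw [← hh, e, hg]))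
      have k2 : h ≠ f := fun e => hcon.1 (by rw [e, ← hg] at hr3; exact hr3)
      have k3 : h ≠ g * z := fun e => hcon.2 (hinj g _ (by rw [← hh, e, hzc', ← hg]))
      have k4 : h ≠ f * z := fun e => hcon.2 (by rw [e, hzc', ← hg] at hr3; rw [← hr3, hfz])
      haveI := Fintype.ofFinite Q
      have hcard : ({1, z, u, u * z, f, f * z, g, g * z, h} : Finset Q).card = 9 := by
        have z1 := hE.ne_one
        have u1 : u * z ≠ 1 := fun e => hne.2 (by rw [← inv_eq_of_mul_eq_one_right hE.sq]; exact eq_inv_of_mul_eq_one_left e)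
        have u2 : u * z ≠ z := fun e => hne.1 (mul_eq_right.mp e)
        have u3 : u * z ≠ u := fun e => z1 (mul_eq_left.mp e)
        have fz1 : f * z ≠ 1 := fun e => f2 (by rw [← inv_eq_of_mul_eq_one_right hE.sq]; exact eq_inv_of_mul_eq_one_left e)
        have fz2 : f * z ≠ z := fun e => f1 (mul_eq_right.mp e)
        have fz3 : f * z ≠ u := fun e => f4 (by rw [← e, hfz])
        have fz4 : f * z ≠ u * z := fun e => f3 (mul_right_cancel e)
        have fz5 : f * z ≠ f := fun e => z1 (mul_eq_left.mp e)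
        have gz1 : g * z ≠ 1 := fun e => g2 (by rw [← inv_eq_of_mul_eq_one_right hE.sq]; exact eq_inv_of_mul_eq_one_left e)
        have gz2 : g * z ≠ z := fun e => g1 (mul_eq_right.mp e)
        have gz3 : g * z ≠ u := fun e => g4 (by rw [← e, hfz])
        have gz4 : g * z ≠ u * z := fun e => g3 (mul_right_cancel e)
        have gz5 : g * z ≠ g := fun e => z1 (mul_eq_left.mp e)
        have gz6 : g * z ≠ f := fun e => hcon.2 (by rw [← e, hfz])
        have gz7 : g * z ≠ f * z := fun e => hcon.1 (mul_right_cancel e)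
        rw [Finset.card_insert_of_notMem, Finset.card_insert_of_notMem, Finset.card_insert_of_notMem,
          Finset.card_insert_of_notMem, Finset.card_insert_of_notMem, Finset.card_insert_of_notMem,
          Finset.card_insert_of_notMem, Finset.card_insert_of_notMem, Finset.card_singleton]
        all_goals simp only [Finset.mem_insert, Finset.mem_singleton, not_or]
        · exact k3.symm
        · exact ⟨gz5.symm, k1.symm⟩
        · exact ⟨hcon.2.symm, gz7.symm, k4.symm⟩
        · exact ⟨fz5.symm, hcon.1.symm, gz6.symm, k2.symm⟩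
        · exact ⟨f4.symm, fz4.symm, g4.symm, gz4.symm, h4.symm⟩
        · exact ⟨u3.symm, f3.symm, fz3.symm, g3.symm, gz3.symm, h3.symm⟩
        · exact ⟨hne.2.symm, u2.symm, f2.symm, fz2.symm, g2.symm, gz2.symm, h2.symm⟩
        · exact ⟨z1.symm, hne.1.symm, u1.symm, f1.symm, fz1.symm, g1.symm, gz1.symm, h1.symm⟩
      have hle : ({1, z, u, u * z, f, f * z, g, g * z, h} : Finset Q).card ≤ Nat.card F := by
        rw [← Fintype.card_coe, ← Nat.card_eq_fintype_card]
        refine Nat.card_le_card_of_injective (fun x => (⟨x.1, ?_⟩ : F)) fun a b e => Subtype.ext (congrArg (fun q : F => (q : Q)) e)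
        have := x.2
        simp only [Finset.mem_insert, Finset.mem_singleton] at this
        rcases this with e | e | e | e | e | e | e | e | e <;> rw [e]
        exacts [one_mem _, hE.mem, hu, F.mul_mem hu hE.mem, hf, F.mul_mem hf hE.mem, hgF, F.mul_mem hgF hE.mem, hhF]
      rw [hF8, hcard] at hle
      omega
    have := hcomm_sq f hf hfr
    exact (mul_inv_eq_iff_eq_mul.mp this).symm
  have hZ : Subgroup.center Q = Subgroup.zpowers z := (Subgroup.eq_of_le_of_card_ge (Subgroup.zpowers_le.mpr hzc) (by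
    rw [hcen, Nat.card_zpowers, orderOf_eq_prime (by rw [pow_two]; exact hE.sq) hE.ne_one])).symm
  have hKmem : ∀ g ∈ K, ∀ S : Sylow 3 Q, g • S = S := fun g hg S => by
    rw [hKdef, MonoidHom.mem_ker] at hg
    exact Equiv.ext_iff.mp hg S
  have hKF : ∀ g ∈ K, g ∈ F → g ∈ Subgroup.center Q := by
    intro g hg hgF
    obtain ⟨n, hn⟩ : ∃ r : Q, r ∈ (R : Subgroup Q) ∧ orderOf r = 3 := by
      obtain ⟨r, hr⟩ := exists_prime_orderOf_dvd_card' (G := (R : Subgroup Q)) 3 (by rw [show Nat.card (R : Subgroup Q) = Nat.card R from rfl, hR3])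
      exact ⟨r, r.2, (Subgroup.orderOf_coe r).trans hr⟩
    have hnorm : g ∈ Subgroup.normalizer ((R : Subgroup Q) : Set Q) := Sylow.smul_eq_iff_mem_normalizer.mp (hKmem g hg R)
    have h1 : g * n * g⁻¹ * n⁻¹ ∈ (R : Subgroup Q) := mul_mem ((Subgroup.mem_normalizer_iff.mp hnorm n).mp hn.1) (inv_mem hn.1)
    have h2 : g * n * g⁻¹ * n⁻¹ ∈ F := by
      rw [show g * n * g⁻¹ * n⁻¹ = g * (n * g⁻¹ * n⁻¹) by group]
      exact F.mul_mem hgF (hFn.conj_mem _ (F.inv_mem hgF) n)
    have h3 : g * n * g⁻¹ * n⁻¹ = 1 := orderOf_eq_one_iff.mp (Nat.eq_one_of_dvd_coprimes (show Nat.Coprime 3 8 by norm_num)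
      (hR3 ▸ Subgroup.orderOf_dvd_natCard _ h1) (hF8 ▸ Subgroup.orderOf_dvd_natCard _ h2))
    rcases hfix n hn.2 g hgF (by
      rw [mul_inv_eq_one, mul_inv_eq_iff_eq_mul] at h3
      rw [← h3, mul_inv_cancel_right]) with e | e <;> rw [e]
    exacts [one_mem _, hzc]
  have hKc : K = Subgroup.center Q := by
    refine le_antisymm ?_ ?_
    · intro g hg
      refine hKF g hg (hC fun u hu => ?_)
      have h1 : g * u * g⁻¹ * u⁻¹ ∈ K := by
        rw [show g * u * g⁻¹ * u⁻¹ = g * (u * g⁻¹ * u⁻¹) by group]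
        exact K.mul_mem hg (hKn.conj_mem _ (K.inv_mem hg) u)
      have h2 : g * u * g⁻¹ * u⁻¹ ∈ F := F.mul_mem (hFn.conj_mem u hu g) (F.inv_mem hu)
      have h3 := hKF _ h1 h2
      -- `g` acts on `F` as an inner automorphism
      by_contra hne
      have hz : g * u * g⁻¹ = u * z := by
        rw [hZ] at h3
        rcases CfsgLib.Extra2.mem_zpowers_cases hE.sq h3 with e | e
        · exact absurd (mul_inv_eq_iff_eq_mul.mp (mul_inv_eq_one.mp e)).symm hne
        · rw [mul_inv_eq_iff_eq_mul] at e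
          rw [e, Subgroup.mem_center_iff.mp hzc u]
      obtain ⟨f, hf, hfe⟩ := hE.exists_inner (g := g) (by rw [Subgroup.mem_center_iff.mp hzc g, mul_inv_cancel_right]) (fun v hv => by
        have h1 : g * v * g⁻¹ * v⁻¹ ∈ K := by
          rw [show g * v * g⁻¹ * v⁻¹ = g * (v * g⁻¹ * v⁻¹) by group]
          exact K.mul_mem hg (hKn.conj_mem _ (K.inv_mem hg) v)
        have h3 := hKF _ h1 (F.mul_mem (hFn.conj_mem v hv g) (F.inv_mem hv))
        rw [hZ] at h3
        rcases CfsgLib.Extra2.mem_zpowers_cases hE.sq h3 with e | e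
        · exact Or.inl (mul_inv_eq_one.mp e)
        · right
          rw [mul_inv_eq_iff_eq_mul] at e
          rw [e, Subgroup.mem_center_iff.mp hzc v])
      have hgF : g ∈ F := by
        have : f⁻¹ * g ∈ Subgroup.centralizer (F : Set Q) := fun v hv => by
          have h1 := hfe v hv
          calc v * (f⁻¹ * g) = f⁻¹ * (f * v * f⁻¹) * g := by group
            _ = f⁻¹ * (g * v * g⁻¹) * g := by rw [h1]
            _ = f⁻¹ * g * v := by group
        simpa using F.mul_mem hf (hC this)
      exact hne ((Subgroup.mem_center_iff.mp (hKF g hg hgF)) u)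
    · intro g hg
      rw [hKdef, MonoidHom.mem_ker]
      refine Equiv.ext fun S => ?_
      show g • S = S
      refine Sylow.smul_eq_iff_mem_normalizer.mpr (Subgroup.mem_normalizer_iff.mpr ?_)
      intro h
      rw [← Subgroup.mem_center_iff.mp hg h, mul_inv_cancel_right]
  have hinj : Function.Injective (QuotientGroup.kerLift (MulAction.toPermHom Q (Sylow 3 Q))) := QuotientGroup.kerLift_injective _
  have hQZ : Nat.card (Q ⧸ Subgroup.center Q) = 24 := by
    have := (Subgroup.center Q).card_mul_index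
    rw [Subgroup.index_eq_card, hcen, hQ] at this
    omega
  have hn3 : Nat.card (Sylow 3 Q) = 4 := by
    obtain ⟨n, hn⟩ : ∃ n, n = Nat.card (Sylow 3 Q) := ⟨_, rfl⟩
    have h1 : n ≡ 1 [MOD 3] := hn ▸ card_sylow_modEq_one 3 Q
    have h2 : n ∣ 16 := by
      have h := R.card_dvd_index
      have h' := (R : Subgroup Q).card_mul_index
      rw [show Nat.card (R : Subgroup Q) = Nat.card R from rfl, hR3, hQ] at h'
      rw [← hn] at h
      exact h.trans (dvd_of_eq (by omega))
    have h3 : 24 ≤ Nat.factorial n := by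
      have h4 := Nat.card_le_card_of_injective _ hinj
      rw [Nat.card_perm, ← hn, ← Subgroup.index_eq_card, ← hKdef, hKc, Subgroup.index_eq_card, hQZ] at h4
      exact h4
    have h5 : n ≤ 16 := Nat.le_of_dvd (by norm_num) h2
    rw [← hn]
    obtain ⟨j, hj, rfl⟩ := (Nat.dvd_prime_pow Nat.prime_two).mp (show n ∣ 2 ^ 4 by simpa using h2)
    interval_cases j
    · simp at h3
    · simp [Nat.factorial] at h3
    · norm_num
    · norm_num [Nat.ModEq] at h1
    · exfalso
      -- sixteen Sylow subgroups would be self-centralising, but the centre is not trivial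
      have h : _ = (Subgroup.normalizer ((R : Subgroup Q) : Set Q)).index := R.card_eq_index_normalizer
      rw [← hn] at h
      have hm := (Subgroup.normalizer ((R : Subgroup Q) : Set Q)).card_mul_index
      rw [← h, hQ] at hm
      have hle : (R : Subgroup Q) ≤ Subgroup.normalizer ((R : Subgroup Q) : Set Q) := Subgroup.le_normalizer
      have hzn : z ∈ Subgroup.normalizer ((R : Subgroup Q) : Set Q) := by
        rw [Subgroup.mem_normalizer_iff]
        intro h
        rw [← Subgroup.mem_center_iff.mp hzc h, mul_inv_cancel_right]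
      have := Subgroup.orderOf_dvd_natCard _ hzn
      rw [orderOf_eq_prime (by rw [pow_two]; exact hE.sq) hE.ne_one] at this
      omega
  haveI : Fintype (Sylow 3 Q) := Fintype.ofFinite _
  let e4 : Sylow 3 Q ≃ Fin 4 := Fintype.equivFinOfCardEq (by rw [← Nat.card_eq_fintype_card, hn3])
  refine ⟨(QuotientGroup.quotientMulEquivOfEq (hKc.symm.trans hKdef)).trans ((MulEquiv.ofBijective _
    (hinj.bijective_of_nat_card_le ?_)).trans e4.permCongrHom)⟩
  rw [Nat.card_perm, hn3, ← Subgroup.index_eq_card, ← hKdef, hKc, Subgroup.index_eq_card, hQZ]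
  decide

theorem main {Q : Type*} [Group Q] [Finite Q] (F : Subgroup Q) (hFn : F.Normal) (hFp : IsPGroup 2 F)
    (hC : Subgroup.centralizer (F : Set Q) ≤ F) (huniq : CfsgLib.UniqueOrderP.Uniq 2 F)
    (hnorm : ¬ ∃ P : Sylow 2 Q, (P : Subgroup Q).Normal)
    (hmax : ∀ N : Subgroup Q, N.Normal → IsPGroup 2 N → N ≤ F) :
    Nonempty (Q ≃* GL (Fin 2) (ZMod 3)) ∨
    (Nat.card Q = 48 ∧ Nat.card ↥(Subgroup.center Q) = 2 ∧
      Nonempty (Q ⧸ Subgroup.center Q ≃* Equiv.Perm (Fin 4)) ∧
      ∀ P : Sylow 2 Q, Nonempty (↥(P : Subgroup Q) ≃* QuaternionGroup 4)) := by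
  classical
  haveI : Fact (Nat.Prime 2) := ⟨Nat.prime_two⟩
  haveI : Fact (Nat.Prime 3) := ⟨Nat.prime_three⟩
  haveI := Fintype.ofFinite Q
  -- `Q` is not a 2-group
  obtain ⟨y₀, hy₀, hy₀1⟩ : ∃ y : Q, Odd (orderOf y) ∧ y ≠ 1 := by
    by_contra hcon
    push Not at hcon
    have hp : IsPGroup 2 Q := by
      intro g
      obtain ⟨m, hm⟩ : ∃ m, orderOf g = 2 ^ (orderOf g).factorization 2 * m := Nat.ordProj_dvd _ _
      refine ⟨(orderOf g).factorization 2, hcon _ ?_⟩
      have hmodd : ¬ 2 ∣ m := fun ⟨j, hj⟩ => Nat.pow_succ_factorization_not_dvd (orderOf_pos g).ne' Nat.prime_two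
        ⟨j, by rw [pow_succ]; conv_lhs => rw [hm, hj]
               ring⟩
      rw [Nat.odd_iff]
      have h1 : orderOf (g ^ 2 ^ (orderOf g).factorization 2) ∣ m := orderOf_dvd_of_pow_eq_one (by
        rw [← pow_mul, ← hm, pow_orderOf_eq_one])
      by_contra h2
      exact hmodd ((Nat.dvd_of_mod_eq_zero (by omega)).trans h1)
    obtain ⟨P⟩ := (inferInstance : Nonempty (Sylow 2 Q))
    refine hnorm ⟨P, ?_⟩
    have htop : (⊤ : Subgroup Q) = (P : Subgroup Q) := P.is_maximal' (hp.to_subgroup ⊤) le_top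
    rw [← htop]
    infer_instance
  -- an odd element centralises nothing more than a proper subgroup of `F`
  have hfaith : ∀ y : Q, Odd (orderOf y) → (∀ f ∈ F, y * f * y⁻¹ = f) → y = 1 := by
    intro y hy h
    have hmem : y ∈ F := hC fun f hf => by
      have := h f hf
      rw [mul_inv_eq_iff_eq_mul] at this
      exact this.symm
    obtain ⟨k, hk⟩ := hFp ⟨y, hmem⟩
    have h1 : orderOf y ∣ 2 ^ k := orderOf_dvd_of_pow_eq_one (congrArg Subtype.val hk)
    exact orderOf_eq_one_iff.mp (Nat.eq_one_of_dvd_coprimes (Nat.Coprime.pow_right k (Nat.coprime_two_right.mpr hy)) dvd_rfl h1)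
  -- an automorphism of odd order of a cyclic 2-group is trivial
  have hcyc : ∀ (y a : Q) (r : ℕ), Odd (orderOf y) → (∃ k, orderOf a = 2 ^ k) → y * a * y⁻¹ = a ^ r → y * a * y⁻¹ = a := by
    rintro y a r hy ⟨k, hk⟩ hr
    have hit : ∀ s : ℕ, y ^ s * a * (y ^ s)⁻¹ = a ^ r ^ s := fun s => by
      induction s with
      | zero => simp
      | succ s ih =>
        rw [pow_succ', show y * y ^ s * a * (y * y ^ s)⁻¹ = y * (y ^ s * a * (y ^ s)⁻¹) * y⁻¹ by group, ih, ← conj_pow, hr,
          ← pow_mul, pow_succ']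
    have h1 := hit (orderOf y)
    rw [pow_orderOf_eq_one, one_mul, inv_one, mul_one] at h1
    rw [hr]
    nth_rewrite 2 [← pow_one a]
    rw [pow_eq_pow_iff_modEq, hk]
    have h2 : a ^ 1 = a ^ r ^ orderOf y := by rw [pow_one]; exact h1
    rw [pow_eq_pow_iff_modEq, hk] at h2
    rcases Nat.eq_zero_or_pos k with rfl | hk0
    · exact Nat.modEq_one
    have h3 : (r : ZMod (2 ^ k)) ^ orderOf y = 1 := by
      have := (ZMod.natCast_eq_natCast_iff _ _ _).mpr h2
      push_cast at this
      exact this.symm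
    have hu : IsUnit (r : ZMod (2 ^ k)) := IsUnit.of_pow_eq_one h3 (orderOf_pos y).ne'
    obtain ⟨u, hu⟩ := hu
    have h4 : u ^ orderOf y = 1 := Units.ext (by rw [Units.val_pow_eq_pow_val, hu, h3, Units.val_one])
    haveI : NeZero (2 ^ k) := ⟨pow_ne_zero _ two_ne_zero⟩
    have h5 : orderOf u ∣ 2 ^ (k - 1) := by
      have := orderOf_dvd_card (x := u)
      rwa [ZMod.card_units_eq_totient, Nat.totient_prime_pow Nat.prime_two hk0, show 2 - 1 = 1 from rfl, mul_one] at this
    have h6 : u = 1 := orderOf_eq_one_iff.mp (Nat.eq_one_of_dvd_coprimes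
      (Nat.Coprime.pow_right (k - 1) (Nat.coprime_two_right.mpr hy)) (orderOf_dvd_of_pow_eq_one h4) h5)
    have h7 : (r : ZMod (2 ^ k)) = ((1 : ℕ) : ZMod (2 ^ k)) := by rw [← hu, h6]; simp
    exact (ZMod.natCast_eq_natCast_iff _ _ _).mp h7
  -- `F` is quaternion of order 8
  obtain ⟨e⟩ : Nonempty (F ≃* QuaternionGroup 2) := by
    rcases CfsgLib.UniqueOrderP.cyclic_or_quaternion hFp huniq with h | ⟨-, n, ⟨e⟩⟩
    · exfalso
      obtain ⟨⟨a, haF⟩, ha⟩ := h.exists_generator
      obtain ⟨k, hk⟩ := hFp ⟨a, haF⟩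
      obtain ⟨r, hr⟩ := mem_powers_iff_mem_zpowers.mpr (ha ⟨y₀ * a * y₀⁻¹, hFn.conj_mem a haF y₀⟩)
      have hfix := hcyc y₀ a r hy₀ (by
        obtain ⟨j, -, hj⟩ := (Nat.dvd_prime_pow Nat.prime_two).mp (orderOf_dvd_of_pow_eq_one (x := a) (by simpa using congrArg Subtype.val hk))
        exact ⟨j, hj⟩) (by simpa using (congrArg Subtype.val hr).symm)
      refine hy₀1 (hfaith y₀ hy₀ fun f hf => ?_)
      obtain ⟨m, hm⟩ := Subgroup.mem_zpowers_iff.mp (ha ⟨f, hf⟩)
      have hm' : a ^ m = f := by simpa using congrArg Subtype.val hm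
      rw [← hm', ← conj_zpow, hfix]
    · rcases Nat.lt_or_ge n 2 with hn | hn
      · rcases (show n = 0 ∨ n = 1 by omega) with rfl | rfl
        · exfalso
          obtain ⟨a, haF, hgen⟩ : ∃ a ∈ F, ∀ f ∈ F, ∃ m : ℤ, a ^ m = f := by
            haveI : IsCyclic F := e.isCyclic.mpr (isCyclic_of_orderOf_eq_card (QuaternionGroup.xa 0) (by
              simp [QuaternionGroup.orderOf_xa, Nat.card_eq_fintype_card, QuaternionGroup.card]))
            obtain ⟨⟨a, haF⟩, ha⟩ := IsCyclic.exists_generator (α := F)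
            refine ⟨a, haF, fun f hf => ?_⟩
            obtain ⟨m, hm⟩ := Subgroup.mem_zpowers_iff.mp (ha ⟨f, hf⟩)
            exact ⟨m, by simpa using congrArg Subtype.val hm⟩
          obtain ⟨k, hk⟩ := hFp ⟨a, haF⟩
          obtain ⟨m, hm⟩ := hgen _ (hFn.conj_mem a haF y₀)
          have hfin : IsOfFinOrder a := isOfFinOrder_of_finite a
          obtain ⟨r, hr⟩ := hfin.mem_powers_iff_mem_zpowers.mpr (Subgroup.mem_zpowers_iff.mpr ⟨m, hm⟩)
          have hfix := hcyc y₀ a r hy₀ (by
            obtain ⟨j, -, hj⟩ := (Nat.dvd_prime_pow Nat.prime_two).mp (orderOf_dvd_of_pow_eq_one (x := a) (by simpa using congrArg Subtype.val hk))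
            exact ⟨j, hj⟩) hr.symm
          refine hy₀1 (hfaith y₀ hy₀ fun f hf => ?_)
          obtain ⟨l, hl⟩ := hgen f hf
          rw [← hl, ← conj_zpow, hfix]
        · exact ⟨e⟩
      exfalso
      -- quaternion of order at least 16
      obtain ⟨a, ha⟩ : ∃ a : F, a = e.symm (QuaternionGroup.a 1) := ⟨_, rfl⟩
      obtain ⟨b, hb⟩ : ∃ b : F, b = e.symm (QuaternionGroup.xa 0) := ⟨_, rfl⟩
      haveI : NeZero (2 ^ n) := ⟨pow_ne_zero _ two_ne_zero⟩
      have hea : e a = QuaternionGroup.a 1 := by rw [ha, MulEquiv.apply_symm_apply]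
      have heb : e b = QuaternionGroup.xa 0 := by rw [hb, MulEquiv.apply_symm_apply]
      have hao : orderOf (a : Q) = 2 ^ (n + 1) := by
        rw [Subgroup.orderOf_coe, ha, MulEquiv.orderOf_eq, QuaternionGroup.orderOf_a_one, pow_succ']
      have hdec : ∀ f : F, (∃ j : ℕ, f = a ^ j) ∨ ∃ j : ℕ, f = b * a ^ j := by
        intro f
        rcases h : e f with j | j
        · exact Or.inl ⟨j.val, e.injective (by rw [map_pow, hea, QuaternionGroup.a_one_pow, ZMod.natCast_zmod_val, h])⟩
        · exact Or.inr ⟨j.val, e.injective (by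
            rw [map_mul, map_pow, hea, heb, QuaternionGroup.a_one_pow, QuaternionGroup.xa_mul_a, zero_add, ZMod.natCast_zmod_val, h])⟩
      have hca : y₀ * (a : Q) * y₀⁻¹ = a := by
        obtain ⟨j, hj⟩ : ∃ j : ℕ, (⟨y₀ * a * y₀⁻¹, hFn.conj_mem a a.2 y₀⟩ : F) = a ^ j := by
          rcases hdec ⟨y₀ * a * y₀⁻¹, hFn.conj_mem a a.2 y₀⟩ with h | ⟨j, hj⟩
          · exact h
          exfalso
          have h1 : orderOf (⟨y₀ * a * y₀⁻¹, hFn.conj_mem a a.2 y₀⟩ : F) = 2 ^ (n + 1) := by
            rw [Subgroup.orderOf_mk, show y₀ * (a : Q) * y₀⁻¹ = MulAut.conj y₀ (a : Q) from rfl, MulEquiv.orderOf_eq, hao]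
          rw [hj, ← MulEquiv.orderOf_eq e, map_mul, map_pow, hea, heb, QuaternionGroup.a_one_pow, QuaternionGroup.xa_mul_a,
            QuaternionGroup.orderOf_xa] at h1
          have := Nat.pow_le_pow_right (show 2 ≥ 1 by norm_num) (show n + 1 ≥ 3 by omega)
          omega
        exact hcyc y₀ a j hy₀ ⟨_, hao⟩ (by simpa using congrArg Subtype.val hj)
      have hcb : y₀ * (b : Q) * y₀⁻¹ = b := by
        rcases hdec ⟨y₀ * b * y₀⁻¹, hFn.conj_mem b b.2 y₀⟩ with ⟨j, hj⟩ | ⟨j, hj⟩
        · exfalso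
          have h1 : y₀ * (b : Q) * y₀⁻¹ = y₀ * ((a : Q) ^ j) * y₀⁻¹ := by
            rw [← conj_pow, hca]
            simpa using congrArg Subtype.val hj
          have h2 : b = a ^ j := Subtype.ext (by simpa using mul_left_cancel (mul_right_cancel h1))
          have h3 := congrArg e h2
          rw [map_pow, hea, heb, QuaternionGroup.a_one_pow] at h3
          exact absurd h3 (by simp)
        · have hj' : y₀ * (b : Q) * y₀⁻¹ = b * (a : Q) ^ j := by simpa using congrArg Subtype.val hj
          have hit : ∀ s : ℕ, y₀ ^ s * b * (y₀ ^ s)⁻¹ = (b : Q) * ((a : Q) ^ j) ^ s := fun s => by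
            induction s with
            | zero => simp
            | succ s ih =>
              rw [pow_succ' y₀, show y₀ * y₀ ^ s * b * (y₀ * y₀ ^ s)⁻¹ = y₀ * (y₀ ^ s * b * (y₀ ^ s)⁻¹) * y₀⁻¹ by group, ih,
                ← conj_mul, hj', ← conj_pow, ← conj_pow, hca, mul_assoc, ← pow_succ']
          have h1 := hit (orderOf y₀)
          rw [pow_orderOf_eq_one, one_mul, inv_one, mul_one, left_eq_mul] at h1
          have h2 : orderOf ((a : Q) ^ j) ∣ 2 ^ (n + 1) := orderOf_dvd_of_pow_eq_one (by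
            rw [← pow_mul, mul_comm, pow_mul, ← hao, pow_orderOf_eq_one, one_pow])
          have h3 : (a : Q) ^ j = 1 := orderOf_eq_one_iff.mp (Nat.eq_one_of_dvd_coprimes
            (Nat.Coprime.pow_right (n + 1) (Nat.coprime_two_right.mpr hy₀)) (orderOf_dvd_of_pow_eq_one h1) h2)
          rw [hj', h3, mul_one]
      refine hy₀1 (hfaith y₀ hy₀ fun f hf => ?_)
      rcases hdec ⟨f, hf⟩ with ⟨j, hj⟩ | ⟨j, hj⟩
      · have : f = (a : Q) ^ j := by simpa using congrArg Subtype.val hj
        rw [this, ← conj_pow, hca]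
      · have : f = (b : Q) * (a : Q) ^ j := by simpa using congrArg Subtype.val hj
        rw [this, ← conj_mul, ← conj_pow, hca, hcb]
  have hF8 : Nat.card F = 8 := by
    rw [Nat.card_congr e.toEquiv, Nat.card_eq_fintype_card, QuaternionGroup.card]
  obtain ⟨z, hE, hcls⟩ := isExt_q8 F e
  have hzcen : ∀ g : Q, g * z = z * g := by
    intro g
    have h1 : g * z * g⁻¹ ∈ F := hFn.conj_mem z hE.mem g
    rcases hE.center _ h1 (fun f hf => by
      have hf' : g⁻¹ * f * g ∈ F := by
        have := hFn.conj_mem f hf g⁻¹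
        rwa [inv_inv] at this
      have h2 := (hE.central _ hf').eq
      show f * (g * z * g⁻¹) = g * z * g⁻¹ * f
      calc f * (g * z * g⁻¹) = g * ((g⁻¹ * f * g) * z) * g⁻¹ := by group
        _ = g * (z * (g⁻¹ * f * g)) * g⁻¹ := by rw [h2]
        _ = _ := by group) with h | h
    · exact absurd (conj_eq_one_iff.mp h) hE.ne_one
    · exact mul_inv_eq_iff_eq_mul.mp h
  -- action on the three pairs
  let s : Finset Q := Finset.univ.filter fun f => f ∈ F ∧ f ≠ 1 ∧ f ≠ z
  let pr : Q → Finset Q := fun f => {f, f * z}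
  let P : Finset (Finset Q) := s.image pr
  have hsmem : ∀ f, f ∈ s ↔ f ∈ F ∧ f ≠ 1 ∧ f ≠ z := fun f => by simp [s]
  have hsq : ∀ f ∈ s, f * f = z := fun f hf => by
    obtain ⟨h1, h2, h3⟩ := (hsmem f).mp hf
    exact ((hcls f h1).resolve_left h2).resolve_left h3
  have hinv : ∀ f ∈ s, f⁻¹ = f * z := fun f hf => inv_eq_of_mul_eq_one_right (by rw [← mul_assoc, hsq f hf, hE.sq])
  have hsz : ∀ f ∈ s, f * z ∈ s := fun f hf => by
    rw [hsmem] at hf ⊢
    refine ⟨F.mul_mem hf.1 hE.mem, fun h => hf.2.2 ?_, fun h => hf.2.1 (mul_eq_right.mp h)⟩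
    rw [← inv_eq_of_mul_eq_one_right hE.sq]; exact eq_inv_of_mul_eq_one_left h
  have hpr : ∀ f, pr (f * z) = pr f := fun f => by
    simp only [pr, mul_assoc, hE.sq, mul_one, Finset.pair_comm]
  have hpr' : ∀ f g, pr f = pr g → g = f ∨ g = f * z := fun f g h => by
    have : g ∈ pr f := h ▸ Finset.mem_insert_self _ _
    simpa [pr] using this
  have hPcard : P.card = 3 := by
    have h1 : s.card = 6 := by
      have h2 : (Finset.univ.filter fun f => f ∈ F).card = 8 := by
        rw [← hF8, Nat.card_eq_fintype_card, Fintype.card_subtype]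
      have h3 : s = ((Finset.univ.filter fun f => f ∈ F).erase 1).erase z := by
        ext f; simp only [hsmem, Finset.mem_erase, Finset.mem_filter, Finset.mem_univ, true_and]; tauto
      rw [h3, Finset.card_erase_of_mem (by simp [hE.mem, hE.ne_one]), Finset.card_erase_of_mem (by simp), h2]
    have h5 : ∀ b ∈ P, (s.filter fun f => pr f = b).card = 2 := by
      intro b hb
      obtain ⟨f, hf, rfl⟩ := Finset.mem_image.mp hb
      rw [show (s.filter fun g => pr g = pr f) = {f, f * z} from ?_]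
      · exact Finset.card_pair fun h => hE.ne_one (mul_eq_left.mp h.symm)
      ext g
      simp only [Finset.mem_filter, Finset.mem_insert, Finset.mem_singleton]
      constructor
      · exact fun h => hpr' f g h.2.symm
      · rintro (rfl | rfl)
        · exact ⟨hf, rfl⟩
        · exact ⟨hsz f hf, hpr f⟩
    rw [Finset.card_eq_sum_card_image pr s, Finset.sum_congr rfl h5, Finset.sum_const, smul_eq_mul] at h1
    omega
  have hcs : ∀ g : Q, ∀ f ∈ s, g * f * g⁻¹ ∈ s := fun g f hf => by
    rw [hsmem] at hf ⊢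
    refine ⟨hFn.conj_mem f hf.1 g, fun h => hf.2.1 (conj_eq_one_iff.mp h), fun h => hf.2.2 ?_⟩
    have : g * f = g * z := by rw [hzcen g, ← mul_inv_eq_iff_eq_mul, h]
    exact mul_left_cancel this
  have hcp : ∀ g f : Q, (pr f).image (fun u => g * u * g⁻¹) = pr (g * f * g⁻¹) := fun g f => by
    simp only [pr, Finset.image_insert, Finset.image_singleton]
    rw [show g * (f * z) * g⁻¹ = g * f * g⁻¹ * (g * z * g⁻¹) by group, hzcen g, mul_inv_cancel_right]
  have hcP : ∀ g : Q, ∀ b ∈ P, b.image (fun u => g * u * g⁻¹) ∈ P := fun g b hb => by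
    obtain ⟨f, hf, rfl⟩ := Finset.mem_image.mp hb
    rw [hcp g]
    exact Finset.mem_image_of_mem _ (hcs g f hf)
  letI act : MulAction Q P :=
    { smul := fun g b => ⟨b.1.image fun u => g * u * g⁻¹, hcP g b b.2⟩
      one_smul := fun b => Subtype.ext (by
        show b.1.image _ = b.1
        simp)
      mul_smul := fun g h b => Subtype.ext (by
        show b.1.image _ = (b.1.image _).image _
        rw [Finset.image_image]
        congr 1
        funext u
        simp only [Function.comp_apply]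
        group) }
  let φ := MulAction.toPermHom Q P
  have hmkP : ∀ f, ∀ hf : f ∈ s, pr f ∈ P := fun f hf => Finset.mem_image_of_mem _ hf
  have hφ : ∀ g f, ∀ hf : f ∈ s, (φ g ⟨pr f, hmkP f hf⟩ : Finset Q) = pr (g * f * g⁻¹) :=
    fun g f _ => hcp g f
  have hker : φ.ker = F := by
    ext g
    rw [MonoidHom.mem_ker]
    constructor
    · intro hg
      obtain ⟨f, hf, hfe⟩ := hE.exists_inner (g := g) (by rw [hzcen g, mul_inv_cancel_right]) (fun u hu => by
        by_cases hu1 : u = 1
        · subst hu1; left; group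
        by_cases huz : u = z
        · subst huz; left; rw [hzcen g, mul_inv_cancel_right]
        have hus : u ∈ s := (hsmem u).mpr ⟨hu, hu1, huz⟩
        have h1 := hφ g u hus
        rw [hg] at h1
        exact hpr' _ _ h1)
      have hc : f⁻¹ * g ∈ Subgroup.centralizer (F : Set Q) := fun u hu => by
        have h1 := hfe u hu
        calc u * (f⁻¹ * g) = f⁻¹ * (f * u * f⁻¹) * g := by group
          _ = f⁻¹ * (g * u * g⁻¹) * g := by rw [h1]
          _ = f⁻¹ * g * u := by group
      simpa using F.mul_mem hf (hC hc)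
    · intro hg
      refine Equiv.ext fun b => Subtype.ext ?_
      obtain ⟨f, hf, hfb⟩ := Finset.mem_image.mp b.2
      have h1 := hφ g f hf
      rw [show (⟨pr f, hmkP f hf⟩ : P) = b from Subtype.ext hfb] at h1
      rw [h1, show ((1 : Equiv.Perm P) b : Finset Q) = pr f from hfb.symm]
      rcases hE.conj_cases hg ((hsmem f).mp hf).1 with h | h
      · rw [h]
      · rw [h, hpr]
  have hR : Nat.card φ.range ∣ 6 := by
    have h1 := Subgroup.card_subgroup_dvd_card φ.range
    rw [Nat.card_perm, Nat.card_eq_finsetCard, hPcard] at h1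
    exact h1
  have hQcard : Nat.card Q = 8 * Nat.card φ.range := by
    rw [← Subgroup.index_ker, hker, ← hF8]
    exact (Subgroup.card_mul_index F).symm
  have hR6 : Nat.card φ.range = 6 := by
    have hcases : Nat.card φ.range = 1 ∨ Nat.card φ.range = 2 ∨ Nat.card φ.range = 3 ∨ Nat.card φ.range = 6 := by
      have := Nat.le_of_dvd (by norm_num) hR
      generalize Nat.card φ.range = c at hR this
      interval_cases c <;> simp_all
    obtain ⟨P₂⟩ := (inferInstance : Nonempty (Sylow 2 Q))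
    rcases hcases with h | h | h | h
    · exfalso
      rw [h] at hQcard
      refine hnorm ⟨P₂, ?_⟩
      have htop : (⊤ : Subgroup Q) = (P₂ : Subgroup Q) :=
        P₂.is_maximal' (IsPGroup.of_card (n := 3) (by rw [Subgroup.card_top, hQcard]; norm_num)) le_top
      rw [← htop]; infer_instance
    · exfalso
      rw [h] at hQcard
      refine hnorm ⟨P₂, ?_⟩
      have htop : (⊤ : Subgroup Q) = (P₂ : Subgroup Q) :=
        P₂.is_maximal' (IsPGroup.of_card (n := 4) (by rw [Subgroup.card_top, hQcard]; norm_num)) le_top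
      rw [← htop]; infer_instance
    · exfalso
      rw [h] at hQcard
      refine hnorm ⟨P₂, ?_⟩
      have hle : F ≤ (P₂ : Subgroup Q) := by
        haveI := hFn
        rw [← P₂.is_maximal' (hFp.to_sup_of_normal_left P₂.isPGroup') le_sup_right]
        exact le_sup_left
      have hc : Nat.card P₂ = 8 := by
        rw [Sylow.card_eq_multiplicity, hQcard, show (8 : ℕ) = 2 ^ 3 by norm_num, Nat.factorization_mul (by norm_num) (by norm_num),
          Finsupp.add_apply, Nat.Prime.factorization_pow Nat.prime_two, Finsupp.single_eq_same,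
          Nat.factorization_eq_zero_of_not_dvd (n := 3) (p := 2) (by norm_num)]
      rw [← Subgroup.eq_of_le_of_card_ge hle (by rw [hF8]; exact hc.le)]
      exact hFn
    · exact h
  rw [hR6] at hQcard
  have hQ48 : Nat.card Q = 48 := hQcard
  have hS16 : ∀ P₂ : Sylow 2 Q, Nat.card P₂ = 16 := fun P₂ => by
    rw [Sylow.card_eq_multiplicity, hQ48, show (48 : ℕ) = 2 ^ 4 * 3 by norm_num, Nat.factorization_mul (by norm_num) (by norm_num),
      Finsupp.add_apply, Nat.Prime.factorization_pow Nat.prime_two, Finsupp.single_eq_same,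
      Nat.factorization_eq_zero_of_not_dvd (n := 3) (p := 2) (by norm_num)]
    norm_num
  have hs3 : ∀ g : Q, orderOf (φ g) = 3 → ∀ f ∈ s, g * f * g⁻¹ ≠ f ∧ g * f * g⁻¹ ≠ f * z := by
    intro g ho f hf
    have hmove : φ g ⟨pr f, hmkP f hf⟩ ≠ ⟨pr f, hmkP f hf⟩ := by
      intro hb
      obtain ⟨n, hn⟩ := Equiv.Perm.cycleType_prime_order (σ := φ g) (by rw [ho]; exact Nat.prime_three)
      have h1 := Equiv.Perm.sum_cycleType (φ g)
      rw [hn, Multiset.sum_replicate, ho, smul_eq_mul] at h1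
      have h2 : (φ g).support.card < Fintype.card P :=
        Finset.card_lt_univ_of_notMem (x := ⟨pr f, hmkP f hf⟩) (by rw [Equiv.Perm.mem_support, not_not]; exact hb)
      rw [Fintype.card_coe, hPcard] at h2
      omega
    constructor <;> intro h <;> apply hmove <;> apply Subtype.ext <;> rw [hφ g f hf, h]
    exact hpr f
  obtain ⟨y₁, hy₁⟩ : ∃ y : Q, orderOf y = 3 := exists_prime_orderOf_dvd_card' 3 (by rw [hQ48]; norm_num)
  have hy₁φ : orderOf (φ y₁) = 3 := by
    have h1 : orderOf (φ y₁) ∣ 3 := hy₁ ▸ orderOf_map_dvd φ y₁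
    refine ((Nat.dvd_prime Nat.prime_three).mp h1).resolve_left fun h => ?_
    have : y₁ ∈ F := hker ▸ MonoidHom.mem_ker.mpr (orderOf_eq_one_iff.mp h)
    have := Subgroup.orderOf_dvd_natCard F this
    rw [hy₁, hF8] at this
    omega
  by_cases hinvol : ∃ t : Q, t ∉ F ∧ t * t = 1
  · left
    obtain ⟨t, htF, htt⟩ := hinvol
    have htinv : t⁻¹ = t := inv_eq_of_mul_eq_one_right htt
    have ht2 : orderOf (φ t) = 2 := orderOf_eq_prime (by rw [← map_pow, pow_two, htt, map_one]) fun h => htF (hker ▸ MonoidHom.mem_ker.mpr h)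
    -- an element of order three inverted by `t`
    obtain ⟨y, hy3, hyt, hyo⟩ : ∃ y : Q, y ^ 3 = 1 ∧ t * y * t = y⁻¹ ∧ orderOf (φ y) = 3 := by
      obtain ⟨d, hd⟩ : ∃ d, d = t * (y₁ * t * y₁⁻¹) := ⟨_, rfl⟩
      have hdinv : t * d * t = d⁻¹ := by
        rw [hd, show t * (t * (y₁ * t * y₁⁻¹)) * t = (t * t) * (y₁ * t * y₁⁻¹) * t by group, htt, one_mul]
        simp only [mul_inv_rev, inv_inv, htinv]
        group
      have hφd : φ d ≠ 1 := by
        intro h
        have hc : Commute (φ t) (φ y₁) := by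
          rw [hd, map_mul, map_mul, map_mul, map_inv] at h
          have h1 := eq_inv_of_mul_eq_one_left h
          rw [mul_inv_rev, mul_inv_rev, inv_inv, ← map_inv, htinv] at h1
          show φ t * φ y₁ = φ y₁ * φ t
          nth_rewrite 1 [h1]
          group
        have h2 := hc.orderOf_mul_eq_mul_orderOf_of_coprime (by rw [ht2, hy₁φ]; norm_num)
        rw [ht2, hy₁φ] at h2
        have h3 : ∀ σ : Equiv.Perm (Fin 3), σ ^ 2 = 1 ∨ σ ^ 3 = 1 := by decide
        let ee := ((Fintype.equivFinOfCardEq (by rw [Fintype.card_coe, hPcard])) : P ≃ Fin 3).permCongrHom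
        have h4 : orderOf (ee (φ t * φ y₁)) = 2 * 3 := by rw [MulEquiv.orderOf_eq, h2]
        rcases h3 (ee (φ t * φ y₁)) with h | h
        · have := orderOf_dvd_of_pow_eq_one h; rw [h4] at this; omega
        · have := orderOf_dvd_of_pow_eq_one h; rw [h4] at this; omega
      obtain ⟨m, hm⟩ : ∃ m, orderOf d = 2 ^ (orderOf d).factorization 2 * m := Nat.ordProj_dvd _ _
      have hd3 : φ d ^ 3 = 1 := by
        rw [hd, map_mul, map_mul, map_mul, map_inv]
        have h3 : ∀ σ τ : Equiv.Perm (Fin 3), σ ^ 2 = 1 → (σ * (τ * σ * τ⁻¹)) ^ 3 = 1 := by decide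
        let ee := ((Fintype.equivFinOfCardEq (by rw [Fintype.card_coe, hPcard])) : P ≃ Fin 3).permCongrHom
        apply ee.injective
        rw [map_pow, map_mul, map_mul, map_mul, map_inv, map_one]
        exact h3 _ _ (by rw [← map_pow, ← ht2, pow_orderOf_eq_one, map_one])
      have hd8 : (d ^ 8) ^ 3 = 1 := by
        have h1 : d ^ 3 ∈ F := hker ▸ MonoidHom.mem_ker.mpr (by rw [map_pow, hd3])
        have h2 : (⟨_, h1⟩ : F) ^ 8 = 1 := by rw [← hF8]; exact pow_card_eq_one'
        rw [← pow_mul, mul_comm, pow_mul]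
        simpa using congrArg Subtype.val h2
      refine ⟨d ^ 8, hd8, ?_, ?_⟩
      · nth_rewrite 2 [← htinv]
        rw [← conj_pow, htinv, hdinv, inv_pow]
      · refine orderOf_eq_prime (by rw [← map_pow, hd8, map_one]) fun h => hφd ?_
        rw [map_pow, show (8 : ℕ) = 3 + 3 + 2 by norm_num, pow_add, pow_add, hd3, one_mul, one_mul] at h
        calc φ d = φ d ^ 3 * (φ d ^ 2)⁻¹ := by group
          _ = 1 := by rw [hd3, h]; group
    -- a generator of the subgroup normalised by `t`
    obtain ⟨i, hi, hti, hthird⟩ : ∃ i ∈ s, t * i * t = i⁻¹ ∧ y * (y * i * y⁻¹) * y⁻¹ = i * (y * i * y⁻¹) := by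
      obtain ⟨b, hb⟩ : ∃ b : P, φ t b = b := by
        by_contra h
        push Not at h
        obtain ⟨n, hn⟩ := Equiv.Perm.cycleType_prime_order (σ := φ t) (by rw [ht2]; exact Nat.prime_two)
        have h1 := Equiv.Perm.sum_cycleType (φ t)
        rw [hn, Multiset.sum_replicate, ht2, smul_eq_mul,
          show (φ t).support = Finset.univ from Finset.eq_univ_iff_forall.mpr fun b => Equiv.Perm.mem_support.mpr (h b),
          Finset.card_univ, Fintype.card_coe, hPcard] at h1
        omega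
      obtain ⟨f, hf, hfb⟩ := Finset.mem_image.mp b.2
      have h1 := hφ t f hf
      rw [show (⟨pr f, hmkP f hf⟩ : P) = b from Subtype.ext hfb, hb, ← hfb, htinv] at h1
      have hyinv : y⁻¹ = y * y := inv_eq_of_mul_eq_one_right (by rw [← mul_assoc, ← pow_two, ← pow_succ, hy3])
      have hyy : (y * y)⁻¹ = y := by rw [← hyinv, inv_inv]
      obtain ⟨j, hj⟩ : ∃ j, j = y * f * y⁻¹ := ⟨_, rfl⟩
      obtain ⟨k, hk⟩ : ∃ k, k = y * j * y⁻¹ := ⟨_, rfl⟩
      have hjs : j ∈ s := hj ▸ hcs y f hf
      have hks : k ∈ s := hk ▸ hcs y j hjs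
      obtain ⟨hf1, hf2, hf3⟩ := (hsmem f).mp hf
      obtain ⟨hj1, -, -⟩ := (hsmem j).mp hjs
      have hjf := hs3 y hyo f hf
      rw [← hj] at hjf
      have hkj := hs3 y hyo j hjs
      rw [← hk] at hkj
      have hkf : k ≠ f ∧ k ≠ f * z := by
        have hky : f = y * k * y⁻¹ := by
          rw [hk, hj, show y * (y * (y * f * y⁻¹) * y⁻¹) * y⁻¹ = (y * y * y) * f * (y * y * y)⁻¹ by group,
            show y * y * y = 1 by rw [← pow_two, ← pow_succ, hy3], one_mul, inv_one, mul_one]
        constructor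
        · intro h
          exact (hs3 y hyo k hks).1 (by rw [← hky, h])
        · intro h
          refine (hs3 y hyo k hks).2 ?_
          rw [← hky, h, mul_assoc, hE.sq, mul_one]
      have hfj_mem : f * j ∈ s := by
        rw [hsmem]
        refine ⟨F.mul_mem hf1 hj1, fun h => hjf.2 ?_, fun h => hjf.1 ?_⟩
        · rw [eq_inv_of_mul_eq_one_right h, hinv f hf]
        · exact mul_left_cancel (h.trans (hsq f hf).symm)
      have hk_or : k = f * j ∨ k = f * j * z := by
        by_contra hcon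
        push Not at hcon
        have h5 : ({pr f, pr j, pr k, pr (f * j)} : Finset (Finset Q)) ⊆ P := by
          intro b hb
          simp only [Finset.mem_insert, Finset.mem_singleton] at hb
          rcases hb with rfl | rfl | rfl | rfl
          exacts [hmkP f hf, hmkP j hjs, hmkP k hks, hmkP _ hfj_mem]
        have e1 : pr f ≠ pr j := fun h => by rcases hpr' _ _ h with e | e; exacts [hjf.1 e, hjf.2 e]
        have e2 : pr f ≠ pr k := fun h => by rcases hpr' _ _ h with e | e; exacts [hkf.1 e, hkf.2 e]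
        have e3 : pr j ≠ pr k := fun h => by rcases hpr' _ _ h with e | e; exacts [hkj.1 e, hkj.2 e]
        have hj2 : j ≠ 1 ∧ j ≠ z := ⟨((hsmem j).mp hjs).2.1, ((hsmem j).mp hjs).2.2⟩
        have e4 : pr f ≠ pr (f * j) := fun h => by
          rcases hpr' _ _ h with e | e
          · exact hj2.1 (mul_eq_left.mp e)
          · exact hj2.2 (mul_left_cancel e)
        have e5 : pr j ≠ pr (f * j) := fun h => by
          rcases hpr' _ _ h with e | e
          · exact hf2 (mul_eq_right.mp e)
          · rw [(hE.central j hj1).eq] at e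
            exact hf3 (mul_right_cancel e)
        have e6 : pr k ≠ pr (f * j) := fun h => by
          rcases hpr' _ _ h with e | e
          · exact hcon.1 e.symm
          · exact hcon.2 (by rw [e, mul_assoc, hE.sq, mul_one])
        have h6 := Finset.card_le_card h5
        rw [hPcard, Finset.card_insert_of_notMem (by simp [e1, e2, e4]), Finset.card_insert_of_notMem (by simp [e3, e5]),
          Finset.card_pair e6] at h6
        omega
      have htj : t * j * t = y⁻¹ * (t * f * t) * y := by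
        rw [hj, show t * (y * f * y⁻¹) * t = (t * y * t⁻¹) * (t * f * t) * (t⁻¹ * y⁻¹ * t) by group, htinv,
          show t * y⁻¹ * t = (t * y * t)⁻¹ by rw [mul_inv_rev, mul_inv_rev, htinv, mul_assoc], hyt, inv_inv]
      have hkz : k = y⁻¹ * f * y := by
        rw [hk, hj, hyinv]
        nth_rewrite 3 [← hyy]
        group
      have hti : t * f * t = f⁻¹ := by
        rcases hpr' _ _ h1 with h | h
        · exfalso
          rw [h] at htj
          rw [← hkz] at htj
          have htk : t * k * t = j := by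
            rw [← htj, show t * (t * j * t) * t = (t * t) * j * (t * t) by group, htt, one_mul, mul_one]
          have hfj : f * (f * j) = z * j := by rw [← mul_assoc, hsq f hf]
          apply hE.ne_one
          rcases hk_or with e | e
          · have h7 : t * k * t = (t * f * t) * (t * j * t) := by
              rw [e, show t * f * t * (t * j * t) = t * f * (t * t) * j * t by group, htt]; group
            rw [h, htk, htj, e, hfj, eq_comm, mul_eq_right] at h7
            exact h7
          · have h7 : t * k * t = (t * f * t) * (t * j * t) * z := by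
              rw [e, show t * f * t * (t * j * t) * z = t * f * (t * t) * j * (t * z) by group, htt, hzcen t,
                ← mul_assoc _ z t]
              group
            rw [h, htk, htj, e, ← mul_assoc f (f * j) z, hfj, mul_assoc (z * j) z z, hE.sq, mul_one, eq_comm, mul_eq_right] at h7
            exact h7
        · rw [h, hinv f hf]
      rcases hk_or with e | e
      · exact ⟨f, hf, hti, by rw [← hj, ← hk, e]⟩
      · refine ⟨f * z, hsz f hf, ?_, ?_⟩
        · rw [hinv _ (hsz f hf), show t * (f * z) * t = (t * f * t) * (t⁻¹ * z * t) by group, hti, hinv f hf, hzcen t⁻¹,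
            inv_mul_cancel_right]
        · have hjz : y * (f * z) * y⁻¹ = j * z := by
            rw [show y * (f * z) * y⁻¹ = (y * f * y⁻¹) * (y * z * y⁻¹) by group, hzcen y, mul_inv_cancel_right, ← hj]
          rw [hjz, show y * (j * z) * y⁻¹ = (y * j * y⁻¹) * (y * z * y⁻¹) by group, hzcen y, mul_inv_cancel_right, ← hk, e,
            mul_assoc f z (j * z), ← mul_assoc z j z, ← hzcen j, mul_assoc j z z, hE.sq, mul_one, mul_assoc, hE.sq, mul_one]
    obtain ⟨hi1, hi2, hi3⟩ := (hsmem i).mp hi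
    have hjs : y * i * y⁻¹ ∈ s := hcs y i hi
    have hi4 : i ^ 4 = 1 := by rw [show 4 = 2 * 2 by norm_num, pow_mul, pow_two i, hsq i hi, pow_two, hE.sq]
    have hnc : ¬ Commute i (y * i * y⁻¹) := by
      intro hc
      rcases hE.comm_cases hi1 ((hsmem _).mp hjs).1 with h | h
      · -- the product of `i` and `j` would be a second involution
        have h1 : (i * (y * i * y⁻¹)) * (i * (y * i * y⁻¹)) = 1 := by
          rw [← pow_two, hc.mul_pow, pow_two, pow_two, hsq i hi, hsq _ hjs, hE.sq]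
        have hm : i * (y * i * y⁻¹) ∈ F := F.mul_mem hi1 ((hsmem _).mp hjs).1
        rcases hcls _ hm with e | e | e
        · exact (hs3 y hyo i hi).2 (by rw [eq_inv_of_mul_eq_one_right e, hinv i hi])
        · exact (hs3 y hyo i hi).1 (mul_left_cancel (e.trans (hsq i hi).symm))
        · rw [h1] at e; exact hE.ne_one e.symm
      · exact hE.ne_one (h.symm.trans (commutatorElement_eq_one_iff_mul_comm.mpr hc.eq))
    have hrel : Rel i y t := ⟨hi4, hy3, htt, hyt, hti,
      by rw [hinv _ hjs]; exact hE.conj_eq_of_not_commute hi1 ((hsmem _).mp hjs).1 hnc,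
      by rw [pow_two, pow_two, hsq _ hjs, hsq i hi], hthird⟩
    have hy3' : orderOf y = 3 := orderOf_eq_prime hy3 fun h => by rw [h, map_one, orderOf_one] at hyo; omega
    have hgen : Subgroup.closure ({i, y, t} : Set Q) = ⊤ := by
      obtain ⟨K, hK⟩ : ∃ K, K = Subgroup.closure ({i, y, t} : Set Q) := ⟨_, rfl⟩
      rw [← hK]
      have hiK : i ∈ K := hK ▸ Subgroup.subset_closure (Or.inl rfl)
      have hyK : y ∈ K := hK ▸ Subgroup.subset_closure (Or.inr (Or.inl rfl))
      have htK : t ∈ K := hK ▸ Subgroup.subset_closure (Or.inr (Or.inr rfl))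
      have hjK : y * i * y⁻¹ ∈ K := mul_mem (mul_mem hyK hiK) (inv_mem hyK)
      have h5 : 5 ≤ Nat.card (F ⊓ K : Subgroup Q) := by
        have hzK : z ∈ K := hsq i hi ▸ mul_mem hiK hiK
        have h5 : ({1, z, i, i * z, y * i * y⁻¹} : Finset Q).card = 5 := by
          obtain ⟨-, b1, b2⟩ := (hsmem _).mp hjs
          obtain ⟨-, c1, c2⟩ := (hsmem _).mp (hsz i hi)
          have hd := hs3 y hyo i hi
          have c3 : i * z ≠ i := fun h => hE.ne_one (mul_eq_left.mp h)
          rw [Finset.card_insert_of_notMem, Finset.card_insert_of_notMem, Finset.card_insert_of_notMem,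
            Finset.card_insert_of_notMem, Finset.card_singleton]
          · simp only [Finset.mem_singleton]; exact hd.2.symm
          · simp only [Finset.mem_insert, Finset.mem_singleton, not_or]; exact ⟨c3.symm, hd.1.symm⟩
          · simp only [Finset.mem_insert, Finset.mem_singleton, not_or]; exact ⟨hi3.symm, c2.symm, b2.symm⟩
          · simp only [Finset.mem_insert, Finset.mem_singleton, not_or]; exact ⟨hE.ne_one.symm, hi2.symm, c1.symm, b1.symm⟩
        rw [← h5, ← Fintype.card_coe, ← Nat.card_eq_fintype_card]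
        refine Nat.card_le_card_of_injective (fun x => (⟨x.1, ?_⟩ : (F ⊓ K : Subgroup Q))) fun a b e => Subtype.ext (congrArg (fun q : (F ⊓ K : Subgroup Q) => (q : Q)) e)
        have := x.2
        simp only [Finset.mem_insert, Finset.mem_singleton] at this
        rcases this with e | e | e | e | e <;> rw [e]
        exacts [one_mem _, ⟨hE.mem, hzK⟩, ⟨hi1, hiK⟩, ⟨F.mul_mem hi1 hE.mem, K.mul_mem hiK hzK⟩, ⟨((hsmem _).mp hjs).1, hjK⟩]
      have hFK : F ≤ K := by
        obtain ⟨c, hc⟩ := Subgroup.card_dvd_of_le (inf_le_left : F ⊓ K ≤ F)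
        rw [hF8] at hc
        rcases c with _ | _ | c
        · omega
        · exact inf_eq_left.mp (Subgroup.eq_of_le_of_card_ge inf_le_left (by rw [hF8]; omega))
        · exfalso
          have := Nat.mul_le_mul_left (Nat.card (F ⊓ K : Subgroup Q)) (show 2 ≤ c + 1 + 1 by omega)
          omega
      apply Subgroup.eq_top_of_card_eq
      obtain ⟨a, ha⟩ : 2 ∣ (F.subgroupOf K).index := by
        have h := orderOf_map_dvd ((QuotientGroup.mk' (F.subgroupOf K))) (⟨t, htK⟩ : K)
        have ho : orderOf ((QuotientGroup.mk' (F.subgroupOf K)) ⟨t, htK⟩) = 2 := orderOf_eq_prime (by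
          rw [← map_pow, show (⟨t, htK⟩ : K) ^ 2 = 1 from Subtype.ext (by rw [SubgroupClass.coe_pow, pow_two]; exact htt), map_one])
          fun h => htF ((QuotientGroup.eq_one_iff (N := F.subgroupOf K) (⟨t, htK⟩ : K)).mp h)
        rw [Subgroup.index_eq_card, ← ho]
        exact orderOf_dvd_natCard _
      obtain ⟨b, hb⟩ : 3 ∣ (F.subgroupOf K).index := by
        have ho : orderOf ((QuotientGroup.mk' (F.subgroupOf K)) ⟨y, hyK⟩) = 3 := orderOf_eq_prime (by
          rw [← map_pow, show (⟨y, hyK⟩ : K) ^ 3 = 1 from Subtype.ext hy3, map_one])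
          fun h => by
            have h' : y ∈ F := (QuotientGroup.eq_one_iff (N := F.subgroupOf K) (⟨y, hyK⟩ : K)).mp h
            have := Subgroup.orderOf_dvd_natCard F h'
            rw [hy3', hF8] at this
            omega
        rw [Subgroup.index_eq_card, ← ho]
        exact orderOf_dvd_natCard _
      have h1 := (F.subgroupOf K).card_mul_index
      rw [Nat.card_congr (Subgroup.subgroupOfEquivOfLe hFK).toEquiv, hF8] at h1
      have h2 := Nat.le_of_dvd Nat.card_pos (Subgroup.card_subgroup_dvd_card K)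
      rw [hQ48] at h2 ⊢
      have := Nat.card_pos (α := K)
      omega
    obtain ⟨f, hfi, hfy, hft⟩ := hrel.exists_hom gl_rel hgen hQ48
    have hfz : f z ≠ 1 := by
      rw [← hsq i hi, map_mul, hfi]
      decide
    have hinj : Function.Injective f := by
      rw [← MonoidHom.ker_eq_bot_iff, eq_bot_iff]
      intro g hg
      rw [Subgroup.mem_bot]
      have hmeet : ∀ u ∈ F, f u = 1 → u = 1 := fun u hu h => by
        rcases hcls u hu with e | e | e
        · exact e
        · exact absurd (e ▸ h) hfz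
        · exact absurd (by rw [← e, map_mul, h, one_mul]) hfz
      have hgF : g ∈ F := hC fun u hu => by
        have h1 : g * u * g⁻¹ * u⁻¹ = 1 := hmeet _ (F.mul_mem (hFn.conj_mem u hu g) (F.inv_mem hu)) (by
          simp [map_mul, show f g = 1 from hg])
        exact (mul_inv_eq_iff_eq_mul.mp (mul_inv_eq_one.mp h1)).symm
      exact hmeet g hgF hg
    haveI : Fintype (GL (Fin 2) (ZMod 3)) := Fintype.ofFinite _
    have hGL : Nat.card (GL (Fin 2) (ZMod 3)) = 48 := by
      rw [Matrix.card_GL_field, Fin.prod_univ_two, ZMod.card]; norm_num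
    exact ⟨MulEquiv.ofBijective f (hinj.bijective_of_nat_card_le (by rw [hQ48, hGL]))⟩
  · right
    push Not at hinvol
    have hzc : z ∈ Subgroup.center Q := Subgroup.mem_center_iff.mpr hzcen
    have hcen : Nat.card (Subgroup.center Q) = 2 := by
      have h1 : Subgroup.center Q = Subgroup.zpowers z := by
        refine le_antisymm (fun c hc => ?_) (Subgroup.zpowers_le.mpr hzc)
        have hcF : c ∈ F := hC fun u _ => Subgroup.mem_center_iff.mp hc u
        rcases hE.center c hcF (fun u _ => Subgroup.mem_center_iff.mp hc u) with h | h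
        · rw [h]; exact one_mem _
        · rw [h]; exact Subgroup.mem_zpowers z
      rw [h1, Nat.card_zpowers, orderOf_eq_prime (by rw [pow_two]; exact hE.sq) hE.ne_one]
    refine ⟨hQ48, hcen, sym_four F hFn hE hcls hF8 hQ48 hC hzc hcen y₁ hy₁, fun P₂ => ?_⟩
    have hFP : F ≤ (P₂ : Subgroup Q) := by
      haveI := hFn
      rw [← P₂.is_maximal' (hFp.to_sup_of_normal_left P₂.isPGroup') le_sup_right]
      exact le_sup_left
    have huP : CfsgLib.UniqueOrderP.Uniq 2 (P₂ : Subgroup Q) := by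
      intro a b ha hb
      have key : ∀ c : (P₂ : Subgroup Q), orderOf c = 2 → (c : Q) = z := fun c hc => by
        have hcc : (c : Q) * c = 1 := by
          rw [← pow_two, ← SubgroupClass.coe_pow, orderOf_dvd_iff_pow_eq_one.mp (dvd_of_eq hc)]; rfl
        have hcF : (c : Q) ∈ F := by
          by_contra h
          exact hinvol _ h hcc
        rcases hcls _ hcF with e | e | e
        · have : c = 1 := Subtype.ext e
          rw [this, orderOf_one] at hc; omega
        · exact e
        · rw [hcc] at e; exact absurd e.symm hE.ne_one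
      rw [show b = a from Subtype.ext (by rw [key a ha, key b hb])]
      exact Subgroup.mem_zpowers a
    have h16 := hS16 P₂
    rcases CfsgLib.UniqueOrderP.cyclic_or_quaternion P₂.isPGroup' huP with h | ⟨-, n, ⟨e'⟩⟩
    · exfalso
      haveI := h
      have : IsCyclic F := isCyclic_of_surjective (Subgroup.subgroupOfEquivOfLe hFP).toMonoidHom (Subgroup.subgroupOfEquivOfLe hFP).surjective
      have hcomm := IsCyclic.commGroup (α := F)
      have h2 : QuaternionGroup.xa 0 * QuaternionGroup.a 1 = QuaternionGroup.a 1 * (QuaternionGroup.xa 0 : QuaternionGroup 2) := by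
        obtain ⟨u, hu⟩ := e.surjective (QuaternionGroup.xa 0)
        obtain ⟨v, hv⟩ := e.surjective (QuaternionGroup.a 1)
        rw [← hu, ← hv, ← map_mul, ← map_mul, IsCyclic.commGroup.mul_comm u v]
      exact absurd h2 (by decide)
    · have h1 := Nat.card_congr e'.toEquiv
      rw [show Nat.card (P₂ : Subgroup Q) = 16 from h16, Nat.card_eq_fintype_card, QuaternionGroup.card] at h1
      have hn : n = 2 := Nat.pow_right_injective (le_refl 2) (show 2 ^ n = 2 ^ 2 by omega)
      subst hn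
      exact ⟨e'⟩



/-- Let G be a finite solvable group in which the intersection of any two distinct Sylow 2-subgroups has 2-rank at most 1 (contains no Klein four-group). Write Q = G/O(G), O(G) the largest normal subgroup of odd order. Then Q has a normal Sylow 2-subgroup; or Q is isomorphic to GL(2,3); or Q has order 48, centre of order 2 with central quotient isomorphic to the symmetric group of degree 4, and generalized quaternion Sylow 2-subgroups of order 16 (the binary octahedral group). The last two are the two representation groups of the symmetric group of degree 4. -/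
theorem result {G : Type*} [Group G] [Finite G] (hs : Group.IsSolvable G)
    (hI : ∀ S T : Sylow 2 G, S ≠ T → Cfsg.PRankLE 2 1 ↥((S : Subgroup G) ⊓ (T : Subgroup G))) :
    (∃ P : Sylow 2 (G ⧸ Cfsg.oddCore G), (P : Subgroup (G ⧸ Cfsg.oddCore G)).Normal) ∨
    Nonempty ((G ⧸ Cfsg.oddCore G) ≃* GL (Fin 2) (ZMod 3)) ∨
    (Nat.card (G ⧸ Cfsg.oddCore G) = 48 ∧ Nat.card ↥(Subgroup.center (G ⧸ Cfsg.oddCore G)) = 2 ∧
      Nonempty ((G ⧸ Cfsg.oddCore G) ⧸ Subgroup.center (G ⧸ Cfsg.oddCore G) ≃* Equiv.Perm (Fin 4)) ∧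
      ∀ P : Sylow 2 (G ⧸ Cfsg.oddCore G), Nonempty (↥(P : Subgroup (G ⧸ Cfsg.oddCore G)) ≃* QuaternionGroup 4)) := by
  classical
  haveI : Fact (Nat.Prime 2) := ⟨Nat.prime_two⟩
  haveI := hs
  obtain ⟨N, hN⟩ : ∃ N : Subgroup G, N = Cfsg.oddCore G := ⟨_, rfl⟩
  haveI : (Cfsg.oddCore G).Normal := (by haveI := CfsgLib.Core.pPrimeCore_characteristic (G := G) 2; infer_instance)
  obtain ⟨O, hO⟩ : ∃ O, O = Cfsg.pCore 2 (G ⧸ Cfsg.oddCore G) := ⟨_, rfl⟩
  have hOp : IsPGroup 2 O := hO ▸ CfsgLib.Core.isPGroup_pCore 2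
  have hOn : O.Normal := hO ▸ Cfsg.pCore_normal 2 _
  by_cases hnorm : ∃ P : Sylow 2 (G ⧸ Cfsg.oddCore G), (P : Subgroup (G ⧸ Cfsg.oddCore G)).Normal
  · exact Or.inl hnorm
  right
  have hC : Subgroup.centralizer (O : Set (G ⧸ Cfsg.oddCore G)) ≤ O := by
    rw [hO]
    haveI : Group.IsSolvable (G ⧸ Cfsg.oddCore G) := Group.isSolvable_of_surjective (QuotientGroup.mk'_surjective _)
    exact CfsgLib.OddQuad.centralizer_pCore_le (CfsgLib.Core.pPrimeCore_quotient_eq_bot 2)
  -- two different Sylow subgroups contain `O`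
  obtain ⟨S, T, hST⟩ : ∃ S T : Sylow 2 (G ⧸ Cfsg.oddCore G), S ≠ T := by
    by_contra h
    push Not at h
    obtain ⟨S⟩ := (inferInstance : Nonempty (Sylow 2 (G ⧸ Cfsg.oddCore G)))
    haveI : Subsingleton (Sylow 2 (G ⧸ Cfsg.oddCore G)) := ⟨h⟩
    exact hnorm ⟨S, Sylow.normal_of_subsingleton S⟩
  have hle : ∀ P : Sylow 2 (G ⧸ Cfsg.oddCore G), O ≤ (P : Subgroup (G ⧸ Cfsg.oddCore G)) := fun P =>
    hO ▸ CfsgLib.Core.pCore_le_sylow P
  -- rank at most one
  have hrank : ∀ A : Subgroup (G ⧸ Cfsg.oddCore G), A ≤ O → IsMulCommutative A → (∀ a ∈ A, a ^ 2 = 1) → Nat.card A ≤ 2 := by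
    intro A hAO hAc hA2
    let π := QuotientGroup.mk' (Cfsg.oddCore G)
    have hπ : Function.Surjective π := QuotientGroup.mk'_surjective _
    have hNco : (Nat.card (Cfsg.oddCore G)).Coprime 2 := CfsgLib.Core.card_pPrimeCore_coprime 2
    obtain ⟨S₀, hS₀⟩ := Sylow.mapSurjective_surjective hπ 2 S
    obtain ⟨T₀, hT₀⟩ := Sylow.mapSurjective_surjective hπ 2 T
    obtain ⟨R⟩ := (inferInstance : Nonempty (Sylow 2 ↥(A.comap π)))
    obtain ⟨A', hA'⟩ : ∃ A' : Subgroup G, A' = (R : Subgroup ↥(A.comap π)).map (A.comap π).subtype := ⟨_, rfl⟩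
    have hA'le : A' ≤ A.comap π := hA' ▸ Subgroup.map_subtype_le _
    have hA'p : IsPGroup 2 A' := hA' ▸ R.isPGroup'.map _
    have hinj : ∀ a ∈ A', π a = 1 → a = 1 := by
      intro a ha h
      have h1 : orderOf a ∣ Nat.card (Cfsg.oddCore G) := Subgroup.orderOf_dvd_natCard _ ((QuotientGroup.eq_one_iff a).mp h)
      obtain ⟨k, hk⟩ := hA'p ⟨a, ha⟩
      have h2 : orderOf a ∣ 2 ^ k := orderOf_dvd_of_pow_eq_one (congrArg Subtype.val hk)
      exact orderOf_eq_one_iff.mp (Nat.eq_one_of_dvd_coprimes (hNco.pow_right k) h1 h2)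
    have hcard : Nat.card A ≤ Nat.card A' := by
      let τ : ↥(A.comap π) →* A := (π.comp (A.comap π).subtype).codRestrict A fun g => g.2
      have hτ : Function.Surjective τ := fun a => by
        obtain ⟨g, hg⟩ := hπ a
        exact ⟨⟨g, show π g ∈ A from hg ▸ a.2⟩, Subtype.ext hg⟩
      have hAp : IsPGroup 2 A := hOp.to_le hAO
      obtain ⟨R', hR'⟩ := hAp.exists_card_eq
      have htop : (R.mapSurjective hτ : Subgroup A) = ⊤ := by
        apply Subgroup.eq_top_of_card_eq
        rw [show Nat.card (R.mapSurjective hτ : Subgroup A) = Nat.card (R.mapSurjective hτ) from rfl, Sylow.card_eq_multiplicity, hR',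
          Nat.Prime.factorization_pow Nat.prime_two, Finsupp.single_eq_same]
      have h3 : Function.Surjective (τ.comp (R : Subgroup ↥(A.comap π)).subtype) := fun a => by
        have : a ∈ (R : Subgroup ↥(A.comap π)).map τ := by
          rw [← Sylow.coe_mapSurjective hτ R, htop]; trivial
        obtain ⟨r, hr, e⟩ := this
        exact ⟨⟨r, hr⟩, e⟩
      refine (Nat.card_le_card_of_surjective _ h3).trans (le_of_eq ?_)
      rw [hA']
      exact Nat.card_congr ((R : Subgroup ↥(A.comap π)).equivMapOfInjective _ (A.comap π).subtype_injective).toEquiv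
    have hA'2 : ∀ a ∈ A', a ^ 2 = 1 := fun a ha => hinj _ (A'.pow_mem ha 2) (by
      rw [map_pow]; exact hA2 _ (hA'le ha))
    have hA'c : IsMulCommutative A' := ⟨⟨fun a b => Subtype.ext (by
      have ha := hA'2 a a.2
      have hb := hA'2 b b.2
      have hab := hA'2 _ (A'.mul_mem a.2 b.2)
      rw [pow_two] at ha hb hab
      show (a : G) * b = b * a
      rw [← inv_eq_of_mul_eq_one_right hab, mul_inv_rev, inv_eq_of_mul_eq_one_right ha, inv_eq_of_mul_eq_one_right hb])⟩⟩
    -- conjugate into lifts of the two Sylow subgroups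
    have key : ∀ (P : Sylow 2 (G ⧸ Cfsg.oddCore G)) (P₀ : Sylow 2 G), P₀.mapSurjective hπ = P →
        ∃ Q : Sylow 2 G, A' ≤ (Q : Subgroup G) ∧ (Q : Subgroup G).map π = (P : Subgroup (G ⧸ Cfsg.oddCore G)) := by
      intro P P₀ hP
      have hP' : (P₀ : Subgroup G).map π = (P : Subgroup (G ⧸ Cfsg.oddCore G)) := by rw [← hP]; rfl
      obtain ⟨M, hM⟩ : ∃ M : Subgroup G, M = (P : Subgroup (G ⧸ Cfsg.oddCore G)).comap π := ⟨_, rfl⟩
      have hA'M : A' ≤ M := fun a ha => by
        rw [hM, Subgroup.mem_comap]; exact hle P (hAO (hA'le ha))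
      have hP₀M : (P₀ : Subgroup G) ≤ M := fun a ha => by
        rw [hM, Subgroup.mem_comap, ← hP']; exact ⟨a, ha, rfl⟩
      obtain ⟨R₁, hR₁⟩ := (hA'p.comap_of_injective M.subtype M.subtype_injective : IsPGroup 2 (A'.comap M.subtype)).exists_le_sylow
      obtain ⟨m, hm⟩ := MulAction.exists_smul_eq M (P₀.subtype hP₀M) R₁
      refine ⟨(m : G) • P₀, fun a ha => ?_, ?_⟩
      · have h1 : (⟨a, hA'M ha⟩ : M) ∈ (R₁ : Subgroup M) := hR₁ ha
        rw [← hm, Sylow.smul_subtype] at h1
        rw [Sylow.coe_subtype, Subgroup.mem_subgroupOf] at h1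
        exact h1
      · rw [Sylow.coe_subgroup_smul, ← hP']
        ext q
        constructor
        · rintro ⟨_, ⟨r, hr, rfl⟩, rfl⟩
          rw [hP']
          have h1 : π m ∈ (P : Subgroup (G ⧸ Cfsg.oddCore G)) := by
            exact Subgroup.mem_comap.mp ((SetLike.ext_iff.mp hM (m : G)).mp m.2)
          have h2 : π r ∈ (P : Subgroup (G ⧸ Cfsg.oddCore G)) := hP' ▸ ⟨r, hr, rfl⟩
          show π ((m : G) * r * (m : G)⁻¹) ∈ _
          rw [map_mul, map_mul, map_inv]
          exact mul_mem (mul_mem h1 h2) (inv_mem h1)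
        · intro hq
          rw [hP'] at hq
          have h1 : π m ∈ (P : Subgroup (G ⧸ Cfsg.oddCore G)) := by
            exact Subgroup.mem_comap.mp ((SetLike.ext_iff.mp hM (m : G)).mp m.2)
          have h2 : (π m)⁻¹ * q * π m ∈ (P : Subgroup (G ⧸ Cfsg.oddCore G)) := mul_mem (mul_mem (inv_mem h1) hq) h1
          rw [← hP'] at h2
          obtain ⟨r, hr, e⟩ := h2
          refine ⟨_, ⟨r, hr, rfl⟩, ?_⟩
          show π ((m : G) * r * (m : G)⁻¹) = q
          rw [map_mul, map_mul, map_inv, show π r = (π m)⁻¹ * q * π m from e]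
          group
    obtain ⟨Q1, hQ1, hQ1'⟩ := key S S₀ hS₀
    obtain ⟨Q2, hQ2, hQ2'⟩ := key T T₀ hT₀
    have hne : Q1 ≠ Q2 := fun e => hST (Sylow.ext (by rw [← hQ1', ← hQ2', e]))
    have h4 := hI Q1 Q2 hne (A'.subgroupOf _) ?_ ?_
    · rw [Nat.card_congr (Subgroup.subgroupOfEquivOfLe (le_inf hQ1 hQ2)).toEquiv, pow_one] at h4
      exact hcard.trans h4
    · exact ⟨⟨fun a b => Subtype.ext (Subtype.ext (congrArg (fun q : A' => (q : G))
        (hA'c.is_comm.comm (⟨((a.1 : _) : G), a.2⟩ : A') ⟨((b.1 : _) : G), b.2⟩) :))⟩⟩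
    · intro a ha
      exact Subtype.ext (hA'2 _ ha)
  -- `O` has one involution
  have huniq : CfsgLib.UniqueOrderP.Uniq 2 O := by
    intro x y hx hy
    by_cases hO1 : Nontrivial O
    swap
    · rw [not_nontrivial_iff_subsingleton] at hO1
      rw [Subsingleton.elim x 1, orderOf_one] at hx
      omega
    haveI := hOp.center_nontrivial
    obtain ⟨c, hc⟩ : ∃ c : Subgroup.center O, orderOf c = 2 := by
      obtain ⟨n, hn0, hn⟩ := (hOp.to_subgroup (Subgroup.center O)).nontrivial_iff_card.mp inferInstance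
      exact exists_prime_orderOf_dvd_card' 2 (hn ▸ dvd_pow_self 2 hn0.ne')
    have hco : orderOf (c : O) = 2 := by rw [Subgroup.orderOf_coe, hc]
    have key : ∀ w : O, orderOf w = 2 → w = (c : O) := by
      intro w hw
      by_contra hne
      have hcw : Commute (c : O) w := (Subgroup.mem_center_iff.mp c.2 w).symm
      obtain ⟨cG, hcG⟩ : ∃ cG, cG = ((c : O) : G ⧸ Cfsg.oddCore G) := ⟨_, rfl⟩
      obtain ⟨wG, hwG⟩ : ∃ wG, wG = ((w : O) : G ⧸ Cfsg.oddCore G) := ⟨_, rfl⟩
      have hc2 : cG * cG = 1 := by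
        rw [hcG, ← pow_two, ← SubgroupClass.coe_pow, orderOf_dvd_iff_pow_eq_one.mp (dvd_of_eq hco)]; rfl
      have hw2 : wG * wG = 1 := by
        rw [hwG, ← pow_two, ← SubgroupClass.coe_pow, orderOf_dvd_iff_pow_eq_one.mp (dvd_of_eq hw)]; rfl
      have hcw' : cG * wG = wG * cG := by rw [hcG, hwG]; exact congrArg Subtype.val hcw.eq
      let A := Subgroup.closure ({cG, wG} : Set (G ⧸ Cfsg.oddCore G))
      have hAc : IsMulCommutative A := Subgroup.isMulCommutative_closure (by
        intro a ha b hb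
        simp only [Set.mem_insert_iff, Set.mem_singleton_iff] at ha hb
        rcases ha with rfl | rfl <;> rcases hb with rfl | rfl <;> first | rfl | exact hcw' | exact hcw'.symm)
      have h1 := hrank A (by
        rw [Subgroup.closure_le]
        rintro g (rfl | rfl)
        · rw [hcG]; exact (c : O).2
        · rw [hwG]; exact w.2) hAc (fun a ha => by
        induction ha using Subgroup.closure_induction with
        | mem x hx =>
          rw [pow_two]
          rcases hx with rfl | rfl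
          · exact hc2
          · exact hw2
        | one => rw [one_pow]
        | mul x y hx hy ihx ihy =>
          rw [(show Commute x y from congrArg Subtype.val (hAc.is_comm.comm (⟨x, hx⟩ : A) ⟨y, hy⟩)).mul_pow, ihx, ihy, one_mul]
        | inv x _ ih => rw [inv_pow, ih, inv_one])
      have hc1 : cG ≠ 1 := fun e => by
        have : (c : O) = 1 := Subtype.ext (hcG ▸ e)
        rw [this, orderOf_one] at hco; omega
      have hw1 : wG ≠ 1 := fun e => by
        have : w = 1 := Subtype.ext (hwG ▸ e)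
        rw [this, orderOf_one] at hw; omega
      have hwc : wG ≠ cG := fun e => hne (Subtype.ext (by rw [hwG, hcG] at e; exact e))
      have h3 : ({1, cG, wG} : Finset (G ⧸ Cfsg.oddCore G)).card = 3 := by
        rw [Finset.card_insert_of_notMem (by simp [hc1.symm, hw1.symm]), Finset.card_pair hwc.symm]
      have h4 : 3 ≤ Nat.card A := by
        rw [← h3, ← Fintype.card_coe, ← Nat.card_eq_fintype_card]
        refine Nat.card_le_card_of_injective (fun x => (⟨x.1, ?_⟩ : A)) fun a b e => Subtype.ext (congrArg (fun q : A => (q : G ⧸ Cfsg.oddCore G)) e)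
        have := x.2
        simp only [Finset.mem_insert, Finset.mem_singleton] at this
        rcases this with e | e | e <;> rw [e]
        exacts [one_mem _, Subgroup.subset_closure (Or.inl rfl), Subgroup.subset_closure (Or.inr rfl)]
      omega
    rw [key x hx, key y hy]
    exact Subgroup.mem_zpowers _
  exact main O hOn hOp hC huniq hnorm (fun N hN hp => by rw [hO]; exact CfsgLib.Core.le_pCore hN hp)

end Cfsg.Agent.S3304
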