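import Cfsg.Statements.S3305
import Mathlib.GroupTheory.Sylow
import Mathlib.GroupTheory.SpecificGroups.Cyclic
import Mathlib.Tactic

set_option autoImplicit false
open Cfsg

namespace Cfsg.Agent.S3305

lemma lift_sylow {G : Type*} [Group G] [Finite G] (H : Subgroup G) [H.Normal] (Sb : Sylow 2 (G ⧸ H))
    (R : Subgroup G) (hR : IsPGroup 2 R) (hRS : R ≤ Subgroup.comap (QuotientGroup.mk' H) Sb) :
    ∃ S : Sylow 2 G, R ≤ S ∧ (S : Subgroup G).map (QuotientGroup.mk' H) = Sb := by
  set W := Subgroup.comap (QuotientGroup.mk' H) (Sb : Subgroup (G ⧸ H)) with hW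
  obtain ⟨P, hP⟩ := (hR.comap_subtype (K := W)).exists_le_sylow
  have hPp : IsPGroup 2 ((P : Subgroup W).map W.subtype) := P.isPGroup'.map _
  have hidx : ¬ 2 ∣ ((P : Subgroup W).map W.subtype).index := by
    have hWi : W.index = (Sb : Subgroup (G ⧸ H)).index :=
      Subgroup.index_comap_of_surjective _ (QuotientGroup.mk'_surjective H)
    rw [Subgroup.index_map_subtype, hWi]
    intro h
    rcases Nat.prime_two.dvd_mul.1 h with h | h
    · exact P.not_dvd_index h
    · exact Sb.not_dvd_index h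
  set S : Sylow 2 G := hPp.toSylow hidx with hS
  have hSW : (S : Subgroup G) ≤ W := Subgroup.map_subtype_le _
  refine ⟨S, fun x hx => ?_, ?_⟩
  · exact ⟨⟨x, hRS hx⟩, hP (show (⟨x, hRS hx⟩ : W) ∈ R.comap W.subtype from hx), rfl⟩
  · have h1 : (S : Subgroup G).map (QuotientGroup.mk' H) ≤ Sb := Subgroup.map_le_iff_le_comap.2 hSW
    exact ((S.mapSurjective (QuotientGroup.mk'_surjective H)).is_maximal' Sb.isPGroup' h1).symm


/-- If any two distinct Sylow 2-subgroups of the finite group G intersect in a cyclic group, then the same holds in every quotient group G/H, H a normal subgroup of G. -/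
theorem result {G : Type*} [Group G] [Finite G]
    (hC : ∀ S T : Sylow 2 G, S ≠ T → IsCyclic ↥((S : Subgroup G) ⊓ (T : Subgroup G))) (H : Subgroup G) [H.Normal] :
    ∀ S T : Sylow 2 (G ⧸ H), S ≠ T → IsCyclic ↥((S : Subgroup (G ⧸ H)) ⊓ (T : Subgroup (G ⧸ H))) := by
  intro Sb Tb hne
  set U := (Sb : Subgroup (G ⧸ H)) ⊓ (Tb : Subgroup (G ⧸ H)) with hU
  set Q := Subgroup.comap (QuotientGroup.mk' H) U with hQ
  let φ : Q →* U := (QuotientGroup.mk' H).subgroupComap U
  have hφ : Function.Surjective φ :=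
    (QuotientGroup.mk' H).subgroupComap_surjective_of_surjective U (QuotientGroup.mk'_surjective H)
  obtain ⟨P⟩ := (inferInstance : Nonempty (Sylow 2 Q))
  have hU2 : IsPGroup 2 U := Sb.isPGroup'.to_le inf_le_left
  have htop : (⊤ : Subgroup U) = (P : Subgroup Q).map φ :=
    (P.mapSurjective hφ).is_maximal' (hU2.to_subgroup ⊤) le_top
  set R := (P : Subgroup Q).map Q.subtype with hR
  have hRp : IsPGroup 2 R := P.isPGroup'.map _
  have hRQ : R ≤ Q := Subgroup.map_subtype_le _
  obtain ⟨S, hRS, hS⟩ := lift_sylow H Sb R hRp (hRQ.trans (Subgroup.comap_mono inf_le_left))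
  obtain ⟨T, hRT, hT⟩ := lift_sylow H Tb R hRp (hRQ.trans (Subgroup.comap_mono inf_le_right))
  have hST : S ≠ T := fun h => hne (Sylow.ext (by rw [← hS, ← hT, h]))
  haveI := hC S T hST
  haveI : IsCyclic R := isCyclic_of_injective (Subgroup.inclusion (le_inf hRS hRT))
    (Subgroup.inclusion_injective _)
  haveI : IsCyclic (P : Subgroup Q) :=
    isCyclic_of_surjective ((P : Subgroup Q).equivMapOfInjective Q.subtype Q.subtype_injective).symm
      ((P : Subgroup Q).equivMapOfInjective Q.subtype Q.subtype_injective).symm.surjective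
  haveI : IsCyclic ((P : Subgroup Q).map φ) :=
    isCyclic_of_surjective (φ.subgroupMap (P : Subgroup Q)) (φ.subgroupMap_surjective _)
  rw [← htop] at *
  exact isCyclic_of_surjective Subgroup.topEquiv Subgroup.topEquiv.surjective

end Cfsg.Agent.S3305
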