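import Cfsg.Statements.S3309
import Mathlib
import Cfsg.Agent.Lib.ThompsonTransfer
import Cfsg.Agent.Lib.Isolated
import Cfsg.Agent.Lib.ZStar.Main

set_option autoImplicit false
open Cfsg

namespace Cfsg.Agent.S3309

abbrev P16 := Multiplicative (ZMod 2) × DihedralGroup 4

def pa : P16 := (Multiplicative.ofAdd 1, 1)
def pz : P16 := (1, DihedralGroup.r 2)
def ps : P16 := (1, DihedralGroup.sr 0)
def pt : P16 := (1, DihedralGroup.sr 1)

def ev (u w : ZMod 2) : P16 → ZMod 2
  | (i, DihedralGroup.r k) => i.toAdd + (k.val : ZMod 2) * (u + w)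
  | (i, DihedralGroup.sr k) => i.toAdd + u + (k.val : ZMod 2) * (u + w)

theorem ev_mul : ∀ u w : ZMod 2, ∀ x y : P16, ev u w (x * y) = ev u w x + ev u w y := by decide +kernel

theorem central : ∀ x : P16, pa * x = x * pa ∧ pz * x = x * pz := by decide +kernel

theorem square : ∀ x : P16, x * x = 1 ∨ x * x = pz := by decide +kernel

theorem central_cases : ∀ x : P16, (∀ y : P16, x * y = y * x) → x = 1 ∨ x = pz ∨ x = pa ∨ x = pa * pz := by
  decide +kernel

set_option synthInstance.maxSize 512 in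
theorem cases_inv : ∀ x : P16, x * x = 1 → x ≠ 1 → x = pz ∨ x = pa ∨ x = pa * pz ∨
    ∃ c : P16, c * x * c⁻¹ = ps ∨ c * x * c⁻¹ = pa * ps ∨ c * x * c⁻¹ = pt ∨ c * x * c⁻¹ = pa * pt := by
  decide +kernel

theorem ev_vals : ∀ u w : ZMod 2, ev u w pa = 1 ∧ ev u w pz = 0 ∧ ev u w (pa * pz) = 1 ∧ ev u w ps = u ∧
    ev u w (pa * ps) = 1 + u ∧ ev u w pt = w ∧ ev u w (pa * pt) = 1 + w := by decide +kernel

theorem orders : pa * pa = 1 ∧ pa ≠ 1 ∧ pz * pz = 1 ∧ pz ≠ 1 ∧ (pa * pz) * (pa * pz) = 1 ∧ pa * pz ≠ 1 ∧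
    pz ≠ pa ∧ pz ≠ pa * pz ∧ pa ≠ pa * pz ∧ (DihedralGroup.r 1 : DihedralGroup 4) * DihedralGroup.r 1 = DihedralGroup.r 2 := by
  decide +kernel


set_option maxHeartbeats 1000000 in
/-- A finite group whose Sylow 2-subgroups are isomorphic to the direct product of a group of order 2 and the dihedral group of order 8 is not a non-abelian simple group. -/
theorem result {G : Type*} [Group G] [Finite G] (S : Sylow 2 G) (hS : Nonempty (↥(S : Subgroup G) ≃* Multiplicative (ZMod 2) × DihedralGroup 4))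
    [IsSimpleGroup G] (hG : ¬ IsMulCommutative G) : False := by
  classical
  haveI : Fact (Nat.Prime 2) := ⟨Nat.prime_two⟩
  obtain ⟨e⟩ := hS
  let ι : P16 →* G := (S : Subgroup G).subtype.comp e.symm.toMonoidHom
  have ιinj : Function.Injective ι := Subtype.val_injective.comp e.symm.injective
  have ιmem : ∀ x, ι x ∈ (S : Subgroup G) := fun x => (e.symm x).2
  have ιsurj : ∀ g ∈ (S : Subgroup G), ∃ x, ι x = g := fun g hg =>
    ⟨e ⟨g, hg⟩, by show ((e.symm (e ⟨g, hg⟩) : (S : Subgroup G)) : G) = g; rw [e.symm_apply_apply]⟩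
  obtain ⟨oa, na, oz, nz, oaz, naz, za, zaz, aaz, -⟩ := orders
  have ord2 : ∀ x : P16, x * x = 1 → x ≠ 1 → orderOf (ι x) = 2 := by
    intro x hx hx1
    rw [orderOf_injective ι ιinj]
    exact orderOf_eq_prime (by rw [sq, hx]) hx1
  -- central elements of the Sylow subgroup are not fused
  have hburn : ∀ x y : P16, (x = pz ∨ x = pa ∨ x = pa * pz) → (y = pz ∨ y = pa ∨ y = pa * pz) →
      ∀ g : G, g * ι x * g⁻¹ = ι y → x = y := by
    intro x y hx hy g hg
    have hcen : ∀ w : P16, (w = pz ∨ w = pa ∨ w = pa * pz) → ∀ v, w * v = v * w := by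
      rintro w (rfl | rfl | rfl) v
      · exact (central v).2
      · exact (central v).1
      · exact ((show Commute pa v from (central v).1).mul_left (central v).2).eq
    have hC : ∀ w : P16, (w = pz ∨ w = pa ∨ w = pa * pz) → ι w ∈ Subgroup.centralizer ((S : Subgroup G) : Set G) := by
      intro w hw
      rw [Subgroup.mem_centralizer_iff]
      intro s hs
      obtain ⟨v, rfl⟩ := ιsurj s hs
      rw [← map_mul, ← map_mul, hcen w hw v]
    obtain ⟨n, hn, hnx⟩ := S.conj_eq_normalizer_conj_of_mem_centralizer (ι x) g⁻¹ (hC x hx)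
      (by rw [inv_inv, hg]; exact hC y hy)
    rw [inv_inv, hg] at hnx
    -- the conjugation map on the Sylow subgroup
    have hact : ∀ w : P16, ∃ v, ι v = n⁻¹ * ι w * n := by
      intro w
      have hn' : n⁻¹ ∈ Subgroup.normalizer ((S : Subgroup G) : Set G) := inv_mem hn
      have := (Subgroup.mem_normalizer_iff.1 hn' (ι w)).1 (ιmem w)
      rw [inv_inv] at this
      exact ιsurj _ this
    choose φ hφ using hact
    have φmul : ∀ v w, φ (v * w) = φ v * φ w := fun v w => ιinj (by
      rw [map_mul, hφ, hφ, hφ, map_mul]; group)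
    have φinj : Function.Injective φ := fun v w h => ιinj (by
      have h' := congrArg ι h
      rw [hφ, hφ] at h'
      simpa using h')
    have φone : φ 1 = 1 := ιinj (by rw [hφ, map_one, mul_one, inv_mul_cancel])
    have φz : φ pz = pz := by
      have hr : pz = ((1, DihedralGroup.r 1) : P16) * (1, DihedralGroup.r 1) := by
        rw [Prod.mk_mul_mk, mul_one, orders.2.2.2.2.2.2.2.2.2]; rfl
      have h1 : φ pz ≠ 1 := fun h => nz (φinj (h.trans φone.symm))
      rw [hr, φmul] at h1 ⊢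
      exact ((square _).resolve_left h1).trans hr
    have φcases : φ pa = pa ∨ φ pa = pa * pz := by
      have hc : ∀ v, φ pa * v = v * φ pa := by
        have φsurj := Finite.injective_iff_surjective.1 φinj
        intro v
        obtain ⟨w, rfl⟩ := φsurj v
        rw [← φmul, ← φmul, (central w).1]
      rcases central_cases _ hc with h | h | h | h
      · exact absurd (φinj (h.trans φone.symm)) na
      · exact absurd (φinj (h.trans φz.symm)) za.symm
      · exact Or.inl h
      · exact Or.inr h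
    -- an odd power of n lies in S, so the swap does not occur
    have φa : φ pa = pa := by
      refine φcases.resolve_right fun h => ?_
      have hsq : n⁻¹ * (n⁻¹ * ι pa * n) * n = ι pa := by
        rw [← hφ, h, ← hφ, φmul, φz, h]
        have : pa * pz * pz = pa := by rw [mul_assoc, oz, mul_one]
        rw [this]
      let m := ((S : Subgroup G).subgroupOf (Subgroup.normalizer ((S : Subgroup G) : Set G))).index
      have hm : Odd m := by
        rw [Nat.odd_iff]
        have h2 : ¬ 2 ∣ (S : Subgroup G).index := S.not_dvd_index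
        have hd : m ∣ (S : Subgroup G).index := Subgroup.relIndex_dvd_index_of_le Subgroup.le_normalizer
        exact Nat.two_dvd_ne_zero.1 fun h0 => h2 (h0.trans hd)
      have hmem : n ^ m ∈ (S : Subgroup G) := by
        have := Subgroup.pow_index_mem (H := (S : Subgroup G).subgroupOf (Subgroup.normalizer ((S : Subgroup G) : Set G))) (⟨n, hn⟩ : Subgroup.normalizer ((S : Subgroup G) : Set G))
        exact this
      obtain ⟨k, hk⟩ := hm
      have h2k : ∀ i : ℕ, (n ^ (2 * i))⁻¹ * ι pa * n ^ (2 * i) = ι pa := by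
        intro i
        induction i with
        | zero => simp
        | succ i ih =>
          rw [show 2 * (i + 1) = 2 * i + 1 + 1 from rfl, pow_succ, pow_succ, mul_inv_rev, mul_inv_rev]
          calc n⁻¹ * (n⁻¹ * (n ^ (2 * i))⁻¹) * ι pa * (n ^ (2 * i) * n * n)
              = n⁻¹ * (n⁻¹ * ((n ^ (2 * i))⁻¹ * ι pa * n ^ (2 * i)) * n) * n := by group
            _ = ι pa := by rw [ih, hsq]
      obtain ⟨v, hv⟩ := ιsurj _ hmem
      have hfix : (n ^ m)⁻¹ * ι pa * n ^ m = ι pa := by
        rw [← hv, ← map_inv, ← map_mul, ← map_mul]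
        congr 1
        rw [mul_assoc, (central v).1, inv_mul_cancel_left]
      rw [hk, pow_succ, mul_inv_rev] at hfix
      have : ι pa = ι (φ pa) := by
        rw [hφ]
        conv_lhs => rw [← hfix]
        calc n⁻¹ * (n ^ (2 * k))⁻¹ * ι pa * (n ^ (2 * k) * n)
            = n⁻¹ * ((n ^ (2 * k))⁻¹ * ι pa * n ^ (2 * k)) * n := by group
          _ = _ := by rw [h2k k]
      rw [h] at this
      exact aaz (ιinj this)
    have hφx : φ x = x := by
      rcases hx with rfl | rfl | rfl
      · exact φz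
      · exact φa
      · rw [φmul, φa, φz]
    exact ιinj (by rw [hnx, ← hφ, hφx])
  -- Thompson transfer
  have hT : ∀ u w : ZMod 2, ∀ x : P16, x * x = 1 → x ≠ 1 → ∃ g : G, ∃ y : P16, g * ι x * g⁻¹ = ι y ∧ ev u w y = 0 := by
    intro u w x hx hx1
    let ε : ↥(S : Subgroup G) →* Multiplicative (ZMod 2) :=
      { toFun := fun s => Multiplicative.ofAdd (ev u w (e s))
        map_one' := by
          have h := ev_mul u w 1 1
          rw [mul_one] at h
          rw [map_one]
          show Multiplicative.ofAdd (ev u w 1) = 1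
          rw [left_eq_add] at h
          rw [h, ofAdd_zero]
        map_mul' := fun s t => by
          show Multiplicative.ofAdd (ev u w (e (s * t))) = _
          rw [map_mul, ev_mul, ofAdd_add] }
    let T : Subgroup G := ε.ker.map (S : Subgroup G).subtype
    have hTsub : T.subgroupOf (S : Subgroup G) = ε.ker := Subgroup.comap_map_eq_self_of_injective Subtype.val_injective _
    haveI : (T.subgroupOf (S : Subgroup G)).Normal := hTsub ▸ inferInstance
    have hcard : Nat.card (↥(S : Subgroup G) ⧸ T.subgroupOf (S : Subgroup G)) ∣ 2 := by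
      rw [← Subgroup.index_eq_card, hTsub, Subgroup.index_ker]
      have := Subgroup.card_subgroup_dvd_card ε.range
      rwa [Nat.card_eq_fintype_card (α := Multiplicative (ZMod 2)),
        show Fintype.card (Multiplicative (ZMod 2)) = 2 from rfl] at this
    have hcyc : IsCyclic (↥(S : Subgroup G) ⧸ T.subgroupOf (S : Subgroup G)) := by
      rcases (Nat.dvd_prime Nat.prime_two).1 hcard with h | h
      · haveI := (Nat.card_eq_one_iff_unique.1 h).1
        infer_instance
      · exact isCyclic_of_prime_card h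
    obtain ⟨g, hgT, -⟩ := CfsgLib.ThompsonTransfer.extremal S T hcyc (ι x) (ord2 x hx hx1) (fun ψ => by
      letI : CommGroup (↥(S : Subgroup G) ⧸ T.subgroupOf (S : Subgroup G)) := IsCyclic.commGroup
      rcases (inferInstance : ψ.ker.Normal).eq_bot_or_eq_top with h | h
      · exfalso
        refine hG ⟨⟨fun p q => ?_⟩⟩
        apply (MonoidHom.ker_eq_bot_iff ψ).1 h
        rw [map_mul, map_mul]
        exact IsCyclic.commGroup.mul_comm _ _
      · rw [← MonoidHom.mem_ker, h]; exact Subgroup.mem_top _)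
    obtain ⟨s, hs, hsg⟩ := hgT
    refine ⟨g, e s, ?_, ?_⟩
    · show g * ι x * g⁻¹ = ((e.symm (e s) : (S : Subgroup G)) : G)
      rw [e.symm_apply_apply]; exact hsg.symm
    · exact Multiplicative.ofAdd.injective hs
  -- conjugacy to the four classes of non-central involutions
  let Cj : P16 → P16 → Prop := fun x y => ∃ g : G, g * ι x * g⁻¹ = ι y
  have Cjsymm : ∀ x y, Cj x y → Cj y x := by
    rintro x y ⟨g, hg⟩
    exact ⟨g⁻¹, by rw [← hg]; group⟩
  have Cjtrans : ∀ x y v, Cj x y → Cj y v → Cj x v := by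
    rintro x y v ⟨g, hg⟩ ⟨k, hk⟩
    exact ⟨k * g, by rw [← hk, ← hg]; group⟩
  have cov : ∀ x : P16, (x = pa ∨ x = pa * pz) → ∀ u w : ZMod 2,
      (u = 0 ∧ Cj x ps) ∨ (1 + u = 0 ∧ Cj x (pa * ps)) ∨ (w = 0 ∧ Cj x pt) ∨ (1 + w = 0 ∧ Cj x (pa * pt)) := by
    intro x hx u w
    have hxx : x * x = 1 ∧ x ≠ 1 ∧ (x = pz ∨ x = pa ∨ x = pa * pz) := by
      rcases hx with rfl | rfl
      exacts [⟨oa, na, Or.inr (Or.inl rfl)⟩, ⟨oaz, naz, Or.inr (Or.inr rfl)⟩]
    obtain ⟨g, y, hg, hy⟩ := hT u w x hxx.1 hxx.2.1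
    obtain ⟨va, vz, vaz, vs, vas, vt, vat⟩ := ev_vals u w
    have hy2 : y * y = 1 := ιinj (by
      rw [map_mul, ← hg, map_one]
      have : ι x * ι x = 1 := by rw [← map_mul, hxx.1, map_one]
      calc g * ι x * g⁻¹ * (g * ι x * g⁻¹) = g * (ι x * ι x) * g⁻¹ := by group
        _ = 1 := by rw [this]; group)
    have hy1 : y ≠ 1 := fun h => hxx.2.1 (ιinj (by
      rw [h, map_one, mul_inv_eq_one] at hg
      rw [map_one]; exact mul_eq_left.1 hg))
    rcases cases_inv y hy2 hy1 with h | h | h | ⟨c, hc⟩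
    · have := hburn x y hxx.2.2 (Or.inl h) g hg
      subst this
      rcases hx with h' | h'
      exacts [absurd (h.symm.trans h') za, absurd (h.symm.trans h') zaz]
    · rw [h, va] at hy; exact absurd hy one_ne_zero
    · rw [h, vaz] at hy; exact absurd hy one_ne_zero
    · have hev : ev u w (c * y * c⁻¹) = 0 := by
        have h1 := ev_mul u w c c⁻¹
        have h0 : ev u w 1 = 0 := by have := ev_mul u w 1 1; rw [mul_one, left_eq_add] at this; exact this
        rw [mul_inv_cancel, h0] at h1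
        rw [ev_mul, ev_mul, hy, add_zero, ← h1]
      have hcj : Cj x (c * y * c⁻¹) := ⟨ι c * g, by rw [map_mul, map_mul, map_inv, ← hg]; group⟩
      rcases hc with h | h | h | h <;> rw [h] at hev hcj
      · exact Or.inl ⟨vs ▸ hev, hcj⟩
      · exact Or.inr (Or.inl ⟨vas ▸ hev, hcj⟩)
      · exact Or.inr (Or.inr (Or.inl ⟨vt ▸ hev, hcj⟩))
      · exact Or.inr (Or.inr (Or.inr ⟨vat ▸ hev, hcj⟩))
  have dis : ∀ y, Cj pa y → Cj (pa * pz) y → False := fun y h1 h2 => by
    obtain ⟨g, hg⟩ := Cjtrans _ _ _ h1 (Cjsymm _ _ h2)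
    exact aaz (hburn pa (pa * pz) (Or.inr (Or.inl rfl)) (Or.inr (Or.inr rfl)) g hg)
  have all4 : (Cj pa ps ∨ Cj (pa * pz) ps) ∧ (Cj pa (pa * ps) ∨ Cj (pa * pz) (pa * ps)) ∧
      (Cj pa pt ∨ Cj (pa * pz) pt) ∧ (Cj pa (pa * pt) ∨ Cj (pa * pz) (pa * pt)) := by
    have a00 := cov pa (Or.inl rfl) 0 0
    have a01 := cov pa (Or.inl rfl) 0 1
    have a10 := cov pa (Or.inl rfl) 1 0
    have a11 := cov pa (Or.inl rfl) 1 1
    have b00 := cov (pa * pz) (Or.inr rfl) 0 0
    have b01 := cov (pa * pz) (Or.inr rfl) 0 1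
    have b10 := cov (pa * pz) (Or.inr rfl) 1 0
    have b11 := cov (pa * pz) (Or.inr rfl) 1 1
    have h10 : (1 : ZMod 2) + 0 ≠ 0 := by rw [add_zero]; exact one_ne_zero
    have h11 : (1 : ZMod 2) + 1 = 0 := rfl
    have h1 : (1 : ZMod 2) ≠ 0 := one_ne_zero
    simp only [h10, h11, h1, false_and, true_and, false_or, or_false] at a00 a01 a10 a11 b00 b01 b10 b11
    refine ⟨?_, ?_, ?_, ?_⟩ <;> by_contra hq <;> rw [not_or] at hq
    · exact dis _ (a00.resolve_left hq.1) (b00.resolve_left hq.2)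
    · exact dis _ (a10.resolve_left hq.1) (b10.resolve_left hq.2)
    · exact dis _ (a00.resolve_right hq.1) (b00.resolve_right hq.2)
    · exact dis _ (a01.resolve_right hq.1) (b01.resolve_right hq.2)
  -- so pz is isolated
  have hiso : ∀ g : G, g * ι pz * g⁻¹ ∈ S → g * ι pz * g⁻¹ = ι pz := by
    intro g hg
    obtain ⟨y, hy⟩ := ιsurj _ hg
    have hy2 : y * y = 1 := ιinj (by
      rw [map_mul, hy, map_one]
      have : ι pz * ι pz = 1 := by rw [← map_mul, oz, map_one]
      calc g * ι pz * g⁻¹ * (g * ι pz * g⁻¹) = g * (ι pz * ι pz) * g⁻¹ := by group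
        _ = 1 := by rw [this]; group)
    have hy1 : y ≠ 1 := fun h => nz (ιinj (by
      rw [h, map_one, eq_comm, mul_inv_eq_one] at hy
      rw [map_one]; exact mul_eq_left.1 hy))
    have hzy : Cj pz y := ⟨g, hy.symm⟩
    have not_a : ∀ v, (Cj pa v ∨ Cj (pa * pz) v) → Cj pz v → False := by
      rintro v (h | h) hv
      · obtain ⟨k, hk⟩ := Cjtrans _ _ _ hv (Cjsymm _ _ h)
        exact za (hburn pz pa (Or.inl rfl) (Or.inr (Or.inl rfl)) k hk)
      · obtain ⟨k, hk⟩ := Cjtrans _ _ _ hv (Cjsymm _ _ h)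
        exact zaz (hburn pz (pa * pz) (Or.inl rfl) (Or.inr (Or.inr rfl)) k hk)
    rcases cases_inv y hy2 hy1 with h | h | h | ⟨c, hc⟩
    · rw [← hy, h]
    · subst h; exact absurd (hburn pz pa (Or.inl rfl) (Or.inr (Or.inl rfl)) g hy.symm) za
    · subst h; exact absurd (hburn pz _ (Or.inl rfl) (Or.inr (Or.inr rfl)) g hy.symm) zaz
    · exfalso
      have hzc : Cj pz (c * y * c⁻¹) := Cjtrans _ _ _ hzy ⟨ι c, by rw [map_mul, map_mul, map_inv]⟩
      obtain ⟨q1, q2, q3, q4⟩ := all4
      rcases hc with h | h | h | h <;> rw [h] at hzc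
      exacts [not_a _ q1 hzc, not_a _ q2 hzc, not_a _ q3 hzc, not_a _ q4 hzc]
  have hisol := CfsgLib.Isolated.isIsolated_of_sylow (ord2 pz oz nz) hiso
  haveI := CfsgLib.ZStar.oddCore_normal (G := G)
  have hbot : Cfsg.oddCore G = ⊥ := by
    refine (Subgroup.Normal.eq_bot_or_eq_top this).resolve_right fun h => ?_
    have hodd := CfsgLib.ZStar.oddCore_odd (G := G)
    rw [h, Subgroup.card_top] at hodd
    have h2 : orderOf (ι pz) ∣ Nat.card G := orderOf_dvd_natCard _
    rw [ord2 pz oz nz] at h2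
    exact Nat.not_even_iff_odd.2 hodd (even_iff_two_dvd.2 h2)
  have hzcen : ι pz ∈ Subgroup.center G := by
    rw [Subgroup.mem_center_iff]
    intro g
    have h := CfsgLib.ZStar.zstar hisol g
    rw [hbot, Subgroup.mem_bot, mul_inv_eq_one, mul_inv_eq_iff_eq_mul] at h
    exact h.symm
  rcases (inferInstance : (Subgroup.center G).Normal).eq_bot_or_eq_top with h | h
  · rw [h, Subgroup.mem_bot, ← map_one ι] at hzcen
    exact nz (ιinj hzcen)
  · exact hG ⟨⟨fun p q => (Subgroup.mem_center_iff.1 (h ▸ Subgroup.mem_top p) q).symm⟩⟩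

end Cfsg.Agent.S3309
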