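import Cfsg.Statements.S3335
import Mathlib

set_option autoImplicit false
open Cfsg

namespace Cfsg.Agent.S3335


open scoped Nat

section
variable {G : Type*} [Group G] (y : ℕ → G)

/-- The defining relations for the first `k` generators. -/
structure Rel (k : ℕ) : Prop where
  cube : 0 < k → y 0 ^ 3 = 1
  inv : ∀ i, 1 ≤ i → i < k → y i * y i = 1
  braid : ∀ i, i + 1 < k → (y i * y (i + 1)) ^ 3 = 1
  far : ∀ i j, i + 1 < j → j < k → (y i * y j) ^ 2 = 1

/-- Right coset representatives. -/
def rep (k : ℕ) : ℕ → G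
  | 0 => 1
  | j + 1 => rep k j * y (k - j)

variable {y}

theorem Rel.mono {k m : ℕ} (h : Rel y k) (hm : m ≤ k) : Rel y m :=
  ⟨fun h0 => h.cube (by omega), fun i h1 h2 => h.inv i h1 (by omega), fun i hi => h.braid i (by omega),
    fun i j hij hj => h.far i j hij (by omega)⟩

theorem Rel.inv_eq {k : ℕ} (h : Rel y k) {i : ℕ} (h1 : 1 ≤ i) (h2 : i < k) : (y i)⁻¹ = y i :=
  inv_eq_of_mul_eq_one_right (h.inv i h1 h2)

theorem Rel.comm {k : ℕ} (h : Rel y k) {i j : ℕ} (hi : 1 ≤ i) (hij : i + 1 < j) (hj : j < k) :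
    y i * y j = y j * y i := by
  have e : (y i * y j) * (y i * y j) = 1 := by rw [← pow_two]; exact h.far i j hij hj
  have := eq_inv_of_mul_eq_one_left e
  rw [mul_inv_rev, h.inv_eq hi (by omega), h.inv_eq (by omega) hj] at this
  exact this

theorem Rel.far_zero {k : ℕ} (h : Rel y k) {j : ℕ} (hj2 : 2 ≤ j) (hj : j < k) : y 0 * y j = y j * (y 0)⁻¹ := by
  have e : (y 0 * y j) * (y 0 * y j) = 1 := by rw [← pow_two]; exact h.far 0 j (by omega) hj
  have := eq_inv_of_mul_eq_one_left e
  rw [mul_inv_rev, h.inv_eq (by omega) hj] at this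
  exact this

theorem Rel.braid' {k : ℕ} (h : Rel y k) {i : ℕ} (hi : 1 ≤ i) (hik : i + 1 < k) :
    y (i + 1) * y i * y (i + 1) = y i * y (i + 1) * y i := by
  have e : (y i * y (i + 1) * y i) * (y (i + 1) * y i * y (i + 1)) = 1 := by
    rw [← h.braid i hik, pow_succ, pow_two]; group
  have := eq_inv_of_mul_eq_one_left e
  rw [this, mul_inv_rev, mul_inv_rev, h.inv_eq (by omega) hik, h.inv_eq hi (by omega), mul_assoc]

theorem Rel.braid_zero {k : ℕ} (h : Rel y k) (hk : 1 < k) :
    y 1 * y 0 * y 1 = (y 0)⁻¹ * y 1 * (y 0)⁻¹ ∧ y 1 * (y 0)⁻¹ * y 1 = y 0 * y 1 * y 0 := by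
  have e : (y 0 * y 1 * y 0) * (y 1 * y 0 * y 1) = 1 := by
    rw [← h.braid 0 hk, pow_succ, pow_two]; group
  have h1 := eq_inv_of_mul_eq_one_right e
  rw [mul_inv_rev, mul_inv_rev, h.inv_eq le_rfl hk, ← mul_assoc] at h1
  refine ⟨h1, ?_⟩
  have h2 := congrArg (·⁻¹) h1
  simp only [mul_inv_rev, inv_inv, h.inv_eq le_rfl hk, ← mul_assoc] at h2
  exact h2

theorem Rel.rep_comm {k : ℕ} (h : Rel y (k + 1)) {l j : ℕ} (hl : 1 ≤ l) (hlj : l + j < k + 1 ∧ (0 < j → l + j < k)) :
    rep y k j * y l = y l * rep y k j := by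
  induction j with
  | zero => simp [rep]
  | succ j ih =>
    have := hlj.2 j.succ_pos
    rw [rep, mul_assoc, ← h.comm hl (show l + 1 < k - j by omega) (by omega), ← mul_assoc, ih ⟨by omega, fun _ => by omega⟩, mul_assoc]

theorem Rel.rep_zero {k : ℕ} (h : Rel y (k + 1)) {j : ℕ} (hj : j + 1 ≤ k) :
    ∀ g ∈ Subgroup.zpowers (y 0), ∃ b ∈ Subgroup.zpowers (y 0), rep y k j * g = b * rep y k j := by
  induction j with
  | zero => exact fun g hg => ⟨g, hg, by simp [rep]⟩
  | succ j ih =>
    intro g hg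
    obtain ⟨n, rfl⟩ := Subgroup.mem_zpowers_iff.mp hg
    have hl : y (k - j) * y 0 ^ n = (y 0 ^ n)⁻¹ * y (k - j) := by
      have h0 : (y 0)⁻¹ = y (k - j) * y 0 * (y (k - j))⁻¹ := by
        rw [mul_assoc, h.inv_eq (show 1 ≤ k - j by omega) (by omega), h.far_zero (show 2 ≤ k - j by omega) (by omega),
          ← mul_assoc, h.inv (k - j) (by omega) (by omega), one_mul]
      rw [← inv_zpow, h0, conj_zpow, inv_mul_cancel_right]
    obtain ⟨b, hb, hb'⟩ := ih (by omega) (y 0 ^ n)⁻¹ (inv_mem hg)
    exact ⟨b, hb, by rw [rep, mul_assoc, hl, ← mul_assoc, hb', mul_assoc]⟩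

theorem Rel.rep_down {k : ℕ} (h : Rel y (k + 1)) {i j : ℕ} (hij : i + 1 < j) (hj : j ≤ k) :
    rep y k j * y (k - i) = y (k - i - 1) * rep y k j := by
  induction j with
  | zero => omega
  | succ j ih =>
    rcases Nat.lt_or_ge (i + 1) j with hlt | hge
    · rw [rep, mul_assoc, h.comm (show 1 ≤ k - j by omega) (show k - j + 1 < k - i by omega) (by omega),
        ← mul_assoc, ih hlt (by omega), mul_assoc]
    · obtain rfl : j = i + 1 := by omega
      obtain ⟨l, hl⟩ : ∃ l, k - i = l + 1 := ⟨k - i - 1, by omega⟩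
      rw [rep, rep, hl, show k - (i + 1) = l by omega, Nat.add_sub_cancel]
      calc rep y k i * y (l + 1) * y l * y (l + 1) = rep y k i * (y (l + 1) * y l * y (l + 1)) := by group
        _ = rep y k i * y l * y (l + 1) * y l := by rw [h.braid' (by omega) (by omega)]; group
        _ = y l * (rep y k i * y (l + 1) * y l) := by rw [h.rep_comm (show 1 ≤ l by omega) ⟨by omega, fun _ => by omega⟩]; group

/-- Counting right cosets. -/
theorem card_closure_le : ∀ k : ℕ, Rel y k →
    Set.Finite (Subgroup.closure (y '' Set.Iio k) : Set G) ∧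
      2 * (Subgroup.closure (y '' Set.Iio k) : Set G).ncard ≤ (k + 2)! := by
  intro k
  induction k with
  | zero =>
    intro _
    rw [show Set.Iio (0 : ℕ) = ∅ from Set.eq_empty_of_forall_notMem fun x hx => Nat.not_lt_zero x hx,
      Set.image_empty, Subgroup.closure_empty, Subgroup.coe_bot]
    exact ⟨Set.finite_singleton 1, by simp⟩
  | succ k ih =>
    intro h
    obtain ⟨hfin, hcard⟩ := ih (h.mono k.le_succ)
    set H := Subgroup.closure (y '' Set.Iio k) with hH
    have hgen : ∀ i, i < k → y i ∈ H := fun i hi => Subgroup.subset_closure ⟨i, hi, rfl⟩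
    let R : ℕ → G := fun j => if j ≤ k + 1 then rep y k j else rep y k k * (y 0)⁻¹
    set S : Set G := ⋃ j ∈ Finset.range (k + 3), (fun x => x * R j) '' (H : Set G) with hS
    have mem : ∀ g ∈ H, ∀ j, j < k + 3 → g * R j ∈ S := fun g hg j hj => by
      simp only [hS, Set.mem_iUnion]
      exact ⟨j, Finset.mem_range.mpr hj, g, hg, rfl⟩
    have hR : ∀ j, j ≤ k + 1 → R j = rep y k j := fun j hj => if_pos hj
    have hR2 : R (k + 2) = rep y k k * (y 0)⁻¹ := if_neg (by omega)
    have ha : ∀ j, j + 1 ≤ k → ∀ g ∈ Subgroup.zpowers (y 0), ∃ b ∈ H, rep y k j * g = b * rep y k j := fun j hj g hg => by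
      obtain ⟨b, hb, e⟩ := h.rep_zero hj g hg
      exact ⟨b, (Subgroup.zpowers_le.mpr (hgen 0 (by omega))) hb, e⟩
    have hz : rep y k (k + 1) = rep y k k * y 0 := by rw [rep, Nat.sub_self]
    have h3 : y 0 * y 0 = (y 0)⁻¹ := eq_inv_of_mul_eq_one_left (by rw [← h.cube k.succ_pos, pow_succ, pow_two])
    have step : ∀ j, j < k + 3 → ∀ l, l ≤ k → ∃ g ∈ H, ∃ i, i < k + 3 ∧ R j * y l = g * R i := by
      intro j hj l hl
      rcases Nat.lt_or_ge j (k + 1) with hj1 | hj1
      · rw [hR j (by omega)]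
        rcases lt_trichotomy l (k - j) with hlt | heq | hgt
        · rcases Nat.eq_zero_or_pos l with rfl | hl0
          · obtain ⟨b, hb, e⟩ := ha j (by omega) (y 0) (Subgroup.mem_zpowers _)
            exact ⟨b, hb, j, hj, by rw [hR j (by omega), e]⟩
          · exact ⟨y l, hgen l (by omega), j, hj, by rw [hR j (by omega), h.rep_comm hl0 ⟨by omega, fun _ => by omega⟩]⟩
        · exact ⟨1, one_mem H, j + 1, by omega, by rw [hR _ (by omega), one_mul, rep, heq]⟩
        · rcases Nat.lt_or_ge (k - j + 1) l with hgt' | hle'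
          · refine ⟨y (l - 1), hgen _ (by omega), j, hj, ?_⟩
            rw [hR j (by omega)]
            have := h.rep_down (i := k - l) (j := j) (by omega) (by omega)
            rwa [show k - (k - l) = l by omega] at this
          · obtain ⟨j', rfl⟩ : ∃ j', j = j' + 1 := ⟨j - 1, by omega⟩
            refine ⟨1, one_mem H, j', by omega, ?_⟩
            rw [hR _ (by omega), one_mul, rep, show k - j' = l by omega, mul_assoc, h.inv l (by omega) (by omega), mul_one]
      · rcases (show j = k + 1 ∨ j = k + 2 by omega) with rfl | rfl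
        · rw [hR _ le_rfl, hz]
          rcases Nat.eq_zero_or_pos l with rfl | hl0
          · exact ⟨1, one_mem H, k + 2, by omega, by rw [hR2, one_mul, mul_assoc, h3]⟩
          rcases Nat.lt_or_ge l 2 with hl2 | hl2
          · obtain rfl : l = 1 := by omega
            obtain ⟨k', hk'⟩ : ∃ k', k = k' + 1 := ⟨k - 1, by omega⟩
            have e : rep y k k = rep y k k' * y 1 := by
              have h' : rep y k (k' + 1) = rep y k k' * y (k - k') := rfl
              rwa [← hk', show k - k' = 1 by omega] at h'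
            obtain ⟨b, hb, eb⟩ := ha k' (by omega) (y 0)⁻¹ (inv_mem (Subgroup.mem_zpowers _))
            refine ⟨b, hb, k + 2, by omega, ?_⟩
            rw [hR2, e]
            calc rep y k k' * y 1 * y 0 * y 1 = rep y k k' * (y 1 * y 0 * y 1) := by group
              _ = rep y k k' * (y 0)⁻¹ * y 1 * (y 0)⁻¹ := by rw [(h.braid_zero (by omega)).1]; group
              _ = b * (rep y k k' * y 1 * (y 0)⁻¹) := by rw [eb]; group
          · refine ⟨y (l - 1), hgen _ (by omega), k + 2, by omega, ?_⟩
            have := h.rep_down (i := k - l) (j := k) (by omega) le_rfl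
            rw [show k - (k - l) = l by omega] at this
            rw [hR2, mul_assoc, h.far_zero hl2 (by omega), ← mul_assoc, this, mul_assoc]
        · rw [hR2]
          rcases Nat.eq_zero_or_pos l with rfl | hl0
          · exact ⟨1, one_mem H, k, by omega, by rw [hR k (by omega), one_mul, inv_mul_cancel_right]⟩
          rcases Nat.lt_or_ge l 2 with hl2 | hl2
          · obtain rfl : l = 1 := by omega
            obtain ⟨k', hk'⟩ : ∃ k', k = k' + 1 := ⟨k - 1, by omega⟩
            have e : rep y k k = rep y k k' * y 1 := by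
              have h' : rep y k (k' + 1) = rep y k k' * y (k - k') := rfl
              rwa [← hk', show k - k' = 1 by omega] at h'
            obtain ⟨b, hb, eb⟩ := ha k' (by omega) (y 0) (Subgroup.mem_zpowers _)
            refine ⟨b, hb, k + 1, by omega, ?_⟩
            rw [hR _ le_rfl, hz, e]
            calc rep y k k' * y 1 * (y 0)⁻¹ * y 1 = rep y k k' * (y 1 * (y 0)⁻¹ * y 1) := by group
              _ = rep y k k' * y 0 * y 1 * y 0 := by rw [(h.braid_zero (by omega)).2]; group
              _ = b * (rep y k k' * y 1 * y 0) := by rw [eb]; group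
          · refine ⟨y (l - 1), hgen _ (by omega), k + 1, by omega, ?_⟩
            have := h.rep_down (i := k - l) (j := k) (by omega) le_rfl
            rw [show k - (k - l) = l by omega] at this
            have hfar : (y 0)⁻¹ * y l = y l * y 0 := by
              rw [inv_mul_eq_iff_eq_mul, ← mul_assoc, h.far_zero hl2 (by omega), inv_mul_cancel_right]
            rw [hR _ le_rfl, hz, mul_assoc, hfar, ← mul_assoc, this, mul_assoc]
    have hmul : ∀ x ∈ S, ∀ l, l ≤ k → x * y l ∈ S := by
      intro x hx l hl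
      simp only [hS, Set.mem_iUnion] at hx
      obtain ⟨j, hj, g, hg, rfl⟩ := hx
      obtain ⟨g', hg', i, hi, e⟩ := step j (Finset.mem_range.mp hj) l hl
      show g * R j * y l ∈ S
      rw [mul_assoc, e, ← mul_assoc]
      exact mem _ (mul_mem hg hg') i hi
    have hsub : (Subgroup.closure (y '' Set.Iio (k + 1)) : Set G) ⊆ S := by
      intro x hx
      induction hx using Subgroup.closure_induction_right with
      | one => simpa [hR 0 (by omega), rep] using mem 1 (one_mem H) 0 (by omega)
      | mul_right x _ z hz ihx =>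
        obtain ⟨l, hl, rfl⟩ := hz
        exact hmul x ihx l (Nat.lt_succ_iff.mp hl)
      | mul_inv_cancel x _ z hz ihx =>
        obtain ⟨l, hl, rfl⟩ := hz
        rcases Nat.eq_zero_or_pos l with rfl | hl0
        · rw [← h3, ← mul_assoc]
          exact hmul _ (hmul _ ihx 0 (Nat.zero_le k)) 0 (Nat.zero_le k)
        · rw [h.inv_eq hl0 hl]
          exact hmul x ihx l (Nat.lt_succ_iff.mp hl)
    have hSf : S.Finite := Set.Finite.biUnion (Finset.finite_toSet _) fun j _ => hfin.image _
    refine ⟨hSf.subset hsub, ?_⟩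
    calc 2 * (Subgroup.closure (y '' Set.Iio (k + 1)) : Set G).ncard ≤ 2 * S.ncard :=
          Nat.mul_le_mul_left 2 (Set.ncard_le_ncard hsub hSf)
      _ ≤ 2 * ∑ j ∈ Finset.range (k + 3), ((fun x => x * R j) '' (H : Set G)).ncard :=
          Nat.mul_le_mul_left 2 (Finset.set_ncard_biUnion_le _ _)
      _ ≤ 2 * ((k + 3) * (H : Set G).ncard) := by
          refine Nat.mul_le_mul_left 2 ((Finset.sum_le_card_nsmul _ _ _ fun j _ => Set.ncard_image_le hfin).trans ?_)
          simp
      _ = (k + 3) * (2 * (H : Set G).ncard) := by ring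
      _ ≤ (k + 3) * (k + 2)! := Nat.mul_le_mul_left _ hcard
      _ = (k + 1 + 2)! := (Nat.factorial_succ (k + 2)).symm

end


/-- A presentation of the alternating group of degree n ≥ 3 on generators x_1, …, x_{n−2} (indexed here by 0, …, n−3): the first generator cubes to 1, every other generator squares to 1, the product of two consecutive generators has order dividing 3, and the product of two generators at distance at least 2 has order dividing 2. The group so presented is isomorphic to the alternating group of degree n. -/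
theorem result (n : ℕ) (hn : 3 ≤ n) :
    Nonempty (PresentedGroup
      ({g : FreeGroup (Fin (n - 2)) | ∃ i : Fin (n - 2), i.val = 0 ∧ g = FreeGroup.of i ^ 3} ∪
       {g | ∃ i : Fin (n - 2), 1 ≤ i.val ∧ g = FreeGroup.of i ^ 2} ∪
       {g | ∃ i j : Fin (n - 2), j.val = i.val + 1 ∧ g = (FreeGroup.of i * FreeGroup.of j) ^ 3} ∪
       {g | ∃ i j : Fin (n - 2), i.val + 1 < j.val ∧ g = (FreeGroup.of i * FreeGroup.of j) ^ 2})
      ≃* alternatingGroup (Fin n)) := by
  classical
  obtain ⟨k, rfl⟩ : ∃ k, n = k + 3 := ⟨n - 3, by omega⟩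
  show Nonempty (PresentedGroup (_ : Set (FreeGroup (Fin (k + 1)))) ≃* _)
  generalize hrels : (({g : FreeGroup (Fin (k + 1)) | ∃ i : Fin (k + 1), i.val = 0 ∧ g = FreeGroup.of i ^ 3} ∪
       {g | ∃ i : Fin (k + 1), 1 ≤ i.val ∧ g = FreeGroup.of i ^ 2} ∪
       {g | ∃ i j : Fin (k + 1), j.val = i.val + 1 ∧ g = (FreeGroup.of i * FreeGroup.of j) ^ 3} ∪
       {g | ∃ i j : Fin (k + 1), i.val + 1 < j.val ∧ g = (FreeGroup.of i * FreeGroup.of j) ^ 2}) :
      Set (FreeGroup (Fin (k + 1)))) = rels
  let y : ℕ → PresentedGroup rels := fun i => if h : i < k + 1 then PresentedGroup.of ⟨i, h⟩ else 1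
  have hy : ∀ i, ∀ h : i < k + 1, y i = PresentedGroup.of ⟨i, h⟩ := fun i h => dif_pos h
  have hrel : ∀ r ∈ rels, PresentedGroup.mk rels r = 1 := fun r hr =>
    PresentedGroup.mk_eq_one_iff.2 (Subgroup.subset_normalClosure hr)
  have hR : Rel y (k + 1) := by
    refine ⟨fun h => ?_, fun i h1 h2 => ?_, fun i hi => ?_, fun i j hij hj => ?_⟩
    · rw [hy 0 h]
      exact hrel _ (hrels ▸ Or.inl (Or.inl (Or.inl ⟨⟨0, h⟩, rfl, rfl⟩)))
    · rw [hy i h2, ← pow_two]
      exact hrel _ (hrels ▸ Or.inl (Or.inl (Or.inr ⟨⟨i, h2⟩, h1, rfl⟩)))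
    · rw [hy i (by omega), hy (i + 1) hi]
      exact hrel _ (hrels ▸ Or.inl (Or.inr ⟨⟨i, by omega⟩, ⟨i + 1, hi⟩, rfl, rfl⟩))
    · rw [hy i (by omega), hy j hj]
      exact hrel _ (hrels ▸ Or.inr ⟨⟨i, by omega⟩, ⟨j, hj⟩, hij, rfl⟩)
  obtain ⟨hfin, hcard⟩ := card_closure_le (k + 1) hR
  have htop : Subgroup.closure (y '' Set.Iio (k + 1)) = ⊤ := by
    rw [eq_top_iff, ← PresentedGroup.closure_range_of rels]
    refine Subgroup.closure_mono ?_
    rintro _ ⟨i, rfl⟩
    exact ⟨i.val, i.isLt, hy i.val i.isLt⟩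
  rw [htop, Subgroup.coe_top] at hfin hcard
  have : Finite (PresentedGroup rels) := Set.finite_univ_iff.mp hfin
  rw [Set.ncard_univ, show k + 1 + 2 = k + 3 by omega] at hcard
  -- the permutations
  let s : Fin (k + 2) → Equiv.Perm (Fin (k + 3)) := fun i => Equiv.swap i.castSucc i.succ
  let f : Fin (k + 1) → alternatingGroup (Fin (k + 3)) := fun i => ⟨s 0 * s i.succ, by
    rw [Equiv.Perm.mem_alternatingGroup, map_mul, Equiv.Perm.sign_swap (by simp [Fin.ext_iff]),
      Equiv.Perm.sign_swap (by simp [Fin.ext_iff])]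
    rfl⟩
  have hss : ∀ i, s i * s i = 1 := fun i => Equiv.swap_mul_self _ _
  have hcube : ∀ a b c : Fin (k + 3), a ≠ b → a ≠ c → b ≠ c →
      (Equiv.swap a b * Equiv.swap b c) ^ 3 = 1 := fun a b c h1 h2 h3 => by
    have h' := (Equiv.Perm.isThreeCycle_swap_mul_swap_same h1.symm h3 h2).orderOf
    rw [Equiv.swap_comm b a] at h'
    have h'' := pow_orderOf_eq_one (Equiv.swap a b * Equiv.swap b c)
    rwa [h'] at h''
  have hfar : ∀ i j : Fin (k + 2), i.val + 1 < j.val → Commute (s i) (s j) := fun i j hij =>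
    (Equiv.Perm.disjoint_swap_swap (by simp [List.nodup_cons, Fin.ext_iff]; omega)).commute
  have hfar0 : ∀ i : Fin (k + 1), 1 ≤ i.val → Commute (s 0) (s i.succ) := fun i hi =>
    hfar 0 i.succ (by rw [Fin.val_zero, Fin.val_succ]; omega)
  have hv : ∀ i, (f i : Equiv.Perm (Fin (k + 3))) = s 0 * s i.succ := fun _ => rfl
  have key : ∀ r ∈ rels, FreeGroup.lift f r = 1 := by
    intro r hr
    subst hrels
    rcases hr with ((⟨i, hi, rfl⟩ | ⟨i, hi, rfl⟩) | ⟨i, j, hij, rfl⟩) | ⟨i, j, hij, rfl⟩ <;>
      simp only [map_pow, map_mul, FreeGroup.lift_apply_of] <;> apply Subtype.ext <;>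
      simp only [Subgroup.coe_pow, Subgroup.coe_mul, Subgroup.coe_one, hv]
    · obtain rfl : i = 0 := Fin.ext hi
      refine hcube _ _ _ ?_ ?_ ?_ <;> simp only [ne_eq, Fin.ext_iff, Fin.val_castSucc, Fin.val_succ, Fin.val_zero] <;> omega
    · have hc : Commute (s 0) (s i.succ) := hfar0 i (by omega)
      rw [pow_two, hc.symm.mul_mul_mul_comm, hss, hss, one_mul]
    · rcases Nat.eq_zero_or_pos i.val with hi | hi
      · obtain rfl : i = 0 := Fin.ext hi
        have hk1 : 1 < k + 1 := by have := j.isLt; rw [Fin.val_zero] at hij; omega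
        obtain rfl : j = ⟨1, hk1⟩ := Fin.ext (by simpa using hij)
        have e : s 0 * s (0 : Fin (k + 1)).succ * s 0 =
            Equiv.swap ((0 : Fin (k + 2)).castSucc) ((0 : Fin (k + 1)).succ.succ) := by
          show Equiv.swap _ _ * Equiv.swap _ _ * Equiv.swap _ _ = _
          rw [show ((0 : Fin (k + 1)).succ.castSucc : Fin (k + 3)) = (0 : Fin (k + 2)).succ from Fin.ext (by simp)]
          have h' := Equiv.swap_apply_apply (Equiv.swap ((0 : Fin (k + 2)).castSucc) ((0 : Fin (k + 2)).succ))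
            ((0 : Fin (k + 2)).succ) ((0 : Fin (k + 1)).succ.succ)
          rw [Equiv.swap_inv, Equiv.swap_apply_right, Equiv.swap_apply_of_ne_of_ne
            (by simp only [ne_eq, Fin.ext_iff, Fin.val_castSucc, Fin.val_succ, Fin.val_zero]; omega)
            (by simp only [ne_eq, Fin.ext_iff, Fin.val_succ, Fin.val_zero]; omega)] at h'
          exact h'.symm
        rw [← mul_assoc, e]
        show (_ * Equiv.swap _ _) ^ 3 = 1
        rw [show ((⟨1, by omega⟩ : Fin (k + 1)).succ.castSucc : Fin (k + 3)) = (0 : Fin (k + 1)).succ.succ from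
          Fin.ext (by simp only [Fin.val_castSucc, Fin.val_succ, Fin.val_zero])]
        refine hcube _ _ _ ?_ ?_ ?_ <;> simp only [ne_eq, Fin.ext_iff, Fin.val_castSucc, Fin.val_succ, Fin.val_zero] <;> omega
      · have e : s 0 * s i.succ * (s 0 * s j.succ) = s i.succ * s j.succ := by
          rw [(hfar0 i (by omega)).eq, mul_assoc, ← mul_assoc (s 0) (s 0), hss, one_mul]
        rw [e]
        show (Equiv.swap _ _ * Equiv.swap _ _) ^ 3 = 1
        rw [show (j.succ.castSucc : Fin (k + 3)) = i.succ.succ from Fin.ext (by simp; omega)]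
        refine hcube _ _ _ ?_ ?_ ?_ <;> simp only [ne_eq, Fin.ext_iff, Fin.val_castSucc, Fin.val_succ, Fin.val_zero] <;> omega
    · have hj : Commute (s 0 * s i.succ * s 0) (s j.succ) :=
        ((hfar0 j (by omega)).mul_left (hfar i.succ j.succ (by simp only [Fin.val_succ]; omega))).mul_left
          (hfar0 j (by omega))
      rw [← mul_assoc, pow_two, hj.symm.mul_mul_mul_comm, hss, mul_one]
      calc s 0 * s i.succ * s 0 * (s 0 * s i.succ * s 0) = s 0 * (s i.succ * (s 0 * s 0) * s i.succ) * s 0 := by group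
        _ = 1 := by rw [hss, mul_one, hss, mul_one, hss]
  let toA := PresentedGroup.toGroup key
  set K := toA.range.map (alternatingGroup (Fin (k + 3))).subtype with hK
  have hfK : ∀ i : Fin (k + 1), s 0 * s i.succ ∈ K := fun i => ⟨f i, ⟨PresentedGroup.of i, PresentedGroup.toGroup.of key⟩, rfl⟩
  have hnorm : ∀ x ∈ K, s 0 * x * s 0 ∈ K := by
    have hgen : toA.range = Subgroup.closure (Set.range f) := by
      rw [MonoidHom.range_eq_map, ← PresentedGroup.closure_range_of, MonoidHom.map_closure, ← Set.range_comp]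
      congr 2
    rw [hK, hgen, MonoidHom.map_closure]
    intro x hx
    induction hx using Subgroup.closure_induction with
    | mem x hx =>
      obtain ⟨_, ⟨i, rfl⟩, rfl⟩ := hx
      rcases Nat.eq_zero_or_pos i.val with hi | hi
      · have e : s 0 * ((alternatingGroup (Fin (k + 3))).subtype (f i)) * s 0 = ((alternatingGroup (Fin (k + 3))).subtype (f i))⁻¹ := by
          show s 0 * (s 0 * s i.succ) * s 0 = (s 0 * s i.succ)⁻¹
          rw [← mul_assoc, hss, one_mul, mul_inv_rev, inv_eq_of_mul_eq_one_right (hss 0), inv_eq_of_mul_eq_one_right (hss _)]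
        rw [e]
        exact inv_mem (Subgroup.subset_closure ⟨_, ⟨i, rfl⟩, rfl⟩)
      · have e : s 0 * ((alternatingGroup (Fin (k + 3))).subtype (f i)) * s 0 = (alternatingGroup (Fin (k + 3))).subtype (f i) := by
          show s 0 * (s 0 * s i.succ) * s 0 = s 0 * s i.succ
          rw [← mul_assoc, hss, one_mul, (hfar0 i (by omega)).eq]
        rw [e]
        exact Subgroup.subset_closure ⟨_, ⟨i, rfl⟩, rfl⟩
    | one => rw [mul_one, hss]; exact one_mem _
    | mul a b _ _ ha hb =>
      rw [show s 0 * (a * b) * s 0 = (s 0 * a * s 0) * (s 0 * b * s 0) by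
        simp only [mul_assoc]; rw [← mul_assoc (s 0) (s 0), hss, one_mul]]
      exact mul_mem ha hb
    | inv a _ ha =>
      have e := inv_mem ha
      rwa [mul_inv_rev, mul_inv_rev, inv_eq_of_mul_eq_one_right (hss 0), ← mul_assoc] at e
  have hall : ∀ p : Equiv.Perm (Fin (k + 3)), p ∈ K ∨ p * s 0 ∈ K := by
    intro p
    have hp : p ∈ Submonoid.closure (Set.range fun i : Fin (k + 2) => Equiv.swap i.castSucc i.succ) := by
      rw [Equiv.Perm.mclosure_swap_castSucc_succ]; exact Submonoid.mem_top p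
    induction hp using Submonoid.closure_induction_right with
    | one => exact Or.inl (one_mem K)
    | mul_right x _ z hz ih =>
      obtain ⟨i, rfl⟩ := hz
      show x * s i ∈ K ∨ x * s i * s 0 ∈ K
      rcases Fin.eq_zero_or_eq_succ i with rfl | ⟨i, rfl⟩
      · rw [mul_assoc, hss, mul_one]; exact ih.symm
      · rcases ih with h | h
        · right
          have h2 := hnorm _ (hfK i)
          rw [← mul_assoc (s 0) (s 0), hss, one_mul] at h2
          rw [mul_assoc]; exact mul_mem h h2
        · left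
          have := mul_mem h (hfK i)
          rwa [mul_assoc x, ← mul_assoc (s 0), hss, one_mul] at this
  have hKf : (K : Set (Equiv.Perm (Fin (k + 3)))).Finite := Set.toFinite _
  have h2 : (Set.univ : Set (Equiv.Perm (Fin (k + 3)))).ncard ≤ 2 * (K : Set (Equiv.Perm (Fin (k + 3)))).ncard := by
    refine (Set.ncard_le_ncard (t := (K : Set _) ∪ (fun x => x * s 0) '' (K : Set _)) ?_ (Set.toFinite _)).trans
      ((Set.ncard_union_le _ _).trans ?_)
    · intro p _
      rcases hall p with h | h
      · exact Or.inl h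
      · exact Or.inr ⟨_, h, by simp [mul_assoc, hss]⟩
    · have := Set.ncard_image_le (f := fun x => x * s 0) hKf
      omega
  rw [Set.ncard_univ, Nat.card_perm, Nat.card_fin] at h2
  have hKc : (K : Set (Equiv.Perm (Fin (k + 3)))).ncard = Nat.card toA.range := by
    rw [← Nat.card_coe_set_eq]
    exact (Nat.card_congr (Subgroup.equivMapOfInjective toA.range _ (Subgroup.subtype_injective _)).toEquiv).symm
  have hA : 2 * Nat.card (alternatingGroup (Fin (k + 3))) = (k + 3)! := by
    rw [two_mul_nat_card_alternatingGroup, Nat.card_perm, Nat.card_fin]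
  have h4 := Subgroup.card_le_card_group toA.range
  have htopr : toA.range = ⊤ := Subgroup.eq_top_of_card_eq _ (by omega)
  have hsurj : Function.Surjective toA := MonoidHom.range_eq_top.mp htopr
  have h5 := Nat.card_le_card_of_surjective _ hsurj
  have E := MulEquiv.ofBijective toA ((Nat.bijective_iff_surjective_and_card _).2 ⟨hsurj, by omega⟩)
  subst hrels
  exact ⟨E⟩

end Cfsg.Agent.S3335
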