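import Cfsg.Statements.S3349
import Mathlib

set_option autoImplicit false
set_option linter.style.haveILetI false
open Cfsg

namespace Cfsg.Agent.S3349

/-- Let Q be a finite extraspecial p-group and α an automorphism of Q fixing every element of some maximal abelian subgroup of Q. Then the order of α is a power of p. -/
theorem result {Q : Type*} [Group Q] [Finite Q]
    (p : ℕ) [Fact p.Prime] (hQ : Cfsg.IsExtraspecial p Q) (α : MulAut Q)
    (A : Subgroup Q) (hA : IsMulCommutative A) (hmax : ∀ B : Subgroup Q, A ≤ B → IsMulCommutative B → B = A)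
    (hfix : ∀ a ∈ A, α a = a) :
    ∃ k : ℕ, orderOf α = p ^ k := by
  obtain ⟨⟨hP, -, hcomm⟩, -⟩ := hQ
  have hCA : ∀ x : Q, (∀ a ∈ A, x * a = a * x) → x ∈ A := by
    intro x hx
    have hB : IsMulCommutative ↥(Subgroup.closure (insert x (A : Set Q))) :=
      Subgroup.isMulCommutative_closure (by
        rintro u (rfl | hu) v (rfl | hv)
        · rfl
        · exact hx v hv
        · exact (hx u hu).symm
        · exact congrArg Subtype.val (hA.is_comm.comm (⟨u, hu⟩ : A) ⟨v, hv⟩))
    rw [← hmax _ (fun a ha => Subgroup.subset_closure (Set.mem_insert_of_mem _ ha)) hB]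
    exact Subgroup.subset_closure (Set.mem_insert _ _)
  have hZA : ∀ z ∈ Subgroup.center Q, z ∈ A := fun z hz =>
    hCA z fun a _ => (Subgroup.mem_center_iff.mp hz a).symm
  have hconj : ∀ x : Q, ∀ a ∈ A, x * a * x⁻¹ ∈ A := by
    intro x a ha
    have : x * a * x⁻¹ * a⁻¹ ∈ A := hZA _ (hcomm ▸
      Subgroup.commutator_mem_commutator (Subgroup.mem_top x) (Subgroup.mem_top a))
    exact (A.mul_mem_cancel_right (A.inv_mem ha)).mp this
  have hdiff : ∀ x : Q, x⁻¹ * α x ∈ A := by
    intro x
    refine hCA _ fun a ha => ?_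
    have h1 := hfix _ (hconj x a ha)
    rw [map_mul, map_mul, map_inv, hfix a ha] at h1
    calc x⁻¹ * α x * a = x⁻¹ * (α x * a * (α x)⁻¹) * α x := by group
      _ = x⁻¹ * (x * a * x⁻¹) * α x := by rw [h1]
      _ = _ := by group
  have hpow : ∀ (x : Q) (k : ℕ), (α ^ k) x = x * (x⁻¹ * α x) ^ k := by
    intro x k
    induction k with
    | zero => simp
    | succ k ih =>
      rw [pow_succ', MulAut.mul_apply, ih, map_mul, hfix _ (A.pow_mem (hdiff x) k), pow_succ',
        ← mul_assoc x, mul_inv_cancel_left]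
  obtain ⟨n, hn⟩ := hP.exists_card_eq
  obtain ⟨k, -, hk⟩ := (Nat.dvd_prime_pow (Fact.out : p.Prime)).mp
    (orderOf_dvd_of_pow_eq_one (n := p ^ n) (x := α) (by
      ext x
      rw [hpow, ← hn, pow_card_eq_one', mul_one, MulAut.one_apply]))
  exact ⟨k, hk⟩

end Cfsg.Agent.S3349
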