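import Cfsg.Statements.S3376
import Mathlib
import Cfsg.Agent.Lib.PStep

set_option autoImplicit false
open Cfsg

set_option maxHeartbeats 1000000

namespace Cfsg.Agent.S3376

theorem cycleType_fixfree (π : Equiv.Perm (Fin 9)) (hf : ∀ i, π i ≠ i) (h3 : π ^ 3 = 1) :
    π.cycleType = Multiset.replicate 3 3 := by
  haveI : Fact (Nat.Prime 3) := ⟨by norm_num⟩
  have ho : orderOf π = 3 := orderOf_eq_prime h3 fun h => hf 0 (by rw [h]; rfl)
  obtain ⟨n, hn⟩ := Equiv.Perm.cycleType_prime_order (σ := π) (by rw [ho]; norm_num)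
  rw [ho] at hn
  have hs : π.support = Finset.univ := Finset.eq_univ_iff_forall.mpr fun i => Equiv.Perm.mem_support.mpr (hf i)
  have h := Equiv.Perm.sum_cycleType π
  rw [hs, hn, Multiset.sum_replicate, Finset.card_univ, Fintype.card_fin, smul_eq_mul] at h
  rw [hn, show n + 1 = 3 by omega]

theorem conj_of_fixfree (π σ : Equiv.Perm (Fin 9)) (hf : ∀ i, π i ≠ i) (h3 : π ^ 3 = 1) (hf' : ∀ i, σ i ≠ i) (h3' : σ ^ 3 = 1) :
    IsConj π σ :=
  Equiv.Perm.isConj_iff_cycleType_eq.mpr (by rw [cycleType_fixfree π hf h3, cycleType_fixfree σ hf' h3'])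

theorem card_cent (σ : Equiv.Perm (Fin 9)) (hf : ∀ i, σ i ≠ i) (h3 : σ ^ 3 = 1) :
    Nat.card (Subgroup.centralizer ({σ} : Set (Equiv.Perm (Fin 9)))) = 162 := by
  rw [Equiv.Perm.nat_card_centralizer, cycleType_fixfree σ hf h3]
  decide



/-- Let G be a group of order 162 = 3⁴·2 with Sylow 3-subgroup S and Sylow 2-subgroup T, having an elementary abelian normal subgroup J of order 27, such that Z = Z(S) has order 3, Z centralizes T, and C_S(T) ≠ S. Then G is isomorphic to the centralizer in Sym(9) of a product of three disjoint 3-cycles. -/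
theorem result {G : Type*} [Group G] [Finite G] (hG : Nat.card G = 162)
    (S : Sylow 3 G) (T : Sylow 2 G) (J : Subgroup G) [hJn : J.Normal] (hJcomm : IsMulCommutative J)
    (hJexp : ∀ a ∈ J, a ^ 3 = 1) (hJcard : Nat.card J = 27)
    (Z : Subgroup G) (hZ : Z = (S : Subgroup G) ⊓ Subgroup.centralizer ((S : Subgroup G) : Set G)) (hZcard : Nat.card Z = 3)
    (hZT : Z ≤ Subgroup.centralizer ((T : Subgroup G) : Set G))
    (hST : (S : Subgroup G) ⊓ Subgroup.centralizer ((T : Subgroup G) : Set G) ≠ S) :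
    Nonempty (G ≃* Subgroup.centralizer ({Equiv.swap (0 : Fin 9) 1 * Equiv.swap 1 2 * Equiv.swap 3 4 * Equiv.swap 4 5 * Equiv.swap 6 7 * Equiv.swap 7 8} : Set (Equiv.Perm (Fin 9)))) := by
  haveI : Fact (Nat.Prime 3) := ⟨by norm_num⟩
  haveI : Fact (Nat.Prime 2) := ⟨by norm_num⟩
  have hS : Nat.card S = 81 := by
    rw [Sylow.card_eq_multiplicity, hG, show (162 : ℕ) = 3 ^ 4 * 2 by norm_num, Nat.factorization_mul (by norm_num) (by norm_num),
      Finsupp.add_apply, Nat.Prime.factorization_pow (by norm_num : Nat.Prime 3), Finsupp.single_eq_same,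
      Nat.factorization_eq_zero_of_not_dvd (n := 2) (p := 3) (by norm_num)]
    norm_num
  have hT : Nat.card T = 2 := by
    rw [Sylow.card_eq_multiplicity, hG, show (162 : ℕ) = 3 ^ 4 * 2 by norm_num, Nat.factorization_mul (by norm_num) (by norm_num),
      Finsupp.add_apply, Nat.Prime.factorization_self (by norm_num : Nat.Prime 2),
      Nat.factorization_eq_zero_of_not_dvd (n := 3 ^ 4) (p := 2) (by norm_num)]
    norm_num
  have hSn : (S : Subgroup G).Normal := by
    refine Subgroup.normal_of_index_eq_two ?_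
    have := (S : Subgroup G).card_mul_index
    rw [hS, hG] at this
    omega
  have hJp : IsPGroup 3 J := IsPGroup.of_card (n := 3) (by rw [hJcard]; norm_num)
  have hJS : J ≤ (S : Subgroup G) := by
    rw [← S.is_maximal' (hJp.to_sup_of_normal_right S.isPGroup') le_sup_right]
    exact le_sup_left
  obtain ⟨t, htT, ht1⟩ : ∃ t ∈ (T : Subgroup G), t ≠ 1 := by
    refine (Subgroup.bot_or_exists_ne_one _).resolve_left fun h => ?_
    rw [show Nat.card T = Nat.card (T : Subgroup G) from rfl, h, Subgroup.card_bot] at hT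
    omega
  have hto : orderOf t = 2 := by
    have h1 : orderOf t ∣ 2 := hT ▸ Subgroup.orderOf_dvd_natCard _ htT
    exact ((Nat.dvd_prime (by norm_num)).mp h1).resolve_left (fun h => ht1 (orderOf_eq_one_iff.mp h))
  have htt : t * t = 1 := by rw [← pow_two, ← hto, pow_orderOf_eq_one]
  have hTeq : Subgroup.zpowers t = (T : Subgroup G) :=
    Subgroup.eq_of_le_of_card_ge (Subgroup.zpowers_le.mpr htT) (by rw [Nat.card_zpowers, hto]; exact hT.le)
  have htS : ¬ ∀ s ∈ (S : Subgroup G), s * t = t * s := by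
    intro h
    apply hST
    rw [inf_eq_left, ← hTeq]
    intro s hs
    rw [Subgroup.mem_centralizer_iff]
    intro g hg
    obtain ⟨k, rfl⟩ := Subgroup.mem_zpowers_iff.mp hg
    exact ((show Commute s t from h s hs).zpow_right k).eq.symm
  have htJ : t ∉ J := fun h => by
    have := (Subgroup.orderOf_dvd_natCard _ h)
    rw [hto, hJcard] at this
    omega
  -- the centre
  have hmeet : ∀ N : Subgroup G, N.Normal → ∀ a ∈ N, a ∈ (S : Subgroup G) → a ≠ 1 → ∃ w ∈ N, w ∈ Z ∧ w ≠ 1 := by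
    intro N hN a ha haS ha1
    have hne : N.subgroupOf (S : Subgroup G) ≠ ⊥ := fun h => by
      have : (⟨a, haS⟩ : (S : Subgroup G)) ∈ N.subgroupOf (S : Subgroup G) := ha
      rw [h, Subgroup.mem_bot] at this
      exact ha1 (congrArg Subtype.val this)
    obtain ⟨w, hw, hw1⟩ := (Subgroup.bot_or_exists_ne_one _).resolve_left
      (CfsgLib.PStep.normal_inf_center_ne_bot S.isPGroup' (hN.subgroupOf _) hne)
    refine ⟨w.1, hw.1, ?_, fun e => hw1 (Subtype.ext e)⟩
    rw [hZ, Subgroup.mem_inf]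
    refine ⟨w.2, ?_⟩
    rw [Subgroup.mem_centralizer_iff]
    intro s hs
    exact congrArg Subtype.val (Subgroup.mem_center_iff.mp hw.2 ⟨s, hs⟩)
  obtain ⟨a₀, ha₀, ha₀1⟩ : ∃ a ∈ J, a ≠ 1 := by
    refine (Subgroup.bot_or_exists_ne_one _).resolve_left fun h => ?_
    rw [h, Subgroup.card_bot] at hJcard
    omega
  obtain ⟨z, hzJ, hzZ, hz1⟩ := hmeet J hJn a₀ ha₀ (hJS ha₀) ha₀1
  have hz3 : z ^ 3 = 1 := hJexp z hzJ
  have hzo : orderOf z = 3 := orderOf_eq_prime hz3 hz1
  have hZz : Subgroup.zpowers z = Z :=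
    Subgroup.eq_of_le_of_card_ge (Subgroup.zpowers_le.mpr hzZ) (by rw [Nat.card_zpowers, hzo, hZcard])
  have hzt : t * z = z * t := Subgroup.mem_centralizer_iff.mp (hZT hzZ) t htT
  have hzS : ∀ s ∈ (S : Subgroup G), s * z = z * s := by
    have h := hzZ
    rw [hZ, Subgroup.mem_inf] at h
    exact fun s hs => Subgroup.mem_centralizer_iff.mp h.2 s hs
  have hgen : (S : Subgroup G) ⊔ Subgroup.zpowers t = ⊤ := by
    apply Subgroup.eq_top_of_card_eq
    have h1 : 81 ∣ Nat.card ((S : Subgroup G) ⊔ Subgroup.zpowers t : Subgroup G) := hS ▸ Subgroup.card_dvd_of_le le_sup_left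
    have h2 : 2 ∣ Nat.card ((S : Subgroup G) ⊔ Subgroup.zpowers t : Subgroup G) := by
      have := Subgroup.card_dvd_of_le (le_sup_right : Subgroup.zpowers t ≤ (S : Subgroup G) ⊔ Subgroup.zpowers t)
      rwa [Nat.card_zpowers, hto] at this
    have h3 := Subgroup.card_subgroup_dvd_card ((S : Subgroup G) ⊔ Subgroup.zpowers t : Subgroup G)
    rw [hG] at h3 ⊢
    exact Nat.dvd_antisymm h3 (Nat.Coprime.mul_dvd_of_dvd_of_dvd (m := 81) (n := 2) (by norm_num) h1 h2)
  have hzc : ∀ g : G, g * z = z * g := by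
    intro g
    have hle : (S : Subgroup G) ⊔ Subgroup.zpowers t ≤ Subgroup.centralizer ({z} : Set G) :=
      sup_le (fun s hs => Subgroup.mem_centralizer_singleton_iff.mpr (hzS s hs))
        (Subgroup.zpowers_le.mpr (Subgroup.mem_centralizer_singleton_iff.mpr hzt))
    exact Subgroup.mem_centralizer_singleton_iff.mp (hle (hgen ▸ Subgroup.mem_top g))
  -- a `t`-invariant complement of `Z` in `J`
  haveI : Finite G := Nat.finite_of_card_ne_zero (by omega)
  have hcJ : ∀ a ∈ J, ∀ b ∈ J, a * b = b * a := fun a ha b hb =>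
    congrArg Subtype.val (hJcomm.is_comm.comm (⟨a, ha⟩ : J) ⟨b, hb⟩)
  let τ : G →* G := (MulAut.conj t).toMonoidHom
  have hτ : ∀ a, τ a = t * a * t⁻¹ := fun a => rfl
  have hτJ : ∀ a ∈ J, τ a ∈ J := fun a ha => hJn.conj_mem a ha t
  have hττ : ∀ a, τ (τ a) = a := fun a => by
    rw [hτ, hτ, show t * (t * a * t⁻¹) * t⁻¹ = (t * t) * a * (t * t)⁻¹ by group, htt, inv_one, one_mul, mul_one]
  let P : Set (Subgroup G) := {W | W ≤ J ∧ z ∉ W ∧ ∀ a ∈ W, τ a ∈ W}
  obtain ⟨W, ⟨hWJ, hWz, hWt⟩, hWmax⟩ : ∃ W ∈ P, ∀ W' ∈ P, W ≤ W' → W' = W := by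
    obtain ⟨W, hW⟩ := (Set.toFinite P).exists_maximal ⟨⊥, bot_le, fun h => hz1 (Subgroup.mem_bot.mp h), fun a ha => by
      rw [Subgroup.mem_bot] at ha ⊢; rw [ha, map_one]⟩
    exact ⟨W, hW.1, fun W' h' hle => le_antisymm (hW.2 h' hle) hle⟩
  have hWZ : J ≤ W ⊔ Subgroup.zpowers z := by
    by_contra hcon
    obtain ⟨a, ha, haW⟩ := SetLike.not_le_iff_exists.mp hcon
    obtain ⟨b, hb, hbW, hbτ⟩ : ∃ b ∈ J, b ∉ W ⊔ Subgroup.zpowers z ∧ (τ b = b ∨ τ b = b⁻¹) := by
      have hc1 : Commute a (τ a) := hcJ _ ha _ (hτJ a ha)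
      have h1 : a = (a * τ a) ^ 2 * (a * (τ a)⁻¹) ^ 2 := by
        rw [hc1.mul_pow, hc1.inv_right.mul_pow, mul_assoc, ← mul_assoc ((τ a) ^ 2), (hc1.symm.pow_pow 2 2).eq,
          mul_assoc, inv_pow, mul_inv_cancel, mul_one, ← pow_add, pow_succ, hJexp a ha, one_mul]
      by_cases hp : a * τ a ∈ W ⊔ Subgroup.zpowers z
      · refine ⟨a * (τ a)⁻¹, mul_mem ha (inv_mem (hτJ a ha)), fun h => haW (h1 ▸ mul_mem (pow_mem hp 2) (pow_mem h 2)), Or.inr ?_⟩
        rw [map_mul, map_inv, hττ, mul_inv_rev, inv_inv]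
      · refine ⟨_, mul_mem ha (hτJ a ha), hp, Or.inl ?_⟩
        rw [map_mul, hττ]
        exact hc1.eq.symm
    have hle : Subgroup.zpowers b ≤ Subgroup.normalizer (W : Set G) := by
      rw [Subgroup.zpowers_le, Subgroup.mem_normalizer_iff]
      intro w
      constructor
      · intro hw
        rwa [hcJ b hb w (hWJ hw), mul_inv_cancel_right]
      · intro hw
        have h2 : w = b⁻¹ * (b * w * b⁻¹) * b := by group
        rw [h2, hcJ b⁻¹ (inv_mem hb) _ (hWJ hw), inv_mul_cancel_right]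
        exact hw
    have hP : W ⊔ Subgroup.zpowers b ∈ P := by
      refine ⟨sup_le hWJ (Subgroup.zpowers_le.mpr hb), fun hz' => ?_, fun c hc => ?_⟩
      · rw [← SetLike.mem_coe, Subgroup.coe_mul_of_right_le_normalizer_left _ _ hle] at hz'
        obtain ⟨w, hw, v, hv, hwv : w * v = z⟩ := hz'
        have hvZ : v ∈ W ⊔ Subgroup.zpowers z := by
          rw [eq_inv_mul_of_mul_eq hwv]
          exact mul_mem (Subgroup.mem_sup_left (inv_mem hw)) (Subgroup.mem_sup_right (Subgroup.mem_zpowers z))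
        by_cases hv1 : v = 1
        · rw [hv1, mul_one] at hwv
          exact hWz (hwv ▸ hw)
        · have hbo : orderOf b = 3 := orderOf_eq_prime (hJexp b hb) fun h => hbW (h ▸ one_mem _)
          have hvb : Subgroup.zpowers v = Subgroup.zpowers b := Subgroup.eq_of_le_of_card_ge (Subgroup.zpowers_le.mpr hv) (by
            rw [Nat.card_zpowers, Nat.card_zpowers, hbo, orderOf_eq_prime (hJexp v (Subgroup.zpowers_le.mpr hb hv)) hv1])
          exact hbW (Subgroup.zpowers_le.mpr hvZ (hvb ▸ Subgroup.mem_zpowers b))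
      · have hmap : W ⊔ Subgroup.zpowers b ≤ (W ⊔ Subgroup.zpowers b).comap τ := by
          refine sup_le (fun w hw => Subgroup.mem_sup_left (hWt w hw)) (Subgroup.zpowers_le.mpr ?_)
          rw [Subgroup.mem_comap]
          rcases hbτ with h | h <;> rw [h]
          · exact Subgroup.mem_sup_right (Subgroup.mem_zpowers b)
          · exact Subgroup.mem_sup_right (inv_mem (Subgroup.mem_zpowers b))
        exact hmap hc
    exact hbW (Subgroup.mem_sup_left (hWmax _ hP le_sup_left ▸ Subgroup.mem_sup_right (Subgroup.mem_zpowers b)))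
  have hW9 : Nat.card W = 9 := by
    have h1 : W ⊔ Subgroup.zpowers z = J := le_antisymm (sup_le hWJ (Subgroup.zpowers_le.mpr hzJ)) hWZ
    have hle : Subgroup.zpowers z ≤ Subgroup.normalizer (W : Set G) := by
      rw [Subgroup.zpowers_le, Subgroup.mem_normalizer_iff]
      intro w
      rw [← hzc w, mul_inv_cancel_right]
    have h2 : Function.Bijective (fun q : W × Subgroup.zpowers z => (⟨q.1.1 * q.2.1, h1 ▸ mul_mem (Subgroup.mem_sup_left q.1.2) (Subgroup.mem_sup_right q.2.2)⟩ : J)) := by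
      constructor
      · refine fun p q e => Subgroup.mul_injective_of_disjoint ?_ (congrArg Subtype.val e)
        rw [Subgroup.disjoint_def]
        intro u huW huz
        by_contra hu
        have huv : Subgroup.zpowers u = Subgroup.zpowers z := Subgroup.eq_of_le_of_card_ge (Subgroup.zpowers_le.mpr huz) (by
          rw [Nat.card_zpowers, Nat.card_zpowers, hzo, orderOf_eq_prime (hJexp u (hWJ huW)) hu])
        exact hWz (Subgroup.zpowers_le.mpr huW (huv ▸ Subgroup.mem_zpowers z))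
      · intro a
        have ha : (a : G) ∈ (↑(W ⊔ Subgroup.zpowers z) : Set G) := h1.symm ▸ a.2
        rw [Subgroup.coe_mul_of_right_le_normalizer_left _ _ hle] at ha
        obtain ⟨w, hw, v, hv, e⟩ := ha
        exact ⟨(⟨w, hw⟩, ⟨v, hv⟩), Subtype.ext e⟩
    have h3 := Nat.card_eq_of_bijective _ h2
    rw [Nat.card_prod, Nat.card_zpowers, hzo, hJcard] at h3
    omega
  -- the subgroup of index nine
  have htW : Subgroup.zpowers t ≤ Subgroup.normalizer (W : Set G) := by
    rw [Subgroup.zpowers_le, Subgroup.mem_normalizer_iff]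
    refine fun w => ⟨fun hw => hWt w hw, fun hw => ?_⟩
    have := hWt _ hw
    rwa [← hτ w, hττ] at this
  obtain ⟨H, hH⟩ : ∃ H : Subgroup G, H = W ⊔ Subgroup.zpowers t := ⟨_, rfl⟩
  have hHmem : ∀ h ∈ H, h ∈ W ∨ ∃ w ∈ W, h = w * t := by
    intro h hh
    rw [hH, ← SetLike.mem_coe, Subgroup.coe_mul_of_right_le_normalizer_left _ _ htW] at hh
    obtain ⟨w, hw, v, hv, rfl⟩ := hh
    obtain ⟨n, hn⟩ := mem_powers_iff_mem_zpowers.mpr hv
    dsimp only at hn ⊢
    subst hn
    rcases Nat.even_or_odd n with ⟨m, hm⟩ | ⟨m, hm⟩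
    · left
      rwa [hm, ← two_mul, pow_mul, pow_two, htt, one_pow, mul_one]
    · exact Or.inr ⟨w, hw, by rw [hm, pow_succ, pow_mul, pow_two, htt, one_pow, one_mul]⟩
  have hH18 : Nat.card H = 18 := by
    have hWH : W ≤ H := hH ▸ le_sup_left
    have htH : t ∈ H := hH ▸ Subgroup.mem_sup_right (Subgroup.mem_zpowers t)
    have h9 : 9 ∣ Nat.card H := hW9 ▸ Subgroup.card_dvd_of_le hWH
    have h2 : 2 ∣ Nat.card H := hto ▸ Subgroup.orderOf_dvd_natCard _ htH
    let f : W × Fin 2 → H := fun q => if q.2 = 0 then ⟨q.1, hWH q.1.2⟩ else ⟨q.1 * t, mul_mem (hWH q.1.2) htH⟩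
    have hf : Function.Surjective f := fun h => by
      rcases hHmem h h.2 with hw | ⟨w, hw, e⟩
      · exact ⟨(⟨h, hw⟩, 0), by simp [f]⟩
      · exact ⟨(⟨w, hw⟩, 1), by simp [f, ← e]⟩
    have h3 := Nat.card_le_card_of_surjective f hf
    rw [Nat.card_prod, hW9, Nat.card_fin] at h3
    have : 18 ∣ Nat.card H := Nat.Coprime.mul_dvd_of_dvd_of_dvd (m := 9) (n := 2) (by norm_num) h9 h2
    have := Nat.card_pos (α := H)
    have := Nat.le_of_dvd this ‹18 ∣ _›
    omega
  have hzH : z ∉ H := fun h => by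
    rcases hHmem z h with h | ⟨w, hw, e⟩
    · exact hWz h
    · exact htJ (by rw [eq_inv_mul_of_mul_eq e.symm]; exact mul_mem (inv_mem (hWJ hw)) hzJ)
  -- the action on the nine cosets is faithful
  let φ := MulAction.toPermHom G (G ⧸ H)
  have hker : φ.ker ≤ H := fun g hg => by
    have := Equiv.ext_iff.mp (MonoidHom.mem_ker.mp hg) ((1 : G) : G ⧸ H)
    simp [φ] at this
    exact (by simpa using QuotientGroup.eq.mp this : g⁻¹ ∈ H) |> fun h => inv_mem_iff.mp h
  have hinj : Function.Injective φ := by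
    rw [← MonoidHom.ker_eq_bot_iff, eq_bot_iff]
    intro n hn
    rw [Subgroup.mem_bot]
    by_contra hn1
    have hgood : ∀ a ∈ φ.ker, a ∈ (S : Subgroup G) → a = 1 := by
      intro a ha haS
      by_contra ha1
      obtain ⟨w, hw, hwZ, hw1⟩ := hmeet φ.ker φ.normal_ker a ha haS ha1
      rw [← hZz] at hwZ
      have hwo : Subgroup.zpowers w = Subgroup.zpowers z := Subgroup.eq_of_le_of_card_ge (Subgroup.zpowers_le.mpr hwZ) (by
        rw [Nat.card_zpowers, Nat.card_zpowers, hzo]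
        have : orderOf w ∣ 3 := hzo ▸ Nat.card_zpowers z ▸ Subgroup.orderOf_dvd_natCard _ hwZ
        rcases (Nat.dvd_prime (by norm_num)).mp this with h | h
        · exact absurd (orderOf_eq_one_iff.mp h) hw1
        · omega)
      exact hzH (hker (Subgroup.zpowers_le.mpr hw (hwo ▸ Subgroup.mem_zpowers z)))
    rcases hHmem n (hker hn) with hw | ⟨w, hw, rfl⟩
    · exact hn1 (hgood n hn (hJS (hWJ hw)))
    · apply htS
      have hcomm : ∀ s ∈ (S : Subgroup G), Commute (w * t) s := by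
        intro s hs
        have h1 := hgood ((w * t) * s * (w * t)⁻¹ * s⁻¹) (by
          rw [show (w * t) * s * (w * t)⁻¹ * s⁻¹ = (w * t) * (s * (w * t)⁻¹ * s⁻¹) by group]
          exact mul_mem hn (φ.normal_ker.conj_mem _ (inv_mem hn) s))
          (mul_mem (hSn.conj_mem s hs _) (inv_mem hs))
        rw [mul_inv_eq_one, mul_inv_eq_iff_eq_mul] at h1
        exact h1
      have hwt : Commute w t := by
        have := (hcomm w (hJS (hWJ hw))).eq
        rw [mul_assoc] at this
        exact (mul_left_cancel this).symm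
      intro s hs
      have := ((hcomm s hs).pow_left 3).eq
      rw [hwt.mul_pow, hJexp w (hWJ hw), one_mul, pow_succ, pow_two, htt, one_mul] at this
      exact this.symm
  -- transport to nine points
  have hcardQ : Nat.card (G ⧸ H) = 9 := by
    have := H.card_mul_index
    rw [hH18, hG, Subgroup.index_eq_card] at this
    omega
  let e : G ⧸ H ≃ Fin 9 := (Finite.equivFin _).trans (finCongr hcardQ)
  let ψ : G →* Equiv.Perm (Fin 9) := e.permCongrHom.toMonoidHom.comp φ
  have hψ : Function.Injective ψ := e.permCongrHom.injective.comp hinj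
  have hπfix : ∀ i, ψ z i ≠ i := by
    intro i h
    change e (z • e.symm i) = i at h
    rw [← Equiv.eq_symm_apply] at h
    obtain ⟨g, hg⟩ := QuotientGroup.mk_surjective (e.symm i)
    rw [← hg, MulAction.Quotient.smul_mk] at h
    have := QuotientGroup.eq.mp h
    rw [smul_eq_mul, ← hzc g, mul_inv_rev, inv_mul_cancel_right] at this
    exact hzH (inv_mem_iff.mp this)
  obtain ⟨c, hc⟩ := isConj_iff.mp (conj_of_fixfree (ψ z) (Equiv.swap (0 : Fin 9) 1 * Equiv.swap 1 2 * Equiv.swap 3 4 * Equiv.swap 4 5 * Equiv.swap 6 7 * Equiv.swap 7 8) hπfix (by rw [← map_pow, hz3, map_one]) (by decide) (by decide))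
  let χ : G →* Equiv.Perm (Fin 9) := (MulAut.conj c).toMonoidHom.comp ψ
  have hχ : Function.Injective χ := (MulAut.conj c).injective.comp hψ
  have hmem : ∀ g, χ g ∈ Subgroup.centralizer ({Equiv.swap (0 : Fin 9) 1 * Equiv.swap 1 2 * Equiv.swap 3 4 * Equiv.swap 4 5 * Equiv.swap 6 7 * Equiv.swap 7 8} : Set (Equiv.Perm (Fin 9))) := by
    intro g
    rw [Subgroup.mem_centralizer_singleton_iff, ← show χ z = Equiv.swap (0 : Fin 9) 1 * Equiv.swap 1 2 * Equiv.swap 3 4 * Equiv.swap 4 5 * Equiv.swap 6 7 * Equiv.swap 7 8 from hc, ← map_mul, ← map_mul, hzc g]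
  let ι := χ.codRestrict _ hmem
  have hι : Function.Injective ι := fun a b h => hχ (congrArg Subtype.val h)
  exact ⟨MulEquiv.ofBijective ι (hι.bijective_of_nat_card_le (by rw [hG, card_cent (Equiv.swap (0 : Fin 9) 1 * Equiv.swap 1 2 * Equiv.swap 3 4 * Equiv.swap 4 5 * Equiv.swap 6 7 * Equiv.swap 7 8) (by decide) (by decide)]))⟩

end Cfsg.Agent.S3376
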