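import Cfsg.Statements.S3389
import Cfsg.Agent.Lib.GroupB.Frobenius
import Cfsg.Agent.Lib.LocalBasic
import Mathlib

set_option autoImplicit false
set_option linter.style.haveILetI false
open Cfsg

namespace Cfsg.Agent.S3389

open scoped Pointwise

/-- Let G be a finite group acting faithfully and transitively on a finite set Ω with fixity k ≥ 1: every non-identity element fixes at most k points and some non-identity element fixes exactly k points. Then |Z(G)| divides k; if k = 2 then |G| is even; and for every prime p > k dividing |G| and every point α, either p does not divide |G_α| or G_α contains a Sylow p-subgroup of G. -/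
theorem result {G : Type*} [Group G] [Finite G] {Ω : Type*} [Fintype Ω] [MulAction G Ω] [FaithfulSMul G Ω]
    (htr : MulAction.IsPretransitive G Ω) (k : ℕ) (hk : 1 ≤ k)
    (hfix : ∀ g : G, g ≠ 1 → Nat.card (MulAction.fixedBy Ω g) ≤ k) (hex : ∃ g : G, g ≠ 1 ∧ Nat.card (MulAction.fixedBy Ω g) = k) :
    Nat.card (Subgroup.center G) ∣ k ∧ (k = 2 → 2 ∣ Nat.card G) ∧
      ∀ (p : ℕ), p.Prime → k < p → p ∣ Nat.card G → ∀ α : Ω,
        ¬ p ∣ Nat.card (MulAction.stabilizer G α) ∨ ¬ p ∣ (MulAction.stabilizer G α).index := by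
  classical
  obtain ⟨g, hg1, hgk⟩ := hex
  haveI := htr
  haveI : Nonempty (MulAction.fixedBy Ω g) := by
    by_contra h
    rw [not_nonempty_iff] at h
    rw [Nat.card_of_isEmpty] at hgk
    omega
  refine ⟨?_, fun hk2 => ?_, fun p hp hkp hpG α => ?_⟩
  · let Z := Subgroup.center G
    have hmem : ∀ z : ↥Z, ∀ ω : Ω, g • ω = ω → g • (z : G) • ω = (z : G) • ω := by
      intro z ω hω
      rw [← mul_smul, Subgroup.mem_center_iff.mp z.2 g, mul_smul, hω]
    letI : MulAction ↥Z (MulAction.fixedBy Ω g) :=
      { smul := fun z ω => ⟨(z : G) • (ω : Ω), hmem z ω ω.2⟩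
        one_smul := fun ω => Subtype.ext (one_smul G (ω : Ω))
        mul_smul := fun a b ω => Subtype.ext (mul_smul (a : G) b (ω : Ω)) }
    have hfree : ∀ ω : MulAction.fixedBy Ω g, MulAction.stabilizer ↥Z ω = ⊥ := by
      intro ω
      rw [eq_bot_iff]
      intro z hz
      rw [Subgroup.mem_bot]
      have h : (z : G) • (ω : Ω) = ω := congrArg Subtype.val (MulAction.mem_stabilizer_iff.mp hz)
      refine Subtype.ext (eq_of_smul_eq_smul fun x : Ω => ?_)
      obtain ⟨a, rfl⟩ := MulAction.exists_smul_eq G (ω : Ω) x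
      rw [← mul_smul, ← Subgroup.mem_center_iff.mp z.2 a, mul_smul, h]
      simp
    rw [← hgk, Nat.card_congr (MulAction.selfEquivOrbitsQuotientProd hfree), Nat.card_prod]
    exact dvd_mul_left _ _
  · by_contra hodd
    subst hk2
    have hswap : ∀ (x : G) (a b : Ω), a ≠ b → x • a = b → x • b = a → False := by
      intro x a b hab h1 h2
      have hx2 : (x * x) • a = a := by rw [mul_smul, h1, h2]
      obtain ⟨m, hm⟩ : Odd (orderOf x) := by
        rw [← Nat.not_even_iff_odd, even_iff_two_dvd]
        exact fun h => hodd (h.trans (orderOf_dvd_natCard x))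
      have hpow : ∀ j : ℕ, (x * x) ^ j • a = a := by
        intro j
        induction j with
        | zero => simp
        | succ j ih => rw [pow_succ, mul_smul, hx2, ih]
      apply hab
      calc a = (x ^ (2 * m + 1)) • a := by rw [← hm, pow_orderOf_eq_one, one_smul]
        _ = x • ((x * x) ^ m • a) := by rw [pow_succ', pow_mul, pow_two, mul_smul]
        _ = b := by rw [hpow, h1]
    obtain ⟨α, hα⟩ := ‹Nonempty (MulAction.fixedBy Ω g)›
    obtain ⟨β, hβ, hne⟩ : ∃ β, g • β = β ∧ β ≠ α := by
      by_contra h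
      push Not at h
      haveI : Subsingleton (MulAction.fixedBy Ω g) :=
        ⟨fun u v => Subtype.ext ((h u u.2).trans (h v v.2).symm)⟩
      have : Nat.card (MulAction.fixedBy Ω g) ≤ 1 := Finite.card_le_one_iff_subsingleton.mpr inferInstance
      omega
    set H := MulAction.stabilizer G α with hHdef
    set K := H ⊓ MulAction.stabilizer G β with hKdef
    have hK1 : K ≠ ⊥ := fun h => hg1 (Subgroup.mem_bot.mp (h ▸ ⟨hα, hβ⟩))
    have hfixK : ∀ t ∈ K, t ≠ 1 → ∀ ω : Ω, t • ω = ω → ω = α ∨ ω = β := by
      intro t ht ht1 ω hω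
      by_contra h
      rw [not_or] at h
      have h3 : ({α, β, ω} : Finset Ω).card = 3 := by
        rw [Finset.card_insert_of_notMem (by simp [hne.symm, Ne.symm h.1]),
          Finset.card_insert_of_notMem (by simp [Ne.symm h.2]), Finset.card_singleton]
      have hle := hfix t ht1
      rw [Nat.card_eq_fintype_card, ← Set.toFinset_card] at hle
      have hsub : ({α, β, ω} : Finset Ω) ⊆ (MulAction.fixedBy Ω t).toFinset := by
        intro x hx
        simp only [Finset.mem_insert, Finset.mem_singleton] at hx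
        rcases hx with rfl | rfl | rfl <;> simp only [Set.mem_toFinset, MulAction.mem_fixedBy]
        exacts [ht.1, ht.2, hω]
      have := Finset.card_le_card hsub
      omega
    have hTI : ∀ x : G, ∀ t ∈ K, t ≠ 1 → x * t * x⁻¹ ∈ K → x ∈ K := by
      intro x t ht ht1 hxt
      have ht' : x * t * x⁻¹ ≠ 1 := fun h => ht1 (by simpa using h)
      have himg : ∀ ω : Ω, t • ω = ω → x • ω = α ∨ x • ω = β := fun ω hω =>
        hfixK _ hxt ht' _ (by rw [← mul_smul, inv_mul_cancel_right, mul_smul, hω])
      rcases himg α ht.1 with h1 | h1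
      · rcases himg β ht.2 with h2 | h2
        · exact absurd (MulAction.injective x (h1.trans h2.symm)) hne.symm
        · exact ⟨h1, h2⟩
      · rcases himg β ht.2 with h2 | h2
        · exact (hswap x α β hne.symm h1 h2).elim
        · exact absurd (MulAction.injective x (h1.trans h2.symm)) hne.symm
    obtain ⟨x, hx⟩ := MulAction.exists_smul_eq G α β
    have hxH : x ∉ H := fun h => hne (hx.symm.trans h)
    have hconjH : ∀ t ∈ K, x⁻¹ * t * x ∈ H := by
      intro t ht
      show (x⁻¹ * t * x) • α = α
      rw [mul_smul, mul_smul, hx, ht.2, inv_smul_eq_iff, hx]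
    by_cases hKH : H ≤ K
    · obtain ⟨t, ht, ht1⟩ := K.bot_or_exists_ne_one.resolve_left hK1
      have : x⁻¹ ∈ K := hTI x⁻¹ t ht ht1 (hKH (by simpa using hconjH t ht))
      exact hxH (by simpa using H.inv_mem this.1)
    set K0 := K.subgroupOf H with hK0
    have hF : Cfsg.IsFrobeniusComplement K0 := by
      refine ⟨fun h => hK1 ?_, fun h => hKH (Subgroup.subgroupOf_eq_top.mp h), fun y hy => ?_⟩
      · rw [Subgroup.subgroupOf_eq_bot, disjoint_iff] at h
        rwa [inf_eq_left.mpr (inf_le_left : K ≤ H)] at h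
      · rw [eq_bot_iff]
        rintro t ⟨ht, hty⟩
        rw [Subgroup.mem_bot]
        by_contra ht1
        replace hty := CfsgLib.GroupB.Frobenius.mem_conj_smul_iff.mp (hty : t ∈ MulAut.conj y • K0)
        apply hy
        have : (y : G)⁻¹ ∈ K := hTI _ (t : G) ht (fun h => ht1 (Subtype.ext h))
          (by simpa [hK0, Subgroup.mem_subgroupOf] using hty)
        simpa [hK0, Subgroup.mem_subgroupOf] using this
    obtain ⟨M, hM, hMn, hMc⟩ := CfsgLib.GroupB.Frobenius.exists_kernel_subgroup hF
    -- `K' = x⁻¹ K x` is a subgroup of `H` of the order of `K`, so not inside the kernel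
    set K' := (K.map (MulAut.conj x⁻¹).toMonoidHom).subgroupOf H with hK'
    have hK'le : K.map (MulAut.conj x⁻¹).toMonoidHom ≤ H := by
      rintro _ ⟨t, ht, rfl⟩; simpa using hconjH t ht
    have hcard : Nat.card K' = Nat.card K0 := by
      rw [hK', hK0, Nat.card_congr (Subgroup.subgroupOfEquivOfLe hK'le).toEquiv,
        Nat.card_congr (Subgroup.subgroupOfEquivOfLe (inf_le_left : K ≤ H)).toEquiv]
      exact Subgroup.card_map_of_injective (MulAut.conj x⁻¹).injective
    have hnot : ¬ K' ≤ M := fun h => by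
      have h1 := Subgroup.card_dvd_of_le h
      rw [← hMc.index_eq_card, hcard] at h1
      have h2 := Nat.eq_one_of_dvd_coprimes (CfsgLib.GroupB.Frobenius.coprime_index hF) h1 dvd_rfl
      exact hF.1 (Subgroup.eq_bot_of_card_eq K0 h2)
    obtain ⟨e, he, heM⟩ := SetLike.not_le_iff_exists.mp hnot
    rw [← SetLike.mem_coe, hM, CfsgLib.GroupB.Frobenius.mem_kernel_iff, not_or, not_forall_not] at heM
    obtain ⟨he1, y, hy⟩ := heM
    obtain ⟨t, ht, hte⟩ := Subgroup.mem_map.mp (Subgroup.mem_subgroupOf.mp he)
    have hte' : x⁻¹ * t * x = (e : G) := by simpa using hte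
    have ht1 : t ≠ 1 := fun h => he1 (Subtype.ext (by rw [← hte', h]; simp))
    have hy' : (y : G)⁻¹ * e * y ∈ K := by simpa [hK0, Subgroup.mem_subgroupOf] using hy
    have hmem : (y : G)⁻¹ * x⁻¹ ∈ K := hTI _ t ht ht1 (by
      convert hy' using 1; rw [← hte']; group)
    refine hxH ?_
    have h4 := H.mul_mem y.2 hmem.1
    rw [mul_inv_cancel_left] at h4
    exact inv_mem_iff.mp h4
  · haveI := Fact.mk hp
    set H := MulAction.stabilizer G α
    by_cases hpH : p ∣ Nat.card H
    swap
    · exact Or.inl hpH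
    right
    let P0 : Sylow p ↥H := default
    set P1 := (P0 : Subgroup ↥H).map H.subtype with hP1
    have hP1card : Nat.card P1 = p ^ (Nat.card H).factorization p := by
      rw [hP1, Subgroup.card_map_of_injective H.subtype_injective, P0.card_eq_multiplicity]
    obtain ⟨Q, hQ⟩ := (P0.isPGroup'.map H.subtype).exists_le_sylow
    have hfac : 0 < (Nat.card H).factorization p := hp.factorization_pos_of_dvd Nat.card_pos.ne' hpH
    have hP1ne : P1 ≠ ⊥ := fun h => by
      rw [h, Subgroup.card_bot] at hP1card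
      exact absurd hP1card.symm (Nat.one_lt_pow hfac.ne' hp.one_lt).ne'
    obtain ⟨t, ht, ht1⟩ := P1.bot_or_exists_ne_one.resolve_left hP1ne
    have hQP : P1 = (Q : Subgroup G) := by
      refine CfsgLib.LocalBasic.eq_of_normalizer_inf_le Q.isPGroup' hQ ?_
      rintro x ⟨hxQ, hxN⟩
      -- `x` moves `α` inside the fixed points of `P1`
      have horb : ∀ j : ℕ, ∀ y ∈ P1, y • (x ^ j • α) = x ^ j • α := by
        intro j y hy
        have hj : x ^ j ∈ Subgroup.normalizer (P1 : Set G) := pow_mem hxN j
        have : (x ^ j)⁻¹ * y * x ^ j ∈ H :=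
          Subgroup.map_subtype_le _ ((Subgroup.mem_normalizer_iff''.mp hj y).mp hy)
        have h' : ((x ^ j)⁻¹ * y * x ^ j) • α = α := this
        rw [mul_smul, mul_smul, inv_smul_eq_iff] at h'
        exact h'
      obtain ⟨i, hi⟩ := Q.isPGroup' ⟨x, hxQ⟩
      have hxp : x ^ p ^ i = 1 := congrArg Subtype.val hi
      have hdvd : Function.minimalPeriod (x • ·) α ∣ p ^ i := by
        apply Function.IsPeriodicPt.minimalPeriod_dvd
        show (fun y : Ω => x • y)^[p ^ i] α = α
        rw [smul_iterate, hxp]; exact one_smul G α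
      obtain ⟨j, -, hj⟩ := (Nat.dvd_prime_pow hp).mp hdvd
      have hle : Function.minimalPeriod (x • ·) α ≤ k := by
        refine le_trans ?_ (hfix t ht1)
        rw [← Nat.card_fin (Function.minimalPeriod (x • ·) α)]
        refine Nat.card_le_card_of_injective (fun i => ⟨x ^ (i : ℕ) • α, horb i t ht⟩) ?_
        intro a b e
        have e' : x ^ (a : ℕ) • α = x ^ (b : ℕ) • α := congrArg Subtype.val e
        rw [← smul_iterate_apply, ← smul_iterate_apply] at e'
        exact Fin.ext (Function.iterate_injOn_Iio_minimalPeriod a.2 b.2 e')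
      have hj0 : j = 0 := by
        by_contra h
        have h1 : p ≤ p ^ j := Nat.le_self_pow h p
        omega
      subst hj0
      have hxα : x • α = α := Function.minimalPeriod_eq_one_iff_isFixedPt.mp (by simpa using hj)
      have hQH : IsPGroup p ↥((Q : Subgroup G).subgroupOf H) :=
        Q.isPGroup'.comap_of_injective H.subtype H.subtype_injective
      have hmax := P0.is_maximal' hQH (fun y hy => hQ (Subgroup.mem_map_of_mem _ hy))
      exact ⟨⟨x, hxα⟩, hmax ▸ (hxQ : (⟨x, hxα⟩ : ↥H) ∈ (Q : Subgroup G).subgroupOf H), rfl⟩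
    have hQH : (Q : Subgroup G) ≤ H := hQP ▸ Subgroup.map_subtype_le _
    exact fun h => Q.not_dvd_index (h.trans (Subgroup.index_dvd_of_le hQH))

end Cfsg.Agent.S3389
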