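import Cfsg.Statements.S3391
import Cfsg.Agent.Lib.Suzuki.Fixity

set_option autoImplicit false
set_option linter.all false
open Cfsg

namespace Cfsg.Agent.S3391

/-- Let q = 2^{2m+1} ≥ 8 and let G be isomorphic to the Suzuki group Sz(q). If G acts faithfully and transitively on a finite set Ω with fixity 2 (every non-identity element fixes at most two points, and some fixes exactly two), then either |Ω| = q² + 1 and the action is 2-transitive, or |Ω| = q²(q² + 1) and the point stabilizers have order q − 1. -/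
theorem result {G : Type*} [Group G] [Finite G] (F : Type) [Field F] [Fintype F] (m : ℕ) (hm : 1 ≤ m) (hF : Fintype.card F = 2 ^ (2 * m + 1))
    (e : G ≃* ↥(Cfsg.Lie.Sz F (2 ^ (m + 1)))) {Ω : Type*} [Fintype Ω] [MulAction G Ω] [FaithfulSMul G Ω] (htr : MulAction.IsPretransitive G Ω)
    (hfix : ∀ g : G, g ≠ 1 → Nat.card (MulAction.fixedBy Ω g) ≤ 2) (hex : ∃ g : G, g ≠ 1 ∧ Nat.card (MulAction.fixedBy Ω g) = 2) :
    (Fintype.card Ω = Fintype.card F ^ 2 + 1 ∧ MulAction.IsMultiplyPretransitive G Ω 2) ∨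
    (Fintype.card Ω = Fintype.card F ^ 2 * (Fintype.card F ^ 2 + 1) ∧ ∀ α : Ω, Nat.card (MulAction.stabilizer G α) = Fintype.card F - 1) := by
  classical
  let h : CfsgLib.Suzuki.Hyp F m := ⟨hm, hF⟩
  obtain ⟨e₂⟩ := h.nonempty_equiv
  let ψ : G ≃* ↥(Cfsg.Sz F m) := e.trans e₂
  letI : MulAction ↥(Cfsg.Sz F m) Ω := MulAction.compHom Ω ψ.symm.toMonoidHom
  have hsm : ∀ (g : ↥(Cfsg.Sz F m)) (x : Ω), g • x = ψ.symm g • x := fun _ _ => rfl
  haveI : MulAction.IsPretransitive ↥(Cfsg.Sz F m) Ω := ⟨fun x y => by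
    obtain ⟨g, hg⟩ := MulAction.exists_smul_eq G x y
    exact ⟨ψ g, by rw [hsm, MulEquiv.symm_apply_apply, hg]⟩⟩
  haveI : FaithfulSMul ↥(Cfsg.Sz F m) Ω := ⟨fun {g k} he => ψ.symm.injective (eq_of_smul_eq_smul fun x : Ω => he x)⟩
  have hne : ∀ g : ↥(Cfsg.Sz F m), g ≠ 1 → ψ.symm g ≠ 1 := fun g hg he => hg (by
    rw [← ψ.apply_symm_apply g, he, map_one])
  have hfix' : ∀ g : ↥(Cfsg.Sz F m), g ≠ 1 → (MulAction.fixedBy Ω g).ncard ≤ 2 := fun g hg => by
    rw [show MulAction.fixedBy Ω g = MulAction.fixedBy Ω (ψ.symm g) from rfl, ← Nat.card_coe_set_eq]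
    exact hfix _ (hne g hg)
  obtain ⟨g₀, hg₀, h2⟩ := hex
  have hex' : ∃ g : ↥(Cfsg.Sz F m), g ≠ 1 ∧ (MulAction.fixedBy Ω g).ncard = 2 :=
    ⟨ψ g₀, fun he => hg₀ (ψ.map_eq_one_iff.mp he), by
      rw [show MulAction.fixedBy Ω (ψ g₀) = MulAction.fixedBy Ω (ψ.symm (ψ g₀)) from rfl, ψ.symm_apply_apply,
        ← Nat.card_coe_set_eq]
      exact h2⟩
  rcases CfsgLib.Suzuki.Fixity.main h hfix' hex' with ⟨hc, ht⟩ | ⟨hc, hs⟩
  · refine Or.inl ⟨by rw [← Nat.card_eq_fintype_card, hc], ?_⟩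
    rw [MulAction.is_two_pretransitive_iff]
    intro a b c d hab hcd
    obtain ⟨g, e1, e2⟩ := MulAction.is_two_pretransitive_iff.mp ht hab hcd
    exact ⟨ψ.symm g, e1, e2⟩
  · refine Or.inr ⟨by rw [← Nat.card_eq_fintype_card, hc], fun x => ?_⟩
    rw [← hs x]
    refine Nat.card_congr ((ψ.toEquiv).subtypeEquiv fun g => ?_)
    show g • x = x ↔ ψ.symm (ψ g) • x = x
    rw [ψ.symm_apply_apply]

end Cfsg.Agent.S3391
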