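import Cfsg.Statements.S3495
import Mathlib

set_option autoImplicit false
set_option linter.style.haveILetI false
open Cfsg

namespace Cfsg.Agent.S3495

/-- Let a finite group G act faithfully and primitively on a finite set Ω with non-trivial point stabilizers, each acting primitively on every one of its orbits (an extremely primitive group), and suppose G has an elementary abelian normal p-subgroup N acting regularly on Ω (affine type). Then every non-trivial subgroup M of a point stabilizer G_α that is normal in G_α has the same orbits on Ω as G_α, and normalizes no subgroup of N other than 1 and N. -/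
theorem result {G : Type*} [Group G] [Finite G] {Ω : Type*} [Fintype Ω] [MulAction G Ω] [FaithfulSMul G Ω] (hprim : MulAction.IsPreprimitive G Ω) (hH : ∀ α : Ω, MulAction.stabilizer G α ≠ ⊥) (hep : ∀ (α : Ω) (ω : Ω), MulAction.IsPreprimitive (MulAction.stabilizer G α) (MulAction.orbit (MulAction.stabilizer G α) ω))
    (N : Subgroup G) [N.Normal] (hNc : IsMulCommutative N) (p : ℕ) (hp : p.Prime) (hNp : ∀ n ∈ N, n ^ p = 1)
    (hNtr : MulAction.IsPretransitive N Ω) (hNreg : ∀ ω : Ω, MulAction.stabilizer N ω = ⊥) (α : Ω) (M : Subgroup G) (hM : M ≠ ⊥) (hMle : M ≤ MulAction.stabilizer G α)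
    (hMn : MulAction.stabilizer G α ≤ Subgroup.normalizer (M : Set G)) :
    (∀ ω : Ω, MulAction.orbit M ω = MulAction.orbit (MulAction.stabilizer G α) ω) ∧
    (∀ L : Subgroup G, L ≤ N → M ≤ Subgroup.normalizer (L : Set G) → L = ⊥ ∨ L = N) := by
  classical
  haveI := hprim
  haveI := hNtr
  haveI : Nontrivial Ω := by
    by_contra h
    rw [not_nontrivial_iff_subsingleton] at h
    apply hH α
    rw [eq_bot_iff]
    exact fun g _ => Subgroup.mem_bot.mpr (eq_of_smul_eq_smul fun x : Ω => Subsingleton.elim _ _)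
  set H := MulAction.stabilizer G α with hHdef
  have huniq : ∀ a ∈ N, ∀ b ∈ N, a • α = b • α → a = b := by
    intro a ha b hb e
    have h : (⟨b⁻¹ * a, N.mul_mem (N.inv_mem hb) ha⟩ : ↥N) ∈ MulAction.stabilizer ↥N α := by
      rw [MulAction.mem_stabilizer_iff]
      show (b⁻¹ * a) • α = α
      rw [mul_smul, e, inv_smul_smul]
    rw [hNreg α, Subgroup.mem_bot] at h
    exact (inv_mul_eq_one.mp (congrArg Subtype.val h)).symm
  have htr : ∀ ω : Ω, ∃ n ∈ N, n • α = ω := fun ω => by
    obtain ⟨⟨n, hn⟩, h⟩ := MulAction.exists_smul_eq ↥N α ω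
    exact ⟨n, hn, h⟩
  have hdec : ∀ g : G, ∃ n ∈ N, ∃ h ∈ H, g = n * h := by
    intro g
    obtain ⟨n, hn, hn'⟩ := htr (g • α)
    exact ⟨n, hn, n⁻¹ * g, (by rw [MulAction.mem_stabilizer_iff, mul_smul, ← hn', inv_smul_smul]),
      (mul_inv_cancel_left n g).symm⟩
  have hNcomm : ∀ a ∈ N, ∀ b ∈ N, a * b = b * a := fun a ha b hb =>
    congrArg Subtype.val (hNc.is_comm.comm (⟨a, ha⟩ : N) ⟨b, hb⟩)
  have hmin : ∀ L : Subgroup G, L ≤ N → (∀ h ∈ H, ∀ l ∈ L, h * l * h⁻¹ ∈ L) → L ≠ ⊥ → L = N := by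
    intro L hLN hLH hL
    haveI : L.Normal := ⟨fun l hl g => by
      obtain ⟨n, hn, h, hh, rfl⟩ := hdec g
      have h1 := hLH h hh l hl
      have h2 : n * (h * l * h⁻¹) * n⁻¹ = h * l * h⁻¹ := by rw [hNcomm n hn _ (hLN h1), mul_inv_cancel_right]
      have e : n * h * l * (n * h)⁻¹ = n * (h * l * h⁻¹) * n⁻¹ := by group
      rwa [e, h2]⟩
    obtain ⟨l, hl, hl1⟩ := L.bot_or_exists_ne_one.resolve_left hL
    have hfix : MulAction.fixedPoints ↥L Ω ≠ Set.univ := by
      intro h
      have h' : α ∈ MulAction.fixedPoints ↥L Ω := h ▸ Set.mem_univ α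
      exact hl1 (huniq l (hLN hl) 1 N.one_mem (by rw [one_smul]; exact h' ⟨l, hl⟩))
    haveI : MulAction.IsPretransitive ↥L Ω := MulAction.IsQuasiPreprimitive.isPretransitive_of_normal hfix
    refine le_antisymm hLN fun n hn => ?_
    obtain ⟨⟨l', hl'⟩, e⟩ := MulAction.exists_smul_eq ↥L α (n • α)
    rw [← huniq l' (hLN hl') n hn e]; exact hl'
  have hconjN : ∀ g : G, ∀ n ∈ N, g * n * g⁻¹ ∈ N := fun g n hn => (inferInstance : N.Normal).conj_mem n hn g
  have hmv : ∀ g ∈ H, ∀ n : G, g • (n • α) = (g * n * g⁻¹) • α := by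
    intro g hg n
    have hgi : g⁻¹ • α = α := MulAction.mem_stabilizer_iff.mp (H.inv_mem hg)
    rw [mul_smul, mul_smul, hgi]
  have hpart1 : ∀ ω : Ω, MulAction.orbit ↥M ω = MulAction.orbit ↥H ω := by
    intro ω
    have hsub : MulAction.orbit ↥M ω ⊆ MulAction.orbit ↥H ω := by
      rintro _ ⟨m, rfl⟩
      exact ⟨⟨m, hMle m.2⟩, rfl⟩
    refine Set.Subset.antisymm hsub ?_
    haveI := hep α ω
    haveI : (M.subgroupOf H).Normal := (Subgroup.normal_subgroupOf_iff_le_normalizer hMle).mpr hMn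
    by_cases hfix : MulAction.fixedPoints ↥(M.subgroupOf H) ↥(MulAction.orbit ↥H ω) ≠ Set.univ
    · haveI := MulAction.IsQuasiPreprimitive.isPretransitive_of_normal hfix
      rintro x hx
      obtain ⟨⟨m, hm⟩, e⟩ := MulAction.exists_smul_eq ↥(M.subgroupOf H)
        (⟨ω, MulAction.mem_orbit_self ω⟩ : MulAction.orbit ↥H ω) ⟨x, hx⟩
      exact ⟨⟨(m : G), hm⟩, congrArg Subtype.val e⟩
    · rw [not_not] at hfix
      have hω : ∀ m ∈ M, m • ω = ω := fun m hm => by
        have h1 : (⟨ω, MulAction.mem_orbit_self ω⟩ : MulAction.orbit ↥H ω) ∈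
            MulAction.fixedPoints ↥(M.subgroupOf H) ↥(MulAction.orbit ↥H ω) := by rw [hfix]; exact Set.mem_univ _
        have h2 := h1 ⟨⟨m, hMle hm⟩, hm⟩
        exact congrArg Subtype.val h2
      obtain ⟨n, hn, rfl⟩ := htr ω
      by_cases hn1 : n = 1
      · subst hn1
        rintro _ ⟨⟨h, hh⟩, rfl⟩
        refine ⟨1, ?_⟩
        show (1 : G) • (1 : G) • α = h • (1 : G) • α
        simpa using (MulAction.mem_stabilizer_iff.mp hh).symm
      exfalso
      set C := N ⊓ Subgroup.centralizer (M : Set G) with hC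
      have hnC : n ∈ C := ⟨hn, Subgroup.mem_centralizer_iff.mpr fun m hm => by
        have := huniq _ (hconjN m n hn) n hn (by rw [← hmv m (hMle hm) n, hω m hm])
        exact mul_inv_eq_iff_eq_mul.mp this⟩
      have hCN : C = N := by
        refine hmin C inf_le_left (fun h hh c hc => ⟨hconjN h c hc.1, ?_⟩) fun hb => hn1 (Subgroup.mem_bot.mp (hb ▸ hnC))
        refine Subgroup.mem_centralizer_iff.mpr fun m hm => ?_
        have h1 := Subgroup.mem_centralizer_iff.mp hc.2 _ ((Subgroup.mem_normalizer_iff''.mp (hMn hh) m).mp hm)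
        calc m * (h * c * h⁻¹) = h * ((h⁻¹ * m * h) * c) * h⁻¹ := by group
          _ = h * (c * (h⁻¹ * m * h)) * h⁻¹ := by rw [h1]
          _ = _ := by group
      apply hM
      rw [eq_bot_iff]
      intro m hm
      rw [Subgroup.mem_bot]
      refine eq_of_smul_eq_smul fun x : Ω => ?_
      obtain ⟨b, hb, rfl⟩ := htr x
      have hbc : m * b = b * m := Subgroup.mem_centralizer_iff.mp (hCN.ge hb).2 m hm
      rw [← mul_smul, hbc, mul_smul, MulAction.mem_stabilizer_iff.mp (hMle hm), one_smul]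
  refine ⟨hpart1, fun L hLN hML => ?_⟩
  by_cases hL : L = ⊥
  · exact Or.inl hL
  refine Or.inr (hmin L hLN (fun h hh l hl => ?_) hL)
  have hmem : h • (l • α) ∈ MulAction.orbit ↥M (l • α) := by
    rw [hpart1]; exact ⟨⟨h, hh⟩, rfl⟩
  obtain ⟨⟨m, hm⟩, e⟩ := hmem
  have e' : m • (l • α) = h • (l • α) := e
  rw [hmv m (hMle hm), hmv h hh] at e'
  rw [← huniq _ (hconjN m l (hLN hl)) _ (hconjN h l (hLN hl)) e']
  exact (Subgroup.mem_normalizer_iff.mp (hML hm) l).mp hl

end Cfsg.Agent.S3495
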