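import Cfsg.Statements.S3496
import Mathlib
import Cfsg.Agent.Lib.Perm.ExtremePrimitive
import Cfsg.Agent.Lib.Perm.PrimitiveAbelian
import Cfsg.Agent.Lib.Solvable.Fpf
import Cfsg.Agent.Lib.GroupB.IrrPrime

set_option autoImplicit false
set_option maxHeartbeats 800000
open Cfsg

namespace Cfsg.Agent.S3496

theorem exists_abelian_normal {G : Type*} [Group G] [Group.IsSolvable G] [Nontrivial G] :
    ∃ N : Subgroup G, N.Normal ∧ N ≠ ⊥ ∧ ∀ a ∈ N, ∀ b ∈ N, a * b = b * a := by
  classical
  have hex : ∃ n, derivedSeries G n = ⊥ := ‹Group.IsSolvable G›.solvable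
  obtain ⟨n, hn⟩ : ∃ n, Nat.find hex = n + 1 := by
    rcases Nat.eq_zero_or_pos (Nat.find hex) with h | h
    · have := Nat.find_spec hex
      rw [h, derivedSeries_zero] at this
      exact absurd this top_ne_bot
    · exact ⟨Nat.find hex - 1, by omega⟩
  refine ⟨derivedSeries G n, derivedSeries_normal G n, Nat.find_min hex (by omega), fun a ha b hb => ?_⟩
  have h := Subgroup.commutator_mem_commutator ha hb
  rw [← derivedSeries_succ, ← hn, Nat.find_spec hex, Subgroup.mem_bot,
    commutatorElement_eq_one_iff_mul_comm] at h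
  exact h

/-- A group element normalising an irreducible cyclic group of order `q` on a `p^d` group centralises it
after raising to the power `d`. -/
theorem conj_pow_dim {G : Type*} [Group G] [Finite G] {p d : ℕ} (hp : p.Prime) (N T : Subgroup G) [N.Normal]
    (hNab : ∀ a ∈ N, ∀ b ∈ N, a * b = b * a) (hexp : ∀ a ∈ N, a ^ p = 1) (hcard : Nat.card N = p ^ d)
    (hd : 0 < d) (hTab : ∀ a ∈ T, ∀ b ∈ T, a * b = b * a)
    (hirr : ∀ M : Subgroup G, M ≤ N → (∀ s ∈ T, ∀ x ∈ M, s * x * s⁻¹ ∈ M) → M = ⊥ ∨ M = N)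
    {h : G} (hh : ∀ s ∈ T, h * s * h⁻¹ ∈ T) :
    ∀ s ∈ T, ∀ n ∈ N, (h ^ d * s * (h ^ d)⁻¹) * n * (h ^ d * s * (h ^ d)⁻¹)⁻¹ = s * n * s⁻¹ := by
  classical
  haveI := Fact.mk hp
  letI : CommGroup N := { (inferInstance : Group N) with
    mul_comm := fun a b => Subtype.ext (hNab a a.2 b b.2) }
  let V := Additive N
  let ρ : G →* AddMonoid.End V :=
    { toFun := fun g => MonoidHom.toAdditive (MulAut.conjNormal g : MulAut N).toMonoidHom
      map_one' := by
        ext v
        show (1 : G) * (v.toMul : G) * (1 : G)⁻¹ = (v.toMul : G)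
        simp
      map_mul' := fun a b => by
        ext v
        show (a * b) * (v.toMul : G) * (a * b)⁻¹ = a * (b * (v.toMul : G) * b⁻¹) * a⁻¹
        group }
  have hρval : ∀ (g : G) (v : V), (((ρ g) v).toMul : G) = g * (v.toMul : G) * g⁻¹ := fun g v => rfl
  let R : Subring (AddMonoid.End V) := Subring.closure (ρ '' T)
  have hgenc : ∀ a ∈ (ρ '' T : Set (AddMonoid.End V)), ∀ b ∈ (ρ '' T : Set (AddMonoid.End V)), a * b = b * a := by
    rintro _ ⟨a, ha, rfl⟩ _ ⟨b, hb, rfl⟩
    rw [← map_mul, ← map_mul, hTab a ha b hb]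
  have hRcomm : ∀ a b : R, a * b = b * a := by
    rintro ⟨a, ha⟩ ⟨b, hb⟩
    apply Subtype.ext
    show a * b = b * a
    induction ha using Subring.closure_induction with
    | mem z hz =>
      induction hb using Subring.closure_induction with
      | mem w hw => exact hgenc z hz w hw
      | zero => simp
      | one => simp
      | add x y _ _ hx hy => rw [mul_add, add_mul, hx, hy]
      | neg x _ hx => exact (Commute.neg_right (hx : Commute z x)).eq
      | mul x y _ _ hx hy => exact (Commute.mul_right hx hy : Commute z (x * y)).eq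
    | zero => simp
    | one => simp
    | add x y _ _ hx hy => rw [mul_add, add_mul, hx, hy]
    | neg x _ hx => exact (Commute.neg_left (hx : Commute x b)).eq
    | mul x y _ _ hx hy => exact (Commute.mul_left hx hy : Commute (x * y) b).eq
  haveI : Finite (AddMonoid.End V) := Finite.of_injective (fun f : AddMonoid.End V => (f : V → V)) DFunLike.coe_injective
  -- a subgroup of `V` invariant under `T` is trivial
  have hirrV : ∀ S : AddSubgroup V, (∀ s ∈ T, ∀ v ∈ S, ρ s v ∈ S) → S = ⊥ ∨ S = ⊤ := by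
    intro S hS
    let M : Subgroup G := (AddSubgroup.toSubgroup' S).map N.subtype
    have hM : ∀ x : G, x ∈ M ↔ ∃ v ∈ S, (v.toMul : G) = x := fun x =>
      ⟨fun ⟨y, hy, e⟩ => ⟨Additive.ofMul y, hy, e⟩, fun ⟨v, hv, e⟩ => ⟨v.toMul, hv, e⟩⟩
    have h1 := hirr M (fun x hx => by obtain ⟨v, -, rfl⟩ := (hM x).mp hx; exact v.toMul.2)
      (fun s hs x hx => by
        obtain ⟨v, hv, rfl⟩ := (hM x).mp hx
        exact (hM _).mpr ⟨ρ s v, hS s hs v hv, hρval s v⟩)
    rcases h1 with h1 | h1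
    · left
      rw [AddSubgroup.eq_bot_iff_forall]
      intro v hv
      have : (v.toMul : G) ∈ M := (hM _).mpr ⟨v, hv, rfl⟩
      rw [h1, Subgroup.mem_bot] at this
      exact congrArg Additive.ofMul (Subtype.ext this : v.toMul = 1)
    · right
      rw [AddSubgroup.eq_top_iff']
      intro v
      have : (v.toMul : G) ∈ M := by rw [h1]; exact v.toMul.2
      obtain ⟨w, hw, e⟩ := (hM _).mp this
      rwa [show v = w from congrArg Additive.ofMul (Subtype.ext e.symm : v.toMul = w.toMul)]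
  have hcardV : Nat.card V = p ^ d := hcard
  haveI : Nontrivial V := Finite.one_lt_card_iff_nontrivial.mp (by rw [hcardV]; exact Nat.one_lt_pow hd.ne' hp.one_lt)
  have hinj : ∀ r : R, r ≠ 0 → Function.Injective ((r : AddMonoid.End V) : V → V) := by
    intro r hr
    let f : V →+ V := (r : AddMonoid.End V)
    rcases hirrV (AddMonoidHom.ker f) (fun s hs v hv => by
      change f v = 0 at hv
      show f (ρ s v) = 0
      have := hRcomm r ⟨ρ s, Subring.subset_closure ⟨s, hs, rfl⟩⟩
      have h2 := DFunLike.congr_fun (congrArg Subtype.val this) v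
      show (r : AddMonoid.End V) (ρ s v) = 0
      rw [show (r : AddMonoid.End V) (ρ s v) = ρ s ((r : AddMonoid.End V) v) from h2,
        show (r : AddMonoid.End V) v = 0 from hv]
      exact map_zero _) with h1 | h1
    · exact (AddMonoidHom.ker_eq_bot_iff _).mp h1
    · exact absurd (Subtype.ext (AddMonoidHom.ker_eq_top_iff.mp h1)) hr
  obtain ⟨v₀, hv₀⟩ := exists_ne (0 : V)
  -- evaluation at `v₀` is bijective
  let ev : R →+ V :=
    { toFun := fun r => (r : AddMonoid.End V) v₀
      map_zero' := rfl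
      map_add' := fun _ _ => rfl }
  have hevinj : Function.Injective ev := by
    rw [injective_iff_map_eq_zero]
    intro r hr
    by_contra h0
    exact hv₀ (hinj r h0 (hr.trans (map_zero _).symm))
  have hevsurj : Function.Surjective ev := by
    rcases hirrV ev.range (fun s hs v hv => by
      obtain ⟨r, rfl⟩ := hv
      exact ⟨⟨ρ s, Subring.subset_closure ⟨s, hs, rfl⟩⟩ * r, rfl⟩) with h1 | h1
    · exfalso
      have : ev 1 ∈ ev.range := ⟨1, rfl⟩
      rw [h1, AddSubgroup.mem_bot] at this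
      exact hv₀ this
    · exact AddMonoidHom.range_eq_top.mp h1
  have hcardR : Nat.card R = p ^ d := (Nat.card_congr (Equiv.ofBijective ev ⟨hevinj, hevsurj⟩)).trans hcardV
  haveI : IsMulCommutative R := ⟨⟨hRcomm⟩⟩
  letI : CommRing R := { (inferInstance : Ring R) with mul_comm := hRcomm }
  haveI : Nontrivial R := Finite.one_lt_card_iff_nontrivial.mp (by rw [hcardR]; exact Nat.one_lt_pow hd.ne' hp.one_lt)
  haveI : NoZeroDivisors R := ⟨fun {a b} hab => by
    by_contra hcon
    push Not at hcon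
    refine hcon.2 (hevinj ?_)
    apply hinj a hcon.1
    have h2 := DFunLike.congr_fun (congrArg Subtype.val hab) v₀
    rw [map_zero]
    exact h2.trans (map_zero ((a : AddMonoid.End V))).symm⟩
  haveI : IsDomain R := NoZeroDivisors.to_isDomain _
  letI : Field R := (Finite.isField_of_domain R).toField
  have hp0 : (p : R) = 0 := by
    apply hevinj
    rw [map_zero]
    rw [← nsmul_one (A := R) p, map_nsmul]
    exact congrArg Additive.ofMul (Subtype.ext (by rw [SubgroupClass.coe_pow]; exact hexp _ (ev 1).toMul.2) : (ev 1).toMul ^ p = 1)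
  haveI : CharP R p := (CharP.charP_iff_prime_eq_zero hp).mpr hp0
  letI : Algebra (ZMod p) R := ZMod.algebra R p
  haveI : Module.Finite (ZMod p) R := Module.Finite.of_finite
  have hfin : Module.finrank (ZMod p) R = d := by
    have h1 := Module.natCard_eq_pow_finrank (K := ZMod p) (V := R)
    rw [Nat.card_zmod, hcardR] at h1
    exact (Nat.pow_right_injective hp.two_le h1).symm
  -- conjugation by `h`
  have hinv1 : ρ h * ρ h⁻¹ = 1 := by rw [← map_mul, mul_inv_cancel, map_one]
  have hinv2 : ρ h⁻¹ * ρ h = 1 := by rw [← map_mul, inv_mul_cancel, map_one]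
  let u : (AddMonoid.End V)ˣ := ⟨ρ h, ρ h⁻¹, hinv1, hinv2⟩
  have hmem : ∀ r ∈ R, ρ h * r * ρ h⁻¹ ∈ R := by
    intro r hr
    induction hr using Subring.closure_induction with
    | mem z hz =>
      obtain ⟨s, hs, rfl⟩ := hz
      rw [← map_mul, ← map_mul]
      exact Subring.subset_closure ⟨_, hh s hs, rfl⟩
    | zero => simp
    | one => rw [mul_one, hinv1]; exact one_mem R
    | add x y _ _ hx hy => rw [mul_add, add_mul]; exact add_mem hx hy
    | neg x _ hx =>
      have e : ρ h * -x * ρ h⁻¹ = -(ρ h * x * ρ h⁻¹) := by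
        ext v
        first
          | (show (((ρ h) ((-x) ((ρ h⁻¹) v))).toMul : G) = ((-((ρ h) (x ((ρ h⁻¹) v)))).toMul : G)
             exact congrArg (fun w : V => (w.toMul : G)) (map_neg (ρ h) _))
          | simp
      rw [e]; exact neg_mem hx
    | mul x y _ _ hx hy =>
      rw [show ρ h * (x * y) * ρ h⁻¹ = (ρ h * x * ρ h⁻¹) * (ρ h * y * ρ h⁻¹) by
        rw [show (ρ h * x * ρ h⁻¹) * (ρ h * y * ρ h⁻¹) = ρ h * x * (ρ h⁻¹ * ρ h) * y * ρ h⁻¹ by noncomm_ring,
          hinv2, mul_one, mul_assoc (ρ h) x y]]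
      exact mul_mem hx hy
  let σ₀ : R →+* R :=
    { toFun := fun r => ⟨ρ h * r * ρ h⁻¹, hmem r r.2⟩
      map_one' := Subtype.ext (by show ρ h * 1 * ρ h⁻¹ = 1; rw [mul_one, hinv1])
      map_zero' := Subtype.ext (by show ρ h * 0 * ρ h⁻¹ = 0; simp)
      map_add' := fun x y => Subtype.ext (by
        show ρ h * ((x : AddMonoid.End V) + y) * ρ h⁻¹ = _
        rw [mul_add, add_mul]; rfl)
      map_mul' := fun x y => Subtype.ext (by
        show ρ h * ((x : AddMonoid.End V) * y) * ρ h⁻¹ = (ρ h * x * ρ h⁻¹) * (ρ h * y * ρ h⁻¹)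
        rw [show (ρ h * (x : AddMonoid.End V) * ρ h⁻¹) * (ρ h * y * ρ h⁻¹) =
          ρ h * (x : AddMonoid.End V) * (ρ h⁻¹ * ρ h) * y * ρ h⁻¹ by noncomm_ring, hinv2, mul_one]
        simp only [mul_assoc]) }
  have hσinj : Function.Injective σ₀ := RingHom.injective σ₀
  let σ : R ≃ₐ[ZMod p] R := AlgEquiv.ofBijective
    { σ₀ with commutes' := fun r => congrFun (congrArg DFunLike.coe (Subsingleton.elim (σ₀.comp (algebraMap (ZMod p) R)) (algebraMap (ZMod p) R))) r }
    ⟨hσinj, Finite.surjective_of_injective hσinj⟩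
  have hσd : σ ^ d = 1 := by
    rw [← hfin, ← IsGalois.card_aut_eq_finrank]
    exact pow_card_eq_one'
  have hiter : ∀ (j : ℕ) (r : R), (((σ ^ j) r : R) : AddMonoid.End V) = ρ (h ^ j) * r * ρ (h ^ j)⁻¹ := by
    intro j
    induction j with
    | zero => intro r; simp
    | succ j ih =>
      intro r
      rw [pow_succ' σ, AlgEquiv.mul_apply]
      show ρ h * (((σ ^ j) r : R) : AddMonoid.End V) * ρ h⁻¹ = _
      rw [ih, pow_succ', mul_inv_rev, map_mul, map_mul]
      noncomm_ring
  intro s hs n hn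
  have h1 := hiter d ⟨ρ s, Subring.subset_closure ⟨s, hs, rfl⟩⟩
  rw [hσd, AlgEquiv.one_apply] at h1
  have h2 : ρ s = ρ (h ^ d * s * (h ^ d)⁻¹) := by rw [map_mul, map_mul]; exact h1
  have h3 := congrArg (fun f : AddMonoid.End V => ((f (Additive.ofMul ⟨n, hn⟩)).toMul : G)) h2
  exact h3.symm


/-- The soluble extremely primitive groups. Let a finite solvable group G act faithfully and primitively on a finite set Ω with p ^ d points (p prime), with non-trivial point stabilizers each acting primitively on every one of its orbits. Then there is a prime q such that every orbit of a point stabilizer G_α other than {α} has exactly q points, q divides p ^ d − 1 but no p ^ i − 1 with 0 < i < d, and G_α has a normal subgroup T of order q with G_α generated by T and one further element and the order of G_α dividing q·d (so G_α is cyclic of order q, or an extension of T by a cyclic group of order dividing d). -/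
theorem result {G : Type*} [Group G] [Finite G] {Ω : Type*} [Fintype Ω] [MulAction G Ω] [FaithfulSMul G Ω] [Group.IsSolvable G] (p d : ℕ) (hp : p.Prime) (hcard : Fintype.card Ω = p ^ d)
    (hprim : MulAction.IsPreprimitive G Ω) (hH : ∀ α : Ω, MulAction.stabilizer G α ≠ ⊥) (hep : ∀ (α : Ω) (ω : Ω), MulAction.IsPreprimitive (MulAction.stabilizer G α) (MulAction.orbit (MulAction.stabilizer G α) ω)) (α : Ω) :
    ∃ q : ℕ, q.Prime ∧ (∀ ω : Ω, ω ≠ α → Nat.card (MulAction.orbit (MulAction.stabilizer G α) ω) = q) ∧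
      q ∣ p ^ d - 1 ∧ (∀ i : ℕ, 0 < i → i < d → ¬ q ∣ p ^ i - 1) ∧
      ∃ T : Subgroup G, T ≤ MulAction.stabilizer G α ∧ MulAction.stabilizer G α ≤ Subgroup.normalizer (T : Set G) ∧ Nat.card T = q ∧
        (∃ h : G, MulAction.stabilizer G α = T ⊔ Subgroup.zpowers h) ∧ Nat.card (MulAction.stabilizer G α) ∣ q * d := by
  classical
  haveI := hprim
  haveI := Fact.mk hp
  haveI := CfsgLib.ExtremePrim.nontrivial hH α
  obtain ⟨H, hHdef⟩ : ∃ H : Subgroup G, H = MulAction.stabilizer G α := ⟨_, rfl⟩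
  have hd : 0 < d := by
    rcases Nat.eq_zero_or_pos d with h | h
    · have := Fintype.one_lt_card (α := Ω)
      rw [hcard, h, pow_zero] at this
      omega
    · exact h
  haveI : Nontrivial G := by
    obtain ⟨g, -, hg⟩ := (Subgroup.bot_or_exists_ne_one (MulAction.stabilizer G α)).resolve_left (hH α)
    exact ⟨g, 1, hg⟩
  obtain ⟨N, hNn, hNbot, hNab⟩ := exists_abelian_normal (G := G)
  have hNfix : ∀ n ∈ N, ∀ x : Ω, n • x = x → n = 1 := fun n hn x hx =>
    CfsgLib.PrimAbelian.fix_eq_one hNbot hNab hn hx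
  haveI hNt : MulAction.IsPretransitive N Ω := CfsgLib.PrimAbelian.transitive hNbot
  have hNcard : Nat.card N = p ^ d := by
    rw [CfsgLib.PrimAbelian.card_eq (X := Ω) hNbot hNab, Nat.card_eq_fintype_card, hcard]
  obtain ⟨r, er, hr, her, hNr, hrexp⟩ := CfsgLib.PrimAbelian.exists_prime (X := Ω) N hNbot hNab
  have hNexp : ∀ a ∈ N, a ^ p = 1 := by
    have : r = p := (Nat.prime_dvd_prime_iff_eq hr hp).mp
      (hr.dvd_of_dvd_pow (by rw [← hNcard, hNr]; exact dvd_pow_self r her.ne'))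
    exact this ▸ hrexp
  -- the normal subgroup of the stabiliser
  haveI : Nontrivial (MulAction.stabilizer G α) := (Subgroup.nontrivial_iff_ne_bot _).mpr (hH α)
  obtain ⟨A, hAn, hAbot, hAab⟩ := exists_abelian_normal (G := MulAction.stabilizer G α)
  obtain ⟨T, hTdef⟩ : ∃ T : Subgroup G, T = A.map (MulAction.stabilizer G α).subtype := ⟨_, rfl⟩
  have hTmem : ∀ {g : G}, g ∈ T → ∃ hg : g ∈ MulAction.stabilizer G α, (⟨g, hg⟩ : MulAction.stabilizer G α) ∈ A := by
    intro g hg
    rw [hTdef] at hg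
    obtain ⟨⟨a, ha⟩, haA, rfl⟩ := hg
    exact ⟨ha, haA⟩
  have hTH : ∀ {g : G}, g ∈ T → g • α = α := fun hg => (hTmem hg).1
  have hTle : T ≤ MulAction.stabilizer G α := fun g hg => (hTmem hg).1
  have hTab : ∀ a ∈ T, ∀ b ∈ T, a * b = b * a := fun a ha b hb =>
    congrArg Subtype.val (hAab _ (hTmem ha).2 _ (hTmem hb).2)
  have hTn : ∀ h ∈ MulAction.stabilizer G α, ∀ s ∈ T, h * s * h⁻¹ ∈ T := by
    intro h hh s hs
    rw [hTdef]
    exact ⟨_, hAn.conj_mem _ (hTmem hs).2 ⟨h, hh⟩, rfl⟩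
  have hTnorm : MulAction.stabilizer G α ≤ Subgroup.normalizer (T : Set G) := by
    intro h hh
    rw [Subgroup.mem_normalizer_iff]
    intro s
    exact ⟨hTn h hh s, fun hs => by simpa [mul_assoc] using hTn h⁻¹ (inv_mem hh) _ hs⟩
  have hTbot : T ≠ ⊥ := by
    rw [hTdef, Ne, Subgroup.map_eq_bot_iff_of_injective _ Subtype.val_injective]; exact hAbot
  have hfaith : ∀ x : Ω, x ≠ α →
      FaithfulSMul (MulAction.stabilizer G α) (MulAction.orbit (MulAction.stabilizer G α) x) := by
    intro x hx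
    refine ⟨fun {g h} hgh => ?_⟩
    have h1 := CfsgLib.ExtremePrim.manning hH hep α x hx (mul_mem (inv_mem g.2) h.2) fun y hy => ?_
    · exact Subtype.ext (inv_mul_eq_one.mp h1)
    · rw [mul_smul, inv_smul_eq_iff]
      exact (congrArg Subtype.val (hgh ⟨y, hy⟩)).symm
  have hTfree : ∀ x : Ω, x ≠ α → ∀ s ∈ T, s • x = x → s = 1 := by
    intro x hx s hs hsx
    haveI := hfaith x hx
    haveI := hep α x
    exact congrArg Subtype.val (CfsgLib.PrimAbelian.fix_eq_one hAbot hAab (hTmem hs).2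
      (x := (⟨x, MulAction.mem_orbit_self _⟩ : MulAction.orbit (MulAction.stabilizer G α) x)) (Subtype.ext hsx))
  have hTorb : ∀ x : Ω, x ≠ α → Nat.card (MulAction.orbit (MulAction.stabilizer G α) x) = Nat.card T := by
    intro x hx
    haveI := hfaith x hx
    haveI := hep α x
    haveI : Nonempty (MulAction.orbit (MulAction.stabilizer G α) x) := ⟨⟨x, MulAction.mem_orbit_self x⟩⟩
    rw [hTdef, Subgroup.card_subtype, CfsgLib.PrimAbelian.card_eq (X := MulAction.orbit (MulAction.stabilizer G α) x) hAbot hAab]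
  have hfpfN : ∀ a ∈ T, a ≠ 1 → ∀ n ∈ N, a * n = n * a → n = 1 := by
    intro a ha ha1 n hn hc
    by_contra hn1
    refine ha1 (hTfree (n • α) (fun e => hn1 (hNfix n hn α e)) a ha ?_)
    rw [← mul_smul, hc, mul_smul, hTH ha]
  have hTN : T ≤ Subgroup.normalizer (N : Set G) := by
    rw [Subgroup.normalizer_eq_top_iff.mpr hNn]; exact le_top
  have hfpfK : ∀ M : Subgroup G, M ≤ N → ∀ a ∈ T, a ≠ 1 → M ⊓ Subgroup.centralizer {a} = ⊥ := by
    intro M hM a ha ha1
    rw [Subgroup.eq_bot_iff_forall]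
    rintro n ⟨hnM, hnc⟩
    exact hfpfN a ha ha1 n (hM hnM) (Subgroup.mem_centralizer_singleton_iff.mp hnc).symm
  haveI : IsCyclic T := CfsgLib.Solvable.Fpf.isCyclic
    ⟨⟨fun a b => Subtype.ext (hTab a a.2 b b.2)⟩⟩ hNbot hTN (hfpfK N le_rfl)
  obtain ⟨ω, hω⟩ := exists_ne α
  obtain ⟨q, hq, hTq⟩ : ∃ q : ℕ, q.Prime ∧ Nat.card T = q := by
    haveI := hfaith ω hω
    haveI := hep α ω
    haveI : Nonempty (MulAction.orbit (MulAction.stabilizer G α) ω) := ⟨⟨ω, MulAction.mem_orbit_self ω⟩⟩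
    obtain ⟨q, e, hq, he, hAe, hAexp⟩ := CfsgLib.PrimAbelian.exists_prime
      (X := MulAction.orbit (MulAction.stabilizer G α) ω) A hAbot hAab
    refine ⟨q, hq, ?_⟩
    obtain ⟨g, hg⟩ := IsCyclic.exists_generator (α := T)
    have ho := orderOf_eq_card_of_forall_mem_zpowers hg
    have hg1 : g ^ q = 1 := Subtype.ext (by
      rw [SubgroupClass.coe_pow]
      exact congrArg Subtype.val (hAexp _ (hTmem g.2).2))
    rcases (Nat.dvd_prime hq).mp (orderOf_dvd_of_pow_eq_one hg1) with h | h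
    · exact absurd (Subgroup.card_eq_one.mp (ho ▸ h : Nat.card T = 1)) hTbot
    · exact ho ▸ h
  haveI := Fact.mk hq
  have hinv : ∀ M : Subgroup G, M ≤ N → (∀ s ∈ T, ∀ x ∈ M, s * x * s⁻¹ ∈ M) → ∀ j, Nat.card M = p ^ j → q ∣ p ^ j - 1 := by
    intro M hM hMT j hj
    have hle : T ≤ Subgroup.normalizer (M : Set G) := by
      intro s hs
      rw [Subgroup.mem_normalizer_iff]
      intro x
      exact ⟨hMT s hs x, fun hx => by simpa [mul_assoc] using hMT s⁻¹ (inv_mem hs) _ hx⟩
    have := CfsgLib.Solvable.Fpf.card_dvd hle (hfpfK M hM)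
    rwa [hTq, hj] at this
  have hqd : q ∣ p ^ d - 1 := hinv N le_rfl (fun s _ x hx => hNn.conj_mem x hx s) d hNcard
  have hmodq : ∀ j, q ∣ p ^ j - 1 → (p : ZMod q) ^ j = 1 := by
    intro j hj
    have h1 : 1 ≤ p ^ j := Nat.one_le_pow _ _ hp.pos
    have h2 : ((p ^ j : ℕ) : ZMod q) = ((1 : ℕ) : ZMod q) := ((ZMod.natCast_eq_natCast_iff _ _ _).mpr ((Nat.modEq_iff_dvd' h1).mpr hj).symm)
    simpa using h2
  have hpq : p ≠ q := by
    rintro rfl
    have := hmodq d hqd
    rw [ZMod.natCast_self, zero_pow hd.ne'] at this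
    exact zero_ne_one this
  have hGH : Nat.card G = p ^ d * Nat.card (MulAction.stabilizer G α) := by
    have := MulAction.index_stabilizer_of_transitive G α
    rw [← Subgroup.index_mul_card (MulAction.stabilizer G α), this, Nat.card_eq_fintype_card, hcard]
  obtain ⟨K, hKdef⟩ : ∃ K : Subgroup G, K = MulAction.stabilizer G α ⊓ MulAction.stabilizer G ω := ⟨_, rfl⟩
  have hstabcard : ∀ x : Ω, x ≠ α →
      q * Nat.card (MulAction.stabilizer G α ⊓ MulAction.stabilizer G x : Subgroup G) =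
        Nat.card (MulAction.stabilizer G α) := by
    intro x hx
    have := CfsgLib.ExtremePrim.deg_mul (G := G) α x
    rwa [CfsgLib.ExtremePrim.deg, hTorb x hx, hTq] at this
  have hm : ∀ x : Ω, x ≠ α →
      Nat.card (MulAction.stabilizer G α ⊓ MulAction.stabilizer G x : Subgroup G) = Nat.card K := fun x hx =>
    Nat.eq_of_mul_eq_mul_left hq.pos ((hstabcard x hx).trans (hKdef ▸ (hstabcard ω hω).symm))
  have hKH : K ≤ MulAction.stabilizer G α := hKdef ▸ inf_le_left
  have hKω : ∀ c ∈ K, c • ω = ω := fun c hc => (hKdef ▸ hc : c ∈ MulAction.stabilizer G α ⊓ MulAction.stabilizer G ω).2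
  have hTK : ∀ g, g ∈ T → g ∈ K → g = 1 := fun g hgT hgK => hTfree ω hω g hgT (hKω g hgK)
  have hCT : ∀ h ∈ MulAction.stabilizer G α, (∀ s ∈ T, h * s = s * h) → h ∈ T := by
    intro h hh hc
    haveI := hfaith ω hω
    haveI := hep α ω
    haveI : Nonempty (MulAction.orbit (MulAction.stabilizer G α) ω) := ⟨⟨ω, MulAction.mem_orbit_self ω⟩⟩
    have h1 := CfsgLib.PrimAbelian.centralizer_le (X := MulAction.orbit (MulAction.stabilizer G α) ω) hAbot hAab
      (c := ⟨h, hh⟩) fun a ha => Subtype.ext (hc a (hTdef ▸ ⟨a, ha, rfl⟩))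
    rw [hTdef]
    exact ⟨_, h1, rfl⟩
  -- `H = T K`
  have hdec : ∀ h ∈ MulAction.stabilizer G α, ∃ s ∈ T, ∃ k ∈ K, h = s * k := by
    let f : T × K → MulAction.stabilizer G α := fun sk => ⟨sk.1 * sk.2, mul_mem (hTle sk.1.2) (hKH sk.2.2)⟩
    have hf : Function.Injective f := by
      rintro ⟨⟨s, hs⟩, ⟨k, hk⟩⟩ ⟨⟨s', hs'⟩, ⟨k', hk'⟩⟩ e
      have e' : s * k = s' * k' := congrArg Subtype.val e
      have h1 : s'⁻¹ * s = k' * k⁻¹ := by
        rw [eq_mul_inv_iff_mul_eq, mul_assoc, e', inv_mul_cancel_left]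
      have h2 := hTK _ (mul_mem (inv_mem hs') hs) (h1 ▸ mul_mem hk' (inv_mem hk))
      rw [inv_mul_eq_one] at h2
      subst h2
      have h3 := mul_left_cancel e'
      subst h3
      rfl
    have hb : Function.Bijective f := hf.bijective_of_nat_card_le (by
      rw [Nat.card_prod, hTq, hKdef, hstabcard ω hω])
    intro h hh
    obtain ⟨⟨s, k⟩, e⟩ := hb.2 ⟨h, hh⟩
    exact ⟨s, s.2, k, k.2, (congrArg Subtype.val e).symm⟩
  -- commutators of `K` are trivial
  have hTgen : ∀ u ∈ T, u ≠ 1 → ∀ s ∈ T, s ∈ Subgroup.zpowers u := by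
    intro u hu hu1 s hs
    have h1 : Subgroup.zpowers (⟨u, hu⟩ : T) = ⊤ :=
      zpowers_eq_top_of_prime_card hTq fun e => hu1 (congrArg Subtype.val e)
    obtain ⟨j, hj⟩ := Subgroup.mem_zpowers_iff.mp (h1 ▸ Subgroup.mem_top (⟨s, hs⟩ : T))
    exact Subgroup.mem_zpowers_iff.mpr ⟨j, by simpa using congrArg Subtype.val hj⟩
  have hKfpf : ∀ c ∈ K, c ≠ 1 → ∀ u ∈ T, c * u = u * c → u = 1 := by
    intro c hc hc1 u hu hcu
    by_contra hu1
    refine hc1 (hTK c (hCT c (hKH hc) fun s hs => ?_) hc)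
    obtain ⟨j, rfl⟩ := Subgroup.mem_zpowers_iff.mp (hTgen u hu hu1 s hs)
    exact ((show Commute c u from hcu).zpow_right j).eq
  have hcomm_mem : ∀ u ∈ T, ∀ c ∈ K, u * c * u⁻¹ * c⁻¹ ∈ T := by
    intro u hu c hc
    rw [show u * c * u⁻¹ * c⁻¹ = u * (c * u⁻¹ * c⁻¹) by group]
    exact mul_mem hu (hTn c (hKH hc) _ (inv_mem hu))
  -- a homomorphism to automorphisms of `T`
  let toAut : K →* MulAut T :=
    { toFun := fun c =>
        { toFun := fun s => ⟨c * s * (c : G)⁻¹, hTn c (hKH c.2) s s.2⟩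
          invFun := fun s => ⟨(c : G)⁻¹ * s * c, by
            simpa using hTn _ (inv_mem (hKH c.2)) s s.2⟩
          left_inv := fun s => Subtype.ext (by group)
          right_inv := fun s => Subtype.ext (by group)
          map_mul' := fun a b => Subtype.ext (by
            show (c : G) * (a * b) * (c : G)⁻¹ = (c * a * (c : G)⁻¹) * (c * b * (c : G)⁻¹)
            group) }
      map_one' := MulEquiv.ext fun s => Subtype.ext (by
        show ((1 : K) : G) * s * ((1 : K) : G)⁻¹ = s
        simp)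
      map_mul' := fun a b => MulEquiv.ext fun s => Subtype.ext (by
        show ((a : G) * b) * s * ((a : G) * b)⁻¹ = a * (b * s * (b : G)⁻¹) * (a : G)⁻¹
        group) }
  have htoAut : Function.Injective toAut := by
    rw [injective_iff_map_eq_one]
    intro c hc
    refine Subtype.ext (hTK c (hCT c (hKH c.2) fun s hs => ?_) c.2)
    have := congrArg (fun σ : MulAut T => ((σ ⟨s, hs⟩ : T) : G)) hc
    exact mul_inv_eq_iff_eq_mul.mp this
  haveI : IsCyclic (MulAut T) := by
    haveI : IsCyclic (ZMod (Nat.card T))ˣ := by rw [hTq]; infer_instance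
    exact (IsCyclic.mulAutMulEquiv T).isCyclic.mpr inferInstance
  haveI : IsCyclic K := isCyclic_of_injective toAut htoAut
  obtain ⟨⟨h, hhK⟩, hgen⟩ := IsCyclic.exists_generator (α := K)
  have hKgen : ∀ k ∈ K, k ∈ Subgroup.zpowers h := fun k hk => by
    obtain ⟨j, hj⟩ := Subgroup.mem_zpowers_iff.mp (hgen ⟨k, hk⟩)
    exact Subgroup.mem_zpowers_iff.mpr ⟨j, by simpa using congrArg Subtype.val hj⟩
  have hoh : orderOf h = Nat.card K := by
    rw [← orderOf_eq_card_of_forall_mem_zpowers hgen, ← Subgroup.orderOf_coe]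
  have hKcomm : ∀ a ∈ K, ∀ b ∈ K, a * b = b * a := by
    intro a ha b hb
    obtain ⟨i, rfl⟩ := Subgroup.mem_zpowers_iff.mp (hKgen a ha)
    obtain ⟨j, rfl⟩ := Subgroup.mem_zpowers_iff.mp (hKgen b hb)
    exact ((Commute.refl h).zpow_zpow i j).eq
  -- the order of `p` modulo `q` is `d`
  have hord : orderOf (p : ZMod q) = d := by
    have hod : orderOf (p : ZMod q) ∣ d := orderOf_dvd_of_pow_eq_one (hmodq d hqd)
    by_cases hK1 : K = ⊥
    · have hHcard : Nat.card (MulAction.stabilizer G α) = q := by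
        have := hstabcard ω hω
        rw [← hKdef, hK1, Subgroup.card_bot, mul_one] at this
        exact this.symm
      have hidx : N.index = q := by
        have := N.index_mul_card
        rw [hGH, hNcard, hHcard, mul_comm (p ^ d) q] at this
        exact Nat.eq_of_mul_eq_mul_right (pow_pos hp.pos d) this
      have hna : ¬ IsMulCommutative G := by
        intro hc
        obtain ⟨n, hn, hn1⟩ := (Subgroup.bot_or_exists_ne_one N).resolve_left hNbot
        obtain ⟨s, hs, hs1⟩ := (Subgroup.bot_or_exists_ne_one T).resolve_left hTbot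
        exact hn1 (hfpfN s hs hs1 n hn (hc.is_comm.comm s n))
      have := (CfsgLib.GroupB.IrrPrime.structure_irr (p := q) hp hpq hna N
        ⟨⟨⟨fun a b => Subtype.ext (hNab a a.2 b b.2)⟩⟩, hNexp⟩ hidx fun B hB hle => by
          haveI := hB
          by_cases hB0 : B = ⊥
          · exact Or.inl hB0
          · exact Or.inr (CfsgLib.PrimAbelian.minimal (X := Ω) hNbot hNab B hB0 hle)).1
      rw [hNcard] at this
      exact (Nat.pow_right_injective hp.two_le this).symm
    obtain ⟨c₁, hc₁, hc₁1⟩ := (Subgroup.bot_or_exists_ne_one K).resolve_left hK1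
    -- the fixed points of `K`
    have hfixstab : ∀ x : Ω, x ≠ α → (∀ c ∈ K, c • x = x) →
        MulAction.stabilizer G α ⊓ MulAction.stabilizer G x = K := fun x hx hfix =>
      (Subgroup.eq_of_le_of_card_ge (le_inf hKH fun c hc => hfix c hc) (hm x hx).le).symm
    have hconj : ∀ x : Ω, x ≠ α → ∃ s ∈ T, ∀ c ∈ K, c • (s⁻¹ • x) = s⁻¹ • x := by
      intro x hx
      obtain ⟨S, hS⟩ : ∃ S : Subgroup G, S = MulAction.stabilizer G α ⊓ MulAction.stabilizer G x := ⟨_, rfl⟩
      have hScard : Nat.card S = Nat.card K := hS ▸ hm x hx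
      have hSH : ∀ z ∈ S, z ∈ MulAction.stabilizer G α := fun z hz => (hS ▸ hz : z ∈ MulAction.stabilizer G α ⊓ MulAction.stabilizer G x).1
      have hSx : ∀ z ∈ S, z • x = x := fun z hz => (hS ▸ hz : z ∈ MulAction.stabilizer G α ⊓ MulAction.stabilizer G x).2
      -- `S` is commutative
      have hScomm : ∀ a ∈ S, ∀ b ∈ S, a * b = b * a := by
        intro a ha b hb
        obtain ⟨u, hu, k, hk, rfl⟩ := hdec a (hSH a ha)
        obtain ⟨v, hv, l, hl, rfl⟩ := hdec b (hSH b hb)
        have h1 : u * k * (v * l) * (u * k)⁻¹ * (v * l)⁻¹ ∈ T := by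
          rw [show u * k * (v * l) * (u * k)⁻¹ * (v * l)⁻¹ =
            u * (k * v * k⁻¹) * ((k * l * k⁻¹) * u⁻¹ * l⁻¹) * v⁻¹ by group,
            hKcomm k hk l hl, mul_inv_cancel_right]
          exact mul_mem (mul_mem (mul_mem hu (hTn k (hKH hk) v hv))
            (hTn _ (hKH hl) _ (inv_mem hu))) (inv_mem hv)
        have h2 : u * k * (v * l) * (u * k)⁻¹ * (v * l)⁻¹ ∈ S :=
          mul_mem (mul_mem (mul_mem ha hb) (inv_mem ha)) (inv_mem hb)
        have h3 := hTfree x hx _ h1 (hSx _ h2)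
        rwa [mul_inv_eq_one, mul_inv_eq_iff_eq_mul] at h3
      -- conjugates of `K` cover the complement of `T`
      obtain ⟨y, hy, hy1⟩ : ∃ y ∈ S, y ≠ 1 := by
        refine (Subgroup.bot_or_exists_ne_one S).resolve_left fun h => hK1 ?_
        rw [← Subgroup.card_eq_one, ← hScard, h, Subgroup.card_bot]
      obtain ⟨u, hu, k, hk, rfl⟩ := hdec y (hSH y hy)
      have hk1 : k ≠ 1 := fun e => hy1 (hTfree x hx _ (by rw [e, mul_one]; exact hu) (hSx _ hy))
      -- write `u = [s, k]`
      obtain ⟨⟨s, hs⟩, hsu⟩ : ∃ s : T, (s : G) * k * (s : G)⁻¹ * k⁻¹ = u := by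
        let g : T → T := fun s => ⟨(s : G) * k * (s : G)⁻¹ * k⁻¹, hcomm_mem s s.2 k hk⟩
        have hg : Function.Injective g := by
          intro s s' e
          have e' : (s : G) * k * (s : G)⁻¹ = (s' : G) * k * (s' : G)⁻¹ := mul_right_cancel (congrArg Subtype.val e)
          have h1 : ((s' : G)⁻¹ * s) = 1 := hKfpf k hk hk1 _ (mul_mem (inv_mem s'.2) s.2) (by
            have e2 := congrArg (fun z => (s' : G)⁻¹ * z * s) e'
            simp only [mul_assoc, inv_mul_cancel, mul_one, inv_mul_cancel_left] at e2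
            rw [mul_assoc, e2])
          exact Subtype.ext (inv_mul_eq_one.mp h1).symm
        obtain ⟨s, hsg⟩ := Finite.surjective_of_injective hg ⟨u, hu⟩
        exact ⟨s, congrArg Subtype.val hsg⟩
      refine ⟨s, hs, ?_⟩
      -- `s⁻¹ S s ≤ K`
      have hsub : ∀ z ∈ S, s⁻¹ * z * s ∈ K := by
        intro z hz
        obtain ⟨v, hv, l, hl, hzl⟩ := hdec _ (mul_mem (mul_mem (inv_mem (hTle hs)) (hSH z hz)) (hTle hs))
        have hyk : s⁻¹ * (u * k) * s = k := by rw [← hsu]; group
        have hc : (s⁻¹ * z * s) * k = k * (s⁻¹ * z * s) := by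
          have h := congrArg (fun g => s⁻¹ * g * s) (hScomm z hz _ hy)
          rw [show s⁻¹ * (z * (u * k)) * s = (s⁻¹ * z * s) * (s⁻¹ * (u * k) * s) by group,
            show s⁻¹ * (u * k * z) * s = (s⁻¹ * (u * k) * s) * (s⁻¹ * z * s) by group, hyk] at h
          exact h
        rw [hzl] at hc
        have hv1 : v = 1 := by
          refine hKfpf k hk hk1 v hv ?_
          rw [mul_assoc, hKcomm l hl k hk, ← mul_assoc, ← mul_assoc] at hc
          exact (mul_right_cancel hc).symm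
        rw [hzl, hv1, one_mul]; exact hl
      let f : S → K := fun z => ⟨s⁻¹ * z * s, hsub z z.2⟩
      have hf : Function.Injective f := fun a b e => Subtype.ext (mul_left_cancel (mul_right_cancel (congrArg Subtype.val e)))
      intro c hc
      obtain ⟨z, hz⟩ := (hf.bijective_of_nat_card_le hScard.ge).2 ⟨c, hc⟩
      have hz' : s⁻¹ * (z : G) * s = c := congrArg Subtype.val hz
      rw [← hz', mul_smul, mul_smul, smul_inv_smul, hSx z z.2]
    obtain ⟨W, hWdef⟩ : ∃ W : Subgroup G, W = N ⊓ Subgroup.centralizer (K : Set G) := ⟨_, rfl⟩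
    have hWmem : ∀ n, n ∈ W ↔ n ∈ N ∧ ∀ c ∈ K, c * n = n * c := fun n => by
      rw [hWdef, Subgroup.mem_inf, Subgroup.mem_centralizer_iff]
      rfl
    obtain ⟨c, hc⟩ := (show IsPGroup p W from fun w => ⟨1, Subtype.ext (by
      rw [pow_one, Subgroup.coe_pow]; exact hNexp w ((hWmem w).mp w.2).1)⟩).exists_card_eq
    -- counting
    let Φ : T × {w : W // w ≠ 1} → {x : Ω // x ≠ α} := fun sw => ⟨(sw.1 : G) • ((sw.2.1 : G) • α), fun e => by
      have h1 : ((sw.2.1 : W) : G) • α = α := MulAction.injective (sw.1 : G) (e.trans (hTH sw.1.2).symm)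
      exact sw.2.2 (Subtype.ext (hNfix _ ((hWmem _).mp sw.2.1.2).1 α h1))⟩
    have hWfix : ∀ w ∈ W, ∀ c ∈ K, c • (w • α) = w • α := fun w hw c hc => by
      rw [← mul_smul, ((hWmem w).mp hw).2 c hc, mul_smul, MulAction.mem_stabilizer_iff.mp (hKH hc)]
    have hΦ : Function.Bijective Φ := by
      constructor
      · rintro ⟨⟨s, hs⟩, ⟨⟨w, hw⟩, hw1⟩⟩ ⟨⟨s', hs'⟩, ⟨⟨w', hw'⟩, hw1'⟩⟩ e
        have e' : s • w • α = s' • w' • α := congrArg Subtype.val e
        have hu : (s'⁻¹ * s) • w • α = w' • α := by rw [mul_smul, e', inv_smul_smul]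
        have huT : s'⁻¹ * s ∈ T := mul_mem (inv_mem hs') hs
        have hwa : w • α ≠ α := fun e => hw1 (Subtype.ext (hNfix w ((hWmem w).mp hw).1 α e))
        have hwa' : w' • α ≠ α := fun e => hw1' (Subtype.ext (hNfix w' ((hWmem w').mp hw').1 α e))
        have hstab := hfixstab _ hwa (hWfix w hw)
        have hu1 : s'⁻¹ * s = 1 := by
          refine hKfpf c₁ hc₁ hc₁1 _ huT ?_
          have hmem : (s'⁻¹ * s)⁻¹ * c₁ * (s'⁻¹ * s) ∈ K := by
            rw [← hstab]
            refine Subgroup.mem_inf.mpr ⟨mul_mem (mul_mem (inv_mem (hTle huT)) (hKH hc₁)) (hTle huT), ?_⟩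
            show ((s'⁻¹ * s)⁻¹ * c₁ * (s'⁻¹ * s)) • w • α = w • α
            rw [mul_smul _ (s'⁻¹ * s), hu, mul_smul, hWfix w' hw' c₁ hc₁, ← hu, inv_smul_smul]
          have h2 : (s'⁻¹ * s)⁻¹ * c₁ * (s'⁻¹ * s) * c₁⁻¹ ∈ T := by
            simpa using hcomm_mem _ (inv_mem huT) c₁ hc₁
          have h3 := hTK _ h2 (mul_mem hmem (inv_mem hc₁))
          rw [mul_inv_eq_one, mul_assoc, inv_mul_eq_iff_eq_mul] at h3
          exact h3
        rw [hu1, one_smul] at hu
        rw [inv_mul_eq_one] at hu1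
        subst hu1
        have : w = w' := by
          have h1 := hNfix (w'⁻¹ * w) (mul_mem (inv_mem ((hWmem w').mp hw').1) ((hWmem w).mp hw).1) α
            (by rw [mul_smul, hu, inv_smul_smul])
          exact (inv_mul_eq_one.mp h1).symm
        subst this
        rfl
      · rintro ⟨x, hx⟩
        obtain ⟨s, hs, hfix⟩ := hconj x hx
        obtain ⟨⟨n, hn⟩, hn'⟩ := MulAction.exists_smul_eq N α (s⁻¹ • x)
        have hn'' : n • α = s⁻¹ • x := hn'
        have hnW : n ∈ W := (hWmem n).mpr ⟨hn, fun c hc => by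
          have h1 : (n⁻¹ * (c * n * c⁻¹)) • α = α := by
            rw [mul_smul, mul_smul, mul_smul, MulAction.mem_stabilizer_iff.mp (inv_mem (hKH hc)), hn'', hfix c hc, ← hn'', inv_smul_smul]
          have h2 := hNfix _ (mul_mem (inv_mem hn) (hNn.conj_mem n hn c)) α h1
          rw [inv_mul_eq_one] at h2
          exact (mul_inv_eq_iff_eq_mul.mp h2.symm)⟩
        refine ⟨⟨⟨s, hs⟩, ⟨⟨n, hnW⟩, fun e => ?_⟩⟩, Subtype.ext ?_⟩
        · have hn1 : n = 1 := congrArg Subtype.val e
          rw [hn1, one_smul, eq_inv_smul_iff, hTH hs] at hn''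
          exact hx hn''.symm
        · show s • n • α = x
          rw [hn'', smul_inv_smul]
    have hcount := Nat.card_congr (Equiv.ofBijective Φ hΦ)
    rw [Nat.card_prod, hTq] at hcount
    have e1 : Nat.card {w : W // w ≠ 1} = p ^ c - 1 := by
      rw [← hc, show Nat.card {w : W // w ≠ 1} = ({1}ᶜ : Set W).ncard from Nat.card_coe_set_eq ({1}ᶜ : Set W), Set.ncard_compl, Set.ncard_singleton]
    have e2 : Nat.card {x : Ω // x ≠ α} = p ^ d - 1 := by
      rw [show Nat.card {x : Ω // x ≠ α} = ({α}ᶜ : Set Ω).ncard from Nat.card_coe_set_eq ({α}ᶜ : Set Ω), Set.ncard_compl, Set.ncard_singleton, Nat.card_eq_fintype_card, hcard]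
    rw [e1, e2] at hcount
    -- arithmetic
    have hpd1 : 1 < p ^ d := Nat.one_lt_pow hd.ne' hp.one_lt
    have hpc1 : 1 ≤ p ^ c := Nat.one_le_pow _ _ hp.pos
    have hc0 : 0 < c := by
      rcases Nat.eq_zero_or_pos c with h | h
      · rw [h, pow_zero, Nat.sub_self, mul_zero] at hcount; omega
      · exact h
    have hcd : c ∣ d := by
      have h1 := Nat.pow_sub_one_gcd_pow_sub_one p c d
      rw [Nat.gcd_eq_left (Dvd.intro_left q hcount)] at h1
      have h2 : p ^ c = p ^ Nat.gcd c d := by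
        have := Nat.one_le_pow (Nat.gcd c d) p hp.pos
        omega
      rw [Nat.pow_right_injective hp.two_le h2]
      exact Nat.gcd_dvd_right c d
    have hcne : c ≠ d := by
      intro e
      subst e
      have h2 := Nat.mul_le_mul_right (p ^ c - 1) hq.two_le
      omega
    have hc2 : 2 * c ≤ d := by
      obtain ⟨k, hk⟩ := hcd
      rcases k with _ | _ | k
      · omega
      · exact absurd (by rw [hk]; ring : c = d) hcne
      · rw [hk, mul_comm 2 c]; exact Nat.mul_le_mul_left c (by omega)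
    by_contra hne
    obtain ⟨k, hk⟩ := hod
    have ho2 : 2 * orderOf (p : ZMod q) ≤ d := by
      rcases k with _ | _ | k
      · omega
      · exact absurd (by rw [zero_add, mul_one] at hk; exact hk.symm) hne
      · calc 2 * orderOf (p : ZMod q) = orderOf (p : ZMod q) * 2 := mul_comm _ _
          _ ≤ orderOf (p : ZMod q) * (k + 1 + 1) := Nat.mul_le_mul_left _ (by omega)
          _ = d := hk.symm
    have ho0 : 0 < orderOf (p : ZMod q) := by
      rcases Nat.eq_zero_or_pos (orderOf (p : ZMod q)) with h | h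
      · rw [h, zero_mul] at hk; omega
      · exact h
    have hle1 : p ^ orderOf (p : ZMod q) ≤ p ^ (d - c) := Nat.pow_le_pow_right hp.pos (by omega)
    have hqle : q ≤ p ^ orderOf (p : ZMod q) - 1 := by
      have h1 : q ∣ p ^ orderOf (p : ZMod q) - 1 := by
        have h2 : ((p ^ orderOf (p : ZMod q) : ℕ) : ZMod q) = ((1 : ℕ) : ZMod q) := by
          push_cast; exact pow_orderOf_eq_one _
        exact (Nat.modEq_iff_dvd' (Nat.one_le_pow _ _ hp.pos)).mp ((ZMod.natCast_eq_natCast_iff _ _ _).mp h2.symm)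
      refine Nat.le_of_dvd ?_ h1
      have := Nat.one_lt_pow ho0.ne' hp.one_lt
      omega
    have hlt : q + 1 ≤ p ^ (d - c) := by
      have := Nat.one_lt_pow ho0.ne' hp.one_lt
      omega
    have hmul := Nat.mul_le_mul_right (p ^ c - 1) hlt
    rw [add_mul, one_mul, hcount, Nat.mul_sub_one, ← pow_add, Nat.sub_add_cancel (by omega : c ≤ d)] at hmul
    have hbig : p ^ c ≤ p ^ (d - c) := Nat.pow_le_pow_right hp.pos (by omega)
    have h2c : 1 < p ^ c := Nat.one_lt_pow hc0.ne' hp.one_lt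
    omega
  refine ⟨q, hq, fun x hx => (hTorb x hx).trans hTq, hqd, fun i hi0 hid hdiv => ?_, T, hTle, hTnorm, hTq, ⟨h, ?_⟩, ?_⟩
  · exact pow_ne_one_of_lt_orderOf hi0.ne' (hord.symm ▸ hid) (hmodq i hdiv)
  · refine le_antisymm (fun g hg => ?_) (sup_le hTle (Subgroup.zpowers_le.mpr (hKH hhK)))
    obtain ⟨s, hs, k, hk, rfl⟩ := hdec g hg
    exact Subgroup.mul_mem_sup hs (hKgen k hk)
  · rw [← hstabcard ω hω, ← hKdef]
    refine Nat.mul_dvd_mul_left q ?_
    rw [← hoh]
    refine orderOf_dvd_of_pow_eq_one (hTK _ (hCT _ (pow_mem (hKH hhK) d) fun s hs => ?_) (pow_mem hhK d))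
    have hirr : ∀ M : Subgroup G, M ≤ N → (∀ s ∈ T, ∀ x ∈ M, s * x * s⁻¹ ∈ M) → M = ⊥ ∨ M = N := by
      intro M hM hMT
      obtain ⟨j, hj⟩ := (show IsPGroup p M from fun w => ⟨1, Subtype.ext (by
        rw [pow_one, Subgroup.coe_pow]; exact hNexp w (hM w.2))⟩).exists_card_eq
      have hjd : j ≤ d := Nat.pow_le_pow_iff_right hp.one_lt |>.mp (by
        rw [← hj, ← hNcard]; exact Subgroup.card_le_of_le hM)
      have hdj : d ∣ j := hord ▸ orderOf_dvd_of_pow_eq_one (hmodq j (hinv M hM hMT j hj))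
      rcases Nat.eq_zero_or_pos j with h0 | h0
      · exact Or.inl (Subgroup.card_eq_one.mp (by rw [hj, h0, pow_zero]))
      · have : j = d := le_antisymm hjd (Nat.le_of_dvd h0 hdj)
        exact Or.inr (Subgroup.eq_of_le_of_card_ge hM (by rw [hNcard, hj, this]))
    have hpw := conj_pow_dim hp N T hNab hNexp hNcard hd hTab hirr (fun u hu => hTn h (hKH hhK) u hu) s hs
    -- both elements induce the same automorphism of `N`
    have hsd : h ^ d * s * (h ^ d)⁻¹ ∈ T := hTn _ (pow_mem (hKH hhK) d) s hs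
    by_contra hne
    obtain ⟨n, hn, hn1⟩ := (Subgroup.bot_or_exists_ne_one N).resolve_left hNbot
    refine hn1 (hfpfN (s⁻¹ * (h ^ d * s * (h ^ d)⁻¹)) (mul_mem (inv_mem hs) hsd) (fun e => hne ?_) n hn ?_)
    · rw [inv_mul_eq_one] at e
      exact (mul_inv_eq_iff_eq_mul.mp e.symm)
    · have e := hpw n hn
      generalize h ^ d * s * (h ^ d)⁻¹ = w at e ⊢
      calc s⁻¹ * w * n = s⁻¹ * (w * n * w⁻¹) * w := by group
        _ = n * (s⁻¹ * w) := by rw [e]; group

end Cfsg.Agent.S3496
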