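import Cfsg.Statements.S3497
import Mathlib
import Cfsg.Agent.Lib.Perm.ExtremePrimitive
import Cfsg.Agent.Lib.Perm.PrimitiveAbelian

set_option autoImplicit false
open Cfsg

namespace Cfsg.Agent.S3497

theorem exists_mulAut_to_GL (K : Type*) [CommGroup K] [Finite K] {p e : ℕ} [Fact p.Prime]
    (hexp : ∀ a : K, a ^ p = 1) (hcard : Nat.card K = p ^ e) :
    ∃ T : MulAut K →* GL (Fin e) (ZMod p), Function.Injective T := by
  have hz : ∀ x : Additive K, p • x = 0 := fun x => by
    change Additive.ofMul (x.toMul ^ p) = 0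
    rw [ofMul_eq_zero]
    exact hexp x.toMul
  obtain ⟨inst⟩ : Nonempty (Module (ZMod p) (Additive K)) := ⟨AddCommGroup.zmodModule hz⟩
  haveI : Module.Finite (ZMod p) (Additive K) := Module.Finite.of_finite
  have hdim : Module.finrank (ZMod p) (Additive K) = e := by
    have h := Module.natCard_eq_pow_finrank (K := ZMod p) (V := Additive K)
    rw [Nat.card_zmod, show Nat.card (Additive K) = Nat.card K from rfl, hcard] at h
    exact (Nat.pow_right_injective (Fact.out : p.Prime).two_le h).symm
  let b := Module.finBasisOfFinrankEq (ZMod p) (Additive K) hdim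
  let c : MulAut K → (Additive K →+ Additive K) := fun σ => MonoidHom.toAdditive σ.toMonoidHom
  let μ : MulAut K →* Matrix (Fin e) (Fin e) (ZMod p) :=
    { toFun := fun σ => LinearMap.toMatrix b b ((c σ).toZModLinearMap p)
      map_one' := by rw [← LinearMap.toMatrix_one b]; rfl
      map_mul' := fun σ τ => by rw [← LinearMap.toMatrix_mul b]; rfl }
  refine ⟨μ.toHomUnits, fun σ τ h => ?_⟩
  have h1 : LinearMap.toMatrix b b ((c σ).toZModLinearMap p) =
      LinearMap.toMatrix b b ((c τ).toZModLinearMap p) := congrArg Units.val h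
  have h2 := (LinearMap.toMatrix b b).injective h1
  exact MulEquiv.ext fun x => congrArg Additive.toMul (LinearMap.congr_fun h2 (Additive.ofMul x))

open scoped IsMulCommutative in
theorem exists_conjHom {H : Type*} [Group H] (B : Subgroup H) [hB : B.Normal] {p e : ℕ} [Fact p.Prime]
    (hab : ∀ a ∈ B, ∀ b ∈ B, a * b = b * a) (hexp : ∀ a ∈ B, a ^ p = 1) (hcard : Nat.card B = p ^ e) :
    ∃ φ : H →* GL (Fin e) (ZMod p), φ.ker = Subgroup.centralizer (B : Set H) := by
  haveI : IsMulCommutative B := ⟨⟨fun a b => Subtype.ext (hab a a.2 b b.2)⟩⟩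
  haveI : Finite B := Nat.finite_of_card_ne_zero (by rw [hcard]; exact pow_ne_zero _ (Fact.out : p.Prime).ne_zero)
  obtain ⟨T, hT⟩ := exists_mulAut_to_GL B (p := p) (e := e)
    (fun a => Subtype.ext (by rw [SubgroupClass.coe_pow]; exact hexp a a.2)) hcard
  refine ⟨T.comp MulAut.conjNormal, ?_⟩
  ext h
  rw [MonoidHom.mem_ker, MonoidHom.comp_apply, map_eq_one_iff T hT, Subgroup.mem_centralizer_iff]
  constructor
  · intro hh a ha
    have := congrArg (fun σ : MulAut B => ((σ ⟨a, ha⟩ : B) : H)) hh
    simp only [MulAut.conjNormal_apply, MulAut.one_apply] at this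
    exact (mul_inv_eq_iff_eq_mul.mp this).symm
  · intro hh
    exact MulEquiv.ext fun x => Subtype.ext (by
      rw [MulAut.conjNormal_apply, ← hh _ x.2, mul_inv_cancel_right]; rfl)

/-- Restrictions on the point stabilizer of an extremely primitive group. Let a finite group G act faithfully and primitively on a finite set Ω with point stabilizers H = G_α whose order is neither 1 nor a prime, each acting primitively on every one of its orbits. Then H has trivial center, the Fitting subgroup F(H) is an elementary abelian p-group for some prime p, and if F(H) ≠ 1 has order p ^ e then p ^ e divides the number of points minus one and H / F(H) embeds in GL_e(p) (there is a homomorphism from H to GL_e(p) with kernel exactly F(H)). -/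
theorem result {G : Type*} [Group G] [Finite G] {Ω : Type*} [Fintype Ω] [MulAction G Ω] [FaithfulSMul G Ω] (hprim : MulAction.IsPreprimitive G Ω) (hep : ∀ (α : Ω) (ω : Ω), MulAction.IsPreprimitive (MulAction.stabilizer G α) (MulAction.orbit (MulAction.stabilizer G α) ω)) (α : Ω)
    (hH1 : MulAction.stabilizer G α ≠ ⊥) (hHp : ¬ (Nat.card (MulAction.stabilizer G α)).Prime) :
    Subgroup.center (MulAction.stabilizer G α) = ⊥ ∧
    IsMulCommutative (Cfsg.fittingSubgroup (MulAction.stabilizer G α)) ∧
    ∃ p e : ℕ, p.Prime ∧ Nat.card (Cfsg.fittingSubgroup (MulAction.stabilizer G α)) = p ^ e ∧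
      (∀ x ∈ Cfsg.fittingSubgroup (MulAction.stabilizer G α), x ^ p = 1) ∧
      (Cfsg.fittingSubgroup (MulAction.stabilizer G α) ≠ ⊥ →
        p ^ e ∣ Fintype.card Ω - 1 ∧
        ∃ φ : MulAction.stabilizer G α →* GL (Fin e) (ZMod p), φ.ker = Cfsg.fittingSubgroup (MulAction.stabilizer G α)) := by
  classical
  haveI := hprim
  have hH : ∀ a : Ω, MulAction.stabilizer G a ≠ ⊥ := by
    intro a h
    apply hH1
    rw [← Subgroup.card_eq_one, CfsgLib.ExtremePrim.card_stabilizer_eq α a, h, Subgroup.card_bot]
  haveI := CfsgLib.ExtremePrim.nontrivial hH α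
  obtain ⟨ω, hω⟩ := exists_ne α
  have hfaith : ∀ x : Ω, x ≠ α →
      FaithfulSMul (MulAction.stabilizer G α) (MulAction.orbit (MulAction.stabilizer G α) x) := by
    intro x hx
    refine ⟨fun {g h} hgh => ?_⟩
    have h1 := CfsgLib.ExtremePrim.manning hH hep α x hx (mul_mem (inv_mem g.2) h.2) fun y hy => ?_
    · exact Subtype.ext (inv_mul_eq_one.mp h1)
    · rw [mul_smul, inv_smul_eq_iff]
      exact (congrArg Subtype.val (hgh ⟨y, hy⟩)).symm
  haveI := hfaith ω hω
  haveI := hep α ω
  haveI : Nonempty (MulAction.orbit (MulAction.stabilizer G α) ω) := ⟨⟨ω, MulAction.mem_orbit_self ω⟩⟩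
  refine ⟨CfsgLib.PrimAbelian.center_eq_bot (X := MulAction.orbit (MulAction.stabilizer G α) ω) hHp, ?_, ?_⟩
  · exact ⟨⟨fun a b => Subtype.ext (CfsgLib.PrimAbelian.fitting_abelian
      (H := MulAction.stabilizer G α) (X := MulAction.orbit (MulAction.stabilizer G α) ω) a a.2 b b.2)⟩⟩
  haveI := CfsgLib.Core.fittingSubgroup_normal (G := MulAction.stabilizer G α)
  rcases eq_or_ne (Cfsg.fittingSubgroup (MulAction.stabilizer G α)) ⊥ with hF | hF
  · refine ⟨2, 0, Nat.prime_two, by rw [hF, pow_zero, Subgroup.card_bot], ?_, fun h => absurd hF h⟩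
    intro x hx
    rw [hF, Subgroup.mem_bot] at hx
    rw [hx, one_pow]
  have hab := CfsgLib.PrimAbelian.fitting_abelian (H := MulAction.stabilizer G α)
    (X := MulAction.orbit (MulAction.stabilizer G α) ω)
  obtain ⟨p, e, hp, -, hcard, hexp⟩ := CfsgLib.PrimAbelian.exists_prime
    (X := MulAction.orbit (MulAction.stabilizer G α) ω) (Cfsg.fittingSubgroup (MulAction.stabilizer G α)) hF hab
  haveI := Fact.mk hp
  refine ⟨p, e, hp, hcard, hexp, fun _ => ⟨?_, ?_⟩⟩
  · -- free action on the other points
    have hfree : ∀ b : SubMulAction.ofStabilizer G α,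
        MulAction.stabilizer (Cfsg.fittingSubgroup (MulAction.stabilizer G α)) b = ⊥ := by
      intro b
      haveI := hfaith (b : Ω) b.2
      haveI := hep α (b : Ω)
      rw [eq_bot_iff]
      rintro ⟨f, hf⟩ hfb
      rw [Subgroup.mem_bot]
      exact Subtype.ext (CfsgLib.PrimAbelian.fix_eq_one hF hab hf
        (x := (⟨b, MulAction.mem_orbit_self _⟩ : MulAction.orbit (MulAction.stabilizer G α) (b : Ω)))
        (Subtype.ext (congrArg Subtype.val (MulAction.mem_stabilizer_iff.mp hfb) :)))
    have h := Nat.card_congr (MulAction.selfEquivOrbitsQuotientProd hfree)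
    rw [Nat.card_prod, hcard, SubMulAction.nat_card_ofStabilizer_eq G α, Nat.card_eq_fintype_card] at h
    exact Dvd.intro_left _ h.symm
  · obtain ⟨φ, hφ⟩ := exists_conjHom (Cfsg.fittingSubgroup (MulAction.stabilizer G α)) hab hexp hcard
    refine ⟨φ, hφ.trans (le_antisymm (fun c hc => ?_) fun a ha => ?_)⟩
    · exact CfsgLib.PrimAbelian.centralizer_le (X := MulAction.orbit (MulAction.stabilizer G α) ω) hF hab
        fun a ha => (Subgroup.mem_centralizer_iff.mp hc a ha).symm
    · exact Subgroup.mem_centralizer_iff.mpr fun b hb => hab b hb a ha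

end Cfsg.Agent.S3497
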