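import Cfsg.Statements.S3498
import Cfsg.Agent.Lib.GroupB.Frobenius
import Cfsg.Agent.S0033
import Mathlib

set_option autoImplicit false
set_option linter.style.haveILetI false
open Cfsg

namespace Cfsg.Agent.S3498

open scoped Pointwise

/-- A maximal subgroup of a finite almost simple group does not have prime order. Here G is almost simple in the sense that it has a non-abelian simple normal subgroup T with trivial centralizer. -/
theorem result {G : Type*} [Group G] [Finite G] (T : Subgroup G) [T.Normal] (hT : IsSimpleGroup T) (hTc : ¬ IsMulCommutative T)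
    (hC : Subgroup.centralizer (T : Set G) = ⊥) (H : Subgroup G) (hmax : IsCoatom H) : ¬ (Nat.card H).Prime := by
  classical
  intro hp
  haveI := Fact.mk hp
  haveI := hT
  have hTne : T ≠ ⊥ := fun h => by
    subst h
    exact not_nontrivial _ hT.toNontrivial
  have hnorm : ∀ g : G, g ∈ Subgroup.normalizer (H : Set G) → g ∈ H ∨ Subgroup.normalizer (H : Set G) = ⊤ := by
    intro g hg
    rcases hmax.le_iff.mp (Subgroup.le_normalizer : H ≤ Subgroup.normalizer (H : Set G)) with h | h
    · exact Or.inr h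
    · exact Or.inl (h ▸ hg)
  rcases Nat.eq_zero_or_pos 0 with - | h0
  swap; · omega
  have hcases : H ≤ T ∨ T ⊓ H = ⊥ := by
    rcases hp.eq_one_or_self_of_dvd _ (Subgroup.card_dvd_of_le (inf_le_right : T ⊓ H ≤ H)) with h | h
    · exact Or.inr (Subgroup.eq_bot_of_card_eq _ h)
    · exact Or.inl (inf_eq_right.mp (Subgroup.eq_of_le_of_card_ge inf_le_right h.ge))
  rcases hcases with hHT | hTH
  · rcases hmax.le_iff.mp hHT with h | h
    swap
    · haveI : IsCyclic ↥T := isCyclic_of_prime_card (p := Nat.card ↥H) (h ▸ rfl)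
      exact hTc ⟨⟨fun a b => IsCyclic.commGroup.mul_comm a b⟩⟩
    subst h
    haveI : IsSimpleGroup G := by
      obtain ⟨e⟩ : Nonempty (G ≃* ↥(⊤ : Subgroup G)) := ⟨Subgroup.topEquiv.symm⟩
      haveI : Nontrivial G := Subgroup.topEquiv.symm.toEquiv.nontrivial
      exact IsSimpleGroup.isSimpleGroup_of_surjective (Subgroup.topEquiv (G := G)).toMonoidHom (Subgroup.topEquiv (G := G)).surjective
    have hHne : H ≠ ⊥ := fun h => hp.ne_one (Subgroup.card_eq_one.mpr h)
    have hF : Cfsg.IsFrobeniusComplement H := by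
      refine ⟨hHne, hmax.1, fun g hg => ?_⟩
      rcases hp.eq_one_or_self_of_dvd _ (Subgroup.card_dvd_of_le (inf_le_left : H ⊓ MulAut.conj g • H ≤ H)) with h | h
      · exact Subgroup.eq_bot_of_card_eq _ h
      exfalso
      have hle : H ≤ MulAut.conj g • H := inf_eq_left.mp (Subgroup.eq_of_le_of_card_ge inf_le_left h.ge)
      have hgN : g⁻¹ ∈ Subgroup.normalizer (H : Set G) := by
        rw [Subgroup.mem_normalizer_iff]
        intro x
        have hsub : ∀ y ∈ H, g⁻¹ * y * g ∈ H := fun y hy => CfsgLib.GroupB.Frobenius.mem_conj_smul_iff.mp (hle hy)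
        refine ⟨fun hx => by simpa using hsub x hx, fun hx => ?_⟩
        let f : ↥H → ↥H := fun y => ⟨g⁻¹ * y * g, hsub y y.2⟩
        have hf : Function.Injective f := fun a b e => by
          have : g⁻¹ * (a : G) * g = g⁻¹ * b * g := congrArg Subtype.val e
          exact Subtype.ext (mul_left_cancel (mul_right_cancel this))
        obtain ⟨y, hy⟩ := (Finite.injective_iff_surjective.mp hf) ⟨_, hx⟩
        have hy' : g⁻¹ * (y : G) * g = g⁻¹ * x * g⁻¹⁻¹ := congrArg Subtype.val hy
        rw [inv_inv] at hy'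
        rw [← mul_left_cancel (mul_right_cancel hy')]
        exact y.2
      rcases hnorm _ hgN with h' | h'
      · exact hg (inv_mem_iff.mp h')
      · haveI : H.Normal := Subgroup.normalizer_eq_top_iff.mp h'
        rcases (inferInstance : H.Normal).eq_bot_or_eq_top with h'' | h''
        exacts [hHne h'', hmax.1 h'']
    obtain ⟨N, -, hN, hc⟩ := CfsgLib.GroupB.Frobenius.exists_kernel_subgroup hF
    rcases hN.eq_bot_or_eq_top with h | h
    · subst h; exact hmax.1 (Subgroup.isComplement'_bot_left.mp hc)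
    · subst h; exact hHne (Subgroup.isComplement'_top_left.mp hc)
  · obtain ⟨h0, hh0, hh1⟩ := H.bot_or_exists_ne_one.resolve_left fun h => hp.ne_one (Subgroup.card_eq_one.mpr h)
    have hgen : Subgroup.zpowers h0 = H := by
      refine Subgroup.eq_of_le_of_card_ge (Subgroup.zpowers_le.mpr hh0) ?_
      rw [Nat.card_zpowers]
      rcases hp.eq_one_or_self_of_dvd _ (Subgroup.orderOf_dvd_natCard H hh0) with h | h
      · exact absurd (orderOf_eq_one_iff.mp h) hh1
      · exact h.ge
    have hNH : Subgroup.normalizer (H : Set G) ≠ ⊤ := by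
      intro h
      haveI : H.Normal := Subgroup.normalizer_eq_top_iff.mp h
      apply hh1
      rw [← Subgroup.mem_bot, ← hC, Subgroup.mem_centralizer_iff]
      intro t ht
      have h1 : t * h0 * t⁻¹ * h0⁻¹ ∈ T ⊓ H := ⟨by
        have := T.mul_mem ht ((inferInstance : T.Normal).conj_mem _ (T.inv_mem ht) h0)
        simpa [mul_assoc] using this, H.mul_mem ((inferInstance : H.Normal).conj_mem h0 hh0 t) (H.inv_mem hh0)⟩
      rw [hTH, Subgroup.mem_bot, mul_inv_eq_one, mul_inv_eq_iff_eq_mul] at h1
      exact h1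
    let φ : ↥T ≃* ↥T := MulAut.conjNormal h0
    have hfpf : MonoidHom.FixedPointFree (φ : ↥T →* ↥T) := by
      intro t ht
      have h1 : h0 * (t : G) * h0⁻¹ = t := congrArg Subtype.val ht
      have h2 : (t : G) ∈ Subgroup.normalizer (H : Set G) := by
        apply Subgroup.centralizer_le_normalizer
        rw [Subgroup.mem_centralizer_iff]
        intro x hx
        obtain ⟨k, rfl⟩ : x ∈ Subgroup.zpowers h0 := hgen ▸ hx
        exact (Commute.zpow_left (mul_inv_eq_iff_eq_mul.mp h1) k).eq
      refine Subtype.ext (Subgroup.mem_bot.mp (hTH ▸ ⟨t.2, ?_⟩ : (t : G) ∈ (⊥ : Subgroup G)))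
      exact (hnorm _ h2).resolve_right hNH
    have hord : orderOf φ = Nat.card ↥H := by
      refine orderOf_eq_prime ?_ ?_
      · show (MulAut.conjNormal h0 : MulAut ↥T) ^ _ = 1
        rw [← map_pow, show h0 ^ Nat.card ↥H = 1 from congrArg Subtype.val (pow_card_eq_one' (x := (⟨h0, hh0⟩ : ↥H))), map_one]
      · intro h
        apply hh1
        rw [← Subgroup.mem_bot, ← hC, Subgroup.mem_centralizer_iff]
        intro t ht
        have : h0 * t * h0⁻¹ = t := congrArg Subtype.val (DFunLike.congr_fun h (⟨t, ht⟩ : ↥T))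
        exact (mul_inv_eq_iff_eq_mul.mp this).symm
    haveI : Group.IsNilpotent ↥T := Cfsg.Agent.S0033.result φ hfpf _ hp hord
    haveI : Nontrivial ↥T := (Subgroup.nontrivial_iff_ne_bot _).mpr hTne
    have hz : Subgroup.center ↥T = ⊤ := (inferInstance : (Subgroup.center ↥T).Normal).eq_bot_or_eq_top.resolve_left
      (Group.IsNilpotent.center_ne_bot _)
    exact hTc ⟨⟨fun a b => (Subgroup.mem_center_iff.mp (hz ▸ Subgroup.mem_top b) a)⟩⟩

end Cfsg.Agent.S3498
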