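import Cfsg.Statements.S3504
import Mathlib

set_option autoImplicit false
set_option linter.style.haveILetI false
open Cfsg

namespace Cfsg.Agent.S3504

/-- For n ≥ 5, the fixed-point-free permutations of prime order in the symmetric group of degree n form a single conjugacy class if and only if n is a prime power. -/
theorem result (n : ℕ) (hn : 5 ≤ n) :
    Nat.card {c : ConjClasses (Equiv.Perm (Fin n)) // ∃ g : Equiv.Perm (Fin n), ConjClasses.mk g = c ∧ (orderOf g).Prime ∧ ∀ i : Fin n, g i ≠ i} = 1 ↔ IsPrimePow n := by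
  classical
  have hcount : Nat.card {c : ConjClasses (Equiv.Perm (Fin n)) // ∃ g : Equiv.Perm (Fin n),
      ConjClasses.mk g = c ∧ (orderOf g).Prime ∧ ∀ i : Fin n, g i ≠ i} = n.primeFactors.card := by
    have htype : ∀ g : Equiv.Perm (Fin n), (orderOf g).Prime → (∀ i, g i ≠ i) →
        orderOf g ∣ n ∧ g.cycleType = Multiset.replicate (n / orderOf g) (orderOf g) := by
      intro g hg hfix
      obtain ⟨k, hk⟩ := Equiv.Perm.cycleType_prime_order hg
      have hsum := g.sum_cycleType
      have hsupp : g.support = Finset.univ := Finset.eq_univ_of_forall fun i => Equiv.Perm.mem_support.mpr (hfix i)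
      rw [hk, Multiset.sum_replicate, smul_eq_mul, hsupp, Finset.card_univ, Fintype.card_fin] at hsum
      refine ⟨Dvd.intro_left _ hsum, ?_⟩
      have hdiv : n / orderOf g = k + 1 := Nat.div_eq_of_eq_mul_left hg.pos hsum.symm
      rw [hdiv, hk]
    have hex : ∀ p ∈ n.primeFactors, ∃ g : Equiv.Perm (Fin n), orderOf g = p ∧ ∀ i, g i ≠ i := by
      intro p hp
      obtain ⟨hpp, hpn, hn0⟩ := Nat.mem_primeFactors.mp hp
      obtain ⟨g, hg⟩ := (Equiv.Perm.exists_with_cycleType_iff (α := Fin n) (m := Multiset.replicate (n / p) p)).mpr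
        ⟨by rw [Multiset.sum_replicate, smul_eq_mul, Nat.div_mul_cancel hpn, Fintype.card_fin],
          fun a ha => (Multiset.eq_of_mem_replicate ha) ▸ hpp.two_le⟩
      have hsupp : g.support = Finset.univ := by
        apply Finset.eq_univ_of_card
        rw [← Equiv.Perm.sum_cycleType, hg, Multiset.sum_replicate, smul_eq_mul, Nat.div_mul_cancel hpn, Fintype.card_fin]
      refine ⟨g, ?_, fun i => Equiv.Perm.mem_support.mp (hsupp ▸ Finset.mem_univ i)⟩
      have hpos : n / p ≠ 0 := (Nat.div_pos (Nat.le_of_dvd (by omega) hpn) hpp.pos).ne'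
      rw [← Equiv.Perm.lcm_cycleType, hg]
      obtain ⟨k, hk⟩ := Nat.exists_eq_succ_of_ne_zero hpos
      rw [hk]
      apply Nat.dvd_antisymm
      · exact Multiset.lcm_dvd.mpr fun a ha => (Multiset.eq_of_mem_replicate ha) ▸ dvd_rfl
      · exact Multiset.dvd_lcm (Multiset.mem_replicate.mpr ⟨Nat.succ_ne_zero k, rfl⟩)
    choose F hF using hex
    let f : {p // p ∈ n.primeFactors} → {c : ConjClasses (Equiv.Perm (Fin n)) // ∃ g : Equiv.Perm (Fin n),
        ConjClasses.mk g = c ∧ (orderOf g).Prime ∧ ∀ i : Fin n, g i ≠ i} := fun p =>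
      ⟨ConjClasses.mk (F p p.2), F p p.2, rfl, (hF p p.2).1.symm ▸ Nat.prime_of_mem_primeFactors p.2, (hF p p.2).2⟩
    have hf : Function.Bijective f := by
      constructor
      · intro p q e
        have h := ConjClasses.mk_eq_mk_iff_isConj.mp (congrArg Subtype.val e)
        have := Equiv.Perm.isConj_iff_cycleType_eq.mp h
        apply Subtype.ext
        rw [← (hF p p.2).1, ← (hF q q.2).1, ← Equiv.Perm.lcm_cycleType, this, Equiv.Perm.lcm_cycleType]
      · rintro ⟨c, g, rfl, hg, hfix⟩
        obtain ⟨hdvd, hty⟩ := htype g hg hfix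
        have hp : orderOf g ∈ n.primeFactors := Nat.mem_primeFactors.mpr ⟨hg, hdvd, by omega⟩
        refine ⟨⟨orderOf g, hp⟩, Subtype.ext (ConjClasses.mk_eq_mk_iff_isConj.mpr
          (Equiv.Perm.isConj_iff_cycleType_eq.mpr ?_))⟩
        obtain ⟨h1, h2⟩ := hF _ hp
        rw [hty, (htype _ (h1.symm ▸ hg) h2).2, h1]
    rw [← Nat.card_eq_of_bijective f hf, Nat.card_eq_finsetCard]
  rw [hcount, isPrimePow_iff_card_primeFactors_eq_one]

end Cfsg.Agent.S3504
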