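import Cfsg.Statements.S3508
import Mathlib.LinearAlgebra.FiniteDimensional.Lemmas
import Mathlib.FieldTheory.Finiteness
import Mathlib.Algebra.Module.ZMod
import Mathlib.Algebra.CharP.Lemmas
import Mathlib.Algebra.Polynomial.AlgebraMap
import Mathlib.Algebra.Group.End
import Mathlib.GroupTheory.OrderOfElement
import Mathlib.Tactic

set_option autoImplicit false
open Cfsg

namespace Cfsg.Agent.S3508

open Polynomial
open scoped IsMulCommutative

lemma poly_facts (p : ℕ) [Fact p.Prime] (k : ℕ) :
    ((X : (ZMod p)[X]) - 1) ^ (p ^ k) = X ^ (p ^ k) - 1 ∧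
    ∑ i ∈ Finset.range (p ^ k), (X : (ZMod p)[X]) ^ i = (X - 1) ^ (p ^ k - 1) := by
  have h := sub_pow_char_pow (X : (ZMod p)[X]) 1 (p := p) (n := k)
  rw [one_pow] at h
  refine ⟨h, ?_⟩
  have hne : ((X : (ZMod p)[X]) - 1) ≠ 0 := by
    simpa using Polynomial.X_sub_C_ne_zero (1 : ZMod p)
  apply mul_right_cancel₀ hne
  rw [geom_sum_mul, ← pow_succ, Nat.sub_add_cancel (Nat.one_le_pow _ _ (Fact.out : p.Prime).pos), h]

lemma iter_affine {R V : Type*} [Semiring R] [AddCommGroup V] [Module R V] (A : Module.End R V) (c v : V) :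
    ∀ q : ℕ, (fun v => A v + c)^[q] v = (A ^ q) v + (∑ i ∈ Finset.range q, A ^ i) c
  | 0 => by simp
  | q + 1 => by
    rw [Function.iterate_succ_apply', iter_affine A c v q, pow_succ' A q, Module.End.mul_apply,
      Finset.sum_range_succ', map_add, LinearMap.add_apply, pow_zero, Module.End.one_apply]
    simp only [pow_succ', ← Finset.mul_sum, Module.End.mul_apply]
    abel


/-- Let a finite group G act faithfully on a set Ω with p ^ m points (p prime) and have an elementary abelian normal p-subgroup N acting regularly on Ω (so G is a group of affine transformations of an m-dimensional space over the field with p elements). If G contains an element of order p ^ r with r ≥ 1, then p ^ (r − 1) ≤ m. In particular an element of order p ^ m forces m ≤ 2, and m ≤ 1 when p is odd. -/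
theorem result {G : Type*} [Group G] [Finite G] {Ω : Type*} [Fintype Ω] [MulAction G Ω] [FaithfulSMul G Ω] (p m : ℕ) (hp : p.Prime) (hcard : Fintype.card Ω = p ^ m)
    (N : Subgroup G) [N.Normal] (hNc : IsMulCommutative N) (hNp : ∀ n ∈ N, n ^ p = 1)
    (hNtr : MulAction.IsPretransitive N Ω) (hNreg : ∀ ω : Ω, MulAction.stabilizer N ω = ⊥)
    (g : G) (r : ℕ) (hr : 1 ≤ r) (hg : orderOf g = p ^ r) :
    p ^ (r - 1) ≤ m ∧ (r = m → m ≤ 2 ∧ (2 < p → m ≤ 1)) := by
  haveI := Fact.mk hp
  have hmain : p ^ (r - 1) ≤ m := by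
    by_contra hlt
    rw [not_le] at hlt
    haveI : Nonempty Ω := Fintype.card_pos_iff.1 (by rw [hcard]; exact pow_pos hp.pos m)
    obtain ⟨ω₀⟩ := ‹Nonempty Ω›
    haveI := hNtr
    have hbij : Function.Bijective (fun n : N => (n : G) • ω₀) := by
      constructor
      · intro a b hab
        have hmem : b⁻¹ * a ∈ MulAction.stabilizer N ω₀ := by
          rw [MulAction.mem_stabilizer_iff, mul_smul, inv_smul_eq_iff]
          exact hab
        rw [hNreg ω₀, Subgroup.mem_bot, inv_mul_eq_one] at hmem
        exact hmem.symm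
      · intro x
        obtain ⟨n, hn⟩ := MulAction.exists_smul_eq N ω₀ x
        exact ⟨n, hn⟩
    obtain ⟨c, hc⟩ := hbij.2 (g • ω₀)
    simp only at hc
    haveI := hNc
    have htor : ∀ v : Additive N, p • v = 0 := fun v => by
      show v.toMul ^ p = 1
      exact Subtype.ext (hNp _ v.toMul.2)
    letI : Module (ZMod p) (Additive N) := AddCommGroup.zmodModule (n := p) htor
    haveI : Module.Finite (ZMod p) (Additive N) := Module.Finite.of_finite
    have hrank : Module.finrank (ZMod p) (Additive N) = m := by
      have h := Module.natCard_eq_pow_finrank (K := ZMod p) (V := Additive N)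
      rw [Nat.card_zmod, Nat.card_congr (Additive.toMul.trans (Equiv.ofBijective _ hbij)),
        Nat.card_eq_fintype_card, hcard] at h
      exact (Nat.pow_right_injective hp.two_le h).symm
    let A : Module.End (ZMod p) (Additive N) :=
      ((MulAut.conjNormal (H := N) g).toMonoidHom.toAdditive).toZModLinearMap p
    have hApow : ∀ (q : ℕ) (v : Additive N),
        (A ^ q) v = Additive.ofMul (MulAut.conjNormal (H := N) (g ^ q) v.toMul) := by
      intro q
      induction q with
      | zero => intro v; simp [MulAut.one_apply]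
      | succ q ih =>
        intro v
        rw [pow_succ' A, Module.End.mul_apply, ih, pow_succ' g, map_mul, MulAut.mul_apply]
        rfl
    have hact : ∀ v : Additive N, g • ((v.toMul : G) • ω₀) = ((A v + Additive.ofMul c).toMul : G) • ω₀ := by
      intro v
      have he : (((A v + Additive.ofMul c).toMul : N) : G) = g * v.toMul * g⁻¹ * c := by
        rw [toMul_add, Subgroup.coe_mul]; rfl
      rw [he, mul_smul, hc, ← mul_smul, ← mul_smul]
      congr 1
      group
    have hiter : ∀ (q : ℕ) (v : Additive N),
        g ^ q • ((v.toMul : G) • ω₀) = (((fun v => A v + Additive.ofMul c)^[q] v).toMul : G) • ω₀ := by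
      intro q
      induction q with
      | zero => intro v; simp
      | succ q ih => intro v; rw [pow_succ', mul_smul, ih, hact, Function.iterate_succ_apply']
    have hnil : (A - 1) ^ m = 0 := by
      have h1 : A ^ (p ^ r) = 1 := by
        apply LinearMap.ext; intro v
        rw [hApow, ← hg, pow_orderOf_eq_one, map_one]; rfl
      have h2 := congrArg (Polynomial.aeval A) (poly_facts p r).1
      simp only [map_pow, map_sub, map_one, Polynomial.aeval_X, h1, sub_self] at h2
      rw [← LinearMap.ker_eq_top, eq_top_iff]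
      have h3 := Module.End.ker_pow_le_ker_pow_finrank (A - 1) (p ^ r)
      rw [h2, LinearMap.ker_zero, hrank] at h3
      exact h3
    have hge : ∀ j, m ≤ j → (A - 1) ^ j = 0 := fun j hj => by
      rw [← Nat.sub_add_cancel hj, pow_add, hnil, mul_zero]
    have h1 := congrArg (Polynomial.aeval A) (poly_facts p (r - 1)).1
    have h2 := congrArg (Polynomial.aeval A) (poly_facts p (r - 1)).2
    simp only [map_pow, map_sub, map_one, map_sum, Polynomial.aeval_X] at h1 h2
    rw [hge _ hlt.le, eq_comm, sub_eq_zero] at h1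
    rw [hge _ (Nat.le_sub_one_of_lt hlt)] at h2
    have hq : g ^ (p ^ (r - 1)) = 1 := by
      refine eq_of_smul_eq_smul (α := Ω) fun x => ?_
      obtain ⟨n, rfl⟩ := hbij.2 x
      rw [one_smul]
      have h := hiter (p ^ (r - 1)) (Additive.ofMul n)
      rw [iter_affine, h1, h2] at h
      simpa using h
    have hd := orderOf_dvd_of_pow_eq_one hq
    rw [hg, Nat.pow_dvd_pow_iff_le_right hp.one_lt] at hd
    omega
  refine ⟨hmain, fun hrm => ?_⟩
  subst hrm
  have key : ∀ j : ℕ, p * (j + 1) ≤ p ^ (j + 1) := fun j => by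
    rw [pow_succ, mul_comm]
    exact Nat.mul_le_mul_right p (Nat.succ_le_of_lt (Nat.lt_pow_self hp.one_lt))
  constructor
  · by_contra hh
    obtain ⟨j, rfl⟩ : ∃ j, r = j + 3 := ⟨r - 3, by omega⟩
    have h := key (j + 1)
    rw [show j + 3 - 1 = j + 1 + 1 from rfl] at hmain
    have h2 : 2 * (j + 1 + 1) ≤ p * (j + 1 + 1) := Nat.mul_le_mul_right _ hp.two_le
    omega
  · intro hp2
    by_contra hh
    obtain ⟨j, rfl⟩ : ∃ j, r = j + 2 := ⟨r - 2, by omega⟩
    have h := key j
    rw [show j + 2 - 1 = j + 1 from rfl] at hmain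
    have h2 : 3 * (j + 1) ≤ p * (j + 1) := Nat.mul_le_mul_right _ hp2
    omega

end Cfsg.Agent.S3508
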