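import Cfsg.Statements.S3511
import Mathlib.GroupTheory.OrderOfElement
import Mathlib.Tactic

set_option autoImplicit false
open Cfsg

namespace Cfsg.Agent.S3511

/-- Let a finite group G act faithfully on a set Ω. If every element of G of square-free order has a regular cycle (an orbit of the cyclic group it generates with trivial stabilizer), then every element of G has a regular cycle. -/
theorem result {G : Type*} [Group G] [Finite G] {Ω : Type*} [MulAction G Ω] [FaithfulSMul G Ω]
    (h : ∀ g : G, Squarefree (orderOf g) → ∃ ω : Ω, MulAction.stabilizer (Subgroup.zpowers g) ω = ⊥) (g : G) :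
    ∃ ω : Ω, MulAction.stabilizer (Subgroup.zpowers g) ω = ⊥ := by
  have hn0 : orderOf g ≠ 0 := (orderOf_pos g).ne'
  set d := orderOf g
  set r := ∏ p ∈ d.primeFactors, p
  have hrd : r ∣ d := Nat.prod_primeFactors_dvd d
  have hr0 : r ≠ 0 := fun h => hn0 (zero_dvd_iff.1 (h ▸ hrd))
  have hsq : ∀ s : Finset ℕ, (∀ p ∈ s, p.Prime) → Squarefree (∏ p ∈ s, p) := by
    intro s
    induction s using Finset.induction with
    | empty => simp
    | @insert p s hps ih =>
      intro hs
      rw [Finset.prod_insert hps]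
      have hp := hs p (Finset.mem_insert_self p s)
      have hcop : Nat.Coprime p (∏ q ∈ s, q) := Nat.Coprime.prod_right fun q hq =>
        (Nat.coprime_primes hp (hs q (Finset.mem_insert_of_mem hq))).2 fun e => hps (e ▸ hq)
      exact (Nat.squarefree_mul hcop).2 ⟨hp.squarefree, ih fun q hq => hs q (Finset.mem_insert_of_mem hq)⟩
  have ho : orderOf (g ^ (d / r)) = r := by
    rw [orderOf_pow, Nat.gcd_eq_right (Nat.div_dvd_of_dvd hrd), Nat.div_div_self hrd hn0]
  obtain ⟨ω, hω⟩ := h (g ^ (d / r)) (by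
    rw [ho]; exact hsq _ fun p hp => Nat.prime_of_mem_primeFactors hp)
  refine ⟨ω, (Subgroup.eq_bot_iff_forall _).2 ?_⟩
  rintro ⟨x, hx⟩ hfix
  by_contra hne
  have hx1 : x ≠ 1 := fun h => hne (Subtype.ext h)
  obtain ⟨p, hp, hpe⟩ := Nat.exists_prime_and_dvd (fun h => hx1 (orderOf_eq_one_iff.1 h))
  obtain ⟨i, rfl⟩ := mem_powers_iff_mem_zpowers.2 hx
  simp only at hfix hx1 hpe
  set e := orderOf (g ^ i)
  set y := (g ^ i) ^ (e / p)
  have hy1 : y ≠ 1 := by
    intro hy
    have hle := Nat.le_of_dvd (Nat.div_pos (Nat.le_of_dvd (orderOf_pos _) hpe) hp.pos)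
      (orderOf_dvd_of_pow_eq_one hy)
    exact absurd (Nat.div_lt_self (orderOf_pos _) hp.one_lt) (not_lt.2 hle)
  have hyp : y ^ p = 1 := by rw [← pow_mul, Nat.div_mul_cancel hpe, pow_orderOf_eq_one]
  have hyfix : y • ω = ω := by
    have : g ^ i ∈ MulAction.stabilizer G ω := hfix
    exact Subgroup.pow_mem _ this _
  have hpd : p ∣ d := hpe.trans (orderOf_dvd_of_pow_eq_one (by
    rw [← pow_mul, mul_comm, pow_mul, pow_orderOf_eq_one, one_pow]))
  have hpr : p ∣ r := Finset.dvd_prod_of_mem _ (Nat.mem_primeFactors.2 ⟨hp, hpd, hn0⟩)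
  have hdi : d ∣ i * (e / p) * p := orderOf_dvd_of_pow_eq_one (by rw [pow_mul, pow_mul]; exact hyp)
  have hm : d / r ∣ i * (e / p) := by
    refine Nat.dvd_of_mul_dvd_mul_right hp.pos (dvd_trans ?_ hdi)
    calc d / r * p ∣ d / r * r := mul_dvd_mul_left _ hpr
      _ = d := Nat.div_mul_cancel hrd
  obtain ⟨u, hu⟩ := hm
  have hymem : y ∈ Subgroup.zpowers (g ^ (d / r)) := by
    have : y = (g ^ (d / r)) ^ u := by rw [← pow_mul, ← hu, pow_mul]
    rw [this]; exact Subgroup.npow_mem_zpowers _ _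
  have hbot := (Subgroup.eq_bot_iff_forall _).1 hω ⟨y, hymem⟩ hyfix
  exact hy1 (congrArg Subtype.val hbot)

end Cfsg.Agent.S3511
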