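import Cfsg.Statements.S3514
import Mathlib

set_option autoImplicit false
open Cfsg

namespace Cfsg.Agent.S3514

theorem relIndex_dvd_index {G : Type*} [Group G] [Finite G] (C N : Subgroup G) [N.Normal] :
    C.relIndex N ∣ C.index := by
  obtain ⟨t, ht⟩ := Subgroup.relIndex_dvd_index_of_normal N C
  have a : Nat.card ↥(C ⊓ N : Subgroup G) * C.relIndex N = Nat.card N := by
    have := (C.subgroupOf N).card_mul_index
    rwa [← Subgroup.inf_subgroupOf_right, Nat.card_congr (Subgroup.subgroupOfEquivOfLe
      (inf_le_right : C ⊓ N ≤ N)).toEquiv, Subgroup.inf_subgroupOf_right] at this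
  have b : Nat.card ↥(C ⊓ N : Subgroup G) * N.relIndex C = Nat.card C := by
    have := (N.subgroupOf C).card_mul_index
    rwa [← Subgroup.inf_subgroupOf_left, Nat.card_congr (Subgroup.subgroupOfEquivOfLe
      (inf_le_left : C ⊓ N ≤ C)).toEquiv, Subgroup.inf_subgroupOf_left] at this
  have hp : 0 < Nat.card ↥(C ⊓ N : Subgroup G) * N.relIndex C := b ▸ Nat.card_pos
  refine ⟨t, Nat.eq_of_mul_eq_mul_left hp ?_⟩
  have := C.card_mul_index.trans N.card_mul_index.symm
  rw [← a, ← b, ht] at this
  rw [this]; ring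


/-- Let p be a prime, V a finite vector space over the field with p elements, and H a group of linear transformations of V all of whose orbits on V have size coprime to p. (i) Every normal subgroup K of H has all its orbits on V of size coprime to p. (ii) If N is a group of linear transformations of V of order coprime to p that is normalized by H, then the group generated by N and H has all its orbits on V of size coprime to p. -/
theorem result (p : ℕ) [Fact p.Prime] {V : Type*} [AddCommGroup V] [Module (ZMod p) V] [Finite V]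
    (H : Subgroup (V ≃ₗ[ZMod p] V)) (hH : ∀ v : V, ¬ p ∣ Nat.card {u : V | ∃ h ∈ H, h v = u}) :
    (∀ K : Subgroup (V ≃ₗ[ZMod p] V), K ≤ H → H ≤ Subgroup.normalizer (K : Set (V ≃ₗ[ZMod p] V)) →
        ∀ v : V, ¬ p ∣ Nat.card {u : V | ∃ k ∈ K, k v = u}) ∧
    (∀ N : Subgroup (V ≃ₗ[ZMod p] V), ¬ p ∣ Nat.card N → H ≤ Subgroup.normalizer (N : Set (V ≃ₗ[ZMod p] V)) →
        ∀ v : V, ¬ p ∣ Nat.card {u : V | ∃ x ∈ N ⊔ H, x v = u}) := by
  classical
  haveI : Finite (V ≃ₗ[ZMod p] V) := Finite.of_injective _ DFunLike.coe_injective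
  have key : ∀ (K : Subgroup (V ≃ₗ[ZMod p] V)) (v : V),
      Nat.card {u : V | ∃ k ∈ K, k v = u} = (MulAction.stabilizer (V ≃ₗ[ZMod p] V) v).relIndex K := by
    intro K v
    have e : (MulAction.stabilizer (V ≃ₗ[ZMod p] V) v).subgroupOf K = MulAction.stabilizer ↥K v := rfl
    rw [Subgroup.relIndex, e, MulAction.index_stabilizer, ← Nat.card_coe_set_eq]
    congr 1
    apply congrArg
    ext u
    simp only [MulAction.mem_orbit_iff, Set.mem_setOf_eq]
    exact ⟨fun ⟨k, hk, h⟩ => ⟨⟨k, hk⟩, h⟩, fun ⟨k, h⟩ => ⟨k, k.2, h⟩⟩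
  refine ⟨fun K hKH hHK v hdvd => hH v ?_, fun N hN hHN v hdvd => hH v ?_⟩
  · rw [key] at hdvd ⊢
    haveI : (K.subgroupOf H).Normal := (Subgroup.normal_subgroupOf_iff_le_normalizer hKH).mpr hHK
    refine hdvd.trans ?_
    rw [← Subgroup.relIndex_subgroupOf hKH]
    exact relIndex_dvd_index _ _
  · rw [key] at hdvd ⊢
    set S := MulAction.stabilizer (V ≃ₗ[ZMod p] V) v
    set L := N ⊔ H with hL
    have h1 : S.relIndex L ∣ S.relIndex H * H.relIndex L := by
      rw [← Subgroup.inf_relIndex_right S H,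
        Subgroup.relIndex_mul_relIndex (S ⊓ H) H L inf_le_right le_sup_right]
      exact Subgroup.relIndex_dvd_of_le_left _ inf_le_left
    haveI : (N.subgroupOf L).Normal :=
      (Subgroup.normal_subgroupOf_iff_le_normalizer le_sup_left).mpr (sup_le Subgroup.le_normalizer hHN)
    have hsup : H.subgroupOf L ⊔ N.subgroupOf L = ⊤ := by
      rw [← Subgroup.subgroupOf_sup le_sup_right le_sup_left, Subgroup.subgroupOf_eq_top, sup_comm]
    have h2 : N.relIndex L ∣ Nat.card H := by
      rw [← Subgroup.relIndex_subgroupOf (le_refl L), Subgroup.subgroupOf_self, ← hsup,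
        Subgroup.relIndex_sup_right, Subgroup.relIndex_subgroupOf le_sup_right]
      exact Subgroup.relIndex_dvd_card N H
    have h3 : H.relIndex L ∣ Nat.card N := by
      have e1 := (H.subgroupOf L).card_mul_index
      have e2 := (N.subgroupOf L).card_mul_index
      rw [Nat.card_congr (Subgroup.subgroupOfEquivOfLe (le_sup_right : H ≤ L)).toEquiv] at e1
      rw [Nat.card_congr (Subgroup.subgroupOfEquivOfLe (le_sup_left : N ≤ L)).toEquiv] at e2
      refine Nat.dvd_of_mul_dvd_mul_left (Nat.card_pos (α := H)) ?_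
      have h4 : Nat.card N * N.relIndex L ∣ Nat.card N * Nat.card H := mul_dvd_mul_left _ h2
      rw [mul_comm (Nat.card H) (Nat.card N)]
      exact (dvd_of_eq (e1.trans e2.symm)).trans h4
    rcases ((Fact.out : p.Prime).dvd_mul.mp (hdvd.trans h1)) with h | h
    · exact h
    · exact absurd (h.trans h3) hN

end Cfsg.Agent.S3514
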