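import Cfsg.Statements.S3515
import Mathlib.GroupTheory.GroupAction.Primitive
import Mathlib.Algebra.Module.ZMod
import Mathlib.Tactic

set_option autoImplicit false
open Cfsg

namespace Cfsg.Agent.S3515

theorem ne11 : (![1, 1] : Fin 2 → ZMod 2) ≠ 0 ∧ (![1, 1] : Fin 2 → ZMod 2) ≠ ![1, 0] ∧
    (![1, 1] : Fin 2 → ZMod 2) ≠ ![0, 1] := by decide

theorem all_two : ∀ y : Fin 2 → ZMod 2, y = 0 ∨ y = ![1, 0] ∨ y = ![0, 1] ∨ y = ![1, 1] := by decide

variable {p : ℕ} [Fact p.Prime] {d : ℕ}

/-- agreeing with some affine map on every triple, for odd `p`, forces affineness -/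
lemma affine_of_triples (hp : p ≠ 2) (G : Subgroup (Equiv.Perm (Fin d → ZMod p)))
    (haff : ∀ g ∈ G, ∃ (A : (Fin d → ZMod p) ≃ₗ[ZMod p] (Fin d → ZMod p)) (b : Fin d → ZMod p), ∀ x, g x = A x + b)
    (σ : Equiv.Perm (Fin d → ZMod p)) (hσ : ∀ t : Fin 3 → (Fin d → ZMod p), ∃ g ∈ G, ∀ i, σ (t i) = g (t i)) :
    ∃ (A : (Fin d → ZMod p) ≃ₗ[ZMod p] (Fin d → ZMod p)) (b : Fin d → ZMod p), ∀ x, σ x = A x + b := by
  have h2 : (2 : ZMod p) ≠ 0 := by
    intro h
    have : ((2 : ℕ) : ZMod p) = 0 := by exact_mod_cast h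
    rw [ZMod.natCast_eq_zero_iff] at this
    exact hp ((Nat.prime_dvd_prime_iff_eq Fact.out Nat.prime_two).1 this)
  have hmid : ∀ u v : Fin d → ZMod p, σ u + σ v = (2 : ZMod p) • σ ((2⁻¹ : ZMod p) • (u + v)) := by
    intro u v
    obtain ⟨g, hg, hgt⟩ := hσ ![u, v, (2⁻¹ : ZMod p) • (u + v)]
    obtain ⟨A, b, hA⟩ := haff g hg
    have e0 : σ u = g u := hgt 0
    have e1 : σ v = g v := hgt 1
    have e2 : σ ((2⁻¹ : ZMod p) • (u + v)) = g ((2⁻¹ : ZMod p) • (u + v)) := hgt 2
    rw [e0, e1, e2, hA, hA, hA, map_smul, smul_add, smul_smul, mul_inv_cancel₀ h2, one_smul, map_add,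
      two_smul]
    abel
  have hadd : ∀ u v, σ (u + v) - σ 0 = (σ u - σ 0) + (σ v - σ 0) := by
    intro u v
    have ha := hmid (u + v) 0
    rw [add_zero] at ha
    rw [← hmid u v] at ha
    rw [sub_add_sub_comm, ← ha]
    abel
  let L : (Fin d → ZMod p) →+ (Fin d → ZMod p) :=
    AddMonoidHom.mk' (fun x => σ x - σ 0) hadd
  have hL : Function.Bijective (L.toZModLinearMap p) := by
    have : ∀ x, L.toZModLinearMap p x = σ x - σ 0 := fun x => rfl
    constructor
    · intro x y hxy
      rw [this, this] at hxy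
      exact σ.injective (sub_left_injective hxy)
    · intro y
      exact ⟨σ.symm (y + σ 0), by rw [this, Equiv.apply_symm_apply, add_sub_cancel_right]⟩
  refine ⟨LinearEquiv.ofBijective _ hL, σ 0, fun x => ?_⟩
  show σ x = (σ x - σ 0) + σ 0
  rw [sub_add_cancel]


/-- Every primitive affine permutation group of degree p² is 3-closed. Let p be a prime and G a group of permutations of the plane V = F_p² consisting of affine maps x ↦ Ax + b, containing all translations, and acting primitively on V. Then any permutation σ of V that agrees on every triple of points with some element of G (σ preserves every G-orbit on ordered triples) already lies in G. -/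
theorem result (p : ℕ) [Fact p.Prime] (G : Subgroup (Equiv.Perm (Fin 2 → ZMod p)))
    (haff : (G : Set (Equiv.Perm (Fin 2 → ZMod p))) ⊆ {τ : Equiv.Perm (Fin 2 → ZMod p) | ∃ (A : (Fin 2 → ZMod p) ≃ₗ[ZMod p] (Fin 2 → ZMod p)) (b : Fin 2 → ZMod p), ∀ x, τ x = A x + b})
    (htrans : ∀ b : Fin 2 → ZMod p, ∃ g ∈ G, ∀ x, g x = x + b) (hprim : MulAction.IsPreprimitive G (Fin 2 → ZMod p))
    (σ : Equiv.Perm (Fin 2 → ZMod p)) (hσ : (∀ t : Fin 3 → (Fin 2 → ZMod p), ∃ g ∈ G, ∀ i, σ (t i) = g (t i))) : σ ∈ G := by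
  obtain ⟨g, hg, hgt⟩ := hσ ![0, ![1, 0], ![0, 1]]
  obtain ⟨A, b, hA⟩ := haff hg
  suffices σ = g by rwa [this]
  have h0 : σ 0 = g 0 := hgt 0
  have h1 : σ ![1, 0] = g ![1, 0] := hgt 1
  have h2 : σ ![0, 1] = g ![0, 1] := hgt 2
  by_cases hp : p = 2
  · subst hp
    have hall := all_two
    refine Equiv.ext fun x => ?_
    rcases hall x with rfl | rfl | rfl | rfl
    · exact h0
    · exact h1
    · exact h2
    · rcases hall (g⁻¹ (σ ![1, 1])) with h | h | h | h
      · exfalso
        have := congrArg g h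
        simp only [Equiv.Perm.inv_def, Equiv.apply_symm_apply] at this; rw [← h0] at this
        exact ne11.1 (σ.injective this)
      · exfalso
        have := congrArg g h
        simp only [Equiv.Perm.inv_def, Equiv.apply_symm_apply] at this; rw [← h1] at this
        exact ne11.2.1 (σ.injective this)
      · exfalso
        have := congrArg g h
        simp only [Equiv.Perm.inv_def, Equiv.apply_symm_apply] at this; rw [← h2] at this
        exact ne11.2.2 (σ.injective this)
      · have := congrArg g h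
        simpa [Equiv.Perm.inv_def] using this
  · obtain ⟨B, c, hB⟩ := affine_of_triples hp G (fun k hk => haff hk) σ hσ
    have hc : c = b := by have := h0; rwa [hB, hA, map_zero, map_zero, zero_add, zero_add] at this
    subst hc
    rw [hB, hA, add_left_inj] at h1 h2
    refine Equiv.ext fun x => ?_
    rw [hB, hA]
    have hx : x = x 0 • ![1, 0] + x 1 • ![0, 1] := by
      funext i; fin_cases i <;> simp
    rw [hx, map_add, map_add, map_smul, map_smul, map_smul, map_smul, h1, h2]

end Cfsg.Agent.S3515
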