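import Cfsg.Statements.S3516
import Mathlib.LinearAlgebra.Determinant
import Mathlib.Algebra.Module.ZMod
import Mathlib.Tactic

set_option autoImplicit false
open Cfsg

namespace Cfsg.Agent.S3516

theorem ne11 : (![1, 1] : Fin 2 → ZMod 2) ≠ 0 ∧ (![1, 1] : Fin 2 → ZMod 2) ≠ ![1, 0] ∧
    (![1, 1] : Fin 2 → ZMod 2) ≠ ![0, 1] := by decide

theorem all_two : ∀ y : Fin 2 → ZMod 2, y = 0 ∨ y = ![1, 0] ∨ y = ![0, 1] ∨ y = ![1, 1] := by decide

variable {p : ℕ} [Fact p.Prime] {d : ℕ}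

/-- agreeing with some affine map on every triple, for odd `p`, forces affineness -/
lemma affine_of_triples (hp : p ≠ 2) (G : Subgroup (Equiv.Perm (Fin d → ZMod p)))
    (haff : ∀ g ∈ G, ∃ (A : (Fin d → ZMod p) ≃ₗ[ZMod p] (Fin d → ZMod p)) (b : Fin d → ZMod p), ∀ x, g x = A x + b)
    (σ : Equiv.Perm (Fin d → ZMod p)) (hσ : ∀ t : Fin 3 → (Fin d → ZMod p), ∃ g ∈ G, ∀ i, σ (t i) = g (t i)) :
    ∃ (A : (Fin d → ZMod p) ≃ₗ[ZMod p] (Fin d → ZMod p)) (b : Fin d → ZMod p), ∀ x, σ x = A x + b := by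
  have h2 : (2 : ZMod p) ≠ 0 := by
    intro h
    have : ((2 : ℕ) : ZMod p) = 0 := by exact_mod_cast h
    rw [ZMod.natCast_eq_zero_iff] at this
    exact hp ((Nat.prime_dvd_prime_iff_eq Fact.out Nat.prime_two).1 this)
  have hmid : ∀ u v : Fin d → ZMod p, σ u + σ v = (2 : ZMod p) • σ ((2⁻¹ : ZMod p) • (u + v)) := by
    intro u v
    obtain ⟨g, hg, hgt⟩ := hσ ![u, v, (2⁻¹ : ZMod p) • (u + v)]
    obtain ⟨A, b, hA⟩ := haff g hg
    have e0 : σ u = g u := hgt 0
    have e1 : σ v = g v := hgt 1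
    have e2 : σ ((2⁻¹ : ZMod p) • (u + v)) = g ((2⁻¹ : ZMod p) • (u + v)) := hgt 2
    rw [e0, e1, e2, hA, hA, hA, map_smul, smul_add, smul_smul, mul_inv_cancel₀ h2, one_smul, map_add,
      two_smul]
    abel
  have hadd : ∀ u v, σ (u + v) - σ 0 = (σ u - σ 0) + (σ v - σ 0) := by
    intro u v
    have ha := hmid (u + v) 0
    rw [add_zero] at ha
    rw [← hmid u v] at ha
    rw [sub_add_sub_comm, ← ha]
    abel
  let L : (Fin d → ZMod p) →+ (Fin d → ZMod p) :=
    AddMonoidHom.mk' (fun x => σ x - σ 0) hadd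
  have hL : Function.Bijective (L.toZModLinearMap p) := by
    have : ∀ x, L.toZModLinearMap p x = σ x - σ 0 := fun x => rfl
    constructor
    · intro x y hxy
      rw [this, this] at hxy
      exact σ.injective (sub_left_injective hxy)
    · intro y
      exact ⟨σ.symm (y + σ 0), by rw [this, Equiv.apply_symm_apply, add_sub_cancel_right]⟩
  refine ⟨LinearEquiv.ofBijective _ hL, σ 0, fun x => ?_⟩
  show σ x = (σ x - σ 0) + σ 0
  rw [sub_add_cancel]

/-- a linear map of prescribed determinant fixing two given vectors, `3 ≤ d` -/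
lemma exists_fix (hd : 3 ≤ d) (x y : Fin d → ZMod p) (c : ZMod p) (hc : c ≠ 0) :
    ∃ C : (Fin d → ZMod p) ≃ₗ[ZMod p] (Fin d → ZMod p),
      LinearMap.det (C : (Fin d → ZMod p) →ₗ[ZMod p] (Fin d → ZMod p)) = c ∧ C x = x ∧ C y = y := by
  classical
  set W := Submodule.span (ZMod p) ({x, y} : Set (Fin d → ZMod p)) with hW
  have hW2 : Module.finrank (ZMod p) W ≤ 2 := by
    have := finrank_span_finset_le_card (R := ZMod p) ({x, y} : Finset (Fin d → ZMod p))
    rw [Finset.coe_pair] at this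
    exact this.trans (Finset.card_le_two)
  obtain ⟨U, hU⟩ := Submodule.exists_isCompl W
  have hU0 : 0 < Module.finrank (ZMod p) U := by
    have := Submodule.finrank_add_eq_of_isCompl hU
    rw [Module.finrank_fin_fun] at this
    omega
  let b := Module.finBasis (ZMod p) U
  obtain ⟨M, hM⟩ : ∃ M : U ≃ₗ[ZMod p] U, LinearMap.det (M : U →ₗ[ZMod p] U) = c := by
    let D := Matrix.toLin b b (Matrix.diagonal fun i => if i = (⟨0, hU0⟩ : Fin _) then c else 1)
    have hD : LinearMap.det D = c := by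
      rw [LinearMap.det_toLin, Matrix.det_diagonal]
      simp
    have hDu : IsUnit (LinearMap.det D) := by rw [hD]; exact isUnit_iff_ne_zero.2 hc
    exact ⟨LinearMap.equivOfDetNeZero D hDu.ne_zero, hD⟩
  let e := Submodule.prodEquivOfIsCompl W U hU
  refine ⟨(e.symm.trans ((LinearEquiv.refl _ W).prodCongr M)).trans e, ?_, ?_, ?_⟩
  · rw [LinearEquiv.coe_trans, LinearEquiv.coe_trans, LinearMap.det_conj, LinearEquiv.coe_prodCongr,
      LinearMap.det_prodMap, LinearEquiv.refl_toLinearMap, LinearMap.det_id, one_mul, hM]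
  · have hx : x ∈ W := Submodule.subset_span (by simp)
    simp [e, Submodule.prodEquivOfIsCompl_symm_apply_left W U hU ⟨x, hx⟩]
  · have hy : y ∈ W := Submodule.subset_span (by simp)
    simp [e, Submodule.prodEquivOfIsCompl_symm_apply_left W U hU ⟨y, hy⟩]


/-- Let p be an odd prime, d ≥ 3, and G a group of affine permutations x ↦ Ax + b of V = F_p^d containing all translations and all maps x ↦ Ax with A of determinant 1. Then the 3-closure of G is the full affine group: a permutation σ of V agrees on every triple of points with some element of G if and only if σ is an affine map. -/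
theorem result (p : ℕ) [Fact p.Prime] (hp : p ≠ 2) (d : ℕ) (hd : 3 ≤ d) (G : Subgroup (Equiv.Perm (Fin d → ZMod p)))
    (haff : (G : Set (Equiv.Perm (Fin d → ZMod p))) ⊆ {τ : Equiv.Perm (Fin d → ZMod p) | ∃ (A : (Fin d → ZMod p) ≃ₗ[ZMod p] (Fin d → ZMod p)) (b : Fin d → ZMod p), ∀ x, τ x = A x + b})
    (htrans : ∀ b : Fin d → ZMod p, ∃ g ∈ G, ∀ x, g x = x + b)
    (hsl : ∀ A : (Fin d → ZMod p) ≃ₗ[ZMod p] (Fin d → ZMod p), LinearMap.det (A : (Fin d → ZMod p) →ₗ[ZMod p] (Fin d → ZMod p)) = 1 → ∃ g ∈ G, ∀ x, g x = A x)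
    (σ : Equiv.Perm (Fin d → ZMod p)) :
    (∀ t : Fin 3 → (Fin d → ZMod p), ∃ g ∈ G, ∀ i, σ (t i) = g (t i)) ↔ σ ∈ {τ : Equiv.Perm (Fin d → ZMod p) | ∃ (A : (Fin d → ZMod p) ≃ₗ[ZMod p] (Fin d → ZMod p)) (b : Fin d → ZMod p), ∀ x, τ x = A x + b} := by
  constructor
  · intro h
    exact affine_of_triples hp G (fun k hk => haff hk) σ h
  · rintro ⟨A, b, hA⟩ t
    obtain ⟨C, hCdet, hC1, hC2⟩ := exists_fix hd (A (t 1 - t 0)) (A (t 2 - t 0))
      (LinearMap.det (A : (Fin d → ZMod p) →ₗ[ZMod p] (Fin d → ZMod p)))⁻¹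
      (inv_ne_zero A.isUnit_det'.ne_zero)
    have hdet : LinearMap.det ((A.trans C : (Fin d → ZMod p) ≃ₗ[ZMod p] (Fin d → ZMod p)) :
        (Fin d → ZMod p) →ₗ[ZMod p] (Fin d → ZMod p)) = 1 := by
      rw [LinearEquiv.coe_trans, LinearMap.det_comp, hCdet, inv_mul_cancel₀ A.isUnit_det'.ne_zero]
    obtain ⟨g, hg, hgA⟩ := hsl _ hdet
    obtain ⟨u, hu, hua⟩ := htrans (-(t 0))
    obtain ⟨v, hv, hva⟩ := htrans (σ (t 0))
    refine ⟨v * g * u, G.mul_mem (G.mul_mem hv hg) hu, fun i => ?_⟩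
    rw [Equiv.Perm.mul_apply, Equiv.Perm.mul_apply, hua, hva, hgA, ← sub_eq_add_neg, LinearEquiv.trans_apply]
    have key : C (A (t i - t 0)) = A (t i - t 0) := by
      fin_cases i
      · simp
      · exact hC1
      · exact hC2
    rw [key, hA, hA, map_sub]
    abel

end Cfsg.Agent.S3516
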