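import Cfsg.Statements.S3517
import Mathlib.LinearAlgebra.Dual.Lemmas
import Mathlib.Algebra.CharP.Two
import Mathlib.Tactic

set_option autoImplicit false
open Cfsg

namespace Cfsg.Agent.S3517

/-- For d ≥ 3, the 3-closure of the affine group AGL_d(2) acting on F_2^d is the full symmetric group: every permutation of F_2^d agrees on every ordered triple of points with some affine map (AGL_d(2) is 3-transitive). -/
theorem result (d : ℕ) (hd : 3 ≤ d) (σ : Equiv.Perm (Fin d → ZMod 2)) (t : Fin 3 → (Fin d → ZMod 2)) :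
    ∃ (A : (Fin d → ZMod 2) ≃ₗ[ZMod 2] (Fin d → ZMod 2)) (b : Fin d → ZMod 2), ∀ i, σ (t i) = A (t i) + b := by
  have key : ∀ u x y : Fin d → ZMod 2, (x = 0 ↔ y = 0) → (x = u ↔ y = u) →
      ∃ A : (Fin d → ZMod 2) ≃ₗ[ZMod 2] (Fin d → ZMod 2), A u = u ∧ A x = y := by
    intro u x y h0 hu
    by_cases hx0 : x = 0
    · exact ⟨LinearEquiv.refl _ _, rfl, by simp [hx0, h0.1 hx0]⟩
    by_cases hxu : x = u
    · exact ⟨LinearEquiv.refl _ _, rfl, by simp [hxu, hu.1 hxu]⟩
    by_cases hxy : x = y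
    · exact ⟨LinearEquiv.refl _ _, rfl, by simp [hxy]⟩
    have hy0 : y ≠ 0 := fun h => hx0 (h0.2 h)
    have hyu : y ≠ u := fun h => hxu (hu.2 h)
    have hself : ∀ z : Fin d → ZMod 2, z + z = 0 := fun z => by
      funext i; exact CharTwo.add_self_eq_zero _
    have hnot : x ∉ Submodule.span (ZMod 2) ({u, x + y} : Set (Fin d → ZMod 2)) := by
      intro hmem
      obtain ⟨c, e, hce⟩ := Submodule.mem_span_pair.1 hmem
      have h2 : ∀ c : ZMod 2, c = 0 ∨ c = 1 := by decide
      rcases h2 c with rfl | rfl <;> rcases h2 e with rfl | rfl <;> simp at hce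
      · exact hx0 hce.symm
      · exact hy0 hce
      · exact hxu hce.symm
      · refine hyu ?_
        calc y = (x + x) + (u + u) + y := by rw [hself, hself]; simp
          _ = x + u + (u + (x + y)) := by abel
          _ = x + u + x := by rw [hce]
          _ = (x + x) + u := by abel
          _ = u := by rw [hself, zero_add]
    obtain ⟨f, hfx, hf⟩ := Submodule.exists_dual_map_eq_bot_of_notMem hnot inferInstance
    have hfu : f u = 0 := by
      have := Submodule.mem_map_of_mem (f := f) (Submodule.subset_span (show u ∈ ({u, x + y} : Set (Fin d → ZMod 2)) by simp))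
      rwa [hf, Submodule.mem_bot] at this
    have hfxy : f (x + y) = 0 := by
      have := Submodule.mem_map_of_mem (f := f) (Submodule.subset_span (show x + y ∈ ({u, x + y} : Set (Fin d → ZMod 2)) by simp))
      rwa [hf, Submodule.mem_bot] at this
    have hfx1 : f x = 1 := by
      have h2 : ∀ c : ZMod 2, c ≠ 0 → c = 1 := by decide
      exact h2 _ hfx
    let T : (Fin d → ZMod 2) →ₗ[ZMod 2] (Fin d → ZMod 2) := LinearMap.id + f.smulRight (x + y)
    have hT : Function.Involutive T := fun z => by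
      show (z + f z • (x + y)) + f (z + f z • (x + y)) • (x + y) = z
      rw [map_add, map_smul, hfxy, smul_zero, add_zero, add_assoc, ← add_smul,
        CharTwo.add_self_eq_zero, zero_smul, add_zero]
    refine ⟨LinearEquiv.ofInvolutive T hT, ?_, ?_⟩
    · show T u = u
      simp [T, hfu]
    · show T x = y
      simp only [T, LinearMap.add_apply, LinearMap.id_apply, LinearMap.smulRight_apply, hfx1, one_smul]
      rw [← add_assoc, hself, zero_add]
  obtain ⟨A₁, -, hA₁⟩ := key 0 (t 1 - t 0) (σ (t 1) - σ (t 0))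
    (by simp [sub_eq_zero]) (by simp [sub_eq_zero])
  obtain ⟨A₂, hA₂u, hA₂⟩ := key (σ (t 1) - σ (t 0)) (A₁ (t 2 - t 0)) (σ (t 2) - σ (t 0))
    (by rw [LinearEquiv.map_eq_zero_iff, sub_eq_zero, sub_eq_zero, σ.injective.eq_iff])
    (by rw [← hA₁, A₁.injective.eq_iff, hA₁, sub_left_inj, sub_left_inj, σ.injective.eq_iff])
  refine ⟨A₁.trans A₂, σ (t 0) - A₂ (A₁ (t 0)), fun i => ?_⟩
  simp only [LinearEquiv.trans_apply]
  have e1 : A₂ (A₁ (t 1)) - A₂ (A₁ (t 0)) = σ (t 1) - σ (t 0) := by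
    rw [← map_sub, ← map_sub, hA₁, hA₂u]
  have e2 : A₂ (A₁ (t 2)) - A₂ (A₁ (t 0)) = σ (t 2) - σ (t 0) := by
    rw [← map_sub, ← map_sub, hA₂]
  fin_cases i
  · simp
  · show σ (t 1) = A₂ (A₁ (t 1)) + (σ (t 0) - A₂ (A₁ (t 0)))
    rw [← add_sub_assoc, add_comm, add_sub_assoc, e1, add_sub_cancel]
  · show σ (t 2) = A₂ (A₁ (t 2)) + (σ (t 0) - A₂ (A₁ (t 0)))
    rw [← add_sub_assoc, add_comm, add_sub_assoc, e2, add_sub_cancel]

end Cfsg.Agent.S3517
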