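import Cfsg.Statements.S3518
import Cfsg.Agent.Lib.Slopes
import Mathlib.GroupTheory.Index
import Mathlib.Tactic

set_option autoImplicit false
open Cfsg

namespace Cfsg.Agent.S3518

/-- Closures of subgroups of the one-dimensional affine group. Let p be a prime and G a group of permutations of F_p lying in the affine group AGL₁(p) = {x ↦ ax + b, a ≠ 0} and containing all translations. (1) If G is a proper subgroup of AGL₁(p), then G is 2-closed: a permutation of F_p agreeing on every ordered pair of points with some element of G lies in G. (2) Every permutation of F_p agrees on every ordered pair with some element of AGL₁(p) (the 2-closure of AGL₁(p) is the symmetric group). (3) AGL₁(p) is 3-closed: a permutation agreeing on every ordered triple with some affine map is affine. -/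
theorem result (p : ℕ) [Fact p.Prime] (G : Subgroup (Equiv.Perm (ZMod p))) (hG : G ≤ Cfsg.affineGroup (ZMod p))
    (htrans : ∀ b : ZMod p, ∃ g ∈ G, ∀ x, g x = x + b) :
    (G ≠ Cfsg.affineGroup (ZMod p) → ∀ σ : Equiv.Perm (ZMod p), (∀ t : Fin 2 → ZMod p, ∃ g ∈ G, ∀ i, σ (t i) = g (t i)) → σ ∈ G) ∧
    (∀ σ : Equiv.Perm (ZMod p), (∀ t : Fin 2 → ZMod p, ∃ g ∈ Cfsg.affineGroup (ZMod p), ∀ i, σ (t i) = g (t i))) ∧
    (∀ σ : Equiv.Perm (ZMod p), (∀ t : Fin 3 → ZMod p, ∃ g ∈ Cfsg.affineGroup (ZMod p), ∀ i, σ (t i) = g (t i)) → σ ∈ Cfsg.affineGroup (ZMod p)) := by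
  classical
  haveI hp : Fact p.Prime := inferInstance
  let A : Subgroup (ZMod p)ˣ :=
    { carrier := {a | ∃ g ∈ G, ∃ b, ∀ x, g x = (a : ZMod p) * x + b}
      one_mem' := ⟨1, G.one_mem, 0, fun x => by simp⟩
      mul_mem' := fun {a c} ⟨g, hg, b, hgx⟩ ⟨k, hk, d, hkx⟩ => ⟨g * k, G.mul_mem hg hk,
        (a : ZMod p) * d + b, fun x => by rw [Equiv.Perm.mul_apply, hkx, hgx, Units.val_mul]; ring⟩
      inv_mem' := fun {a} ⟨g, hg, b, hgx⟩ => ⟨g⁻¹, G.inv_mem hg, -((a⁻¹ : (ZMod p)ˣ) : ZMod p) * b,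
        fun x => by
          apply g.injective
          rw [Equiv.Perm.inv_def, Equiv.apply_symm_apply, hgx, mul_add, ← mul_assoc, Units.mul_inv,
            one_mul, neg_mul, mul_neg, ← mul_assoc, Units.mul_inv, one_mul, neg_add_cancel_right]⟩ }
  have hmem : ∀ (σ : Equiv.Perm (ZMod p)) (a : (ZMod p)ˣ) (b : ZMod p), a ∈ A →
      (∀ x, σ x = (a : ZMod p) * x + b) → σ ∈ G := by
    rintro σ a b ⟨g, hg, b', hgx⟩ hσ
    obtain ⟨k, hk, hkx⟩ := htrans (b - b')
    have : σ = k * g := Equiv.ext fun x => by rw [Equiv.Perm.mul_apply, hkx, hgx, hσ]; ring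
    exact this ▸ G.mul_mem hk hg
  refine ⟨fun hne σ hσ => ?_, fun σ t => ?_, fun σ hσ => ?_⟩
  · have hA : A ≠ ⊤ := fun h => hne (le_antisymm hG fun τ ⟨a, b, hτ⟩ => hmem τ a b (h ▸ trivial) hτ)
    have hidx : 2 ≤ A.index := by
      have h1 : A.index ≠ 1 := fun h => hA (Subgroup.index_eq_one.1 h)
      have h2 : A.index ≠ 0 := Subgroup.index_ne_zero_of_finite
      omega
    have hcard := A.card_mul_index
    rw [show Nat.card (ZMod p)ˣ = p - 1 by rw [Nat.card_eq_fintype_card, ZMod.card_units]] at hcard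
    let S : Finset (ZMod p) := Finset.univ.filter fun c => ∃ a ∈ A, (a : ZMod p) = c
    have hS : S.card ≤ Nat.card A := by
      have hsub : S ⊆ (Finset.univ : Finset A).image (fun a : A => ((a : (ZMod p)ˣ) : ZMod p)) := by
        intro c hc
        obtain ⟨a, ha, rfl⟩ := (Finset.mem_filter.1 hc).2
        exact Finset.mem_image.2 ⟨⟨a, ha⟩, Finset.mem_univ _, rfl⟩
      refine (Finset.card_le_card hsub).trans (Finset.card_image_le.trans ?_)
      rw [Nat.card_eq_fintype_card, Finset.card_univ]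
    have h2S : 2 * S.card + 1 ≤ p := by
      have := hp.out.two_le
      have := Nat.mul_le_mul_left (Nat.card A) hidx
      omega
    have hodd : p ≠ 2 := by
      have h1 : 1 ≤ Nat.card A := Nat.card_pos
      have := Nat.mul_le_mul h1 hidx
      omega
    have hslope : ∀ x y, x ≠ y → ∃ a ∈ A, σ x - σ y = (a : ZMod p) * (x - y) := by
      intro x y _
      obtain ⟨g, hg, hgt⟩ := hσ ![x, y]
      obtain ⟨a, b, hgx⟩ := hG hg
      have e0 : σ x = g x := by simpa using hgt 0
      have e1 : σ y = g y := by simpa using hgt 1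
      exact ⟨a, ⟨g, hg, b, hgx⟩, by rw [e0, e1, hgx, hgx]; ring⟩
    obtain ⟨c, b, hcb⟩ := CfsgLib.Slopes.affine_of_few_slopes (f := σ) (S := S) hodd h2S fun x y hxy => by
      obtain ⟨a, ha, he⟩ := hslope x y hxy
      exact Finset.mem_filter.2 ⟨Finset.mem_univ _, a, ha,
        by rw [he, mul_div_assoc, div_self (sub_ne_zero.2 hxy), mul_one]⟩
    obtain ⟨a, ha, he⟩ := hslope 1 0 one_ne_zero
    refine hmem σ a b ha fun x => ?_
    rw [hcb 1, hcb 0] at he
    rw [hcb x]
    linear_combination x * he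
  · by_cases h : t 0 = t 1
    · refine ⟨Equiv.addRight (σ (t 0) - t 0), ⟨1, σ (t 0) - t 0, fun x => by simp⟩, fun i => ?_⟩
      fin_cases i <;> simp [← h]
    · have hd : t 0 - t 1 ≠ 0 := sub_ne_zero.2 h
      have hd' : σ (t 0) - σ (t 1) ≠ 0 := sub_ne_zero.2 fun e => h (σ.injective e)
      let a : (ZMod p)ˣ := Units.mk0 ((σ (t 0) - σ (t 1)) / (t 0 - t 1)) (div_ne_zero hd' hd)
      have key : ((σ (t 0) - σ (t 1)) / (t 0 - t 1)) * (t 0 - t 1) = σ (t 0) - σ (t 1) :=
        div_mul_cancel₀ _ hd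
      refine ⟨(Equiv.mulLeft₀ (a : ZMod p) a.ne_zero).trans (Equiv.addRight (σ (t 1) - (a : ZMod p) * t 1)),
        ⟨a, σ (t 1) - (a : ZMod p) * t 1, fun x => by simp⟩, fun i => ?_⟩
      fin_cases i
      · simp [a]; linear_combination -key
      · simp [a]
  · obtain ⟨g, ⟨a, b, hgx⟩, hgt⟩ := hσ ![0, 1, 0]
    refine ⟨a, b, fun x => ?_⟩
    obtain ⟨g', ⟨a', b', hgx'⟩, hgt'⟩ := hσ ![0, 1, x]
    have e0 : σ 0 = g 0 := by simpa using hgt 0
    have e1 : σ 1 = g 1 := by simpa using hgt 1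
    have f0 : σ 0 = g' 0 := by simpa using hgt' 0
    have f1 : σ 1 = g' 1 := by simpa using hgt' 1
    have f2 : σ x = g' x := by simpa using hgt' 2
    rw [hgx] at e0 e1
    rw [hgx'] at f0 f1 f2
    rw [f2]
    linear_combination x * (e1 - f1) + (1 - x) * (e0 - f0)

end Cfsg.Agent.S3518
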