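import Cfsg.Statements.S3524
import Mathlib.Data.Fin.Tuple.Basic

set_option autoImplicit false
open Cfsg

namespace Cfsg.Agent.S3524

/-- A permutation group with a base is closed at one level above the base size. Let G be a group of permutations of a set Ω and suppose some k points α₁, …, α_k are fixed simultaneously only by the identity of G (a base of size k). Then G is (k+1)-closed: a permutation of Ω that agrees on every (k+1)-tuple of points with some element of G belongs to G. -/
theorem result {Ω : Type*} (G : Subgroup (Equiv.Perm Ω)) (k : ℕ) (α : Fin k → Ω)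
    (hbase : ∀ g ∈ G, (∀ i, g (α i) = α i) → g = 1) (σ : Equiv.Perm Ω)
    (hσ : ∀ t : Fin (k + 1) → Ω, ∃ g ∈ G, ∀ i, σ (t i) = g (t i)) : σ ∈ G := by
  rcases isEmpty_or_nonempty Ω with hΩ | ⟨⟨ω₀⟩⟩
  · rw [Subsingleton.elim σ 1]; exact G.one_mem
  choose f hf hfe using fun ω => hσ (Fin.cons ω α)
  have hsame : ∀ ω, f ω = f ω₀ := by
    intro ω
    refine (inv_mul_eq_one.1 (hbase _ (G.mul_mem (G.inv_mem (hf ω₀)) (hf ω)) fun i => ?_)).symm
    have h1 := hfe ω i.succ
    have h2 := hfe ω₀ i.succ
    simp only [Fin.cons_succ] at h1 h2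
    rw [Equiv.Perm.mul_apply, ← h1, h2]; simp
  have : σ = f ω₀ := by
    ext ω
    have h1 := hfe ω 0
    simp only [Fin.cons_zero, hsame ω] at h1
    exact h1
  rw [this]; exact hf ω₀

end Cfsg.Agent.S3524
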