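import Cfsg.Statements.S3532
import Cfsg.Agent.Lib.PGL2Orders
import Cfsg.Agent.Lib.SpectrumExt
import Mathlib

set_option autoImplicit false
open Cfsg

namespace Cfsg.Agent.S3532

set_option linter.unusedSectionVars false

open CfsgLib.PGL2Orders (mk mk_eq_one_iff trichotomy)

universe u

variable {F : Type u} [Field F] [Fintype F]

local notation "SL" => Matrix.SpecialLinearGroup (Fin 2) F
local notation "PSL" => Matrix.ProjectiveSpecialLinearGroup (Fin 2) F
local notation "G2" => Matrix.GeneralLinearGroup (Fin 2) F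

abbrev dd (F : Type u) [Fintype F] : ℕ := Nat.gcd 2 (Fintype.card F - 1)
abbrev aa (F : Type u) [Fintype F] : ℕ := (Fintype.card F - 1) / dd F
abbrev bb (F : Type u) [Fintype F] : ℕ := (Fintype.card F + 1) / dd F

lemma mk_one_iff (h : SL) : (QuotientGroup.mk h : PSL) = 1 ↔ mk (Matrix.SpecialLinearGroup.toGL h) = 1 := by
  rw [mk_eq_one_iff]
  erw [QuotientGroup.eq_one_iff]
  rw [Matrix.SpecialLinearGroup.mem_center_iff]
  constructor
  · rintro ⟨r, -, hr⟩
    exact ⟨r, by rw [show (Matrix.scalar (Fin 2)) r = r • (1 : Matrix (Fin 2) (Fin 2) F) by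
      rw [Matrix.smul_one_eq_diagonal]; rfl] at hr; exact hr.symm⟩
  · rintro ⟨a, ha⟩
    have ha' : (h : Matrix (Fin 2) (Fin 2) F) = a • 1 := ha
    refine ⟨a, ?_, by rw [ha', Matrix.smul_one_eq_diagonal]; rfl⟩
    have hd := h.2
    rw [ha', Matrix.det_smul, Matrix.det_one, mul_one] at hd
    exact hd

lemma orderOf_eq (h : SL) : orderOf (QuotientGroup.mk h : PSL) = orderOf (mk (Matrix.SpecialLinearGroup.toGL h)) := by
  refine orderOf_eq_orderOf_iff.2 fun n => ?_
  rw [← QuotientGroup.mk_pow, mk_one_iff, map_pow, map_pow]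

lemma sq_one (g : SL) (hg : g ^ 2 = 1) : (QuotientGroup.mk g : PSL) = 1 ∨ (2 : F) = 0 := by
  by_cases h2 : (2 : F) = 0
  · exact Or.inr h2
  left
  erw [QuotientGroup.eq_one_iff]
  rw [Matrix.SpecialLinearGroup.mem_center_iff]
  have hi : g⁻¹ = g := inv_eq_of_mul_eq_one_right (by rw [← pow_two]; exact hg)
  rw [Matrix.SpecialLinearGroup.SL2_inv_expl] at hi
  have hd := g.2
  rw [Matrix.det_fin_two] at hd
  have h00 : g.1 1 1 = g.1 0 0 := congrFun (congrFun (congrArg Subtype.val hi) 0) 0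
  have h01 : -g.1 0 1 = g.1 0 1 := congrFun (congrFun (congrArg Subtype.val hi) 0) 1
  have h10 : -g.1 1 0 = g.1 1 0 := congrFun (congrFun (congrArg Subtype.val hi) 1) 0
  have b0 : g.1 0 1 = 0 := (mul_eq_zero.1 (show (2 : F) * g.1 0 1 = 0 by linear_combination -h01)).resolve_left h2
  have c0 : g.1 1 0 = 0 := (mul_eq_zero.1 (show (2 : F) * g.1 1 0 = 0 by linear_combination -h10)).resolve_left h2
  rw [b0, c0, h00, mul_zero, sub_zero] at hd
  refine ⟨g.1 0 0, by rw [Fintype.card_fin, pow_two]; exact hd, ?_⟩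
  ext i j; fin_cases i <;> fin_cases j <;> simp [b0, c0, h00]

lemma dd_eq (p : ℕ) [Fact p.Prime] [CharP F p] :
    (p = 2 ∧ dd F = 1) ∨ (p ≠ 2 ∧ dd F = 2 ∧ 2 ∣ Fintype.card F - 1 ∧ 2 ∣ Fintype.card F + 1 ∧ (2 : F) ≠ 0) := by
  obtain ⟨k, hp, hk⟩ := FiniteField.card F p
  by_cases h : p = 2
  · refine Or.inl ⟨h, ?_⟩
    have he : 2 ∣ Fintype.card F := by rw [hk, h]; exact dvd_pow_self 2 k.ne_zero
    have : 1 ≤ Fintype.card F := Fintype.card_pos
    exact (Nat.prime_two.coprime_iff_not_dvd).2 (fun hd => by omega)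
  · have ho : Fintype.card F % 2 = 1 := by
      rw [hk]; exact Nat.odd_iff.1 ((hp.odd_of_ne_two h).pow)
    refine Or.inr ⟨h, ?_, by omega, by omega, fun h2 => h ?_⟩
    · exact Nat.gcd_eq_left (by omega)
    · have : ((2 : ℕ) : F) = 0 := by exact_mod_cast h2
      rw [CharP.cast_eq_zero_iff F p] at this
      exact (Nat.prime_dvd_prime_iff_eq hp Nat.prime_two).1 this

lemma spec_le (p : ℕ) [Fact p.Prime] [CharP F p] (x : PSL) :
    orderOf x ∣ aa F ∨ orderOf x ∣ bb F ∨ orderOf x = p := by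
  induction x using QuotientGroup.induction_on with
  | H h =>
    rw [orderOf_eq]
    set g := Matrix.SpecialLinearGroup.toGL h with hg
    by_cases hs : ∃ a : F, (g : Matrix (Fin 2) (Fin 2) F) = a • 1
    · left; rw [(mk_eq_one_iff g).2 hs, orderOf_one]; exact one_dvd _
    push Not at hs
    have hdet : (g : Matrix (Fin 2) (Fin 2) F).det = 1 := h.2
    have key : ∀ N : ℕ, (N = Fintype.card F - 1 ∨ N = Fintype.card F + 1) → h ^ N = 1 → orderOf (mk g) ∣ N / dd F := by
      intro N hNcases hN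
      rw [← orderOf_eq]
      rcases dd_eq (F := F) p with ⟨-, hd⟩ | ⟨-, hd, hd1, hd2, h2⟩
      · rw [hd, Nat.div_one]
        exact (orderOf_map_dvd (QuotientGroup.mk' (Subgroup.center SL)) h).trans (orderOf_dvd_of_pow_eq_one hN)
      · rw [hd]
        by_cases hN2 : 2 ∣ N
        · refine orderOf_dvd_of_pow_eq_one ?_
          rw [← QuotientGroup.mk_pow]
          exact (sq_one _ (by rw [← pow_mul, Nat.div_mul_cancel hN2, hN])).resolve_right h2
        · exact absurd hN2 (by
            rcases hNcases with e | e <;> rw [e] <;> simp [hd1, hd2])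
    rcases trichotomy p (g : Matrix (Fin 2) (Fin 2) F) hs with ht | ht | ht
    · have := CfsgLib.PGL2Orders.orderOf_dvd_of_delta p g ht
      rcases (Nat.dvd_prime (Fact.out : p.Prime)).1 this with e | e
      · left; rw [e]; exact one_dvd _
      · exact Or.inr (Or.inr e)
    · left
      refine key _ (Or.inl rfl) ?_
      refine mul_right_cancel (b := h) ?_
      rw [← pow_succ, one_mul, Nat.sub_add_cancel Fintype.card_pos]
      exact Subtype.ext (by rw [Matrix.SpecialLinearGroup.coe_pow]; exact ht)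
    · right; left
      refine key _ (Or.inr rfl) (Subtype.ext ?_)
      rw [Matrix.SpecialLinearGroup.coe_pow, Matrix.SpecialLinearGroup.coe_one]
      rw [hdet, one_smul] at ht
      exact ht

lemma exists_of_dvd {G : Type*} [Group G] [Finite G] {x : G} {N n : ℕ} (hx : orderOf x = N) (hn : n ∣ N) :
    n ∈ Set.range (orderOf : G → ℕ) := by
  have hN : 0 < N := hx ▸ orderOf_pos x
  refine ⟨x ^ (N / n), ?_⟩
  rw [orderOf_pow, hx, Nat.gcd_eq_right (Nat.div_dvd_of_dvd hn), Nat.div_div_self hn hN.ne']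

lemma spec_ge (p : ℕ) [Fact p.Prime] [CharP F p] {n : ℕ} (hn : n ∣ aa F ∨ n ∣ bb F ∨ n = p) :
    n ∈ Set.range (orderOf : PSL → ℕ) := by
  classical
  have hq : 2 ≤ Fintype.card F := Fintype.one_lt_card
  have hsq : ∀ (g : G2) (c : Fˣ), (c : F) ^ 2 * (g : Matrix (Fin 2) (Fin 2) F).det = 1 →
      ∃ h : SL, orderOf (QuotientGroup.mk h : PSL) = orderOf (mk g) := by
    intro g c hc
    let h : SL := ⟨(c : F) • (g : Matrix (Fin 2) (Fin 2) F), by rw [Matrix.det_smul, Fintype.card_fin, hc]⟩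
    refine ⟨h, ?_⟩
    rw [orderOf_eq]
    congr 1
    erw [QuotientGroup.eq]
    rw [Matrix.GeneralLinearGroup.center_eq_range_scalar]
    refine ⟨c⁻¹, ?_⟩
    rw [eq_inv_mul_iff_mul_eq]
    apply Units.ext
    rw [Units.val_mul]
    show (c : F) • (g : Matrix (Fin 2) (Fin 2) F) * _ = _
    rw [Matrix.GeneralLinearGroup.coe_scalar, Matrix.scalar_apply]
    rw [← Matrix.smul_one_eq_diagonal, mul_smul_comm, mul_one, smul_smul]
    simp
  have hpow : ∀ (g : G2) (N : ℕ), orderOf (mk g) = N → dd F ∣ N →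
      N / dd F ∈ Set.range (orderOf : PSL → ℕ) := by
    intro g N hg hdN
    have hdet : IsUnit (g : Matrix (Fin 2) (Fin 2) F).det := (Matrix.isUnit_iff_isUnit_det _).1 g.isUnit
    set δ : Fˣ := hdet.unit with hδ
    have hδv : (δ : F) = (g : Matrix (Fin 2) (Fin 2) F).det := rfl
    rcases dd_eq (F := F) p with ⟨hp2, hd⟩ | ⟨-, hd, -, -, -⟩
    · haveI : CharP F 2 := hp2 ▸ (inferInstance : CharP F p)
      obtain ⟨c, hc⟩ : ∃ c : F, c ^ 2 = ((δ⁻¹ : Fˣ) : F) := by
        have hb := PerfectRing.bijective_frobenius (R := F) (p := 2)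
        obtain ⟨c, hc⟩ := hb.2 ((δ⁻¹ : Fˣ) : F)
        exact ⟨c, by simpa [frobenius_def] using hc⟩
      have hc0 : c ≠ 0 := fun h => (δ⁻¹).ne_zero (by rw [← hc, h]; simp)
      obtain ⟨h, hh⟩ := hsq g (Units.mk0 c hc0) (by rw [Units.val_mk0, hc, ← hδv, Units.inv_mul])
      exact ⟨_, by rw [hh, hg, hd, Nat.div_one]⟩
    · obtain ⟨h, hh⟩ := hsq (g ^ 2) δ⁻¹ (by
        rw [Units.val_pow_eq_pow_val, Matrix.det_pow, ← hδv, ← mul_pow, Units.inv_mul, one_pow])
      refine ⟨_, hh.trans ?_⟩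
      rw [map_pow, orderOf_pow' _ (by norm_num : (2 : ℕ) ≠ 0), hg, hd, Nat.gcd_eq_right (hd ▸ hdN)]
  have hd1 : dd F ∣ Fintype.card F - 1 := Nat.gcd_dvd_right _ _
  have hd2 : dd F ∣ Fintype.card F + 1 := by
    rcases dd_eq (F := F) p with ⟨-, hd⟩ | ⟨-, hd, -, h, -⟩
    · rw [hd]; exact one_dvd _
    · rw [hd]; exact h
  rcases hn with hn | hn | rfl
  · obtain ⟨g, hg⟩ := CfsgLib.PGL2Orders.exists_orderOf_sub_one (F := F)
    obtain ⟨x, hx⟩ := hpow g _ hg hd1
    exact exists_of_dvd hx hn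
  · obtain ⟨g, hg⟩ := CfsgLib.PGL2Orders.exists_orderOf_add_one (F := F)
    obtain ⟨x, hx⟩ := hpow g _ hg hd2
    exact exists_of_dvd hx hn
  · let h : SL := ⟨!![(1 : F), 1; 0, 1], by simp [Matrix.det_fin_two]⟩
    refine ⟨QuotientGroup.mk h, ?_⟩
    rw [orderOf_eq]
    refine ((Fact.out : Nat.Prime _).eq_one_or_self_of_dvd _ (CfsgLib.PGL2Orders.orderOf_dvd_of_delta n _ ?_)).resolve_left ?_
    · show (h : Matrix (Fin 2) (Fin 2) F).trace ^ 2 = 4 * (h : Matrix (Fin 2) (Fin 2) F).det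
      simp [h, Matrix.trace_fin_two, Matrix.det_fin_two]
      norm_num
    · rw [orderOf_eq_one_iff, mk_eq_one_iff]
      rintro ⟨a, ha⟩
      have ha' : (h : Matrix (Fin 2) (Fin 2) F) = a • 1 := ha
      have := congrFun (congrFun ha' 0) 1
      simp [h] at this

/-- `Multiplicative K ⋊ C` for a subgroup `C` of `Kˣ`: solvable with orders `p` and the divisors of `|C|` -/
lemma frob (K : Type u) [Field K] [Fintype K] (p : ℕ) [Fact p.Prime] [CharP K p] (N : ℕ) (hN : N ∣ Fintype.card K - 1) :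
    ∃ (X : Type) (_ : Group X) (_ : Finite X), Group.IsSolvable X ∧
      Set.range (orderOf : X → ℕ) = {n | n ∣ N ∨ n = p} := by
  classical
  obtain ⟨κ, hκ⟩ := IsCyclic.exists_ofOrder_eq_natCard (α := Kˣ)
  rw [Nat.card_units, Nat.card_eq_fintype_card] at hκ
  set q := Fintype.card K with hq
  have hq1 : 2 ≤ q := Fintype.one_lt_card
  have hc : orderOf (κ ^ ((q - 1) / N)) = N := by
    rw [orderOf_pow, hκ, Nat.gcd_eq_right (Nat.div_dvd_of_dvd hN), Nat.div_div_self hN (by omega)]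
  set C := Subgroup.zpowers (κ ^ ((q - 1) / N)) with hC
  let φ : C →* MulAut (Multiplicative K) := MonoidHom.mk'
    (fun c => AddEquiv.toMultiplicative (DistribMulAction.toAddEquiv K (c : Kˣ)))
    (fun a b => MulEquiv.ext fun v => congrArg Multiplicative.ofAdd (mul_smul (a : Kˣ) (b : Kˣ) v.toAdd))
  have hφ : ∀ (c : C) (v : Multiplicative K), φ c v = Multiplicative.ofAdd (((c : Kˣ) : K) * v.toAdd) := fun c v => rfl
  let X := Multiplicative K ⋊[φ] C
  haveI : Finite X := Finite.of_equiv _ SemidirectProduct.equivProd.symm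
  haveI : Group.IsSolvable X := by
    haveI : Group.IsSolvable (Multiplicative K) := Group.isSolvable_of_comm mul_comm
    haveI : Group.IsSolvable C := Group.isSolvable_of_comm (fun a b => mul_comm' a b)
    exact Group.isSolvable_of_ker_le_range (SemidirectProduct.inl (φ := φ)) SemidirectProduct.rightHom
      (SemidirectProduct.range_inl_eq_ker_rightHom.ge)
  have hspec : Set.range (orderOf : X → ℕ) = {n | n ∣ N ∨ n = p} := by
    ext n
    constructor
    · rintro ⟨z, rfl⟩
      by_cases hz : z.right = 1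
      · have hzp : z ^ p = 1 := by
          have e : z = SemidirectProduct.inl z.left := by ext <;> simp [hz]
          rw [e, ← map_pow, show z.left ^ p = 1 from by
            show Multiplicative.ofAdd (p • z.left.toAdd) = 1
            rw [nsmul_eq_mul, CharP.cast_eq_zero, zero_mul]; rfl, map_one]
        rcases (Nat.dvd_prime (Fact.out : p.Prime)).1 (orderOf_dvd_of_pow_eq_one hzp) with e | e
        · left; rw [e]; exact one_dvd _
        · exact Or.inr e
      · left
        rw [CfsgLib.SpectrumExt.orderOf_eq_right_of_fpf φ z fun v hv => ?_]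
        · have h := orderOf_dvd_natCard z.right
          rwa [show Nat.card C = N by rw [hC, Nat.card_zpowers, hc]] at h
        · rw [hφ] at hv
          have h' : (((z.right : Kˣ) : K) - 1) * v.toAdd = 0 := by
            have := congrArg Multiplicative.toAdd hv
            rw [toAdd_ofAdd] at this
            rw [sub_mul, one_mul, this, sub_self]
          rcases mul_eq_zero.1 h' with h | h
          · exact absurd (Subtype.ext (Units.ext (sub_eq_zero.1 h))) hz
          · exact h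
    · rintro (h | rfl)
      · refine exists_of_dvd (x := SemidirectProduct.inr (φ := φ) ⟨_, Subgroup.mem_zpowers _⟩) ?_ h
        rw [orderOf_injective _ SemidirectProduct.inr_injective, ← Subgroup.orderOf_coe]
        exact hc
      · refine ⟨SemidirectProduct.inl (Multiplicative.ofAdd 1), ?_⟩
        rw [orderOf_injective _ SemidirectProduct.inl_injective]
        refine orderOf_eq_prime ?_ (fun h => one_ne_zero (α := K) (Multiplicative.ofAdd.injective h))
        show Multiplicative.ofAdd (n • (1 : K)) = 1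
        rw [nsmul_eq_mul, CharP.cast_eq_zero, zero_mul]; rfl
  obtain ⟨Y, hg, hf, ⟨e⟩⟩ := CfsgLib.SpectrumExt.exists_type0 X
  refine ⟨Y, hg, inferInstance, Group.isSolvable_of_isSolvable_injective (f := e.toMonoidHom) e.injective, ?_⟩
  rw [← hspec]
  ext n
  exact ⟨fun ⟨y, hy⟩ => ⟨e y, by rw [← hy, MulEquiv.orderOf_eq]⟩,
    fun ⟨x, hx⟩ => ⟨e.symm x, by rw [← hx, MulEquiv.orderOf_eq]⟩⟩


/-- Let q ≥ 4 be a prime power and L = PSL(2,q). There is a finite solvable group with the same set of element orders as L × L (so L × L is not determined by its spectrum). -/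
theorem result {F : Type*} [Field F] [Fintype F] (hF : 4 ≤ Fintype.card F) :
    ∃ (H : Type) (_ : Group H) (_ : Finite H), Group.IsSolvable H ∧
      Set.range (orderOf : H → ℕ) = Set.range (orderOf : Matrix.ProjectiveSpecialLinearGroup (Fin 2) F × Matrix.ProjectiveSpecialLinearGroup (Fin 2) F → ℕ) := by
  classical
  obtain ⟨p, hpc⟩ := CharP.exists F
  haveI : Fact p.Prime := ⟨CharP.char_is_prime F p⟩
  let K := FiniteField.Extension F p 2
  haveI : Fintype K := Fintype.ofFinite K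
  haveI : CharP K p := charP_of_injective_algebraMap (algebraMap F K).injective p
  have hK : Fintype.card K = Fintype.card F ^ 2 := by
    rw [← Nat.card_eq_fintype_card, ← Nat.card_eq_fintype_card, FiniteField.natCard_extension]
  have hd1 : dd F ∣ Fintype.card F - 1 := Nat.gcd_dvd_right _ _
  have hd2 : dd F ∣ Fintype.card F + 1 := by
    rcases dd_eq (F := F) p with ⟨-, hd⟩ | ⟨-, hd, -, h, -⟩
    · rw [hd]; exact one_dvd _
    · rw [hd]; exact h
  obtain ⟨X₁, g1, f1, s1, e1⟩ := frob F p (aa F) (Nat.div_dvd_of_dvd hd1)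
  obtain ⟨X₂, g2, f2, s2, e2⟩ := frob K p (bb F) (by
    refine (Nat.div_dvd_of_dvd hd2).trans ?_
    rw [hK]
    refine ⟨Fintype.card F - 1, ?_⟩
    rw [← Nat.sq_sub_sq, one_pow])
  haveI := s1
  haveI := s2
  refine ⟨X₁ × X₂, inferInstance, inferInstance, inferInstance, ?_⟩
  have hp1 : ∀ {G : Type} [Group G] {N : ℕ}, Set.range (orderOf : G → ℕ) = {n | n ∣ N ∨ n = p} → ∀ n, (n ∣ N ∨ n = p) → ∃ x : G, orderOf x = n :=
    fun h n hn => by
      have : n ∈ {n | n ∣ _ ∨ n = p} := hn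
      rw [← h] at this
      exact this
  ext n
  constructor
  · rintro ⟨⟨x, y⟩, rfl⟩
    have hx : orderOf x ∣ aa F ∨ orderOf x = p := by
      have : orderOf x ∈ Set.range (orderOf : X₁ → ℕ) := ⟨x, rfl⟩
      rwa [e1] at this
    have hy : orderOf y ∣ bb F ∨ orderOf y = p := by
      have : orderOf y ∈ Set.range (orderOf : X₂ → ℕ) := ⟨y, rfl⟩
      rwa [e2] at this
    obtain ⟨u, hu⟩ := spec_ge (F := F) p (n := orderOf x) (hx.elim Or.inl (fun h => Or.inr (Or.inr h)))
    obtain ⟨v, hv⟩ := spec_ge (F := F) p (n := orderOf y) (hy.elim (fun h => Or.inr (Or.inl h)) (fun h => Or.inr (Or.inr h)))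
    exact ⟨(u, v), by rw [Prod.orderOf_mk, Prod.orderOf_mk, hu, hv]⟩
  · rintro ⟨⟨u, v⟩, rfl⟩
    obtain ⟨s, t, hs, ht, hst⟩ : ∃ s t, (s ∣ aa F ∨ s = p) ∧ (t ∣ bb F ∨ t = p) ∧ Nat.lcm (orderOf u) (orderOf v) = Nat.lcm s t := by
      rcases spec_le (F := F) p u with a | a | a <;> rcases spec_le (F := F) p v with b | b | b
      · exact ⟨_, 1, Or.inl (Nat.lcm_dvd a b), Or.inl (one_dvd _), (Nat.lcm_one_right _).symm⟩
      · exact ⟨_, _, Or.inl a, Or.inl b, rfl⟩
      · exact ⟨_, _, Or.inl a, Or.inr b, rfl⟩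
      · exact ⟨_, _, Or.inl b, Or.inl a, Nat.lcm_comm _ _⟩
      · exact ⟨1, _, Or.inl (one_dvd _), Or.inl (Nat.lcm_dvd a b), (Nat.lcm_one_left _).symm⟩
      · exact ⟨_, _, Or.inr b, Or.inl a, Nat.lcm_comm _ _⟩
      · exact ⟨_, _, Or.inl b, Or.inr a, Nat.lcm_comm _ _⟩
      · exact ⟨_, _, Or.inr a, Or.inl b, rfl⟩
      · exact ⟨_, _, Or.inr a, Or.inr b, rfl⟩
    obtain ⟨x, hx⟩ := hp1 e1 s hs
    obtain ⟨y, hy⟩ := hp1 e2 t ht
    exact ⟨(x, y), by rw [Prod.orderOf_mk, Prod.orderOf_mk, hx, hy, hst]⟩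

end Cfsg.Agent.S3532
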