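import Cfsg.Statements.S3548
import Mathlib.GroupTheory.GroupAction.Quotient
import Mathlib.GroupTheory.Perm.Cycle.Type
import Mathlib.GroupTheory.PGroup
import Mathlib.Algebra.IsPrimePow
import Mathlib.Tactic

set_option autoImplicit false
open Cfsg

namespace Cfsg.Agent.S3548

/-- Let G act faithfully and transitively on a finite set with n ≥ 2 points and let D be the subgroup generated by the derangements. Then the index of D in G divides n − 1, and if it equals n − 1 then n is a prime power. -/
theorem result {G Ω : Type*} [Group G] [Finite G] [MulAction G Ω] [FaithfulSMul G Ω] [Finite Ω]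
    (htrans : MulAction.IsPretransitive G Ω) (hΩ : 2 ≤ Nat.card Ω) :
    (Subgroup.closure {g : G | ∀ ω : Ω, g • ω ≠ ω}).index ∣ Nat.card Ω - 1 ∧
    ((Subgroup.closure {g : G | ∀ ω : Ω, g • ω ≠ ω}).index = Nat.card Ω - 1 → IsPrimePow (Nat.card Ω)) := by
  classical
  have := Fintype.ofFinite G
  have := Fintype.ofFinite Ω
  set D := Subgroup.closure {g : G | ∀ ω : Ω, g • ω ≠ ω} with hDdef
  have hder : ∀ g : G, g ∉ D → 1 ≤ Fintype.card (MulAction.fixedBy Ω g) := by
    intro g hg
    by_contra h
    refine hg (Subgroup.subset_closure fun ω hω => h ?_)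
    exact Fintype.card_pos_iff.2 ⟨⟨ω, hω⟩⟩
  have hG := MulAction.sum_card_fixedBy_eq_card_orbits_mul_card_group G Ω
  have hG1 : Fintype.card (MulAction.orbitRel.Quotient G Ω) = 1 := by
    rw [Fintype.card_eq_one_iff]
    haveI : Nonempty Ω := (Nat.card_pos_iff.1 (by omega)).1
    refine ⟨Quotient.mk'' (Classical.arbitrary Ω), fun q => ?_⟩
    induction q using Quotient.inductionOn' with
    | h x => exact Quotient.sound' (htrans.exists_smul_eq _ x)
  rw [hG1, one_mul] at hG
  have hDs : ∑ g : D, Fintype.card (MulAction.fixedBy Ω g) =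
      Fintype.card (MulAction.orbitRel.Quotient D Ω) * Fintype.card D :=
    MulAction.sum_card_fixedBy_eq_card_orbits_mul_card_group D Ω
  have hsplit := Finset.sum_add_sum_compl (Finset.univ.filter (· ∈ D))
    (fun g : G => Fintype.card (MulAction.fixedBy Ω g))
  rw [hG] at hsplit
  have hDsum : ∑ g ∈ Finset.univ.filter (· ∈ D), Fintype.card (MulAction.fixedBy Ω g) =
      ∑ g : D, Fintype.card (MulAction.fixedBy Ω (g : D)) := by
    rw [Finset.sum_subtype (Finset.univ.filter (· ∈ D)) (p := (· ∈ D)) (by simp)]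
    rfl
  rw [hDsum, hDs] at hsplit
  have hcl : (Finset.univ.filter (· ∈ D))ᶜ.card + Fintype.card D = Fintype.card G := by
    rw [Finset.card_compl, Fintype.card_subtype]
    have := Finset.card_le_univ (Finset.univ.filter (· ∈ D))
    omega
  have hle : (Finset.univ.filter (· ∈ D))ᶜ.card ≤
      ∑ g ∈ (Finset.univ.filter (· ∈ D))ᶜ, Fintype.card (MulAction.fixedBy Ω g) := by
    rw [Finset.card_eq_sum_ones]
    exact Finset.sum_le_sum fun g hg => hder g (by simpa using hg)
  have hm : Fintype.card (MulAction.orbitRel.Quotient D Ω) = 1 := by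
    have h0 : 0 < Fintype.card (MulAction.orbitRel.Quotient D Ω) := by
      haveI : Nonempty Ω := (Nat.card_pos_iff.1 (by omega)).1
      exact Fintype.card_pos_iff.2 ⟨Quotient.mk'' (Classical.arbitrary Ω)⟩
    have hD0 : 0 < Fintype.card D := Fintype.card_pos
    by_contra h
    have h2 : 2 * Fintype.card D ≤ Fintype.card (MulAction.orbitRel.Quotient D Ω) * Fintype.card D :=
      Nat.mul_le_mul_right _ (by omega)
    omega
  rw [hm, one_mul] at hsplit
  have hexact : ∀ g : G, g ∉ D → ∀ x y : Ω, g • x = x → g • y = y → x = y := by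
    intro g hg x y hx hy
    by_contra hne
    have h2 : 1 < Fintype.card (MulAction.fixedBy Ω g) :=
      Fintype.one_lt_card_iff.2 ⟨⟨x, hx⟩, ⟨y, hy⟩, fun e => hne (congrArg Subtype.val e)⟩
    have : (Finset.univ.filter (· ∈ D))ᶜ.card <
        ∑ g ∈ (Finset.univ.filter (· ∈ D))ᶜ, Fintype.card (MulAction.fixedBy Ω g) := by
      rw [Finset.card_eq_sum_ones]
      exact Finset.sum_lt_sum (fun g hg => hder g (by simpa using hg)) ⟨g, by simpa using hg, h2⟩
    omega
  have hDtrans : ∀ x y : Ω, ∃ d ∈ D, d • x = y := by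
    intro x y
    have := Fintype.card_le_one_iff_subsingleton.1 hm.le
    obtain ⟨d, hd⟩ := Quotient.exact' (Subsingleton.elim (α := MulAction.orbitRel.Quotient D Ω)
      (Quotient.mk'' y) (Quotient.mk'' x))
    exact ⟨d, d.2, hd⟩
  haveI : Nonempty Ω := (Nat.card_pos_iff.1 (by omega)).1
  obtain ⟨a⟩ := ‹Nonempty Ω›
  set A := MulAction.stabilizer G a
  set k := D.index
  have hk : (D ⊓ A).relIndex A = k := by
    rw [Subgroup.inf_relIndex_right]
    have : D ⊔ A = ⊤ := by
      refine top_le_iff.1 fun g _ => ?_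
      obtain ⟨d, hd, hda⟩ := hDtrans a (g • a)
      have : d⁻¹ * g ∈ A := by
        show (d⁻¹ * g) • a = a
        rw [mul_smul, ← hda, inv_smul_smul]
      simpa using Subgroup.mul_mem_sup hd this
    have hDn : D.Normal := by
      rw [hDdef]
      refine ⟨fun x hx g => ?_⟩
      induction hx using Subgroup.closure_induction with
      | mem y hy =>
        refine Subgroup.subset_closure fun ω h => hy (g⁻¹ • ω) ?_
        rw [mul_smul, mul_smul] at h
        rw [← inv_smul_smul g (y • g⁻¹ • ω), h]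
      | one => simp
      | mul y z _ _ hy hz =>
        rw [show g * (y * z) * g⁻¹ = (g * y * g⁻¹) * (g * z * g⁻¹) by group]
        exact Subgroup.mul_mem _ hy hz
      | inv y _ hy =>
        rw [show g * y⁻¹ * g⁻¹ = (g * y * g⁻¹)⁻¹ by group]
        exact Subgroup.inv_mem _ hy
    rw [← Subgroup.relIndex_sup_right, sup_comm, this, Subgroup.relIndex_top_right]
  have hAb : ∀ b, b ≠ a → A ⊓ MulAction.stabilizer G b ≤ D ⊓ A := fun b hb g hg =>
    ⟨by_contra fun h => hb (hexact g h a b hg.1 hg.2).symm, hg.1⟩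
  have horb : ∀ b : Ω, Nat.card (MulAction.orbit A b) = (A ⊓ MulAction.stabilizer G b).relIndex A := by
    intro b
    rw [Nat.card_coe_set_eq, ← MulAction.index_stabilizer, Subgroup.inf_relIndex_left]
    rfl
  have hdvd : ∀ b, b ≠ a → k ∣ Nat.card (MulAction.orbit A b) := by
    intro b hb
    rw [horb, ← hk, ← Subgroup.relIndex_mul_relIndex _ _ A (hAb b hb) inf_le_right]
    exact Dvd.intro_left _ rfl
  have hsum : Nat.card Ω = ∑ q : MulAction.orbitRel.Quotient A Ω, Nat.card (MulAction.orbit A q.out) := by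
    rw [Nat.card_congr (MulAction.selfEquivSigmaOrbits A Ω), Nat.card_sigma]
  have hfixa : ∀ {q : MulAction.orbitRel.Quotient A Ω}, q.out = a → q = Quotient.mk'' a := by
    intro q h
    rw [← h]; exact (Quotient.out_eq' q).symm
  have hqa : Nat.card (MulAction.orbit A (Quotient.mk'' a : MulAction.orbitRel.Quotient A Ω).out) = 1 := by
    have h : (Quotient.mk'' a : MulAction.orbitRel.Quotient A Ω).out ∈ MulAction.orbit A a :=
      Quotient.exact' (Quotient.out_eq' (Quotient.mk'' a : MulAction.orbitRel.Quotient A Ω))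
    obtain ⟨g, hg⟩ := h
    have he : (Quotient.mk'' a : MulAction.orbitRel.Quotient A Ω).out = a := hg.symm.trans g.2
    rw [he, horb, inf_idem, Subgroup.relIndex_self]
  refine ⟨?_, ?_⟩
  · rw [hsum, ← Finset.add_sum_erase _ _ (Finset.mem_univ (Quotient.mk'' a)), hqa, Nat.add_sub_cancel_left]
    exact Finset.dvd_sum fun q hq => hdvd _ fun h => Finset.ne_of_mem_erase hq (hfixa h)
  · intro hkn
    have hbig : ∀ b, b ≠ a → (∀ c, c ≠ a → ∃ g ∈ A, g • b = c) ∧ D ⊓ A ≤ MulAction.stabilizer G b := by
      intro b hb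
      have hsub : MulAction.orbit A b ⊆ {a}ᶜ := by
        rintro _ ⟨g, rfl⟩ h
        have h' : (g : G) • b = a := h
        exact hb (smul_left_cancel (g : G) (h'.trans g.2.symm))
      have hcard : ({a}ᶜ : Set Ω).ncard = k := by
        rw [Set.ncard_compl, Set.ncard_singleton, hkn]
      have hle : k ≤ Nat.card (MulAction.orbit A b) :=
        Nat.le_of_dvd (by rw [horb]; exact Nat.pos_of_ne_zero Subgroup.index_ne_zero_of_finite) (hdvd b hb)
      have heq : MulAction.orbit A b = {a}ᶜ :=
        Set.eq_of_subset_of_ncard_le hsub (by rw [hcard, ← Nat.card_coe_set_eq]; exact hle)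
      refine ⟨fun c hc => ?_, ?_⟩
      · have : c ∈ MulAction.orbit A b := by rw [heq]; exact hc
        obtain ⟨g, hg⟩ := this
        exact ⟨g, g.2, hg⟩
      · have h1 : Nat.card (MulAction.orbit A b) = k := by rw [heq, Nat.card_coe_set_eq, hcard]
        rw [horb, ← hk, ← Subgroup.relIndex_mul_relIndex _ _ A (hAb b hb) inf_le_right] at h1
        have h2 : (A ⊓ MulAction.stabilizer G b).relIndex (D ⊓ A) = 1 :=
          (Nat.mul_eq_right (by rw [hk]; exact Subgroup.index_ne_zero_of_finite)).1 h1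
        exact (Subgroup.relIndex_eq_one.1 h2).trans inf_le_right
    have hDa : ∀ d ∈ D, d • a = a → d = 1 := fun d hd hda =>
      eq_of_smul_eq_smul fun ω : Ω => by
        rw [one_smul]
        by_cases h : ω = a
        · rw [h, hda]
        · exact (hbig ω h).2 ⟨hd, hda⟩
    have hcardD : Nat.card D = Nat.card Ω := by
      refine Nat.card_eq_of_bijective (fun d : D => (d : G) • a) ⟨fun x y h => ?_, fun ω => ?_⟩
      · refine Subtype.ext (inv_mul_eq_one.1 (hDa _ (D.mul_mem (D.inv_mem y.2) x.2) ?_)).symm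
        show ((y : G)⁻¹ * x) • a = a
        rw [mul_smul, show (x : G) • a = (y : G) • a from h, inv_smul_smul]
      · obtain ⟨d, hd, hda⟩ := hDtrans a ω
        exact ⟨⟨d, hd⟩, hda⟩
    obtain ⟨p, hp, hpd⟩ := Nat.exists_prime_and_dvd (show Nat.card D ≠ 1 by omega)
    haveI : Fact p.Prime := ⟨hp⟩
    obtain ⟨⟨d, hd⟩, hdp⟩ := exists_prime_orderOf_dvd_card' (G := D) p hpd
    have hd1 : d ≠ 1 := fun h => by subst h; simp at hdp; exact hp.ne_one hdp.symm
    have hDn : D.Normal := by
      rw [hDdef]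
      refine ⟨fun x hx g => ?_⟩
      induction hx using Subgroup.closure_induction with
      | mem y hy =>
        refine Subgroup.subset_closure fun ω h => hy (g⁻¹ • ω) ?_
        rw [mul_smul, mul_smul] at h
        rw [← inv_smul_smul g (y • g⁻¹ • ω), h]
      | one => simp
      | mul y z _ _ hy hz =>
        rw [show g * (y * z) * g⁻¹ = (g * y * g⁻¹) * (g * z * g⁻¹) by group]
        exact Subgroup.mul_mem _ hy hz
      | inv y _ hy =>
        rw [show g * y⁻¹ * g⁻¹ = (g * y * g⁻¹)⁻¹ by group]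
        exact Subgroup.inv_mem _ hy
    have hP : IsPGroup p D := fun ⟨e, he⟩ => by
      refine ⟨1, Subtype.ext ?_⟩
      rw [pow_one]
      show e ^ p = 1
      by_cases h1 : e = 1
      · rw [h1, one_pow]
      have hda : d • a ≠ a := fun h => hd1 (hDa d hd h)
      have hea : e • a ≠ a := fun h => h1 (hDa e he h)
      obtain ⟨g, hg, hge⟩ := (hbig _ hda).1 _ hea
      have hge' : e = g * d * g⁻¹ := by
        refine inv_mul_eq_one.1 (hDa _ (D.mul_mem (D.inv_mem he) (hDn.conj_mem d hd g)) ?_)
        show (e⁻¹ * (g * d * g⁻¹)) • a = a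
        rw [mul_smul, mul_smul, mul_smul, inv_smul_eq_iff.2 (show a = g • a from hg.symm), hge, inv_smul_smul]
      rw [Subgroup.orderOf_mk] at hdp
      rw [hge', conj_pow, ← hdp, pow_orderOf_eq_one, mul_one, mul_inv_cancel]
    obtain ⟨j, hj⟩ := IsPGroup.iff_card.1 hP
    rw [← hcardD, isPrimePow_nat_iff]
    refine ⟨p, j, hp, Nat.pos_of_ne_zero fun h => ?_, hj.symm⟩
    subst h
    rw [pow_zero] at hj
    omega

end Cfsg.Agent.S3548
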