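import Cfsg.Statements.S3549
import Mathlib.GroupTheory.GroupAction.Primitive
import Mathlib.GroupTheory.GroupAction.Quotient
import Mathlib.Data.Real.Sqrt
import Mathlib.Tactic

set_option autoImplicit false
open Cfsg

namespace Cfsg.Agent.S3549

open MulAction

/-- In a coset of a transitive subgroup all of whose elements fix a point, each element fixes exactly one. -/
lemma fix_unique {G X : Type*} [Group G] [Finite G] [MulAction G X] [Finite X] (D : Subgroup G)
    (htD : ∀ x y : X, ∃ d ∈ D, d • x = y) (g : G) (h : ∀ d : D, ∃ x : X, (g * d) • x = x) (x y : X) (hx : g • x = x) (hy : g • y = y) :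
    x = y := by
  haveI : Nonempty X := ⟨x⟩
  haveI : IsPretransitive D X := ⟨fun x y => by obtain ⟨d, hd, h⟩ := htD x y; exact ⟨⟨d, hd⟩, h⟩⟩
  let f : (Σ z : X, {d : D // (g * d) • z = z}) → D := fun q => q.2.1
  have hsurj : Function.Surjective f := fun d => ⟨⟨(h d).choose, d, (h d).choose_spec⟩, rfl⟩
  have hcardz : ∀ z : X, Nat.card {d : D // (g * d) • z = z} = Nat.card (stabilizer D z) := fun z => by
    obtain ⟨e, he⟩ := exists_smul_eq D z (g⁻¹ • z)
    refine Nat.card_congr
      { toFun := fun d => ⟨e⁻¹ * d.1, ?_⟩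
        invFun := fun s => ⟨e * s.1, ?_⟩
        left_inv := fun d => Subtype.ext (mul_inv_cancel_left e d.1)
        right_inv := fun s => Subtype.ext (inv_mul_cancel_left e s.1) }
    · have hd : d.1 • z = g⁻¹ • z := eq_inv_smul_iff.2 (by rw [Subgroup.smul_def, ← mul_smul]; exact d.2)
      rw [mem_stabilizer_iff, mul_smul, hd, ← he, inv_smul_smul]
    · have hs : s.1 • z = z := s.2
      show (g * ((e * s.1 : D) : G)) • z = z
      rw [mul_smul, ← Subgroup.smul_def, mul_smul, hs, he, smul_inv_smul]
  have hcard : Nat.card (Σ z : X, {d : D // (g * d) • z = z}) = Nat.card D := by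
    haveI := Fintype.ofFinite X
    rw [Nat.card_sigma, Finset.sum_congr rfl fun z _ => hcardz z]
    have hc : ∀ z : X, Nat.card (stabilizer D z) * Nat.card X = Nat.card D := fun z => by
      rw [← index_stabilizer_of_transitive D z, Subgroup.card_mul_index]
    have hX : 0 < Nat.card X := Nat.card_pos
    refine Nat.eq_of_mul_eq_mul_right hX ?_
    rw [Finset.sum_mul, Finset.sum_congr rfl fun z _ => hc z, Finset.sum_const, smul_eq_mul, Finset.card_univ,
      Nat.card_eq_fintype_card (α := X), mul_comm]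
  have hinj := ((Nat.bijective_iff_surjective_and_card f).2 ⟨hsurj, hcard⟩).1
  have := hinj (a₁ := ⟨x, 1, by simpa using hx⟩) (a₂ := ⟨y, 1, by simpa using hy⟩) rfl
  exact congrArg Sigma.fst this

/-- orbits avoiding the unique fixed point have length divisible by `|K : K ∩ D|` -/
lemma dvd_pred {G X : Type*} [Group G] [Finite G] [MulAction G X] [Finite X] (K D : Subgroup G) (x0 : X)
    (h0 : ∀ g ∈ K, g • x0 = x0) (huniq : ∀ g ∈ K, g ∉ D → ∀ x, g • x = x → x = x0) :
    D.relIndex K ∣ Nat.card X - 1 := by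
  classical
  haveI := Fintype.ofFinite X
  have hX : Nat.card X = ∑ q : orbitRel.Quotient K X, Nat.card q.orbit := by
    rw [Nat.card_congr (selfEquivSigmaOrbits' K X), Nat.card_sigma]
  set q0 : orbitRel.Quotient K X := Quotient.mk'' x0
  have hq0 : Nat.card q0.orbit = 1 := by
    have : q0.orbit = {x0} := by
      ext y
      rw [orbitRel.Quotient.orbit_mk, Set.mem_singleton_iff]
      constructor
      · rintro ⟨k, rfl⟩; exact h0 k.1 k.2
      · rintro rfl; exact mem_orbit_self _
    rw [this, Nat.card_coe_set_eq, Set.ncard_singleton]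
  rw [hX, ← Finset.add_sum_erase _ _ (Finset.mem_univ q0), hq0, Nat.add_sub_cancel_left]
  refine Finset.dvd_sum fun q hq => ?_
  induction q using Quotient.inductionOn' with
  | h x =>
    have hx : x ≠ x0 := fun h => (Finset.ne_of_mem_erase hq) (by rw [h])
    rw [orbitRel.Quotient.orbit_mk, Nat.card_coe_set_eq, ← index_stabilizer]
    have hle : stabilizer K x ≤ D.subgroupOf K := by
      intro k hk
      by_contra hD
      exact hx (huniq k.1 k.2 hD x hk)
    exact Subgroup.index_dvd_of_le hle


/-- Let G act faithfully, transitively but imprimitively on a finite set with n points, and let D be the subgroup generated by the derangements. Then the index of D in G is at most √n − 1. -/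
theorem result {G Ω : Type*} [Group G] [Finite G] [MulAction G Ω] [FaithfulSMul G Ω] [Finite Ω]
    (htrans : MulAction.IsPretransitive G Ω) (himp : ¬ MulAction.IsPreprimitive G Ω) :
    ((Subgroup.closure {g : G | ∀ ω : Ω, g • ω ≠ ω}).index : ℝ) ≤ Real.sqrt (Nat.card Ω) - 1 := by
  classical
  haveI := htrans
  set D := Subgroup.closure {g : G | ∀ ω : Ω, g • ω ≠ ω} with hD
  have hDn : D.Normal := ⟨fun x hx k => by
    induction hx using Subgroup.closure_induction with
    | mem x hx =>
      refine Subgroup.subset_closure (fun ω h => hx (k⁻¹ • ω) ?_)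
      rw [mul_smul, mul_smul] at h
      exact eq_inv_smul_iff.2 h
    | one => simp
    | mul x y _ _ hx hy =>
      rw [show k * (x * y) * k⁻¹ = (k * x * k⁻¹) * (k * y * k⁻¹) by group]; exact mul_mem hx hy
    | inv x _ hx =>
      rw [show k * x⁻¹ * k⁻¹ = (k * x * k⁻¹)⁻¹ by group]; exact inv_mem hx⟩
  have hfix : ∀ g, g ∉ D → ∃ ω : Ω, g • ω = ω := fun g hg => by
    by_contra h
    push Not at h
    exact hg (Subgroup.subset_closure h)
  haveI : Nontrivial Ω := by
    by_contra h
    rw [not_nontrivial_iff_subsingleton] at h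
    exact himp IsPreprimitive.of_subsingleton
  obtain ⟨a⟩ := (inferInstance : Nonempty Ω)
  have hco : ¬ IsCoatom (stabilizer G a) := fun h => himp ((isCoatom_stabilizer_iff_preprimitive (G := G) a).1 h)
  set H := stabilizer G a ⊔ D with hH
  have htop : H = ⊤ := by
    have hone : ((1 : G) : G ⧸ H) = ((1 : G) : G ⧸ H) := rfl
    have key : ∀ d : (⊤ : Subgroup G), ∃ x : G ⧸ H, ((1 : G) * d) • x = x := by
      intro d
      rw [one_mul]
      by_cases hd : (d : G) ∈ D
      · exact ⟨((1 : G) : G ⧸ H), by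
          show (((d : G) * 1 : G) : G ⧸ H) = _
          rw [QuotientGroup.eq, mul_one, mul_one]; exact inv_mem (le_sup_right (a := stabilizer G a) hd)⟩
      · obtain ⟨ω, hω⟩ := hfix _ hd
        obtain ⟨k, rfl⟩ := exists_smul_eq G a ω
        refine ⟨(k : G ⧸ H), ?_⟩
        show (((d : G) * k : G) : G ⧸ H) = _
        rw [QuotientGroup.eq]
        have hm : k⁻¹ * (d : G) * k ∈ stabilizer G a := by
          rw [mem_stabilizer_iff, mul_smul, mul_smul, hω, inv_smul_smul]
        have := inv_mem ((le_sup_left : stabilizer G a ≤ H) hm)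
        rw [show (((d : G) * k)⁻¹ * k) = (k⁻¹ * (d : G) * k)⁻¹ by group]
        exact this
    have htT : ∀ x y : G ⧸ H, ∃ d ∈ (⊤ : Subgroup G), d • x = y := fun x y => by
      obtain ⟨g, hg⟩ := exists_smul_eq G x y; exact ⟨g, Subgroup.mem_top g, hg⟩
    rw [eq_top_iff]
    intro g _
    have h1 := fix_unique (⊤ : Subgroup G) htT 1 key ((1 : G) : G ⧸ H) (g : G ⧸ H) (one_smul _ _) (one_smul _ _)
    rw [QuotientGroup.eq, inv_one, one_mul] at h1
    exact h1
  haveI hDt : IsPretransitive D Ω := ⟨fun x y => by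
    have : ∀ z : Ω, ∃ d : D, d • a = z := fun z => by
      obtain ⟨g, rfl⟩ := exists_smul_eq G a z
      have hg : g ∈ D ⊔ stabilizer G a := by rw [sup_comm, ← hH, htop]; trivial
      rw [← SetLike.mem_coe, Subgroup.normal_mul] at hg
      obtain ⟨d, hd, k, hk, rfl⟩ := hg
      exact ⟨⟨d, hd⟩, by show d • a = (d * k) • a; rw [mul_smul, show k • a = a from hk]⟩
    obtain ⟨d, rfl⟩ := this x
    obtain ⟨e, rfl⟩ := this y
    exact ⟨e * d⁻¹, by rw [mul_smul, inv_smul_smul]⟩⟩
  have hfixD : ∀ g, g ∉ D → ∀ d : D, ∃ ω : Ω, (g * d) • ω = ω := fun g hg d =>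
    hfix _ fun h => hg ((Subgroup.mul_mem_cancel_right D d.2).1 h)
  have hd : D.index = D.relIndex (stabilizer G a) := by
    haveI := hDn
    rw [← Subgroup.relIndex_sup_right, ← hH, htop, Subgroup.relIndex_top_right]
  obtain ⟨M, hMt, hMlt⟩ : ∃ M : Subgroup G, M ≠ ⊤ ∧ stabilizer G a < M := by
    by_contra h
    push Not at h
    apply hco
    refine ⟨fun ht => ?_, fun M hM => by_contra fun hne => h M hne hM⟩
    obtain ⟨b, hb⟩ := exists_ne a
    obtain ⟨g, rfl⟩ := exists_smul_eq G a b
    exact hb (show g ∈ stabilizer G a by rw [ht]; trivial)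
  have hDM : ∀ x y : G ⧸ M, ∃ d ∈ D, d • x = y := fun x y => by
    induction x using QuotientGroup.induction_on with
    | H x =>
      induction y using QuotientGroup.induction_on with
      | H y =>
        obtain ⟨d, hd'⟩ := exists_smul_eq D (x • a) (y • a)
        refine ⟨(d : G), d.2, ?_⟩
        show (((d : G) * x : G) : G ⧸ M) = _
        rw [QuotientGroup.eq]
        refine hMlt.le ?_
        rw [mem_stabilizer_iff, mul_inv_rev, mul_smul, mul_smul, inv_smul_eq_iff, inv_smul_eq_iff]
        exact hd'.symm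
  have h1 : D.index ∣ M.index - 1 := by
    rw [hd, M.index_eq_card]
    refine dvd_pred (stabilizer G a) D ((1 : G) : G ⧸ M) (fun g hg => ?_) (fun g hg hgD x hx => ?_)
    · show ((g * 1 : G) : G ⧸ M) = _
      rw [QuotientGroup.eq, mul_one, mul_one]; exact inv_mem (hMlt.le hg)
    · refine fix_unique D hDM g (fun d => ?_) x _ hx ?_
      · obtain ⟨ω, hω⟩ := hfixD g hgD d
        obtain ⟨k, rfl⟩ := exists_smul_eq G a ω
        refine ⟨(k : G ⧸ M), ?_⟩
        show (((g * d) * k : G) : G ⧸ M) = _
        rw [QuotientGroup.eq]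
        refine hMlt.le ?_
        rw [mem_stabilizer_iff, mul_inv_rev, mul_smul, mul_smul, inv_smul_eq_iff, inv_smul_eq_iff]
        exact hω.symm
      · show ((g * 1 : G) : G ⧸ M) = _
        rw [QuotientGroup.eq, mul_one, mul_one]; exact inv_mem (hMlt.le hg)
  have h2 : D.index ∣ (stabilizer G a).relIndex M - 1 := by
    have hs : stabilizer M a = (stabilizer G a).subgroupOf M := rfl
    have hc : Nat.card (orbit M a) = (stabilizer G a).relIndex M := by
      rw [Nat.card_coe_set_eq, ← index_stabilizer, hs]; rfl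
    rw [hd, ← hc, ← Subgroup.relIndex_subgroupOf hMlt.le]
    refine dvd_pred ((stabilizer G a).subgroupOf M) (D.subgroupOf M) ⟨a, mem_orbit_self a⟩
      (fun g hg => Subtype.ext hg) (fun g hg hgD x hx => Subtype.ext ?_)
    exact fix_unique D (fun x y => by obtain ⟨d, hd'⟩ := exists_smul_eq D x y; exact ⟨d, d.2, hd'⟩) (g : G) (hfixD _ hgD) x.1 a (congrArg Subtype.val hx) hg
  have hn : (stabilizer G a).relIndex M * M.index = Nat.card Ω := by
    rw [Subgroup.relIndex_mul_index hMlt.le, index_stabilizer_of_transitive]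
  have hM1 : 1 < M.index := Subgroup.one_lt_index_of_ne_top hMt
  have hb1 : 1 < (stabilizer G a).relIndex M := by
    have h : (stabilizer G a).relIndex M ≠ 1 := fun h => hMlt.not_ge (Subgroup.relIndex_eq_one.1 h)
    have h0 : (stabilizer G a).relIndex M ≠ 0 := fun h => by
      have := hn; rw [h, zero_mul] at this; exact Nat.card_pos.ne' this.symm
    omega
  have hle1 := Nat.le_of_dvd (by omega) h1
  have hle2 := Nat.le_of_dvd (by omega) h2
  have hsq : (D.index + 1) * (D.index + 1) ≤ Nat.card Ω := by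
    rw [← hn]; exact Nat.mul_le_mul (by omega) (by omega)
  rw [le_sub_iff_add_le]
  refine Real.le_sqrt_of_sq_le ?_
  rw [sq]
  exact_mod_cast hsq

end Cfsg.Agent.S3549
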