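import Cfsg.Statements.S3559
import Mathlib

set_option autoImplicit false
set_option maxHeartbeats 800000
open scoped Pointwise
open Cfsg

namespace Cfsg.Agent.S3559

section schur

variable {G Ω : Type*} [Group G] [MulAction G Ω] {C : Subgroup G} (ω : Ω)

/-- A function on `C` constant on the suborbits. -/
def Inv {R : Type*} (f : C → R) : Prop :=
  ∀ h : G, h • ω = ω → ∀ x x' : C, h • (x : G) • ω = (x' : G) • ω → f x = f x'

variable (hb : Function.Bijective fun x : C => (x : G) • ω)
include hb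

theorem inv_conv [Fintype C] {R : Type*} [CommSemiring R] {f g : C → R} (hf : Inv ω f) (hg : Inv ω g) :
    Inv ω fun z => ∑ x : C, f x * g (x⁻¹ * z) := by
  intro h hh z z' hz
  let e := Equiv.ofBijective _ hb
  let σ : C ≃ C := e.trans ((MulAction.toPerm h).trans e.symm)
  have hσ : ∀ x : C, h • (x : G) • ω = (σ x : G) • ω := fun x =>
    (e.apply_symm_apply (h • (x : G) • ω)).symm
  refine Fintype.sum_equiv σ _ _ fun x => ?_
  rw [hf h hh x _ (hσ x)]
  congr 1
  refine hg ((σ x : G)⁻¹ * h * x) ?_ _ _ ?_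
  · rw [mul_smul, mul_smul, hσ, inv_smul_smul]
  · rw [Subgroup.coe_mul, Subgroup.coe_mul, Subgroup.coe_inv, Subgroup.coe_inv]
    simp only [mul_smul, smul_inv_smul]
    rw [hz]

theorem inv_delta [DecidableEq C] {R : Type*} [Zero R] [One R] : Inv ω fun z : C => if z = 1 then (1 : R) else 0 := by
  intro h hh x x' hx
  have : x = 1 ↔ x' = 1 := by
    constructor
    · rintro rfl
      apply hb.1
      show (x' : G) • ω = ((1 : C) : G) • ω
      rw [← hx, Subgroup.coe_one, one_smul, hh, ← one_smul G ω]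
    · rintro rfl
      apply hb.1
      show (x : G) • ω = ((1 : C) : G) • ω
      rw [Subgroup.coe_one, one_smul] at hx ⊢
      exact MulAction.injective h (hx.trans hh.symm)
  simp only [this]

/-- A subgroup of `C` invariant under the point stabiliser gives a block. -/
theorem trivial_of_inv [MulAction.IsPreprimitive G Ω] (K : Subgroup C)
    (hK : ∀ h : G, h • ω = ω → ∀ x x' : C, h • (x : G) • ω = (x' : G) • ω → x ∈ K → x' ∈ K) :
    K = ⊥ ∨ K = ⊤ := by
  let D : Set Ω := (fun x : C => (x : G) • ω) '' (K : Set C)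
  have hsub : ∀ g : G, ∀ x ∈ K, ∀ y ∈ K, g • (x : G) • ω = (y : G) • ω → g • D ⊆ D := by
    rintro g x hx y hy hg _ ⟨_, ⟨u, hu, rfl⟩, rfl⟩
    have hk : ((y : G)⁻¹ * g * x) • ω = ω := by rw [mul_smul, mul_smul, hg, inv_smul_smul]
    obtain ⟨v, hv⟩ := hb.2 (((y : G)⁻¹ * g * x) • ((x⁻¹ * u : C) : G) • ω)
    refine ⟨y * v, mul_mem hy (hK _ hk _ v hv.symm (mul_mem (inv_mem hx) hu)), ?_⟩
    show ((y * v : C) : G) • ω = g • (u : G) • ω
    rw [Subgroup.coe_mul, mul_smul, show (v : G) • ω = _ from hv, Subgroup.coe_mul, Subgroup.coe_inv]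
    simp only [mul_smul, smul_inv_smul]
  have hD : MulAction.IsBlock G D := by
    rw [MulAction.isBlock_iff_smul_eq_of_nonempty]
    rintro g ⟨_, ⟨_, ⟨x, hx, rfl⟩, rfl⟩, ⟨y, hy, hxy⟩⟩
    refine Set.Subset.antisymm (hsub g x hx y hy hxy.symm) ?_
    rw [Set.subset_smul_set_iff]
    exact hsub g⁻¹ y hy x hx (by rw [show (y : G) • ω = _ from hxy, inv_smul_smul])
  rcases hD.subsingleton_or_eq_univ with h | h
  · left
    rw [eq_bot_iff]
    intro x hx
    rw [Subgroup.mem_bot]
    exact hb.1 (h ⟨x, hx, rfl⟩ ⟨1, K.one_mem, rfl⟩)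
  · right
    rw [eq_top_iff]
    intro x _
    obtain ⟨y, hy, hyx⟩ := Set.eq_univ_iff_forall.mp h ((x : G) • ω)
    rwa [← hb.1 hyx]

theorem inv_closure [Finite C] (S : Set C)
    (hS : ∀ h : G, h • ω = ω → ∀ x x' : C, h • (x : G) • ω = (x' : G) • ω → x ∈ S → x' ∈ S) :
    ∀ h : G, h • ω = ω → ∀ x x' : C, h • (x : G) • ω = (x' : G) • ω →
      x ∈ Subgroup.closure S → x' ∈ Subgroup.closure S := by
  let P : C → Prop := fun x =>
    ∀ h : G, h • ω = ω → ∀ x' : C, h • (x : G) • ω = (x' : G) • ω → x' ∈ Subgroup.closure S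
  have hone : P 1 := by
    intro h hh x' hx
    have : x' = 1 := hb.1 (by
      show (x' : G) • ω = ((1 : C) : G) • ω
      rw [← hx, Subgroup.coe_one, one_smul, hh])
    rw [this]; exact one_mem _
  have hmul : ∀ x y, P x → P y → P (x * y) := by
    intro x y hx hy h hh x'' hxy
    obtain ⟨x', hx'⟩ := hb.2 (h • (x : G) • ω)
    have hk : ((x' : G)⁻¹ * h * x) • ω = ω := by
      rw [mul_smul, mul_smul, ← show (x' : G) • ω = _ from hx', inv_smul_smul]
    obtain ⟨y', hy'⟩ := hb.2 (((x' : G)⁻¹ * h * x) • (y : G) • ω)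
    have hxy' : x'' = x' * y' := hb.1 (by
      show (x'' : G) • ω = ((x' * y' : C) : G) • ω
      rw [Subgroup.coe_mul, mul_smul, show (y' : G) • ω = _ from hy', ← hxy, Subgroup.coe_mul]
      simp only [mul_smul, smul_inv_smul])
    rw [hxy']
    exact mul_mem (hx h hh x' hx'.symm) (hy _ hk y' hy'.symm)
  have hpow : ∀ x, P x → ∀ n : ℕ, P (x ^ n) := by
    intro x hx n
    induction n with
    | zero => rw [pow_zero]; exact hone
    | succ n ih => rw [pow_succ]; exact hmul _ _ ih hx
  have hall : ∀ x ∈ Subgroup.closure S, P x := by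
    intro x hx
    induction hx using Subgroup.closure_induction with
    | mem y hy => exact fun h hh y' hy' => Subgroup.subset_closure (hS h hh y y' hy' hy)
    | one => exact hone
    | mul a b _ _ ha hb' => exact hmul a b ha hb'
    | inv a _ ha =>
      obtain ⟨n, hn⟩ := (isOfFinOrder_of_finite a).mem_powers_iff_mem_zpowers.mpr
        (inv_mem (Subgroup.mem_zpowers a))
      exact (show a ^ n = a⁻¹ from hn) ▸ hpow a ha n
  exact fun h hh x x' hx hxc => hall x hxc h hh x' hx

end schur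



/-- Let G act faithfully and transitively on a finite set whose number of points n ≥ 2 is not a prime power, and suppose G has a cyclic subgroup acting regularly (transitively with trivial point stabilizers). Then G is imprimitive or doubly transitive. -/
theorem result {G Ω : Type*} [Group G] [Finite G] [MulAction G Ω] [FaithfulSMul G Ω] [Finite Ω]
    (htrans : MulAction.IsPretransitive G Ω) (hn : 2 ≤ Nat.card Ω) (hnp : ¬ IsPrimePow (Nat.card Ω))
    (C : Subgroup G) (hcyc : IsCyclic ↥C) (hC : MulAction.IsPretransitive ↥C Ω ∧ ∀ a : Ω, MulAction.stabilizer ↥C a = ⊥) :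
    ¬ MulAction.IsPreprimitive G Ω ∨ MulAction.IsMultiplyPretransitive G Ω 2 := by
  classical
  by_cases hprim : MulAction.IsPreprimitive G Ω
  swap
  · exact Or.inl hprim
  right
  haveI := hprim
  obtain ⟨ω⟩ : Nonempty Ω := (Nat.card_pos_iff.mp (by omega)).1
  have hb : Function.Bijective fun x : C => (x : G) • ω := by
    refine ⟨fun x y hxy => ?_, fun z => ?_⟩
    · have h1 : y⁻¹ * x ∈ MulAction.stabilizer C ω := by
        rw [MulAction.mem_stabilizer_iff, mul_smul]
        exact inv_smul_eq_iff.mpr hxy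
      rw [hC.2 ω, Subgroup.mem_bot, inv_mul_eq_one] at h1
      exact h1.symm
    · exact hC.1.exists_smul_eq ω z
  have hn' : Nat.card C = Nat.card Ω := Nat.card_eq_of_bijective _ hb
  haveI : Fintype C := Fintype.ofFinite _
  haveI := hcyc
  letI : CommGroup C := IsCyclic.commGroup
  -- suborbits
  let cl : C → Set C := fun z => {x | ∃ h : G, h • ω = ω ∧ h • (z : G) • ω = (x : G) • ω}
  have hclinv : ∀ z, ∀ h : G, h • ω = ω → ∀ x x' : C, h • (x : G) • ω = (x' : G) • ω →
      (x ∈ cl z ↔ x' ∈ cl z) := by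
    intro z h hh x x' hx
    constructor
    · rintro ⟨k, hk, hkz⟩
      exact ⟨h * k, by rw [mul_smul, hk, hh], by rw [mul_smul, hkz, hx]⟩
    · rintro ⟨k, hk, hkz⟩
      exact ⟨h⁻¹ * k, by rw [mul_smul, hk, inv_smul_eq_iff, hh], by rw [mul_smul, hkz, inv_smul_eq_iff, hx]⟩
  have hcl1 : ∀ z : C, z ≠ 1 → (1 : C) ∉ cl z := by
    rintro z hz ⟨h, hh, hhz⟩
    rw [Subgroup.coe_one, one_smul] at hhz
    refine hz (hb.1 ?_)
    show (z : G) • ω = ((1 : C) : G) • ω
    rw [Subgroup.coe_one, one_smul]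
    exact MulAction.injective h (hhz.trans hh.symm)
  -- roots
  have hkey : ∀ p : ℕ, p.Prime → p ∣ Nat.card C → ∀ z : C, z ≠ 1 →
      (∀ t ∈ cl z, t ^ p ≠ 1 → ∀ x : C, x ^ p = 1 → t * x ∈ cl z) ∧ (∃ a ∈ cl z, a ^ p = 1) := by
    intro p hp hpd z hz
    haveI := Fact.mk hp
    let T : Finset C := Finset.univ.filter (fun x => x ∈ cl z)
    let A : MonoidAlgebra (ZMod p) C := ∑ t ∈ T, MonoidAlgebra.single t 1
    have hA : Inv ω (fun x : C => A.coeff x) := by
      intro h hh x x' hx
      simp only [A, MonoidAlgebra.coeff_sum, MonoidAlgebra.coeff_single, Finsupp.finsetSum_apply,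
        Finsupp.single_apply, Finset.sum_ite_eq', T, Finset.mem_filter, Finset.mem_univ, true_and]
      rw [if_congr (hclinv z h hh x x' hx) rfl rfl]
    have hpowinv : ∀ n : ℕ, Inv ω (fun x : C => (A ^ n).coeff x) := by
      intro n
      induction n with
      | zero =>
        intro h hh x x' hx
        have := inv_delta (R := ZMod p) ω hb h hh x x' hx
        simpa only [pow_zero, MonoidAlgebra.one_def, MonoidAlgebra.coeff_single, Finsupp.single_apply, eq_comm (a := (1 : C))] using this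
      | succ n ih =>
        intro h hh x x' hx
        have := inv_conv ω hb ih hA h hh x x' hx
        show (A ^ (n + 1)).coeff x = (A ^ (n + 1)).coeff x'
        rw [pow_succ, MonoidAlgebra.coeff_mul_apply_left, MonoidAlgebra.coeff_mul_apply_left,
          Finsupp.sum_fintype _ _ (fun i => by simp), Finsupp.sum_fintype _ _ (fun i => by simp)]
        exact this
    haveI : CharP (MonoidAlgebra (ZMod p) C) p :=
      charP_of_injective_ringHom (f := MonoidAlgebra.singleOneRingHom)
        (fun a b e => MonoidAlgebra.single_right_injective e) p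
    let cnt : C → ℕ := fun y => (T.filter (fun t => t ^ p = y)).card
    have hAp : ∀ y : C, (A ^ p).coeff y = (cnt y : ZMod p) := by
      intro y
      simp only [A, sum_pow_char, MonoidAlgebra.single_pow, one_pow, MonoidAlgebra.coeff_sum,
        MonoidAlgebra.coeff_single, Finsupp.finsetSum_apply, Finsupp.single_apply]
      rw [Finset.sum_boole]
    let S : Set C := {y | (cnt y : ZMod p) ≠ 0}
    have hS : ∀ h : G, h • ω = ω → ∀ x x' : C, h • (x : G) • ω = (x' : G) • ω → x ∈ S → x' ∈ S := by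
      intro h hh x x' hx hxS
      have e := hpowinv p h hh x x' hx
      simp only [hAp] at e
      show (cnt x' : ZMod p) ≠ 0
      rw [← e]; exact hxS
    have hle : Subgroup.closure S ≤ (powMonoidHom p : C →* C).range := by
      rw [Subgroup.closure_le]
      intro y hy
      by_contra hne
      refine hy ?_
      have : cnt y = 0 := Finset.card_eq_zero.mpr (Finset.filter_eq_empty_iff.mpr fun t _ e => hne ⟨t, e⟩)
      rw [this, Nat.cast_zero]
    obtain ⟨a₀, ha₀⟩ := exists_prime_orderOf_dvd_card' (G := C) p hpd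
    have hne : (powMonoidHom p : C →* C).range ≠ ⊤ := by
      intro h
      have hinj := Finite.injective_iff_surjective.mpr (MonoidHom.range_eq_top.mp h)
      have : a₀ = 1 := hinj (by
        show a₀ ^ p = (1 : C) ^ p
        rw [one_pow, ← ha₀, pow_orderOf_eq_one])
      rw [this, orderOf_one] at ha₀
      exact hp.ne_one ha₀.symm
    have hcnt : ∀ y : C, y ≠ 1 → p ∣ cnt y := by
      intro y hy
      have hbot : Subgroup.closure S = ⊥ :=
        (trivial_of_inv ω hb _ (inv_closure ω hb S hS)).resolve_right fun h => hne (eq_top_iff.mpr (h ▸ hle))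
      by_contra hnd
      have hyS : y ∈ Subgroup.closure S := Subgroup.subset_closure
        (show (cnt y : ZMod p) ≠ 0 from fun e => hnd ((ZMod.natCast_eq_zero_iff _ _).mp e))
      rw [hbot, Subgroup.mem_bot] at hyS
      exact hy hyS
    have hP : (Finset.univ.filter fun x : C => x ^ p = 1).card ≤ p :=
      IsCyclic.card_pow_eq_one_le hp.pos
    have hroots : ∀ t ∈ cl z, t ^ p ≠ 1 → ∀ x : C, x ^ p = 1 → t * x ∈ cl z := by
      intro t ht htp x hx
      obtain ⟨F, hF⟩ : ∃ F, F = T.filter (fun u => u ^ p = t ^ p) := ⟨_, rfl⟩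
      have hFcard : p ≤ F.card := by
        refine Nat.le_of_dvd (Finset.card_pos.mpr ⟨t, by simp [hF, T, ht]⟩) ?_
        rw [hF]; exact hcnt _ htp
      have hmap : (F.image fun u => t⁻¹ * u) = Finset.univ.filter fun x : C => x ^ p = 1 := by
        refine Finset.eq_of_subset_of_card_le (fun u hu => ?_) ?_
        · obtain ⟨v, hv, rfl⟩ := Finset.mem_image.mp hu
          rw [hF, Finset.mem_filter] at hv
          rw [Finset.mem_filter]
          exact ⟨Finset.mem_univ _, by rw [mul_pow, hv.2, inv_pow, inv_mul_cancel]⟩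
        · rw [Finset.card_image_of_injective _ (mul_right_injective t⁻¹)]
          omega
      have hxm : x ∈ F.image fun u => t⁻¹ * u := hmap ▸ Finset.mem_filter.mpr ⟨Finset.mem_univ _, hx⟩
      obtain ⟨v, hv, rfl⟩ := Finset.mem_image.mp hxm
      rw [mul_inv_cancel_left]
      rw [hF] at hv
      exact (Finset.mem_filter.mp (Finset.mem_filter.mp hv).1).2
    refine ⟨hroots, ?_⟩
    by_contra hno
    push Not at hno
    have hzz : z ∈ cl z := ⟨1, one_smul _ _, one_smul _ _⟩
    -- the stabiliser of the suborbit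
    let K : Subgroup C :=
      { carrier := {x | ∀ y, y ∈ cl z ↔ x * y ∈ cl z}
        one_mem' := fun y => by rw [one_mul]
        mul_mem' := fun {a b} ha hb y => by rw [mul_assoc]; exact (hb y).trans (ha (b * y))
        inv_mem' := fun {a} ha y => by
          have := ha (a⁻¹ * y)
          rw [mul_inv_cancel_left] at this
          exact this.symm }
    have hK : ∀ h : G, h • ω = ω → ∀ x x' : C, h • (x : G) • ω = (x' : G) • ω → x ∈ K → x' ∈ K := by
      intro h hh x x' hx hxK y
      obtain ⟨w, hw⟩ := hb.2 (h⁻¹ • ((x' * y : C) : G) • ω)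
      have h1 : w ∈ cl z ↔ x' * y ∈ cl z := hclinv z h hh w _ (by
        rw [show (w : G) • ω = _ from hw, smul_inv_smul])
      have hk : ((x' : G)⁻¹ * h * x) • ω = ω := by rw [mul_smul, mul_smul, hx, inv_smul_smul]
      have h2 : x⁻¹ * w ∈ cl z ↔ y ∈ cl z := hclinv z _ hk _ _ (by
        rw [Subgroup.coe_mul, Subgroup.coe_inv]
        simp only [mul_smul, smul_inv_smul]
        rw [show (w : G) • ω = _ from hw, smul_inv_smul, Subgroup.coe_mul, mul_smul, inv_smul_smul])
      have h3 := hxK (x⁻¹ * w)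
      rw [mul_inv_cancel_left] at h3
      exact h2.symm.trans (h3.trans h1)
    have hPK : a₀ ∈ K := by
      intro y
      have ha0p : a₀ ^ p = 1 := ha₀ ▸ pow_orderOf_eq_one a₀
      constructor
      · intro hy
        rw [mul_comm]
        exact hroots y hy (hno y hy) a₀ ha0p
      · intro hy
        have := hroots _ hy (hno _ hy) a₀⁻¹ (by rw [inv_pow, ha0p, inv_one])
        rwa [mul_comm a₀ y, mul_inv_cancel_right] at this
    rcases trivial_of_inv ω hb K hK with h | h
    · rw [h, Subgroup.mem_bot] at hPK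
      rw [hPK, orderOf_one] at ha₀
      exact hp.ne_one ha₀.symm
    · have h1 : z⁻¹ ∈ K := h ▸ Subgroup.mem_top _
      have := (h1 z).mp hzz
      rw [inv_mul_cancel] at this
      exact hcl1 z hz this
  -- two primes
  have hN1 : Nat.card C ≠ 1 := by omega
  obtain ⟨p, hp, hpd⟩ := Nat.exists_prime_and_dvd hN1
  obtain ⟨r, hr, hrd, hrp⟩ : ∃ r, r.Prime ∧ r ∣ Nat.card C ∧ r ≠ p := by
    by_contra hcon
    push Not at hcon
    refine hnp ?_
    rw [← hn', isPrimePow_nat_iff]
    have := Nat.eq_prime_pow_of_unique_prime_dvd (by omega : Nat.card C ≠ 0) (fun {d} hd hdd => hcon d hd hdd)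
    refine ⟨p, (Nat.card C).primeFactorsList.length, hp, ?_, this.symm⟩
    rcases Nat.eq_zero_or_pos (Nat.card C).primeFactorsList.length with h0 | h0
    · rw [h0, pow_zero] at this; omega
    · exact h0
  haveI := Fact.mk hp
  haveI := Fact.mk hr
  obtain ⟨a₀, ha₀⟩ := exists_prime_orderOf_dvd_card' (G := C) p hpd
  obtain ⟨b₀, hb₀⟩ := exists_prime_orderOf_dvd_card' (G := C) r hrd
  have hdisj : ∀ x : C, x ^ p = 1 → x ^ r = 1 → x = 1 := fun x h1 h2 => by
    have := Nat.eq_one_of_dvd_coprimes ((Nat.coprime_primes hp hr).mpr hrp.symm)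
      (orderOf_dvd_of_pow_eq_one h1) (orderOf_dvd_of_pow_eq_one h2)
    exact orderOf_eq_one_iff.mp this
  have hmem : ∀ z : C, z ≠ 1 → a₀ * b₀ ∈ cl z := by
    intro z hz
    obtain ⟨a, haT, hap⟩ := (hkey p hp hpd z hz).2
    have ha1 : a ≠ 1 := fun e => hcl1 z hz (e ▸ haT)
    have hbr : b₀ ^ r = 1 := hb₀ ▸ pow_orderOf_eq_one b₀
    have h1 : a * b₀ ∈ cl z := (hkey r hr hrd z hz).1 a haT (fun e => ha1 (hdisj a hap e)) b₀ hbr
    have h2 : (a * b₀) ^ p ≠ 1 := by
      rw [mul_pow, hap, one_mul]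
      intro e
      have := hdisj b₀ e hbr
      rw [this, orderOf_one] at hb₀
      exact hr.ne_one hb₀.symm
    have h3 := (hkey p hp hpd z hz).1 _ h1 h2 (a⁻¹ * a₀) (by
      rw [mul_pow, inv_pow, hap, inv_one, one_mul, ← ha₀, pow_orderOf_eq_one])
    rwa [show a * b₀ * (a⁻¹ * a₀) = a₀ * b₀ by rw [mul_comm a b₀, mul_assoc, mul_inv_cancel_left, mul_comm]] at h3
  have hstab : ∀ u v : Ω, u ≠ ω → v ≠ ω → ∃ h : G, h • ω = ω ∧ h • u = v := by
    intro u v hu hv
    obtain ⟨x, rfl⟩ := hb.2 u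
    obtain ⟨y, rfl⟩ := hb.2 v
    have hne1 : ∀ w : C, (w : G) • ω ≠ ω → w ≠ 1 := fun w hw e => hw (by rw [e, Subgroup.coe_one, one_smul])
    obtain ⟨h, hh, hhx⟩ := hmem x (hne1 x hu)
    obtain ⟨k, hk, hky⟩ := hmem y (hne1 y hv)
    refine ⟨k⁻¹ * h, by rw [mul_smul, hh, inv_smul_eq_iff, hk], ?_⟩
    show (k⁻¹ * h) • (x : G) • ω = (y : G) • ω
    rw [mul_smul, hhx, inv_smul_eq_iff, hky]
  rw [MulAction.is_two_pretransitive_iff]
  intro a b c d hab hcd
  obtain ⟨g₁, hg₁⟩ := htrans.exists_smul_eq a ω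
  obtain ⟨g₂, hg₂⟩ := htrans.exists_smul_eq c ω
  obtain ⟨h, hh, hhb⟩ := hstab (g₁ • b) (g₂ • d)
    (fun e => hab (MulAction.injective g₁ (hg₁.trans e.symm)))
    (fun e => hcd (MulAction.injective g₂ (hg₂.trans e.symm)))
  refine ⟨g₂⁻¹ * h * g₁, ?_, ?_⟩
  · rw [mul_smul, mul_smul, hg₁, hh, inv_smul_eq_iff, hg₂]
  · rw [mul_smul, mul_smul, hhb, inv_smul_smul]

end Cfsg.Agent.S3559
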