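import Cfsg.Statements.S3560
import Mathlib.InformationTheory.Hamming
import Mathlib.GroupTheory.GroupAction.Primitive
import Mathlib.GroupTheory.GroupAction.MultipleTransitivity
import Mathlib.Tactic

set_option autoImplicit false
open Cfsg

namespace Cfsg.Agent.S3560

open MulAction Pointwise

variable {ι : Type*} [Fintype ι] [DecidableEq ι] {m n : ℕ} (θ : Fin n ≃ (ι → Fin m))

/-- isometries of the Hamming graph -/
def Iso : Subgroup (Equiv.Perm (Fin n)) where
  carrier := {g | ∀ x y, hammingDist (θ (g x)) (θ (g y)) = hammingDist (θ x) (θ y)}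
  one_mem' := fun x y => rfl
  mul_mem' := fun {a b} ha hb x y => (ha (b x) (b y)).trans (hb x y)
  inv_mem' := fun {a} ha x y => by
    have h := ha (a⁻¹ x) (a⁻¹ y)
    simp only [Equiv.Perm.inv_def, Equiv.apply_symm_apply] at h ⊢
    exact h.symm

lemma coord_mem (π : Equiv.Perm ι) (σ : ι → Equiv.Perm (Fin m)) :
    ∃ g ∈ Iso θ, ∀ x i, θ (g x) i = σ i (θ x (π i)) := by
  let φ : (ι → Fin m) ≃ (ι → Fin m) :=
    { toFun := fun u i => σ i (u (π i))
      invFun := fun u i => (σ (π.symm i)).symm (u (π.symm i))
      left_inv := fun u => by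
        funext i
        show (σ (π.symm i)).symm (σ (π.symm i) (u (π (π.symm i)))) = u i
        rw [Equiv.symm_apply_apply, Equiv.apply_symm_apply]
      right_inv := fun u => by
        funext i
        show σ i ((σ (π.symm (π i))).symm (u (π.symm (π i)))) = u i
        rw [Equiv.symm_apply_apply, Equiv.apply_symm_apply] }
  refine ⟨(θ.trans φ).trans θ.symm, ?_, fun x i => by simp [φ]⟩
  intro x y
  simp only [Equiv.trans_apply, Equiv.apply_symm_apply]
  unfold hammingDist
  refine Finset.card_bij (fun i _ => π i) (fun i hi => ?_) (fun a _ b _ h => π.injective h) (fun j hj => ?_)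
  · simpa [φ] using hi
  · exact ⟨π.symm j, by simpa [φ] using hj, π.apply_symm_apply j⟩

lemma primitive (hι : Nonempty ι) (hm : 3 ≤ m) : IsPreprimitive (Iso θ) (Fin n) := by
  classical
  have htr : IsPretransitive (Iso θ) (Fin n) := ⟨fun x y => by
    obtain ⟨g, hg, he⟩ := coord_mem θ 1 (fun i => Equiv.swap (θ x i) (θ y i))
    refine ⟨⟨g, hg⟩, θ.injective (funext fun i => ?_)⟩
    show θ (g x) i = θ y i
    rw [he]; exact Equiv.swap_apply_left _ _⟩
  refine { htr with isTrivialBlock_of_isBlock := fun {B} hB => ?_ }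
  by_cases hsub : B.Subsingleton
  · exact Or.inl hsub
  obtain ⟨x, hx, y, hy, hxy⟩ : ∃ x ∈ B, ∃ y ∈ B, x ≠ y := by
    simpa [Set.Subsingleton] using hsub
  have hfix : ∀ (w : Fin n), w ∈ B → ∀ g ∈ Iso θ, g w = w → ∀ z ∈ B, g z ∈ B := by
    intro w hw g hg hgw z hz
    have h1 : (⟨g, hg⟩ : Iso θ) • B = B := hB.smul_eq_of_mem hw (show g w ∈ B by rw [hgw]; exact hw)
    rw [← h1]; exact Set.smul_mem_smul_set hz
  have hnb : ∀ w ∈ B, ∀ (i : ι) (u : Fin n), u ∈ B → (∀ l, l ≠ i → θ u l = θ w l) → θ u i ≠ θ w i →
      ∀ (k : ι) (v : Fin n), (∀ l, l ≠ k → θ v l = θ w l) → v ∈ B := by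
    intro w hw i u hu hul hui k v hvl
    by_cases hvk : θ v k = θ w k
    · have : v = w := θ.injective (funext fun l => by
        by_cases hl : l = k
        · rw [hl, hvk]
        · exact hvl l hl)
      rwa [this]
    obtain ⟨τ, hτ1, hτ2⟩ : ∃ τ : Equiv.Perm (Fin m), τ (θ w i) = θ w k ∧ τ (θ u i) = θ v k := by
      refine ⟨Equiv.swap (Equiv.swap (θ w i) (θ w k) (θ u i)) (θ v k) * Equiv.swap (θ w i) (θ w k), ?_, ?_⟩
      · rw [Equiv.Perm.mul_apply, Equiv.swap_apply_left]
        refine Equiv.swap_apply_of_ne_of_ne ?_ (Ne.symm hvk)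
        intro h
        exact hui ((Equiv.swap (θ w i) (θ w k)).injective ((Equiv.swap_apply_left _ _).trans h)).symm
      · rw [Equiv.Perm.mul_apply, Equiv.swap_apply_left]
    obtain ⟨g, hg, he⟩ := coord_mem θ (Equiv.swap i k)
      (fun l => if l = k then τ else Equiv.swap (θ w (Equiv.swap i k l)) (θ w l))
    have hgw : g w = w := θ.injective (funext fun l => by
      rw [he]
      by_cases hl : l = k
      · rw [if_pos hl, hl, Equiv.swap_apply_right, hτ1]
      · rw [if_neg hl, Equiv.swap_apply_left])
    have hgu : g u = v := θ.injective (funext fun l => by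
      rw [he]
      by_cases hl : l = k
      · rw [if_pos hl, hl, Equiv.swap_apply_right, hτ2]
      · rw [if_neg hl, hvl l hl, hul _ (fun h => hl ((Equiv.swap i k).injective (h.trans (Equiv.swap_apply_right i k).symm))),
          Equiv.swap_apply_left])
    rw [← hgu]; exact hfix w hw g hg hgw u hu
  -- an adjacent pair inside `B`
  obtain ⟨i, hi⟩ : ∃ i, θ x i ≠ θ y i := Function.ne_iff.1 (fun h => hxy (θ.injective h))
  obtain ⟨z, hz⟩ : ∃ z : Fin m, z ∉ ({θ x i, θ y i} : Finset (Fin m)) := by
    by_contra h
    push Not at h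
    have := (Finset.card_le_card (fun (u : Fin m) (_ : u ∈ (Finset.univ : Finset (Fin m))) => h u)).trans Finset.card_le_two
    rw [Finset.card_univ, Fintype.card_fin] at this
    omega
  simp only [Finset.mem_insert, Finset.mem_singleton, not_or] at hz
  obtain ⟨g, hg, he⟩ := coord_mem θ 1 (Function.update (fun _ => 1) i (Equiv.swap (θ y i) z))
  have hgx : g x = x := θ.injective (funext fun l => by
    rw [he]
    by_cases hl : l = i
    · subst hl; rw [Function.update_self, Equiv.Perm.one_apply]; exact Equiv.swap_apply_of_ne_of_ne hi (Ne.symm hz.1)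
    · rw [Function.update_of_ne hl]; rfl)
  have hgy : g y ∈ B := hfix x hx g hg hgx y hy
  have hgyl : ∀ l, l ≠ i → θ (g y) l = θ y l := fun l hl => by rw [he, Function.update_of_ne hl]; rfl
  have hgyi : θ (g y) i ≠ θ y i := by
    rw [he, Function.update_self, Equiv.Perm.one_apply, Equiv.swap_apply_left]; exact hz.2
  right
  rw [Set.eq_univ_iff_forall]
  have key : ∀ (S : Finset ι) (v : Fin n), (∀ l, l ∉ S → θ v l = θ y l) → v ∈ B := by
    intro S
    induction S using Finset.induction with
    | empty => intro v hv; rwa [show v = y from θ.injective (funext fun l => hv l (Finset.notMem_empty l))]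
    | insert k S _ ih =>
      intro v hv
      set w := θ.symm (Function.update (θ v) k (θ y k)) with hwdef
      have hθw : θ w = Function.update (θ v) k (θ y k) := θ.apply_symm_apply _
      have hw : w ∈ B := ih w fun l hl => by
        by_cases hlk : l = k
        · rw [hθw, hlk, Function.update_self]
        · rw [hθw, Function.update_of_ne hlk]; exact hv l (by simp [hlk, hl])
      by_cases hvk : θ v k = θ y k
      · have : v = w := θ.injective (by rw [hθw, ← hvk, Function.update_eq_self])
        rwa [this]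
      -- translate the adjacent pair to `w`
      obtain ⟨h, hh, hhe⟩ := coord_mem θ 1 (fun l => Equiv.swap (θ y l) (θ w l))
      have hyw : h y = w := θ.injective (funext fun l => by rw [hhe, Equiv.Perm.one_apply, Equiv.swap_apply_left])
      have h1 : (⟨h, hh⟩ : Iso θ) • B = B := hB.smul_eq_of_mem hy (show h y ∈ B by rw [hyw]; exact hw)
      have hu : h (g y) ∈ B := by rw [← h1]; exact Set.smul_mem_smul_set hgy
      refine hnb w hw i (h (g y)) hu (fun l hl => ?_) ?_ k v (fun l hl => ?_)
      · rw [hhe, Equiv.Perm.one_apply, hgyl l hl, Equiv.swap_apply_left]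
      · intro e
        rw [hhe, Equiv.Perm.one_apply] at e
        exact hgyi ((Equiv.swap (θ y i) (θ w i)).injective (e.trans (Equiv.swap_apply_left _ _).symm))
      · rw [hθw, Function.update_of_ne hl]
  exact fun v => key Finset.univ v (fun l hl => absurd (Finset.mem_univ l) hl)

lemma not_two_trans (hι : 2 ≤ Fintype.card ι) (hm : 2 ≤ m) : ¬ IsMultiplyPretransitive (Iso θ) (Fin n) 2 := by
  classical
  intro h
  obtain ⟨i, k, hik⟩ := Fintype.exists_pair_of_one_lt_card (α := ι) hι
  let c0 : Fin m := ⟨0, by omega⟩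
  let c1 : Fin m := ⟨1, by omega⟩
  have h01 : c0 ≠ c1 := by simp [c0, c1]
  let a : ι → Fin m := fun _ => c0
  let b : ι → Fin m := Function.update a i c1
  let d : ι → Fin m := Function.update b k c1
  have hab : θ.symm a ≠ θ.symm b := fun e => h01 (by
    have := congrFun (θ.symm.injective e) i
    simpa [a, b] using this)
  have had : θ.symm a ≠ θ.symm d := fun e => h01 (by
    have := congrFun (θ.symm.injective e) k
    simpa [a, d] using this)
  obtain ⟨g, hga, hgb⟩ := (is_two_pretransitive_iff.1 h) hab had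
  have e := g.2 (θ.symm a) (θ.symm b)
  rw [show (g : Equiv.Perm (Fin n)) (θ.symm a) = θ.symm a from hga,
    show (g : Equiv.Perm (Fin n)) (θ.symm b) = θ.symm d from hgb, θ.apply_symm_apply, θ.apply_symm_apply,
    θ.apply_symm_apply] at e
  have h1 : hammingDist a b ≤ 1 := by
    unfold hammingDist
    rw [Finset.card_le_one]
    intro p hp q hq
    simp only [Finset.mem_filter, Finset.mem_univ, true_and] at hp hq
    have hpi : p = i := by by_contra hh; exact hp (by simp [b, Function.update_of_ne hh])
    have hqi : q = i := by by_contra hh; exact hq (by simp [b, Function.update_of_ne hh])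
    rw [hpi, hqi]
  have h2 : 2 ≤ hammingDist a d := by
    unfold hammingDist
    calc 2 = ({i, k} : Finset ι).card := (Finset.card_pair hik).symm
      _ ≤ _ := Finset.card_le_card fun p hp => by
        simp only [Finset.mem_insert, Finset.mem_singleton] at hp
        simp only [Finset.mem_filter, Finset.mem_univ, true_and]
        rcases hp with rfl | rfl
        · simp [d, b, a, hik, h01]
        · simp [d, a, h01]
  omega


/-- Let K be a finite group isomorphic to a direct product of r ≥ 2 groups all of the same order m ≥ 3. Then K is not a B-group: there is a primitive but not doubly transitive permutation group (on some finite set) containing a regular subgroup isomorphic to K. -/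
theorem result {K : Type*} [Group K] [Finite K] {ι : Type*} [Fintype ι] (F : ι → Type*) [∀ i, Group (F i)]
    (hr : 2 ≤ Fintype.card ι) (m : ℕ) (hm : 3 ≤ m) (hcard : ∀ i, Nat.card (F i) = m) (e : K ≃* (∀ i, F i)) :
    ∃ (n : ℕ) (G R : Subgroup (Equiv.Perm (Fin n))), R ≤ G ∧ Nonempty (↥R ≃* K) ∧
      MulAction.IsPretransitive ↥R (Fin n) ∧ (∀ a : Fin n, MulAction.stabilizer ↥R a = ⊥) ∧
      MulAction.IsPreprimitive ↥G (Fin n) ∧ ¬ MulAction.IsMultiplyPretransitive ↥G (Fin n) 2 := by
  classical
  haveI : Nonempty ι := Fintype.card_pos_iff.1 (by omega)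
  haveI : ∀ i, Finite (F i) := fun i => Nat.finite_of_card_ne_zero (by rw [hcard i]; omega)
  let f : ∀ i, F i ≃ Fin m := fun i => Finite.equivFinOfCardEq (hcard i)
  let n := Fintype.card (ι → Fin m)
  let θ : Fin n ≃ (ι → Fin m) := (Fintype.equivFin _).symm
  let act : K → Fin n → Fin n := fun k x => θ.symm (fun i => f i (e k i * (f i).symm (θ x i)))
  have hact1 : ∀ x, act 1 x = x := fun x => θ.injective (funext fun i => by simp [act])
  have hactm : ∀ k l x, act (k * l) x = act k (act l x) := fun k l x => θ.injective (funext fun i => by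
    simp [act, mul_assoc])
  let ρ : K →* Equiv.Perm (Fin n) := MonoidHom.mk'
    (fun k => ⟨act k, act k⁻¹, fun x => by rw [← hactm, inv_mul_cancel, hact1], fun x => by rw [← hactm, mul_inv_cancel, hact1]⟩)
    (fun k l => Equiv.ext (hactm k l))
  have hρ : ∀ k x i, θ (ρ k x) i = f i (e k i * (f i).symm (θ x i)) := fun k x i => by
    show θ (act k x) i = _
    simp [act]
  have hfree : ∀ k x, ρ k x = x → k = 1 := fun k x h => e.injective (by
    funext i
    rw [map_one, Pi.one_apply]
    have := hρ k x i
    rw [h] at this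
    have h2 := congrArg (f i).symm this
    rw [Equiv.symm_apply_apply] at h2
    exact mul_eq_right.1 h2.symm)
  have hinj : Function.Injective ρ := (injective_iff_map_eq_one ρ).2 fun k hk =>
    hfree k (θ.symm fun _ => ⟨0, by omega⟩) (by rw [hk]; rfl)
  refine ⟨n, Iso θ, ρ.range, ?_, ⟨(MonoidHom.ofInjective hinj).symm⟩, ⟨fun x y => ?_⟩, fun a => ?_,
    primitive θ inferInstance hm, not_two_trans θ hr (by omega)⟩
  · rintro g ⟨k, rfl⟩ x y
    obtain ⟨g, hg, he⟩ := coord_mem θ 1 (fun i => ((f i).symm.trans (Equiv.mulLeft (e k i))).trans (f i))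
    have : ρ k = g := Equiv.ext fun z => θ.injective (funext fun i => by rw [hρ, he]; simp)
    rw [this]; exact hg x y
  · refine ⟨⟨ρ (e.symm fun i => (f i).symm (θ y i) * ((f i).symm (θ x i))⁻¹), _, rfl⟩, θ.injective (funext fun i => ?_)⟩
    show θ (ρ _ x) i = _
    rw [hρ, e.apply_symm_apply, inv_mul_cancel_right, Equiv.apply_symm_apply]
  · rw [Subgroup.eq_bot_iff_forall]
    rintro ⟨_, k, rfl⟩ h
    apply Subtype.ext
    show ρ k = 1
    rw [hfree k a h, map_one]

end Cfsg.Agent.S3560
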