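import Cfsg.Statements.S3573
import Mathlib.GroupTheory.Perm.Centralizer
import Mathlib.Data.Nat.Choose.Lucas
import Mathlib.Tactic

set_option autoImplicit false
open Cfsg

namespace Cfsg.Agent.S3573

open Equiv Equiv.Perm Finset

variable {n k r : ℕ}

lemma exists_fixed_set (hk : k ≤ n) (hr : r.Prime) (hmod : k % r ≤ n % r) (σ : Perm (Fin n)) (hσ : orderOf σ = r) :
    ∃ s : Finset (Fin n), s.card = k ∧ s.image σ = s := by
  haveI := Fact.mk hr
  have hσ1 : σ ^ r = 1 := by rw [← hσ]; exact pow_orderOf_eq_one σ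
  have hlen : ∀ c ∈ σ.cycleFactorsFinset, c.support.card = r := fun c hc => by
    refine pow_prime_eq_one_iff.1 hσ1 _ ?_
    rw [cycleType_def]
    exact Multiset.mem_map.2 ⟨c, hc, rfl⟩
  set j := σ.cycleFactorsFinset.card with hj
  have hsupp : σ.support.card = j * r := by
    rw [← sum_cycleType, Multiset.eq_replicate_card.2 (pow_prime_eq_one_iff.1 hσ1), Multiset.sum_replicate,
      smul_eq_mul, cycleType_def, Multiset.card_map]
    rfl
  have hf : σ.supportᶜ.card + j * r = n := by
    rw [← hsupp, add_comm, Finset.card_add_card_compl, Fintype.card_fin]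
  have hfmod : k % r ≤ σ.supportᶜ.card := by
    have : σ.supportᶜ.card % r = n % r := by conv_rhs => rw [← hf, Nat.add_mul_mod_self_right]
    exact hmod.trans (this ▸ Nat.mod_le _ _)
  obtain ⟨a, b, ha, hb, hab⟩ : ∃ a b, a ≤ j ∧ b ≤ σ.supportᶜ.card ∧ a * r + b = k := by
    by_cases h : k / r ≤ j
    · exact ⟨k / r, k % r, h, hfmod, by rw [mul_comm]; exact Nat.div_add_mod k r⟩
    · have : j * r ≤ k := le_trans (Nat.mul_le_mul_right r (by omega)) (Nat.div_mul_le_self k r)
      exact ⟨j, k - j * r, le_rfl, by omega, by omega⟩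
  obtain ⟨A, hA, hAc⟩ := Finset.exists_subset_card_eq (s := σ.cycleFactorsFinset) ha
  obtain ⟨B, hB, hBc⟩ := Finset.exists_subset_card_eq hb
  refine ⟨A.biUnion support ∪ B, ?_, ?_⟩
  · rw [card_union_of_disjoint, card_biUnion, Finset.sum_congr rfl (fun c hc => hlen c (hA hc)), Finset.sum_const,
      smul_eq_mul, hAc, hBc, hab]
    · intro c hc d hd hne
      exact (Equiv.Perm.disjoint_iff_disjoint_support.1
        (cycleFactorsFinset_pairwise_disjoint σ (hA hc) (hA hd) hne))
    · rw [Finset.disjoint_left]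
      intro x hx hxB
      obtain ⟨c, hc, hxc⟩ := Finset.mem_biUnion.1 hx
      exact Finset.mem_compl.1 (hB hxB) (mem_cycleFactorsFinset_support_le (hA hc) hxc)
  · refine Finset.eq_of_subset_of_card_le ?_ (by rw [card_image_of_injective _ σ.injective])
    intro y hy
    obtain ⟨x, hx, rfl⟩ := Finset.mem_image.1 hy
    rcases Finset.mem_union.1 hx with hx | hx
    · obtain ⟨c, hc, hxc⟩ := Finset.mem_biUnion.1 hx
      refine Finset.mem_union_left _ (Finset.mem_biUnion.2 ⟨c, hc, ?_⟩)
      rw [← (mem_cycleFactorsFinset_iff.1 (hA hc)).2 x hxc]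
      exact apply_mem_support.2 hxc
    · refine Finset.mem_union_right _ ?_
      rwa [notMem_support.1 (Finset.mem_compl.1 (hB hx))]

lemma mod_le_of_fixed (hr : r.Prime) (hrn : r ≤ n)
    (h : ∀ σ : Perm (Fin n), orderOf σ = r → ∃ s : Finset (Fin n), s.card = k ∧ s.image σ = s) :
    k % r ≤ n % r := by
  haveI := Fact.mk hr
  obtain ⟨σ, hσ⟩ := (exists_with_cycleType_iff (Fin n) (m := Multiset.replicate (n / r) r)).2
    ⟨by rw [Multiset.sum_replicate, smul_eq_mul, Fintype.card_fin]; exact Nat.div_mul_le_self n r,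
     fun a ha => by rw [Multiset.eq_of_mem_replicate ha]; exact hr.two_le⟩
  have hpos : 0 < n / r := Nat.div_pos hrn hr.pos
  have hσ1 : σ ^ r = 1 := pow_prime_eq_one_iff.2 fun c hc => by
    rw [hσ] at hc; exact Multiset.eq_of_mem_replicate hc
  have hord : orderOf σ = r := orderOf_eq_prime hσ1 fun h1 => by
    rw [h1, cycleType_one] at hσ
    have := congrArg Multiset.card hσ
    simp at this
    omega
  have hsupp : σ.support.card = n / r * r := by
    rw [← sum_cycleType, hσ, Multiset.sum_replicate, smul_eq_mul]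
  obtain ⟨s, hs, hσs⟩ := h σ hord
  have hmem : ∀ x, x ∈ s ↔ σ x ∈ s := fun x => by
    constructor
    · intro hx; rw [← hσs]; exact Finset.mem_image_of_mem _ hx
    · intro hx; rw [← hσs] at hx
      obtain ⟨y, hy, he⟩ := Finset.mem_image.1 hx
      rwa [← σ.injective he]
  set τ : Perm s := σ.subtypePerm (fun x => (hmem x).symm) with hτ
  have hτ1 : τ ^ r ^ 1 = 1 := by
    rw [pow_one, hτ, subtypePerm_pow]
    apply Equiv.ext; intro x; apply Subtype.ext
    show (σ ^ r) x.1 = x.1
    rw [hσ1]; rfl
  have hmodk : τ.supportᶜ.card ≡ k [MOD r] := by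
    have := card_compl_support_modEq hτ1
    rwa [Fintype.card_coe, hs] at this
  have hle : τ.supportᶜ.card ≤ σ.supportᶜ.card := by
    rw [← Finset.card_map (Function.Embedding.subtype (· ∈ s))]
    refine Finset.card_le_card fun x hx => ?_
    obtain ⟨y, hy, rfl⟩ := Finset.mem_map.1 hx
    rw [Finset.mem_compl, mem_support, not_not] at hy ⊢
    exact congrArg Subtype.val hy
  have hfix : σ.supportᶜ.card = n % r := by
    rw [Finset.card_compl, hsupp, Fintype.card_fin]
    have := Nat.div_add_mod n r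
    rw [mul_comm] at this
    omega
  rw [hfix] at hle
  have : τ.supportᶜ.card % r = τ.supportᶜ.card := Nat.mod_eq_of_lt (lt_of_le_of_lt hle (Nat.mod_lt _ hr.pos))
  rw [Nat.ModEq, this] at hmodk
  rw [← hmodk]; exact hle


/-- Let 1 ≤ k with 2k < n and consider the symmetric group of degree n acting on the k-subsets of an n-set. Let r be a prime dividing the number C(n,k) of k-subsets. If r is odd, then every permutation of order r fixes some k-subset if and only if r ≤ k and the remainder of k modulo r is at most the remainder of n modulo r. If r = 2, then every involution fixes some k-subset if and only if k is even or n is odd. -/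
theorem result (n k : ℕ) (hk : 1 ≤ k) (hkn : 2 * k < n) (r : ℕ) (hr : r.Prime) (hrd : r ∣ Nat.choose n k) :
    (r ≠ 2 → ((∀ σ : Equiv.Perm (Fin n), orderOf σ = r → ∃ s : Finset (Fin n), s.card = k ∧ s.image σ = s) ↔
      (r ≤ k ∧ k % r ≤ n % r))) ∧
    (r = 2 → ((∀ σ : Equiv.Perm (Fin n), orderOf σ = 2 → ∃ s : Finset (Fin n), s.card = k ∧ s.image σ = s) ↔
      (Even k ∨ Odd n))) := by
  haveI := Fact.mk hr
  have hkn' : k ≤ n := by omega
  have hrn : r ≤ n := by
    have h := dvd_trans hrd (dvd_mul_right _ k.factorial)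
    have h' := dvd_trans h (dvd_mul_right _ (n - k).factorial)
    rw [Nat.choose_mul_factorial_mul_factorial hkn'] at h'
    exact hr.dvd_factorial.1 h'
  have hrk : k % r ≤ n % r → r ≤ k := by
    intro hmod
    by_contra hlt
    have h := Choose.choose_modEq_choose_mod_mul_choose_div_nat (n := n) (k := k) (p := r)
    rw [Nat.div_eq_of_lt (not_le.1 hlt), Nat.choose_zero_right, mul_one] at h
    have h0 : r ∣ Nat.choose (n % r) (k % r) :=
      Nat.modEq_zero_iff_dvd.1 (h.symm.trans (Nat.modEq_zero_iff_dvd.2 hrd))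
    have h1 := dvd_trans h0 (dvd_mul_right _ (k % r).factorial)
    have h1' := dvd_trans h1 (dvd_mul_right _ (n % r - k % r).factorial)
    rw [Nat.choose_mul_factorial_mul_factorial hmod] at h1'
    exact absurd (hr.dvd_factorial.1 h1') (not_le.2 (Nat.mod_lt _ hr.pos))
  refine ⟨fun _ => ⟨fun h => ?_, fun h σ hσ => exists_fixed_set hkn' hr h.2 σ hσ⟩, fun h2 => ?_⟩
  · have := mod_le_of_fixed hr hrn h
    exact ⟨hrk this, this⟩
  · subst h2
    rw [Nat.even_iff, Nat.odd_iff]
    refine ⟨fun h => ?_, fun h σ hσ => exists_fixed_set hkn' hr (by omega) σ hσ⟩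
    have := mod_le_of_fixed hr hrn h
    omega

end Cfsg.Agent.S3573
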