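import Cfsg.Statements.S3575
import Mathlib

set_option autoImplicit false
open Cfsg

namespace Cfsg.Agent.S3575

open Equiv

/-- Number of points moved. -/
noncomputable def mc {α : Type*} (σ : Perm α) : ℕ := Nat.card {x : α // σ x ≠ x}

theorem mc_permCongr {α β : Type*} (e : α ≃ β) (σ : Perm α) : mc (e.permCongr σ) = mc σ := by
  refine Nat.card_congr (Equiv.subtypeEquiv e.symm fun x => ?_)
  rw [Equiv.permCongr_apply, Ne, Ne, ← e.symm.injective.eq_iff, e.symm_apply_apply]

theorem cycleType_of_pow {α : Type*} [Fintype α] [DecidableEq α] {r : ℕ} [Fact r.Prime] {σ : Perm α}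
    (h : σ ^ r = 1) : ∃ c, σ.cycleType = Multiset.replicate c r ∧ mc σ = c * r := by
  refine ⟨Multiset.card σ.cycleType, Multiset.eq_replicate.mpr ⟨rfl, Equiv.Perm.pow_prime_eq_one_iff.mp h⟩, ?_⟩
  have h1 := σ.sum_cycleType
  rw [Multiset.eq_replicate.mpr ⟨rfl, Equiv.Perm.pow_prime_eq_one_iff.mp h⟩, Multiset.sum_replicate,
    smul_eq_mul] at h1
  rw [h1]
  unfold mc
  rw [Nat.card_eq_fintype_card, Fintype.card_subtype]
  congr 1

theorem dvd_mc {α : Type*} [Finite α] {r : ℕ} [Fact r.Prime] {σ : Perm α} (h : σ ^ r = 1) : r ∣ mc σ := by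
  classical
  haveI := Fintype.ofFinite α
  obtain ⟨c, -, hc⟩ := cycleType_of_pow h
  exact ⟨c, hc.trans (mul_comm _ _)⟩

theorem conj_of_mc {α : Type*} [Finite α] {r : ℕ} [Fact r.Prime] {σ τ : Perm α} (hσ : σ ^ r = 1)
    (hτ : τ ^ r = 1) (h : mc σ = mc τ) : ∃ g : Perm α, g * σ * g⁻¹ = τ := by
  classical
  haveI := Fintype.ofFinite α
  obtain ⟨c, hc, hmc⟩ := cycleType_of_pow hσ
  obtain ⟨d, hd, hmd⟩ := cycleType_of_pow hτ
  refine isConj_iff.mp (Equiv.Perm.isConj_iff_cycleType_eq.mpr ?_)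
  rw [hc, hd, Nat.eq_of_mul_eq_mul_right (Fact.out : r.Prime).pos (hmc.symm.trans (h.trans hmd))]

theorem mc_le {α : Type*} [Finite α] (σ : Perm α) : mc σ ≤ Nat.card α :=
  Nat.card_le_card_of_injective _ Subtype.val_injective

theorem mc_eq_zero {α : Type*} [Finite α] (σ : Perm α) : mc σ = 0 ↔ σ = 1 := by
  constructor
  · intro h
    ext x
    by_contra hne
    rcases Nat.card_eq_zero.mp h with h | h
    · exact h.elim ⟨x, hne⟩
    · exact not_finite {x // σ x ≠ x}
  · rintro rfl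
    exact Nat.card_eq_zero.mpr (Or.inl ⟨fun x => x.2 rfl⟩)

/-- The translation by one on `ZMod r`. -/
def rot (r : ℕ) : Perm (ZMod r) := Equiv.addRight 1

theorem rot_pow_apply (r k : ℕ) (x : ZMod r) : (rot r ^ k) x = x + k := by
  induction k generalizing x with
  | zero => simp
  | succ k ih =>
    rw [pow_succ', Perm.mul_apply, ih]
    show x + (k : ZMod r) + 1 = _
    push_cast; ring

theorem rot_pow (r : ℕ) : rot r ^ r = 1 := by
  ext x
  rw [rot_pow_apply, ZMod.natCast_self, add_zero]; rfl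

theorem rot_ne {r : ℕ} [Fact r.Prime] (x : ZMod r) : rot r x ≠ x := by
  show x + 1 ≠ x
  simp

theorem prodCongr_pow_apply {α β : Type*} (e : Perm α) (e' : Perm β) (k : ℕ) (x : α × β) :
    ((Equiv.prodCongr e e' : Perm (α × β)) ^ k) x = ((e ^ k) x.1, (e' ^ k) x.2) := by
  induction k with
  | zero => rfl
  | succ k ih => rw [pow_succ', Perm.mul_apply, ih, pow_succ', pow_succ']; rfl

theorem prodCongrRight_pow_apply {α β : Type*} (e : α → Perm β) (k : ℕ) (x : α × β) :
    ((Equiv.prodCongrRight e : Perm (α × β)) ^ k) x = (x.1, ((e x.1) ^ k) x.2) := by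
  induction k with
  | zero => rfl
  | succ k ih => rw [pow_succ', Perm.mul_apply, ih, pow_succ']; rfl

theorem sumCongr_pow {α β : Type*} (e : Perm α) (e' : Perm β) (k : ℕ) :
    (Equiv.sumCongr e e' : Perm (α ⊕ β)) ^ k = Equiv.sumCongr (e ^ k) (e' ^ k) :=
  (map_pow (Equiv.Perm.sumCongrHom α β) (e, e') k).symm

theorem mc_sumCongr {α β : Type*} [Finite α] [Finite β] (e : Perm α) (e' : Perm β) :
    mc (Equiv.sumCongr e e') = mc e + mc e' := by
  unfold mc
  rw [← Nat.card_sum]
  refine Nat.card_congr (Equiv.subtypeSum.trans (Equiv.sumCongr (Equiv.subtypeEquivRight fun a => ?_)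
    (Equiv.subtypeEquivRight fun a => ?_))) <;> simp

/-- A permutation of `Fin n` with `t` cycles of length `r`. -/
theorem exists_perm {r : ℕ} [Fact r.Prime] (n t : ℕ) (h : t * r ≤ n) :
    ∃ P : Perm (Fin n), P ^ r = 1 ∧ mc P = t * r := by
  haveI : NeZero r := ⟨(Fact.out : r.Prime).ne_zero⟩
  let e : (Fin t × ZMod r) ⊕ Fin (n - t * r) ≃ Fin n := Fintype.equivFinOfCardEq (by
    rw [Fintype.card_sum, Fintype.card_prod, Fintype.card_fin, Fintype.card_fin, ZMod.card]; omega)
  obtain ⟨A, hA⟩ : ∃ A : Perm (Fin t × ZMod r), A = Equiv.prodCongr 1 (rot r) := ⟨_, rfl⟩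
  have hAr : A ^ r = 1 := Equiv.ext fun x => by rw [hA, prodCongr_pow_apply, rot_pow, one_pow]; rfl
  have hAm : mc A = t * r := by
    unfold mc
    have hh : ∀ x : Fin t × ZMod r, A x ≠ x := fun x hx => rot_ne x.2 (by rw [hA] at hx; exact congrArg Prod.snd hx)
    rw [Nat.card_congr (Equiv.subtypeUnivEquiv hh), Nat.card_prod, Nat.card_fin, Nat.card_zmod]
  refine ⟨e.permCongr (Equiv.sumCongr A 1), ?_, ?_⟩
  · have h1 : (Equiv.sumCongr A (1 : Perm (Fin (n - t * r))) : Perm _) ^ r = 1 := by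
      rw [sumCongr_pow, hAr, one_pow]; exact Equiv.Perm.sumCongr_one
    rw [← Equiv.permCongrHom_coe, ← map_pow, h1, map_one]
  · rw [mc_permCongr, mc_sumCongr, hAm, (mc_eq_zero _).mpr rfl, add_zero]

/-- `σ` permutes the fibres of some partition into `b` parts of size `a`. -/
def Good {α : Type*} (a b : ℕ) (σ : Perm α) : Prop :=
  ∃ f : α → Fin b, (∀ j : Fin b, Nat.card {x : α // f x = j} = a) ∧ ∃ π : Perm (Fin b), ∀ x : α, f (σ x) = π (f x)

theorem good_permCongr {α β : Type*} {a b : ℕ} (e : α ≃ β) {σ : Perm α} (h : Good a b σ) :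
    Good a b (e.permCongr σ) := by
  obtain ⟨f, hf, π, hπ⟩ := h
  refine ⟨f ∘ e.symm, fun j => ?_, π, fun x => ?_⟩
  · rw [← hf j]
    exact Nat.card_congr (Equiv.subtypeEquiv e.symm fun x => Iff.rfl)
  · show f (e.symm (e (σ (e.symm x)))) = π (f (e.symm x))
    rw [e.symm_apply_apply, hπ]

theorem good_conj {α : Type*} {a b : ℕ} {σ g : Perm α} (h : Good a b σ) : Good a b (g * σ * g⁻¹) := by
  have e : g * σ * g⁻¹ = g.permCongr σ := by ext x; rfl
  rw [e]; exact good_permCongr g h

/-- Necessary counting condition. -/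
theorem count_of_good {r a b : ℕ} [Fact r.Prime] (ha : 0 < a) {α : Type*} [Finite α] {σ : Perm α}
    (hσ : σ ^ r = 1) (h : Good a b σ) :
    ∃ j T : ℕ, j * r ≤ b ∧ T ≤ (b - j * r) * (a / r) ∧ mc σ = r * (j * a + T) := by
  classical
  have hr : r.Prime := Fact.out
  obtain ⟨f, hf, π, hπ⟩ := h
  have hsurj : Function.Surjective f := fun j => by
    obtain ⟨⟨x, hx⟩⟩ := (Nat.card_pos_iff.mp (by rw [hf j]; exact ha)).1
    exact ⟨x, hx⟩
  have hiter : ∀ (k : ℕ) x, f ((σ ^ k) x) = (π ^ k) (f x) := by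
    intro k
    induction k with
    | zero => intro x; rfl
    | succ k ih => intro x; rw [pow_succ', pow_succ', Perm.mul_apply, Perm.mul_apply, hπ, ih]
  have hπr : π ^ r = 1 := Equiv.ext fun y => by
    obtain ⟨x, rfl⟩ := hsurj y
    rw [← hiter, hσ]; rfl
  obtain ⟨j, hj⟩ := dvd_mc hπr
  let g : Fin b → ℕ := fun y => Nat.card {x : {x : α // σ x ≠ x} // f x = y}
  have hsum : mc σ = ∑ y, g y := by
    unfold mc
    rw [← Nat.card_congr (Equiv.sigmaFiberEquiv fun x : {x : α // σ x ≠ x} => f x), Nat.card_sigma]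
  have hmoved : ∀ y, π y ≠ y → g y = a := by
    intro y hy
    rw [← hf y]
    refine Nat.card_congr ⟨fun x => ⟨x.1.1, x.2⟩, fun x => ⟨⟨x.1, fun e => hy ?_⟩, x.2⟩, fun _ => rfl, fun _ => rfl⟩
    rw [← x.2, ← hπ, e]
  have hfixed : ∀ y, π y = y → ∃ t, t ≤ a / r ∧ g y = r * t := by
    intro y hy
    obtain ⟨τ, hτ⟩ : ∃ τ : Perm {x : α // f x = y}, ∀ x, ((τ x : {x : α // f x = y}) : α) = σ x := by
      refine ⟨σ.subtypePerm (fun x => ?_), fun x => rfl⟩
      rw [hπ]
      exact ⟨fun e => π.injective (e.trans hy.symm), fun e => by rw [e, hy]⟩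
    have hpow : ∀ (k : ℕ) (x : {x : α // f x = y}), (((τ ^ k) x : {x : α // f x = y}) : α) = (σ ^ k) x := by
      intro k
      induction k with
      | zero => intro x; rfl
      | succ k ih => intro x; rw [pow_succ', pow_succ', Perm.mul_apply, Perm.mul_apply, hτ, ih]
    have hτr : τ ^ r = 1 := Equiv.ext fun x => Subtype.ext (by rw [hpow, hσ]; rfl)
    have hg : g y = mc τ := Nat.card_congr
      ⟨fun x => ⟨⟨x.1.1, x.2⟩, fun e => x.1.2 ((hτ ⟨x.1.1, x.2⟩).symm.trans (congrArg Subtype.val e))⟩,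
        fun x => ⟨⟨x.1.1, fun e => x.2 (Subtype.ext ((hτ x.1).trans e))⟩, x.1.2⟩, fun _ => rfl, fun _ => rfl⟩
    obtain ⟨t, ht⟩ := dvd_mc hτr
    refine ⟨t, ?_, hg.trans ht⟩
    rw [Nat.le_div_iff_mul_le hr.pos, mul_comm, ← ht, ← hf y]
    exact mc_le τ
  choose t ht1 ht2 using hfixed
  let u : Fin b → ℕ := fun y => if h : π y = y then t y h else 0
  have hcardM : (Finset.univ.filter fun y => π y ≠ y).card = r * j := by
    rw [← hj]; unfold mc; rw [Nat.card_eq_fintype_card, Fintype.card_subtype]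
  have hsplit := (Finset.univ : Finset (Fin b)).card_filter_add_card_filter_not (fun y => π y ≠ y)
  rw [hcardM, Finset.card_univ, Fintype.card_fin] at hsplit
  have hjb : j * r ≤ b := by rw [mul_comm]; omega
  refine ⟨j, ∑ y ∈ Finset.univ.filter (fun y => ¬ π y ≠ y), u y, hjb, ?_, ?_⟩
  · calc ∑ y ∈ Finset.univ.filter (fun y => ¬ π y ≠ y), u y
        ≤ ∑ y ∈ Finset.univ.filter (fun y => ¬ π y ≠ y), a / r := Finset.sum_le_sum fun y hy => by
          have hy' : π y = y := not_not.mp (Finset.mem_filter.mp hy).2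
          simp only [u, dif_pos hy']
          exact ht1 y hy'
      _ = _ := by
          rw [Finset.sum_const, smul_eq_mul]
          congr 1
          rw [mul_comm j r]
          omega
  · rw [hsum, ← Finset.sum_filter_add_sum_filter_not Finset.univ (fun y => π y ≠ y), mul_add]
    congr 1
    · rw [Finset.sum_congr rfl fun y hy => hmoved y (Finset.mem_filter.mp hy).2, Finset.sum_const,
        smul_eq_mul, hcardM, mul_assoc]
    · rw [Finset.mul_sum]
      refine Finset.sum_congr rfl fun y hy => ?_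
      have hy' : π y = y := not_not.mp (Finset.mem_filter.mp hy).2
      simp only [u, dif_pos hy']
      exact ht2 y hy'

theorem exists_dist (m q T : ℕ) (h : T ≤ m * q) : ∃ t : Fin m → ℕ, (∀ i, t i ≤ q) ∧ ∑ i, t i = T := by
  induction m generalizing T with
  | zero => exact ⟨fun _ => 0, fun _ => Nat.zero_le _, by simp at h; simp [h]⟩
  | succ m ih =>
    obtain ⟨t, ht1, ht2⟩ := ih (T - min q T) (by rw [Nat.succ_mul] at h; omega)
    refine ⟨Fin.cons (min q T) t, fun i => ?_, ?_⟩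
    · refine Fin.cases ?_ (fun k => ?_) i
      · exact min_le_left _ _
      · simpa using ht1 k
    · rw [Fin.sum_univ_succ]
      simp only [Fin.cons_zero, Fin.cons_succ, ht2]
      omega

/-- A model partition. -/
theorem good_of_count {r a b : ℕ} [Fact r.Prime] {j T : ℕ} (hjb : j * r ≤ b)
    (hT : T ≤ (b - j * r) * (a / r)) {σ : Perm (Fin (a * b))} (hσ : σ ^ r = 1)
    (hmc : mc σ = r * (j * a + T)) : Good a b σ := by
  classical
  haveI : NeZero r := ⟨(Fact.out : r.Prime).ne_zero⟩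
  obtain ⟨m, hm⟩ : ∃ m, b = j * r + m := ⟨b - j * r, by omega⟩
  obtain ⟨t, ht, htT⟩ := exists_dist m (a / r) T (by
    refine hT.trans (le_of_eq ?_)
    congr 1; omega)
  choose P hP1 hP2 using fun i => exists_perm (r := r) a (t i)
    ((Nat.mul_le_mul_right r (ht i)).trans (Nat.div_mul_le_self a r))
  obtain ⟨L, hL⟩ : ∃ L : Perm ((Fin j × ZMod r) × Fin a),
      L = Equiv.prodCongr (Equiv.prodCongr 1 (rot r)) 1 := ⟨_, rfl⟩
  obtain ⟨R, hR⟩ : ∃ R : Perm (Fin m × Fin a), R = Equiv.prodCongrRight P := ⟨_, rfl⟩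
  let eB : (Fin j × ZMod r) ⊕ Fin m ≃ Fin b := Fintype.equivFinOfCardEq (by
    rw [Fintype.card_sum, Fintype.card_prod, Fintype.card_fin, Fintype.card_fin, ZMod.card]; omega)
  let X := ((Fin j × ZMod r) × Fin a) ⊕ (Fin m × Fin a)
  let τ : Perm X := Equiv.sumCongr L R
  let eX : X ≃ Fin (a * b) := Fintype.equivFinOfCardEq (by
    simp only [X, Fintype.card_sum, Fintype.card_prod, Fintype.card_fin, ZMod.card]
    rw [hm]; ring)
  have hgood : Good a b τ := by
    refine ⟨fun x => eB (Sum.map Prod.fst Prod.fst x), fun y => ?_,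
      eB.permCongr (Equiv.sumCongr (Equiv.prodCongr 1 (rot r)) 1), fun x => ?_⟩
    · obtain ⟨y, rfl⟩ := eB.surjective y
      rw [Nat.card_congr (Equiv.subtypeEquivRight fun x => eB.injective.eq_iff)]
      rcases y with p | i
      · refine (Nat.card_congr (Equiv.ofBijective (fun z : Fin a => (⟨Sum.inl (p, z), rfl⟩ :
          {x : X // Sum.map Prod.fst Prod.fst x = Sum.inl p})) ⟨fun u v e => ?_, ?_⟩).symm).trans (Nat.card_fin a)
        · exact congrArg Prod.snd (Sum.inl.inj (congrArg Subtype.val e))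
        · rintro ⟨(⟨p', z⟩ | ⟨i', z⟩), hx⟩
          · have : p' = p := Sum.inl.inj hx
            subst this
            exact ⟨z, rfl⟩
          · exact absurd hx Sum.inr_ne_inl
      · refine (Nat.card_congr (Equiv.ofBijective (fun z : Fin a => (⟨Sum.inr (i, z), rfl⟩ :
          {x : X // Sum.map Prod.fst Prod.fst x = Sum.inr i})) ⟨fun u v e => ?_, ?_⟩).symm).trans (Nat.card_fin a)
        · exact congrArg Prod.snd (Sum.inr.inj (congrArg Subtype.val e))
        · rintro ⟨(⟨p', z⟩ | ⟨i', z⟩), hx⟩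
          · exact absurd hx Sum.inl_ne_inr
          · have : i' = i := Sum.inr.inj hx
            subst this
            exact ⟨z, rfl⟩
    · rw [Equiv.permCongr_apply, eB.symm_apply_apply]
      subst hL hR
      rcases x with ⟨⟨i, s⟩, z⟩ | ⟨i, z⟩ <;> rfl
  have hτr : τ ^ r = 1 := by
    have hLr : L ^ r = 1 := Equiv.ext fun x => by
      rw [hL, prodCongr_pow_apply, prodCongr_pow_apply, rot_pow, one_pow, one_pow]; rfl
    have hRr : R ^ r = 1 := Equiv.ext fun x => by rw [hR, prodCongrRight_pow_apply, hP1]; rfl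
    show (Equiv.sumCongr L R : Perm X) ^ r = 1
    rw [sumCongr_pow, hLr, hRr]; exact Equiv.Perm.sumCongr_one
  have hτm : mc τ = r * (j * a + T) := by
    show mc (Equiv.sumCongr L R : Perm X) = _
    have hLm : mc L = j * r * a := by
      unfold mc
      have hh : ∀ x, L x ≠ x := fun x hx => rot_ne x.1.2 (by
        rw [hL] at hx
        exact congrArg (fun z : (Fin j × ZMod r) × Fin a => z.1.2) hx)
      rw [Nat.card_congr (Equiv.subtypeUnivEquiv hh), Nat.card_prod, Nat.card_prod, Nat.card_fin, Nat.card_zmod, Nat.card_fin]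
    have hRm : mc R = r * T := by
      have e : mc R = ∑ i, mc (P i) := by
        unfold mc
        rw [← Nat.card_sigma]
        exact Nat.card_congr
          ⟨fun x => ⟨x.1.1, x.1.2, fun e => x.2 (((congrArg (fun Q : Perm (Fin m × Fin a) => Q x.1) hR)).trans (Prod.ext rfl e))⟩,
            fun x => ⟨(x.1, x.2.1), fun e => x.2.2 (congrArg Prod.snd ((congrArg (fun Q : Perm (Fin m × Fin a) => Q (x.1, x.2.1)) hR).symm.trans e))⟩,
            fun _ => rfl, fun _ => rfl⟩
      rw [e, ← htT, Finset.mul_sum]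
      exact Finset.sum_congr rfl fun i _ => by rw [hP2, mul_comm]
    rw [mc_sumCongr, hLm, hRm]; ring
  obtain ⟨g, hg⟩ := conj_of_mc (σ := eX.permCongr τ) (τ := σ)
    (by rw [← Equiv.permCongrHom_coe, ← map_pow, hτr, map_one]) hσ
    (by rw [mc_permCongr, hτm, hmc])
  rw [← hg]
  exact good_conj (good_permCongr eX hgood)


/-- Let a, b ≥ 2 and consider the symmetric group of degree a·b acting on the partitions of an (a·b)-set into b parts of size a (encoded as maps onto a b-element set all of whose fibres have a elements; a permutation fixes such a partition when it permutes the fibres). Let r be a prime dividing the number (ab)!/((a!)^b·b!) of such partitions, and let ℓ and k be the remainders of a and b modulo r. Then every permutation of order r fixes some such partition if and only if r ≤ a and one of the following holds: ℓ = 0; or k = 0 and ℓ = 1; or ℓ and k are non-zero, k·ℓ < r, and either b < r or (k + r)·ℓ ≤ k·a + r. -/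
theorem result (a b : ℕ) (ha : 2 ≤ a) (hb : 2 ≤ b) (r : ℕ) (hr : r.Prime)
    (hrd : r ∣ (a * b).factorial / (a.factorial ^ b * b.factorial)) :
    (∀ σ : Equiv.Perm (Fin (a * b)), orderOf σ = r →
        ∃ f : Fin (a * b) → Fin b, (∀ j : Fin b, Nat.card {x : Fin (a * b) // f x = j} = a) ∧
          ∃ π : Equiv.Perm (Fin b), ∀ x : Fin (a * b), f (σ x) = π (f x)) ↔
      (r ≤ a ∧ (a % r = 0 ∨ (b % r = 0 ∧ a % r = 1) ∨
        (a % r ≠ 0 ∧ b % r ≠ 0 ∧ (b % r) * (a % r) < r ∧ (b < r ∨ (b % r + r) * (a % r) ≤ (b % r) * a + r)))) := by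
  classical
  haveI := Fact.mk hr
  show (∀ σ : Equiv.Perm (Fin (a * b)), orderOf σ = r → Good a b σ) ↔ _
  obtain ⟨q, hq⟩ : ∃ q, q = a / r := ⟨_, rfl⟩
  obtain ⟨J, hJ⟩ : ∃ J, J = b / r := ⟨_, rfl⟩
  obtain ⟨l, hl⟩ : ∃ l, l = a % r := ⟨_, rfl⟩
  obtain ⟨k, hk⟩ : ∃ k, k = b % r := ⟨_, rfl⟩
  have hal : a = r * q + l := by rw [hq, hl]; exact (Nat.div_add_mod a r).symm
  have hbk : b = r * J + k := by rw [hJ, hk]; exact (Nat.div_add_mod b r).symm
  have hlr : l < r := hl ▸ Nat.mod_lt _ hr.pos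
  have hkr : k < r := hk ▸ Nat.mod_lt _ hr.pos
  have hrab : r ≤ a * b := by
    refine hr.dvd_factorial.mp (hrd.trans ?_)
    have hu := Nat.uniformBell_mul_eq b (show a ≠ 0 by omega)
    have hd : (a.factorial ^ b * b.factorial) ∣ (a * b).factorial :=
      ⟨Nat.uniformBell b a, by rw [mul_comm a b, ← hu]; ring⟩
    exact Nat.div_dvd_of_dvd hd
  -- achievable cycle numbers
  have htotal : a * b / r = b * q + J * l + k * l / r := by
    rw [show a * b = k * l + r * (b * q + J * l) by rw [hal, hbk]; ring, Nat.add_mul_div_left _ _ hr.pos]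
    ring
  have hU : ∀ j T, j * r ≤ b → T ≤ (b - j * r) * q → j * a + T ≤ b * q + j * l := by
    intro j T hj hT
    obtain ⟨m, hm⟩ : ∃ m, b = j * r + m := ⟨b - j * r, by omega⟩
    rw [show b - j * r = m by omega] at hT
    calc j * a + T ≤ j * a + m * q := by omega
      _ = b * q + j * l := by rw [hal, hm]; ring
  have hexists : ∀ c, 1 ≤ c → c * r ≤ a * b → ∃ σ : Equiv.Perm (Fin (a * b)), σ ^ r = 1 ∧ orderOf σ = r ∧ mc σ = c * r := by
    intro c hc hcr
    obtain ⟨σ, h1, h2⟩ := exists_perm (r := r) (a * b) c hcr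
    refine ⟨σ, h1, orderOf_eq_prime h1 fun e => ?_, h2⟩
    rw [(mc_eq_zero σ).mpr e] at h2
    rcases Nat.mul_eq_zero.mp h2.symm with h | h
    · omega
    · exact hr.ne_zero h
  have hneed : ∀ c, 1 ≤ c → c ≤ a * b / r → (∀ σ : Equiv.Perm (Fin (a * b)), orderOf σ = r → Good a b σ) →
      ∃ j T : ℕ, j * r ≤ b ∧ T ≤ (b - j * r) * q ∧ c = j * a + T := by
    intro c hc hcm hall
    obtain ⟨σ, h1, h2, h3⟩ := hexists c hc ((Nat.le_div_iff_mul_le hr.pos).mp hcm)
    obtain ⟨j, T, hj, hT, hm⟩ := count_of_good (show 0 < a by omega) h1 (hall σ h2)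
    refine ⟨j, T, hj, hq ▸ hT, ?_⟩
    rw [h3, mul_comm c r] at hm
    exact Nat.eq_of_mul_eq_mul_left hr.pos hm
  have hjJ : ∀ j, j * r ≤ b → j ≤ J := fun j hj => by
    rw [hJ, Nat.le_div_iff_mul_le hr.pos]; exact hj
  -- the covering condition in the two forms
  have hform : (J = 0 ∨ l ≤ k * q + 1) ∧ k * l < r ↔
      (l = 0 ∨ (k = 0 ∧ l = 1) ∨ (l ≠ 0 ∧ k ≠ 0 ∧ k * l < r ∧ (b < r ∨ (k + r) * l ≤ k * a + r))) := by
    have hiff : (k + r) * l ≤ k * a + r ↔ l ≤ k * q + 1 := by
      rw [show (k + r) * l = k * l + r * l by ring,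
        show k * a + r = k * l + r * (k * q + 1) by rw [hal]; ring, Nat.add_le_add_iff_left]
      exact ⟨fun h => Nat.le_of_mul_le_mul_left h hr.pos, fun h => Nat.mul_le_mul_left r h⟩
    have hJ0 : J = 0 ↔ b < r := by
      rw [hJ, Nat.div_eq_zero_iff]
      exact ⟨fun h => h.resolve_left hr.ne_zero, Or.inr⟩
    rcases Nat.eq_zero_or_pos l with h0 | h0
    · rw [h0, mul_zero]
      exact ⟨fun _ => Or.inl rfl, fun _ => ⟨Or.inr (Nat.zero_le _), hr.pos⟩⟩
    rcases Nat.eq_zero_or_pos k with hk0 | hk0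
    · rw [hk0, zero_mul, zero_mul, zero_add]
      constructor
      · rintro ⟨h | h, -⟩
        · exfalso; rw [hk0, h, mul_zero, add_zero] at hbk; omega
        · exact Or.inr (Or.inl ⟨rfl, by omega⟩)
      · rintro (h | ⟨-, h⟩ | ⟨-, h, -⟩)
        · omega
        · exact ⟨Or.inr h.le, hr.pos⟩
        · exact absurd rfl h
    · rw [hiff, ← hJ0]
      constructor
      · rintro ⟨h1, h2⟩; exact Or.inr (Or.inr ⟨h0.ne', hk0.ne', h2, h1⟩)
      · rintro (h | ⟨h, -⟩ | ⟨-, -, h2, h1⟩)
        · omega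
        · omega
        · exact ⟨h1, h2⟩
  rw [← hl, ← hk]
  constructor
  · intro hall
    have hra : r ≤ a := by
      by_contra hlt
      have hq0 : q = 0 := by rw [hq]; exact Nat.div_eq_of_lt (by omega)
      obtain ⟨j, T, -, hT, hc⟩ := hneed 1 le_rfl ((Nat.le_div_iff_mul_le hr.pos).mpr (by omega)) hall
      rw [hq0, mul_zero] at hT
      rcases j with _ | j
      · omega
      · rw [Nat.succ_mul] at hc; omega
    refine ⟨hra, hform.mp ⟨?_, ?_⟩⟩
    · by_contra hcon
      push Not at hcon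
      obtain ⟨hJ0, hlk⟩ := hcon
      obtain ⟨J', hJ'⟩ : ∃ J', J = J' + 1 := ⟨J - 1, by omega⟩
      have hJa : J * a = r * (J * q) + J * l := by rw [hal]; ring
      have hkey : b * q + J' * l + 1 < J * a := by
        rw [hJa, hbk, hJ', add_mul J' 1 l, one_mul, add_mul, mul_assoc]
        omega
      have hle : J * a - 1 ≤ a * b / r := by
        rw [Nat.le_div_iff_mul_le hr.pos]
        calc (J * a - 1) * r ≤ J * a * r := Nat.mul_le_mul_right r (Nat.sub_le _ _)
          _ = (r * J) * a := by ring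
          _ ≤ b * a := Nat.mul_le_mul_right a (by omega)
          _ = a * b := mul_comm _ _
      obtain ⟨j, T, hj, hT, hc⟩ := hneed (J * a - 1) (by omega) hle hall
      have h1 := hU j T hj hT
      rcases Nat.lt_or_ge j J with hlt | hge
      · have : j * l ≤ J' * l := Nat.mul_le_mul_right l (by omega)
        omega
      · have : J * a ≤ j * a := Nat.mul_le_mul_right a hge
        omega
    · by_contra hcon
      obtain ⟨j, T, hj, hT, hc⟩ := hneed (a * b / r) ((Nat.le_div_iff_mul_le hr.pos).mpr (by omega)) le_rfl hall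
      have h1 := hU j T hj hT
      have h2 : j * l ≤ J * l := Nat.mul_le_mul_right l (hjJ j hj)
      have h3 : 1 ≤ k * l / r := (Nat.one_le_div_iff hr.pos).mpr (by omega)
      omega
  · rintro ⟨hra, hcond⟩ σ hσ
    obtain ⟨hgap, hkl⟩ := hform.mpr hcond
    have hσr : σ ^ r = 1 := hσ ▸ pow_orderOf_eq_one σ
    obtain ⟨c, hc⟩ := dvd_mc hσr
    have hcle : c ≤ b * q + J * l := by
      have h1 : c ≤ a * b / r := by
        rw [Nat.le_div_iff_mul_le hr.pos, mul_comm, ← hc]
        exact (mc_le σ).trans (Nat.card_fin _).le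
      rw [htotal, Nat.div_eq_of_lt hkl, add_zero] at h1
      exact h1
    -- choose the largest number of moved block orbits
    obtain ⟨j, hjle, hja, hjnext⟩ : ∃ j, j ≤ J ∧ j * a ≤ c ∧ (j < J → c < (j + 1) * a) := by
      by_cases hJc : J * a ≤ c
      · exact ⟨J, le_rfl, hJc, fun h => absurd h (lt_irrefl _)⟩
      · refine ⟨c / a, ?_, Nat.div_mul_le_self c a, fun _ => ?_⟩
        · exact (Nat.le_of_lt_succ ((Nat.div_lt_iff_lt_mul (by omega)).mpr (by rw [Nat.succ_mul]; omega)))
        · exact Nat.lt_mul_of_div_lt (Nat.lt_succ_self _) (by omega)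
    have hjb : j * r ≤ b := by
      calc j * r ≤ J * r := Nat.mul_le_mul_right r hjle
        _ ≤ b := by rw [hJ]; exact Nat.div_mul_le_self b r
    refine good_of_count hjb (T := c - j * a) (hq ▸ ?_) hσr (by rw [hc]; congr 1; omega)
    obtain ⟨m, hm⟩ : ∃ m, b = j * r + m := ⟨b - j * r, by omega⟩
    rw [show b - j * r = m by omega]
    have hmain : j * a + m * q = b * q + j * l := by rw [hal, hm]; ring
    rcases eq_or_lt_of_le hjle with e | hlt
    · rw [e] at hmain ⊢; omega
    · have h1 := hjnext hlt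
      have h2 : l ≤ k * q + 1 := hgap.resolve_left (by omega)
      obtain ⟨i, hi⟩ : ∃ i, J = j + 1 + i := ⟨J - j - 1, by omega⟩
      have h3 : (j + 1) * a ≤ b * q + j * l + 1 := by
        have h4 : (j + 1) * a = r * ((j + 1) * q) + (j * l + l) := by rw [hal]; ring
        have h5 : b * q = r * ((j + 1) * q) + (r * (i * q) + k * q) := by rw [hbk, hi]; ring
        omega
      omega

end Cfsg.Agent.S3575
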