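import Cfsg.Statements.S3599
import Mathlib
import Cfsg.Agent.Lib.SpectrumExt

set_option autoImplicit false
open Cfsg

namespace Cfsg.Agent.S3599


open Polynomial

/-- The properties of the Frobenius group of type `(p, q)` that we use. -/
structure PQ (p q : ℕ) (G : Type) [Group G] : Prop where
  orders : ∀ x : G, orderOf x = 1 ∨ orderOf x = p ∨ orderOf x = q
  exists_p : ∃ x : G, orderOf x = p
  exists_q : ∃ x : G, orderOf x = q
  generate : ∀ H : Subgroup G, (∃ x ∈ H, orderOf x = p) → (∃ x ∈ H, orderOf x = q) → H = ⊤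
  normal : ∀ N : Subgroup G, N.Normal → N ≠ ⊥ → ∀ x : G, orderOf x = p → x ∈ N
  comm : ∀ x y : G, orderOf x = p → orderOf y = p → x * y = y * x
  noncomm : ∃ x y : G, orderOf x = q ∧ orderOf y = q ∧ x * y ≠ y * x

theorem exists_root (p q : ℕ) [Fact p.Prime] (hq : q.Prime) (hpq : p ≠ q) :
    ∃ (F : Type) (_ : Field F) (_ : Fintype F) (_ : CharP F p) (ζ : Fˣ), orderOf ζ = q ∧
      ∀ x : F, ∃ g : (ZMod p)[X], x = g.eval₂ (ZMod.castHom dvd_rfl F) (ζ : F) := by
  classical
  obtain ⟨f, hf, hfd⟩ := WfDvdMonoid.exists_irreducible_factor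
    (not_isUnit_of_degree_pos (cyclotomic q (ZMod p)) (degree_cyclotomic_pos q _ hq.pos)) (cyclotomic_ne_zero q _)
  have := Fact.mk hf
  have : CharP (AdjoinRoot f) p :=
    charP_of_injective_ringHom (AdjoinRoot.of f).injective p
  have : Finite (AdjoinRoot f) := by
    have : Module.Finite (ZMod p) (AdjoinRoot f) := (AdjoinRoot.powerBasis hf.ne_zero).finite
    exact Module.finite_of_finite (ZMod p)
  have : Fintype (AdjoinRoot f) := Fintype.ofFinite _
  set r := AdjoinRoot.root f with hr
  have hroot : (cyclotomic q (ZMod p)).eval₂ (AdjoinRoot.of f) r = 0 := by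
    obtain ⟨g, hg⟩ := hfd
    rw [hg, eval₂_mul, AdjoinRoot.eval₂_root, zero_mul]
  have hprim : IsPrimitiveRoot r q := by
    have : NeZero ((q : ℕ) : AdjoinRoot f) := ⟨by
      rw [Ne, CharP.cast_eq_zero_iff (AdjoinRoot f) p, Nat.prime_dvd_prime_iff_eq Fact.out hq]; exact hpq⟩
    rw [← isRoot_cyclotomic_iff, IsRoot.def, ← map_cyclotomic q (AdjoinRoot.of f), eval_map]
    exact hroot
  refine ⟨AdjoinRoot f, inferInstance, inferInstance, inferInstance, (hprim.isUnit hq.ne_zero).unit, ?_, fun x => ?_⟩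
  · rw [← orderOf_units, IsUnit.unit_spec]
    exact hprim.eq_orderOf.symm
  · obtain ⟨g, rfl⟩ := AdjoinRoot.mk_surjective x
    refine ⟨g, ?_⟩
    rw [IsUnit.unit_spec, Subsingleton.elim (ZMod.castHom dvd_rfl (AdjoinRoot f)) (AdjoinRoot.of f)]
    exact (AdjoinRoot.aeval_eq g).symm

theorem exists_pq (p q : ℕ) (hp : p.Prime) (hq : q.Prime) (hpq : p ≠ q) :
    ∃ (G : Type) (_ : Group G) (_ : Fintype G), PQ p q G := by
  classical
  have := Fact.mk hp
  obtain ⟨F, hF, hFf, hFc, ζ, hζ, hgen⟩ := exists_root p q hq hpq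
  let C := Subgroup.zpowers ζ
  let φ : C →* MulAut (Multiplicative F) := MonoidHom.mk' (fun c =>
    AddEquiv.toMultiplicative (DistribMulAction.toAddEquiv F (c : Fˣ)))
    (fun a b => MulEquiv.ext fun x => congrArg Multiplicative.ofAdd (mul_smul (a : Fˣ) (b : Fˣ) x.toAdd))
  have hφ : ∀ (c : C) (v : Multiplicative F), φ c v = Multiplicative.ofAdd (((c : Fˣ) : F) * v.toAdd) := fun _ _ => rfl
  let X := Multiplicative F ⋊[φ] C
  have : Finite X := Finite.of_equiv _ SemidirectProduct.equivProd.symm
  have hp0 : ∀ v : Multiplicative F, v ^ p = 1 := fun v => by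
    apply Multiplicative.toAdd.injective
    rw [toAdd_pow, toAdd_one, nsmul_eq_mul, CharP.cast_eq_zero F p, zero_mul]
  have hfpf : ∀ c : C, c ≠ 1 → ∀ v : Multiplicative F, φ c v = v → v = 1 := by
    intro c hc v hv
    rw [hφ] at hv
    have h1 : (((c : Fˣ) : F) - 1) * v.toAdd = 0 := by
      rw [sub_mul, one_mul, sub_eq_zero]; exact congrArg Multiplicative.toAdd hv
    rcases mul_eq_zero.mp h1 with h | h
    · exact absurd (Subtype.ext (Units.ext (sub_eq_zero.mp h))) hc
    · exact Multiplicative.toAdd.injective h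
  have hCc : Nat.card C = q := (Nat.card_zpowers ζ).trans hζ
  have hleft : ∀ z : X, z.right = 1 → z = SemidirectProduct.inl z.left := fun z hz => SemidirectProduct.ext rfl hz
  have hordl : ∀ z : X, z.right = 1 → z ≠ 1 → orderOf z = p := fun z hz hz1 => by
    refine orderOf_eq_prime ?_ hz1
    rw [hleft z hz, ← map_pow, hp0, map_one]
  have hordr : ∀ z : X, z.right ≠ 1 → orderOf z = q := fun z hz => by
    rw [CfsgLib.SpectrumExt.orderOf_eq_right_of_fpf φ z (hfpf _ hz)]
    have : Fact q.Prime := ⟨hq⟩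
    exact orderOf_eq_prime (hCc ▸ pow_card_eq_one') hz
  have hisl : ∀ z : X, orderOf z = p → z.right = 1 := fun z hz => by_contra fun h => hpq (hz.symm.trans (hordr z h))
  let u : C := ⟨ζ, Subgroup.mem_zpowers ζ⟩
  have hu : u ≠ 1 := fun h => hq.ne_one (by
    rw [← hζ, show ζ = 1 from congrArg Subtype.val h, orderOf_one])
  have hconj : ∀ (g : X) (w : Multiplicative F), g * SemidirectProduct.inl w * g⁻¹ = SemidirectProduct.inl (φ g.right w) := by
    intro g w
    rw [mul_inv_eq_iff_eq_mul]
    refine SemidirectProduct.ext ?_ ?_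
    · show g.left * φ g.right w = φ g.right w * φ 1 g.left
      rw [map_one, MulAut.one_apply, mul_comm]
    · show g.right * 1 = 1 * g.right
      rw [one_mul, mul_one]
  -- a subgroup with a translation and stable under the multiplication contains all translations
  have hfull : ∀ H : Subgroup X, ∀ v : Multiplicative F, v ≠ 1 → SemidirectProduct.inl v ∈ H →
      (∀ w, SemidirectProduct.inl w ∈ H → SemidirectProduct.inl (φ u w) ∈ H) →
      ∀ w, SemidirectProduct.inl w ∈ H := by
    intro H v hv hvH hst w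
    obtain ⟨g, hg⟩ := hgen (w.toAdd / v.toAdd)
    have hv0 : v.toAdd ≠ 0 := fun h => hv (Multiplicative.toAdd.injective h)
    rw [div_eq_iff hv0] at hg
    have hw : w = Multiplicative.ofAdd (g.eval₂ (ZMod.castHom dvd_rfl F) (ζ : F) * v.toAdd) :=
      Multiplicative.toAdd.injective hg
    rw [hw]
    have hz : ∀ (x : F) (k : ℕ), SemidirectProduct.inl (Multiplicative.ofAdd x) ∈ H →
        SemidirectProduct.inl (Multiplicative.ofAdd ((ζ : F) ^ k * x)) ∈ H := by
      intro x k hx
      induction k with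
      | zero => simpa using hx
      | succ k ih =>
        have := hst _ ih
        rw [hφ, toAdd_ofAdd, ← mul_assoc, ← pow_succ'] at this
        exact this
    clear hg hw
    induction g using Polynomial.induction_on' with
    | add a b ha hb =>
      rw [eval₂_add, add_mul, ofAdd_add, map_mul]
      exact mul_mem ha hb
    | monomial n a =>
      rw [eval₂_monomial, mul_assoc, ← ZMod.natCast_zmod_val a, map_natCast, ← nsmul_eq_mul, ofAdd_nsmul, map_pow]
      exact pow_mem (hz _ n hvH) _
  obtain ⟨H0, hH0g, hH0f, ⟨e⟩⟩ := CfsgLib.SpectrumExt.exists_type0 X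
  refine ⟨H0, hH0g, hH0f, ?_⟩
  have hX : PQ p q X := by
    refine ⟨fun x => ?_, ⟨SemidirectProduct.inl (Multiplicative.ofAdd (1 : F)), ?_⟩, ⟨SemidirectProduct.inr u, ?_⟩, ?_, ?_, ?_, ?_⟩
    · by_cases h : x.right = 1
      · by_cases h1 : x = 1
        · exact Or.inl (by rw [h1, orderOf_one])
        · exact Or.inr (Or.inl (hordl x h h1))
      · exact Or.inr (Or.inr (hordr x h))
    · refine hordl _ rfl fun h => ?_
      exact one_ne_zero (α := F) (congrArg (fun z : X => z.left.toAdd) h)
    · exact hordr _ hu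
    · rintro H ⟨x, hxH, hx⟩ ⟨y, hyH, hy⟩
      have hx1 : x.left ≠ 1 := fun h => hp.ne_one (by
        rw [← hx, hleft x (hisl x hx), h, map_one, orderOf_one])
      have hy1 : y.right ≠ 1 := fun h => by
        by_cases h1 : y = 1
        · rw [h1, orderOf_one] at hy; exact hq.ne_one hy.symm
        · exact hpq ((hordl y h h1).symm.trans hy)
      have : Fact q.Prime := ⟨hq⟩
      have hgy : ∀ c : C, c ∈ Subgroup.zpowers y.right := fun c => mem_zpowers_of_prime_card hCc hy1
      have hst : ∀ w, SemidirectProduct.inl w ∈ H → SemidirectProduct.inl (φ u w) ∈ H := by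
        intro w hw
        obtain ⟨i, hi⟩ := hgy u
        have e1 : SemidirectProduct.inl (φ u w) = y ^ i * SemidirectProduct.inl w * (y ^ i)⁻¹ := by
          have hr : (y ^ i).right = u := by
            rw [← SemidirectProduct.rightHom_eq_right, map_zpow, SemidirectProduct.rightHom_eq_right]; exact hi
          rw [hconj, hr]
        rw [e1]
        exact mul_mem (mul_mem (zpow_mem hyH i) hw) (inv_mem (zpow_mem hyH i))
      have hall := hfull H x.left hx1 (by rw [← hleft x (hisl x hx)]; exact hxH) hst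
      rw [eq_top_iff]
      intro z _
      obtain ⟨i, hi⟩ := hgy z.right
      have hz : (z * (y ^ i)⁻¹).right = 1 := by
        rw [← SemidirectProduct.rightHom_eq_right, map_mul, map_inv, map_zpow, SemidirectProduct.rightHom_eq_right]
        show z.right * (y.right ^ i)⁻¹ = 1
        rw [show y.right ^ i = z.right from hi, mul_inv_cancel]
      have := mul_mem (hleft _ hz ▸ hall _ : z * (y ^ i)⁻¹ ∈ H) (zpow_mem hyH i)
      rwa [inv_mul_cancel_right] at this
    · intro N hN hN0 x hx
      obtain ⟨z, hzN, hz1⟩ : ∃ z ∈ N, z ≠ 1 := by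
        by_contra h
        push Not at h
        exact hN0 ((Subgroup.eq_bot_iff_forall N).mpr h)
      obtain ⟨v, hv, hvN⟩ : ∃ v : Multiplicative F, v ≠ 1 ∧ SemidirectProduct.inl v ∈ N := by
        by_cases h : z.right = 1
        · exact ⟨z.left, fun e1 => hz1 (by rw [hleft z h, e1, map_one]), hleft z h ▸ hzN⟩
        · let w : X := SemidirectProduct.inl (Multiplicative.ofAdd (1 : F))
          have hm : w * z * w⁻¹ * z⁻¹ ∈ N := mul_mem (hN.conj_mem z hzN w) (inv_mem hzN)
          have hr : (w * z * w⁻¹ * z⁻¹).right = 1 := by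
            rw [← SemidirectProduct.rightHom_eq_right, map_mul, map_mul, map_mul, map_inv, map_inv]
            simp [w]
          refine ⟨_, fun e1 => ?_, hleft _ hr ▸ hm⟩
          have e2 : w * z * w⁻¹ * z⁻¹ = 1 := by rw [hleft _ hr, e1, map_one]
          have e3 : w * z = z * w := by
            rw [mul_inv_eq_one, mul_inv_eq_iff_eq_mul] at e2; exact e2
          have e4 := congrArg SemidirectProduct.left e3
          rw [SemidirectProduct.mul_left, SemidirectProduct.mul_left, SemidirectProduct.left_inl,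
            SemidirectProduct.right_inl, map_one φ, MulAut.one_apply, mul_comm z.left] at e4
          have e5 := mul_right_cancel e4
          have := hfpf _ h _ e5.symm
          exact one_ne_zero (α := F) (congrArg Multiplicative.toAdd this)
      rw [hleft x (hisl x hx)]
      refine hfull N v hv hvN (fun w hw => ?_) x.left
      have := hN.conj_mem _ hw (SemidirectProduct.inr u : X)
      rwa [hconj, SemidirectProduct.right_inr] at this
    · intro x y hx hy
      rw [hleft x (hisl x hx), hleft y (hisl y hy), ← map_mul, ← map_mul, mul_comm]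
    · refine ⟨SemidirectProduct.inr u, SemidirectProduct.inl (Multiplicative.ofAdd (1 : F)) * SemidirectProduct.inr u,
        hordr _ hu, hordr _ ?_, fun h => ?_⟩
      · rw [SemidirectProduct.mul_right, SemidirectProduct.right_inl, SemidirectProduct.right_inr, one_mul]
        exact hu
      · have e4 := congrArg SemidirectProduct.left h
        change (1 : Multiplicative F) * φ u (Multiplicative.ofAdd (1 : F) * φ 1 1) =
          Multiplicative.ofAdd (1 : F) * φ 1 1 * φ ((1 : C) * u) 1 at e4
        simp only [map_one, MulAut.one_apply, one_mul, mul_one] at e4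
        exact one_ne_zero (α := F) (congrArg Multiplicative.toAdd (hfpf u hu _ e4))
  have ho : ∀ x : X, orderOf (e.symm x) = orderOf x := fun x => MulEquiv.orderOf_eq e.symm x
  have ho' : ∀ x : H0, orderOf (e x) = orderOf x := fun x => MulEquiv.orderOf_eq e x
  refine ⟨fun x => ho' x ▸ hX.orders (e x), ?_, ?_, fun H h1 h2 => ?_, fun N hN hN0 x hx => ?_, fun x y hx hy => ?_, ?_⟩
  · obtain ⟨x, hx⟩ := hX.exists_p; exact ⟨e.symm x, (ho x).trans hx⟩
  · obtain ⟨x, hx⟩ := hX.exists_q; exact ⟨e.symm x, (ho x).trans hx⟩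
  · have := hX.generate (H.map e.toMonoidHom)
      (let ⟨x, hx, hx'⟩ := h1; ⟨e x, Subgroup.mem_map_of_mem _ hx, (ho' x).trans hx'⟩)
      (let ⟨x, hx, hx'⟩ := h2; ⟨e x, Subgroup.mem_map_of_mem _ hx, (ho' x).trans hx'⟩)
    refine Subgroup.map_injective (f := e.toMonoidHom) e.injective ?_
    rw [this, Subgroup.map_top_of_surjective e.toMonoidHom e.surjective]
  · have := hX.normal (N.map e.toMonoidHom) (hN.map _ e.surjective)
      (fun h => hN0 ((Subgroup.map_eq_bot_iff_of_injective N e.injective).mp h)) (e x) ((ho' x).trans hx)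
    obtain ⟨y, hy, hyx⟩ := Subgroup.mem_map.mp this
    rwa [← e.injective hyx]
  · apply e.injective
    rw [map_mul, map_mul]
    exact hX.comm _ _ ((ho' x).trans hx) ((ho' y).trans hy)
  · obtain ⟨x, y, hx, hy, hxy⟩ := hX.noncomm
    refine ⟨e.symm x, e.symm y, (ho x).trans hx, (ho y).trans hy, fun h => hxy (e.symm.injective ?_)⟩
    rw [map_mul, map_mul]; exact h


/-- A finite group is critical with respect to a set Ω of natural numbers when its set of element orders is Ω while no proper section H/N (H a subgroup, N normal in H, (H, N) ≠ (whole group, 1)) has Ω as its set of element orders. Let s ≥ 1 and let p(j,0), p(j,1) (j < s) be 2s pairwise distinct primes, and let Ω be the set of all products c(0)·…·c(s−1) with each c(j) ∈ {1, p(j,0), p(j,1)}. Then there are 2^s pairwise non-isomorphic finite groups critical with respect to Ω. -/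
theorem result (s : ℕ) (hs : 1 ≤ s) (p : Fin s → Fin 2 → ℕ)
    (hp : ∀ j i, (p j i).Prime) (hinj : ∀ j i j' i', p j i = p j' i' → j = j' ∧ i = i') :
    ∃ (G : Fin (2 ^ s) → Type) (_ : ∀ a, Group (G a)) (_ : ∀ a, Fintype (G a)),
      (∀ a b, a ≠ b → ¬ Nonempty (G a ≃* G b)) ∧
      ∀ a, Set.range (orderOf : (G a) → ℕ) = {m : ℕ | ∃ c : Fin s → ℕ, (∀ j, c j = 1 ∨ c j = p j 0 ∨ c j = p j 1) ∧ m = ∏ j, c j} ∧
      ∀ (H : Subgroup (G a)) (N : Subgroup ↥H) [N.Normal], (H ≠ ⊤ ∨ N ≠ ⊥) → Set.range (orderOf : (↥H ⧸ N) → ℕ) ≠ {m : ℕ | ∃ c : Fin s → ℕ, (∀ j, c j = 1 ∨ c j = p j 0 ∨ c j = p j 1) ∧ m = ∏ j, c j} := by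
  classical
  let σ := (finFunctionFinEquiv (m := 2) (n := s)).symm
  have hne : ∀ (j : Fin s) (b : Fin 2), p j b ≠ p j (b + 1) := fun j b h => by
    have := (hinj _ _ _ _ h).2
    revert this; clear h; revert b; decide
  choose G hGg hGf hG using fun (j : Fin s) (b : Fin 2) => exists_pq (p j b) (p j (b + 1)) (hp _ _) (hp _ _) (hne j b)
  have hG' : ∀ (j : Fin s) (b i : Fin 2), ∃ x : G j b, orderOf x = p j i := fun j b i => by
    have hb : i = b ∨ i = b + 1 := by revert i b; decide
    rcases hb with rfl | rfl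
    · exact (hG j i).exists_p
    · exact (hG j b).exists_q
  have hord : ∀ (j : Fin s) (b : Fin 2) (x : G j b), orderOf x = 1 ∨ orderOf x = p j 0 ∨ orderOf x = p j 1 := by
    intro j b x
    have h := (hG j b).orders x
    have hb : (b = 0 ∧ b + 1 = 1) ∨ (b = 1 ∧ b + 1 = 0) := by clear h x; revert b; decide
    rcases hb with ⟨h0, h1⟩ | ⟨h0, h1⟩ <;> rw [h1] at h <;> subst h0 <;> tauto
  have hcop : ∀ (c : Fin s → ℕ), (∀ j, c j = 1 ∨ c j = p j 0 ∨ c j = p j 1) → Pairwise (Function.onFun Nat.Coprime c) := by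
    intro c hc i j hij
    show Nat.Coprime (c i) (c j)
    have key : ∀ a b, Nat.Coprime (p i a) (p j b) := fun a b =>
      (Nat.coprime_primes (hp _ _) (hp _ _)).mpr fun h => hij (hinj _ _ _ _ h).1
    rcases hc i with h | h | h <;> rw [h] <;> rcases hc j with h' | h' | h' <;> rw [h'] <;>
      first | exact Nat.coprime_one_left _ | exact Nat.coprime_one_right _ | exact key _ _
  have hprod : ∀ (A : Fin (2 ^ s)) (x : ∀ j, G j (σ A j)), orderOf x = ∏ j, orderOf (x j) := by
    intro A x
    apply Nat.dvd_antisymm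
    · refine orderOf_dvd_of_pow_eq_one (funext fun j => ?_)
      rw [Pi.pow_apply, Pi.one_apply]
      exact orderOf_dvd_iff_pow_eq_one.mp (Finset.dvd_prod_of_mem _ (Finset.mem_univ j))
    · exact Fintype.prod_dvd_of_isRelPrime (fun a b hab => Nat.coprime_iff_isRelPrime.mp (hcop _ (fun j => hord j _ (x j)) hab))
        fun j => orderOf_map_dvd (Pi.evalMonoidHom (fun j => G j (σ A j)) j) x
  -- elements of prime order are supported in a single factor
  have hsingle : ∀ (A : Fin (2 ^ s)) (x : ∀ j, G j (σ A j)) (j : Fin s) (i : Fin 2), orderOf x = p j i →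
      x = Pi.mulSingle j (x j) ∧ orderOf (x j) = p j i := by
    intro A x j i hx
    have hx1 : ∀ k, k ≠ j → x k = 1 := fun k hk => by
      rw [← orderOf_eq_one_iff]
      have hd : orderOf (x k) ∣ p j i := hx ▸ orderOf_map_dvd (Pi.evalMonoidHom (fun j => G j (σ A j)) k) x
      rcases (Nat.dvd_prime (hp j i)).mp hd with h | h
      · exact h
      · exfalso
        rcases hord k _ (x k) with e | e | e <;> rw [e] at h
        · exact (hp j i).ne_one h.symm
        · exact hk (hinj _ _ _ _ h).1
        · exact hk (hinj _ _ _ _ h).1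
    refine ⟨funext fun k => ?_, ?_⟩
    · rcases eq_or_ne k j with rfl | hk
      · rw [Pi.mulSingle_eq_same]
      · rw [Pi.mulSingle_eq_of_ne hk, hx1 k hk]
    · rw [← hx, hprod, Finset.prod_eq_single j (fun k _ hk => by rw [hx1 k hk, orderOf_one])
        (fun h => absurd (Finset.mem_univ j) h)]
  have hsorder : ∀ (A : Fin (2 ^ s)) (j : Fin s) (y : G j (σ A j)), orderOf (Pi.mulSingle j y : ∀ j, G j (σ A j)) = orderOf y :=
    fun A j y => orderOf_injective (MonoidHom.mulSingle (fun j => G j (σ A j)) j) (Pi.mulSingle_injective (M := fun j => G j (σ A j)) j) y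
  have hOmega : ∀ (j : Fin s) (i : Fin 2), p j i ∈ {m : ℕ | ∃ c : Fin s → ℕ, (∀ j, c j = 1 ∨ c j = p j 0 ∨ c j = p j 1) ∧ m = ∏ j, c j} := by
    intro j i
    refine ⟨Function.update 1 j (p j i), fun k => ?_, ?_⟩
    · rcases eq_or_ne k j with rfl | hk
      · rw [Function.update_self]; fin_cases i <;> simp
      · rw [Function.update_of_ne hk]; exact Or.inl rfl
    · rw [Finset.prod_update_of_mem (Finset.mem_univ j)]; simp
  refine ⟨fun A => ∀ j, G j (σ A j), fun A => Pi.group, fun A => inferInstance, ?_, fun A => ⟨?_, ?_⟩⟩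
  · rintro A B hAB ⟨e⟩
    apply hAB
    apply σ.injective
    funext j
    by_contra hj
    have hB : σ B j = σ A j + 1 := by
      revert hj; generalize σ A j = a; generalize σ B j = b; revert a b; decide
    obtain ⟨x, y, hx, hy, hxy⟩ := (hG j (σ A j)).noncomm
    set X := e (Pi.mulSingle j x) with hX
    set Y := e (Pi.mulSingle j y) with hY
    have hXo : orderOf X = p j (σ B j) := by rw [hX, MulEquiv.orderOf_eq, hsorder, hx, hB]
    have hYo : orderOf Y = p j (σ B j) := by rw [hY, MulEquiv.orderOf_eq, hsorder, hy, hB]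
    obtain ⟨hX1, hX2⟩ := hsingle B X j _ hXo
    obtain ⟨hY1, hY2⟩ := hsingle B Y j _ hYo
    have hc : X * Y = Y * X := by
      rw [hX1, hY1, ← Pi.mulSingle_mul, ← Pi.mulSingle_mul, (hG j _).comm _ _ hX2 hY2]
    apply hxy
    apply Pi.mulSingle_injective (M := fun j => G j (σ A j)) j
    apply e.injective
    rw [Pi.mulSingle_mul, Pi.mulSingle_mul, map_mul, map_mul]
    exact hc
  · refine Set.ext fun m => ⟨?_, ?_⟩
    · rintro ⟨x, rfl⟩
      exact ⟨fun j => orderOf (x j), fun j => hord j _ (x j), hprod A x⟩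
    · rintro ⟨c, hc, rfl⟩
      have : ∀ j, ∃ y : G j (σ A j), orderOf y = c j := fun j => by
        rcases hc j with h | h | h <;> rw [h]
        · exact ⟨1, orderOf_one⟩
        · exact hG' j _ 0
        · exact hG' j _ 1
      choose x hx using this
      exact ⟨x, by rw [hprod]; simp [hx]⟩
  · intro H N hN hprop heq
    have hget : ∀ j i, ∃ y : G j (σ A j), Pi.mulSingle j y ∈ H ∧ orderOf y = p j i ∧
        (∀ hy : Pi.mulSingle j y ∈ H, (⟨_, hy⟩ : H) ∉ N) := by
      intro j i
      obtain ⟨z, hz⟩ : p j i ∈ Set.range (orderOf : (↥H ⧸ N) → ℕ) := by rw [heq]; exact hOmega j i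
      obtain ⟨g, rfl⟩ := QuotientGroup.mk'_surjective N z
      set P := p j i with hP
      have hPd : P ∣ orderOf g := hz ▸ orderOf_map_dvd (QuotientGroup.mk' N) g
      obtain ⟨m, hm⟩ := hPd
      have hPm : ¬ P ∣ m := by
        intro hd
        have hg := hprod A (g : ∀ j, G j (σ A j))
        rw [Subgroup.orderOf_coe, hm] at hg
        have hsq : P * P ∣ ∏ k, orderOf ((g : ∀ j, G j (σ A j)) k) := hg ▸ mul_dvd_mul_left P hd
        have hzero : ∀ k, k ≠ j → ¬ P ∣ orderOf ((g : ∀ j, G j (σ A j)) k) := fun k hk hd' => by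
          rcases hord k _ ((g : ∀ j, G j (σ A j)) k) with e | e | e <;> rw [e] at hd'
          · exact (hp j i).ne_one (Nat.dvd_one.mp hd')
          · exact hk (hinj _ _ _ _ ((Nat.prime_dvd_prime_iff_eq (hp _ _) (hp _ _)).mp hd')).1.symm
          · exact hk (hinj _ _ _ _ ((Nat.prime_dvd_prime_iff_eq (hp _ _) (hp _ _)).mp hd')).1.symm
        rw [← Finset.mul_prod_erase _ _ (Finset.mem_univ j)] at hsq
        have hc : Nat.Coprime (P * P) (∏ k ∈ Finset.univ.erase j, orderOf ((g : ∀ j, G j (σ A j)) k)) :=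
          Nat.Coprime.prod_right fun k hk =>
            ((hp j i).coprime_iff_not_dvd.mpr (hzero k (Finset.ne_of_mem_erase hk))).mul_left
              ((hp j i).coprime_iff_not_dvd.mpr (hzero k (Finset.ne_of_mem_erase hk)))
        have h2 := hc.dvd_of_dvd_mul_right hsq
        have hle : P * P ∣ P := by
          rcases hord j _ ((g : ∀ j, G j (σ A j)) j) with e | e | e <;> rw [e] at h2
          · exact h2.trans (one_dvd _)
          · rcases (Nat.dvd_prime (hp j 0)).mp (dvd_of_mul_right_dvd h2) with e2 | e2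
            · exact absurd e2 (hp j i).ne_one
            · rw [← e2] at h2; exact h2
          · rcases (Nat.dvd_prime (hp j 1)).mp (dvd_of_mul_right_dvd h2) with e2 | e2
            · exact absurd e2 (hp j i).ne_one
            · rw [← e2] at h2; exact h2
        have := Nat.le_of_dvd (hp j i).pos hle
        have := (hp j i).two_le
        nlinarith
      have hy1 : orderOf (g ^ m) = P := by
        rw [orderOf_pow' g (fun h0 => hPm (by rw [h0]; exact dvd_zero _)), hm, Nat.gcd_mul_left_left,
          Nat.mul_div_cancel _ (Nat.pos_of_ne_zero fun h0 => hPm (by rw [h0]; exact dvd_zero _))]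
      have hyN : g ^ m ∉ N := fun h => hPm (by
        rw [← hz]
        exact orderOf_dvd_of_pow_eq_one ((QuotientGroup.eq_one_iff _).mpr h))
      obtain ⟨e1, e2⟩ := hsingle A ((g ^ m : H) : ∀ j, G j (σ A j)) j i (by rw [Subgroup.orderOf_coe, hy1])
      refine ⟨_, e1 ▸ (g ^ m).2, e2, fun hy h => hyN ?_⟩
      have : (⟨_, hy⟩ : H) = g ^ m := Subtype.ext e1.symm
      rwa [this] at h
    have hHtop : H = ⊤ := by
      rw [eq_top_iff]
      intro x _
      refine Subgroup.pi_mem_of_mulSingle_mem x fun j => ?_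
      have hb : H.comap (MonoidHom.mulSingle (fun j => G j (σ A j)) j) = ⊤ := by
        obtain ⟨y, hy, hyo, -⟩ := hget j (σ A j)
        obtain ⟨y', hy', hyo', -⟩ := hget j (σ A j + 1)
        exact (hG j _).generate _ ⟨y, hy, hyo⟩ ⟨y', hy', hyo'⟩
      exact (hb.ge (Subgroup.mem_top (x j)) :)
    subst hHtop
    rcases hprop with h | h
    · exact h rfl
    obtain ⟨n, hn, hn1⟩ : ∃ n ∈ N, n ≠ 1 := by
      by_contra h'
      push Not at h'
      exact h ((Subgroup.eq_bot_iff_forall N).mpr h')
    obtain ⟨j, hj⟩ : ∃ j, (n : ∀ j, G j (σ A j)) j ≠ 1 := by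
      by_contra h'
      push Not at h'
      exact hn1 (Subtype.ext (funext h'))
    let ι : G j (σ A j) →* (⊤ : Subgroup (∀ j, G j (σ A j))) :=
      (MonoidHom.mulSingle (fun j => G j (σ A j)) j).codRestrict ⊤ (fun _ => Subgroup.mem_top _)
    set o := orderOf ((n : ∀ j, G j (σ A j)) j) with ho
    set m := ∏ k ∈ Finset.univ.erase j, orderOf ((n : ∀ j, G j (σ A j)) k) with hm
    have hnm : (n : ∀ j, G j (σ A j)) ^ m = Pi.mulSingle j ((n : ∀ j, G j (σ A j)) j ^ m) := funext fun k => by
      rcases eq_or_ne k j with rfl | hk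
      · rw [Pi.mulSingle_eq_same, Pi.pow_apply]
      · rw [Pi.mulSingle_eq_of_ne hk, Pi.pow_apply]
        exact orderOf_dvd_iff_pow_eq_one.mp (Finset.dvd_prod_of_mem _ (Finset.mem_erase.mpr ⟨hk, Finset.mem_univ k⟩))
    have hne1 : (n : ∀ j, G j (σ A j)) j ^ m ≠ 1 := fun h1 => by
      have hd := orderOf_dvd_of_pow_eq_one h1
      have hc : Nat.Coprime o m := Nat.Coprime.prod_right fun k hk =>
        hcop _ (fun k => hord k _ ((n : ∀ j, G j (σ A j)) k)) (Finset.ne_of_mem_erase hk).symm
      exact hj (orderOf_eq_one_iff.mp (Nat.eq_one_of_dvd_coprimes hc dvd_rfl hd))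
    have hcomap : N.comap ι ≠ ⊥ := by
      intro hb
      apply hne1
      rw [← Subgroup.mem_bot, ← hb, Subgroup.mem_comap]
      have : ι ((n : ∀ j, G j (σ A j)) j ^ m) = n ^ m := Subtype.ext (by rw [Subgroup.coe_pow]; exact hnm.symm)
      rw [this]; exact pow_mem hn m
    obtain ⟨y, hy, hyo, hyN⟩ := hget j (σ A j)
    exact hyN hy ((hG j _).normal _ (hN.comap ι) hcomap y hyo)

end Cfsg.Agent.S3599
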