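import Cfsg.Statements.S3619
import Mathlib

set_option autoImplicit false
open Cfsg
open scoped Pointwise

namespace Cfsg.Agent.S3619

/-- Let G act faithfully on a finite set in such a way that every non-trivial normal subgroup of G is transitive (G is quasiprimitive). Let Γ be a subset with more than one point and not the whole set, such that the pointwise stabilizer of the complement of Γ acts transitively on Γ (a Jordan set). If that pointwise stabilizer acts primitively on Γ, then G is k-fold transitive where k is one more than the number of points outside Γ (the Jordan set is a trivial one). -/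
theorem result {G Ω : Type*} [Group G] [Finite G] [MulAction G Ω] [FaithfulSMul G Ω] [Finite Ω]
    (hqp : ∀ N : Subgroup G, N.Normal → N ≠ ⊥ → MulAction.IsPretransitive ↥N Ω)
    (Γ : Set Ω) (hΓ1 : 1 < Γ.ncard) (hΓ2 : Γ.ncard < Nat.card Ω)
    (hJ : MulAction.IsPretransitive ↥(fixingSubgroup G Γᶜ) ↥(SubMulAction.ofFixingSubgroup G Γᶜ))
    (hJp : MulAction.IsPreprimitive ↥(fixingSubgroup G Γᶜ) ↥(SubMulAction.ofFixingSubgroup G Γᶜ)) :
    MulAction.IsMultiplyPretransitive G Ω (Nat.card Ω - Γ.ncard + 1) := by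
  classical
  set K := fixingSubgroup G Γᶜ with hK
  obtain ⟨γ, hγ⟩ := Set.nonempty_of_ncard_ne_zero (by omega : Γ.ncard ≠ 0)
  obtain ⟨δ, hδ, hδγ⟩ := Set.exists_ne_of_one_lt_ncard hΓ1 γ
  have hmemΓ : ∀ x, x ∈ SubMulAction.ofFixingSubgroup G Γᶜ ↔ x ∈ Γ := fun x => by
    rw [SubMulAction.mem_ofFixingSubgroup_iff]; simp
  have hout : ∀ k ∈ K, ∀ x, x ∉ Γ → k • x = x := fun k hk x hx => (mem_fixingSubgroup_iff G).mp hk x hx
  have hin : ∀ k ∈ K, ∀ x, x ∈ Γ → k • x ∈ Γ := fun k hk x hx => by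
    by_contra h
    have e : k • x = x := MulAction.injective k (hout k hk _ h)
    exact h (by rw [e]; exact hx)
  have htrK : ∀ x ∈ Γ, ∀ y ∈ Γ, ∃ k ∈ K, k • x = y := by
    intro x hx y hy
    obtain ⟨k, hk⟩ := hJ.exists_smul_eq ⟨x, (hmemΓ x).mpr hx⟩ ⟨y, (hmemΓ y).mpr hy⟩
    exact ⟨k, k.2, congrArg Subtype.val hk⟩
  obtain ⟨k₀, hk₀, hk₀γ⟩ := htrK γ hγ δ hδ
  have hK1 : k₀ ≠ 1 := fun h => hδγ (by rw [← hk₀γ, h, one_smul])
  have htr : MulAction.IsPretransitive G Ω := by
    have : Nontrivial G := nontrivial_of_ne k₀ 1 hK1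
    refine ⟨fun x y => ?_⟩
    obtain ⟨g, hg⟩ := (hqp ⊤ inferInstance top_ne_bot).exists_smul_eq x y
    exact ⟨g, hg⟩
  have hprim : MulAction.IsPreprimitive G Ω := by
    refine { toIsPretransitive := htr, isTrivialBlock_of_isBlock := fun {B} hB => ?_ }
    by_contra htriv
    rw [MulAction.IsTrivialBlock] at htriv
    push Not at htriv
    obtain ⟨hBns, hBu⟩ := htriv
    have hblk : ∀ g : G, MulAction.IsBlock G (g • B) := fun g => hB.translate g
    have hnsub : ∀ g : G, (g • B).Nontrivial := fun g => hBns.image (MulAction.injective g)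
    have hpart : ∀ g : G, Γ ⊆ g • B ∨ ∀ x ∈ g • B, ∀ y ∈ g • B, x ∈ Γ → y ∈ Γ → x = y := by
      intro g
      let f : SubMulAction.ofFixingSubgroup G Γᶜ →ₑ[K.subtype] Ω := { toFun := Subtype.val, map_smul' := fun _ _ => rfl }
      rcases hJp.isTrivialBlock_of_isBlock ((hblk g).preimage f) with h | h
      · refine Or.inr fun x hx y hy hxΓ hyΓ => ?_
        exact congrArg Subtype.val (@h ⟨x, (hmemΓ x).mpr hxΓ⟩ hx ⟨y, (hmemΓ y).mpr hyΓ⟩ hy)
      · refine Or.inl fun x hx => ?_
        have : (⟨x, (hmemΓ x).mpr hx⟩ : SubMulAction.ofFixingSubgroup G Γᶜ) ∈ f ⁻¹' (g • B) := h ▸ Set.mem_univ _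
        exact this
    by_cases hcase : ∃ g : G, Γ ⊆ g • B
    · obtain ⟨g, hg⟩ := hcase
      let N : Subgroup G :=
        { carrier := {a | ∀ c : G, a • c • B = c • B}
          one_mem' := fun c => one_smul _ _
          mul_mem' := fun {a b} ha hb c => by rw [mul_smul, hb, ha]
          inv_mem' := fun {a} ha c => by conv_lhs => rw [← ha c, inv_smul_smul] }
      have hNn : N.Normal := ⟨fun a ha b c => by
        show (b * a * b⁻¹) • c • B = c • B
        rw [mul_smul, mul_smul, ← mul_smul b⁻¹ c, ha (b⁻¹ * c), mul_smul, smul_inv_smul]⟩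
      have hNk : k₀ ∈ N := fun c => by
        by_cases hd : ∃ x ∈ c • B, x ∈ Γ
        · obtain ⟨x, hx, hxΓ⟩ := hd
          rcases MulAction.isBlock_iff_smul_eq_or_disjoint.mp (hblk c) k₀ with h | h
          · exact h
          exfalso
          have h1 : g • B = c • B := by
            rcases hB.smul_eq_smul_or_disjoint g c with h' | h'
            · exact h'
            · exact absurd hx (Set.disjoint_left.mp h' (hg hxΓ))
          refine Set.disjoint_left.mp h (Set.smul_mem_smul_set hx) ?_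
          rw [← h1]; exact hg (hin k₀ hk₀ x hxΓ)
        · push Not at hd
          ext x
          constructor
          · rintro ⟨y, hy, rfl⟩
            show k₀ • y ∈ c • B
            rwa [hout k₀ hk₀ y (hd y hy)]
          · exact fun hx => ⟨x, hx, hout k₀ hk₀ x (hd x hx)⟩
      have hNt := hqp N hNn fun h => hK1 ((Subgroup.mem_bot).mp (h ▸ hNk))
      refine hBu (Set.eq_univ_of_forall fun x => ?_)
      obtain ⟨b, hb⟩ := hBns.nonempty
      obtain ⟨a, ha⟩ := hNt.exists_smul_eq b x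
      rw [← one_smul G B, ← a.2 1, one_smul]
      exact ⟨b, hb, ha⟩
    · push Not at hcase
      obtain ⟨b, hb⟩ := hBns.nonempty
      obtain ⟨g, hgb⟩ := htr.exists_smul_eq b γ
      have hγB : γ ∈ g • B := hgb ▸ Set.smul_mem_smul_set hb
      obtain ⟨z, hz, hzγ⟩ := (hnsub g).exists_ne γ
      have hp := (hpart g).resolve_left (hcase g)
      have hzΓ : z ∉ Γ := fun h => hzγ (hp z hz γ hγB h hγ)
      rcases MulAction.isBlock_iff_smul_eq_or_disjoint.mp (hblk g) k₀ with h | h
      · exact hδγ (hp δ (hk₀γ ▸ h ▸ Set.smul_mem_smul_set hγB) γ hγB hδ hγ)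
      · exact Set.disjoint_left.mp h ⟨z, hz, hout k₀ hk₀ z hzΓ⟩ hz
  have hc : Γᶜ.ncard = Nat.card Ω - Γ.ncard := Set.ncard_compl Γ
  obtain ⟨m, hm⟩ : ∃ m, Γᶜ.ncard = m + 1 := ⟨Γᶜ.ncard - 1, by omega⟩
  have := MulAction.IsPreprimitive.isMultiplyPreprimitive hprim hm (by omega) hJp
  have h := this.isMultiplyPretransitive
  rwa [show Nat.card Ω - Γ.ncard + 1 = m + 2 by omega]

end Cfsg.Agent.S3619
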