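import Cfsg.Statements.S3633
import Cfsg.Agent.Lib.PrimeGraph

set_option autoImplicit false
open Cfsg

namespace Cfsg.Agent.S3633

/-- Let G be a finite group and ρ a set of at least three prime divisors of the order of G that are pairwise non-adjacent in the prime graph (no element of order rs for distinct r, s ∈ ρ). Then at most one prime of ρ divides the order of any given solvable normal subgroup of G; in particular G is not solvable. -/
theorem result {G : Type*} [Group G] [Finite G] (ρ : Finset ℕ) (hρ : 3 ≤ ρ.card) (hc : ((∀ r ∈ ρ, r.Prime ∧ r ∣ Nat.card G) ∧ (∀ r ∈ ρ, ∀ s ∈ ρ, r ≠ s → ¬ ∃ x : G, orderOf x = r * s)))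
    (K : Subgroup G) [K.Normal] (hK : Group.IsSolvable ↥K) :
    (∀ r ∈ ρ, ∀ s ∈ ρ, r ∣ Nat.card ↥K → s ∣ Nat.card ↥K → r = s) ∧ ¬ Group.IsSolvable G := by
  have key : ∀ (L : Subgroup G) [L.Normal] [Group.IsSolvable L], ∀ r ∈ ρ, ∀ s ∈ ρ,
      r ∣ Nat.card L → s ∣ Nat.card L → r = s := by
    intro L _ _ r hr s hs h1 h2
    by_contra hne
    obtain ⟨t, ht, htn⟩ := Finset.exists_mem_notMem_of_card_lt_card
      (show ({r, s} : Finset ℕ).card < ρ.card from lt_of_le_of_lt Finset.card_le_two (by omega))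
    simp only [Finset.mem_insert, Finset.mem_singleton, not_or] at htn
    refine CfsgLib.PrimeGraph.solvable_normal_one L (hc.1 r hr).1 (hc.1 s hs).1 (hc.1 t ht).1 hne
      (Ne.symm htn.1) (Ne.symm htn.2) h1 h2 (hc.1 t ht).2 ?_
    intro a ha b hb
    simp only [Finset.mem_insert, Finset.mem_singleton] at ha hb
    exact hc.2 a (by rcases ha with rfl | rfl | rfl <;> assumption) b
      (by rcases hb with rfl | rfl | rfl <;> assumption)
  haveI := hK
  refine ⟨key K, fun hG => ?_⟩
  haveI := hG
  haveI : Group.IsSolvable (⊤ : Subgroup G) :=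
    solvable_of_surjective (f := (Subgroup.topEquiv (G := G)).symm.toMonoidHom)
      (Subgroup.topEquiv (G := G)).symm.surjective
  obtain ⟨r, hr, s, hs, hne⟩ := Finset.one_lt_card.1 (show 1 < ρ.card by omega)
  exact hne (key ⊤ r hr s hs (by rw [Subgroup.card_top]; exact (hc.1 r hr).2)
    (by rw [Subgroup.card_top]; exact (hc.1 s hs).2))

end Cfsg.Agent.S3633
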