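import Cfsg.Statements.S3639
import Mathlib

set_option autoImplicit false
set_option linter.style.haveILetI false
set_option linter.unusedSectionVars false
set_option linter.unusedVariables false
set_option linter.unusedSimpArgs false
set_option maxHeartbeats 800000
open Cfsg

namespace Cfsg.Agent.S3639

open Matrix

universe u

/-- A copy of `Fin n` without its ring structure. -/
def FinCopy (n : ℕ) : Type := Fin n

instance (n : ℕ) : Fintype (FinCopy n) := inferInstanceAs (Fintype (Fin n))

theorem card_finCopy (n : ℕ) : Fintype.card (FinCopy n) = n := Fintype.card_fin n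

variable {F : Type u} [Field F] [CharP F 2]

def J : Matrix (Fin 4) (Fin 4) F := !![0, 0, 0, 1; 0, 0, 1, 0; 0, 1, 0, 0; 1, 0, 0, 0]

theorem two_zero : (2 : F) = 0 := CharTwo.two_eq_zero

theorem form_eq (u v : Fin 4 → F) : Cfsg.Lie.altForm4 u v = u ⬝ᵥ ((J : Matrix (Fin 4) (Fin 4) F) *ᵥ v) := by
  simp [Cfsg.Lie.altForm4, J, Matrix.mulVec, dotProduct, Fin.sum_univ_four]

theorem J_sq : (J : Matrix (Fin 4) (Fin 4) F) * J = 1 := by
  ext i j; fin_cases i <;> fin_cases j <;> simp [J, Matrix.mul_apply, Fin.sum_univ_four]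

/-- Symplectic matrices: columns and rows are symplectic bases. -/
def Symp (g : Matrix (Fin 4) (Fin 4) F) : Prop := g.transpose * J * g = J ∧ g * J * g.transpose = J

theorem symp_of_mem {g : GL (Fin 4) F} (h : g ∈ Cfsg.Lie.Sp4 F) : Symp (g : Matrix (Fin 4) (Fin 4) F) := by
  have hc : (g : Matrix (Fin 4) (Fin 4) F).transpose * J * (g : Matrix (Fin 4) (Fin 4) F) = J := by
    ext i j
    have h1 := h (Pi.single i 1) (Pi.single j 1)
    rw [form_eq, form_eq] at h1
    simp [Matrix.mul_apply, Fin.sum_univ_four, Matrix.mulVec, dotProduct, Matrix.transpose_apply, J,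
      Pi.single_apply] at h1 ⊢
    linear_combination h1
  refine ⟨hc, ?_⟩
  have h2 : (J * (g : Matrix (Fin 4) (Fin 4) F).transpose * J) * (g : Matrix (Fin 4) (Fin 4) F) = 1 := by
    rw [Matrix.mul_assoc, Matrix.mul_assoc, ← Matrix.mul_assoc _ J _, hc, J_sq]
  have h3 := mul_eq_one_comm.mp h2
  calc (g : Matrix (Fin 4) (Fin 4) F) * J * (g : Matrix (Fin 4) (Fin 4) F).transpose
      = ((g : Matrix (Fin 4) (Fin 4) F) * (J * (g : Matrix (Fin 4) (Fin 4) F).transpose * J)) * J := by
        simp only [Matrix.mul_assoc, J_sq, Matrix.mul_one]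
    _ = J := by rw [h3, Matrix.one_mul]

/-- The `2 × 2` minor with rows `k, l` and columns `i, j`. -/
def minor (g : Matrix (Fin 4) (Fin 4) F) (k l i j : Fin 4) : F := g k i * g l j - g l i * g k j

theorem minor_mul (g h : Matrix (Fin 4) (Fin 4) F) (k l i j : Fin 4) :
    minor (g * h) k l i j = minor g k l 0 1 * minor h 0 1 i j + minor g k l 0 2 * minor h 0 2 i j
      + minor g k l 1 3 * minor h 1 3 i j + minor g k l 2 3 * minor h 2 3 i j
      + (minor g k l 0 3 * minor h 0 3 i j + minor g k l 1 2 * minor h 1 2 i j) := by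
  simp only [minor, Matrix.mul_apply, Fin.sum_univ_four]
  ring

theorem star4_mul {g h : Matrix (Fin 4) (Fin 4) F} (hg : Symp g) (hh : Symp h) :
    Cfsg.Lie.star4 (g * h) = Cfsg.Lie.star4 g * Cfsg.Lie.star4 h := by
  ext p q
  set k := (Cfsg.Lie.pairOf p).1 with hk
  set l := (Cfsg.Lie.pairOf p).2 with hl
  set i := (Cfsg.Lie.pairOf q).1 with hi
  set j := (Cfsg.Lie.pairOf q).2 with hj
  have hJ : ∀ r, (J : Matrix (Fin 4) (Fin 4) F) (Cfsg.Lie.pairOf r).1 (Cfsg.Lie.pairOf r).2 = 0 := fun r => by
    fin_cases r <;> simp [J, Cfsg.Lie.pairOf]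
  have r1 : minor g k l 0 3 + minor g k l 1 2 = 0 := by
    have h1 := congrFun (congrFun hg.2 k) l
    rw [hk, hl, hJ] at h1
    simp [J, Matrix.mul_apply, Fin.sum_univ_four, ← hk, ← hl] at h1
    simp only [minor, CharTwo.sub_eq_add]
    linear_combination h1
  have c1 : minor h 0 3 i j + minor h 1 2 i j = 0 := by
    have h1 := congrFun (congrFun hh.1 i) j
    rw [hi, hj, hJ] at h1
    simp [J, Matrix.mul_apply, Fin.sum_univ_four, ← hi, ← hj] at h1
    simp only [minor, CharTwo.sub_eq_add]
    linear_combination h1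
  show minor (g * h) k l i j = _
  rw [minor_mul, Matrix.mul_apply, Fin.sum_univ_four]
  have e : ∀ r s : Fin 4, Cfsg.Lie.star4 g r s
      = minor g (Cfsg.Lie.pairOf r).1 (Cfsg.Lie.pairOf r).2 (Cfsg.Lie.pairOf s).1 (Cfsg.Lie.pairOf s).2 := fun _ _ => rfl
  have e' : ∀ r s : Fin 4, Cfsg.Lie.star4 h r s
      = minor h (Cfsg.Lie.pairOf r).1 (Cfsg.Lie.pairOf r).2 (Cfsg.Lie.pairOf s).1 (Cfsg.Lie.pairOf s).2 := fun _ _ => rfl
  rw [e, e, e, e, e', e', e', e', ← hk, ← hl, ← hi, ← hj]
  show minor g k l 0 1 * minor h 0 1 i j + minor g k l 0 2 * minor h 0 2 i j + minor g k l 1 3 * minor h 1 3 i j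
      + minor g k l 2 3 * minor h 2 3 i j + _ = minor g k l 0 1 * minor h 0 1 i j + minor g k l 0 2 * minor h 0 2 i j
      + minor g k l 1 3 * minor h 1 3 i j + minor g k l 2 3 * minor h 2 3 i j
  linear_combination (minor h 0 3 i j) * r1 + (minor g k l 1 2) * c1
    - minor g k l 1 2 * minor h 0 3 i j * two_zero (F := F)

/-- The twisted fixed-point condition. -/
def Twisted (e : ℕ) (g : GL (Fin 4) F) : Prop :=
  g ∈ Cfsg.Lie.Sp4 F ∧ Cfsg.Lie.star4 (g : Matrix (Fin 4) (Fin 4) F) = (g : Matrix (Fin 4) (Fin 4) F).map (fun x => x ^ e)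

theorem twisted_one {k : ℕ} : Twisted (2 ^ k) (1 : GL (Fin 4) F) := by
  refine ⟨Subgroup.one_mem _, ?_⟩
  ext p q
  fin_cases p <;> fin_cases q <;> simp [Cfsg.Lie.star4, Cfsg.Lie.pairOf, Matrix.one_apply, (Nat.two_pow_pos k).ne']

theorem twisted_mul {k : ℕ} {x y : GL (Fin 4) F} (hx : Twisted (2 ^ k) x) (hy : Twisted (2 ^ k) y) :
    Twisted (2 ^ k) (x * y) := by
  haveI : Fact (Nat.Prime 2) := ⟨Nat.prime_two⟩
  refine ⟨Subgroup.mul_mem _ hx.1 hy.1, ?_⟩
  rw [Units.val_mul, star4_mul (symp_of_mem hx.1) (symp_of_mem hy.1), hx.2, hy.2]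
  ext i j
  simp only [Matrix.map_apply, Matrix.mul_apply, sum_pow_char_pow, mul_pow]

theorem twisted_of_mem [Finite F] {k : ℕ} {g : GL (Fin 4) F} (hg : g ∈ Cfsg.Lie.Sz F (2 ^ k)) : Twisted (2 ^ k) g := by
  haveI : Finite (GL (Fin 4) F) := inferInstance
  have h1 : g ∈ Submonoid.closure {x : GL (Fin 4) F | Twisted (2 ^ k) x} := by
    rw [← Subgroup.closure_toSubmonoid_of_finite]
    exact hg
  clear hg
  induction h1 using Submonoid.closure_induction with
  | mem x hx => exact hx
  | one => exact twisted_one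
  | mul x y _ _ hx hy => exact twisted_mul hx hy

/-- The antidiagonal involution. -/
def w : GL (Fin 4) F := ⟨J, J, J_sq, J_sq⟩

theorem w_mem {k : ℕ} : (w : GL (Fin 4) F) ∈ Cfsg.Lie.Sz F (2 ^ k) := by
  refine Subgroup.subset_closure ⟨fun u v => ?_, ?_⟩
  · simp [Cfsg.Lie.altForm4, w, J, Matrix.mulVec, dotProduct, Fin.sum_univ_four]
    ring
  · ext p q
    fin_cases p <;> fin_cases q <;>
      simp [w, J, Cfsg.Lie.star4, Cfsg.Lie.pairOf, (Nat.two_pow_pos k).ne', CharTwo.neg_eq]

/-- A twisted element of odd order fixing a nonzero vector is trivial. -/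
theorem eq_one_of_fixed {e : ℕ} {g : GL (Fin 4) F} (hg : Twisted e g) (hodd : Odd (orderOf g))
    (he : ∃ k, e = 2 ^ k) {v : Fin 4 → F} (hv : v ≠ 0) (hfix : (g : Matrix (Fin 4) (Fin 4) F) *ᵥ v = v) : g = 1 := by
  obtain ⟨hs, hc⟩ := hg
  have hS := symp_of_mem hs
  set M := (g : Matrix (Fin 4) (Fin 4) F) with hM
  set A := M + J * M.transpose * J with hA
  set t := M 0 0 + M 1 1 + M 2 2 + M 3 3 with ht
  set D := (M 0 0 + M 3 3) * (M 1 1 + M 2 2) + (M 0 1 + M 2 3) * (M 1 0 + M 3 2)
    + (M 0 2 + M 1 3) * (M 2 0 + M 3 1) with hD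
  have hJJ : ∀ i j, (J * M.transpose * J : Matrix (Fin 4) (Fin 4) F) i j = M (Fin.rev j) (Fin.rev i) := fun i j => by
    simp only [Matrix.mul_apply, Fin.sum_univ_four, Matrix.transpose_apply]
    fin_cases i <;> fin_cases j <;> simp [J, Fin.rev]
  have hquad : A * A + t • A + D • (1 : Matrix (Fin 4) (Fin 4) F) = 0 := by
    have hAe : ∀ i j, A i j = M i j + M (Fin.rev j) (Fin.rev i) := fun i j => by
      rw [hA, Matrix.add_apply, hJJ]
    ext i j
    simp only [Matrix.add_apply, Matrix.smul_apply, Matrix.mul_apply, Fin.sum_univ_four, hAe, Matrix.one_apply,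
      Matrix.zero_apply, smul_eq_mul, ht, hD]
    have h4 : (4 : F) = 0 := by linear_combination 2 * two_zero (F := F)
    have h6 : (6 : F) = 0 := by linear_combination 3 * two_zero (F := F)
    fin_cases i <;> fin_cases j <;> simp [Fin.rev] <;> ring_nf <;> simp [two_zero, h4, h6]
  have hinvM : (J * M.transpose * J) * M = 1 := by
    rw [Matrix.mul_assoc, Matrix.mul_assoc, ← Matrix.mul_assoc _ J _, hS.1, J_sq]
  have hAv : A *ᵥ v = 0 := by
    have h1 : (J * M.transpose * J) *ᵥ v = v := by
      conv_lhs => rw [← hfix]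
      rw [Matrix.mulVec_mulVec, hinvM, Matrix.one_mulVec]
    rw [hA, Matrix.add_mulVec, hfix, h1]
    ext i
    simp [CharTwo.add_self_eq_zero]
  have hD0 : D = 0 := by
    have h1 := congrArg (fun X => X *ᵥ v) hquad
    simp only [Matrix.add_mulVec, Matrix.zero_mulVec, Matrix.smul_mulVec, Matrix.one_mulVec, ← Matrix.mulVec_mulVec,
      hAv, Matrix.mulVec_zero, smul_zero, zero_add] at h1
    exact (smul_eq_zero.mp h1).resolve_right hv
  have ht0 : t = 0 := by
    have e1 : ∀ i, Cfsg.Lie.star4 M i i = (M i i) ^ e := fun i => by rw [hc]; rfl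
    have htr : D = Cfsg.Lie.star4 M 0 0 + Cfsg.Lie.star4 M 1 1 + Cfsg.Lie.star4 M 2 2 + Cfsg.Lie.star4 M 3 3 := by
      have c03 := congrFun (congrFun hS.1 0) 3
      have r03 := congrFun (congrFun hS.2 0) 3
      simp [J, Matrix.mul_apply, Fin.sum_univ_four] at c03 r03
      simp [hD, Cfsg.Lie.star4, Cfsg.Lie.pairOf]
      grind [two_zero (F := F)]
    obtain ⟨k, rfl⟩ := he
    haveI : Fact (Nat.Prime 2) := ⟨Nat.prime_two⟩
    have h2 : t ^ 2 ^ k = 0 := by
      rw [ht, add_pow_char_pow, add_pow_char_pow, add_pow_char_pow, ← e1, ← e1, ← e1, ← e1, ← htr, hD0]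
    exact pow_eq_zero_iff (pow_ne_zero k two_ne_zero) |>.mp h2
  have hA2 : A * A = 0 := by
    rwa [hD0, ht0, zero_smul, zero_smul, add_zero, add_zero] at hquad
  set B := J * M.transpose * J with hB
  have hMB : M * B = 1 := mul_eq_one_comm.mp hinvM
  have h4 : M * M * (M * M) = 1 := by
    have hAM : A * M = M * M + 1 := by rw [hA, Matrix.add_mul, hinvM]
    have hMA : M * A = M * M + 1 := by rw [hA, Matrix.mul_add, hMB]
    have h5 : (M * M + 1) * (M * M + 1) = 0 := by
      calc (M * M + 1) * (M * M + 1) = (M * A) * (A * M) := by rw [hAM, hMA]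
        _ = M * (A * A) * M := by simp only [Matrix.mul_assoc]
        _ = 0 := by rw [hA2, Matrix.mul_zero, Matrix.zero_mul]
    have h6 : (M * M + 1) * (M * M + 1) = M * M * (M * M) + 1 := by
      rw [Matrix.add_mul, Matrix.mul_add, Matrix.mul_one, Matrix.one_mul]
      ext i j
      simp only [Matrix.add_apply]
      linear_combination (M * M) i j * two_zero (F := F)
    rw [h5] at h6
    ext i j
    have h7 := congrFun (congrFun h6 i) j
    simp only [Matrix.add_apply, Matrix.zero_apply] at h7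
    linear_combination -h7 - (1 : Matrix (Fin 4) (Fin 4) F) i j * two_zero (F := F) + 0 * h7
  have hM4 : M ^ (2 + 2) = 1 := by rw [pow_add, pow_two]; exact h4
  have hg4 : g ^ 4 = 1 := Units.ext (by rw [Units.val_pow_eq_pow_val, Units.val_one]; exact hM4)
  exact orderOf_eq_one_iff.mp (Nat.eq_one_of_dvd_coprimes
    (Nat.Coprime.pow_right 2 (Nat.coprime_two_right.mpr hodd)) dvd_rfl (orderOf_dvd_of_pow_eq_one hg4))


/-- Let S be the Suzuki group over the field with q = 2^(2m+1) ≥ 8 elements. Then there are finite groups of arbitrarily large order with the same prime graph as S. -/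
theorem result {F : Type*} [Field F] [Fintype F] {m : ℕ} (hm : 1 ≤ m) (hF : Fintype.card F = 2 ^ (2 * m + 1)) (N : ℕ) :
    ∃ (H : Type) (_ : Group H) (_ : Fintype H), N < Fintype.card H ∧ ((∀ r : ℕ, r.Prime → (r ∣ Nat.card ↥(Cfsg.Lie.Sz F (2 ^ (m + 1))) ↔ r ∣ Nat.card H)) ∧
      (∀ r s : ℕ, r.Prime → s.Prime → r ≠ s → ((∃ x : ↥(Cfsg.Lie.Sz F (2 ^ (m + 1))), orderOf x = r * s) ↔ (∃ y : H, orderOf y = r * s)))) := by
  classical
  haveI : Fact (Nat.Prime 2) := ⟨Nat.prime_two⟩
  haveI : CharP F 2 := charP_of_card_eq_prime_pow hF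
  set e := 2 ^ (m + 1) with he
  let S := ↥(Cfsg.Lie.Sz F e)
  let W := Fin (N + 1) → Fin 4 → F
  let act : S →* MulAut (Multiplicative W) :=
    { toFun := fun g =>
        { toFun := fun f => Multiplicative.ofAdd fun c => ((g : GL (Fin 4) F) : Matrix (Fin 4) (Fin 4) F) *ᵥ f.toAdd c
          invFun := fun f => Multiplicative.ofAdd fun c => (((g : GL (Fin 4) F)⁻¹ : GL (Fin 4) F) : Matrix (Fin 4) (Fin 4) F) *ᵥ f.toAdd c
          left_inv := fun f => by
            show (_ : Multiplicative W) = f
            apply Multiplicative.toAdd.injective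
            funext c
            simp [Matrix.mulVec_mulVec]
          right_inv := fun f => by
            show (_ : Multiplicative W) = f
            apply Multiplicative.toAdd.injective
            funext c
            simp [Matrix.mulVec_mulVec]
          map_mul' := fun f f' => by
            apply Multiplicative.toAdd.injective
            funext c
            show _ *ᵥ (f.toAdd c + f'.toAdd c) = _ *ᵥ f.toAdd c + _ *ᵥ f'.toAdd c
            rw [Matrix.mulVec_add] }
      map_one' := by
        refine MulEquiv.ext fun f => Multiplicative.toAdd.injective (funext fun c => ?_)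
        simp
      map_mul' := fun g g' => by
        refine MulEquiv.ext fun f => Multiplicative.toAdd.injective (funext fun c => ?_)
        simp [Matrix.mulVec_mulVec]
        rfl }
  let X := SemidirectProduct (Multiplicative W) S act
  haveI : Finite X := Finite.of_equiv _ SemidirectProduct.equivProd.symm
  haveI : Fintype X := Fintype.ofFinite X
  have hX : Nat.card X = Nat.card W * Nat.card S := by
    rw [SemidirectProduct.card]; rfl
  have hW : Nat.card W = 2 ^ ((2 * m + 1) * (4 * (N + 1))) := by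
    rw [Nat.card_fun, Nat.card_fun, Nat.card_eq_fintype_card, hF, Nat.card_eq_fintype_card, Nat.card_eq_fintype_card,
      Fintype.card_fin, Fintype.card_fin, ← pow_mul, ← pow_mul]
    try ring_nf
  have h2S : 2 ∣ Nat.card S := by
    have hw : orderOf (⟨w, w_mem⟩ : S) = 2 := by
      refine orderOf_eq_prime ?_ ?_
      · rw [pow_two]; exact Subtype.ext (Units.ext J_sq)
      · intro h
        have h1 := congrArg (fun x : S => ((x : GL (Fin 4) F) : Matrix (Fin 4) (Fin 4) F) 0 0) h
        simp [w, J] at h1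
    exact hw ▸ orderOf_dvd_natCard _
  let eq0 : X ≃ FinCopy (Fintype.card X) := Fintype.equivFin X
  letI : Group (FinCopy (Fintype.card X)) := Equiv.group eq0.symm
  let iso : FinCopy (Fintype.card X) ≃* X := Equiv.mulEquiv eq0.symm
  refine ⟨FinCopy (Fintype.card X), inferInstance, inferInstance, ?_, ?_, ?_⟩
  · rw [card_finCopy, ← Nat.card_eq_fintype_card, hX, hW]
    have h1 : N < 2 ^ ((2 * m + 1) * (4 * (N + 1))) :=
      Nat.lt_two_pow_self.trans_le (Nat.pow_le_pow_right two_pos (by nlinarith))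
    exact h1.trans_le (Nat.le_mul_of_pos_right _ Nat.card_pos)
  · intro r hr
    rw [Nat.card_congr iso.toEquiv, hX, hW]
    refine ⟨fun h => dvd_mul_of_dvd_right h _, fun h => ?_⟩
    rcases hr.dvd_mul.mp h with h | h
    · rwa [(Nat.prime_dvd_prime_iff_eq hr Nat.prime_two).mp (hr.dvd_of_dvd_pow h)]
    · exact h
  · intro r s hr hs hrs
    constructor
    · rintro ⟨x, hx⟩
      refine ⟨iso.symm (SemidirectProduct.inr x), ?_⟩
      rw [MulEquiv.orderOf_eq, orderOf_injective _ SemidirectProduct.inr_injective]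
      exact hx
    rintro ⟨y0, hy⟩
    rw [← MulEquiv.orderOf_eq iso] at hy
    set y : X := iso y0 with hy0
    set x : S := SemidirectProduct.rightHom y with hx
    have hker : ∀ z : X, SemidirectProduct.rightHom z = 1 → z * z = 1 := by
      intro z hz
      rw [← MonoidHom.mem_ker, ← SemidirectProduct.range_inl_eq_ker_rightHom] at hz
      obtain ⟨f, rfl⟩ := hz
      rw [← map_mul, ← map_one (SemidirectProduct.inl : Multiplicative W →* X)]
      congr 1
      apply Multiplicative.toAdd.injective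
      funext c i
      exact CharTwo.add_self_eq_zero _
    have hd : r * s ∣ orderOf x * 2 := by
      rw [← hy, orderOf_dvd_iff_pow_eq_one, pow_mul, pow_two]
      refine hker _ ?_
      rw [map_pow]
      exact pow_orderOf_eq_one x
    have hxd : orderOf x ∣ r * s := hy ▸ orderOf_map_dvd _ y
    by_contra hno
    push Not at hno
    have hlt : orderOf x ≠ r * s := hno x
    -- so `x` has odd order `u` and `r * s = 2 * u`
    obtain ⟨u, hu, huo, hru⟩ : ∃ u, orderOf x = u ∧ Odd u ∧ r * s = u * 2 := by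
      refine ⟨_, rfl, ?_, ?_⟩
      swap
      · obtain ⟨c, hc⟩ := hxd
        rw [hc] at hd hlt
        have : c ∣ 2 := Nat.dvd_of_mul_dvd_mul_left (orderOf_pos x) hd
        rcases (Nat.dvd_prime Nat.prime_two).mp this with rfl | rfl
        · exact absurd (mul_one _).symm hlt
        · exact hc
      · rw [← Nat.not_even_iff_odd]
        rintro ⟨a, ha⟩
        obtain ⟨c, hc⟩ := hxd
        have : c ∣ 2 := Nat.dvd_of_mul_dvd_mul_left (orderOf_pos x) (hc ▸ hd)
        rcases (Nat.dvd_prime Nat.prime_two).mp this with rfl | rfl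
        · exact hlt (by rw [hc, mul_one])
        have h4 : 4 ∣ r * s := ⟨a, by rw [hc, ha]; ring⟩
        rcases Nat.Prime.eq_two_or_odd hr with rfl | hro
        · have : 2 ∣ s := Nat.dvd_of_mul_dvd_mul_left two_pos (by simpa using h4)
          exact hrs ((Nat.prime_dvd_prime_iff_eq Nat.prime_two hs).mp this)
        · have hco : Nat.Coprime 4 r := by
            rw [show (4:ℕ) = 2 ^ 2 from rfl]
            exact (Nat.coprime_two_left.mpr (Nat.odd_iff.mpr hro)).pow_left 2
          have h4s := hco.dvd_of_dvd_mul_left h4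
          rcases (Nat.dvd_prime hs).mp h4s with h | h
          · omega
          · exact absurd (h ▸ hs) (by norm_num)
    set z := y ^ u with hz
    have hzr : SemidirectProduct.rightHom z = 1 := by rw [hz, map_pow, ← hx, ← hu, pow_orderOf_eq_one]
    have hz1 : z ≠ 1 := fun h => by
      have h1 := orderOf_dvd_of_pow_eq_one h
      rw [hy, hru] at h1
      have := Nat.le_of_dvd huo.pos h1
      omega
    have hz' : z ∈ (SemidirectProduct.inl : Multiplicative W →* X).range :=
      (SemidirectProduct.range_inl_eq_ker_rightHom (φ := act)) ▸ (MonoidHom.mem_ker.mpr hzr)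
    obtain ⟨f, hf⟩ := hz'
    have hcomm : y * z = z * y := ((Commute.refl y).pow_right u).eq
    have hfix : act x f = f := by
      have h1 := congrArg SemidirectProduct.left hcomm
      rw [← hf, SemidirectProduct.mul_left, SemidirectProduct.mul_left, SemidirectProduct.left_inl,
        SemidirectProduct.right_inl, map_one, MulAut.one_apply] at h1
      have h2 : y.left * act y.right f = y.left * f := h1.trans (mul_comm _ _)
      exact mul_left_cancel h2
    obtain ⟨c, hc⟩ : ∃ c, f.toAdd c ≠ 0 := by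
      by_contra h
      push Not at h
      refine hz1 ?_
      rw [← hf, show f = 1 from Multiplicative.toAdd.injective (funext h), map_one]
    have hx1 : (x : GL (Fin 4) F) = 1 := eq_one_of_fixed (twisted_of_mem x.2)
      (by rw [Subgroup.orderOf_coe, hu]; exact huo) ⟨m + 1, rfl⟩ hc
      (congrArg (fun f : Multiplicative W => f.toAdd c) hfix)
    have : orderOf x = 1 := by rw [show x = 1 from Subtype.ext hx1, orderOf_one]
    rw [this] at hu
    rw [← hu, one_mul] at hru
    have := hr.two_le
    have := hs.two_le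
    nlinarith

end Cfsg.Agent.S3639
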