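import Cfsg.Statements.S3669
import Mathlib
import Cfsg.Agent.Lib.Blocks.Reynolds
import Cfsg.Agent.Lib.Chars.Linear
import Cfsg.Agent.Lib.Core
import Cfsg.Agent.S0494

set_option autoImplicit false
open Cfsg

namespace Cfsg.Agent.S3669


open CfsgLib.Chars

theorem cc5 : Fintype.card (ConjClasses (alternatingGroup (Fin 5))) = 5 := by decide +kernel

theorem Q_normal {G : Type*} [Group G] [Finite G] {p : ℕ} [Fact p.Prime] [Subsingleton (Sylow p G)] (P : Sylow p G) : (P : Subgroup G).Normal := by
  have := P.characteristic_of_subsingleton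
  infer_instance

/-- A group of one of these small orders has a unique Sylow 5-subgroup. -/
theorem subsingleton_sylow_five {X : Type*} [Group X] [Finite X]
    (hX : Nat.card X ∣ 60) (hlt : Nat.card X < 60) (h5 : 5 ∣ Nat.card X) : Subsingleton (Sylow 5 X) := by
  classical
  have : Fact (Nat.Prime 5) := ⟨by norm_num⟩
  obtain ⟨P⟩ := (inferInstance : Nonempty (Sylow 5 X))
  have h1 : Nat.card (Sylow 5 X) ≡ 1 [MOD 5] := card_sylow_modEq_one 5 X
  have h2 : Nat.card (Sylow 5 X) ∣ (P : Subgroup X).index := Sylow.card_dvd_index P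
  have hc := (P : Subgroup X).card_mul_index
  obtain ⟨a, ha⟩ := IsPGroup.iff_card.mp P.2
  have ha1 : a = 1 := by
    have hd : 5 ^ a ∣ 60 := ha ▸ (Subgroup.card_subgroup_dvd_card _).trans hX
    have hn : ¬ 5 ∣ (P : Subgroup X).index := P.not_dvd_index
    rcases Nat.lt_or_ge a 2 with h | h
    · interval_cases a
      · exfalso; rw [ha] at hc; simp at hc; rw [hc] at hn; exact hn h5
      · rfl
    · exfalso
      have := (pow_dvd_pow 5 h).trans hd
      norm_num at this
  rw [ha1, pow_one] at ha
  rw [ha] at hc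
  have hidx : (P : Subgroup X).index ∣ 12 := by
    rw [← hc] at hX
    exact (Nat.mul_dvd_mul_iff_left (show 0 < 5 by norm_num)).mp (by simpa using hX)
  have hlt' : (P : Subgroup X).index < 12 := by omega
  rw [Finite.card_le_one_iff_subsingleton.symm]
  by_contra h
  have hd12 := h2.trans hidx
  have hle := Nat.le_of_dvd (Nat.pos_of_ne_zero Subgroup.index_ne_zero_of_finite) h2
  generalize hn : Nat.card (Sylow 5 X) = n at h1 h2 hd12 hle h
  have h6 : n = 6 := by
    have hn12 : n < 12 := lt_of_le_of_lt hle hlt'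
    unfold Nat.ModEq at h1
    interval_cases n <;> omega
  subst h6
  -- order thirty
  have hi6 : (P : Subgroup X).index = 6 := by
    have := Nat.le_of_dvd (by norm_num) hidx
    obtain ⟨c, hc'⟩ := h2
    omega
  rw [hi6] at hc
  have : Fact (Nat.Prime 2) := ⟨Nat.prime_two⟩
  obtain ⟨R⟩ := (inferInstance : Nonempty (Sylow 2 X))
  have hR2 : Nat.card R = 2 := by
    obtain ⟨b, hb⟩ := IsPGroup.iff_card.mp R.2
    have hd : 2 ^ b ∣ 30 := hb ▸ (Subgroup.card_subgroup_dvd_card _).trans (by rw [← hc])
    have hn2 : ¬ 2 ∣ (R : Subgroup X).index := R.not_dvd_index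
    have hcR := (R : Subgroup X).card_mul_index
    rcases Nat.lt_or_ge b 2 with hb2 | hb2
    · interval_cases b
      · exfalso; rw [hb] at hcR; simp at hcR; rw [hcR, ← hc] at hn2; norm_num at hn2
      · rw [hb, pow_one]
    · exfalso
      have := (pow_dvd_pow 2 hb2).trans hd
      norm_num at this
  have hnc : Subgroup.normalizer ((R : Subgroup X) : Set X) ≤ Subgroup.centralizer ((R : Subgroup X) : Set X) := by
    intro g hg
    rw [Subgroup.mem_centralizer_iff]
    intro z hz
    by_cases hz1 : z = 1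
    · rw [hz1, one_mul, mul_one]
    have hgz : g * z * g⁻¹ ∈ (R : Subgroup X) := (Subgroup.mem_normalizer_iff.mp hg z).mp hz
    have huniq : ∀ x y : (R : Subgroup X), x ≠ 1 → y ≠ 1 → x = y := by
      intro x y hx hy
      have := Fintype.ofFinite (R : Subgroup X)
      rw [Nat.card_eq_fintype_card] at hR2
      by_contra hxy
      have h3 : ({1, x, y} : Finset (R : Subgroup X)).card = 3 := by
        rw [Finset.card_insert_of_notMem (by simp [hx.symm, hy.symm]), Finset.card_pair hxy]
      have := Finset.card_le_univ ({1, x, y} : Finset (R : Subgroup X))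
      omega
    have h4 := congrArg Subtype.val (huniq ⟨_, hgz⟩ ⟨z, hz⟩
      (fun e => hz1 (conj_eq_one_iff.mp (congrArg Subtype.val e))) (fun e => hz1 (congrArg Subtype.val e)))
    simp only at h4
    rw [mul_inv_eq_iff_eq_mul] at h4
    exact h4.symm
  have hK := MonoidHom.ker_transferSylow_isComplement' R hnc
  set K := (MonoidHom.transferSylow R hnc).ker
  have hKc : Nat.card K = 15 := by
    have := hK.card_mul
    rw [hR2, ← hc] at this
    omega
  obtain ⟨Q⟩ := (inferInstance : Nonempty (Sylow 5 K))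
  have hQ5 : Nat.card Q = 5 := by
    obtain ⟨b, hb⟩ := IsPGroup.iff_card.mp Q.2
    have hcQ := (Q : Subgroup K).card_mul_index
    have hnQ : ¬ 5 ∣ (Q : Subgroup K).index := Q.not_dvd_index
    rw [hKc, hb] at hcQ
    rcases Nat.lt_or_ge b 2 with hb2 | hb2
    · interval_cases b
      · exfalso; simp at hcQ; rw [hcQ] at hnQ; norm_num at hnQ
      · rw [hb, pow_one]
    · exfalso
      have := (pow_dvd_pow 5 hb2).trans (Dvd.intro _ hcQ)
      norm_num at this
  have hQs : Subsingleton (Sylow 5 K) := by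
    rw [← Finite.card_le_one_iff_subsingleton]
    have e1 : Nat.card (Sylow 5 K) ≡ 1 [MOD 5] := card_sylow_modEq_one 5 K
    have e2 := Sylow.card_dvd_index Q
    have e3 := (Q : Subgroup K).card_mul_index
    rw [hQ5, hKc] at e3
    rw [show (Q : Subgroup K).index = 3 by omega] at e2
    have := Nat.le_of_dvd (by norm_num) e2
    unfold Nat.ModEq at e1
    omega
  have := Q.characteristic_of_subsingleton
  have hL : ((Q : Subgroup K).map K.subtype).Normal := inferInstance
  have hLc : Nat.card ((Q : Subgroup K).map K.subtype) = 5 := by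
    rw [Nat.card_congr (Subgroup.equivMapOfInjective _ _ (Subgroup.subtype_injective K)).symm.toEquiv, hQ5]
  obtain ⟨P', hP'⟩ := (IsPGroup.of_card (p := 5) (n := 1) (by rw [hLc, pow_one])).exists_le_sylow
  have heq : (Q : Subgroup K).map K.subtype = (P' : Subgroup X) := Subgroup.eq_of_le_of_card_ge hP' (by
    rw [hLc]
    obtain ⟨b, hb⟩ := IsPGroup.iff_card.mp P'.2
    have hb' := P'.card_eq_multiplicity
    have hp := P.card_eq_multiplicity
    omega)
  have hn' : Subsingleton (Sylow 5 X) := by
    have := Sylow.unique_of_normal P' (heq ▸ hL)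
    infer_instance
  have := Finite.card_le_one_iff_subsingleton.mpr hn'
  omega

/-- A non-normal Sylow 5-subgroup in a group of order sixty forces simplicity. -/
theorem simple_of_sixty {G : Type*} [Group G] [Finite G] (hG : Nat.card G = 60)
    (hP : ¬ ∃ P : Sylow 5 G, (P : Subgroup G).Normal) : IsSimpleGroup G := by
  classical
  have : Fact (Nat.Prime 5) := ⟨by norm_num⟩
  have : Fact (Nat.Prime 3) := ⟨by norm_num⟩
  have : Nontrivial G := Finite.one_lt_card_iff_nontrivial.mp (by omega)
  have hPc : ∀ P : Sylow 5 G, Nat.card P = 5 := fun P => by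
    rw [P.card_eq_multiplicity, hG, show (60 : ℕ) = 5 ^ 1 * 12 from rfl, Nat.factorization_mul (by norm_num) (by norm_num),
      Nat.Prime.factorization_pow (by norm_num)]
    simp [Nat.factorization_eq_zero_of_not_dvd (show ¬ 5 ∣ 12 by norm_num)]
  have hno : ∀ N : Subgroup G, N.Normal → 5 ∣ Nat.card N → N = ⊤ := by
    intro N hN h5
    by_contra hne
    have hd : Nat.card N ∣ 60 := hG ▸ Subgroup.card_subgroup_dvd_card N
    have hlt : Nat.card N < 60 := lt_of_le_of_ne (Nat.le_of_dvd (by norm_num) hd)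
      fun h => hne (Subgroup.eq_top_of_card_eq N (by omega))
    have := subsingleton_sylow_five hd hlt h5
    obtain ⟨Q⟩ := (inferInstance : Nonempty (Sylow 5 N))
    have := Q.characteristic_of_subsingleton
    have hL : ((Q : Subgroup N).map N.subtype).Normal := inferInstance
    obtain ⟨P, hPle⟩ := (Q.2.map N.subtype).exists_le_sylow
    refine hP ⟨P, ?_⟩
    rw [← Subgroup.eq_of_le_of_card_ge hPle ?_]
    · exact hL
    · rw [Nat.card_congr (Subgroup.equivMapOfInjective _ _ (Subgroup.subtype_injective N)).symm.toEquiv, hPc]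
      refine Nat.le_of_dvd Nat.card_pos ?_
      simpa using Q.pow_dvd_card_of_pow_dvd_card (n := 1) (by simpa using h5)
  refine ⟨fun N hN => ?_⟩
  by_contra hne
  push Not at hne
  obtain ⟨hN1, hN2⟩ := hne
  have := hN
  have h5 : ¬ 5 ∣ Nat.card N := fun h => hN2 (hno N hN h)
  have hd : Nat.card N ∣ 60 := hG ▸ Subgroup.card_subgroup_dvd_card N
  have hgt : 1 < Nat.card N := (Subgroup.one_lt_card_iff_ne_bot N).mpr hN1
  have hq : Nat.card (G ⧸ N) * Nat.card N = 60 := by rw [← hG, ← Subgroup.card_eq_card_quotient_mul_card_subgroup]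
  have hq5 : 5 ∣ Nat.card (G ⧸ N) := ((Nat.Prime.dvd_mul (by norm_num)).mp (hq ▸ (by norm_num : 5 ∣ 60))).resolve_right h5
  have hqd : Nat.card (G ⧸ N) ∣ 60 := Dvd.intro _ hq
  have hqlt : Nat.card (G ⧸ N) < 60 := by nlinarith [Nat.card_pos (α := G ⧸ N)]
  have := subsingleton_sylow_five hqd hqlt hq5
  obtain ⟨S⟩ := (inferInstance : Nonempty (Sylow 5 (G ⧸ N)))
  have := Q_normal S
  set M := (S : Subgroup (G ⧸ N)).comap (QuotientGroup.mk' N) with hM
  have hSc : Nat.card S = 5 := by
    obtain ⟨b, hb⟩ := IsPGroup.iff_card.mp S.2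
    have h1 : 5 ∣ Nat.card S := by simpa using S.pow_dvd_card_of_pow_dvd_card (n := 1) (by simpa using hq5)
    have h2 : Nat.card S ∣ 60 := (Subgroup.card_subgroup_dvd_card _).trans hqd
    rw [hb] at h1 h2 ⊢
    rcases Nat.lt_or_ge b 2 with hb2 | hb2
    · interval_cases b
      · norm_num at h1
      · norm_num
    · exfalso
      have := (pow_dvd_pow 5 hb2).trans h2
      norm_num at this
  have hMidx : M.index = (S : Subgroup (G ⧸ N)).index :=
    Subgroup.index_comap_of_surjective _ (QuotientGroup.mk'_surjective N)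
  have hMc := M.card_mul_index
  have hSi := (S : Subgroup (G ⧸ N)).card_mul_index
  have hMN : Nat.card M = 5 * Nat.card N := by
    rw [hSc] at hSi
    have hpos : 0 < M.index := Nat.pos_of_ne_zero Subgroup.index_ne_zero_of_finite
    apply Nat.eq_of_mul_eq_mul_right hpos
    rw [hMc, hG, hMidx, ← hq, ← hSi]; ring
  have hMtop := hno M inferInstance (hMN ▸ dvd_mul_right 5 _)
  rw [hMtop, Subgroup.card_top, hG] at hMN
  have h12 : Nat.card N = 12 := by omega
  obtain ⟨R⟩ := (inferInstance : Nonempty (Sylow 3 N))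
  have hR3 : Nat.card R = 3 := by
    rw [R.card_eq_multiplicity, h12, show (12 : ℕ) = 3 ^ 1 * 4 from rfl, Nat.factorization_mul (by norm_num) (by norm_num),
      Nat.Prime.factorization_pow (by norm_num)]
    simp [Nat.factorization_eq_zero_of_not_dvd (show ¬ 3 ∣ 4 by norm_num)]
  have hfr := Sylow.normalizer_sup_eq_top R
  set T := (R : Subgroup N).map N.subtype with hT
  set Y := Subgroup.normalizer (T : Set G) with hY
  have hYc : 5 ∣ Nat.card Y := by
    have h1 : Nat.card (↥(Y ⊔ N)) ∣ Nat.card Y * Nat.card N := CfsgLib.Core.card_sup_dvd_of_normal Y N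
    rw [hfr, Subgroup.card_top, hG] at h1
    exact ((Nat.Prime.dvd_mul (by norm_num)).mp ((by norm_num : 5 ∣ 60).trans h1)).resolve_right h5
  obtain ⟨y, hy⟩ := exists_prime_orderOf_dvd_card' 5 hYc
  have hTc : Nat.card T = 3 := by
    rw [Nat.card_congr (Subgroup.equivMapOfInjective _ _ (Subgroup.subtype_injective N)).symm.toEquiv, hR3]
  have hy' : orderOf (y : G) = 5 := by rw [Subgroup.orderOf_coe, hy]
  set C := Subgroup.zpowers (y : G) with hC
  have hCn : C ≤ Y := Subgroup.zpowers_le.mpr y.2
  have hCc : Nat.card C = 5 := (Nat.card_zpowers _).trans hy'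
  set W := C ⊔ T with hW
  have hWc : Nat.card W = 15 := by
    have hle : C ≤ Y := hCn
    have hTY : T ≤ Y := Subgroup.le_normalizer
    have h1 : Nat.card W ∣ 15 := by
      have h2 := CfsgLib.Core.card_sup_dvd_of_normal (C.subgroupOf Y) (T.subgroupOf Y)
      rw [← Subgroup.subgroupOf_sup hle hTY, Nat.card_congr (Subgroup.subgroupOfEquivOfLe (sup_le hle hTY)).toEquiv,
        Nat.card_congr (Subgroup.subgroupOfEquivOfLe hle).toEquiv, Nat.card_congr (Subgroup.subgroupOfEquivOfLe hTY).toEquiv,
        hCc, hTc] at h2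
      exact h2
    have h3 : 3 ∣ Nat.card W := hTc ▸ Subgroup.card_dvd_of_le le_sup_right
    have h4 : 5 ∣ Nat.card W := hCc ▸ Subgroup.card_dvd_of_le le_sup_left
    exact Nat.dvd_antisymm h1 (Nat.Coprime.mul_dvd_of_dvd_of_dvd (by norm_num : Nat.Coprime 3 5) h3 h4)
  have := subsingleton_sylow_five (X := W) (by rw [hWc]; norm_num) (by rw [hWc]; norm_num) (by rw [hWc]; norm_num)
  obtain ⟨U⟩ := (inferInstance : Nonempty (Sylow 5 W))
  have := Q_normal U
  obtain ⟨P, hPU⟩ := (U.2.map W.subtype).exists_le_sylow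
  have hPU' : (U : Subgroup W).map W.subtype = (P : Subgroup G) := Subgroup.eq_of_le_of_card_ge hPU (by
    rw [Nat.card_congr (Subgroup.equivMapOfInjective _ _ (Subgroup.subtype_injective W)).symm.toEquiv, hPc]
    refine Nat.le_of_dvd Nat.card_pos ?_
    simpa using U.pow_dvd_card_of_pow_dvd_card (n := 1) (by rw [hWc]; norm_num))
  have hWn : W ≤ Subgroup.normalizer ((P : Subgroup G) : Set G) := by
    intro w hw
    rw [← hPU', Subgroup.mem_normalizer_iff]
    intro a
    constructor
    · rintro ⟨b, hb, rfl⟩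
      exact ⟨⟨w, hw⟩ * b * ⟨w, hw⟩⁻¹, Subgroup.Normal.conj_mem inferInstance b hb _, rfl⟩
    · rintro ⟨b, hb, e⟩
      refine ⟨⟨w, hw⟩⁻¹ * b * (⟨w, hw⟩⁻¹)⁻¹, Subgroup.Normal.conj_mem inferInstance b hb _, ?_⟩
      simp only [map_mul, map_inv, e, inv_inv, Subgroup.coe_subtype]
      group
  have h15 : 15 ∣ Nat.card (Subgroup.normalizer ((P : Subgroup G) : Set G)) := hWc ▸ Subgroup.card_dvd_of_le hWn
  have hidx : Nat.card (Sylow 5 G) = (Subgroup.normalizer ((P : Subgroup G) : Set G)).index :=
    Sylow.card_eq_index_normalizer P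
  have hn := (Subgroup.normalizer ((P : Subgroup G) : Set G)).card_mul_index
  have hmod : Nat.card (Sylow 5 G) ≡ 1 [MOD 5] := card_sylow_modEq_one 5 G
  obtain ⟨c, hc⟩ := h15
  rw [hc, ← hidx, hG] at hn
  have h4 : Nat.card (Sylow 5 G) ∣ 4 := ⟨c, by linarith⟩
  have hle := Nat.le_of_dvd (by norm_num) h4
  have h1 : Nat.card (Sylow 5 G) = 1 := by
    unfold Nat.ModEq at hmod
    omega
  have := (Finite.card_le_one_iff_subsingleton.mp h1.le)
  exact hP ⟨P, Q_normal P⟩

theorem a5_noncomm : ∃ x y : alternatingGroup (Fin 5), x * y ≠ y * x :=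
  ⟨⟨Equiv.swap 0 1 * Equiv.swap 1 2, by rw [Equiv.Perm.mem_alternatingGroup]; decide⟩,
    ⟨Equiv.swap 0 1 * Equiv.swap 1 3, by rw [Equiv.Perm.mem_alternatingGroup]; decide⟩, by decide⟩

theorem combos : ∀ a b c d : Fin 4, (![4, 9, 16, 36] : Fin 4 → ℕ) a + ![4, 9, 16, 36] b + ![4, 9, 16, 36] c + ![4, 9, 16, 36] d ≠ 59 := by
  decide

/-- Some degree of `A₅` is divisible by five. -/
theorem five_mem : (5 : ℕ) ∈ Cfsg.degreePrimes (alternatingGroup (Fin 5)) := by
  classical
  refine ⟨by norm_num, ?_⟩
  by_contra h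
  push Not at h
  have hcard : Nat.card (alternatingGroup (Fin 5)) = 60 := by
    have := two_mul_nat_card_alternatingGroup (α := Fin 5)
    rw [Nat.card_perm, Nat.card_fin, show Nat.factorial 5 = 120 from rfl] at this
    omega
  have hirr : Fintype.card (IrrCharacter (alternatingGroup (Fin 5))) = 5 := by
    rw [← Nat.card_eq_fintype_card, card_irr, Nat.card_eq_fintype_card]
    exact cc5
  set deg : IrrCharacter (alternatingGroup (Fin 5)) → ℕ := fun χ => Cfsg.charDegree (χ : alternatingGroup (Fin 5) → ℂ) with hdeg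
  have hlin : Nat.card {χ : IrrCharacter (alternatingGroup (Fin 5)) // deg χ = 1} = 1 := by
    rw [hdeg, card_linear, Subgroup.index_eq_one]
    have : IsSimpleGroup (alternatingGroup (Fin 5)) := alternatingGroup.isSimpleGroup (by simp)
    rcases Subgroup.Normal.eq_bot_or_eq_top (inferInstance : (commutator (alternatingGroup (Fin 5))).Normal) with hb | ht
    · exfalso
      obtain ⟨x, y, hxy⟩ := a5_noncomm
      have hm := Subgroup.commutator_mem_commutator (Subgroup.mem_top x) (Subgroup.mem_top y)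
      rw [← commutator_def, hb, Subgroup.mem_bot, commutatorElement_eq_one_iff_mul_comm] at hm
      exact hxy hm
    · exact ht
  have hdd : ∀ χ, deg χ = 1 ∨ ∃ a : Fin 4, deg χ ^ 2 = (![4, 9, 16, 36] : Fin 4 → ℕ) a := by
    intro χ
    have h1 : deg χ ∣ 60 := hcard ▸ charDegree_dvd χ
    have h2 : ¬ 5 ∣ deg χ := h (deg χ) ⟨χ, rfl⟩
    have h3 := sum_deg_sq (G := alternatingGroup (Fin 5))
    rw [hcard] at h3
    have h4 : deg χ ^ 2 ≤ 60 := h3 ▸ Finset.single_le_sum (f := fun χ => deg χ ^ 2) (fun _ _ => Nat.zero_le _) (Finset.mem_univ χ)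
    have h5 : deg χ ≤ 7 := by nlinarith
    have h0 : 0 < deg χ := charDegree_pos χ
    generalize deg χ = n at h1 h2 h4 h5 h0 ⊢
    interval_cases n
    · exact Or.inl rfl
    · exact Or.inr ⟨0, rfl⟩
    · exact Or.inr ⟨1, rfl⟩
    · exact Or.inr ⟨2, rfl⟩
    · exact absurd (dvd_refl 5) h2
    · exact Or.inr ⟨3, rfl⟩
    · norm_num at h1
  have hone : (Finset.univ.filter fun χ => deg χ = 1).card = 1 := by
    rw [Nat.card_eq_fintype_card, Fintype.card_subtype] at hlin
    exact hlin
  obtain ⟨χ₁, hχ₁⟩ := Finset.card_eq_one.mp hone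
  have h1 : deg χ₁ = 1 := (Finset.mem_filter.mp (hχ₁.ge (Finset.mem_singleton_self χ₁))).2
  have hs := sum_deg_sq (G := alternatingGroup (Fin 5))
  rw [hcard, ← Finset.add_sum_erase _ _ (Finset.mem_univ χ₁)] at hs
  have hE : (Finset.univ.erase χ₁).card = 4 := by
    rw [Finset.card_erase_of_mem (Finset.mem_univ _), Finset.card_univ, hirr]
  obtain ⟨a, b, c, d, hab, hac, had, hbc, hbd, hcd, hE'⟩ := Finset.card_eq_four.mp hE
  have hcl : ∀ x ∈ Finset.univ.erase χ₁, ∃ i : Fin 4, deg x ^ 2 = (![4, 9, 16, 36] : Fin 4 → ℕ) i := fun x hx =>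
    (hdd x).resolve_left fun h2 => (Finset.mem_erase.mp hx).1
      (Finset.mem_singleton.mp (hχ₁.le (Finset.mem_filter.mpr ⟨Finset.mem_univ x, h2⟩)))
  rw [hE'] at hcl hs
  obtain ⟨i, hi⟩ := hcl a (by simp)
  obtain ⟨j, hj⟩ := hcl b (by simp)
  obtain ⟨k, hk⟩ := hcl c (by simp)
  obtain ⟨l, hl⟩ := hcl d (by simp)
  rw [Finset.sum_insert (by simp [hab, hac, had]), Finset.sum_insert (by simp [hbc, hbd]), Finset.sum_pair hcd] at hs
  have := combos i j k l
  simp only [hdeg] at hi hj hk hl h1
  rw [h1] at hs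
  omega


/-- The character degree graph of a finite group has as vertices the primes dividing some irreducible complex character degree, two distinct primes being joined when their product divides some irreducible character degree; two groups have the same character degree graph when they have the same vertices and the same joined pairs. A finite group of order 60 with the same character degree graph as the alternating group A₅ (whose character degrees are 1, 3, 4, 5, so the graph has vertices 2, 3, 5 and no edges) is isomorphic to A₅. -/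
theorem result {G : Type*} [Group G] [Finite G] (hcard : Nat.card G = 60)
    (hΓ : Cfsg.degreePrimes G = Cfsg.degreePrimes (alternatingGroup (Fin 5)) ∧ Cfsg.degreeGraph G = Cfsg.degreeGraph (alternatingGroup (Fin 5))) : Nonempty (G ≃* alternatingGroup (Fin 5)) := by
  classical
  have hS : ¬ ∃ P : Sylow 5 G, (P : Subgroup G).Normal := by
    rintro ⟨P, hP⟩
    have : Fact (Nat.Prime 5) := ⟨by norm_num⟩
    have h5 : (5 : ℕ) ∈ Cfsg.degreePrimes G := hΓ.1 ▸ five_mem
    obtain ⟨-, d, ⟨χ, rfl⟩, hd⟩ := h5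
    have hc : Nat.card P = 5 := by
      rw [P.card_eq_multiplicity, hcard, show (60 : ℕ) = 5 ^ 1 * 12 from rfl, Nat.factorization_mul (by norm_num) (by norm_num),
        Nat.Prime.factorization_pow (by norm_num)]
      simp [Nat.factorization_eq_zero_of_not_dvd (show ¬ 5 ∣ 12 by norm_num)]
    have : IsCyclic (P : Subgroup G) := isCyclic_of_prime_card hc
    have := Fintype.ofFinite G
    have hi := CfsgLib.Blocks.Reynolds.ito χ (P : Subgroup G) (fun a b => mul_comm' a b)
    have hh := (P : Subgroup G).card_mul_index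
    rw [hc, hcard] at hh
    rw [show (P : Subgroup G).index = 12 by omega] at hi
    exact absurd (hd.trans hi) (by norm_num)
  have := simple_of_sixty hcard hS
  exact Cfsg.Agent.S0494.result hcard

end Cfsg.Agent.S3669
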