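import Cfsg.Statements.S3678
import Cfsg.Agent.Lib.SL2PrimeGraph
import Cfsg.Agent.Lib.Linear.SmallPSL

set_option autoImplicit false
open Cfsg

namespace Cfsg.Agent.S3678

open Matrix
open scoped MatrixGroups

noncomputable local instance : Fintype (GaloisField 2 3) := Fintype.ofFinite _

theorem no_pq_of {n p q : ℕ} (hp : p.Prime) (hq : q.Prime) (hne : p ≠ q) (h : n = p * q) :
    ∀ m ∈ ({2, 3, 4, 7, 9} : Finset ℕ), ¬ n ∣ m := by
  subst h
  intro m hm hd
  simp only [Finset.mem_insert, Finset.mem_singleton] at hm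
  obtain ⟨r, k, hr, hrk⟩ : ∃ r k, r.Prime ∧ m = r ^ k := by
    rcases hm with rfl | rfl | rfl | rfl | rfl
    · exact ⟨2, 1, by norm_num, by norm_num⟩
    · exact ⟨3, 1, by norm_num, by norm_num⟩
    · exact ⟨2, 2, by norm_num, by norm_num⟩
    · exact ⟨7, 1, by norm_num, by norm_num⟩
    · exact ⟨3, 2, by norm_num, by norm_num⟩
  rw [hrk] at hd
  exact hne (((Nat.prime_dvd_prime_iff_eq hp hr).1 (hp.dvd_of_dvd_pow ((Dvd.intro q rfl).trans hd))).trans
    ((Nat.prime_dvd_prime_iff_eq hq hr).1 (hq.dvd_of_dvd_pow ((Dvd.intro_left p rfl).trans hd))).symm)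

theorem pow_mem8 (g : SL(2, GaloisField 2 3)) : g ^ 2 = 1 ∨ g ^ 3 = 1 ∨ g ^ 7 = 1 ∨ g ^ 9 = 1 := by
  set A : Matrix (Fin 2) (Fin 2) (GaloisField 2 3) := (g : Matrix (Fin 2) (Fin 2) (GaloisField 2 3)) with hA
  set t := A 0 0 + A 1 1
  have two : (2 : GaloisField 2 3) = 0 := CharTwo.two_eq_zero
  have h8 : t ^ 8 = t := by
    have := FiniteField.pow_card t
    rwa [← Nat.card_eq_fintype_card, GaloisField.card 2 3 (by norm_num)] at this
  have h2 : A * A = t • A + 1 := by
    rw [hA, CfsgLib.SL2PrimeGraph.sq_eq g, sub_eq_add_neg]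
    congr 1
    ext i j; exact CharTwo.neg_eq _
  have step : ∀ {n : ℕ} {a b : GaloisField 2 3}, A ^ n = a • A + b • 1 →
      A ^ (n + 1) = (a * t + b) • A + a • 1 := by
    intro n a b h
    rw [pow_succ, h, add_mul, smul_mul_assoc, smul_mul_assoc, one_mul, h2, smul_add, smul_smul, add_smul]
    abel
  have e1 : A ^ 1 = (1 : GaloisField 2 3) • A + (0 : GaloisField 2 3) • 1 := by simp
  have e2 := step e1; have e3 := step e2; have e4 := step e3; have e5 := step e4
  have e6 := step e5; have e7 := step e6; have e8 := step e7; have e9 := step e8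
  have fin : ∀ {n : ℕ} {a b : GaloisField 2 3}, A ^ n = a • A + b • 1 → a = 0 → b = 1 → g ^ n = 1 := by
    intro n a b h ha hb
    apply Subtype.ext
    exact (Matrix.SpecialLinearGroup.coe_pow g n).trans (by
      rw [← hA, h, ha, hb, zero_smul, one_smul, zero_add]; rfl)
  have hfac : t * (t + 1) * ((t ^ 3 + t + 1) * (t ^ 3 + t ^ 2 + 1)) = 0 := by
    linear_combination h8 + (t ^ 7 + t ^ 6 + 2 * t ^ 5 + 2 * t ^ 4 + t ^ 3 + t ^ 2 + t) * two
  rcases mul_eq_zero.1 hfac with h | h <;> rcases mul_eq_zero.1 h with h | h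
  · exact Or.inl (fin e2 (by rw [h]; ring) rfl)
  · refine Or.inr (Or.inl (fin e3 ?_ ?_))
    · linear_combination (t - 1) * h + two
    · linear_combination h - two
  · refine Or.inr (Or.inr (Or.inr (fin e9 ?_ ?_)))
    · linear_combination (t ^ 5 + 6 * t ^ 3 - t ^ 2 + 9 * t - 5) * h + (3 - 2 * t + t ^ 2) * two
    · linear_combination (t ^ 4 + 5 * t ^ 2 - t + 5) * h + (-2 * t ^ 2 - 3) * two
  · refine Or.inr (Or.inr (Or.inl (fin e7 ?_ ?_)))
    · linear_combination (t ^ 3 - t ^ 2 + 6 * t - 7) * h + (7 * t ^ 2 - 3 * t + 4) * two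
    · linear_combination (t ^ 2 - t + 5) * h + (2 * t - 3 * t ^ 2 - 3) * two

theorem no_pq8 (g : SL(2, GaloisField 2 3)) {p q : ℕ} (hp : p.Prime) (hq : q.Prime) (hne : p ≠ q) :
    orderOf g ≠ p * q := by
  intro h
  rcases pow_mem8 g with e | e | e | e <;>
    exact no_pq_of hp hq hne h _ (by simp) (orderOf_dvd_of_pow_eq_one e)

theorem no_pq7 {F : Type*} [Field F] [Fintype F] (hF : Fintype.card F = 7)
    (x : Matrix.ProjectiveSpecialLinearGroup (Fin 2) F) {p q : ℕ} (hp : p.Prime) (hq : q.Prime)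
    (hne : p ≠ q) : orderOf x ≠ p * q := by
  intro h
  obtain ⟨g, rfl⟩ := QuotientGroup.mk'_surjective (Subgroup.center SL(2, F)) x
  suffices h' : ∃ m ∈ ({2, 3, 4, 7, 9} : Finset ℕ), g ^ m ∈ Subgroup.center SL(2, F) by
    obtain ⟨m, hm, hc⟩ := h'
    refine no_pq_of hp hq hne h m hm (orderOf_dvd_of_pow_eq_one ?_)
    rw [← map_pow]
    exact (QuotientGroup.eq_one_iff _).2 hc
  haveI : Fact (Nat.Prime 7) := ⟨by norm_num⟩
  haveI : CharP F 7 := charP_of_card_eq_prime_pow (p := 7) (f := 1) (by rw [hF, pow_one])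
  set A : Matrix (Fin 2) (Fin 2) F := (g : Matrix (Fin 2) (Fin 2) F) with hA
  set t := A 0 0 + A 1 1
  have h2 : A * A = t • A + (-1 : F) • 1 := by
    rw [hA, CfsgLib.SL2PrimeGraph.sq_eq g, sub_eq_add_neg, neg_one_smul]
  have step : ∀ {n : ℕ} {a b : F}, A ^ n = a • A + b • 1 →
      A ^ (n + 1) = (a * t + b) • A + (-a) • 1 := by
    intro n a b h
    rw [pow_succ, h, add_mul, smul_mul_assoc, smul_mul_assoc, one_mul, h2, smul_add, smul_smul, smul_smul,
      mul_neg_one, add_smul]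
    abel
  have e1 : A ^ 1 = (1 : F) • A + (0 : F) • 1 := by simp
  have e2 := step e1; have e3 := step e2; have e4 := step e3; have e5 := step e4
  have e6 := step e5; have e7 := step e6
  have fin : ∀ {n : ℕ} {a b : F}, A ^ n = a • A + b • 1 → a = 0 → g ^ n ∈ Subgroup.center SL(2, F) := by
    intro n a b h ha
    rw [Matrix.SpecialLinearGroup.mem_center_iff]
    have hn : ((g ^ n : SL(2, F)) : Matrix (Fin 2) (Fin 2) F) = scalar (Fin 2) b := by
      rw [Matrix.SpecialLinearGroup.coe_pow, ← hA, h, ha, zero_smul, zero_add]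
      ext i j
      simp [Matrix.one_apply, Matrix.diagonal_apply]
    refine ⟨b, ?_, hn.symm⟩
    have := (g ^ n).det_coe
    rw [hn] at this
    simpa [Matrix.det_diagonal, sq] using this
  have seven : (7 : F) = 0 := by exact_mod_cast CharP.cast_eq_zero F 7
  have h7 : t ^ 7 = t := by
    have := FiniteField.pow_card t
    rwa [hF] at this
  have hfac : t * ((t - 1) * (t + 1)) * ((t - 2) * (t + 2)) * (t ^ 2 - 2) = 0 := by
    linear_combination h7 + (-t ^ 5 + 2 * t ^ 3 - t) * seven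
  rcases mul_eq_zero.1 hfac with h | h
  · rcases mul_eq_zero.1 h with h | h
    · rcases mul_eq_zero.1 h with h | h
      · exact ⟨2, by simp, fin e2 (by rw [h]; ring)⟩
      · exact ⟨3, by simp, fin e3 (by linear_combination h)⟩
    · refine ⟨7, by simp, fin e7 ?_⟩
      linear_combination (t ^ 4 - t ^ 2 + 2) * h + seven
  · exact ⟨4, by simp, fin e4 (by linear_combination t * h)⟩

theorem dvd_168 {p : ℕ} (hp : p.Prime) (n : ℕ) (hn : n = 168 ∨ n = 504) :
    p ∣ n ↔ p = 2 ∨ p = 3 ∨ p = 7 := by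
  constructor
  · intro h
    have h' : p ∣ 2 ^ 3 * 3 ^ 2 * 7 := by
      rcases hn with rfl | rfl
      · exact h.trans (by norm_num)
      · exact h.trans (by norm_num)
    rcases hp.dvd_mul.1 h' with h | h
    · rcases hp.dvd_mul.1 h with h | h
      · exact Or.inl ((Nat.prime_dvd_prime_iff_eq hp (by norm_num)).1 (hp.dvd_of_dvd_pow h))
      · exact Or.inr (Or.inl ((Nat.prime_dvd_prime_iff_eq hp (by norm_num)).1 (hp.dvd_of_dvd_pow h)))
    · exact Or.inr (Or.inr ((Nat.prime_dvd_prime_iff_eq hp (by norm_num)).1 h))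
  · rcases hn with rfl | rfl <;> rintro (rfl | rfl | rfl) <;> norm_num

theorem hp8 (p : ℕ) (hp : p.Prime) : p ∣ Nat.card SL(2, GaloisField 2 3) ↔ p = 2 ∨ p = 3 ∨ p = 7 := by
  refine dvd_168 hp _ (Or.inr ?_)
  have h := CfsgLib.Linear.SmallPSL.card_SL2 (F := GaloisField 2 3)
  rw [← Nat.card_eq_fintype_card, GaloisField.card 2 3 (by norm_num)] at h
  norm_num at h
  omega

theorem hp7 {F : Type*} [Field F] [Fintype F] (hF : Fintype.card F = 7) (p : ℕ) (hp : p.Prime) :
    p ∣ Nat.card (Matrix.ProjectiveSpecialLinearGroup (Fin 2) F) ↔ p = 2 ∨ p = 3 ∨ p = 7 := by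
  refine dvd_168 hp _ (Or.inl ?_)
  have h := CfsgLib.Linear.SmallPSL.card_SL2 (F := F)
  have h' := CfsgLib.Linear.Card.card_PSL_mul (F := F) (ι := Fin 2)
  rw [hF] at h h'
  norm_num at h h'
  omega


/-- The prime graph of a finite group has the prime divisors of its order as vertices, two distinct primes p, q being joined when the group has an element of order pq; two groups have the same prime graph when they have the same prime divisors and the same joined pairs. Let F be the field with 7 elements. There are finite groups of arbitrarily large order with the same prime graph as PSL(2,F) (the graph on {2, 3, 7} with no edges, which is also the prime graph of PSL(2,8)). -/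
theorem result {F : Type*} [Field F] [Fintype F] (hF : Fintype.card F = 7) (N : ℕ) :
    ∃ (H : Type) (_ : Group H) (_ : Finite H), N < Nat.card H ∧
      ((∀ p : ℕ, p.Prime → (p ∣ Nat.card (Matrix.ProjectiveSpecialLinearGroup (Fin 2) F) ↔ p ∣ Nat.card H)) ∧
      (∀ p q : ℕ, p.Prime → q.Prime → p ≠ q → ((∃ g : (Matrix.ProjectiveSpecialLinearGroup (Fin 2) F), orderOf g = p * q) ↔ (∃ g : H, orderOf g = p * q)))) := by
  obtain ⟨H, hg, hH, hN, hp, hpq⟩ :=
    CfsgLib.SL2PrimeGraph.exists_large (F := GaloisField 2 3) N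
  refine ⟨H, hg, hH, hN, fun p h => (hp7 hF p h).trans ((hp8 p h).symm.trans (hp p h)), fun p q h1 h2 h3 => ?_⟩
  rw [← hpq p q h1 h2 h3]
  exact iff_of_false (fun ⟨g, hg⟩ => no_pq7 hF g h1 h2 h3 hg) (fun ⟨g, hg⟩ => no_pq8 g h1 h2 h3 hg)

end Cfsg.Agent.S3678
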