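import Cfsg.Statements.S3681
import Mathlib

set_option autoImplicit false
open Cfsg

namespace Cfsg.Agent.S3681

/-- Bochert's bound for primitive groups. Let a finite group G act faithfully and primitively on a finite set Ω with n elements, and suppose the image of G in the symmetric group of Ω does not contain the alternating group of Ω. Then |G| · ⌊(n + 1)/2⌋! ≤ n!, that is, the index of G in the symmetric group is at least ⌊(n + 1)/2⌋!. -/
theorem result {G Ω : Type*} [Group G] [Finite G] [MulAction G Ω] [FaithfulSMul G Ω] [Fintype Ω] [DecidableEq Ω]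
    (hprim : MulAction.IsPreprimitive G Ω) (hA : ¬ alternatingGroup Ω ≤ (MulAction.toPermHom G Ω).range) :
    Nat.card G * Nat.factorial ((Fintype.card Ω + 1) / 2) ≤ Nat.factorial (Fintype.card Ω) := by
  classical
  set R := (MulAction.toPermHom G Ω).range with hR
  have hinj : Function.Injective (MulAction.toPermHom G Ω) := fun a b h => eq_of_smul_eq_smul fun ω =>
    Equiv.congr_fun h ω
  have hcardR : Nat.card R = Nat.card G := (Nat.card_congr (MonoidHom.ofInjective hinj).toEquiv).symm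
  have hprimR : MulAction.IsPreprimitive R Ω := by
    let f : Ω →ₑ[(MulAction.toPermHom G Ω).rangeRestrict] Ω := { toFun := id, map_smul' := fun g x => rfl }
    exact MulAction.IsPreprimitive.of_surjective (f := f) Function.surjective_id
  let base : Finset Ω → Prop := fun Γ => ∀ g ∈ R, (∀ x ∈ Γ, g x = x) → g = 1
  have hbu : base Finset.univ := fun g _ h => Equiv.ext fun x => h x (Finset.mem_univ x)
  obtain ⟨Γ, hΓ, hmin⟩ := Finset.exists_min_image (Finset.univ.filter fun Γ : Finset Ω => base Γ) Finset.card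
    ⟨Finset.univ, Finset.mem_filter.mpr ⟨Finset.mem_univ _, hbu⟩⟩
  rw [Finset.mem_filter] at hΓ
  have hnb : ∀ Δ : Finset Ω, Δ.card < Γ.card → ∃ g ∈ R, (∀ x ∈ Δ, g x = x) ∧ g ≠ 1 := by
    intro Δ hΔ
    by_contra h
    push Not at h
    exact absurd (hmin Δ (Finset.mem_filter.mpr ⟨Finset.mem_univ _, h⟩)) (not_le.mpr hΔ)
  have hsmall : 2 * Γ.card ≤ Fintype.card Ω := by
    by_contra hbig
    push Not at hbig
    obtain ⟨g, hgR, hg, hg1⟩ := hnb Γᶜ (by rw [Finset.card_compl]; omega)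
    obtain ⟨γ, hgγ⟩ : ∃ γ, g γ ≠ γ := by
      by_contra h
      push Not at h
      exact hg1 (Equiv.ext h)
    have hγ : γ ∈ Γ := by
      by_contra h
      exact hgγ (hg γ (Finset.mem_compl.mpr h))
    obtain ⟨h, hhR, hh, hh1⟩ := hnb (Γ.erase γ) (Finset.card_lt_card (Finset.erase_ssubset hγ))
    have hhγ : h γ ≠ γ := fun e => hh1 (hΓ.2 h hhR fun x hx => by
      by_cases hxγ : x = γ
      · rw [hxγ, e]
      · exact hh x (Finset.mem_erase.mpr ⟨hxγ, hx⟩))
    have gA : ∀ x, g (g⁻¹ x) = x := fun x => g.apply_symm_apply x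
    have gB : ∀ x, g⁻¹ (g x) = x := fun x => g.symm_apply_apply x
    have hA' : ∀ x, h (h⁻¹ x) = x := fun x => h.apply_symm_apply x
    have hB : ∀ x, h⁻¹ (h x) = x := fun x => h.symm_apply_apply x
    have fg : ∀ x, x ∉ Γ → g x = x := fun x hx => hg x (Finset.mem_compl.mpr hx)
    have fg' : ∀ x, x ∉ Γ → g⁻¹ x = x := fun x hx => Equiv.Perm.inv_eq_iff_eq.mpr (fg x hx).symm
    have fh : ∀ x ∈ Γ, x ≠ γ → h x = x := fun x hx hxγ => hh x (Finset.mem_erase.mpr ⟨hxγ, hx⟩)
    have fh' : ∀ x ∈ Γ, x ≠ γ → h⁻¹ x = x := fun x hx hxγ => Equiv.Perm.inv_eq_iff_eq.mpr (fh x hx hxγ).symm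
    have gin : ∀ x ∈ Γ, g x ∈ Γ := fun x hx => by
      by_contra h'
      exact h' ((g.injective (fg _ h')).symm ▸ hx)
    have gin' : ∀ x ∈ Γ, g⁻¹ x ∈ Γ := fun x hx => by
      by_contra h'
      have : g (g⁻¹ x) = g⁻¹ x := fg _ h'
      rw [gA] at this
      exact h' (this ▸ hx)
    have hout : h γ ∉ Γ := fun e => hhγ (h.injective (fh _ e hhγ))
    have houti : h⁻¹ γ ∉ Γ := fun e => hhγ (by
      have h1 : h⁻¹ γ ≠ γ := fun e' => hhγ (by conv_lhs => rw [← e', hA'])
      have := fh _ e h1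
      rw [hA'] at this
      exact absurd this.symm h1)
    have key : g * h * g⁻¹ * h⁻¹ = Equiv.swap γ (h γ) * Equiv.swap γ (g γ) := by
      ext x
      simp only [Equiv.Perm.mul_apply]
      by_cases x1 : x = γ
      · rw [x1, fg' _ houti, hA', Equiv.swap_apply_left,
          Equiv.swap_apply_of_ne_of_ne hgγ fun e => hout (by rw [← e]; exact gin γ hγ)]
      by_cases x2 : x = g γ
      · rw [x2, fh' _ (gin γ hγ) hgγ, gB, fg _ hout, Equiv.swap_apply_right, Equiv.swap_apply_left]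
      by_cases x3 : x = h γ
      · have : g⁻¹ γ ≠ γ := fun e => hgγ (by conv_lhs => rw [← e, gA])
        rw [x3, hB, fh _ (gin' γ hγ) this, gA,
          Equiv.swap_apply_of_ne_of_ne hhγ fun e => hout (by rw [e]; exact gin γ hγ), Equiv.swap_apply_right]
      rw [Equiv.swap_apply_of_ne_of_ne x1 x2, Equiv.swap_apply_of_ne_of_ne x1 x3]
      by_cases hx : x ∈ Γ
      · rw [fh' x hx x1, fh _ (gin' x hx) (fun e => x2 (Equiv.Perm.inv_eq_iff_eq.mp e)), gA]
      · have h2 : h⁻¹ x ∉ Γ := fun e => by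
          by_cases e' : h⁻¹ x = γ
          · exact x3 (Equiv.Perm.inv_eq_iff_eq.mp e')
          · have := fh _ e e'
            rw [hA'] at this
            exact hx (this.symm ▸ e)
        rw [fg' _ h2, hA', fg _ hx]
    refine hA (Equiv.Perm.alternatingGroup_le_of_isPreprimitive_of_isThreeCycle_mem hprimR
      (g := g * h * g⁻¹ * h⁻¹) ?_ (mul_mem (mul_mem (mul_mem hgR hhR) (inv_mem hgR)) (inv_mem hhR)))
    rw [key]
    exact Equiv.Perm.isThreeCycle_swap_mul_swap_same (Ne.symm hhγ) (Ne.symm hgγ)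
      fun e => hout (e.symm ▸ gin γ hγ)
  let T : Equiv.Perm {x : Ω // x ∉ Γ} →* Equiv.Perm Ω := Equiv.Perm.ofSubtype
  have hdis : ∀ s, T s ∈ R → T s = 1 := fun s hs => hΓ.2 _ hs fun x hx =>
    Equiv.Perm.ofSubtype_apply_of_not_mem s (not_not.mpr hx)
  have hle : Nat.card R * Nat.card (Equiv.Perm {x : Ω // x ∉ Γ}) ≤ Nat.card (Equiv.Perm Ω) := by
    rw [← Nat.card_prod]
    refine Nat.card_le_card_of_injective (fun rs : R × _ => (rs.1 : Equiv.Perm Ω) * T rs.2) ?_
    rintro ⟨r, s⟩ ⟨r', s'⟩ e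
    have e' : (r : Equiv.Perm Ω) * T s = r' * T s' := e
    have h1 : T (s * s'⁻¹) = (r : Equiv.Perm Ω)⁻¹ * r' := by
      rw [map_mul, map_inv, eq_inv_mul_iff_mul_eq, ← mul_assoc, e', mul_inv_cancel_right]
    have h2 := hdis (s * s'⁻¹) (by rw [h1]; exact mul_mem (inv_mem r.2) r'.2)
    have h3 : s * s'⁻¹ = 1 := Equiv.Perm.ofSubtype_injective (h2.trans (map_one T).symm)
    rw [mul_inv_eq_one] at h3
    subst h3
    exact Prod.ext (Subtype.ext (mul_right_cancel e')) rfl
  rw [hcardR, Nat.card_perm, Nat.card_perm, Nat.card_eq_fintype_card (α := Ω), Nat.card_eq_fintype_card (α := {x : Ω // x ∉ Γ}),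
    Fintype.card_subtype_compl, Fintype.card_coe] at hle
  exact le_trans (Nat.mul_le_mul_left _ (Nat.factorial_le (by omega))) hle

end Cfsg.Agent.S3681
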