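import Cfsg.Statements.S3683
import Mathlib.GroupTheory.GroupAction.Primitive
import Mathlib.GroupTheory.Perm.Cycle.Type
import Mathlib.Tactic

set_option autoImplicit false
open Cfsg

namespace Cfsg.Agent.S3683

open MulAction Subgroup

lemma card_stab_eq {G Ω : Type*} [Group G] [Finite G] [MulAction G Ω] [MulAction.IsPretransitive G Ω] (a b : Ω) :
    Nat.card (stabilizer G a) = Nat.card (stabilizer G b) := by
  obtain ⟨g, rfl⟩ := MulAction.exists_smul_eq G a b
  exact (Nat.card_congr (stabilizerEquivStabilizer (g := g) rfl).toEquiv)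

/-- a normal subgroup fixing a point acts trivially -/
lemma normal_le_stab {G Ω : Type*} [Group G] [MulAction G Ω] [MulAction.IsPretransitive G Ω] [FaithfulSMul G Ω]
    {K : Subgroup G} (hK : K.Normal) (a : Ω) (hKa : K ≤ stabilizer G a) : K = ⊥ := by
  rw [Subgroup.eq_bot_iff_forall]
  intro k hk
  refine eq_of_smul_eq_smul (α := Ω) fun x => ?_
  obtain ⟨g, rfl⟩ := MulAction.exists_smul_eq G a x
  have h := hKa (hK.conj_mem k hk g⁻¹)
  rw [mem_stabilizer_iff, inv_inv, mul_smul, mul_smul, inv_smul_eq_iff] at h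
  rw [one_smul, h]


/-- Let a finite group G act faithfully and primitively on a set Ω, and suppose the stabilizer of a point a fixes a second point b ≠ a (a suborbit of length 1 other than {a}). Then the stabilizer of a is trivial and G is cyclic of prime order. -/
theorem result {G Ω : Type*} [Group G] [Finite G] [MulAction G Ω] [FaithfulSMul G Ω] [Finite Ω]
    (hprim : MulAction.IsPreprimitive G Ω) (a b : Ω) (hab : a ≠ b) (hfix : ∀ g : G, g • a = a → g • b = b) :
    MulAction.stabilizer G a = ⊥ ∧ IsCyclic G ∧ (Nat.card G).Prime := by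
  haveI := hprim
  haveI : Nontrivial Ω := ⟨⟨a, b, hab⟩⟩
  have hco := IsPreprimitive.isCoatom_stabilizer_of_isPreprimitive (G := G) a
  have hle : stabilizer G a ≤ stabilizer G b := fun g hg => hfix g hg
  have heq : stabilizer G a = stabilizer G b :=
    Subgroup.eq_of_le_of_card_ge hle (card_stab_eq b a).le
  have hn : (stabilizer G a).Normal := by
    rw [← Subgroup.normalizer_eq_top_iff]
    refine hco.2 _ (lt_of_le_of_ne le_normalizer fun hN => hab ?_)
    obtain ⟨g, hg⟩ := MulAction.exists_smul_eq G a b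
    have : g ∈ stabilizer G a := by
      rw [hN, Subgroup.mem_normalizer_iff]
      intro h
      conv_rhs => rw [heq]
      rw [mem_stabilizer_iff, mem_stabilizer_iff, ← hg, mul_smul, mul_smul, inv_smul_smul,
        smul_left_cancel_iff]
    exact (this : g • a = a).symm.trans hg
  have hbot : stabilizer G a = ⊥ := normal_le_stab hn a le_rfl
  rw [hbot] at hco
  refine ⟨hbot, ?_⟩
  have hz : ∀ x : G, x ≠ 1 → zpowers x = ⊤ := fun x hx =>
    hco.2 _ (bot_lt_iff_ne_bot.2 fun h => hx (Subgroup.zpowers_eq_bot.1 h))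
  have h1 : Nat.card G ≠ 1 := fun h => hco.1 (Subgroup.eq_top_of_card_eq _ (by simp [h]))
  obtain ⟨p, hp, hdvd⟩ := Nat.exists_prime_and_dvd h1
  haveI := Fact.mk hp
  obtain ⟨x, hx⟩ := exists_prime_orderOf_dvd_card' p hdvd
  have hx1 : x ≠ 1 := fun h => hp.ne_one (by rw [← hx, h, orderOf_one])
  have hcard : Nat.card G = p := by
    rw [← hx, ← Nat.card_zpowers, hz x hx1, Subgroup.card_top]
  exact ⟨⟨x, fun y => by have : y ∈ zpowers x := by rw [hz x hx1]; exact mem_top y
                         exact this⟩, by rw [hcard]; exact hp⟩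

end Cfsg.Agent.S3683
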