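import Cfsg.Statements.S3684
import Mathlib.GroupTheory.GroupAction.Primitive
import Cfsg.Agent.Lib.MaximalClass
import Mathlib.Tactic

set_option autoImplicit false
open Cfsg

namespace Cfsg.Agent.S3684

open MulAction Subgroup

lemma card_stab_eq {G Ω : Type*} [Group G] [Finite G] [MulAction G Ω] [MulAction.IsPretransitive G Ω] (a b : Ω) :
    Nat.card (stabilizer G a) = Nat.card (stabilizer G b) := by
  obtain ⟨g, rfl⟩ := MulAction.exists_smul_eq G a b
  exact (Nat.card_congr (stabilizerEquivStabilizer (g := g) rfl).toEquiv)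

/-- a normal subgroup fixing a point acts trivially -/
lemma normal_le_stab {G Ω : Type*} [Group G] [MulAction G Ω] [MulAction.IsPretransitive G Ω] [FaithfulSMul G Ω]
    {K : Subgroup G} (hK : K.Normal) (a : Ω) (hKa : K ≤ stabilizer G a) : K = ⊥ := by
  rw [Subgroup.eq_bot_iff_forall]
  intro k hk
  refine eq_of_smul_eq_smul (α := Ω) fun x => ?_
  obtain ⟨g, rfl⟩ := MulAction.exists_smul_eq G a x
  have h := hKa (hK.conj_mem k hk g⁻¹)
  rw [mem_stabilizer_iff, inv_inv, mul_smul, mul_smul, inv_smul_eq_iff] at h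
  rw [one_smul, h]

theorem dihedral_of_two {G Ω : Type*} [Group G] [Finite G] [MulAction G Ω] [FaithfulSMul G Ω] [Finite Ω]
    (hprim : MulAction.IsPreprimitive G Ω) (a b : Ω)
    (h2 : Nat.card (MulAction.orbit (MulAction.stabilizer G a) b) = 2) :
    ∃ p : ℕ, (p.Prime ∧ Nonempty (G ≃* DihedralGroup p)) ∧ Nat.card (stabilizer G a) = 2 := by
  haveI := hprim
  have hab : a ≠ b := by
    rintro rfl
    have : Subsingleton (MulAction.orbit (MulAction.stabilizer G a) a) := by
      constructor
      rintro ⟨x, ⟨g, rfl⟩⟩ ⟨y, ⟨g', rfl⟩⟩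
      exact Subtype.ext ((g.2 : (g : G) • a = a).trans (g'.2 : (g' : G) • a = a).symm)
    rw [Nat.card_of_subsingleton (⟨a, MulAction.mem_orbit_self a⟩ :
      MulAction.orbit (MulAction.stabilizer G a) a)] at h2
    omega
  haveI : Nontrivial Ω := ⟨⟨a, b, hab⟩⟩
  have hco := IsPreprimitive.isCoatom_stabilizer_of_isPreprimitive (G := G) a
  set A := stabilizer G a with hA
  set B := stabilizer G b with hB
  have hstab : (stabilizer A b) = B.subgroupOf A := rfl
  have hidx : (B.subgroupOf A).index = 2 := by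
    rw [← hstab, MulAction.index_stabilizer, ← Nat.card_coe_set_eq]; exact h2
  have hcB : Nat.card B = Nat.card A := card_stab_eq b a
  have hcard : Nat.card (↥(A ⊓ B)) * 2 = Nat.card A := by
    have := Subgroup.card_mul_index (B.subgroupOf A)
    rw [hidx, Nat.card_congr (Subgroup.subgroupOfEquivOfLe (show A ⊓ B ≤ A from inf_le_left)).symm.toEquiv] at *
    rwa [Subgroup.inf_subgroupOf_left] 
  have hidxB : ((A ⊓ B).subgroupOf B).index = 2 := by
    have := Subgroup.card_mul_index ((A ⊓ B).subgroupOf B)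
    rw [Nat.card_congr (Subgroup.subgroupOfEquivOfLe (show A ⊓ B ≤ B from inf_le_right)).toEquiv, hcB,
      ← hcard] at this
    exact Nat.eq_of_mul_eq_mul_left Nat.card_pos this
  have hnA : A ≤ normalizer ((A ⊓ B : Subgroup G) : Set G) := by
    rw [← Subgroup.normal_subgroupOf_iff_le_normalizer inf_le_left]
    exact Subgroup.normal_of_index_eq_two (by rw [Subgroup.inf_subgroupOf_left]; exact hidx)
  have hnB : B ≤ normalizer ((A ⊓ B : Subgroup G) : Set G) := by
    rw [← Subgroup.normal_subgroupOf_iff_le_normalizer inf_le_right]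
    exact Subgroup.normal_of_index_eq_two hidxB
  have hBA : ¬ B ≤ A := fun h => by
    have h' : A ⊓ B = B := inf_eq_right.2 h
    rw [h', hcB] at hcard
    have : 0 < Nat.card A := Nat.card_pos
    omega
  have hK : A ⊓ B = ⊥ := by
    refine normal_le_stab ?_ a inf_le_left
    rw [← Subgroup.normalizer_eq_top_iff]
    refine hco.2 _ (lt_of_le_of_ne hnA fun h => hBA (h.symm ▸ hnB))
  rw [hK, Subgroup.card_bot, one_mul] at hcard
  have hinvol : ∀ x : G, x ∈ A ∨ x ∈ B → x * x = 1 := by
    intro x hx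
    rw [← pow_two, ← orderOf_dvd_iff_pow_eq_one]
    rcases hx with hx | hx
    · rw [hcard]; exact Subgroup.orderOf_dvd_natCard _ hx
    · rw [hcard, ← hcB]; exact Subgroup.orderOf_dvd_natCard _ hx
  obtain ⟨s, hsA, hs1⟩ : ∃ s ∈ A, s ≠ 1 := by
    refine (Subgroup.bot_or_exists_ne_one A).resolve_left fun h => ?_
    rw [h, Subgroup.card_bot] at hcard; omega
  obtain ⟨t, htB, htA⟩ : ∃ t ∈ B, t ∉ A := SetLike.not_le_iff_exists.1 hBA
  have hss := hinvol s (Or.inl hsA)
  have htt := hinvol t (Or.inr htB)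
  set r := s * t with hr
  have hrA : r ∉ A := fun h => htA (by have := A.mul_mem hsA h; rwa [hr, ← mul_assoc, hss, one_mul] at this)
  have hsinv : s⁻¹ = s := inv_eq_of_mul_eq_one_right hss
  have htinv : t⁻¹ = t := inv_eq_of_mul_eq_one_right htt
  have hinv : s * r * s⁻¹ = r⁻¹ := by
    rw [hr, mul_inv_rev, ← mul_assoc, hss, one_mul, htinv, hsinv]
  have hA2 : ∀ x ∈ A, x = 1 ∨ x = s := by
    intro x hx
    have : zpowers s = A := Subgroup.eq_of_le_of_card_ge (Subgroup.zpowers_le.2 hsA)
      (by rw [← hcard, Nat.card_zpowers, orderOf_eq_prime (by rw [pow_two]; exact hss) hs1])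
    rw [← this, Subgroup.mem_zpowers_iff] at hx
    obtain ⟨k, rfl⟩ := hx
    have h2 : s ^ (2 : ℤ) = 1 := by rw [zpow_two]; exact hss
    rcases Int.even_or_odd k with ⟨m, rfl⟩ | ⟨m, rfl⟩
    · left; rw [← two_mul, zpow_mul, h2, one_zpow]
    · right; rw [zpow_add, zpow_mul, h2, one_zpow, one_mul, zpow_one]
  have hnorm : ∀ k : ℕ, (zpowers (r ^ k)).Normal := by
    intro k
    have hsN : s ∈ normalizer (zpowers (r ^ k) : Set G) := by
      rw [Subgroup.mem_normalizer_iff]
      have key : ∀ h ∈ zpowers (r ^ k), s * h * s⁻¹ ∈ zpowers (r ^ k) := by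
        rintro h ⟨j, rfl⟩
        show s * (r ^ k) ^ j * s⁻¹ ∈ _
        rw [← conj_zpow, ← conj_pow, hinv, inv_pow]
        exact zpow_mem (inv_mem (Subgroup.mem_zpowers _)) _
      intro h
      refine ⟨key h, fun hh => ?_⟩
      have h' := key _ hh
      rwa [hsinv, show s * (s * h * s) * s = (s * s) * h * (s * s) by group, hss, one_mul, mul_one] at h'
    have hrN : r ∈ normalizer (zpowers (r ^ k) : Set G) := by
      rw [Subgroup.mem_normalizer_iff]
      have hc : ∀ h ∈ zpowers (r ^ k), r * h * r⁻¹ = h := by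
        rintro h ⟨j, rfl⟩
        show r * (r ^ k) ^ j * r⁻¹ = _
        rw [((Commute.self_pow r k).zpow_right j).eq, mul_inv_cancel_right]
      intro h
      refine ⟨fun hh => by rwa [hc h hh], fun hh => ?_⟩
      have h' := hh
      obtain ⟨j, hj⟩ := hh
      have : h = r * h * r⁻¹ := by
        have e : h = r⁻¹ * (r ^ k) ^ j * r := by
          simp only at hj; rw [hj]; group
        rw [mul_assoc, ← ((Commute.self_pow r k).zpow_right j).eq, inv_mul_cancel_left] at e
        simp only at hj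
        rw [← hj, e]
      rwa [this]
    rw [← Subgroup.normalizer_eq_top_iff]
    refine hco.2 _ (lt_of_le_of_ne ?_ fun h => hrA (h ▸ hrN))
    intro x hx
    rcases hA2 x hx with rfl | rfl
    · exact one_mem _
    · exact hsN
  set n := orderOf r with hn
  have hsR : ∀ k : ℕ, s ∉ zpowers (r ^ k) := by
    intro k hs
    obtain ⟨j, hj⟩ := hs
    have hc : Commute r s := by rw [← hj]; exact (Commute.self_pow r k).zpow_right j
    have hrr : r = r⁻¹ := by rw [← hinv, ← hc.eq, mul_inv_cancel_right]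
    refine hrA ?_
    have hr2 : r * r = 1 := by nth_rewrite 2 [hrr]; exact mul_inv_cancel r
    have hmem : s ∈ zpowers r := by
      rw [← hj]; exact zpow_mem (pow_mem (Subgroup.mem_zpowers r) k) j
    obtain ⟨i, hi⟩ := hmem
    rcases Int.even_or_odd i with ⟨m, rfl⟩ | ⟨m, rfl⟩
    · exfalso; apply hs1
      simp only at hi
      rw [← hi, ← two_mul, zpow_mul, zpow_two, hr2, one_zpow]
    · simp only at hi
      rw [zpow_add, zpow_mul, zpow_two, hr2, one_zpow, one_mul, zpow_one] at hi
      rw [hi]; exact hsA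
  have hsplit : ∀ k : ℕ, ¬ r ^ k ∈ A → Nat.card G = orderOf (r ^ k) * 2 := by
    intro k hk
    have htop : A ⊔ zpowers (r ^ k) = ⊤ := hco.2 _ (lt_of_le_of_ne le_sup_left fun h =>
      hk (h ▸ (le_sup_right : zpowers (r ^ k) ≤ A ⊔ zpowers (r ^ k)) (Subgroup.mem_zpowers _)))
    have hd : Disjoint A (zpowers (r ^ k)) := by
      rw [Subgroup.disjoint_def]
      intro x hx hx'
      rcases hA2 x hx with rfl | rfl
      · rfl
      · exact absurd hx' (hsR k)
    haveI := hnorm k
    have hc := (Subgroup.isComplement'_of_disjoint_and_mul_eq_univ hd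
      (by rw [← Subgroup.mul_normal, htop, Subgroup.coe_top])).card_mul
    rw [← hc, hcard, Nat.card_zpowers, mul_comm]
  have hG : Nat.card G = n * 2 := by simpa using hsplit 1 (by simpa using hrA)
  have hn1 : n ≠ 1 := fun h => hrA (by rw [orderOf_eq_one_iff.1 h]; exact one_mem _)
  obtain ⟨q, hq, hqn⟩ := Nat.exists_prime_and_dvd hn1
  have hrq : r ^ q ∈ A := by
    by_contra h
    have h' := hsplit q h
    rw [hG, orderOf_pow' r hq.ne_zero, Nat.gcd_eq_right hqn, ← hn] at h'
    have hlt : n / q < n := Nat.div_lt_self (orderOf_pos r) hq.one_lt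
    omega
  have hrq1 : r ^ q = 1 := (hA2 _ hrq).resolve_right fun h => hsR q (h ▸ Subgroup.mem_zpowers _)
  have hnq : n = q := Nat.dvd_antisymm (orderOf_dvd_of_pow_eq_one hrq1) hqn
  haveI : NeZero q := ⟨hq.ne_zero⟩
  exact ⟨q, ⟨hq, CfsgLib.MaximalClass.dihedral_iso (x := s) (a := r) hss hnq
    (by rw [hG, hnq, mul_comm]) (by simpa using hsR 1) hinv⟩, hcard.symm⟩


/-- Let a finite group G act faithfully and primitively on a set Ω, and suppose the stabilizer of a point a has an orbit of length 2. Then the stabilizer of a has order 2 and G is isomorphic to the dihedral group of order 2p for some prime p. -/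
theorem result {G Ω : Type*} [Group G] [Finite G] [MulAction G Ω] [FaithfulSMul G Ω] [Finite Ω]
    (hprim : MulAction.IsPreprimitive G Ω) (a b : Ω) (h2 : Nat.card (MulAction.orbit (MulAction.stabilizer G a) b) = 2) :
    Nat.card (MulAction.stabilizer G a) = 2 ∧ ∃ p : ℕ, p.Prime ∧ Nonempty (G ≃* DihedralGroup p) := by
  obtain ⟨p, hp, hc⟩ := dihedral_of_two hprim a b h2
  exact ⟨hc, p, hp⟩

end Cfsg.Agent.S3684
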