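import Cfsg.Statements.S3696
import Mathlib.Analysis.MeanInequalities
import Mathlib.GroupTheory.PGroup
import Mathlib.GroupTheory.Perm.Cycle.Type
import Mathlib.GroupTheory.GroupAction.Quotient
import Mathlib.Tactic

set_option autoImplicit false
open Cfsg

namespace Cfsg.Agent.S3696

open Finset

lemma amgm (l : List ℕ) : l.prod * l.length ^ l.length ≤ l.sum ^ l.length := by
  rcases Nat.eq_zero_or_pos l.length with h0 | hpos
  · rw [List.length_eq_zero_iff] at h0; simp [h0]
  set k := l.length with hk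
  have h := Real.geom_mean_le_arith_mean (Finset.univ : Finset (Fin k)) (fun _ => (1 : ℝ))
    (fun i => ((l.get i : ℕ) : ℝ)) (fun _ _ => zero_le_one) (by simp [hpos]) (fun _ _ => Nat.cast_nonneg _)
  have hsum : (∑ i : Fin k, (l.get i : ℝ)) = (l.sum : ℕ) := by
    rw [← Nat.cast_sum, ← List.sum_ofFn]; exact congrArg (fun t : List ℕ => (t.sum : ℝ)) (List.ofFn_get l)
  have hprod : (∏ i : Fin k, (l.get i : ℝ)) = (l.prod : ℕ) := by
    rw [← Nat.cast_prod, ← List.prod_ofFn]; exact congrArg (fun t : List ℕ => (t.prod : ℝ)) (List.ofFn_get l)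
  simp only [Real.rpow_one, one_mul, Finset.sum_const, Finset.card_univ, Fintype.card_fin, nsmul_eq_mul,
    mul_one] at h
  rw [hsum, hprod] at h
  have hP : (0 : ℝ) ≤ ((l.prod : ℕ) : ℝ) := Nat.cast_nonneg _
  have h' := pow_le_pow_left₀ (Real.rpow_nonneg hP _) h k
  rw [← Real.rpow_natCast _ k, ← Real.rpow_mul hP, inv_mul_cancel₀ (by exact_mod_cast hpos.ne'),
    Real.rpow_one, div_pow, le_div_iff₀ (by positivity)] at h'
  exact_mod_cast h'

lemma split {p : ℕ} (hp : 2 ≤ p) : ∀ d e : ℕ, 1 ≤ e → d * p + p ^ e ≤ p ^ (e + d)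
  | 0, e, _ => by simp
  | d + 1, e, he => by
    have ih := split hp d e he
    have h1 : p ≤ p ^ (e + d) := Nat.le_self_pow (by omega) p
    have h2 : 2 * p ^ (e + d) ≤ p ^ (e + (d + 1)) := by
      rw [← add_assoc, pow_succ, mul_comm (p ^ (e + d)) p]
      exact Nat.mul_le_mul_right _ hp
    nlinarith

variable {Ω : Type*} [Fintype Ω] [DecidableEq Ω] {p : ℕ} [Fact p.Prime]

open scoped Classical in
noncomputable def moved (B : Subgroup (Equiv.Perm Ω)) : Finset Ω := univ.filter (fun x => ∃ b ∈ B, b x ≠ x)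

open scoped Classical in
lemma main : ∀ (c : ℕ) (B : Subgroup (Equiv.Perm Ω)), Nat.card B = c → IsPGroup p B → IsMulCommutative B →
    ∀ k, Nat.card {x : B // x ^ p = 1} = p ^ k →
    ∃ l : List ℕ, l.length = k ∧ l.sum ≤ (moved B).card ∧ Nat.card B ≤ l.prod := by
  intro c
  induction c using Nat.strong_induction_on with | _ c ih =>
  intro B hc hB hab k hk
  have hp : p.Prime := Fact.out
  by_cases hbot : Nat.card B = 1
  · haveI := (Nat.card_eq_one_iff_unique.1 hbot).1
    have : k = 0 := by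
      have h1 : Nat.card {x : B // x ^ p = 1} = 1 :=
        Nat.card_eq_one_iff_unique.2 ⟨inferInstance, ⟨⟨1, one_pow p⟩⟩⟩
      rw [hk] at h1
      exact (Nat.pow_eq_one.1 h1).resolve_left hp.ne_one
    subst this
    exact ⟨[], rfl, by simp, hbot.le⟩
  obtain ⟨n, hn⟩ := IsPGroup.iff_card.1 hB
  have hpB : p ∣ Nat.card B := by
    rw [hn]; exact dvd_pow_self p (fun h => hbot (by rw [hn, h, pow_zero]))
  obtain ⟨b, hb⟩ := exists_prime_orderOf_dvd_card' p hpB
  have hb1 : (b : Equiv.Perm Ω) ≠ 1 := fun h => hp.ne_one (by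
    rw [← hb, show b = 1 from Subtype.ext h, orderOf_one])
  obtain ⟨x, hx⟩ : ∃ x, (b : Equiv.Perm Ω) x ≠ x := by
    by_contra h
    push Not at h
    exact hb1 (Equiv.ext h)
  haveI := hab
  set S : Subgroup (Equiv.Perm Ω) := B ⊓ MulAction.stabilizer (Equiv.Perm Ω) x with hS
  let ω : Subgroup B :=
    { carrier := {y | y ^ p = 1}
      one_mem' := one_pow p
      mul_mem' := fun {u v} hu hv => by
        show (u * v) ^ p = 1
        rw [Commute.mul_pow (show Commute u v from hab.is_comm.comm u v), show u ^ p = 1 from hu, show v ^ p = 1 from hv, one_mul]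
      inv_mem' := fun {u} hu => by
        show u⁻¹ ^ p = 1
        rw [inv_pow, show u ^ p = 1 from hu, inv_one] }
  have hω : Nat.card ω = p ^ k := hk
  set St : Subgroup B := MulAction.stabilizer B x with hSt
  have hStS : St = S.subgroupOf B := by
    ext u
    rw [hSt, MulAction.mem_stabilizer_iff, Subgroup.mem_subgroupOf, hS, Subgroup.mem_inf,
      MulAction.mem_stabilizer_iff, and_iff_right u.2]
    rfl
  have hcS : Nat.card St = Nat.card S := by
    rw [hStS]; exact Nat.card_congr (Subgroup.subgroupOfEquivOfLe inf_le_left).toEquiv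
  have hSB : Nat.card (MulAction.orbit B x) * Nat.card S = Nat.card B := by
    rw [← hcS, ← Nat.card_prod]
    exact Nat.card_congr (MulAction.orbitProdStabilizerEquivGroup B x)
  have hlt : Nat.card S < c := by
    have hne : S ≠ B := fun h => hx (by
      have hm : (b : Equiv.Perm Ω) ∈ S := h.symm ▸ b.2
      exact hm.2)
    rw [← hc]
    exact lt_of_le_of_ne (Subgroup.card_le_of_le inf_le_left) fun h => hne (Subgroup.eq_of_le_of_card_ge inf_le_left h.ge)
  have hSp : IsPGroup p S := hB.to_le inf_le_left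
  have hSab : IsMulCommutative S := ⟨⟨fun u v => Subtype.ext (by
    have := hab.is_comm.comm ⟨u.1, u.2.1⟩ ⟨v.1, v.2.1⟩
    have h2 := congrArg (Subtype.val) this
    exact h2)⟩⟩
  have hωS : Nat.card (St.subgroupOf ω) = Nat.card {y : S // y ^ p = 1} := by
    refine Nat.card_congr
      { toFun := fun y => ⟨⟨y.1.1.1, y.1.1.2, congrArg id (y.2 : y.1.1 • x = x)⟩,
          Subtype.ext (by have h2 := congrArg Subtype.val (show y.1.1 ^ p = 1 from y.1.2); exact h2)⟩
        invFun := fun y => ⟨⟨⟨y.1.1, y.1.2.1⟩, Subtype.ext (by have h2 := congrArg Subtype.val y.2; exact h2)⟩, y.1.2.2⟩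
        left_inv := fun y => rfl
        right_inv := fun y => rfl }
  have hωp : IsPGroup p ω := hB.to_subgroup ω
  obtain ⟨k', hk'⟩ : ∃ k', Nat.card {y : S // y ^ p = 1} = p ^ k' := by
    rw [← hωS]; exact IsPGroup.iff_card.1 (hωp.to_subgroup _)
  obtain ⟨l, hl1, hl2, hl3⟩ := ih _ hlt S rfl hSp hSab k' hk'
  haveI := hB
  obtain ⟨a, ha⟩ : ∃ a, Nat.card (MulAction.orbit B x) = p ^ a := by
    have h : Nat.card (MulAction.orbit B x) ∣ p ^ n := hn ▸ Dvd.intro _ hSB
    obtain ⟨a, -, ha⟩ := (Nat.dvd_prime_pow hp).1 h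
    exact ⟨a, ha⟩
  have hidx : (St.subgroupOf ω).index ≤ p ^ a := by
    rw [← ha]
    show (St.subgroupOf ω).index ≤ _
    rw [show St.subgroupOf ω = MulAction.stabilizer ω x from rfl, MulAction.index_stabilizer,
      ← Nat.card_coe_set_eq]
    exact Nat.card_mono (Set.toFinite _) (fun y ⟨u, hu⟩ => ⟨u.1, hu⟩)
  have hidx2 : (St.subgroupOf ω).index * p ^ k' = p ^ k := by
    rw [← hk', ← hωS, Subgroup.index_mul_card, hω]
  have hidx1 : 1 < (St.subgroupOf ω).index := by
    refine Subgroup.one_lt_index_of_ne_top fun h => hx ?_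
    have hm : (⟨b, show b ^ p = 1 by rw [← hb]; exact pow_orderOf_eq_one b⟩ : ω) ∈ St.subgroupOf ω := by
      rw [h]; exact Subgroup.mem_top _
    exact hm
  have hkk : k' < k := by
    by_contra hh
    have := Nat.pow_le_pow_right hp.pos (not_lt.1 hh)
    nlinarith [pow_pos hp.pos k']
  have hd : k - k' ≤ a := by
    by_contra hh
    have h1 : p ^ a * p ^ k' < p ^ k := by
      rw [← pow_add]; exact Nat.pow_lt_pow_right hp.one_lt (by omega)
    nlinarith [pow_pos hp.pos k']
  refine ⟨p ^ (a - (k - k') + 1) :: (List.replicate (k - k' - 1) p ++ l), ?_, ?_, ?_⟩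
  · simp [hl1]; omega
  · have hsub : moved S ⊆ moved B \ (MulAction.orbit B x).toFinite.toFinset := by
      intro y hy
      simp only [moved, Finset.mem_filter, Finset.mem_univ, true_and] at hy
      obtain ⟨s, hs, hsy⟩ := hy
      rw [Finset.mem_sdiff, Set.Finite.mem_toFinset]
      refine ⟨by simp only [moved, Finset.mem_filter, Finset.mem_univ, true_and]; exact ⟨s, hs.1, hsy⟩, ?_⟩
      rintro ⟨u, rfl⟩
      apply hsy
      have hcomm := congrArg Subtype.val (hab.is_comm.comm ⟨s, hs.1⟩ u)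
      calc s ((u : Equiv.Perm Ω) x) = (s * (u : Equiv.Perm Ω)) x := rfl
        _ = ((u : Equiv.Perm Ω) * s) x := by rw [show s * (u : Equiv.Perm Ω) = _ from hcomm]; rfl
        _ = (u : Equiv.Perm Ω) x := congrArg (u : Equiv.Perm Ω) hs.2
    have hsub2 : (MulAction.orbit B x).toFinite.toFinset ⊆ moved B := by
      intro y hy
      rw [Set.Finite.mem_toFinset] at hy
      obtain ⟨u, rfl⟩ := hy
      simp only [moved, Finset.mem_filter, Finset.mem_univ, true_and]
      refine ⟨b, b.2, fun h => hx ?_⟩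
      have hcomm := congrArg Subtype.val (hab.is_comm.comm u b)
      refine (u : Equiv.Perm Ω).injective ?_
      calc (u : Equiv.Perm Ω) ((b : Equiv.Perm Ω) x) = ((u : Equiv.Perm Ω) * b) x := rfl
        _ = ((b : Equiv.Perm Ω) * u) x := by rw [show (u : Equiv.Perm Ω) * b = _ from hcomm]; rfl
        _ = (u : Equiv.Perm Ω) x := h
    have hcard := Finset.card_le_card hsub
    rw [Finset.card_sdiff_of_subset hsub2, ← Set.ncard_eq_toFinset_card, ← Nat.card_coe_set_eq, ha] at hcard
    have hle := Finset.card_le_card hsub2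
    rw [← Set.ncard_eq_toFinset_card, ← Nat.card_coe_set_eq, ha] at hle
    have hs := split hp.two_le (k - k' - 1) (a - (k - k') + 1) (by omega)
    rw [show a - (k - k') + 1 + (k - k' - 1) = a by omega] at hs
    simp only [List.sum_cons, List.sum_append, List.sum_replicate, smul_eq_mul]
    omega
  · rw [List.prod_cons, List.prod_append, List.prod_replicate, ← mul_assoc, ← pow_add,
      show a - (k - k') + 1 + (k - k' - 1) = a by omega, ← ha, ← hSB]
    exact Nat.mul_le_mul_left _ hl3


/-- Let p be a prime, Ω a finite set with n ≥ p elements, and A an abelian p-subgroup of the symmetric group on Ω whose elements of order dividing p number p^k (so k is the rank of A). Then |A| · k^k ≤ n^k, that is, |A| ≤ (n/k)^k. -/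
theorem result {Ω : Type*} [Fintype Ω] [DecidableEq Ω]
    (p : ℕ) (hp : p.Prime) (hn : p ≤ Fintype.card Ω) (A : Subgroup (Equiv.Perm Ω)) (hA : IsPGroup p A) (hab : IsMulCommutative A)
    (k : ℕ) (hk : Nat.card {x : A // x ^ p = 1} = p ^ k) :
    Nat.card A * k ^ k ≤ Fintype.card Ω ^ k := by
  classical
  haveI := Fact.mk hp
  obtain ⟨l, hl1, hl2, hl3⟩ := main _ A rfl hA hab k hk
  calc Nat.card A * k ^ k ≤ l.prod * l.length ^ l.length := by rw [hl1]; exact Nat.mul_le_mul_right _ hl3
    _ ≤ l.sum ^ l.length := amgm l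
    _ ≤ Fintype.card Ω ^ k := by
      rw [hl1]; exact Nat.pow_le_pow_left (hl2.trans (Finset.card_le_univ _)) k

end Cfsg.Agent.S3696
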