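import Cfsg.Statements.S3703
import Mathlib
import Cfsg.Agent.Lib.GroupB.SchurZassenhaus
import Cfsg.Agent.Lib.GroupB.FrobBasic

set_option autoImplicit false
set_option maxHeartbeats 1000000
open Cfsg

namespace Cfsg.Agent.S3703


section
open scoped IsMulCommutative
variable {G : Type*} [Group G] [Finite G]

/-- Averaging over a Frobenius group acting on an abelian subgroup. -/
theorem average (V F : Subgroup G) [IsMulCommutative V] (h : G) (e : ℕ) (he : 0 < e)
    (hhV : h ∈ Subgroup.normalizer (V : Set G)) (hFV : F ≤ Subgroup.normalizer (V : Set G))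
    (hhF : ∀ f ∈ F, h * f * h⁻¹ ∈ F) (hhe : h ^ e = 1)
    (hfree : ∀ i, 0 < i → i < e → ∀ f ∈ F, h ^ i * f = f * h ^ i → f = 1)
    (hpow : ∀ f ∈ F, ∀ v ∈ V, (h * f * v) ^ e = 1) (hcop : (Nat.card V).Coprime (Nat.card F)) :
    ∀ f ∈ F, ∀ v ∈ V, f * v = v * f := by
  classical
  have := Fintype.ofFinite F
  let Nm := Subgroup.normalizer (V : Set G)
  let c : Nm → V →* V := fun x =>
    { toFun := fun v => ⟨(x : G) * v * (x : G)⁻¹, (Subgroup.mem_normalizer_iff.mp x.2 v).mp v.2⟩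
      map_one' := Subtype.ext (by simp)
      map_mul' := fun a b => Subtype.ext (by simp [mul_assoc]) }
  have c_mul : ∀ (x y : Nm) (v : V), c (x * y) v = c x (c y v) := fun x y v => Subtype.ext (by
    show ((x : G) * y) * v * ((x : G) * y)⁻¹ = (x : G) * ((y : G) * v * (y : G)⁻¹) * (x : G)⁻¹
    group)
  have c_one : ∀ v : V, c 1 v = v := fun v => Subtype.ext (by simp [c])
  have powf : ∀ (g : Nm) (v : V) (n : ℕ), ((g : G) * v) ^ n =
      (g : G) ^ n * ((∏ i ∈ Finset.range n, c ((g ^ i)⁻¹) v : V) : G) := by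
    intro g v n
    induction n with
    | zero => simp
    | succ n ih =>
      rw [Finset.prod_range_succ', pow_zero, inv_one, c_one]
      have e1 : ∏ i ∈ Finset.range n, c ((g ^ (i + 1))⁻¹) v = c g⁻¹ (∏ i ∈ Finset.range n, c ((g ^ i)⁻¹) v) := by
        rw [map_prod]
        exact Finset.prod_congr rfl fun i _ => by rw [← c_mul, pow_succ, mul_inv_rev]
      rw [e1, Subgroup.coe_mul, pow_succ ((g : G) * v), ih]
      show _ = (g : G) ^ (n + 1) * (((g⁻¹ : Nm) : G) * _ * ((g⁻¹ : Nm) : G)⁻¹ * (v : G))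
      rw [Subgroup.coe_inv]
      group
  have hTr : ∀ (g : Nm), (∃ f ∈ F, (g : G) = h * f) → ∀ v : V, ∏ i ∈ Finset.range e, c ((g ^ i)⁻¹) v = 1 := by
    rintro g ⟨f, hf, hg⟩ v
    have h1 := powf g v e
    have h0 : (g : G) ^ e = 1 := by rw [hg, ← mul_one (h * f)]; exact hpow f hf 1 V.one_mem
    rw [hg] at h1 h0
    rw [hpow f hf v v.2, h0, one_mul] at h1
    exact Subtype.ext h1.symm
  have hi : ∀ f ∈ F, h⁻¹ * f * h ∈ F := by
    intro f hf
    have key : ∀ n : ℕ, h ^ n * f * (h ^ n)⁻¹ ∈ F := by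
      intro n
      induction n with
      | zero => simpa using hf
      | succ n ih =>
        rw [pow_succ', show h * h ^ n * f * (h * h ^ n)⁻¹ = h * (h ^ n * f * (h ^ n)⁻¹) * h⁻¹ by group]
        exact hhF _ ih
    have e' : h⁻¹ = h ^ (e - 1) := inv_eq_of_mul_eq_one_right (by rw [← pow_succ', Nat.sub_add_cancel he, hhe])
    have := key (e - 1)
    rwa [← e', inv_inv] at this
  have hiF : ∀ (i : ℕ) (k : F), h ^ i * (k : G) * (h ^ i)⁻¹ * (k : G)⁻¹ ∈ F := by
    intro i k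
    refine F.mul_mem ?_ (F.inv_mem k.2)
    induction i with
    | zero => simp [k.2]
    | succ n ih =>
      rw [pow_succ', show h * h ^ n * (k : G) * (h * h ^ n)⁻¹ = h * (h ^ n * k * (h ^ n)⁻¹) * h⁻¹ by group]
      exact hhF _ ih
  let hN : Nm := ⟨h, hhV⟩
  let kN : F → Nm := fun k => ⟨k, hFV k.2⟩
  intro f hf v₀ hv₀
  set v : V := ⟨v₀, hv₀⟩ with hv
  set S : V := ∏ k : F, c (kN k) v with hS
  have hconj : ∀ k : F, ∃ f' ∈ F, ((kN k * hN * (kN k)⁻¹ : Nm) : G) = h * f' := fun k =>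
    ⟨h⁻¹ * (k : G) * h * (k : G)⁻¹, F.mul_mem (hi k k.2) (F.inv_mem k.2), by
      show (k : G) * h * (k : G)⁻¹ = _; group⟩
  have htot : ∏ k : F, ∏ i ∈ Finset.range e, c (((kN k * hN * (kN k)⁻¹) ^ i)⁻¹) v = 1 :=
    Finset.prod_eq_one fun k _ => hTr _ (hconj k) v
  rw [Finset.prod_comm] at htot
  obtain ⟨m, rfl⟩ : ∃ m, e = m + 1 := ⟨e - 1, by omega⟩
  rw [Finset.prod_range_succ'] at htot
  have hS1 := hTr hN ⟨1, F.one_mem, (mul_one h).symm⟩ S
  rw [Finset.prod_range_succ', pow_zero, inv_one, c_one] at hS1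
  have hterm : ∀ i ∈ Finset.range m, ∏ k : F, c (((kN k * hN * (kN k)⁻¹) ^ (i + 1))⁻¹) v = c ((hN ^ (i + 1))⁻¹) S := by
    intro i hi'
    rw [hS, map_prod]
    have hψ : Function.Bijective (fun k : F => (⟨_, hiF (i + 1) k⟩ : F)) := by
      refine Finite.injective_iff_bijective.mp fun k k' ek => ?_
      have e1 : h ^ (i + 1) * (k : G) * (h ^ (i + 1))⁻¹ * (k : G)⁻¹ = h ^ (i + 1) * (k' : G) * (h ^ (i + 1))⁻¹ * (k' : G)⁻¹ :=
        congrArg Subtype.val ek
      have e2 := hfree (i + 1) (by omega) (by rw [Finset.mem_range] at hi'; omega) ((k' : G)⁻¹ * k) (F.mul_mem (F.inv_mem k'.2) k.2) (by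
        have e3 : (k : G) * (h ^ (i + 1))⁻¹ * (k : G)⁻¹ = (k' : G) * (h ^ (i + 1))⁻¹ * (k' : G)⁻¹ := by
          simp only [mul_assoc] at e1 ⊢; exact mul_left_cancel e1
        have e4 : (k' : G)⁻¹ * k * (h ^ (i + 1))⁻¹ = (h ^ (i + 1))⁻¹ * ((k' : G)⁻¹ * k) := by
          have := congrArg (fun t => (k' : G)⁻¹ * t * k) e3
          simpa [mul_assoc] using this
        exact ((show Commute ((k' : G)⁻¹ * k) (h ^ (i + 1))⁻¹ from e4).inv_right.symm.eq).trans (by rw [inv_inv]) |>.trans rfl |> fun q => by simpa using q)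
      exact Subtype.ext (inv_mul_eq_one.mp e2).symm
    refine Fintype.prod_bijective _ hψ _ _ fun k => ?_
    rw [← c_mul]
    refine congrArg (fun x => c x v) (Subtype.ext ?_)
    show (((k : G) * h * (k : G)⁻¹) ^ (i + 1))⁻¹ = (h ^ (i + 1))⁻¹ * (h ^ (i + 1) * (k : G) * (h ^ (i + 1))⁻¹ * (k : G)⁻¹)
    rw [conj_pow]; group
  rw [Finset.prod_congr rfl hterm] at htot
  simp only [pow_zero, inv_one, c_one, Finset.prod_const, Finset.card_univ] at htot
  have hvS : v ^ Fintype.card F = S := mul_left_cancel (htot.trans hS1.symm)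
  have hfix : c (kN ⟨f, hf⟩) S = S := by
    rw [hS, map_prod]
    refine Fintype.prod_equiv (Equiv.mulLeft (⟨f, hf⟩ : F)) _ _ fun k => ?_
    rw [← c_mul]; rfl
  rw [← hvS, map_pow] at hfix
  have hinj := (powCoprime (G := V) (n := Fintype.card F) (by rw [← Nat.card_eq_fintype_card]; exact hcop)).injective hfix
  have := congrArg Subtype.val hinj
  exact mul_inv_eq_iff_eq_mul.mp this

/-- Conjugacy of complements inside a subgroup. -/
theorem conj_compl (L : Subgroup G) (N : Subgroup G) [N.Normal] (A B : Subgroup G) (hA : A ≤ L) (hB : B ≤ L)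
    (hcop : (Nat.card N).Coprime (Nat.card A)) (hcard : Nat.card (N ⊓ L : Subgroup G) * Nat.card A = Nat.card L)
    (h12 : Nat.card B = Nat.card A) (hsol : Group.IsSolvable A) :
    ∃ a ∈ N ⊓ L, B = A.map (MulAut.conj a).toMonoidHom := by
  have eA := Nat.card_congr (Subgroup.subgroupOfEquivOfLe hA).toEquiv
  have eB := Nat.card_congr (Subgroup.subgroupOfEquivOfLe hB).toEquiv
  have eN : Nat.card (N.subgroupOf L) = Nat.card (N ⊓ L : Subgroup G) := by
    rw [← Subgroup.inf_subgroupOf_right]; exact Nat.card_congr (Subgroup.subgroupOfEquivOfLe inf_le_right).toEquiv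
  obtain ⟨⟨a, haL⟩, ha, hab⟩ := CfsgLib.GroupB.SchurZassenhaus.exists_conj (N.subgroupOf L) (A.subgroupOf L) (B.subgroupOf L)
    (by rw [eN, eA]; exact hcop.coprime_dvd_left (Subgroup.card_dvd_of_le inf_le_left)) (by rw [eN, eA, hcard]) (by rw [eA, eB, h12])
    (Or.inr (solvable_of_solvable_injective (f := (Subgroup.subgroupOfEquivOfLe hA).toMonoidHom) (Subgroup.subgroupOfEquivOfLe hA).injective))
  refine ⟨a, ⟨ha, haL⟩, Subgroup.ext fun b => ⟨fun hb => ?_, ?_⟩⟩
  · have hm : (⟨b, hB hb⟩ : L) ∈ B.subgroupOf L := hb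
    rw [hab] at hm
    obtain ⟨y, hy, hye⟩ := hm
    exact ⟨y, hy, congrArg Subtype.val hye⟩
  · rintro ⟨y, hy, rfl⟩
    have hm : MulAut.conj (⟨a, haL⟩ : L) ⟨y, hA hy⟩ ∈ B.subgroupOf L := by
      rw [hab]; exact ⟨⟨y, hA hy⟩, hy, rfl⟩
    exact hm

end


/-- Let N be a normal subgroup of the finite group G such that G/N is a Frobenius group with kernel F and cyclic complement H, where the order of F is coprime to that of N and F is not contained in the image of C_G(N) in G/N. Then G has an element of order p·#H for some prime p dividing the order of N. (A standard tool in recognising groups by their element orders.) -/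
theorem result {G : Type*} [Group G] [Finite G] (N : Subgroup G) [N.Normal]
    (Fb Hb : Subgroup (G ⧸ N)) [Fb.Normal] (hHb : Cfsg.IsFrobeniusComplement Hb) (hker : Cfsg.frobeniusKernel Hb = (Fb : Set (G ⧸ N)))
    (hcyc : IsCyclic Hb) (hcop : (Nat.card Fb).Coprime (Nat.card N))
    (hnot : ¬ Fb ≤ (Subgroup.centralizer (N : Set G)).map (QuotientGroup.mk' N)) :
    ∃ p : ℕ, p.Prime ∧ p ∣ Nat.card N ∧ ∃ g : G, orderOf g = p * Nat.card Hb := by
  classical
  set π := QuotientGroup.mk' N with hπ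
  have hπs := QuotientGroup.mk'_surjective N
  have hkerπ : ∀ g : G, π g = 1 ↔ g ∈ N := fun g => QuotientGroup.eq_one_iff g
  obtain ⟨K, hK, -, hKc⟩ := CfsgLib.GroupB.Frobenius.exists_kernel_subgroup hHb
  have hKF : K = Fb := SetLike.coe_injective (hK.trans hker)
  have hdisj : Fb ⊓ Hb = ⊥ := (hKF ▸ hKc).disjoint.eq_bot
  have := CfsgLib.GroupB.FrobBasic.isNilpotent_kernel hHb Fb (hKF ▸ hKc)
  have hFsol : Group.IsSolvable Fb := inferInstance
  obtain ⟨⟨x, hx⟩, hgen⟩ := hcyc.exists_generator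
  set e := Nat.card Hb with he'
  have hxe : orderOf x = e := by
    rw [← Subgroup.orderOf_mk x hx]; exact orderOf_eq_card_of_forall_mem_zpowers hgen
  have he1 : 0 < e := Nat.card_pos
  by_contra hcon
  push Not at hcon
  have hall : ∀ g : G, orderOf (π g) = e → g ^ e = 1 := by
    intro g hg
    obtain ⟨u, hu⟩ : e ∣ orderOf g := hg ▸ orderOf_map_dvd π g
    by_contra hne
    have hu1 : u ≠ 1 := fun h => hne (by rw [h, mul_one] at hu; rw [← hu, pow_orderOf_eq_one])
    have hpp := Nat.minFac_prime hu1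
    obtain ⟨w, hw⟩ := Nat.minFac_dvd u
    have hpN : u.minFac ∣ Nat.card N := by
      refine (Nat.minFac_dvd u).trans ?_
      have hgN : g ^ e ∈ N := (hkerπ _).mp (by rw [map_pow, ← hg, pow_orderOf_eq_one])
      have ho : orderOf (g ^ e) = u := by
        rw [orderOf_pow_of_dvd he1.ne' (hu ▸ Dvd.intro u rfl), hu, Nat.mul_div_cancel_left _ he1]
      exact ho ▸ Subgroup.orderOf_dvd_natCard N hgN
    have h0 : 0 < orderOf g := orderOf_pos g
    refine hcon u.minFac hpp hpN (g ^ w) ?_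
    have hwd : w ∣ orderOf g := by rw [hu, hw, ← mul_assoc]; exact Dvd.intro_left _ rfl
    have hw0 : 0 < w := Nat.pos_of_dvd_of_pos hwd h0
    rw [orderOf_pow_of_dvd hw0.ne' hwd, hu]
    conv_lhs => rw [hw, ← mul_assoc, Nat.mul_div_cancel _ hw0]
    exact mul_comm _ _
  -- some complement centralises a given Sylow subgroup
  set L₀ := Fb.comap π with hL₀
  have hNL₀ : N ≤ L₀ := fun n hn => by show π n ∈ Fb; rw [(hkerπ n).mpr hn]; exact Fb.one_mem
  have cover : ∀ (L : Subgroup G), L ≤ L₀ → (∀ y ∈ Fb, ∃ l ∈ L, π l = y) →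
      ∃ A : Subgroup G, A ≤ L ∧ Nat.card A = Nat.card Fb ∧ Nat.card (N ⊓ L : Subgroup G) * Nat.card A = Nat.card L ∧
        (∀ y ∈ Fb, ∃ l ∈ A, π l = y) := by
    intro L hL hsur
    let φ : L →* Fb :=
      { toFun := fun l => ⟨π l, hL l.2⟩, map_one' := Subtype.ext (map_one π), map_mul' := fun a b => Subtype.ext (map_mul π _ _) }
    have hφ : Function.Surjective φ := fun y => by
      obtain ⟨l, hl, hly⟩ := hsur y y.2
      exact ⟨⟨l, hl⟩, Subtype.ext hly⟩
    have hkerφ : φ.ker = N.subgroupOf L := by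
      ext l; rw [MonoidHom.mem_ker, Subgroup.mem_subgroupOf, ← hkerπ]; exact Subtype.ext_iff
    have hidx : (N.subgroupOf L).index = Nat.card Fb := by
      rw [← hkerφ, Subgroup.index_eq_card]; exact Nat.card_congr (QuotientGroup.quotientKerEquivOfSurjective φ hφ).toEquiv
    have eN : Nat.card (N.subgroupOf L) = Nat.card (N ⊓ L : Subgroup G) := by
      rw [← Subgroup.inf_subgroupOf_right]; exact Nat.card_congr (Subgroup.subgroupOfEquivOfLe inf_le_right).toEquiv
    obtain ⟨A, hA⟩ := Subgroup.exists_right_complement'_of_coprime (N := N.subgroupOf L) (by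
      rw [hidx, eN]; exact hcop.symm.coprime_dvd_left (Subgroup.card_dvd_of_le inf_le_left))
    have hcA : Nat.card (A.map L.subtype) = Nat.card Fb := by
      rw [Subgroup.card_map_of_injective L.subtype_injective, ← hA.symm.index_eq_card, hidx]
    refine ⟨A.map L.subtype, Subgroup.map_subtype_le A, hcA, ?_, ?_⟩
    · rw [hcA, ← eN, ← hidx, mul_comm, Subgroup.index_mul_card]
    · intro y hy
      obtain ⟨⟨l, hl⟩, hly⟩ := hφ ⟨y, hy⟩
      obtain ⟨⟨n, a⟩, hna⟩ := hA.2 ⟨l, hl⟩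
      refine ⟨((a : L) : G), ⟨a, a.2, rfl⟩, ?_⟩
      have e1 : ((n : L) : G) * ((a : L) : G) = l := congrArg Subtype.val hna
      have e2 : π l = y := congrArg Subtype.val hly
      rw [← e2, ← e1, map_mul, (hkerπ ((n : L) : G)).mpr n.2, one_mul]
  have key : ∀ (p : ℕ) [Fact p.Prime] (P : Sylow p N), ∃ A : Subgroup G, A ≤ L₀ ∧ Nat.card A = Nat.card Fb ∧
      ∀ a ∈ A, ∀ u ∈ (P : Subgroup N).map N.subtype, a * u = u * a := by
    intro p _ P
    set PG := (P : Subgroup N).map N.subtype with hPG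
    set M := Subgroup.normalizer (PG : Set G) with hM
    have hMsur : ∀ y : G ⧸ N, ∃ m ∈ M, π m = y := by
      intro y
      obtain ⟨g, rfl⟩ := hπs y
      have : g ∈ M ⊔ N := (Sylow.normalizer_sup_eq_top P).ge (Subgroup.mem_top g)
      rw [← SetLike.mem_coe, Subgroup.mul_normal] at this
      obtain ⟨m, hm, n, hn, rfl⟩ := this
      exact ⟨m, hm, by rw [map_mul, (hkerπ n).mpr hn, mul_one]⟩
    obtain ⟨A, hA, hAc, hAeq, hAsur⟩ := cover (L₀ ⊓ M) inf_le_left fun y hy => by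
      obtain ⟨m, hm, rfl⟩ := hMsur y; exact ⟨m, ⟨hy, hm⟩, rfl⟩
    have hAN : ∀ a ∈ A, π a = 1 → a = 1 := by
      intro a ha h1
      have h2 : orderOf a ∣ Nat.gcd (Nat.card Fb) (Nat.card N) :=
        Nat.dvd_gcd (hAc ▸ Subgroup.orderOf_dvd_natCard A ha) (Subgroup.orderOf_dvd_natCard N ((hkerπ a).mp h1))
      rwa [hcop.gcd_eq_one, Nat.dvd_one, orderOf_eq_one_iff] at h2
    have hAsol : Group.IsSolvable A := by
      let φ : A →* Fb := { toFun := fun a => ⟨π a, inf_le_left (α := Subgroup G) (hA a.2)⟩, map_one' := Subtype.ext (map_one π), map_mul' := fun a b => Subtype.ext (map_mul π _ _) }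
      exact solvable_of_solvable_injective (f := φ) ((injective_iff_map_eq_one φ).mpr fun a h =>
        Subtype.ext (hAN a a.2 (congrArg Subtype.val h)))
    -- an element inducing the generator and normalising everything
    obtain ⟨m, hm, hmx⟩ := hMsur x
    have hB : A.map (MulAut.conj m).toMonoidHom ≤ L₀ ⊓ M := by
      rintro _ ⟨a, ha, rfl⟩
      refine ⟨?_, M.mul_mem (M.mul_mem hm (hA ha).2) (M.inv_mem hm)⟩
      show π (m * a * m⁻¹) ∈ Fb
      rw [map_mul, map_mul, map_inv]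
      exact Subgroup.Normal.conj_mem ‹Fb.Normal› _ (hA ha).1 _
    obtain ⟨a₀, ha₀, hab⟩ := conj_compl (L₀ ⊓ M) N A (A.map (MulAut.conj m).toMonoidHom) hA hB
      (hAc ▸ hcop.symm) hAeq (Subgroup.card_map_of_injective (MulAut.conj m).injective) hAsol
    set h := a₀⁻¹ * m with hh
    have hhx : π h = x := by rw [hh, map_mul, map_inv, (hkerπ a₀).mpr ha₀.1, inv_one, one_mul, hmx]
    have hhM : h ∈ M := M.mul_mem (M.inv_mem ha₀.2.2) hm
    have hhA : ∀ a ∈ A, h * a * h⁻¹ ∈ A := by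
      intro a ha
      have : m * a * m⁻¹ ∈ A.map (MulAut.conj a₀).toMonoidHom := hab ▸ ⟨a, ha, rfl⟩
      obtain ⟨b, hb, hbe⟩ := this
      have hbe' : a₀ * b * a₀⁻¹ = m * a * m⁻¹ := hbe
      have : h * a * h⁻¹ = b := by
        rw [hh, show a₀⁻¹ * m * a * (a₀⁻¹ * m)⁻¹ = a₀⁻¹ * (m * a * m⁻¹) * a₀ by group, ← hbe']; group
      rw [this]; exact hb
    have hfree : ∀ i, 0 < i → i < e → ∀ f ∈ A, h ^ i * f = f * h ^ i → f = 1 := by
      intro i h0 hi f hf hc
      refine hAN f hf (CfsgLib.GroupB.Frobenius.eq_one_of_commute hHb hdisj (Hb.pow_mem hx i) ?_ (hA hf).1 ?_)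
      · exact pow_ne_one_of_lt_orderOf h0.ne' (hxe.symm ▸ hi)
      · rw [← hhx, ← map_pow, ← map_mul, hc, map_mul]
    have hord : ∀ f ∈ A, ∀ v ∈ PG, orderOf (π (h * f * v)) = e := by
      intro f hf v hv
      have hvN : π v = 1 := (hkerπ v).mpr (Subgroup.map_subtype_le _ hv)
      rw [map_mul, map_mul, hvN, mul_one, hhx]
      -- a conjugate of the generator
      have hxi : ∀ k : Fb, x⁻¹ * (k : G ⧸ N) * x * (k : G ⧸ N)⁻¹ ∈ Fb := fun k => Fb.mul_mem (by
        have := Subgroup.Normal.conj_mem ‹Fb.Normal› _ k.2 x⁻¹; rwa [inv_inv] at this) (Fb.inv_mem k.2)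
      have hbij : Function.Surjective (fun k : Fb => (⟨_, hxi k⟩ : Fb)) := by
        refine Finite.injective_iff_surjective.mp fun k k' ek => ?_
        have e1 : x⁻¹ * (k : G ⧸ N) * x * (k : G ⧸ N)⁻¹ = x⁻¹ * (k' : G ⧸ N) * x * (k' : G ⧸ N)⁻¹ := congrArg Subtype.val ek
        have e2 : x * ((k' : G ⧸ N)⁻¹ * k) = ((k' : G ⧸ N)⁻¹ * k) * x := by
          simp only [mul_assoc] at e1
          have e3 := congrArg (fun t => (k' : G ⧸ N)⁻¹ * t * k) (mul_left_cancel e1)
          simpa [mul_assoc] using e3.symm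
        by_cases hx1 : x = 1
        · exfalso
          have : Hb = ⊥ := by
            rw [← Subgroup.card_eq_one, ← he', ← hxe, hx1, orderOf_one]
          exact hHb.1 this
        exact Subtype.ext (inv_mul_eq_one.mp (CfsgLib.GroupB.Frobenius.eq_one_of_commute hHb hdisj hx hx1
          (Fb.mul_mem (Fb.inv_mem k'.2) k.2) e2)).symm
      obtain ⟨k, hk⟩ := hbij ⟨π f, (hA hf).1⟩
      have hk' : x⁻¹ * (k : G ⧸ N) * x * (k : G ⧸ N)⁻¹ = π f := congrArg Subtype.val hk
      rw [← hk', show x * (x⁻¹ * (k : G ⧸ N) * x * (k : G ⧸ N)⁻¹) = (k : G ⧸ N) * x * (k : G ⧸ N)⁻¹ by group, ← hxe]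
      exact SemiconjBy.orderOf_eq (k : G ⧸ N)⁻¹ (by show (k : G ⧸ N)⁻¹ * ((k : G ⧸ N) * x * (k : G ⧸ N)⁻¹) = x * (k : G ⧸ N)⁻¹; group)
    refine ⟨A, hA.trans inf_le_left, hAc, ?_⟩
    have hP : IsPGroup p PG := P.2.map _
    set C := PG ⊓ Subgroup.centralizer (A : Set G) with hC
    suffices hPC : PG ≤ C from fun a ha u hu => (hPC hu).2 a ha
    by_contra hne
    have hCP : C ≤ PG := inf_le_left
    have hlt : C.subgroupOf PG < ⊤ := lt_top_iff_ne_top.mpr fun h' => hne (Subgroup.subgroupOf_eq_top.mp h')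
    have : Group.IsNilpotent PG := hP.isNilpotent
    obtain ⟨⟨q₀, hq₀⟩, hq₀n, hq₀C⟩ := SetLike.exists_of_lt (Group.normalizerCondition_of_isNilpotent _ hlt)
    set R := Subgroup.normalizer (C : Set G) with hR
    set Q := PG ⊓ R with hQ
    have hq₀Q : q₀ ∈ Q := ⟨hq₀, by
      show q₀ ∈ R
      rw [hR, Subgroup.mem_normalizer_iff]
      intro c
      constructor
      · intro hc
        exact (Subgroup.mem_normalizer_iff.mp hq₀n ⟨c, hCP hc⟩).mp hc
      · intro hc
        have hcP : c ∈ PG := by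
          have := PG.mul_mem (PG.mul_mem (PG.inv_mem hq₀) (hCP hc)) hq₀
          rwa [show q₀⁻¹ * (q₀ * c * q₀⁻¹) * q₀ = c by group] at this
        exact (Subgroup.mem_normalizer_iff.mp hq₀n ⟨c, hcP⟩).mpr hc⟩
    have hnorm : ∀ g ∈ M, (∀ a ∈ A, g⁻¹ * a * g ∈ A) → g ∈ R := by
      intro g hg hgA
      rw [hR, Subgroup.mem_normalizer_iff]
      have fwd : ∀ c ∈ C, g * c * g⁻¹ ∈ C := fun c hc => ⟨(Subgroup.mem_normalizer_iff.mp hg c).mp hc.1, fun a ha => by
        have := hc.2 _ (hgA a ha)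
        calc a * (g * c * g⁻¹) = g * ((g⁻¹ * a * g) * c) * g⁻¹ := by group
          _ = g * (c * (g⁻¹ * a * g)) * g⁻¹ := by rw [this]
          _ = _ := by group⟩
      have hb : Function.Surjective (fun c : C => (⟨_, fwd c c.2⟩ : C)) :=
        Finite.injective_iff_surjective.mp fun c c' ec => Subtype.ext (MulAut.conj g |>.injective (congrArg Subtype.val ec))
      intro c
      refine ⟨fwd c, fun hc => ?_⟩
      obtain ⟨d, hd⟩ := hb ⟨_, hc⟩
      have : g * (d : G) * g⁻¹ = g * c * g⁻¹ := congrArg Subtype.val hd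
      rw [← (MulAut.conj g).injective this]; exact d.2
    have hAR : A ≤ R := fun a ha => hnorm a (hA ha).2 fun b hb => A.mul_mem (A.mul_mem (A.inv_mem ha) hb) ha
    have hhe : h ^ e = 1 := hall h (by rw [hhx, hxe])
    have hhR : h ∈ R := by
      refine hnorm h hhM fun a ha => ?_
      have hsur : Function.Surjective (fun b : A => (⟨_, hhA b b.2⟩ : A)) :=
        Finite.injective_iff_surjective.mp fun b b' eb => Subtype.ext (MulAut.conj h |>.injective (congrArg Subtype.val eb))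
      obtain ⟨b, hb⟩ := hsur ⟨a, ha⟩
      have hb' : h * (b : G) * h⁻¹ = a := congrArg Subtype.val hb
      rw [← hb', show h⁻¹ * (h * (b : G) * h⁻¹) * h = b by group]; exact b.2
    have hQM : ∀ g ∈ R, g ∈ M → ∀ q ∈ Q, g * q * g⁻¹ ∈ Q := fun g hg hgM q hq =>
      ⟨(Subgroup.mem_normalizer_iff.mp hgM q).mp hq.1, R.mul_mem (R.mul_mem hg hq.2) (R.inv_mem hg)⟩
    let CR := C.subgroupOf R
    have hCRn : CR.Normal := Subgroup.normal_subgroupOf_of_le_normalizer le_rfl
    let π₂ := QuotientGroup.mk' CR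
    set Qb := (Q.subgroupOf R).map π₂ with hQb
    have hQp : IsPGroup p Qb := by
      refine IsPGroup.map ?_ _
      exact (hP.to_le (inf_le_left : Q ≤ PG)).comap_of_injective _ R.subtype_injective
    have hQne : Nontrivial Qb := by
      rw [Subgroup.nontrivial_iff_ne_bot]
      intro h'
      rw [hQb, Subgroup.map_eq_bot_iff, QuotientGroup.ker_mk'] at h'
      exact hq₀C (Subgroup.mem_subgroupOf.mpr (h' (show (⟨q₀, hq₀Q.2⟩ : R) ∈ Q.subgroupOf R from hq₀Q)))
    have := hQp.center_nontrivial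
    set W := (Subgroup.center Qb).map Qb.subtype with hW
    have hWc : IsMulCommutative W := Subgroup.map_isMulCommutative _ _
    have hWn : ∀ g : R, (g : G) ∈ M → π₂ g ∈ Subgroup.normalizer (W : Set (R ⧸ CR)) := by
      intro g hgM
      have fwd : ∀ y ∈ Qb, π₂ g * y * (π₂ g)⁻¹ ∈ Qb := by
        rintro _ ⟨q, hq, rfl⟩
        exact ⟨g * q * g⁻¹, hQM g g.2 hgM q hq, by rw [map_mul, map_mul, map_inv]⟩
      have hbij : ∀ y ∈ Qb, ∃ z ∈ Qb, π₂ g * z * (π₂ g)⁻¹ = y := by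
        intro y hy
        obtain ⟨⟨z, hz⟩, hze⟩ := (Finite.injective_iff_surjective.mp fun a b eab =>
          Subtype.ext ((MulAut.conj (π₂ g)).injective (congrArg Subtype.val eab)) :
          Function.Surjective (fun z : Qb => (⟨_, fwd z z.2⟩ : Qb))) ⟨y, hy⟩
        exact ⟨z, hz, congrArg Subtype.val hze⟩
      have fw : ∀ w ∈ W, π₂ g * w * (π₂ g)⁻¹ ∈ W := by
        rintro _ ⟨⟨w, hw⟩, hwc, rfl⟩
        refine ⟨⟨_, fwd w hw⟩, Subgroup.mem_center_iff.mpr fun y => Subtype.ext ?_, rfl⟩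
        obtain ⟨z, hz, hze⟩ := hbij y y.2
        have := congrArg Subtype.val (Subgroup.mem_center_iff.mp hwc ⟨z, hz⟩)
        show (y : R ⧸ CR) * (π₂ g * w * (π₂ g)⁻¹) = π₂ g * w * (π₂ g)⁻¹ * y
        have this' : z * w = w * z := this
        rw [← hze, show π₂ g * z * (π₂ g)⁻¹ * (π₂ g * w * (π₂ g)⁻¹) = π₂ g * (z * w) * (π₂ g)⁻¹ by group, this']
        group
      rw [Subgroup.mem_normalizer_iff]
      intro w
      refine ⟨fw w, fun hw => ?_⟩
      have hs : Function.Surjective (fun z : W => (⟨_, fw z z.2⟩ : W)) := Finite.injective_iff_surjective.mp fun a b eab =>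
        Subtype.ext ((MulAut.conj (π₂ g)).injective (congrArg Subtype.val eab))
      obtain ⟨⟨z, hz⟩, hze⟩ := hs ⟨_, hw⟩
      rw [← (MulAut.conj (π₂ g)).injective (congrArg Subtype.val hze)]; exact hz
    have hcopA : (Nat.card PG).Coprime (Nat.card A) := by
      rw [hAc]; exact hcop.symm.coprime_dvd_left (Subgroup.card_dvd_of_le (Subgroup.map_subtype_le _))
    have hcopW : (Nat.card W).Coprime (Nat.card ((A.subgroupOf R).map π₂)) := by
      refine (hcopA.coprime_dvd_left ?_).coprime_dvd_right ?_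
      · refine (Subgroup.card_dvd_of_le (Subgroup.map_subtype_le _)).trans ((Subgroup.card_map_dvd _ _).trans ?_)
        rw [Nat.card_congr (Subgroup.subgroupOfEquivOfLe (inf_le_right : Q ≤ R)).toEquiv]
        exact Subgroup.card_dvd_of_le inf_le_left
      · refine (Subgroup.card_map_dvd _ _).trans ?_
        rw [Nat.card_congr (Subgroup.subgroupOfEquivOfLe hAR).toEquiv]
    have := average W ((A.subgroupOf R).map π₂) (π₂ ⟨h, hhR⟩) e he1 (hWn _ hhM)
      (by rintro _ ⟨a, ha, rfl⟩; exact hWn a (hA (Subgroup.mem_subgroupOf.mp ha)).2)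
      (by
        rintro _ ⟨a, ha, rfl⟩
        exact ⟨⟨h, hhR⟩ * a * ⟨h, hhR⟩⁻¹, hhA a ha, by rw [map_mul, map_mul, map_inv]⟩)
      (by rw [← map_pow, show (⟨h, hhR⟩ : R) ^ e = 1 from Subtype.ext hhe, map_one])
      (by
        rintro i h0 hi _ ⟨a, ha, rfl⟩ hc
        rw [← map_pow, ← map_mul, ← map_mul] at hc
        have h1 : ((⟨h, hhR⟩ : R) ^ i * a)⁻¹ * (a * (⟨h, hhR⟩ : R) ^ i) ∈ CR := QuotientGroup.eq.mp hc
        have haA : (a : G) ∈ A := ha
        have hhi : h ^ i * (a : G) * (h ^ i)⁻¹ ∈ A := by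
          clear h1 hc h0 hi
          induction i with
          | zero => simpa using haA
          | succ n ih => rw [pow_succ', show h * h ^ n * (a : G) * (h * h ^ n)⁻¹ = h * (h ^ n * a * (h ^ n)⁻¹) * h⁻¹ by group]; exact hhA _ ih
        have h2 : (h ^ i * (a : G))⁻¹ * ((a : G) * h ^ i) ∈ C := h1
        have h3 : h ^ i * ((h ^ i * (a : G))⁻¹ * ((a : G) * h ^ i)) * (h ^ i)⁻¹ ∈ C :=
          (Subgroup.mem_normalizer_iff.mp (R.pow_mem hhR i) _).mp h2
        rw [show h ^ i * ((h ^ i * (a : G))⁻¹ * ((a : G) * h ^ i)) * (h ^ i)⁻¹ = (h ^ i * (a : G) * (h ^ i)⁻¹)⁻¹ * (a : G) by group] at h3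
        have h4 : orderOf ((h ^ i * (a : G) * (h ^ i)⁻¹)⁻¹ * (a : G)) ∣ Nat.gcd (Nat.card PG) (Nat.card A) :=
          Nat.dvd_gcd (Subgroup.orderOf_dvd_natCard _ h3.1) (Subgroup.orderOf_dvd_natCard _ (A.mul_mem (A.inv_mem hhi) haA))
        rw [hcopA.gcd_eq_one, Nat.dvd_one, orderOf_eq_one_iff, inv_mul_eq_one, mul_inv_eq_iff_eq_mul] at h4
        rw [show a = 1 from Subtype.ext (hfree i h0 hi _ haA h4), map_one])
      (by
        rintro _ ⟨a, ha, rfl⟩ v hv
        obtain ⟨⟨v', ⟨q, hq, rfl⟩⟩, -, rfl⟩ := hv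
        show (π₂ ⟨h, hhR⟩ * π₂ a * π₂ q) ^ e = 1
        rw [← map_mul, ← map_mul, ← map_pow, show ((⟨h, hhR⟩ : R) * a * q) ^ e = 1 from
          Subtype.ext (hall _ (hord a ha q hq.1)), map_one])
      hcopW
    obtain ⟨⟨⟨w, hw⟩, hwc⟩, hw1⟩ := exists_ne (1 : Subgroup.center Qb)
    obtain ⟨q, hq, hqw⟩ := hw
    apply hw1
    apply Subtype.ext; apply Subtype.ext
    show w = 1
    rw [← hqw]
    refine (QuotientGroup.eq_one_iff q).mpr ?_
    show (q : G) ∈ C
    refine ⟨(Subgroup.mem_subgroupOf.mp hq).1, fun a ha => ?_⟩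
    have h1 := this (π₂ ⟨a, hAR ha⟩) ⟨_, ha, rfl⟩ w ⟨⟨w, ⟨q, hq, hqw⟩⟩, hwc, rfl⟩
    rw [← hqw, ← map_mul, ← map_mul] at h1
    have h2' : (q * ⟨a, hAR ha⟩)⁻¹ * (⟨a, hAR ha⟩ * q) ∈ CR := by
      rw [← QuotientGroup.eq]; exact h1.symm
    have h2 : ((q : G) * a)⁻¹ * (a * (q : G)) ∈ C := h2'
    set d := ((q : G) * a)⁻¹ * (a * (q : G)) with hd
    have hda : Commute a d := h2.2 a ha
    have hstep : ∀ n : ℕ, a ^ n * (q : G) = (q : G) * a ^ n * d ^ n := by
      intro n
      induction n with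
      | zero => simp
      | succ n ih =>
        have e1 : a * (q : G) = (q : G) * a * d := by rw [hd]; group
        calc a ^ (n + 1) * (q : G) = a ^ n * (a * q) := by rw [pow_succ, mul_assoc]
          _ = a ^ n * q * (a * d) := by rw [e1]; group
          _ = (q : G) * a ^ n * (d ^ n * a * d) := by rw [ih]; group
          _ = (q : G) * a ^ n * (a * d ^ n * d) := by rw [(hda.pow_right n).eq]
          _ = _ := by rw [pow_succ, pow_succ]; group
    have h3 := hstep (orderOf a)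
    rw [pow_orderOf_eq_one, one_mul, mul_one, left_eq_mul] at h3
    have h4 : orderOf d ∣ Nat.gcd (Nat.card PG) (Nat.card A) := Nat.dvd_gcd (Subgroup.orderOf_dvd_natCard _ h2.1)
      ((orderOf_dvd_of_pow_eq_one h3).trans (Subgroup.orderOf_dvd_natCard _ ha))
    rw [hcopA.gcd_eq_one, Nat.dvd_one, orderOf_eq_one_iff, hd, inv_mul_eq_one] at h4
    exact h4.symm
  refine hnot ?_
  obtain ⟨A, hA, hAc, hAeq, hAsur⟩ := cover L₀ le_rfl fun y hy => by
    obtain ⟨g, rfl⟩ := hπs y; exact ⟨g, hy, rfl⟩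
  have hAN : ∀ a ∈ A, π a = 1 → a = 1 := by
    intro a ha h1
    have h2 : orderOf a ∣ Nat.gcd (Nat.card Fb) (Nat.card N) :=
      Nat.dvd_gcd (hAc ▸ Subgroup.orderOf_dvd_natCard A ha) (Subgroup.orderOf_dvd_natCard N ((hkerπ a).mp h1))
    rwa [hcop.gcd_eq_one, Nat.dvd_one, orderOf_eq_one_iff] at h2
  have hAsol : Group.IsSolvable A := by
    let φ : A →* Fb := { toFun := fun a => ⟨π a, hA a.2⟩, map_one' := Subtype.ext (map_one π), map_mul' := fun a b => Subtype.ext (map_mul π _ _) }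
    exact solvable_of_solvable_injective (f := φ) ((injective_iff_map_eq_one φ).mpr fun a h =>
      Subtype.ext (hAN a a.2 (congrArg Subtype.val h)))
  set D := N ⊓ Subgroup.centralizer (A : Set G) with hD
  have hDN : N ≤ D := by
    have hdvd : Nat.card N ∣ Nat.card D := by
      rw [Nat.dvd_iff_prime_pow_dvd_dvd]
      intro p k hp hk
      have := Fact.mk hp
      obtain ⟨P⟩ : Nonempty (Sylow p N) := inferInstance
      obtain ⟨B, hB, hBc, hBcomm⟩ := key p P
      obtain ⟨a, ha, hab⟩ := conj_compl L₀ N A B hA hB (hAc ▸ hcop.symm) hAeq (hBc.trans hAc.symm) hAsol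
      have hle : ((P : Subgroup N).map N.subtype).map (MulAut.conj a⁻¹).toMonoidHom ≤ D := by
        rintro _ ⟨u, hu, rfl⟩
        refine ⟨Subgroup.Normal.conj_mem ‹N.Normal› u (Subgroup.map_subtype_le _ hu) a⁻¹, fun c hc => ?_⟩
        have := hBcomm (a * c * a⁻¹) (hab ▸ ⟨c, hc, rfl⟩) u hu
        show c * (a⁻¹ * u * a⁻¹⁻¹) = a⁻¹ * u * a⁻¹⁻¹ * c
        calc c * (a⁻¹ * u * a⁻¹⁻¹) = a⁻¹ * ((a * c * a⁻¹) * u) * a := by group
          _ = a⁻¹ * (u * (a * c * a⁻¹)) * a := by rw [this]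
          _ = _ := by group
      refine dvd_trans ?_ (Subgroup.card_dvd_of_le hle)
      rw [Subgroup.card_map_of_injective (MulAut.conj a⁻¹).injective, Subgroup.card_map_of_injective N.subtype_injective,
        P.card_eq_multiplicity]
      exact pow_dvd_pow p ((hp.pow_dvd_iff_le_factorization Nat.card_pos.ne').mp hk)
    exact (Subgroup.eq_of_le_of_card_ge inf_le_left (Nat.le_of_dvd Nat.card_pos hdvd)).ge
  intro y hy
  obtain ⟨a, ha, rfl⟩ := hAsur y hy
  exact ⟨a, fun n hn => ((hDN hn).2 a ha).symm, rfl⟩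

end Cfsg.Agent.S3703
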