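import Cfsg.Statements.S3744
import Cfsg.Agent.Lib.GroupB.Hall

set_option autoImplicit false
open Cfsg

namespace Cfsg.Agent.S3744

open CfsgLib.GroupB

theorem piSep {G : Type*} [Group G] [Finite G] {p : ℕ} [hp : Fact p.Prime] (hG : Cfsg.IsPSolvable p G) :
    Hall.PiSep {q : ℕ | q ≠ p} G := by
  classical
  intro M hM hne
  obtain ⟨n, H, h0, hlast, hmono, hnorm, hfac⟩ := hG
  have hex : ∃ i : ℕ, ∃ h : i < n + 1, ¬ H ⟨i, h⟩ ≤ M :=
    ⟨n, Nat.lt_succ_self n, fun h => hne (top_le_iff.mp (hlast ▸ h))⟩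
  obtain ⟨hi, hnle⟩ := Nat.find_spec hex
  cases hj : Nat.find hex with
  | zero =>
    simp only [hj] at hnle
    exact absurd (h0.le.trans bot_le) (show ¬ H 0 ≤ M from hnle)
  | succ j =>
    simp only [hj] at hnle hi
    have hjle : H (Fin.castSucc ⟨j, by omega⟩) ≤ M := by
      by_contra h
      exact Nat.find_min hex (show j < Nat.find hex by omega) ⟨by omega, h⟩
    let i : Fin n := ⟨j, by omega⟩
    haveI := hnorm i.succ
    have hnle' : ¬ H i.succ ≤ M := hnle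
    have hd : M.relIndex (M ⊔ H i.succ) ∣ (H i.castSucc).relIndex (H i.succ) := by
      rw [Coprime.relIndex_sup_of_le_normalizer (by rw [Subgroup.normalizer_eq_top_iff.mpr hM]; exact le_top)]
      exact Subgroup.relIndex_dvd_of_le_left _ hjle
    refine ⟨M ⊔ H i.succ, inferInstance, lt_of_le_of_ne le_sup_left
      fun e => hnle' (e ▸ le_sup_right), ?_⟩
    rcases hfac i with ⟨m, hm⟩ | hc
    · rw [hm] at hd
      obtain ⟨m', -, hm'⟩ := (Nat.dvd_prime_pow hp.out).mp hd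
      refine Or.inr ⟨?_, ?_⟩
      · rw [hm']; exact Hall.isPiNum_prime_pow hp.out (by simp) m'
      · haveI : (M.subgroupOf (M ⊔ H i.succ)).Normal := hM.subgroupOf _
        have hpg : IsPGroup p (↥(M ⊔ H i.succ) ⧸ M.subgroupOf (M ⊔ H i.succ)) :=
          IsPGroup.of_card (n := m') hm'
        haveI := hpg.isNilpotent
        exact Hall.exists_derived_le inferInstance
    · refine Or.inl fun q hq hqd => ?_
      rintro rfl
      exact hq.not_dvd_one ((Nat.Coprime.coprime_dvd_left hd hc).gcd_eq_one ▸ Nat.dvd_gcd hqd dvd_rfl)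

theorem hall_iff {G : Type*} [Group G] [Finite G] {p : ℕ} [hp : Fact p.Prime] (H : Subgroup G) :
    ((Nat.card H).Coprime p ∧ ∃ n : ℕ, H.index = p ^ n) ↔ Cfsg.IsPiHall {q : ℕ | q ≠ p} H := by
  constructor
  · rintro ⟨h1, n, h2⟩
    refine ⟨fun q hq hd => ?_, fun q hq hne hd => hne ?_⟩
    · rintro rfl
      exact hq.not_dvd_one (h1.gcd_eq_one ▸ Nat.dvd_gcd hd dvd_rfl)
    · exact (Nat.prime_dvd_prime_iff_eq hq hp.out).mp (hq.dvd_of_dvd_pow (h2 ▸ hd))
  · rintro ⟨h1, h2⟩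
    refine ⟨((Nat.Prime.coprime_iff_not_dvd hp.out).mpr fun h => h1 p hp.out h rfl).symm,
      _, Nat.eq_prime_pow_of_unique_prime_dvd Subgroup.index_ne_zero_of_finite fun {q} hq hd =>
        by_contra fun hne => h2 q hq hne hd⟩

/-- A finite p-soluble group has a p-complement, all its p-complements are conjugate, and every subgroup of order prime to p lies in one of them. Here a p-complement is a subgroup of order prime to p whose index is a power of p. -/
theorem result {G : Type*} [Group G] [Finite G] {p : ℕ} [Fact p.Prime] (hG : Cfsg.IsPSolvable p G) : (∃ H : Subgroup G, (Nat.card H).Coprime p ∧ ∃ n : ℕ, H.index = p ^ n) ∧ (∀ H₁ H₂ : Subgroup G, (Nat.card H₁).Coprime p → (∃ n : ℕ, H₁.index = p ^ n) → (Nat.card H₂).Coprime p → (∃ n : ℕ, H₂.index = p ^ n) → ∃ g : G, H₂ = H₁.map (MulAut.conj g).toMonoidHom) ∧ (∀ U : Subgroup G, (Nat.card U).Coprime p → ∃ H : Subgroup G, (Nat.card H).Coprime p ∧ (∃ n : ℕ, H.index = p ^ n)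 ∧ ∃ g : G, U.map (MulAut.conj g).toMonoidHom ≤ H) := by
  have hP := piSep hG
  refine ⟨?_, fun H₁ H₂ a b c d => ?_, fun U hU => ?_⟩
  · obtain ⟨H, hH⟩ := CfsgLib.GroupB.Hall.exists_isPiHall hP
    exact ⟨H, (hall_iff H).mpr hH⟩
  · obtain ⟨g, hg⟩ := CfsgLib.GroupB.Hall.exists_conj_eq hP ((hall_iff H₁).mp ⟨a, b⟩) ((hall_iff H₂).mp ⟨c, d⟩)
    exact ⟨g, hg.symm⟩
  · obtain ⟨H, hH⟩ := CfsgLib.GroupB.Hall.exists_isPiHall hP
    have hU' : CfsgLib.GroupB.Hall.IsPiNum {q : ℕ | q ≠ p} (Nat.card U) := by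
      intro q hq hd
      rintro rfl
      exact hq.not_dvd_one (hU.gcd_eq_one ▸ Nat.dvd_gcd hd dvd_rfl)
    obtain ⟨g, hg⟩ := CfsgLib.GroupB.Hall.exists_conj_le hP hH hU'
    exact ⟨H, ((hall_iff H).mpr hH).1, ((hall_iff H).mpr hH).2, g, hg⟩

end Cfsg.Agent.S3744
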