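import Cfsg.Statements.S3802
import Cfsg.Agent.Lib.GroupB.Subnormal

set_option autoImplicit false
open Cfsg

namespace Cfsg.Agent.S3802

/-- Let G be a finite group, M a maximal subgroup of G and N a subnormal subgroup of G contained in M. Then N is contained in every conjugate of M, that is, N lies in the core of M in G. -/
theorem result {G : Type*} [Group G] [Finite G] (M N : Subgroup G) (hM : IsCoatom M) (hN : N.IsSubnormal) (hNM : N ≤ M) :
    N ≤ Subgroup.normalCore M := by
  obtain ⟨D, hND, hDM, hMD, hD⟩ := CfsgLib.GroupB.Subnormal.exists_invariant hN hNM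
  rcases hD with rfl | hD
  · exact absurd (top_le_iff.mp hDM) hM.1
  · have htop : Subgroup.normalizer (D : Set G) = ⊤ := hM.2 _ (lt_of_le_not_ge hMD hD)
    haveI : D.Normal := Subgroup.normalizer_eq_top_iff.mp htop
    exact hND.trans ((Subgroup.normal_le_normalCore).mpr hDM)

end Cfsg.Agent.S3802
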