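import Cfsg.Statements.S3803
import Cfsg.Agent.Lib.GroupB.MinimalAction

set_option autoImplicit false
open Cfsg

namespace Cfsg.Agent.S3803
open scoped commutatorElement

theorem burnside {P : Type*} [Group P] [Finite P] (hP : IsPGroup 2 P) (φ : MulAut P) (ho : Odd (orderOf φ))
    (h : ∀ x, x⁻¹ * φ x ∈ frattini P) : φ = 1 := by
  classical
  by_contra hne
  obtain ⟨q, hq, hqd⟩ := Nat.exists_prime_and_dvd (fun e => hne (orderOf_eq_one_iff.1 e))
  haveI : Fact q.Prime := ⟨hq⟩
  obtain ⟨m, hm⟩ := hqd
  have hq2 : q ≠ 2 := by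
    rintro rfl
    exact (Nat.not_even_iff_odd.2 ho) ⟨m, by omega⟩
  let K : Subgroup (MulAut P) :=
    { carrier := {α | ∀ x, x⁻¹ * α x ∈ frattini P}
      one_mem' := fun x => by simp
      mul_mem' := fun {α β} ha hb x => by
        have := (frattini P).mul_mem (hb x) (ha (β x))
        simpa [mul_assoc] using this
      inv_mem' := fun {α} ha x => by
        have h1 := (frattini P).inv_mem (ha (α⁻¹ x))
        simpa using h1 }
  have hm0 : m ≠ 0 := by rintro rfl; simp [orderOf_eq_zero_iff, isOfFinOrder_of_finite] at hm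
  obtain ⟨β, hβ⟩ : ∃ β, β = φ ^ m := ⟨_, rfl⟩
  have hβ1 : β ≠ 1 := by
    rw [hβ]
    intro e
    have h1 := Nat.le_of_dvd (Nat.pos_of_ne_zero hm0) (orderOf_dvd_of_pow_eq_one e)
    rw [hm] at h1
    have h2 := Nat.mul_le_mul_right m hq.two_le
    omega
  have hβq : β ^ q = 1 := by rw [hβ, ← pow_mul, mul_comm, ← hm, pow_orderOf_eq_one]
  have hβK : ∀ x, x⁻¹ * β x ∈ frattini P := hβ ▸ K.pow_mem (show φ ∈ K from h) m
  apply hβ1
  let F : Subgroup P := MonoidHom.eqLocus β.toMonoidHom (MonoidHom.id P)
  have hF : F ⊔ frattini P = ⊤ := by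
    rw [eq_top_iff]
    intro x _
    have hst : ∀ y, x⁻¹ * β y ∈ frattini P ↔ x⁻¹ * y ∈ frattini P := by
      intro y
      have e : x⁻¹ * β y = (x⁻¹ * y) * (y⁻¹ * β y) := by group
      rw [e]
      exact ⟨fun hh => ((frattini P).mul_mem_cancel_right (hβK y)).1 hh, fun hh => (frattini P).mul_mem hh (hβK y)⟩
    haveI := Fintype.ofFinite {y : P // x⁻¹ * y ∈ frattini P}
    have hcard : ¬ q ∣ Fintype.card {y : P // x⁻¹ * y ∈ frattini P} := by
      rw [← Nat.card_eq_fintype_card, Nat.card_congr ((Equiv.mulLeft x⁻¹).subtypeEquiv (fun y => Iff.rfl) : {y : P // x⁻¹ * y ∈ frattini P} ≃ ↥(frattini P))]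
      obtain ⟨k, hk⟩ := IsPGroup.iff_card.1 (hP.to_subgroup (frattini P))
      rw [hk]
      exact fun hd => hq2 ((Nat.prime_dvd_prime_iff_eq hq Nat.prime_two).1 (hq.dvd_of_dvd_pow hd))
    let σ : Equiv.Perm {y : P // x⁻¹ * y ∈ frattini P} := Equiv.Perm.subtypePerm (β.toEquiv : Equiv.Perm P) hst
    have hσv : ∀ (k : ℕ) (y), ((σ ^ k) y).1 = (β ^ k) y.1 := by
      intro k
      induction k with
      | zero => intro y; rfl
      | succ k ih => intro y; rw [pow_succ, pow_succ, Equiv.Perm.mul_apply, ih, MulAut.mul_apply]; rfl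
    obtain ⟨y, hy⟩ := Equiv.Perm.exists_fixed_point_of_prime (n := 1) hcard (σ := σ)
      (by rw [pow_one]; ext y; rw [hσv, hβq]; rfl)
    have hyF : (y : P) ∈ F := congrArg Subtype.val hy
    have := Subgroup.mul_mem_sup hyF ((frattini P).inv_mem y.2)
    simpa using this
  ext x
  have hx : x ∈ F := by rw [frattini_nongenerating hF]; trivial
  exact hx

theorem between {P : Type*} [Group P] [Finite P] (hP : IsPGroup 2 P) {L W : Subgroup P} (hLW : L ≤ W) {k : ℕ}
    (h1 : Nat.card L ≤ 2 ^ k) (h2 : 2 ^ k ≤ Nat.card W) : ∃ E : Subgroup P, L ≤ E ∧ E ≤ W ∧ Nat.card E = 2 ^ k := by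
  obtain ⟨i, hi⟩ := IsPGroup.iff_card.1 (hP.to_subgroup L)
  obtain ⟨j, hj⟩ := IsPGroup.iff_card.1 (hP.to_subgroup W)
  have hik : i ≤ k := (Nat.pow_le_pow_iff_right (by norm_num)).1 (hi ▸ h1)
  have hkj : k ≤ j := (Nat.pow_le_pow_iff_right (by norm_num)).1 (hj ▸ h2)
  have hc : Nat.card (L.subgroupOf W) = 2 ^ i := by
    rw [← hi]; exact Nat.card_congr (Subgroup.subgroupOfEquivOfLe hLW).toEquiv
  haveI : Fact (Nat.Prime 2) := ⟨Nat.prime_two⟩
  obtain ⟨K, hK, hle⟩ := Sylow.exists_subgroup_card_pow_prime_le 2 (m := k) (hj ▸ pow_dvd_pow 2 hkj) (L.subgroupOf W) hc hik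
  refine ⟨K.map W.subtype, ?_, Subgroup.map_subtype_le _, ?_⟩
  · intro x hx
    exact ⟨⟨x, hLW hx⟩, hle hx, rfl⟩
  · rw [Subgroup.card_map_of_injective W.subtype_injective, hK]

theorem core.{u} : ∀ n : ℕ, ∀ {P : Type u} [Group P] [Finite P], Nat.card P ≤ n → IsPGroup 2 P → ∀ φ : MulAut P,
    Odd (orderOf φ) → ∀ k : ℕ, 0 < k → 2 ^ k < Nat.card P →
    (∀ E : Subgroup P, (Nat.card E = 2 ^ k ∨ (k = 1 ∧ Nat.card E = 4)) → ∀ e ∈ E, φ e ∈ E) → φ = 1 := by
  intro n
  induction n with
  | zero => intro P _ _ hn; exact absurd hn (by have := Nat.card_pos (α := P); omega)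
  | succ n ih =>
    intro P _ _ hn hP φ ho k hk hkP hinv
    classical
    haveI : Fact (Nat.Prime 2) := ⟨Nat.prime_two⟩
    by_contra hne
    have hnt : ¬ ∀ x, x⁻¹ * φ x ∈ frattini P := fun h => hne (burnside hP φ ho h)
    obtain ⟨hcommΦ, hpow⟩ := CfsgLib.GroupB.MinimalAction.frattini_facts (p := 2) hP
    let π : P →* P ⧸ frattini P := QuotientGroup.mk' (frattini P)
    have hπ : ∀ {x : P}, π x = 1 ↔ x ∈ frattini P := fun {x} => QuotientGroup.eq_one_iff x
    have hVc : ∀ a b : P ⧸ frattini P, a * b = b * a := by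
      intro a b
      obtain ⟨x, rfl⟩ := QuotientGroup.mk'_surjective _ a
      obtain ⟨y, rfl⟩ := QuotientGroup.mk'_surjective _ b
      show π x * π y = π y * π x
      rw [← commutatorElement_eq_one_iff_mul_comm, ← map_commutatorElement, hπ]
      exact hcommΦ (Subgroup.commutator_mem_commutator trivial trivial)
    have hV2 : ∀ a : P ⧸ frattini P, a * a = 1 := by
      intro a
      obtain ⟨x, rfl⟩ := QuotientGroup.mk'_surjective _ a
      show π x * π x = 1
      rw [← map_mul, hπ, ← sq]
      exact hpow x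
    have hzp : ∀ (a : P ⧸ frattini P) (j : ℤ), a ^ j * a ^ j = 1 := fun a j => by
      rw [← Commute.mul_zpow (Commute.refl a), hV2, one_zpow]
    have hΦinv : ∀ x ∈ frattini P, φ x ∈ frattini P := by
      intro x hx
      rw [← Subgroup.characteristic_iff_comap_eq.1 (inferInstance : (frattini P).Characteristic) φ] at hx
      exact hx
    have hΦout : ∀ x, x ∉ frattini P → φ x ∉ frattini P := by
      intro x hx h
      apply hx
      rw [← Subgroup.characteristic_iff_comap_eq.1 (inferInstance : (frattini P).Characteristic) φ]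
      exact h
    have hsub : ∀ M : Subgroup P, M ≠ ⊤ → 2 ^ k < Nat.card M → (∀ x ∈ M, φ x ∈ M) → ∀ x ∈ M, φ x = x := by
      intro M hM hMk hMi
      let f : M →* M := (φ.toMonoidHom.comp M.subtype).codRestrict M (fun x => hMi x x.2)
      have hf : Function.Injective f := fun a b e => Subtype.ext (φ.injective (congrArg Subtype.val e))
      let ψ : MulAut M := MulEquiv.ofBijective f ⟨hf, Finite.injective_iff_surjective.1 hf⟩
      have hψ : ∀ (j : ℕ) (x : M), (((ψ ^ j) x : M) : P) = (φ ^ j) (x : P) := by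
        intro j
        induction j with
        | zero => intro x; rfl
        | succ j ihj => intro x; rw [pow_succ, pow_succ, MulAut.mul_apply, ihj]; rfl
      have hψo : Odd (orderOf ψ) := by
        refine Odd.of_dvd_nat ho (orderOf_dvd_of_pow_eq_one ?_)
        ext x
        rw [hψ, pow_orderOf_eq_one]
        rfl
      have hMn : Nat.card M ≤ n := by
        have h1 : Nat.card M ≠ Nat.card P := fun e => hM (Subgroup.eq_top_of_card_eq M e)
        have h2 := Subgroup.card_le_card_group M
        omega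
      have := ih hMn (hP.to_subgroup M) ψ hψo k hk hMk (fun E hE e he => by
        have hc : Nat.card (E.map M.subtype) = Nat.card E := Subgroup.card_map_of_injective M.subtype_injective
        obtain ⟨e', he', hee⟩ := hinv (E.map M.subtype) (hc.symm ▸ hE) _ ⟨e, he, rfl⟩
        have : e' = ψ e := Subtype.ext hee
        exact this ▸ he')
      intro x hx
      have h := congrArg Subtype.val (DFunLike.congr_fun this ⟨x, hx⟩)
      exact h
    by_cases hcase : Nat.card (frattini P) < 2 ^ k
    · apply hnt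
      intro x
      by_cases hx : x ∈ frattini P
      · exact (frattini P).mul_mem ((frattini P).inv_mem hx) (hΦinv x hx)
      by_contra hw
      obtain ⟨L, hL⟩ : ∃ L, L = (Subgroup.zpowers (π x)).comap π := ⟨_, rfl⟩
      have hxL : x ∈ L := by rw [hL]; exact Subgroup.mem_zpowers _
      have hΦL : frattini P ≤ L := fun y hy => by rw [hL, Subgroup.mem_comap, hπ.2 hy]; exact one_mem _
      have hwL : φ x ∉ L := by
        rw [hL, Subgroup.mem_comap]
        intro h
        obtain ⟨i, hi⟩ := Subgroup.mem_zpowers_iff.1 h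
        rcases Int.even_or_odd i with ⟨j, rfl⟩ | ⟨j, rfl⟩
        · rw [zpow_add, hzp] at hi
          exact hΦout x hx (hπ.1 hi.symm)
        · rw [zpow_add, zpow_one, two_mul, zpow_add, hzp, one_mul] at hi
          exact hw (hπ.1 (by rw [map_mul, map_inv, ← hi, inv_mul_cancel]))
      have hLcard : Nat.card L ≤ 2 ^ k := by
        have h1 : Nat.card (Subgroup.zpowers (π x)) = 2 := by
          rw [Nat.card_zpowers]
          exact orderOf_eq_prime (by rw [sq]; exact hV2 _) (fun e => hx (hπ.1 e))
        have h2 : L.index = (Subgroup.zpowers (π x)).index := by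
          rw [hL]; exact Subgroup.index_comap_of_surjective _ (QuotientGroup.mk'_surjective _)
        have h3 := Subgroup.card_mul_index L
        have h4 := Subgroup.card_mul_index (Subgroup.zpowers (π x))
        have h5 := Subgroup.card_eq_card_quotient_mul_card_subgroup (frattini P)
        rw [h5, ← h4, h1, h2] at h3
        have h6 : Nat.card L = 2 * Nat.card (frattini P) := by
          refine mul_right_cancel₀ Subgroup.index_ne_zero_of_finite (?_ : _ * (Subgroup.zpowers (π x)).index = _)
          rw [h3]; ring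
        obtain ⟨j, hj⟩ := IsPGroup.iff_card.1 (hP.to_subgroup (frattini P))
        rw [h6, hj, ← pow_succ']
        exact Nat.pow_le_pow_right (by norm_num) ((Nat.pow_lt_pow_iff_right (by norm_num)).1 (hj ▸ hcase))
      obtain ⟨W, ⟨hLW, hwW⟩, hmax⟩ := (Set.toFinite {W : Subgroup P | L ≤ W ∧ φ x ∉ W}).exists_maximal ⟨L, le_rfl, hwL⟩
      have hWn : W.Normal := ⟨fun y hy g => by
        rw [show g * y * g⁻¹ = ⁅g, y⁆ * y by rw [commutatorElement_def]; group]
        exact W.mul_mem (hLW (hΦL (hcommΦ (Subgroup.commutator_mem_commutator trivial trivial)))) hy⟩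
      have hidx : ∀ z, z ∈ W ∨ (φ x)⁻¹ * z ∈ W := by
        intro z
        by_contra hz
        push Not at hz
        have hmem : φ x ∈ W ⊔ Subgroup.zpowers z := by
          by_contra h
          exact hz.1 (hmax ⟨hLW.trans le_sup_left, h⟩ le_sup_left (Subgroup.mem_sup_right (Subgroup.mem_zpowers z)))
        obtain ⟨a, ha, b, hb, hab⟩ := Subgroup.mem_sup_of_normal_left.1 hmem
        obtain ⟨i, rfl⟩ := Subgroup.mem_zpowers_iff.1 hb
        have hz2 : z * z ∈ W := hLW (hΦL (by rw [← sq]; exact hpow z))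
        rcases Int.even_or_odd i with ⟨j, rfl⟩ | ⟨j, rfl⟩
        · apply hwW
          rw [← hab, zpow_add, ← Commute.mul_zpow (Commute.refl z)]
          exact W.mul_mem ha (W.zpow_mem hz2 j)
        · apply hz.2
          rw [← hab, zpow_add, zpow_one, two_mul, zpow_add, ← Commute.mul_zpow (Commute.refl z)]
          have h' : a * (z * z) ^ j ∈ W := W.mul_mem ha (W.zpow_mem hz2 j)
          have := hWn.conj_mem _ (W.inv_mem h') z⁻¹
          simpa [mul_assoc] using this
      have hWk : 2 ^ k ≤ Nat.card W := by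
        obtain ⟨j, hj⟩ := IsPGroup.iff_card.1 hP
        obtain ⟨i, hi⟩ := IsPGroup.iff_card.1 (hP.to_subgroup W)
        have h2 : W.index = 2 := Subgroup.index_eq_two_iff.2 ⟨(φ x)⁻¹, fun b => by
          rcases hidx b with h | h
          · refine Or.inr ⟨h, fun h' => ?_⟩
            have := W.mul_mem (W.inv_mem h) h'
            exact hwW (by simpa using this)
          · refine Or.inl ⟨?_, fun h' => ?_⟩
            · have := hWn.conj_mem _ h (φ x)
              simpa [mul_assoc] using this
            · have := W.mul_mem h (W.inv_mem h')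
              exact hwW (by simpa using this)⟩
        have h3 := Subgroup.card_mul_index W
        rw [h2, hi, hj, ← pow_succ] at h3
        have h4 := Nat.pow_right_injective le_rfl h3
        have h5 := (Nat.pow_lt_pow_iff_right (by norm_num)).1 (hj ▸ hkP)
        rw [hi]
        exact Nat.pow_le_pow_right (by norm_num) (by omega)
      obtain ⟨E, hLE, hEW, hE⟩ := between hP hLW hLcard hWk
      exact hwW (hEW (hinv E (Or.inl hE) x (hLE hxL)))
    push Not at hcase
    -- the map x ↦ x⁻¹ φ(x) on the Frattini quotient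
    let ψ : P ⧸ frattini P →* P ⧸ frattini P := QuotientGroup.map _ _ φ.toMonoidHom hΦinv
    have hψ : ∀ x, ψ (π x) = π (φ x) := fun x => rfl
    let δ : P ⧸ frattini P →* P ⧸ frattini P :=
      { toFun := fun v => v * ψ v
        map_one' := by simp
        map_mul' := fun a b => by
          rw [map_mul, mul_assoc, ← mul_assoc b, hVc b (ψ a), mul_assoc (ψ a), ← mul_assoc a] }
    have hinj : Function.Injective δ := by
      by_contra hni
      obtain ⟨W, hW⟩ : ∃ W, W = δ.range.comap π := ⟨_, rfl⟩
      have hns : ¬ Function.Surjective δ := fun h => hni (Finite.injective_iff_surjective.2 h)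
      have hWtop : W ≠ ⊤ := by
        intro e
        apply hns
        intro v
        obtain ⟨x, rfl⟩ := QuotientGroup.mk'_surjective _ v
        have : x ∈ W := by rw [e]; trivial
        rw [hW] at this
        exact this
      have hWinv : ∀ x ∈ W, φ x ∈ W := by
        intro x hx
        rw [hW] at hx ⊢
        obtain ⟨v, hv⟩ := hx
        refine ⟨ψ v, ?_⟩
        show ψ v * ψ (ψ v) = π (φ x)
        rw [← map_mul, ← hψ, ← hv]
        rfl
      have hΦW : frattini P < W := by
        refine lt_of_le_of_ne (fun y hy => by rw [hW, Subgroup.mem_comap, hπ.2 hy]; exact one_mem _) fun e => hnt fun x => ?_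
        have : x⁻¹ * φ x ∈ W := by
          rw [hW]
          refine ⟨π x, ?_⟩
          show π x * ψ (π x) = π (x⁻¹ * φ x)
          rw [map_mul, map_inv, hψ, inv_eq_of_mul_eq_one_right (hV2 (π x))]
        rwa [← e] at this
      have hWk : 2 ^ k < Nat.card W := lt_of_le_of_lt hcase (by
        by_contra h
        exact hΦW.ne (Subgroup.eq_of_le_of_card_ge hΦW.le (not_lt.1 h)))
      have hfix := hsub W hWtop hWk hWinv
      have h2 : ∀ v, ψ (ψ v) = v := by
        intro v
        obtain ⟨x, hx⟩ := QuotientGroup.mk'_surjective _ (δ v)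
        have hxW : x ∈ W := by rw [hW]; exact ⟨v, hx.symm⟩
        have h : ψ (v * ψ v) = v * ψ v := by
          rw [show v * ψ v = π x from hx.symm, hψ, hfix x hxW]
        rw [map_mul, hVc v (ψ v)] at h
        exact mul_left_cancel h
      have hit : ∀ (j : ℕ) (x : P), π ((φ ^ (2 * j)) x) = π x := by
        intro j
        induction j with
        | zero => intro x; rfl
        | succ j ihj =>
          intro x
          rw [show 2 * (j + 1) = 2 * j + 1 + 1 by ring, pow_succ, pow_succ, MulAut.mul_apply, MulAut.mul_apply, ihj]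
          show ψ (ψ (π x)) = π x
          exact h2 _
      obtain ⟨j, hj⟩ := ho
      apply hnt
      intro x
      apply hπ.1
      have h := hit j (φ x)
      rw [← MulAut.mul_apply, ← pow_succ, ← hj, pow_orderOf_eq_one, MulAut.one_apply] at h
      rw [map_mul, map_inv, ← h, inv_mul_cancel]
    have hbig : ∀ x, x ∉ frattini P → 2 ^ k < orderOf x ∧ ¬ (k = 1 ∧ orderOf x = 4) := by
      intro x hx
      have hmove : ψ (π x) ≠ π x := fun e => hx (hπ.1 (hinj (show δ (π x) = δ 1 by
        show π x * ψ (π x) = 1 * ψ 1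
        rw [e, map_one, one_mul, hV2])))
      obtain ⟨L, hL⟩ : ∃ L, L = (Subgroup.zpowers (π x)).comap π := ⟨_, rfl⟩
      have hxL : Subgroup.zpowers x ≤ L := by
        rw [Subgroup.zpowers_le, hL]; exact Subgroup.mem_zpowers _
      have hΦL : frattini P ≤ L := fun y hy => by rw [hL, Subgroup.mem_comap, hπ.2 hy]; exact one_mem _
      have key : ∀ E : Subgroup P, Subgroup.zpowers x ≤ E → E ≤ L → (∀ e ∈ E, φ e ∈ E) → False := by
        intro E h1 h2 h3
        have h := h2 (h3 x (h1 (Subgroup.mem_zpowers x)))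
        rw [hL] at h
        obtain ⟨i, hi⟩ := Subgroup.mem_zpowers_iff.1 h
        rcases Int.even_or_odd i with ⟨j, rfl⟩ | ⟨j, rfl⟩
        · rw [zpow_add, hzp] at hi
          exact hΦout x hx (hπ.1 hi.symm)
        · rw [zpow_add, zpow_one, two_mul, zpow_add, hzp, one_mul] at hi
          exact hmove hi.symm
      refine ⟨not_le.1 fun hle => ?_, fun ⟨hk1, h4⟩ => key _ le_rfl hxL (hinv _ (Or.inr ⟨hk1, by rw [Nat.card_zpowers, h4]⟩))⟩
      obtain ⟨E, h1, h2, h3⟩ := between hP hxL (by rwa [Nat.card_zpowers]) (hcase.trans (Subgroup.card_le_of_le hΦL))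
      exact key E h1 h2 (hinv E (Or.inl h3))
    have hΦne : frattini P ≠ ⊤ := fun e => hnt fun x => by rw [e]; trivial
    obtain ⟨x₀, hx₀⟩ : ∃ x, x ∉ frattini P := by
      by_contra h
      push Not at h
      exact hΦne (eq_top_iff.2 fun x _ => h x)
    have hΦfix : ∀ x ∈ frattini P, φ x = x := by
      rcases hcase.lt_or_eq with hlt | heq
      · exact hsub _ hΦne hlt hΦinv
      obtain ⟨m, hm⟩ := IsPGroup.iff_orderOf.1 hP x₀
      have hkm : k < m := (Nat.pow_lt_pow_iff_right (by norm_num)).1 (hm ▸ (hbig x₀ hx₀).1)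
      have ho2 : orderOf (x₀ ^ 2) = 2 ^ (m - 1) := by
        rw [orderOf_pow x₀, hm, show m = m - 1 + 1 by omega, pow_succ, Nat.gcd_mul_left_left,
          Nat.mul_div_cancel _ (by norm_num), Nat.add_sub_cancel]
      have hgen : Subgroup.zpowers (x₀ ^ 2) = frattini P := Subgroup.eq_of_le_of_card_ge
        (Subgroup.zpowers_le.2 (hpow x₀)) (by
          rw [Nat.card_zpowers, ho2, ← heq]; exact Nat.pow_le_pow_right (by norm_num) (by omega))
      haveI : IsCyclic ↥(frattini P) := (Subgroup.isCyclic_iff_exists_zpowers_eq_top _).2 ⟨_, hgen⟩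
      let f : ↥(frattini P) →* ↥(frattini P) := (φ.toMonoidHom.comp (frattini P).subtype).codRestrict _ (fun x => hΦinv x x.2)
      have hf : Function.Injective f := fun a b e => Subtype.ext (φ.injective (congrArg Subtype.val e))
      let χ : MulAut ↥(frattini P) := MulEquiv.ofBijective f ⟨hf, Finite.injective_iff_surjective.1 hf⟩
      have hχ : ∀ (j : ℕ) (x : ↥(frattini P)), (((χ ^ j) x : ↥(frattini P)) : P) = (φ ^ j) (x : P) := by
        intro j
        induction j with
        | zero => intro x; rfl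
        | succ j ihj => intro x; rw [pow_succ, pow_succ, MulAut.mul_apply, ihj]; rfl
      have hχo : orderOf χ ∣ orderOf φ := by
        refine orderOf_dvd_of_pow_eq_one ?_
        ext x
        rw [hχ, pow_orderOf_eq_one]
        rfl
      have hχ1 : χ = 1 := by
        rw [← orderOf_eq_one_iff]
        have h1 := orderOf_dvd_natCard χ
        rw [IsCyclic.card_mulAut, ← heq, Nat.totient_prime_pow Nat.prime_two hk] at h1
        simp only [Nat.add_one_sub_one, mul_one] at h1
        exact Nat.eq_one_of_dvd_coprimes (Nat.Coprime.pow_right _ (Nat.coprime_two_right.2 ho)) hχo h1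
      intro x hx
      exact congrArg Subtype.val (DFunLike.congr_fun hχ1 ⟨x, hx⟩)
    have hsurj : Function.Surjective δ := Finite.injective_iff_surjective.1 hinj
    have hcen : ∀ f ∈ frattini P, ∀ y, y * f = f * y := by
      have hC : Subgroup.centralizer (frattini P : Set P) ⊔ frattini P = ⊤ := by
        rw [eq_top_iff]
        intro z _
        obtain ⟨v, hv⟩ := hsurj (π z)
        obtain ⟨x, rfl⟩ := QuotientGroup.mk'_surjective _ v
        have hy : x⁻¹ * φ x ∈ Subgroup.centralizer (frattini P : Set P) := by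
          intro f hf
          have h1 : φ x * f * (φ x)⁻¹ = x * f * x⁻¹ := by
            have := hΦfix _ ((inferInstance : (frattini P).Normal).conj_mem f hf x)
            rwa [map_mul, map_mul, map_inv, hΦfix f hf] at this
          have h2 := congrArg (fun t => x⁻¹ * t * φ x) h1
          simp [mul_assoc] at h2
          show f * (x⁻¹ * φ x) = x⁻¹ * φ x * f
          simp [mul_assoc, h2]
        have hz : (x⁻¹ * φ x)⁻¹ * z ∈ frattini P := by
          apply hπ.1
          rw [map_mul, map_inv, map_mul, map_inv, inv_eq_of_mul_eq_one_right (hV2 (π x)), ← hψ,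
            show π x * ψ (π x) = π z from hv, inv_mul_cancel]
        have := Subgroup.mul_mem_sup hy hz
        rwa [mul_inv_cancel_left] at this
      intro f hf y
      have hy : y ∈ Subgroup.centralizer (frattini P : Set P) := by rw [frattini_nongenerating hC]; trivial
      exact (hy f hf).symm
    have hpow4 : ∀ a b : P, (a * b) ^ 4 = a ^ 4 * b ^ 4 := by
      intro a b
      obtain ⟨c, hc⟩ : ∃ c, c = a⁻¹ * b * a * b⁻¹ := ⟨_, rfl⟩
      have hcΦ : c ∈ frattini P := by
        rw [hc, show a⁻¹ * b * a * b⁻¹ = ⁅a⁻¹, b⁆ by simp [commutatorElement_def]]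
        exact hcommΦ (Subgroup.commutator_mem_commutator trivial trivial)
      have cc : ∀ y, y * c = c * y := hcen c hcΦ
      have e1 : b * a = a * (c * b) := by rw [hc]; group
      have hc2 : c * c = 1 := by
        have h : b * (a * a) = a * a * (c * c) * b := by
          rw [← mul_assoc, e1, mul_assoc, mul_assoc c, e1, ← mul_assoc c a, ← cc a, mul_assoc, mul_assoc, mul_assoc, mul_assoc]
        have h' := hcen (a * a) (by rw [← sq]; exact hpow a) b
        rw [h'] at h
        have h2 := mul_right_cancel h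
        exact (left_eq_mul.1 h2)
      have e2 : (a * b) ^ 2 = a ^ 2 * b ^ 2 * c := by
        rw [sq, sq, sq, mul_assoc a b, ← mul_assoc b, e1, mul_assoc a (c * b), ← mul_assoc a a, mul_assoc c b b, ← cc, ← mul_assoc]
      have k1 : Commute (a ^ 2) (b ^ 2) := hcen _ (hpow b) _
      have k2 : Commute (a ^ 2 * b ^ 2) c := cc _
      rw [show (4:ℕ) = 2 * 2 from rfl, pow_mul, e2, k2.mul_pow, k1.mul_pow, sq c, hc2, mul_one, ← pow_mul, ← pow_mul]
    obtain ⟨y, hy⟩ : ∃ y, y = x₀⁻¹ * φ x₀ := ⟨_, rfl⟩
    have hy4 : y ^ 4 = 1 := by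
      have h4 : x₀ ^ 4 ∈ frattini P := by
        rw [show (4:ℕ) = 2 * 2 from rfl, pow_mul]; exact hpow _
      rw [hy, hpow4, inv_pow, ← map_pow, hΦfix _ h4, inv_mul_cancel]
    have hyΦ : y ∉ frattini P := by
      intro h
      have h1 : δ (π x₀) = δ 1 := by
        show π x₀ * ψ (π x₀) = 1 * ψ 1
        rw [map_one, one_mul, hψ, ← inv_eq_of_mul_eq_one_right (hV2 (π x₀)), ← map_inv, ← map_mul, ← hy]
        exact hπ.2 h
      exact hx₀ (hπ.1 (hinj h1))
    obtain ⟨hb1, hb2⟩ := hbig y hyΦ
    have h4 := Nat.le_of_dvd (by norm_num) (orderOf_dvd_of_pow_eq_one hy4)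
    rcases Nat.lt_or_ge k 2 with hk2 | hk2
    · have hk1 : k = 1 := by omega
      subst hk1
      obtain ⟨m, hm⟩ := IsPGroup.iff_orderOf.1 hP y
      rw [hm] at hb1 h4
      have h1 : 1 < m := (Nat.pow_lt_pow_iff_right (by norm_num)).1 hb1
      have h2 : m ≤ 2 := (Nat.pow_le_pow_iff_right (by norm_num : 1 < 2)).1 (show 2 ^ m ≤ 2 ^ 2 from h4)
      exact hb2 ⟨rfl, by rw [hm, show m = 2 by omega]; norm_num⟩
    · have := Nat.pow_le_pow_right (show 0 < 2 by norm_num) hk2
      omega

/-- Let P be a 2-subgroup and A a subgroup of odd order of a finite group, with A normalizing P. Let D ≤ P with 1 < |D| < |P|. If every subgroup of P of order |D|, and also every subgroup of P of order 4 in case |D| = 2, is normalized by A, then A centralizes P. -/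
theorem result {X : Type*} [Group X] [Finite X] (P A D : Subgroup X) (hP : IsPGroup 2 P) (hA : Odd (Nat.card A))
    (hAP : A ≤ Subgroup.normalizer (P : Set X)) (hDP : D ≤ P) (hD1 : 1 < Nat.card D) (hD2 : Nat.card D < Nat.card P)
    (hinv : ∀ E : Subgroup X, E ≤ P → (Nat.card E = Nat.card D ∨ (Nat.card D = 2 ∧ Nat.card E = 4)) → A ≤ Subgroup.normalizer (E : Set X)) :
    A ≤ Subgroup.centralizer (P : Set X) := by
  
  intro a ha
  haveI : Fact (Nat.Prime 2) := ⟨Nat.prime_two⟩
  rw [Subgroup.mem_centralizer_iff]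
  obtain ⟨k, hk⟩ := IsPGroup.iff_card.1 (hP.to_le hDP)
  have hk0 : 0 < k := by
    rcases Nat.eq_zero_or_pos k with rfl | h
    · rw [hk, pow_zero] at hD1; exact absurd hD1 (lt_irrefl _)
    · exact h
  let φ : MulAut P := Subgroup.normalizerMonoidHom P ⟨a, hAP ha⟩
  have ho : Odd (orderOf φ) := by
    refine Odd.of_dvd_nat hA (dvd_trans (orderOf_map_dvd _ _) ?_)
    rw [Subgroup.orderOf_mk, ← Subgroup.orderOf_mk a ha]
    exact orderOf_dvd_natCard _
  have hφ : φ = 1 := core (Nat.card P) le_rfl hP φ ho k hk0 (hk ▸ hD2) (fun E hE e he => by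
    have hc : Nat.card (E.map P.subtype) = Nat.card E := Subgroup.card_map_of_injective P.subtype_injective
    have hn := hinv (E.map P.subtype) (Subgroup.map_subtype_le _) (by
      rw [hc]
      rcases hE with h | ⟨h1, h4⟩
      · exact Or.inl (h.trans hk.symm)
      · exact Or.inr ⟨by rw [hk, h1, pow_one], h4⟩) ha
    obtain ⟨e', he', hee⟩ := (Subgroup.mem_normalizer_iff.1 hn (e : X)).1 ⟨e, he, rfl⟩
    have : e' = φ e := Subtype.ext hee
    exact this ▸ he')
  intro x hx
  have h := congrArg Subtype.val (DFunLike.congr_fun hφ ⟨x, hx⟩)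
  have h' : a * x * a⁻¹ = x := h
  calc x * a = a * x * a⁻¹ * a := by rw [h']
    _ = a * x := by group


end Cfsg.Agent.S3803
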