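import Cfsg.Statements.S3815
import Cfsg.Agent.Lib.Core
import Cfsg.Agent.Lib.Thompson.PClosed

set_option autoImplicit false
open Cfsg

namespace Cfsg.Agent.S3815

/-- Let G be a finite group, p a prime and d ∈ G an element of order prime to p. If dg has order prime to p for every element g ∈ G of order prime to p, then d ∈ O_{p'}(G). -/
theorem result {G : Type*} [Group G] [Finite G] {p : ℕ} [Fact p.Prime]
    (d : G) (hd : (orderOf d).Coprime p)
    (h : ∀ g : G, (orderOf g).Coprime p → (orderOf (d * g)).Coprime p) :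
    d ∈ Cfsg.pPrimeCore p G := by
  let H : Subgroup G :=
    { carrier := {a | ∀ g : G, (orderOf g).Coprime p → (orderOf (a * g)).Coprime p}
      one_mem' := fun g hg => by rwa [one_mul]
      mul_mem' := fun {a b} ha hb g hg => by rw [mul_assoc]; exact ha _ (hb g hg)
      inv_mem' := fun {a} ha g hg => by
        have hpow : ∀ k : ℕ, (orderOf (a ^ k * g)).Coprime p := by
          intro k
          induction k with
          | zero => simpa using hg
          | succ k ih => rw [pow_succ', mul_assoc]; exact ha _ ih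
        have := hpow (orderOf a - 1)
        rwa [pow_sub a (orderOf_pos a), pow_orderOf_eq_one, one_mul, pow_one] at this }
  have hn : H.Normal := ⟨fun a ha c g hg => by
    have h1 := ha (c⁻¹ * g * c⁻¹⁻¹) (by rwa [CfsgLib.ThompsonNPC.orderOf_conj_eq])
    have h2 : c * a * c⁻¹ * g = c * (a * (c⁻¹ * g * c⁻¹⁻¹)) * c⁻¹ := by group
    rw [h2, CfsgLib.ThompsonNPC.orderOf_conj_eq]; exact h1⟩
  refine CfsgLib.Core.le_pPrimeCore hn ?_ (show d ∈ H from h)
  refine (Fact.out : p.Prime).coprime_iff_not_dvd.mpr (fun hdvd => ?_) |>.symm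
  obtain ⟨a, ha⟩ := exists_prime_orderOf_dvd_card' p hdvd
  have h1 := a.2 1 (by simp)
  rw [mul_one, Subgroup.orderOf_coe, ha] at h1
  exact (Fact.out : p.Prime).ne_one ((Nat.coprime_self p).mp h1)

end Cfsg.Agent.S3815
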