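import Cfsg.Statements.S3820
import Cfsg.Agent.Lib.GroupB.SchurZassenhaus

set_option autoImplicit false
open Cfsg

namespace Cfsg.Agent.S3820

/-- Call a subgroup H of G pronormal if H and gHg⁻¹ are conjugate inside ⟨H, gHg⁻¹⟩ for every g ∈ G. Let S ≤ H ≤ G be subgroups of a finite group with S pronormal in G (for instance S a Sylow subgroup). Then H is pronormal in G if and only if H and gHg⁻¹ are conjugate inside ⟨H, gHg⁻¹⟩ for every g ∈ N_G(S). In particular H is pronormal whenever N_G(S) ≤ H. -/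
theorem result {G : Type*} [Group G] [Finite G] (S H : Subgroup G) (hSH : S ≤ H)
    (hS : Cfsg.IsPronormal S) :
    Cfsg.IsPronormal H ↔
      ∀ g ∈ Subgroup.normalizer (S : Set G), ∃ w ∈ H ⊔ H.map (MulAut.conj g).toMonoidHom,
        H.map (MulAut.conj g).toMonoidHom = H.map (MulAut.conj w).toMonoidHom := by
  refine ⟨fun h g _ => h g, fun h g => ?_⟩
  obtain ⟨w, hw, hEq⟩ := hS g
  set J := H ⊔ H.map (MulAut.conj g).toMonoidHom
  have hwJ : w ∈ J := sup_le_sup hSH (Subgroup.map_mono hSH) hw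
  have hn : w⁻¹ * g ∈ Subgroup.normalizer (S : Set G) := by
    rw [Subgroup.mem_normalizer_iff]
    intro y
    have e1 : ∀ z, g * z * g⁻¹ ∈ S.map (MulAut.conj g).toMonoidHom ↔ z ∈ S := fun z =>
      Subgroup.mem_map_iff_mem (f := (MulAut.conj g).toMonoidHom) (MulAut.conj g).injective
    have e2 : ∀ z, w * z * w⁻¹ ∈ S.map (MulAut.conj w).toMonoidHom ↔ z ∈ S := fun z =>
      Subgroup.mem_map_iff_mem (f := (MulAut.conj w).toMonoidHom) (MulAut.conj w).injective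
    show y ∈ S ↔ w⁻¹ * g * y * (w⁻¹ * g)⁻¹ ∈ S
    rw [← e2 (w⁻¹ * g * y * (w⁻¹ * g)⁻¹), ← e1 y, hEq,
      show w * (w⁻¹ * g * y * (w⁻¹ * g)⁻¹) * w⁻¹ = g * y * g⁻¹ by group]
  obtain ⟨u, hu, huEq⟩ := h _ hn
  have huJ : u ∈ J := by
    refine sup_le (show H ≤ J from le_sup_left) ?_ hu
    rintro _ ⟨y, hy, rfl⟩
    have h1 : g * y * g⁻¹ ∈ J := Subgroup.mem_sup_right ⟨y, hy, rfl⟩
    have h2 := J.mul_mem (J.mul_mem (J.inv_mem hwJ) h1) hwJ
    show w⁻¹ * g * y * (w⁻¹ * g)⁻¹ ∈ J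
    convert h2 using 1; group
  refine ⟨w * u, J.mul_mem hwJ huJ, ?_⟩
  rw [← CfsgLib.GroupB.SchurZassenhaus.map_conj_map_conj, ← huEq, CfsgLib.GroupB.SchurZassenhaus.map_conj_map_conj,
    show w * (w⁻¹ * g) = g by group]


end Cfsg.Agent.S3820
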