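import Cfsg.Statements.S3821
import Cfsg.Agent.Lib.GroupB.SchurZassenhaus

set_option autoImplicit false
open Cfsg

namespace Cfsg.Agent.S3821

/-- Let A be a normal subgroup of the finite group G and H a subgroup of A. Then H is pronormal in G (H and gHg⁻¹ conjugate inside ⟨H, gHg⁻¹⟩ for every g ∈ G) if and only if H is pronormal in A and G = A · N_G(H). -/
theorem result {G : Type*} [Group G] [Finite G] (A H : Subgroup G) [A.Normal] (hHA : H ≤ A) :
    Cfsg.IsPronormal H ↔ (Cfsg.IsPronormal (H.subgroupOf A) ∧ A ⊔ Subgroup.normalizer (H : Set G) = ⊤) := by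
  have key : ∀ a : A, (H.subgroupOf A).map (MulAut.conj a).toMonoidHom = (H.map (MulAut.conj (a : G)).toMonoidHom).subgroupOf A := by
    intro a
    ext x
    simp only [Subgroup.mem_map, Subgroup.mem_subgroupOf, MulEquiv.coe_toMonoidHom, MulAut.conj_apply]
    constructor
    · rintro ⟨y, hy, rfl⟩; exact ⟨y, hy, by push_cast; rfl⟩
    · rintro ⟨y, hy, hyx⟩; exact ⟨⟨y, hHA hy⟩, hy, Subtype.ext (by push_cast; exact hyx)⟩
  have hle : ∀ a : A, H.map (MulAut.conj (a : G)).toMonoidHom ≤ A := by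
    rintro a _ ⟨y, hy, rfl⟩
    exact A.mul_mem (A.mul_mem a.2 (hHA hy)) (A.inv_mem a.2)
  have hconjn : ∀ n ∈ Subgroup.normalizer (H : Set G), H.map (MulAut.conj n).toMonoidHom = H := by
    intro n hn
    rw [Subgroup.mem_normalizer_iff] at hn
    ext x
    simp only [Subgroup.mem_map, MulEquiv.coe_toMonoidHom, MulAut.conj_apply]
    constructor
    · rintro ⟨y, hy, rfl⟩; exact (hn y).mp hy
    · intro hx
      exact ⟨n⁻¹ * x * n, (hn _).mpr (by convert hx using 1; group), by group⟩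
  constructor
  · intro h
    refine ⟨fun a => ?_, ?_⟩
    · obtain ⟨w, hw, hEq⟩ := h (a : G)
      have hwA : w ∈ A := (sup_le hHA (hle a)) hw
      refine ⟨⟨w, hwA⟩, ?_, ?_⟩
      · rw [key a, ← Subgroup.subgroupOf_sup hHA (hle a), Subgroup.mem_subgroupOf]
        exact hw
      · rw [key a, key ⟨w, hwA⟩, hEq]
    · rw [eq_top_iff]
      intro g _
      obtain ⟨w, hw, hEq⟩ := h g
      have hgA : H.map (MulAut.conj g).toMonoidHom ≤ A := by
        rintro _ ⟨y, hy, rfl⟩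
        exact (inferInstance : A.Normal).conj_mem y (hHA hy) g
      have hwA : w ∈ A := (sup_le hHA hgA) hw
      rw [show g = w * (w⁻¹ * g) by group]
      refine Subgroup.mul_mem_sup hwA ?_
      rw [Subgroup.mem_normalizer_iff]
      intro y
      have e1 : ∀ z, g * z * g⁻¹ ∈ H.map (MulAut.conj g).toMonoidHom ↔ z ∈ H := fun z =>
        Subgroup.mem_map_iff_mem (f := (MulAut.conj g).toMonoidHom) (MulAut.conj g).injective
      have e2 : ∀ z, w * z * w⁻¹ ∈ H.map (MulAut.conj w).toMonoidHom ↔ z ∈ H := fun z =>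
        Subgroup.mem_map_iff_mem (f := (MulAut.conj w).toMonoidHom) (MulAut.conj w).injective
      show y ∈ H ↔ w⁻¹ * g * y * (w⁻¹ * g)⁻¹ ∈ H
      rw [← e2 (w⁻¹ * g * y * (w⁻¹ * g)⁻¹), ← e1 y, hEq,
        show w * (w⁻¹ * g * y * (w⁻¹ * g)⁻¹) * w⁻¹ = g * y * g⁻¹ by group]
  · rintro ⟨h, htop⟩ g
    obtain ⟨a, ha, n, hn, rfl⟩ := Subgroup.mem_sup_of_normal_left.mp (htop ▸ Subgroup.mem_top g)
    have hmap : H.map (MulAut.conj (a * n)).toMonoidHom = H.map (MulAut.conj a).toMonoidHom := by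
      rw [← CfsgLib.GroupB.SchurZassenhaus.map_conj_map_conj, hconjn n hn]
    obtain ⟨w, hw, hEq⟩ := h ⟨a, ha⟩
    rw [key ⟨a, ha⟩, ← Subgroup.subgroupOf_sup hHA (hle ⟨a, ha⟩), Subgroup.mem_subgroupOf] at hw
    rw [key ⟨a, ha⟩, key w, Subgroup.subgroupOf_inj, inf_eq_left.mpr (hle ⟨a, ha⟩), inf_eq_left.mpr (hle w)] at hEq
    exact ⟨w, hmap ▸ hw, hmap.trans hEq⟩


end Cfsg.Agent.S3821
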