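import Cfsg.Statements.S3825

set_option autoImplicit false
open Cfsg

namespace Cfsg.Agent.S3825
open scoped commutatorElement

/-- Let U be a subgroup of a finite group H and w an involution of H normalizing U and commuting with exactly two elements of U, the identity and y. If V is a non-cyclic elementary abelian 2-subgroup of U containing y which is normal in U and invariant under w, then V is a Sylow 2-subgroup of U, V has order 4, and U/V is abelian. -/
theorem result {H : Type*} [Group H] [Finite H] (U : Subgroup H) (w : H) (hw : orderOf w = 2)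
    (hwU : w ∈ Subgroup.normalizer (U : Set H)) (y : H) (hy : y ≠ 1) (hyU : y ∈ U)
    (hfix : ∀ u ∈ U, w * u * w⁻¹ = u ↔ (u = 1 ∨ u = y))
    (V : Subgroup H) (hVU : V ≤ U) (hVn : (V.subgroupOf U).Normal) (hVw : ∀ v ∈ V, w * v * w⁻¹ ∈ V)
    (hVe : Cfsg.IsElementaryAbelian 2 V) (hVc : ¬ IsCyclic ↥V) (hyV : y ∈ V) :
    ¬ 2 ∣ V.relIndex U ∧ Nat.card ↥V = 4 ∧ ⁅U, U⁆ ≤ V := by
  classical
  have hww : w * w = 1 := by rw [← pow_two, ← hw]; exact pow_orderOf_eq_one w
  have hwi : w⁻¹ = w := inv_eq_of_mul_eq_one_right hww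
  have hc2 : ∀ u : H, w * (w * u * w⁻¹) * w⁻¹ = u := fun u => by
    rw [hwi, show w * (w * u * w) * w = (w * w) * u * (w * w) by group, hww, one_mul, mul_one]
  have hsq : ∀ v ∈ V, v * v = 1 := fun v hv => by rw [← pow_two]; exact hVe.2 v hv
  have hVc' : ∀ a ∈ V, ∀ b ∈ V, a * b = b * a := fun a ha b hb =>
    congrArg Subtype.val (hVe.1.is_comm.comm (⟨a, ha⟩ : V) ⟨b, hb⟩)
  -- for v in V the element v * v^w lies in {1, y}
  have himg : ∀ v ∈ V, v * (w * v * w⁻¹) = 1 ∨ v * (w * v * w⁻¹) = y := fun v hv => by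
    refine (hfix _ (hVU (V.mul_mem hv (hVw v hv)))).mp ?_
    calc w * (v * (w * v * w⁻¹)) * w⁻¹ = (w * v * w⁻¹) * (w * (w * v * w⁻¹) * w⁻¹) := by group
      _ = (w * v * w⁻¹) * v := by rw [hc2]
      _ = _ := hVc' _ (hVw v hv) _ hv
  obtain ⟨v₀, hv₀, hv₀1, hv₀y⟩ : ∃ v ∈ V, v ≠ 1 ∧ v ≠ y := by
    by_contra hne
    push Not at hne
    refine hVc (Subgroup.isCyclic_of_le (H' := Subgroup.zpowers y) fun v hv => ?_)
    by_cases h1 : v = 1
    · exact h1 ▸ Subgroup.one_mem _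
    · exact (hne v hv h1) ▸ Subgroup.mem_zpowers y
  have hv₀w : v₀ * (w * v₀ * w⁻¹) = y := by
    refine (himg v₀ hv₀).resolve_left fun h => ?_
    have h2 : w * v₀ * w⁻¹ = v₀ := (eq_inv_of_mul_eq_one_right h).trans (inv_eq_of_mul_eq_one_right (hsq v₀ hv₀))
    rcases (hfix v₀ (hVU hv₀)).mp h2 with h3 | h3
    exacts [hv₀1 h3, hv₀y h3]
  have hV4 : (V : Set H) = {1, y, v₀, v₀ * y} := by
    ext v
    simp only [SetLike.mem_coe, Set.mem_insert_iff, Set.mem_singleton_iff]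
    constructor
    · intro hv
      rcases himg v hv with h | h
      · have h2 : w * v * w⁻¹ = v := (eq_inv_of_mul_eq_one_right h).trans (inv_eq_of_mul_eq_one_right (hsq v hv))
        rcases (hfix v (hVU hv)).mp h2 with h3 | h3
        exacts [Or.inl h3, Or.inr (Or.inl h3)]
      · have hm := V.mul_mem hv₀ hv
        have h1 : v₀ * v * (w * (v₀ * v) * w⁻¹) = 1 := by
          calc v₀ * v * (w * (v₀ * v) * w⁻¹) = v₀ * (v * (w * v₀ * w⁻¹)) * (w * v * w⁻¹) := by group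
            _ = v₀ * ((w * v₀ * w⁻¹) * v) * (w * v * w⁻¹) := by rw [hVc' v hv _ (hVw v₀ hv₀)]
            _ = (v₀ * (w * v₀ * w⁻¹)) * (v * (w * v * w⁻¹)) := by group
            _ = 1 := by rw [hv₀w, h]; exact hsq y hyV
        have h2 : w * (v₀ * v) * w⁻¹ = v₀ * v := (eq_inv_of_mul_eq_one_right h1).trans (inv_eq_of_mul_eq_one_right (hsq _ hm))
        have h4 : v = v₀ * (v₀ * v) := by rw [← mul_assoc, hsq v₀ hv₀, one_mul]
        rcases (hfix _ (hVU hm)).mp h2 with h3 | h3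
        · exact Or.inr (Or.inr (Or.inl (by rw [h4, h3, mul_one])))
        · exact Or.inr (Or.inr (Or.inr (by rw [h4, h3])))
    · rintro (rfl | rfl | rfl | rfl)
      exacts [V.one_mem, hyV, hv₀, V.mul_mem hv₀ hyV]
  have hcard : Nat.card V = 4 := by
    show (V : Set H).ncard = 4
    rw [hV4, Set.ncard_insert_of_notMem, Set.ncard_insert_of_notMem, Set.ncard_pair]
    · exact fun h => hy (left_eq_mul.mp h)
    · simp only [Set.mem_insert_iff, Set.mem_singleton_iff, not_or]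
      exact ⟨Ne.symm hv₀y, fun h => hv₀1 (right_eq_mul.mp h)⟩
    · simp only [Set.mem_insert_iff, Set.mem_singleton_iff, not_or]
      refine ⟨Ne.symm hy, Ne.symm hv₀1, fun h => hv₀y ?_⟩
      rw [eq_inv_of_mul_eq_one_left h.symm, inv_eq_of_mul_eq_one_right (hsq y hyV)]
  set Vs := V.subgroupOf U with hVs
  haveI := hVn
  let c : U →* U := MonoidHom.mk' (fun u => ⟨w * u * w⁻¹, (Subgroup.mem_normalizer_iff.mp hwU u).mp u.2⟩)
    (fun a b => Subtype.ext (by show w * ((a : H) * b) * w⁻¹ = w * a * w⁻¹ * (w * b * w⁻¹); group))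
  let cb : U ⧸ Vs →* U ⧸ Vs := QuotientGroup.map Vs Vs c (fun u hu => hVw _ hu)
  have hcb : ∀ x, cb (cb x) = x := fun x => by
    obtain ⟨u, rfl⟩ := QuotientGroup.mk'_surjective Vs x
    exact congrArg (QuotientGroup.mk' Vs) (show c (c u) = u from Subtype.ext (hc2 u))
  have hfpf : ∀ x, cb x = x → x = 1 := fun x hx => by
    obtain ⟨u, rfl⟩ := QuotientGroup.mk'_surjective Vs x
    have hv : (u : H)⁻¹ * (w * u * w⁻¹) ∈ V := (QuotientGroup.eq (s := Vs) (a := u) (b := c u)).mp hx.symm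
    have hfixv : w * ((u : H)⁻¹ * (w * u * w⁻¹)) * w⁻¹ = (u : H)⁻¹ * (w * u * w⁻¹) := by
      conv_rhs => rw [← inv_eq_of_mul_eq_one_right (hsq _ hv)]
      calc w * ((u : H)⁻¹ * (w * u * w⁻¹)) * w⁻¹ = (w * u * w⁻¹)⁻¹ * (w * (w * u * w⁻¹) * w⁻¹) := by group
        _ = (w * u * w⁻¹)⁻¹ * u := by rw [hc2]
        _ = _ := by group
    rw [← MonoidHom.mem_ker, QuotientGroup.ker_mk']
    rcases (hfix _ (U.mul_mem (U.inv_mem u.2) ((Subgroup.mem_normalizer_iff.mp hwU u).mp u.2))).mp hfixv with h | h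
    · rcases (hfix u u.2).mp (inv_mul_eq_one.mp h).symm with h' | h' <;> show (u : H) ∈ V <;> rw [h']
      exacts [V.one_mem, hyV]
    · have h' : w * ((u : H) * v₀) * w⁻¹ = (u : H) * v₀ := by
        calc w * ((u : H) * v₀) * w⁻¹ = (u : H) * ((u : H)⁻¹ * (w * u * w⁻¹)) * (v₀⁻¹ * (v₀ * (w * v₀ * w⁻¹))) := by group
          _ = (u : H) * (y * v₀ * y) := by rw [h, hv₀w, inv_eq_of_mul_eq_one_right (hsq v₀ hv₀)]; group
          _ = (u : H) * v₀ := by rw [hVc' y hyV v₀ hv₀, mul_assoc, hsq y hyV, mul_one]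
      have hm : (u : H) * v₀ ∈ V := by
        rcases (hfix _ (U.mul_mem u.2 (hVU hv₀))).mp h' with h'' | h'' <;> rw [h'']
        exacts [V.one_mem, hyV]
      exact (V.mul_mem_cancel_right hv₀).mp hm
  have hinv : ∀ x, cb x = x⁻¹ := fun x => by
    have hf : Function.Injective (fun z => z⁻¹ * cb z) := by
      intro a b h
      have h1 : cb (b * a⁻¹) = b * a⁻¹ := by
        rw [map_mul, map_inv]
        calc cb b * (cb a)⁻¹ = b * (b⁻¹ * cb b) * (a⁻¹ * cb a)⁻¹ * a⁻¹ := by group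
          _ = _ := by rw [show b⁻¹ * cb b = a⁻¹ * cb a from h.symm]; group
      exact (mul_inv_eq_one.mp (hfpf _ h1)).symm
    obtain ⟨z, rfl⟩ := Finite.injective_iff_surjective.mp hf x
    show cb (z⁻¹ * cb z) = (z⁻¹ * cb z)⁻¹
    rw [map_mul, map_inv, hcb, mul_inv_rev, inv_inv]
  refine ⟨fun h2 => ?_, hcard, ?_⟩
  · obtain ⟨x, hx⟩ := exists_prime_orderOf_dvd_card' (G := U ⧸ Vs) 2 h2
    have hxx : x * x = 1 := by rw [← pow_two, ← hx]; exact pow_orderOf_eq_one x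
    rw [hfpf x (by rw [hinv, inv_eq_of_mul_eq_one_right hxx]), orderOf_one] at hx
    omega
  · rw [Subgroup.commutator_le]
    intro a ha b hb
    have hab : QuotientGroup.mk' Vs ⟨a, ha⟩ * QuotientGroup.mk' Vs ⟨b, hb⟩ = QuotientGroup.mk' Vs ⟨b, hb⟩ * QuotientGroup.mk' Vs ⟨a, ha⟩ := by
      set A := QuotientGroup.mk' Vs ⟨a, ha⟩
      set B := QuotientGroup.mk' Vs ⟨b, hb⟩
      have h := map_mul cb A B
      rw [hinv, hinv, hinv, ← mul_inv_rev] at h
      exact inv_injective h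
    have h1 : ⁅(⟨a, ha⟩ : U), (⟨b, hb⟩ : U)⁆ ∈ (QuotientGroup.mk' Vs).ker := by
      rw [MonoidHom.mem_ker, map_commutatorElement, commutatorElement_eq_one_iff_mul_comm]
      exact hab
    rw [QuotientGroup.ker_mk'] at h1
    exact h1

end Cfsg.Agent.S3825
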