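import Cfsg.Statements.S3838
import Cfsg.Agent.S0081
import Cfsg.Agent.Lib.Thompson.PClosed
import Mathlib.GroupTheory.Transfer

set_option autoImplicit false
open Cfsg

namespace Cfsg.Agent.S3838
theorem frattini_mem {A B : Type*} [Group A] [Group B] (e : A ≃* B) {x : A} (hx : x ∈ frattini A) : e x ∈ frattini B := by
  rw [frattini, Order.radical] at hx ⊢
  simp only [Subgroup.mem_iInf] at hx ⊢
  intro M hM
  have h1 : IsCoatom (e.symm.mapSubgroup M) := (OrderIso.isCoatom_iff _ M).mpr hM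
  obtain ⟨m, hm, hme⟩ := hx _ h1
  rw [← hme]
  simpa using hm

open scoped commutatorElement

/-- Let G be a finite group with Sylow p-subgroup P such that N_G(P) has a normal p-complement. Then N_G(Q) has a normal p-complement for every subgroup Q with [P, P] ≤ Q ≤ Φ(P). -/
theorem result {G : Type*} [Group G] [Finite G] {p : ℕ} [Fact p.Prime] (P : Sylow p G) (hN : Cfsg.HasNormalPComplement p ↥(Subgroup.normalizer ((P : Subgroup G) : Set G))) (Q : Subgroup G) (h1 : (commutator ↥(P : Subgroup G)).map (P : Subgroup G).subtype ≤ Q) (h2 : Q ≤ (frattini ↥(P : Subgroup G)).map (P : Subgroup G).subtype) : Cfsg.HasNormalPComplement p ↥(Subgroup.normalizer (Q : Set G)) := by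
  classical
  have hp := (Fact.out : p.Prime)
  set M := Subgroup.normalizer (Q : Set G) with hM
  have hQP : Q ≤ (P : Subgroup G) := h2.trans (Subgroup.map_subtype_le _)
  have hPM : (P : Subgroup G) ≤ M := by
    intro x hx
    refine Subgroup.mem_normalizer_fintype fun q hq => ?_
    rw [show x * q * x⁻¹ = ⁅x, q⁆ * q by rw [commutatorElement_def]; group]
    refine Q.mul_mem (h1 ⟨⁅(⟨x, hx⟩ : (P : Subgroup G)), ⟨q, hQP hq⟩⁆, Subgroup.commutator_mem_commutator (Subgroup.mem_top _) (Subgroup.mem_top _), rfl⟩) hq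
  set Qm := Q.subgroupOf M with hQm
  haveI : Qm.Normal := ⟨fun q hq m => (Subgroup.mem_normalizer_iff.mp m.2 q).mp hq⟩
  set π := QuotientGroup.mk' Qm
  have hπ := QuotientGroup.mk'_surjective Qm
  set Pm : Sylow p M := P.subtype hPM with hPm
  set Pb : Sylow p (M ⧸ Qm) := Pm.mapSurjective hπ with hPb
  have hPbval : (Pb : Subgroup (M ⧸ Qm)) = (Pm : Subgroup M).map π := rfl
  have hcomap : ((Pm : Subgroup M).map π).comap π = (Pm : Subgroup M) :=
    Subgroup.comap_map_eq_self (by rw [QuotientGroup.ker_mk']; exact fun q hq => hQP hq)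
  set N₀ := Subgroup.normalizer ((P : Subgroup G) : Set G) with hN₀
  obtain ⟨P₀, K₀, hK₀, hc₀⟩ := hN
  haveI := hK₀
  have hPn : ((P : Subgroup G).subgroupOf (Subgroup.normalizer ((P : Subgroup G) : Set G))).Normal := Subgroup.normal_in_normalizer
  have hburn : Subgroup.normalizer (((Pb : Subgroup (M ⧸ Qm))) : Set (M ⧸ Qm)) ≤ Subgroup.centralizer ((Pb : Subgroup (M ⧸ Qm)) : Set (M ⧸ Qm)) := by
    intro gb hgb
    obtain ⟨g, rfl⟩ := hπ gb
    have hgP : (g : G) ∈ Subgroup.normalizer ((P : Subgroup G) : Set G) := by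
      refine Subgroup.mem_normalizer_fintype fun x hx => ?_
      have h3 := (Subgroup.mem_normalizer_iff.mp hgb (π ⟨x, hPM hx⟩)).mp (Subgroup.mem_map_of_mem π (show (⟨x, hPM hx⟩ : M) ∈ (Pm : Subgroup M) from hx))
      rw [← map_inv, ← map_mul, ← map_mul] at h3
      have h4 : g * ⟨x, hPM hx⟩ * g⁻¹ ∈ (Pm : Subgroup M) := hcomap ▸ (Subgroup.mem_comap.mpr h3)
      exact h4
    -- write g = k x with k centralising P
    set Pn : Sylow p N₀ := P.subtype Subgroup.le_normalizer
    haveI : Subsingleton (Sylow p N₀) := by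
      haveI : (Pn : Subgroup N₀).Normal := hPn
      haveI := Sylow.unique_of_normal Pn this
      infer_instance
    rw [Subsingleton.elim P₀ Pn] at hc₀
    obtain ⟨⟨⟨k, hk⟩, ⟨x, hx⟩⟩, hkx⟩ := hc₀.2 (⟨g, hgP⟩ : N₀)
    have hkc : ∀ y ∈ (Pn : Subgroup N₀), Commute k y := fun y hy =>
      Subgroup.commute_of_normal_of_disjoint K₀ (Pn : Subgroup N₀) hK₀ hPn hc₀.disjoint k y hk hy
    rw [Subgroup.mem_centralizer_iff]
    rintro _ ⟨y, hy, rfl⟩
    rw [← map_mul, ← map_mul]
    refine (QuotientGroup.eq).mpr ?_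
    have hg' : (g : G) = (k : G) * (x : G) := congrArg Subtype.val hkx.symm
    have hky : (k : G) * (y : G) = (y : G) * (k : G) := congrArg Subtype.val (hkc ⟨y, Subgroup.le_normalizer hy⟩ hy).eq
    have hkx' : (k : G) * (x : G) = (x : G) * (k : G) := congrArg Subtype.val (hkc x hx).eq
    show (((y * g)⁻¹ * (g * y) : M) : G) ∈ Q
    rw [Subgroup.coe_mul, Subgroup.coe_inv, Subgroup.coe_mul, Subgroup.coe_mul]
    have e : ((y : G) * g)⁻¹ * (g * y) = ⁅(x : G)⁻¹, (y : G)⁻¹⁆ := by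
      rw [hg', commutatorElement_def, inv_inv, inv_inv]
      calc ((y : G) * ((k : G) * x))⁻¹ * ((k : G) * x * y) = (x : G)⁻¹ * ((k : G)⁻¹ * ((y : G)⁻¹ * k)) * x * y := by group
        _ = _ := by
          rw [show (y : G)⁻¹ * k = k * (y : G)⁻¹ from ((show Commute (k : G) (y : G) from hky).inv_right.eq).symm]; group
    rw [e]
    refine h1 ⟨⁅(⟨(x : G)⁻¹, (P : Subgroup G).inv_mem hx⟩ : (P : Subgroup G)), ⟨(y : G)⁻¹, (P : Subgroup G).inv_mem hy⟩⁆, ?_, rfl⟩
    exact Subgroup.commutator_mem_commutator (Subgroup.mem_top _) (Subgroup.mem_top _)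
  have hcb := MonoidHom.ker_transferSylow_isComplement' Pb hburn
  set Kb := (MonoidHom.transferSylow Pb hburn).ker with hKb
  set K := Kb.comap π with hK
  haveI : K.Normal := Subgroup.Normal.comap inferInstance π
  have hKP : K ⊓ (Pm : Subgroup M) ≤ Qm := by
    rintro z ⟨hz1, hz2⟩
    rw [← QuotientGroup.ker_mk' Qm, MonoidHom.mem_ker]
    have h3 : π z ∈ Kb ⊓ (Pb : Subgroup (M ⧸ Qm)) := ⟨hz1, Subgroup.mem_map_of_mem π hz2⟩
    rw [hcb.disjoint.eq_bot] at h3
    exact h3
  have hT : Cfsg.HasNormalPComplement p K := Cfsg.Agent.S0081.result Pm K (hKP.trans (fun z hz => by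
    obtain ⟨w, hw, hwe⟩ := h2 hz
    let e : (P : Subgroup G) ≃* (Pm : Subgroup M) := (Subgroup.subgroupOfEquivOfLe hPM).symm
    exact ⟨e w, frattini_mem e hw, Subtype.ext hwe⟩))
  rw [CfsgLib.ThompsonNPC.hasNPC_subgroup_iff] at hT
  refine CfsgLib.ThompsonNPC.hasNPC_iff.mpr fun u _ v _ hu hv => ?_
  have hin : ∀ w : M, (orderOf w).Coprime p → w ∈ K := fun w hw => by
    show π w ∈ Kb
    haveI : Kb.Normal := inferInstance
    rw [← QuotientGroup.eq_one_iff]
    refine orderOf_eq_one_iff.mp (Nat.eq_one_of_dvd_coprimes (hw.pow_right ((Nat.card (M ⧸ Qm)).factorization p)) ?_ ?_)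
    · exact (orderOf_map_dvd (QuotientGroup.mk' Kb) _).trans (orderOf_map_dvd π w)
    · rw [← Pb.card_eq_multiplicity, ← hcb.symm.index_eq_card]
      exact orderOf_dvd_natCard _
  exact hT u (hin u hu) v (hin v hv) hu hv

end Cfsg.Agent.S3838
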