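import Cfsg.Statements.S3839
import Cfsg.Agent.Lib.CentralSylow
import Cfsg.Agent.Lib.Thompson.Criterion
import Cfsg.Agent.Lib.PStep

set_option linter.style.haveILetI false

set_option autoImplicit false
open Cfsg

namespace Cfsg.Agent.S3839

open CfsgLib.ThompsonNPC

universe u

/-- The hypothesis on the normalizers. -/
def Hyp {G : Type u} [Group G] (p : ℕ) (D : Subgroup G) : Prop :=
  ∀ U ≤ D, D ⊓ Subgroup.centralizer (U : Set G) ≤ U → PCOn p (Subgroup.normalizer (U : Set G))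

theorem normal_of_closed {G : Type u} [Group G] [Finite G] {p : ℕ} [Fact p.Prime] {S : Sylow p G} {D : Subgroup G}
    (hD : Cfsg.IsStronglyClosed D (S : Subgroup G)) {O : Subgroup G} (hO : O.Normal) (hOS : O ≤ (S : Subgroup G)) :
    (D ⊓ O).Normal :=
  ⟨fun x hx g => ⟨hD.2 x hx.1 g (hOS (hO.conj_mem x hx.2 g)), hO.conj_mem x hx.2 g⟩⟩

theorem sylow_normal_inf {G : Type u} [Group G] [Finite G] {p : ℕ} [Fact p.Prime] (S : Sylow p G) (C : Subgroup G)
    [C.Normal] : ∃ P : Sylow p ↥C, (P : Subgroup ↥C).map C.subtype = (S : Subgroup G) ⊓ C := by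
  obtain ⟨P⟩ := (inferInstance : Nonempty (Sylow p ↥C))
  obtain ⟨g, hg, hle⟩ := CfsgLib.LocalBasic.exists_conj_le_sylow S (M := ⊤) le_top (P.2.map C.subtype) le_top
  let P' : Sylow p ↥C := P.mapSurjective (f := (MulAut.conjNormal g : MulAut ↥C).toMonoidHom) (MulEquiv.surjective _)
  have hP'S : (P' : Subgroup ↥C).map C.subtype ≤ (S : Subgroup G) := by
    rintro _ ⟨_, ⟨x, hx, rfl⟩, rfl⟩
    show g * (x : G) * g⁻¹ ∈ (S : Subgroup G)
    exact hle _ ⟨x, hx, rfl⟩
  refine ⟨P', le_antisymm (le_inf hP'S (Subgroup.map_subtype_le _)) fun x hx => ?_⟩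
  have hp : IsPGroup p ↥(((S : Subgroup G) ⊓ C).subgroupOf C) :=
    (S.2.to_le inf_le_left).comap_of_injective _ C.subtype_injective
  have he := P'.is_maximal' hp fun y hy => ⟨hP'S ⟨y, hy, rfl⟩, y.2⟩
  exact ⟨⟨x, hx.2⟩, he ▸ (show (⟨x, hx.2⟩ : ↥C) ∈ ((S : Subgroup G) ⊓ C).subgroupOf C from hx), rfl⟩

/-- The inductive statement. -/
def Good (p : ℕ) (n : ℕ) : Prop :=
  ∀ (G : Type u) [Group G] [Finite G], Nat.card G < n → ∀ (S : Sylow p G) (D : Subgroup G),
    Cfsg.IsStronglyClosed D (S : Subgroup G) → Hyp p D → PCOn p (⊤ : Subgroup G)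

theorem sub {G : Type u} [Group G] [Finite G] {p : ℕ} [Fact p.Prime] (hgood : Good.{u} p (Nat.card G))
    {S : Sylow p G} {D : Subgroup G} (hD : Cfsg.IsStronglyClosed D (S : Subgroup G)) {M : Subgroup G} (hM : M ≠ ⊤)
    (P : Sylow p ↥M) (hP : (P : Subgroup ↥M).map M.subtype ≤ (S : Subgroup G))
    (h : ∀ V ≤ D ⊓ M, D ⊓ M ⊓ Subgroup.centralizer (V : Set G) ≤ V →
      PCOn p (M ⊓ Subgroup.normalizer (V : Set G))) : PCOn p M := by
  rw [← pcOn_top_subgroup]
  have hlt : Nat.card ↥M < Nat.card G := lt_of_le_of_ne (Subgroup.card_le_card_group M)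
    fun e => hM (Subgroup.eq_top_of_card_eq M e)
  have hPeq : (P : Subgroup ↥M) = (S : Subgroup G).subgroupOf M := by
    refine (P.is_maximal' (S.2.comap_of_injective _ M.subtype_injective) fun y hy => ?_).symm
    exact hP ⟨y, hy, rfl⟩
  refine hgood ↥M hlt P (D.subgroupOf M) ⟨?_, ?_⟩ ?_
  · rw [hPeq]; exact Subgroup.comap_mono hD.1
  · intro x hx g hg
    rw [hPeq] at hg
    exact hD.2 (x : G) hx (g : G) hg
  · intro U hU hUc
    rw [← pcOn_map_iff M.subtype_injective]
    have hmem : ∀ v, v ∈ U.map M.subtype ↔ ∃ hv : v ∈ M, (⟨v, hv⟩ : ↥M) ∈ U := fun v =>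
      ⟨fun ⟨y, hy, e⟩ => e ▸ ⟨y.2, hy⟩, fun ⟨hv, h⟩ => ⟨⟨v, hv⟩, h, rfl⟩⟩
    refine (h (U.map M.subtype) ?_ ?_).mono ?_
    · rintro _ ⟨y, hy, rfl⟩
      exact ⟨hU hy, y.2⟩
    · rintro v ⟨⟨hvD, hvM⟩, hvc⟩
      exact ⟨⟨v, hvM⟩, hUc ⟨hvD, Subgroup.mem_centralizer_iff.mpr fun y hy =>
        Subtype.ext (Subgroup.mem_centralizer_iff.mp hvc y ⟨y, hy, rfl⟩)⟩, rfl⟩
    · rintro _ ⟨n, hn, rfl⟩
      refine ⟨n.2, ?_⟩
      refine Subgroup.mem_normalizer_iff.mpr fun v => ?_

      constructor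
      · intro hv
        obtain ⟨hvM, hvU⟩ := (hmem v).mp hv
        exact ⟨_, (Subgroup.mem_normalizer_iff.mp hn _).mp hvU, rfl⟩
      · intro hv
        obtain ⟨hvM, hvU⟩ := (hmem _).mp hv
        have hvM' : v ∈ M := by
          have := mul_mem (mul_mem (inv_mem n.2) hvM) n.2
          simpa [mul_assoc] using this
        exact ⟨⟨v, hvM'⟩, (Subgroup.mem_normalizer_iff.mp hn _).mpr hvU, rfl⟩

/-- The Frattini step. -/
theorem frattini_step {G : Type u} [Group G] [Finite G] {p : ℕ} [hp : Fact p.Prime] {S : Sylow p G} (C : Subgroup G)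
    [hC : C.Normal] (hCp : PCOn p C) {N : Subgroup G} (hN : PCOn p N)
    (hle : Subgroup.normalizer (((S : Subgroup G) ⊓ C : Subgroup G) : Set G) ≤ N) : PCOn p (⊤ : Subgroup G) := by
  classical
  obtain ⟨P, hP⟩ := sylow_normal_inf S C
  have hfr : Subgroup.normalizer (((S : Subgroup G) ⊓ C : Subgroup G) : Set G) ⊔ C = ⊤ := by
    have := P.normalizer_sup_eq_top
    rwa [hP] at this
  set K := pcore' hCp
  haveI hK : K.Normal := by
    refine Subgroup.normalizer_eq_top_iff.mp (top_le_iff.mp ?_)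
    rw [← Subgroup.normalizer_eq_top_iff.mpr hC]
    exact normalizer_le_pcore' hCp
  set π := QuotientGroup.mk' K
  have hπs : Function.Surjective π := QuotientGroup.mk'_surjective K
  have hSN : (S : Subgroup G) ⊓ C ≤ N := Subgroup.le_normalizer.trans hle
  have hCim : C.map π ≤ N.map π := by
    have hq : IsPGroup p ↥(C.map π) := by
      rintro ⟨_, x, hx, rfl⟩
      obtain ⟨a, b, ha, hb, hab, ⟨k, hk⟩, hbc⟩ := exists_mul_parts p x
      refine ⟨k, Subtype.ext ?_⟩
      have hb1 : π b = 1 := (QuotientGroup.eq_one_iff b).mpr ⟨Subgroup.zpowers_le.mpr hx hb, hbc⟩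
      show π x ^ p ^ k = 1
      rw [← hab, map_mul, hb1, mul_one, ← map_pow, hk, map_one]
    let f : ↥C →* ↥(C.map π) := π.subgroupMap C
    have hf : Function.Surjective f := MonoidHom.subgroupMap_surjective π C
    obtain ⟨n, hn⟩ := hq.exists_card_eq
    have htop : (P : Subgroup ↥C).map f = ⊤ := by
      refine Subgroup.index_eq_one.mp (Nat.eq_one_of_dvd_coprimes
        (((hp.out.coprime_iff_not_dvd).mpr fun hd => P.not_dvd_index (hd.trans (Subgroup.index_map_dvd _ hf))).symm.pow_right n)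
        dvd_rfl ?_)
      exact hn ▸ Subgroup.index_dvd_card _
    rintro _ ⟨x, hx, rfl⟩
    obtain ⟨y, hy, hye⟩ := (htop ▸ Subgroup.mem_top (f ⟨x, hx⟩) : f ⟨x, hx⟩ ∈ (P : Subgroup ↥C).map f)
    have hy' : (y : G) ∈ (S : Subgroup G) ⊓ C := hP ▸ Subgroup.mem_map_of_mem C.subtype hy
    exact ⟨y, hSN hy', congrArg Subtype.val hye⟩
  have htop : N.map π = ⊤ := by
    refine eq_top_iff.mpr ?_
    rw [← Subgroup.map_top_of_surjective π hπs, ← hfr, Subgroup.map_sup]
    exact sup_le (Subgroup.map_mono hle) hCim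
  refine pcOn_top_of_coprime_ker π ?_ (htop ▸ hN.map π)
  rw [QuotientGroup.ker_mk']
  exact card_pcore'_coprime hCp

/-- Dividing by a central `p`-subgroup. -/
theorem central_step {G : Type u} [Group G] [Finite G] {p : ℕ} [hp : Fact p.Prime] (hgood : Good.{u} p (Nat.card G))
    {S : Sylow p G} {D : Subgroup G} (hD : Cfsg.IsStronglyClosed D (S : Subgroup G)) (hH : Hyp p D) (Q : Subgroup G)
    [Q.Normal] (hQS : Q ≤ (S : Subgroup G)) (hQ1 : Q ≠ ⊥) (hQc : Q ≤ Subgroup.center G) : PCOn p (⊤ : Subgroup G) := by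
  classical
  set π := QuotientGroup.mk' Q
  have hπs : Function.Surjective π := QuotientGroup.mk'_surjective Q
  have hk : π.ker = Q := QuotientGroup.ker_mk' Q
  have hback : ∀ x, π x ∈ (S : Subgroup G).map π → x ∈ (S : Subgroup G) := by
    rintro x ⟨s, hs, e⟩
    have h1 : s⁻¹ * x ∈ Q := QuotientGroup.eq.mp e
    simpa using (S : Subgroup G).mul_mem hs (hQS h1)
  have hlt : Nat.card (G ⧸ Q) < Nat.card G := by
    rw [Subgroup.card_eq_card_quotient_mul_card_subgroup Q]
    exact lt_mul_of_one_lt_right Nat.card_pos ((Subgroup.one_lt_card_iff_ne_bot Q).mpr hQ1)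
  have hq : PCOn p (⊤ : Subgroup (G ⧸ Q)) := by
    refine hgood _ hlt (S.mapSurjective hπs) (D.map π) ⟨?_, ?_⟩ ?_
    · rw [Sylow.coe_mapSurjective]; exact Subgroup.map_mono hD.1
    · rintro _ ⟨x, hx, rfl⟩ g hg
      obtain ⟨g, rfl⟩ := hπs g
      rw [Sylow.coe_mapSurjective, ← map_inv, ← map_mul, ← map_mul] at hg
      rw [← map_inv, ← map_mul, ← map_mul]
      exact ⟨_, hD.2 x hx g (hback _ hg), rfl⟩
    · intro U hU hUc
      set V := D ⊓ U.comap π
      have hVU : V.map π = U := le_antisymm (by rintro _ ⟨v, hv, rfl⟩; exact hv.2) fun u hu => by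
        obtain ⟨v, hv, rfl⟩ := hU hu
        exact ⟨v, ⟨hv, hu⟩, rfl⟩
      have hVc : D ⊓ Subgroup.centralizer (V : Set G) ≤ V := fun d hd => ⟨hd.1, hUc ⟨⟨d, hd.1, rfl⟩,
        Subgroup.mem_centralizer_iff.mpr fun u hu => by
          obtain ⟨v, hv, rfl⟩ := (hVU.symm ▸ hu : u ∈ V.map π)
          rw [← map_mul, ← map_mul, Subgroup.mem_centralizer_iff.mp hd.2 v hv]⟩⟩
      refine ((hH V inf_le_left hVc).map π).mono fun n hn => ?_
      obtain ⟨n, rfl⟩ := hπs n
      refine ⟨n, ?_, rfl⟩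
      have key : ∀ m : G, π m ∈ Subgroup.normalizer (U : Set (G ⧸ Q)) → ∀ v ∈ V, m * v * m⁻¹ ∈ V := by
        intro m hm v hv
        have h1 : π (m * v * m⁻¹) ∈ U := by
          rw [map_mul, map_mul, map_inv]
          exact (Subgroup.mem_normalizer_iff.mp hm _).mp hv.2
        exact ⟨hD.2 v hv.1 m (hback _ (Subgroup.map_mono hD.1 (hU h1))), h1⟩
      refine Subgroup.mem_normalizer_iff.mpr ?_
      refine fun v => ⟨key n hn v, fun h => ?_⟩
      have := key n⁻¹ (by rw [map_inv]; exact inv_mem hn) _ h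
      rwa [inv_inv, show n⁻¹ * (n * v * n⁻¹) * n = v by group] at this
  set L := (pcore' hq).comap π
  have hQp : IsPGroup p ↥Q := S.2.to_le hQS
  have hL : PCOn p L := by
    refine CfsgLib.CentralSylow.pcOn_of_pElements_le (T := Q) (fun x _ => Subgroup.mem_centralizer_iff.mpr
      fun y hy => (Subgroup.mem_center_iff.mp (hQc hy) x).symm) fun x hx ⟨k, hk'⟩ => ?_
    refine (QuotientGroup.eq_one_iff x).mp (orderOf_eq_one_iff.mp ?_)
    refine Nat.eq_one_of_dvd_coprimes ((hx : π x ∈ pcore' hq).2.pow_right k) dvd_rfl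
      (orderOf_dvd_of_pow_eq_one ?_)
    show π x ^ p ^ k = 1
    rw [← map_pow, hk', map_one]
  intro x _ y _ hx hy
  exact hL x ⟨trivial, hx.coprime_dvd_left (orderOf_map_dvd π x)⟩ y
    ⟨trivial, hy.coprime_dvd_left (orderOf_map_dvd π y)⟩ hx hy

theorem main {G : Type u} [Group G] [Finite G] {p : ℕ} [hp : Fact p.Prime] (hgood : Good.{u} p (Nat.card G))
    {S : Sylow p G} {D : Subgroup G} (hD : Cfsg.IsStronglyClosed D (S : Subgroup G)) (hH : Hyp p D) :
    PCOn p (⊤ : Subgroup G) := by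
  classical
  by_cases hD1 : D = ⊥
  · have := hH ⊥ bot_le (by rw [hD1, bot_inf_eq])
    rwa [Subgroup.normalizer_eq_top_iff.mpr (inferInstance : (⊥ : Subgroup G).Normal)] at this
  have hSD : (S : Subgroup G) ≤ Subgroup.normalizer (D : Set G) := by
    intro s hs
    rw [Subgroup.mem_normalizer_iff]
    refine fun x => ⟨fun hx => hD.2 x hx s (mul_mem (mul_mem hs (hD.1 hx)) (inv_mem hs)), fun hx => ?_⟩
    have := hD.2 _ hx s⁻¹ (mul_mem (mul_mem (inv_mem hs) (hD.1 hx)) (inv_mem (inv_mem hs)))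
    rwa [inv_inv, show s⁻¹ * (s * x * s⁻¹) * s = x by group] at this
  have hDD : PCOn p (Subgroup.normalizer (D : Set G)) := hH D le_rfl inf_le_left
  have hmove : ∀ U : Subgroup G, IsPGroup p U → ∃ g : G, ∃ U' : Subgroup G, U' = U.map (MulAut.conj g).toMonoidHom ∧
      U' ≤ (S : Subgroup G) ∧ ∃ P : Sylow p ↥(Subgroup.normalizer (U' : Set G)),
        (P : Subgroup ↥(Subgroup.normalizer (U' : Set G))).map (Subgroup.normalizer (U' : Set G)).subtype ≤ (S : Subgroup G) := by
    intro U hU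
    obtain ⟨P⟩ := (inferInstance : Nonempty (Sylow p ↥(Subgroup.normalizer (U : Set G))))
    haveI : (U.subgroupOf (Subgroup.normalizer (U : Set G))).Normal := Subgroup.normal_in_normalizer

    haveI : (U.comap (Subgroup.normalizer (U : Set G)).subtype).Normal := this
    have hUP : U.subgroupOf (Subgroup.normalizer (U : Set G)) ≤ P := by
      have hq := P.2.to_sup_of_normal_right (hU.comap_of_injective _ (Subgroup.subtype_injective _) :
        IsPGroup p ↥(U.subgroupOf (Subgroup.normalizer (U : Set G))))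
      exact le_sup_right.trans (P.is_maximal' hq le_sup_left).le
    obtain ⟨g, -, hle⟩ := CfsgLib.LocalBasic.exists_conj_le_sylow S (M := ⊤) le_top
      (P.2.map (Subgroup.normalizer (U : Set G)).subtype) le_top
    refine ⟨g, _, rfl, ?_, ?_⟩
    · rintro _ ⟨u, hu, rfl⟩
      exact hle u ⟨⟨u, Subgroup.le_normalizer hu⟩, hUP hu, rfl⟩
    · have hN : Subgroup.normalizer ((U.map (MulAut.conj g).toMonoidHom : Subgroup G) : Set G) =
          (Subgroup.normalizer (U : Set G)).map (MulAut.conj g).toMonoidHom :=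
        (Subgroup.map_equiv_normalizer_eq U (MulAut.conj g)).symm
      let e := ((Subgroup.normalizer (U : Set G)).equivMapOfInjective (MulAut.conj g).toMonoidHom
        (MulAut.conj g).injective).trans (MulEquiv.subgroupCongr hN.symm)
      refine ⟨P.mapSurjective (f := e.toMonoidHom) e.surjective, ?_⟩
      rintro _ ⟨_, ⟨x, hx, rfl⟩, rfl⟩
      exact hle x ⟨x, hx, rfl⟩
  have hconj : ∀ (g : G) (U : Subgroup G),
      PCOn p (Subgroup.normalizer ((U.map (MulAut.conj g).toMonoidHom : Subgroup G) : Set G)) →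
      PCOn p (Subgroup.normalizer (U : Set G)) := by
    intro g U h
    rw [← Subgroup.map_equiv_normalizer_eq U (MulAut.conj g)] at h
    exact (pcOn_map_iff (MulAut.conj g).injective).mp h
  -- a normal subgroup of `G` inside `D`
  by_cases hO : ∃ U : Subgroup G, U.Normal ∧ U ≤ D ∧ U ≠ ⊥
  · obtain ⟨U, hUn, hUD, hU1⟩ := hO
    by_cases hUc : D ⊓ Subgroup.centralizer (U : Set G) ≤ U
    · have := hH U hUD hUc
      rwa [Subgroup.normalizer_eq_top_iff.mpr hUn] at this
    haveI := hUn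
    set C := Subgroup.centralizer (U : Set G)
    haveI : C.Normal := Subgroup.normal_centralizer
    by_cases hCtop : C = ⊤
    · exact central_step hgood hD hH U (hUD.trans hD.1) hU1 fun u hu => Subgroup.mem_center_iff.mpr fun y =>
        (Subgroup.mem_centralizer_iff.mp (show y ∈ C by rw [hCtop]; trivial) u hu).symm
    set W := U ⊔ (D ⊓ C)
    have hW : PCOn p (Subgroup.normalizer (W : Set G)) := hH W (sup_le hUD inf_le_left) fun d hd =>
      Subgroup.mem_sup_right ⟨hd.1, Subgroup.centralizer_le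
        (SetLike.coe_subset_coe.mpr (le_sup_left : U ≤ W)) hd.2⟩
    obtain ⟨P, hP⟩ := sylow_normal_inf S C
    have hCp : PCOn p C := by
      refine sub hgood hD hCtop P (hP ▸ inf_le_left) fun V hV hVc => ?_
      refine (hH (U ⊔ V) (sup_le hUD (hV.trans inf_le_left)) fun d hd => ?_).mono fun n hn => ?_
      · exact Subgroup.mem_sup_right (hVc ⟨⟨hd.1, Subgroup.centralizer_le
          (SetLike.coe_subset_coe.mpr (le_sup_left : U ≤ U ⊔ V)) hd.2⟩, Subgroup.centralizer_le
          (SetLike.coe_subset_coe.mpr (le_sup_right : V ≤ U ⊔ V)) hd.2⟩)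
      · rw [Subgroup.mem_normalizer_iff]
        exact fun x => (Subgroup.mem_normalizer_iff.mp
          (show n ∈ Subgroup.normalizer ((U ⊔ V : Subgroup G) : Set G) from
            Subgroup.normalizer_inf_normalizer_le_normalizer_sup U V
              ⟨by rw [Subgroup.normalizer_eq_top_iff.mpr hUn]; trivial, hn.2⟩) x)
    refine frattini_step (S := S) C hCp hW (le_trans ?_ (Subgroup.normalizer_inf_normalizer_le_normalizer_sup U (D ⊓ C)))
    intro n hn
    refine ⟨by rw [Subgroup.normalizer_eq_top_iff.mpr hUn]; trivial, ?_⟩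
    have key : ∀ m ∈ Subgroup.normalizer (((S : Subgroup G) ⊓ C : Subgroup G) : Set G), ∀ x ∈ D ⊓ C,
        m * x * m⁻¹ ∈ D ⊓ C := fun m hm x hx =>
      have h1 := (Subgroup.mem_normalizer_iff.mp hm x).mp ⟨hD.1 hx.1, hx.2⟩
      ⟨hD.2 x hx.1 m h1.1, h1.2⟩
    refine Subgroup.mem_normalizer_iff.mpr ?_
    refine fun x => ⟨key n hn x, fun h => ?_⟩
    have := key n⁻¹ (inv_mem hn) _ h
    rwa [inv_inv, show n⁻¹ * (n * x * n⁻¹) * n = x by group] at this
  push Not at hO
  have hU : ∀ U ≤ D, U ≠ ⊥ → PCOn p (Subgroup.normalizer (U : Set G)) := by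
    intro U hUD hU1
    obtain ⟨g, U', hU', hU'S, P, hP⟩ := hmove U (S.2.to_le (hUD.trans hD.1))
    apply hconj g
    rw [← hU']
    have hU'D : U' ≤ D := by
      intro x hx
      obtain ⟨u, hu, e⟩ := (hU' ▸ hx : x ∈ U.map (MulAut.conj g).toMonoidHom)
      have e' : g * u * g⁻¹ = x := e
      exact e' ▸ hD.2 u (hUD hu) g (e'.symm ▸ hU'S hx)
    have hM : Subgroup.normalizer (U' : Set G) ≠ ⊤ := fun h => hU1 (by
      have h1 := hO U' (Subgroup.normalizer_eq_top_iff.mp h) hU'D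
      rw [hU', Subgroup.map_eq_bot_iff_of_injective _ (MulAut.conj g).injective] at h1
      exact h1)
    refine sub hgood hD hM P hP fun V hV hVc => ?_
    refine (hH (U' ⊔ V) (sup_le hU'D (hV.trans inf_le_left)) fun d hd => ?_).mono fun n hn =>
      Subgroup.normalizer_inf_normalizer_le_normalizer_sup U' V hn
    exact Subgroup.mem_sup_right (hVc ⟨⟨hd.1, Subgroup.centralizer_le_normalizer (U' : Set G) (Subgroup.centralizer_le
      (SetLike.coe_subset_coe.mpr (le_sup_left : U' ≤ U' ⊔ V)) hd.2)⟩, Subgroup.centralizer_le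
      (SetLike.coe_subset_coe.mpr (le_sup_right : V ≤ U' ⊔ V)) hd.2⟩)
  refine pcOn_top_of_normalizers fun Q hQ hQ1 => ?_
  obtain ⟨g, Q', hQ', hQ'S, P, hP⟩ := hmove Q hQ
  have hQ'1 : Q' ≠ ⊥ := fun h => hQ1 (by
    rw [hQ', Subgroup.map_eq_bot_iff_of_injective _ (MulAut.conj g).injective] at h; exact h)
  apply hconj g
  rw [← hQ']
  by_cases hM : Subgroup.normalizer (Q' : Set G) = ⊤
  · rw [hM]
    have hQn : Q'.Normal := Subgroup.normalizer_eq_top_iff.mp hM
    haveI := hQn
    set C := Subgroup.centralizer (Q' : Set G)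
    haveI : C.Normal := Subgroup.normal_centralizer
    have hDC : D ≤ C := fun d hd => Subgroup.mem_centralizer_iff.mpr fun q hq => by
      have h1 : q * d * q⁻¹ * d⁻¹ ∈ D ⊓ Q' := ⟨D.mul_mem (hD.2 d hd q ((S : Subgroup G).mul_mem ((S : Subgroup G).mul_mem (hQ'S hq) (hD.1 hd))
          ((S : Subgroup G).inv_mem (hQ'S hq)))) (D.inv_mem hd), by
        rw [mul_assoc, mul_assoc, ← mul_assoc d]
        exact Q'.mul_mem hq (hQn.conj_mem _ (Q'.inv_mem hq) d)⟩
      rw [hO _ (normal_of_closed hD hQn hQ'S) inf_le_left, Subgroup.mem_bot, mul_inv_eq_one, mul_inv_eq_iff_eq_mul] at h1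
      exact h1
    by_cases hCtop : C = ⊤
    · exact central_step hgood hD hH Q' hQ'S hQ'1 fun u hu => Subgroup.mem_center_iff.mpr fun y =>
        (Subgroup.mem_centralizer_iff.mp (show y ∈ C by rw [hCtop]; trivial) u hu).symm
    obtain ⟨R, hR⟩ := sylow_normal_inf S C
    have hCp : PCOn p C := sub hgood hD hCtop R (hR ▸ inf_le_left) fun V hV hVc => by
      refine (hU V (hV.trans inf_le_left) fun e => hD1 ?_).mono inf_le_right
      subst e
      refine eq_bot_iff.mpr fun d hd => hVc ⟨⟨hd, hDC hd⟩, Subgroup.mem_centralizer_iff.mpr fun y hy => by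
        rw [Subgroup.mem_bot.mp hy, one_mul, mul_one]⟩
    refine frattini_step (S := S) C hCp hDD fun n hn => ?_
    have key : ∀ m ∈ Subgroup.normalizer (((S : Subgroup G) ⊓ C : Subgroup G) : Set G), ∀ x ∈ D, m * x * m⁻¹ ∈ D :=
      fun m hm x hx => hD.2 x hx m ((Subgroup.mem_normalizer_iff.mp hm x).mp ⟨hD.1 hx, hDC hx⟩).1
    rw [Subgroup.mem_normalizer_iff]
    refine fun x => ⟨key n hn x, fun h => ?_⟩
    have := key n⁻¹ (inv_mem hn) _ h
    rwa [inv_inv, show n⁻¹ * (n * x * n⁻¹) * n = x by group] at this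
  refine sub hgood hD hM P hP fun V hV hVc => (hU V (hV.trans inf_le_left) fun e => ?_).mono inf_le_right
  -- `D` has a central element normalizing `Q'`
  subst e
  haveI : (D.subgroupOf (S : Subgroup G)).Normal :=
    (Subgroup.normal_subgroupOf_iff_le_normalizer hD.1).mpr hSD
  have hne := CfsgLib.PStep.normal_inf_center_ne_bot S.2 (inferInstance : (D.subgroupOf (S : Subgroup G)).Normal) (by
    rw [Ne, Subgroup.subgroupOf_eq_bot, disjoint_iff, inf_eq_left.mpr hD.1]
    exact hD1)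
  obtain ⟨⟨z, hz⟩, hz1⟩ := Subgroup.ne_bot_iff_exists_ne_one.mp hne
  have hzD : (z : G) ∈ D := hz.1
  have hzM : (z : G) ∈ Subgroup.normalizer (Q' : Set G) := Subgroup.centralizer_le_normalizer _
    (Subgroup.mem_centralizer_iff.mpr fun q hq =>
      congrArg Subtype.val (Subgroup.mem_center_iff.mp hz.2 ⟨q, hQ'S hq⟩))
  have := hVc ⟨⟨hzD, hzM⟩, Subgroup.mem_centralizer_iff.mpr fun y hy => by
    rw [Subgroup.mem_bot.mp hy, one_mul, mul_one]⟩
  exact hz1 (Subtype.ext (Subtype.ext (Subgroup.mem_bot.mp this)))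

theorem all (p : ℕ) [Fact p.Prime] : ∀ n, Good.{u} p n := by
  intro n
  induction n using Nat.strong_induction_on with
  | _ n ih => exact fun G _ _ hlt S D hD hH => main (ih _ hlt) hD hH

/-- A Frobenius normal p-complement criterion relative to a strongly closed subgroup. Let G be a finite group, S a Sylow p-subgroup and D a subgroup of S strongly closed in S with respect to G. Then G has a normal p-complement if and only if N_G(U) has a normal p-complement for every subgroup U of D with C_D(U) ≤ U. -/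
theorem result {G : Type*} [Group G] [Finite G] {p : ℕ} [Fact p.Prime] (S : Sylow p G) (D : Subgroup G) (hD : Cfsg.IsStronglyClosed D (S : Subgroup G)) : Cfsg.HasNormalPComplement p G ↔ ∀ U : Subgroup G, U ≤ D → D ⊓ Subgroup.centralizer (U : Set G) ≤ U → Cfsg.HasNormalPComplement p ↥(Subgroup.normalizer (U : Set G)) := by
  constructor
  · intro h U _ _
    exact CfsgLib.ThompsonNPC.hasNPC_subgroup_iff.mpr ((CfsgLib.ThompsonNPC.hasNPC_iff.mp h).mono le_top)
  · intro h
    exact CfsgLib.ThompsonNPC.hasNPC_iff.mpr (all p (Nat.card G + 1) G (Nat.lt_succ_self _) S D hD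
      fun U hU hUc => CfsgLib.ThompsonNPC.hasNPC_subgroup_iff.mp (h U hU hUc))

end Cfsg.Agent.S3839
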