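import Cfsg.Statements.S3857
import Cfsg.Agent.S4213
import Cfsg.Agent.Lib.GenFitting
import Cfsg.Agent.Lib.Components
import Cfsg.Agent.Lib.UniqueOrderP
import Cfsg.Agent.Lib.GroupB.FrobBasic
import Cfsg.Agent.Lib.GroupB.FrobType
import Mathlib.GroupTheory.SpecificGroups.ZGroup

set_option autoImplicit false
open Cfsg

namespace Cfsg.Agent.S3857
open scoped commutatorElement
open CfsgLib.GroupB

universe u

/-- No element of order `a b` across the partition. -/
abbrev Split (A : Set ℕ) (X : Type u) [Group X] : Prop :=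
  ∀ (a b : ℕ), a.Prime → b.Prime → a ∈ A → b ∉ A → ∀ g : X, orderOf g ≠ a * b

abbrev AllIn (A : Set ℕ) (n : ℕ) : Prop := ∀ p : ℕ, p.Prime → p ∣ n → p ∈ A

theorem split_quotient {A : Set ℕ} {X : Type u} [Group X] [Finite X] (h : Split A X) (N : Subgroup X) [N.Normal] :
    Split A (X ⧸ N) := by
  intro a b ha hb haA hbA g hg
  obtain ⟨x, rfl⟩ := QuotientGroup.mk'_surjective N g
  have hd : a * b ∣ orderOf x := hg ▸ orderOf_map_dvd (QuotientGroup.mk' N) x
  refine h a b ha hb haA hbA (x ^ (orderOf x / (a * b))) ?_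
  exact orderOf_pow_orderOf_div (orderOf_pos x).ne' hd

theorem not_commute {A : Set ℕ} {X : Type u} [Group X] (h : Split A X) {x y : X} {a b : ℕ} (ha : a.Prime) (hb : b.Prime)
    (haA : a ∈ A) (hbA : b ∉ A) (hx : orderOf x = a) (hy : orderOf y = b) : ¬ Commute x y := fun hc => by
  refine h a b ha hb haA hbA (x * y) ?_
  rw [hc.orderOf_mul_eq_mul_orderOf_of_coprime (by
    rw [hx, hy]; exact (Nat.coprime_primes ha hb).mpr fun e => hbA (e ▸ haA)), hx, hy]

theorem fpf_of_split {A : Set ℕ} {X : Type u} [Group X] [Finite X] (h : Split A X) {N C : Subgroup X}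
    (hN : AllIn A (Nat.card N)) (hC : ∀ p : ℕ, p.Prime → p ∣ Nat.card C → p ∉ A) :
    ∀ c ∈ C, c ≠ 1 → ∀ v ∈ N, c * v = v * c → v = 1 := by
  intro c hc hc1 v hv hcomm
  by_contra hv1
  obtain ⟨b, hb, hbd⟩ := Nat.exists_prime_and_dvd (fun h' => hc1 (orderOf_eq_one_iff.mp h'))
  obtain ⟨a, ha, had⟩ := Nat.exists_prime_and_dvd (fun h' => hv1 (orderOf_eq_one_iff.mp h'))
  exact not_commute h ha hb (hN a ha (had.trans (Subgroup.orderOf_dvd_natCard N hv)))
    (hC b hb (hbd.trans (Subgroup.orderOf_dvd_natCard C hc)))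
    (orderOf_pow_orderOf_div (orderOf_pos v).ne' had) (orderOf_pow_orderOf_div (orderOf_pos c).ne' hbd)
    ((show Commute v c from hcomm.symm).pow_pow _ _)

/-- A split extension with coprime sides is a Frobenius group. -/
theorem frob_of_split {A : Set ℕ} {X : Type u} [Group X] [Finite X] (h : Split A X) (N : Subgroup X) [N.Normal]
    (hN1 : N ≠ ⊥) (hNtop : N ≠ ⊤) (hN : AllIn A (Nat.card N)) (hidx : ∀ p : ℕ, p.Prime → p ∣ N.index → p ∉ A) :
    ∃ C : Subgroup X, Cfsg.IsFrobeniusComplement C ∧ Cfsg.frobeniusKernel C = (N : Set X) := by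
  have hcop : (Nat.card N).Coprime N.index := Nat.coprime_of_dvd fun p hp h1 h2 => hidx p hp h2 (hN p hp h1)
  obtain ⟨C, hC⟩ := Subgroup.exists_right_complement'_of_coprime hcop
  have hcard : Nat.card C = N.index := hC.symm.index_eq_card.symm
  have hC1 : C ≠ ⊥ := fun e => hNtop (Subgroup.index_eq_one.mp (by rw [← hcard, e, Subgroup.card_bot]))
  have hF := FrobBasic.isFrobeniusComplement_of_fpf N hC hN1 hC1 (fpf_of_split h hN (hcard.symm ▸ hidx))
  exact ⟨C, hF, (FrobBasic.kernel_eq hF N hC).symm⟩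

theorem elem_side {A : Set ℕ} {X : Type u} [Group X] [Finite X] {p : ℕ} (hp : p.Prime) {N : Subgroup X}
    (h : ∀ x ∈ N, x ^ p = 1) (hpA : p ∈ A) : AllIn A (Nat.card N) := fun q hq hd => by
  haveI := Fact.mk hq
  obtain ⟨y, hy⟩ := exists_prime_orderOf_dvd_card' q hd
  have : orderOf (y : X) ∣ p := orderOf_dvd_of_pow_eq_one (h y y.2)
  rw [Subgroup.orderOf_coe, hy] at this
  rwa [(Nat.prime_dvd_prime_iff_eq hq hp).mp this]

/-- The main step: the side `A` contains a nontrivial normal subgroup. -/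
theorem main {G : Type u} [Group G] [Finite G] (hsol : Group.IsSolvable G) (A : Set ℕ) (h : Split A G)
    (hb : ∃ b ∉ A, b.Prime ∧ b ∣ Nat.card G) (N : Subgroup G) [N.Normal] (hN1 : N ≠ ⊥) (hN : AllIn A (Nat.card N)) :
    (∃ C : Subgroup G, Cfsg.IsFrobeniusComplement C) ∨
    (∃ (H K : Subgroup G) (_ : H.Normal), K.Normal ∧ H < K ∧
      (∃ C : Subgroup ↥K, Cfsg.IsFrobeniusComplement C ∧ Cfsg.frobeniusKernel C = (H.subgroupOf K : Set ↥K)) ∧
      (∃ C : Subgroup (G ⧸ H), Cfsg.IsFrobeniusComplement C ∧ Cfsg.frobeniusKernel C = (K.map (QuotientGroup.mk' H) : Set (G ⧸ H)))) := by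
  classical
  obtain ⟨H, ⟨hHn, hH⟩, hHmax⟩ := Set.Finite.exists_maximalFor id {H : Subgroup G | H.Normal ∧ AllIn A (Nat.card H) ∧ N ≤ H}
    (Set.toFinite _) ⟨N, inferInstance, hN, le_rfl⟩
  obtain ⟨hH, hNH⟩ := hH
  haveI := hHn
  have hH1 : H ≠ ⊥ := fun e => hN1 (le_bot_iff.mp (e ▸ hNH))
  obtain ⟨b₀, hb₀A, hb₀, hb₀d⟩ := hb
  have hHtop : H ≠ ⊤ := fun e => hb₀A (hH b₀ hb₀ (by rw [e, Subgroup.card_top]; exact hb₀d))
  by_cases hall : ∀ p : ℕ, p.Prime → p ∣ H.index → p ∉ A
  · obtain ⟨C, hC, -⟩ := frob_of_split h H hH1 hHtop hH hall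
    exact Or.inl ⟨C, hC⟩
  push Not at hall
  obtain ⟨a₀, ha₀, ha₀d, ha₀A⟩ := hall
  right
  haveI := Fact.mk ha₀
  rw [Subgroup.index_eq_card] at ha₀d
  obtain ⟨x₀, hx₀⟩ := exists_prime_orderOf_dvd_card' a₀ ha₀d
  have hQ : Split A (G ⧸ H) := split_quotient h H
  set π := QuotientGroup.mk' H with hπ
  have hπs : Function.Surjective π := QuotientGroup.mk'_surjective H
  haveI : Group.IsSolvable (G ⧸ H) := Group.isSolvable_of_surjective hπs
  haveI : Nontrivial (G ⧸ H) := QuotientGroup.nontrivial_iff.mpr hHtop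
  set F := Cfsg.fittingSubgroup (G ⧸ H) with hF
  haveI hFn : F.Normal := CfsgLib.Core.fittingSubgroup_normal
  haveI hFnil : Group.IsNilpotent F := CfsgLib.Core.isNilpotent_fittingSubgroup
  have hcent : Subgroup.centralizer (F : Set (G ⧸ H)) ≤ F :=
    CfsgLib.GenFitting.centralizer_fitting_le_iff.mpr (CfsgLib.Components.eq_bot_of_perfect_solvable CfsgLib.Components.layer_perfect inferInstance)
  have hcardcomap : ∀ T : Subgroup (G ⧸ H), Nat.card (T.comap π) = Nat.card T * Nat.card H := fun T => by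
    refine Nat.eq_of_mul_eq_mul_left (Nat.pos_of_ne_zero T.index_ne_zero_of_finite) ?_
    rw [← mul_assoc, T.index_mul_card, ← H.card_eq_card_quotient_mul_card_subgroup, ← (T.comap π).index_mul_card,
      T.index_comap_of_surjective hπs]
  have hHle : ∀ T : Subgroup (G ⧸ H), H ≤ T.comap π := fun T x hx => by
    show π x ∈ T
    rw [show π x = 1 from (QuotientGroup.eq_one_iff x).mpr hx]; exact T.one_mem
  have hsmall : ∀ T : Subgroup (G ⧸ H), T.Normal → AllIn A (Nat.card T) → T = ⊥ := by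
    intro T hT hTA
    haveI := hT
    have hle : T.comap π ≤ H := hHmax (j := T.comap π) ⟨inferInstance, fun p hp hd => by
      rw [hcardcomap] at hd
      exact (hp.dvd_mul.mp hd).elim (hTA p hp) (hH p hp), hNH.trans (hHle T)⟩ (hHle T)
    rw [Subgroup.eq_bot_iff_forall]
    intro y hy
    obtain ⟨x, rfl⟩ := hπs y
    exact (QuotientGroup.eq_one_iff x).mpr (hle hy)
  have hsyl : ∀ (q : ℕ) [Fact q.Prime] (P : Sylow q F), ((P : Subgroup F).map F.subtype).Normal := by
    intro q _ P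
    have hPn : (P : Subgroup F).Normal := Sylow.normal_of_normalizerCondition Group.normalizerCondition_of_isNilpotent P
    haveI := Sylow.characteristic_of_normal P hPn
    infer_instance
  have hFA : ∀ p : ℕ, p.Prime → p ∣ Nat.card F → p ∉ A := by
    intro p hp hd hpA
    haveI := Fact.mk hp
    obtain ⟨P⟩ : Nonempty (Sylow p F) := inferInstance
    refine P.ne_bot_of_dvd_card hd ?_
    have h0 := hsmall _ (hsyl p P) fun q hq hqd => by
      rw [Subgroup.card_map_of_injective F.subtype_injective] at hqd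
      obtain ⟨n, hn⟩ := IsPGroup.iff_card.mp P.isPGroup'
      rw [hn] at hqd
      rwa [(Nat.prime_dvd_prime_iff_eq hq hp).mp (hq.dvd_of_dvd_pow hqd)]
    exact (Subgroup.map_eq_bot_iff_of_injective _ F.subtype_injective).mp h0
  haveI : IsZGroup F := by
    refine ⟨fun q hq P => ?_⟩
    haveI := Fact.mk hq
    rcases subsingleton_or_nontrivial (P : Subgroup F) with hP | hP
    · exact isCyclic_of_subsingleton
    have hqd : q ∣ Nat.card F := by
      obtain ⟨n, hn0, hn⟩ := P.isPGroup'.nontrivial_iff_card.mp hP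
      exact (hn ▸ dvd_pow_self q hn0.ne').trans (Subgroup.card_subgroup_dvd_card _)
    have hqA := hFA q hq hqd
    set P' := (P : Subgroup F).map F.subtype with hP'
    haveI := hsyl q P
    have hP'ne : P' ≠ ⊥ := by
      rw [hP', Ne, Subgroup.map_eq_bot_iff_of_injective _ F.subtype_injective]
      exact P.ne_bot_of_dvd_card hqd
    set M := P'.comap π with hM
    have hMsplit : Split A M := fun a b ha hb' haA hbA g => by
      rw [← Subgroup.orderOf_coe]; exact h a b ha hb' haA hbA (g : G)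
    have hHM := hHle P'
    haveI : (H.subgroupOf M).Normal := hHn.subgroupOf M
    have hidx : (H.subgroupOf M).index = Nat.card P' := by
      have h1 := (H.subgroupOf M).index_mul_card
      rw [Nat.card_congr (Subgroup.subgroupOfEquivOfLe hHM).toEquiv, hcardcomap] at h1
      exact Nat.eq_of_mul_eq_mul_right Nat.card_pos h1
    obtain ⟨n, hn⟩ := IsPGroup.iff_card.mp (P.isPGroup'.map F.subtype)
    have hHc : AllIn A (Nat.card (H.subgroupOf M)) := by
      rw [Nat.card_congr (Subgroup.subgroupOfEquivOfLe hHM).toEquiv]; exact hH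
    have hidxA : ∀ r : ℕ, r.Prime → r ∣ (H.subgroupOf M).index → r ∉ A := fun r hr hrd => by
      rw [hidx, hn] at hrd
      rwa [(Nat.prime_dvd_prime_iff_eq hr hq).mp (hr.dvd_of_dvd_pow hrd)]
    obtain ⟨C, hC⟩ := Subgroup.exists_right_complement'_of_coprime (N := H.subgroupOf M)
      (Nat.coprime_of_dvd fun r hr h1 h2 => hidxA r hr h2 (hHc r hr h1))
    have hCcard : Nat.card C = (H.subgroupOf M).index := hC.symm.index_eq_card.symm
    have hFC := FrobBasic.isFrobeniusComplement_of_fpf (H.subgroupOf M) hC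
      (by rw [Ne, Subgroup.subgroupOf_eq_bot, disjoint_iff, inf_eq_left.mpr hHM]; exact hH1)
      (fun e => hP'ne (Subgroup.eq_bot_of_card_eq _ (by rw [← hidx, ← hCcard, e, Subgroup.card_bot])))
      (fpf_of_split hMsplit hHc (hCcard.symm ▸ hidxA))
    have hu : CfsgLib.UniqueOrderP.Uniq q C := by
      have h1 := FrobType.uniq_of_isPGroup hFC (p := q) (⊤ : Subgroup C)
        (IsPGroup.of_card (n := n) (by rw [Subgroup.card_top, hCcard, hidx, hn]))
      intro x y hx hy
      obtain ⟨i, hi⟩ := Subgroup.mem_zpowers_iff.mp (h1 ⟨x, trivial⟩ ⟨y, trivial⟩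
        (by rw [← Subgroup.orderOf_coe]; exact hx) (by rw [← Subgroup.orderOf_coe]; exact hy))
      exact Subgroup.mem_zpowers_iff.mpr ⟨i, congrArg Subtype.val hi⟩
    let ψ : C →* P' := (π.subgroupComap P').comp C.subtype
    have hψ : Function.Injective ψ := (injective_iff_map_eq_one ψ).mpr fun c hc => by
      have h2 : ((c : M) : G) ∈ H := (QuotientGroup.eq_one_iff _).mp (congrArg Subtype.val hc)
      exact Subtype.ext (Subgroup.mem_bot.mp (hC.disjoint.eq_bot ▸ ⟨Subgroup.mem_subgroupOf.mpr h2, c.2⟩))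
    have hψb : Function.Bijective ψ := hψ.bijective_of_nat_card_le (by rw [hCcard, hidx])
    let eC : C ≃* P' := MulEquiv.ofBijective ψ hψb
    rcases CfsgLib.UniqueOrderP.cyclic_or_quaternion (IsPGroup.of_card (n := n) (by rw [hCcard, hidx, hn])) hu with hc | ⟨hq2, -⟩
    · haveI : IsCyclic P' := eC.isCyclic.mp hc
      exact (((P : Subgroup F).equivMapOfInjective F.subtype F.subtype_injective).isCyclic).mpr inferInstance
    · -- a central involution commutes with an element of the other side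
      exfalso
      subst hq2
      obtain ⟨z, hz⟩ : ∃ z : P', orderOf z = 2 := exists_prime_orderOf_dvd_card' 2 (by
        rw [hn]
        refine dvd_pow_self 2 fun e => hP'ne (Subgroup.eq_bot_of_card_eq _ ?_)
        rw [hn, e, pow_zero])
      have hzc : ∀ g : G ⧸ H, g * (z : G ⧸ H) = z * g := by
        intro g
        have hgz : g * (z : G ⧸ H) * g⁻¹ ∈ P' := (hsyl 2 P).conj_mem _ z.2 g
        have h3 : orderOf (⟨_, hgz⟩ : P') = 2 := by
          rw [Subgroup.orderOf_mk, ← hz, ← Subgroup.orderOf_coe]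
          exact (MulAut.conj g).orderOf_eq (z : G ⧸ H)
        have h4 : eC.symm ⟨_, hgz⟩ ∈ Subgroup.zpowers (eC.symm z) :=
          hu _ _ (by rw [MulEquiv.orderOf_eq, hz]) (by rw [MulEquiv.orderOf_eq, h3])
        obtain ⟨i, hi⟩ := Subgroup.mem_zpowers_iff.mp h4
        rw [← map_zpow] at hi
        have h5 : ((z ^ i : P') : G ⧸ H) = g * z * g⁻¹ := congrArg Subtype.val (eC.symm.injective hi)
        have hz2 : z ^ (2 : ℤ) = 1 := by
          rw [show (2 : ℤ) = ((2 : ℕ) : ℤ) from rfl, zpow_natCast, ← hz, pow_orderOf_eq_one]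
        rcases Int.even_or_odd' i with ⟨j, rfl | rfl⟩
        · exfalso
          rw [zpow_mul, hz2, one_zpow, Subgroup.coe_one] at h5
          have : (z : G ⧸ H) = 1 := by
            calc (z : G ⧸ H) = g⁻¹ * (g * z * g⁻¹) * g := by group
              _ = 1 := by rw [← h5]; group
          rw [← Subgroup.orderOf_coe, this, orderOf_one] at hz
          exact absurd hz (by norm_num)
        · rw [zpow_add, zpow_mul, hz2, one_zpow, one_mul, zpow_one] at h5
          calc g * (z : G ⧸ H) = (g * z * g⁻¹) * g := by group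
            _ = z * g := by rw [← h5]
      exact not_commute hQ ha₀ Nat.prime_two ha₀A hqA hx₀ (by rw [Subgroup.orderOf_coe, hz]) (hzc x₀)
  haveI : IsCyclic F := inferInstance
  -- the automorphisms of the cyclic Fitting subgroup commute
  have hab : ∀ x y : G ⧸ H, ⁅x, y⁆ ∈ F := by
    intro x y
    refine hcent (Subgroup.mem_centralizer_iff.mpr fun v hv => ?_)
    obtain ⟨c, hc⟩ := IsCyclic.exists_generator (α := F)
    have key : ∀ g : G ⧸ H, ∃ i : ℤ, ∀ w ∈ F, g * w * g⁻¹ = w ^ i := by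
      intro g
      obtain ⟨i, hi⟩ := Subgroup.mem_zpowers_iff.mp (hc ⟨g * (c : G ⧸ H) * g⁻¹, hFn.conj_mem _ c.2 g⟩)
      refine ⟨i, fun w hw => ?_⟩
      obtain ⟨j, hj⟩ := Subgroup.mem_zpowers_iff.mp (hc ⟨w, hw⟩)
      have hw' : w = (c : G ⧸ H) ^ j := by
        have := congrArg Subtype.val hj
        simpa using this.symm
      have hi' : (c : G ⧸ H) ^ i = g * (c : G ⧸ H) * g⁻¹ := by
        have := congrArg Subtype.val hi
        simpa using this
      rw [hw', ← conj_zpow, ← hi', ← zpow_mul, ← zpow_mul, mul_comm]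
    obtain ⟨i, hi⟩ := key x
    obtain ⟨j, hj⟩ := key y
    have h1 : x * y * v * (x * y)⁻¹ = y * x * v * (y * x)⁻¹ := by
      calc x * y * v * (x * y)⁻¹ = x * (y * v * y⁻¹) * x⁻¹ := by group
        _ = (v ^ j) ^ i := by rw [hj v hv, hi _ (F.zpow_mem hv j)]
        _ = (v ^ i) ^ j := by rw [← zpow_mul, ← zpow_mul, mul_comm]
        _ = y * (x * v * x⁻¹) * y⁻¹ := by rw [hi v hv, hj _ (F.zpow_mem hv i)]
        _ = y * x * v * (y * x)⁻¹ := by group
    rw [commutatorElement_def]
    have h2 : ⁅x, y⁆ * v * ⁅x, y⁆⁻¹ = v := by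
      rw [commutatorElement_def]
      have h3 := fun w hw => (show x * y * w * (x * y)⁻¹ = y * x * w * (y * x)⁻¹ from by
        calc x * y * w * (x * y)⁻¹ = x * (y * w * y⁻¹) * x⁻¹ := by group
          _ = (w ^ j) ^ i := by rw [hj w hw, hi _ (F.zpow_mem hw j)]
          _ = (w ^ i) ^ j := by rw [← zpow_mul, ← zpow_mul, mul_comm]
          _ = y * (x * w * x⁻¹) * y⁻¹ := by rw [hi w hw, hj _ (F.zpow_mem hw i)]
          _ = y * x * w * (y * x)⁻¹ := by group)
      have hw : (y * x)⁻¹ * v * (y * x) ∈ F := by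
        have := hFn.conj_mem v hv (y * x)⁻¹
        simpa using this
      calc x * y * x⁻¹ * y⁻¹ * v * (x * y * x⁻¹ * y⁻¹)⁻¹ = x * y * ((y * x)⁻¹ * v * (y * x)) * (x * y)⁻¹ := by group
        _ = y * x * ((y * x)⁻¹ * v * (y * x)) * (y * x)⁻¹ := h3 _ hw
        _ = v := by group
    rw [commutatorElement_def] at h2
    calc v * (x * y * x⁻¹ * y⁻¹) = (x * y * x⁻¹ * y⁻¹ * v * (x * y * x⁻¹ * y⁻¹)⁻¹) * (x * y * x⁻¹ * y⁻¹) := by rw [h2]
      _ = x * y * x⁻¹ * y⁻¹ * v := by group
  have hFidx : ∀ p : ℕ, p.Prime → p ∣ F.index → p ∈ A := by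
    intro p hp hd
    by_contra hpA
    haveI := Fact.mk hp
    rw [Subgroup.index_eq_card] at hd
    obtain ⟨y, hy⟩ := exists_prime_orderOf_dvd_card' p hd
    have hxF : orderOf (QuotientGroup.mk' F x₀) = a₀ := by
      rcases (Nat.dvd_prime ha₀).mp (hx₀ ▸ orderOf_map_dvd (QuotientGroup.mk' F) x₀) with e | e
      · exfalso
        have hmem := (QuotientGroup.eq_one_iff x₀).mp (orderOf_eq_one_iff.mp e)
        exact hFA a₀ ha₀ (hx₀ ▸ Subgroup.orderOf_dvd_natCard F hmem) ha₀A
      · exact e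
    refine not_commute (split_quotient hQ F) ha₀ hp ha₀A hpA hxF hy ?_
    obtain ⟨u, rfl⟩ := QuotientGroup.mk'_surjective F y
    show _ * _ = _ * _
    rw [← commutatorElement_eq_one_iff_mul_comm, ← map_commutatorElement]
    exact (QuotientGroup.eq_one_iff _).mpr (hab _ _)
  have hF1 : F ≠ ⊥ := fun e => by
    obtain ⟨y, hy⟩ := exists_ne (1 : G ⧸ H)
    refine hy (Subgroup.mem_bot.mp (e ▸ hcent ?_))
    rw [e, Subgroup.mem_centralizer_iff]
    intro v hv
    rw [Subgroup.mem_bot.mp hv, one_mul, mul_one]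
  have hFtop : F ≠ ⊤ := fun e => hFA a₀ ha₀ (by rw [e, Subgroup.card_top]; exact hx₀ ▸ orderOf_dvd_natCard x₀) ha₀A
  set K := F.comap π with hK
  have hKH := hHle F
  haveI : (H.subgroupOf K).Normal := hHn.subgroupOf K
  refine ⟨H, K, hHn, inferInstance, lt_of_le_of_ne hKH fun e => hF1 ?_, ?_, ?_⟩
  · have h1 := hcardcomap F
    rw [← hK, ← e] at h1
    refine Subgroup.eq_bot_of_card_eq _ ?_
    exact Nat.eq_of_mul_eq_mul_right Nat.card_pos (h1.symm.trans (one_mul _).symm)
  · have hKsplit : Split A K := fun a b ha hb' haA hbA g => by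
      rw [← Subgroup.orderOf_coe]; exact h a b ha hb' haA hbA (g : G)
    have hidx : (H.subgroupOf K).index = Nat.card F := by
      have h1 := (H.subgroupOf K).index_mul_card
      rw [Nat.card_congr (Subgroup.subgroupOfEquivOfLe hKH).toEquiv, hcardcomap] at h1
      exact Nat.eq_of_mul_eq_mul_right Nat.card_pos h1
    refine frob_of_split hKsplit (H.subgroupOf K) ?_ (fun e => hF1 ?_) ?_ (hidx.symm ▸ hFA)
    · rw [Ne, Subgroup.subgroupOf_eq_bot, disjoint_iff, inf_eq_left.mpr hKH]; exact hH1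
    · rw [← Subgroup.index_eq_one, hidx] at e
      exact Subgroup.eq_bot_of_card_eq _ e
    · rw [Nat.card_congr (Subgroup.subgroupOfEquivOfLe hKH).toEquiv]; exact hH
  · rw [hK, Subgroup.map_comap_eq_self_of_surjective hπs]
    have hQ' : Split Aᶜ (G ⧸ H) := fun a b ha hb' haA hbA g => by
      rw [mul_comm]
      exact hQ b a hb' ha (by simpa using hbA) haA g
    exact frob_of_split hQ' F hF1 hFtop (fun p hp hd => hFA p hp hd) (fun p hp hd hc => hc (hFidx p hp hd))


/-- A finite solvable group whose prime graph (prime divisors of the order, two distinct primes joined when there is an element of order their product) is disconnected is a Frobenius group or a 2-Frobenius group (it has normal subgroups H < K with K a Frobenius group with kernel H and G/H a Frobenius group with kernel K/H). -/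
theorem result {G : Type*} [Group G] [Finite G] (hsol : Group.IsSolvable G)
    (hdisc : (∃ A : Set ℕ, (∃ a ∈ A, a.Prime ∧ a ∣ Nat.card G) ∧ (∃ b ∉ A, b.Prime ∧ b ∣ Nat.card G) ∧
      ∀ a ∈ A, ∀ b ∉ A, a.Prime → b.Prime → a ∣ Nat.card G → b ∣ Nat.card G → ¬ ∃ g : G, orderOf g = a * b)) :
    (∃ C : Subgroup G, Cfsg.IsFrobeniusComplement C) ∨
    (∃ (H K : Subgroup G) (_ : H.Normal), K.Normal ∧ H < K ∧
      (∃ C : Subgroup ↥K, Cfsg.IsFrobeniusComplement C ∧ Cfsg.frobeniusKernel C = (H.subgroupOf K : Set ↥K)) ∧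
      (∃ C : Subgroup (G ⧸ H), Cfsg.IsFrobeniusComplement C ∧ Cfsg.frobeniusKernel C = (K.map (QuotientGroup.mk' H) : Set (G ⧸ H)))) := by
  classical
  obtain ⟨A, ⟨a, haA, ha, had⟩, ⟨b, hbA, hb, hbd⟩, hno⟩ := hdisc
  have h : Split A G := fun p q hp hq hpA hqA g hg => by
    have hd : p * q ∣ Nat.card G := hg ▸ orderOf_dvd_natCard g
    exact hno p hpA q hqA hp hq ((dvd_mul_right p q).trans hd) ((dvd_mul_left q p).trans hd) ⟨g, hg⟩
  haveI : Nontrivial G := by
    rw [← Finite.one_lt_card_iff_nontrivial]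
    exact lt_of_lt_of_le ha.one_lt (Nat.le_of_dvd Nat.card_pos had)
  haveI := hsol
  obtain ⟨p, N, hp, hNn, hN1, -, hexp⟩ := Cfsg.Agent.S4213.exists_elem_normal (G := G)
  haveI := hNn
  by_cases hpA : p ∈ A
  · exact main hsol A h ⟨b, hbA, hb, hbd⟩ N hN1 (elem_side hp hexp hpA)
  · refine main hsol Aᶜ (fun q r hq hr hqA hrA g => ?_) ⟨a, fun hc => hc haA, ha, had⟩ N hN1 (elem_side hp hexp hpA)
    rw [mul_comm]
    exact h r q hr hq (by simpa using hrA) hqA g

end Cfsg.Agent.S3857
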