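import Cfsg.Statements.S3858
import Mathlib.GroupTheory.Sylow
import Mathlib.GroupTheory.Subgroup.Simple
import Mathlib.Order.Atoms
import Mathlib.GroupTheory.Index

set_option autoImplicit false
open Cfsg

namespace Cfsg.Agent.S3858
open scoped Pointwise

theorem exists_coatom_ge {G : Type*} [Group G] [Finite G] (X : Subgroup G) (hX : X ≠ ⊤) :
    ∃ M : Subgroup G, IsCoatom M ∧ X ≤ M := by
  rcases eq_top_or_exists_le_coatom X with h | ⟨M, hM, hle⟩
  exacts [absurd h hX, ⟨M, hM, hle⟩]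

theorem inf_not_normal {G : Type*} [Group G] [Finite G] (T : Subgroup G) [T.Normal] (hT : IsSimpleGroup T)
    (hna : ¬ IsMulCommutative T) {r : ℕ} [Fact r.Prime] (R : Sylow r G) (hR0 : (R : Subgroup G) ⊓ T ≠ ⊥) :
    ¬ ((R : Subgroup G) ⊓ T).Normal := fun hn => by
  set K := (R : Subgroup G) ⊓ T with hK
  haveI := hn
  rcases hT.eq_bot_or_eq_top_of_normal (K.subgroupOf T) inferInstance with h | h
  · rw [Subgroup.subgroupOf_eq_bot, disjoint_iff] at h
    exact hR0 (by rwa [inf_eq_left.mpr (inf_le_right : K ≤ T)] at h)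
  · rw [Subgroup.subgroupOf_eq_top] at h
    have hTp : IsPGroup r T := R.isPGroup'.to_le (h.trans inf_le_left)
    haveI : Nontrivial T := hT.toNontrivial
    haveI := hTp.center_nontrivial
    rcases hT.eq_bot_or_eq_top_of_normal (Subgroup.center T) inferInstance with hc | hc
    · exact (Subgroup.nontrivial_iff_ne_bot _).mp inferInstance hc
    · exact hna ⟨⟨fun a b => (Subgroup.mem_center_iff.mp (hc ▸ Subgroup.mem_top b) a)⟩⟩


/-- Let G be a finite group with a normal non-abelian simple subgroup T whose centralizer is trivial (G almost simple with socle T), r a prime and R a Sylow r-subgroup of G meeting T nontrivially. Then R lies in exactly one maximal subgroup of G if and only if G has exactly one conjugacy class of maximal subgroups whose index is prime to r. -/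
theorem result {G : Type*} [Group G] [Finite G] (T : Subgroup G) [T.Normal] (hT : IsSimpleGroup T) (hna : ¬ IsMulCommutative T)
    (hC : Subgroup.centralizer (T : Set G) = ⊥) {r : ℕ} [Fact r.Prime] (R : Sylow r G) (hR0 : (R : Subgroup G) ⊓ T ≠ ⊥) :
    (∃! M : Subgroup G, IsCoatom M ∧ (R : Subgroup G) ≤ M) ↔
      ((∃ M : Subgroup G, IsCoatom M ∧ ¬ r ∣ M.index) ∧
        ∀ M₁ M₂ : Subgroup G, IsCoatom M₁ → ¬ r ∣ M₁.index → IsCoatom M₂ → ¬ r ∣ M₂.index → ∃ g : G, M₂ = M₁.map (MulAut.conj g).toMonoidHom) := by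
  classical
  have hdvd : ∀ M : Subgroup G, (R : Subgroup G) ≤ M → ¬ r ∣ M.index := fun M h hd =>
    R.not_dvd_index (hd.trans (Subgroup.index_dvd_of_le h))
  have hcont : ∀ M : Subgroup G, ¬ r ∣ M.index → ∃ g : G, (R : Subgroup G) ≤ M.map (MulAut.conj g).toMonoidHom := by
    intro M hM
    let S : Sylow r M := default
    obtain ⟨Q, hQ⟩ := (S.isPGroup'.map M.subtype).exists_le_sylow
    have hQS : (Q : Subgroup G) ≤ M := by
      have : (Q : Subgroup G) = (S : Subgroup M).map M.subtype := by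
        refine (Subgroup.eq_of_le_of_card_ge hQ ?_).symm
        rw [Subgroup.card_map_of_injective M.subtype_injective, Q.card_eq_multiplicity, S.card_eq_multiplicity]
        refine Nat.pow_le_pow_right (Fact.out : r.Prime).pos (le_of_eq ?_)
        rw [← M.card_mul_index, Nat.factorization_mul Nat.card_pos.ne' M.index_ne_zero_of_finite, Finsupp.add_apply,
          Nat.factorization_eq_zero_of_not_dvd hM, add_zero]
      rw [this]; exact Subgroup.map_subtype_le _
    obtain ⟨g, hg⟩ := MulAction.exists_smul_eq G Q R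
    refine ⟨g, ?_⟩
    rw [← hg]
    exact Subgroup.map_mono hQS
  have hcoatom : ∀ (M : Subgroup G) (g : G), IsCoatom M → IsCoatom (M.map (MulAut.conj g).toMonoidHom) := fun M g h => by
    exact (OrderIso.isCoatom_iff (MulEquiv.mapSubgroup (MulAut.conj g)) M).mpr h
  constructor
  · rintro ⟨M, ⟨hM, hRM⟩, hMu⟩
    refine ⟨⟨M, hM, hdvd M hRM⟩, fun M₁ M₂ h1 h1' h2 h2' => ?_⟩
    obtain ⟨a, ha⟩ := hcont M₁ h1'
    obtain ⟨b, hb⟩ := hcont M₂ h2'
    refine ⟨b⁻¹ * a, ?_⟩
    have e := (hMu _ ⟨hcoatom _ a h1, ha⟩).trans (hMu _ ⟨hcoatom _ b h2, hb⟩).symm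
    have e2 := congrArg (fun X : Subgroup G => X.map (MulAut.conj b⁻¹).toMonoidHom) e
    simp only [Subgroup.map_map] at e2
    have h3 : ∀ x y : G, (MulAut.conj x).toMonoidHom.comp (MulAut.conj y).toMonoidHom = (MulAut.conj (x * y)).toMonoidHom :=
      fun x y => by ext z; simp [MulAut.conj_apply, mul_assoc]
    rw [h3, h3, inv_mul_cancel] at e2
    rw [e2]
    ext z; simp
  · rintro ⟨⟨M₁, hM₁, hM₁'⟩, hconj⟩
    have hN : Subgroup.normalizer ((R : Subgroup G) : Set G) ≠ ⊤ := fun h => by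
      haveI := Subgroup.normalizer_eq_top_iff.mp h
      exact inf_not_normal T hT hna R hR0 inferInstance
    obtain ⟨M₀, hM₀, hNM₀⟩ := exists_coatom_ge _ hN
    have hRM₀ : (R : Subgroup G) ≤ M₀ := Subgroup.le_normalizer.trans hNM₀
    refine ⟨M₀, ⟨hM₀, hRM₀⟩, ?_⟩
    rintro M ⟨hM, hRM⟩
    obtain ⟨h, rfl⟩ := hconj M₀ M hM₀ (hdvd _ hRM₀) hM (hdvd _ hRM)
    -- two Sylow subgroups of the conjugate maximal subgroup
    let R' : Sylow r G := MulAut.conj h • R
    set M' := M₀.map (MulAut.conj h).toMonoidHom with hM'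
    have hR' : (R' : Subgroup G) ≤ M' := Subgroup.map_mono hRM₀
    obtain ⟨m, hm⟩ := MulAction.exists_smul_eq M' (R'.subtype hR') (R.subtype hRM)
    rw [Sylow.smul_subtype] at hm
    have hm' : (m : G) • R' = R := Sylow.subtype_injective hm
    have hN' : (m : G) * h ∈ M₀ := hNM₀ ((Sylow.smul_eq_iff_mem_normalizer).mp (by
      rw [mul_smul]; exact hm'))
    obtain ⟨m₀, hm₀, hmm⟩ := m.2
    ext x
    have key : (m : G) = h * m₀ * h⁻¹ := hmm.symm
    have hh : h ∈ M₀ := by
      rw [key] at hN'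
      simp only [mul_assoc, inv_mul_cancel, mul_one] at hN'
      exact (M₀.mul_mem_cancel_right hm₀).mp hN'
    constructor
    · rintro ⟨y, hy, rfl⟩
      exact M₀.mul_mem (M₀.mul_mem hh hy) (M₀.inv_mem hh)
    · intro hx
      exact ⟨h⁻¹ * x * h, M₀.mul_mem (M₀.mul_mem (M₀.inv_mem hh) hx) hh, by simp [MulAut.conj_apply, mul_assoc]⟩

end Cfsg.Agent.S3858
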