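import Cfsg.Statements.S3859
import Mathlib.GroupTheory.Sylow
import Mathlib.GroupTheory.Subgroup.Simple
import Mathlib.Order.Atoms

set_option autoImplicit false
open Cfsg

namespace Cfsg.Agent.S3859
open scoped Pointwise

theorem exists_coatom_ge {G : Type*} [Group G] [Finite G] (X : Subgroup G) (hX : X ≠ ⊤) :
    ∃ M : Subgroup G, IsCoatom M ∧ X ≤ M := by
  rcases eq_top_or_exists_le_coatom X with h | ⟨M, hM, hle⟩
  exacts [absurd h hX, ⟨M, hM, hle⟩]

theorem inf_not_normal {G : Type*} [Group G] [Finite G] (T : Subgroup G) [T.Normal] (hT : IsSimpleGroup T)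
    (hna : ¬ IsMulCommutative T) {r : ℕ} [Fact r.Prime] (R : Sylow r G) (hR0 : (R : Subgroup G) ⊓ T ≠ ⊥) :
    ¬ ((R : Subgroup G) ⊓ T).Normal := fun hn => by
  set K := (R : Subgroup G) ⊓ T with hK
  haveI := hn
  rcases hT.eq_bot_or_eq_top_of_normal (K.subgroupOf T) inferInstance with h | h
  · rw [Subgroup.subgroupOf_eq_bot, disjoint_iff] at h
    exact hR0 (by rwa [inf_eq_left.mpr (inf_le_right : K ≤ T)] at h)
  · rw [Subgroup.subgroupOf_eq_top] at h
    have hTp : IsPGroup r T := R.isPGroup'.to_le (h.trans inf_le_left)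
    haveI : Nontrivial T := hT.toNontrivial
    haveI := hTp.center_nontrivial
    rcases hT.eq_bot_or_eq_top_of_normal (Subgroup.center T) inferInstance with hc | hc
    · exact (Subgroup.nontrivial_iff_ne_bot _).mp inferInstance hc
    · exact hna ⟨⟨fun a b => (Subgroup.mem_center_iff.mp (hc ▸ Subgroup.mem_top b) a)⟩⟩


/-- Let G be a finite group with a normal non-abelian simple subgroup T whose centralizer is trivial (G almost simple with socle T), r a prime and R a Sylow r-subgroup of G meeting T nontrivially. If R lies in exactly one maximal subgroup of G, then G/T is an r-group. -/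
theorem result {G : Type*} [Group G] [Finite G] (T : Subgroup G) [T.Normal] (hT : IsSimpleGroup T) (hna : ¬ IsMulCommutative T)
    (hC : Subgroup.centralizer (T : Set G) = ⊥) {r : ℕ} [Fact r.Prime] (R : Sylow r G) (hR0 : (R : Subgroup G) ⊓ T ≠ ⊥)
    (huniq : ∃! M : Subgroup G, IsCoatom M ∧ (R : Subgroup G) ≤ M) : IsPGroup r (G ⧸ T) := by
  classical
  obtain ⟨M, ⟨hM, hRM⟩, hMu⟩ := huniq
  have hle : ∀ X : Subgroup G, (R : Subgroup G) ≤ X → X ≠ ⊤ → X ≤ M := fun X hRX hX => by
    obtain ⟨M', hM', hXM'⟩ := exists_coatom_ge X hX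
    exact hMu M' ⟨hM', hRX.trans hXM'⟩ ▸ hXM'
  have htop : (R : Subgroup G) ⊔ T = ⊤ := by
    by_contra h
    have hTM : T ≤ M := le_sup_right.trans (hle _ le_sup_left h)
    set K := (R : Subgroup G) ⊓ T with hK
    have hN : Subgroup.normalizer (K : Set G) ≠ ⊤ := fun h' => inf_not_normal T hT hna R hR0 (Subgroup.normalizer_eq_top_iff.mp h')
    have hRN : (R : Subgroup G) ≤ Subgroup.normalizer (K : Set G) := fun x hx => by
      rw [Subgroup.mem_normalizer_iff]
      intro y
      constructor
      · intro hy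
        exact ⟨Subgroup.mul_mem _ (Subgroup.mul_mem _ hx hy.1) (Subgroup.inv_mem _ hx), (‹T.Normal›).conj_mem y hy.2 x⟩
      · intro hy
        refine ⟨?_, ?_⟩
        · have := Subgroup.mul_mem _ (Subgroup.mul_mem _ (Subgroup.inv_mem _ hx) hy.1) hx
          rwa [show x⁻¹ * (x * y * x⁻¹) * x = y by group] at this
        · have := (‹T.Normal›).conj_mem _ hy.2 x⁻¹
          simpa [mul_assoc] using this
    have hNM := hle _ hRN hN
    -- Frattini argument
    obtain ⟨P, hP⟩ := ((R.isPGroup'.to_le (inf_le_left : K ≤ (R : Subgroup G))).comap_subtype (K := T)).exists_le_sylow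
    have hPR : (P : Subgroup T) = K.subgroupOf T := by
      refine le_antisymm ?_ hP
      have hmap : IsPGroup r ((P : Subgroup T).map T.subtype) := P.isPGroup'.map _
      obtain ⟨Q, hQ⟩ := hmap.exists_le_sylow
      have h1 : Nat.card K ≤ Nat.card ((P : Subgroup T).map T.subtype) := by
        refine Subgroup.card_le_of_le fun x hx => ?_
        exact ⟨⟨x, hx.2⟩, hP hx, rfl⟩
      have h2 : (R : Subgroup G) ⊔ (P : Subgroup T).map T.subtype ≤ (R : Subgroup G) := by
        have hKP : K ≤ (P : Subgroup T).map T.subtype := fun x hx => ⟨⟨x, hx.2⟩, hP hx, rfl⟩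
        obtain ⟨g, hg⟩ := MulAction.exists_smul_eq G Q R
        have h3 : Nat.card ((P : Subgroup T).map T.subtype) ≤ Nat.card K := by
          have h4 : ((P : Subgroup T).map T.subtype).map (MulAut.conj g).toMonoidHom ≤ K := by
            rintro _ ⟨y, hy, rfl⟩
            refine ⟨?_, ?_⟩
            · rw [← hg]
              exact Subgroup.smul_mem_pointwise_smul y (MulAut.conj g) _ (hQ hy)
            · obtain ⟨y, -, rfl⟩ := hy
              exact (‹T.Normal›).conj_mem _ y.2 g
          have h5 := Subgroup.card_le_of_le h4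
          rwa [Subgroup.card_map_of_injective (MulAut.conj g).injective] at h5
        rw [← Subgroup.eq_of_le_of_card_ge hKP h3]
        exact sup_le le_rfl inf_le_left
      intro y hy
      exact ⟨h2 (Subgroup.mem_sup_right ⟨y, hy, rfl⟩), y.2⟩
    have hF := P.normalizer_sup_eq_top
    rw [hPR, Subgroup.map_subgroupOf_eq_of_le inf_le_right] at hF
    exact hM.1 (top_le_iff.mp (hF.symm.trans_le (sup_le hNM hTM)))
  refine R.isPGroup'.of_surjective ((QuotientGroup.mk' T).comp (R : Subgroup G).subtype) fun q => ?_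
  obtain ⟨g, rfl⟩ := QuotientGroup.mk'_surjective T q
  have hg : g ∈ (((R : Subgroup G) ⊔ T : Subgroup G) : Set G) := by rw [htop]; exact Subgroup.mem_top g
  rw [Subgroup.mul_normal] at hg
  obtain ⟨x, hx, t, ht, rfl⟩ := hg
  refine ⟨⟨x, hx⟩, ?_⟩
  show QuotientGroup.mk' T x = QuotientGroup.mk' T (x * t)
  rw [map_mul, show QuotientGroup.mk' T t = 1 from (QuotientGroup.eq_one_iff t).mpr ht, mul_one]

end Cfsg.Agent.S3859
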