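import Cfsg.Statements.S3861
import Cfsg.Agent.Lib.BaerSuzuki
import Cfsg.Agent.Lib.Core
import Cfsg.Agent.Lib.GroupB.Coprime
import Cfsg.Agent.Lib.Thompson.PClosed

set_option autoImplicit false
open Cfsg

namespace Cfsg.Agent.S3861

/-- A finite group G has no non-identity element of odd order that is conjugate to its inverse if and only if the Sylow 2-subgroups of G are normal. -/
theorem result {G : Type*} [Group G] [Finite G] (P : Sylow 2 G) : (∀ x : G, x ≠ 1 → Odd (orderOf x) → ¬ IsConj x x⁻¹) ↔ (P : Subgroup G).Normal := by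
  constructor
  · intro h
    suffices hP : (P : Subgroup G) ≤ Cfsg.pCore 2 G by
      rw [le_antisymm hP (CfsgLib.Core.pCore_le_sylow P)]
      exact Subgroup.sSup_normal _ (fun _ h => h.1)
    set N := Cfsg.pCore 2 G with hNdef
    haveI : N.Normal := Subgroup.sSup_normal _ (fun _ h => h.1)
    by_contra hP
    have hPne : (P : Subgroup G).map (QuotientGroup.mk' N) ≠ ⊥ := by
      rw [Ne, Subgroup.map_eq_bot_iff, QuotientGroup.ker_mk']; exact hP
    obtain ⟨t, htord⟩ := exists_prime_orderOf_dvd_card' 2 (G := (P : Subgroup G).map (QuotientGroup.mk' N)) (by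
      obtain ⟨k, hk⟩ := IsPGroup.iff_card.mp (P.2.map (QuotientGroup.mk' N))
      rw [hk]
      refine dvd_pow_self 2 fun h0 => hPne (Subgroup.card_eq_one.mp ?_)
      rw [hk, h0, pow_zero])
    obtain ⟨z, hz1, hzodd, hzinv⟩ := CfsgLib.BaerSuzuki.exists_inverted_odd (t : G ⧸ N)
      (by rw [Subgroup.orderOf_coe]; exact htord) (fun M hM hM2 htM => by
        have : M ≤ Cfsg.pCore 2 (G ⧸ N) := CfsgLib.Core.le_pCore hM hM2
        rw [CfsgLib.Core.pCore_quotient_eq_bot] at this
        have h1 : (t : G ⧸ N) = 1 := Subgroup.mem_bot.mp (this htM)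
        rw [← Subgroup.orderOf_coe, h1, orderOf_one] at htord
        exact absurd htord (by norm_num))
    obtain ⟨z₀, hz₀⟩ := QuotientGroup.mk'_surjective N z
    obtain ⟨t₀, ht₀⟩ := QuotientGroup.mk'_surjective N (t : G ⧸ N)
    obtain ⟨x, -, hxz, hxc⟩ := CfsgLib.ThompsonNPC.exists_coprime_lift (p := 2) (QuotientGroup.mk' N) (x := z₀)
      (by rw [hz₀]; exact (Nat.coprime_two_right.mpr hzodd))
    rw [hz₀] at hxz
    set y := t₀ * x * t₀⁻¹ with hy
    have hyz : QuotientGroup.mk' N y = z⁻¹ := by rw [hy, map_mul, map_mul, map_inv, ht₀, hxz, hzinv]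
    have hcop : (Nat.card N).Coprime (Nat.card (Subgroup.zpowers x)) := by
      obtain ⟨k, hk⟩ := IsPGroup.iff_card.mp (CfsgLib.Core.isPGroup_pCore (G := G) 2)
      rw [Nat.card_zpowers, hk]
      exact (hxc.pow_right k).symm
    have hKle : Subgroup.zpowers y ≤ N ⊔ Subgroup.zpowers x := by
      rw [Subgroup.zpowers_le]
      have h1 : y * x ∈ N := (QuotientGroup.eq_one_iff _).mp (by
        rw [← QuotientGroup.mk'_apply, map_mul, hyz, hxz, inv_mul_cancel])
      rw [show y = y * x * x⁻¹ by group]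
      exact Subgroup.mul_mem _ (Subgroup.mem_sup_left h1) (Subgroup.mem_sup_right (inv_mem (Subgroup.mem_zpowers x)))
    obtain ⟨n, hn, hconj⟩ := CfsgLib.GroupB.Coprime.sup_conj N (Subgroup.zpowers x) (Subgroup.zpowers y)
      (by rw [Subgroup.normalizer_eq_top]; exact le_top) hcop hKle
      (by rw [Nat.card_zpowers, Nat.card_zpowers, hy, CfsgLib.ThompsonNPC.orderOf_conj_eq])
      (Or.inr (by letI : CommGroup ↥(Subgroup.zpowers x) := IsCyclic.commGroup; infer_instance))
    have hmem : n⁻¹ * y * n ∈ Subgroup.zpowers x := by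
      obtain ⟨w, hw, hwy⟩ := (hconj.le (Subgroup.mem_zpowers y) : y ∈ _)
      have hwy' : n * w * n⁻¹ = y := hwy
      rw [← hwy']; simpa [mul_assoc] using hw
    have heq : n⁻¹ * y * n = x⁻¹ := by
      have h1 : n⁻¹ * y * n * x ∈ N ⊓ Subgroup.zpowers x := by
        refine ⟨(QuotientGroup.eq_one_iff _).mp ?_, Subgroup.mul_mem _ hmem (Subgroup.mem_zpowers x)⟩
        rw [← QuotientGroup.mk'_apply, map_mul, map_mul, map_mul, map_inv, hyz, hxz,
          show QuotientGroup.mk' N n = 1 from (QuotientGroup.eq_one_iff n).mpr hn]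
        group
      rw [CfsgLib.GroupB.Coprime.inf_eq_bot_of_coprime hcop, Subgroup.mem_bot] at h1
      exact eq_inv_of_mul_eq_one_left h1
    refine h x ?_ (Nat.coprime_two_right.mp hxc) (isConj_iff.mpr ⟨n⁻¹ * t₀, ?_⟩)
    · rintro rfl; exact hz1 (hxz.symm.trans (map_one _))
    · rw [← heq, hy]; group
  · intro hP x hx hxo hc
    obtain ⟨g, hg⟩ := isConj_iff.mp hc
    haveI := hP
    set f := QuotientGroup.mk' (P : Subgroup G)
    have hodd : Odd (Nat.card (G ⧸ (P : Subgroup G))) := by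
      rw [← Subgroup.index_eq_card, Nat.odd_iff]
      have := P.not_dvd_index
      omega
    have hfx : f x = 1 := by
      have h1 : f g * f x * (f g)⁻¹ = (f x)⁻¹ := by rw [← map_inv, ← map_mul, ← map_mul, hg, map_inv]
      have h2 : ∀ k : ℕ, Odd k → (f g) ^ k * f x * ((f g) ^ k)⁻¹ = (f x)⁻¹ := by
        intro k hk
        obtain ⟨m, rfl⟩ := hk
        induction m with
        | zero => simpa using h1
        | succ m hm =>
          calc (f g) ^ (2 * (m + 1) + 1) * f x * ((f g) ^ (2 * (m + 1) + 1))⁻¹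
              = f g * (f g * ((f g) ^ (2 * m + 1) * f x * ((f g) ^ (2 * m + 1))⁻¹) * (f g)⁻¹) * (f g)⁻¹ := by
                rw [show 2 * (m + 1) + 1 = 2 * m + 1 + 1 + 1 by ring, pow_succ' _ (2 * m + 1 + 1), pow_succ' _ (2 * m + 1)]
                group
            _ = f g * (f g * (f x)⁻¹ * (f g)⁻¹) * (f g)⁻¹ := by rw [hm]
            _ = f g * (f g * f x * (f g)⁻¹)⁻¹ * (f g)⁻¹ := by group
            _ = (f x)⁻¹ := by rw [h1, inv_inv, h1]
      have h3 := h2 _ hodd
      rw [pow_card_eq_one', one_mul, inv_one, mul_one] at h3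
      have h4 : (f x) ^ 2 = 1 := by rw [pow_two]; nth_rw 1 [h3]; exact inv_mul_cancel _
      exact orderOf_eq_one_iff.mp (Nat.eq_one_of_dvd_coprimes (Nat.coprime_two_left.mpr hodd)
        (orderOf_dvd_of_pow_eq_one h4) (orderOf_dvd_natCard _))
    obtain ⟨k, hk⟩ := IsPGroup.iff_orderOf.mp P.2 ⟨x, (QuotientGroup.eq_one_iff x).mp hfx⟩
    rw [Subgroup.orderOf_mk] at hk
    rw [hk] at hxo
    have : k = 0 := by
      by_contra h0
      exact (Nat.not_odd_iff_even.mpr (Nat.even_pow.mpr ⟨even_two, h0⟩)) hxo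
    exact hx (orderOf_eq_one_iff.mp (by rw [hk, this, pow_zero]))

end Cfsg.Agent.S3861
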