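import Cfsg.Statements.S3862
import Cfsg.Agent.Lib.Thompson.Criterion
import Mathlib.GroupTheory.SchurZassenhaus

set_option autoImplicit false
open Cfsg

namespace Cfsg.Agent.S3862

open Subgroup in
theorem centralizes {G : Type*} [Group G] [Finite G]
    (h : ∀ x : G, (∃ j : ℕ, orderOf x = 2 ^ j) → IsConj x x⁻¹ → x ∈ Subgroup.center G)
    {Q : Subgroup G} (hQ : IsPGroup 2 Q) {x : G} (hxN : x ∈ normalizer (Q : Set G))
    (hx : (orderOf x).Coprime 2) : ∀ y ∈ Q, x * y = y * x := by
  intro y
  induction hn : orderOf y using Nat.strong_induction_on generalizing y with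
  | _ n ih =>
    intro hy
    by_cases hy1 : y = 1
    · subst hy1; simp
    obtain ⟨k, hk⟩ := IsPGroup.iff_orderOf.mp hQ ⟨y, hy⟩
    rw [Subgroup.orderOf_mk] at hk
    have hk0 : k ≠ 0 := by
      rintro rfl
      exact hy1 (orderOf_eq_one_iff.mp (by simpa using hk))
    have h2 : orderOf (y ^ 2) < n := by
      rw [← hn, orderOf_pow_of_dvd two_ne_zero (hk ▸ dvd_pow_self 2 hk0)]
      exact Nat.div_lt_self (orderOf_pos y) (by norm_num)
    have hsq : x * y ^ 2 = y ^ 2 * x := ih _ h2 (y ^ 2) rfl (pow_mem hy 2)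
    set y' := x * y * x⁻¹ with hy'
    have hy'Q : y' ∈ Q := (Subgroup.mem_normalizer_iff.mp hxN y).mp hy
    have hsq' : y' * y' = y * y := by
      rw [hy', show x * y * x⁻¹ * (x * y * x⁻¹) = x * y ^ 2 * x⁻¹ by rw [pow_two]; group, hsq, pow_two]
      group
    set w := y⁻¹ * y' with hw
    have hwQ : w ∈ Q := Q.mul_mem (Q.inv_mem hy) hy'Q
    obtain ⟨j, hj⟩ := IsPGroup.iff_orderOf.mp hQ ⟨w, hwQ⟩
    rw [Subgroup.orderOf_mk] at hj
    have hconj : y * w * y⁻¹ = w⁻¹ := by
      have h1 : y' * y⁻¹ = y'⁻¹ * y := by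
        have h2 : y' * (y' * y⁻¹) = y' * (y'⁻¹ * y) := by
          rw [← mul_assoc, hsq']; group
        exact mul_left_cancel h2
      calc y * w * y⁻¹ = y' * y⁻¹ := by rw [hw]; group
        _ = w⁻¹ := by rw [h1, hw]; group
    have hwc := Subgroup.mem_center_iff.mp (h w ⟨j, hj⟩ (isConj_iff.mpr ⟨y, hconj⟩))
    have hxy : x * y * x⁻¹ = y * w := by rw [hw, mul_inv_cancel_left]
    have hpow : ∀ i : ℕ, x ^ i * y * (x ^ i)⁻¹ = y * w ^ i := by
      intro i
      induction i with
      | zero => simp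
      | succ i hi =>
        calc x ^ (i + 1) * y * (x ^ (i + 1))⁻¹ = x * (x ^ i * y * (x ^ i)⁻¹) * x⁻¹ := by
              rw [pow_succ']; group
          _ = x * y * w ^ i * x⁻¹ := by rw [hi]; group
          _ = (x * y * x⁻¹) * (x * w ^ i * x⁻¹) := by group
          _ = y * w * w ^ i := by
              rw [hxy, (Commute.pow_right (show Commute x w from hwc x) i).eq, mul_inv_cancel_right]
          _ = y * w ^ (i + 1) := by rw [pow_succ', mul_assoc]
    have h1 := hpow (orderOf x)
    rw [pow_orderOf_eq_one, one_mul, inv_one, mul_one, left_eq_mul] at h1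
    have hw1 : w = 1 := orderOf_eq_one_iff.mp (Nat.eq_one_of_dvd_coprimes (hx.pow_right j)
      (orderOf_dvd_of_pow_eq_one h1) (hj ▸ dvd_rfl))
    rw [hw1, mul_one] at hxy
    exact mul_inv_eq_iff_eq_mul.mp hxy

universe u
open Subgroup in
open CfsgLib.ThompsonNPC in
theorem of_centralizing {G : Type u} [Group G] [Finite G] {p : ℕ} [hp : Fact p.Prime]
    (h : ∀ Q : Subgroup G, IsPGroup p Q → ∀ x ∈ normalizer (Q : Set G), (orderOf x).Coprime p →
      ∀ y ∈ Q, x * y = y * x) : PCOn p (⊤ : Subgroup G) := by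
  induction hn : Nat.card G using Nat.strong_induction_on generalizing G with
  | _ n ih =>
    have hsub : ∀ H : Subgroup G, H ≠ ⊤ → PCOn p H := by
      intro H hH
      refine pcOn_top_subgroup.mp (ih _ (hn ▸ lt_of_le_of_ne (card_le_card_group H)
        fun e => hH (eq_top_of_card_eq H e)) (G := H) ?_ rfl)
      intro Q hQ x hxN hx y hy
      refine Subtype.ext (h (Q.map H.subtype) (hQ.map _) x ?_ (by rwa [Subgroup.orderOf_coe]) y ⟨y, hy, rfl⟩)
      exact le_normalizer_map H.subtype ⟨x, hxN, rfl⟩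
    refine pcOn_top_of_normalizers fun Q hQ hQ1 => ?_
    by_cases hN : normalizer (Q : Set G) = ⊤
    swap
    · exact hsub _ hN
    set R := closure {x : G | (orderOf x).Coprime p} with hR
    by_cases hRt : R = ⊤
    swap
    · intro x _ y _ hx hy
      exact hsub R hRt x (subset_closure hx) y (subset_closure hy) hx hy
    haveI hQn : Q.Normal := normalizer_eq_top_iff.mp hN
    have hcen : ∀ y ∈ Q, ∀ x : G, x * y = y * x := by
      intro y hy x
      have : R ≤ centralizer ({y} : Set G) := by
        rw [hR, closure_le]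
        intro z hz
        exact mem_centralizer_singleton_iff.mpr (h Q hQ z (hN ▸ mem_top z) hz y hy)
      exact mem_centralizer_singleton_iff.mp (this (hRt ▸ mem_top x))
    have hlt : Nat.card (G ⧸ Q) < n := by
      rw [← hn, Q.card_eq_card_quotient_mul_card_subgroup]
      exact lt_mul_of_one_lt_right Nat.card_pos (one_lt_card_iff_ne_bot Q |>.mpr hQ1)
    have hq : PCOn p (⊤ : Subgroup (G ⧸ Q)) := by
      refine ih _ hlt ?_ rfl
      intro S hS x hxN hx y hy
      obtain ⟨x, rfl⟩ := QuotientGroup.mk'_surjective Q x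
      obtain ⟨b, -, hb, hbc⟩ := exists_coprime_lift (QuotientGroup.mk' Q) hx
      obtain ⟨y, rfl⟩ := QuotientGroup.mk'_surjective Q y
      rw [← hb] at hxN ⊢
      rw [← map_mul, ← map_mul]
      congr 1
      refine h (S.comap (QuotientGroup.mk' Q)) (hS.comap_of_ker_isPGroup _ (by rwa [QuotientGroup.ker_mk'])) b ?_ hbc y hy
      rw [Subgroup.mem_normalizer_iff]
      intro z
      rw [mem_comap, mem_comap, map_mul, map_mul, map_inv]
      exact Subgroup.mem_normalizer_iff.mp hxN _
    -- the quotient is a group of order prime to `p`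
    have htop : pcore' hq = ⊤ := by
      refine eq_top_iff.mpr ?_
      have htR : (⊤ : Subgroup (G ⧸ Q)) = R.map (QuotientGroup.mk' Q) := by
        rw [hRt, map_top_of_surjective _ (QuotientGroup.mk'_surjective Q)]
      refine htR.le.trans ?_
      rw [hR, MonoidHom.map_closure, closure_le]
      rintro _ ⟨z, hz, rfl⟩
      exact ⟨trivial, hz.coprime_dvd_left (orderOf_map_dvd _ z)⟩
    have hcop : (Nat.card Q).Coprime Q.index := by
      obtain ⟨k, hk⟩ := IsPGroup.iff_card.mp hQ
      have := card_pcore'_coprime hq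
      rw [htop, card_top, ← index_eq_card] at this
      rw [hk]
      exact (this.pow_right k).symm
    obtain ⟨K, hK⟩ := exists_right_complement'_of_coprime hcop
    have hKn : ∀ x : G, (orderOf x).Coprime p → x ∈ K := by
      intro x hx
      obtain ⟨⟨q, k⟩, hqk⟩ := hK.2 x
      have hqx : Commute (q : G) (k : G) := (hcen q q.2 k).symm
      obtain ⟨j, hj⟩ := IsPGroup.iff_orderOf.mp hQ q
      have h1 : (q : G) ^ orderOf x * (k : G) ^ orderOf x = 1 := by
        rw [← hqx.mul_pow]; exact (show (q : G) * k = x from hqk) ▸ pow_orderOf_eq_one x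
      have h2 : (q : G) ^ orderOf x ∈ Q ⊓ K := ⟨pow_mem q.2 _, by
        rw [eq_inv_of_mul_eq_one_left h1]; exact K.inv_mem (K.pow_mem k.2 _)⟩
      rw [hK.disjoint.eq_bot, mem_bot] at h2
      have : (q : G) = 1 := orderOf_eq_one_iff.mp (Nat.eq_one_of_dvd_coprimes (hx.pow_right j)
        (orderOf_dvd_of_pow_eq_one h2) ((Subgroup.orderOf_coe q).trans hj ▸ dvd_rfl))
      rw [← (show (q : G) * k = x from hqk), this, one_mul]
      exact k.2
    have hKt : K = ⊤ := top_le_iff.mp (hRt ▸ (closure_le K).mpr hKn)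
    refine absurd ?_ hQ1
    have := hK.disjoint.eq_bot
    rwa [hKt, inf_top_eq] at this

/-- If every 2-element of the finite group G that is conjugate to its inverse lies in the centre of G, then G has a normal 2-complement. -/
theorem result {G : Type*} [Group G] [Finite G] (h : ∀ x : G, (∃ j : ℕ, orderOf x = 2 ^ j) → IsConj x x⁻¹ → x ∈ Subgroup.center G) : Cfsg.HasNormalPComplement 2 G := by
  refine CfsgLib.ThompsonNPC.hasNPC_iff.mpr (of_centralizing (fun Q hQ x hxN hx y hy => ?_))
  exact centralizes h hQ hxN hx y hy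

end Cfsg.Agent.S3862
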