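import Cfsg.Statements.S3863
import Mathlib.Tactic

set_option autoImplicit false
open Cfsg

namespace Cfsg.Agent.S3863

theorem sq_eq_one {G : Type*} [Group G] [Finite G] {x : G} (hx : IsConj x x⁻¹)
    (hodd : Odd (Subgroup.centralizer ({x} : Set G)).index) : x ^ 2 = 1 := by
  obtain ⟨g, hg⟩ := isConj_iff.mp hx
  have hinv : ∀ y : conjugatesOf x, (y : G)⁻¹ ∈ conjugatesOf x := by
    rintro ⟨y, hy⟩
    obtain ⟨c, hc⟩ := isConj_iff.mp (hy : IsConj x y)
    exact isConj_iff.mpr ⟨c * g, by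
      show c * g * x * (c * g)⁻¹ = y⁻¹
      rw [← hc, conj_inv, ← hg]
      group⟩
  have hcard : Nat.card (conjugatesOf x) = (Subgroup.centralizer ({x} : Set G)).index := by
    refine (Nat.card_congr (Equiv.ofBijective (fun q : G ⧸ Subgroup.centralizer ({x} : Set G) =>
      Quotient.liftOn' q (fun c => (⟨c * x * c⁻¹, isConj_iff.mpr ⟨c, rfl⟩⟩ : conjugatesOf x)) ?_)
      ⟨?_, ?_⟩)).symm
    · intro a b hab
      rw [QuotientGroup.leftRel_apply, Subgroup.mem_centralizer_singleton_iff] at hab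
      apply Subtype.ext
      show a * x * a⁻¹ = b * x * b⁻¹
      calc a * x * a⁻¹ = a * (x * (a⁻¹ * b)) * b⁻¹ := by group
        _ = a * (a⁻¹ * b * x) * b⁻¹ := by rw [hab]
        _ = b * x * b⁻¹ := by group
    · intro a b h
      induction a using QuotientGroup.induction_on with
      | H a =>
        induction b using QuotientGroup.induction_on with
        | H b =>
          have h1 : a * x * a⁻¹ = b * x * b⁻¹ := congrArg Subtype.val h
          refine QuotientGroup.eq.mpr (Subgroup.mem_centralizer_singleton_iff.mpr ?_)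
          calc a⁻¹ * b * x = a⁻¹ * (b * x * b⁻¹) * b := by group
            _ = a⁻¹ * (a * x * a⁻¹) * b := by rw [h1]
            _ = x * (a⁻¹ * b) := by group
    · rintro ⟨y, hy⟩
      obtain ⟨c, hc⟩ := isConj_iff.mp (hy : IsConj x y)
      exact ⟨QuotientGroup.mk c, Subtype.ext hc⟩
  classical
  haveI := Fintype.ofFinite (conjugatesOf x)
  obtain ⟨y, hy⟩ := Equiv.Perm.exists_fixed_point_of_prime (p := 2) (n := 1)
    (by rw [← Nat.card_eq_fintype_card, hcard]; exact fun h => (Nat.not_even_iff_odd.mpr hodd) (even_iff_two_dvd.mpr h))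
    (σ := ({ toFun := fun y => ⟨(y : G)⁻¹, hinv y⟩, invFun := fun y => ⟨(y : G)⁻¹, hinv y⟩,
             left_inv := fun y => Subtype.ext (inv_inv _), right_inv := fun y => Subtype.ext (inv_inv _) } : Equiv.Perm (conjugatesOf x)))
    (Equiv.ext fun y => Subtype.ext (inv_inv (y : G)))
  have h1 : (y : G)⁻¹ = y := congrArg Subtype.val hy
  obtain ⟨c, hc⟩ := isConj_iff.mp (y.2 : IsConj x y)
  rw [← hc, conj_inv] at h1
  have h2 : x⁻¹ = x := mul_left_cancel (mul_right_cancel h1)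
  rw [pow_two]
  nth_rw 1 [← h2]
  exact inv_mul_cancel x

theorem odd_index_of_sylow {G : Type*} [Group G] [Finite G] (P : Sylow 2 G) {H : Subgroup G}
    (hP : (P : Subgroup G) ≤ H) : Odd H.index := by
  refine Nat.not_even_iff_odd.mp fun h => P.not_dvd_index ?_
  exact (even_iff_two_dvd.mp h).trans (Subgroup.index_dvd_of_le hP)

/-- Let x be an element of the finite group G that is conjugate to its inverse. Then some 2-element conjugates x to its inverse; if the conjugacy class of x has odd size then x ^ 2 = 1; and x lies in, and is conjugate to its inverse inside, every normal subgroup of odd index. -/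
theorem result {G : Type*} [Group G] [Finite G] (x : G) (hx : IsConj x x⁻¹) : (∃ t : G, (∃ j : ℕ, orderOf t = 2 ^ j) ∧ t * x * t⁻¹ = x⁻¹) ∧ (Odd (Subgroup.centralizer ({x} : Set G)).index → x ^ 2 = 1) ∧ ∀ (N : Subgroup G) [N.Normal], Odd N.index → ∃ hxN : x ∈ N, IsConj (⟨x, hxN⟩ : N) (⟨x, hxN⟩ : N)⁻¹ := by
  obtain ⟨g, hg⟩ := isConj_iff.mp hx
  obtain ⟨k, m, hm, hn⟩ := Nat.exists_eq_two_pow_mul_odd (orderOf_pos g).ne'
  have hodd : ∀ j : ℕ, Odd j → g ^ j * x * (g ^ j)⁻¹ = x⁻¹ := by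
    intro j hj
    obtain ⟨i, rfl⟩ := hj
    induction i with
    | zero => simpa using hg
    | succ i ih =>
      calc g ^ (2 * (i + 1) + 1) * x * (g ^ (2 * (i + 1) + 1))⁻¹
          = g * (g * (g ^ (2 * i + 1) * x * (g ^ (2 * i + 1))⁻¹) * g⁻¹) * g⁻¹ := by
            rw [show 2 * (i + 1) + 1 = 2 * i + 1 + 1 + 1 by ring, pow_succ' g (2 * i + 1 + 1), pow_succ' g (2 * i + 1)]
            group
        _ = g * (g * x⁻¹ * g⁻¹) * g⁻¹ := by rw [ih]
        _ = g * (g * x * g⁻¹)⁻¹ * g⁻¹ := by group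
        _ = x⁻¹ := by rw [hg, inv_inv, hg]
  have ht : orderOf (g ^ m) = 2 ^ k := by
    rw [orderOf_pow_of_dvd hm.pos.ne' (hn ▸ dvd_mul_left _ _), hn, Nat.mul_div_cancel _ hm.pos]
  refine ⟨⟨g ^ m, ⟨k, ht⟩, hodd m hm⟩, sq_eq_one hx, fun N _ hN => ?_⟩
  have hcop : ∀ y : G ⧸ N, ∀ j : ℕ, y ^ 2 ^ j = 1 → y = 1 := fun y j hy =>
    orderOf_eq_one_iff.mp (Nat.eq_one_of_dvd_coprimes ((Nat.coprime_two_left.mpr hN).pow_left j)
      (orderOf_dvd_of_pow_eq_one hy) (Subgroup.index_eq_card N ▸ orderOf_dvd_natCard y))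
  have htN : g ^ m ∈ N := (QuotientGroup.eq_one_iff _).mp (hcop _ k (by
    rw [← QuotientGroup.mk'_apply, ← map_pow, ← ht, pow_orderOf_eq_one, map_one]))
  have hxN : x ∈ N := by
    refine (QuotientGroup.eq_one_iff _).mp (hcop _ 1 ?_)
    have h1 := congrArg (QuotientGroup.mk' N) (hodd m hm)
    rw [map_mul, map_mul, map_inv, map_inv, show QuotientGroup.mk' N (g ^ m) = 1 from (QuotientGroup.eq_one_iff _).mpr htN,
      one_mul, inv_one, mul_one] at h1
    rw [pow_one, pow_two, ← QuotientGroup.mk'_apply]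
    nth_rw 2 [h1]
    exact mul_inv_cancel _
  exact ⟨hxN, isConj_iff.mpr ⟨⟨g ^ m, htN⟩, Subtype.ext (hodd m hm)⟩⟩

end Cfsg.Agent.S3863
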