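import Cfsg.Statements.S3864
import Cfsg.Agent.Lib.TwoModels.DihedralFusion
import Mathlib.Tactic

set_option autoImplicit false
open Cfsg

namespace Cfsg.Agent.S3864

open CfsgLib.DihedralFusion CfsgLib.QDFusion DihedralGroup

variable {X : Type*} [Group X] [Finite X] {S : Sylow 2 X} {h : ℕ} [NeZero h]
  (eS : ↥(S : Subgroup X) ≃* DihedralGroup (2 * h))

theorem z2a : ∀ a b c : ZMod 2, a ≠ b → (c + a ≠ 0 → c = b) ∧ (c + a = 0 → c = a) := by decide
theorem z2b : ∀ a b c : ZMod 2, a ≠ b → c ≠ a → c = b := by decide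
theorem z2c : ∀ c : ZMod 2, c = 0 ∨ c = 1 := by decide
theorem z2d : (0 : ZMod 2) ≠ 1 := by decide
theorem z2e : (1 : ZMod 2) + 0 ≠ 0 + 0 := by decide

theorem par_cast_h (hh : Even h) : par h (h : ZMod (2 * h)) = 0 := by
  rw [par, map_natCast, ZMod.natCast_eq_zero_iff]
  exact hh.two_dvd

include eS in
theorem cases_inv (a : X) (ha : orderOf a = 2) :
    IsConj a (zX eS) ∨ IsConj a (sX eS 0) ∨ IsConj a (sX eS 1) := by
  obtain ⟨v, hv, hvo, hav⟩ := conj_into_sylow S ha (k := 1) rfl
  rcases inv_cases' eS hv hvo with rfl | ⟨i, rfl⟩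
  · exact Or.inl hav
  · have two := z2c
    rcases two (par h i) with e | e
    · exact Or.inr (Or.inl (hav.trans (sX_conj eS (by rw [e, map_zero]))))
    · exact Or.inr (Or.inr (hav.trans (sX_conj eS (by rw [e, map_one]))))

include eS in
theorem card_classes (l : Finset (ConjClasses X))
    (h1 : ∀ c ∈ l, c = ConjClasses.mk (zX eS) ∨ c = ConjClasses.mk (sX eS 0) ∨ c = ConjClasses.mk (sX eS 1))
    (h2 : ConjClasses.mk (zX eS) ∈ l ∧ ConjClasses.mk (sX eS 0) ∈ l ∧ ConjClasses.mk (sX eS 1) ∈ l) :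
    Nat.card {C : ConjClasses X // ∃ g : X, ConjClasses.mk g = C ∧ orderOf g = 2} = l.card := by
  rw [← Nat.card_eq_finsetCard]
  refine Nat.card_congr (Equiv.subtypeEquivRight fun C => ⟨?_, fun hC => ?_⟩)
  · rintro ⟨g, rfl, hg⟩
    rcases cases_inv eS g hg with e | e | e <;> rw [ConjClasses.mk_eq_mk_iff_isConj.mpr e]
    exacts [h2.1, h2.2.1, h2.2.2]
  · rcases h1 C hC with rfl | rfl | rfl
    exacts [⟨_, rfl, orderOf_zX eS⟩, ⟨_, rfl, orderOf_sX eS 0⟩, ⟨_, rfl, orderOf_sX eS 1⟩]

include eS in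
theorem two_classes (hh : Even h) (hk : ∃ k, h = 2 ^ k) (i j : ZMod (2 * h)) (hij : par h i ≠ par h j)
    (hi : IsConj (zX eS) (sX eS i)) (hj : ¬ IsConj (zX eS) (sX eS j)) :
    (∃ N : Subgroup X, N.Normal ∧ N.index = 2) ∧ ∀ N : Subgroup X, N.Normal → N.index ≠ 4 := by
  haveI := Fact.mk Nat.prime_two
  have two := z2a
  constructor
  · obtain ⟨K, hKn, hK, -⟩ := exists_kernel S (M eS (par h i)) (M_index eS _)
      (M_invariant eS hh hk _ fun l hl => by
        have hlj : par h l = par h j := (two _ _ _ hij).1 hl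
        refine ⟨fun e => hj (e.trans (sX_conj eS hlj)), fun l' hl' e => hj ?_⟩
        exact hi.trans ((sX_conj eS ((two _ _ _ hij).2 hl').symm).trans (e.trans (sX_conj eS hlj))))
    exact ⟨K, hKn, hK⟩
  intro N hN h4
  set π := QuotientGroup.mk' N
  have hc4 : Nat.card (X ⧸ N) = 4 := by rw [← Subgroup.index_eq_card, h4]
  letI : CommGroup (X ⧸ N) := IsPGroup.commGroupOfCardEqPrimeSq (p := 2) hc4
  have hcl : ∀ a b : X, IsConj a b → π a = π b := fun a b hab => isConj_iff_eq.mp (π.map_isConj hab)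
  have hshift : ∀ l, par h l = par h i → π (sX eS l) = π (zX eS) :=
    fun l hl => (hcl _ _ (hi.trans (sX_conj eS hl.symm))).symm
  have hz : π (zX eS) = 1 := by
    have h1 : sX eS i * zX eS = sX eS (i + (h : ZMod (2 * h))) := by
      rw [sX, sX, zX, ← map_mul, sr_mul_r]
    have h2 := congrArg π h1
    rw [map_mul, hshift i rfl, hshift _ (by rw [map_add, par_cast_h hh, add_zero])] at h2
    exact mul_eq_left.mp h2
  have hle : (S : Subgroup X).map π ≤ Subgroup.zpowers (π (sX eS j)) := by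
    have key : ∀ l, π (sX eS l) ∈ Subgroup.zpowers (π (sX eS j)) := by
      intro l
      by_cases hl : par h l = par h i
      · rw [hshift l hl, hz]; exact one_mem _
      · have : par h l = par h j := by
          have three := z2b
          exact three _ _ _ hij hl
        rw [hcl _ _ (sX_conj eS this)]; exact Subgroup.mem_zpowers _
    rintro _ ⟨v, hv, rfl⟩
    obtain ⟨x, rfl⟩ := ι_surj eS hv
    rcases x with l | l
    · rw [show (r l : DihedralGroup (2 * h)) = sr 0 * sr l by rw [sr_mul_sr, sub_zero], map_mul, map_mul]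
      exact mul_mem (key 0) (key l)
    · exact key l
  have h22 : orderOf (π (sX eS j)) ∣ 2 := (orderOf_map_dvd π _).trans (orderOf_sX eS j).dvd
  have hS : Nat.card ↥((S : Subgroup X).map π) ≤ 2 :=
    ((Subgroup.card_le_of_le hle).trans_eq (Nat.card_zpowers _)).trans (Nat.le_of_dvd two_pos h22)
  have hidx : ((S : Subgroup X).map π).index ∣ (S : Subgroup X).index :=
    Subgroup.index_map_dvd _ (QuotientGroup.mk'_surjective N)
  have hmul := ((S : Subgroup X).map π).card_mul_index
  rw [hc4] at hmul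
  have hne2 : ¬ 2 ∣ ((S : Subgroup X).map π).index := fun hd => S.not_dvd_index (hd.trans hidx)
  have hpos : 0 < Nat.card ↥((S : Subgroup X).map π) := Nat.card_pos
  interval_cases hc : Nat.card ↥((S : Subgroup X).map π) <;> omega

include eS in
theorem three_classes (hh : Even h) (hz : ∀ i, ¬ IsConj (zX eS) (sX eS i))
    (hN : Cfsg.HasNormalPComplement 2 X) : ¬ IsConj (sX eS 0) (sX eS 1) := by
  haveI := Fact.mk Nat.prime_two
  obtain ⟨P, N, hn, hc⟩ := hN
  have hcardP : Nat.card (P : Subgroup X) = Nat.card (S : Subgroup X) := Nat.card_congr (Sylow.equiv P S).toEquiv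
  have hcop : Nat.Coprime (Nat.card N) (Nat.card (S : Subgroup X)) := by
    rw [show Nat.card N = (P : Subgroup X).index from hc.index_eq_card.symm, ← hcardP]
    exact P.card_coprime_index.symm
  have hcS : N.IsComplement' (S : Subgroup X) := Subgroup.isComplement'_of_coprime (by
    rw [← hcardP]; exact hc.card_mul) hcop
  intro hconj
  obtain ⟨g, hg⟩ := isConj_iff.mp hconj
  obtain ⟨⟨⟨k, hk⟩, ⟨t, ht⟩⟩, hkt⟩ := hcS.2 g
  have hkt' : k * t = g := hkt
  subst hkt'
  set v := t * sX eS 0 * t⁻¹ with hv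
  have hvS : v ∈ (S : Subgroup X) := mul_mem (mul_mem ht (ι_mem eS _)) (inv_mem ht)
  have h1 : sX eS 1 * v⁻¹ ∈ N ⊓ (S : Subgroup X) := by
    refine ⟨?_, Subgroup.mul_mem _ (ι_mem eS _) (Subgroup.inv_mem _ hvS)⟩
    rw [← hg, show k * t * sX eS 0 * (k * t)⁻¹ * v⁻¹ = k * (v * k⁻¹ * v⁻¹) by rw [hv]; group]
    exact mul_mem hk (hn.conj_mem _ (inv_mem hk) _)
  rw [hcS.disjoint.eq_bot, Subgroup.mem_bot, mul_inv_eq_one] at h1
  obtain ⟨x, rfl⟩ := ι_surj eS ht
  rw [hv, sX, sX, ← map_inv, ← map_mul, ← map_mul, (ι_injective eS).eq_iff] at h1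
  have h2 := congrArg (half h 0) h1
  rw [map_mul, map_mul, map_inv, mul_inv_cancel_comm] at h2
  change Multiplicative.ofAdd (par h 1 + 0) = Multiplicative.ofAdd (par h 0 + 0) at h2
  have h3 := Multiplicative.ofAdd.injective h2
  rw [map_one, map_zero] at h3
  exact z2e h3

/-- Let G be a finite group whose Sylow 2-subgroups are dihedral of order 2 ^ n with n ≥ 3, and count the conjugacy classes of involutions of G. Then exactly one of the following holds: there is one class of involutions and no normal subgroup of index 2; there are two classes of involutions, a normal subgroup of index 2 and none of index 4; there are three classes of involutions and G has a normal 2-complement. -/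
theorem result {G : Type*} [Group G] [Finite G] (P : Sylow 2 G) (n : ℕ) (hn : 3 ≤ n) (hdih : Nonempty (↥(P : Subgroup G) ≃* DihedralGroup (2 ^ (n - 1)))) : (Nat.card {C : ConjClasses G // ∃ g : G, ConjClasses.mk g = C ∧ orderOf g = 2} = 1 ∧ ∀ N : Subgroup G, N.Normal → N.index ≠ 2) ∨ (Nat.card {C : ConjClasses G // ∃ g : G, ConjClasses.mk g = C ∧ orderOf g = 2} = 2 ∧ (∃ N : Subgroup G, N.Normal ∧ N.index = 2) ∧ ∀ N : Subgroup G, N.Normal → N.index ≠ 4) ∨ (Nat.card {C : ConjClasses G // ∃ g : G, ConjClasses.mk g = C ∧ orderOf g = 2} = 3 ∧ Cfsg.HasNormalPComplement 2 G) := by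
  
  classical
  haveI := Fact.mk Nat.prime_two
  obtain ⟨e0⟩ := hdih
  obtain ⟨m, rfl⟩ : ∃ m, n = m + 3 := ⟨n - 3, by omega⟩
  have e1 : 2 ^ (m + 3 - 1) = 2 * 2 ^ (m + 1) := by
    rw [show m + 3 - 1 = (m + 1) + 1 from rfl, pow_succ']
  rw [e1] at e0
  set h := 2 ^ (m + 1) with hh'
  haveI : NeZero h := ⟨by positivity⟩
  have hh : Even h := ⟨2 ^ m, by rw [hh', pow_succ]; ring⟩
  have hk : ∃ k, h = 2 ^ k := ⟨m + 1, rfl⟩
  set cz := ConjClasses.mk (zX e0) with hcz
  set c0 := ConjClasses.mk (sX e0 0) with hc0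
  set c1 := ConjClasses.mk (sX e0 1) with hc1
  have hpar : par h 0 ≠ par h 1 := by rw [map_zero, map_one]; exact z2d
  by_cases hA : IsConj (zX e0) (sX e0 0) <;> by_cases hB : IsConj (zX e0) (sX e0 1)
  · left
    have hall : ∀ a b : G, orderOf a = 2 → orderOf b = 2 → IsConj a b := all_conj_of e0 fun i => by
      have two := z2c
      rcases two (par h i) with e | e
      · exact hA.trans (sX_conj e0 (by rw [e, map_zero]))
      · exact hB.trans (sX_conj e0 (by rw [e, map_one]))
    refine ⟨?_, fun N _ => no_two e0 hall N⟩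
    rw [card_classes e0 {cz} (fun c hc => Or.inl (Finset.mem_singleton.mp hc))
      ⟨Finset.mem_singleton_self _, Finset.mem_singleton.mpr (ConjClasses.mk_eq_mk_iff_isConj.mpr hA.symm),
        Finset.mem_singleton.mpr (ConjClasses.mk_eq_mk_iff_isConj.mpr hB.symm)⟩, Finset.card_singleton]
  · right; left
    refine ⟨?_, two_classes e0 hh hk 0 1 hpar hA hB⟩
    rw [card_classes e0 {cz, c1} (fun c hc => by simp at hc; tauto)
      ⟨by simp [hcz], by simp [hcz, ConjClasses.mk_eq_mk_iff_isConj.mpr hA], by simp [hc1]⟩]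
    exact Finset.card_pair fun e => hB (ConjClasses.mk_eq_mk_iff_isConj.mp e)
  · right; left
    refine ⟨?_, two_classes e0 hh hk 1 0 hpar.symm hB hA⟩
    rw [card_classes e0 {cz, c0} (fun c hc => by simp at hc; tauto)
      ⟨by simp [hcz], by simp [hc0], by simp [hcz, ConjClasses.mk_eq_mk_iff_isConj.mpr hB]⟩]
    exact Finset.card_pair fun e => hA (ConjClasses.mk_eq_mk_iff_isConj.mp e)
  · right; right
    have hz : ∀ i, ¬ IsConj (zX e0) (sX e0 i) := by
      intro i hi
      have two := z2c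
      rcases two (par h i) with e | e
      · exact hA (hi.trans (sX_conj e0 (by rw [e, map_zero])))
      · exact hB (hi.trans (sX_conj e0 (by rw [e, map_one])))
    have hN := npc e0 hh hz
    refine ⟨?_, hN⟩
    rw [card_classes e0 {cz, c0, c1} (fun c hc => by simpa using hc) ⟨by simp [hcz], by simp [hc0], by simp [hc1]⟩]
    refine Finset.card_eq_three.mpr ⟨cz, c0, c1, ?_, ?_, ?_, rfl⟩
    · exact fun e => hA (ConjClasses.mk_eq_mk_iff_isConj.mp e)
    · exact fun e => hB (ConjClasses.mk_eq_mk_iff_isConj.mp e)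
    · exact fun e => three_classes e0 hh hz hN (ConjClasses.mk_eq_mk_iff_isConj.mp e)


end Cfsg.Agent.S3864
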