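import Cfsg.Statements.S3866
import Mathlib.Tactic

set_option autoImplicit false
open Cfsg

namespace Cfsg.Agent.S3866
open scoped commutatorElement

/-- Let A be a commutative normal subgroup of the finite group G with G generated by A and an element x. Then a ↦ x a x⁻¹ a⁻¹ is a surjective homomorphism from A onto the commutator subgroup of G whose kernel is the centralizer of x in A; in particular the commutator subgroup has order equal to the index in A of that centralizer. -/
theorem result {G : Type*} [Group G] [Finite G] (A : Subgroup G) [A.Normal] (hA : IsMulCommutative A) (x : G) (hgen : A ⊔ Subgroup.zpowers x = ⊤) : (∀ a ∈ A, x * a * x⁻¹ * a⁻¹ ∈ commutator G) ∧ (∀ c ∈ commutator G, ∃ a ∈ A, x * a * x⁻¹ * a⁻¹ = c) ∧ (∀ a ∈ A, ∀ b ∈ A, x * (a * b) * x⁻¹ * (a * b)⁻¹ = (x * a * x⁻¹ * a⁻¹) * (x * b * x⁻¹ * b⁻¹)) ∧ Nat.card (commutator G) * Nat.card ↥(A ⊓ Subgroup.centralizer ({x} : Set G)) = Nat.card A := by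
  have hmem : ∀ a ∈ A, x * a * x⁻¹ * a⁻¹ ∈ A := fun a ha =>
    A.mul_mem (Subgroup.Normal.conj_mem ‹A.Normal› a ha x) (A.inv_mem ha)
  have hcm : ∀ a ∈ A, ∀ b ∈ A, a * b = b * a := fun a ha b hb =>
    congrArg Subtype.val (hA.is_comm.comm (⟨a, ha⟩ : A) ⟨b, hb⟩)
  have hom : ∀ a ∈ A, ∀ b ∈ A,
      x * (a * b) * x⁻¹ * (a * b)⁻¹ = (x * a * x⁻¹ * a⁻¹) * (x * b * x⁻¹ * b⁻¹) := fun a ha b hb => by
    have h := hcm _ (hmem b hb) _ (A.inv_mem ha)
    calc x * (a * b) * x⁻¹ * (a * b)⁻¹ = x * a * x⁻¹ * ((x * b * x⁻¹ * b⁻¹) * a⁻¹) := by group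
      _ = (x * a * x⁻¹ * a⁻¹) * (x * b * x⁻¹ * b⁻¹) := by rw [h]; group
  have hcomm : ∀ a ∈ A, x * a * x⁻¹ * a⁻¹ ∈ commutator G := fun a _ => by
    rw [← commutatorElement_def, commutator_def]
    exact Subgroup.commutator_mem_commutator (Subgroup.mem_top x) (Subgroup.mem_top a)
  let f : A →* G := MonoidHom.mk' (fun a => x * a * x⁻¹ * (a : G)⁻¹) (fun a b => hom a a.2 b b.2)
  have hrange : f.range ≤ A := by rintro _ ⟨a, rfl⟩; exact hmem a a.2
  have hN : f.range.Normal := by
    refine Subgroup.normalizer_eq_top_iff.mp (top_le_iff.mp ?_)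
    rw [← hgen]
    refine sup_le (fun a ha => Subgroup.mem_normalizer_iff.mpr fun y => ?_) (Subgroup.zpowers_le.mpr ?_)
    · constructor
      · intro hy
        rwa [hcm a ha y (hrange hy), mul_inv_cancel_right]
      · intro hy
        have h1 := hcm a ha (a * y * a⁻¹) (hrange hy)
        have h2 : a * y * a⁻¹ = y := by
          calc a * y * a⁻¹ = a⁻¹ * (a * (a * y * a⁻¹)) := by group
            _ = a⁻¹ * (a * y * a⁻¹ * a) := by rw [h1]
            _ = y := by group
        rwa [h2] at hy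
    · rw [Subgroup.mem_normalizer_iff]
      have hfwd : ∀ y ∈ f.range, x * y * x⁻¹ ∈ f.range := by
        rintro _ ⟨a, rfl⟩
        exact ⟨⟨x * a * x⁻¹, Subgroup.Normal.conj_mem ‹A.Normal› a a.2 x⟩, by
          simp only [f, MonoidHom.mk'_apply]; group⟩
      intro y
      refine ⟨hfwd y, fun hy => ?_⟩
      have hpow : ∀ k : ℕ, ∀ z ∈ f.range, x ^ k * z * (x ^ k)⁻¹ ∈ f.range := by
        intro k
        induction k with
        | zero => intro z hz; simpa using hz
        | succ k ih =>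
          intro z hz
          rw [pow_succ', show x * x ^ k * z * (x * x ^ k)⁻¹ = x * (x ^ k * z * (x ^ k)⁻¹) * x⁻¹ by group]
          exact hfwd _ (ih z hz)
      have := hpow (orderOf x - 1) _ hy
      rwa [pow_sub x (orderOf_pos x), pow_orderOf_eq_one, one_mul, pow_one,
        show x⁻¹ * (x * y * x⁻¹) * x⁻¹⁻¹ = y by group] at this
  have hle : commutator G ≤ f.range := by
    set π := QuotientGroup.mk' f.range
    have hgenQ : ∀ g : G, π g ∈ Subgroup.closure (π '' ((A : Set G) ∪ {x})) := by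
      intro g
      rw [← MonoidHom.map_closure]
      refine Subgroup.mem_map_of_mem _ ?_
      rw [Subgroup.closure_union, Subgroup.closure_eq, ← Subgroup.zpowers_eq_closure, hgen]
      exact Subgroup.mem_top g
    haveI : IsMulCommutative (Subgroup.closure (π '' ((A : Set G) ∪ {x}))) := by
      refine Subgroup.isMulCommutative_closure ?_
      have hax : ∀ a ∈ A, π x * π a = π a * π x := fun a ha => by
        rw [← mul_inv_eq_iff_eq_mul, ← mul_inv_eq_one, ← map_inv, ← map_inv, ← map_mul, ← map_mul, ← map_mul]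
        exact (QuotientGroup.eq_one_iff _).mpr ⟨⟨a, ha⟩, rfl⟩
      rintro _ ⟨a, ha, rfl⟩ _ ⟨b, hb, rfl⟩
      rcases ha with ha | rfl <;> rcases hb with hb | rfl
      · rw [← map_mul, ← map_mul, hcm a ha b hb]
      · exact (hax a ha).symm
      · exact hax b hb
      · rfl
    rw [commutator_def, Subgroup.commutator_le]
    intro a _ b _
    refine (QuotientGroup.eq_one_iff _).mp ?_
    show π ⁅a, b⁆ = 1
    rw [map_commutatorElement, commutatorElement_eq_one_iff_mul_comm]
    exact congrArg Subtype.val (this.is_comm.comm (⟨π a, hgenQ a⟩ : Subgroup.closure (π '' ((A : Set G) ∪ {x}))) ⟨π b, hgenQ b⟩)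
  refine ⟨hcomm, fun c hc => ?_, hom, ?_⟩
  · obtain ⟨a, rfl⟩ := hle hc; exact ⟨a, a.2, rfl⟩
  · have hr : f.range = commutator G := le_antisymm (by rintro _ ⟨a, rfl⟩; exact hcomm a a.2) hle
    have hk : f.ker = (A ⊓ Subgroup.centralizer ({x} : Set G)).subgroupOf A := by
      ext a
      simp only [f, MonoidHom.mem_ker, MonoidHom.mk'_apply, Subgroup.mem_subgroupOf, Subgroup.mem_inf,
        SetLike.coe_mem, true_and, Subgroup.mem_centralizer_singleton_iff, mul_inv_eq_one, mul_inv_eq_iff_eq_mul, one_mul]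
      exact eq_comm
    rw [← hr, ← Subgroup.index_ker, ← Nat.card_congr (Subgroup.subgroupOfEquivOfLe (inf_le_left : A ⊓ _ ≤ A)).toEquiv,
      ← hk, mul_comm, Subgroup.card_mul_index]

end Cfsg.Agent.S3866
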