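import Cfsg.Statements.S3867
import Mathlib

set_option autoImplicit false
open Cfsg

namespace Cfsg.Agent.S3867

/-- Let M and N be nontrivial normal subgroups of the finite group G with M ⊓ N trivial, and let p be a prime. Writing n(X) for the number of Sylow p-subgroups of a group X, one has n(G) · n(G/MN) = n(G/M) · n(G/N). -/
theorem result {G : Type*} [Group G] [Finite G] (p : ℕ) [Fact p.Prime] (M N : Subgroup G) [M.Normal] [N.Normal] (hM : M ≠ ⊥) (hN : N ≠ ⊥) (hMN : M ⊓ N = ⊥) : Nat.card (Sylow p G) * Nat.card (Sylow p (G ⧸ (M ⊔ N))) = Nat.card (Sylow p (G ⧸ M)) * Nat.card (Sylow p (G ⧸ N)) := by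
  classical
  obtain ⟨P⟩ := (inferInstance : Nonempty (Sylow p G))
  set R := Subgroup.normalizer ((P : Subgroup G) : Set G) with hR
  have hPR : (P : Subgroup G) ≤ R := Subgroup.le_normalizer
  -- the count in a quotient
  have hq : ∀ (L : Subgroup G) [L.Normal], Nat.card (Sylow p (G ⧸ L)) = (R ⊔ L).index := by
    intro L _
    set f := QuotientGroup.mk' L
    have hf : Function.Surjective f := QuotientGroup.mk'_surjective L
    rw [Sylow.card_eq_index_normalizer (P.mapSurjective hf), ← Subgroup.index_comap_of_surjective _ hf]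
    congr 1
    refine le_antisymm (fun g hg => ?_) (sup_le (fun r hr => ?_) ?_)
    · have hmem : ∀ x : G, x ∈ ((P : Subgroup G).map f).comap f → x ∈ (P : Subgroup G) ⊔ L := by
        intro x hx
        rwa [Subgroup.comap_map_eq, QuotientGroup.ker_mk'] at hx
      have h1 : ((g • P : Sylow p G) : Subgroup G) ≤ (P : Subgroup G) ⊔ L := by
        rintro _ ⟨x, hx, rfl⟩
        refine hmem _ ?_
        rw [Subgroup.mem_comap] at hg ⊢
        show f ((MulAut.conj g) x) ∈ _
        rw [MulAut.conj_apply, map_mul, map_mul, map_inv]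
        exact ((Subgroup.mem_normalizer_iff.mp hg) (f x)).mp ⟨x, hx, rfl⟩
      obtain ⟨y, hy⟩ := MulAction.exists_smul_eq (((P : Subgroup G) ⊔ L : Subgroup G)) ((g • P).subtype h1) (P.subtype le_sup_left)
      rw [Sylow.smul_subtype] at hy
      have h2 : (y : G) * g ∈ R := by
        refine Sylow.smul_eq_iff_mem_normalizer.mp ?_
        rw [mul_smul]
        exact Sylow.subtype_injective hy
      have h3 : (y : G) ∈ R ⊔ L := sup_le_sup_right hPR L y.2
      have := Subgroup.mul_mem _ (Subgroup.inv_mem _ h3) (Subgroup.mem_sup_left h2 (T := L))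
      simpa using this
    · rw [Subgroup.mem_comap]
      show f r ∈ Subgroup.normalizer (((P : Subgroup G).map f : Subgroup (G ⧸ L)) : Set (G ⧸ L))
      rw [Subgroup.mem_normalizer_iff_map_conj_eq, Subgroup.map_map]
      conv_rhs => rw [← Subgroup.mem_normalizer_iff_map_conj_eq.1 hr, Subgroup.map_map]
      congr 1
    · intro l hl
      rw [Subgroup.mem_comap, show f l = 1 from (QuotientGroup.eq_one_iff l).mpr hl]
      exact Subgroup.one_mem _
  -- the two preimages meet in `R`
  have hPP : ((P : Subgroup G) ⊔ M) ⊓ ((P : Subgroup G) ⊔ N) = P := by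
    refine P.3 ?_ (le_inf le_sup_left le_sup_left)
    intro x
    obtain ⟨a, ha, m, hm, e⟩ := Subgroup.mem_sup_of_normal_right.mp x.2.1
    obtain ⟨b, hb, n, hn, e2⟩ := Subgroup.mem_sup_of_normal_right.mp x.2.2
    obtain ⟨k, hk⟩ := P.2 ⟨a, ha⟩
    obtain ⟨l, hl⟩ := P.2 ⟨b, hb⟩
    refine ⟨k + l, Subtype.ext ?_⟩
    have hk' : a ^ p ^ (k + l) = 1 := by rw [pow_add, pow_mul, (show a ^ p ^ k = 1 from congrArg Subtype.val hk)]; simp
    have hl' : b ^ p ^ (k + l) = 1 := by rw [add_comm, pow_add, pow_mul, (show b ^ p ^ l = 1 from congrArg Subtype.val hl)]; simp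
    have h1 : QuotientGroup.mk' M ((x : G) ^ p ^ (k + l)) = 1 := by
      rw [map_pow, ← e, map_mul, show QuotientGroup.mk' M m = 1 from (QuotientGroup.eq_one_iff m).mpr hm, mul_one,
        ← map_pow, hk', map_one]
    have h2 : QuotientGroup.mk' N ((x : G) ^ p ^ (k + l)) = 1 := by
      rw [map_pow, ← e2, map_mul, show QuotientGroup.mk' N n = 1 from (QuotientGroup.eq_one_iff n).mpr hn, mul_one,
        ← map_pow, hl', map_one]
    have h3 : (x : G) ^ p ^ (k + l) ∈ M ⊓ N := ⟨(QuotientGroup.eq_one_iff _).mp h1, (QuotientGroup.eq_one_iff _).mp h2⟩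
    rw [hMN] at h3
    simpa using Subgroup.mem_bot.mp h3
  have hnorm : ∀ (L : Subgroup G) [L.Normal], R ⊔ L ≤ Subgroup.normalizer (((P : Subgroup G) ⊔ L : Subgroup G) : Set G) := by
    intro L _
    refine sup_le (fun r hr => ?_) (le_sup_right.trans Subgroup.le_normalizer)
    rw [Subgroup.mem_normalizer_iff_map_conj_eq, Subgroup.map_sup, Subgroup.mem_normalizer_iff_map_conj_eq.1 hr]
    congr 1
    exact Subgroup.mem_normalizer_iff_map_conj_eq.1 (by rw [Subgroup.normalizer_eq_top_iff.mpr inferInstance]; trivial)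
  have hRR : (R ⊔ M) ⊓ N = R ⊓ N := by
    refine le_antisymm (fun x hx => ⟨?_, hx.2⟩) (inf_le_inf_right N le_sup_left)
    have h1 := Subgroup.mem_normalizer_iff_map_conj_eq.1 (hnorm M hx.1)
    have h2 := Subgroup.mem_normalizer_iff_map_conj_eq.1 (hnorm N (Subgroup.mem_sup_right hx.2))
    show x ∈ R
    rw [hR, Subgroup.mem_normalizer_iff_map_conj_eq]
    conv_lhs => rw [← hPP]
    rw [Subgroup.map_inf_eq _ _ _ (MulAut.conj x).injective, h1, h2, hPP]
  rw [Sylow.card_eq_index_normalizer P, hq (M ⊔ N), hq M, hq N, ← sup_assoc]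
  show R.index * _ = _
  have e1 : (R ⊔ M).relIndex (R ⊔ M ⊔ N) * (R ⊔ M ⊔ N).index = (R ⊔ M).index :=
    Subgroup.relIndex_mul_index le_sup_left
  have e2 : R.relIndex (R ⊔ N) * (R ⊔ N).index = R.index := Subgroup.relIndex_mul_index le_sup_left
  -- the two relative indices agree, because both multiply `N` by the same factor
  have key : ∀ H : Subgroup G, H.relIndex (H ⊔ N) * Nat.card (H ⊓ N : Subgroup G) = Nat.card N := by
    intro H
    have a1 := Subgroup.card_mul_index (H.subgroupOf (H ⊔ N))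
    rw [Nat.card_congr (Subgroup.subgroupOfEquivOfLe (le_sup_left : H ≤ H ⊔ N)).toEquiv] at a1
    have a2 := Subgroup.card_mul_index (N.subgroupOf (H ⊔ N))
    rw [Nat.card_congr (Subgroup.subgroupOfEquivOfLe (le_sup_right : N ≤ H ⊔ N)).toEquiv] at a2
    have a3 := Subgroup.card_mul_index (N.subgroupOf H)
    rw [← Subgroup.inf_subgroupOf_left, Nat.card_congr (Subgroup.subgroupOfEquivOfLe (inf_le_left : H ⊓ N ≤ H)).toEquiv] at a3
    rw [Subgroup.inf_subgroupOf_left] at a3
    change _ * N.relIndex (H ⊔ N) = _ at a2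
    change _ * H.relIndex (H ⊔ N) = _ at a1
    change _ * N.relIndex H = _ at a3
    rw [Subgroup.relIndex_sup_right] at a2
    refine Nat.eq_of_mul_eq_mul_left (show 0 < N.relIndex H from Nat.pos_of_ne_zero Subgroup.index_ne_zero_of_finite) ?_
    calc N.relIndex H * (H.relIndex (H ⊔ N) * Nat.card (H ⊓ N : Subgroup G))
        = (Nat.card (H ⊓ N : Subgroup G) * N.relIndex H) * H.relIndex (H ⊔ N) := by ring
      _ = Nat.card (H ⊔ N : Subgroup G) := by rw [a3, a1]
      _ = _ := by rw [← a2]; ring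
  have e3 : (R ⊔ M).relIndex (R ⊔ M ⊔ N) = R.relIndex (R ⊔ N) := by
    have k1 := key (R ⊔ M)
    rw [hRR, ← key R] at k1
    exact Nat.eq_of_mul_eq_mul_right Nat.card_pos k1
  rw [← e1, ← e2, e3]; ring

end Cfsg.Agent.S3867
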