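import Cfsg.Statements.S3878
import Mathlib
import Cfsg.Agent.Lib.SL2.MaxField
import Cfsg.Agent.Lib.SL2.Small

set_option autoImplicit false
open Cfsg

namespace Cfsg.Agent.S3878
open CfsgLib.SL2Dickson CfsgLib.SL2Torus

/-- A group without Hall subgroup. -/
theorem exists_counterexample (π : Set ℕ) {p q r : ℕ} (hp : p.Prime) (hq : q.Prime) (hr : r.Prime) (hpq : p ≠ q)
    (hpπ : p ∈ π) (hqπ : q ∈ π) (hrπ : r ∉ π) :
    ∃ (G : Type) (_ : Group G) (_ : Finite G), ¬ Cfsg.IsEPiGroup π G := by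
  have hpr : p ≠ r := fun h => hrπ (h ▸ hpπ)
  have hqr : q ≠ r := fun h => hrπ (h ▸ hqπ)
  have hcop : (p ^ 6 * r).Coprime (q ^ 6) :=
    Nat.Coprime.mul_left (Nat.Coprime.pow 6 6 ((Nat.coprime_primes hp hq).mpr hpq))
      (((Nat.coprime_primes hr hq).mpr (Ne.symm hqr)).pow_right 6)
  obtain ⟨a, ha1, ha2⟩ := Nat.chineseRemainder hcop 1 (q ^ 6 - 1)
  have hq6 : 1 ≤ q ^ 6 := Nat.one_le_pow _ _ hq.pos
  have hacop : a.Coprime (p ^ 6 * r * q ^ 6) := by
    refine Nat.Coprime.mul_right ?_ ?_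
    · have := ha1.gcd_eq
      rw [Nat.gcd_one_left] at this
      exact this
    · have h2 := ha2.gcd_eq
      have h3 : Nat.gcd (q ^ 6 - 1) (q ^ 6) = 1 := by
        rw [Nat.gcd_comm]
        exact (Nat.coprime_self_sub_right hq6).mpr (Nat.coprime_one_right _)
      exact h2.trans h3
  have hM0 : p ^ 6 * r * q ^ 6 ≠ 0 := by
    have := hp.pos; have := hr.pos; have := hq.pos; positivity
  obtain ⟨l, hl5, hl, hlmod⟩ := Nat.forall_exists_prime_gt_and_modEq (5 + p + q) hM0 hacop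
  have h1 : l ≡ 1 [MOD p ^ 6 * r] := (hlmod.of_dvd (dvd_mul_right _ _)).trans ha1
  have h2 : l ≡ q ^ 6 - 1 [MOD q ^ 6] := (hlmod.of_dvd (dvd_mul_left _ _)).trans ha2
  have hd1 : p ^ 6 * r ∣ l - 1 := (Nat.modEq_iff_dvd' hl.one_lt.le).mp h1.symm
  have hd2 : q ^ 6 ∣ l + 1 := by
    rw [← Nat.modEq_zero_iff_dvd]
    refine (h2.add_right 1).trans ?_
    rw [Nat.sub_add_cancel hq6]
    exact Nat.modEq_zero_iff_dvd.mpr dvd_rfl
  haveI := Fact.mk hl
  refine ⟨Matrix.ProjectiveSpecialLinearGroup (Fin 2) (ZMod l), inferInstance, inferInstance, ?_⟩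
  rintro ⟨H, hH1, hH2⟩
  have hFl : Fintype.card (ZMod l) = l := ZMod.card l
  have h4 : 4 ≤ Fintype.card (ZMod l) := by omega
  have hlodd : Fintype.card (ZMod l) % 2 = 1 := by
    rw [hFl]
    rcases hl.eq_two_or_odd with h | h
    · omega
    · exact h
  have hg := gcd_odd hlodd
  have hG := gcd_mul_card (F := ZMod l)
  rw [hg, hFl] at hG
  have hsq : l ^ 2 - 1 = (l + 1) * (l - 1) := by simpa using Nat.sq_sub_sq l 1
  -- the orders forced into `H`
  have hdvd : ∀ s, s.Prime → s ∈ π → s ^ 6 ∣ (l + 1) * (l - 1) → s ^ 5 ∣ Nat.card H := by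
    intro s hs hsπ hd
    have h6 : s ^ 6 ∣ 2 * Nat.card (Matrix.ProjectiveSpecialLinearGroup (Fin 2) (ZMod l)) := by
      rw [hG, hsq]; exact Dvd.dvd.mul_left hd _
    have h5 : s ^ 5 ∣ Nat.card (Matrix.ProjectiveSpecialLinearGroup (Fin 2) (ZMod l)) := by
      rcases eq_or_ne s 2 with rfl | hs2
      · exact Nat.dvd_of_mul_dvd_mul_left two_pos (by rw [← pow_succ']; exact h6)
      · exact (pow_dvd_pow s (by norm_num : 5 ≤ 6)).trans
          ((Nat.Coprime.pow_left 6 ((Nat.coprime_primes hs Nat.prime_two).mpr hs2)).dvd_of_dvd_mul_left h6)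
    rw [← H.card_mul_index] at h5
    exact (Nat.Coprime.pow_left 5 (hs.coprime_iff_not_dvd.mpr (hH2 s hs hsπ))).dvd_of_dvd_mul_right h5
  have hp5 := hdvd p hp hpπ (Dvd.dvd.mul_left ((dvd_mul_right _ _).trans hd1) _)
  have hq5 := hdvd q hq hqπ (Dvd.dvd.mul_right hd2 _)
  -- `H` is proper
  have hne : H ≠ ⊤ := by
    rintro rfl
    refine hrπ (hH1 r hr ?_)
    rw [Subgroup.card_top]
    have hrl : r ∣ l - 1 := (dvd_mul_left _ _).trans hd1
    have h2d : r ∣ 2 * Nat.card (Matrix.ProjectiveSpecialLinearGroup (Fin 2) (ZMod l)) := by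
      rw [hG, hsq]; exact Dvd.dvd.mul_left (Dvd.dvd.mul_left hrl _) _
    rcases eq_or_ne r 2 with rfl | hr2
    · have e1 : 2 * 2 ∣ (l + 1) * (l - 1) := Nat.mul_dvd_mul (by omega) (by omega)
      have e2 : 2 * 2 ∣ 2 * Nat.card (Matrix.ProjectiveSpecialLinearGroup (Fin 2) (ZMod l)) := by
        rw [hG, hsq]; exact Dvd.dvd.mul_left e1 _
      exact Nat.dvd_of_mul_dvd_mul_left two_pos e2
    · exact ((Nat.coprime_primes hr Nat.prime_two).mpr hr2).dvd_of_dvd_mul_left h2d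
  obtain ⟨M, hM, hle⟩ := exists_coatom_ge hne
  have hp5M := hp5.trans (Subgroup.card_dvd_of_le hle)
  have hq5M := hq5.trans (Subgroup.card_dvd_of_le hle)
  have hp32 : 32 ≤ p ^ 5 := le_trans (by norm_num) (Nat.pow_le_pow_left hp.two_le 5)
  have hq32 : 32 ≤ q ^ 5 := le_trans (by norm_num) (Nat.pow_le_pow_left hq.two_le 5)
  have small : 0 < Nat.card M → Nat.card M ≤ 60 → False := fun h0 h60 => by
    have h := Nat.le_of_dvd h0 ((Nat.Coprime.pow 5 5 ((Nat.coprime_primes hp hq).mpr hpq)).mul_dvd_of_dvd_of_dvd hp5M hq5M)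
    have := Nat.mul_le_mul hp32 hq32
    omega
  have two : ∀ s, s.Prime → s ^ 5 ∣ l - 1 → s ^ 5 ∣ l + 1 → False := fun s hs h1 h2 => by
    have h32 : 32 ≤ s ^ 5 := le_trans (by norm_num) (Nat.pow_le_pow_left hs.two_le 5)
    have := Nat.le_of_dvd two_pos ((Nat.dvd_sub h2 h1).trans (dvd_of_eq (show l + 1 - (l - 1) = 2 by omega)))
    omega
  have hp6 : p ^ 5 ∣ l - 1 := (pow_dvd_pow p (by norm_num : 5 ≤ 6)).trans ((dvd_mul_right _ _).trans hd1)
  have hq6' : q ^ 5 ∣ l + 1 := (pow_dvd_pow q (by norm_num : 5 ≤ 6)).trans hd2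
  rcases dickson M with h | h | h | h | h | h | h
  · exact not_cyc h4 hM h
  · obtain ⟨T, hT, rfl⟩ := dih_max h4 hM h
    rw [torus_normalizer_card hT] at hp5M hq5M
    rcases torus_card hT with e | e <;> rw [hg, hFl] at e <;> rw [e] at hp5M hq5M
    · exact two q hq hq5M hq6'
    · exact two p hp hp6 hp5M
  · obtain ⟨⟨e⟩, -⟩ := h
    exact small Nat.card_pos (by rw [Nat.card_congr e.toEquiv, nat_card_alternatingGroup, Nat.card_fin]; decide)
  · obtain ⟨⟨e⟩, -⟩ := h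
    exact small Nat.card_pos (by rw [Nat.card_congr e.toEquiv, Nat.card_perm, Nat.card_fin]; decide)
  · obtain ⟨⟨e⟩, -⟩ := h
    exact small Nat.card_pos (by rw [Nat.card_congr e.toEquiv, nat_card_alternatingGroup, Nat.card_fin]; decide)
  · have e := bor_max h4 hM h
    rw [hg, hFl] at e
    have h3 : q ^ 5 ∣ l * (l - 1) := e ▸ Dvd.dvd.mul_left hq5M 2
    refine two q hq ((Nat.Coprime.pow_left 5 ((Nat.coprime_primes hq hl).mpr (by omega))).dvd_of_dvd_mul_left h3) hq6'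
  · obtain ⟨θ, K, m, hK, hm, -⟩ := field_max hM h
    exact hK (eq_top_iff.mpr fun x _ => by rw [← ZMod.natCast_zmod_val x]; exact natCast_mem K _)

theorem E_of_D (π : Set ℕ) {G : Type} [Group G] [Finite G] (h : Cfsg.IsDPiGroup π G) : Cfsg.IsEPiGroup π G := by
  classical
  obtain ⟨H, hH⟩ := Set.Finite.exists_maximal (Set.toFinite {K : Subgroup G | Cfsg.IsPiSubgroup π K})
    ⟨⊥, fun s hs hd => absurd (by simpa using hd) hs.ne_one⟩
  refine ⟨H, hH.1, fun s hs hsπ hd => ?_⟩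
  haveI := Fact.mk hs
  let S : Sylow s G := default
  obtain ⟨n, hn⟩ := IsPGroup.iff_card.mp S.isPGroup'
  obtain ⟨K, hSK, hK⟩ := Set.Finite.exists_le_maximal (Set.toFinite {K : Subgroup G | Cfsg.IsPiSubgroup π K})
    (a := (S : Subgroup G)) (fun t ht htd => by
      rw [hn] at htd
      rwa [(Nat.prime_dvd_prime_iff_eq ht hs).mp (ht.dvd_of_dvd_pow htd)])
  obtain ⟨g, hg⟩ := h K H hK hH
  refine S.not_dvd_index ?_
  have h1 : ((S : Subgroup G).map (MulAut.conj g).toMonoidHom).index = (S : Subgroup G).index :=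
    Subgroup.index_map_of_bijective (f := (MulAut.conj g).toMonoidHom) (MulAut.conj g).bijective _
  rw [← h1]
  have hle : (S : Subgroup G).map (MulAut.conj g).toMonoidHom ≤ H := by
    rw [hg]
    exact Subgroup.map_mono hSK
  exact hd.trans (Subgroup.index_dvd_of_le hle)

theorem E_and_D_of (π : Set ℕ) {G : Type} [Group G] [Finite G]
    (h : (∀ p q : ℕ, p.Prime → q.Prime → p ∈ π → q ∈ π → p = q) ∨ ∀ p : ℕ, p.Prime → p ∈ π) :
    Cfsg.IsDPiGroup π G := by
  rcases h with h | h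
  · by_cases he : ∃ p, p.Prime ∧ p ∈ π
    · obtain ⟨p, hp, hpπ⟩ := he
      haveI := Fact.mk hp
      have hiff : ∀ K : Subgroup G, Cfsg.IsPiSubgroup π K ↔ IsPGroup p K := fun K => by
        constructor
        · intro hK
          exact IsPGroup.of_card (Nat.eq_prime_pow_of_unique_prime_dvd Nat.card_pos.ne'
            fun {d} hd hdd => h d p hd hp (hK d hd hdd) hpπ)
        · intro hK s hs hd
          obtain ⟨n, hn⟩ := IsPGroup.iff_card.mp hK
          rw [hn] at hd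
          rwa [(Nat.prime_dvd_prime_iff_eq hs hp).mp (hs.dvd_of_dvd_pow hd)]
      intro H K hH hK
      have mkS : ∀ X : Subgroup G, Maximal (Cfsg.IsPiSubgroup π) X → ∃ P : Sylow p G, (P : Subgroup G) = X :=
        fun X hX => by
          obtain ⟨P, hP⟩ := ((hiff X).mp hX.1).exists_le_sylow
          exact ⟨P, le_antisymm (hX.2 ((hiff _).mpr P.isPGroup') hP) hP⟩
      obtain ⟨P, rfl⟩ := mkS H hH
      obtain ⟨Q, rfl⟩ := mkS K hK
      obtain ⟨g, hg⟩ := MulAction.exists_smul_eq G P Q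
      exact ⟨g, congrArg (fun S : Sylow p G => (S : Subgroup G)) hg.symm⟩
    · push Not at he
      intro H K hH hK
      have triv : ∀ X : Subgroup G, Cfsg.IsPiSubgroup π X → X = ⊥ := fun X hX => by
        refine Subgroup.card_eq_one.mp ?_
        by_contra h1
        obtain ⟨s, hs, hd⟩ := Nat.exists_prime_and_dvd h1
        exact he s hs (hX s hs hd)
      exact ⟨1, by rw [triv H hH.1, triv K hK.1, Subgroup.map_bot]⟩
  · intro H K hH hK
    have htop : ∀ X : Subgroup G, Maximal (Cfsg.IsPiSubgroup π) X → X = ⊤ := fun X hX =>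
      top_le_iff.mp (hX.2 (fun s hs _ => h s hs) le_top)
    exact ⟨1, by rw [htop H hH, htop K hK, Subgroup.map_top_of_surjective _ (MulAut.conj (1 : G)).surjective]⟩

theorem forces (π : Set ℕ) (h : ∀ (G : Type) [Group G] [Finite G], Cfsg.IsEPiGroup π G) :
    (∀ p q : ℕ, p.Prime → q.Prime → p ∈ π → q ∈ π → p = q) ∨ ∀ p : ℕ, p.Prime → p ∈ π := by
  by_contra hcon
  push Not at hcon
  obtain ⟨⟨p, q, hp, hq, hpπ, hqπ, hpq⟩, r, hr, hrπ⟩ := hcon
  obtain ⟨G, hG, hGf, hno⟩ := exists_counterexample π hp hq hr hpq hpπ hqπ hrπ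
  exact hno (h G)


/-- For a set of primes π the following are equivalent: every finite group has a Hall π-subgroup; in every finite group the maximal π-subgroups are pairwise conjugate; π contains at most one prime or contains every prime. -/
theorem result (π : Set ℕ) :
    ((∀ (G : Type) [Group G] [Finite G], Cfsg.IsEPiGroup π G) ↔
      ((∀ p q : ℕ, p.Prime → q.Prime → p ∈ π → q ∈ π → p = q) ∨ ∀ p : ℕ, p.Prime → p ∈ π)) ∧
    ((∀ (G : Type) [Group G] [Finite G], Cfsg.IsDPiGroup π G) ↔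
      ((∀ p q : ℕ, p.Prime → q.Prime → p ∈ π → q ∈ π → p = q) ∨ ∀ p : ℕ, p.Prime → p ∈ π)) := by
  exact ⟨⟨forces π, fun h G _ _ => E_of_D π (E_and_D_of π h)⟩,
    ⟨fun h => forces π fun G _ _ => E_of_D π (h G), fun h G _ _ => E_and_D_of π h⟩⟩

end Cfsg.Agent.S3878
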