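import Cfsg.Statements.S3880
import Cfsg.Agent.Lib.Metacyclic.Structure

set_option autoImplicit false
open Cfsg

namespace Cfsg.Agent.S3880
open CfsgLib.Metacyclic CfsgLib.Metacyclic.Form

/-- Let p be an odd prime and G a finite metacyclic p-group (G has a cyclic normal subgroup with cyclic quotient). Then a subgroup L of G is abelian if and only if |L| ≤ |G : G'|, and L is a maximal abelian subgroup of G if and only if |L| = |G : G'|. -/
theorem result {G : Type*} [Group G] [Finite G] {p : ℕ} [Fact p.Prime] (hp : p ≠ 2) (hG : IsPGroup p G) (hmc : Cfsg.IsMetacyclic G) (L : Subgroup G) :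
    (IsMulCommutative ↥L ↔ Nat.card ↥L ≤ (commutator G).index) ∧
      (Maximal (fun K : Subgroup G => IsMulCommutative ↥K) L ↔ Nat.card ↥L = (commutator G).index) := by
  obtain ⟨S⟩ := exists_setting hp hG hmc
  haveI := S.neZero
  exact ⟨S.comm_iff_card L, S.maximal_comm_iff L⟩

end Cfsg.Agent.S3880
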