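import Cfsg.Statements.S3881
import Cfsg.Agent.Lib.Metacyclic.Structure

set_option autoImplicit false
open Cfsg

namespace Cfsg.Agent.S3881
open CfsgLib.Metacyclic CfsgLib.Metacyclic.Form

/-- Let p be an odd prime and G a finite metacyclic p-group (G has a cyclic normal subgroup with cyclic quotient). Suppose G is non-abelian with |G'| = p^n. Then for 1 ≤ i ≤ n the number of elements of G whose conjugacy class has exactly p^i elements is |Z(G)| · (p^(2i) − p^(2i−2)). -/
theorem result {G : Type*} [Group G] [Finite G] {p : ℕ} [Fact p.Prime] (hp : p ≠ 2) (hG : IsPGroup p G) (hmc : Cfsg.IsMetacyclic G) (n : ℕ) (hn : n ≠ 0) (hGn : Nat.card ↥(commutator G) = p ^ n) (i : ℕ) (hi : 1 ≤ i) (hin : i ≤ n) :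
    Nat.card {g : G // (Subgroup.centralizer ({g} : Set G)).index = p ^ i} =
      Nat.card ↥(Subgroup.center G) * (p ^ (2 * i) - p ^ (2 * i - 2)) := by
  obtain ⟨S⟩ := exists_setting hp hG hmc
  haveI := S.neZero
  classical
  have hn' : n = S.n := Nat.pow_right_injective (Fact.out : p.Prime).two_le (hGn.symm.trans S.card_commutator)
  subst hn'
  have hcnt : ∀ k ≤ S.n, Nat.card {g : G // (Subgroup.centralizer ({g} : Set G)).index ≤ p ^ k} =
      Nat.card (Subgroup.center G) * p ^ (2 * k) := by
    intro k hk
    rw [show Nat.card {g : G // (Subgroup.centralizer ({g} : Set G)).index ≤ p ^ k} = Nat.card (S.preimage (S.pw (S.n - k))) from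
      Nat.card_congr (Equiv.subtypeEquivRight fun g => S.index_centralizer_le_iff g hk),
      S.card_preimage, S.card_pw (Nat.sub_le _ _), Nat.sub_sub_self hk, two_mul, pow_add, mul_comm]
  obtain ⟨j, rfl⟩ : ∃ j, i = j + 1 := ⟨i - 1, by omega⟩
  have h1 := hcnt (j + 1) hin
  have h2 := hcnt j (by omega)
  have hp' : p.Prime := Fact.out
  have hsplit : Nat.card {g : G // (Subgroup.centralizer ({g} : Set G)).index ≤ p ^ (j + 1)} =
      Nat.card {g : G // (Subgroup.centralizer ({g} : Set G)).index ≤ p ^ j} +
        Nat.card {g : G // (Subgroup.centralizer ({g} : Set G)).index = p ^ (j + 1)} := by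
    rw [← Nat.card_sum]
    refine Nat.card_congr (Equiv.trans (Equiv.subtypeEquivRight fun g => ?_) (subtypeOrEquiv _ _ ?_))
    · constructor
      · intro h
        obtain ⟨t, ht⟩ := hG.index (Subgroup.centralizer ({g} : Set G))
        rw [ht] at h ⊢
        have := (Nat.pow_le_pow_iff_right hp'.one_lt).mp h
        rcases this.lt_or_eq with hlt | rfl
        · exact Or.inl (Nat.pow_le_pow_right hp'.pos (by omega))
        · exact Or.inr rfl
      · rintro (h | h)
        · exact h.trans (Nat.pow_le_pow_right hp'.pos (by omega))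
        · exact h.le
    · rw [Pi.disjoint_iff]
      intro g
      rw [Prop.disjoint_iff]
      by_contra! hh
      obtain ⟨ha, hb⟩ := hh
      rw [hb] at ha
      exact absurd ((Nat.pow_le_pow_iff_right hp'.one_lt).mp ha) (by omega)
  rw [h1, h2] at hsplit
  rw [show 2 * (j + 1) - 2 = 2 * j by omega, Nat.mul_sub]
  omega

end Cfsg.Agent.S3881
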