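import Cfsg.Statements.S3882
import Cfsg.Agent.Lib.Metacyclic.Structure

set_option autoImplicit false
open Cfsg

namespace Cfsg.Agent.S3882
open CfsgLib.Metacyclic CfsgLib.Metacyclic.Form

/-- Let p be an odd prime and G a finite metacyclic p-group (G has a cyclic normal subgroup with cyclic quotient). Suppose |G'| = p^n and 0 ≤ s ≤ n. Then an element g lies in the subgroup generated by the p^s-th powers if and only if its conjugacy class has at most p^(n−s) elements; in particular the subgroup generated by the p^n-th powers is the center of G. -/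
theorem result {G : Type*} [Group G] [Finite G] {p : ℕ} [Fact p.Prime] (hp : p ≠ 2) (hG : IsPGroup p G) (hmc : Cfsg.IsMetacyclic G) (n : ℕ) (hGn : Nat.card ↥(commutator G) = p ^ n) (s : ℕ) (hs : s ≤ n) (g : G) :
    (g ∈ Subgroup.closure {x : G | ∃ y : G, y ^ p ^ s = x} ↔ (Subgroup.centralizer ({g} : Set G)).index ≤ p ^ (n - s)) ∧
      Subgroup.closure {x : G | ∃ y : G, y ^ p ^ n = x} = Subgroup.center G := by
  obtain ⟨S⟩ := exists_setting hp hG hmc
  haveI := S.neZero
  have hn' : n = S.n := Nat.pow_right_injective (Fact.out : p.Prime).two_le (hGn.symm.trans S.card_commutator)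
  subst hn'
  refine ⟨?_, ?_⟩
  · rw [S.closure_pow hs, S.index_centralizer_le_iff g (Nat.sub_le _ _), Nat.sub_sub_self hs]
  · rw [S.closure_pow le_rfl]
    ext x
    have h := S.pow_smul_eq_zero (Nat.zero_le _) (S.v x)
    rw [pow_zero, one_smul, Nat.sub_zero] at h
    rw [S.mem_preimage, S.mem_center_iff]
    exact h.symm

end Cfsg.Agent.S3882
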