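import Cfsg.Statements.S3883
import Cfsg.Agent.Lib.Metacyclic.Structure

set_option autoImplicit false
open Cfsg

namespace Cfsg.Agent.S3883
open CfsgLib.Metacyclic CfsgLib.Metacyclic.Form

/-- Let p be an odd prime and G a finite metacyclic p-group (G has a cyclic normal subgroup with cyclic quotient). Suppose G is non-abelian. Then an element g of G lies outside the Frattini subgroup if and only if its centralizer C_G(g) is abelian. -/
theorem result {G : Type*} [Group G] [Finite G] {p : ℕ} [Fact p.Prime] (hp : p ≠ 2) (hG : IsPGroup p G) (hmc : Cfsg.IsMetacyclic G) (hna : ¬ IsMulCommutative G) (g : G) :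
    g ∉ frattini G ↔ IsMulCommutative ↥(Subgroup.centralizer ({g} : Set G)) := by
  obtain ⟨S⟩ := exists_setting hp hG hmc
  haveI := S.neZero
  classical
  have hp' : p.Prime := Fact.out
  have hn : 1 ≤ S.n := by
    by_contra! h
    apply hna
    have h1 := S.index_center
    rw [show S.n = 0 by omega, pow_zero, mul_one, Subgroup.index_eq_one] at h1
    exact ⟨⟨fun x y => Subgroup.mem_center_iff.mp (h1 ▸ Subgroup.mem_top y) x⟩⟩
  have hΦ : frattini G = S.preimage (S.pw 1) := by
    apply le_antisymm
    · -- two maximal subgroups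
      set A := AddSubgroup.zmultiples ((p : ZMod (p ^ S.n)) ^ 1) with hA
      have hmax : ∀ U : AddSubgroup (ZMod (p ^ S.n) × ZMod (p ^ S.n)), Nat.card U = p ^ (2 * S.n - 1) →
          frattini G ≤ S.preimage U := by
        intro U hU
        apply frattini_le_coatom
        have hidx : (S.preimage U).index = p := by
          have h1 := Subgroup.card_mul_index (S.preimage U)
          rw [S.card_preimage, hU, ← S.card_mul_index_center] at h1
          refine Nat.eq_of_mul_eq_mul_left (Nat.mul_pos (pow_pos hp'.pos (2 * S.n - 1)) (Nat.card_pos (α := Subgroup.center G))) ?_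
          rw [h1, ← pow_add, show p ^ (2 * S.n - 1) * Nat.card (Subgroup.center G) * p = Nat.card (Subgroup.center G) * p ^ (2 * S.n - 1 + 1) by ring,
            show 2 * S.n - 1 + 1 = S.n + S.n by omega]
        refine ⟨fun h => hp'.one_lt.ne' (by rw [← hidx, h, Subgroup.index_top]), fun K hK => ?_⟩
        rw [← Subgroup.index_eq_one]
        have hd := Subgroup.index_dvd_of_le hK.le
        rw [hidx] at hd
        rcases (Nat.dvd_prime hp').mp hd with h | h
        · exact h
        · exfalso
          have h3 := Subgroup.card_mul_index K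
          rw [h, ← Subgroup.card_mul_index (S.preimage U), hidx] at h3
          exact hK.ne (Subgroup.eq_of_le_of_card_ge hK.le (Nat.eq_of_mul_eq_mul_right hp'.pos h3).le)
      have hcA : Nat.card A = p ^ (S.n - 1) := by
        rw [hA, Nat.card_zmultiples, ← Nat.cast_pow, ZMod.addOrderOf_coe _ (pow_ne_zero _ hp'.ne_zero),
          Nat.gcd_eq_right (pow_dvd_pow p hn), Nat.pow_div hn hp'.pos]
      intro g hg
      have h1 : S.v g ∈ A.prod ⊤ := hmax (A.prod ⊤) (by
        rw [Nat.card_congr (AddSubgroup.prodEquiv _ _).toEquiv, Nat.card_prod, hcA, AddSubgroup.card_top,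
          Nat.card_zmod, ← pow_add]; congr 1; omega) hg
      have h2 : S.v g ∈ (⊤ : AddSubgroup (ZMod (p ^ S.n))).prod A := hmax ((⊤ : AddSubgroup (ZMod (p ^ S.n))).prod A) (by
        rw [Nat.card_congr (AddSubgroup.prodEquiv _ _).toEquiv, Nat.card_prod, hcA, AddSubgroup.card_top,
          Nat.card_zmod, ← pow_add]; congr 1; omega) hg
      exact ⟨(AddSubgroup.mem_prod.mp h1).1, (AddSubgroup.mem_prod.mp h2).2⟩
    · rw [← S.closure_pow hn, Subgroup.closure_le]
      rintro _ ⟨y, rfl⟩
      rw [pow_one, SetLike.mem_coe, frattini, Order.radical, Subgroup.mem_iInf]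
      intro M
      rw [Subgroup.mem_iInf]
      intro hM
      haveI := hG.isNilpotent
      haveI : M.Normal := Subgroup.NormalizerCondition.normal_of_coatom M Group.normalizerCondition_of_isNilpotent hM
      haveI : IsSimpleGroup (G ⧸ M) := by
        haveI : Nontrivial (G ⧸ M) := QuotientGroup.nontrivial_iff.mpr hM.1
        refine ⟨fun H hH => ?_⟩
        have hle : M ≤ H.comap (QuotientGroup.mk' M) := fun m hm => by
          rw [Subgroup.mem_comap, QuotientGroup.mk'_apply, (QuotientGroup.eq_one_iff m).mpr hm]; exact H.one_mem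
        rcases hle.lt_or_eq with h | h
        · right
          rw [← Subgroup.map_comap_eq_self_of_surjective (QuotientGroup.mk'_surjective M) H, hM.2 _ h,
            Subgroup.map_top_of_surjective _ (QuotientGroup.mk'_surjective M)]
        · left
          rw [← Subgroup.map_comap_eq_self_of_surjective (QuotientGroup.mk'_surjective M) H, ← h, QuotientGroup.map_mk'_self]
      have hq : IsPGroup p (G ⧸ M) := hG.to_quotient M
      haveI := hq.center_nontrivial
      have hc : Subgroup.center (G ⧸ M) = ⊤ := (IsSimpleGroup.eq_bot_or_eq_top_of_normal (Subgroup.center (G ⧸ M)) inferInstance).resolve_left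
        ((Subgroup.nontrivial_iff_ne_bot _).mp inferInstance)
      letI : CommGroup (G ⧸ M) := { (inferInstance : Group (G ⧸ M)) with mul_comm := fun x y => Subgroup.mem_center_iff.mp (hc ▸ Subgroup.mem_top y) x }
      have hcard := IsSimpleGroup.prime_card (α := G ⧸ M)
      obtain ⟨t, ht⟩ := IsPGroup.iff_card.mp hq
      have ht1 : t = 1 := by
        rw [ht] at hcard
        exact Nat.Prime.eq_one_of_pow hcard
      rw [← QuotientGroup.eq_one_iff, QuotientGroup.mk_pow]
      have := pow_card_eq_one' (x := (y : G ⧸ M))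
      rwa [ht, ht1, pow_one] at this
  rw [hΦ, S.comm_iff_card, S.index_commutator]
  have h1 := Subgroup.card_mul_index (Subgroup.centralizer ({g} : Set G))
  rw [← S.card_mul_index_center] at h1
  have h3 := S.index_centralizer_le_iff g (Nat.sub_le S.n 1)
  rw [show S.n - (S.n - 1) = 1 by omega] at h3
  rw [← h3, not_le]
  obtain ⟨t, ht⟩ := hG.index (Subgroup.centralizer ({g} : Set G))
  rw [ht] at h1 ⊢
  constructor
  · intro h
    have h4 : p ^ S.n ≤ p ^ t := by
      refine Nat.pow_le_pow_right hp'.pos ?_
      have := (Nat.pow_lt_pow_iff_right hp'.one_lt).mp h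
      omega
    refine Nat.le_of_mul_le_mul_right ?_ (pow_pos hp'.pos S.n)
    calc _ ≤ Nat.card (Subgroup.centralizer ({g} : Set G)) * p ^ t := Nat.mul_le_mul_left _ h4
      _ = p ^ S.n * Nat.card (Subgroup.center G) * p ^ S.n := by rw [h1]; ring
  · intro h
    apply Nat.pow_lt_pow_right hp'.one_lt
    by_contra! hlt
    have h5 : p ^ (t + 1) ≤ p ^ S.n := Nat.pow_le_pow_right hp'.pos (by omega)
    have h6 : p ^ S.n * Nat.card (Subgroup.center G) * p ^ S.n * p ≤ p ^ S.n * Nat.card (Subgroup.center G) * p ^ S.n := by
      calc _ = Nat.card (Subgroup.centralizer ({g} : Set G)) * p ^ (t + 1) := by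
            rw [pow_succ, ← mul_assoc, h1]; ring
        _ ≤ p ^ S.n * Nat.card (Subgroup.center G) * p ^ S.n := Nat.mul_le_mul h h5
    have hpos : 0 < p ^ S.n * Nat.card (Subgroup.center G) * p ^ S.n :=
      Nat.mul_pos (Nat.mul_pos (pow_pos hp'.pos _) Nat.card_pos) (pow_pos hp'.pos _)
    nlinarith [hp'.two_le]

end Cfsg.Agent.S3883
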