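import Cfsg.Statements.S3884
import Cfsg.Agent.Lib.Metacyclic.Basic

set_option autoImplicit false
open Cfsg

namespace Cfsg.Agent.S3884
open CfsgLib.Metacyclic CfsgLib.Metacyclic.Num

theorem card_group {G : Type*} [Group G] [Finite G] {p : ℕ} (S : Setting G p) : Nat.card G = p ^ (S.m + S.f) := by
  classical
  have hp := S.hp
  have hN : Nat.card (Subgroup.zpowers S.a) = p ^ S.m := by rw [Nat.card_zpowers, S.orderA]
  have hsurj : Function.Surjective (fun x : Subgroup.zpowers S.a × Fin (p ^ S.f) => (x.1 : G) * S.b ^ (x.2 : ℕ)) := by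
    intro g
    obtain ⟨i, j, rfl⟩ := S.gen g
    refine ⟨(⟨S.a ^ i * (S.b ^ p ^ S.f) ^ (j / p ^ S.f), mul_mem (Subgroup.npow_mem_zpowers _ _)
      (pow_mem ((S.cosets _).mpr dvd_rfl) _)⟩, ⟨j % p ^ S.f, Nat.mod_lt _ (pow_pos hp.pos _)⟩), ?_⟩
    show S.a ^ i * (S.b ^ p ^ S.f) ^ (j / p ^ S.f) * S.b ^ (j % p ^ S.f) = _
    rw [mul_assoc, ← pow_mul, ← pow_add, Nat.div_add_mod]
  have hinj : Function.Injective (fun x : Subgroup.zpowers S.a × Fin (p ^ S.f) => (x.1 : G) * S.b ^ (x.2 : ℕ)) := by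
    have hcore : ∀ (x y : Subgroup.zpowers S.a) (i j : ℕ), i ≤ j → j < p ^ S.f → (x : G) * S.b ^ i = y * S.b ^ j → i = j := by
      intro x y i j hle hlt he
      obtain ⟨d, rfl⟩ := Nat.exists_eq_add_of_le hle
      rw [show (y : G) * S.b ^ (i + d) = (y * S.b ^ d) * S.b ^ i by rw [add_comm, pow_add, mul_assoc]] at he
      have he' : S.b ^ d = (y : G)⁻¹ * x := by rw [mul_right_cancel he]; group
      have := Nat.eq_zero_of_dvd_of_lt ((S.cosets d).mp (he' ▸ mul_mem (inv_mem y.2) x.2)) (by omega)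
      omega
    rintro ⟨x, i⟩ ⟨y, j⟩ he
    simp only at he
    have hij : (i : ℕ) = j := by
      rcases le_total (i : ℕ) j with hle | hle
      · exact hcore x y _ _ hle j.2 he
      · exact (hcore y x _ _ hle i.2 he.symm).symm
    rw [hij, mul_left_inj] at he
    exact Prod.ext (Subtype.ext he) (Fin.ext hij)
  rw [← Nat.card_eq_of_bijective _ ⟨hinj, hsurj⟩, Nat.card_prod, hN, Nat.card_fin, pow_add]

/-- `1 + x + ... + x^(p^τ - 1)` is `p^τ`-contracting in `x = 1` mod `p`. -/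
theorem geo_sub {p : ℕ} (hp : p.Prime) (hp2 : p ≠ 2) : ∀ (τ e : ℕ), 1 ≤ e → ∀ {x y : ℕ}, (p : ℤ) ∣ (x : ℤ) - 1 →
    (p : ℤ) ∣ (y : ℤ) - 1 → (p : ℤ) ^ e ∣ (x : ℤ) - y → (p : ℤ) ^ (e + τ) ∣ (geo x (p ^ τ) : ℤ) - geo y (p ^ τ) := by
  -- the case of exponent one
  have base : ∀ (e : ℕ) {x y : ℤ}, (p : ℤ) ∣ x - 1 → (p : ℤ) ∣ y - 1 → (p : ℤ) ^ e ∣ x - y →
      (p : ℤ) ^ (e + 1) ∣ (∑ i ∈ Finset.range p, x ^ i) - ∑ i ∈ Finset.range p, y ^ i := by
    intro e x y hx hy h
    rw [← Finset.sum_sub_distrib]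
    have hterm : ∀ i, x ^ i - y ^ i = (∑ l ∈ Finset.range i, x ^ l * y ^ (i - 1 - l)) * (x - y) :=
      fun i => (geom_sum₂_mul x y i).symm
    simp only [hterm, ← Finset.sum_mul, pow_succ']
    refine mul_dvd_mul ?_ h
    rw [← ZMod.intCast_zmod_eq_zero_iff_dvd]
    have hx1 : (x : ZMod p) = 1 := by
      rw [← sub_eq_zero, ← Int.cast_one, ← Int.cast_sub, ZMod.intCast_zmod_eq_zero_iff_dvd]; exact hx
    have hy1 : (y : ZMod p) = 1 := by
      rw [← sub_eq_zero, ← Int.cast_one, ← Int.cast_sub, ZMod.intCast_zmod_eq_zero_iff_dvd]; exact hy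
    push_cast
    simp only [hx1, hy1, one_pow, mul_one, Finset.sum_const, Finset.card_range, nsmul_eq_mul]
    rw [← Nat.cast_sum, Finset.sum_range_id, ZMod.natCast_eq_zero_iff,
      Nat.mul_div_assoc p (even_iff_two_dvd.mp (Nat.Odd.sub_odd (hp.odd_of_ne_two hp2) odd_one))]
    exact dvd_mul_right _ _
  intro τ
  induction τ with
  | zero => intro e _ x y _ _ _; simp
  | succ τ ih =>
    intro e he x y hx hy h
    have hsplit : ∀ z : ℕ, geo z (p ^ (τ + 1)) = geo (z ^ p ^ τ) p * geo z (p ^ τ) := by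
      intro z
      have hgen : ∀ N M : ℕ, geo z (M * N) = geo (z ^ M) N * geo z M := by
        intro N M
        induction N with
        | zero => simp
        | succ N ihN =>
          rw [Nat.mul_succ, geo_add, ihN, geo_add (z ^ M) N 1, geo_one, ← pow_mul]
          ring
      rw [pow_succ, hgen]
    have hxp : (p : ℤ) ^ (e + τ) ∣ (x : ℤ) ^ p ^ τ - (y : ℤ) ^ p ^ τ := by
      clear ih hsplit
      induction τ with
      | zero => simpa using h
      | succ τ ih =>
        rw [pow_succ p τ, pow_mul, pow_mul, ← geom_sum₂_mul, ← add_assoc, pow_succ']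
        refine mul_dvd_mul ?_ ih
        apply dvd_geom_sum₂_self
        exact (dvd_pow_self _ (by omega)).trans ih
    have h1 : (p : ℤ) ^ (e + τ + 1) ∣ (geo (x ^ p ^ τ) p : ℤ) - geo (y ^ p ^ τ) p := by
      have := base (e + τ) (x := (x : ℤ) ^ p ^ τ) (y := (y : ℤ) ^ p ^ τ)
        (hx.trans (sub_one_dvd_pow_sub_one _ _)) (hy.trans (sub_one_dvd_pow_sub_one _ _)) hxp
      simpa [geo] using this
    have h2 : (p : ℤ) ∣ (geo (x ^ p ^ τ) p : ℤ) := by
      have hx' : (p : ℤ) ∣ ((x ^ p ^ τ : ℕ) : ℤ) - 1 := by push_cast; exact hx.trans (sub_one_dvd_pow_sub_one _ _)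
      exact_mod_cast (pow_one p) ▸ (dvd_geo_iff hp hp2 hx' p 1).mpr (by simp)
    rw [hsplit, hsplit]
    push_cast
    rw [show (geo (x ^ p ^ τ) p : ℤ) * geo x (p ^ τ) - geo (y ^ p ^ τ) p * geo y (p ^ τ) =
      geo (x ^ p ^ τ) p * ((geo x (p ^ τ) : ℤ) - geo y (p ^ τ)) + ((geo (x ^ p ^ τ) p : ℤ) - geo (y ^ p ^ τ) p) * geo y (p ^ τ) by ring,
      ← add_assoc]
    refine dvd_add ?_ (dvd_mul_of_dvd_left h1 _)
    rw [pow_succ']
    exact mul_dvd_mul h2 (ih e he hx hy h)


/-- Let p be an odd prime and G a finite metacyclic p-group (G has a cyclic normal subgroup with cyclic quotient). Then G is the product of two cyclic subgroups with trivial intersection: there are cyclic subgroups A and B with A ∩ B = 1 and |A| · |B| = |G|. -/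
theorem result {G : Type*} [Group G] [Finite G] {p : ℕ} [Fact p.Prime] (hp : p ≠ 2) (hG : IsPGroup p G) (hmc : Cfsg.IsMetacyclic G) : ∃ A B : Subgroup G, IsCyclic ↥A ∧ IsCyclic ↥B ∧ A ⊓ B = ⊥ ∧ Nat.card ↥A * Nat.card ↥B = Nat.card G := by
  classical
  obtain ⟨S⟩ := exists_setting hp hG hmc
  have hp' : p.Prime := S.hp
  have hcardG : Nat.card G = p ^ (S.m + S.f) := card_group S
  have hA : Nat.card (Subgroup.zpowers S.a) = p ^ S.m := by rw [Nat.card_zpowers, S.orderA]
  obtain ⟨t, ht⟩ := mem_powers_iff_mem_zpowers.mpr ((S.cosets (p ^ S.f)).mpr dvd_rfl)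
  simp only at ht
  by_cases htf : p ^ S.f ∣ t ∨ S.a ^ t = 1
  · -- a complement to ⟨a⟩
    obtain ⟨t0, ht0, hta⟩ : ∃ t0, p ^ S.f ∣ t0 ∧ S.a ^ t0 = S.b ^ p ^ S.f := by
      rcases htf with h | h
      · exact ⟨t, h, ht⟩
      · exact ⟨0, dvd_zero _, by rw [pow_zero, ← ht, h]⟩
    obtain ⟨t', rfl⟩ := ht0
    have hx : (p : ℤ) ∣ (S.r : ℤ) - 1 := S.r_dvd
    obtain ⟨q, hq⟩ := (dvd_geo_iff hp' hp hx (p ^ S.f) S.f).mpr dvd_rfl
    have hqp : ¬ p ∣ q := by
      intro hh
      have : p ^ (S.f + 1) ∣ geo S.r (p ^ S.f) := by rw [hq, pow_succ]; exact mul_dvd_mul_left _ hh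
      rw [dvd_geo_iff hp' hp hx, Nat.pow_dvd_pow_iff_le_right hp'.one_lt] at this
      omega
    -- choose i with i * q + t' = 0 mod p^m
    obtain ⟨i, hi⟩ : ∃ i : ℕ, ((i * q + t' : ℕ) : ZMod (p ^ S.m)) = 0 := by
      haveI : NeZero (p ^ S.m) := ⟨pow_ne_zero _ hp'.ne_zero⟩
      obtain ⟨w, hw⟩ := (ZMod.isUnit_iff_coprime q (p ^ S.m)).mpr ((hp'.coprime_iff_not_dvd.mpr hqp).symm.pow_right _)
      refine ⟨(-(t' : ZMod (p ^ S.m)) * (↑w⁻¹ : ZMod (p ^ S.m))).val, ?_⟩
      push_cast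
      rw [ZMod.natCast_zmod_val, ← hw, mul_assoc, Units.inv_mul, mul_one, neg_add_cancel]
    set y := S.a ^ i * S.b with hy
    have hpw : ∀ k : ℕ, y ^ k = S.a ^ (i * geo S.r k) * S.b ^ k := by
      intro k
      induction k with
      | zero => simp
      | succ k ih =>
        have h := S.mul_eq (i * geo S.r k) k i 1
        rw [pow_one] at h
        rw [pow_succ, ih, h, geo_add, geo_one, mul_one, mul_add]
    have hy1 : y ^ p ^ S.f = 1 := by
      rw [hpw, ← hta, ← pow_add, ← orderOf_dvd_iff_pow_eq_one, S.orderA, hq]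
      rw [show i * (p ^ S.f * q) + p ^ S.f * t' = p ^ S.f * (i * q + t') by ring]
      exact dvd_mul_of_dvd_right ((ZMod.natCast_eq_zero_iff _ _).mp hi) _
    have hmemA : ∀ k : ℕ, y ^ k ∈ Subgroup.zpowers S.a → p ^ S.f ∣ k := by
      intro k hk
      rw [hpw, Subgroup.mul_mem_cancel_left _ (Subgroup.npow_mem_zpowers _ _)] at hk
      exact (S.cosets k).mp hk
    refine ⟨Subgroup.zpowers S.a, Subgroup.zpowers y, inferInstance, inferInstance, ?_, ?_⟩
    · rw [Subgroup.eq_bot_iff_forall]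
      rintro z ⟨hz1, hz2⟩
      obtain ⟨k, rfl⟩ := mem_powers_iff_mem_zpowers.mpr hz2
      obtain ⟨c, rfl⟩ := hmemA k hz1
      show y ^ (p ^ S.f * c) = 1
      rw [pow_mul, hy1, one_pow]
    · rw [hA, Nat.card_zpowers, hcardG, pow_add]
      congr 1
      refine Nat.dvd_antisymm (orderOf_dvd_of_pow_eq_one hy1) (hmemA _ ?_)
      rw [pow_orderOf_eq_one]; exact Subgroup.one_mem _
  · -- a complement to ⟨b⟩
    push Not at htf
    obtain ⟨htf, hta⟩ := htf
    have ht0 : t ≠ 0 := fun h => htf (h ▸ dvd_zero _)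
    obtain ⟨τ, w, hw, htw⟩ := Nat.exists_eq_pow_mul_and_not_dvd ht0 p hp'.one_lt.ne'
    have hτf : τ < S.f := by
      by_contra! h
      exact htf (htw ▸ dvd_mul_of_dvd_left (pow_dvd_pow p h) _)
    have hτm : τ < S.m := by
      by_contra! h
      apply hta
      rw [← orderOf_dvd_iff_pow_eq_one, S.orderA, htw]
      exact dvd_mul_of_dvd_left (pow_dvd_pow p h) _
    let x : ℕ → ℕ := fun k => S.r ^ (p ^ (S.f - τ) * k)
    have hx : ∀ k, (p : ℤ) ∣ (x k : ℤ) - 1 := fun k => by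
      simp only [x]; push_cast; exact S.r_dvd.trans (sub_one_dvd_pow_sub_one _ _)
    -- u k = geo (x k) (p^τ) / p^τ
    let u : ℕ → ℕ := fun k => geo (x k) (p ^ τ) / p ^ τ
    have hu : ∀ k, geo (x k) (p ^ τ) = p ^ τ * u k := fun k =>
      (Nat.mul_div_cancel' ((dvd_geo_iff hp' hp (hx k) _ _).mpr dvd_rfl)).symm
    haveI : NeZero (p ^ S.m) := ⟨pow_ne_zero _ hp'.ne_zero⟩
    obtain ⟨k, hk⟩ : ∃ k : ℕ, ((u k + w * k : ℕ) : ZMod (p ^ S.m)) = 0 := by
      obtain ⟨w', hw'⟩ := (ZMod.isUnit_iff_coprime w (p ^ S.m)).mpr ((hp'.coprime_iff_not_dvd.mpr hw).symm.pow_right _)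
      let g : ℕ → ℕ := fun k => (-(u k : ZMod (p ^ S.m)) * (↑w'⁻¹ : ZMod (p ^ S.m))).val
      have hg : ∀ k, ((u k + w * g k : ℕ) : ZMod (p ^ S.m)) = 0 := by
        intro k
        push_cast
        rw [ZMod.natCast_zmod_val, ← hw', ← mul_assoc, mul_right_comm, Units.mul_inv, one_mul, add_neg_cancel]
      obtain ⟨it, hits⟩ : ∃ it : ℕ → ℕ, ∀ i, it (i + 1) = g (it i) :=
        ⟨fun i => g^[i] 0, fun i => Function.iterate_succ_apply' g i 0⟩
      have hg' : ∀ i, ((u (it i) + w * it (i + 1) : ℕ) : ZMod (p ^ S.m)) = 0 := fun i => by rw [hits]; exact hg (it i)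
      -- successive iterates agree to higher and higher precision
      have hstep : ∀ e k k' : ℕ, (p : ℤ) ^ e ∣ (k : ℤ) - k' → (p : ℤ) ^ (e + 1) ∣ (u k : ℤ) - u k' := by
        intro e k k' h
        have hxx : (p : ℤ) ^ (e + 1) ∣ (x k : ℤ) - x k' := by
          have hpos : ∀ k k' : ℕ, k' ≤ k → (p : ℤ) ^ e ∣ (k : ℤ) - k' → (p : ℤ) ^ (e + 1) ∣ (x k : ℤ) - x k' := by
            intro k k' hle h
            obtain ⟨d, rfl⟩ := Nat.exists_eq_add_of_le hle
            have hd : p ^ e ∣ d := by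
              have h' : (p : ℤ) ^ e ∣ (d : ℤ) := by simpa using h
              exact_mod_cast h'
            simp only [x, mul_add (p ^ (S.f - τ)), pow_add S.r, S.r_pow (p ^ (S.f - τ) * d)]
            push_cast
            rw [show ∀ A B : ℤ, A * (1 + B) - A = A * B from fun A B => by ring]
            refine dvd_mul_of_dvd_right ?_ _
            rw [pow_succ']
            refine mul_dvd_mul (dvd_mul_of_dvd_left (dvd_pow_self _ (by have := S.hs; omega)) _) ?_
            exact_mod_cast (dvd_geo_iff hp' hp S.r_dvd _ _).mpr (dvd_mul_of_dvd_right hd _)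
          rcases le_total k' k with hle | hle
          · exact hpos k k' hle h
          · exact dvd_sub_comm.mp (hpos k' k hle (dvd_sub_comm.mp h))
        have := geo_sub hp' hp τ (e + 1) (by omega) (hx k) (hx k') hxx
        rw [hu, hu] at this
        push_cast at this
        rw [← mul_sub, add_comm, pow_add, mul_dvd_mul_iff_left (pow_ne_zero _ (by exact_mod_cast hp'.ne_zero))] at this
        exact this
      have hit : ∀ i, (p : ℤ) ^ i ∣ (it (i + 1) : ℤ) - it i := by
        intro i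
        induction i with
        | zero => simp
        | succ i ih =>
          rcases le_or_gt (i + 1) S.m with hle | hgt
          · have h1 := hstep i _ _ ih
            have h3 : ((p : ℤ) ^ (i + 1)) ∣ (w : ℤ) * ((it (i + 1 + 1) : ℤ) - it (i + 1)) := by
              have h5 : ((p ^ S.m : ℕ) : ℤ) ∣ ((u (it (i + 1)) + w * it (i + 1 + 1) : ℕ) : ℤ) - (u (it i) + w * it (i + 1) : ℕ) := by
                rw [← ZMod.intCast_eq_intCast_iff_dvd_sub, Int.cast_natCast, Int.cast_natCast]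
                exact (hg' i).trans (hg' (i + 1)).symm
              have h6 : ((p : ℤ) ^ (i + 1)) ∣ ((u (it (i + 1)) + w * it (i + 1 + 1) : ℕ) : ℤ) - (u (it i) + w * it (i + 1) : ℕ) := by
                refine dvd_trans ?_ h5
                push_cast
                exact pow_dvd_pow _ hle
              have := dvd_sub h6 h1
              push_cast at this
              rw [show (w : ℤ) * ((it (i + 1 + 1) : ℤ) - it (i + 1)) =
                (u (it (i + 1)) + (w : ℤ) * it (i + 1 + 1) - (u (it i) + (w : ℤ) * it (i + 1))) - ((u (it (i + 1)) : ℤ) - u (it i)) by ring]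
              exact this
            refine IsCoprime.dvd_of_dvd_mul_left ?_ h3
            exact ((Nat.isCoprime_iff_coprime.mpr (hp'.coprime_iff_not_dvd.mpr hw))).pow_left
          · -- beyond the modulus the iteration is stationary
            have heq : it (i + 1 + 1) = it (i + 1) := by
              refine (hits (i + 1)).trans (Eq.trans ?_ (hits i).symm)
              have h1 : ((u (it (i + 1)) : ℤ) : ZMod (p ^ S.m)) = ((u (it i) : ℤ) : ZMod (p ^ S.m)) := by
                rw [ZMod.intCast_eq_intCast_iff_dvd_sub]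
                push_cast
                exact (pow_dvd_pow _ hgt.le).trans (dvd_sub_comm.mp (hstep i _ _ ih))
              simp only [g]
              rw [Int.cast_natCast, Int.cast_natCast] at h1
              rw [h1]
            rw [heq, sub_self]; exact dvd_zero _
      refine ⟨it S.m, ?_⟩
      have h1 := hit S.m
      have h2 := hg' S.m
      have h3 : ((it (S.m + 1) : ℤ) : ZMod (p ^ S.m)) = ((it S.m : ℤ) : ZMod (p ^ S.m)) := by
        rw [ZMod.intCast_eq_intCast_iff_dvd_sub]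
        push_cast
        exact dvd_sub_comm.mp h1
      rw [Int.cast_natCast, Int.cast_natCast] at h3
      push_cast at h2 ⊢
      rw [← h3]
      exact h2
    set j := p ^ (S.f - τ) * k with hj
    set y := S.a * S.b ^ j with hy
    have hpw : ∀ i : ℕ, y ^ i = S.a ^ geo (S.r ^ j) i * S.b ^ (j * i) := by
      intro i
      induction i with
      | zero => simp
      | succ i ih =>
        have h := S.mul_eq (geo (S.r ^ j) i) (j * i) 1 j
        rw [pow_one] at h
        rw [pow_succ, ih, hy, h, geo_add, geo_one, mul_one, one_mul, ← pow_mul, Nat.mul_succ]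
    have hjτ : j * p ^ τ = p ^ S.f * k := by
      rw [hj, mul_right_comm, ← pow_add, Nat.sub_add_cancel hτf.le]
    have hy1 : y ^ p ^ τ = 1 := by
      rw [hpw, hjτ, pow_mul S.b, ← ht, ← pow_mul, ← pow_add, ← orderOf_dvd_iff_pow_eq_one, S.orderA,
        show geo (S.r ^ j) (p ^ τ) = p ^ τ * u k from hu k, htw,
        show p ^ τ * u k + p ^ τ * w * k = p ^ τ * (u k + w * k) by ring]
      exact dvd_mul_of_dvd_right ((ZMod.natCast_eq_zero_iff _ _).mp hk) _
    -- ⟨a⟩ ∩ ⟨b⟩
    have hAB : ∀ i : ℕ, S.a ^ i ∈ Subgroup.zpowers S.b → p ^ τ ∣ i := by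
      intro i hi
      obtain ⟨l, hl⟩ := mem_powers_iff_mem_zpowers.mpr hi
      simp only at hl
      obtain ⟨c, rfl⟩ := (S.cosets l).mp (hl ▸ Subgroup.npow_mem_zpowers _ _)
      rw [pow_mul, ← ht, ← pow_mul, pow_eq_pow_iff_modEq, S.orderA] at hl
      have h5 := hl.of_dvd (pow_dvd_pow p hτm.le)
      have : p ^ τ ∣ t * c := dvd_mul_of_dvd_left (htw ▸ dvd_mul_right _ _) _
      exact Nat.modEq_zero_iff_dvd.mp (h5.symm.trans (Nat.modEq_zero_iff_dvd.mpr this))
    have hmemB : ∀ i : ℕ, y ^ i ∈ Subgroup.zpowers S.b → p ^ τ ∣ i := by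
      intro i hi
      rw [hpw, Subgroup.mul_mem_cancel_right _ (Subgroup.npow_mem_zpowers _ _)] at hi
      exact (dvd_geo_iff hp' hp (hx k) _ _).mp (hAB _ hi)
    refine ⟨Subgroup.zpowers S.b, Subgroup.zpowers y, inferInstance, inferInstance, ?_, ?_⟩
    · rw [Subgroup.eq_bot_iff_forall]
      rintro z ⟨hz1, hz2⟩
      obtain ⟨i, rfl⟩ := mem_powers_iff_mem_zpowers.mpr hz2
      obtain ⟨c, rfl⟩ := hmemB i hz1
      show y ^ (p ^ τ * c) = 1
      rw [pow_mul, hy1, one_pow]
    · have hoy : orderOf y = p ^ τ := by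
        refine Nat.dvd_antisymm (orderOf_dvd_of_pow_eq_one hy1) (hmemB _ ?_)
        rw [pow_orderOf_eq_one]; exact Subgroup.one_mem _
      have hob : orderOf S.b = p ^ S.f * p ^ (S.m - τ) := by
        have h1 : orderOf (S.a ^ t) = p ^ (S.m - τ) := by
          rw [orderOf_pow, S.orderA, htw]
          have : (p ^ S.m).gcd (p ^ τ * w) = p ^ τ := by
            rw [Nat.Coprime.gcd_mul_right_cancel_right _ ((hp'.coprime_iff_not_dvd.mpr hw).symm.pow_right _),
              Nat.gcd_eq_right (pow_dvd_pow p hτm.le)]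
          rw [this, Nat.pow_div hτm.le hp'.pos]
        rw [ht, orderOf_pow] at h1
        have hd : p ^ S.f ∣ orderOf S.b := (S.cosets _).mp (by rw [pow_orderOf_eq_one]; exact Subgroup.one_mem _)
        rw [Nat.gcd_eq_right hd] at h1
        rw [← h1, Nat.mul_div_cancel' hd]
      rw [Nat.card_zpowers, Nat.card_zpowers, hoy, hob, hcardG, mul_assoc, ← pow_add, Nat.sub_add_cancel hτm.le,
        ← pow_add, add_comm]

end Cfsg.Agent.S3884
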