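import Cfsg.Statements.S3886
import Cfsg.Agent.Lib.Metacyclic.Structure

set_option autoImplicit false
open Cfsg

namespace Cfsg.Agent.S3886
open CfsgLib.Metacyclic CfsgLib.Metacyclic.Form

/-- Let p be an odd prime and G a finite metacyclic p-group (G has a cyclic normal subgroup with cyclic quotient). Then the largest value of |R| · |Z(R)| over subgroups R of G is |G : G'|², and the subgroups attaining it (the centrally large subgroups) are exactly the non-abelian subgroups together with the maximal abelian subgroups of G. -/
theorem result {G : Type*} [Group G] [Finite G] {p : ℕ} [Fact p.Prime] (hp : p ≠ 2) (hG : IsPGroup p G) (hmc : Cfsg.IsMetacyclic G) : Cfsg.maxCentralProduct G = (commutator G).index ^ 2 ∧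
    ∀ R : Subgroup G, Cfsg.IsCentrallyLarge R ↔ (¬ IsMulCommutative ↥R ∨ Maximal (fun K : Subgroup G => IsMulCommutative ↥K) R) := by
  obtain ⟨S⟩ := exists_setting hp hG hmc
  haveI := S.neZero
  classical
  have hcen : ∀ R : Subgroup G, Nat.card (Subgroup.center R) = Nat.card (R ⊓ Subgroup.centralizer (R : Set G) : Subgroup G) := by
    intro R
    rw [← Nat.card_congr (Subgroup.subgroupOfEquivOfLe (inf_le_left : R ⊓ Subgroup.centralizer (R : Set G) ≤ R)).toEquiv]
    have : Subgroup.center R = (R ⊓ Subgroup.centralizer (R : Set G)).subgroupOf R := by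
      ext x
      rw [Subgroup.mem_center_iff, Subgroup.mem_subgroupOf, Subgroup.mem_inf, Subgroup.mem_centralizer_iff]
      exact ⟨fun h => ⟨x.2, fun y hy => congrArg Subtype.val (h ⟨y, hy⟩)⟩, fun h y => Subtype.ext (h.2 y y.2)⟩
    rw [this]
  have hval : ∀ R : Subgroup G, Nat.card R * Nat.card (Subgroup.center R) ≤ (commutator G).index ^ 2 ∧
      (Nat.card R * Nat.card (Subgroup.center R) = (commutator G).index ^ 2 ↔
        (¬ IsMulCommutative R ∨ Maximal (fun K : Subgroup G => IsMulCommutative K) R)) := by
    intro R
    by_cases hR : IsMulCommutative R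
    · have : Subgroup.center R = ⊤ := eq_top_iff.mpr fun x _ => Subgroup.mem_center_iff.mpr fun y => mul_comm' y x
      rw [this, Subgroup.card_top, S.maximal_comm_iff, sq]
      have hle := (S.comm_iff_card R).mp hR
      refine ⟨Nat.mul_self_le_mul_self_iff.mpr hle, ?_⟩
      simp only [hR, not_true, false_or]
      exact Nat.mul_self_inj
    · have hZ := S.center_le_of_not_comm hR
      have hperp : perp (S.image R) ≤ S.image R := perp_le_of_not_le (Fact.out : p.Prime) _ (fun h => hR ((S.comm_iff R).mpr h))
      have hC : Subgroup.centralizer (R : Set G) ≤ R := by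
        rw [S.centralizer_eq]
        conv_rhs => rw [← S.preimage_image hZ]
        exact fun x hx => hperp hx
      have : Nat.card R * Nat.card (Subgroup.center R) = (commutator G).index ^ 2 := by
        rw [hcen, inf_eq_right.mpr hC, S.centralizer_eq, S.card_preimage, S.card_of_center_le hZ, S.index_commutator]
        have h := card_mul_card_perp (S.image R)
        rw [S.card_pairs] at h
        calc _ = (Nat.card (S.image R) * Nat.card (perp (S.image R))) * (Nat.card (Subgroup.center G) * Nat.card (Subgroup.center G)) := by ring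
          _ = _ := by rw [h]; ring
      exact ⟨this.le, iff_of_true this (Or.inl hR)⟩
  have hmax : Cfsg.maxCentralProduct G = (commutator G).index ^ 2 := by
    apply IsGreatest.csSup_eq
    constructor
    · obtain ⟨A, -, hA⟩ := (Set.toFinite {K : Subgroup G | IsMulCommutative K}).exists_le_maximal
        (a := ⊥) ⟨⟨fun x y => Subsingleton.elim _ _⟩⟩
      exact ⟨A, ((hval A).2.mpr (Or.inr hA))⟩
    · rintro _ ⟨R, rfl⟩
      exact (hval R).1
  refine ⟨hmax, fun R => ?_⟩
  rw [Cfsg.IsCentrallyLarge, hmax]
  exact (hval R).2

end Cfsg.Agent.S3886
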