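import Cfsg.Statements.S3887
import Cfsg.Agent.Lib.Metacyclic.Structure

set_option autoImplicit false
open Cfsg

namespace Cfsg.Agent.S3887
open CfsgLib.Metacyclic CfsgLib.Metacyclic.Form

/-- Let p be an odd prime and G a finite metacyclic p-group (G has a cyclic normal subgroup with cyclic quotient). Then a subgroup R of G maximizes |R| · |C_G(R)| over all subgroups of G if and only if R contains the center of G. -/
theorem result {G : Type*} [Group G] [Finite G] {p : ℕ} [Fact p.Prime] (hp : p ≠ 2) (hG : IsPGroup p G) (hmc : Cfsg.IsMetacyclic G) (R : Subgroup G) : Cfsg.IsCentralizerLarge R ↔ Subgroup.center G ≤ R := by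
  obtain ⟨S⟩ := exists_setting hp hG hmc
  haveI := S.neZero
  classical
  have hval : ∀ R : Subgroup G, Nat.card R * Nat.card (Subgroup.centralizer (R : Set G)) ≤ Nat.card G * Nat.card (Subgroup.center G) ∧
      (Nat.card R * Nat.card (Subgroup.centralizer (R : Set G)) = Nat.card G * Nat.card (Subgroup.center G) ↔ Subgroup.center G ≤ R) := by
    intro R
    have h := S.card_mul_centralizer R
    have hle : Nat.card (R ⊓ Subgroup.center G : Subgroup G) ≤ Nat.card (Subgroup.center G) := Subgroup.card_le_of_le inf_le_right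
    refine ⟨Nat.le_of_mul_le_mul_right (h.trans_le ?_) (Nat.card_pos (α := Subgroup.center G)), fun heq => ?_, fun hZ => ?_⟩
    · rw [mul_comm]; exact Nat.mul_le_mul_left _ hle
    · rw [heq] at h
      have h2 : Nat.card (Subgroup.center G) = Nat.card (R ⊓ Subgroup.center G : Subgroup G) :=
        Nat.eq_of_mul_eq_mul_right (Nat.mul_pos (Nat.card_pos (α := G)) (Nat.card_pos (α := Subgroup.center G))) (by rw [← h]; ring)
      rw [← Subgroup.eq_of_le_of_card_ge inf_le_right h2.le]
      exact inf_le_left
    · rw [inf_eq_right.mpr hZ] at h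
      exact Nat.eq_of_mul_eq_mul_right (Nat.card_pos (α := Subgroup.center G)) (by rw [h]; ring)
  have hmax : Cfsg.maxCentralizerProduct G = Nat.card G * Nat.card (Subgroup.center G) := by
    apply IsGreatest.csSup_eq
    refine ⟨⟨⊤, (hval ⊤).2.mpr le_top⟩, ?_⟩
    rintro _ ⟨X, rfl⟩
    exact (hval X).1
  rw [Cfsg.IsCentralizerLarge, hmax]
  exact (hval R).2

end Cfsg.Agent.S3887
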