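import Cfsg.Statements.S3899
import Cfsg.Agent.Lib.GroupB.PiClasses

set_option autoImplicit false
open Cfsg

namespace Cfsg.Agent.S3899

/-- Let π be a finite non-empty set of odd primes with smallest member p and G a finite group. Write k_π(G) for the number of conjugacy classes of G consisting of π-elements (elements all of whose order's prime divisors lie in π) and |G|_π for the π-part of the order of G. If k_π(G) > (p + 1)|G|_π/(2p), then G has a normal π-complement (a normal subgroup of order prime to π whose index is a π-number) and an abelian Hall π-subgroup. -/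
theorem result {G : Type*} [Group G] [Finite G] (π : Finset ℕ) (hπ : ∀ r ∈ π, r.Prime) (h2 : 2 ∉ π) (p : ℕ) (hp : p ∈ π)
    (hmin : ∀ r ∈ π, p ≤ r) (hk : (p + 1) * π.prod (fun r => r ^ (Nat.card G).factorization r) < 2 * p * Nat.card {c : ConjClasses G // ∀ x ∈ c.carrier, ∀ r : ℕ, r.Prime → r ∣ orderOf x → r ∈ π}) :
    (∃ N : Subgroup G, N.Normal ∧ (∀ r : ℕ, r.Prime → r ∣ Nat.card ↥N → r ∉ π) ∧ ∀ r : ℕ, r.Prime → r ∣ N.index → r ∈ π) ∧ ∃ H : Subgroup G, Cfsg.IsPiHall (↑π : Set ℕ) H ∧ IsMulCommutative ↥H := by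
  classical
  have hkey : ∀ q ∈ π, ∃ K : Subgroup G, K.Normal ∧ ¬ q ∣ Nat.card K ∧ K.index ∣ q ^ (Nat.card G).factorization q ∧ ∀ a b : G, a * b * a⁻¹ * b⁻¹ ∈ K := by
    intro q hq
    haveI := Fact.mk (hπ q hq)
    have hp1 := (hπ p hp).pos
    have hle : p ≤ q := hmin q hq
    have e : π = insert q (π.erase q) := (Finset.insert_erase hq).symm
    have hc : CfsgLib.GroupB.PiClasses.cls π G ≤
        CfsgLib.GroupB.PiClasses.cls {q} G * CfsgLib.GroupB.PiClasses.part (π.erase q) (Nat.card G) := by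
      conv_lhs => rw [e]
      exact CfsgLib.GroupB.PiClasses.cls_insert_le (hπ q hq) (Finset.notMem_erase q π) fun x =>
        (CfsgLib.GroupB.PiClasses.cls_le_part _ (fun r hr => hπ r (Finset.mem_of_mem_erase hr)) _).trans
          (CfsgLib.GroupB.PiClasses.part_le_part (fun r hr => hπ r (Finset.mem_of_mem_erase hr)) Nat.card_pos.ne'
            (Subgroup.card_subgroup_dvd_card _))
    obtain ⟨Q⟩ : Nonempty (Sylow q G) := inferInstance
    have hprod : π.prod (fun r => r ^ (Nat.card G).factorization r) =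
        Nat.card ↥(Q : Subgroup G) * CfsgLib.GroupB.PiClasses.part (π.erase q) (Nat.card G) := by
      rw [Q.card_eq_multiplicity, CfsgLib.GroupB.PiClasses.part]
      exact (Finset.mul_prod_erase π _ hq).symm
    have h1 : (p + 1) * Nat.card ↥(Q : Subgroup G) < 2 * p * CfsgLib.GroupB.PiClasses.cls {q} G := by
      rw [hprod] at hk
      have h0 := lt_of_lt_of_le hk (Nat.mul_le_mul_left (2 * p) hc)
      rw [← mul_assoc, ← mul_assoc] at h0
      exact Nat.lt_of_mul_lt_mul_right h0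
    have h2 : (q + 1) * Nat.card ↥(Q : Subgroup G) < 2 * q * CfsgLib.GroupB.PiClasses.cls {q} G := by
      have a1 := (Nat.mul_lt_mul_left (hπ q hq).pos).mpr h1
      have a2 : (q + 1) * p * Nat.card ↥(Q : Subgroup G) ≤ q * (p + 1) * Nat.card ↥(Q : Subgroup G) :=
        Nat.mul_le_mul_right _ (by linarith)
      have a3 : p * ((q + 1) * Nat.card ↥(Q : Subgroup G)) < p * (2 * q * CfsgLib.GroupB.PiClasses.cls {q} G) := by linarith
      exact Nat.lt_of_mul_lt_mul_left a3
    obtain ⟨⟨Q', K, hK, hc'⟩, hab⟩ := CfsgLib.GroupB.PiClasses.hasNormalPComplement_of_cls Q h2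
    haveI := hK
    have hi : K.index = q ^ (Nat.card G).factorization q := by rw [hc'.symm.index_eq_card, Q'.card_eq_multiplicity]
    refine ⟨K, hK, ?_, hi.dvd, fun a b => ?_⟩
    · rw [← hc'.index_eq_card]; exact Q'.not_dvd_index
    · have hs : Function.Surjective ((QuotientGroup.mk' K).comp (Q' : Subgroup G).subtype) := by
        intro x
        obtain ⟨x, rfl⟩ := QuotientGroup.mk_surjective x
        obtain ⟨⟨k, y⟩, hky⟩ := hc'.2 x
        refine ⟨y, ?_⟩
        show (QuotientGroup.mk (y : G) : G ⧸ K) = QuotientGroup.mk x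
        rw [← hky]
        symm
        rw [QuotientGroup.mk_mul, (QuotientGroup.eq_one_iff _).mpr k.2, one_mul]
      obtain ⟨a', ha⟩ := hs (QuotientGroup.mk a)
      obtain ⟨b', hb⟩ := hs (QuotientGroup.mk b)
      have hcc : a' * b' = b' * a' := by
        apply (Sylow.equiv Q' Q).injective
        rw [map_mul, map_mul]
        exact hab.is_comm.comm _ _
      rw [← QuotientGroup.eq_one_iff]
      simp only [QuotientGroup.mk_mul, QuotientGroup.mk_inv]
      rw [← ha, ← hb, ← map_mul, hcc, map_mul]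
      group
  choose K hK hKq hKi hKc using hkey
  haveI : ∀ q : π, (K q.1 q.2).Normal := fun q => hK q.1 q.2
  let φ : G →* ∀ q : π, G ⧸ K q.1 q.2 := Pi.monoidHom fun q => QuotientGroup.mk' _
  have hN : ∀ r : ℕ, r.Prime → r ∣ Nat.card φ.ker → r ∉ π := by
    intro r hr hd hrπ
    refine hKq r hrπ (hd.trans (Subgroup.card_dvd_of_le fun x hx => ?_))
    exact (QuotientGroup.eq_one_iff _).mp (congrFun (MonoidHom.mem_ker.mp hx) ⟨r, hrπ⟩)
  have hidx : φ.ker.index ∣ π.prod fun r => r ^ (Nat.card G).factorization r := by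
    rw [Subgroup.index_ker, ← Finset.prod_coe_sort π]
    refine (Subgroup.card_subgroup_dvd_card φ.range).trans ?_
    rw [Nat.card_pi]
    exact Finset.prod_dvd_prod_of_dvd _ _ fun q _ => hKi q.1 q.2
  have hI : ∀ r : ℕ, r.Prime → r ∣ φ.ker.index → r ∈ π := by
    intro r hr hd
    obtain ⟨s, hs, hrs⟩ := hr.prime.exists_mem_finset_dvd (hd.trans hidx)
    exact (Nat.prime_dvd_prime_iff_eq hr (hπ s hs)).mp (hr.dvd_of_dvd_pow hrs) ▸ hs
  have hcop : Nat.Coprime (Nat.card φ.ker) φ.ker.index :=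
    Nat.coprime_of_dvd fun r hr h1 h2 => hN r hr h1 (hI r hr h2)
  obtain ⟨H, hH⟩ := Subgroup.exists_right_complement'_of_coprime hcop
  refine ⟨⟨φ.ker, inferInstance, hN, hI⟩, H, ⟨fun r hr hd => hI r hr ?_, fun r hr hrπ hd => hN r hr ?_ hrπ⟩, ⟨⟨fun a b => Subtype.ext ?_⟩⟩⟩
  · rwa [hH.symm.index_eq_card]
  · rwa [← hH.index_eq_card]
  · have h1 : φ ((a : G) * b * (a : G)⁻¹ * (b : G)⁻¹) = 1 := funext fun q => (QuotientGroup.eq_one_iff _).mpr (hKc q.1 q.2 a b)
    have h2 : (a : G) * b * (a : G)⁻¹ * (b : G)⁻¹ ∈ φ.ker ⊓ H :=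
      ⟨MonoidHom.mem_ker.mpr h1, H.mul_mem (H.mul_mem (H.mul_mem a.2 b.2) (H.inv_mem a.2)) (H.inv_mem b.2)⟩
    rw [hH.disjoint.eq_bot, Subgroup.mem_bot, mul_inv_eq_one, mul_inv_eq_iff_eq_mul] at h2
    exact h2

end Cfsg.Agent.S3899
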