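import Cfsg.Statements.S3908
import Cfsg.Agent.Lib.UniqueOrderP

set_option autoImplicit false
open Cfsg

namespace Cfsg.Agent.S3908
theorem cases_sylow {G : Type*} [Group G] [Finite G]
    (hB : ∀ A B : Subgroup G, IsMulCommutative ↥A → IsMulCommutative ↥B → Nat.card ↥A = Nat.card ↥B → ∃ g : G, B = A.map (MulAut.conj g).toMonoidHom)
    (p : ℕ) [Fact p.Prime] (P : Sylow p G) :
    CfsgLib.UniqueOrderP.Uniq p (P : Subgroup G) ∨ ∀ x ∈ (P : Subgroup G), x ^ p = 1 := by
  have hp := (Fact.out : p.Prime)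
  by_contra hne
  rw [not_or] at hne
  obtain ⟨hu, hx⟩ := hne
  push Not at hx
  obtain ⟨x, hx, hxp⟩ := hx
  simp only [CfsgLib.UniqueOrderP.Uniq, not_forall] at hu
  obtain ⟨u, v, hu, hv, huv⟩ := hu
  haveI : Nontrivial (P : Subgroup G) := ⟨⟨u, 1, fun h => by rw [h, orderOf_one] at hu; exact hp.one_lt.ne hu⟩⟩
  haveI := P.2.center_nontrivial
  obtain ⟨k, hk0, hk⟩ := (IsPGroup.nontrivial_iff_card (P.2.to_subgroup (Subgroup.center (P : Subgroup G)))).mp inferInstance
  obtain ⟨⟨z, hz⟩, hzo⟩ := exists_prime_orderOf_dvd_card' (G := Subgroup.center (P : Subgroup G)) p (hk ▸ dvd_pow_self p hk0.ne')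
  rw [Subgroup.orderOf_mk] at hzo
  obtain ⟨w, hw, hwz⟩ : ∃ w : (P : Subgroup G), orderOf w = p ∧ w ∉ Subgroup.zpowers z := by
    by_contra h
    push Not at h
    have h1 := h u hu
    have h2 := h v hv
    have e : Subgroup.zpowers u = Subgroup.zpowers z :=
      Subgroup.eq_of_le_of_card_ge (Subgroup.zpowers_le.mpr h1) (by rw [Nat.card_zpowers, Nat.card_zpowers, hu, hzo])
    exact huv (e ▸ h2)
  have hzwc : Commute z w := (Subgroup.mem_center_iff.mp hz w).symm
  set E : Subgroup (P : Subgroup G) := Subgroup.closure {z, w} with hE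
  haveI hEc : IsMulCommutative E := Subgroup.isMulCommutative_closure (by
    rintro a ha b hb
    simp only [Set.mem_insert_iff, Set.mem_singleton_iff] at ha hb
    rcases ha with rfl | rfl <;> rcases hb with rfl | rfl <;> first | rfl | exact hzwc.eq | exact hzwc.eq.symm)
  have hEp : ∀ e ∈ E, e ^ p = 1 := by
    intro e he
    induction he using Subgroup.closure_induction with
    | mem a ha =>
      rcases ha with rfl | rfl
      · exact orderOf_dvd_iff_pow_eq_one.mp hzo.dvd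
      · exact orderOf_dvd_iff_pow_eq_one.mp hw.dvd
    | one => exact one_pow p
    | mul a b ha hb h1 h2 =>
      rw [(show Commute a b from congrArg Subtype.val (hEc.is_comm.comm ⟨a, ha⟩ ⟨b, hb⟩)).mul_pow, h1, h2, one_mul]
    | inv a _ h1 => rw [inv_pow, h1, inv_one]
  obtain ⟨i, hi⟩ := IsPGroup.iff_card.mp (P.2.to_subgroup E)
  have hi2 : 2 ≤ i := by
    by_contra h
    have hzE : Subgroup.zpowers z ≤ E := Subgroup.zpowers_le.mpr (Subgroup.subset_closure (Set.mem_insert _ _))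
    have hlt : Subgroup.zpowers z < E := lt_of_le_of_ne hzE fun h' => hwz (h' ▸ Subgroup.subset_closure (Set.mem_insert_of_mem _ rfl))
    refine hlt.ne (Subgroup.eq_of_le_of_card_ge hzE ?_)
    rw [hi, Nat.card_zpowers, hzo]
    exact (Nat.pow_le_pow_right hp.pos (by omega : i ≤ 1)).trans_eq (pow_one p)
  obtain ⟨F, hF⟩ := Sylow.exists_subgroup_card_pow_prime p (G := E) (n := 2) (hi ▸ pow_dvd_pow p hi2)
  obtain ⟨j, hj⟩ := P.2.exists_orderOf_eq_pow ⟨x, hx⟩
  rw [Subgroup.orderOf_mk] at hj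
  have hj2 : 2 ≤ j := by
    by_contra h
    exact hxp (orderOf_dvd_iff_pow_eq_one.mp (hj ▸ (pow_dvd_pow p (by omega : j ≤ 1)).trans (pow_one p).dvd))
  obtain ⟨j', rfl⟩ := Nat.exists_eq_add_of_le hj2
  have hy : orderOf (x ^ p ^ j') = p ^ 2 := by
    rw [orderOf_pow_of_dvd (pow_ne_zero _ hp.ne_zero) (hj ▸ pow_dvd_pow p (by omega)), hj, pow_add, Nat.mul_div_cancel _ (pow_pos hp.pos j')]
  set A := (F.map E.subtype).map (P : Subgroup G).subtype with hA
  have hAc : IsMulCommutative A := ⟨⟨fun a b => Subtype.ext (by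
    obtain ⟨_, ⟨a', -, rfl⟩, ha'⟩ := a.2
    obtain ⟨_, ⟨b', -, rfl⟩, hb'⟩ := b.2
    show (a : G) * b = b * a
    rw [← ha', ← hb', ← map_mul, ← map_mul, ← map_mul, ← map_mul, hEc.is_comm.comm a' b'])⟩⟩
  obtain ⟨g, hg⟩ := hB A (Subgroup.zpowers (x ^ p ^ j')) hAc
    ⟨⟨fun a b => letI := IsCyclic.commGroup (α := Subgroup.zpowers (x ^ p ^ j')); mul_comm a b⟩⟩
    (by rw [hA, Subgroup.card_map_of_injective (P : Subgroup G).subtype_injective, Subgroup.card_map_of_injective E.subtype_injective, hF, Nat.card_zpowers, hy])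
  obtain ⟨s, hs, hsa⟩ := hg ▸ Subgroup.mem_zpowers (x ^ p ^ j')
  obtain ⟨_, ⟨f, -, rfl⟩, rfl⟩ := hs
  have h2 : (x ^ p ^ j') ^ p = 1 := by
    rw [← hsa, ← map_pow, ← map_pow, show (E.subtype f) ^ p = 1 from hEp f f.2, map_one, map_one]
  have := Nat.le_of_dvd hp.pos (orderOf_dvd_of_pow_eq_one h2)
  rw [hy] at this
  nlinarith [hp.two_le]


/-- Let G be a finite group in which any two abelian subgroups of the same order are conjugate. Then a Sylow 2-subgroup of G is cyclic, elementary abelian or generalized quaternion, and for an odd prime p a Sylow p-subgroup of G is cyclic or has exponent dividing p. -/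
theorem result {G : Type*} [Group G] [Finite G] (hB : ∀ A B : Subgroup G, IsMulCommutative ↥A → IsMulCommutative ↥B → Nat.card ↥A = Nat.card ↥B → ∃ g : G, B = A.map (MulAut.conj g).toMonoidHom) :
    (∀ P : Sylow 2 G, IsCyclic ↥(P : Subgroup G) ∨ Cfsg.IsElementaryAbelian 2 (P : Subgroup G) ∨ ∃ k : ℕ, Nonempty (↥(P : Subgroup G) ≃* QuaternionGroup (2 ^ k))) ∧
    ∀ (p : ℕ) [Fact p.Prime], p ≠ 2 → ∀ P : Sylow p G, IsCyclic ↥(P : Subgroup G) ∨ ∀ x ∈ (P : Subgroup G), x ^ p = 1 := by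
  refine ⟨fun P => ?_, fun p _ hp P => ?_⟩
  · haveI : Fact (Nat.Prime 2) := ⟨Nat.prime_two⟩
    rcases cases_sylow hB 2 P with h | h
    · rcases CfsgLib.UniqueOrderP.cyclic_or_quaternion P.2 h with hc | ⟨-, n, hn⟩
      · exact Or.inl hc
      · exact Or.inr (Or.inr ⟨n, hn⟩)
    · refine Or.inr (Or.inl ⟨⟨⟨fun a b => Subtype.ext ?_⟩⟩, h⟩)
      have hab := h _ ((P : Subgroup G).mul_mem a.2 b.2)
      have ha := h _ a.2
      have hb := h _ b.2
      rw [pow_two] at hab ha hb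
      show (a : G) * b = b * a
      rw [← inv_eq_of_mul_eq_one_right hab, mul_inv_rev, inv_eq_of_mul_eq_one_right ha, inv_eq_of_mul_eq_one_right hb]
  · rcases cases_sylow hB p P with h | h
    · rcases CfsgLib.UniqueOrderP.cyclic_or_quaternion P.2 h with hc | ⟨h2, -⟩
      · exact Or.inl hc
      · exact absurd h2 hp
    · exact Or.inr h

end Cfsg.Agent.S3908
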