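import Cfsg.Statements.S3909

set_option autoImplicit false
open Cfsg

namespace Cfsg.Agent.S3909

/-- Let G be a finite group in which any two abelian subgroups of the same order are conjugate. Let M be a normal subgroup of G. If M contains an element of the same order as a ∈ G, then a ∈ M; and if M is elementary abelian of order p^t with p prime and t ≥ 2, then M is the unique Sylow p-subgroup of G. -/
theorem result {G : Type*} [Group G] [Finite G] (hB : ∀ A B : Subgroup G, IsMulCommutative ↥A → IsMulCommutative ↥B → Nat.card ↥A = Nat.card ↥B → ∃ g : G, B = A.map (MulAut.conj g).toMonoidHom) (M : Subgroup G) [M.Normal] :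
    (∀ a : G, (∃ m ∈ M, orderOf m = orderOf a) → a ∈ M) ∧
    ∀ (p t : ℕ) [Fact p.Prime], 2 ≤ t → Nat.card ↥M = p ^ t → Cfsg.IsElementaryAbelian p M → ∀ P : Sylow p G, (P : Subgroup G) = M := by
  have h1 : ∀ a : G, (∃ m ∈ M, orderOf m = orderOf a) → a ∈ M := by
    rintro a ⟨m, hm, hma⟩
    obtain ⟨g, hg⟩ := hB (Subgroup.zpowers m) (Subgroup.zpowers a)
      ⟨⟨fun x y => letI := IsCyclic.commGroup (α := Subgroup.zpowers m); mul_comm x y⟩⟩
      ⟨⟨fun x y => letI := IsCyclic.commGroup (α := Subgroup.zpowers a); mul_comm x y⟩⟩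
      (by rw [Nat.card_zpowers, Nat.card_zpowers, hma])
    obtain ⟨u, hu, hua⟩ := hg ▸ Subgroup.mem_zpowers a
    rw [← hua]
    exact Subgroup.Normal.conj_mem inferInstance u (Subgroup.zpowers_le.mpr hm hu) g
  refine ⟨h1, fun p t _ ht hcard hel P => ?_⟩
  have hp := (Fact.out : p.Prime)
  haveI := hel.1
  have hMp : IsPGroup p M := IsPGroup.of_card hcard
  have hle : M ≤ P := IsPGroup.le_sylow_of_normal hMp P
  refine le_antisymm (fun x hx => ?_) hle
  obtain ⟨k, hk⟩ := P.2.exists_orderOf_eq_pow ⟨x, hx⟩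
  rw [Subgroup.orderOf_mk] at hk
  obtain ⟨m, hm, hm1⟩ : ∃ m ∈ M, m ≠ 1 := by
    haveI : Nontrivial M := Finite.one_lt_card_iff_nontrivial.mp (hcard ▸ Nat.one_lt_pow (by omega) hp.one_lt)
    obtain ⟨⟨m, hm⟩, hm1⟩ := exists_ne (1 : M)
    exact ⟨m, hm, fun h => hm1 (Subtype.ext h)⟩
  have hmo : orderOf m = p := orderOf_eq_prime (hel.2 m hm) hm1
  rcases k with _ | _ | k
  · rw [pow_zero, orderOf_eq_one_iff] at hk; exact hk ▸ M.one_mem
  · exact h1 x ⟨m, hm, by rw [hmo, hk, zero_add, pow_one]⟩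
  · exfalso
    have hy : orderOf (x ^ p ^ k) = p ^ 2 := by
      rw [orderOf_pow_of_dvd (pow_ne_zero _ hp.ne_zero) (hk ▸ pow_dvd_pow p (by omega)), hk,
        show k + 1 + 1 = k + 2 by omega, pow_add, Nat.mul_div_cancel_left _ (pow_pos hp.pos k)]
    obtain ⟨K', hK'⟩ := Sylow.exists_subgroup_card_pow_prime p (G := M) (n := 2) (hcard ▸ pow_dvd_pow p ht)
    obtain ⟨K, hK, hKM⟩ : ∃ K : Subgroup G, Nat.card K = p ^ 2 ∧ K ≤ M :=
      ⟨K'.map M.subtype, by rw [Subgroup.card_map_of_injective M.subtype_injective, hK'], Subgroup.map_subtype_le _⟩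
    have hKc : IsMulCommutative K := ⟨⟨fun a b => Subtype.ext (congrArg Subtype.val
      (hel.1.is_comm.comm (⟨a, hKM a.2⟩ : M) ⟨b, hKM b.2⟩) :)⟩⟩
    obtain ⟨g, hg⟩ := hB K (Subgroup.zpowers (x ^ p ^ k)) hKc
      ⟨⟨fun a b => letI := IsCyclic.commGroup (α := Subgroup.zpowers (x ^ p ^ k)); mul_comm a b⟩⟩
      (by rw [hK, Nat.card_zpowers, hy])
    obtain ⟨u, hu, hua⟩ := hg ▸ Subgroup.mem_zpowers (x ^ p ^ k)
    have h2 : (x ^ p ^ k) ^ p = 1 := by
      rw [← hua, ← map_pow, hel.2 u (hKM hu), map_one]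
    have := Nat.le_of_dvd hp.pos (orderOf_dvd_of_pow_eq_one h2)
    rw [hy] at this
    nlinarith [hp.two_le]

end Cfsg.Agent.S3909
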