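import Cfsg.Statements.S3910
import Mathlib

set_option autoImplicit false
open Cfsg

namespace Cfsg.Agent.S3910

/-- A finite nilpotent group in which any two abelian subgroups of the same order are conjugate is cyclic. -/
theorem result {G : Type*} [Group G] [Finite G] (hB : ∀ A B : Subgroup G, IsMulCommutative ↥A → IsMulCommutative ↥B → Nat.card ↥A = Nat.card ↥B → ∃ g : G, B = A.map (MulAut.conj g).toMonoidHom) (hnil : Group.IsNilpotent G) : IsCyclic G := by
  classical
  haveI := hnil
  haveI : IsZGroup G := ⟨fun q hq P => by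
    haveI := Fact.mk hq
    by_contra hPc
    haveI hPn : (P : Subgroup G).Normal :=
      ((Group.isNilpotent_of_finite_tfae (G := G)).out 0 3 rfl rfl).mp hnil q inferInstance P
    -- `G` is generated by `P` and its centralizer
    set W := (P : Subgroup G) ⊔ Subgroup.centralizer ((P : Subgroup G) : Set G) with hW
    have hWtop : W = ⊤ := by
      by_contra hne
      obtain ⟨r, hr, hrd⟩ := Nat.exists_prime_and_dvd (fun h => hne (Subgroup.index_eq_one.mp h))
      haveI := Fact.mk hr
      obtain ⟨R⟩ := (inferInstance : Nonempty (Sylow r G))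
      haveI hRn : (R : Subgroup G).Normal :=
        ((Group.isNilpotent_of_finite_tfae (G := G)).out 0 3 rfl rfl).mp hnil r inferInstance R
      refine R.not_dvd_index (dvd_trans hrd (Subgroup.index_dvd_of_le ?_))
      by_cases hrq : r = q
      · subst hrq
        haveI := Sylow.unique_of_normal P hPn
        rw [Subsingleton.elim R P]
        exact le_sup_left
      · refine le_trans (fun x hx => ?_) le_sup_right
        intro y hy
        have hdis : Disjoint (P : Subgroup G) (R : Subgroup G) := IsPGroup.disjoint_of_ne q r (Ne.symm hrq) _ _ P.2 R.2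
        exact Subgroup.commute_of_normal_of_disjoint _ _ hPn hRn hdis y x hy hx
    haveI : Group.IsNilpotent (P : Subgroup G) := P.2.isNilpotent
    obtain ⟨x, hxmax⟩ := Finite.exists_max (fun x : (P : Subgroup G) => orderOf x)
    obtain ⟨M, hM, hxM⟩ := (eq_top_or_exists_le_coatom (Subgroup.zpowers x)).resolve_left fun h =>
      hPc ⟨x, fun y => (h ▸ Subgroup.mem_top y : y ∈ Subgroup.zpowers x)⟩
    haveI hMn : M.Normal := Subgroup.NormalizerCondition.normal_of_coatom M Group.normalizerCondition_of_isNilpotent hM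
    obtain ⟨y, hy⟩ : ∃ y, y ∉ M := by
      by_contra h; push Not at h; exact hM.1 (top_unique fun y _ => h y)
    refine hy ?_
    obtain ⟨i, hi⟩ := IsPGroup.iff_orderOf.mp P.2 y
    obtain ⟨e, he⟩ := IsPGroup.iff_orderOf.mp P.2 x
    have hie : i ≤ e := (Nat.pow_le_pow_iff_right hq.one_lt).mp (by rw [← hi, ← he]; exact hxmax y)
    set z := x ^ q ^ (e - i) with hz
    have hzo : orderOf z = q ^ i := by
      rw [hz, orderOf_pow_of_dvd (pow_ne_zero _ hq.ne_zero) (by rw [he]; exact pow_dvd_pow q (Nat.sub_le e i)), he,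
        Nat.pow_div (Nat.sub_le e i) hq.pos]
      congr 1
      omega
    obtain ⟨g, hg⟩ := hB (Subgroup.zpowers (z : G)) (Subgroup.zpowers (y : G)) inferInstance inferInstance
      (by rw [Nat.card_zpowers, Nat.card_zpowers, Subgroup.orderOf_coe, Subgroup.orderOf_coe, hzo, hi])
    obtain ⟨w, hw, hwy⟩ := hg.le (Subgroup.mem_zpowers (y : G))
    obtain ⟨u, hu, k, hk, rfl⟩ := Subgroup.mem_sup_of_normal_left.mp (hWtop.symm ▸ Subgroup.mem_top g : g ∈ W)
    obtain ⟨j, rfl⟩ := Subgroup.mem_zpowers_iff.mp hw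
    have hwy' : u * k * ((z ^ j : (P : Subgroup G)) : G) * (u * k)⁻¹ = y := by
      rw [Subgroup.coe_zpow]; exact hwy
    have hkc : ((z ^ j : (P : Subgroup G)) : G) * k = k * ((z ^ j : (P : Subgroup G)) : G) := hk _ (z ^ j).2
    have e' : u * k * ((z ^ j : (P : Subgroup G)) : G) * (u * k)⁻¹ = u * ((z ^ j : (P : Subgroup G)) : G) * u⁻¹ := by
      rw [mul_assoc u k, ← hkc]; group
    rw [e'] at hwy'
    have h2 : (⟨u, hu⟩ : (P : Subgroup G)) * z ^ j * (⟨u, hu⟩ : (P : Subgroup G))⁻¹ = y := Subtype.ext hwy'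
    rw [← h2]
    exact hMn.conj_mem _ (M.zpow_mem (M.pow_mem (hxM (Subgroup.mem_zpowers x)) _) j) _⟩
  infer_instance

end Cfsg.Agent.S3910
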