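import Cfsg.Statements.S3917
import Mathlib

set_option autoImplicit false
open Cfsg

namespace Cfsg.Agent.S3917

/-- Say that a group has self-centralizing non-cyclic subgroups when every non-cyclic subgroup H satisfies C_G(H) ≤ H. A finite abelian group with self-centralizing non-cyclic subgroups is cyclic or elementary abelian of order p² for a prime p. -/
theorem result {G : Type*} [CommGroup G] [Finite G] (hX : (∀ H : Subgroup G, ¬ IsCyclic ↥H → Subgroup.centralizer (H : Set G) ≤ H)) :
    IsCyclic G ∨ ∃ p : ℕ, p.Prime ∧ Nat.card G = p ^ 2 ∧ Monoid.exponent G = p := by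
  classical
  by_cases hc : IsCyclic G
  · exact Or.inl hc
  right
  have hcen : ∀ H : Subgroup G, ¬ IsCyclic ↥H → H = ⊤ := fun H h =>
    top_unique fun g _ => hX H h (Subgroup.mem_centralizer_iff.mpr fun a _ => mul_comm a g)
  obtain ⟨p, hp, hP⟩ : ∃ p : ℕ, p.Prime ∧ IsPGroup p G := by
    by_contra h
    push Not at h
    haveI : Group.IsNilpotent G := CommGroup.isNilpotent
    haveI : IsZGroup G := ⟨fun q hq P => by
      haveI := Fact.mk hq
      by_contra hPc
      refine h q hq ?_
      have := P.2
      rw [hcen _ hPc] at this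
      exact this.of_equiv Subgroup.topEquiv⟩
    exact hc inferInstance
  haveI := Fact.mk hp
  set O : Subgroup G := (powMonoidHom p : G →* G).ker with hO
  have hOexp : ∀ g : G, g ∈ O ↔ g ^ p = 1 := fun g => Iff.rfl
  have hOcyc : ¬ IsCyclic O := by
    intro hOc
    haveI := hOc
    have hRne : (powMonoidHom p : G →* G).range ≠ ⊤ := by
      intro hR
      haveI : Nontrivial G := not_subsingleton_iff_nontrivial.mp fun hs => hc inferInstance
      obtain ⟨g, hg⟩ := exists_prime_orderOf_dvd_card' p
        (hP.exists_card_eq.elim fun n hn => by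
          rcases n with _ | n
          · exact absurd hn (by simpa using Finite.one_lt_card.ne')
          · exact ⟨p ^ n, by rw [hn, pow_succ']⟩)
      have hinj : Function.Injective (powMonoidHom p : G →* G) :=
        Finite.injective_iff_surjective.mpr (MonoidHom.range_eq_top.mp hR)
      have : g = 1 := hinj (show g ^ p = (1 : G) ^ p by rw [one_pow, ← hg, pow_orderOf_eq_one])
      rw [this, orderOf_one] at hg
      exact hp.ne_one hg.symm
    have hRc : IsCyclic (powMonoidHom p : G →* G).range := by
      by_contra h; exact hRne (hcen _ h)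
    obtain ⟨⟨_, b, rfl⟩, hb⟩ := hRc.exists_generator
    have hsup : ∀ g : G, ∃ k : ℤ, g * (b ^ k)⁻¹ ∈ O := fun g => by
      obtain ⟨k, hk⟩ := Subgroup.mem_zpowers_iff.mp (hb ⟨g ^ p, g, rfl⟩)
      refine ⟨k, (hOexp _).mpr ?_⟩
      have hk' : (b ^ p) ^ k = g ^ p := congrArg Subtype.val hk
      rw [mul_pow, inv_pow, ← hk', ← zpow_natCast (b ^ k), ← zpow_mul, ← zpow_natCast b p, ← zpow_mul,
        mul_comm k, mul_inv_cancel]
    by_cases hb1 : b = 1
    · refine hc ?_
      have : O = ⊤ := top_unique fun g _ => by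
        obtain ⟨k, hk⟩ := hsup g
        simpa [hb1] using hk
      haveI : IsCyclic (⊤ : Subgroup G) := this ▸ hOc
      exact isCyclic_of_surjective Subgroup.topEquiv.toMonoidHom Subgroup.topEquiv.surjective
    · obtain ⟨n, hn⟩ := hP b
      have hd : p ∣ orderOf b := by
        obtain ⟨j, -, hj⟩ := (Nat.dvd_prime_pow hp).mp (orderOf_dvd_of_pow_eq_one hn)
        rcases j with _ | j
        · exact absurd (orderOf_eq_one_iff.mp (by rw [hj]; simp)) hb1
        · rw [hj]; exact dvd_pow_self p (by omega)
      obtain ⟨t, ht⟩ := hd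
      have ht1 : b ^ t ∈ O := (hOexp _).mpr (by rw [← pow_mul, mul_comm, ← ht, pow_orderOf_eq_one])
      have htne : b ^ t ≠ 1 := by
        intro h
        have h1 := Nat.le_of_dvd (Nat.pos_of_ne_zero fun h0 => by
          rw [h0, mul_zero] at ht; exact (orderOf_pos b).ne' ht) (orderOf_dvd_of_pow_eq_one h)
        have h0 : 0 < t := Nat.pos_of_ne_zero fun h0 => by rw [h0, mul_zero] at ht; exact (orderOf_pos b).ne' ht
        nlinarith [hp.two_le]
      have hOle : Nat.card O ≤ p := by
        obtain ⟨o, ho⟩ := IsCyclic.exists_generator (α := O)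
        rw [← orderOf_eq_card_of_forall_mem_zpowers ho]
        exact Nat.le_of_dvd hp.pos (orderOf_dvd_of_pow_eq_one (Subtype.ext ((hOexp _).mp o.2)))
      have hOeq : Subgroup.zpowers (b ^ t) = O := by
        refine Subgroup.eq_of_le_of_card_ge (Subgroup.zpowers_le.mpr ht1) (hOle.trans ?_)
        rw [Nat.card_zpowers]
        exact (orderOf_eq_prime ((hOexp _).mp ht1) htne).ge
      refine hc ⟨b, fun g => ?_⟩
      obtain ⟨k, hk⟩ := hsup g
      rw [← hOeq] at hk
      have h1 := Subgroup.zpowers_le.mpr (Subgroup.pow_mem (Subgroup.zpowers b) (Subgroup.mem_zpowers b) t) hk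
      refine Subgroup.mem_zpowers_iff.mp ?_
      simpa using Subgroup.mul_mem _ h1 (Subgroup.zpow_mem _ (Subgroup.mem_zpowers b) k)
  have htop : ∀ g : G, g ^ p = 1 := fun g => (hOexp g).mp ((hcen O hOcyc).symm ▸ Subgroup.mem_top g)
  refine ⟨p, hp, ?_, ?_⟩
  · haveI : Nontrivial G := not_subsingleton_iff_nontrivial.mp fun hs => hc inferInstance
    obtain ⟨a, ha⟩ := exists_ne (1 : G)
    have hoa := orderOf_eq_prime (htop a) ha
    obtain ⟨b, hb⟩ : ∃ b, b ∉ Subgroup.zpowers a := by
      by_contra h; push Not at h; exact hc ⟨a, h⟩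
    have hob := orderOf_eq_prime (htop b) fun h => hb (h ▸ Subgroup.one_mem _)
    set H := Subgroup.zpowers a ⊔ Subgroup.zpowers b
    have hH : ¬ IsCyclic H := by
      intro h
      obtain ⟨⟨c, hc1⟩, hc2⟩ := h.exists_generator
      have h1 : Nat.card H ≤ p := by
        rw [← orderOf_eq_card_of_forall_mem_zpowers hc2]
        exact Nat.le_of_dvd hp.pos (orderOf_dvd_of_pow_eq_one (Subtype.ext (htop c)))
      have h2 : Subgroup.zpowers a = H := Subgroup.eq_of_le_of_card_ge le_sup_left (by rw [Nat.card_zpowers, hoa]; exact h1)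
      exact hb (h2.symm ▸ (le_sup_right : Subgroup.zpowers b ≤ H) (Subgroup.mem_zpowers b))
    have hHt := hcen H hH
    have hle : Nat.card G ≤ p ^ 2 := by
      have hsurj : Function.Surjective (fun x : Subgroup.zpowers a × Subgroup.zpowers b => (x.1 : G) * x.2) := fun g => by
        obtain ⟨y, hy, z, hz, h⟩ := Subgroup.mem_sup.mp (show g ∈ H from hHt.symm ▸ Subgroup.mem_top g)
        exact ⟨(⟨y, hy⟩, ⟨z, hz⟩), h⟩
      have := Nat.card_le_card_of_surjective _ hsurj
      rwa [Nat.card_prod, Nat.card_zpowers, Nat.card_zpowers, hoa, hob, ← pow_two] at this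
    obtain ⟨n, hn⟩ := hP.exists_card_eq
    have hn2 : n ≤ 2 := (Nat.pow_le_pow_iff_right hp.one_lt).mp (hn ▸ hle)
    interval_cases n
    · exact absurd hn (by simpa using Finite.one_lt_card.ne')
    · exact absurd (isCyclic_of_prime_card (p := p) (by simpa using hn)) hc
    · exact hn
  · refine ((Nat.dvd_prime hp).mp (Monoid.exponent_dvd_of_forall_pow_eq_one htop)).resolve_left fun h => hc ?_
    haveI := Monoid.exp_eq_one_iff.mp h
    infer_instance

end Cfsg.Agent.S3917
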