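import Cfsg.Statements.S3918
import Cfsg.Agent.Lib.PLocal.OddRankTwo

set_option autoImplicit false
open Cfsg

namespace Cfsg.Agent.S3918

/-- Say that a group has self-centralizing non-cyclic subgroups when every non-cyclic subgroup H satisfies C_G(H) ≤ H. For an odd prime p, a finite non-abelian p-group has self-centralizing non-cyclic subgroups if and only if it has order p³. -/
theorem result {G : Type*} [Group G] [Finite G] {p : ℕ} [Fact p.Prime] (hp : p ≠ 2) (hG : IsPGroup p G) (hna : ¬ IsMulCommutative G) :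
    (∀ H : Subgroup G, ¬ IsCyclic ↥H → Subgroup.centralizer (H : Set G) ≤ H) ↔ Nat.card G = p ^ 3 := by
  have hpp := (Fact.out : p.Prime)
  haveI : Nontrivial G := not_subsingleton_iff_nontrivial.mp fun _ => hna ⟨⟨fun a b => Subsingleton.elim _ _⟩⟩
  constructor
  · intro hall
    have hGnc : ¬ IsCyclic (⊤ : Subgroup G) := fun hc => hna <| by
      haveI : IsCyclic G := Subgroup.topEquiv.isCyclic.mp hc
      exact ⟨⟨(IsCyclic.commGroup (α := G)).mul_comm⟩⟩
    obtain ⟨E, -, hEn, ⟨hEc, hEx⟩, hEcard⟩ := CfsgLib.PLocal.exists_normal_el hp hG ⊤ hGnc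
    haveI := hEn
    have hEnc : ¬ IsCyclic E := fun hc => by
      have h1 := hc
      have h2 : Monoid.exponent E ∣ p := Monoid.exponent_dvd_of_forall_pow_eq_one fun x => Subtype.ext (hEx x x.2)
      rw [IsCyclic.exponent_eq_card, hEcard] at h2
      have := Nat.le_of_dvd hpp.pos h2
      nlinarith [hpp.two_le]
    have hle := hall E hEnc
    -- a central element of E
    have hZ : E ⊓ Subgroup.center G ≠ ⊥ :=
      CfsgLib.PStep.normal_inf_center_ne_bot hG hEn fun h => by rw [h, Subgroup.card_bot] at hEcard; nlinarith [hpp.two_le]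
    haveI := (Subgroup.nontrivial_iff_ne_bot _).mpr hZ
    obtain ⟨⟨z, hz⟩, hz1⟩ := exists_ne (1 : ↥(E ⊓ Subgroup.center G))
    have hz1' : z ≠ 1 := fun h => hz1 (Subtype.ext h)
    have hoz : orderOf z = p := orderOf_eq_prime (hEx z hz.1) hz1'
    obtain ⟨e, he, hez⟩ : ∃ e ∈ E, e ∉ Subgroup.zpowers z := by
      by_contra hne
      push Not at hne
      have := Subgroup.card_le_of_le (show E ≤ Subgroup.zpowers z from hne)
      rw [hEcard, Nat.card_zpowers, hoz] at this
      nlinarith [hpp.two_le]
    have hgen : Subgroup.zpowers z ⊔ Subgroup.zpowers e = E := by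
      refine Subgroup.eq_of_le_of_card_ge (sup_le (Subgroup.zpowers_le.mpr hz.1) (Subgroup.zpowers_le.mpr he)) ?_
      have hlt : Subgroup.zpowers z < Subgroup.zpowers z ⊔ Subgroup.zpowers e :=
        lt_of_le_of_ne le_sup_left fun h => hez (h ▸ Subgroup.mem_sup_right (Subgroup.mem_zpowers e))
      obtain ⟨k, hk⟩ := IsPGroup.iff_card.mp (hG.to_subgroup (Subgroup.zpowers z ⊔ Subgroup.zpowers e))
      have hcl : Nat.card (Subgroup.zpowers z) < Nat.card ↥(Subgroup.zpowers z ⊔ Subgroup.zpowers e) := by
        by_contra hge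
        exact hlt.ne (Subgroup.eq_of_le_of_card_ge hlt.le (by omega))
      rw [Nat.card_zpowers, hoz, hk] at hcl
      rw [hEcard, hk]
      exact Nat.pow_le_pow_right hpp.pos (by
        by_contra hk2
        have h' : p ^ k ≤ p ^ 1 := Nat.pow_le_pow_right hpp.pos (by omega)
        rw [pow_one] at h'
        omega)
    have hCe : Subgroup.centralizer ({e} : Set G) ≤ E := fun g hg => hle <| by
      rw [Subgroup.mem_centralizer_iff]
      intro x hx
      rw [← hgen] at hx
      have : Subgroup.zpowers z ⊔ Subgroup.zpowers e ≤ Subgroup.centralizer ({g} : Set G) := by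
        refine sup_le (Subgroup.zpowers_le.mpr ?_) (Subgroup.zpowers_le.mpr ?_) <;> rw [Subgroup.mem_centralizer_singleton_iff]
        · exact (Subgroup.mem_center_iff.mp hz.2 g).symm
        · exact (Subgroup.mem_centralizer_singleton_iff.mp hg).symm
      exact Subgroup.mem_centralizer_singleton_iff.mp (this hx)
    set C := Subgroup.centralizer ({e} : Set G)
    let f : G ⧸ C → {x : E // (x : G) ≠ 1} := Quotient.lift
      (fun g => ⟨⟨g * e * g⁻¹, hEn.conj_mem e he g⟩, fun h => hez (by rw [conj_eq_one_iff.mp h]; exact Subgroup.one_mem _)⟩)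
      (fun a b hab => Subtype.ext (Subtype.ext (by
        have h : a⁻¹ * b ∈ C := QuotientGroup.leftRel_apply.mp hab
        rw [Subgroup.mem_centralizer_singleton_iff] at h
        show a * e * a⁻¹ = b * e * b⁻¹
        calc a * e * a⁻¹ = a * (e * (a⁻¹ * b)) * b⁻¹ := by group
          _ = b * e * b⁻¹ := by rw [← h]; group)))
    have hf : Function.Injective f := by
      rintro ⟨a⟩ ⟨b⟩ h
      refine QuotientGroup.eq.mpr (Subgroup.mem_centralizer_singleton_iff.mpr ?_)
      have h' : a * e * a⁻¹ = b * e * b⁻¹ := congrArg (fun x => ((x : E) : G)) (congrArg Subtype.val h)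
      calc a⁻¹ * b * e = a⁻¹ * (b * e * b⁻¹) * b := by group
        _ = e * (a⁻¹ * b) := by rw [← h']; group
    have hi : C.index < p ^ 2 := by
      refine lt_of_le_of_lt (Nat.card_le_card_of_injective f hf) ?_
      rw [← hEcard]
      exact Finite.card_subtype_lt (x := (1 : E)) (by simp)
    obtain ⟨k, hk⟩ := hG.index C
    have hk1 : k ≤ 1 := by
      by_contra hk2
      have : p ^ 2 ≤ p ^ k := Nat.pow_le_pow_right hpp.pos (by omega)
      omega
    obtain ⟨n, hn⟩ := IsPGroup.iff_card.mp hG
    have hub : Nat.card G ≤ p ^ 3 := by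
      rw [← C.card_mul_index, hk, pow_succ]
      exact Nat.mul_le_mul ((Subgroup.card_le_of_le hCe).trans hEcard.le)
        ((Nat.pow_le_pow_right hpp.pos hk1).trans_eq (pow_one p))
    rw [hn] at hub ⊢
    have hn3 : n ≤ 3 := (Nat.pow_le_pow_iff_right hpp.one_lt).mp hub
    rcases Nat.lt_or_ge n 3 with h | h
    · exfalso
      apply hna
      obtain rfl | rfl | rfl : n = 0 ∨ n = 1 ∨ n = 2 := by omega
      · haveI : Subsingleton G := (Nat.card_eq_one_iff_unique.mp hn).1
        exact ⟨⟨fun a b => Subsingleton.elim _ _⟩⟩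
      · haveI : IsCyclic G := isCyclic_of_prime_card (hn.trans (pow_one p))
        exact ⟨⟨(IsCyclic.commGroup (α := G)).mul_comm⟩⟩
      · exact ⟨⟨IsPGroup.commutative_of_card_eq_prime_sq hn⟩⟩
    · rw [show n = 3 by omega]
  · intro hcard H hH x hx
    obtain ⟨k, hk3, hk⟩ := (Nat.dvd_prime_pow hpp).mp (hcard ▸ Subgroup.card_subgroup_dvd_card H)
    have hk2 : 2 ≤ k := by
      by_contra hlt
      apply hH
      obtain rfl | rfl : k = 0 ∨ k = 1 := by omega
      · haveI : Subsingleton H := (Nat.card_eq_one_iff_unique.mp hk).1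
        infer_instance
      · exact isCyclic_of_prime_card (hk.trans (pow_one p))
    obtain rfl | rfl : k = 2 ∨ k = 3 := by omega
    swap
    · rw [Subgroup.eq_top_of_card_eq H (hk.trans hcard.symm)]; trivial
    by_contra hxH
    have hHc : ∀ a ∈ H, ∀ b ∈ H, a * b = b * a := fun a ha b hb =>
      congrArg Subtype.val (IsPGroup.commutative_of_card_eq_prime_sq hk ⟨a, ha⟩ ⟨b, hb⟩)
    have htop : H ⊔ Subgroup.zpowers x = ⊤ := by
      apply Subgroup.eq_top_of_card_eq
      obtain ⟨j, hj3, hj⟩ := (Nat.dvd_prime_pow hpp).mp (hcard ▸ Subgroup.card_subgroup_dvd_card (H ⊔ Subgroup.zpowers x))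
      have hj2 : 2 < j := by
        by_contra hle'
        apply hxH
        rw [Subgroup.eq_of_le_of_card_ge (le_sup_left : H ≤ H ⊔ Subgroup.zpowers x)
          (by rw [hk, hj]; exact Nat.pow_le_pow_right hpp.pos (by omega))]
        exact Subgroup.mem_sup_right (Subgroup.mem_zpowers x)
      rw [hj, hcard, show j = 3 by omega]
    have hHZ : H ≤ Subgroup.center G := by
      intro a ha
      rw [Subgroup.mem_center_iff]
      intro g
      have : H ⊔ Subgroup.zpowers x ≤ Subgroup.centralizer ({a} : Set G) := by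
        refine sup_le (fun b hb => Subgroup.mem_centralizer_singleton_iff.mpr (hHc b hb a ha)) ?_
        rw [Subgroup.zpowers_le, Subgroup.mem_centralizer_singleton_iff]
        exact (Subgroup.mem_centralizer_iff.mp hx a ha).symm
      exact Subgroup.mem_centralizer_singleton_iff.mp (this (htop ▸ Subgroup.mem_top g))
    apply hna
    refine ⟨⟨fun a b => ?_⟩⟩
    have hall : ∀ c : G, a * c = c * a := by
      have : H ⊔ Subgroup.zpowers x ≤ Subgroup.centralizer ({x} : Set G) :=
        sup_le (fun b hb => Subgroup.mem_centralizer_singleton_iff.mpr (Subgroup.mem_center_iff.mp (hHZ hb) x).symm)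
          (by rw [Subgroup.zpowers_le, Subgroup.mem_centralizer_singleton_iff])
      have hxZ : x ∈ Subgroup.center G := Subgroup.mem_center_iff.mpr fun g =>
        Subgroup.mem_centralizer_singleton_iff.mp (this (htop ▸ Subgroup.mem_top g))
      have : H ⊔ Subgroup.zpowers x ≤ Subgroup.center G := sup_le hHZ (Subgroup.zpowers_le.mpr hxZ)
      exact fun c => (Subgroup.mem_center_iff.mp (this (htop ▸ Subgroup.mem_top a)) c).symm
    exact hall b

end Cfsg.Agent.S3918
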