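import Cfsg.Statements.S3919
import Cfsg.Agent.Lib.MaximalClassTwo
import Cfsg.Agent.Lib.MaximalClass
import Cfsg.Agent.Lib.UniqueOrderP
import Cfsg.Agent.Lib.GroupB.Coprime

set_option autoImplicit false
open Cfsg

namespace Cfsg.Agent.S3919

/-- Say that a group has self-centralizing non-cyclic subgroups when every non-cyclic subgroup H satisfies C_G(H) ≤ H. A finite non-abelian 2-group G of order 2^n has self-centralizing non-cyclic subgroups if and only if G has nilpotency class n − 1 (that is, G is dihedral, semidihedral or generalized quaternion). -/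
theorem result {G : Type*} [Group G] [Finite G] (hna : ¬ IsMulCommutative G) (n : ℕ) (hG : Nat.card G = 2 ^ n) :
    (∀ H : Subgroup G, ¬ IsCyclic ↥H → Subgroup.centralizer (H : Set G) ≤ H) ↔ (⊤ : Subgroup G).lowerCentralSeries (n - 2) ≠ ⊥ := by
  classical
  haveI : Fact (Nat.Prime 2) := ⟨Nat.prime_two⟩
  have hG2 : IsPGroup 2 G := IsPGroup.of_card hG
  haveI := hG2.isNilpotent
  have hn3 : 3 ≤ n := by
    by_contra hlt
    apply hna
    have hcases : n = 0 ∨ n = 1 ∨ n = 2 := by omega
    rcases hcases with rfl | rfl | rfl
    · haveI : Subsingleton G := (Nat.card_eq_one_iff_unique.mp (by rw [hG, pow_zero])).1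
      exact ⟨⟨fun a b => Subsingleton.elim _ _⟩⟩
    · haveI : IsCyclic G := isCyclic_of_prime_card (by rw [hG, pow_one])
      exact ⟨⟨fun a b => IsCyclic.commGroup.mul_comm a b⟩⟩
    · exact ⟨⟨fun a b => IsPGroup.commutative_of_card_eq_prime_sq hG a b⟩⟩
  have hclass : (⊤ : Subgroup G).lowerCentralSeries (n - 2) ≠ ⊥ ↔ Group.nilpotencyClass G = n - 1 := by
    have hle := CfsgLib.MaximalClassTwo.class_le n G hG (by omega)
    constructor
    · intro h
      by_contra hne
      apply h
      rw [eq_bot_iff, ← Subgroup.lowerCentralSeries_nilpotencyClass (G := G)]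
      exact Subgroup.lowerCentralSeries_antitone _ (by omega)
    · intro h hbot
      have : Group.nilpotencyClass G ≤ n - 2 := Subgroup.lowerCentralSeries_eq_bot_iff_nilpotencyClass_le.mp hbot
      omega
  rw [hclass]
  constructor
  · intro hS
    haveI : Nontrivial G := Finite.one_lt_card_iff_nontrivial.mp
      (by rw [hG]; exact Nat.one_lt_pow (by omega) one_lt_two)
    obtain ⟨c, hc2, hcc⟩ : ∃ c : G, orderOf c = 2 ∧ c ∈ Subgroup.center G := by
      haveI := hG2.center_nontrivial
      obtain ⟨k, hk, hcard⟩ := (hG2.to_subgroup (Subgroup.center G)).nontrivial_iff_card.mp inferInstance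
      obtain ⟨⟨c, hcc⟩, hc⟩ := exists_prime_orderOf_dvd_card' (G := Subgroup.center G) 2 (hcard ▸ dvd_pow_self 2 (by omega))
      rw [Subgroup.orderOf_mk] at hc
      exact ⟨c, hc, hcc⟩
    -- commutator quotient of order four
    have hidx4 : (∃ a : G, (Subgroup.zpowers a).index = 2) → Nat.card (Subgroup.center G) = 2 → (commutator G).index = 4 := by
      rintro ⟨a, ha⟩ hZ
      have hZa : Subgroup.center G ≤ Subgroup.zpowers a := by
        intro z hz
        by_contra hza
        apply hna
        have hle : Subgroup.zpowers a ≤ Subgroup.centralizer ({a} : Set G) :=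
          Subgroup.zpowers_le.mpr (Subgroup.mem_centralizer_singleton_iff.mpr rfl)
        have hzc : z ∈ Subgroup.centralizer ({a} : Set G) :=
          Subgroup.mem_centralizer_singleton_iff.mpr (Subgroup.mem_center_iff.mp hz a).symm
        have hall : ∀ g : G, ∃ i : ℤ, g = a ^ i ∨ g = z * a ^ i := by
          intro g
          by_cases hg : g ∈ Subgroup.zpowers a
          · obtain ⟨i, hi⟩ := Subgroup.mem_zpowers_iff.mp hg
            exact ⟨i, Or.inl hi.symm⟩
          · have : z⁻¹ * g ∈ Subgroup.zpowers a := (Subgroup.mul_mem_iff_of_index_two ha).mpr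
              (iff_of_false (fun h => hza (by simpa using (Subgroup.zpowers a).inv_mem h)) hg)
            obtain ⟨i, hi⟩ := Subgroup.mem_zpowers_iff.mp this
            exact ⟨i, Or.inr (by rw [hi, mul_inv_cancel_left])⟩
        refine ⟨⟨fun x y => ?_⟩⟩
        have hz' : ∀ g, Commute z g := fun g => (Subgroup.mem_center_iff.mp hz g).symm
        obtain ⟨i, rfl | rfl⟩ := hall x <;> obtain ⟨j, rfl | rfl⟩ := hall y
        · exact (Commute.zpow_zpow_self a i j).eq
        · exact ((hz' _).symm.mul_right (Commute.zpow_zpow_self a i j)).eq
        · exact ((hz' _).mul_left (Commute.zpow_zpow_self a i j)).eq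
        · exact ((hz' (z * a ^ j)).mul_left ((hz' (a ^ i)).symm.mul_right (Commute.zpow_zpow_self a i j))).eq
      obtain ⟨c', hc'⟩ := (Subgroup.isCyclic_iff_exists_zpowers_eq_top (Subgroup.zpowers a)).mp inferInstance
      exact (CfsgLib.MaximalClassTwo.structure_of_cyclic_quotient hn3 hG (Subgroup.zpowers a) (Subgroup.center G) ha a
        (Subgroup.mem_zpowers a) le_rfl le_sup_right hZa
        (by by_contra! h; exact hna ⟨⟨h⟩⟩) (Or.inl hZ)).1
    by_cases hinv : ∃ t : G, orderOf t = 2 ∧ t ≠ c
    · -- a self-centralising involution
      obtain ⟨t, ht, htc⟩ := hinv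
      have hct : Commute c t := (Subgroup.mem_center_iff.mp hcc t).symm
      set H := Subgroup.zpowers c ⊔ Subgroup.zpowers t with hH
      have hn : Subgroup.zpowers t ≤ Subgroup.normalizer (Subgroup.zpowers c : Set G) := by
        refine le_trans ?_ (Subgroup.centralizer_le_normalizer _)
        rw [Subgroup.zpowers_le, Subgroup.mem_centralizer_iff]
        intro w hw
        obtain ⟨j, rfl⟩ := Subgroup.mem_zpowers_iff.mp hw
        exact (hct.zpow_left j).eq
      have hmem : ∀ h ∈ H, h = 1 ∨ h = c ∨ h = t ∨ h = c * t := by
        intro h hh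
        obtain ⟨u, hu, v, hv, rfl⟩ := (CfsgLib.GroupB.Coprime.mem_sup_of_le_normalizer hn).mp hh
        have two : ∀ {w u : G}, orderOf w = 2 → u ∈ Subgroup.zpowers w → u = 1 ∨ u = w := by
          intro w u hw hu
          obtain ⟨i, rfl⟩ := Subgroup.mem_zpowers_iff.mp hu
          rw [← zpow_mod_orderOf, hw]
          rcases Int.emod_two_eq_zero_or_one i with h | h <;> simp [h]
        rcases two hc2 hu with rfl | rfl <;> rcases two ht hv with rfl | rfl <;> simp
      have hcc2 : c * c = 1 := by rw [← pow_two, ← hc2, pow_orderOf_eq_one]
      have htt : t * t = 1 := by rw [← pow_two, ← ht, pow_orderOf_eq_one]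
      have hnc : ¬ IsCyclic H := by
        intro hcyc
        have h1 := CfsgLib.UniqueOrderP.uniq_of_cyclic (G := H) (p := 2) (⟨c, Subgroup.mem_sup_left (Subgroup.mem_zpowers c)⟩) (⟨t, Subgroup.mem_sup_right (Subgroup.mem_zpowers t)⟩)
          (by rw [Subgroup.orderOf_mk, hc2]) (by rw [Subgroup.orderOf_mk, ht])
        obtain ⟨i, hi⟩ := Subgroup.mem_zpowers_iff.mp h1
        have hi' : c ^ i = t := by simpa using congrArg Subtype.val hi
        rw [← zpow_mod_orderOf, hc2] at hi'
        rcases Int.emod_two_eq_zero_or_one i with h | h <;> simp [h] at hi'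
        · rw [← hi', orderOf_one] at ht; omega
        · exact htc hi'.symm
      have hCle := hS H hnc
      have hCt : Subgroup.centralizer ({t} : Set G) ≤ H := by
        refine le_trans ?_ hCle
        intro g hg
        rw [Subgroup.mem_centralizer_singleton_iff] at hg
        rw [Subgroup.mem_centralizer_iff]
        intro h hh
        have e1 : Commute c g := (Subgroup.mem_center_iff.mp hcc g).symm
        have e2 : Commute t g := hg.symm
        rcases hmem h hh with rfl | rfl | rfl | rfl
        · simp
        · exact e1.eq
        · exact e2.eq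
        · exact (e1.mul_left e2).eq
      have hH4 : Nat.card H = 4 := by
        rw [CfsgLib.GroupB.Coprime.card_sup_eq hn, Nat.card_zpowers, Nat.card_zpowers, hc2, ht]
        rw [Subgroup.eq_bot_iff_forall]
        rintro w ⟨hw1, hw2⟩
        obtain ⟨i, rfl⟩ := Subgroup.mem_zpowers_iff.mp hw2
        rw [← zpow_mod_orderOf, ht]
        rcases Int.emod_two_eq_zero_or_one i with h | h
        · simp [h]
        · exfalso
          obtain ⟨j, hj⟩ := Subgroup.mem_zpowers_iff.mp hw1
          rw [← zpow_mod_orderOf, hc2, ← zpow_mod_orderOf t, ht] at hj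
          simp only [Nat.cast_ofNat, h, zpow_one] at hj
          rcases Int.emod_two_eq_zero_or_one j with h' | h' <;> simp [h'] at hj
          · rw [← hj, orderOf_one] at ht; omega
          · exact htc hj.symm
      have hC4 : Nat.card (Subgroup.centralizer ({t} : Set G)) = 4 := by
        rw [← hH4]
        refine le_antisymm (Subgroup.card_le_of_le hCt) (Subgroup.card_le_of_le (sup_le ?_ ?_))
        · exact Subgroup.zpowers_le.mpr (Subgroup.mem_centralizer_singleton_iff.mpr hct.eq)
        · exact Subgroup.zpowers_le.mpr (Subgroup.mem_centralizer_singleton_iff.mpr rfl)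
      have h8 : 8 ≤ Nat.card G := by
        rw [hG]; exact (show 2 ^ 3 ≤ 2 ^ n from Nat.pow_le_pow_right two_pos hn3)
      obtain ⟨a, ha, hta⟩ := CfsgLib.MaximalClass.exists_cyclic_index_two _ rfl hG2 h8 t ht hC4
      have hai : (Subgroup.zpowers a).index = 2 := by
        have h1 := (Subgroup.zpowers a).card_mul_index
        rw [Nat.card_zpowers, ← ha, mul_comm 2] at h1
        exact Nat.eq_of_mul_eq_mul_left (orderOf_pos a) h1
      have hZ : Nat.card (Subgroup.center G) = 2 := by
        have hle : Subgroup.center G ≤ Subgroup.centralizer ({t} : Set G) := fun g hg =>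
          Subgroup.mem_centralizer_singleton_iff.mpr (Subgroup.mem_center_iff.mp hg t).symm
        have h1 : Subgroup.center G ≤ Subgroup.zpowers c := by
          intro g hg
          have htC : t ∉ Subgroup.center G := by
            intro h
            have h2 : Subgroup.centralizer ({t} : Set G) = ⊤ := eq_top_iff.mpr fun g _ =>
              Subgroup.mem_centralizer_singleton_iff.mpr (Subgroup.mem_center_iff.mp h g)
            rw [h2, Subgroup.card_top] at hC4
            omega
          rcases hmem g (hCt (hle hg)) with rfl | rfl | rfl | rfl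
          · exact Subgroup.one_mem _
          · exact Subgroup.mem_zpowers _
          · exact absurd hg htC
          · exact absurd (((Subgroup.center G).mul_mem_cancel_left hcc).mp hg) htC
        refine le_antisymm ((Subgroup.card_le_of_le h1).trans (by rw [Nat.card_zpowers, hc2])) ?_
        have h2 := Subgroup.orderOf_le_card (Subgroup.center G) (Set.toFinite _) hcc
        rw [hc2] at h2
        exact h2
      exact (CfsgLib.MaximalClassTwo.main n G hn3 hG (Or.inr (hidx4 ⟨a, hai⟩ hZ))).1
    · -- a unique involution
      push Not at hinv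
      have hu : CfsgLib.UniqueOrderP.Uniq 2 G := fun x y hx hy => by
        rw [hinv x hx, hinv y hy]; exact Subgroup.mem_zpowers c
      rcases CfsgLib.UniqueOrderP.cyclic_or_quaternion hG2 hu with hcyc | ⟨-, k, ⟨e⟩⟩
      · exact absurd ⟨⟨fun a b => IsCyclic.commGroup.mul_comm a b⟩⟩ hna
      · haveI : NeZero (2 ^ k) := ⟨pow_ne_zero _ two_ne_zero⟩
        have hk : 1 ≤ k := by
          by_contra hk0
          have h4 : Nat.card G = 4 := by
            rw [Nat.card_congr e.toEquiv, Nat.card_eq_fintype_card, QuaternionGroup.card, show k = 0 by omega]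
            rfl
          have h8 : 2 ^ 3 ≤ 2 ^ n := Nat.pow_le_pow_right two_pos hn3
          omega
        set a := e.symm (QuaternionGroup.a 1) with ha
        have hoa : orderOf a = 2 * 2 ^ k := by
          rw [ha, MulEquiv.orderOf_eq, QuaternionGroup.orderOf_a_one]
        have hai : (Subgroup.zpowers a).index = 2 := by
          have h1 := (Subgroup.zpowers a).card_mul_index
          rw [Nat.card_zpowers, hoa, Nat.card_congr e.toEquiv, Nat.card_eq_fintype_card, QuaternionGroup.card,
            show 4 * 2 ^ k = (2 * 2 ^ k) * 2 by ring] at h1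
          exact Nat.eq_of_mul_eq_mul_left (by positivity) h1
        have hZ : Nat.card (Subgroup.center G) = 2 := by
          have h1 : Subgroup.center G ≤ Subgroup.zpowers c := by
            intro g hg
            have hq : e g ∈ Subgroup.center (QuaternionGroup (2 ^ k)) := by
              rw [Subgroup.mem_center_iff]
              intro h
              obtain ⟨h, rfl⟩ := e.surjective h
              rw [← map_mul, ← map_mul, Subgroup.mem_center_iff.mp hg h]
            rw [Subgroup.mem_center_iff] at hq
            have h2 : g ^ 2 = 1 := by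
              apply e.injective
              rw [map_pow, map_one]
              generalize e g = q at hq ⊢
              rcases q with i | i
              · have := hq (QuaternionGroup.xa 0)
                rw [QuaternionGroup.xa_mul_a, QuaternionGroup.a_mul_xa, QuaternionGroup.xa.injEq] at this
                rw [pow_two, QuaternionGroup.a_mul_a, QuaternionGroup.one_def, QuaternionGroup.a.injEq]
                linear_combination this
              · exfalso
                have := hq (QuaternionGroup.a 1)
                rw [QuaternionGroup.a_mul_xa, QuaternionGroup.xa_mul_a, QuaternionGroup.xa.injEq] at this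
                have h2 : ((2 : ℕ) : ZMod (2 * 2 ^ k)) = 0 := by push_cast; linear_combination -this
                rw [ZMod.natCast_eq_zero_iff] at h2
                have h3 := Nat.le_of_dvd two_pos h2
                have h4 : 2 ^ 1 ≤ 2 ^ k := Nat.pow_le_pow_right two_pos hk
                omega
            rcases eq_or_ne g 1 with rfl | hg1
            · exact Subgroup.one_mem _
            · rw [hinv g (orderOf_eq_prime h2 hg1)]; exact Subgroup.mem_zpowers c
          refine le_antisymm ((Subgroup.card_le_of_le h1).trans (by rw [Nat.card_zpowers, hc2])) ?_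
          have h2 := Subgroup.orderOf_le_card (Subgroup.center G) (Set.toFinite _) hcc
          rw [hc2] at h2
          exact h2
        exact (CfsgLib.MaximalClassTwo.main n G hn3 hG (Or.inr (hidx4 ⟨a, hai⟩ hZ))).1
  · intro hc H hH g hg
    obtain ⟨-, -, hZ2, c, hc2, hout⟩ := CfsgLib.MaximalClassTwo.main n G hn3 hG (Or.inl hc)
    obtain ⟨x, hxH, hxc⟩ : ∃ x ∈ H, x ∉ Subgroup.zpowers c := by
      by_contra! h
      exact hH (Subgroup.isCyclic_of_le h)
    obtain ⟨hxc1, hxx⟩ := hout x hxc
    -- H meets the center
    have hZH : Subgroup.center G ≤ H := by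
      by_contra hnle
      have hinf : ∀ z, z ∈ Subgroup.center G → z ∈ H → z = 1 := by
        intro z hz hzH
        by_contra hz1
        apply hnle
        haveI : Fact (Nat.card (Subgroup.center G)).Prime := ⟨hZ2 ▸ Nat.prime_two⟩
        rcases Subgroup.eq_bot_or_eq_top_of_prime_card (H.subgroupOf (Subgroup.center G)) with h | h
        · rw [Subgroup.eq_bot_iff_forall] at h
          exact absurd (congrArg Subtype.val (h ⟨z, hz⟩ hzH)) hz1
        · exact Subgroup.subgroupOf_eq_top.mp h
      apply hH
      -- elements of H in the cyclic part are trivial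
      have hint : ∀ h ∈ H, h ∈ Subgroup.zpowers c → h = 1 := by
        intro h hh hhc
        by_contra h1
        obtain ⟨e, he⟩ := IsPGroup.iff_orderOf.mp hG2 h
        have he0 : e ≠ 0 := by
          intro h0
          rw [h0, pow_zero, orderOf_eq_one_iff] at he
          exact h1 he
        set v := h ^ 2 ^ (e - 1) with hv
        have hv2 : orderOf v = 2 := by
          rw [hv, orderOf_pow, he, Nat.gcd_eq_right (pow_dvd_pow 2 (by omega)), Nat.pow_div (by omega) two_pos,
            show e - (e - 1) = 1 by omega, pow_one]
        have hvc : v ∈ Subgroup.zpowers c := Subgroup.pow_mem _ hhc _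
        obtain ⟨i, hi⟩ := Subgroup.mem_zpowers_iff.mp hvc
        have hvZ : v ∈ Subgroup.center G := by
          have hvv : v * v = 1 := by rw [← pow_two, ← hv2, pow_orderOf_eq_one]
          rw [Subgroup.mem_center_iff]
          intro y
          by_cases hy : y ∈ Subgroup.zpowers c
          · obtain ⟨j, rfl⟩ := Subgroup.mem_zpowers_iff.mp hy
            rw [← hi]; exact (Commute.zpow_zpow_self c j i).eq
          · obtain ⟨hy1, -⟩ := hout y hy
            set w := y * c * y⁻¹ * c with hw
            have hww : w ^ i * w ^ i = 1 := by
              rw [← (Commute.refl w).mul_zpow]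
              · rw [show w * w = 1 by
                  have := Subgroup.orderOf_dvd_natCard _ hy1
                  rw [hZ2] at this
                  rw [← pow_two]; exact orderOf_dvd_iff_pow_eq_one.mp this, one_zpow]
            have hcw : Commute w c⁻¹ := ((Subgroup.mem_center_iff.mp hy1 c⁻¹)).symm
            have h5 : y * v * y⁻¹ = w ^ i * v := by
              rw [← hi, ← conj_zpow, show y * c * y⁻¹ = w * c⁻¹ by rw [hw, mul_inv_cancel_right],
                hcw.mul_zpow, inv_zpow, hi, inv_eq_of_mul_eq_one_right hvv]
            by_contra hne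
            -- then w^i is the involution of <c>, namely v
            have hwv : w ^ i = v := by
              have hwi : w ^ i ∈ Subgroup.center G := Subgroup.zpow_mem _ hy1 i
              have hwc : w ^ i ∈ Subgroup.zpowers c := by
                have : y * v * y⁻¹ ∈ Subgroup.zpowers c := by
                  haveI := Subgroup.normal_of_index_eq_two hc2
                  exact (inferInstance : (Subgroup.zpowers c).Normal).conj_mem v hvc y
                rw [h5] at this
                exact ((Subgroup.zpowers c).mul_mem_cancel_right hvc).mp this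
              have hw1 : w ^ i ≠ 1 := by
                intro h
                rw [h, one_mul] at h5
                exact hne (mul_inv_eq_iff_eq_mul.mp h5)
              have h6 := CfsgLib.UniqueOrderP.uniq_of_cyclic (G := Subgroup.zpowers c) (p := 2) ⟨w ^ i, hwc⟩ ⟨v, hvc⟩
                (by rw [Subgroup.orderOf_mk]; exact orderOf_eq_prime (by rw [pow_two, hww]) hw1)
                (by rw [Subgroup.orderOf_mk, hv2])
              obtain ⟨j, hj⟩ := Subgroup.mem_zpowers_iff.mp h6
              have hj' : (w ^ i) ^ j = v := by simpa using congrArg Subtype.val hj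
              rw [← zpow_mod_orderOf, orderOf_eq_prime (by rw [pow_two, hww] : (w ^ i) ^ 2 = 1) hw1] at hj'
              rcases Int.emod_two_eq_zero_or_one j with h | h <;> simp [h] at hj'
              · rw [← hj', orderOf_one] at hv2; omega
              · exact hj'
            rw [hwv, hvv] at h5
            have h7 : y * v = y := by
              have := mul_inv_eq_iff_eq_mul.mp h5
              rwa [one_mul] at this
            have hv1 : v = 1 := by simpa using h7
            rw [hv1, orderOf_one] at hv2
            omega
        have := hinf v hvZ (H.pow_mem hh _)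
        rw [this, orderOf_one] at hv2
        omega
      -- so H has order two
      have hH2 : ∀ h ∈ H, h = 1 ∨ h = x := by
        intro h hh
        by_cases hhc : h ∈ Subgroup.zpowers c
        · exact Or.inl (hint h hh hhc)
        · right
          have h1 : x⁻¹ * h ∈ Subgroup.zpowers c := (Subgroup.mul_mem_iff_of_index_two hc2).mpr
            (iff_of_false (fun h => hxc (by simpa using (Subgroup.zpowers c).inv_mem h)) hhc)
          exact (inv_mul_eq_one.mp (hint _ (H.mul_mem (H.inv_mem hxH) hh) h1)).symm
      refine ⟨⟨⟨x, hxH⟩, fun h => ?_⟩⟩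
      rcases hH2 h h.2 with h1 | h1
      · exact ⟨0, Subtype.ext (by simp [h1])⟩
      · exact ⟨1, Subtype.ext (by simp [h1])⟩
    -- the centralizer of x is small
    have hgx : Commute x g := Subgroup.mem_centralizer_iff.mp hg x hxH
    have hcx : ∀ v ∈ Subgroup.zpowers c, Commute x v → v ∈ Subgroup.center G := by
      intro v hv hxv
      rw [Subgroup.mem_center_iff]
      intro y
      obtain ⟨j, hj⟩ := Subgroup.mem_zpowers_iff.mp hv
      by_cases hy : y ∈ Subgroup.zpowers c
      · obtain ⟨i, rfl⟩ := Subgroup.mem_zpowers_iff.mp hy
        rw [← hj]; exact (Commute.zpow_zpow_self c i j).eq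
      · have h1 : x⁻¹ * y ∈ Subgroup.zpowers c := (Subgroup.mul_mem_iff_of_index_two hc2).mpr
          (iff_of_false (fun h => hxc (by simpa using (Subgroup.zpowers c).inv_mem h)) hy)
        obtain ⟨i, hi⟩ := Subgroup.mem_zpowers_iff.mp h1
        rw [show y = x * c ^ i by rw [hi, mul_inv_cancel_left], ← hj]
        exact ((hj.symm ▸ hxv : Commute x (c ^ j)).mul_left (Commute.zpow_zpow_self c i j)).eq
    by_cases hgc : g ∈ Subgroup.zpowers c
    · exact hZH (hcx g hgc hgx)
    · have h1 : x⁻¹ * g ∈ Subgroup.zpowers c := (Subgroup.mul_mem_iff_of_index_two hc2).mpr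
        (iff_of_false (fun h => hxc (by simpa using (Subgroup.zpowers c).inv_mem h)) hgc)
      have h2 := hZH (hcx _ h1 ((Commute.refl x).inv_right.mul_right hgx))
      have := H.mul_mem hxH h2
      rwa [mul_inv_cancel_left] at this

end Cfsg.Agent.S3919
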