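import Cfsg.Statements.S3920
import Cfsg.Agent.Lib.Dih.Sub

set_option autoImplicit false
open Cfsg

namespace Cfsg.Agent.S3920

/-- Say that a group has self-centralizing non-cyclic subgroups when every non-cyclic subgroup H satisfies C_G(H) ≤ H. For n ≥ 3, the dihedral group of order 2n has self-centralizing non-cyclic subgroups if and only if n is odd or a power of 2. -/
theorem result (n : ℕ) (hn : 3 ≤ n) : (∀ H : Subgroup (DihedralGroup n), ¬ IsCyclic ↥H → Subgroup.centralizer (H : Set (DihedralGroup n)) ≤ H) ↔ (Odd n ∨ ∃ k : ℕ, n = 2 ^ k) := by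
  haveI : NeZero n := ⟨by omega⟩
  constructor
  · intro hall
    by_contra hne
    push Not at hne
    obtain ⟨hev, hpow⟩ := hne
    obtain ⟨a, o, hodd, hno⟩ := Nat.exists_eq_two_pow_mul_odd (n := n) (by omega)
    obtain ⟨a', rfl⟩ : ∃ a', a = a' + 1 := by
      rcases a with _ | a
      · exfalso; rw [pow_zero, one_mul] at hno; exact hev (hno ▸ hodd)
      · exact ⟨a, rfl⟩
    have ho : 2 ≤ o := by
      rcases o with _ | _ | o
      · exfalso; exact (Nat.not_odd_zero hodd)
      · exact absurd (by rw [hno]; omega) (hpow (a' + 1))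
      · omega
    have hd : 2 ^ (a' + 1) ∣ n := ⟨o, hno⟩
    set H := CfsgLib.DihSub.sub n _ hd
    have hu : 0 < 2 ^ a' := Nat.two_pow_pos _
    have hn2 : n = 2 * (2 ^ a' * o) := by rw [hno, pow_succ]; ring
    have hr : DihedralGroup.r ((2 ^ (a' + 1) : ℕ) : ZMod n) ∈ H := by
      rw [CfsgLib.DihSub.r_mem, map_natCast, ZMod.natCast_self]
    have hs : DihedralGroup.sr (0 : ZMod n) ∈ H := by rw [CfsgLib.DihSub.sr_mem, map_zero]
    have hnc : ¬ IsCyclic H := by
      intro hc
      letI := hc
      letI := IsCyclic.commGroup (α := H)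
      have h := congrArg Subtype.val (mul_comm (⟨_, hr⟩ : H) ⟨_, hs⟩)
      simp only [Subgroup.coe_mul, DihedralGroup.r_mul_sr, DihedralGroup.sr_mul_r, DihedralGroup.sr.injEq, zero_sub, zero_add] at h
      rw [neg_eq_iff_add_eq_zero, ← Nat.cast_add, ZMod.natCast_eq_zero_iff] at h
      have := Nat.le_of_dvd (by rw [pow_succ]; omega) h
      rw [hn2, pow_succ] at this
      have h3 : 2 ^ a' * 3 ≤ 2 ^ a' * o := Nat.mul_le_mul_left _ (by obtain ⟨r, rfl⟩ := hodd; omega)
      omega
    have hz : DihedralGroup.r ((2 ^ a' * o : ℕ) : ZMod n) ∈ Subgroup.centralizer (H : Set (DihedralGroup n)) := by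
      have h2 : ((2 ^ a' * o : ℕ) : ZMod n) + ((2 ^ a' * o : ℕ) : ZMod n) = 0 := by
        rw [← Nat.cast_add, ← two_mul, ← hn2, ZMod.natCast_self]
      rw [Subgroup.mem_centralizer_iff]
      rintro (i | i) -
      · simp [add_comm]
      · rw [DihedralGroup.sr_mul_r, DihedralGroup.r_mul_sr, DihedralGroup.sr.injEq]
        symm
        calc i - ((2 ^ a' * o : ℕ) : ZMod n) = i + ((2 ^ a' * o : ℕ) : ZMod n) - (((2 ^ a' * o : ℕ) : ZMod n) + ((2 ^ a' * o : ℕ) : ZMod n)) := by ring
          _ = _ := by rw [h2, sub_zero]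
    have hzH := hall H hnc hz
    rw [CfsgLib.DihSub.r_mem, map_natCast, ZMod.natCast_eq_zero_iff, pow_succ] at hzH
    obtain ⟨c, hc⟩ := hzH
    rw [mul_assoc, Nat.mul_left_cancel_iff hu] at hc
    obtain ⟨r, rfl⟩ := hodd
    omega
  · intro hn' H hH c hc
    obtain ⟨i, hi⟩ := CfsgLib.DihSub.exists_sr hH
    obtain ⟨m, hm, hmH⟩ := CfsgLib.DihSub.exists_r hH
    rw [Subgroup.mem_centralizer_iff] at hc
    -- a rotation commuting with a reflection lies in H
    have key : ∀ j : ZMod n, j + j = 0 → DihedralGroup.r j ∈ H := by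
      intro j hj
      by_cases hj0 : j = 0
      · rw [hj0, ← DihedralGroup.one_def]; exact H.one_mem
      rcases hn' with hodd | ⟨k, rfl⟩
      · exfalso
        have h := congrArg ZMod.val hj
        rw [ZMod.val_add, ZMod.val_zero] at h
        have hlt := j.val_lt
        have hpos : j.val ≠ 0 := fun e => hj0 ((ZMod.val_eq_zero j).mp e)
        obtain ⟨q, hq⟩ := Nat.dvd_of_mod_eq_zero h
        obtain ⟨r, rfl⟩ := hodd
        rcases q with _ | _ | q
        · omega
        · omega
        · rw [Nat.mul_add, Nat.mul_add] at hq; omega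
      · haveI : Fact (Nat.Prime 2) := ⟨Nat.prime_two⟩
        have hcard : Nat.card (DihedralGroup (2 ^ k)) = 2 ^ (k + 1) := by rw [DihedralGroup.nat_card, pow_succ]; ring
        obtain ⟨e, he⟩ := (IsPGroup.of_card hcard) |>.exists_orderOf_eq_pow (DihedralGroup.r m) |>.imp fun e he => he
        rcases e with _ | e
        · rw [pow_zero, orderOf_eq_one_iff, DihedralGroup.one_def] at he
          exact absurd (DihedralGroup.r.inj he) hm
        have h1 : DihedralGroup.r (m * ((2 ^ e : ℕ) : ZMod (2 ^ k))) = DihedralGroup.r m ^ 2 ^ e := by rw [DihedralGroup.r_pow]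
        have hx : m * ((2 ^ e : ℕ) : ZMod (2 ^ k)) ≠ 0 := by
          intro h0
          rw [h0, ← DihedralGroup.one_def] at h1
          have := Nat.le_of_dvd (Nat.two_pow_pos e) (orderOf_dvd_of_pow_eq_one h1.symm)
          rw [he, pow_succ] at this
          have := Nat.two_pow_pos e
          omega
        have hx2 : m * ((2 ^ e : ℕ) : ZMod (2 ^ k)) + m * ((2 ^ e : ℕ) : ZMod (2 ^ k)) = 0 := by
          have h2 := pow_orderOf_eq_one (DihedralGroup.r m)
          rw [he, DihedralGroup.r_pow, DihedralGroup.one_def] at h2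
          rw [← DihedralGroup.r.inj h2, pow_succ]; push_cast; ring
        rw [CfsgLib.DihSub.two_mul_inj hj0 hx hj hx2, h1]
        exact H.pow_mem hmH _
    have hrot : ∀ j, (DihedralGroup.sr i * DihedralGroup.r j = DihedralGroup.r j * DihedralGroup.sr i) → j + j = 0 := fun j h => by
      simp only [DihedralGroup.r_mul_sr, DihedralGroup.sr_mul_r, DihedralGroup.sr.injEq] at h
      calc j + j = (i + j) - (i - j) := by ring
        _ = 0 := sub_eq_zero.mpr h
    cases c with
    | r j => exact key j (hrot j (hc _ hi))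
    | sr j =>
      have h1 : DihedralGroup.sr j * DihedralGroup.sr i * DihedralGroup.sr i = DihedralGroup.sr i * (DihedralGroup.sr j * DihedralGroup.sr i) := by
        rw [← mul_assoc (DihedralGroup.sr i), hc _ hi]
      rw [DihedralGroup.sr_mul_sr] at h1
      have h2 := key _ (hrot _ h1.symm)
      rw [← DihedralGroup.sr_mul_sr] at h2
      exact (H.mul_mem_cancel_right hi).mp h2

end Cfsg.Agent.S3920
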