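import Cfsg.Statements.S3937
import Cfsg.Agent.Lib.GroupB.Zipper

set_option autoImplicit false
open Cfsg

namespace Cfsg.Agent.S3937

/-- Baer's characterization of the Fitting subgroup: in a finite group G, an element g lies in the Fitting subgroup if and only if g is a left Engel element, that is, for every x there is n with [x, g, g, …, g] = 1 (n entries g, [a, b] = aba⁻¹b⁻¹). -/
theorem result {G : Type*} [Group G] [Finite G] (g : G) :
    g ∈ Cfsg.fittingSubgroup G ↔ ∀ x : G, ∃ n : ℕ, (List.replicate n g).foldl (fun a b => a * b * a⁻¹ * b⁻¹) x = 1 := by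
  refine ⟨fun hg x => ?_, CfsgLib.GroupB.Zipper.mem_fitting_of_engel⟩
  haveI hn : (Cfsg.fittingSubgroup G).Normal := CfsgLib.Core.fittingSubgroup_normal
  haveI := CfsgLib.Core.isNilpotent_fittingSubgroup (G := G)
  obtain ⟨c, hc⟩ := Subgroup.nilpotent_iff_lowerCentralSeries.mp this
  set F := Cfsg.fittingSubgroup G with hF
  have key : ∀ k : ℕ, ∃ f : F, f ∈ (⊤ : Subgroup F).lowerCentralSeries k ∧
      (List.replicate (k + 1) g).foldl (fun a b => a * b * a⁻¹ * b⁻¹) x = (f : G) := by
    intro k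
    induction k with
    | zero =>
      exact ⟨⟨x * g * x⁻¹ * g⁻¹, F.mul_mem (hn.conj_mem g hg x) (F.inv_mem hg)⟩, Subgroup.mem_top _, rfl⟩
    | succ k ih =>
      obtain ⟨f, hf, he⟩ := ih
      refine ⟨f * ⟨g, hg⟩ * f⁻¹ * (⟨g, hg⟩ : F)⁻¹, ?_, ?_⟩
      · rw [Subgroup.lowerCentralSeries_succ]
        exact Subgroup.commutator_mem_commutator hf (Subgroup.mem_top _)
      · rw [List.replicate_succ', List.foldl_append, he]; rfl
  obtain ⟨f, hf, he⟩ := key c
  rw [hc, Subgroup.mem_bot] at hf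
  exact ⟨c + 1, by rw [he, hf]; rfl⟩

end Cfsg.Agent.S3937
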