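import Cfsg.Statements.S3939
import Cfsg.Agent.Lib.GroupB.Zipper
import Cfsg.Agent.Lib.GroupB.FrobBasic
import Cfsg.Agent.Lib.Thompson.PClosed

set_option autoImplicit false
open Cfsg

namespace Cfsg.Agent.S3939

/-- In a finite group G the set of elements g such that the subgroup generated by g and x is nilpotent for every x ∈ G is exactly the hypercenter of G (the last term of the upper central series). -/
theorem result {G : Type*} [Group G] [Finite G] (g : G) :
    (∀ x : G, Group.IsNilpotent ↥(Subgroup.closure ({x, g} : Set G))) ↔ g ∈ ⨆ n : ℕ, Subgroup.upperCentralSeries G n := by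
  constructor
  · intro h
    -- every element of the cyclic group of `g` has the same property
    have hpow : ∀ a ∈ Subgroup.zpowers g, ∀ x : G, Group.IsNilpotent ↥(Subgroup.closure ({x, a} : Set G)) := by
      intro a ha x
      haveI := h x
      have hle : Subgroup.closure ({x, a} : Set G) ≤ Subgroup.closure ({x, g} : Set G) := by
        rw [Subgroup.closure_le]
        rintro y (rfl | rfl)
        · exact Subgroup.subset_closure (by simp)
        · exact Subgroup.zpowers_le.mpr (Subgroup.subset_closure (by simp)) ha
      refine Subgroup.isNilpotent_of_ker_le_center (Subgroup.inclusion hle) ?_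
      rw [(MonoidHom.ker_eq_bot_iff _).mpr (Subgroup.inclusion_injective hle)]
      exact bot_le
    have hF : g ∈ Cfsg.fittingSubgroup G := by
      refine CfsgLib.GroupB.Zipper.mem_fitting_of_engel fun x => ?_
      set F := Subgroup.closure ({x, g} : Set G) with hFdef
      haveI : Group.IsNilpotent F := h x
      obtain ⟨c, hc⟩ := Subgroup.nilpotent_iff_lowerCentralSeries.mp this
      have hg : g ∈ F := Subgroup.subset_closure (by simp)
      have key : ∀ k : ℕ, ∃ f : F, f ∈ (⊤ : Subgroup F).lowerCentralSeries k ∧
          CfsgLib.GroupB.Zipper.iter g x k = (f : G) := by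
        intro k
        induction k with
        | zero => exact ⟨⟨x, Subgroup.subset_closure (by simp)⟩, Subgroup.mem_top _, rfl⟩
        | succ k ih =>
          obtain ⟨f, hf, he⟩ := ih
          refine ⟨f * ⟨g, hg⟩ * f⁻¹ * (⟨g, hg⟩ : F)⁻¹, ?_, ?_⟩
          · rw [Subgroup.lowerCentralSeries_succ]
            exact Subgroup.commutator_mem_commutator hf (Subgroup.mem_top _)
          · rw [CfsgLib.GroupB.Zipper.iter] at he ⊢
            rw [List.replicate_succ', List.foldl_append, he]; rfl
      obtain ⟨f, hf, he⟩ := key c
      rw [hc, Subgroup.mem_bot] at hf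
      exact ⟨c, by rw [he, hf]; rfl⟩
    set Z := ⨆ n : ℕ, Subgroup.upperCentralSeries G n with hZdef
    -- the series becomes stationary at some `N`
    obtain ⟨N, hN⟩ := WellFoundedGT.monotone_chain_condition
      ⟨fun n => Subgroup.upperCentralSeries G n, Subgroup.upperCentralSeries_mono G⟩
    have hNN : Subgroup.upperCentralSeries G (N + 1) = Subgroup.upperCentralSeries G N :=
      (hN (N + 1) (Nat.le_succ N)).symm
    suffices hp : ∀ (p : ℕ) [Fact p.Prime] (a : G), a ∈ Subgroup.zpowers g → (∃ k, a ^ p ^ k = 1) →
        a ∈ Subgroup.upperCentralSeries G N by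
      refine (le_iSup (fun n => Subgroup.upperCentralSeries G n) N) ?_
      refine (CfsgLib.GroupB.Cores.le_of_sylow (A := Subgroup.zpowers g) fun p _ P => ?_) (Subgroup.mem_zpowers g)
      rintro _ ⟨b, hb, rfl⟩
      obtain ⟨k, hk⟩ := P.2 ⟨b, hb⟩
      exact hp p b b.2 ⟨k, by simpa using congrArg (fun z => ((Subtype.val z : Subgroup.zpowers g) : G)) hk⟩
    intro p hpf a ha hak
    obtain ⟨k, hak⟩ := hak
    -- `a` commutes with every element of order prime to `p`
    have hcomm : ∀ y : G, (orderOf y).Coprime p → a * y = y * a := by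
      intro y hy
      haveI := hpow a ha y
      set F := Subgroup.closure ({y, a} : Set G)
      have := CfsgLib.GroupB.FrobBasic.commute_of_coprime
        (a := (⟨a, Subgroup.subset_closure (by simp)⟩ : F)) (b := ⟨y, Subgroup.subset_closure (by simp)⟩) (by
          rw [← Subgroup.orderOf_coe, ← Subgroup.orderOf_coe]
          exact ((hy.pow_right k).symm).coprime_dvd_left (orderOf_dvd_of_pow_eq_one hak))
      exact congrArg Subtype.val this
    have haP : a ∈ Cfsg.pCore p G := by
      refine CfsgLib.Core.isPGroup_subnormal_le_pCore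
        (CfsgLib.GroupB.Cores.subnormal_of_le_fitting (Subgroup.zpowers_le.mpr
          (Subgroup.zpowers_le.mpr hF ha))) ?_ (Subgroup.mem_zpowers a)
      exact IsPGroup.of_card_dvd_pow (n := k) (by rw [Nat.card_zpowers]; exact orderOf_dvd_of_pow_eq_one hak)
    obtain ⟨P⟩ := (inferInstance : Nonempty (Sylow p G))
    have hOP : Cfsg.pCore p G ≤ (P : Subgroup G) := CfsgLib.Core.pCore_le_sylow P
    haveI := P.2.isNilpotent
    obtain ⟨c, hc⟩ := Group.IsNilpotent.nilpotent (G := (P : Subgroup G))
    have key : ∀ i : ℕ, ∀ b : (P : Subgroup G), b ∈ Subgroup.upperCentralSeries (P : Subgroup G) i →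
        (b : G) ∈ Cfsg.pCore p G → (∀ y : G, (orderOf y).Coprime p → (b : G) * y = y * b) →
        (b : G) ∈ Subgroup.upperCentralSeries G N := by
      intro i
      induction i with
      | zero =>
        intro b hb _ _
        rw [Subgroup.upperCentralSeries_zero, Subgroup.mem_bot] at hb
        rw [hb]; exact one_mem _
      | succ i ih =>
        intro b hb hbO hbc
        rw [← hNN, Subgroup.mem_upperCentralSeries_succ_iff]
        intro y
        obtain ⟨u, v, -, -, huv, -, hv⟩ := CfsgLib.ThompsonNPC.exists_mul_parts p y
        have hbP : ∀ w ∈ (P : Subgroup G), (b : G) * w * (b : G)⁻¹ * w⁻¹ ∈ Subgroup.upperCentralSeries G N := by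
          intro w hw
          haveI : (Cfsg.pCore p G).Normal := Subgroup.sSup_normal _ (fun _ h => h.1)
          refine ih ⟨_, (P : Subgroup G).mul_mem ((P : Subgroup G).mul_mem
            ((P : Subgroup G).mul_mem b.2 hw) ((P : Subgroup G).inv_mem b.2)) ((P : Subgroup G).inv_mem hw)⟩
            (Subgroup.mem_upperCentralSeries_succ_iff.mp hb ⟨w, hw⟩) ?_ ?_
          · have := (Cfsg.pCore p G).mul_mem hbO (Subgroup.Normal.conj_mem this _ ((Cfsg.pCore p G).inv_mem hbO) w)
            simpa [mul_assoc] using this
          · intro z hz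
            have h1 : ((orderOf (w⁻¹ * z * w))).Coprime p := by
              rw [show w⁻¹ * z * w = w⁻¹ * z * w⁻¹⁻¹ by group, CfsgLib.ThompsonNPC.orderOf_conj_eq]; exact hz
            have h2 := hbc _ h1
            have h3 : (b : G) * w⁻¹ * z * w * (b : G)⁻¹ = w⁻¹ * z * w := by
              rw [mul_inv_eq_iff_eq_mul]; simpa [mul_assoc] using h2
            have h4 : (b : G) * z = z * b := hbc z hz
            have h5 : (b : G)⁻¹ * z = z * (b : G)⁻¹ := by
              rw [inv_mul_eq_iff_eq_mul, ← mul_assoc, h4, mul_inv_cancel_right]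
            show (b : G) * w * (b : G)⁻¹ * w⁻¹ * z = z * ((b : G) * w * (b : G)⁻¹ * w⁻¹)
            calc (b : G) * w * (b : G)⁻¹ * w⁻¹ * z
                = (b : G) * w * ((b : G)⁻¹ * (w⁻¹ * z * w)) * w⁻¹ := by group
              _ = (b : G) * w * ((w⁻¹ * z * w) * (b : G)⁻¹) * w⁻¹ := by
                  congr 2
                  rw [inv_mul_eq_iff_eq_mul, ← mul_assoc, h2, mul_inv_cancel_right]
              _ = ((b : G) * z) * w * (b : G)⁻¹ * w⁻¹ := by group
              _ = z * ((b : G) * w * (b : G)⁻¹ * w⁻¹) := by rw [h4]; group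
        have hmk : ∀ w : G, (b : G) * w * (b : G)⁻¹ * w⁻¹ ∈ Subgroup.upperCentralSeries G N →
            QuotientGroup.mk' (Subgroup.upperCentralSeries G N) b * QuotientGroup.mk' (Subgroup.upperCentralSeries G N) w =
              QuotientGroup.mk' (Subgroup.upperCentralSeries G N) w * QuotientGroup.mk' (Subgroup.upperCentralSeries G N) b := by
          intro w hw
          have := (QuotientGroup.eq_one_iff _).mpr hw
          rw [← QuotientGroup.mk'_apply, map_mul, map_mul, map_mul, map_inv, map_inv,
            mul_inv_eq_one, mul_inv_eq_iff_eq_mul] at this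
          exact this
        set C := (Subgroup.centralizer ({QuotientGroup.mk' (Subgroup.upperCentralSeries G N) (b : G)} : Set _)).comap
          (QuotientGroup.mk' (Subgroup.upperCentralSeries G N)) with hC
        have hPC : (P : Subgroup G) ≤ C := fun w hw => by
          rw [hC, Subgroup.mem_comap, Subgroup.mem_centralizer_singleton_iff]
          exact (hmk w (hbP w hw)).symm
        have hcC : ∀ z : G, (orderOf z).Coprime p → z ∈ C := fun z hz => by
          rw [hC, Subgroup.mem_comap, Subgroup.mem_centralizer_singleton_iff, ← map_mul, ← map_mul, hbc z hz]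
        have hCtop : C = ⊤ := by
          refine Subgroup.eq_top_of_card_eq C (Nat.dvd_antisymm (Subgroup.card_subgroup_dvd_card C)
            ((Nat.dvd_iff_prime_pow_dvd_dvd _ _).mpr fun q e hq he => ?_))
          haveI : Fact q.Prime := ⟨hq⟩
          obtain ⟨Q⟩ := (inferInstance : Nonempty (Sylow q G))
          have hQd : q ^ e ∣ Nat.card (Q : Subgroup G) := by
            rw [Q.card_eq_multiplicity]
            exact pow_dvd_pow q ((hq.pow_dvd_iff_le_factorization Nat.card_pos.ne').mp he)
          by_cases hqp : q = p
          · subst hqp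
            refine hQd.trans ?_
            rw [Q.card_eq_multiplicity, ← P.card_eq_multiplicity]
            exact Subgroup.card_dvd_of_le hPC
          · refine hQd.trans (Subgroup.card_dvd_of_le fun w hw => hcC w ?_)
            obtain ⟨j, hj⟩ := IsPGroup.iff_orderOf.mp Q.2 ⟨w, hw⟩
            rw [Subgroup.orderOf_mk] at hj
            rw [hj]
            exact ((Nat.coprime_primes hq (Fact.out : p.Prime)).mpr hqp).pow_left j
        have := Subgroup.mem_centralizer_singleton_iff.mp (Subgroup.mem_comap.mp (hCtop.ge (Subgroup.mem_top y)))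
        rw [← map_mul, ← map_mul] at this
        refine (QuotientGroup.eq_one_iff _).mp ?_
        rw [← QuotientGroup.mk'_apply]
        simp only [commutatorElement_def, map_mul, map_inv] at this ⊢
        rw [← this]
        group
    exact key c ⟨a, hOP haP⟩ (hc.ge (Subgroup.mem_top _)) haP hcomm
  · intro hg x
    obtain ⟨n, hn⟩ : ∃ n, g ∈ Subgroup.upperCentralSeries G n :=
      (Subgroup.mem_iSup_of_directed (Subgroup.upperCentralSeries_mono G).directed_le).mp hg
    set H := Subgroup.closure ({x, g} : Set G)
    have key : ∀ i : ℕ, ∀ h : H, (h : G) ∈ Subgroup.upperCentralSeries G i → h ∈ Subgroup.upperCentralSeries H i := by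
      intro i
      induction i with
      | zero => intro h hh; simp only [Subgroup.upperCentralSeries_zero, Subgroup.mem_bot] at hh ⊢; exact Subtype.ext hh
      | succ i ih =>
        intro h hh
        rw [Subgroup.mem_upperCentralSeries_succ_iff] at hh ⊢
        exact fun y => ih _ (hh y)
    set Zn := Subgroup.upperCentralSeries H n
    have hgZ : (⟨g, Subgroup.subset_closure (by simp)⟩ : H) ∈ Zn := key n _ hn
    refine ⟨n + 1, eq_top_iff.mpr fun a _ => ?_⟩
    rw [Subgroup.mem_upperCentralSeries_succ_iff]
    intro b
    have hc : ∀ c : H, QuotientGroup.mk' Zn c ∈ Subgroup.zpowers (QuotientGroup.mk' Zn ⟨x, Subgroup.subset_closure (by simp)⟩) := by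
      rintro ⟨c, hc⟩
      induction hc using Subgroup.closure_induction with
      | mem y hy =>
        rcases hy with rfl | rfl
        · exact Subgroup.mem_zpowers _
        · rw [(QuotientGroup.eq_one_iff _).mpr hgZ |> fun e => (show QuotientGroup.mk' Zn _ = 1 from e)]
          exact one_mem _
      | one => exact (map_one (QuotientGroup.mk' Zn)).symm ▸ one_mem _
      | mul y z hy hz hy' hz' =>
        have := Subgroup.mul_mem _ hy' hz'
        rwa [← map_mul] at this
      | inv y hy hy' =>
        have := Subgroup.inv_mem _ hy'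
        rwa [← map_inv] at this
    obtain ⟨i, hi⟩ := Subgroup.mem_zpowers_iff.mp (hc a)
    obtain ⟨j, hj⟩ := Subgroup.mem_zpowers_iff.mp (hc b)
    refine (QuotientGroup.eq_one_iff _).mp ?_
    rw [← QuotientGroup.mk'_apply]
    simp only [commutatorElement_def, map_mul, map_inv]
    rw [show QuotientGroup.mk' (Subgroup.upperCentralSeries H n) a = _ from hi.symm,
      show QuotientGroup.mk' (Subgroup.upperCentralSeries H n) b = _ from hj.symm]
    group

end Cfsg.Agent.S3939
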