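import Cfsg.Statements.S3941

set_option autoImplicit false
open Cfsg

namespace Cfsg.Agent.S3941

/-- Let n ≥ 5 and p an odd prime with p ≤ n, and suppose that every proper subgroup of the alternating group of degree n whose order is divisible by p has a normal Sylow p-subgroup. Then n = p. -/
theorem result (n p : ℕ) (hn : 5 ≤ n) [Fact p.Prime] (hp : p ≠ 2) (hpn : p ≤ n)
    (h : ∀ H : Subgroup ↥(alternatingGroup (Fin n)), H ≠ ⊤ → p ∣ Nat.card ↥H → Cfsg.IsPClosed p ↥H) : n = p := by
  classical
  have hp2 := hp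
  have hsub := h
  clear h hp
  have hp := (Fact.out : p.Prime)
  by_contra hne
  have hlt : p < n := lt_of_le_of_ne hpn (Ne.symm hne)
  set m := max p 4 with hm
  have hm4 : 4 ≤ m := le_max_right _ _
  have hmp : p ≤ m := le_max_left _ _
  have hmn : m < n := max_lt hlt (by omega)
  let e : Fin m ≃ Set.range (Fin.castLE hmn.le) := Equiv.ofInjective _ (Fin.castLE_injective _)
  let ι : alternatingGroup (Fin m) →* alternatingGroup (Fin n) :=
    ((Equiv.Perm.extendDomainHom e).comp (alternatingGroup (Fin m)).subtype).codRestrict (alternatingGroup (Fin n)) fun s => by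
      rw [Equiv.Perm.mem_alternatingGroup]
      show Equiv.Perm.sign (Equiv.Perm.extendDomain (s : Equiv.Perm (Fin m)) e) = 1
      rw [Equiv.Perm.sign_extendDomain]
      exact s.2
  have hι : Function.Injective ι := fun a b h =>
    Subtype.ext (Equiv.Perm.extendDomainHom_injective e (congrArg Subtype.val h))
  have hcard : ∀ k, 2 ≤ k → Nat.card (alternatingGroup (Fin k)) * 2 = k.factorial := fun k hk => by
    haveI : Nontrivial (Fin k) := Fin.nontrivial_iff_two_le.mpr hk
    rw [Nat.card_eq_fintype_card, mul_comm, two_mul_card_alternatingGroup, Fintype.card_perm, Fintype.card_fin]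
  have hproper : ι.range ≠ ⊤ := fun htop => by
    have h := hcard n (by omega)
    rw [← Subgroup.card_top (G := alternatingGroup (Fin n)), ← htop, ← Nat.card_congr (MonoidHom.ofInjective hι).toEquiv, hcard m (by omega)] at h
    exact ((Nat.factorial_lt (by omega)).mpr hmn).ne h
  have hdvd : p ∣ Nat.card (alternatingGroup (Fin m)) := by
    refine (Nat.Coprime.dvd_of_dvd_mul_right ((Nat.coprime_primes hp Nat.prime_two).mpr hp2) ?_)
    rw [hcard m (by omega)]
    exact Nat.dvd_factorial hp.pos hmp
  have hcl := hsub ι.range hproper (by rw [← Nat.card_congr (MonoidHom.ofInjective hι).toEquiv]; exact hdvd)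
  -- p-elements form a subgroup of A_m
  obtain ⟨P⟩ : Nonempty (Sylow p ι.range) := inferInstance
  haveI := Sylow.unique_of_normal P (hcl P)
  set N := (P : Subgroup ι.range).comap ι.rangeRestrict with hN
  haveI hNn : N.Normal := (hcl P).comap _
  have hNp : IsPGroup p N := P.2.comap_of_injective _ ((MonoidHom.ofInjective hι).injective)
  have hall : ∀ x : alternatingGroup (Fin m), x ^ p = 1 → x ∈ N := by
    intro x hx
    have hp1 : IsPGroup p (Subgroup.zpowers (ι.rangeRestrict x)) := by
      obtain ⟨k, -, hk⟩ := (Nat.dvd_prime_pow hp).mp (show orderOf (ι.rangeRestrict x) ∣ p ^ 1 from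
        orderOf_dvd_of_pow_eq_one (by rw [pow_one, ← map_pow, hx, map_one]))
      exact IsPGroup.of_card (by rw [Nat.card_zpowers, hk])
    obtain ⟨Q, hQ⟩ := hp1.exists_le_sylow
    have h1 := hQ (Subgroup.mem_zpowers _)
    rw [Subsingleton.elim Q P] at h1
    exact h1
  by_cases hp5 : 5 ≤ p
  · haveI : IsSimpleGroup (alternatingGroup (Fin m)) := alternatingGroup.isSimpleGroup (by simp; omega)
    rcases IsSimpleGroup.eq_bot_or_eq_top_of_normal N hNn with h | h
    · obtain ⟨x, hx⟩ := exists_prime_orderOf_dvd_card' p hdvd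
      have h1 := hall x (hx ▸ pow_orderOf_eq_one x)
      rw [h, Subgroup.mem_bot] at h1
      rw [h1, orderOf_one] at hx
      exact hp.one_lt.ne hx
    · obtain ⟨k, hk⟩ := IsPGroup.iff_card.mp hNp
      rw [h, Subgroup.card_top] at hk
      have h4 : 2 * 2 ∣ m.factorial := Nat.dvd_factorial (by norm_num) (by omega)
      rw [← hcard m (by omega), hk] at h4
      have h2 : 2 ∣ p ^ k := Nat.dvd_of_mul_dvd_mul_right two_pos h4
      exact hp2 ((Nat.prime_dvd_prime_iff_eq Nat.prime_two hp).mp (Nat.prime_two.dvd_of_dvd_pow h2)).symm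
  · obtain rfl : p = 3 := by
      have h4 : p ≠ 4 := fun e => absurd (e ▸ hp) (by norm_num)
      have := hp.two_le
      omega
    obtain ⟨x, y, hx, hy, hxy, hxy1⟩ : ∃ x y : alternatingGroup (Fin (max 3 4)), x ^ 3 = 1 ∧ y ^ 3 = 1 ∧ (x * y) ^ 2 = 1 ∧ x * y ≠ 1 := by decide +kernel
    obtain ⟨k, hk⟩ := hNp.exists_orderOf_eq_pow ⟨x * y, N.mul_mem (hall x hx) (hall y hy)⟩
    rw [Subgroup.orderOf_mk] at hk
    refine hxy1 (orderOf_eq_one_iff.mp (Nat.eq_one_of_dvd_coprimes ((by norm_num : Nat.Coprime 3 2).pow_left k) (dvd_of_eq hk) (orderOf_dvd_of_pow_eq_one hxy)))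

end Cfsg.Agent.S3941
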