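import Cfsg.Statements.S3946
import Cfsg.Agent.Lib.Thompson.Kegel
import Mathlib.GroupTheory.SemidirectProduct

set_option autoImplicit false
open Cfsg

namespace Cfsg.Agent.S3946

/-- Call an automorphism α of order n of a group G splitting when x · α(x) · α²(x) ⋯ α^(n−1)(x) = 1 for every x ∈ G. A finite group admitting a splitting automorphism of prime order is nilpotent (this contains the case of a fixed-point-free automorphism of prime order). -/
theorem result {G : Type*} [Group G] [Finite G] (α : MulAut G) (hp : (orderOf α).Prime)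
    (hsplit : ∀ x : G, (((List.range (orderOf α)).map (fun i : ℕ => (α ^ i) x)).prod = 1)) : Group.IsNilpotent G := by
  set p := orderOf α with hpdef
  haveI := Fact.mk hp
  set A := Subgroup.zpowers α
  set ι : A →* MulAut G := A.subtype
  haveI : Finite (MulAut G) := Finite.of_injective (fun e : MulAut G => (e : G → G)) DFunLike.coe_injective
  haveI : Finite (G ⋊[ι] A) := Finite.of_equiv _ SemidirectProduct.equivProd.symm
  set K := (SemidirectProduct.inl : G →* G ⋊[ι] A).range
  haveI : K.Normal := by
    rw [show K = (SemidirectProduct.rightHom : G ⋊[ι] A →* A).ker from SemidirectProduct.range_inl_eq_ker_rightHom]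
    infer_instance
  set a : G ⋊[ι] A := SemidirectProduct.inr ⟨α, Subgroup.mem_zpowers α⟩ with ha
  have hne : K ≠ ⊤ := by
    intro h
    have : a ∈ K := h ▸ Subgroup.mem_top _
    obtain ⟨g, hg⟩ := this
    have h2 := congrArg (fun x => ((x.right : A) : MulAut G)) hg
    simp [ha] at h2
    exact hp.ne_one (by rw [hpdef, ← h2, orderOf_one])
  have hap : a ^ p = 1 := by
    rw [ha, ← map_pow, show (⟨α, Subgroup.mem_zpowers α⟩ : A) ^ p = 1 from Subtype.ext (pow_orderOf_eq_one α), map_one]
  have hpow : ∀ (x : G) (n : ℕ), (SemidirectProduct.inl x * a) ^ n =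
      SemidirectProduct.inl (((List.range n).map (fun i : ℕ => (α ^ i) x)).prod) * a ^ n := by
    intro x n
    induction n with
    | zero => simp
    | succ n ih =>
      have e : a ^ n * SemidirectProduct.inl x = SemidirectProduct.inl ((α ^ n) x) * a ^ n := by
        rw [← mul_inv_eq_iff_eq_mul, ha, ← map_pow, ← map_inv]
        refine (SemidirectProduct.inl_aut (φ := ι) _ x).symm.trans ?_
        simp [ι]
      rw [pow_succ, ih, List.range_succ, List.map_append, List.prod_append, map_mul, List.map_singleton, List.prod_singleton,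
        pow_succ]
      simp only [← mul_assoc]
      rw [mul_assoc (SemidirectProduct.inl _) (a ^ n), e]
      simp only [← mul_assoc]
  have hone : ∀ x : G, (SemidirectProduct.inl x * a) ^ p = 1 := fun x => by rw [hpow, hsplit, map_one, one_mul, hap]
  have hout : ∀ g : G ⋊[ι] A, g ∉ K → g ^ p = 1 := by
    intro g hg
    have hr : g.right ≠ 1 := fun h => hg ⟨g.left, SemidirectProduct.ext rfl (by simp [h])⟩
    obtain ⟨i, hi⟩ := mem_powers_iff_mem_zpowers.mpr g.right.2
    have hi' : ¬ p ∣ i := fun hd => hr (Subtype.ext (hi.symm.trans (orderOf_dvd_iff_pow_eq_one.mp hd)))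
    obtain ⟨m, hm⟩ : ∃ m : ℕ, i * m % p = 1 := by
      obtain ⟨m, -, hm⟩ := Nat.exists_mul_mod_eq_one_of_coprime ((hp.coprime_iff_not_dvd.mpr hi').symm) hp.one_lt
      exact ⟨m, hm⟩
    let f : G → G := fun x => ((SemidirectProduct.inl x * a) ^ i).left
    have hright : ∀ x, ((SemidirectProduct.inl x * a) ^ i).right = g.right := fun x => by
      rw [hpow]
      refine Subtype.ext ?_
      simp [ha, ← map_pow]
      exact hi
    have hf : Function.Injective f := by
      intro x y hxy
      have h1 : (SemidirectProduct.inl x * a) ^ i = (SemidirectProduct.inl y * a) ^ i :=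
        SemidirectProduct.ext hxy (by rw [hright, hright])
      have h2 : ∀ z, (SemidirectProduct.inl z * a : G ⋊[ι] A) = ((SemidirectProduct.inl z * a) ^ i) ^ m := fun z => by
        rw [← pow_mul, pow_eq_pow_mod _ (hone z), hm, pow_one]
      have h3 : (SemidirectProduct.inl x * a : G ⋊[ι] A) = SemidirectProduct.inl y * a := by rw [h2 x, h2 y, h1]
      exact SemidirectProduct.inl_injective (mul_right_cancel h3)
    obtain ⟨x, hx⟩ := (Finite.injective_iff_surjective.mp hf) g.left
    rw [show g = (SemidirectProduct.inl x * a) ^ i from SemidirectProduct.ext hx.symm (hright x).symm,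
      ← pow_mul, mul_comm, pow_mul, hone, one_pow]
  haveI := CfsgLib.ThompsonNPC.isNilpotent_of_pow_eq_one hne hout
  exact Group.nilpotent_of_mulEquiv (MonoidHom.ofInjective (SemidirectProduct.inl_injective (φ := ι))).symm

end Cfsg.Agent.S3946
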