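import Cfsg.Statements.S3949

set_option autoImplicit false
open Cfsg

namespace Cfsg.Agent.S3949

/-- Let G be a finite group and α an automorphism of G of order 2 such that the elements g·α(g)⁻¹ generate G. Let j be a positive integer such that 2^j divides the order of no element inverted by α. Then the set of values of the j-th iterate of the map c ↦ c·α(c)⁻¹ is exactly the set of elements of odd order inverted by α. -/
theorem result {G : Type*} [Group G] [Finite G] (α : MulAut G) (hα : orderOf α = 2) (hG : Subgroup.closure (Set.range (fun c : G => c * (α c)⁻¹)) = ⊤)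
    (j : ℕ) (hj : ∀ g : G, α g = g⁻¹ → ¬ 2 ^ j ∣ orderOf g) :
    Set.range ((fun c : G => c * (α c)⁻¹)^[j]) = {g : G | Odd (orderOf g) ∧ α g = g⁻¹} := by
  set f := fun c : G => c * (α c)⁻¹
  have hαα : ∀ c, α (α c) = c := fun c => by
    have h : α ^ 2 = 1 := hα ▸ pow_orderOf_eq_one α
    exact DFunLike.congr_fun ((pow_two α).symm.trans h) c
  have hinv : ∀ c, α (f c) = (f c)⁻¹ := fun c => by
    show α (c * (α c)⁻¹) = (c * (α c)⁻¹)⁻¹
    rw [map_mul, map_inv, hαα, mul_inv_rev, inv_inv]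
  have hsq : ∀ c, α c = c⁻¹ → f c = c ^ 2 := fun c hc => by
    show c * (α c)⁻¹ = c ^ 2
    rw [hc, inv_inv, pow_two]
  have hit : ∀ (i : ℕ) (c : G), α c = c⁻¹ → f^[i] c = c ^ 2 ^ i := by
    intro i
    induction i with
    | zero => intro c _; simp
    | succ i ih =>
      intro c hc
      rw [Function.iterate_succ_apply', ih c hc, hsq _ (by rw [map_pow, hc, inv_pow]), ← pow_mul, ← pow_succ]
  obtain ⟨j', rfl⟩ : ∃ j', j = j' + 1 := by
    rcases j with _ | j
    · exact absurd (one_dvd _) (pow_zero (2 : ℕ) ▸ hj 1 (by simp))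
    · exact ⟨j, rfl⟩
  ext g
  constructor
  · rintro ⟨c, rfl⟩
    rw [Function.iterate_succ_apply, hit j' _ (hinv c)]
    refine ⟨Nat.not_even_iff_odd.mp fun hev => ?_, by rw [map_pow, hinv, inv_pow]⟩
    rw [orderOf_pow] at hev
    set d := orderOf (f c) with hd
    have h2 := even_iff_two_dvd.mp hev
    have hg : Nat.gcd d (2 ^ j') ∣ 2 ^ j' := Nat.gcd_dvd_right _ _
    obtain ⟨i, hi, hi'⟩ := (Nat.dvd_prime_pow Nat.prime_two).mp hg
    rw [hi'] at h2
    have hid : 2 ^ i ∣ d := hi' ▸ Nat.gcd_dvd_left _ _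
    rcases lt_or_eq_of_le hi with hlt | rfl
    · have h3 : 2 ^ (i + 1) ∣ Nat.gcd d (2 ^ j') := by
        refine Nat.dvd_gcd ?_ (pow_dvd_pow 2 hlt)
        rw [pow_succ]
        exact Nat.mul_dvd_of_dvd_div hid h2
      rw [hi', Nat.pow_dvd_pow_iff_le_right one_lt_two] at h3
      omega
    · exact hj (f c) (hinv c) (by rw [pow_succ]; exact Nat.mul_dvd_of_dvd_div hid h2)
  · rintro ⟨hodd, hg⟩
    obtain ⟨k, hk⟩ := exists_pow_eq_self_of_coprime (x := g) (n := 2 ^ (j' + 1)) ((Nat.coprime_two_left.mpr hodd).pow_left _)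
    refine ⟨g ^ k, ?_⟩
    rw [hit _ _ (by rw [map_pow, hg, inv_pow]), ← pow_mul, mul_comm, pow_mul]
    exact hk

end Cfsg.Agent.S3949
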