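import Cfsg.Statements.S3982
import Mathlib.GroupTheory.Nilpotent

set_option autoImplicit false
open Cfsg

namespace Cfsg.Agent.S3982
open scoped Pointwise

theorem exists_normalized_sylow {G : Type*} [Group G] [Finite G] (p : ℕ) [Fact p.Prime] (hp2 : p ≠ 2)
    (hC : ∀ g : G, g ≠ 1 → (∃ k : ℕ, orderOf g = p ^ k) → Odd (Nat.card ↥(Subgroup.centralizer ({g} : Set G))))
    (y : G) (hy : orderOf y = 2) (Q₀ : Subgroup G) (hQ₀ : IsPGroup p Q₀) (hQ₀1 : Q₀ ≠ ⊥)
    (hyQ₀ : y ∈ Subgroup.normalizer (Q₀ : Set G)) : ∃ S : Sylow p G, y ∈ Subgroup.normalizer ((S : Subgroup G) : Set G) := by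
  classical
  have hp := (Fact.out : p.Prime)
  have hyy : y * y = 1 := by rw [← pow_two, ← hy]; exact pow_orderOf_eq_one y
  have hyi : y⁻¹ = y := inv_eq_of_mul_eq_one_right hyy
  have hfix : ∀ g : G, (∃ k : ℕ, orderOf g = p ^ k) → y * g = g * y → g = 1 := by
    intro g hg hc
    by_contra hne
    have hmem : y ∈ Subgroup.centralizer ({g} : Set G) := Subgroup.mem_centralizer_singleton_iff.mpr hc
    have hd : 2 ∣ Nat.card ↥(Subgroup.centralizer ({g} : Set G)) := by
      rw [← hy, ← Subgroup.orderOf_mk y hmem]; exact orderOf_dvd_natCard _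
    exact Nat.not_even_iff_odd.mpr (hC g hne hg) (even_iff_two_dvd.mpr hd)
  obtain ⟨Q, ⟨hQ, hQ1, hyQ⟩, hmax⟩ := Set.Finite.exists_maximalFor id
    {Q : Subgroup G | IsPGroup p Q ∧ Q ≠ ⊥ ∧ y ∈ Subgroup.normalizer (Q : Set G)} (Set.toFinite _) ⟨Q₀, hQ₀, hQ₀1, hyQ₀⟩
  set N := Subgroup.normalizer (Q : Set G) with hN
  set C := Subgroup.centralizer (Q : Set G) with hCdef
  have hconj : ∀ g ∈ N, ∀ q ∈ Q, g * q * g⁻¹ ∈ Q := fun g hg q hq => (Subgroup.mem_normalizer_iff.mp hg q).mp hq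
  -- y inverts Q
  have hinv : ∀ q ∈ Q, y * q * y⁻¹ = q⁻¹ := by
    let f : Q → Q := fun q => ⟨(q : G)⁻¹ * (y * q * y⁻¹), Q.mul_mem (Q.inv_mem q.2) (hconj y hyQ q q.2)⟩
    have hf : Function.Injective f := by
      intro a b h
      have h' : (a : G)⁻¹ * (y * a * y⁻¹) = (b : G)⁻¹ * (y * b * y⁻¹) := congrArg Subtype.val h
      have h2 : y * ((b : G) * (a : G)⁻¹) = ((b : G) * (a : G)⁻¹) * y := by
        calc y * ((b : G) * (a : G)⁻¹) = (b : G) * ((b : G)⁻¹ * (y * b * y⁻¹)) * y * (a : G)⁻¹ := by group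
          _ = (b : G) * ((a : G)⁻¹ * (y * a * y⁻¹)) * y * (a : G)⁻¹ := by rw [h']
          _ = ((b : G) * (a : G)⁻¹) * y := by group
      have h3 := hfix _ (by
        obtain ⟨k, hk⟩ := hQ.exists_orderOf_eq_pow (b * a⁻¹)
        exact ⟨k, by rw [← hk, ← Subgroup.orderOf_coe]; rfl⟩) h2
      exact (Subtype.ext (mul_inv_eq_one.mp h3)).symm
    intro q hq
    obtain ⟨u, hu⟩ := (Finite.injective_iff_surjective.mp hf) ⟨q, hq⟩
    have hu' : (u : G)⁻¹ * (y * u * y⁻¹) = q := congrArg Subtype.val hu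
    rw [← hu', hyi, mul_inv_rev, mul_inv_rev, mul_inv_rev, inv_inv, hyi]
    calc y * ((u : G)⁻¹ * (y * u * y)) * y = (y * (u : G)⁻¹ * y) * u * (y * y) := by group
      _ = y * (u : G)⁻¹ * y * u := by rw [hyy, mul_one]
      _ = _ := by group
  have hQc : ∀ a ∈ Q, ∀ b ∈ Q, a * b = b * a := fun a ha b hb => by
    have h := hinv _ (Q.mul_mem ha hb)
    rw [mul_inv_rev, ← hinv a ha, ← hinv b hb] at h
    have h2 : y * (a * b) * y⁻¹ = y * (b * a) * y⁻¹ := by rw [h]; group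
    exact mul_left_cancel (mul_right_cancel h2)
  have hQC : Q ≤ C := fun a ha => Subgroup.mem_centralizer_iff.mpr fun b hb => hQc b hb a ha
  have hCN : C ≤ N := Subgroup.centralizer_le_normalizer _
  have hCn : ∀ g ∈ N, ∀ c ∈ C, g * c * g⁻¹ ∈ C := fun g hg c hc => Subgroup.mem_centralizer_iff.mpr fun q hq => by
    have h := Subgroup.mem_centralizer_iff.mp hc (g⁻¹ * q * g) ((Subgroup.mem_normalizer_iff''.mp hg q).mp hq)
    calc q * (g * c * g⁻¹) = g * ((g⁻¹ * q * g) * c) * g⁻¹ := by group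
      _ = g * c * g⁻¹ * q := by rw [h]; group
  have hCodd : Odd (Nat.card C) := by
    haveI := (Subgroup.nontrivial_iff_ne_bot Q).mpr hQ1
    obtain ⟨⟨q, hq⟩, hq1⟩ := exists_ne (1 : Q)
    obtain ⟨k, hk⟩ := hQ.exists_orderOf_eq_pow ⟨q, hq⟩
    refine Odd.of_dvd_nat (hC q (fun h => hq1 (Subtype.ext h)) ⟨k, by rw [← hk, Subgroup.orderOf_mk]⟩) ?_
    exact Subgroup.card_dvd_of_le (fun c hc => Subgroup.mem_centralizer_singleton_iff.mpr (Subgroup.mem_centralizer_iff.mp hc q hq).symm)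
  -- N = C C_N(y), so the p-elements of N lie in C
  have hpC : ∀ g ∈ N, (∃ k : ℕ, orderOf g = p ^ k) → g ∈ C := by
    intro g hg hgp
    have hd : g * y * g⁻¹ * y ∈ C := Subgroup.mem_centralizer_iff.mpr fun q hq => by
      have h1 := hinv q hq
      have h2 := hinv _ ((Subgroup.mem_normalizer_iff''.mp hg (q⁻¹)).mp (Q.inv_mem hq))
      have h3 : g * y * g⁻¹ * y * q * (g * y * g⁻¹ * y)⁻¹ = q := by
        calc g * y * g⁻¹ * y * q * (g * y * g⁻¹ * y)⁻¹ = g * y * g⁻¹ * (y * q * y⁻¹) * (g * y * g⁻¹)⁻¹ := by group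
          _ = g * (y * (g⁻¹ * q⁻¹ * g) * y⁻¹) * g⁻¹ := by rw [h1]; group
          _ = q := by rw [h2]; group
      exact (mul_inv_eq_iff_eq_mul.mp h3).symm
    set d := g * y * g⁻¹ * y with hddef
    have hyd : y * d * y⁻¹ = d⁻¹ := by
      rw [hddef, hyi, mul_inv_rev, mul_inv_rev, mul_inv_rev, inv_inv, hyi]
      calc y * (g * y * g⁻¹ * y) * y = y * g * y * g⁻¹ * (y * y) := by group
        _ = _ := by rw [hyy, mul_one]; group
    obtain ⟨r, hr⟩ : Odd (orderOf d) := by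
      refine Odd.of_dvd_nat hCodd ?_
      rw [← Subgroup.orderOf_mk d hd]; exact orderOf_dvd_natCard _
    set e := d ^ (r + 1) with he
    have hee : e * e = d := by
      rw [he, ← pow_add, show r + 1 + (r + 1) = orderOf d + 1 by omega, pow_succ, pow_orderOf_eq_one, one_mul]
    have hey : y * e * y⁻¹ = e⁻¹ := by rw [he, ← conj_pow, hyd, inv_pow]
    have heC : e ∈ C := C.pow_mem hd _
    set h := e⁻¹ * g with hh
    have hhy : y * h = h * y := by
      have h1 : e * y * e⁻¹ = g * y * g⁻¹ := by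
        calc e * y * e⁻¹ = e * (y * e⁻¹ * y⁻¹) * y := by group
          _ = e * e * y := by rw [show y * e⁻¹ * y⁻¹ = (y * e * y⁻¹)⁻¹ by group, hey, inv_inv]
          _ = g * y * g⁻¹ * (y * y) := by rw [hee, hddef]; group
          _ = g * y * g⁻¹ := by rw [hyy, mul_one]
      calc y * h = e⁻¹ * (e * y * e⁻¹) * g := by rw [hh]; group
        _ = h * y := by rw [h1, hh]; group
    have hhN : h ∈ N := N.mul_mem (N.inv_mem (hCN heC)) hg
    have hcop : ¬ p ∣ orderOf h := fun hdvd => by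
      have ho := orderOf_pos h
      have h1 : orderOf (h ^ (orderOf h / p)) = p := by
        rw [orderOf_pow_of_dvd (Nat.div_pos (Nat.le_of_dvd ho hdvd) hp.pos).ne' (Nat.div_dvd_of_dvd hdvd), Nat.div_div_self hdvd ho.ne']
      have h2 := hfix _ ⟨1, by rw [h1, pow_one]⟩ ((show Commute y h from hhy).pow_right _).eq
      rw [h2, orderOf_one] at h1
      exact hp.one_lt.ne h1
    have hkey : ∀ n : ℕ, g ^ n * (h ^ n)⁻¹ ∈ C := by
      intro n
      induction n with
      | zero => simp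
      | succ n ih =>
        have : g ^ (n + 1) * (h ^ (n + 1))⁻¹ = (g ^ n * e * (g ^ n)⁻¹) * (g ^ n * (h ^ n)⁻¹) := by
          rw [pow_succ, pow_succ', mul_inv_rev, show g ^ n * g = g ^ n * e * h by rw [hh]; group]
          calc g ^ n * e * h * ((h ^ n)⁻¹ * h⁻¹) = g ^ n * e * (h * (h ^ n)⁻¹ * h⁻¹) := by group
            _ = g ^ n * e * (h ^ n)⁻¹ := by group
            _ = _ := by group
        rw [this]
        exact C.mul_mem (hCn _ (N.pow_mem hg n) _ heC) ih
    have hgo : g ^ orderOf h ∈ C := by simpa [pow_orderOf_eq_one] using hkey (orderOf h)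
    obtain ⟨k, hk⟩ := hgp
    have hco : (orderOf h).Coprime (orderOf g) := by
      rw [hk]; exact Nat.Coprime.pow_right k ((Nat.Prime.coprime_iff_not_dvd hp).mpr hcop).symm
    obtain ⟨m, hm⟩ := exists_pow_eq_self_of_coprime hco
    exact hm ▸ C.pow_mem hgo m
  -- an invariant Sylow subgroup of C
  have hyN : y ∈ N := hyQ
  let φ : MulAut C :=
    { toFun := fun c => ⟨y * c * y⁻¹, hCn y hyN c c.2⟩
      invFun := fun c => ⟨y * c * y⁻¹, hCn y hyN c c.2⟩
      left_inv := fun c => Subtype.ext (by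
        show y * (y * c * y⁻¹) * y⁻¹ = c
        rw [hyi, show y * (y * (c : G) * y) * y = (y * y) * c * (y * y) by group, hyy, one_mul, mul_one])
      right_inv := fun c => Subtype.ext (by
        show y * (y * c * y⁻¹) * y⁻¹ = c
        rw [hyi, show y * (y * (c : G) * y) * y = (y * y) * c * (y * y) by group, hyy, one_mul, mul_one])
      map_mul' := fun a b => Subtype.ext (by
        show y * ((a : G) * b) * y⁻¹ = y * a * y⁻¹ * (y * b * y⁻¹); group) }
  have hφ : φ ^ 2 = 1 := MulEquiv.ext fun c => Subtype.ext (by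
    show y * (y * c * y⁻¹) * y⁻¹ = c
    rw [hyi, show y * (y * (c : G) * y) * y = (y * y) * c * (y * y) by group, hyy, one_mul, mul_one])
  letI := Fintype.ofFinite (Sylow p C)
  obtain ⟨T, hT⟩ : ∃ T : Sylow p C, φ • T = T := by
    haveI : Fact (Nat.Prime 2) := ⟨Nat.prime_two⟩
    obtain ⟨S⟩ : Nonempty (Sylow p C) := inferInstance
    refine (MulAction.toPerm φ : Equiv.Perm (Sylow p C)).exists_fixed_point_of_prime (p := 2) (n := 1) ?_ ?_
    · rw [← Nat.card_eq_fintype_card]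
      exact fun h2 => Nat.not_even_iff_odd.mpr hCodd (even_iff_two_dvd.mpr (h2.trans (S.card_dvd_index.trans (Subgroup.index_dvd_card _))))
    · rw [pow_one]
      refine Equiv.ext fun T => ?_
      rw [pow_two, Equiv.Perm.mul_apply]
      show φ • φ • T = T
      rw [smul_smul, ← pow_two, hφ, one_smul]
  set T' := (T : Subgroup C).map C.subtype with hT'
  have hyT : y ∈ Subgroup.normalizer (T' : Set G) := by
    refine Subgroup.mem_normalizer_fintype ?_
    rintro _ ⟨t, ht, rfl⟩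
    refine ⟨φ t, ?_, rfl⟩
    show φ t ∈ (T : Subgroup C)
    have h1 : φ • t ∈ ((φ • T : Sylow p C) : Subgroup C) := by
      exact Subgroup.smul_mem_pointwise_smul t φ (T : Subgroup C) ht
    rw [hT] at h1
    exact h1
  have hQT : Q ≤ T' := by
    haveI : (Q.comap C.subtype).Normal := ⟨fun q hq c => hconj c (hCN c.2) q hq⟩
    intro q hq
    exact ⟨⟨q, hQC hq⟩, IsPGroup.le_sylow_of_normal (hQ.comap_subtype : IsPGroup p (Q.subgroupOf C)) T hq, rfl⟩
  have hTQ : T' ≤ Q := hmax (j := T') ⟨T.2.map C.subtype, fun h => hQ1 (le_bot_iff.mp (h ▸ hQT)), hyT⟩ hQT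
  obtain ⟨S, hS⟩ := hQ.exists_le_sylow
  refine ⟨S, ?_⟩
  suffices hSQ : (S : Subgroup G) = Q by rw [hSQ]; exact hyQ
  by_contra hne
  haveI : Group.IsNilpotent (S : Subgroup G) := S.2.isNilpotent
  have hn := normalizerCondition_of_isNilpotent (Q.subgroupOf S)
    (lt_top_iff_ne_top.mpr fun h => hne (le_antisymm (Subgroup.subgroupOf_eq_top.mp h) hS))
  rw [← Subgroup.subgroupOf_normalizer_eq hS] at hn
  obtain ⟨⟨x, hxS⟩, hxN, hxQ⟩ := SetLike.exists_of_lt hn
  rw [Subgroup.mem_subgroupOf] at hxN hxQ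
  set U := (S : Subgroup G) ⊓ N with hU
  have hUC : U ≤ C := fun u hu => hpC u hu.2 (by
    obtain ⟨k, hk⟩ := S.2.exists_orderOf_eq_pow ⟨u, hu.1⟩
    exact ⟨k, by rw [← hk, Subgroup.orderOf_mk]⟩)
  obtain ⟨T₂, hT₂⟩ := ((S.2.to_le (inf_le_left : U ≤ S)).comap_subtype : IsPGroup p (U.subgroupOf C)).exists_le_sylow
  have hc1 : Nat.card U ≤ Nat.card T' := by
    rw [hT', Subgroup.card_map_of_injective C.subtype_injective, ← Nat.card_congr (Subgroup.subgroupOfEquivOfLe hUC).toEquiv,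
      Sylow.card_eq_multiplicity T, ← Sylow.card_eq_multiplicity T₂]
    exact Subgroup.card_le_of_le hT₂
  have hUQ : U = Q := (Subgroup.eq_of_le_of_card_ge (le_inf hS Subgroup.le_normalizer)
    (hc1.trans (Subgroup.card_le_of_le hTQ))).symm
  exact hxQ (hUQ ▸ ⟨hxS, hxN⟩)


/-- Let p be an odd prime and G a finite group of even order divisible by p in which the centralizer of every non-identity p-element has odd order. If some nontrivial p-subgroup of G has a normalizer of even order, then the normalizer of every Sylow p-subgroup of G has even order. -/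
theorem result {G : Type*} [Group G] [Finite G] (p : ℕ) [Fact p.Prime] (hp2 : p ≠ 2) (hpG : p ∣ Nat.card G) (h2G : 2 ∣ Nat.card G) (hC : ∀ g : G, g ≠ 1 → (∃ k : ℕ, orderOf g = p ^ k) → Odd (Nat.card ↥(Subgroup.centralizer ({g} : Set G)))) (Q : Subgroup G) (hQ : IsPGroup p ↥Q) (hQ1 : Q ≠ ⊥) (hev : Even (Nat.card ↥(Subgroup.normalizer (Q : Set G)))) (P : Sylow p G) : Even (Nat.card ↥(Subgroup.normalizer ((P : Subgroup G) : Set G))) := by
  obtain ⟨⟨y, hyN⟩, hy⟩ := exists_prime_orderOf_dvd_card' 2 (even_iff_two_dvd.mp hev)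
  rw [Subgroup.orderOf_mk] at hy
  obtain ⟨S, hS⟩ := exists_normalized_sylow p hp2 hC y hy Q hQ hQ1 hyN
  obtain ⟨g, rfl⟩ := MulAction.exists_smul_eq G S P
  have hmem : g * y * g⁻¹ ∈ Subgroup.normalizer (((g • S : Sylow p G) : Subgroup G) : Set G) := by
    refine Sylow.smul_eq_iff_mem_normalizer.mp ?_
    rw [smul_smul, inv_mul_cancel_right, mul_smul, Sylow.smul_eq_iff_mem_normalizer.mpr hS]
  refine even_iff_two_dvd.mpr ?_
  have ho : orderOf (g * y * g⁻¹) = 2 := by rw [← hy]; exact (MulAut.conj g).orderOf_eq y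
  rw [← ho, ← Subgroup.orderOf_mk (g * y * g⁻¹) hmem]
  exact orderOf_dvd_natCard _

end Cfsg.Agent.S3982
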