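import Cfsg.Statements.S3983

set_option autoImplicit false
open scoped Pointwise
open Cfsg

namespace Cfsg.Agent.S3983

/-- Let P be a Sylow p-subgroup of the finite group G that meets each conjugate g P g⁻¹ with g outside N_G(P) trivially, and let U be a subgroup of G of order divisible by p. Then a Sylow p-subgroup Q of U has the same property inside U: Q meets each conjugate u Q u⁻¹ with u ∈ U outside N_U(Q) trivially. -/
theorem result {G : Type*} [Group G] [Finite G] (p : ℕ) [Fact p.Prime] (P : Sylow p G) (hTI : ∀ g : G, g ∉ Subgroup.normalizer ((P : Subgroup G) : Set G) → (P : Subgroup G) ⊓ (MulAut.conj g • (P : Subgroup G)) = ⊥) (U : Subgroup G) (hU : p ∣ Nat.card ↥U) (Q : Sylow p ↥U) : ∀ u : ↥U, u ∉ Subgroup.normalizer ((Q : Subgroup ↥U) : Set ↥U) → (Q : Subgroup ↥U) ⊓ (MulAut.conj u • (Q : Subgroup ↥U)) = ⊥ := by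
  intro u hu
  obtain ⟨P', hP'⟩ := (Q.2.map U.subtype).exists_le_sylow
  by_contra hne
  obtain ⟨⟨a, ha⟩, hane⟩ := Subgroup.ne_bot_iff_exists_ne_one.mp hne
  have ha1 : a ≠ 1 := fun e => hane (Subtype.ext e)
  obtain ⟨b, hb, hba⟩ := ha.2
  obtain ⟨g, hg⟩ := MulAction.exists_smul_eq G P P'
  have hP'e : (P' : Subgroup G) = MulAut.conj g • (P : Subgroup G) := by rw [← hg]; rfl
  have hQmax : (P' : Subgroup G).subgroupOf U = (Q : Subgroup U) := by
    refine Q.is_maximal' (IsPGroup.comap_of_injective P'.2 _ U.subtype_injective) ?_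
    exact fun z hz => hP' ⟨z, hz, rfl⟩
  have huN : (u : G) ∈ Subgroup.normalizer ((P' : Subgroup G) : Set G) := by
    by_contra hcon
    have hw : g⁻¹ * (u : G) * g ∉ Subgroup.normalizer ((P : Subgroup G) : Set G) := by
      intro hN
      refine hcon (Sylow.smul_eq_iff_mem_normalizer.mp ?_)
      rw [← hg, ← mul_smul, show (u : G) * g = g * (g⁻¹ * (u : G) * g) by group, mul_smul,
        Sylow.smul_eq_iff_mem_normalizer.mpr hN]
    have hmem : ∀ z : U, z ∈ (Q : Subgroup U) → g⁻¹ * (z : G) * g ∈ (P : Subgroup G) := by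
      intro z hz
      have h1 : (z : G) ∈ (P' : Subgroup G) := hP' ⟨z, hz, rfl⟩
      rw [hP'e, Subgroup.mem_pointwise_smul_iff_inv_smul_mem] at h1
      simpa [MulAut.smul_def] using h1
    have h2 : g⁻¹ * (a : G) * g ∈ (P : Subgroup G) ⊓ MulAut.conj (g⁻¹ * (u : G) * g) • (P : Subgroup G) := by
      refine ⟨hmem a ha.1, ?_⟩
      refine ⟨g⁻¹ * (b : G) * g, hmem b hb, ?_⟩
      have h3 : (u : G) * b * (u : G)⁻¹ = a := congrArg Subtype.val hba
      show (MulAut.conj (g⁻¹ * (u : G) * g)) (g⁻¹ * (b : G) * g) = _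
      rw [MulAut.conj_apply, ← h3]; group
    rw [hTI _ hw, Subgroup.mem_bot] at h2
    refine ha1 (Subtype.ext ?_)
    have : (a : G) = g * (g⁻¹ * (a : G) * g) * g⁻¹ := by group
    rw [this, h2]; simp
  refine hu ?_
  rw [← hQmax]
  refine Subgroup.mem_normalizer_iff.mpr fun z => ?_
  simp only [Subgroup.mem_subgroupOf, Subgroup.coe_mul, Subgroup.coe_inv]
  exact Subgroup.mem_normalizer_iff.mp huN z

end Cfsg.Agent.S3983
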