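import Cfsg.Statements.S3984
import Mathlib

set_option autoImplicit false
open scoped Pointwise
open Cfsg

namespace Cfsg.Agent.S3984

/-- Let P be a Sylow p-subgroup of the finite group G that meets each conjugate g P g⁻¹ with g outside N_G(P) trivially, and let N be a normal subgroup of G of order prime to p. Then every Sylow p-subgroup Q of G ⧸ N meets each conjugate x Q x⁻¹ with x outside its normalizer trivially. -/
theorem result {G : Type*} [Group G] [Finite G] (p : ℕ) [Fact p.Prime] (P : Sylow p G) (hTI : ∀ g : G, g ∉ Subgroup.normalizer ((P : Subgroup G) : Set G) → (P : Subgroup G) ⊓ (MulAut.conj g • (P : Subgroup G)) = ⊥) (N : Subgroup G) [N.Normal] (hN : (Nat.card ↥N).Coprime p) (Q : Sylow p (G ⧸ N)) : ∀ x : G ⧸ N, x ∉ Subgroup.normalizer ((Q : Subgroup (G ⧸ N)) : Set (G ⧸ N)) → (Q : Subgroup (G ⧸ N)) ⊓ (MulAut.conj x • (Q : Subgroup (G ⧸ N))) = ⊥ := by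
  classical
  intro x hx
  obtain ⟨P', rfl⟩ := Sylow.mapSurjective_surjective (QuotientGroup.mk'_surjective N) p Q
  obtain ⟨c, rfl⟩ := MulAction.exists_smul_eq G P P'
  set P' := c • P with hP'
  have hTI' : ∀ a z : G, z ∈ (P' : Subgroup G) → a * z * a⁻¹ ∈ (P' : Subgroup G) → z ≠ 1 →
      a ∈ Subgroup.normalizer ((P' : Subgroup G) : Set G) := by
    intro a z hz haz hz1
    obtain ⟨u, hu, e⟩ := hz
    obtain ⟨v, hv, e'⟩ := haz
    have hu' : c * u * c⁻¹ = z := e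
    have hv' : c * v * c⁻¹ = a * z * a⁻¹ := e'
    have h1 : c⁻¹ * a * c ∈ Subgroup.normalizer ((P : Subgroup G) : Set G) := by
      by_contra h
      have h2 : v ∈ (P : Subgroup G) ⊓ (MulAut.conj (c⁻¹ * a * c) • (P : Subgroup G)) := by
        refine ⟨hv, u, hu, ?_⟩
        show (c⁻¹ * a * c) * u * (c⁻¹ * a * c)⁻¹ = v
        calc (c⁻¹ * a * c) * u * (c⁻¹ * a * c)⁻¹ = c⁻¹ * (a * (c * u * c⁻¹) * a⁻¹) * c := by group
          _ = v := by rw [hu', ← hv']; group
      rw [hTI _ h, Subgroup.mem_bot] at h2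
      rw [h2, mul_one, mul_inv_cancel] at hv'
      exact hz1 (conj_eq_one_iff.mp hv'.symm)
    refine Sylow.smul_eq_iff_mem_normalizer.mp ?_
    have h3 : (c⁻¹ * a * c) • P = P := Sylow.smul_eq_iff_mem_normalizer.mpr h1
    rw [hP', ← mul_smul, show a * c = c * (c⁻¹ * a * c) by group, mul_smul, h3]
  rw [Sylow.coe_mapSurjective, Subgroup.eq_bot_iff_forall]
  intro y hy
  obtain ⟨⟨u, hu, rfl⟩, hy2⟩ := hy
  obtain ⟨g, rfl⟩ := QuotientGroup.mk'_surjective N x
  obtain ⟨w, ⟨z, hz, rfl⟩, hw⟩ := hy2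
  have hw' : QuotientGroup.mk' N (g * z * g⁻¹) = QuotientGroup.mk' N u := by
    rw [map_mul, map_mul, map_inv]; exact hw
  by_contra hne
  have hKmem : g * z * g⁻¹ ∈ (P' : Subgroup G) ⊔ N := by
    have h1 : u⁻¹ * (g * z * g⁻¹) ∈ N := QuotientGroup.eq.mp hw'.symm
    have := Subgroup.mul_mem _ (Subgroup.mem_sup_left hu : u ∈ (P' : Subgroup G) ⊔ N) (Subgroup.mem_sup_right h1)
    rwa [mul_inv_cancel_left] at this
  set K := (P' : Subgroup G) ⊔ N
  set w := g * z * g⁻¹ with hwdef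
  have hwp : IsPGroup p (Subgroup.zpowers (⟨w, hKmem⟩ : K)) := by
    obtain ⟨k, hk⟩ := IsPGroup.iff_orderOf.mp P'.2 ⟨z, hz⟩
    refine IsPGroup.of_card (n := k) ?_
    rw [Nat.card_zpowers, Subgroup.orderOf_mk, ← hk, Subgroup.orderOf_mk]
    exact orderOf_injective (MulAut.conj g).toMonoidHom (MulAut.conj g).injective z
  obtain ⟨R, hR⟩ := hwp.exists_le_sylow
  obtain ⟨k, hk⟩ := MulAction.exists_smul_eq K R (P'.subtype le_sup_left)
  have h4 : k * ⟨w, hKmem⟩ * k⁻¹ ∈ ((P'.subtype le_sup_left : Sylow p K) : Subgroup K) :=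
    hk ▸ ⟨_, hR (Subgroup.mem_zpowers _), rfl⟩
  have h5 : (k : G) * w * (k : G)⁻¹ ∈ (P' : Subgroup G) := h4
  obtain ⟨a, ha, n, hn, hkan⟩ := Subgroup.mem_sup_of_normal_right.mp k.2
  rw [← hkan] at h5
  have h6 : n * w * n⁻¹ ∈ (P' : Subgroup G) := by
    have := Subgroup.mul_mem _ (Subgroup.mul_mem _ (Subgroup.inv_mem _ ha) h5) ha
    rwa [show a⁻¹ * (a * n * w * (a * n)⁻¹) * a = n * w * n⁻¹ by group] at this
  have hz1 : z ≠ 1 := fun h => hne (by rw [← hw', hwdef, h, mul_one, mul_inv_cancel, map_one])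
  have h7 := hTI' (n * g) z hz (by rwa [show n * g * z * (n * g)⁻¹ = n * w * n⁻¹ by rw [hwdef]; group]) hz1
  refine hx ?_
  have e : QuotientGroup.mk' N g = QuotientGroup.mk' N (n * g) := by
    rw [map_mul, show QuotientGroup.mk' N n = 1 from (QuotientGroup.eq_one_iff n).mpr hn, one_mul]
  rw [e, Sylow.coe_mapSurjective]
  rw [Subgroup.mem_normalizer_iff_map_conj_eq, Subgroup.map_map]
  conv_rhs => rw [← Subgroup.mem_normalizer_iff_map_conj_eq.1 h7, Subgroup.map_map]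
  congr 1

end Cfsg.Agent.S3984
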