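import Cfsg.Statements.S3985
import Cfsg.Agent.Lib.Thompson.PClosed
import Cfsg.Agent.Lib.GroupB.Coprime

set_option autoImplicit false
open scoped Pointwise
open Cfsg

namespace Cfsg.Agent.S3985

/-- Let P be a cyclic Sylow p-subgroup of the finite group G. Then P meets each conjugate g P g⁻¹ with g outside N_G(P) trivially if and only if P is weakly self-centralizing: C_G(x) = C_G(P) for every non-identity x ∈ P. -/
theorem result {G : Type*} [Group G] [Finite G] (p : ℕ) [Fact p.Prime] (P : Sylow p G) (hcyc : IsCyclic ↥(P : Subgroup G)) : (∀ g : G, g ∉ Subgroup.normalizer ((P : Subgroup G) : Set G) → (P : Subgroup G) ⊓ (MulAut.conj g • (P : Subgroup G)) = ⊥) ↔ ∀ x : G, x ∈ (P : Subgroup G) → x ≠ 1 → Subgroup.centralizer ({x} : Set G) = Subgroup.centralizer ((P : Subgroup G) : Set G) := by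
  have hcm : ∀ a ∈ (P : Subgroup G), ∀ b ∈ (P : Subgroup G), a * b = b * a := by
    intro a ha b hb
    letI : CommGroup ↥(P : Subgroup G) := IsCyclic.commGroup
    exact congrArg Subtype.val (mul_comm (⟨a, ha⟩ : (P : Subgroup G)) ⟨b, hb⟩)
  constructor
  · intro hTI x hx hx1
    refine le_antisymm (fun c hc => ?_) (Subgroup.centralizer_le (Set.singleton_subset_iff.mpr hx))
    have hc1 := Subgroup.mem_centralizer_singleton_iff.mp hc
    have hcN : c ∈ Subgroup.normalizer ((P : Subgroup G) : Set G) := by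
      by_contra hcN
      have : x ∈ (P : Subgroup G) ⊓ MulAut.conj c • (P : Subgroup G) :=
        ⟨hx, x, hx, by show c * x * c⁻¹ = x; rw [hc1, mul_inv_cancel_right]⟩
      rw [hTI c hcN, Subgroup.mem_bot] at this
      exact hx1 this
    obtain ⟨u, v, hu, hv, huv, ⟨k, hk⟩, hvc⟩ := CfsgLib.ThompsonNPC.exists_mul_parts p c
    have huP : u ∈ (P : Subgroup G) := by
      have hpz : IsPGroup p (Subgroup.zpowers u) :=
        IsPGroup.of_card_dvd_pow (n := k) (by rw [Nat.card_zpowers]; exact orderOf_dvd_of_pow_eq_one hk)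
      have hle := P.is_maximal' (P.2.to_sup_of_normal_left' hpz
        (Subgroup.zpowers_le.mpr (Subgroup.zpowers_le.mpr hcN hu))) le_sup_left
      exact hle ▸ Subgroup.mem_sup_right (Subgroup.mem_zpowers u)
    have hvN : v ∈ Subgroup.normalizer ((P : Subgroup G) : Set G) := Subgroup.zpowers_le.mpr hcN hv
    have hvx : v * x = x * v :=
      Subgroup.mem_centralizer_singleton_iff.mp (Subgroup.zpowers_le.mpr hc hv)
    -- `v` acts on the cyclic group as a power map
    obtain ⟨e, he⟩ := IsCyclic.exists_generator (α := ↥(P : Subgroup G))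
    obtain ⟨m, hm⟩ : ∃ m : ℤ, (e : G) ^ m = v * e * v⁻¹ := by
      obtain ⟨m, hm⟩ := Subgroup.mem_zpowers_iff.mp (he ⟨v * e * v⁻¹, (Subgroup.mem_normalizer_iff.mp hvN _).mp e.2⟩)
      exact ⟨m, by simpa using congrArg (fun z : (P : Subgroup G) => (z : G)) hm⟩
    have hact : ∀ i : ℕ, v ^ i * e * (v ^ i)⁻¹ = (e : G) ^ (m ^ i) := by
      intro i
      induction i with
      | zero => simp
      | succ i ih =>
        calc v ^ (i + 1) * e * (v ^ (i + 1))⁻¹ = v * (v ^ i * e * (v ^ i)⁻¹) * v⁻¹ := by rw [pow_succ']; group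
          _ = (e : G) ^ (m ^ (i + 1)) := by rw [ih, ← conj_zpow, ← hm, ← zpow_mul, pow_succ']
    obtain ⟨n, hn⟩ := IsPGroup.iff_orderOf.mp P.2 e
    rw [← Subgroup.orderOf_coe] at hn
    obtain ⟨a, ha⟩ := Subgroup.mem_zpowers_iff.mp (he ⟨x, hx⟩)
    have ha' : (e : G) ^ a = x := by simpa using congrArg (fun z : (P : Subgroup G) => (z : G)) ha
    have hfix : (e : G) ^ (m * a) = (e : G) ^ a := by
      rw [zpow_mul, hm, conj_zpow, ha', hvx, mul_inv_cancel_right]
    have hmul : ((p : ℤ) ^ n) ∣ (m - 1) * a := by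
      have := orderOf_dvd_iff_zpow_eq_one.mpr (show (e : G) ^ (m * a - a) = 1 by rw [zpow_sub, hfix, mul_inv_cancel])
      rw [hn] at this
      push_cast at this
      rwa [sub_mul, one_mul]
    have hpm : (p : ℤ) ∣ m - 1 := by
      by_contra hnd
      have hcop : IsCoprime ((p : ℤ) ^ n) (m - 1) :=
        ((Nat.prime_iff_prime_int.mp (Fact.out : p.Prime)).coprime_iff_not_dvd.mpr hnd).pow_left
      apply hx1
      rw [← ha']
      apply orderOf_dvd_iff_zpow_eq_one.mp
      rw [hn]; push_cast
      exact hcop.dvd_of_dvd_mul_left hmul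
    have hpp : ((p : ℤ) ^ n) ∣ m ^ (p ^ n) - 1 := by
      have := dvd_sub_pow_of_dvd_sub (R := ℤ) (p := p) (a := m) (b := 1) hpm n
      rw [one_pow] at this
      exact (pow_dvd_pow _ (Nat.le_succ n)).trans this
    have hvp : v ^ p ^ n * e * (v ^ p ^ n)⁻¹ = e := by
      rw [hact]
      conv_rhs => rw [← zpow_one (e : G)]
      rw [← mul_inv_eq_one, ← zpow_sub, ← orderOf_dvd_iff_zpow_eq_one, hn]
      push_cast; exact hpp
    have hve : v * e = e * v := by
      have hmem : v ^ p ^ n ∈ Subgroup.centralizer ({(e : G)} : Set G) :=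
        Subgroup.mem_centralizer_singleton_iff.mpr (mul_inv_eq_iff_eq_mul.mp hvp)
      obtain ⟨j, hj⟩ := exists_pow_eq_self_of_coprime (n := p ^ n) (x := v) (hvc.pow_right n).symm
      exact Subgroup.mem_centralizer_singleton_iff.mp (hj ▸ pow_mem hmem j)
    refine Subgroup.mem_centralizer_iff.mpr fun y hy => ?_
    rw [← huv]
    have h1 : Commute v y := by
      obtain ⟨b, hb⟩ := Subgroup.mem_zpowers_iff.mp (he ⟨y, hy⟩)
      have : (e : G) ^ b = y := by simpa using congrArg (fun z : (P : Subgroup G) => (z : G)) hb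
      exact this ▸ (show Commute v e from hve).zpow_right b
    exact ((show Commute u y from hcm u huP y hy).mul_left h1).symm
  · intro h g hg
    rw [Subgroup.eq_bot_iff_forall]
    rintro x ⟨hx, hxg⟩
    by_contra hx1
    set C := Subgroup.centralizer ((P : Subgroup G) : Set G)
    have hPC : (P : Subgroup G) ≤ C := fun a ha => Subgroup.mem_centralizer_iff.mpr fun b hb => hcm b hb a ha
    have hgC : ((g • P : Sylow p G) : Subgroup G) ≤ C := by
      have hxg' : x ∈ MulAut.conj g • (P : Subgroup G) := hxg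
      intro y hy
      rw [← h x hx hx1]
      refine Subgroup.mem_centralizer_singleton_iff.mpr ?_
      obtain ⟨a, ha, rfl⟩ := (hy : y ∈ MulAut.conj g • (P : Subgroup G))
      obtain ⟨b, hb, hbx⟩ := hxg'
      rw [← hbx]
      show MulAut.conj g a * MulAut.conj g b = MulAut.conj g b * MulAut.conj g a
      rw [← map_mul, ← map_mul, hcm a ha b hb]
    -- `P` is a normal Sylow subgroup of its centraliser
    haveI : ((P : Subgroup G).subgroupOf C).Normal := by
      refine (Subgroup.normal_subgroupOf_iff_le_normalizer hPC).mpr fun c hc => ?_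
      refine Subgroup.mem_normalizer_iff.mpr fun y => ⟨fun hy => ?_, fun hy => ?_⟩
      · rw [← Subgroup.mem_centralizer_iff.mp hc y hy, mul_inv_cancel_right]; exact hy
      · have h3 := Subgroup.mem_centralizer_iff.mp hc _ hy
        have : c * y * c⁻¹ = y := by
          calc c * y * c⁻¹ = c⁻¹ * (c * (c * y * c⁻¹)) := by group
            _ = c⁻¹ * (c * y * c⁻¹ * c) := by rw [h3]
            _ = y := by group
        rwa [this] at hy
    have hle : (((g • P : Sylow p G) : Subgroup G).subgroupOf C) ≤ (P : Subgroup G).subgroupOf C := by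
      have := Sylow.unique_of_normal (P.subtype hPC) (by rw [Sylow.coe_subtype]; infer_instance)
      have h2 := this.uniq ((g • P).subtype hgC)
      have h3 := congrArg (fun S : Sylow p C => (S : Subgroup C)) (h2.trans (this.uniq (P.subtype hPC)).symm)
      simp only [Sylow.coe_subtype] at h3
      exact h3.le
    refine hg (Sylow.smul_eq_iff_mem_normalizer.mp (Sylow.ext ?_))
    exact (g • P).is_maximal' P.2 (fun y hy => hle (x := ⟨y, hgC hy⟩) hy) |>.symm

end Cfsg.Agent.S3985
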