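import Cfsg.Statements.S3986
import Cfsg.Agent.Lib.GroupB.Coprime
import Cfsg.Agent.Lib.GroupB.Cores
import Mathlib.GroupTheory.SchurZassenhaus

set_option autoImplicit false
open Cfsg

namespace Cfsg.Agent.S3986

/-- Let p be a prime and G a finite group. Then some Sylow p-subgroup of G is a direct factor of G (it is normal and has a normal complement) if and only if every element of p-power order commutes with every element whose order is a power of a prime other than p. -/
theorem result {G : Type*} [Group G] [Finite G] (p : ℕ) [Fact p.Prime] : (∃ (P : Sylow p G) (K : Subgroup G), (P : Subgroup G).Normal ∧ K.Normal ∧ (P : Subgroup G) ⊓ K = ⊥ ∧ (P : Subgroup G) ⊔ K = ⊤) ↔ ∀ x y : G, (∃ a : ℕ, orderOf x = p ^ a) → (∃ q b : ℕ, q.Prime ∧ q ≠ p ∧ orderOf y = q ^ b) → x * y = y * x := by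
  constructor
  · rintro ⟨P, K, hP, hK, hPK, hsup⟩ x y ⟨a, ha⟩ ⟨q, b, hq, hqp, hb⟩
    haveI := hP
    haveI := hK
    have hcx : x ∈ (P : Subgroup G) := by
      obtain ⟨Q, hQ⟩ := (IsPGroup.of_card (p := p) (n := a) (by rw [Nat.card_zpowers, ha]) :
        IsPGroup p (Subgroup.zpowers x)).exists_le_sylow
      obtain ⟨g, rfl⟩ := MulAction.exists_smul_eq G P Q
      rw [Sylow.smul_eq_iff_mem_normalizer.mpr (show g ∈ Subgroup.normalizer ((P : Subgroup G) : Set G) by rw [Subgroup.normalizer_eq_top_iff.mpr hP]; exact Subgroup.mem_top g)] at hQ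
      exact hQ (Subgroup.mem_zpowers x)
    have hyK : y ∈ K := by
      refine (QuotientGroup.eq_one_iff _).mp ?_
      have h1 : (P : Subgroup G).map (QuotientGroup.mk' K) = ⊤ := by
        have := Subgroup.map_top_of_surjective _ (QuotientGroup.mk'_surjective K)
        rw [← hsup, Subgroup.map_sup, (Subgroup.map_eq_bot_iff K).mpr (QuotientGroup.ker_mk' K).ge, sup_bot_eq] at this
        exact this
      obtain ⟨j, hj⟩ := IsPGroup.iff_orderOf.mp (P.2.map (QuotientGroup.mk' K))
        ⟨(y : G ⧸ K), h1 ▸ Subgroup.mem_top _⟩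
      rw [Subgroup.orderOf_mk] at hj
      have h2 := orderOf_map_dvd (QuotientGroup.mk' K) y
      rw [QuotientGroup.mk'_apply, hj, hb] at h2
      refine orderOf_eq_one_iff.mp ?_
      rw [hj]
      exact Nat.eq_one_of_dvd_coprimes (Nat.coprime_primes (Fact.out : p.Prime) hq |>.mpr (Ne.symm hqp) |>.pow j b)
        dvd_rfl h2
    exact Subgroup.commute_of_normal_of_disjoint _ _ hP hK (disjoint_iff.mpr hPK) x y hcx hyK
  · intro h
    obtain ⟨P⟩ := (inferInstance : Nonempty (Sylow p G))
    have hsyl : ∀ (q : ℕ) [Fact q.Prime], q ≠ p → ∀ Q : Sylow q G,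
        (Q : Subgroup G) ≤ Subgroup.centralizer ((P : Subgroup G) : Set G) := by
      intro q _ hqp Q y hy
      refine Subgroup.mem_centralizer_iff.mpr fun x hx => ?_
      obtain ⟨a, ha⟩ := IsPGroup.iff_orderOf.mp P.2 ⟨x, hx⟩
      obtain ⟨b, hb⟩ := IsPGroup.iff_orderOf.mp Q.2 ⟨y, hy⟩
      rw [Subgroup.orderOf_mk] at ha hb
      exact h x y ⟨a, ha⟩ ⟨q, b, Fact.out, hqp, hb⟩
    have htop : ∀ H : Subgroup G, (P : Subgroup G) ≤ H → Subgroup.centralizer ((P : Subgroup G) : Set G) ≤ H → H = ⊤ := by
      intro H h1 h2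
      refine Subgroup.eq_top_of_card_eq H (Nat.dvd_antisymm (Subgroup.card_subgroup_dvd_card H)
        ((Nat.dvd_iff_prime_pow_dvd_dvd _ _).mpr fun q e hq he => ?_))
      haveI : Fact q.Prime := ⟨hq⟩
      have he' : q ^ e ∣ q ^ (Nat.card G).factorization q :=
        pow_dvd_pow q ((hq.pow_dvd_iff_le_factorization Nat.card_pos.ne').mp he)
      by_cases hqp : q = p
      · subst hqp
        rw [← P.card_eq_multiplicity] at he'
        exact he'.trans (Subgroup.card_dvd_of_le h1)
      · obtain ⟨Q⟩ := (inferInstance : Nonempty (Sylow q G))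
        rw [← Q.card_eq_multiplicity] at he'
        exact he'.trans (Subgroup.card_dvd_of_le ((hsyl q hqp Q).trans h2))
    haveI hPn : (P : Subgroup G).Normal := by
      refine Subgroup.normalizer_eq_top_iff.mp (htop _ Subgroup.le_normalizer ?_)
      intro c hc
      refine Subgroup.mem_normalizer_iff.mpr fun y => ⟨fun hy => ?_, fun hy => ?_⟩
      · rw [← Subgroup.mem_centralizer_iff.mp hc y hy, mul_inv_cancel_right]; exact hy
      · have h3 := Subgroup.mem_centralizer_iff.mp hc _ hy
        have : c * y * c⁻¹ = y := by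
          calc c * y * c⁻¹ = c⁻¹ * (c * (c * y * c⁻¹)) := by group
            _ = c⁻¹ * (c * y * c⁻¹ * c) := by rw [h3]
            _ = y := by group
        rwa [this] at hy
    obtain ⟨K, hK⟩ := Subgroup.exists_right_complement'_of_coprime P.card_coprime_index
    have hKC : K ≤ Subgroup.centralizer ((P : Subgroup G) : Set G) := by
      refine CfsgLib.GroupB.Cores.le_of_sylow fun q _ Q => ?_
      by_cases hqp : q = p
      · subst hqp
        have hd : ¬ q ∣ Nat.card K := by rw [← hK.symm.index_eq_card]; exact P.not_dvd_index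
        have : (Q : Subgroup K) = ⊥ := by
          rw [← Subgroup.card_eq_one, Q.card_eq_multiplicity, Nat.factorization_eq_zero_of_not_dvd hd, pow_zero]
        rw [this, Subgroup.map_bot]; exact bot_le
      · obtain ⟨Q', hQ'⟩ := (Q.2.map K.subtype).exists_le_sylow
        exact hQ'.trans (hsyl q hqp Q')
    have hKn : K.Normal := by
      refine Subgroup.normalizer_eq_top_iff.mp (top_le_iff.mp ?_)
      rw [← hK.sup_eq_top]
      refine sup_le (fun a ha => Subgroup.mem_normalizer_iff.mpr fun y => ?_) Subgroup.le_normalizer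
      constructor
      · intro hy
        rw [Subgroup.mem_centralizer_iff.mp (hKC hy) a ha, mul_inv_cancel_right]; exact hy
      · intro hy
        have h3 := Subgroup.mem_centralizer_iff.mp (hKC hy) a ha
        have : a * y * a⁻¹ = y := by
          calc a * y * a⁻¹ = a⁻¹ * (a * (a * y * a⁻¹)) := by group
            _ = a⁻¹ * (a * y * a⁻¹ * a) := by rw [h3]
            _ = y := by group
        rwa [this] at hy
    exact ⟨P, K, hPn, hKn, hK.disjoint.eq_bot, hK.sup_eq_top⟩

end Cfsg.Agent.S3986
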