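import Cfsg.Statements.S3987
import Mathlib.GroupTheory.SchurZassenhaus

set_option autoImplicit false
open Cfsg

namespace Cfsg.Agent.S3987
theorem ncard_conj {G : Type*} [Group G] [Finite G] (x : G) :
    (Set.range fun g : G => g * x * g⁻¹).ncard = (Subgroup.centralizer ({x} : Set G)).index := by
  let f : G ⧸ Subgroup.centralizer ({x} : Set G) → Set.range (fun g : G => g * x * g⁻¹) := Quotient.lift
    (fun g => ⟨g * x * g⁻¹, g, rfl⟩) (fun a b hab => Subtype.ext (by
      have h : a⁻¹ * b ∈ Subgroup.centralizer ({x} : Set G) := QuotientGroup.leftRel_apply.mp hab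
      rw [Subgroup.mem_centralizer_singleton_iff] at h
      show a * x * a⁻¹ = b * x * b⁻¹
      calc a * x * a⁻¹ = a * (x * (a⁻¹ * b)) * b⁻¹ := by group
        _ = b * x * b⁻¹ := by rw [← h]; group))
  refine (Nat.card_congr (Equiv.ofBijective f ⟨?_, ?_⟩)).symm
  · rintro ⟨a⟩ ⟨b⟩ h
    refine QuotientGroup.eq.mpr (Subgroup.mem_centralizer_singleton_iff.mpr ?_)
    have h' : a * x * a⁻¹ = b * x * b⁻¹ := congrArg Subtype.val h
    calc a⁻¹ * b * x = a⁻¹ * (b * x * b⁻¹) * b := by group
      _ = x * (a⁻¹ * b) := by rw [← h']; group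
  · rintro ⟨_, g, rfl⟩
    exact ⟨QuotientGroup.mk g, rfl⟩

theorem eq_top_of_prime_power {G : Type*} [Group G] [Finite G] (H : Subgroup G)
    (h : ∀ g : G, (∃ q b : ℕ, q.Prime ∧ orderOf g = q ^ b) → g ∈ H) : H = ⊤ := by
  by_contra hne
  obtain ⟨q, hq, hqd⟩ := Nat.exists_prime_and_dvd (fun h' => hne (Subgroup.index_eq_one.mp h'))
  haveI := Fact.mk hq
  obtain ⟨S⟩ : Nonempty (Sylow q G) := inferInstance
  refine S.not_dvd_index (hqd.trans (Subgroup.index_dvd_of_le fun g hg => h g ?_))
  obtain ⟨k, hk⟩ := S.2.exists_orderOf_eq_pow ⟨g, hg⟩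
  exact ⟨q, k, hq, by rw [← hk, Subgroup.orderOf_mk]⟩


/-- Let p be a prime and G a finite group. Then some Sylow p-subgroup of G is a direct factor of G (normal with a normal complement) if and only if for every element x of p-power order and every element y whose order is a power of a prime other than p, the conjugacy class of x y has as many elements as the product of the sizes of the classes of x and of y. -/
theorem result {G : Type*} [Group G] [Finite G] (p : ℕ) [Fact p.Prime] : (∃ (P : Sylow p G) (K : Subgroup G), (P : Subgroup G).Normal ∧ K.Normal ∧ (P : Subgroup G) ⊓ K = ⊥ ∧ (P : Subgroup G) ⊔ K = ⊤) ↔ ∀ x y : G, (∃ a : ℕ, orderOf x = p ^ a) → (∃ q b : ℕ, q.Prime ∧ q ≠ p ∧ orderOf y = q ^ b) → (Subgroup.centralizer ({x * y} : Set G)).index = (Subgroup.centralizer ({x} : Set G)).index * (Subgroup.centralizer ({y} : Set G)).index := by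
  classical
  have hp := (Fact.out : p.Prime)
  constructor
  · rintro ⟨P, K, hPn, hKn, hint, hsup⟩ x y ⟨a, ha⟩ ⟨q, b, hq, hqp, hb⟩
    haveI := hPn
    haveI := hKn
    have hc : Subgroup.IsComplement' K (P : Subgroup G) :=
      Subgroup.isComplement'_of_disjoint_and_mul_eq_univ (disjoint_iff.mpr (inf_comm (P : Subgroup G) K ▸ hint))
        (by rw [← Subgroup.normal_mul, sup_comm, hsup, Subgroup.coe_top])
    have hxP : x ∈ (P : Subgroup G) := by
      obtain ⟨S, hS⟩ := (IsPGroup.of_card (n := a) (G := Subgroup.zpowers x) (by rw [Nat.card_zpowers, ha])).exists_le_sylow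
      haveI := Sylow.unique_of_normal P hPn
      exact (Subsingleton.elim S P) ▸ hS (Subgroup.mem_zpowers x)
    have hyK : y ∈ K := by
      rw [← QuotientGroup.eq_one_iff]
      refine orderOf_eq_one_iff.mp (Nat.eq_one_of_dvd_coprimes (b := p ^ (Nat.card G).factorization p)
        (((Nat.coprime_primes hq hp).mpr hqp).pow b _) (hb ▸ orderOf_map_dvd (QuotientGroup.mk' K) y) ?_)
      rw [← P.card_eq_multiplicity, ← hc.symm.index_eq_card]
      exact orderOf_dvd_natCard _
    have hcomm : ∀ u ∈ (P : Subgroup G), ∀ v ∈ K, Commute u v := fun u hu v hv =>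
      Subgroup.commute_of_normal_of_disjoint (P : Subgroup G) K hPn hKn (disjoint_iff.mpr hint) u v hu hv
    have hxy := hcomm x hxP y hyK
    set A := Subgroup.centralizer ({x} : Set G) with hA
    set B := Subgroup.centralizer ({y} : Set G) with hB
    have hAB : Subgroup.centralizer ({x * y} : Set G) = A ⊓ B := by
      apply le_antisymm
      · intro g hg
        have hg' : Commute g (x * y) := Subgroup.mem_centralizer_singleton_iff.mp hg
        have hco : (orderOf x).Coprime (orderOf y) := by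
          rw [ha, hb]; exact ((Nat.coprime_primes hp hq).mpr (Ne.symm hqp)).pow a b
        have hgx : Commute g x := by
          obtain ⟨m, hm⟩ := exists_pow_eq_self_of_coprime (x := x) hco.symm
          rw [← hm, ← pow_mul]
          have h2 : (x * y) ^ (orderOf y * m) = x ^ (orderOf y * m) := by
            rw [hxy.mul_pow, pow_mul y, pow_orderOf_eq_one, one_pow, mul_one]
          exact h2 ▸ hg'.pow_right _
        refine ⟨Subgroup.mem_centralizer_singleton_iff.mpr hgx.eq, Subgroup.mem_centralizer_singleton_iff.mpr ?_⟩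
        have h3 := hgx.inv_right.mul_right hg'
        rw [inv_mul_cancel_left] at h3
        exact h3.eq
      · rintro g ⟨hg1, hg2⟩
        have hg1' : Commute g x := Subgroup.mem_centralizer_singleton_iff.mp hg1
        exact Subgroup.mem_centralizer_singleton_iff.mpr (hg1'.mul_right (Subgroup.mem_centralizer_singleton_iff.mp hg2)).eq
    rw [hAB]
    let f : G ⧸ (A ⊓ B) → (G ⧸ A) × (G ⧸ B) := Quotient.lift (fun g => (QuotientGroup.mk g, QuotientGroup.mk g))
      (fun u v huv => by
        have h : u⁻¹ * v ∈ A ⊓ B := QuotientGroup.leftRel_apply.mp huv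
        exact Prod.ext (QuotientGroup.eq.mpr h.1) (QuotientGroup.eq.mpr h.2))
    refine (Nat.card_congr (Equiv.ofBijective f ⟨?_, ?_⟩)).trans (Nat.card_prod _ _)
    · rintro ⟨u⟩ ⟨v⟩ h
      exact QuotientGroup.eq.mpr ⟨QuotientGroup.eq.mp (congrArg Prod.fst h), QuotientGroup.eq.mp (congrArg Prod.snd h)⟩
    · rintro ⟨u, v⟩
      obtain ⟨u, rfl⟩ := QuotientGroup.mk_surjective u
      obtain ⟨v, rfl⟩ := QuotientGroup.mk_surjective v
      obtain ⟨k, hk, w, hw, he⟩ : ∃ k ∈ K, ∃ w ∈ (P : Subgroup G), k * w = u⁻¹ * v := by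
        have h : u⁻¹ * v ∈ (↑(K ⊔ (P : Subgroup G)) : Set G) := by rw [sup_comm, hsup]; trivial
        rw [Subgroup.normal_mul] at h
        obtain ⟨k, hk, w, hw, he⟩ := h
        exact ⟨k, hk, w, hw, he⟩
      refine ⟨QuotientGroup.mk (u * k), Prod.ext (QuotientGroup.eq.mpr ?_) (QuotientGroup.eq.mpr ?_)⟩
      · have h1 : k ∈ A := Subgroup.mem_centralizer_singleton_iff.mpr (hcomm x hxP k hk).symm.eq
        rw [mul_inv_rev, inv_mul_cancel_right]
        exact A.inv_mem h1
      · have h1 : w ∈ B := Subgroup.mem_centralizer_singleton_iff.mpr (hcomm w hw y hyK).eq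
        rwa [mul_inv_rev, mul_assoc, ← he, inv_mul_cancel_left]
  · intro hall
    have hcm : ∀ x y : G, (∃ a, orderOf x = p ^ a) → (∃ q b : ℕ, q.Prime ∧ q ≠ p ∧ orderOf y = q ^ b) → x * y = y * x := by
      intro x y hx hy
      obtain ⟨q, b, hq, hqp, hb⟩ := hy
      set X := Set.range fun g : G => g * x * g⁻¹
      set Y := Set.range fun g : G => g * y * g⁻¹
      have hind := hall x (x⁻¹ * y * x) hx ⟨q, b, hq, hqp, by rw [← hb]; simpa using (MulAut.conj x⁻¹).orderOf_eq y⟩
      rw [← mul_assoc, mul_inv_cancel_left] at hind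
      have hiy : (Subgroup.centralizer ({x⁻¹ * y * x} : Set G)).index = (Subgroup.centralizer ({y} : Set G)).index := by
        rw [← ncard_conj, ← ncard_conj]
        congr 1
        ext z
        exact ⟨fun ⟨g, hg⟩ => ⟨g * x⁻¹, by rw [← hg]; group⟩, fun ⟨g, hg⟩ => ⟨g * x, by rw [← hg]; group⟩⟩
      rw [hiy, ← ncard_conj, ← ncard_conj, ← ncard_conj, ← Set.ncard_prod] at hind
      have hsub : (Set.range fun g : G => g * (y * x) * g⁻¹) ⊆ (fun u : G × G => u.1 * u.2) '' (X ×ˢ Y) := by
        rintro _ ⟨g, rfl⟩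
        exact ⟨(g * x * g⁻¹, (g * x⁻¹) * y * (g * x⁻¹)⁻¹), ⟨⟨g, rfl⟩, ⟨_, rfl⟩⟩, by group⟩
      have hinj : Set.InjOn (fun u : G × G => u.1 * u.2) (X ×ˢ Y) := by
        refine Set.injOn_of_ncard_image_eq (le_antisymm (Set.ncard_image_le (Set.toFinite _)) ?_) (Set.toFinite _)
        exact hind ▸ Set.ncard_le_ncard hsub (Set.toFinite _)
      have h := @hinj (x, x⁻¹ * y * x) ⟨⟨1, by simp⟩, ⟨x⁻¹, by simp⟩⟩ (y * x * y⁻¹, y) ⟨⟨y, rfl⟩, ⟨1, by simp⟩⟩ (by group)
      exact (eq_mul_inv_iff_mul_eq.mp (congrArg Prod.fst h))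
    obtain ⟨P⟩ : Nonempty (Sylow p G) := inferInstance
    have hPel : ∀ u ∈ (P : Subgroup G), ∃ a, orderOf u = p ^ a := fun u hu => by
      obtain ⟨k, hk⟩ := P.2.exists_orderOf_eq_pow ⟨u, hu⟩
      exact ⟨k, by rw [← hk, Subgroup.orderOf_mk]⟩
    have hcen : ∀ g : G, (∃ q b : ℕ, q.Prime ∧ q ≠ p ∧ orderOf g = q ^ b) → g ∈ Subgroup.centralizer ((P : Subgroup G) : Set G) :=
      fun g hg => Subgroup.mem_centralizer_iff.mpr fun u hu => hcm u g (hPel u hu) hg
    haveI hPn : (P : Subgroup G).Normal := by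
      rw [← Subgroup.normalizer_eq_top_iff]
      by_contra hne
      obtain ⟨q, hq, hqd⟩ := Nat.exists_prime_and_dvd (fun h' => hne (Subgroup.index_eq_one.mp h'))
      haveI := Fact.mk hq
      by_cases hqp : q = p
      · subst hqp
        exact P.not_dvd_index (hqd.trans (Subgroup.index_dvd_of_le Subgroup.le_normalizer))
      · obtain ⟨S⟩ : Nonempty (Sylow q G) := inferInstance
        refine S.not_dvd_index (hqd.trans (Subgroup.index_dvd_of_le fun g hg => Subgroup.centralizer_le_normalizer _ (hcen g ?_)))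
        obtain ⟨k, hk⟩ := S.2.exists_orderOf_eq_pow ⟨g, hg⟩
        exact ⟨q, k, hq, hqp, by rw [← hk, Subgroup.orderOf_mk]⟩
    obtain ⟨K, hK⟩ := Subgroup.exists_right_complement'_of_coprime P.card_coprime_index
    have hKc : K ≤ Subgroup.centralizer ((P : Subgroup G) : Set G) := by
      have h := eq_top_of_prime_power ((Subgroup.centralizer ((P : Subgroup G) : Set G)).subgroupOf K) (fun g ⟨q, b, hq, hb⟩ => by
        by_cases hqp : q = p
        · have hKP : (Nat.card K).Coprime (Nat.card (P : Subgroup G)) := by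
            rw [← hK.symm.index_eq_card]; exact P.card_coprime_index.symm
          rw [P.card_eq_multiplicity] at hKP
          have hd := orderOf_dvd_natCard g
          rw [hb, hqp] at hd
          have : g = 1 := by
            rw [← orderOf_eq_one_iff, hb, hqp]
            by_contra hne
            have hpd : p ∣ p ^ b := dvd_pow_self p fun h0 => hne (by rw [h0, pow_zero])
            by_cases hf : (Nat.card G).factorization p = 0
            · have hG := hp.factorization_pos_of_dvd Nat.card_pos.ne' ((hpd.trans hd).trans (Subgroup.card_subgroup_dvd_card K))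
              omega
            · exact hp.one_lt.ne' (Nat.eq_one_of_dvd_coprimes hKP (hpd.trans hd) (dvd_pow_self p hf))
          rw [this]; exact Subgroup.one_mem _
        · exact hcen g ⟨q, b, hq, hqp, by rw [Subgroup.orderOf_coe, hb]⟩)
      exact Subgroup.subgroupOf_eq_top.mp h
    have hKn : K.Normal := by
      rw [← Subgroup.normalizer_eq_top_iff, eq_top_iff, ← hK.sup_eq_top]
      refine sup_le (fun u hu => Subgroup.mem_normalizer_fintype fun k hk => ?_) Subgroup.le_normalizer
      rw [Subgroup.mem_centralizer_iff.mp (hKc hk) u hu, mul_inv_cancel_right]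
      exact hk
    exact ⟨P, K, hPn, hKn, disjoint_iff.mp hK.disjoint, hK.sup_eq_top⟩

end Cfsg.Agent.S3987
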