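import Cfsg.Statements.S4003
import Cfsg.Agent.Lib.PLocal.OddRankTwo
import Cfsg.Agent.Lib.GroupB.Coprime
import Cfsg.Agent.S4139

set_option autoImplicit false
open Cfsg

namespace Cfsg.Agent.S4003
open scoped commutatorElement
universe u

section
variable {H : Type u} [Group H] [Finite H] {p : ℕ} [hp : Fact p.Prime]

theorem fibre (K : Subgroup H) (t : ℕ) :
    Nat.card {g : H // orderOf g = t ∧ g ∈ K} = Nat.totient t * Nat.card {C : Subgroup H // IsCyclic C ∧ Nat.card C = t ∧ C ≤ K} := by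
  classical
  haveI := Fintype.ofFinite H
  haveI := Fintype.ofFinite {C : Subgroup H // IsCyclic C ∧ Nat.card C = t ∧ C ≤ K}
  let f : {g : H // orderOf g = t ∧ g ∈ K} → {C : Subgroup H // IsCyclic C ∧ Nat.card C = t ∧ C ≤ K} := fun g =>
    ⟨Subgroup.zpowers g.1, inferInstance, by rw [Nat.card_zpowers, g.2.1], Subgroup.zpowers_le.mpr g.2.2⟩
  rw [Nat.card_congr (Equiv.sigmaFiberEquiv f).symm, Nat.card_sigma, Finset.sum_const_nat (m := Nat.totient t), Finset.card_univ,
    ← Nat.card_eq_fintype_card, mul_comm]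
  intro C _
  haveI := C.2.1
  haveI := Fintype.ofFinite C.1
  have e : {g : {g : H // orderOf g = t ∧ g ∈ K} // f g = C} ≃ {u : C.1 // orderOf u = t} :=
    { toFun := fun g => ⟨⟨g.1.1, by rw [← congrArg Subtype.val g.2]; exact Subgroup.mem_zpowers _⟩, by rw [Subgroup.orderOf_mk]; exact g.1.2.1⟩
      invFun := fun u => ⟨⟨(u.1 : H), by rw [Subgroup.orderOf_coe, u.2], C.2.2.2 u.1.2⟩, Subtype.ext (Subgroup.eq_of_le_of_card_ge
        (Subgroup.zpowers_le.mpr u.1.2) (by rw [Nat.card_zpowers, Subgroup.orderOf_coe, u.2, C.2.2.1]))⟩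
      left_inv := fun g => rfl
      right_inv := fun u => rfl }
  rw [Nat.card_congr e, Nat.card_eq_fintype_card, Fintype.card_subtype]
  exact IsCyclic.card_orderOf_eq_totient (by rw [← Nat.card_eq_fintype_card, C.2.2.1])

theorem pgroup_dvd (hp2 : p ≠ 2) (hR : IsPGroup p H) (hc : ¬ IsCyclic H) {s : ℕ} (hs : 1 < s) :
    p ^ s ∣ Nat.card {g : H // orderOf g = p ^ s} := by
  classical
  have hp' := (Fact.out : p.Prime)
  obtain ⟨N, -, hNn, ⟨hNc, hNe⟩, hNcard⟩ := CfsgLib.PLocal.exists_normal_el hp2 hR (⊤ : Subgroup H) (fun h => hc (by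
    haveI := h; exact isCyclic_of_surjective Subgroup.topEquiv.toMonoidHom Subgroup.topEquiv.surjective))
  haveI := hNn
  have hab : ∀ a ∈ N, ∀ b ∈ N, a * b = b * a := fun a ha b hb => congrArg Subtype.val (hNc.is_comm.comm (⟨a, ha⟩ : N) ⟨b, hb⟩)
  haveI : Group.IsNilpotent H := hR.isNilpotent
  -- commutators with `N` are central
  have hcen : ∀ (x : H), ∀ n ∈ N, Commute ⁅n, x⁆ x := by
    intro x n hn
    set Z := N ⊓ Subgroup.center H
    haveI : Z.Normal := inferInstance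
    have hne : Z ≠ ⊥ := CfsgLib.PStep.normal_inf_center_ne_bot hR hNn (fun e => by
      rw [e, Subgroup.card_bot] at hNcard
      exact absurd hNcard.symm (Nat.one_lt_pow two_ne_zero hp'.one_lt).ne')
    have hmem : ⁅n, x⁆ ∈ Z := by
      rw [← QuotientGroup.eq_one_iff]
      show QuotientGroup.mk' Z ⁅n, x⁆ = 1
      rw [map_commutatorElement, commutatorElement_eq_one_iff_commute]
      by_cases hb : N.map (QuotientGroup.mk' Z) = ⊥
      · have : QuotientGroup.mk' Z n = 1 := Subgroup.mem_bot.mp (hb ▸ Subgroup.mem_map_of_mem _ hn)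
        rw [this]; exact Commute.one_left _
      · haveI hNbn : (N.map (QuotientGroup.mk' Z)).Normal := hNn.map _ (QuotientGroup.mk'_surjective Z)
        have hne2 := CfsgLib.PStep.normal_inf_center_ne_bot (hR.to_quotient Z) hNbn hb
        have hcardb : Nat.card (N.map (QuotientGroup.mk' Z)) ≤ p := by
          have h1 := Subgroup.relIndex_ker (K := N) (QuotientGroup.mk' Z)
          rw [QuotientGroup.ker_mk'] at h1
          have h2 := Subgroup.relIndex_mul_relIndex ⊥ Z N bot_le inf_le_left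
          rw [Subgroup.relIndex_bot_left, Subgroup.relIndex_bot_left, h1, hNcard] at h2
          obtain ⟨k, hk⟩ := IsPGroup.iff_card.mp (hR.to_subgroup Z)
          have hk0 : k ≠ 0 := fun e => hne (Subgroup.eq_bot_of_card_eq Z (by rw [hk, e, pow_zero]))
          have h3 : p ≤ Nat.card Z := hk ▸ Nat.le_self_pow hk0 p
          by_contra hlt
          have := Nat.mul_le_mul h3 (le_of_lt (not_le.mp hlt))
          have := Nat.mul_lt_mul_of_le_of_lt h3 (not_le.mp hlt) Nat.card_pos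
          rw [h2, sq] at this
          omega
        have heq : N.map (QuotientGroup.mk' Z) ⊓ Subgroup.center (H ⧸ Z) = N.map (QuotientGroup.mk' Z) := by
          refine Subgroup.eq_of_le_of_card_ge inf_le_left (hcardb.trans ?_)
          obtain ⟨k, hk⟩ := IsPGroup.iff_card.mp ((hR.to_quotient Z).to_subgroup (N.map (QuotientGroup.mk' Z) ⊓ Subgroup.center (H ⧸ Z)))
          have hk0 : k ≠ 0 := fun e => hne2 (Subgroup.eq_bot_of_card_eq _ (by rw [hk, e, pow_zero]))
          exact hk ▸ Nat.le_self_pow hk0 p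
        have := (heq.ge (Subgroup.mem_map_of_mem (QuotientGroup.mk' Z) hn)).2
        exact (Subgroup.mem_center_iff.mp this _).symm
    exact (Subgroup.mem_center_iff.mp hmem.2 x).symm
  have hmp : ∀ (x : H), ∀ n ∈ N, (x * n) ^ p = x ^ p := by
    intro x n hn
    have hcN : ⁅n, x⁆ ∈ N := by
      rw [commutatorElement_def, show n * x * n⁻¹ * x⁻¹ = n * (x * n⁻¹ * x⁻¹) by group]
      exact N.mul_mem hn (hNn.conj_mem _ (N.inv_mem hn) x)
    rw [CfsgLib.PLocal.mul_pow_prime hp' hp2 (hcen x n hn) (hab _ hcN n hn) (hNe _ hcN), hNe n hn, mul_one]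
  obtain ⟨s', rfl⟩ : ∃ s', s = s' + 2 := ⟨s - 2, by omega⟩
  haveI := Fintype.ofFinite H
  haveI := Fintype.ofFinite (Subgroup H)
  -- sort by the subgroup generated together with `N`
  rw [Nat.card_congr (Equiv.sigmaFiberEquiv (fun g : {g : H // orderOf g = p ^ (s' + 2)} => Subgroup.zpowers g.1 ⊔ N)).symm, Nat.card_sigma]
  refine Finset.dvd_sum fun A _ => ?_
  by_cases hA : IsEmpty {g : {g : H // orderOf g = p ^ (s' + 2)} // Subgroup.zpowers g.1 ⊔ N = A}
  · rw [Nat.card_of_isEmpty]; exact dvd_zero _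
  obtain ⟨⟨⟨x, hx⟩, rfl⟩⟩ := not_isEmpty_iff.mp hA
  dsimp only
  set A := Subgroup.zpowers x ⊔ N with hA
  set A' := Subgroup.zpowers (x ^ p) ⊔ N with hA'
  have hA'A : A' ≤ A := sup_le_sup_right (Subgroup.zpowers_le.mpr (Subgroup.pow_mem _ (Subgroup.mem_zpowers x) p)) N
  have hmemA : ∀ y ∈ A, ∃ i : ℤ, ∃ n ∈ N, y = x ^ i * n := fun y hy => by
    obtain ⟨u, hu, n, hn, e⟩ := Subgroup.mem_sup_of_normal_right.mp hy
    obtain ⟨i, rfl⟩ := Subgroup.mem_zpowers_iff.mp hu
    exact ⟨i, n, hn, e.symm⟩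
  have hxnot : x ∉ A' := by
    intro h
    obtain ⟨u, hu, n, hn, e⟩ := Subgroup.mem_sup_of_normal_right.mp h
    obtain ⟨i, rfl⟩ := Subgroup.mem_zpowers_iff.mp hu
    have h1 := hmp ((x ^ p) ^ i) n hn
    rw [e] at h1
    have h2 : (x ^ p) ^ p ^ (s' + 1) = 1 := by rw [← pow_mul, ← pow_succ', ← hx, pow_orderOf_eq_one]
    have h3 : (x ^ p) ^ p ^ s' = 1 := by
      rw [h1, ← pow_mul, ← pow_succ', ← zpow_natCast, ← zpow_mul, mul_comm, zpow_mul, zpow_natCast, h2, one_zpow]
    have h4 := orderOf_dvd_of_pow_eq_one (show x ^ p ^ (s' + 1) = 1 by rw [pow_succ', pow_mul, h3])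
    rw [hx, Nat.pow_dvd_pow_iff_le_right hp'.one_lt] at h4
    omega
  have hidx : A'.relIndex A = p := by
    have hdvd : A'.relIndex A ∣ p := by
      have eA : A = A' ⊔ Subgroup.zpowers x := by
        rw [hA, hA', sup_comm _ (Subgroup.zpowers x), ← sup_assoc,
          sup_eq_left.mpr (Subgroup.zpowers_le.mpr (Subgroup.pow_mem _ (Subgroup.mem_zpowers x) p) : Subgroup.zpowers (x ^ p) ≤ Subgroup.zpowers x)]
      rw [eA]
      have hn : Subgroup.zpowers x ≤ Subgroup.normalizer (A' : Set H) := CfsgLib.GroupB.Coprime.le_normalizer_of_conj_mem fun k hk w hw => by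
        obtain ⟨u, hu, n, hn, rfl⟩ := Subgroup.mem_sup_of_normal_right.mp hw
        rw [show k * (u * n) * k⁻¹ = (k * u * k⁻¹) * (k * n * k⁻¹) by group]
        refine mul_mem (Subgroup.mem_sup_left ?_) (Subgroup.mem_sup_right (hNn.conj_mem n hn k))
        obtain ⟨i, rfl⟩ := Subgroup.mem_zpowers_iff.mp hu
        obtain ⟨j, rfl⟩ := Subgroup.mem_zpowers_iff.mp hk
        rw [← zpow_natCast, ← zpow_mul, ((Commute.refl x).zpow_zpow j _).eq, mul_inv_cancel_right, zpow_mul, zpow_natCast]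
        exact Subgroup.zpow_mem_zpowers _ _
      rw [CfsgLib.GroupB.Coprime.relIndex_sup_of_le_normalizer hn]
      refine (Subgroup.relIndex_dvd_of_le_left _ (le_sup_left : Subgroup.zpowers (x ^ p) ≤ A')).trans (dvd_of_eq ?_)
      have h1 := Subgroup.relIndex_mul_relIndex ⊥ (Subgroup.zpowers (x ^ p)) (Subgroup.zpowers x) bot_le
        (Subgroup.zpowers_le.mpr (Subgroup.pow_mem _ (Subgroup.mem_zpowers x) p))
      rw [Subgroup.relIndex_bot_left, Subgroup.relIndex_bot_left, Nat.card_zpowers, Nat.card_zpowers,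
        orderOf_pow_of_dvd hp'.ne_zero (hx ▸ dvd_pow_self p (by omega)), hx, pow_succ, Nat.mul_div_cancel _ hp'.pos] at h1
      exact Nat.eq_of_mul_eq_mul_left (pow_pos hp'.pos _) h1
    refine (Nat.dvd_prime hp').mp hdvd |>.resolve_left fun h => hxnot ?_
    exact Subgroup.relIndex_eq_one.mp h (Subgroup.mem_sup_left (Subgroup.mem_zpowers x))
  have hiff : ∀ y : H, (orderOf y = p ^ (s' + 2) ∧ Subgroup.zpowers y ⊔ N = A) ↔ (y ∈ A ∧ y ∉ A') := by
    intro y
    constructor
    · rintro ⟨hy, hyA⟩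
      refine ⟨hyA ▸ Subgroup.mem_sup_left (Subgroup.mem_zpowers y), fun h => hxnot ?_⟩
      have : A ≤ A' := hyA ▸ sup_le (Subgroup.zpowers_le.mpr h) le_sup_right
      exact this (Subgroup.mem_sup_left (Subgroup.mem_zpowers x))
    · rintro ⟨hyA, hyA'⟩
      obtain ⟨i, n, hn, rfl⟩ := hmemA y hyA
      have hi : ¬ (p : ℤ) ∣ i := by
        rintro ⟨j, rfl⟩
        exact hyA' (mul_mem (Subgroup.mem_sup_left (by rw [zpow_mul, zpow_natCast]; exact Subgroup.zpow_mem_zpowers _ _)) (Subgroup.mem_sup_right hn))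
      have hio : orderOf (x ^ i) = p ^ (s' + 2) := by
        obtain ⟨k, hk⟩ : ∃ k : ℕ, x ^ i = x ^ k ∧ ¬ p ∣ k := by
          refine ⟨(i % (p ^ (s' + 2) : ℕ)).toNat, ?_, fun hd => hi ?_⟩
          · rw [← zpow_natCast, Int.toNat_of_nonneg (Int.emod_nonneg _ (by exact_mod_cast (pow_pos hp'.pos _).ne')), ← hx, zpow_mod_orderOf]
          · have hd' := Int.natCast_dvd_natCast.mpr hd
            rw [Int.toNat_of_nonneg (Int.emod_nonneg _ (by exact_mod_cast (pow_pos hp'.pos _).ne'))] at hd'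
            rw [← Int.emod_add_mul_ediv i ((p ^ (s' + 2) : ℕ) : ℤ)]
            exact dvd_add hd' (Dvd.dvd.mul_right (Int.natCast_dvd_natCast.mpr (dvd_pow_self p (by omega))) _)
        rw [hk.1, Nat.Coprime.orderOf_pow (by rw [hx]; exact Nat.Coprime.pow_left _ (hp'.coprime_iff_not_dvd.mpr hk.2)), hx]
      constructor
      · have h1 : orderOf ((x ^ i * n) ^ p) = p ^ (s' + 1) := by
          rw [hmp _ n hn, orderOf_pow_of_dvd hp'.ne_zero (hio ▸ dvd_pow_self p (by omega)), hio, pow_succ, Nat.mul_div_cancel _ hp'.pos]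
        obtain ⟨k, hk⟩ := IsPGroup.iff_orderOf.mp hR (x ^ i * n)
        have hk0 : k ≠ 0 := by
          intro e
          rw [orderOf_eq_one_iff.mp (hk.trans (by rw [e, pow_zero])), one_pow, orderOf_one] at h1
          exact absurd h1.symm (Nat.one_lt_pow (by omega) hp'.one_lt).ne'
        obtain ⟨k', rfl⟩ : ∃ k', k = k' + 1 := ⟨k - 1, by omega⟩
        rw [orderOf_pow_of_dvd hp'.ne_zero (hk ▸ dvd_pow_self p hk0), hk, pow_succ, Nat.mul_div_cancel _ hp'.pos] at h1
        rw [hk, pow_succ, h1, ← pow_succ]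
      · refine le_antisymm (sup_le (Subgroup.zpowers_le.mpr hyA) le_sup_right) (sup_le ?_ le_sup_right)
        have hmem : x ^ i ∈ Subgroup.zpowers (x ^ i * n) ⊔ N := by
          have := mul_mem (Subgroup.mem_sup_left (T := N) (Subgroup.mem_zpowers (x ^ i * n))) (Subgroup.mem_sup_right (N.inv_mem hn))
          rwa [mul_inv_cancel_right] at this
        have e : Subgroup.zpowers (x ^ i) = Subgroup.zpowers x := Subgroup.eq_of_le_of_card_ge
          (Subgroup.zpowers_le.mpr (Subgroup.zpow_mem_zpowers _ _)) (by rw [Nat.card_zpowers, Nat.card_zpowers, hio, hx])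
        rw [← e]
        exact Subgroup.zpowers_le.mpr hmem
  have e : {g : {g : H // orderOf g = p ^ (s' + 2)} // Subgroup.zpowers g.1 ⊔ N = A} ≃ {y : A // y ∉ A'.subgroupOf A} :=
    { toFun := fun g => ⟨⟨g.1.1, ((hiff _).mp ⟨g.1.2, g.2⟩).1⟩, fun h => ((hiff _).mp ⟨g.1.2, g.2⟩).2 (Subgroup.mem_subgroupOf.mp h)⟩
      invFun := fun y => ⟨⟨(y.1 : H), ((hiff _).mpr ⟨y.1.2, fun h => y.2 (Subgroup.mem_subgroupOf.mpr h)⟩).1⟩,
        ((hiff _).mpr ⟨y.1.2, fun h => y.2 (Subgroup.mem_subgroupOf.mpr h)⟩).2⟩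
      left_inv := fun g => rfl
      right_inv := fun y => rfl }
  haveI := Fintype.ofFinite A
  rw [Nat.card_congr e, Nat.card_eq_fintype_card, Fintype.card_subtype_compl]
  have hcA := (A'.subgroupOf A).index_mul_card
  rw [show (A'.subgroupOf A).index = p from hidx] at hcA
  rw [← Nat.card_eq_fintype_card, ← Nat.card_eq_fintype_card]
  -- the order of `A`
  have hbig : p ^ (s' + 2) * p ∣ Nat.card A := by
    obtain ⟨k, hk⟩ := IsPGroup.iff_card.mp (hR.to_subgroup A)
    rw [hk, ← pow_succ, Nat.pow_dvd_pow_iff_le_right hp'.one_lt]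
    have hle : Subgroup.zpowers x ≤ A := le_sup_left
    have h1 : p ^ (s' + 2) ≤ p ^ k := by
      rw [← hk, ← hx, ← Nat.card_zpowers]; exact Subgroup.card_le_of_le hle
    have h1' := (Nat.pow_le_pow_iff_right hp'.one_lt).mp h1
    rcases Nat.lt_or_ge k (s' + 3) with hlt | hge
    · exfalso
      have heq : A = Subgroup.zpowers x := (Subgroup.eq_of_le_of_card_ge hle (by rw [Nat.card_zpowers, hx, hk, show k = s' + 2 by omega])).symm
      haveI : IsCyclic A := by rw [heq]; infer_instance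
      have hNA : IsCyclic N := isCyclic_of_surjective (Subgroup.subgroupOfEquivOfLe (le_sup_right : N ≤ A)).toMonoidHom (MulEquiv.surjective _)
      obtain ⟨g, hg⟩ := hNA.exists_ofOrder_eq_natCard
      have hd : orderOf g ∣ p := orderOf_dvd_of_pow_eq_one (Subtype.ext (by simpa using hNe g g.2))
      rw [hg, hNcard, sq] at hd
      have := Nat.le_of_dvd hp'.pos hd
      nlinarith [hp'.two_le]
    · omega
  have hcA' : p ^ (s' + 2) ∣ Nat.card (A'.subgroupOf A) := by
    rw [← hcA, mul_comm (p ^ (s' + 2))] at hbig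
    exact Nat.dvd_of_mul_dvd_mul_left hp'.pos hbig
  exact Nat.dvd_sub (hcA ▸ Dvd.dvd.mul_left hcA' p) hcA'

theorem group_dvd (hp2 : p ≠ 2) (P : Sylow p H) (hc : ¬ IsCyclic (P : Subgroup H)) {s : ℕ} (hs : 1 < s) :
    p ^ s ∣ Nat.card {g : H // orderOf g = p ^ s} := by
  classical
  have hp' := (Fact.out : p.Prime)
  have hP := pgroup_dvd hp2 P.2 hc hs
  let e1 : {u : (P : Subgroup H) // orderOf u = p ^ s} ≃ {g : H // orderOf g = p ^ s ∧ g ∈ (P : Subgroup H)} :=
    { toFun := fun u => ⟨u.1, by rw [Subgroup.orderOf_coe, u.2], u.1.2⟩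
      invFun := fun g => ⟨⟨g.1, g.2.2⟩, by rw [Subgroup.orderOf_mk, g.2.1]⟩
      left_inv := fun u => rfl
      right_inv := fun g => rfl }
  let e2 : {g : H // orderOf g = p ^ s} ≃ {g : H // orderOf g = p ^ s ∧ g ∈ (⊤ : Subgroup H)} :=
    Equiv.subtypeEquivRight fun g => (and_iff_left (Subgroup.mem_top g)).symm
  rw [Nat.card_congr e1, fibre, Nat.totient_prime_pow hp' (by omega)] at hP
  rw [Nat.card_congr e2, fibre, Nat.totient_prime_pow hp' (by omega)]
  obtain ⟨t, rfl⟩ : ∃ t, s = t + 1 := ⟨s - 1, by omega⟩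
  rw [Nat.add_sub_cancel, pow_succ, mul_assoc] at hP ⊢
  have hP' := Nat.dvd_of_mul_dvd_mul_left (pow_pos hp'.pos t) hP
  have hco : p.Coprime (p - 1) := (hp'.coprime_iff_not_dvd).mpr fun h => by
    have h2 := hp'.two_le
    have := Nat.le_of_dvd (by omega) h
    omega
  have hdY := hco.dvd_of_dvd_mul_left hP'
  refine Nat.mul_dvd_mul_left _ (Dvd.dvd.mul_left ?_ _)
  -- the fixed points of the Sylow subgroup lie inside it
  rw [← pow_succ] at *
  set T := p ^ (t + 1) with hT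
  let act : ∀ K : Subgroup H, (P : Subgroup H) ≤ Subgroup.normalizer (K : Set H) →
      MulAction (P : Subgroup H) {C : Subgroup H // IsCyclic C ∧ Nat.card C = T ∧ C ≤ K} := fun K hK =>
    { smul := fun g C => ⟨C.1.map (MulAut.conj (g : H)).toMonoidHom,
        (haveI := C.2.1; isCyclic_of_surjective (C.1.equivMapOfInjective _ (MulAut.conj (g : H)).injective).toMonoidHom (MulEquiv.surjective _)),
        by rw [Subgroup.card_map_of_injective (MulAut.conj (g : H)).injective, C.2.2.1],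
        fun w hw => by
          obtain ⟨c, hc, rfl⟩ := hw
          exact (Subgroup.mem_normalizer_iff.mp (hK g.2) c).mp (C.2.2.2 hc)⟩
      one_smul := fun C => Subtype.ext (by
        show C.1.map (MulAut.conj ((1 : (P : Subgroup H)) : H)).toMonoidHom = C.1
        rw [Subgroup.coe_one, map_one]; exact Subgroup.map_id _)
      mul_smul := fun g g' C => Subtype.ext (by
        show C.1.map (MulAut.conj ((g * g' : (P : Subgroup H)) : H)).toMonoidHom =
          (C.1.map (MulAut.conj (g' : H)).toMonoidHom).map (MulAut.conj (g : H)).toMonoidHom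
        rw [Subgroup.map_map, Subgroup.coe_mul, map_mul]; rfl) }
  have hmod : ∀ (K : Subgroup H) (hK : (P : Subgroup H) ≤ Subgroup.normalizer (K : Set H)),
      Nat.card {C : Subgroup H // IsCyclic C ∧ Nat.card C = T ∧ C ≤ K} ≡
        Nat.card {C : Subgroup H // (IsCyclic C ∧ Nat.card C = T ∧ C ≤ K) ∧ (P : Subgroup H) ≤ Subgroup.normalizer (C : Set H)} [MOD p] := by
    intro K hK
    letI := act K hK
    refine (P.2.card_modEq_card_fixedPoints _).trans (show Nat.ModEq p _ _ from congrArg (· % p) ?_)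
    refine Nat.card_congr ⟨fun C => ⟨C.1.1, C.1.2, CfsgLib.GroupB.Coprime.le_normalizer_of_conj_mem fun g hg w hw => ?_⟩,
      fun C => ⟨⟨C.1, C.2.1⟩, fun g => Subtype.ext ?_⟩, fun C => rfl, fun C => rfl⟩
    · have h1 : C.1.1.map (MulAut.conj g).toMonoidHom = C.1.1 := congrArg Subtype.val (C.2 ⟨g, hg⟩)
      rw [← h1]; exact ⟨w, hw, rfl⟩
    · exact CfsgLib.GroupB.Coprime.mem_normalizer_iff_map_conj_eq.mp (C.2.2 g.2)
  rw [Nat.dvd_iff_mod_eq_zero]
  rw [Nat.dvd_iff_mod_eq_zero] at hdY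
  have h1 := hmod ⊤ (by rw [Subgroup.normalizer_eq_top]; exact le_top)
  have h2 := hmod (P : Subgroup H) Subgroup.le_normalizer
  have h3 : Nat.card {C : Subgroup H // (IsCyclic C ∧ Nat.card C = T ∧ C ≤ ⊤) ∧ (P : Subgroup H) ≤ Subgroup.normalizer (C : Set H)} =
      Nat.card {C : Subgroup H // (IsCyclic C ∧ Nat.card C = T ∧ C ≤ (P : Subgroup H)) ∧ (P : Subgroup H) ≤ Subgroup.normalizer (C : Set H)} := by
    refine Nat.card_congr (Equiv.subtypeEquivRight fun C => ⟨fun ⟨⟨a, b, _⟩, d⟩ => ⟨⟨a, b, ?_⟩, d⟩, fun ⟨⟨a, b, _⟩, d⟩ => ⟨⟨a, b, le_top⟩, d⟩⟩)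
    have hCp : IsPGroup p C := IsPGroup.of_card (n := t + 1) b
    have := P.3 (P.2.to_sup_of_normal_right' hCp d) le_sup_left
    exact le_sup_right.trans this.le
  have := h1.trans ((show Nat.ModEq p _ _ from congrArg (· % p) h3).trans h2.symm)
  unfold Nat.ModEq at this
  omega

end

theorem main {G : Type u} [Group G] [Finite G] (p : ℕ) [Fact p.Prime] (hodd : p ≠ 2)
    (P : Sylow p G) (hP : ¬ IsCyclic ↥(P : Subgroup G)) (s m : ℕ) (hs : 1 < s) (hm : Nat.Coprime p m) :
    p ^ s ∣ Nat.card {g : G // orderOf g = p ^ s * m} := by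
  classical
  have hp' := (Fact.out : p.Prime)
  obtain ⟨a, b, hab⟩ : IsCoprime ((p ^ s : ℕ) : ℤ) (m : ℤ) := Nat.isCoprime_iff_coprime.mpr (hm.pow_left s)
  let Z := fun y : G => {u : Subgroup.centralizer ({y} : Set G) // orderOf u = p ^ s}
  have hsplit : ∀ g : G, orderOf g = p ^ s * m →
      orderOf (g ^ (a * (p ^ s : ℕ))) = m ∧ orderOf (g ^ (b * (m : ℤ))) = p ^ s := by
    intro g hg
    have h1 : orderOf (g ^ (a * (p ^ s : ℕ))) ∣ m := orderOf_dvd_of_pow_eq_one (by
      rw [← zpow_natCast, ← zpow_mul, show a * (p ^ s : ℕ) * (m : ℤ) = ((p ^ s * m : ℕ) : ℤ) * a by push_cast; ring, zpow_mul,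
        zpow_natCast, ← hg, pow_orderOf_eq_one, one_zpow])
    have h2 : orderOf (g ^ (b * (m : ℤ))) ∣ p ^ s := orderOf_dvd_of_pow_eq_one (by
      rw [← zpow_natCast, ← zpow_mul, show b * (m : ℤ) * ((p ^ s : ℕ) : ℤ) = ((p ^ s * m : ℕ) : ℤ) * b by push_cast; ring, zpow_mul,
        zpow_natCast, ← hg, pow_orderOf_eq_one, one_zpow])
    have hmul : orderOf g = orderOf (g ^ (a * (p ^ s : ℕ))) * orderOf (g ^ (b * (m : ℤ))) := by
      rw [← ((Commute.refl g).zpow_zpow _ _).orderOf_mul_eq_mul_orderOf_of_coprime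
        (((hm.pow_left s).symm.coprime_dvd_left h1).coprime_dvd_right h2), ← zpow_add, hab, zpow_one]
    have hpos : 0 < p ^ s * m := hg ▸ orderOf_pos g
    have hm0 : 0 < m := Nat.pos_of_mul_pos_left hpos
    have hps : 0 < p ^ s := pow_pos hp'.pos s
    obtain ⟨c, hc⟩ := h1
    obtain ⟨d, hd⟩ := h2
    set o1 := orderOf (g ^ (a * (p ^ s : ℕ))) with ho1
    set o2 := orderOf (g ^ (b * (m : ℤ))) with ho2
    have ho1p : 0 < o1 := orderOf_pos _
    have ho2p : 0 < o2 := orderOf_pos _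
    have hcd : o1 * o2 * 1 = o1 * o2 * (c * d) := by
      calc o1 * o2 * 1 = p ^ s * m := by rw [mul_one, ← hmul, hg]
        _ = (o2 * d) * (o1 * c) := by rw [← hd, ← hc]
        _ = o1 * o2 * (c * d) := by ring
    obtain ⟨hc1, hd1⟩ := mul_eq_one.mp (Nat.eq_of_mul_eq_mul_left (Nat.mul_pos ho1p ho2p) hcd).symm
    exact ⟨by rw [hc, hc1, mul_one], by rw [hd, hd1, mul_one]⟩
  let e : {g : G // orderOf g = p ^ s * m} ≃ Σ y : {y : G // orderOf y = m}, Z y.1 :=
    { toFun := fun g => ⟨⟨g.1 ^ (a * (p ^ s : ℕ)), (hsplit g.1 g.2).1⟩,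
        ⟨⟨g.1 ^ (b * (m : ℤ)), Subgroup.mem_centralizer_iff.mpr fun w hw => by
          rw [Set.mem_singleton_iff.mp hw]; exact ((Commute.refl g.1).zpow_zpow _ _).eq⟩,
          by rw [Subgroup.orderOf_mk]; exact (hsplit g.1 g.2).2⟩⟩
      invFun := fun yu => ⟨yu.1.1 * (yu.2.1 : G), by
        have hc : Commute yu.1.1 (yu.2.1 : G) := Subgroup.mem_centralizer_iff.mp yu.2.1.2 yu.1.1 rfl
        rw [hc.orderOf_mul_eq_mul_orderOf_of_coprime (by rw [yu.1.2, Subgroup.orderOf_coe, yu.2.2]; exact (hm.pow_left s).symm),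
          yu.1.2, Subgroup.orderOf_coe, yu.2.2, mul_comm]⟩
      left_inv := fun g => Subtype.ext (by
        show g.1 ^ (a * (p ^ s : ℕ)) * g.1 ^ (b * (m : ℤ)) = g.1
        rw [← zpow_add, hab, zpow_one])
      right_inv := fun ⟨⟨y, hy⟩, ⟨⟨u, hu'⟩, hu⟩⟩ => by
        have hc : Commute y u := Subgroup.mem_centralizer_iff.mp hu' y rfl
        have hu2 : orderOf u = p ^ s := by rw [← hu, Subgroup.orderOf_mk]
        have e1 : (y * u) ^ (a * (p ^ s : ℕ)) = y := by
          rw [hc.mul_zpow, mul_comm a, zpow_mul u, zpow_natCast, ← hu2, pow_orderOf_eq_one, one_zpow, mul_one, hu2,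
            show ((p ^ s : ℕ) : ℤ) * a = 1 + (m : ℤ) * (-b) by linarith, zpow_add, zpow_one, zpow_mul, zpow_natCast, ← hy,
            pow_orderOf_eq_one, one_zpow, mul_one]
        have e2 : (y * u) ^ (b * (m : ℤ)) = u := by
          rw [hc.mul_zpow, mul_comm b, zpow_mul y, zpow_natCast, ← hy, pow_orderOf_eq_one, one_zpow, one_mul, hy,
            show (m : ℤ) * b = 1 + ((p ^ s : ℕ) : ℤ) * (-a) by linarith, zpow_add, zpow_one, zpow_mul, zpow_natCast, ← hu2,
            pow_orderOf_eq_one, one_zpow, mul_one]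
        refine Sigma.ext (Subtype.ext e1) ?_
        dsimp only
        congr! <;> first | exact e1 | exact e2 }
  haveI := Fintype.ofFinite G
  haveI := Fintype.ofFinite {y : G // orderOf y = m}
  rw [Nat.card_congr e, Nat.card_sigma, ← Finset.sum_fiberwise Finset.univ (fun y : {y : G // orderOf y = m} => ConjClasses.mk y.1)]
  refine Finset.dvd_sum fun c _ => ?_
  by_cases hne : (Finset.univ.filter fun y : {y : G // orderOf y = m} => ConjClasses.mk y.1 = c).Nonempty
  swap
  · rw [Finset.not_nonempty_iff_eq_empty.mp hne, Finset.sum_empty]; exact dvd_zero _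
  obtain ⟨⟨y, hy⟩, hyc⟩ := hne
  rw [Finset.mem_filter] at hyc
  obtain ⟨-, rfl⟩ := hyc
  rw [Finset.sum_const_nat (m := Nat.card (Z y))]
  swap
  · intro z hz
    rw [Finset.mem_filter] at hz
    obtain ⟨g, hg⟩ := isConj_iff.mp (ConjClasses.mk_eq_mk_iff_isConj.mp hz.2)
    dsimp only at hg
    refine Nat.card_congr ⟨fun u => ⟨⟨g * (u.1 : G) * g⁻¹, Subgroup.mem_centralizer_iff.mpr fun w hw => ?_⟩, ?_⟩,
      fun u => ⟨⟨g⁻¹ * (u.1 : G) * g, Subgroup.mem_centralizer_iff.mpr fun w hw => ?_⟩, ?_⟩, fun u => ?_, fun u => ?_⟩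
    · rw [Set.mem_singleton_iff.mp hw]
      have hu := Subgroup.mem_centralizer_iff.mp u.1.2 z.1 rfl
      show y * (g * (u.1 : G) * g⁻¹) = g * (u.1 : G) * g⁻¹ * y
      rw [← hg]
      calc g * z.1 * g⁻¹ * (g * (u.1 : G) * g⁻¹) = g * (z.1 * (u.1 : G)) * g⁻¹ := by group
        _ = g * ((u.1 : G) * z.1) * g⁻¹ := by rw [hu]
        _ = g * (u.1 : G) * g⁻¹ * (g * z.1 * g⁻¹) := by group
    · rw [Subgroup.orderOf_mk]
      exact ((MulEquiv.orderOf_eq (MulAut.conj g) (u.1 : G)).trans (Subgroup.orderOf_coe u.1)).trans u.2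
    · rw [Set.mem_singleton_iff.mp hw]
      have hu : g * z.1 * g⁻¹ * (u.1 : G) = (u.1 : G) * (g * z.1 * g⁻¹) := by
        rw [hg]; exact Subgroup.mem_centralizer_iff.mp u.1.2 y rfl
      calc z.1 * (g⁻¹ * (u.1 : G) * g) = g⁻¹ * (g * z.1 * g⁻¹ * (u.1 : G)) * g := by group
        _ = g⁻¹ * ((u.1 : G) * (g * z.1 * g⁻¹)) * g := by rw [hu]
        _ = g⁻¹ * (u.1 : G) * g * z.1 := by group
    · rw [Subgroup.orderOf_mk]
      refine ((MulEquiv.orderOf_eq (MulAut.conj g) _).symm.trans ?_).trans u.2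
      rw [← Subgroup.orderOf_coe u.1]
      congr 1
      rw [MulAut.conj_apply]; group
    · exact Subtype.ext (Subtype.ext (by simp [mul_assoc]))
    · exact Subtype.ext (Subtype.ext (by simp [mul_assoc]))
  have hclass : (Finset.univ.filter fun z : {y : G // orderOf y = m} => ConjClasses.mk z.1 = ConjClasses.mk y).card =
      (Subgroup.centralizer ({y} : Set G)).index := by
    rw [show (Subgroup.centralizer ({y} : Set G)).index = Nat.card (ConjClasses.mk y).carrier from (Cfsg.Agent.S4139.card_carrier y).symm, ← Fintype.card_subtype, ← Nat.card_eq_fintype_card]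
    exact Nat.card_congr ⟨fun z => ⟨z.1.1, ConjClasses.mem_carrier_iff_mk_eq.mpr z.2⟩,
      fun z => ⟨⟨z.1, by
        obtain ⟨g, hg⟩ := isConj_iff.mp (ConjClasses.mk_eq_mk_iff_isConj.mp (ConjClasses.mem_carrier_iff_mk_eq.mp z.2))
        exact (MulEquiv.orderOf_eq (MulAut.conj g) z.1).symm.trans ((congrArg orderOf hg).trans hy)⟩, ConjClasses.mem_carrier_iff_mk_eq.mp z.2⟩, fun z => rfl, fun z => rfl⟩
  rw [hclass]
  obtain ⟨Q⟩ : Nonempty (Sylow p (Subgroup.centralizer ({y} : Set G))) := inferInstance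
  by_cases hQ : IsCyclic (Q : Subgroup (Subgroup.centralizer ({y} : Set G)))
  swap
  · exact Dvd.dvd.mul_left (group_dvd hodd Q hQ hs) _
  obtain ⟨t, rfl⟩ : ∃ t, s = t + 1 := ⟨s - 1, by omega⟩
  rw [pow_succ']
  refine Nat.mul_dvd_mul ?_ ?_
  · by_contra hnd
    apply hP
    haveI := hQ
    let ψ := (Subgroup.centralizer ({y} : Set G)).subtype
    have hψ : Function.Injective ψ := Subgroup.subtype_injective _
    haveI : IsCyclic ((Q : Subgroup _).map ψ) :=
      isCyclic_of_surjective ((Q : Subgroup _).equivMapOfInjective ψ hψ).toMonoidHom (MulEquiv.surjective _)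
    obtain ⟨g, hg⟩ : ∃ g : G, (P : Subgroup G).map (MulAut.conj g).toMonoidHom = (Q : Subgroup _).map ψ := by
      obtain ⟨R, hR⟩ := (Q.2.map ψ).exists_le_sylow
      have hQi : ¬ p ∣ ((Q : Subgroup _).map ψ).index := by
        rw [Subgroup.index_map_subtype]
        exact fun hd => (hp'.dvd_mul.mp hd).elim Q.not_dvd_index hnd
      have hRQ : (R : Subgroup G) = (Q : Subgroup _).map ψ := by
        refine le_antisymm (Subgroup.relIndex_eq_one.mp ?_) hR
        obtain ⟨n, hn⟩ := IsPGroup.iff_card.mp R.2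
        obtain ⟨i, -, hi⟩ := (Nat.dvd_prime_pow hp').mp (hn ▸ (((Q : Subgroup _).map ψ).relIndex_dvd_card (K := (R : Subgroup G))))
        rcases i with _ | i
        · rw [hi, pow_zero]
        · exact absurd ((hi ▸ dvd_pow_self p (Nat.succ_ne_zero i)).trans (Subgroup.relIndex_dvd_index_of_le hR)) hQi
      obtain ⟨g, hg⟩ := MulAction.exists_smul_eq G P R
      exact ⟨g, by rw [← hRQ, ← hg]; rfl⟩
    haveI : IsCyclic ((P : Subgroup G).map (MulAut.conj g).toMonoidHom) := by rw [hg]; infer_instance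
    exact isCyclic_of_surjective ((P : Subgroup G).equivMapOfInjective (MulAut.conj g).toMonoidHom (MulAut.conj g).injective).symm.toMonoidHom (MulEquiv.surjective _)
  · rw [show Nat.card (Z y) = Nat.card {u : Subgroup.centralizer ({y} : Set G) // orderOf u = p ^ (t + 1) ∧ u ∈ (⊤ : Subgroup _)} from
      Nat.card_congr (Equiv.subtypeEquivRight fun u => (and_iff_left (Subgroup.mem_top u)).symm), fibre, Nat.totient_prime_pow hp' (by omega),
      Nat.add_sub_cancel]
    exact Dvd.dvd.mul_right (dvd_mul_right _ _) _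

/-- Let G be a finite group, p an odd prime dividing the order of G whose Sylow p-subgroups are not cyclic, and n = p^s·m with s > 1 and m coprime to p. Then the number of elements of G of order n is a multiple of p^s. -/
theorem result {G : Type*} [Group G] [Finite G] (p : ℕ) [Fact p.Prime] (hodd : p ≠ 2) (hpG : p ∣ Nat.card G)
    (P : Sylow p G) (hP : ¬ IsCyclic ↥(P : Subgroup G)) (s m : ℕ) (hs : 1 < s) (hm : Nat.Coprime p m) :
    p ^ s ∣ Nat.card {g : G // orderOf g = p ^ s * m} := by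
  exact main p hodd P hP s m hs hm

end Cfsg.Agent.S4003
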