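import Cfsg.Statements.S4013

set_option autoImplicit false
open Cfsg

namespace Cfsg.Agent.S4013

/-- Let G be a finite p-group (p prime) and N < M normal subgroups of G such that for some g ∈ M ∖ N the conjugacy class of g is exactly M ∖ N. Then p = 2 and N has index 2 in M. -/
theorem result {G : Type*} [Group G] [Finite G] (p : ℕ) [Fact p.Prime] (hG : IsPGroup p G) (N M : Subgroup G) [N.Normal] [M.Normal] (hNM : N < M) (g : G) (hgM : g ∈ M) (hgN : g ∉ N) (hcl : {h : G | IsConj g h} = (M : Set G) \ (N : Set G)) : p = 2 ∧ N.relIndex M = 2 := by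
  classical
  have hp := (Fact.out : p.Prime)
  have h1 : ({h : G | IsConj g h}).ncard = Nat.card N * (N.relIndex M - 1) := by
    rw [hcl, Set.ncard_sdiff (fun x hx => hNM.le hx), ← Nat.card_coe_set_eq, ← Nat.card_coe_set_eq]
    show Nat.card M - Nat.card N = _
    have h2 : Nat.card M = Nat.card N * N.relIndex M := by
      rw [← Subgroup.card_mul_index (N.subgroupOf M), Nat.card_congr (Subgroup.subgroupOfEquivOfLe hNM.le).toEquiv, Subgroup.relIndex]
    rw [h2, Nat.mul_sub, mul_one]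
  have h3 : ∃ k, ({h : G | IsConj g h}).ncard = p ^ k := by
    have e : {h : G | IsConj g h} = MulAction.orbit (ConjAct G) g := by
      ext h
      rw [ConjAct.mem_orbit_conjAct, Set.mem_setOf_eq, isConj_comm]
    rw [e, ← MulAction.index_stabilizer]
    obtain ⟨n, hn⟩ := hG.exists_card_eq
    have hd : (MulAction.stabilizer (ConjAct G) g).index ∣ p ^ n := hn ▸ (Subgroup.index_dvd_card _).trans
      (Nat.card_congr ConjAct.toConjAct.toEquiv).symm.dvd
    obtain ⟨k, -, hk⟩ := (Nat.dvd_prime_pow hp).mp hd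
    exact ⟨k, hk⟩
  obtain ⟨k, hk⟩ := h3
  rw [h1] at hk
  obtain ⟨j, hj⟩ : ∃ j, N.relIndex M = p ^ (j + 1) := by
    obtain ⟨i, hi⟩ := (hG.to_subgroup M).exists_card_eq
    have hd : N.relIndex M ∣ p ^ i := hi ▸ Subgroup.index_dvd_card _
    obtain ⟨j, -, hj⟩ := (Nat.dvd_prime_pow hp).mp hd
    rcases j with - | j
    · exact absurd (Subgroup.relIndex_eq_one.mp (by simpa using hj)) (not_le_of_gt hNM)
    · exact ⟨j, hj⟩
  obtain ⟨i, -, hi⟩ := (Nat.dvd_prime_pow hp).mp ⟨_, hk.symm.trans (mul_comm _ _)⟩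
  have hbig : 2 ≤ p ^ (j + 1) := le_trans hp.two_le (Nat.le_self_pow (Nat.succ_ne_zero j) p)
  rcases i with - | i
  · rw [pow_zero, hj] at hi
    have h2 : p ^ (j + 1) = 2 := by omega
    have hp2 : p = 2 := by
      have : p ∣ 2 := h2 ▸ dvd_pow_self p (Nat.succ_ne_zero j)
      exact (Nat.prime_dvd_prime_iff_eq hp Nat.prime_two).mp this
    exact ⟨hp2, by omega⟩
  · exfalso
    have hd1 : p ∣ p ^ (i + 1) := dvd_pow_self p (Nat.succ_ne_zero i)
    have hd2 : p ∣ p ^ (j + 1) := dvd_pow_self p (Nat.succ_ne_zero j)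
    rw [hj] at hi
    have h1' : p ^ (j + 1) - p ^ (i + 1) = 1 := by omega
    exact hp.ne_one (Nat.dvd_one.mp (h1' ▸ Nat.dvd_sub hd2 hd1))


end Cfsg.Agent.S4013
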