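import Cfsg.Statements.S4014
import Cfsg.Agent.Lib.GroupB.MinimalAction
import Cfsg.Agent.Lib.ExtraIso

set_option autoImplicit false
open Cfsg

namespace Cfsg.Agent.S4014
open Equiv
open scoped commutatorElement

theorem orbit_step {D : Type*} [Group D] [Finite D] {p : ℕ} [hp : Fact p.Prime] (hD : IsPGroup p D) {α : Type*} [MulAction D α] (x : α)
    {j : ℕ} (hx : Nat.card (MulAction.orbit D x) < p ^ (j + 2)) :
    ∀ K : Subgroup D, K ≤ commutator D → Nat.card (MulAction.orbit K x) < p ^ (j + 1) := by
  intro K hK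
  by_cases htop : MulAction.stabilizer D x = ⊤
  · have : MulAction.orbit K x = {x} := by
      ext y
      constructor
      · rintro ⟨k, rfl⟩
        exact MulAction.mem_stabilizer_iff.1 (show (k : D) ∈ MulAction.stabilizer D x by rw [htop]; trivial)
      · rintro rfl; exact MulAction.mem_orbit_self _
    rw [this, Nat.card_unique]
    exact Nat.one_lt_pow (by omega) hp.out.one_lt
  obtain ⟨M, hM, hle⟩ := (eq_top_or_exists_le_coatom (MulAction.stabilizer D x)).resolve_left htop
  obtain ⟨hMn, hMi⟩ := CfsgLib.ExtraIso.index_coatom hD hM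
  have hKM : K ≤ M := hK.trans ((CfsgLib.GroupB.MinimalAction.frattini_facts (p := p) hD).1.trans (frattini_le_coatom hM))
  have h1 : Nat.card (MulAction.orbit D x) = (MulAction.stabilizer D x).index := (MulAction.index_stabilizer D x).symm
  have h2 : Nat.card (MulAction.orbit K x) ≤ (MulAction.stabilizer D x).relIndex M := by
    have h3 : Nat.card (MulAction.orbit K x) = (MulAction.stabilizer K x).index := (MulAction.index_stabilizer K x).symm
    have h4 : MulAction.stabilizer K x = (MulAction.stabilizer D x).subgroupOf K := rfl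
    rw [h3, h4]
    exact Nat.le_of_dvd (Nat.pos_of_ne_zero Subgroup.index_ne_zero_of_finite) dvd_rfl |>.trans
      (Subgroup.relIndex_le_of_le_right hKM (Subgroup.index_ne_zero_of_finite (H := (MulAction.stabilizer D x).subgroupOf M)))
  have h5 := Subgroup.relIndex_mul_index hle
  rw [hMi, ← h1] at h5
  rw [← h5, pow_succ] at hx
  have := Nat.lt_of_mul_lt_mul_right hx
  omega

theorem upper {P : Type*} [Group P] [Finite P] {p : ℕ} [hp : Fact p.Prime] (hP : IsPGroup p P) {α : Type*} [Finite α]
    (φ : P →* Perm α) (hφ : Function.Injective φ) (k : ℕ) (hα : Nat.card α < p ^ (k + 1)) : derivedSeries P k = ⊥ := by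
  letI : MulAction P α := MulAction.compHom α φ
  have key : ∀ i ≤ k, ∀ x : α, Nat.card (MulAction.orbit (derivedSeries P i) x) < p ^ (k + 1 - i) := by
    intro i
    induction i with
    | zero => intro _ x; exact lt_of_le_of_lt (Finite.card_subtype_le _) hα
    | succ i ih =>
      intro hi x
      have h := ih (by omega) x
      rw [show k + 1 - i = (k - i - 1) + 2 by omega] at h
      rw [show k + 1 - (i + 1) = (k - i - 1) + 1 by omega]
      have hle : derivedSeries P (i + 1) ≤ derivedSeries P i := derivedSeries_antitone P (Nat.le_succ i)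
      have h2 := orbit_step (hP.to_subgroup (derivedSeries P i)) x h ((derivedSeries P (i + 1)).subgroupOf (derivedSeries P i)) (by
        intro y hy
        rw [Subgroup.mem_subgroupOf, derivedSeries_succ] at hy
        have e : (commutator ↥(derivedSeries P i)).map (derivedSeries P i).subtype = ⁅derivedSeries P i, derivedSeries P i⁆ := by
          rw [commutator_def, Subgroup.map_commutator, ← MonoidHom.range_eq_map, Subgroup.range_subtype]
        rw [← e] at hy
        obtain ⟨z, hz, hzy⟩ := hy
        rw [← (Subtype.ext hzy : z = y)]; exact hz)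
      refine lt_of_le_of_lt (le_of_eq ?_) h2
      congr 1
      have : MulAction.orbit (derivedSeries P (i + 1)) x = MulAction.orbit ((derivedSeries P (i + 1)).subgroupOf (derivedSeries P i)) x := by
        ext y
        constructor
        · rintro ⟨g, rfl⟩; exact ⟨⟨⟨g, hle g.2⟩, g.2⟩, rfl⟩
        · rintro ⟨g, rfl⟩; exact ⟨⟨(g.1 : P), g.2⟩, rfl⟩
      rw [this]
  rw [eq_bot_iff]
  intro g hg
  rw [Subgroup.mem_bot]
  apply hφ
  rw [map_one]
  apply Equiv.ext
  intro x
  have h := key k le_rfl x
  rw [Nat.add_sub_cancel_left, pow_one, Nat.card_coe_set_eq, ← MulAction.index_stabilizer] at h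
  obtain ⟨n, hn⟩ := IsPGroup.index (hP.to_subgroup (derivedSeries P k)) (MulAction.stabilizer (derivedSeries P k) x)
  rw [hn] at h
  have h0 : n = 0 := by
    by_contra h0
    have := Nat.le_self_pow h0 p
    omega
  subst h0
  rw [pow_zero, Subgroup.index_eq_one] at hn
  have : (⟨g, hg⟩ : derivedSeries P k) ∈ MulAction.stabilizer (derivedSeries P k) x := hn ▸ Subgroup.mem_top _
  exact MulAction.mem_stabilizer_iff.1 this

/-- The action of a family of permutations on the fibres. -/
def fib {p : ℕ} {α : Type*} : (ZMod p → Perm α) →* Perm (ZMod p × α) where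
  toFun f := { toFun := fun a => (a.1, f a.1 a.2), invFun := fun a => (a.1, (f a.1).symm a.2),
               left_inv := fun a => by simp, right_inv := fun a => by simp }
  map_one' := by ext a <;> rfl
  map_mul' f g := by ext a <;> rfl

theorem fib_inj {p : ℕ} {α : Type*} : Function.Injective (fib (p := p) (α := α)) := by
  intro f g h
  funext i
  ext x
  exact congrArg Prod.snd (Equiv.congr_fun h (i, x))

theorem witness (p : ℕ) [hp : Fact p.Prime] : ∀ m : ℕ, ∃ (α : Type) (_ : Fintype α) (H : Subgroup (Perm α)),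
    Fintype.card α = p ^ (m + 1) ∧ IsPGroup p H ∧ derivedSeries H m ≠ ⊥ := by
  intro m
  induction m with
  | zero =>
    refine ⟨ZMod p, inferInstance, Subgroup.zpowers (Equiv.addRight 1), by simp, ?_, ?_⟩
    · have : (Equiv.addRight (1 : ZMod p)) ^ p = 1 := by
        rw [Equiv.nsmul_addRight]; ext x; simp
      obtain ⟨j, -, hj⟩ := (Nat.dvd_prime_pow hp.out).1 (show orderOf (Equiv.addRight (1 : ZMod p)) ∣ p ^ 1 by
        rw [pow_one]; exact orderOf_dvd_of_pow_eq_one this)
      exact IsPGroup.of_card (n := j) (by rw [Nat.card_zpowers, hj])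
    · intro h
      have hm : (⟨_, Subgroup.mem_zpowers (Equiv.addRight (1 : ZMod p))⟩ : Subgroup.zpowers (Equiv.addRight (1 : ZMod p))) ∈
        derivedSeries (Subgroup.zpowers (Equiv.addRight (1 : ZMod p))) 0 := by rw [derivedSeries_zero]; trivial
      rw [h, Subgroup.mem_bot] at hm
      have := Equiv.congr_fun (congrArg Subtype.val hm) 0
      simp at this
  | succ m ih =>
    obtain ⟨α, hα, H, hcard, hH, hne⟩ := ih
    classical
    let base : (ZMod p → ↥H) →* Perm (ZMod p × α) := fib.comp (H.subtype.compLeft (ZMod p))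
    obtain ⟨t, ht⟩ : ∃ t : Perm (ZMod p × α), t = (Equiv.addRight (1 : ZMod p)).prodCongr (Equiv.refl α) := ⟨_, rfl⟩
    have hbase : ∀ (f : ZMod p → ↥H) (a : ZMod p × α), base f a = (a.1, (f a.1 : Perm α) a.2) := fun f a => rfl
    have htb : ∀ f : ZMod p → ↥H, t * base f * t⁻¹ = base (fun i => f (i - 1)) := by
      intro f
      rw [mul_inv_eq_iff_eq_mul]
      ext ⟨i, x⟩ <;> simp [ht, hbase, Perm.mul_apply]
    have hn : t ∈ Subgroup.normalizer (base.range : Set (Perm (ZMod p × α))) := by
      rw [Subgroup.mem_normalizer_iff]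
      intro a
      constructor
      · rintro ⟨f, rfl⟩; exact ⟨_, (htb f).symm⟩
      · rintro ⟨f, hf⟩
        refine ⟨fun i => f (i + 1), ?_⟩
        have := htb (fun i => f (i + 1))
        simp only [sub_add_cancel, hf] at this
        exact mul_left_cancel (mul_right_cancel this)
    have hB : IsPGroup p base.range := by
      have hPi : IsPGroup p (ZMod p → ↥H) := by
        obtain ⟨j, hj⟩ := IsPGroup.iff_card.1 hH
        exact IsPGroup.of_card (n := j * p) (by rw [Nat.card_fun, Nat.card_zmod, hj, pow_mul])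
      exact hPi.of_surjective base.rangeRestrict base.rangeRestrict_surjective
    have htp : IsPGroup p (Subgroup.zpowers t) := by
      have hpow : ∀ j : ℕ, ∀ a, (t ^ j) a = (a.1 + j, a.2) := by
        intro j
        induction j with
        | zero => intro a; simp
        | succ j ihj => intro a; rw [pow_succ', Perm.mul_apply, ihj, ht]; simp [add_assoc]
      have : t ^ p = 1 := Equiv.ext fun a => by rw [hpow]; simp
      obtain ⟨j, -, hj⟩ := (Nat.dvd_prime_pow hp.out).1 (show orderOf t ∣ p ^ 1 by
        rw [pow_one]; exact orderOf_dvd_of_pow_eq_one this)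
      exact IsPGroup.of_card (n := j) (by rw [Nat.card_zpowers, hj])
    obtain ⟨W, hW⟩ : ∃ W, W = base.range ⊔ Subgroup.zpowers t := ⟨_, rfl⟩
    refine ⟨ZMod p × α, inferInstance, W, ?_, ?_, ?_⟩
    · rw [Fintype.card_prod, ZMod.card, hcard, ← pow_succ']
    · rw [hW, sup_comm]
      exact htp.to_sup_of_normal_right' hB (Subgroup.zpowers_le.2 hn)
    have htW : t ∈ W := hW ▸ Subgroup.mem_sup_right (Subgroup.mem_zpowers t)
    have hbW : ∀ f, base f ∈ W := fun f => hW ▸ Subgroup.mem_sup_left ⟨f, rfl⟩
    have key : ∀ i, ∀ h ∈ derivedSeries (↥H) i, ∃ f : ZMod p → ↥H, f 0 = h ∧ (⟨base f, hbW f⟩ : W) ∈ derivedSeries W (i + 1) := by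
      intro i
      induction i with
      | zero =>
        intro h _
        obtain ⟨g, hg⟩ : ∃ g : ZMod p → ↥H, g = Function.update (fun _ => 1) 0 h⁻¹ := ⟨_, rfl⟩
        refine ⟨fun i => g (i - 1) * (g i)⁻¹, ?_, ?_⟩
        · have h1 : (0 : ZMod p) - 1 ≠ 0 := by simp
          rw [hg]; simp
        · rw [derivedSeries_succ, derivedSeries_zero]
          have : (⟨base (fun i => g (i - 1) * (g i)⁻¹), hbW _⟩ : W) = ⁅(⟨t, htW⟩ : W), ⟨base g, hbW g⟩⁆ := by
            apply Subtype.ext
            show base _ = t * base g * t⁻¹ * (base g)⁻¹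
            rw [htb, ← map_inv, ← map_mul]; rfl
          rw [this]
          exact Subgroup.commutator_mem_commutator trivial trivial
      | succ i ihi =>
        intro h hh
        rw [derivedSeries_succ] at hh
        have hle : ⁅derivedSeries (↥H) i, derivedSeries (↥H) i⁆ ≤
            ((derivedSeries W (i + 1 + 1)).comap (base.codRestrict W hbW)).map (Pi.evalMonoidHom (fun _ : ZMod p => ↥H) 0) := by
          rw [Subgroup.commutator_le]
          intro a ha b hb
          obtain ⟨fa, hfa, hfa'⟩ := ihi a ha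
          obtain ⟨fb, hfb, hfb'⟩ := ihi b hb
          refine ⟨⁅fa, fb⁆, ?_, by rw [map_commutatorElement]; simp [hfa, hfb]⟩
          show base.codRestrict W hbW ⁅fa, fb⁆ ∈ derivedSeries W (i + 1 + 1)
          rw [derivedSeries_succ W (i + 1), map_commutatorElement]
          exact Subgroup.commutator_mem_commutator hfa' hfb'
        obtain ⟨f, hf, hf0⟩ := hle hh
        exact ⟨f, hf0, hf⟩
    intro hbot
    obtain ⟨⟨h, hh⟩, hh1⟩ := Subgroup.ne_bot_iff_exists_ne_one.1 hne
    obtain ⟨f, hf0, hf⟩ := key m h hh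
    rw [hbot, Subgroup.mem_bot] at hf
    have h1 : base f = base 1 := (congrArg Subtype.val hf).trans (map_one base).symm
    have h2 : f 0 = 1 := by
      have := congrFun (fib_inj h1) 0
      exact Subtype.ext this
    exact hh1 (Subtype.ext (hf0.symm.trans h2))

/-- Let p be a prime, n ≥ 1, and P a Sylow p-subgroup of the symmetric group on n letters. Then the derived length of P is exactly k = ⌊log_p n⌋ (the largest k with p^k ≤ n): the k-th derived subgroup of P is trivial and, when k ≥ 1, the (k−1)-st is not. -/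
theorem result (p : ℕ) [Fact p.Prime] (n : ℕ) (hn : 1 ≤ n) (P : Sylow p (Equiv.Perm (Fin n))) : derivedSeries ↥(P : Subgroup (Equiv.Perm (Fin n))) (Nat.log p n) = ⊥ ∧ (1 ≤ Nat.log p n → derivedSeries ↥(P : Subgroup (Equiv.Perm (Fin n))) (Nat.log p n - 1) ≠ ⊥) := by
  
  have hp := (Fact.out : p.Prime)
  refine ⟨upper P.2 (P : Subgroup (Equiv.Perm (Fin n))).subtype (Subgroup.subtype_injective _) _ ?_, fun h1 => ?_⟩
  · rw [Nat.card_fin]; exact Nat.lt_pow_succ_log_self hp.one_lt n
  obtain ⟨α, hα, H, hcard, hH, hne⟩ := witness p (Nat.log p n - 1)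
  rw [show Nat.log p n - 1 + 1 = Nat.log p n by omega] at hcard
  have hle : Fintype.card α ≤ Fintype.card (Fin n) := by
    rw [hcard, Fintype.card_fin]; exact Nat.pow_log_le_self p (by omega)
  obtain ⟨ι⟩ := Function.Embedding.nonempty_of_card_le hle
  let f : H →* Equiv.Perm (Fin n) := (Equiv.Perm.viaEmbeddingHom ι).comp H.subtype
  have hf : Function.Injective f := (Equiv.Perm.viaEmbeddingHom_injective ι).comp (Subgroup.subtype_injective _)
  obtain ⟨Q, hQ⟩ := (hH.of_surjective f.rangeRestrict f.rangeRestrict_surjective : IsPGroup p f.range).exists_le_sylow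
  obtain ⟨g, hg⟩ := MulAction.exists_smul_eq (Equiv.Perm (Fin n)) Q P
  let F : H →* ↥(P : Subgroup (Equiv.Perm (Fin n))) := ((MulAut.conj g).toMonoidHom.comp f).codRestrict _ (fun x => by
    rw [← hg, Sylow.coe_subgroup_smul]
    exact Subgroup.smul_mem_pointwise_smul _ (MulAut.conj g) _ (hQ ⟨x, rfl⟩))
  have hF : Function.Injective F := fun a b e => hf ((MulAut.conj g).injective (congrArg Subtype.val e))
  intro hbot
  apply hne
  rw [eq_bot_iff]
  intro x hx
  have := map_derivedSeries_le_derivedSeries F (Nat.log p n - 1) (Subgroup.mem_map_of_mem F hx)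
  rw [hbot, Subgroup.mem_bot] at this
  exact Subgroup.mem_bot.2 (hF (this.trans (map_one F).symm))


end Cfsg.Agent.S4014
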