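import Cfsg.Statements.S4022
import Cfsg.Agent.S4213
import Cfsg.Agent.Lib.GroupB.SchurZassenhaus
import Cfsg.Agent.Lib.GroupB.Coprime
import Mathlib.GroupTheory.SchurZassenhaus

set_option autoImplicit false
open Cfsg

namespace Cfsg.Agent.S4022
universe u

abbrev cj {G : Type u} [Group G] (g : G) (H : Subgroup G) : Subgroup G := H.map (MulAut.conj g).toMonoidHom

theorem cj_cj {G : Type u} [Group G] (g h : G) (H : Subgroup G) : cj g (cj h H) = cj (g * h) H := by
  rw [cj, cj, cj, Subgroup.map_map, map_mul]; rfl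

theorem card_cj {G : Type u} [Group G] (g : G) (H : Subgroup G) : Nat.card (cj g H) = Nat.card H :=
  Subgroup.card_map_of_injective (MulAut.conj g).injective

theorem cj_normal {G : Type u} [Group G] (g : G) (N : Subgroup G) [hN : N.Normal] : cj g N = N := by
  refine le_antisymm ?_ fun x hx => ⟨g⁻¹ * x * g⁻¹⁻¹, hN.conj_mem x hx g⁻¹, ?_⟩
  · rintro _ ⟨x, hx, rfl⟩; exact hN.conj_mem x hx g
  · show g * (g⁻¹ * x * g⁻¹⁻¹) * g⁻¹ = x
    group

theorem pgroup_of_exp {G : Type u} [Group G] {p : ℕ} {N : Subgroup G} (h : ∀ x ∈ N, x ^ p = 1) : IsPGroup p N :=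
  fun x => ⟨1, Subtype.ext (by rw [pow_one, Subgroup.coe_pow]; exact h x x.2)⟩

theorem card_map_mul_of_le {G : Type u} [Group G] [Finite G] (N X : Subgroup G) [N.Normal] (h : N ≤ X) :
    Nat.card (X.map (QuotientGroup.mk' N)) * Nat.card N = Nat.card X := by
  have h1 := Subgroup.relIndex_ker (K := X) (QuotientGroup.mk' N)
  rw [QuotientGroup.ker_mk'] at h1
  rw [← h1]
  have h2 := Subgroup.relIndex_mul_relIndex ⊥ N X bot_le h
  rw [Subgroup.relIndex_bot_left, Subgroup.relIndex_bot_left] at h2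
  rw [mul_comm, h2]

theorem card_map_of_coprime {G : Type u} [Group G] [Finite G] (N X : Subgroup G) [N.Normal] (h : (Nat.card N).Coprime (Nat.card X)) :
    Nat.card (X.map (QuotientGroup.mk' N)) = Nat.card X := by
  have h1 := Subgroup.relIndex_ker (K := X) (QuotientGroup.mk' N)
  rw [QuotientGroup.ker_mk', ← Subgroup.inf_relIndex_right, Subgroup.inf_eq_bot_of_coprime h, Subgroup.relIndex_bot_left] at h1
  exact h1.symm

/-- All Sylow subgroups cyclic, except perhaps for `r`. -/
abbrev Cyc (r : ℕ) (G : Type u) [Group G] : Prop := ∀ p : ℕ, p.Prime → p ≠ r → ∀ P : Sylow p G, IsCyclic P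

theorem cyc_quotient {r : ℕ} {G : Type u} [Group G] [Finite G] (h : Cyc r G) (N : Subgroup G) [N.Normal] : Cyc r (G ⧸ N) := by
  intro p hp hpr P
  haveI := Fact.mk hp
  obtain ⟨Q⟩ : Nonempty (Sylow p G) := inferInstance
  haveI : IsCyclic (Q : Subgroup G) := h p hp hpr Q
  have hQ : IsCyclic ((Q : Subgroup G).map (QuotientGroup.mk' N)) :=
    isCyclic_of_surjective ((QuotientGroup.mk' N).subgroupMap Q) ((QuotientGroup.mk' N).subgroupMap_surjective _)
  let Q' : Sylow p (G ⧸ N) := Q.mapSurjective (QuotientGroup.mk'_surjective N)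
  haveI : IsCyclic (Q' : Subgroup (G ⧸ N)) := hQ
  exact isCyclic_of_surjective (Q'.equiv P).toMonoidHom (Q'.equiv P).surjective

theorem cyc_subgroup {r : ℕ} {G : Type u} [Group G] [Finite G] (h : Cyc r G) (M : Subgroup G) : Cyc r M := by
  intro p hp hpr P
  haveI := Fact.mk hp
  obtain ⟨Q, hQ⟩ := (P.2.map M.subtype).exists_le_sylow
  haveI : IsCyclic (Q : Subgroup G) := h p hp hpr Q
  haveI : IsCyclic ((P : Subgroup M).map M.subtype) := Subgroup.isCyclic_of_le hQ
  exact isCyclic_of_surjective ((P : Subgroup M).equivMapOfInjective M.subtype M.subtype_injective).symm.toMonoidHom (MulEquiv.surjective _)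

/-- Subgroups of equal order with the same product with a normal subgroup of coprime order are conjugate. -/
theorem coprime_case {G : Type u} [Group G] [Finite G] (N : Subgroup G) [N.Normal] [Group.IsSolvable N] (H K : Subgroup G)
    (hc : (Nat.card N).Coprime (Nat.card H)) (hHK : Nat.card H = Nat.card K) (g : G) (he : cj g H ⊔ N = K ⊔ N) :
    ∃ g : G, K = cj g H := by
  set X := K ⊔ N
  set H' := cj g H
  have hH'X : H' ≤ X := he ▸ le_sup_left
  haveI : (N.subgroupOf X).Normal := (inferInstance : N.Normal).subgroupOf X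
  have cN := Nat.card_congr (Subgroup.subgroupOfEquivOfLe (le_sup_right : N ≤ X)).toEquiv
  have cH := Nat.card_congr (Subgroup.subgroupOfEquivOfLe hH'X).toEquiv
  have cK := Nat.card_congr (Subgroup.subgroupOfEquivOfLe (le_sup_left : K ≤ X)).toEquiv
  haveI : Group.IsSolvable (N.subgroupOf X) :=
    Group.isSolvable_of_surjective (Subgroup.subgroupOfEquivOfLe (le_sup_right : N ≤ X)).symm.surjective
      (f := (Subgroup.subgroupOfEquivOfLe (le_sup_right : N ≤ X)).symm.toMonoidHom)
  have hcX : Nat.card N * Nat.card K = Nat.card X := by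
    rw [show X = N ⊔ K from sup_comm _ _, CfsgLib.GroupB.Coprime.card_sup_eq (by rw [Subgroup.normalizer_eq_top]; exact le_top)
      (Subgroup.inf_eq_bot_of_coprime (hHK ▸ hc))]
  obtain ⟨a, -, ha⟩ := CfsgLib.GroupB.SchurZassenhaus.exists_conj (N.subgroupOf X) (H'.subgroupOf X) (K.subgroupOf X)
    (by rw [cN, cH, card_cj]; exact hc) (by rw [cN, cH, card_cj, hHK]; exact hcX) (by rw [cK, cH, card_cj, hHK]) (Or.inl inferInstance)
  refine ⟨(a : G) * g, ?_⟩
  rw [← cj_cj]
  refine (Subgroup.eq_of_le_of_card_ge ?_ (by rw [card_cj, card_cj, hHK])).symm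
  rintro _ ⟨y, hy, rfl⟩
  have h1 : (MulAut.conj a).toMonoidHom ⟨y, hH'X hy⟩ ∈ K.subgroupOf X := by
    rw [ha]; exact Subgroup.mem_map_of_mem _ (show (⟨y, hH'X hy⟩ : X) ∈ H'.subgroupOf X from hy)
  exact (h1 : _ ∈ K)

theorem lift_conj {G : Type u} [Group G] [Finite G] (N : Subgroup G) [N.Normal] (H K : Subgroup G) (gq : G ⧸ N)
    (he : K.map (QuotientGroup.mk' N) = cj gq (H.map (QuotientGroup.mk' N))) : ∃ g : G, cj g H ⊔ N = K ⊔ N := by
  obtain ⟨g, rfl⟩ := QuotientGroup.mk'_surjective N gq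
  refine ⟨g, ?_⟩
  have h1 : (cj g H).map (QuotientGroup.mk' N) = K.map (QuotientGroup.mk' N) := by
    rw [he, cj, cj, Subgroup.map_map, Subgroup.map_map]
    congr 1
  have := congrArg (Subgroup.comap (QuotientGroup.mk' N)) h1
  rwa [Subgroup.comap_map_eq, Subgroup.comap_map_eq, QuotientGroup.ker_mk'] at this

/-- A normal subgroup of prime exponent inside a cyclic Sylow subgroup lies in everything. -/
theorem prime_case {G : Type u} [Group G] [Finite G] {p : ℕ} [Fact p.Prime] (hc : ∀ P : Sylow p G, IsCyclic P)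
    (N : Subgroup G) [hNn : N.Normal] (hexp : ∀ x ∈ N, x ^ p = 1) (H : Subgroup G) (hp : p ∣ Nat.card H) : N ≤ H := by
  classical
  obtain ⟨y, hy⟩ := exists_prime_orderOf_dvd_card' p hp
  intro x hx
  by_cases hx1 : x = 1
  · rw [hx1]; exact one_mem H
  have hxo : orderOf x = p := orderOf_eq_prime (hexp x hx) hx1
  have hyp : IsPGroup p (Subgroup.zpowers (y : G)) := IsPGroup.of_card (n := 1) (by rw [Nat.card_zpowers, Subgroup.orderOf_coe, hy, pow_one])
  obtain ⟨P, hP⟩ := hyp.exists_le_sylow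
  haveI := hc P
  have hNP : N ≤ (P : Subgroup G) := by
    have := P.3 (P.2.to_sup_of_normal_right (pgroup_of_exp (N := N) hexp)) le_sup_left
    exact le_sup_right.trans this.le
  haveI := Fintype.ofFinite (P : Subgroup G)
  have h1 := IsCyclic.card_orderOf_eq_totient (α := (P : Subgroup G)) (d := p) (by
    have h0 := Subgroup.orderOf_dvd_natCard _ (hP (Subgroup.mem_zpowers (y : G)))
    rw [Subgroup.orderOf_coe, hy, Nat.card_eq_fintype_card] at h0
    exact h0)
  have hsub : (Finset.univ.filter fun w : (P : Subgroup G) => orderOf w = p) ⊆ (Finset.univ.filter fun w : (P : Subgroup G) => (w : G) ∈ Subgroup.zpowers (y : G) ∧ orderOf w = p) := by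
    refine (Finset.eq_of_subset_of_card_le (fun w hw => ?_) ?_).ge
    · simp only [Finset.mem_filter] at hw ⊢; exact ⟨hw.1, hw.2.2⟩
    · rw [h1]
      haveI := Fintype.ofFinite (Subgroup.zpowers (y : G))
      have h2 := IsCyclic.card_orderOf_eq_totient (α := Subgroup.zpowers (y : G)) (d := p) (by
        rw [← Nat.card_eq_fintype_card, Nat.card_zpowers, Subgroup.orderOf_coe, hy])
      rw [← h2]
      refine Finset.card_le_card_of_injOn (fun w => ⟨(w : G), hP w.2⟩) (fun w hw => ?_) fun a _ b _ e => Subtype.ext (congrArg (fun t : (P : Subgroup G) => (t : G)) e)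
      simp only [Finset.coe_filter, Set.mem_setOf_eq, Finset.mem_filter] at hw ⊢
      refine ⟨Finset.mem_univ _, w.2, ?_⟩
      rw [Subgroup.orderOf_mk, ← hw.2, Subgroup.orderOf_coe]
  have h3 := hsub (show (⟨x, hNP hx⟩ : (P : Subgroup G)) ∈ Finset.univ.filter fun w : (P : Subgroup G) => orderOf w = p by
    simp only [Finset.mem_filter]; exact ⟨Finset.mem_univ _, by rw [Subgroup.orderOf_mk, hxo]⟩)
  rw [Finset.mem_filter] at h3
  exact Subgroup.zpowers_le.mpr y.2 h3.2.1

theorem coprime_conj {r : ℕ} : ∀ (n : ℕ) (G : Type u) [Group G] [Finite G] [Group.IsSolvable G], Nat.card G = n → Cyc r G →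
    ∀ H K : Subgroup G, Nat.card H = Nat.card K → ¬ r ∣ Nat.card H → ∃ g : G, K = cj g H := by
  intro n
  induction n using Nat.strong_induction_on with
  | _ n IH =>
  intro G _ _ _ hn hcyc H K hHK hr
  classical
  rcases subsingleton_or_nontrivial G with hs | hs
  · exact ⟨1, Subsingleton.elim _ _⟩
  obtain ⟨p, N, hp, hNn, hN1, hpN, hexp⟩ := Cfsg.Agent.S4213.exists_elem_normal (G := G)
  haveI := hNn
  haveI := Fact.mk hp
  have hlt : Nat.card (G ⧸ N) < n := by
    rw [← hn, N.card_eq_card_quotient_mul_card_subgroup]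
    exact lt_mul_of_one_lt_right Nat.card_pos ((Subgroup.one_lt_card_iff_ne_bot N).mpr hN1)
  set π := QuotientGroup.mk' N
  have hNp : IsPGroup p N := pgroup_of_exp hexp
  by_cases hpH : p ∣ Nat.card H
  · have hpr : p ≠ r := fun e => hr (e ▸ hpH)
    have hH := prime_case (hcyc p hp hpr) N hexp H hpH
    have hK := prime_case (hcyc p hp hpr) N hexp K (hHK ▸ hpH)
    have hc : ∀ X : Subgroup G, N ≤ X → Nat.card (X.map π) * Nat.card N = Nat.card X := fun X hX => card_map_mul_of_le N X hX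
    have e : Nat.card (H.map π) = Nat.card (K.map π) :=
      Nat.eq_of_mul_eq_mul_right Nat.card_pos (by rw [hc H hH, hc K hK, hHK])
    obtain ⟨gq, hgq⟩ := IH _ hlt (G ⧸ N) rfl (cyc_quotient hcyc N) (H.map π) (K.map π) e
      (fun h => hr (h.trans (Subgroup.card_map_dvd H π)))
    obtain ⟨g, hg⟩ := lift_conj N H K gq hgq
    rw [sup_eq_left.mpr hK, sup_eq_left.mpr (show N ≤ cj g H from (cj_normal g N) ▸ Subgroup.map_mono hH)] at hg
    exact ⟨g, hg.symm⟩
  · have hcop : ∀ X : Subgroup G, Nat.card X = Nat.card H → (Nat.card N).Coprime (Nat.card X) := fun X hX => by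
      obtain ⟨i, hi⟩ := IsPGroup.iff_card.mp hNp
      rw [hi, hX]; exact ((Nat.Prime.coprime_iff_not_dvd hp).mpr hpH).pow_left i
    haveI : Group.IsSolvable N := inferInstance
    have e : Nat.card (H.map π) = Nat.card (K.map π) := by
      rw [card_map_of_coprime N H (hcop H rfl), card_map_of_coprime N K (hcop K hHK.symm), hHK]
    obtain ⟨gq, hgq⟩ := IH _ hlt (G ⧸ N) rfl (cyc_quotient hcyc N) (H.map π) (K.map π) e
      (fun h => hr (h.trans (Subgroup.card_map_dvd H π)))
    obtain ⟨g, hg⟩ := lift_conj N H K gq hgq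
    exact coprime_case N H K (hcop H rfl) hHK g hg

/-- Any two `p`-subgroups of the same order are conjugate. -/
abbrev HD (G : Type u) [Group G] : Prop := ∀ p : ℕ, p.Prime → ∀ H K : Subgroup G, IsPGroup p H → IsPGroup p K →
  Nat.card H = Nat.card K → ∃ g : G, K = cj g H

theorem hd_quotient {G : Type u} [Group G] [Finite G] (h : HD G) (N : Subgroup G) [N.Normal] : HD (G ⧸ N) := by
  intro p hp H K hH hK hHK
  haveI := Fact.mk hp
  set π := QuotientGroup.mk' N
  have hπ := QuotientGroup.mk'_surjective N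
  have hcc : ∀ X : Subgroup (G ⧸ N), IsPGroup p X → ∃ Y : Subgroup G, IsPGroup p Y ∧ Y.map π = X ∧
      Nat.card Y = p ^ (Nat.card (X.comap π)).factorization p := by
    intro X hX
    obtain ⟨S⟩ : Nonempty (Sylow p (X.comap π)) := inferInstance
    refine ⟨(S : Subgroup _).map (X.comap π).subtype, S.2.map _, ?_, ?_⟩
    · let f : X.comap π →* X := π.subgroupComap X
      have hf : Function.Surjective f := fun ⟨x, hx⟩ => by
        obtain ⟨g, rfl⟩ := hπ x
        exact ⟨⟨g, hx⟩, rfl⟩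
      have h1 : ((S.mapSurjective hf : Sylow p X) : Subgroup X) = ⊤ := (S.mapSurjective hf).is_maximal' (hX.to_subgroup ⊤) le_top |>.symm
      refine le_antisymm ?_ fun x hx => ?_
      · rintro _ ⟨_, ⟨y, -, rfl⟩, rfl⟩; exact y.2
      · have h2 : (⟨x, hx⟩ : X) ∈ (S : Subgroup _).map f := by
          show (⟨x, hx⟩ : X) ∈ ((S.mapSurjective hf : Sylow p X) : Subgroup X)
          rw [h1]; trivial
        obtain ⟨y, hy, hyx⟩ := h2
        exact ⟨(y : G), ⟨y, hy, rfl⟩, congrArg Subtype.val hyx⟩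
    · rw [Subgroup.card_map_of_injective (Subgroup.subtype_injective _), S.card_eq_multiplicity]
  obtain ⟨A, hA, hAH, hAc⟩ := hcc H hH
  obtain ⟨B, hB, hBK, hBc⟩ := hcc K hK
  have hcomap : ∀ X : Subgroup (G ⧸ N), Nat.card (X.comap π) = Nat.card X * Nat.card N := fun X => by
    have h1 := card_map_mul_of_le N (X.comap π) (fun n hn => by
      rw [Subgroup.mem_comap, show π n = 1 from (QuotientGroup.eq_one_iff n).mpr hn]; exact one_mem X)
    rw [Subgroup.map_comap_eq_self_of_surjective hπ] at h1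
    exact h1.symm
  obtain ⟨g, hg⟩ := h p hp A B hA hB (by rw [hAc, hBc, hcomap, hcomap, hHK])
  refine ⟨π g, ?_⟩
  rw [← hAH, ← hBK, hg, cj, cj, Subgroup.map_map, Subgroup.map_map]
  congr 1

theorem aux {r : ℕ} : ∀ (n : ℕ) (G : Type u) [Group G] [Finite G] [Group.IsSolvable G], Nat.card G = n → Cyc r G → HD G →
    ∀ H K : Subgroup G, Nat.card H = Nat.card K → ∃ g : G, K = cj g H := by
  intro n
  induction n using Nat.strong_induction_on with
  | _ n IH =>
  intro G _ _ _ hn hcyc hD H K hHK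
  classical
  rcases subsingleton_or_nontrivial G with hs | hs
  · exact ⟨1, Subsingleton.elim _ _⟩
  obtain ⟨p, N, hp, hNn, hN1, hpN, hexp⟩ := Cfsg.Agent.S4213.exists_elem_normal (G := G)
  haveI := hNn
  haveI := Fact.mk hp
  have hlt : Nat.card (G ⧸ N) < n := by
    rw [← hn, N.card_eq_card_quotient_mul_card_subgroup]
    exact lt_mul_of_one_lt_right Nat.card_pos ((Subgroup.one_lt_card_iff_ne_bot N).mpr hN1)
  set π := QuotientGroup.mk' N
  have hNp : IsPGroup p N := pgroup_of_exp hexp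
  obtain ⟨d, hd⟩ := IsPGroup.iff_card.mp hNp
  have hcontain : ∀ X : Subgroup G, N ≤ X → ∀ Y : Subgroup G, N ≤ Y → Nat.card X = Nat.card Y → ∃ g : G, Y = cj g X := by
    intro X hX Y hY hXY
    have e : Nat.card (X.map π) = Nat.card (Y.map π) :=
      Nat.eq_of_mul_eq_mul_right Nat.card_pos (by rw [card_map_mul_of_le N X hX, card_map_mul_of_le N Y hY, hXY])
    obtain ⟨gq, hgq⟩ := IH _ hlt (G ⧸ N) rfl (cyc_quotient hcyc N) (hd_quotient hD N) (X.map π) (Y.map π) e
    obtain ⟨g, hg⟩ := lift_conj N X Y gq hgq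
    rw [sup_eq_left.mpr hY, sup_eq_left.mpr (show N ≤ cj g X from (cj_normal g N) ▸ Subgroup.map_mono hX)] at hg
    exact ⟨g, hg.symm⟩
  by_cases hpH : p ∣ Nat.card H
  swap
  · have hcop : ∀ X : Subgroup G, Nat.card X = Nat.card H → (Nat.card N).Coprime (Nat.card X) := fun X hX => by
      rw [hd, hX]; exact ((Nat.Prime.coprime_iff_not_dvd hp).mpr hpH).pow_left d
    have e : Nat.card (H.map π) = Nat.card (K.map π) := by
      rw [card_map_of_coprime N H (hcop H rfl), card_map_of_coprime N K (hcop K hHK.symm), hHK]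
    obtain ⟨gq, hgq⟩ := IH _ hlt (G ⧸ N) rfl (cyc_quotient hcyc N) (hd_quotient hD N) (H.map π) (K.map π) e
    obtain ⟨g, hg⟩ := lift_conj N H K gq hgq
    exact coprime_case N H K (hcop H rfl) hHK g hg
  by_cases hpr : p = r
  swap
  · exact hcontain H (prime_case (hcyc p hp hpr) N hexp H hpH) K (prime_case (hcyc p hp hpr) N hexp K (hHK ▸ hpH)) hHK
  subst hpr
  obtain ⟨a, ha⟩ : ∃ a, a = (Nat.card H).factorization p := ⟨_, rfl⟩
  by_cases hda : d ≤ a
  · have hin : ∀ X : Subgroup G, Nat.card X = Nat.card H → N ≤ X := by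
      intro X hX
      obtain ⟨Y, hY⟩ := Sylow.exists_subgroup_card_pow_prime (G := X) p (n := d)
        (hX ▸ (pow_dvd_pow p hda).trans (ha ▸ Nat.ordProj_dvd _ _))
      have hYc : Nat.card (Y.map X.subtype) = Nat.card N := by rw [Subgroup.card_map_of_injective X.subtype_injective, hY, hd]
      obtain ⟨g, hg⟩ := hD p hp N (Y.map X.subtype) hNp (IsPGroup.of_card (n := d) (hYc.trans hd)) hYc.symm
      rw [cj_normal] at hg
      rw [← hg]
      rintro _ ⟨y, -, rfl⟩
      exact y.2
    exact hcontain H (hin H rfl) K (hin K hHK.symm) hHK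
  -- the small case
  obtain ⟨E₀, hE₀⟩ := Sylow.exists_subgroup_card_pow_prime (G := N) p (n := a) (hd ▸ pow_dvd_pow p (le_of_not_ge hda))
  have hsyl : ∀ X : Subgroup G, Nat.card X = Nat.card H → Nat.card (X ⊓ N : Subgroup G) = p ^ a := by
    intro X hX
    obtain ⟨S⟩ : Nonempty (Sylow p X) := inferInstance
    have hSc : Nat.card ((S : Subgroup X).map X.subtype) = p ^ a := by
      rw [Subgroup.card_map_of_injective X.subtype_injective, S.card_eq_multiplicity, hX, ha]
    have hEc : Nat.card (E₀.map N.subtype) = p ^ a := by rw [Subgroup.card_map_of_injective N.subtype_injective, hE₀]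
    obtain ⟨g, hg⟩ := hD p hp (E₀.map N.subtype) ((S : Subgroup X).map X.subtype) (IsPGroup.of_card hEc) (IsPGroup.of_card hSc) (hEc.trans hSc.symm)
    have hle : (S : Subgroup X).map X.subtype ≤ X ⊓ N := by
      refine le_inf (Subgroup.map_subtype_le _) ?_
      rw [hg]
      exact (Subgroup.map_mono (Subgroup.map_subtype_le _)).trans (cj_normal g N).le
    obtain ⟨j, hj⟩ := IsPGroup.iff_card.mp (hNp.to_le (inf_le_right : X ⊓ N ≤ N))
    refine le_antisymm ?_ (hSc ▸ Subgroup.card_le_of_le hle)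
    rw [hj]
    refine Nat.pow_le_pow_right hp.pos ?_
    rw [ha, ← hX]
    exact (hp.pow_dvd_iff_le_factorization Nat.card_pos.ne').mp (hj ▸ Subgroup.card_dvd_of_le inf_le_left)
  obtain ⟨g, hg⟩ := hD p hp (H ⊓ N) (K ⊓ N) (hNp.to_le inf_le_right) (hNp.to_le inf_le_right) (by rw [hsyl H rfl, hsyl K hHK.symm])
  set H' := cj g H with hH'
  set E := K ⊓ N with hE
  have hH'E : H' ⊓ N = E := by
    rw [hg, hH', cj, cj, Subgroup.map_inf _ _ _ (MulAut.conj g).injective]
    exact congrArg (_ ⊓ ·) (cj_normal g N).symm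
  have hH'c : Nat.card H' = Nat.card K := (card_cj g H).trans hHK
  set M := Subgroup.normalizer (E : Set G)
  have hleM : ∀ X : Subgroup G, X ⊓ N = E → X ≤ M := fun X hX =>
    CfsgLib.GroupB.Coprime.le_normalizer_of_conj_mem fun x hx w hw => by
      rw [← hX] at hw ⊢
      exact ⟨X.mul_mem (X.mul_mem hx hw.1) (X.inv_mem hx), hNn.conj_mem w hw.2 x⟩
  -- complements of `E`
  have hcompl : ∀ X : Subgroup G, Nat.card X = Nat.card H → X ⊓ N = E → ∃ Q : Subgroup G, Q ≤ X ∧ E ⊔ Q = X ∧
      Nat.card Q = Nat.card H / p ^ a ∧ ¬ p ∣ Nat.card Q := by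
    intro X hX hXE
    have hEX : E ≤ X := hXE ▸ inf_le_left
    haveI : (E.subgroupOf X).Normal := by rw [← hXE]; exact (by rw [Subgroup.inf_subgroupOf_left]; exact (inferInstance : N.Normal).subgroupOf X)
    have hEc : Nat.card (E.subgroupOf X) = p ^ a := by
      rw [Nat.card_congr (Subgroup.subgroupOfEquivOfLe hEX).toEquiv, ← hXE, hsyl X hX]
    have hidx : (E.subgroupOf X).index = Nat.card H / p ^ a := by
      have h1 := (E.subgroupOf X).index_mul_card
      rw [hEc, hX] at h1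
      rw [← h1, Nat.mul_div_cancel _ (pow_pos hp.pos a)]
    have hnd : ¬ p ∣ Nat.card H / p ^ a := by rw [ha]; exact Nat.not_dvd_ordCompl hp Nat.card_pos.ne'
    obtain ⟨C, hC⟩ := Subgroup.exists_right_complement'_of_coprime (N := E.subgroupOf X) (by
      rw [hEc, hidx]; exact ((Nat.Prime.coprime_iff_not_dvd hp).mpr hnd).pow_left a)
    have hCc : Nat.card C = Nat.card H / p ^ a := by rw [← hidx]; exact hC.symm.index_eq_card.symm
    refine ⟨C.map X.subtype, Subgroup.map_subtype_le _, ?_, by rw [Subgroup.card_map_of_injective X.subtype_injective, hCc],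
      by rw [Subgroup.card_map_of_injective X.subtype_injective, hCc]; exact hnd⟩
    refine le_antisymm (sup_le hEX (Subgroup.map_subtype_le _)) fun x hx => ?_
    obtain ⟨⟨⟨u, hu⟩, ⟨v, hv⟩⟩, huv⟩ := hC.2 (⟨x, hx⟩ : X)
    change u * v = _ at huv
    rw [show x = (u : G) * (v : G) from (congrArg Subtype.val huv).symm]
    exact Subgroup.mul_mem_sup (Subgroup.mem_subgroupOf.mp hu) (Subgroup.mem_map_of_mem X.subtype hv)
  obtain ⟨Q₁, hQ₁X, hQ₁, hQ₁c, hQ₁p⟩ := hcompl H' (hH'c.trans hHK.symm) hH'E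
  obtain ⟨Q₂, hQ₂X, hQ₂, hQ₂c, -⟩ := hcompl K hHK.symm rfl
  have hQ₁M : Q₁ ≤ M := hQ₁X.trans (hleM H' hH'E)
  have hQ₂M : Q₂ ≤ M := hQ₂X.trans (hleM K rfl)
  obtain ⟨x, hx⟩ := coprime_conj _ M rfl (cyc_subgroup hcyc M) (Q₁.subgroupOf M) (Q₂.subgroupOf M)
    (by rw [Nat.card_congr (Subgroup.subgroupOfEquivOfLe hQ₁M).toEquiv, Nat.card_congr (Subgroup.subgroupOfEquivOfLe hQ₂M).toEquiv, hQ₁c, hQ₂c])
    (by rw [Nat.card_congr (Subgroup.subgroupOfEquivOfLe hQ₁M).toEquiv]; exact hQ₁p)
  refine ⟨(x : G) * g, ?_⟩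
  rw [← cj_cj, ← hH', ← hQ₁, ← hQ₂, cj, Subgroup.map_sup]
  congr 1
  · exact (CfsgLib.GroupB.Coprime.mem_normalizer_iff_map_conj_eq.mp x.2).symm
  · refine le_antisymm (fun q hq => ?_) ?_
    · have h1 : (⟨q, hQ₂M hq⟩ : M) ∈ cj x (Q₁.subgroupOf M) := hx ▸ (show (⟨q, hQ₂M hq⟩ : M) ∈ Q₂.subgroupOf M from hq)
      obtain ⟨w, hw, hwq⟩ := h1
      exact ⟨(w : G), hw, congrArg Subtype.val hwq⟩
    · rintro _ ⟨q, hq, rfl⟩
      have h1 : (MulAut.conj x).toMonoidHom ⟨q, hQ₁M hq⟩ ∈ Q₂.subgroupOf M := hx ▸ Subgroup.mem_map_of_mem _ (show (⟨q, hQ₁M hq⟩ : M) ∈ Q₁.subgroupOf M from hq)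
      exact h1

/-- Let G be a finite solvable group in which, for every prime p, any two p-subgroups of the same order are conjugate, and suppose the Sylow p-subgroups of G are cyclic for all primes p with at most one exception. Then any two subgroups of G of the same order are conjugate. -/
theorem result {G : Type*} [Group G] [Finite G]
    [Group.IsSolvable G] (hD : ∀ p : ℕ, p.Prime → ∀ H K : Subgroup G, IsPGroup p H → IsPGroup p K → Nat.card H = Nat.card K →
      ∃ g : G, K = H.map (MulAut.conj g).toMonoidHom)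
    (r : ℕ) (hcyc : ∀ p : ℕ, p.Prime → p ≠ r → ∀ P : Sylow p G, IsCyclic P) :
    ∀ H K : Subgroup G, Nat.card H = Nat.card K → ∃ g : G, K = H.map (MulAut.conj g).toMonoidHom := by
  intro H K h
  exact aux _ G rfl hcyc hD H K h

end Cfsg.Agent.S4022
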