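import Cfsg.Statements.S4023
import Cfsg.Agent.Lib.UniqueOrderP
import Cfsg.Agent.Lib.GroupB.Coprime

set_option autoImplicit false
open Cfsg

namespace Cfsg.Agent.S4023
open scoped commutatorElement

theorem sup_comm_of {P : Type*} [Group P] {N : Subgroup P} {w : P} (hN : ∀ a ∈ N, ∀ b ∈ N, a * b = b * a)
    (hw : ∀ a ∈ N, w * a = a * w) : ∀ a ∈ N ⊔ Subgroup.zpowers w, ∀ b ∈ N ⊔ Subgroup.zpowers w, a * b = b * a := by
  haveI : IsMulCommutative ↥(Subgroup.closure ((N : Set P) ∪ {w})) := Subgroup.isMulCommutative_closure (fun a ha b hb => by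
    rcases ha with ha | ha <;> rcases hb with hb | hb
    · exact hN a ha b hb
    · rw [Set.mem_singleton_iff.1 hb]; exact (hw a ha).symm
    · rw [Set.mem_singleton_iff.1 ha]; exact hw b hb
    · rw [Set.mem_singleton_iff.1 ha, Set.mem_singleton_iff.1 hb])
  have hle : N ⊔ Subgroup.zpowers w ≤ Subgroup.closure ((N : Set P) ∪ {w}) :=
    sup_le (fun a ha => Subgroup.subset_closure (Or.inl ha)) (Subgroup.zpowers_le.2 (Subgroup.subset_closure (Or.inr rfl)))
  intro a ha b hb
  exact congrArg Subtype.val ((inferInstance : IsMulCommutative ↥(Subgroup.closure ((N : Set P) ∪ {w}))).is_comm.comm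
    ⟨a, hle ha⟩ ⟨b, hle hb⟩)

theorem card_sup {P : Type*} [Group P] [Finite P] {p : ℕ} [hp : Fact p.Prime] {N : Subgroup P} {w : P}
    (hw : w ∈ Subgroup.normalizer (N : Set P)) (hwp : w ^ p = 1) (hwN : w ∉ N) :
    Nat.card ↥(N ⊔ Subgroup.zpowers w) = Nat.card N * p := by
  have hw1 : w ≠ 1 := fun h => hwN (h ▸ one_mem _)
  have ho : orderOf w = p := orderOf_eq_prime hwp hw1
  rw [CfsgLib.GroupB.Coprime.card_sup_eq (Subgroup.zpowers_le.2 hw) ?_, Nat.card_zpowers, ho]
  have hd : Nat.card ↥(N ⊓ Subgroup.zpowers w) ∣ p := by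
    have := Subgroup.card_dvd_of_le (inf_le_right : N ⊓ Subgroup.zpowers w ≤ _)
    rwa [Nat.card_zpowers, ho] at this
  rcases (Nat.dvd_prime hp.out).1 hd with h | h
  · exact Subgroup.eq_bot_of_card_eq _ h
  · exfalso
    apply hwN
    have := Subgroup.eq_of_le_of_card_ge (inf_le_right : N ⊓ Subgroup.zpowers w ≤ _) (by rw [h, Nat.card_zpowers, ho])
    exact (this.ge (Subgroup.mem_zpowers w)).1

theorem main {P : Type*} [Group P] [Finite P] {p : ℕ} [hp : Fact p.Prime] (hP : IsPGroup p P)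
    (hiso : ∀ H K : Subgroup P, Nat.card H = Nat.card K → Nonempty (↥H ≃* ↥K)) :
    IsCyclic P ∨ (∀ a b : P, a * b = b * a) ∧ (∀ a : P, a ^ p = 1) ∨
      (p = 2 ∧ Nonempty (P ≃* QuaternionGroup 2)) ∨
      (p ≠ 2 ∧ ¬ IsMulCommutative P ∧ Nat.card P = p ^ 3 ∧ Monoid.exponent P = p) := by
  by_cases hu : CfsgLib.UniqueOrderP.Uniq p P
  · rcases CfsgLib.UniqueOrderP.cyclic_or_quaternion hP hu with h | ⟨hp2, n, ⟨e⟩⟩
    · exact Or.inl h
    subst hp2
    have hc : Nat.card P = 4 * 2 ^ n := by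
      rw [Nat.card_congr e.toEquiv, Nat.card_eq_fintype_card, QuaternionGroup.card]
    rcases n with _ | _ | n
    · left
      have ho : orderOf (e.symm (QuaternionGroup.xa 0)) = 4 := by
        rw [MulEquiv.orderOf_eq, QuaternionGroup.orderOf_xa]
      exact isCyclic_of_orderOf_eq_card _ (ho.trans (by rw [hc]; norm_num))
    · exact Or.inr (Or.inr (Or.inl ⟨rfl, ⟨e⟩⟩))
    · exfalso
      obtain ⟨a, ha⟩ : ∃ a : P, a = e.symm (QuaternionGroup.a 1) := ⟨_, rfl⟩
      have hoa : orderOf a = 2 ^ (n + 3) := by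
        rw [ha, MulEquiv.orderOf_eq, QuaternionGroup.orderOf_a_one]; ring
      have ho8 : orderOf (a ^ 2 ^ n) = 8 := by
        rw [orderOf_pow a, hoa, pow_add, Nat.gcd_mul_right_left, Nat.mul_div_cancel_left _ (by positivity)]
        norm_num
      obtain ⟨C, hC, hxC⟩ := Sylow.exists_subgroup_card_pow_prime_le 2 (n := 2) (m := 3)
        (show 2 ^ 3 ∣ Nat.card P by rw [hc]; exact ⟨2 ^ (n + 1), by ring⟩)
        (Subgroup.zpowers (e.symm (QuaternionGroup.xa 0)))
        (by rw [Nat.card_zpowers, MulEquiv.orderOf_eq, QuaternionGroup.orderOf_xa]; norm_num) (by norm_num)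
      obtain ⟨f⟩ := hiso (Subgroup.zpowers (a ^ 2 ^ n)) C (by rw [Nat.card_zpowers, ho8, hC]; norm_num)
      haveI : IsCyclic ↥C := isCyclic_of_surjective f f.surjective
      obtain ⟨c, hc'⟩ := (Subgroup.isCyclic_iff_exists_zpowers_eq_top C).1 inferInstance
      have hoc : orderOf c = 8 := by rw [← Nat.card_zpowers, hc', hC]; norm_num
      have hmem := hxC (Subgroup.mem_zpowers _)
      rw [← hc', Subgroup.mem_zpowers_iff] at hmem
      obtain ⟨k, hk⟩ := hmem
      have hk' : (e c) ^ k = QuaternionGroup.xa 0 := by rw [← map_zpow, hk, MulEquiv.apply_symm_apply]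
      have hoe : orderOf (e c) = 8 := by rw [MulEquiv.orderOf_eq, hoc]
      generalize e c = q at hk' hoe
      cases q with
      | xa i => rw [QuaternionGroup.orderOf_xa] at hoe; omega
      | a i =>
        have hpow : ∀ j : ℕ, ∃ l, (QuaternionGroup.a i) ^ j = QuaternionGroup.a l := by
          intro j
          induction j with
          | zero => exact ⟨0, rfl⟩
          | succ j ih => obtain ⟨l, hl⟩ := ih; exact ⟨l + i, (pow_succ _ j).trans (congrArg (· * QuaternionGroup.a i) hl)⟩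
        have hm : QuaternionGroup.xa 0 ∈ Subgroup.zpowers (QuaternionGroup.a i) := Subgroup.mem_zpowers_iff.2 ⟨k, hk'⟩
        obtain ⟨j, hj⟩ := (Submonoid.mem_powers_iff _ _).1 ((isOfFinOrder_of_finite _).mem_powers_iff_mem_zpowers.2 hm)
        obtain ⟨l, hl⟩ := hpow j
        rw [hl] at hj
        cases hj
  unfold CfsgLib.UniqueOrderP.Uniq at hu
  push Not at hu
  obtain ⟨x₁, y₁, hx₁, hy₁, hne⟩ := hu
  haveI : Nontrivial P := ⟨x₁, 1, fun h => by rw [h, orderOf_one] at hx₁; exact hp.out.ne_one hx₁.symm⟩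
  haveI := hP.center_nontrivial
  obtain ⟨j, hj0, hj⟩ := (hP.to_subgroup (Subgroup.center P)).nontrivial_iff_card.1 inferInstance
  obtain ⟨⟨z, hzc⟩, hzo⟩ := exists_prime_orderOf_dvd_card' p (G := Subgroup.center P) (hj ▸ dvd_pow_self p hj0.ne')
  rw [Subgroup.orderOf_mk] at hzo
  have hzC : ∀ g : P, g * z = z * g := Subgroup.mem_center_iff.1 hzc
  have hzp : z ^ p = 1 := by rw [← hzo, pow_orderOf_eq_one]
  obtain ⟨w, hwo, hwz⟩ : ∃ w, orderOf w = p ∧ w ∉ Subgroup.zpowers z := by
    by_cases h : x₁ ∈ Subgroup.zpowers z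
    · refine ⟨y₁, hy₁, fun h' => hne ?_⟩
      rw [Subgroup.eq_of_le_of_card_ge (Subgroup.zpowers_le.2 h) (by rw [Nat.card_zpowers, Nat.card_zpowers, hx₁, hzo])]
      exact h'
    · exact ⟨x₁, hx₁, h⟩
  have hzcomm : ∀ a ∈ Subgroup.zpowers z, ∀ g : P, g * a = a * g := fun a ha =>
    Subgroup.mem_center_iff.1 ((Subgroup.zpowers_le.2 hzc) ha)
  obtain ⟨E, hEd⟩ : ∃ E, E = Subgroup.zpowers z ⊔ Subgroup.zpowers w := ⟨_, rfl⟩
  have hwn : w ∈ Subgroup.normalizer ((Subgroup.zpowers z : Subgroup P) : Set P) :=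
    Subgroup.centralizer_le_normalizer _ fun a ha => (hzcomm a ha w).symm
  have hwp : w ^ p = 1 := by rw [← hwo, pow_orderOf_eq_one]
  have hE2 : Nat.card E = p ^ 2 := by
    rw [hEd, card_sup hwn hwp hwz, Nat.card_zpowers, hzo, sq]
  have hEc := sup_comm_of (N := Subgroup.zpowers z) (w := w) (fun a ha b _ => (hzcomm a ha b).symm) (fun a ha => hzcomm a ha w)
  have hEp : ∀ a ∈ E, a ^ p = 1 := by
    intro a ha
    haveI : (Subgroup.zpowers z).Normal := ⟨fun n hn g => by rwa [hzcomm n hn g, mul_inv_cancel_right]⟩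
    rw [hEd, Subgroup.mem_sup_of_normal_left] at ha
    obtain ⟨b, hb, c, hc, rfl⟩ := ha
    rw [(show Commute b c from (hzcomm b hb c).symm).mul_pow]
    obtain ⟨i, rfl⟩ := Subgroup.mem_zpowers_iff.1 hb
    obtain ⟨l, rfl⟩ := Subgroup.mem_zpowers_iff.1 hc
    have h1 : (z ^ i) ^ p = 1 := by rw [← zpow_natCast, zpow_comm, zpow_natCast, hzp, one_zpow]
    have h2 : (w ^ l) ^ p = 1 := by rw [← zpow_natCast, zpow_comm, zpow_natCast, ← hwo, pow_orderOf_eq_one, one_zpow]
    rw [h1, h2, one_mul]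
  have hexp : ∀ a : P, a ^ p = 1 := by
    intro a
    obtain ⟨k, hk⟩ := IsPGroup.iff_orderOf.1 hP a
    rcases Nat.lt_or_ge k 2 with hk2 | hk2
    · rw [← orderOf_dvd_iff_pow_eq_one, hk]
      calc p ^ k ∣ p ^ 1 := pow_dvd_pow p (by omega)
        _ = p := pow_one p
    exfalso
    have ho : orderOf (a ^ p ^ (k - 2)) = p ^ 2 := by
      conv_lhs => rw [orderOf_pow a, hk, show k = k - 2 + 2 by omega, pow_add, Nat.add_sub_cancel,
        Nat.gcd_mul_right_left]
      rw [Nat.mul_div_cancel_left _ (pow_pos hp.out.pos _)]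
    obtain ⟨f⟩ := hiso (Subgroup.zpowers (a ^ p ^ (k - 2))) E (by rw [Nat.card_zpowers, ho, hE2])
    have h1 : (⟨_, Subgroup.mem_zpowers (a ^ p ^ (k - 2))⟩ : Subgroup.zpowers (a ^ p ^ (k - 2))) ^ p = 1 := by
      apply f.injective
      rw [map_pow, map_one]
      exact Subtype.ext (hEp _ (f _).2)
    have h2 := congrArg Subtype.val h1
    simp only [SubgroupClass.coe_pow, OneMemClass.coe_one] at h2
    have h3 := orderOf_dvd_of_pow_eq_one h2
    rw [ho] at h3
    have := Nat.le_of_dvd hp.out.pos h3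
    have := hp.out.two_le
    nlinarith
  right
  by_cases hab : ∀ a b : P, a * b = b * a
  · exact Or.inl ⟨hab, hexp⟩
  right; right
  have hp2 : p ≠ 2 := by
    rintro rfl
    apply hab
    intro a b
    have h := hexp (a * b)
    have ha := hexp a
    have hb := hexp b
    rw [sq] at h ha hb
    calc a * b = a * b * (b * a * (b * a)) := by
          have := hexp (b * a); rw [sq] at this; rw [this, mul_one]
      _ = a * (b * b) * a * (b * a) := by group
      _ = b * a := by rw [hb, mul_one, ha, one_mul]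
  refine ⟨hp2, fun h => hab fun a b => h.is_comm.comm a b, ?_, ?_⟩
  swap
  · exact (Monoid.exponent_eq_prime_iff hp.out).2 fun a ha => orderOf_eq_prime (hexp a) ha
  -- second centre
  obtain ⟨x, hx, hxcom⟩ : ∃ x : P, x ∉ Subgroup.center P ∧ ∀ y : P, ⁅y, x⁆ ∈ Subgroup.center P := by
    haveI : Nontrivial (P ⧸ Subgroup.center P) := QuotientGroup.nontrivial_iff.2 fun h => hab fun a b => by
      have : b ∈ Subgroup.center P := by rw [h]; trivial
      exact Subgroup.mem_center_iff.1 this a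
    haveI := (hP.to_quotient (Subgroup.center P)).center_nontrivial
    obtain ⟨⟨q, hq⟩, hq1⟩ := exists_ne (1 : Subgroup.center (P ⧸ Subgroup.center P))
    obtain ⟨x, rfl⟩ := QuotientGroup.mk'_surjective _ q
    refine ⟨x, fun h => hq1 (Subtype.ext ((QuotientGroup.eq_one_iff x).2 h)), fun y => ?_⟩
    apply (QuotientGroup.eq_one_iff _).1
    show QuotientGroup.mk' (Subgroup.center P) ⁅y, x⁆ = 1
    rw [map_commutatorElement, commutatorElement_eq_one_iff_mul_comm]
    exact Subgroup.mem_center_iff.1 hq _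
  obtain ⟨y, hxy⟩ : ∃ y, ¬ y * x = x * y := by
    by_contra h
    push Not at h
    exact hx (Subgroup.mem_center_iff.2 h)
  obtain ⟨c, hcd⟩ : ∃ c, c = ⁅y, x⁆ := ⟨_, rfl⟩
  have hc1 : c ≠ 1 := by rw [hcd]; exact fun h => hxy (commutatorElement_eq_one_iff_mul_comm.1 h)
  have hcc : ∀ g, g * c = c * g := Subgroup.mem_center_iff.1 (hcd ▸ hxcom y)
  have hccomm : ∀ a ∈ Subgroup.zpowers c, ∀ g : P, g * a = a * g := fun a ha =>
    Subgroup.mem_center_iff.1 ((Subgroup.zpowers_le.2 (hcd ▸ hxcom y)) ha)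
  have hxn : x ∉ Subgroup.zpowers c := fun h => hx (Subgroup.zpowers_le.2 (hcd ▸ hxcom y) h)
  obtain ⟨N, hNd⟩ : ∃ N, N = Subgroup.zpowers c ⊔ Subgroup.zpowers x := ⟨_, rfl⟩
  have hcN : c ∈ N := hNd ▸ Subgroup.mem_sup_left (Subgroup.mem_zpowers c)
  have hxN : x ∈ N := hNd ▸ Subgroup.mem_sup_right (Subgroup.mem_zpowers x)
  have hxnorm : x ∈ Subgroup.normalizer ((Subgroup.zpowers c : Subgroup P) : Set P) :=
    Subgroup.centralizer_le_normalizer _ fun a ha => (hccomm a ha x).symm
  have hN2 : Nat.card N = p ^ 2 := by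
    rw [hNd, card_sup hxnorm (hexp x) hxn, Nat.card_zpowers, orderOf_eq_prime (hexp c) hc1, sq]
  have hNc : ∀ a ∈ N, ∀ b ∈ N, a * b = b * a := hNd ▸
    sup_comm_of (fun a ha b _ => (hccomm a ha b).symm) (fun a ha => hccomm a ha x)
  -- a nonabelian subgroup of order p^3
  have hyN : y ∉ N := fun h => hxy (hNc y h x hxN)
  have hyn : y ∈ Subgroup.normalizer (N : Set P) := by
    have hN : N.Normal := by
      refine ⟨fun n hn g => ?_⟩
      have hx' : g * x * g⁻¹ * x⁻¹ ∈ Subgroup.center P := by rw [← commutatorElement_def]; exact hxcom g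
      have hmap : N.map (MulAut.conj g).toMonoidHom ≤ Subgroup.center P ⊔ Subgroup.zpowers x := by
        rw [hNd, Subgroup.map_sup]
        refine sup_le ?_ ?_
        · rintro _ ⟨a, ha, rfl⟩
          refine Subgroup.mem_sup_left ?_
          show g * a * g⁻¹ ∈ _
          rw [hccomm a ha g, mul_inv_cancel_right]
          exact Subgroup.zpowers_le.2 (hcd ▸ hxcom y) ha
        · rw [MonoidHom.map_zpowers]
          refine Subgroup.zpowers_le.2 ?_
          show g * x * g⁻¹ ∈ _
          rw [show g * x * g⁻¹ = (g * x * g⁻¹ * x⁻¹) * x by group]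
          exact Subgroup.mul_mem_sup hx' (Subgroup.mem_zpowers x)
      by_cases hZ : Nat.card (Subgroup.center P) ≤ p
      · have hcZ : Subgroup.zpowers c = Subgroup.center P := Subgroup.eq_of_le_of_card_ge
          (Subgroup.zpowers_le.2 (hcd ▸ hxcom y)) (by rw [Nat.card_zpowers, orderOf_eq_prime (hexp c) hc1]; exact hZ)
        rw [← hcZ, ← hNd] at hmap
        exact hmap ⟨n, hn, rfl⟩
      · exfalso
        -- an abelian subgroup of order p^3 from the centre
        obtain ⟨z', hz', hz'N⟩ : ∃ z' ∈ Subgroup.center P, z' ∉ N := by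
          by_contra h
          push Not at h
          apply hZ
          have hle : Subgroup.center P ≤ N := h
          have : Subgroup.center P ≠ N := fun e => hx (e ▸ hxN)
          obtain ⟨i, hi⟩ := IsPGroup.iff_card.1 (hP.to_subgroup (Subgroup.center P))
          have hlt : Nat.card (Subgroup.center P) < p ^ 2 := hN2 ▸ lt_of_le_of_ne (Subgroup.card_le_of_le hle)
            (fun e => this (Subgroup.eq_of_le_of_card_ge hle e.ge))
          rw [hi] at hlt ⊢
          have := (Nat.pow_lt_pow_iff_right hp.out.one_lt).1 hlt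
          calc p ^ i ≤ p ^ 1 := Nat.pow_le_pow_right hp.out.pos (by omega)
            _ = p := pow_one p
        have hA := card_sup (N := N) (Subgroup.centralizer_le_normalizer _ fun a _ => Subgroup.mem_center_iff.1 hz' a) (hexp z') hz'N
        rw [hN2] at hA
        have hAc := sup_comm_of hNc (fun a _ => (Subgroup.mem_center_iff.1 hz' a).symm)
        -- compare with the nonabelian one
        obtain ⟨M, hMd⟩ : ∃ M, M = Subgroup.zpowers c ⊔ Subgroup.zpowers y := ⟨_, rfl⟩
        have hyc : y ∉ Subgroup.zpowers c := fun h => hxy (hccomm y h x).symm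
        have hM2 : Nat.card M = p ^ 2 := by
          rw [hMd, card_sup (Subgroup.centralizer_le_normalizer _ fun a ha => (hccomm a ha y).symm) (hexp y) hyc,
            Nat.card_zpowers, orderOf_eq_prime (hexp c) hc1, sq]
        have hxM : x ∉ M := fun h => hxy (sup_comm_of (N := Subgroup.zpowers c) (w := y)
          (fun a ha b _ => (hccomm a ha b).symm) (fun a ha => hccomm a ha y) y (Subgroup.mem_sup_right (Subgroup.mem_zpowers y)) x (hMd ▸ h))
        have hxMn : x ∈ Subgroup.normalizer (M : Set P) := by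
          have hle : M.map (MulAut.conj x).toMonoidHom ≤ M := by
            rw [hMd, Subgroup.map_sup]
            refine sup_le ?_ ?_
            · rintro _ ⟨a, ha, rfl⟩
              refine Subgroup.mem_sup_left ?_
              show x * a * x⁻¹ ∈ _
              rwa [hccomm a ha x, mul_inv_cancel_right]
            · rw [MonoidHom.map_zpowers]
              refine Subgroup.zpowers_le.2 ?_
              show x * y * x⁻¹ ∈ _
              have e : x * y * x⁻¹ = c⁻¹ * y := by rw [hcd, commutatorElement_def]; group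
              rw [e]
              exact Subgroup.mul_mem_sup (inv_mem (Subgroup.mem_zpowers c)) (Subgroup.mem_zpowers y)
          have heq := Subgroup.eq_of_le_of_card_ge hle (by rw [Subgroup.card_map_of_injective (MulAut.conj x).injective])
          rw [Subgroup.mem_normalizer_iff]
          exact fun a => ⟨fun ha => hle ⟨a, ha, rfl⟩, fun ha => by
            obtain ⟨b, hb, hbe⟩ := heq.ge ha
            exact (MulAut.conj x).injective hbe ▸ hb⟩
        have hH := card_sup (N := M) hxMn (hexp x) hxM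
        rw [hM2] at hH
        obtain ⟨f⟩ := hiso _ _ (hA.trans hH.symm)
        have hyH : y ∈ M ⊔ Subgroup.zpowers x := Subgroup.mem_sup_left (hMd ▸ Subgroup.mem_sup_right (Subgroup.mem_zpowers y))
        have hxH : x ∈ M ⊔ Subgroup.zpowers x := Subgroup.mem_sup_right (Subgroup.mem_zpowers x)
        apply hxy
        have h := congrArg f (Subtype.ext (hAc _ (f.symm ⟨y, hyH⟩).2 _ (f.symm ⟨x, hxH⟩).2) : f.symm ⟨y, hyH⟩ * f.symm ⟨x, hxH⟩ = f.symm ⟨x, hxH⟩ * f.symm ⟨y, hyH⟩)
        rw [map_mul, map_mul, MulEquiv.apply_symm_apply, MulEquiv.apply_symm_apply] at h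
        exact congrArg Subtype.val h
    rw [Subgroup.normalizer_eq_top]; trivial
  have hH := card_sup hyn (hexp y) hyN
  rw [hN2, ← pow_succ] at hH
  obtain ⟨m, hm⟩ := IsPGroup.iff_card.1 hP
  have hm3 : 3 ≤ m := by
    have := Subgroup.card_le_card_group (N ⊔ Subgroup.zpowers y)
    rw [hH, hm] at this
    exact (Nat.pow_le_pow_iff_right hp.out.one_lt).1 this
  by_contra hne
  have hm4 : 4 ≤ m := by
    rcases Nat.lt_or_ge m 4 with h | h
    · exact absurd (by rw [hm, show m = 3 by omega]) hne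
    · exact h
  -- the centralizer of x is bigger than N
  have hN' : ∀ a ∈ N, a * x = x * a := fun a ha => hNc a ha x hxN
  obtain ⟨w', hw'C, hw'N⟩ : ∃ w' : P, w' * x = x * w' ∧ w' ∉ N := by
    by_contra h
    push Not at h
    let φ : P →* Subgroup.center P := MonoidHom.mk' (fun g => ⟨⁅g, x⁆, hxcom g⟩) (fun a b => Subtype.ext (by
      show ⁅a * b, x⁆ = ⁅a, x⁆ * ⁅b, x⁆
      have hb : a * ⁅b, x⁆ * a⁻¹ = ⁅b, x⁆ := by
        rw [Subgroup.mem_center_iff.1 (hxcom b) a, mul_inv_cancel_right]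
      calc ⁅a * b, x⁆ = (a * ⁅b, x⁆ * a⁻¹) * ⁅a, x⁆ := by simp only [commutatorElement_def]; group
        _ = _ := by rw [hb, Subgroup.mem_center_iff.1 (hxcom a) ⁅b, x⁆]))
    have hker : φ.ker ≤ N := fun g hg => h g (commutatorElement_eq_one_iff_mul_comm.1 (congrArg Subtype.val hg))
    have h1 := Subgroup.card_mul_index φ.ker
    rw [Subgroup.index_ker, hm] at h1
    have h2 := Subgroup.card_le_of_le hker
    rw [hN2] at h2
    by_cases hZ : Nat.card (Subgroup.center P) ≤ p
    · have h3 := Subgroup.card_le_card_group φ.range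
      have h4 : p ^ 4 ≤ p ^ 2 * p := by
        calc p ^ 4 ≤ p ^ m := Nat.pow_le_pow_right hp.out.pos hm4
          _ ≤ p ^ 2 * p := by rw [← h1]; exact Nat.mul_le_mul h2 (h3.trans hZ)
      rw [← pow_succ] at h4
      have := (Nat.pow_le_pow_iff_right hp.out.one_lt).1 h4
      omega
    · have hle : Subgroup.center P ≤ N := fun g hg => h g (Subgroup.mem_center_iff.1 hg x).symm
      have hlt : Nat.card (Subgroup.center P) < p ^ 2 := hN2 ▸ lt_of_le_of_ne (Subgroup.card_le_of_le hle)
        (fun e => hx ((Subgroup.eq_of_le_of_card_ge hle e.ge).ge hxN))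
      obtain ⟨i, hi⟩ := IsPGroup.iff_card.1 (hP.to_subgroup (Subgroup.center P))
      rw [hi] at hlt hZ
      have := (Nat.pow_lt_pow_iff_right hp.out.one_lt).1 hlt
      apply hZ
      calc p ^ i ≤ p ^ 1 := Nat.pow_le_pow_right hp.out.pos (by omega)
        _ = p := pow_one p
  have hwN : ∀ a ∈ N, w' * a = a * w' := by
    intro a ha
    have hle : N ≤ Subgroup.centralizer ({w'} : Set P) := by
      rw [hNd]
      refine sup_le (Subgroup.zpowers_le.2 ?_) (Subgroup.zpowers_le.2 ?_) <;> rw [Subgroup.mem_centralizer_singleton_iff]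
      · exact (hcc w').symm
      · exact hw'C.symm
    exact (Subgroup.mem_centralizer_singleton_iff.1 (hle ha)).symm
  have hA := card_sup (Subgroup.centralizer_le_normalizer _ fun a ha => (hwN a ha).symm) (hexp w') hw'N
  rw [hN2, ← pow_succ] at hA
  have hAc := sup_comm_of hNc hwN
  obtain ⟨f⟩ := hiso _ _ (hA.trans hH.symm)
  have hyH : y ∈ N ⊔ Subgroup.zpowers y := Subgroup.mem_sup_right (Subgroup.mem_zpowers y)
  have hxH : x ∈ N ⊔ Subgroup.zpowers y := Subgroup.mem_sup_left hxN
  apply hxy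
  have h := congrArg f (Subtype.ext (hAc _ (f.symm ⟨y, hyH⟩).2 _ (f.symm ⟨x, hxH⟩).2) : f.symm ⟨y, hyH⟩ * f.symm ⟨x, hxH⟩ = f.symm ⟨x, hxH⟩ * f.symm ⟨y, hyH⟩)
  rw [map_mul, map_mul, MulEquiv.apply_symm_apply, MulEquiv.apply_symm_apply] at h
  exact congrArg Subtype.val h

/-- Let p be a prime and G a finite group in which any two p-subgroups of the same order are conjugate, with Sylow p-subgroup P. Then P is cyclic, or elementary abelian, or p = 2 and P is a quaternion group of order 8, or p is odd and P is non-abelian of order p³ and exponent p. -/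
theorem result {G : Type*} [Group G] [Finite G]
    {p : ℕ} [Fact p.Prime] (hC : ∀ H K : Subgroup G, IsPGroup p H → IsPGroup p K → Nat.card H = Nat.card K →
      ∃ g : G, K = H.map (MulAut.conj g).toMonoidHom) (P : Sylow p G) :
    IsCyclic P ∨ Cfsg.IsElementaryAbelian p (P : Subgroup G) ∨
      (p = 2 ∧ Nonempty ((P : Subgroup G) ≃* QuaternionGroup 2)) ∨
      (p ≠ 2 ∧ ¬ IsMulCommutative P ∧ Nat.card P = p ^ 3 ∧ Monoid.exponent P = p) := by
  
  have hiso : ∀ H K : Subgroup ↥(P : Subgroup G), Nat.card H = Nat.card K → Nonempty (↥H ≃* ↥K) := by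
    intro H K h
    have hinj := (P : Subgroup G).subtype_injective
    obtain ⟨g, hg⟩ := hC (H.map (P : Subgroup G).subtype) (K.map (P : Subgroup G).subtype)
      (P.2.to_le (Subgroup.map_subtype_le _)) (P.2.to_le (Subgroup.map_subtype_le _))
      (by rw [Subgroup.card_map_of_injective hinj, Subgroup.card_map_of_injective hinj, h])
    exact ⟨(((H.equivMapOfInjective _ hinj).trans ((H.map (P : Subgroup G).subtype).equivMapOfInjective _ (MulAut.conj g).injective)).trans
      (MulEquiv.subgroupCongr hg.symm)).trans (K.equivMapOfInjective _ hinj).symm⟩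
  rcases main P.2 hiso with h | ⟨hab, hexp⟩ | h | h
  · exact Or.inl h
  · exact Or.inr (Or.inl ⟨⟨⟨hab⟩⟩, fun a ha => congrArg Subtype.val (hexp ⟨a, ha⟩)⟩)
  · exact Or.inr (Or.inr (Or.inl h))
  · exact Or.inr (Or.inr (Or.inr h))


end Cfsg.Agent.S4023
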