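import Cfsg.Statements.S4024
import Cfsg.Agent.S4023
import Cfsg.Agent.Lib.PSolvable
import Cfsg.Agent.Lib.Core

set_option autoImplicit false
open Cfsg

namespace Cfsg.Agent.S4024
theorem le_normal {G : Type*} [Group G] [Finite G] {p : ℕ} [hp : Fact p.Prime]
    (hC : ∀ H K : Subgroup G, IsPGroup p H → IsPGroup p K → Nat.card H = Nat.card K →
      ∃ g : G, K = H.map (MulAut.conj g).toMonoidHom) (P : Sylow p G)
    (hexp : ∀ x ∈ (P : Subgroup G), x ^ p = 1) (L : Subgroup G) [hL : L.Normal] (hdiv : p ∣ Nat.card L) :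
    (P : Subgroup G) ≤ L := by
  obtain ⟨⟨a, haL⟩, hao⟩ := exists_prime_orderOf_dvd_card' p hdiv
  rw [Subgroup.orderOf_mk] at hao
  obtain ⟨Q, hQ⟩ := (IsPGroup.of_card (n := 1) (by rw [Nat.card_zpowers, hao, pow_one]) : IsPGroup p (Subgroup.zpowers a)).exists_le_sylow
  obtain ⟨g, hg⟩ := MulAction.exists_smul_eq G Q P
  have hb : g * a * g⁻¹ ∈ (P : Subgroup G) := by
    rw [← hg, Sylow.coe_subgroup_smul]
    exact Subgroup.smul_mem_pointwise_smul a (MulAut.conj g) _ (hQ (Subgroup.mem_zpowers a))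
  obtain ⟨R, hRd⟩ : ∃ R, R = (P : Subgroup G) ⊓ L := ⟨_, rfl⟩
  have hbR : g * a * g⁻¹ ∈ R := hRd ▸ ⟨hb, hL.conj_mem a haL g⟩
  obtain ⟨r, hr⟩ := IsPGroup.iff_card.1 (hRd ▸ P.2.to_le inf_le_left : IsPGroup p R)
  have hr1 : 1 ≤ r := by
    by_contra h
    rw [show r = 0 by omega, pow_zero] at hr
    rw [Subgroup.eq_bot_of_card_eq _ hr, Subgroup.mem_bot] at hbR
    rw [conj_eq_one_iff.1 hbR, orderOf_one] at hao
    exact hp.out.ne_one hao.symm
  intro x hx
  by_cases hx1 : x = 1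
  · rw [hx1]; exact one_mem _
  have hxo : orderOf (⟨x, hx⟩ : (P : Subgroup G)) = p := by
    rw [Subgroup.orderOf_mk]; exact orderOf_eq_prime (hexp x hx) hx1
  have hdvd : p ^ r ∣ Nat.card (P : Subgroup G) := by
    rw [← hr, hRd]; exact Subgroup.card_dvd_of_le inf_le_left
  obtain ⟨E, hE, hxE⟩ := Sylow.exists_subgroup_card_pow_prime_le p hdvd (Subgroup.zpowers (⟨x, hx⟩ : (P : Subgroup G)))
    (n := 1) (by rw [Nat.card_zpowers, hxo, pow_one]) hr1
  obtain ⟨c, hc⟩ := hC R (E.map (P : Subgroup G).subtype) (hRd ▸ P.2.to_le inf_le_left)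
    (P.2.to_le (Subgroup.map_subtype_le _))
    (by rw [Subgroup.card_map_of_injective (P : Subgroup G).subtype_injective, hE, hr])
  have hxm : x ∈ E.map (P : Subgroup G).subtype := ⟨_, hxE (Subgroup.mem_zpowers _), rfl⟩
  rw [hc] at hxm
  obtain ⟨y, hy, rfl⟩ := hxm
  exact hL.conj_mem y (hRd ▸ hy : y ∈ (P : Subgroup G) ⊓ L).2 c

theorem central_prime {G : Type*} [Group G] [Finite G] {p : ℕ} [hp : Fact p.Prime]
    (hC : ∀ H K : Subgroup G, IsPGroup p H → IsPGroup p K → Nat.card H = Nat.card K →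
      ∃ g : G, K = H.map (MulAut.conj g).toMonoidHom) (P : Sylow p G)
    (hexp : ∀ x ∈ (P : Subgroup G), x ^ p = 1) (H : Subgroup G) [H.Normal] (hsolv : Cfsg.IsPSolvable p H)
    (hdiv : p ∣ Nat.card H) : ∀ x ∈ (P : Subgroup G), ∀ y ∈ (P : Subgroup G), y * x = x * y := by
  haveI := CfsgLib.Core.pPrimeCore_characteristic (G := G) p
  obtain ⟨π, hπd⟩ : ∃ π : G →* G ⧸ Cfsg.pPrimeCore p G, π = QuotientGroup.mk' (Cfsg.pPrimeCore p G) := ⟨_, rfl⟩
  have hπs : Function.Surjective π := hπd ▸ QuotientGroup.mk'_surjective _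
  have hker : π.ker = Cfsg.pPrimeCore p G := hπd ▸ QuotientGroup.ker_mk' _
  have hcop := CfsgLib.Core.card_pPrimeCore_coprime (G := G) p
  haveI hHb : (H.map π).Normal := Subgroup.Normal.map inferInstance π hπs
  have hPH := le_normal hC P hexp H hdiv
  have hinj : ∀ a ∈ (P : Subgroup G), π a = 1 → a = 1 := by
    intro a ha h
    rw [← MonoidHom.mem_ker, hker] at h
    by_contra ha1
    have ho : orderOf a = p := orderOf_eq_prime (hexp a ha) ha1
    have h2 : p ∣ Nat.card (Cfsg.pPrimeCore p G) := by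
      have := orderOf_dvd_natCard (⟨a, h⟩ : Cfsg.pPrimeCore p G); rwa [Subgroup.orderOf_mk, ho] at this
    exact (hp.out.coprime_iff_not_dvd.1 hcop.symm) h2
  obtain ⟨a, haH, ha1⟩ : ∃ a ∈ (P : Subgroup G), a ≠ 1 := by
    have : (P : Subgroup G) ≠ ⊥ := P.ne_bot_of_dvd_card (hdiv.trans H.card_subgroup_dvd_card)
    obtain ⟨⟨a, ha⟩, h⟩ := Subgroup.ne_bot_iff_exists_ne_one.1 this
    exact ⟨a, ha, fun e => h (Subtype.ext e)⟩
  haveI : Nontrivial ↥(H.map π) := ⟨⟨π a, ⟨a, hPH haH, rfl⟩⟩, 1, fun h => ha1 (hinj a haH (congrArg Subtype.val h))⟩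
  have hpp : Cfsg.pPrimeCore p ↥(H.map π) = ⊥ := by
    rw [eq_bot_iff]
    intro z hz
    subst hπd
    have := CfsgLib.Core.pPrimeCore_subgroup_map_le p _ (Subgroup.mem_map_of_mem (H.map _).subtype hz)
    rw [CfsgLib.Core.pPrimeCore_quotient_eq_bot, Subgroup.mem_bot] at this
    exact Subgroup.mem_bot.2 (Subtype.ext this)
  have hsolb : Cfsg.IsPSolvable p ↥(H.map π) :=
    CfsgLib.PSolvable.map (π.subgroupMap H) (π.subgroupMap_surjective H) hsolv
  have hTne : Cfsg.pCore p ↥(H.map π) ≠ ⊥ := (Cfsg.Agent.S3798.core_ne_bot hsolb).elim id fun h => absurd hpp h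
  haveI := CfsgLib.Core.pCore_characteristic (G := ↥(H.map π)) p
  obtain ⟨T, hTd⟩ : ∃ T, T = (Cfsg.pCore p ↥(H.map π)).map (H.map π).subtype := ⟨_, rfl⟩
  haveI hTn : T.Normal := by rw [hTd]; infer_instance
  have hTp : IsPGroup p T := hTd ▸ (CfsgLib.Core.isPGroup_pCore (G := ↥(H.map π)) p).map _
  haveI : (T.comap π).Normal := hTn.comap π
  have hdvdL : p ∣ Nat.card (T.comap π) := by
    obtain ⟨j, hj⟩ := IsPGroup.iff_card.1 hTp
    have hj0 : j ≠ 0 := by
      rintro rfl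
      apply hTne
      rw [pow_zero, hTd, Subgroup.card_map_of_injective (H.map π).subtype_injective] at hj
      exact Subgroup.eq_bot_of_card_eq _ hj
    have h1 : Nat.card ((T.comap π).map π) ∣ Nat.card (T.comap π) := Subgroup.card_map_dvd _ _
    rw [Subgroup.map_comap_eq_self_of_surjective hπs, hj] at h1
    exact (dvd_pow_self p hj0).trans h1
  have hPL := le_normal hC P hexp _ hdvdL
  have hTP : T = (P : Subgroup G).map π := by
    refine ((P.mapSurjective hπs).3 hTp ?_)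
    rw [Sylow.coe_mapSurjective]
    exact Subgroup.map_le_iff_le_comap.2 hPL
  have hfr : Subgroup.normalizer ((P : Subgroup G) : Set G) ⊔ T.comap π = ⊤ := Sylow.normalizer_sup_eq_top' P hPL
  have hfr2 : Subgroup.normalizer ((P : Subgroup G) : Set G) ⊔ Cfsg.pPrimeCore p G = ⊤ := by
    rw [eq_top_iff, ← hfr]
    refine sup_le le_sup_left ?_
    rw [hTP, Subgroup.comap_map_eq, hker]
    exact sup_le ((Subgroup.le_normalizer).trans le_sup_left) le_sup_right
  have hPne : (P : Subgroup G) ≠ ⊥ := fun h => ha1 (by rw [h, Subgroup.mem_bot] at haH; exact haH)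
  haveI : Nontrivial ↥(P : Subgroup G) := (P : Subgroup G).nontrivial_iff_ne_bot.2 hPne
  haveI := P.2.center_nontrivial
  obtain ⟨⟨⟨z, hzP⟩, hzc⟩, hz1⟩ := exists_ne (1 : Subgroup.center ↥(P : Subgroup G))
  have hz : ∀ y ∈ (P : Subgroup G), y * z = z * y := fun y hy =>
    congrArg Subtype.val (Subgroup.mem_center_iff.1 hzc ⟨y, hy⟩)
  have hzne : z ≠ 1 := fun h => hz1 (by ext; exact h)
  intro x hx
  by_cases hx1 : x = 1
  · intro y _; rw [hx1, one_mul, mul_one]
  have hcard : ∀ w ∈ (P : Subgroup G), w ≠ 1 → Nat.card (Subgroup.zpowers w) = p := fun w hw hw1 => by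
    rw [Nat.card_zpowers]; exact orderOf_eq_prime (hexp w hw) hw1
  obtain ⟨g, hg⟩ := hC (Subgroup.zpowers z) (Subgroup.zpowers x) (P.2.to_le (Subgroup.zpowers_le.2 hzP))
    (P.2.to_le (Subgroup.zpowers_le.2 hx)) (by rw [hcard z hzP hzne, hcard x hx hx1])
  obtain ⟨s, hs, hsx⟩ : x ∈ (Subgroup.zpowers z).map (MulAut.conj g).toMonoidHom := hg ▸ Subgroup.mem_zpowers x
  obtain ⟨k, hk, n, hn, rfl⟩ := (Subgroup.mem_sup_of_normal_left).1 ((sup_comm (Subgroup.normalizer ((P : Subgroup G) : Set G)) (Cfsg.pPrimeCore p G) ▸ hfr2).ge (Subgroup.mem_top g))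
  have hsx' : (k * n) * s * (k * n)⁻¹ = x := hsx
  have hsP : s ∈ (P : Subgroup G) := Subgroup.zpowers_le.2 hzP hs
  have hsc : ∀ y ∈ (P : Subgroup G), y * s = s * y := fun y hy => by
    obtain ⟨i, rfl⟩ := Subgroup.mem_zpowers_iff.1 hs
    exact ((show Commute y z from hz y hy).zpow_right i).eq
  obtain ⟨s', hs'd⟩ : ∃ s', s' = n * s * n⁻¹ := ⟨_, rfl⟩
  have hs'P : s' ∈ (P : Subgroup G) := hs'd ▸ (Subgroup.mem_normalizer_iff.1 hn s).1 hsP
  have hxs : x = s' := by
    have h1 : x * s'⁻¹ ∈ (P : Subgroup G) := mul_mem hx (inv_mem hs'P)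
    have h2 : π k = 1 := by rw [← MonoidHom.mem_ker, hker]; exact hk
    refine mul_inv_eq_one.1 (hinj _ h1 ?_)
    rw [← hsx', hs'd, map_mul, map_mul, map_mul, map_inv, map_inv, map_mul, map_mul, map_mul, map_inv, h2]
    group
  intro y hy
  rw [hxs, hs'd]
  have hy' : n⁻¹ * y * n ∈ (P : Subgroup G) := (Subgroup.mem_normalizer_iff''.1 hn y).1 hy
  have h := hsc _ hy'
  calc y * (n * s * n⁻¹) = n * ((n⁻¹ * y * n) * s) * n⁻¹ := by group
    _ = n * (s * (n⁻¹ * y * n)) * n⁻¹ := by rw [h]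
    _ = n * s * n⁻¹ * y := by group

/-- Let p be an odd prime and G a finite group in which any two p-subgroups of the same order are conjugate, with Sylow p-subgroup P. If H is a normal p-solvable subgroup of G whose order is divisible by p, then P is abelian, and either P ≤ H or P is cyclic. -/
theorem result {G : Type*} [Group G] [Finite G]
    {p : ℕ} [Fact p.Prime] (hp : p ≠ 2) (hC : ∀ H K : Subgroup G, IsPGroup p H → IsPGroup p K → Nat.card H = Nat.card K →
      ∃ g : G, K = H.map (MulAut.conj g).toMonoidHom) (P : Sylow p G)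
    (H : Subgroup G) [H.Normal] (hsolv : Cfsg.IsPSolvable p H) (hdiv : p ∣ Nat.card H) :
    IsMulCommutative P ∧ ((P : Subgroup G) ≤ H ∨ IsCyclic P) := by
  
  have hiso : ∀ H K : Subgroup ↥(P : Subgroup G), Nat.card H = Nat.card K → Nonempty (↥H ≃* ↥K) := by
    intro H K h
    have hinj := (P : Subgroup G).subtype_injective
    obtain ⟨g, hg⟩ := hC (H.map (P : Subgroup G).subtype) (K.map (P : Subgroup G).subtype)
      (P.2.to_le (Subgroup.map_subtype_le _)) (P.2.to_le (Subgroup.map_subtype_le _))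
      (by rw [Subgroup.card_map_of_injective hinj, Subgroup.card_map_of_injective hinj, h])
    exact ⟨(((H.equivMapOfInjective _ hinj).trans ((H.map (P : Subgroup G).subtype).equivMapOfInjective _ (MulAut.conj g).injective)).trans
      (MulEquiv.subgroupCongr hg.symm)).trans (K.equivMapOfInjective _ hinj).symm⟩
  rcases Cfsg.Agent.S4023.main P.2 hiso with h | ⟨hab, hexp⟩ | ⟨h2, -⟩ | ⟨-, hna, -, hexp⟩
  · exact ⟨IsCyclic.isMulCommutative, Or.inr h⟩
  · refine ⟨⟨⟨hab⟩⟩, Or.inl ?_⟩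
    exact le_normal hC P (fun x hx => congrArg Subtype.val (hexp ⟨x, hx⟩)) H hdiv
  · exact absurd h2 hp
  · exfalso
    apply hna
    have he : ∀ x ∈ (P : Subgroup G), x ^ p = 1 := fun x hx => by
      have := Monoid.pow_exponent_eq_one (⟨x, hx⟩ : ↥(P : Subgroup G))
      rw [hexp] at this
      exact congrArg Subtype.val this
    exact ⟨⟨fun a b => Subtype.ext (central_prime hC P he H hsolv hdiv (b : G) b.2 a a.2)⟩⟩


end Cfsg.Agent.S4024
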