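import Cfsg.Statements.S4028
import Cfsg.Agent.Lib.GroupB.Coprime
import Cfsg.Agent.Lib.Thompson.PClosed

set_option autoImplicit false
open Cfsg

namespace Cfsg.Agent.S4028

/-- Let G be a finite group with Sylow 2-subgroup P. Then N_G(⟨x⟩) = C_G(x) holds for every 2-element x of G if and only if N_P(⟨y⟩) = C_P(y) holds for every y ∈ P (computed inside P). -/
theorem result {G : Type*} [Group G] [Finite G] (P : Sylow 2 G) :
    (∀ x : G, (∀ r : ℕ, r.Prime → r ∣ orderOf x → r = 2) →
      Subgroup.normalizer ((Subgroup.zpowers x : Subgroup G) : Set G) ≤ Subgroup.centralizer {x}) ↔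
    (∀ y : ↥(P : Subgroup G), Subgroup.normalizer ((Subgroup.zpowers y : Subgroup ↥(P : Subgroup G)) : Set ↥(P : Subgroup G)) ≤
        Subgroup.centralizer {y}) := by
  constructor
  · intro h y n hn
    obtain ⟨k, hk⟩ := IsPGroup.iff_orderOf.mp P.2 y
    have hn' : (n : G) ∈ Subgroup.normalizer ((Subgroup.zpowers (y : G) : Subgroup G) : Set G) := by
      have := Subgroup.le_normalizer_map (P : Subgroup G).subtype ⟨n, hn, rfl⟩
      rwa [MonoidHom.map_zpowers] at this
    have hc := h (y : G) (fun r hr hrd => by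
      rw [Subgroup.orderOf_coe, hk] at hrd
      exact (Nat.prime_dvd_prime_iff_eq hr Nat.prime_two).mp (hr.dvd_of_dvd_pow hrd)) hn'
    exact Subgroup.mem_centralizer_singleton_iff.mpr (Subtype.ext (Subgroup.mem_centralizer_singleton_iff.mp hc))
  · intro h x hx n hn
    obtain ⟨k, hk⟩ : ∃ k, orderOf x = 2 ^ k := by
      refine ⟨_, Nat.eq_prime_pow_of_unique_prime_dvd (orderOf_pos x).ne' fun {r} hr hrd => hx r hr hrd⟩
    obtain ⟨u, v, hu, hv, huv, ⟨j, hj⟩, hvc⟩ := CfsgLib.ThompsonNPC.exists_mul_parts 2 n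
    have huN : u ∈ Subgroup.normalizer ((Subgroup.zpowers x : Subgroup G) : Set G) := Subgroup.zpowers_le.mpr hn hu
    have hvN : v ∈ Subgroup.normalizer ((Subgroup.zpowers x : Subgroup G) : Set G) := Subgroup.zpowers_le.mpr hn hv
    -- the odd part centralises
    have hvx : v * x = x * v := by
      obtain ⟨m, hm⟩ := Subgroup.mem_zpowers_iff.mp ((Subgroup.mem_normalizer_iff.mp hvN x).mp (Subgroup.mem_zpowers x))
      have hact : ∀ i : ℕ, v ^ i * x * (v ^ i)⁻¹ = x ^ (m ^ i) := by
        intro i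
        induction i with
        | zero => simp
        | succ i ih =>
          calc v ^ (i + 1) * x * (v ^ (i + 1))⁻¹ = v * (v ^ i * x * (v ^ i)⁻¹) * v⁻¹ := by rw [pow_succ']; group
            _ = x ^ (m ^ (i + 1)) := by rw [ih, ← conj_zpow, ← hm, ← zpow_mul, pow_succ']
      rcases Nat.eq_zero_or_pos k with rfl | hk0
      · rw [pow_zero, orderOf_eq_one_iff] at hk; rw [hk]; simp
      have hm1 : ((2 : ℕ) : ℤ) ∣ m - 1 := by
        by_contra hev
        have heven : (2 : ℤ) ∣ m := by push_cast at hev; omega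
        obtain ⟨t, rfl⟩ := heven
        have h0 : (x ^ (2 * t)) ^ 2 ^ (k - 1) = 1 := by
          rw [← zpow_natCast (x ^ (2 * t)), ← zpow_mul, ← orderOf_dvd_iff_zpow_eq_one, hk]
          push_cast
          rw [show (2 : ℤ) * t * 2 ^ (k - 1) = 2 ^ (k - 1 + 1) * t by ring, Nat.sub_add_cancel hk0]
          exact Dvd.intro t rfl
        rw [hm, conj_pow, conj_eq_one_iff] at h0
        have h9 := orderOf_dvd_of_pow_eq_one h0
        rw [hk] at h9
        have := (Nat.pow_dvd_pow_iff_le_right (by norm_num : 1 < 2)).mp h9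
        omega
      have hpp : ((2 : ℤ) ^ k) ∣ m ^ (2 ^ k) - 1 := by
        have := dvd_sub_pow_of_dvd_sub (R := ℤ) (p := 2) (a := m) (b := 1) hm1 k
        rw [one_pow] at this
        push_cast at this
        exact (pow_dvd_pow _ (Nat.le_succ k)).trans this
      have hfix : v ^ 2 ^ k * x * (v ^ 2 ^ k)⁻¹ = x := by
        rw [hact]
        conv_rhs => rw [← zpow_one x]
        rw [← mul_inv_eq_one, ← zpow_sub, ← orderOf_dvd_iff_zpow_eq_one, hk]
        push_cast; exact hpp
      have hmem : v ^ 2 ^ k ∈ Subgroup.centralizer ({x} : Set G) :=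
        Subgroup.mem_centralizer_singleton_iff.mpr (mul_inv_eq_iff_eq_mul.mp hfix)
      obtain ⟨i, hi⟩ := exists_pow_eq_self_of_coprime (n := 2 ^ k) (x := v) (hvc.pow_right k).symm
      exact Subgroup.mem_centralizer_singleton_iff.mp (hi ▸ pow_mem hmem i)
    -- the 2-part lies with `x` in one Sylow subgroup
    have hux : u * x = x * u := by
      have h2 : IsPGroup 2 ↥(Subgroup.zpowers x ⊔ Subgroup.zpowers u) :=
        (IsPGroup.of_card (p := 2) (n := k) (by rw [Nat.card_zpowers, hk])).to_sup_of_normal_left'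
          (IsPGroup.of_card_dvd_pow (n := j) (by rw [Nat.card_zpowers]; exact orderOf_dvd_of_pow_eq_one hj))
          (Subgroup.zpowers_le.mpr huN)
      obtain ⟨Q, hQ⟩ := h2.exists_le_sylow
      obtain ⟨g, hg⟩ := MulAction.exists_smul_eq G P Q
      have hgu : g⁻¹ * u * g ∈ (P : Subgroup G) := by
        have := hQ (Subgroup.mem_sup_right (Subgroup.mem_zpowers u))
        rw [← hg] at this
        obtain ⟨a, ha, hau⟩ := this
        rw [← hau]
        show g⁻¹ * (g * a * g⁻¹) * g ∈ _
        rw [show g⁻¹ * (g * a * g⁻¹) * g = a by group]; exact ha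
      have hgx : g⁻¹ * x * g ∈ (P : Subgroup G) := by
        have := hQ (Subgroup.mem_sup_left (Subgroup.mem_zpowers x))
        rw [← hg] at this
        obtain ⟨a, ha, hau⟩ := this
        rw [← hau]
        show g⁻¹ * (g * a * g⁻¹) * g ∈ _
        rw [show g⁻¹ * (g * a * g⁻¹) * g = a by group]; exact ha
      have hN : (⟨_, hgu⟩ : (P : Subgroup G)) ∈ Subgroup.normalizer
          ((Subgroup.zpowers (⟨_, hgx⟩ : (P : Subgroup G)) : Subgroup (P : Subgroup G)) : Set (P : Subgroup G)) := by
        have e : Subgroup.zpowers (⟨_, hgx⟩ : (P : Subgroup G)) =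
            ((Subgroup.zpowers x).map (MulAut.conj g⁻¹).toMonoidHom).subgroupOf (P : Subgroup G) := by
          refine Subgroup.map_injective (P : Subgroup G).subtype_injective ?_
          rw [Subgroup.subgroupOf_map_subtype, MonoidHom.map_zpowers, MonoidHom.map_zpowers]
          have hsimp : (MulAut.conj g⁻¹).toMonoidHom x = g⁻¹ * x * g := by simp
          rw [hsimp, inf_eq_left.mpr (Subgroup.zpowers_le.mpr hgx)]
          rfl
        have h3 : g⁻¹ * u * g ∈ Subgroup.normalizer (((Subgroup.zpowers x).map (MulAut.conj g⁻¹).toMonoidHom : Subgroup G) : Set G) :=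
          Subgroup.le_normalizer_map _ ⟨u, huN, by simp⟩
        rw [e, Subgroup.mem_normalizer_iff]
        intro z
        simp only [Subgroup.mem_subgroupOf, Subgroup.coe_mul, Subgroup.coe_inv]
        exact Subgroup.mem_normalizer_iff.mp h3 _
      have h4 := congrArg Subtype.val (Subgroup.mem_centralizer_singleton_iff.mp (h _ hN))
      simp only [Subgroup.coe_mul] at h4
      calc u * x = g * ((g⁻¹ * u * g) * (g⁻¹ * x * g)) * g⁻¹ := by group
        _ = g * ((g⁻¹ * x * g) * (g⁻¹ * u * g)) * g⁻¹ := by rw [h4]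
        _ = x * u := by group
    rw [← huv]
    exact Subgroup.mem_centralizer_singleton_iff.mpr ((show Commute u x from hux).mul_left hvx).eq

end Cfsg.Agent.S4028
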