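import Cfsg.Agent.S0012
import Cfsg.Agent.Lib.CharExtra
import Cfsg.Agent.Lib.Chars.Linear
-- import your own Cfsg.Agent.* helpers here

set_option autoImplicit false
open Cfsg

namespace Cfsg.Agent.S4029

/-- Let P be a finite 2-group in which N_P(⟨y⟩) = C_P(y) for every y ∈ P. If s is the number of conjugacy classes of involutions of P, then #(P/Φ(P)) ≤ s + 1; in particular the subgroup generated by the involutions of P has order at least #(P/Φ(P)). -/
theorem result {P : Type*} [Group P] [Finite P] (hP : IsPGroup 2 P)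
    (hirr : ∀ y : P, Subgroup.normalizer ((Subgroup.zpowers y : Subgroup P) : Set P) ≤ Subgroup.centralizer {y}) :
    Nat.card (P ⧸ frattini P) ≤ Nat.card {c : ConjClasses P // ∃ y : P, ConjClasses.mk y = c ∧ orderOf y = 2} + 1 ∧
    Nat.card (P ⧸ frattini P) ≤ Nat.card (Subgroup.closure {y : P | orderOf y = 2}) := by
  classical
  haveI : Fact (Nat.Prime 2) := ⟨Nat.prime_two⟩
  set T := {c : ConjClasses P // ∃ y : P, ConjClasses.mk y = c ∧ orderOf y = 2} with hT
  suffices hmain : Nat.card (P ⧸ frattini P) ≤ Nat.card T + 1 by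
    refine ⟨hmain, hmain.trans ?_⟩
    rw [← Finite.card_option]
    let r : Option T → ↥(Subgroup.closure {y : P | orderOf y = 2}) := fun o => match o with
      | none => 1
      | some c => ⟨c.2.choose, Subgroup.subset_closure c.2.choose_spec.2⟩
    refine Nat.card_le_card_of_injective r ?_
    rintro (_ | a) (_ | b) h
    · rfl
    · have h' : (1 : P) = b.2.choose := congrArg Subtype.val h
      have := b.2.choose_spec.2
      rw [← h', orderOf_one] at this
      exact absurd this (by norm_num)
    · have h' : a.2.choose = (1 : P) := congrArg Subtype.val h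
      have := a.2.choose_spec.2
      rw [h', orderOf_one] at this
      exact absurd this (by norm_num)
    · have h' : a.2.choose = b.2.choose := congrArg Subtype.val h
      refine congrArg some (Subtype.ext ?_)
      rw [← a.2.choose_spec.1, ← b.2.choose_spec.1, h']
  -- real classes consist of involutions
  have hreal : Nat.card {C : ConjClasses P // ∀ g : P, ConjClasses.mk g = C → IsConj g g⁻¹} ≤ Nat.card T + 1 := by
    rw [← Finite.card_option]
    refine Nat.card_le_card_of_injective
      (fun C => if h : C.1 = ConjClasses.mk 1 then none else some ⟨C.1, ?_⟩) ?_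
    · obtain ⟨g, hg⟩ := ConjClasses.mk_surjective C.1
      obtain ⟨c, hc⟩ := isConj_iff.mp (C.2 g hg)
      have hn : c ∈ Subgroup.normalizer ((Subgroup.zpowers g : Subgroup P) : Set P) := by
        refine Subgroup.mem_normalizer_iff.mpr fun u => ⟨fun hu => ?_, fun hu => ?_⟩
        · obtain ⟨i, rfl⟩ := Subgroup.mem_zpowers_iff.mp hu
          rw [← MulAut.conj_apply, map_zpow, MulAut.conj_apply, hc]
          exact zpow_mem (inv_mem (Subgroup.mem_zpowers g)) i
        · obtain ⟨i, hi⟩ := Subgroup.mem_zpowers_iff.mp hu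
          refine Subgroup.mem_zpowers_iff.mpr ⟨-i, (MulAut.conj c).injective ?_⟩
          rw [map_zpow, MulAut.conj_apply, MulAut.conj_apply, hc, inv_zpow', neg_neg, hi]
      have h1 := Subgroup.mem_centralizer_singleton_iff.mp (hirr g hn)
      rw [h1, mul_inv_cancel_right] at hc
      refine ⟨g, hg, orderOf_eq_prime (by rw [pow_two]; nth_rw 1 [hc]; rw [inv_mul_cancel]) fun e => h ?_⟩
      rw [← hg, e]
    · intro a b hab
      refine Subtype.ext ?_
      by_cases ha : a.1 = ConjClasses.mk 1 <;> by_cases hb : b.1 = ConjClasses.mk 1 <;>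
        simp [ha, hb] at hab ⊢
      injection hab
  refine le_trans ?_ (CfsgLib.CharExtra.card_real (G := P) ▸ hreal)
  -- linear characters of the Frattini quotient
  obtain ⟨hcomm, hpow⟩ := Cfsg.Agent.S0012.result 2 hP
  haveI : (frattini P).Normal := inferInstance
  haveI : IsMulCommutative (P ⧸ frattini P) :=
    Subgroup.Normal.quotient_commutative_iff_commutator_le.mpr hcomm
  letI : CommGroup (P ⧸ frattini P) := IsMulCommutative.instCommGroup
  haveI : NeZero (Monoid.exponent (P ⧸ frattini P) : ℂ) :=
    ⟨by exact_mod_cast Monoid.exponent_ne_zero_of_finite⟩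
  rw [← CommGroup.card_monoidHom_of_hasEnoughRootsOfUnity (P ⧸ frattini P) ℂ]
  refine Nat.card_le_card_of_injective (fun f => ⟨CfsgLib.Chars.homIrr (f.comp (QuotientGroup.mk' (frattini P))), fun g => ?_⟩) ?_
  · show ((f (QuotientGroup.mk' (frattini P) g) : ℂ)).im = 0
    have h2 : (f (QuotientGroup.mk' (frattini P) g) : ℂ) ^ 2 = 1 := by
      rw [← Units.val_pow_eq_pow_val, ← map_pow, ← map_pow, QuotientGroup.mk'_apply,
        (QuotientGroup.eq_one_iff (g ^ 2)).mpr (hpow g), map_one]
      rfl
    rcases sq_eq_one_iff.mp h2 with e | e <;> rw [e] <;> simp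
  · intro f f' h
    have h' := CfsgLib.Chars.homIrr_injective (congrArg Subtype.val h)
    refine MonoidHom.ext fun q => Units.ext ?_
    obtain ⟨x, rfl⟩ := QuotientGroup.mk'_surjective _ q
    exact congrArg Units.val (DFunLike.congr_fun h' x)

end Cfsg.Agent.S4029
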