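import Cfsg.Statements.S4032
import Cfsg.Agent.Lib.GroupB.Coprime
import Cfsg.Agent.Lib.Thompson.PClosed

set_option autoImplicit false
open Cfsg

namespace Cfsg.Agent.S4032

/-- Let π be a set of primes and G a finite group in which N_G(⟨x⟩) = C_G(x) for every π-element x. If N is a normal subgroup of G whose order is divisible by no prime of π, then G/N has the same property: N_{G/N}(⟨y⟩) = C_{G/N}(y) for every π-element y of G/N. -/
theorem result {G : Type*} [Group G] [Finite G] (π : Set ℕ)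
    (hirr : ∀ x : G, (∀ r : ℕ, r.Prime → r ∣ orderOf x → r ∈ π) →
      Subgroup.normalizer ((Subgroup.zpowers x : Subgroup G) : Set G) ≤ Subgroup.centralizer {x})
    (N : Subgroup G) [N.Normal] (hN : ∀ r : ℕ, r.Prime → r ∣ Nat.card N → r ∉ π) :
    ∀ y : G ⧸ N, (∀ r : ℕ, r.Prime → r ∣ orderOf y → r ∈ π) →
      Subgroup.normalizer ((Subgroup.zpowers y : Subgroup (G ⧸ N)) : Set (G ⧸ N)) ≤ Subgroup.centralizer {y} := by
  intro y hy n hn
  classical
  obtain ⟨x₀, rfl⟩ := QuotientGroup.mk'_surjective N y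
  obtain ⟨m, rfl⟩ := QuotientGroup.mk'_surjective N n
  -- a π-lift
  set d := orderOf (QuotientGroup.mk' N x₀) with hd
  have hcopdN : ∀ e : ℕ, (∀ r : ℕ, r.Prime → r ∣ e → r ∈ π) → (Nat.card N).Coprime e := fun e he =>
    Nat.coprime_of_dvd fun r hr h1 h2 => hN r hr h1 (he r hr h2)
  have hdN : d.Coprime (Nat.card N) := (hcopdN d hy).symm
  obtain ⟨j, hj⟩ := exists_pow_eq_self_of_coprime (n := Nat.card N) (x := QuotientGroup.mk' N x₀) hdN.symm
  set x := (x₀ ^ Nat.card N) ^ j with hx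
  have hxmap : QuotientGroup.mk' N x = QuotientGroup.mk' N x₀ := by rw [hx, map_pow, map_pow, hj]
  have hxd : orderOf x ∣ d := by
    apply orderOf_dvd_of_pow_eq_one
    rw [hx, ← pow_mul, mul_comm, pow_mul, ← pow_mul x₀, mul_comm (Nat.card N), pow_mul]
    have h1 : x₀ ^ d ∈ N := (QuotientGroup.eq_one_iff _).mp (by
      rw [← QuotientGroup.mk'_apply, map_pow, hd, pow_orderOf_eq_one])
    have h2 : (x₀ ^ d) ^ Nat.card N = 1 := congrArg Subtype.val (pow_card_eq_one' (x := (⟨_, h1⟩ : N)))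
    rw [h2, one_pow]
  have hxπ : ∀ r : ℕ, r.Prime → r ∣ orderOf x → r ∈ π := fun r hr hrd => hy r hr (hrd.trans hxd)
  have hcop : (Nat.card N).Coprime (Nat.card (Subgroup.zpowers x)) := by
    rw [Nat.card_zpowers]; exact hcopdN _ hxπ
  obtain ⟨i, hi⟩ : ∃ i : ℤ, QuotientGroup.mk' N (x ^ i) = QuotientGroup.mk' N (m * x * m⁻¹) := by
    have h1 := (Subgroup.mem_normalizer_iff.mp hn _).mp (Subgroup.mem_zpowers (QuotientGroup.mk' N x₀))
    obtain ⟨i, hi⟩ := Subgroup.mem_zpowers_iff.mp h1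
    exact ⟨i, by rw [map_zpow, hxmap, hi, map_mul, map_mul, map_inv, hxmap]⟩
  have hle : Subgroup.zpowers (m * x * m⁻¹) ≤ N ⊔ Subgroup.zpowers x := by
    rw [Subgroup.zpowers_le]
    have h1 : m * x * m⁻¹ * (x ^ i)⁻¹ ∈ N := (QuotientGroup.eq_one_iff _).mp (by
      rw [← QuotientGroup.mk'_apply, map_mul, map_inv, hi, mul_inv_cancel])
    rw [show m * x * m⁻¹ = m * x * m⁻¹ * (x ^ i)⁻¹ * x ^ i by group]
    exact Subgroup.mul_mem _ (Subgroup.mem_sup_left h1)
      (Subgroup.mem_sup_right (Subgroup.zpow_mem _ (Subgroup.mem_zpowers x) i))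
  obtain ⟨a, ha, hconj⟩ := CfsgLib.GroupB.Coprime.sup_conj N (Subgroup.zpowers x) (Subgroup.zpowers (m * x * m⁻¹))
    (by rw [Subgroup.normalizer_eq_top]; exact le_top) hcop hle
    (by rw [Nat.card_zpowers, Nat.card_zpowers, CfsgLib.ThompsonNPC.orderOf_conj_eq])
    (Or.inr (by letI : CommGroup ↥(Subgroup.zpowers x) := IsCyclic.commGroup; infer_instance))
  have hnorm : a⁻¹ * m ∈ Subgroup.normalizer ((Subgroup.zpowers x : Subgroup G) : Set G) := by
    rw [CfsgLib.GroupB.Coprime.mem_normalizer_iff_map_conj_eq]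
    have h1 : (Subgroup.zpowers x).map (MulAut.conj m).toMonoidHom = (Subgroup.zpowers x).map (MulAut.conj a).toMonoidHom := by
      rw [← hconj, MonoidHom.map_zpowers]; rfl
    have h2 := congrArg (Subgroup.map (MulAut.conj a⁻¹).toMonoidHom) h1
    rw [Subgroup.map_map, Subgroup.map_map] at h2
    have e1 : (MulAut.conj a⁻¹).toMonoidHom.comp (MulAut.conj m).toMonoidHom = (MulAut.conj (a⁻¹ * m)).toMonoidHom := by
      ext z; simp [mul_assoc]
    have e2 : (MulAut.conj a⁻¹).toMonoidHom.comp (MulAut.conj a).toMonoidHom = MonoidHom.id G := by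
      ext z; simp [mul_assoc]
    rw [e1, e2, Subgroup.map_id] at h2
    exact h2
  have hc := Subgroup.mem_centralizer_singleton_iff.mp (hirr x hxπ hnorm)
  have h3 := congrArg (QuotientGroup.mk' N) hc
  simp only [map_mul, map_inv, hxmap, show QuotientGroup.mk' N a = 1 from (QuotientGroup.eq_one_iff a).mpr ha,
    inv_one, one_mul] at h3
  exact Subgroup.mem_centralizer_singleton_iff.mpr h3

end Cfsg.Agent.S4032
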