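import Cfsg.Statements.S4035
import Cfsg.Agent.Lib.GroupB.SchurZassenhaus
import Mathlib.GroupTheory.GroupAction.Quotient

set_option autoImplicit false
open Cfsg

namespace Cfsg.Agent.S4035

theorem card_class {G : Type*} [Group G] [Finite G] (x : G) :
    (ConjClasses.mk x).carrier.ncard = (Subgroup.centralizer ({x} : Set G)).index := by
  have h := MulAction.index_stabilizer (ConjAct G) x
  rw [ConjAct.stabilizer_eq_centralizer, ConjAct.orbit_eq_carrier_conjClasses] at h
  exact h.symm

/-- Let G be a finite group and p a prime such that p divides the size of no conjugacy class of p-regular elements (elements of order prime to p). Then G is the internal direct product of a Sylow p-subgroup P and a normal subgroup H of order prime to p: P is normal, P ⊓ H = 1 and PH = G. -/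
theorem result {G : Type*} [Group G] [Finite G] {p : ℕ} [Fact p.Prime]
    (h : ∀ x : G, (orderOf x).Coprime p → ¬ p ∣ (ConjClasses.mk x).carrier.ncard) (P : Sylow p G) :
    (P : Subgroup G).Normal ∧ ∃ H : Subgroup G, H.Normal ∧ ¬ p ∣ Nat.card H ∧
      (P : Subgroup G) ⊓ H = ⊥ ∧ (P : Subgroup G) ⊔ H = ⊤ := by
  classical
  haveI := Fintype.ofFinite G
  haveI := Fintype.ofFinite (Sylow p G)
  have hp : p.Prime := Fact.out
  -- each element normalises some Sylow subgroup
  have hfix : ∀ g : G, 0 < Fintype.card (MulAction.fixedBy (Sylow p G) g) := by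
    intro g
    let pv := p ^ (orderOf g).factorization p
    let m := orderOf g / pv
    have hmp : m.Coprime pv := ((Nat.coprime_ordCompl hp (orderOf_pos g).ne').pow_left _).symm
    obtain ⟨a, b, hab⟩ := Int.isCoprime_iff_gcd_eq_one.mpr (show Int.gcd (m : ℤ) pv = 1 by
      rw [Int.gcd_natCast_natCast]; exact hmp.gcd_eq_one)
    have hmul : pv * m = orderOf g := Nat.ordProj_mul_ordCompl_eq_self _ p
    let u : G := (g ^ m) ^ a
    let s : G := (g ^ pv) ^ b
    have hg : g = u * s := by
      simp only [u, s]
      rw [← zpow_natCast g m, ← zpow_natCast g pv, ← zpow_mul, ← zpow_mul, ← zpow_add, mul_comm (m : ℤ),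
        mul_comm (pv : ℤ), hab, zpow_one]
    have hus : Commute u s := ((Commute.refl g).pow_pow _ _).zpow_zpow _ _
    have hu : u ^ pv = 1 := by
      simp only [u]
      rw [← zpow_natCast _ pv, ← zpow_mul, mul_comm, zpow_mul, zpow_natCast, ← pow_mul, mul_comm m, hmul,
        pow_orderOf_eq_one, one_zpow]
    have hs : (orderOf s).Coprime p := by
      have h1 : s ^ m = 1 := by
        simp only [s]
        rw [← zpow_natCast _ m, ← zpow_mul, mul_comm, zpow_mul, zpow_natCast, ← pow_mul, hmul,
          pow_orderOf_eq_one, one_zpow]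
      exact Nat.Coprime.coprime_dvd_left (orderOf_dvd_of_pow_eq_one h1) (Nat.coprime_ordCompl hp (orderOf_pos g).ne').symm
    let C := Subgroup.centralizer ({s} : Set G)
    have hC : ¬ p ∣ C.index := card_class s ▸ h s hs
    have huC : u ∈ C := Subgroup.mem_centralizer_singleton_iff.mpr hus.eq
    have hup : IsPGroup p (Subgroup.zpowers u) := by
      obtain ⟨i, -, hi⟩ := (Nat.dvd_prime_pow hp).mp (orderOf_dvd_of_pow_eq_one hu)
      exact IsPGroup.of_card (n := i) (by rw [Nat.card_zpowers, hi])
    obtain ⟨Q, hQ⟩ := (hup.comap_subtype (K := C)).exists_le_sylow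
    have hQc : Nat.card ((Q : Subgroup C).map C.subtype) = p ^ (Nat.card G).factorization p := by
      rw [Subgroup.card_map_of_injective C.subtype_injective, Q.card_eq_multiplicity]
      congr 1
      rw [← C.card_mul_index, Nat.factorization_mul Nat.card_pos.ne' Subgroup.index_ne_zero_of_finite,
        Finsupp.add_apply, Nat.factorization_eq_zero_of_not_dvd hC, add_zero]
    refine Fintype.card_pos_iff.mpr ⟨⟨Sylow.ofCard _ hQc, ?_⟩⟩
    rw [MulAction.mem_fixedBy, Sylow.smul_eq_iff_mem_normalizer]
    show g ∈ Subgroup.normalizer (((Q : Subgroup C).map C.subtype : Subgroup G) : Set G)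
    rw [hg]
    refine Subgroup.mul_mem _ (Subgroup.le_normalizer ⟨⟨u, huC⟩, hQ (show (⟨u, huC⟩ : C).1 ∈ Subgroup.zpowers u from Subgroup.mem_zpowers u), rfl⟩)
      (Subgroup.centralizer_le_normalizer _ ?_)
    rw [Subgroup.mem_centralizer_iff]
    rintro _ ⟨y, -, rfl⟩
    exact Subgroup.mem_centralizer_singleton_iff.mp y.2
  -- hence there is just one
  have hone : Nat.card (Sylow p G) = 1 := by
    have key := MulAction.sum_card_fixedBy_eq_card_orbits_mul_card_group G (Sylow p G)
    have horb : Fintype.card (Quotient (MulAction.orbitRel G (Sylow p G))) = 1 := by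
      rw [Fintype.card_eq_one_iff]
      refine ⟨Quotient.mk'' (default : Sylow p G), fun x => ?_⟩
      induction x using Quotient.inductionOn' with
      | h Q =>
        rw [Quotient.eq'', MulAction.orbitRel_apply, MulAction.mem_orbit_iff]
        exact MulAction.exists_smul_eq G default Q
    rw [horb, one_mul] at key
    have hle : ∀ g ∈ (Finset.univ : Finset G), 1 ≤ Fintype.card (MulAction.fixedBy (Sylow p G) g) :=
      fun g _ => hfix g
    have heq := (Finset.sum_eq_sum_iff_of_le hle).mp (by rw [key, Finset.sum_const, smul_eq_mul, mul_one, Finset.card_univ])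
    have h1 := heq 1 (Finset.mem_univ _)
    rw [Nat.card_eq_fintype_card, h1]
    exact Fintype.card_congr (Equiv.subtypeUnivEquiv fun Q => one_smul G Q).symm
  haveI : Subsingleton (Sylow p G) := (Nat.card_eq_one_iff_unique.mp hone).1
  have hPn : (P : Subgroup G).Normal := Sylow.normal_of_subsingleton P
  haveI := hPn
  refine ⟨hPn, ?_⟩
  have hnd : ¬ p ∣ (P : Subgroup G).index := P.not_dvd_index
  obtain ⟨i, hi⟩ := IsPGroup.iff_card.mp P.isPGroup'
  obtain ⟨H, hH⟩ := Subgroup.exists_right_complement'_of_coprime (N := (P : Subgroup G))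
    (hi ▸ ((hp.coprime_iff_not_dvd).mpr hnd).pow_left i)
  have hHc : Nat.card H = (P : Subgroup G).index := hH.symm.index_eq_card.symm
  have hcent : ∀ x ∈ H, ∀ y ∈ (P : Subgroup G), x * y = y * x := by
    intro x hx y hy
    have hxc : (orderOf x).Coprime p :=
      ((hp.coprime_iff_not_dvd).mpr fun hd => hnd (hd.trans (hHc ▸ Subgroup.orderOf_dvd_natCard H hx))).symm
    have hC : ¬ p ∣ (Subgroup.centralizer ({x} : Set G)).index := card_class x ▸ h x hxc
    obtain ⟨Q⟩ : Nonempty (Sylow p (Subgroup.centralizer ({x} : Set G))) := inferInstance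
    have hQc : Nat.card ((Q : Subgroup _).map (Subgroup.centralizer ({x} : Set G)).subtype) =
        p ^ (Nat.card G).factorization p := by
      rw [Subgroup.card_map_of_injective (Subgroup.subtype_injective _), Q.card_eq_multiplicity]
      congr 1
      rw [← (Subgroup.centralizer ({x} : Set G)).card_mul_index,
        Nat.factorization_mul Nat.card_pos.ne' Subgroup.index_ne_zero_of_finite,
        Finsupp.add_apply, Nat.factorization_eq_zero_of_not_dvd hC, add_zero]
    have hy' : y ∈ (Sylow.ofCard _ hQc : Sylow p G) := Subsingleton.elim P (Sylow.ofCard _ hQc) ▸ hy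
    obtain ⟨z, -, rfl⟩ := hy'
    exact (Subgroup.mem_centralizer_singleton_iff.mp z.2).symm
  refine ⟨H, ?_, hHc ▸ hnd, hH.disjoint.eq_bot, hH.sup_eq_top⟩
  rw [← Subgroup.normalizer_eq_top_iff, eq_top_iff, ← hH.sup_eq_top, sup_le_iff]
  refine ⟨fun y hy => Subgroup.centralizer_le_normalizer _ ?_, Subgroup.le_normalizer⟩
  rw [Subgroup.mem_centralizer_iff]
  exact fun x hx => hcent x hx y hy

end Cfsg.Agent.S4035
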