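import Cfsg.Statements.S4034
import Cfsg.Agent.S0144
import Cfsg.Agent.S4035
import Cfsg.Agent.Lib.GroupB.Hall
import Cfsg.Agent.Lib.GroupB.Coprime
import Cfsg.Agent.Lib.GenFitting
import Mathlib.Tactic.Ring

set_option autoImplicit false
open Cfsg

namespace Cfsg.Agent.S4034
universe u

/-- Centraliser indices in a normal subgroup divide those in the group. -/
theorem index_sub_dvd {G : Type u} [Group G] [Finite G] (N : Subgroup G) [N.Normal] (C : Subgroup G) :
    (C.subgroupOf N).index ∣ C.index := by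
  show C.relIndex N ∣ C.index
  have h1 : C.relIndex N = C.relIndex (C ⊔ N) := by
    have e3 : N.relIndex (C ⊔ N) = N.relIndex C := by
      rw [sup_comm]
      exact CfsgLib.GroupB.Coprime.relIndex_sup_of_le_normalizer (by rw [Subgroup.normalizer_eq_top N]; exact le_top)
    have e4 := Subgroup.relIndex_mul_relIndex (C ⊓ N) N (C ⊔ N) inf_le_right le_sup_right
    have e5 := Subgroup.relIndex_mul_relIndex (C ⊓ N) C (C ⊔ N) inf_le_left le_sup_left
    rw [Subgroup.inf_relIndex_right, e3] at e4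
    rw [Subgroup.inf_relIndex_left] at e5
    exact Nat.eq_of_mul_eq_mul_left (Nat.pos_of_ne_zero (Subgroup.index_ne_zero_of_finite (H := N.subgroupOf C)))
      ((mul_comm _ _).trans (e4.trans e5.symm))
  rw [h1]
  exact Dvd.intro _ (Subgroup.relIndex_mul_index le_sup_left)

theorem centralizer_subgroupOf {G : Type u} [Group G] (N : Subgroup G) (x : N) :
    (Subgroup.centralizer ({(x : G)} : Set G)).subgroupOf N = Subgroup.centralizer ({x} : Set N) := by
  ext y
  simp only [Subgroup.mem_subgroupOf, Subgroup.mem_centralizer_iff, Set.mem_singleton_iff, forall_eq]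
  exact ⟨fun h => Subtype.ext h, fun h => congrArg Subtype.val h⟩

theorem index_map_dvd {G : Type u} [Group G] [Finite G] {Q : Type u} [Group Q] (f : G →* Q)
    (hf : Function.Surjective f) (x : G) :
    (Subgroup.centralizer ({f x} : Set Q)).index ∣ (Subgroup.centralizer ({x} : Set G)).index := by
  refine (Subgroup.index_dvd_of_le ?_).trans (Subgroup.index_map_dvd _ hf)
  rintro _ ⟨y, hy, rfl⟩
  refine Subgroup.mem_centralizer_iff.mpr fun g hg => ?_
  rw [Set.mem_singleton_iff.mp hg, ← map_mul, ← map_mul, Subgroup.mem_centralizer_iff.mp hy x rfl]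

/-- A finite group with all `p`-regular class sizes powers of `p`, or with an abelian subgroup of `p`-power index, is solvable. -/
theorem solvable_of (n : ℕ) : ∀ (G : Type u) [Group G] [Finite G], Nat.card G ≤ n → ∀ p : ℕ, p.Prime →
    ((∀ x : G, (orderOf x).Coprime p → ∃ k, (Subgroup.centralizer ({x} : Set G)).index ∣ p ^ k) ∨
      (∃ H : Subgroup G, IsMulCommutative H ∧ ∃ k, H.index ∣ p ^ k)) → Group.IsSolvable G := by
  induction n with
  | zero => intro G _ _ h; exact absurd h (by simpa using (Nat.card_pos (α := G)).ne')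
  | succ n ih =>
  intro G _ _ hn p hp h
  haveI := Fact.mk hp
  by_cases hnt : Nontrivial G
  swap
  · haveI := not_nontrivial_iff_subsingleton.mp hnt
    exact Group.isSolvable_of_comm fun a b => Subsingleton.elim _ _
  by_cases hsimp : ∃ N : Subgroup G, N.Normal ∧ N ≠ ⊥ ∧ N ≠ ⊤
  · obtain ⟨N, hN, hb, ht⟩ := hsimp
    haveI : Nontrivial N := (Subgroup.nontrivial_iff_ne_bot N).mpr hb
    have h1 := Subgroup.card_eq_card_quotient_mul_card_subgroup N
    have h2 : 1 < Nat.card N := Finite.one_lt_card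
    have h3 : 1 < Nat.card (G ⧸ N) := by
      rcases Nat.lt_or_ge 1 (Nat.card (G ⧸ N)) with h | h
      · exact h
      · exfalso
        refine ht (Subgroup.index_eq_one.mp ?_)
        have := (Nat.card_pos (α := G ⧸ N))
        show Nat.card (G ⧸ N) = 1
        omega
    have hNn : Nat.card N ≤ n := by nlinarith
    have hQn : Nat.card (G ⧸ N) ≤ n := by nlinarith
    have hNs : Group.IsSolvable N := by
      refine ih N hNn p hp (h.imp (fun h x hx => ?_) fun ⟨H, hH, k, hk⟩ => ⟨H.subgroupOf N, ?_, k, (index_sub_dvd N H).trans hk⟩)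
      · obtain ⟨k, hk⟩ := h x (by rwa [Subgroup.orderOf_coe])
        exact ⟨k, centralizer_subgroupOf N x ▸ (index_sub_dvd N _).trans hk⟩
      · exact ⟨⟨fun a b => Subtype.ext (Subtype.ext
          (congrArg Subtype.val (hH.is_comm.comm ⟨_, a.2⟩ ⟨_, b.2⟩) : ((a : N) : G) * (b : N) = (b : N) * (a : N)))⟩⟩
    have hQs : Group.IsSolvable (G ⧸ N) := by
      refine ih (G ⧸ N) hQn p hp (h.imp (fun h q hq => ?_) fun ⟨H, hH, k, hk⟩ =>
        ⟨H.map (QuotientGroup.mk' N), ?_, k, (Subgroup.index_map_dvd _ (QuotientGroup.mk'_surjective N)).trans hk⟩)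
      · obtain ⟨g, rfl⟩ := QuotientGroup.mk_surjective q
        obtain ⟨e, m, hm, hem⟩ := Nat.exists_eq_pow_mul_and_not_dvd (orderOf_pos g).ne' p hp.ne_one
        obtain ⟨a, ha⟩ := exists_pow_eq_self_of_coprime (n := p ^ e) (x := (QuotientGroup.mk g : G ⧸ N)) (hq.symm.pow_left e)
        have hco : (orderOf (g ^ (p ^ e * a))).Coprime p := by
          refine Nat.Coprime.coprime_dvd_left (orderOf_dvd_of_pow_eq_one ?_) ((hp.coprime_iff_not_dvd).mpr hm).symm
          rw [← pow_mul, show p ^ e * a * m = orderOf g * a by rw [hem]; ring, pow_mul, pow_orderOf_eq_one, one_pow]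
        obtain ⟨k, hk⟩ := h _ hco
        refine ⟨k, ?_⟩
        have := index_map_dvd (QuotientGroup.mk' N) (QuotientGroup.mk'_surjective N) (g ^ (p ^ e * a))
        rw [map_pow, pow_mul, QuotientGroup.mk'_apply, ha] at this
        exact this.trans hk
      · haveI := hH
        exact Subgroup.map_isMulCommutative H (QuotientGroup.mk' N)
    exact Group.isSolvable_of_ker_le_range N.subtype (QuotientGroup.mk' N) (by rw [QuotientGroup.ker_mk', Subgroup.range_subtype])
  push Not at hsimp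
  haveI : IsSimpleGroup G := ⟨fun N hN => or_iff_not_imp_left.mpr (hsimp N hN)⟩
  by_contra hns
  have hcen : Subgroup.center G = ⊥ := by
    by_contra hc
    refine hns ?_
    have htop := hsimp _ inferInstance hc
    exact Group.isSolvable_of_comm fun a b => (Subgroup.mem_center_iff.mp (htop ▸ Subgroup.mem_top b : b ∈ Subgroup.center G) a)
  have hnp : ¬ IsPGroup p G := fun hP => hns (haveI := hP.isNilpotent; inferInstance)
  obtain ⟨z, hz1, k, hk⟩ : ∃ z : G, z ≠ 1 ∧ ∃ k, (Subgroup.centralizer ({z} : Set G)).index ∣ p ^ k := by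
    rcases h with h | ⟨H, hH, k, hk⟩
    · obtain ⟨g, hg⟩ : ∃ g : G, ¬ ∃ i, orderOf g = p ^ i := by
        by_contra hc
        push Not at hc
        exact hnp (IsPGroup.iff_orderOf.mpr hc)
      obtain ⟨e, m, hm, hem⟩ := Nat.exists_eq_pow_mul_and_not_dvd (orderOf_pos g).ne' p hp.ne_one
      refine ⟨g ^ p ^ e, fun h1 => hg ?_, h _ ?_⟩
      · obtain ⟨i, -, hi⟩ := (Nat.dvd_prime_pow hp).mp (orderOf_dvd_of_pow_eq_one h1)
        exact ⟨i, hi⟩
      · refine Nat.Coprime.coprime_dvd_left (orderOf_dvd_of_pow_eq_one ?_) ((hp.coprime_iff_not_dvd).mpr hm).symm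
        rw [← pow_mul, ← hem, pow_orderOf_eq_one]
    · have hne : H ≠ ⊥ := by
        rintro rfl
        rw [Subgroup.index_bot] at hk
        obtain ⟨i, -, hi⟩ := (Nat.dvd_prime_pow hp).mp hk
        exact hnp (IsPGroup.of_card hi)
      obtain ⟨z, hz, hz1⟩ := H.bot_or_exists_ne_one.resolve_left hne
      refine ⟨z, hz1, k, (Subgroup.index_dvd_of_le fun y hy => ?_).trans hk⟩
      exact Subgroup.mem_centralizer_iff.mpr fun g hg => by
        rw [Set.mem_singleton_iff.mp hg]; exact congrArg Subtype.val (hH.is_comm.comm ⟨z, hz⟩ ⟨y, hy⟩)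
  obtain ⟨i, -, hi⟩ := (Nat.dvd_prime_pow hp).mp hk
  exact Cfsg.Agent.S0144.no_prime_power_class G hp z (by rw [hcen, Subgroup.mem_bot]; exact hz1) hi

/-- Subgroups of order prime to `p` are abelian when all `p`-regular class sizes are powers of `p`. -/
theorem comm_of (n : ℕ) : ∀ (G : Type u) [Group G] [Finite G], Nat.card G ≤ n → ∀ p : ℕ, p.Prime →
    (∀ x : G, (orderOf x).Coprime p → ∃ k, (Subgroup.centralizer ({x} : Set G)).index ∣ p ^ k) →
      ∀ K : Subgroup G, ¬ p ∣ Nat.card K → ∀ a ∈ K, ∀ b ∈ K, a * b = b * a := by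
  induction n with
  | zero => intro G _ _ h; exact absurd h (by simpa using (Nat.card_pos (α := G)).ne')
  | succ n ih =>
  intro G _ _ hn p hp h K hK
  haveI := Fact.mk hp
  haveI hsolv : Group.IsSolvable G := solvable_of _ G le_rfl p hp (Or.inl h)
  by_cases hP : ∃ P : Subgroup G, P.Normal ∧ P ≠ ⊥ ∧ IsPGroup p P
  · obtain ⟨P, hPn, hPne, hPp⟩ := hP
    haveI : Nontrivial P := (Subgroup.nontrivial_iff_ne_bot P).mpr hPne
    have h1 := Subgroup.card_eq_card_quotient_mul_card_subgroup P
    have h2 : 1 < Nat.card P := Finite.one_lt_card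
    have := (Nat.card_pos (α := G ⧸ P))
    have hQn : Nat.card (G ⧸ P) ≤ n := by nlinarith
    intro a ha b hb
    have hq := ih (G ⧸ P) hQn p hp (fun q hq => by
      obtain ⟨g, rfl⟩ := QuotientGroup.mk_surjective q
      obtain ⟨e, m, hm, hem⟩ := Nat.exists_eq_pow_mul_and_not_dvd (orderOf_pos g).ne' p hp.ne_one
      obtain ⟨c, hc⟩ := exists_pow_eq_self_of_coprime (n := p ^ e) (x := (QuotientGroup.mk g : G ⧸ P)) (hq.symm.pow_left e)
      obtain ⟨k, hk⟩ := h (g ^ (p ^ e * c)) (by
        refine Nat.Coprime.coprime_dvd_left (orderOf_dvd_of_pow_eq_one ?_) ((hp.coprime_iff_not_dvd).mpr hm).symm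
        rw [← pow_mul, show p ^ e * c * m = orderOf g * c by rw [hem]; ring, pow_mul, pow_orderOf_eq_one, one_pow])
      refine ⟨k, ?_⟩
      have := index_map_dvd (QuotientGroup.mk' P) (QuotientGroup.mk'_surjective P) (g ^ (p ^ e * c))
      rw [map_pow, pow_mul, QuotientGroup.mk'_apply, hc] at this
      exact this.trans hk) (K.map (QuotientGroup.mk' P))
      (fun hd => hK (hd.trans (Subgroup.card_map_dvd _ _))) _ ⟨a, ha, rfl⟩ _ ⟨b, hb, rfl⟩
    rw [← map_mul, ← map_mul, QuotientGroup.mk'_apply, QuotientGroup.mk'_apply, QuotientGroup.eq] at hq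
    have hmem : (a * b)⁻¹ * (b * a) ∈ P ⊓ K := ⟨hq, K.mul_mem (K.inv_mem (K.mul_mem ha hb)) (K.mul_mem hb ha)⟩
    have hbot : P ⊓ K = ⊥ := by
      refine CfsgLib.GroupB.Coprime.inf_eq_bot_of_coprime ?_
      obtain ⟨i, hi⟩ := IsPGroup.iff_card.mp hPp
      rw [hi]
      exact ((hp.coprime_iff_not_dvd).mpr hK).pow_left i
    rw [hbot, Subgroup.mem_bot, inv_mul_eq_one] at hmem
    exact hmem
  push Not at hP
  set F := Cfsg.fittingSubgroup G
  haveI hFn : F.Normal := CfsgLib.Core.fittingSubgroup_normal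
  haveI hFnil : Group.IsNilpotent F := CfsgLib.Core.isNilpotent_fittingSubgroup
  have hFp : ¬ p ∣ Nat.card F := by
    intro hd
    obtain ⟨P⟩ : Nonempty (Sylow p F) := inferInstance
    have h03 : Group.IsNilpotent F ↔ ∀ (r : ℕ), Fact r.Prime → ∀ P : Sylow r F, (P : Subgroup F).Normal :=
      (Group.isNilpotent_of_finite_tfae (G := F)).out 0 3
    haveI := Sylow.characteristic_of_normal P (h03.mp hFnil p inferInstance P)
    haveI : ((P : Subgroup F).map F.subtype).Normal := ConjAct.normal_of_characteristic_of_normal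
    refine hP _ this ?_ (P.isPGroup'.map _)
    intro hb
    rw [Subgroup.map_eq_bot_iff_of_injective _ F.subtype_injective] at hb
    have := P.dvd_card_of_dvd_card hd
    rw [hb, Subgroup.card_bot] at this
    exact hp.not_dvd_one this
  -- `p`-regular elements centralise the Fitting subgroup
  have hcen : ∀ y : G, (orderOf y).Coprime p → F ≤ Subgroup.centralizer ({y} : Set G) := by
    intro y hy
    obtain ⟨k, hk⟩ := h y hy
    rw [← Subgroup.relIndex_eq_one]
    refine Nat.eq_one_of_dvd_coprimes (((hp.coprime_iff_not_dvd).mpr hFp).pow_left k) ?_ (Subgroup.index_dvd_card _)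
    exact (index_sub_dvd F _).trans hk
  have hCF : Subgroup.centralizer (F : Set G) ≤ F :=
    CfsgLib.GenFitting.solvable_le_fitting inferInstance le_rfl
  have hKy : ∀ y ∈ K, (orderOf y).Coprime p := fun y hy =>
    ((hp.coprime_iff_not_dvd).mpr hK).symm.coprime_dvd_left (K.orderOf_dvd_natCard hy)
  intro a ha b hb
  have hbF : b ∈ F := hCF (Subgroup.mem_centralizer_iff.mpr fun f hf =>
    (Subgroup.mem_centralizer_iff.mp (hcen b (hKy b hb) hf) b rfl).symm)
  exact (Subgroup.mem_centralizer_iff.mp (hcen a (hKy a ha) hbF) a rfl)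

/-- Let G be a finite group and p a prime. Every conjugacy class of p-regular elements of G (elements of order prime to p) has p-power size if and only if G has an abelian p-complement, i.e. an abelian subgroup of order prime to p and p-power index. -/
theorem result {G : Type*} [Group G] [Finite G] {p : ℕ} (hp : p.Prime) :
    (∀ x : G, (orderOf x).Coprime p → ∃ k : ℕ, (ConjClasses.mk x).carrier.ncard = p ^ k) ↔
    (∃ H : Subgroup G, IsMulCommutative H ∧ ¬ p ∣ Nat.card H ∧ ∃ k : ℕ, H.index = p ^ k) := by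
  haveI := Fact.mk hp
  constructor
  · intro h
    have h' : ∀ x : G, (orderOf x).Coprime p → ∃ k, (Subgroup.centralizer ({x} : Set G)).index ∣ p ^ k := fun x hx => by
      obtain ⟨k, hk⟩ := h x hx
      exact ⟨k, (Cfsg.Agent.S4035.card_class x ▸ hk : _ = p ^ k).dvd⟩
    haveI := solvable_of _ G le_rfl p hp (Or.inl h')
    obtain ⟨H, hH⟩ := CfsgLib.GroupB.Hall.exists_isPiHall (π := {p}ᶜ) (CfsgLib.GroupB.Hall.piSep_of_isSolvable (G := G) _)
    have hpH : ¬ p ∣ Nat.card H := fun hd => hH.1 p hp hd rfl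
    refine ⟨H, ⟨⟨fun a b => Subtype.ext (comm_of _ G le_rfl p hp h' H hpH a a.2 b b.2)⟩⟩, hpH, ?_⟩
    refine ⟨H.index.primeFactorsList.length, ?_⟩
    exact Nat.eq_prime_pow_of_unique_prime_dvd Subgroup.index_ne_zero_of_finite (fun {d} hd hdd => by
      by_contra hne
      exact hH.2 d hd hne hdd)
  · rintro ⟨H, hH, hpH, k, hk⟩ x hx
    haveI := solvable_of _ G le_rfl p hp (Or.inr ⟨H, hH, k, hk.dvd⟩)
    have hHall : Cfsg.IsPiHall ({p}ᶜ : Set ℕ) H := by
      refine ⟨fun r hr hd hrp => hpH (Set.mem_singleton_iff.mp hrp ▸ hd), fun r hr hrp hd => hrp ?_⟩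
      rw [hk] at hd
      exact Set.mem_singleton_iff.mpr ((Nat.prime_dvd_prime_iff_eq hr hp).mp (hr.dvd_of_dvd_pow hd))
    obtain ⟨g, hg⟩ := CfsgLib.GroupB.Hall.exists_conj_le (CfsgLib.GroupB.Hall.piSep_of_isSolvable (G := G) _) hHall
      (U := Subgroup.zpowers x) (fun r hr hd => fun hrp => by
        rw [Nat.card_zpowers] at hd
        rw [Set.mem_singleton_iff.mp hrp] at hd hr
        exact hp.not_dvd_one (hx.gcd_eq_one ▸ Nat.dvd_gcd hd dvd_rfl))
    have hxH : g * x * g⁻¹ ∈ H := hg ⟨x, Subgroup.mem_zpowers x, rfl⟩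
    have hle : H.map (MulAut.conj g⁻¹).toMonoidHom ≤ Subgroup.centralizer ({x} : Set G) := by
      rintro _ ⟨y, hy, rfl⟩
      refine Subgroup.mem_centralizer_iff.mpr fun z hz => ?_
      rw [Set.mem_singleton_iff.mp hz]
      show x * (g⁻¹ * y * g⁻¹⁻¹) = g⁻¹ * y * g⁻¹⁻¹ * x
      have e : g * x * g⁻¹ * y = y * (g * x * g⁻¹) := congrArg Subtype.val (hH.is_comm.comm ⟨_, hxH⟩ ⟨y, hy⟩)
      calc x * (g⁻¹ * y * g⁻¹⁻¹) = g⁻¹ * (g * x * g⁻¹ * y) * g := by group
        _ = g⁻¹ * (y * (g * x * g⁻¹)) * g := by rw [e]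
        _ = _ := by group
    have hdvd := Subgroup.index_dvd_of_le hle
    rw [show (H.map (MulAut.conj g⁻¹).toMonoidHom).index = H.index from Subgroup.index_map_equiv H (MulAut.conj g⁻¹), hk] at hdvd
    obtain ⟨i, -, hi⟩ := (Nat.dvd_prime_pow hp).mp hdvd
    exact ⟨i, (Cfsg.Agent.S4035.card_class x).trans hi⟩

end Cfsg.Agent.S4034
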