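import Cfsg.Statements.S4036
import Mathlib

set_option autoImplicit false
open Cfsg

namespace Cfsg.Agent.S4036

/-- Let P be a finite abelian p-group and K a group of automorphisms of P (a subgroup of Aut P) whose order is divisible by p. If all non-identity elements of K have the same fixed-point subgroup on P, then K has no non-trivial normal subgroup of order prime to p. -/
theorem result {P : Type*} [CommGroup P] [Finite P] {p : ℕ}
    [Fact p.Prime] (hP : IsPGroup p P) (K : Subgroup (MulAut P)) (hK : p ∣ Nat.card K)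
    (hfix : ∀ x y : MulAut P, x ∈ K → y ∈ K → x ≠ 1 → y ≠ 1 → ∀ v : P, x v = v ↔ y v = v) :
    ∀ N : Subgroup ↥K, N.Normal → ¬ p ∣ Nat.card N → N = ⊥ := by
  classical
  intro N hN hpN
  haveI := hN
  haveI := Fintype.ofFinite N
  obtain ⟨z, hz⟩ := exists_prime_orderOf_dvd_card' p hK
  have hz1 : z ≠ 1 := fun h => (Fact.out : p.Prime).ne_one (by rw [← hz, h, orderOf_one])
  set T : P →* P :=
    { toFun := fun v => ∏ n : N, ((n : ↥K) : MulAut P) v
      map_one' := by simp
      map_mul' := fun a b => by simp [Finset.prod_mul_distrib] } with hT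
  have hTr : ∀ (m : N) v, T (((m : ↥K) : MulAut P) v) = T v := fun m v => by
    show ∏ n : N, _ = ∏ n : N, _
    exact Fintype.prod_equiv (Equiv.mulRight m) _ _ fun n => rfl
  have hTz : ∀ (k : ↥K) v, T ((k : MulAut P) v) = (k : MulAut P) (T v) := by
    intro k v
    show ∏ n : N, _ = (k : MulAut P) (∏ n : N, _)
    rw [map_prod]
    refine Fintype.prod_equiv (MulAut.conjNormal (H := N) k⁻¹).toEquiv _ _ fun n => ?_
    show ((n : ↥K) : MulAut P) ((k : MulAut P) v) = (k : MulAut P) (((k⁻¹ * (n : ↥K) * k⁻¹⁻¹ : ↥K) : MulAut P) v)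
    simp [MulAut.mul_apply]
  refine (Subgroup.eq_bot_iff_forall N).mpr fun m hm => ?_
  by_contra hm1
  have hm1' : ((m : ↥K) : MulAut P) ≠ 1 := fun h => hm1 (Subtype.ext h)
  obtain ⟨v, hv⟩ : ∃ v, (m : MulAut P) v ≠ v := by
    by_contra h; push Not at h; exact hm1' (MulEquiv.ext h)
  have hw : (m : MulAut P) v * v⁻¹ ∈ T.ker := by
    rw [MonoidHom.mem_ker, map_mul, map_inv, hTr ⟨m, hm⟩ v, mul_inv_cancel]
  haveI : Nontrivial T.ker := ⟨⟨⟨_, hw⟩, 1, fun h => hv (mul_inv_eq_one.mp (congrArg Subtype.val h))⟩⟩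
  set U : Subgroup ↥K := Subgroup.zpowers z
  letI : MulAction U T.ker :=
    { smul := fun u w => ⟨((u : ↥K) : MulAut P) w, by rw [MonoidHom.mem_ker, hTz, MonoidHom.mem_ker.mp w.2, map_one]⟩
      one_smul := fun w => rfl
      mul_smul := fun u v w => rfl }
  have hUp : IsPGroup p U := IsPGroup.of_card (n := 1) (by rw [Nat.card_zpowers, hz, pow_one])
  have hdvd : p ∣ Nat.card T.ker := by
    obtain ⟨n, hn⟩ := (hP.to_subgroup T.ker).exists_card_eq
    rcases n with _ | n
    · exact absurd hn (by simpa using (Finite.one_lt_card (α := T.ker)).ne')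
    · exact ⟨p ^ n, by rw [hn, pow_succ']⟩
  obtain ⟨w, hwfix, hw1⟩ := hUp.exists_fixed_point_of_prime_dvd_card_of_fixed_point T.ker hdvd
    (a := 1) (fun u => Subtype.ext (map_one ((u : ↥K) : MulAut P)))
  have hzw : (z : MulAut P) (w : P) = w := congrArg Subtype.val (hwfix ⟨z, Subgroup.mem_zpowers z⟩)
  have hall : ∀ n : N, ((n : ↥K) : MulAut P) (w : P) = w := by
    intro n
    by_cases hn : ((n : ↥K) : MulAut P) = 1
    · rw [hn]; rfl
    · exact (hfix _ _ z.2 (n : ↥K).2 (fun h => hz1 (Subtype.ext h)) hn (w : P)).mp hzw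
  have h1 : (w : P) ^ Nat.card N = 1 := by
    rw [← MonoidHom.mem_ker.mp w.2]
    show _ = ∏ n : N, _
    rw [Finset.prod_congr rfl fun n _ => hall n, Finset.prod_const, Finset.card_univ, Nat.card_eq_fintype_card]
  obtain ⟨k, hk⟩ := IsPGroup.iff_orderOf.mp hP (w : P)
  have h2 : orderOf (w : P) = 1 := Nat.eq_one_of_dvd_coprimes
    (((Nat.Prime.coprime_iff_not_dvd (Fact.out : p.Prime)).mpr hpN).pow_left k) (hk ▸ dvd_rfl)
    (orderOf_dvd_of_pow_eq_one h1)
  exact hw1 (Subtype.ext (orderOf_eq_one_iff.mp h2).symm)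

end Cfsg.Agent.S4036
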