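import Cfsg.Statements.S4043
import Cfsg.Agent.Lib.GroupB.Coprime

set_option autoImplicit false
open Cfsg

namespace Cfsg.Agent.S4043
open CfsgLib.GroupB CfsgLib.GroupB.Coprime

/-- Data of a complement with a normal `p`-complement. -/
theorem data {G : Type*} [Group G] [Finite G] {p : ℕ} [Fact p.Prime] (N : Subgroup G) [N.Normal]
    (A : Subgroup G) (hA : A.IsComplement' N) (hAp : Cfsg.HasNormalPComplement p A) :
    ∃ Q P : Subgroup G, Q ≤ A ∧ P ≤ A ∧ IsPGroup p P ∧ (∀ a ∈ A, ∀ q ∈ Q, a * q * a⁻¹ ∈ Q) ∧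
      (∀ a ∈ A, ∃ q ∈ Q, ∃ x ∈ P, a = q * x) ∧ ¬ p ∣ Nat.card Q ∧
      Nat.card Q * p ^ (Nat.card A).factorization p = Nat.card A := by
  obtain ⟨S, M, hMn, hMS⟩ := hAp
  have hc : Nat.card (M.map A.subtype) = Nat.card M := Subgroup.card_map_of_injective A.subtype_injective
  have hcard : Nat.card M * p ^ (Nat.card A).factorization p = Nat.card A := by
    rw [← Sylow.card_eq_multiplicity S]; exact hMS.card_mul_card
  refine ⟨M.map A.subtype, (S : Subgroup A).map A.subtype, Subgroup.map_subtype_le M,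
    Subgroup.map_subtype_le _, S.2.map A.subtype, ?_, ?_, ?_, by rw [hc]; exact hcard⟩
  · rintro a ha _ ⟨q, hq, rfl⟩
    exact ⟨⟨a, ha⟩ * q * ⟨a, ha⟩⁻¹, hMn.conj_mem q hq ⟨a, ha⟩, rfl⟩
  · intro a ha
    obtain ⟨⟨q, x⟩, hqx⟩ := hMS.2 ⟨a, ha⟩
    exact ⟨q.1.1, ⟨q.1, q.2, rfl⟩, x.1.1, ⟨x.1, x.2, rfl⟩, (congrArg Subtype.val hqx).symm⟩
  · rw [hc]
    intro hd
    have h := (Nat.mul_dvd_mul_right hd (p ^ (Nat.card A).factorization p))
    rw [hcard, ← pow_succ'] at h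
    exact Nat.pow_succ_factorization_not_dvd Nat.card_pos.ne' (Fact.out : p.Prime) h

/-- Let G be a finite group that is the semidirect product of a normal p-subgroup N by a subgroup A, and also of N by a subgroup A₁, where p is a prime and A and A₁ both have normal p-complements. If C_N(A) = C_N(A₁) = 1, then A₁ is conjugate to A by an element of N. -/
theorem result {G : Type*} [Group G] [Finite G] {p : ℕ}
    [Fact p.Prime] (N : Subgroup G) [N.Normal] (hN : IsPGroup p N) (A A₁ : Subgroup G)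
    (hA : A.IsComplement' N) (hA₁ : A₁.IsComplement' N)
    (hAp : Cfsg.HasNormalPComplement p A) (hA₁p : Cfsg.HasNormalPComplement p A₁)
    (hC : ∀ n : G, n ∈ N → (∀ a : G, a ∈ A → a * n * a⁻¹ = n) → n = 1)
    (hC₁ : ∀ n : G, n ∈ N → (∀ a : G, a ∈ A₁ → a * n * a⁻¹ = n) → n = 1) :
    ∃ n : G, n ∈ N ∧ A₁ = A.map (MulAut.conj n).toMonoidHom := by
  obtain ⟨Q, P, hQA, hPA, hP, hQn, hQP, hpQ, hQc⟩ := data N A hA hAp
  obtain ⟨Q₁, P₁, hQA₁, hPA₁, hP₁, hQn₁, hQP₁, hpQ₁, hQc₁⟩ := data N A₁ hA₁ hA₁p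
  have hcA : Nat.card A₁ = Nat.card A :=
    Nat.eq_of_mul_eq_mul_right (Nat.card_pos (α := N)) (hA₁.card_mul_card.trans hA.card_mul_card.symm)
  have hcQ : Nat.card Q₁ = Nat.card Q := by
    have h := hQc₁.trans (hcA.trans hQc.symm)
    rw [hcA] at h
    exact Nat.eq_of_mul_eq_mul_right (pow_pos (Fact.out : p.Prime).pos _) h
  obtain ⟨k, hk⟩ := hN.exists_card_eq
  have hNQ : (Nat.card N).Coprime (Nat.card Q) := by
    rw [hk]; exact Nat.Coprime.pow_left _ (((Fact.out : p.Prime).coprime_iff_not_dvd).mpr hpQ)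
  haveI hMn : (N ⊔ Q).Normal := by
    refine ⟨fun m hm g => ?_⟩
    obtain ⟨n, hn, q, hq, rfl⟩ := Subgroup.mem_sup_of_normal_left.mp hm
    obtain ⟨⟨a, c⟩, hac⟩ := hA.2 g
    simp only at hac
    rw [← hac, show (a : G) * (c : G) * (n * q) * ((a : G) * c)⁻¹ =
      ((a : G) * ((c : G) * n * (c : G)⁻¹) * (a : G)⁻¹) * ((a : G) * ((c : G) * q * (c : G)⁻¹ * q⁻¹) * (a : G)⁻¹) * ((a : G) * q * (a : G)⁻¹) by group]
    refine Subgroup.mul_mem_sup (N.mul_mem (Subgroup.Normal.conj_mem inferInstance _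
      (N.mul_mem (N.mul_mem c.2 hn) (N.inv_mem c.2)) _) ?_) (hQn a a.2 q hq)
    refine Subgroup.Normal.conj_mem inferInstance _ ?_ _
    rw [show (c : G) * q * (c : G)⁻¹ * q⁻¹ = c * (q * (c : G)⁻¹ * q⁻¹) by group]
    exact N.mul_mem c.2 (Subgroup.Normal.conj_mem inferInstance _ (N.inv_mem c.2) q)
  have hle : Q₁ ≤ N ⊔ Q := by
    intro y hy
    obtain ⟨⟨a, c⟩, hac⟩ := hA.2 y
    obtain ⟨q, hq, x, hx, hqx⟩ := hQP a a.2
    simp only at hac
    rw [← QuotientGroup.eq_one_iff (N := N ⊔ Q)]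
    have h1 : ((y : G) : G ⧸ (N ⊔ Q)) = (x : G ⧸ (N ⊔ Q)) := by
      rw [← hac, hqx, QuotientGroup.mk_mul, QuotientGroup.mk_mul,
        (QuotientGroup.eq_one_iff (c : G)).mpr (Subgroup.mem_sup_left c.2),
        (QuotientGroup.eq_one_iff q).mpr (Subgroup.mem_sup_right hq), one_mul, mul_one]
    have h2 := orderOf_map_dvd (QuotientGroup.mk' (N ⊔ Q)) y
    have h3 := orderOf_map_dvd (QuotientGroup.mk' (N ⊔ Q)) x
    simp only [QuotientGroup.mk'_apply] at h2 h3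
    rw [← orderOf_eq_one_iff]
    obtain ⟨j, hj⟩ := IsPGroup.iff_orderOf.mp hP ⟨x, hx⟩
    rw [Subgroup.orderOf_mk] at hj
    refine Nat.eq_one_of_dvd_coprimes ?_ (h1 ▸ (hj ▸ h3)) (h2.trans (Subgroup.orderOf_dvd_natCard Q₁ hy))
    exact Nat.Coprime.pow_left _ (((Fact.out : p.Prime).coprime_iff_not_dvd).mpr hpQ₁)
  obtain ⟨n, hn, hQ₁⟩ := sup_conj N Q Q₁ (by
    rw [Subgroup.normalizer_eq_top]; exact le_top) hNQ hle hcQ (Or.inl (by
      haveI := hN.isNilpotent; infer_instance))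
  refine ⟨n, hn, ?_⟩
  set A' := A.map (MulAut.conj n).toMonoidHom with hA'
  have hnorm : ∀ a ∈ A', ∀ q ∈ Q₁, a * q * a⁻¹ ∈ Q₁ := by
    rintro _ ⟨a, ha, rfl⟩ q hq
    rw [hQ₁] at hq ⊢
    obtain ⟨r, hr, rfl⟩ := hq
    exact ⟨a * r * a⁻¹, hQn a ha r hr, by simp [MulAut.conj_apply]; group⟩
  -- no nontrivial element of `N` centralises `Q₁`
  have hW : ∀ w ∈ N, (∀ q ∈ Q₁, q * w * q⁻¹ = w) → w = 1 := by
    by_contra hc
    push Not at hc
    obtain ⟨w, hw, hwQ, hw1⟩ := hc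
    let W : Subgroup G := N ⊓ Subgroup.centralizer (Q₁ : Set G)
    have hmem : ∀ v, v ∈ W ↔ v ∈ N ∧ ∀ q ∈ Q₁, q * v * q⁻¹ = v := fun v => by
      rw [Subgroup.mem_inf, Subgroup.mem_centralizer_iff]
      refine Iff.and Iff.rfl ?_
      exact forall₂_congr fun q _ => mul_inv_eq_iff_eq_mul.symm
    let P' := P.map (MulAut.conj n).toMonoidHom
    have hP' : ∀ x ∈ P', ∀ v ∈ W, x * v * x⁻¹ ∈ W := by
      intro x hx v hv
      rw [hmem] at hv ⊢
      refine ⟨Subgroup.Normal.conj_mem inferInstance _ hv.1 _, fun q hq => ?_⟩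
      have hxA : x ∈ A' := Subgroup.map_mono hPA hx
      have h := hv.2 _ (hnorm _ (A'.inv_mem hxA) q hq)
      rw [inv_inv] at h
      conv_rhs => rw [← h]
      group
    letI : MulAction P' W :=
      { smul := fun x v => ⟨x.1 * v.1 * (x.1)⁻¹, hP' x.1 x.2 v.1 v.2⟩
        one_smul := fun v => Subtype.ext (show (1 : G) * v.1 * 1⁻¹ = v.1 by group)
        mul_smul := fun x y v => Subtype.ext
          (show x.1 * y.1 * v.1 * (x.1 * y.1)⁻¹ = x.1 * (y.1 * v.1 * (y.1)⁻¹) * (x.1)⁻¹ by group) }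
    have hdvd : p ∣ Nat.card W := by
      obtain ⟨j, hj⟩ := (hN.to_le (inf_le_left : W ≤ N)).exists_card_eq
      rcases Nat.eq_zero_or_pos j with h0 | h0
      · rw [h0, pow_zero] at hj
        haveI := (Nat.card_eq_one_iff_unique.mp hj).1
        exact absurd (congrArg Subtype.val (Subsingleton.elim (⟨w, (hmem w).mpr ⟨hw, hwQ⟩⟩ : W) 1)) hw1
      · rw [hj]; exact dvd_pow_self p h0.ne'
    have h1 : (1 : W) ∈ MulAction.fixedPoints P' W := fun x => Subtype.ext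
      (show x.1 * 1 * (x.1)⁻¹ = (1 : G) by group)
    obtain ⟨v, hv, hv1⟩ := (hP.map _).exists_fixed_point_of_prime_dvd_card_of_fixed_point W hdvd h1
    have hvx : ∀ x ∈ P', x * v.1 * x⁻¹ = v.1 := fun x hx => congrArg Subtype.val (hv ⟨x, hx⟩)
    have hz : n⁻¹ * v.1 * n = 1 := by
      refine hC _ ?_ fun a ha => ?_
      · have := Subgroup.Normal.conj_mem inferInstance _ ((hmem _).mp v.2).1 n⁻¹
        rwa [inv_inv] at this
      obtain ⟨q, hq, x, hx, rfl⟩ := hQP a ha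
      have e1 := hvx _ ⟨x, hx, rfl⟩
      have e2 := ((hmem _).mp v.2).2 (n * q * n⁻¹) (hQ₁ ▸ ⟨q, hq, rfl⟩)
      simp only [MulEquiv.coe_toMonoidHom, MulAut.conj_apply] at e1
      calc q * x * (n⁻¹ * v.1 * n) * (q * x)⁻¹
          = n⁻¹ * ((n * q * n⁻¹) * ((n * x * n⁻¹) * v.1 * (n * x * n⁻¹)⁻¹) * (n * q * n⁻¹)⁻¹) * n := by group
        _ = n⁻¹ * v.1 * n := by rw [e1, e2]
    apply hv1
    apply Subtype.ext
    show (1 : G) = v.1
    calc (1 : G) = n * 1 * n⁻¹ := by group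
      _ = v.1 := by rw [← hz]; group
  have hcA' : Nat.card A' = Nat.card A := Subgroup.card_map_of_injective (MulAut.conj n).injective
  refine Subgroup.eq_of_le_of_card_ge (fun a ha => ?_) (by rw [hcA', hcA])
  obtain ⟨⟨b, c⟩, hbc⟩ := hA.2 (n⁻¹ * a * n)
  simp only at hbc
  set m := n * (c : G) * n⁻¹ with hm
  have hab : a = (n * b * n⁻¹) * m := by rw [hm]; rw [show a = n * ((b : G) * c) * n⁻¹ by rw [hbc]; group]; group
  have hb' : n * (b : G) * n⁻¹ ∈ A' := ⟨b, b.2, rfl⟩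
  have hm1 : m = 1 := by
    refine hW m (Subgroup.Normal.conj_mem inferInstance _ c.2 n) fun q hq => ?_
    have h1 : m * q * m⁻¹ ∈ Q₁ := by
      have h2 : a * q * a⁻¹ ∈ Q₁ := hQn₁ a ha q hq
      have h3 := hnorm _ (A'.inv_mem hb') _ h2
      rw [hab] at h3
      convert h3 using 1; group
    have h4 : q * m * q⁻¹ * m⁻¹ ∈ N ⊓ Q₁ := by
      refine ⟨N.mul_mem (Subgroup.Normal.conj_mem inferInstance _ (Subgroup.Normal.conj_mem inferInstance _ c.2 n) q)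
        (N.inv_mem (Subgroup.Normal.conj_mem inferInstance _ c.2 n)), ?_⟩
      have := Q₁.mul_mem hq (Q₁.inv_mem h1)
      rwa [show q * (m * q * m⁻¹)⁻¹ = q * m * q⁻¹ * m⁻¹ by group] at this
    rw [inf_eq_bot_of_coprime (hcQ ▸ hNQ)] at h4
    rw [Subgroup.mem_bot] at h4
    exact mul_inv_eq_one.mp h4
  rw [hab, hm1, mul_one]
  exact hb'


end Cfsg.Agent.S4043
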