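import Cfsg.Statements.S4049
import Cfsg.Agent.Lib.TwoClosed

set_option autoImplicit false
open Cfsg

namespace Cfsg.Agent.S4049

/-- Let G be a finite group such that N_G(H)/C_G(H) has odd order for every nontrivial subgroup H of odd order. Then the Sylow 2-subgroups of G are normal. -/
theorem result {G : Type*} [Group G] [Finite G]
    (hhom : ∀ H : Subgroup G, H ≠ ⊥ → ¬ 2 ∣ Nat.card ↥H →
        ¬ 2 ∣ (Subgroup.centralizer (H : Set G)).relIndex (Subgroup.normalizer (H : Set G))) (P : Sylow 2 G) :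
    (P : Subgroup G).Normal := by
  refine CfsgLib.TwoClosed.sylow_normal (fun y hy hy2 g hg hg2 => ?_) P
  obtain ⟨k, hk⟩ := hg2
  set H := Subgroup.zpowers y
  have h2 := hhom H (fun e => hy.ne_one (by rw [← Nat.card_zpowers]; simp [H] at e; simp [e]))
    (by rw [Nat.card_zpowers]; exact fun hd => hy2 ((Nat.prime_dvd_prime_iff_eq Nat.prime_two hy).mp hd).symm)
  haveI : ((Subgroup.centralizer (H : Set G)).subgroupOf (Subgroup.normalizer (H : Set G))).Normal := inferInstance
  set C' := (Subgroup.centralizer (H : Set G)).subgroupOf (Subgroup.normalizer (H : Set G))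
  have h3 : ((⟨g, hg⟩ : ↥(Subgroup.normalizer (H : Set G))) : ↥(Subgroup.normalizer (H : Set G)) ⧸ C') = 1 := by
    refine orderOf_eq_one_iff.mp (Nat.eq_one_of_dvd_coprimes ((Nat.prime_two.coprime_iff_not_dvd.mpr h2).pow_left k) ?_ ?_)
    · exact (orderOf_map_dvd (QuotientGroup.mk' C') _).trans (by rw [Subgroup.orderOf_mk, hk])
    · show _ ∣ C'.index
      rw [Subgroup.index_eq_card]; exact orderOf_dvd_natCard _
  have h4 : g ∈ Subgroup.centralizer (H : Set G) :=
    (QuotientGroup.eq_one_iff (N := C') (⟨g, hg⟩ : ↥(Subgroup.normalizer (H : Set G)))).mp h3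
  exact (Subgroup.mem_centralizer_iff.mp h4 y (Subgroup.mem_zpowers y)).symm

end Cfsg.Agent.S4049
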