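import Cfsg.Statements.S4051
import Cfsg.Agent.Lib.GroupB.Coprime
import Mathlib.GroupTheory.SchurZassenhaus
import Mathlib.GroupTheory.Perm.Cycle.Type
import Mathlib.Tactic

set_option autoImplicit false
open Cfsg

namespace Cfsg.Agent.S4051
open CfsgLib.GroupB

/-- The `π`-part of a positive integer. -/
noncomputable def piPart (π : Set ℕ) (M : ℕ) : ℕ :=
  letI := Classical.decPred (· ∈ π)
  ∏ q ∈ M.primeFactors.filter (fun q => q ∈ π), q ^ M.factorization q

theorem prime_dvd_piPart {π : Set ℕ} {M s : ℕ} (hs : s.Prime) (h : s ∣ piPart π M) : s ∈ π := by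
  classical
  obtain ⟨r, hr, hd⟩ := (Prime.dvd_finsetProd_iff hs.prime _).mp h
  obtain ⟨hr1, hr2⟩ := Finset.mem_filter.mp hr
  rwa [(Nat.prime_dvd_prime_iff_eq hs (Nat.prime_of_mem_primeFactors hr1)).mp (hs.dvd_of_dvd_pow hd)]

theorem dvd_piPart {π : Set ℕ} {M d : ℕ} (hM : M ≠ 0) (hd : d ∣ M) (h : ∀ s : ℕ, s.Prime → s ∣ d → s ∈ π) :
    d ∣ piPart π M := by
  classical
  refine (Nat.dvd_iff_prime_pow_dvd_dvd _ _).mpr fun s k hs hk => ?_
  rcases Nat.eq_zero_or_pos k with rfl | hk0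
  · simp
  have hsd : s ∣ d := (dvd_pow_self s hk0.ne').trans hk
  refine dvd_trans (pow_dvd_pow s ((hs.pow_dvd_iff_le_factorization hM).mp (hk.trans hd))) ?_
  exact Finset.dvd_prod_of_mem _ (Finset.mem_filter.mpr ⟨Nat.mem_primeFactors.mpr ⟨hs, hsd.trans hd, hM⟩, h s hs hsd⟩)

theorem piPart_dvd (π : Set ℕ) {M : ℕ} (hM : M ≠ 0) : piPart π M ∣ M := by
  classical
  exact (Finset.prod_dvd_prod_of_subset _ _ _ (Finset.filter_subset _ _)).trans
    (dvd_of_eq (Nat.prod_factorization_pow_eq_self hM))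


/-- Let π be a set of primes and G a finite group such that N_G(H)/C_G(H) is a π'-group for every nontrivial π'-subgroup H of G. If K is a normal subgroup of G such that the π-elements of K form a subgroup and the π-elements of G/K form a subgroup, then the π-elements of G form a subgroup. -/
theorem result {G : Type*} [Group G] [Finite G] (π : Set ℕ)
    (hπ : ∀ p ∈ π, p.Prime) (hhom : (∀ H : Subgroup G, H ≠ ⊥ → (∀ p : ℕ, p.Prime → p ∣ Nat.card ↥H → p ∉ π) →
        ∀ p : ℕ, p.Prime → p ∣ (Subgroup.centralizer (H : Set G)).relIndex (Subgroup.normalizer (H : Set G)) → p ∉ π))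
    (K : Subgroup G) [K.Normal]
    (hK : ∃ L : Subgroup ↥K, ∀ x : ↥K, x ∈ L ↔ ∀ p : ℕ, p.Prime → p ∣ orderOf x → p ∈ π)
    (hQ : ∃ L : Subgroup (G ⧸ K), ∀ x : G ⧸ K, x ∈ L ↔ ∀ p : ℕ, p.Prime → p ∣ orderOf x → p ∈ π) :
    (∃ K : Subgroup G, ∀ x : G, x ∈ K ↔ ∀ p : ℕ, p.Prime → p ∣ orderOf x → p ∈ π) := by
  classical
  obtain ⟨L₀, hL₀⟩ := hK
  obtain ⟨Q₀, hQ₀⟩ := hQ
  set M := Nat.card G with hM
  set a := piPart π M with ha
  have hM0 : M ≠ 0 := Nat.card_pos.ne'
  have hspec : ∀ x : G, (∀ s : ℕ, s.Prime → s ∣ orderOf x → s ∈ π) ↔ x ^ a = 1 := fun x =>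
    ⟨fun h => orderOf_dvd_iff_pow_eq_one.mp (dvd_piPart hM0 (orderOf_dvd_natCard x) h),
      fun h s hs hd => prime_dvd_piPart hs (hd.trans (orderOf_dvd_of_pow_eq_one h))⟩
  set L : Subgroup G := L₀.map K.subtype with hL
  have hLmem : ∀ x : G, x ∈ L ↔ x ∈ K ∧ x ^ a = 1 := by
    intro x
    constructor
    · rintro ⟨y, hy, rfl⟩
      refine ⟨y.2, (hspec _).mp ?_⟩
      rw [Subgroup.coe_subtype, Subgroup.orderOf_coe]
      exact (hL₀ y).mp hy
    · rintro ⟨hxK, hxa⟩
      refine ⟨⟨x, hxK⟩, (hL₀ _).mpr ?_, rfl⟩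
      rw [Subgroup.orderOf_mk]
      exact (hspec x).mpr hxa
  haveI hLn : L.Normal := ⟨fun x hx g => (hLmem _).mpr
    ⟨(‹K.Normal›).conj_mem x ((hLmem x).mp hx).1 g, by rw [conj_pow, ((hLmem x).mp hx).2, mul_one, mul_inv_cancel]⟩⟩
  set φ := QuotientGroup.mk' L with hφdef
  have hφs : Function.Surjective φ := QuotientGroup.mk'_surjective L
  have hφ1 : ∀ x, φ x = 1 ↔ x ∈ L := fun x => QuotientGroup.eq_one_iff x
  set Kb := K.map φ with hKb
  -- π-power exponent
  obtain ⟨e, he1, he2⟩ := Nat.chineseRemainder (m := M / a) (n := a) (by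
    refine Nat.coprime_of_dvd fun s hs h1 h2 => ?_
    have hsπ := prime_dvd_piPart hs h1
    have hd : a ∣ M := piPart_dvd π hM0
    have hfull : s ^ M.factorization s ∣ a := dvd_piPart hM0 (Nat.ordProj_dvd M s) fun t ht htd => by
      rwa [(Nat.prime_dvd_prime_iff_eq ht hs).mp (ht.dvd_of_dvd_pow htd)]
    have : s ^ (M.factorization s + 1) ∣ M := by
      have h3 := Nat.mul_dvd_mul hfull h2
      rwa [← pow_succ, Nat.mul_div_cancel' hd] at h3
    exact Nat.pow_succ_factorization_not_dvd hM0 hs this) 1 0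
  have hed : ∀ x : G, (x ^ e) ^ a = 1 := fun x => by
    obtain ⟨t, ht⟩ := Nat.modEq_zero_iff_dvd.mp he2
    rw [← pow_mul, ← orderOf_dvd_iff_pow_eq_one, ht]
    refine (orderOf_dvd_natCard x).trans ?_
    rw [mul_comm (M / a) t, mul_assoc, Nat.div_mul_cancel]
    · exact dvd_mul_left _ _
    · exact piPart_dvd π hM0
  have hfix : ∀ y : G ⧸ L, y ^ a = 1 → y ^ e = y := fun y hy => by
    conv_rhs => rw [← pow_one y]
    exact pow_eq_pow_iff_modEq.mpr (he1.of_dvd (orderOf_dvd_of_pow_eq_one hy))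
  have hKbπ : ∀ s : ℕ, s.Prime → s ∣ Nat.card Kb → s ∉ π := by
    intro s hs hd hsπ
    haveI := Fact.mk hs
    obtain ⟨⟨_, k, hk, rfl⟩, hord⟩ := exists_prime_orderOf_dvd_card' s hd
    rw [← Subgroup.orderOf_coe] at hord
    simp only at hord
    have h1 : φ k ^ a = 1 := by
      refine orderOf_dvd_iff_pow_eq_one.mp (hord ▸ dvd_piPart hM0 ?_ fun t ht htd => ?_)
      · exact hd.trans ((Subgroup.card_subgroup_dvd_card Kb).trans (Subgroup.card_quotient_dvd_card L))
      · rwa [(Nat.prime_dvd_prime_iff_eq ht hs).mp htd]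
    have h2 : φ k = 1 := by
      rw [← hfix _ h1, ← map_pow, hφ1, hLmem]
      exact ⟨K.pow_mem hk e, hed k⟩
    rw [h2, orderOf_one] at hord
    exact hs.ne_one hord.symm
  have hKbcop : (Nat.card Kb).Coprime a := Nat.coprime_of_dvd fun s hs h1 h2 => hKbπ s hs h1 (prime_dvd_piPart hs h2)
  haveI : Kb.Normal := Subgroup.Normal.map inferInstance φ hφs
  have hcent : ∀ x : G, x ^ a = 1 → ∀ y ∈ Kb, y * φ x = φ x * y := by
    intro x hx
    suffices h : Nat.card Kb ∣ Nat.card (Kb ⊓ Subgroup.centralizer ({φ x} : Set (G ⧸ L)) : Subgroup (G ⧸ L)) by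
      intro y hy
      have := Subgroup.eq_of_le_of_card_ge (inf_le_left : Kb ⊓ Subgroup.centralizer ({φ x} : Set (G ⧸ L)) ≤ Kb) (Nat.le_of_dvd Nat.card_pos h)
      rw [← this] at hy
      exact Subgroup.mem_centralizer_singleton_iff.mp hy.2
    refine (Nat.dvd_iff_prime_pow_dvd_dvd _ _).mpr fun r k hr hk => ?_
    rcases Nat.eq_zero_or_pos k with rfl | hk0
    · simp
    haveI := Fact.mk hr
    have hrd : r ∣ Nat.card Kb := (dvd_pow_self r hk0.ne').trans hk
    obtain ⟨⟨R, hR, hRA⟩, -⟩ := Coprime.invariant_sylow (G := Kb) (A := Subgroup.zpowers (φ x))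
      (Subgroup.zpowers_le.mpr (by rw [Subgroup.normalizer_eq_top_iff.mpr ‹Kb.Normal›]; exact Subgroup.mem_top _))
      (hKbcop.symm.coprime_dvd_left (by rw [Nat.card_zpowers]; exact orderOf_dvd_of_pow_eq_one (by rw [← map_pow, hx, map_one])))
      (Or.inr inferInstance) r
    refine (pow_dvd_pow r ((hr.pow_dvd_iff_le_factorization Nat.card_pos.ne').mp hk)).trans ?_
    rw [← hR.2]
    refine Subgroup.card_dvd_of_le (le_inf hR.1 ?_)
    -- lift to a Sylow subgroup of the preimage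
    set RL := R.comap φ with hRL
    have hLRL : L ≤ RL := fun l hl => by
      show φ l ∈ R
      rw [(hφ1 l).mpr hl]; exact R.one_mem
    have hrπ : r ∉ π := hKbπ r hr hrd
    obtain ⟨S⟩ : Nonempty (Sylow r RL) := inferInstance
    set S' := (S : Subgroup RL).map RL.subtype with hS'
    have hS'of : Coprime.IsSylowOf r S' RL := Coprime.isSylowOf_map S
    have hRp : IsPGroup r R := hR.isPGroup
    have hSmap : S'.map φ = R := by
      refine Subgroup.eq_of_le_of_card_ge (Subgroup.map_le_iff_le_comap.mpr hS'of.1) ?_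
      obtain ⟨n, hn⟩ := IsPGroup.iff_card.mp hRp
      have hSdisj : S' ⊓ L = ⊥ := by
        refine Coprime.inf_eq_bot_of_coprime ?_
        refine Nat.coprime_of_dvd fun s hs h1 h2 => hrπ ?_
        rw [hS'of.2] at h1
        rw [← (Nat.prime_dvd_prime_iff_eq hs hr).mp (hs.dvd_of_dvd_pow h1)]
        haveI := Fact.mk hs
        obtain ⟨z, hz⟩ := exists_prime_orderOf_dvd_card' s h2
        exact prime_dvd_piPart hs (hz ▸ Subgroup.orderOf_coe z ▸ orderOf_dvd_of_pow_eq_one ((hLmem _).mp z.2).2)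
      have hinj : Function.Injective (φ.comp S'.subtype) := (injective_iff_map_eq_one _).mpr fun z hz =>
        Subtype.ext (Subgroup.mem_bot.mp (hSdisj ▸ ⟨z.2, (hφ1 _).mp hz⟩))
      have hcS : Nat.card (S'.map φ) = Nat.card S' := by
        rw [show S'.map φ = (φ.comp S'.subtype).range by rw [MonoidHom.range_comp, Subgroup.range_subtype]]
        exact (Nat.card_congr (MonoidHom.ofInjective hinj).toEquiv).symm
      rw [hcS, hS'of.2, hn]
      refine Nat.pow_le_pow_right hr.pos ((hr.pow_dvd_iff_le_factorization Nat.card_pos.ne').mp ?_)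
      have hsur : Function.Surjective (φ.subgroupComap R) := MonoidHom.subgroupComap_surjective_of_surjective φ R hφs
      rw [← hn]
      exact Subgroup.card_dvd_of_surjective _ hsur
    have hxRL : x ∈ Subgroup.normalizer (RL : Set G) := by
      rw [Subgroup.mem_normalizer_iff]
      intro y
      show φ y ∈ R ↔ φ (x * y * x⁻¹) ∈ R
      rw [map_mul, map_mul, map_inv]
      exact Subgroup.mem_normalizer_iff.mp (hRA (Subgroup.mem_zpowers _)) (φ y)
    obtain ⟨l, hl, hlS⟩ := (hS'of.map_conj hxRL).exists_conj hS'of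
    have hdec : ∃ s ∈ S', ∃ l₀ ∈ L, s * l₀ = l := by
      have hφl : φ l ∈ S'.map φ := by rw [hSmap]; exact hl
      obtain ⟨s, hs, hse⟩ := hφl
      exact ⟨s, hs, s⁻¹ * l, by rw [← hφ1, map_mul, map_inv, hse, inv_mul_cancel], mul_inv_cancel_left s l⟩
    obtain ⟨s, hs, l₀, hl₀, rfl⟩ := hdec
    set m := l₀ * x with hm
    have hmN : m ∈ Subgroup.normalizer (S' : Set G) := by
      have hsx : s * l₀ * x ∈ Subgroup.normalizer (S' : Set G) := by
        rw [Coprime.mem_normalizer_iff_map_conj_eq]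
        rwa [SchurZassenhaus.map_conj_map_conj] at hlS
      have := Subgroup.mul_mem _ (Subgroup.inv_mem _ (Subgroup.le_normalizer hs)) hsx
      rwa [show s⁻¹ * (s * l₀ * x) = l₀ * x by group] at this
    have hφm : φ (m ^ e) = φ x := by
      rw [map_pow, hm, map_mul, (hφ1 _).mpr hl₀, one_mul, hfix _ (by rw [← map_pow, hx, map_one])]
    have hS1 : S' ≠ ⊥ := fun h => by
      rw [h, Subgroup.map_bot] at hSmap
      have hc := hR.2
      rw [← hSmap, Subgroup.card_bot] at hc
      exact (Nat.one_lt_pow ((hr.factorization_pos_of_dvd Nat.card_pos.ne' hrd).ne') hr.one_lt).ne hc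
    have hrel := hhom S' hS1 (fun t ht htd => by
      rw [hS'of.2] at htd
      rwa [(Nat.prime_dvd_prime_iff_eq ht hr).mp (ht.dvd_of_dvd_pow htd)])
    set N := Subgroup.normalizer (S' : Set G) with hN
    set C := Subgroup.centralizer (S' : Set G) with hC
    haveI : (C.subgroupOf N).Normal := by
      refine ⟨fun c hc n => ?_⟩
      rw [Subgroup.mem_subgroupOf, hC, Subgroup.mem_centralizer_iff] at hc ⊢
      intro y hy
      have h1 : (n : G)⁻¹ * y * n ∈ S' := by
        have := (Subgroup.mem_normalizer_iff.mp (N.inv_mem n.2) y).mp hy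
        simpa using this
      have h2 := hc _ h1
      calc y * ((n : G) * c * (n : G)⁻¹) = n * ((n : G)⁻¹ * y * n * c) * (n : G)⁻¹ := by group
        _ = n * (c * ((n : G)⁻¹ * y * n)) * (n : G)⁻¹ := by rw [h2]
        _ = (n : G) * c * (n : G)⁻¹ * y := by group
    have hmC : m ^ e ∈ C := by
      have hq : (QuotientGroup.mk' (C.subgroupOf N) ⟨m ^ e, N.pow_mem hmN e⟩) = 1 := by
        rw [← orderOf_eq_one_iff]
        by_contra h1
        obtain ⟨t, ht, htd⟩ := Nat.exists_prime_and_dvd h1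
        refine hrel t ht (htd.trans ((orderOf_dvd_natCard _).trans (dvd_of_eq rfl))) (prime_dvd_piPart (M := M) ht ?_)
        exact htd.trans ((orderOf_map_dvd _ _).trans (by rw [Subgroup.orderOf_mk]; exact orderOf_dvd_of_pow_eq_one (hed m)))
      exact Subgroup.mem_subgroupOf.mp ((QuotientGroup.eq_one_iff _).mp hq)
    intro z hz
    rw [← hSmap] at hz
    obtain ⟨w, hw, rfl⟩ := hz
    rw [Subgroup.mem_centralizer_singleton_iff, ← hφm, ← map_mul, ← map_mul, Subgroup.mem_centralizer_iff.mp hmC w hw]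
  -- the group generated by the images of π-elements
  set D := Subgroup.closure (φ '' {x : G | x ^ a = 1}) with hD
  let ψ : G ⧸ L →* G ⧸ K := QuotientGroup.lift L (QuotientGroup.mk' K) fun l hl => by
    rw [QuotientGroup.ker_mk']; exact ((hLmem l).mp hl).1
  have hψD : D.map ψ ≤ Q₀ := by
    rw [Subgroup.map_le_iff_le_comap, hD, Subgroup.closure_le]
    rintro _ ⟨x, hx, rfl⟩
    show ψ (φ x) ∈ Q₀
    rw [hQ₀]
    exact fun t ht htd => prime_dvd_piPart ht (htd.trans (orderOf_dvd_of_pow_eq_one (by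
      show (QuotientGroup.mk' K x) ^ a = 1
      rw [← map_pow, show x ^ a = 1 from hx, map_one])))
  let ψD : D →* G ⧸ K := ψ.comp D.subtype
  set Z := ψD.ker with hZ
  have hZK : ∀ z : D, z ∈ Z → (z : G ⧸ L) ∈ Kb := by
    intro z hz
    obtain ⟨y, hy⟩ := hφs (z : G ⧸ L)
    refine ⟨y, ?_, hy⟩
    have : ψ (φ y) = 1 := by rw [hy]; exact hz
    exact (QuotientGroup.eq_one_iff y).mp this
  have hZc : ∀ z : D, z ∈ Z → ∀ g : D, (g : G ⧸ L) * z = z * g := by
    intro z hz g
    have hle : D ≤ Subgroup.centralizer ({(z : G ⧸ L)} : Set (G ⧸ L)) := by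
      refine (Subgroup.closure_le _).mpr ?_
      rintro _ ⟨x, hx, rfl⟩
      exact Subgroup.mem_centralizer_singleton_iff.mpr (hcent x hx z (hZK z hz)).symm
    exact Subgroup.mem_centralizer_singleton_iff.mp (hle g.2)
  have hZdvd : Nat.card Z ∣ Nat.card Kb :=
    Subgroup.card_dvd_of_injective ((D.subtype.comp Z.subtype).codRestrict Kb fun z => hZK z z.2)
      (fun z w h => Subtype.ext (Subtype.ext (congrArg (fun v : Kb => (v : G ⧸ L)) h)))
  have hidx : Z.index ∣ Nat.card Q₀ := by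
    rw [hZ, Subgroup.index_ker]
    refine Subgroup.card_dvd_of_le ?_
    rw [MonoidHom.range_comp, Subgroup.range_subtype]
    exact hψD
  have hQπ : ∀ t : ℕ, t.Prime → t ∣ Nat.card Q₀ → t ∈ π := fun t ht htd => by
    haveI := Fact.mk ht
    obtain ⟨z, hz⟩ := exists_prime_orderOf_dvd_card' t htd
    exact (hQ₀ _).mp z.2 t ht (by rw [Subgroup.orderOf_coe, hz])
  have hZcop : (Nat.card Z).Coprime Z.index := Nat.coprime_of_dvd fun t ht h1 h2 =>
    hKbπ t ht (h1.trans hZdvd) (hQπ t ht (h2.trans hidx))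
  obtain ⟨C, hC⟩ := Subgroup.exists_right_complement'_of_coprime (N := Z) hZcop
  have hCcard : Nat.card C = Z.index := hC.symm.index_eq_card.symm
  haveI : C.Normal := by
    refine ⟨fun c hc g => ?_⟩
    obtain ⟨⟨⟨z, hz⟩, ⟨c', hc'⟩⟩, rfl⟩ := hC.2 g
    have h : z * c' * c * (z * c')⁻¹ = c' * c * c'⁻¹ := by
      have hzc : (c' * c * c'⁻¹) * z = z * (c' * c * c'⁻¹) := Subtype.ext (hZc z hz _)
      calc z * c' * c * (z * c')⁻¹ = z * (c' * c * c'⁻¹) * z⁻¹ := by group
        _ = c' * c * c'⁻¹ := by rw [← hzc]; group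
    simp only
    rw [h]
    exact C.mul_mem (C.mul_mem hc' hc) (C.inv_mem hc')
  have hDC : ∀ d : D, d ∈ C := by
    have hgen : ∀ y (hy : y ∈ D), (⟨y, hy⟩ : D) ∈ C := by
      intro y hy
      induction hy using Subgroup.closure_induction with
      | mem y hy =>
        obtain ⟨x, hx, rfl⟩ := hy
        rw [← QuotientGroup.eq_one_iff (N := C), ← orderOf_eq_one_iff]
        refine Nat.eq_one_of_dvd_coprimes (hKbcop.coprime_dvd_left (hZdvd)) ?_ ?_
        · refine (orderOf_dvd_natCard _).trans (dvd_of_eq ?_)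
          rw [← Subgroup.index_eq_card, hC.index_eq_card]
        · refine (orderOf_map_dvd (QuotientGroup.mk' C) _).trans ?_
          rw [Subgroup.orderOf_mk]
          exact orderOf_dvd_of_pow_eq_one (by rw [← map_pow, show x ^ a = 1 from hx, map_one])
      | one => exact C.one_mem
      | mul u v _ _ hu hv => exact C.mul_mem hu hv
      | inv u _ hu => exact C.inv_mem hu
    exact fun d => hgen d d.2
  refine ⟨D.comap φ, fun x => ⟨fun hx => ?_, fun hx => Subgroup.subset_closure ⟨x, (hspec x).mp hx, rfl⟩⟩⟩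
  intro t ht htd
  have h1 : orderOf (φ x) ∣ a := by
    refine dvd_piPart hM0 ((orderOf_map_dvd φ x).trans (orderOf_dvd_natCard x)) fun u hu hud => ?_
    refine hQπ u hu (hud.trans ?_)
    have h2 := Subgroup.orderOf_dvd_natCard C (hDC ⟨φ x, hx⟩)
    rw [hCcard, ← Subgroup.orderOf_coe] at h2
    exact h2.trans hidx
  have h3 : (x ^ a) ^ a = 1 := ((hLmem _).mp ((hφ1 _).mp (by rw [map_pow]; exact orderOf_dvd_iff_pow_eq_one.mp h1))).2
  rw [← pow_mul] at h3
  rcases (Nat.Prime.dvd_mul ht).mp (htd.trans (orderOf_dvd_of_pow_eq_one h3)) with h | h <;> exact prime_dvd_piPart ht h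

end Cfsg.Agent.S4051
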