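import Cfsg.Statements.S4056
import Cfsg.Agent.Lib.LocalBasic

set_option autoImplicit false
open Cfsg

namespace Cfsg.Agent.S4056
open scoped commutatorElement

/-- In a finite 2-group of nilpotency class at most 2 and exponent dividing 4, the Frattini subgroup lies in the centre and is elementary abelian. -/
theorem result {P : Type*} [Group P] [Finite P] (hP : IsPGroup 2 P)
    (hcl : Group.nilpotencyClass P ≤ 2) (hexp : Monoid.exponent P ∣ 4) :
    frattini P ≤ Subgroup.center P ∧ Cfsg.IsElementaryAbelian 2 (frattini P) := by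
  haveI := hP.isNilpotent
  have hc : ∀ a b : P, ⁅a, b⁆ ∈ Subgroup.center P := by
    intro a b
    have h2 : Subgroup.upperCentralSeries P 2 = ⊤ := Subgroup.upperCentralSeries_eq_top_iff_nilpotencyClass_le.mpr hcl
    have h1 := (Subgroup.mem_upperCentralSeries_succ_iff).mp (h2 ▸ Subgroup.mem_top a : a ∈ Subgroup.upperCentralSeries P 2) b
    rwa [Subgroup.upperCentralSeries_one] at h1
  have hcm : ∀ a b z : P, Commute ⁅a, b⁆ z := fun a b z => (Subgroup.mem_center_iff.mp (hc a b) z).symm
  have h4 : ∀ a : P, a ^ 4 = 1 := fun a => orderOf_dvd_iff_pow_eq_one.mp ((Monoid.order_dvd_exponent a).trans hexp)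
  have hswap : ∀ a b : P, a * b = ⁅a, b⁆ * (b * a) := fun a b => by rw [commutatorElement_def]; group
  have hsq : ∀ a b : P, a * a * b = (⁅a, b⁆ * ⁅a, b⁆) * (b * (a * a)) := by
    intro a b
    calc a * a * b = a * (⁅a, b⁆ * (b * a)) := by rw [mul_assoc, hswap a b]
      _ = ⁅a, b⁆ * (a * b) * a := by rw [← mul_assoc, ← (hcm a b a).eq]; simp only [mul_assoc]
      _ = _ := by rw [hswap a b]; simp only [mul_assoc]
  have hprod : ∀ a b : P, (a * b) * (a * b) = ⁅b, a⁆ * (a * a * (b * b)) := by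
    intro a b
    calc (a * b) * (a * b) = a * (b * a) * b := by simp only [mul_assoc]
      _ = a * (⁅b, a⁆ * (a * b)) * b := by rw [hswap b a]
      _ = _ := by rw [← mul_assoc a, ← (hcm b a a).eq]; simp only [mul_assoc]
  -- squares of commutators are trivial
  have hc2 : ∀ a b : P, ⁅a, b⁆ * ⁅a, b⁆ = 1 := by
    intro a b
    set c := ⁅b, a⁆ with hcdef
    have hd2 : ⁅b, a * a⁆ = c * c := by
      rw [show ⁅b, a * a⁆ = c * (a * c * a⁻¹) by rw [hcdef, commutatorElement_def, commutatorElement_def]; group,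
        ← (hcm b a a).eq, mul_inv_cancel_right]
    have hc4 : (c * c) * (c * c) = 1 := by
      rw [← h4 c]; simp only [pow_succ, pow_zero, one_mul, mul_assoc]
    have hcomm : Commute (a * a) (b * b) := by
      show a * a * (b * b) = b * b * (a * a)
      rw [hsq b (a * a), hd2, hc4, one_mul]
    have key : c ^ 2 * ((a ^ 2) ^ 2 * (b ^ 2) ^ 2) = 1 := by
      rw [pow_two a, pow_two b, ← hcomm.mul_pow, ← (hcm b a _).mul_pow, ← hprod, ← pow_two, ← pow_mul]
      exact h4 _
    rw [← pow_mul, ← pow_mul, h4, h4, mul_one, mul_one, pow_two] at key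
    rw [show ⁅a, b⁆ = c⁻¹ from (commutatorElement_inv b a).symm, ← mul_inv_rev, key, inv_one]
  have hfr : frattini P ≤ Subgroup.center P := by
    refine CfsgLib.LocalBasic.frattini_le_of_elementary_quotient (p := 2) (Subgroup.center P) hc fun a => ?_
    rw [Subgroup.mem_center_iff]
    intro b
    rw [pow_two, hsq a b, hc2, one_mul]
  let E : Subgroup P :=
    { carrier := {z | z ∈ Subgroup.center P ∧ z ^ 2 = 1}
      one_mem' := ⟨Subgroup.one_mem _, one_pow 2⟩
      mul_mem' := fun {a b} ha hb => ⟨Subgroup.mul_mem _ ha.1 hb.1, by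
        rw [(show Commute a b from Subgroup.mem_center_iff.mp hb.1 a).mul_pow, ha.2, hb.2, one_mul]⟩
      inv_mem' := fun {a} ha => ⟨Subgroup.inv_mem _ ha.1, by rw [inv_pow, ha.2, inv_one]⟩ }
  haveI : E.Normal := ⟨fun z hz g => by
    rw [show g * z * g⁻¹ = z by rw [Subgroup.mem_center_iff.mp hz.1 g, mul_inv_cancel_right]]; exact hz⟩
  have hE : frattini P ≤ E := by
    refine CfsgLib.LocalBasic.frattini_le_of_elementary_quotient (p := 2) E (fun a b => ⟨hc a b, by rw [pow_two]; exact hc2 a b⟩) fun a => ⟨?_, ?_⟩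
    · rw [Subgroup.mem_center_iff]
      intro b
      rw [pow_two, hsq a b, hc2, one_mul]
    · rw [← pow_mul]; exact h4 a
  exact ⟨hfr, ⟨⟨⟨fun a b => Subtype.ext (Subgroup.mem_center_iff.mp (hfr b.2) a)⟩⟩, fun a ha => (hE ha).2⟩⟩


end Cfsg.Agent.S4056
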