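import Cfsg.Statements.S4058
import Cfsg.Agent.Lib.GroupB.Indicator
import Mathlib.GroupTheory.Frattini
import Mathlib.GroupTheory.SpecificGroups.Cyclic

set_option autoImplicit false
open Cfsg

namespace Cfsg.Agent.S4058

open CfsgLib.Chars
open scoped ComplexConjugate

theorem sq_mem_frattini {G : Type*} [Group G] [Finite G] (hG : IsPGroup 2 G) (x : G) :
    x ^ 2 ∈ frattini G := by
  haveI := hG.isNilpotent
  show x ^ 2 ∈ Order.radical (Subgroup G)
  rw [Order.radical, Subgroup.mem_iInf]
  intro M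
  rw [Subgroup.mem_iInf]
  intro hM
  have hn : M.Normal :=
    Subgroup.NormalizerCondition.normal_of_coatom M Group.normalizerCondition_of_isNilpotent hM
  have hMne := hM.1
  haveI : Nontrivial (G ⧸ M) := QuotientGroup.nontrivial_iff.mpr hMne
  obtain ⟨a, ha⟩ := IsPGroup.iff_card.mp (hG.to_quotient M)
  have hd : 2 ∣ Nat.card (G ⧸ M) := by
    rw [ha]
    refine dvd_pow_self 2 ?_
    rintro rfl
    have := Finite.one_lt_card (α := G ⧸ M)
    omega
  haveI : Fact (Nat.Prime 2) := ⟨Nat.prime_two⟩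
  obtain ⟨y, hy⟩ := exists_prime_orderOf_dvd_card' 2 hd
  have hle : M ≤ (Subgroup.zpowers y).comap (QuotientGroup.mk' M) := fun m hm => by
    show (QuotientGroup.mk' M) m ∈ Subgroup.zpowers y
    rw [show (QuotientGroup.mk' M) m = 1 from (QuotientGroup.eq_one_iff m).mpr hm]
    exact one_mem _
  rcases hle.eq_or_lt with h | h
  · exfalso
    obtain ⟨g, hg⟩ := QuotientGroup.mk'_surjective M y
    have hgM : g ∈ M := by
      rw [h]
      show (QuotientGroup.mk' M) g ∈ Subgroup.zpowers y
      rw [hg]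
      exact Subgroup.mem_zpowers y
    rw [← hg, show (QuotientGroup.mk' M) g = 1 from (QuotientGroup.eq_one_iff g).mpr hgM,
      orderOf_one] at hy
    omega
  · have htop := hM.2 _ h
    have hx : (QuotientGroup.mk' M) x ∈ Subgroup.zpowers y := by
      have : x ∈ (Subgroup.zpowers y).comap (QuotientGroup.mk' M) := htop ▸ Subgroup.mem_top x
      exact this
    obtain ⟨z, hz⟩ := hx
    have : (QuotientGroup.mk' M) (x ^ 2) = 1 := by
      rw [map_pow, ← hz]
      show (y ^ z) ^ 2 = 1
      rw [← zpow_natCast, ← zpow_mul, mul_comm, zpow_mul, zpow_natCast,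
        (by rw [← hy]; exact pow_orderOf_eq_one y : y ^ 2 = 1), one_zpow]
    exact (QuotientGroup.eq_one_iff _).mp this

open Classical in
/-- Let G be a finite 2-group with #(G/Φ(G)) ≥ 2^(2k+1). Then the number of elements x of G with x² = 1 is divisible by 2^(k+1). -/
theorem result {G : Type*} [Group G] [Finite G] (hG : IsPGroup 2 G) (k : ℕ)
    (hgen : 2 ^ (2 * k + 1) ≤ Nat.card (G ⧸ frattini G)) :
    2 ^ (k + 1) ∣ Nat.card {x : G // x ^ 2 = 1} := by
  haveI := Fintype.ofFinite G
  haveI : Fact (Nat.Prime 2) := ⟨Nat.prime_two⟩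
  obtain ⟨ν, hν, hsum⟩ := CfsgLib.GroupB.Indicator.exists_indicator_sum (G := G)
  -- the group of sign characters
  let L : Subgroup (G →* ℂˣ) := (powMonoidHom 2 : (G →* ℂˣ) →* (G →* ℂˣ)).ker
  have hL : ∀ l : L, ∀ x : G, ((l : G →* ℂˣ) (x ^ 2) : ℂ) = 1 := by
    intro l x
    have h1 : ((l : G →* ℂˣ) ^ 2) x = 1 := by
      rw [show (l : G →* ℂˣ) ^ 2 = 1 from l.2]; rfl
    rw [map_pow]
    rw [MonoidHom.pow_apply] at h1
    rw [h1, Units.val_one]
  haveI : Finite (G →* ℂˣ) := Finite.of_injective _ (homIrr_injective (G := G))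
  -- its order
  have hLp : ∃ ℓ : ℕ, Nat.card L = 2 ^ ℓ := by
    refine IsPGroup.iff_card.mp fun l => ⟨1, Subtype.ext ?_⟩
    have h1 : (l : G →* ℂˣ) ^ 2 = 1 := l.2
    rw [pow_one, SubmonoidClass.coe_pow, h1]
    rfl
  obtain ⟨ℓ, hℓ⟩ := hLp
  have hℓk : 2 * k + 1 ≤ ℓ := by
    refine (Nat.pow_le_pow_iff_right (by norm_num : 1 < 2)).mp (hgen.trans ?_)
    rw [← hℓ]
    let Q := G ⧸ frattini G
    have hsq : ∀ a : Q, a ^ 2 = 1 := by
      intro a
      obtain ⟨g, rfl⟩ := QuotientGroup.mk'_surjective (frattini G) a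
      exact (map_pow _ g 2).symm.trans ((QuotientGroup.eq_one_iff _).mpr (sq_mem_frattini hG g))
    letI : CommGroup Q := { (inferInstance : Group Q) with
      mul_comm := fun a b => by
        have inv : ∀ z : Q, z⁻¹ = z := fun z => inv_eq_of_mul_eq_one_right (by rw [← sq]; exact hsq z)
        rw [← inv (a * b), mul_inv_rev, inv, inv] }
    haveI : NeZero (Monoid.exponent Q : ℂ) :=
      ⟨by exact_mod_cast Monoid.exponent_ne_zero_of_finite⟩
    rw [← CommGroup.card_monoidHom_of_hasEnoughRootsOfUnity Q ℂ]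
    refine Nat.card_le_card_of_injective
      (fun f : Q →* ℂˣ => (⟨f.comp (QuotientGroup.mk' (frattini G)), ?_⟩ : L)) ?_
    · show (f.comp (QuotientGroup.mk' (frattini G))) ^ 2 = 1
      refine MonoidHom.ext fun g => ?_
      rw [MonoidHom.pow_apply, MonoidHom.comp_apply, ← map_pow, hsq, map_one]
      rfl
    · intro f g h
      exact (MonoidHom.cancel_right (QuotientGroup.mk'_surjective _)).mp (congrArg Subtype.val h)
  -- the twisting action
  letI : MulAction L (IrrCharacter G) :=
    { smul := fun l χ => ⟨fun g => ((l : G →* ℂˣ) g : ℂ) * (χ : G → ℂ) g, isIrrCharacter_hom_mul _ χ⟩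
      one_smul := fun χ => Subtype.ext (funext fun g => by
        show (((1 : L) : G →* ℂˣ) g : ℂ) * (χ : G → ℂ) g = _
        simp)
      mul_smul := fun a b χ => Subtype.ext (funext fun g => by
        show (((a * b : L) : G →* ℂˣ) g : ℂ) * (χ : G → ℂ) g =
          ((a : G →* ℂˣ) g : ℂ) * (((b : G →* ℂˣ) g : ℂ) * (χ : G → ℂ) g)
        simp [mul_assoc]) }
  have hsmul : ∀ (l : L) (χ : IrrCharacter G) (g : G),
      ((l • χ : IrrCharacter G) : G → ℂ) g = ((l : G →* ℂˣ) g : ℂ) * (χ : G → ℂ) g := fun _ _ _ => rfl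
  have hνs : ∀ (l : L) (χ : IrrCharacter G), ν (l • χ) = ν χ := by
    intro l χ
    have : (ν (l • χ) : ℂ) = (ν χ : ℂ) := by
      rw [hν, hν]
      simp only [hsmul, hL, one_mul]
    exact_mod_cast this
  have hds : ∀ (l : L) (χ : IrrCharacter G),
      charDegree ((l • χ : IrrCharacter G) : G → ℂ) = charDegree (χ : G → ℂ) := by
    intro l χ
    simp only [charDegree, hsmul, map_one, Units.val_one, one_mul]
  have key : ∀ χ : IrrCharacter G,
      2 ^ (k + 1) ∣ Nat.card (MulAction.orbit L χ) * charDegree (χ : G → ℂ) := by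
    intro χ
    obtain ⟨a, ha⟩ := IsPGroup.iff_card.mp hG
    obtain ⟨d, -, hd⟩ := (Nat.dvd_prime_pow Nat.prime_two).mp (ha ▸ charDegree_dvd χ)
    have hmul : Nat.card (MulAction.orbit L χ) * Nat.card (MulAction.stabilizer L χ) = 2 ^ ℓ := by
      rw [← hℓ, ← Nat.card_prod, Nat.card_congr (MulAction.orbitProdStabilizerEquivGroup L χ)]
    obtain ⟨o, -, ho⟩ := (Nat.dvd_prime_pow Nat.prime_two).mp (Dvd.intro _ hmul)
    obtain ⟨s, -, hs⟩ := (Nat.dvd_prime_pow Nat.prime_two).mp (Dvd.intro_left _ hmul)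
    have hos : o + s = ℓ := by
      rw [ho, hs, ← pow_add] at hmul
      exact Nat.pow_right_injective le_rfl hmul
    -- the stabiliser is at most the square of the degree
    set φ : G → ℂ := fun g => (χ : G → ℂ) g * conj ((χ : G → ℂ) g)
    have hφ : IsCharacter G φ :=
      IsCharacter.mul (isCharacter_irr χ) (IsIrrCharacter.isCharacter (isIrrCharacter_conj χ))
    choose m hm using fun ψ : IrrCharacter G => exists_mult hφ ψ
    have hone : ∀ l : MulAction.stabilizer L χ, m (homIrr ((l : L) : G →* ℂˣ)) = 1 := by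
      intro l
      have h1 := hm (homIrr ((l : L) : G →* ℂˣ))
      have h2 : classInner φ (homIrr ((l : L) : G →* ℂˣ) : G → ℂ) = 1 := by
        have h3 := classInner_irr χ χ
        rw [if_pos rfl] at h3
        rw [← h3]
        simp only [classInner]
        refine congrArg _ (Finset.sum_congr rfl fun g _ => ?_)
        have hfix : (((l : L) : G →* ℂˣ) g : ℂ) * (χ : G → ℂ) g = (χ : G → ℂ) g :=
          congrFun (congrArg Subtype.val (show (l : L) • χ = χ from l.2)) g
        show (χ : G → ℂ) g * conj ((χ : G → ℂ) g) * conj (((l : L) : G →* ℂˣ) g : ℂ) = _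
        conv_rhs => rw [← hfix]
        rw [map_mul]
        calc _ = (χ : G → ℂ) g * conj ((χ : G → ℂ) g) * conj (((l : L) : G →* ℂˣ) g : ℂ) := rfl
          _ = _ := by
            conv_lhs => arg 1; arg 1; rw [← hfix]
            ring
      rw [h2] at h1
      exact_mod_cast h1.symm
    have hexp : ((charDegree (χ : G → ℂ) * charDegree (χ : G → ℂ) : ℕ) : ℂ) =
        ((∑ ψ : IrrCharacter G, m ψ * charDegree (ψ : G → ℂ) : ℕ) : ℂ) := by
      have h := classFunction_expand (IsCharacter.isClassFunction hφ) 1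
      simp only [hm, φ, irr_apply_one, Complex.conj_natCast] at h
      push_cast
      exact h
    have hsle : Nat.card (MulAction.stabilizer L χ) ≤
        charDegree (χ : G → ℂ) * charDegree (χ : G → ℂ) := by
      rw [Nat.cast_inj.mp hexp]
      haveI : Fintype (MulAction.stabilizer L χ) := Fintype.ofFinite _
      let i : MulAction.stabilizer L χ → IrrCharacter G := fun l => homIrr ((l : L) : G →* ℂˣ)
      have hi : Function.Injective i := fun a b h => Subtype.ext (Subtype.ext (homIrr_injective h))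
      calc Nat.card (MulAction.stabilizer L χ)
          = ∑ ψ ∈ Finset.univ.image i, 1 := by
            rw [Finset.sum_const, smul_eq_mul, mul_one, Finset.card_image_of_injective _ hi,
              Finset.card_univ, Nat.card_eq_fintype_card]
        _ ≤ ∑ ψ ∈ Finset.univ.image i, m ψ * charDegree (ψ : G → ℂ) := by
            refine Finset.sum_le_sum fun ψ hψ => ?_
            obtain ⟨l, -, rfl⟩ := Finset.mem_image.mp hψ
            rw [hone, charDegree_hom]
        _ ≤ _ := Finset.sum_le_sum_of_subset (Finset.subset_univ _)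
    rw [hs, hd, ← pow_add] at hsle
    have hsd : s ≤ d + d := (Nat.pow_le_pow_iff_right (by norm_num : 1 < 2)).mp hsle
    rw [ho, hd, ← pow_add]
    exact pow_dvd_pow 2 (by omega)
  -- sum over orbits
  rw [← Int.natCast_dvd_natCast, hsum,
    ← Finset.sum_fiberwise_of_maps_to (s := Finset.univ) (t := Finset.univ)
      (g := fun χ : IrrCharacter G => (Quotient.mk'' χ : MulAction.orbitRel.Quotient L (IrrCharacter G)))
      (fun _ _ => Finset.mem_univ _)]
  refine Finset.dvd_sum fun q _ => ?_
  induction q using Quotient.inductionOn' with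
  | _ χ =>
    have hfib : (Finset.univ.filter fun ψ : IrrCharacter G =>
        (Quotient.mk'' ψ : MulAction.orbitRel.Quotient L (IrrCharacter G)) = Quotient.mk'' χ) =
        (MulAction.orbit L χ).toFinset := by
      ext ψ
      simp only [Finset.mem_filter, Finset.mem_univ, true_and, Set.mem_toFinset, Quotient.eq'',
        MulAction.orbitRel_apply]
    rw [hfib]
    have hc : ∀ ψ ∈ (MulAction.orbit L χ).toFinset,
        ν ψ * (charDegree (ψ : G → ℂ) : ℤ) = ν χ * (charDegree (χ : G → ℂ) : ℤ) := by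
      intro ψ hψ
      rw [Set.mem_toFinset] at hψ
      obtain ⟨l, rfl⟩ := hψ
      show ν (l • χ) * (charDegree ((l • χ : IrrCharacter G) : G → ℂ) : ℤ) = _
      rw [hνs, hds]
    rw [Finset.sum_congr rfl hc, Finset.sum_const, Set.toFinset_card, ← Nat.card_eq_fintype_card,
      nsmul_eq_mul]
    obtain ⟨c, hc2⟩ := key χ
    refine ⟨ν χ * c, ?_⟩
    have h4 : (Nat.card (MulAction.orbit L χ) : ℤ) * (charDegree (χ : G → ℂ) : ℤ) =
        ((2 ^ (k + 1) : ℕ) : ℤ) * (c : ℤ) := by exact_mod_cast hc2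
    linear_combination (ν χ) * h4

end Cfsg.Agent.S4058
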