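import Cfsg.Statements.S4065
import Mathlib
import Cfsg.Agent.Lib.SL2.Elements

set_option autoImplicit false
open Cfsg

namespace Cfsg.Agent.S4065

open CfsgLib.SL2Torus CfsgLib.PSL2Klein

/-- Let F be a finite field with 2ⁿ elements, n ≥ 2. In PSL₂(F) the centralizer of every element meets each of its conjugates by elements outside its normalizer trivially. -/
theorem result (n : ℕ) (hn : 2 ≤ n)
    (x : Matrix.ProjectiveSpecialLinearGroup (Fin 2) (GaloisField 2 n)) :
    Cfsg.IsTISubset (Subgroup.centralizer ({x} : Set (Matrix.ProjectiveSpecialLinearGroup (Fin 2) (GaloisField 2 n))) :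
      Set (Matrix.ProjectiveSpecialLinearGroup (Fin 2) (GaloisField 2 n))) := by
  open CfsgLib.SL2Torus CfsgLib.PSL2Klein in
  intro c hc y hy hcy
  haveI : Fintype (GaloisField 2 n) := Fintype.ofFinite _
  have h2 : (2 : GaloisField 2 n) = 0 := CharTwo.two_eq_zero
  by_contra hy1
  apply hc
  by_cases hx : x = 1
  · have : Subgroup.centralizer ({x} : Set (Matrix.ProjectiveSpecialLinearGroup (Fin 2) (GaloisField 2 n))) = ⊤ :=
      eq_top_iff.2 fun z _ => Subgroup.mem_centralizer_singleton_iff.2 (by simp [hx])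
    rw [this, Subgroup.normalizer_eq_top]
    exact Subgroup.mem_top c
  -- centralisers of nontrivial commuting elements coincide
  have key : ∀ {a b : Matrix.ProjectiveSpecialLinearGroup (Fin 2) (GaloisField 2 n)}, a ≠ 1 → b ≠ 1 →
      b ∈ Subgroup.centralizer {a} → Subgroup.centralizer {b} = Subgroup.centralizer {a} := by
    intro a b ha hb hab
    obtain ⟨g, rfl⟩ := π_surj a
    have hg : ¬ ∃ r, (g : Matrix (Fin 2) (Fin 2) (GaloisField 2 n)) = r • (1 : Matrix (Fin 2) (Fin 2) (GaloisField 2 n)) :=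
      fun h => ha (mk_scalar h)
    rw [centralizer_π (Or.inr h2)] at hab ⊢
    obtain ⟨h, hh, rfl⟩ := hab
    rw [centralizer_π (Or.inr h2), cent_eq hg hh (fun e => hb (mk_scalar e))]
  have h1 := key hx hy1 hy
  have h3 := key hx (fun h => hy1 (conj_eq_one_iff.1 h)) hcy
  rw [Subgroup.mem_normalizer_iff]
  intro z
  rw [← h1]
  conv_rhs => rw [h1, ← h3]
  simp only [Subgroup.mem_centralizer_singleton_iff]
  constructor <;> intro h
  · calc c * z * c⁻¹ * (c * y * c⁻¹) = c * (z * y) * c⁻¹ := by group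
      _ = c * (y * z) * c⁻¹ := by rw [h]
      _ = c * y * c⁻¹ * (c * z * c⁻¹) := by group
  · calc z * y = c⁻¹ * (c * z * c⁻¹ * (c * y * c⁻¹)) * c := by group
      _ = c⁻¹ * (c * y * c⁻¹ * (c * z * c⁻¹)) * c := by rw [h]
      _ = y * z := by group

end Cfsg.Agent.S4065
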