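import Cfsg.Statements.S4066
import Mathlib

set_option autoImplicit false
open Cfsg

namespace Cfsg.Agent.S4066

/-- Let G be a finite group in which the centralizer of every element meets each of its conjugates by elements outside its normalizer trivially. Then any two distinct Sylow p-subgroups of G, for any prime p, intersect trivially. -/
theorem result {G : Type*} [Group G] [Finite G] (hTI : ∀ x : G, Cfsg.IsTISubset (Subgroup.centralizer ({x} : Set G) : Set G))
    {p : ℕ} [Fact p.Prime] (P Q : Sylow p G) (hPQ : P ≠ Q) : (P : Subgroup G) ⊓ (Q : Subgroup G) = ⊥ := by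
  classical
  have hp : p.Prime := Fact.out
  -- the `p`-elements of the centre of a centralizer
  let Bs : G → Subgroup G := fun y => Subgroup.closure
    {a | a ∈ Subgroup.centralizer ({y} : Set G) ∧ (∀ b ∈ Subgroup.centralizer ({y} : Set G), a * b = b * a) ∧ ∃ k, a ^ p ^ k = 1}
  have hBs : ∀ y a, a ∈ Bs y → a ∈ Subgroup.centralizer ({y} : Set G) ∧
      (∀ b ∈ Subgroup.centralizer ({y} : Set G), a * b = b * a) ∧ ∃ k, a ^ p ^ k = 1 := by
    intro y a ha
    induction ha using Subgroup.closure_induction with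
    | mem x hx => exact hx
    | one => exact ⟨Subgroup.one_mem _, fun b _ => by simp, 0, by simp⟩
    | mul u v _ _ hu hv =>
      refine ⟨Subgroup.mul_mem _ hu.1 hv.1, fun b hb => ?_, ?_⟩
      · rw [mul_assoc, hv.2.1 b hb, ← mul_assoc, hu.2.1 b hb, mul_assoc]
      · obtain ⟨k, hk⟩ := hu.2.2
        obtain ⟨l, hl⟩ := hv.2.2
        refine ⟨k + l, ?_⟩
        rw [Commute.mul_pow (hu.2.1 v hv.1), pow_add, pow_mul, hk, one_pow, one_mul, mul_comm, pow_mul, hl, one_pow]
    | inv u _ hu =>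
      refine ⟨Subgroup.inv_mem _ hu.1, fun b hb => ?_, ?_⟩
      · have : Commute u b := hu.2.1 b hb
        exact this.inv_left.eq
      · obtain ⟨k, hk⟩ := hu.2.2
        exact ⟨k, by rw [inv_pow, hk, inv_one]⟩
  have hBp : ∀ y, IsPGroup p (Bs y) := fun y a => (hBs y a a.2).2.2.imp fun k hk => Subtype.ext hk
  have hBmem : ∀ y : G, (∃ k, y ^ p ^ k = 1) → y ∈ Bs y := fun y hy =>
    Subgroup.subset_closure ⟨Subgroup.mem_centralizer_singleton_iff.mpr rfl,
      fun b hb => (Subgroup.mem_centralizer_singleton_iff.mp hb).symm, hy⟩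
  -- whatever normalizes the centralizer normalizes `Bs`
  have hBn : ∀ y g, g ∈ Subgroup.normalizer ((Subgroup.centralizer ({y} : Set G) : Subgroup G) : Set G) →
      g ∈ Subgroup.normalizer (Bs y : Set G) := by
    intro y g hg
    have key : ∀ g, g ∈ Subgroup.normalizer ((Subgroup.centralizer ({y} : Set G) : Subgroup G) : Set G) →
        ∀ a ∈ Bs y, g * a * g⁻¹ ∈ Bs y := by
      intro g hg a ha
      obtain ⟨h1, h2, k, hk⟩ := hBs y a ha
      refine Subgroup.subset_closure ⟨(Subgroup.mem_normalizer_iff.mp hg a).mp h1, fun b hb => ?_, k, ?_⟩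
      · have hb' := (Subgroup.mem_normalizer_iff.mp (Subgroup.inv_mem _ hg) b).mp hb
        have h3 := congrArg (fun t => g * t * g⁻¹) (h2 _ hb')
        simpa [mul_assoc] using h3
      · rw [conj_pow, hk]; simp
    rw [Subgroup.mem_normalizer_iff]
    intro a
    refine ⟨key g hg a, fun h => ?_⟩
    have := key g⁻¹ (Subgroup.inv_mem _ hg) _ h
    simpa [mul_assoc] using this
  have hTI' : ∀ w y g : G, w ≠ 1 → w * y = y * w → g * w = w * g →
      g ∈ Subgroup.normalizer ((Subgroup.centralizer ({y} : Set G) : Subgroup G) : Set G) := by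
    intro w y g hw hwy hgw
    by_contra hg
    exact hw (hTI y g hg w (Subgroup.mem_centralizer_singleton_iff.mpr hwy)
      (by rw [hgw, mul_inv_cancel_right]; exact Subgroup.mem_centralizer_singleton_iff.mpr hwy))
  have hlem : ∀ (S : Sylow p G) (w y : G), w ≠ 1 → (∀ s ∈ (S : Subgroup G), s * w = w * s) → w * y = y * w →
      (∃ k, y ^ p ^ k = 1) → y ∈ (S : Subgroup G) := by
    intro S w y hw hS hwy hy
    have hn : (S : Subgroup G) ≤ Subgroup.normalizer (Bs y : Set G) := fun s hs => hBn y s (hTI' w y s hw hwy (hS s hs))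
    have h3 := S.3 (IsPGroup.to_sup_of_normal_right' S.2 (hBp y) hn) le_sup_left
    rw [← h3]
    exact Subgroup.mem_sup_right (hBmem y hy)
  have hfix : ∀ (U : Subgroup G) (y : G), IsPGroup p U → y ≠ 1 → (∃ k, y ^ p ^ k = 1) →
      (∀ u ∈ U, u ∈ Subgroup.normalizer ((Subgroup.centralizer ({y} : Set G) : Subgroup G) : Set G)) →
      ∃ b : G, b ≠ 1 ∧ (∀ u ∈ U, u * b = b * u) ∧ (∀ c ∈ Subgroup.centralizer ({y} : Set G), c * b = b * c) ∧ ∃ k, b ^ p ^ k = 1 := by
    intro U y hU hy1 hy hn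
    letI : MulAction U (Bs y) :=
      { smul := fun u b => ⟨(u : G) * b * (u : G)⁻¹, (Subgroup.mem_normalizer_iff.mp (hBn y u (hn u u.2)) b).mp b.2⟩
        one_smul := fun b => Subtype.ext (by show ((1 : U) : G) * b * ((1 : U) : G)⁻¹ = b; simp)
        mul_smul := fun u v b => Subtype.ext (by
          show ((u * v : U) : G) * b * ((u * v : U) : G)⁻¹ = (u : G) * ((v : G) * b * (v : G)⁻¹) * (u : G)⁻¹
          simp [mul_assoc]) }
    have hdvd : p ∣ Nat.card (Bs y) := by
      haveI : Nontrivial (Bs y) := ⟨⟨⟨y, hBmem y hy⟩, 1, fun h => hy1 (congrArg Subtype.val h)⟩⟩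
      obtain ⟨n, hn'⟩ := (hBp y).exists_card_eq
      rcases n with _ | n
      · exact absurd hn' (by simpa using (Finite.one_lt_card (α := Bs y)).ne')
      · exact ⟨p ^ n, by rw [hn', pow_succ']⟩
    have h1 : (1 : Bs y) ∈ MulAction.fixedPoints U (Bs y) := fun u => Subtype.ext (by
      show (u : G) * (1 : G) * (u : G)⁻¹ = 1; simp)
    obtain ⟨b, hb, hb1⟩ := hU.exists_fixed_point_of_prime_dvd_card_of_fixed_point (Bs y) hdvd h1
    refine ⟨b, fun h => hb1 (Subtype.ext h).symm, fun u hu => ?_, fun c hc => ((hBs y b b.2).2.1 c hc).symm, (hBs y b b.2).2.2⟩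
    have h2 : u * (b : G) * u⁻¹ = b := congrArg Subtype.val (hb ⟨u, hu⟩)
    exact mul_inv_eq_iff_eq_mul.mp h2
  by_contra hne
  obtain ⟨d, ⟨hdP, hdQ⟩, hd1⟩ := (Subgroup.bot_or_exists_ne_one ((P : Subgroup G) ⊓ (Q : Subgroup G))).resolve_left hne
  have hpow : ∀ (S : Sylow p G) (x : G), x ∈ (S : Subgroup G) → ∃ k, x ^ p ^ k = 1 := fun S x hx =>
    (S.2 ⟨x, hx⟩).imp fun k hk => congrArg Subtype.val hk
  -- a central element of each Sylow subgroup lies in the other one
  have hside : ∀ S S' : Sylow p G, d ∈ (S : Subgroup G) → d ∈ (S' : Subgroup G) → ∀ z : G, z ≠ 1 →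
      (∀ s ∈ (S : Subgroup G), s * z = z * s) → z ∈ (S : Subgroup G) → z ∈ (S' : Subgroup G) := by
    intro S S' hS hS' z hz1 hzc hz
    haveI : Nontrivial (S' : Subgroup G) := ⟨⟨⟨d, hS'⟩, 1, fun h => hd1 (congrArg Subtype.val h)⟩⟩
    haveI := S'.2.center_nontrivial
    obtain ⟨⟨⟨t, ht⟩, htc⟩, ht1⟩ := exists_ne (1 : Subgroup.center (S' : Subgroup G))
    have htc' : ∀ s ∈ (S' : Subgroup G), s * t = t * s := fun s hs =>
      congrArg Subtype.val (Subgroup.mem_center_iff.mp htc ⟨s, hs⟩)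
    have ht1' : t ≠ 1 := fun h => ht1 (Subtype.ext (Subtype.ext h))
    have hnz : z ∈ Subgroup.normalizer ((Subgroup.centralizer ({t} : Set G) : Subgroup G) : Set G) :=
      hTI' d t z hd1 (htc' d hS') (hzc d hS).symm
    obtain ⟨b, hb1, hbU, hbC, -⟩ := hfix (Subgroup.zpowers z) t (IsPGroup.to_le S.2 (Subgroup.zpowers_le.mpr hz))
      ht1' (hpow S' t ht) (fun u hu => (Subgroup.zpowers_le.mpr hnz) hu)
    exact hlem S' b z hb1 (fun s hs => hbC s (Subgroup.mem_centralizer_singleton_iff.mpr (htc' s hs)))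
      (hbU z (Subgroup.mem_zpowers z)).symm (hpow S z hz)
  have hcen : ∀ S : Sylow p G, d ∈ (S : Subgroup G) → ∃ z : G, z ≠ 1 ∧ z ∈ (S : Subgroup G) ∧ ∀ s ∈ (S : Subgroup G), s * z = z * s := by
    intro S hS
    haveI : Nontrivial (S : Subgroup G) := ⟨⟨⟨d, hS⟩, 1, fun h => hd1 (congrArg Subtype.val h)⟩⟩
    haveI := S.2.center_nontrivial
    obtain ⟨⟨⟨t, ht⟩, htc⟩, ht1⟩ := exists_ne (1 : Subgroup.center (S : Subgroup G))
    exact ⟨t, fun h => ht1 (Subtype.ext (Subtype.ext h)), ht,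
      fun s hs => congrArg Subtype.val (Subgroup.mem_center_iff.mp htc ⟨s, hs⟩)⟩
  obtain ⟨z, hz1, hzP, hzc⟩ := hcen P hdP
  obtain ⟨t, ht1, htQ, htc⟩ := hcen Q hdQ
  have htP : t ∈ (P : Subgroup G) := hside Q P hdQ hdP t ht1 htc htQ
  -- `Q` normalizes the centralizer of `z`
  have hn : ∀ u ∈ (Q : Subgroup G), u ∈ Subgroup.normalizer ((Subgroup.centralizer ({z} : Set G) : Subgroup G) : Set G) :=
    fun u hu => hTI' t z u ht1 (hzc t htP) (htc u hu)
  obtain ⟨b, hb1, hbQ, hbC, -⟩ := hfix (Q : Subgroup G) z Q.2 hz1 (hpow P z hzP) hn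
  have hle : (P : Subgroup G) ≤ (Q : Subgroup G) := fun y hy =>
    hlem Q b y hb1 hbQ (hbC y (Subgroup.mem_centralizer_singleton_iff.mpr (hzc y hy))).symm (hpow P y hy)
  exact hPQ (Sylow.ext (P.3 Q.2 hle).symm)

end Cfsg.Agent.S4066
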