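import Mathlib.GroupTheory.Sylow
import Mathlib.GroupTheory.Nilpotent
import Mathlib.GroupTheory.Abelianization.Defs
import Mathlib.GroupTheory.Subgroup.Centralizer
import Mathlib.GroupTheory.Solvable
import Mathlib.GroupTheory.NoncommCoprod
import Mathlib.GroupTheory.Complement
import Mathlib.RingTheory.Coprime.Lemmas
import Mathlib.RingTheory.Int.Basic
import Cfsg.Prelude.Def_Transfer

set_option autoImplicit false
open Cfsg

namespace Cfsg.Agent.S4071

open Subgroup
open scoped commutatorElement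

section
variable {G : Type*} [Group G] [Finite G] {A : Subgroup G} (hA : A.Normal) (hab : IsMulCommutative A)

/-- The endomorphism `a ↦ a (y a y⁻¹)⁻¹` of a normal abelian subgroup. -/
def diffHom (y : G) : A →* A where
  toFun a := ⟨(a : G) * (y * a * y⁻¹)⁻¹, mul_mem a.2 (inv_mem (hA.conj_mem _ a.2 y))⟩
  map_one' := Subtype.ext (by simp)
  map_mul' a b := by
    have hc : ∀ u v : G, u ∈ A → v ∈ A → u * v = v * u := fun u v hu hv =>
      congrArg Subtype.val (hab.is_comm.comm ⟨u, hu⟩ ⟨v, hv⟩)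
    refine Subtype.ext ?_
    show (a : G) * b * (y * (a * b) * y⁻¹)⁻¹ = a * (y * a * y⁻¹)⁻¹ * (b * (y * b * y⁻¹)⁻¹)
    have e : (y * ((a : G) * b) * y⁻¹)⁻¹ = (y * b * y⁻¹)⁻¹ * (y * a * y⁻¹)⁻¹ := by simp [mul_assoc]
    rw [e, ← mul_assoc, hc _ _ (mul_mem (mul_mem a.2 b.2) (inv_mem (hA.conj_mem _ b.2 y)))
      (inv_mem (hA.conj_mem _ a.2 y)), hc _ _ a.2 (inv_mem (hA.conj_mem _ a.2 y))]
    simp [mul_assoc]

theorem diffHom_eq_one_iff (y : G) (a : A) : diffHom hA hab y a = 1 ↔ y * a * y⁻¹ = (a : G) := by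
  rw [Subtype.ext_iff, eq_comm (b := (a : G))]
  exact mul_inv_eq_one

end

theorem nilpotent_of_central_sup {G : Type*} [Group G] [Finite G] {A P : Subgroup G} {p : ℕ} [Fact p.Prime]
    (hP : IsPGroup p P) (hA : A ≤ center G) (htop : A ⊔ P = ⊤) : Group.IsNilpotent G := by
  have hc : ∀ (a : A) (b : P), Commute (A.subtype a) (P.subtype b) := fun a b =>
    (mem_center_iff.mp (hA a.2) _).symm
  have hsurj : Function.Surjective (MonoidHom.noncommCoprod A.subtype P.subtype hc) := by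
    rw [← MonoidHom.range_eq_top, MonoidHom.noncommCoprod_range, range_subtype, range_subtype, htop]
  haveI := hP.isNilpotent
  haveI : IsMulCommutative A := ⟨⟨fun a b => Subtype.ext (mem_center_iff.mp (hA b.2) a)⟩⟩
  haveI : Group.IsNilpotent A := open scoped IsMulCommutative in CommGroup.isNilpotent
  exact Group.nilpotent_of_surjective _ hsurj

theorem backward {G : Type*} [Group G] [Finite G] {x : G} {A : Subgroup G} {p : ℕ} (hp : p.Prime)
    (hA : A.Normal) (hab : IsMulCommutative A) (hx : ∃ k : ℕ, orderOf x = p ^ k)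
    (hcompl : (zpowers x).IsComplement' A) (hxc : x ^ p ∈ center G)
    (hfix : ∀ a : G, a ∈ A → a ≠ 1 → x * a * x⁻¹ ≠ a) :
    ∀ H : Subgroup G, ¬ IsMulCommutative H → normalizer (H : Set G) = H := by
  haveI := hA
  have hc : ∀ u v : G, u ∈ A → v ∈ A → u * v = v * u := fun u v hu hv =>
    congrArg Subtype.val (hab.is_comm.comm ⟨u, hu⟩ ⟨v, hv⟩)
  have hdec : ∀ g : G, ∃ (i : ℤ) (a : G), a ∈ A ∧ x ^ i * a = g := fun g => by
    obtain ⟨⟨⟨u, hu⟩, ⟨a, ha⟩⟩, h⟩ := hcompl.2 g
    obtain ⟨i, rfl⟩ := mem_zpowers_iff.mp hu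
    exact ⟨i, a, ha, h⟩
  have hgen : ∀ i : ℤ, ¬ (p : ℤ) ∣ i → x ∈ zpowers (x ^ i) := by
    intro i hi
    obtain ⟨k, hk⟩ := hx
    rw [mem_zpowers_iff]
    have hg : IsCoprime i ((p ^ k : ℕ) : ℤ) := by
      rw [Nat.cast_pow]
      exact IsCoprime.pow_right (((Nat.prime_iff_prime_int.mp hp).coprime_iff_not_dvd.mpr hi).symm)
    obtain ⟨u, v, huv⟩ := hg
    refine ⟨u, ?_⟩
    rw [← zpow_mul, show i * u = 1 - v * ((p ^ k : ℕ) : ℤ) by linarith, zpow_sub, zpow_one, mul_comm v,
      zpow_mul, zpow_natCast, ← hk, pow_orderOf_eq_one, one_zpow, inv_one, mul_one]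
  have main : ∀ H : Subgroup G, x ∈ H → normalizer (H : Set G) ≤ H := by
    intro H hxH g hg
    obtain ⟨i, a, ha, rfl⟩ := hdec g
    refine mul_mem (zpow_mem hxH i) ?_
    have haN : a ∈ normalizer (H : Set G) := by
      simpa using mul_mem (le_normalizer (zpow_mem hxH (-i))) hg
    set φ := diffHom hA hab x with hφ
    have hinj : Function.Injective φ := (injective_iff_map_eq_one φ).mpr fun b hb => by
      by_contra hne
      exact hfix b b.2 (fun h => hne (Subtype.ext h)) ((diffHom_eq_one_iff hA hab x b).mp hb)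
    set B := H.subgroupOf A with hB
    have hmap : B.map φ = B := by
      refine eq_of_le_of_card_ge ?_ (le_of_eq ?_)
      · rintro _ ⟨b, hb, rfl⟩
        exact mem_subgroupOf.mpr (mul_mem (mem_subgroupOf.mp hb)
          (inv_mem (mul_mem (mul_mem hxH (mem_subgroupOf.mp hb)) (inv_mem hxH))))
      · exact Nat.card_congr (B.equivMapOfInjective φ hinj).toEquiv
    have h1 : φ ⟨a, ha⟩ ∈ B := by
      refine mem_subgroupOf.mpr ?_
      have h2 : a * x * a⁻¹ ∈ H := (mem_normalizer_iff.mp haN x).mp hxH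
      have e : (φ ⟨a, ha⟩ : G) = a * x * a⁻¹ * x⁻¹ := by
        show a * (x * a * x⁻¹)⁻¹ = _
        simp [mul_assoc]
      rw [e]
      exact mul_mem h2 (inv_mem hxH)
    rw [← hmap] at h1
    obtain ⟨b, hb, hbe⟩ := h1
    exact hinj hbe ▸ mem_subgroupOf.mp hb |> fun h => by simpa using h
  intro H hH
  refine le_antisymm ?_ le_normalizer
  obtain ⟨y, hy, i, a, ha, hya, hi⟩ : ∃ y ∈ H, ∃ (i : ℤ) (a : G), a ∈ A ∧ x ^ i * a = y ∧ ¬ (p : ℤ) ∣ i := by
    by_contra hcon
    push_neg at hcon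
    refine hH ⟨⟨fun u v => Subtype.ext ?_⟩⟩
    have hdvd : ∀ w ∈ H, ∃ c a : G, c ∈ center G ∧ a ∈ A ∧ w = c * a := fun w hw => by
      obtain ⟨i, a, ha, hwa⟩ := hdec w
      obtain ⟨j, rfl⟩ := hcon w hw i a ha hwa
      refine ⟨(x ^ p) ^ j, a, zpow_mem hxc j, ha, ?_⟩
      rw [← hwa, zpow_mul, zpow_natCast]
    obtain ⟨c, a, hc1, ha, h1⟩ := hdvd u u.2
    obtain ⟨d, b, hd1, hb, h2⟩ := hdvd v v.2
    show (u : G) * v = v * u
    rw [h1, h2]
    exact Commute.mul_left (Commute.mul_right (mem_center_iff.mp hd1 c) (mem_center_iff.mp hc1 b).symm)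
      (Commute.mul_right (mem_center_iff.mp hd1 a) (hc a b ha hb))
  set ψ := diffHom hA hab (x ^ (-i)) with hψ
  have hsurj : Function.Surjective ψ := Finite.surjective_of_injective <|
    (injective_iff_map_eq_one ψ).mpr fun b hb => by
      by_contra hne
      have hb' := (diffHom_eq_one_iff hA hab _ b).mp hb
      refine hfix b b.2 (fun h => hne (Subtype.ext h)) ?_
      obtain ⟨j, hj⟩ := mem_zpowers_iff.mp (hgen i hi)
      have hcm : Commute (x ^ i) (b : G) := by
        have h3 : Commute (x ^ (-i)) (b : G) := mul_inv_eq_iff_eq_mul.mp hb'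
        simpa [zpow_neg] using h3.inv_left
      have h4 : Commute x (b : G) := hj ▸ hcm.zpow_left j
      rw [h4.eq, mul_inv_cancel_right]
  obtain ⟨b, hb⟩ := hsurj ⟨a⁻¹, inv_mem ha⟩
  have hy' : y = (b : G) * x ^ i * (b : G)⁻¹ := by
    have h0 : (b : G) * (x ^ (-i) * b * (x ^ (-i))⁻¹)⁻¹ = a⁻¹ := congrArg Subtype.val hb
    have h1 : a = x ^ (-i) * b * x ^ i * (b : G)⁻¹ := by
      rw [← inv_inv a, ← h0]; simp [zpow_neg, mul_assoc]
    rw [← hya, h1]
    simp [zpow_neg, mul_assoc]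
  set e : MulAut G := MulAut.conj (b : G)⁻¹ with he
  have hx' : x ∈ H.map e.toMonoidHom := by
    obtain ⟨j, hj⟩ := mem_zpowers_iff.mp (hgen i hi)
    rw [← hj]
    have h2 : x ^ i ∈ H.map e.toMonoidHom := ⟨y, hy, by rw [hy']; simp [he, MulAut.conj_apply, mul_assoc]⟩
    exact zpow_mem h2 j
  have h1 := main _ hx'
  rw [← map_equiv_normalizer_eq] at h1
  exact (map_le_map_iff_of_injective e.injective).mp h1

theorem forward {G : Type*} [Group G] [Finite G] [Group.IsSolvable G] (hnn : ¬ Group.IsNilpotent G)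
    (hS : ∀ H : Subgroup G, ¬ IsMulCommutative H → normalizer (H : Set G) = H) :
    ∃ (x : G) (A : Subgroup G) (p : ℕ), p.Prime ∧ A.Normal ∧ IsMulCommutative A ∧ (∃ k : ℕ, orderOf x = p ^ k) ∧
      ¬ p ∣ Nat.card A ∧ (zpowers x).IsComplement' A ∧ x ^ p ∈ center G ∧
      ∀ a : G, a ∈ A → a ≠ 1 → x * a * x⁻¹ ≠ a := by
  classical
  haveI : Nontrivial G := by
    by_contra h
    rw [not_nontrivial_iff_subsingleton] at h
    exact hnn inferInstance
  have hnab : ∀ N : Subgroup G, N.Normal → N ≠ ⊤ → IsMulCommutative N := fun N hN h =>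
    by_contra fun hc => h (by rw [← hS N hc]; exact normalizer_eq_top_iff.mpr hN)
  obtain ⟨M, hMt, hMd, hMmax⟩ : ∃ M : Subgroup G, M ≠ ⊤ ∧ commutator G ≤ M ∧ ∀ L : Subgroup G, M ≤ L → L ≠ ⊤ → L = M := by
    obtain ⟨M, hM, hMx⟩ := Finite.exists_le_maximal (p := fun N : Subgroup G => commutator G ≤ N ∧ N ≠ ⊤)
      (a := commutator G) ⟨le_rfl, (Group.IsSolvable.commutator_lt_top_of_nontrivial G).ne⟩
    exact ⟨M, hMx.1.2, hMx.1.1, fun L h1 h2 => (hMx.eq_of_le ⟨hMx.1.1.trans h1, h2⟩ h1).symm⟩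
  haveI hMn : M.Normal := Subgroup.Normal.of_commutator_le G hMd
  have hMab := hnab M hMn hMt
  haveI : Nontrivial (G ⧸ M) := QuotientGroup.nontrivial_iff.mpr hMt
  obtain ⟨p, hp, hpd⟩ := Nat.exists_prime_and_dvd (Finite.one_lt_card (α := G ⧸ M)).ne'
  haveI := Fact.mk hp
  obtain ⟨w, hw⟩ := exists_prime_orderOf_dvd_card' (G := G ⧸ M) p hpd
  have hidx : M.index = p := by
    have hle : M ≤ (zpowers w).comap (QuotientGroup.mk' M) := fun x hx => by
      rw [mem_comap, QuotientGroup.mk'_apply, (QuotientGroup.eq_one_iff x).mpr hx]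
      exact one_mem _
    by_cases h : (zpowers w).comap (QuotientGroup.mk' M) = ⊤
    · have h1 : zpowers w = ⊤ := by
        rw [← map_comap_eq_self_of_surjective (QuotientGroup.mk'_surjective M) (zpowers w), h,
          map_top_of_surjective _ (QuotientGroup.mk'_surjective M)]
      rw [index_eq_card, ← card_top, ← h1, Nat.card_zpowers, hw]
    · exfalso
      have h1 : zpowers w = ⊥ := by
        rw [← map_comap_eq_self_of_surjective (QuotientGroup.mk'_surjective M) (zpowers w), hMmax _ hle h,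
          QuotientGroup.map_mk'_self]
      rw [zpowers_eq_bot] at h1
      rw [h1, orderOf_one] at hw
      exact hp.ne_one hw.symm
  have hcM : ∀ u v : G, u ∈ M → v ∈ M → u * v = v * u := fun u v hu hv =>
    congrArg Subtype.val (hMab.is_comm.comm ⟨u, hu⟩ ⟨v, hv⟩)
  have hMp : ∀ g : G, (orderOf g).Coprime p → g ∈ M := by
    intro g hg
    have h1 : orderOf (QuotientGroup.mk' M g) ∣ orderOf g := orderOf_map_dvd _ _
    have h2 : orderOf (QuotientGroup.mk' M g) ∣ p := hidx ▸ (index_eq_card M ▸ orderOf_dvd_natCard _)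
    have h3 := orderOf_eq_one_iff.mp (Nat.eq_one_of_dvd_coprimes hg h1 h2)
    rwa [QuotientGroup.mk'_apply, QuotientGroup.eq_one_iff] at h3
  let A : Subgroup G :=
    { carrier := {g | (orderOf g).Coprime p}
      one_mem' := by simp
      mul_mem' := fun {u v} hu hv => by
        have hc : Commute u v := hcM u v (hMp u hu) (hMp v hv)
        exact Nat.Coprime.coprime_dvd_left (hc.orderOf_mul_dvd_lcm.trans (Nat.lcm_dvd_mul _ _))
          (Nat.Coprime.mul_left hu hv)
      inv_mem' := fun {u} hu => by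
        show (orderOf u⁻¹).Coprime p
        rwa [orderOf_inv] }
  have hmemA : ∀ g : G, g ∈ A ↔ (orderOf g).Coprime p := fun g => Iff.rfl
  haveI hAn : A.Normal := ⟨fun a ha g => (hmemA _).mpr (by
    have e : orderOf (g * a * g⁻¹) = orderOf a :=
      orderOf_injective (MulAut.conj g).toMonoidHom (MulAut.conj g).injective a
    rw [e]; exact (hmemA a).mp ha)⟩
  have hAab : IsMulCommutative A := ⟨⟨fun a b => Subtype.ext (hcM a b (hMp a a.2) (hMp b b.2))⟩⟩
  have hAp : ¬ p ∣ Nat.card A := fun h => by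
    obtain ⟨a, ha⟩ := exists_prime_orderOf_dvd_card' (G := A) p h
    have h1 := (hmemA _).mp a.2
    rw [orderOf_coe, ha] at h1
    exact hp.ne_one ((Nat.coprime_self p).mp h1)
  obtain ⟨P⟩ := (inferInstance : Nonempty (Sylow p G))
  have hsup : A ⊔ (P : Subgroup G) = ⊤ := by
    rw [← index_eq_one]
    refine Nat.eq_one_iff_not_exists_prime_dvd.mpr fun r hr h => ?_
    haveI := Fact.mk hr
    by_cases hrp : r = p
    · subst hrp
      exact P.not_dvd_index (h.trans (index_dvd_of_le le_sup_right))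
    · obtain ⟨T⟩ := (inferInstance : Nonempty (Sylow r G))
      refine T.not_dvd_index (h.trans (index_dvd_of_le (le_sup_of_le_left fun y hy => (hmemA y).mpr ?_)))
      obtain ⟨k, hk⟩ := IsPGroup.iff_orderOf.mp T.2 ⟨y, hy⟩
      rw [Subgroup.orderOf_mk] at hk
      rw [hk]
      exact Nat.Coprime.pow_left k ((Nat.coprime_primes hr hp).mpr hrp)
  obtain ⟨x, hxP, hxM⟩ : ∃ x ∈ (P : Subgroup G), x ∉ M := by
    by_contra h
    push_neg at h
    exact hMt (top_le_iff.mp (hsup ▸ sup_le (fun a ha => hMp a ha) h))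
  have hMx : M ⊔ zpowers x = ⊤ := by
    by_contra h
    exact hxM (hMmax _ le_sup_left h ▸ mem_sup_right (mem_zpowers x))
  have hcent : ∀ g : G, g ∈ M → g * x = x * g → g ∈ center G := by
    intro g hg hgx
    rw [← centralizer_univ, ← coe_top, ← hMx]
    refine le_centralizer_iff.mp (sup_le (fun m hm => ?_) (zpowers_le.mpr ?_))
      (mem_zpowers g)
    · exact mem_centralizer_iff.mpr fun y hy => by
        obtain ⟨j, rfl⟩ := mem_zpowers_iff.mp hy
        exact (Commute.zpow_left (hcM g m hg hm) j).eq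
    · exact mem_centralizer_iff.mpr fun y hy => by
        obtain ⟨j, rfl⟩ := mem_zpowers_iff.mp hy
        exact (Commute.zpow_left hgx j).eq
  have hnoncent : ¬ ∀ a ∈ A, a * x = x * a := fun h =>
    hnn (nilpotent_of_central_sup P.2 (fun a ha => hcent a (hMp a ha) (h a ha)) hsup)
  have hxP' : zpowers x = (P : Subgroup G) := by
    refine le_antisymm (zpowers_le.mpr hxP) ?_
    by_contra hlt
    have h1 : (zpowers x).subgroupOf (P : Subgroup G) ≠ ⊤ := fun h => hlt (subgroupOf_eq_top.mp h)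
    obtain ⟨S, hS', hxS⟩ := (eq_top_or_exists_le_coatom _).resolve_left h1
    haveI := P.2.isNilpotent
    haveI : S.Normal := NormalizerCondition.normal_of_coatom S Group.normalizerCondition_of_isNilpotent hS'
    set S' := S.map (P : Subgroup G).subtype with hS'd
    have hS'P : S' ≤ (P : Subgroup G) := map_subtype_le _
    have hN : (A ⊔ S').Normal := by
      rw [← normalizer_eq_top_iff, eq_top_iff, ← hsup]
      refine sup_le (le_sup_left.trans le_normalizer) fun u hu => mem_normalizer_iff_map_conj_eq.mpr ?_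
      rw [Subgroup.map_sup]
      congr 1
      · exact mem_normalizer_iff_map_conj_eq.mp (normalizer_eq_top_iff.mpr hAn ▸ mem_top u)
      · refine mem_normalizer_iff_map_conj_eq.mp (le_normalizer_map _ ⟨⟨u, hu⟩, ?_, rfl⟩)
        rw [normalizer_eq_top_iff.mpr ‹S.Normal›]
        exact mem_top _
    have hne : A ⊔ S' ≠ ⊤ := by
      intro h
      refine hS'.1 (eq_top_iff.mpr fun u _ => ?_)
      have h2 : (u : G) ∈ ((A ⊔ S' : Subgroup G) : Set G) := h ▸ mem_top _
      rw [normal_mul, Set.mem_mul] at h2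
      obtain ⟨a, ha, s, hs, has⟩ := h2
      have haP : a ∈ (P : Subgroup G) := by
        have : a = (u : G) * s⁻¹ := eq_mul_inv_of_mul_eq has
        rw [this]; exact mul_mem u.2 (inv_mem (hS'P hs))
      obtain ⟨k, hk⟩ := IsPGroup.iff_orderOf.mp P.2 ⟨a, haP⟩
      rw [Subgroup.orderOf_mk] at hk
      have ha1 : a = 1 := by
        have h3 := (hmemA a).mp ha
        rw [hk] at h3
        rcases Nat.eq_zero_or_pos k with rfl | hk0
        · rwa [pow_zero, orderOf_eq_one_iff] at hk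
        · exact absurd ((Nat.coprime_pow_left_iff hk0 p p).mp h3) fun h => hp.ne_one ((Nat.coprime_self p).mp h)
      subst ha1
      rw [one_mul] at has
      subst has
      obtain ⟨s, hs, he⟩ := hs
      exact Subtype.coe_injective he ▸ hs
    refine hnoncent fun a ha => congrArg Subtype.val ((hnab _ hN hne).is_comm.comm
      ⟨a, mem_sup_left ha⟩ ⟨x, mem_sup_right ⟨⟨x, hxP⟩, hxS (mem_subgroupOf.mpr (mem_zpowers x)), rfl⟩⟩)
  have hord : ∃ k : ℕ, orderOf x = p ^ k := by
    obtain ⟨k, hk⟩ := IsPGroup.iff_orderOf.mp P.2 ⟨x, hxP⟩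
    exact ⟨k, by rwa [Subgroup.orderOf_mk] at hk⟩
  have hxp : x ^ p ∈ center G := by
    refine hcent _ ?_ ((Commute.refl x).pow_left p).eq
    rw [← hidx]
    exact pow_index_mem M x
  have hcompl : (zpowers x).IsComplement' A := by
    refine isComplement'_of_disjoint_and_mul_eq_univ (disjoint_iff.mpr (inf_eq_bot_of_coprime ?_)) ?_
    · obtain ⟨k, hk⟩ := hord
      rw [Nat.card_zpowers, hk]
      exact Nat.Coprime.pow_left k (hp.coprime_iff_not_dvd.mpr hAp)
    · rw [← mul_normal, sup_comm, hxP', hsup, coe_top]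
  refine ⟨x, A, p, hp, hAn, hAab, hord, hAp, hcompl, hxp, fun a ha ha1 hfix => ?_⟩
  set φ := diffHom hAn hAab x with hφ
  set K := φ.range.map A.subtype with hK
  have hKA : K ≤ A := map_subtype_le _
  have hgenG : A ⊔ zpowers x = ⊤ := by rw [hxP', hsup]
  have hconjx : ∀ u ∈ A, u * x * u⁻¹ * x⁻¹ ∈ K := fun u hu =>
    ⟨φ ⟨u, hu⟩, ⟨_, rfl⟩, by show u * (x * u * x⁻¹)⁻¹ = _; simp [mul_assoc]⟩
  have hN : (K ⊔ zpowers x).Normal := by
    rw [← normalizer_eq_top_iff, eq_top_iff, ← hgenG]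
    refine sup_le (fun u hu => mem_normalizer_iff_map_conj_eq.mpr ?_) (le_sup_right.trans le_normalizer)
    refine eq_of_le_of_card_ge ?_ (le_of_eq
      (Nat.card_congr ((K ⊔ zpowers x).equivMapOfInjective _ (MulAut.conj u).injective).toEquiv))
    rw [map_le_iff_le_comap]
    refine sup_le (fun z hz => ?_) (zpowers_le.mpr ?_)
    · refine mem_sup_left ?_
      show u * z * u⁻¹ ∈ K
      have e : u * z = z * u := hcM u z (hMp u hu) (hMp z (hKA hz))
      rwa [e, mul_inv_cancel_right]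
    · show u * x * u⁻¹ ∈ K ⊔ zpowers x
      have h1 := mul_mem (mem_sup_left (T := zpowers x) (hconjx u hu)) (mem_sup_right (mem_zpowers x))
      simpa [mul_assoc] using h1
  have hkey : ∀ b : A, φ b ≠ 1 → φ (φ b) ≠ 1 := by
    intro b hb h
    apply hb
    set d := φ b with hd
    have h2 : x * d * x⁻¹ = (d : G) := (diffHom_eq_one_iff hAn hAab x d).mp h
    have h2' : Commute x (d : G) := mul_inv_eq_iff_eq_mul.mp h2
    have hd' : x * b * x⁻¹ = (d : G)⁻¹ * b := by
      have hdv : (d : G) = b * (x * b * x⁻¹)⁻¹ := rfl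
      rw [hdv]; simp [mul_assoc]
    have hpw : ∀ n : ℕ, x ^ n * b * (x ^ n)⁻¹ = ((d : G)⁻¹) ^ n * b := by
      intro n
      induction n with
      | zero => simp
      | succ n ih =>
        have h3 : Commute x (((d : G)⁻¹) ^ n) := h2'.inv_right.pow_right n
        calc x ^ (n + 1) * b * (x ^ (n + 1))⁻¹ = x * (x ^ n * b * (x ^ n)⁻¹) * x⁻¹ := by
              rw [pow_succ']; simp [mul_assoc]
          _ = ((d : G)⁻¹) ^ n * (x * b * x⁻¹) := by rw [ih, ← mul_assoc x, h3.eq]; simp [mul_assoc]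
          _ = _ := by rw [hd', pow_succ]; simp [mul_assoc]
    have h4 := hpw (orderOf x)
    rw [pow_orderOf_eq_one, one_mul, inv_one, mul_one] at h4
    have h5 : orderOf (d : G) ∣ orderOf x := by
      rw [orderOf_dvd_iff_pow_eq_one, ← inv_eq_one, ← inv_pow]
      exact mul_eq_right.mp h4.symm
    obtain ⟨k, hk⟩ := hord
    rw [hk] at h5
    exact Subtype.ext (orderOf_eq_one_iff.mp (Nat.eq_one_of_dvd_coprimes
      (((hmemA _).mp d.2).pow_right k) dvd_rfl h5))
  by_cases hne : K ⊔ zpowers x = ⊤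
  · have haφ : φ ⟨a, ha⟩ = 1 := (diffHom_eq_one_iff hAn hAab x _).mpr hfix
    have h2 : a ∈ ((K ⊔ zpowers x : Subgroup G) : Set G) := hne ▸ mem_top _
    have hxK : zpowers x ≤ normalizer (K : Set G) := by
      refine zpowers_le.mpr (mem_normalizer_iff_map_conj_eq.mpr ?_)
      refine eq_of_le_of_card_ge ?_ (le_of_eq
        (Nat.card_congr (K.equivMapOfInjective _ (MulAut.conj x).injective).toEquiv))
      rintro _ ⟨_, ⟨_, ⟨b, rfl⟩, rfl⟩, rfl⟩
      refine ⟨φ ⟨x * b * x⁻¹, hAn.conj_mem _ b.2 x⟩, ⟨_, rfl⟩, ?_⟩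
      show x * b * x⁻¹ * (x * (x * b * x⁻¹) * x⁻¹)⁻¹ = x * (b * (x * b * x⁻¹)⁻¹) * x⁻¹
      simp [mul_assoc]
    rw [coe_mul_of_right_le_normalizer_left _ _ hxK, Set.mem_mul] at h2
    obtain ⟨k, hk, z, hz, hkz⟩ := h2
    have hz1 : z = 1 := by
      have hzA : z ∈ A := by
        have : z = k⁻¹ * a := eq_inv_mul_of_mul_eq hkz
        rw [this]; exact mul_mem (inv_mem (hKA hk)) ha
      exact (disjoint_def.mp hcompl.disjoint) hz hzA
    rw [hz1, mul_one] at hkz
    subst hkz
    obtain ⟨_, ⟨b, rfl⟩, hb⟩ := hk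
    have e : φ b = ⟨k, ha⟩ := Subtype.ext hb
    by_cases hb1 : φ b = 1
    · rw [hb1] at e
      exact ha1 (congrArg Subtype.val e).symm
    · exact hkey b hb1 (e ▸ haφ)
  · refine hnoncent fun u hu => ?_
    have h1 : ∀ b : A, φ (φ b) = 1 := fun b => by
      rw [diffHom_eq_one_iff]
      have := congrArg Subtype.val ((hnab _ hN hne).is_comm.comm
        ⟨x, mem_sup_right (mem_zpowers x)⟩ ⟨(φ b : G), mem_sup_left ⟨φ b, ⟨b, rfl⟩, rfl⟩⟩)
      rw [mul_inv_eq_iff_eq_mul]
      exact this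
    have h2 : φ ⟨u, hu⟩ = 1 := by_contra fun h => hkey _ h (h1 _)
    have h3 := (diffHom_eq_one_iff hAn hAab x _).mp h2
    exact (mul_inv_eq_iff_eq_mul.mp h3).symm

/-- Let G be a finite solvable non-nilpotent group. Every non-abelian subgroup of G is self-normalizing if and only if G is a semidirect product ⟨x⟩ ⋉ A in which ⟨x⟩ is a p-group for some prime p, A is a normal abelian subgroup of order prime to p, x^p is central in G, and x acts fixed-point-freely on A (no non-identity element of A commutes with x). -/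
theorem result {G : Type*} [Group G] [Finite G]
    [Group.IsSolvable G] (hnn : ¬ Group.IsNilpotent G) :
    (∀ H : Subgroup G, ¬ IsMulCommutative H → Subgroup.normalizer (H : Set G) = H) ↔
    ∃ (x : G) (A : Subgroup G) (p : ℕ), p.Prime ∧ A.Normal ∧ IsMulCommutative A ∧ (∃ k : ℕ, orderOf x = p ^ k) ∧
      ¬ p ∣ Nat.card A ∧ (Subgroup.zpowers x).IsComplement' A ∧ x ^ p ∈ Subgroup.center G ∧
      ∀ a : G, a ∈ A → a ≠ 1 → x * a * x⁻¹ ≠ a := by
  refine ⟨fun hS => forward hnn hS, ?_⟩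
  rintro ⟨x, A, p, hp, hA, hab, hx, -, hc, hxc, hfix⟩
  exact backward hp hA hab hx hc hxc hfix

end Cfsg.Agent.S4071
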