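import Mathlib.GroupTheory.Transfer
import Mathlib.GroupTheory.Sylow
import Mathlib.GroupTheory.Nilpotent
import Mathlib.GroupTheory.Abelianization.Defs
import Mathlib.GroupTheory.Subgroup.Centralizer
import Mathlib.GroupTheory.Solvable
import Cfsg.Prelude.Def_Transfer

set_option autoImplicit false
open Cfsg

namespace Cfsg.Agent.S4072

open Subgroup
open scoped commutatorElement

/-- In a finite `p`-group a coatom contains all `p`th powers and all commutators. -/
theorem coatom_facts {P : Type*} [Group P] [Finite P] {p : ℕ} [Fact p.Prime] (hP : IsPGroup p P)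
    {M : Subgroup P} (hM : IsCoatom M) : ∀ x y : P, x ^ p ∈ M ∧ ⁅x, y⁆ ∈ M := by
  haveI := hP.isNilpotent
  haveI : M.Normal := NormalizerCondition.normal_of_coatom M normalizerCondition_of_isNilpotent hM
  have hQ : IsPGroup p (P ⧸ M) := hP.to_quotient M
  haveI : Nontrivial (P ⧸ M) := QuotientGroup.nontrivial_iff.mpr hM.1
  obtain ⟨n, hn⟩ := IsPGroup.iff_card.mp hQ
  have hn0 : n ≠ 0 := fun h => by
    have := Finite.one_lt_card (α := P ⧸ M)
    rw [hn, h, pow_zero] at this
    omega
  obtain ⟨w, hw⟩ := exists_prime_orderOf_dvd_card' (G := P ⧸ M) p (hn ▸ dvd_pow_self p hn0)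
  have htop : zpowers w = ⊤ := by
    have hle : M ≤ (zpowers w).comap (QuotientGroup.mk' M) := fun x hx => by
      rw [mem_comap, QuotientGroup.mk'_apply, (QuotientGroup.eq_one_iff x).mpr hx]
      exact one_mem _
    rcases hM.le_iff.mp hle with h | h
    · rw [← map_comap_eq_self_of_surjective (QuotientGroup.mk'_surjective M) (zpowers w), h,
        map_top_of_surjective _ (QuotientGroup.mk'_surjective M)]
    · exfalso
      have h1 : zpowers w = ⊥ := by
        rw [← map_comap_eq_self_of_surjective (QuotientGroup.mk'_surjective M) (zpowers w), h,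
          QuotientGroup.map_mk'_self]
      rw [zpowers_eq_bot] at h1
      rw [h1, orderOf_one] at hw
      exact (Fact.out : p.Prime).ne_one hw.symm
  intro x y
  obtain ⟨i, hi⟩ := mem_zpowers_iff.mp (htop ▸ mem_top (QuotientGroup.mk' M x))
  obtain ⟨j, hj⟩ := mem_zpowers_iff.mp (htop ▸ mem_top (QuotientGroup.mk' M y))
  constructor <;> rw [← QuotientGroup.eq_one_iff, ← QuotientGroup.mk'_apply]
  · rw [map_pow, ← hi, ← zpow_natCast, ← zpow_mul, mul_comm, zpow_mul, zpow_natCast, ← hw,
      pow_orderOf_eq_one, one_zpow]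
  · rw [map_commutatorElement, ← hi, ← hj, commutatorElement_eq_one_iff_commute]
    exact (Commute.refl w).zpow_zpow i j

/-- A non-abelian finite `p`-group with all proper subgroups abelian has derived subgroup of order `p`. -/
theorem commutator_le_zpowers {P : Type*} [Group P] [Finite P] {p : ℕ} [Fact p.Prime] (hP : IsPGroup p P)
    (hne : ¬ IsMulCommutative P) (hab : ∀ H : Subgroup P, H ≠ ⊤ → IsMulCommutative H) :
    ∃ c : P, commutator P ≤ zpowers c ∧ c ^ p = 1 := by
  obtain ⟨u, v, huv⟩ : ∃ u v : P, u * v ≠ v * u := by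
    by_contra h
    push_neg at h
    exact hne ⟨⟨h⟩⟩
  have hcomm : ∀ a b : P, closure ({a, b} : Set P) ≠ ⊤ → a * b = b * a := fun a b h =>
    congrArg Subtype.val ((hab _ h).is_comm.comm ⟨a, subset_closure (Or.inl rfl)⟩
      ⟨b, subset_closure (Or.inr rfl)⟩)
  have hgen : closure ({u, v} : Set P) = ⊤ := by_contra fun h => huv (hcomm u v h)
  have hproper : ∀ a : P, zpowers a ≠ ⊤ := fun a h => huv <| by
    obtain ⟨i, hi⟩ := mem_zpowers_iff.mp (h ▸ mem_top u)
    obtain ⟨j, hj⟩ := mem_zpowers_iff.mp (h ▸ mem_top v)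
    rw [← hi, ← hj]
    exact (Commute.refl a).zpow_zpow i j
  have hfr : ∀ a b : P, (∀ M : Subgroup P, IsCoatom M → b ∈ M) → a * b = b * a := by
    intro a b hb
    refine hcomm a b fun h => ?_
    obtain ⟨M, hM, hle⟩ := (eq_top_or_exists_le_coatom (zpowers a)).resolve_left (hproper a)
    refine hM.1 (top_le_iff.mp (h ▸ ?_))
    rw [closure_le]
    rintro x (rfl | rfl)
    · exact hle (mem_zpowers _)
    · exact hb M hM
  have hpow : ∀ a b : P, a * b ^ p = b ^ p * a := fun a b =>
    hfr a _ fun M hM => (coatom_facts hP hM b b).1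
  have hc : ∀ a : P, a * ⁅u, v⁆ = ⁅u, v⁆ * a := fun a =>
    hfr a _ fun M hM => (coatom_facts hP hM u v).2
  refine ⟨⁅u, v⁆, ?_, ?_⟩
  · haveI : (zpowers ⁅u, v⁆).Normal := ⟨fun x hx g => by
      obtain ⟨i, rfl⟩ := mem_zpowers_iff.mp hx
      have h1 : Commute g (⁅u, v⁆ ^ i) := Commute.zpow_right (hc g) i
      rw [h1.eq, mul_inv_cancel_right]
      exact zpow_mem (mem_zpowers _) i⟩
    set f := QuotientGroup.mk' (zpowers ⁅u, v⁆) with hf
    have hfuv : f u * f v = f v * f u := by
      rw [← commutatorElement_eq_one_iff_mul_comm, ← map_commutatorElement, hf, QuotientGroup.mk'_apply,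
        QuotientGroup.eq_one_iff]
      exact mem_zpowers _
    have htop : closure ({f u, f v} : Set (P ⧸ zpowers ⁅u, v⁆)) = ⊤ := by
      rw [← Set.image_pair, ← MonoidHom.map_closure, hgen,
        map_top_of_surjective _ (QuotientGroup.mk'_surjective _)]
    haveI hcl : IsMulCommutative (closure ({f u, f v} : Set (P ⧸ zpowers ⁅u, v⁆))) :=
      isMulCommutative_closure (by
        rintro x (rfl | rfl) y (rfl | rfl) <;> first | rfl | exact hfuv | exact hfuv.symm)
    rw [_root_.commutator_def, Subgroup.commutator_le]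
    intro a _ b _
    rw [← QuotientGroup.eq_one_iff, ← QuotientGroup.mk'_apply, ← hf, map_commutatorElement,
      commutatorElement_eq_one_iff_mul_comm]
    exact congrArg Subtype.val (hcl.is_comm.comm ⟨f a, htop ▸ mem_top _⟩ ⟨f b, htop ▸ mem_top _⟩)
  · have key : ∀ n : ℕ, u ^ n * v = ⁅u, v⁆ ^ n * v * u ^ n := by
      intro n
      induction n with
      | zero => simp
      | succ n ih =>
        have h1 : Commute u (⁅u, v⁆ ^ n) := Commute.pow_right (hc u) n
        have h2 : u * v = ⁅u, v⁆ * v * u := by simp [commutatorElement_def, mul_assoc]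
        calc u ^ (n + 1) * v = u * (u ^ n * v) := by rw [pow_succ', mul_assoc]
          _ = (u * ⁅u, v⁆ ^ n) * (v * u ^ n) := by rw [ih]; simp [mul_assoc]
          _ = ⁅u, v⁆ ^ n * (u * v) * u ^ n := by rw [h1.eq]; simp [mul_assoc]
          _ = ⁅u, v⁆ ^ n * (⁅u, v⁆ * v * u) * u ^ n := by rw [h2]
          _ = ⁅u, v⁆ ^ (n + 1) * v * u ^ (n + 1) := by rw [pow_succ ⁅u, v⁆ n, pow_succ' u n]; simp [mul_assoc]
    have h1 := key p
    rw [← hpow v u, mul_assoc] at h1
    exact mul_eq_right.mp h1.symm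

/-- A perfect group has no self-normalising abelian Sylow subgroup other than the trivial one. -/
theorem sylow_eq_bot {G : Type*} [Group G] [Finite G] (hperf : commutator G = ⊤) {p : ℕ} [Fact p.Prime]
    (P : Sylow p G) (hn : normalizer ((P : Subgroup G) : Set G) ≤ P)
    (hab : ∀ a ∈ (P : Subgroup G), ∀ b ∈ (P : Subgroup G), a * b = b * a) : (P : Subgroup G) = ⊥ := by
  have hP : normalizer (P : Set G) ≤ centralizer (P : Set G) := fun x hx =>
    mem_centralizer_iff.mpr fun y hy => hab y hy x (hn hx)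
  have h1 := MonoidHom.ker_transferSylow_isComplement' P hP
  have h2 : (MonoidHom.transferSylow P hP).ker = ⊤ := by
    haveI : IsMulCommutative (P : Subgroup G) := ⟨⟨fun a b => Subtype.ext (hab a a.2 b b.2)⟩⟩
    open scoped IsMulCommutative in
    exact top_le_iff.mp (hperf ▸ Abelianization.commutator_subset_ker (MonoidHom.transferSylow P hP))
  rw [h2] at h1
  exact isComplement'_top_left.mp h1

/-- A finite group in which every non-abelian subgroup is self-normalizing is solvable or simple. -/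
theorem result {G : Type*} [Group G] [Finite G] (hS : ∀ H : Subgroup G, ¬ IsMulCommutative H → Subgroup.normalizer (H : Set G) = H) :
    Group.IsSolvable G ∨ IsSimpleGroup G := by
  classical
  by_cases hsol : Group.IsSolvable G
  · exact Or.inl hsol
  right
  haveI : Nontrivial G := by
    by_contra h
    rw [not_nontrivial_iff_subsingleton] at h
    exact hsol inferInstance
  by_contra hns
  have hnab : ∀ N : Subgroup G, N.Normal → N ≠ ⊤ → IsMulCommutative N := fun N hN h =>
    by_contra fun hc => h (by rw [← hS N hc]; exact normalizer_eq_top_iff.mpr hN)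
  have hperf : commutator G = ⊤ := by
    by_contra h
    haveI := hnab (commutator G) inferInstance h
    haveI : Group.IsSolvable (commutator G) := isSolvable_of_comm fun a b => mul_comm' a b
    refine hsol (solvable_of_ker_le_range (commutator G).subtype (Abelianization.of : G →* Abelianization G) ?_)
    rw [Abelianization.ker_of, range_subtype]
  obtain ⟨R, hR, hRmax⟩ : ∃ R : Subgroup G, (R.Normal ∧ R ≠ ⊤) ∧ ∀ L : Subgroup G, L.Normal → L ≠ ⊤ → R ≤ L → L = R := by
    obtain ⟨R, -, hR⟩ := Finite.exists_le_maximal (p := fun N : Subgroup G => N.Normal ∧ N ≠ ⊤) (a := ⊥)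
      ⟨inferInstance, bot_ne_top⟩
    exact ⟨R, hR.1, fun L h1 h2 h3 => (hR.eq_of_le ⟨h1, h2⟩ h3).symm⟩
  obtain ⟨hRn, hRt⟩ := hR
  haveI := hRn
  have hRne : R ≠ ⊥ := by
    rintro rfl
    refine hns ⟨fun H hH => ?_⟩
    by_cases h : H = ⊤
    · exact Or.inr h
    · exact Or.inl (hRmax H hH h bot_le)
  have hRab := hnab R hRn hRt
  have hq : commutator (G ⧸ R) = ⊤ := by
    rw [_root_.commutator_def, ← map_top_of_surjective (QuotientGroup.mk' R) (QuotientGroup.mk'_surjective R),
      ← map_commutator, ← _root_.commutator_def, hperf]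
  haveI : Nontrivial (G ⧸ R) := QuotientGroup.nontrivial_iff.mpr hRt
  have hker : ∀ K : Subgroup (G ⧸ R), R ≤ K.comap (QuotientGroup.mk' R) := fun K x hx => by
    rw [mem_comap, QuotientGroup.mk'_apply, (QuotientGroup.eq_one_iff x).mpr hx]
    exact one_mem _
  have hsn : ∀ K : Subgroup (G ⧸ R), ¬ IsMulCommutative (K.comap (QuotientGroup.mk' R)) →
      normalizer (K : Set (G ⧸ R)) ≤ K := fun K hK => by
    rw [← comap_le_comap_of_surjective (QuotientGroup.mk'_surjective R),
      comap_normalizer_eq_of_surjective K (QuotientGroup.mk'_surjective R)]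
    exact (hS _ hK).le
  have hcentral : R ≤ center G := by
    by_contra hc
    have hC : centralizer (R : Set G) = R := by
      refine hRmax _ inferInstance (fun h => hc fun x hx => mem_center_iff.mpr fun g => ?_) ?_
      · exact (mem_centralizer_iff.mp (h ▸ mem_top g) x hx).symm
      · exact fun x hx => mem_centralizer_iff.mpr fun y hy =>
          congrArg Subtype.val (hRab.is_comm.comm ⟨y, hy⟩ ⟨x, hx⟩)
    obtain ⟨p, hp, hpd⟩ := Nat.exists_prime_and_dvd (Finite.one_lt_card (α := G ⧸ R)).ne'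
    haveI := Fact.mk hp
    obtain ⟨x, hx⟩ := exists_prime_orderOf_dvd_card' (G := G ⧸ R) p hpd
    obtain ⟨g, rfl⟩ := QuotientGroup.mk'_surjective R x
    set K := zpowers (QuotientGroup.mk' R g) with hK
    have hKna : ¬ IsMulCommutative (K.comap (QuotientGroup.mk' R)) := fun h => by
      have hg : g ∈ R := hC ▸ mem_centralizer_iff.mpr fun y hy =>
        congrArg Subtype.val (h.is_comm.comm ⟨y, hker K hy⟩ ⟨g, mem_comap.mpr (mem_zpowers _)⟩)
      rw [QuotientGroup.mk'_apply, (QuotientGroup.eq_one_iff g).mpr hg, orderOf_one] at hx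
      exact hp.ne_one hx.symm
    have hKp : IsPGroup p K := IsPGroup.of_card (n := 1) (by rw [hK, Nat.card_zpowers, hx, pow_one])
    obtain ⟨S, hS'⟩ := hKp.exists_le_sylow
    have hSK : (S : Subgroup (G ⧸ R)) = K := by
      refine (hS'.eq_or_lt.resolve_right fun hlt => ?_).symm
      haveI := S.2.isNilpotent
      have h1 : K.subgroupOf S < ⊤ := lt_top_iff_ne_top.mpr fun h => hlt.not_ge (subgroupOf_eq_top.mp h)
      obtain ⟨y, hy1, hy2⟩ := SetLike.exists_of_lt (normalizerCondition_of_isNilpotent _ h1)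
      refine hy2 (mem_subgroupOf.mpr (hsn K hKna ?_))
      refine mem_normalizer_iff.mpr fun z => ?_
      constructor
      · intro hz
        exact mem_subgroupOf.mp ((mem_normalizer_iff.mp hy1 ⟨z, hS' hz⟩).mp (mem_subgroupOf.mpr hz))
      · intro hz
        have h2 := (mem_normalizer_iff.mp (inv_mem hy1) ⟨_, hS' hz⟩).mp (mem_subgroupOf.mpr hz)
        simpa [mem_subgroupOf, mul_assoc] using h2
    have hbot := sylow_eq_bot hq S (by rw [hSK]; exact hsn K hKna) (fun a ha b hb => by
      rw [hSK, hK] at ha hb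
      obtain ⟨i, rfl⟩ := mem_zpowers_iff.mp ha
      obtain ⟨j, rfl⟩ := mem_zpowers_iff.mp hb
      exact (Commute.refl _).zpow_zpow i j)
    rw [hSK, hK, zpowers_eq_bot] at hbot
    rw [hbot, orderOf_one] at hx
    exact hp.ne_one hx.symm
  obtain ⟨p, hp, hpd⟩ := Nat.exists_prime_and_dvd (n := Nat.card R)
    ((one_lt_card_iff_ne_bot R).mpr hRne).ne'
  haveI := Fact.mk hp
  obtain ⟨z, hz⟩ := exists_prime_orderOf_dvd_card' (G := R) p hpd
  rw [← orderOf_coe] at hz
  obtain ⟨P⟩ := (inferInstance : Nonempty (Sylow p G))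
  have hzc : (z : G) ∈ center G := hcentral z.2
  have hzP : (z : G) ∈ (P : Subgroup G) := by
    have hzp : IsPGroup p (zpowers (z : G)) := IsPGroup.of_card (n := 1) (by rw [Nat.card_zpowers, hz, pow_one])
    obtain ⟨Q, hQ⟩ := hzp.exists_le_sylow
    obtain ⟨g, hg⟩ := MulAction.exists_smul_eq G P Q
    have : (z : G) ∈ Q := hQ (mem_zpowers (z : G))
    rw [← hg, ← SetLike.mem_coe, Sylow.coe_smul] at this
    obtain ⟨y, hy, hyz⟩ := this
    have e : y = (z : G) := by
      have h1 : g * y * g⁻¹ = z := by simpa [MulAut.conj_apply] using hyz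
      rw [mul_inv_eq_iff_eq_mul, ← mem_center_iff.mp hzc g] at h1
      exact mul_left_cancel h1
    exact e ▸ hy
  have htr : ∀ {A : Type _} [CommGroup A] (φ : (P : Subgroup G) →* A), φ ⟨z, hzP⟩ = 1 := by
    intro A _ φ
    have h1 := MonoidHom.transfer_eq_pow φ (z : G) (fun k g₀ _ => by
      rw [mul_assoc, ← mem_center_iff.mp (pow_mem hzc k) g₀, inv_mul_cancel_left])
    have h2 : MonoidHom.transfer φ (z : G) = 1 :=
      Abelianization.commutator_subset_ker (MonoidHom.transfer φ) (hperf ▸ mem_top _)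
    rw [h2] at h1
    have h3 : φ ⟨z, hzP⟩ ^ (P : Subgroup G).index = 1 := by
      rw [← map_pow]; exact h1.symm
    have h4 : φ ⟨z, hzP⟩ ^ p = 1 := by
      rw [← map_pow]
      convert map_one φ using 2
      exact Subtype.ext (show (z : G) ^ p = 1 from orderOf_dvd_iff_pow_eq_one.mp hz.dvd)
    have h5 := pow_gcd_eq_one.mpr ⟨h4, h3⟩
    rwa [(hp.coprime_iff_not_dvd.mpr P.not_dvd_index).gcd_eq_one, pow_one] at h5
  have hz1 : (z : G) ≠ 1 := fun h => by rw [h, orderOf_one] at hz; exact hp.ne_one hz.symm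
  have hPna : ¬ IsMulCommutative (P : Subgroup G) := fun h => by
    open scoped IsMulCommutative in
    exact hz1 (congrArg Subtype.val (htr (MonoidHom.id (P : Subgroup G))))
  have hRP : R ≤ (P : Subgroup G) := by
    rw [← hS _ hPna]
    intro x hx
    refine mem_normalizer_iff.mpr fun y => ?_
    rw [← mem_center_iff.mp (hcentral hx) y, mul_inv_cancel_right]
  have hPab : ∀ H : Subgroup (P : Subgroup G), H ≠ ⊤ → IsMulCommutative H := by
    intro H hH
    by_contra hc
    have hc' : ¬ IsMulCommutative (H.map (P : Subgroup G).subtype) := fun h => hc ⟨⟨fun a b => by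
      have := congrArg Subtype.val (h.is_comm.comm ⟨((a : (P : Subgroup G)) : G), mem_map_of_mem _ a.2⟩
        ⟨((b : (P : Subgroup G)) : G), mem_map_of_mem _ b.2⟩)
      exact Subtype.ext (Subtype.ext this)⟩⟩
    haveI := P.2.isNilpotent
    obtain ⟨y, hy1, hy2⟩ := SetLike.exists_of_lt (normalizerCondition_of_isNilpotent _ (lt_top_iff_ne_top.mpr hH))
    have h1 := le_normalizer_map (P : Subgroup G).subtype (mem_map_of_mem _ hy1)
    rw [hS _ hc', mem_map] at h1
    obtain ⟨y', hy', he⟩ := h1
    exact hy2 (Subtype.coe_injective he ▸ hy')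
  obtain ⟨c, hcc, hcp⟩ := commutator_le_zpowers P.2 hPna hPab
  have hzc' : (⟨(z : G), hzP⟩ : (P : Subgroup G)) ∈ zpowers c := hcc (by
    rw [← Abelianization.ker_of]
    exact htr Abelianization.of)
  have hcR : ∀ a : (P : Subgroup G), a ∈ commutator (P : Subgroup G) → (a : G) ∈ R := by
    intro a ha
    have h1 : zpowers (⟨(z : G), hzP⟩ : (P : Subgroup G)) = zpowers c := by
      refine eq_of_le_of_card_ge (zpowers_le.mpr hzc') ?_
      rw [Nat.card_zpowers, Nat.card_zpowers, (show orderOf (⟨(z : G), hzP⟩ : (P : Subgroup G)) = p from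
        (Subgroup.orderOf_coe _).symm.trans hz)]
      exact Nat.le_of_dvd hp.pos (orderOf_dvd_of_pow_eq_one hcp)
    obtain ⟨i, rfl⟩ := mem_zpowers_iff.mp (h1 ▸ hcc ha)
    rw [SubgroupClass.coe_zpow]
    exact zpow_mem z.2 i
  set Pb := P.mapSurjective (QuotientGroup.mk'_surjective R) with hPb
  have hPbc : ((Pb : Subgroup (G ⧸ R))).comap (QuotientGroup.mk' R) = (P : Subgroup G) := by
    rw [hPb, Sylow.coe_mapSurjective, comap_map_eq, QuotientGroup.ker_mk', sup_eq_left.mpr hRP]
  have hbot := sylow_eq_bot hq Pb (hsn _ (by rw [hPbc]; exact hPna)) (fun a ha b hb => by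
    rw [hPb, Sylow.coe_mapSurjective] at ha hb
    obtain ⟨a, ha, rfl⟩ := ha
    obtain ⟨b, hb, rfl⟩ := hb
    rw [← commutatorElement_eq_one_iff_mul_comm, ← map_commutatorElement, QuotientGroup.mk'_apply,
      QuotientGroup.eq_one_iff]
    exact hcR ⁅(⟨a, ha⟩ : (P : Subgroup G)), ⟨b, hb⟩⁆
      (commutator_mem_commutator (mem_top _) (mem_top _)))
  rw [hbot, MonoidHom.comap_bot, QuotientGroup.ker_mk'] at hPbc
  exact hPna (hPbc ▸ hRab)

end Cfsg.Agent.S4072
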