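import Cfsg.Statements.S4074
import Cfsg.Agent.Lib.Dih.Sub

set_option autoImplicit false
open Cfsg

namespace Cfsg.Agent.S4074

/-- For n > 2, every non-abelian subgroup of the dihedral group of order 2n is self-normalizing if and only if n = 4 or n is odd. -/
theorem result (n : ℕ) (hn : 2 < n) :
    (∀ H : Subgroup (DihedralGroup n), ¬ IsMulCommutative H → Subgroup.normalizer (H : Set (DihedralGroup n)) = H) ↔
    (n = 4 ∨ Odd n) := by
  haveI : NeZero n := ⟨by omega⟩
  constructor
  · intro hall
    by_contra hne
    push Not at hne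
    obtain ⟨hn4, hev⟩ := hne
    rw [Nat.not_odd_iff_even, even_iff_two_dvd] at hev
    set H := CfsgLib.DihSub.sub n 2 hev
    have hr : DihedralGroup.r ((2 : ℕ) : ZMod n) ∈ H := by
      rw [CfsgLib.DihSub.r_mem, map_natCast, ZMod.natCast_self]
    have hs : DihedralGroup.sr (0 : ZMod n) ∈ H := by rw [CfsgLib.DihSub.sr_mem, map_zero]
    have hnc : ¬ IsMulCommutative H := by
      intro hc
      have h := congrArg Subtype.val (hc.is_comm.comm (⟨_, hr⟩ : H) ⟨_, hs⟩)
      simp only [Subgroup.coe_mul, DihedralGroup.r_mul_sr, DihedralGroup.sr_mul_r, DihedralGroup.sr.injEq, zero_sub, zero_add] at h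
      rw [neg_eq_iff_add_eq_zero, ← Nat.cast_add, ZMod.natCast_eq_zero_iff] at h
      have := Nat.le_of_dvd (by norm_num) h
      obtain ⟨c, rfl⟩ := hev
      omega
    have hcomm : ∀ x : DihedralGroup n, DihedralGroup.r (1 : ZMod n) ∉ H := by
      intro _ h
      rw [CfsgLib.DihSub.r_mem, map_one] at h
      exact one_ne_zero h
    apply hcomm 1
    rw [← hall H hnc]
    refine Subgroup.mem_normalizer_iff.mpr fun g => ?_
    cases g with
    | r i => simp [CfsgLib.DihSub.r_mem, H]
    | sr i =>
      simp only [DihedralGroup.inv_r, DihedralGroup.r_mul_sr, DihedralGroup.sr_mul_r, H, CfsgLib.DihSub.sr_mem]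
      rw [map_add, map_sub, map_neg, map_one]
      rw [show ∀ x : ZMod 2, x - 1 + -1 = x from by decide]
  · rintro (rfl | hodd) H hH
    · have hH' : H = ⊤ := by
        rw [← Subgroup.card_eq_iff_eq_top]
        have hdvd := Subgroup.card_subgroup_dvd_card H
        have hc8 : Nat.card (DihedralGroup 4) = 8 := by rw [DihedralGroup.nat_card]
        rw [hc8] at hdvd ⊢
        by_contra h8
        apply hH
        haveI := Fact.mk Nat.prime_two
        obtain ⟨k, hk, hk'⟩ := (Nat.dvd_prime_pow Nat.prime_two).mp (show Nat.card H ∣ 2 ^ 3 from hdvd)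
        obtain rfl | rfl | rfl | rfl : k = 0 ∨ k = 1 ∨ k = 2 ∨ k = 3 := by omega
        · haveI : Subsingleton H := (Nat.card_eq_one_iff_unique.mp hk').1
          exact ⟨⟨fun a b => Subsingleton.elim _ _⟩⟩
        · haveI : IsCyclic H := isCyclic_of_prime_card hk'
          exact ⟨⟨(IsCyclic.commGroup (α := H)).mul_comm⟩⟩
        · exact ⟨⟨IsPGroup.commutative_of_card_eq_prime_sq hk'⟩⟩
        · exact absurd hk' h8
      subst hH'
      haveI : (⊤ : Subgroup (DihedralGroup 4)).Normal := inferInstance
      rw [Subgroup.normalizer_eq_top (H := (⊤ : Subgroup (DihedralGroup 4)))]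
    · refine le_antisymm (fun g hg => ?_) Subgroup.le_normalizer
      obtain ⟨i, hi⟩ := CfsgLib.DihSub.exists_sr (CfsgLib.DihSub.not_cyclic_of_not_comm hH)
      have key : ∀ j : ZMod n, DihedralGroup.r j ∈ Subgroup.normalizer (H : Set (DihedralGroup n)) → DihedralGroup.r j ∈ H := by
        intro j hj
        have h := H.mul_mem ((Subgroup.mem_normalizer_iff.mp hj _).mp hi) hi
        simp only [DihedralGroup.inv_r, DihedralGroup.r_mul_sr, DihedralGroup.sr_mul_r, DihedralGroup.sr_mul_sr] at h
        obtain ⟨c, hc⟩ := hodd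
        have h2 := H.pow_mem h (c + 1)
        rw [DihedralGroup.r_pow] at h2
        have hn0 : (2 * (c : ZMod n) + 1) = 0 := by
          have := ZMod.natCast_self n
          rw [hc] at this ⊢
          push_cast at this
          exact this
        convert h2 using 2
        push_cast
        linear_combination -j * hn0
      cases g with
      | r j => exact key j hg
      | sr j =>
        have h := Subgroup.mul_mem _ hg (Subgroup.le_normalizer hi)
        rw [DihedralGroup.sr_mul_sr] at h
        have h2 := key _ h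
        rw [← DihedralGroup.sr_mul_sr] at h2
        exact (H.mul_mem_cancel_right hi).mp h2

end Cfsg.Agent.S4074
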