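import Cfsg.Statements.S4075
import Mathlib.GroupTheory.Nilpotent

set_option autoImplicit false
open Cfsg

namespace Cfsg.Agent.S4075

/-- Let G be a finite nilpotent group. Every non-abelian subgroup of G is self-normalizing if and only if G is abelian or G is a minimal non-abelian p-group for some prime p (non-abelian of prime-power order with every proper subgroup abelian). -/
theorem result {G : Type*} [Group G] [Finite G]
    [Group.IsNilpotent G] :
    (∀ H : Subgroup G, ¬ IsMulCommutative H → Subgroup.normalizer (H : Set G) = H) ↔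
    (IsMulCommutative G ∨ (IsPrimePow (Nat.card G) ∧ ¬ IsMulCommutative G ∧ ∀ H : Subgroup G, H ≠ ⊤ → IsMulCommutative H)) := by
  constructor
  · intro hall
    by_cases hab : IsMulCommutative G
    · exact Or.inl hab
    right
    have hprop : ∀ H : Subgroup G, H ≠ ⊤ → IsMulCommutative H := fun H hH => by
      by_contra hn
      exact (ne_of_lt (normalizerCondition_of_isNilpotent H (lt_top_iff_ne_top.mpr hH))) (hall H hn).symm
    refine ⟨?_, hab, hprop⟩
    by_contra hpp
    apply hab
    obtain ⟨e⟩ := ((Group.isNilpotent_of_finite_tfae (G := G)).out 0 4 rfl rfl).mp inferInstance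
    refine ⟨⟨fun a b => ?_⟩⟩
    obtain ⟨f, rfl⟩ := e.surjective a
    obtain ⟨f', rfl⟩ := e.surjective b
    rw [← map_mul, ← map_mul]
    congr 1
    funext q P
    have hq : Fact (q : ℕ).Prime := ⟨Nat.prime_of_mem_primeFactors q.2⟩
    have hne : (P : Subgroup G) ≠ ⊤ := fun h => hpp (by
      obtain ⟨k, hk⟩ := IsPGroup.iff_card.mp P.2
      rw [h, Subgroup.card_top] at hk
      rw [hk]
      have hk0 : k ≠ 0 := by
        rintro rfl
        have h2 := Nat.dvd_of_mem_primeFactors q.2
        replace h2 := h2.trans (dvd_of_eq hk)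
        rw [pow_zero, Nat.dvd_one] at h2
        exact hq.out.one_lt.ne' h2
      exact hq.out.isPrimePow.pow hk0)
    exact (hprop _ hne).is_comm.comm (f q P) (f' q P)
  · rintro (hab | ⟨-, -, hprop⟩) H hH
    · exact absurd ⟨⟨fun a b => Subtype.ext (hab.is_comm.comm _ _)⟩⟩ hH
    · have : H = ⊤ := by by_contra h; exact hH (hprop H h)
      subst this
      exact Subgroup.normalizer_eq_top (H := (⊤ : Subgroup G))

end Cfsg.Agent.S4075
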