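import Cfsg.Statements.S4080
import Mathlib

set_option autoImplicit false
open Cfsg

namespace Cfsg.Agent.S4080

/-- Let p > 3 be a prime and L the direct product of two cyclic groups of order p². Every automorphism of L of order p fixes every element of order p of L. -/
theorem result {p : ℕ} [Fact p.Prime] (hp : 3 < p)
    (a : MulAut (Multiplicative (ZMod (p ^ 2) × ZMod (p ^ 2)))) (ha : orderOf a = p)
    (x : Multiplicative (ZMod (p ^ 2) × ZMod (p ^ 2))) (hx : orderOf x = p) : a x = x := by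
  haveI : NeZero p := ⟨(Fact.out : p.Prime).ne_zero⟩
  have hp' : p.Prime := Fact.out
  obtain ⟨d, hd⟩ : ∃ d : (ZMod (p ^ 2) × ZMod (p ^ 2)) →+ (ZMod (p ^ 2) × ZMod (p ^ 2)),
      ∀ y, (a (Multiplicative.ofAdd y)).toAdd = y + d y :=
    ⟨{ toFun := fun y => (a (Multiplicative.ofAdd y)).toAdd - y
       map_zero' := by simp
       map_add' := fun u v => by
         show (a (Multiplicative.ofAdd (u + v))).toAdd - (u + v) = _
         rw [ofAdd_add, map_mul, toAdd_mul]; abel }, fun y => by simp⟩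
  -- elements killed by `p` are multiples of `p`
  have hdiv : ∀ y : ZMod (p ^ 2) × ZMod (p ^ 2), p • y = 0 → ∃ z, y = p • z := by
    have h1 : ∀ c : ZMod (p ^ 2), p • c = 0 → ∃ e : ZMod (p ^ 2), c = p • e := by
      intro c hc
      have h2 : ((p * c.val : ℕ) : ZMod (p ^ 2)) = 0 := by
        rw [Nat.cast_mul, ZMod.natCast_zmod_val, ← nsmul_eq_mul]; exact hc
      obtain ⟨e, he⟩ := (Nat.mul_dvd_mul_iff_left hp'.pos).mp
        ((dvd_of_eq (pow_two p).symm).trans ((ZMod.natCast_eq_zero_iff _ _).mp h2))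
      refine ⟨(e : ZMod (p ^ 2)), ?_⟩
      rw [nsmul_eq_mul, ← Nat.cast_mul, ← he, ZMod.natCast_zmod_val]
    intro y hy
    obtain ⟨e1, he1⟩ := h1 y.1 (congrArg Prod.fst hy)
    obtain ⟨e2, he2⟩ := h1 y.2 (congrArg Prod.snd hy)
    exact ⟨(e1, e2), Prod.ext he1 he2⟩
  have hpp : ∀ z : ZMod (p ^ 2) × ZMod (p ^ 2), p • p • z = 0 := fun z => by
    rw [← mul_nsmul]
    refine Prod.ext ?_ ?_ <;> simp only [Prod.smul_fst, Prod.smul_snd, Prod.fst_zero, Prod.snd_zero] <;>
      rw [nsmul_eq_mul, ← pow_two, ZMod.natCast_self, zero_mul]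
  let Ω : AddSubgroup (ZMod (p ^ 2) × ZMod (p ^ 2)) :=
    (DistribSMul.toAddMonoidHom (ZMod (p ^ 2) × ZMod (p ^ 2)) (p : ℕ)).ker
  have hΩ : ∀ y, y ∈ Ω ↔ p • y = 0 := fun y => Iff.rfl
  let g : Ω →+ Ω :=
    { toFun := fun y => ⟨d y, (hΩ _).mpr (by rw [← map_nsmul, (hΩ _).mp y.2, map_zero])⟩
      map_zero' := Subtype.ext (map_zero d)
      map_add' := fun u v => Subtype.ext (map_add d _ _) }
  have hiter : ∀ (n : ℕ) (y : ZMod (p ^ 2) × ZMod (p ^ 2)), (∀ z, p • z = 0 → d (d z) = 0) → p • d (d y) = 0 →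
      ((a ^ n) (Multiplicative.ofAdd y)).toAdd = y + n • d y + (n.choose 2) • d (d y) + (n.choose 3) • d (d (d y)) := by
    intro n y hz hy
    induction n with
    | zero => simp
    | succ n ih =>
      rw [pow_succ' a n, MulAut.mul_apply, show ((a ^ n) (Multiplicative.ofAdd y)) = Multiplicative.ofAdd ((a ^ n) (Multiplicative.ofAdd y)).toAdd from rfl, hd, ih,
        Nat.choose_succ_succ' n 1, Nat.choose_succ_succ' n 2, Nat.choose_one_right]
      simp only [map_add, map_nsmul, add_nsmul, one_nsmul]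
      rw [hz (d (d y)) hy]
      simp only [smul_zero]
      abel
  -- the restriction of `d` to `Ω` squares to zero
  have hsq : ∀ z, p • z = 0 → d (d z) = 0 := by
    have hcard : Nat.card Ω ≤ p ^ 2 := by
      let e : ZMod p × ZMod p → Ω := fun c => ⟨p • ((c.1.val : ZMod (p ^ 2)), (c.2.val : ZMod (p ^ 2))), (hΩ _).mpr (hpp _)⟩
      have hsurj : Function.Surjective e := by
        rintro ⟨y, hy⟩
        obtain ⟨z, rfl⟩ := hdiv y ((hΩ _).mp hy)
        refine ⟨((z.1.val : ZMod p), (z.2.val : ZMod p)), Subtype.ext ?_⟩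
        have key : ∀ c : ZMod (p ^ 2), p • (((c.val : ZMod p)).val : ZMod (p ^ 2)) = p • c := fun c => by
          conv_rhs => rw [← ZMod.natCast_zmod_val c]
          rw [nsmul_eq_mul, nsmul_eq_mul, ← Nat.cast_mul, ← Nat.cast_mul, ZMod.natCast_eq_natCast_iff, ZMod.val_natCast]
          exact (Nat.ModEq.mul_left' p (Nat.mod_modEq c.val p)).of_dvd (dvd_of_eq (pow_two p))
        exact Prod.ext (key z.1) (key z.2)
      refine (Nat.card_le_card_of_surjective e hsurj).trans ?_
      rw [Nat.card_prod, Nat.card_zmod, pow_two]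
    let U := Subgroup.zpowers a
    have hUp : IsPGroup p U := IsPGroup.of_card (n := 1) (by rw [Nat.card_zpowers, ha, pow_one])
    have hΩp : IsPGroup p (Multiplicative Ω) := fun y => ⟨1, by
      rw [pow_one]
      exact congrArg Multiplicative.ofAdd (Subtype.ext ((hΩ _).mp (Multiplicative.toAdd y).2))⟩
    have hker : ∀ S : AddSubgroup Ω, (∀ s ∈ S, g s ∈ S) → S ≠ ⊥ → ∃ s ∈ S, s ≠ 0 ∧ g s = 0 := by
      intro S hS hS1
      -- `1 + g` has `p`-power order on `S`, so it fixes a nonzero element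
      let T := {s : Ω // s ∈ S}
      let σ : T → T := fun s => ⟨s.1 + g s.1, S.add_mem s.2 (hS _ s.2)⟩
      have hσ : ∀ (n : ℕ) (s : T), ((σ^[n]) s).1.1 = ((a ^ n) (Multiplicative.ofAdd s.1.1)).toAdd := by
        intro n
        induction n with
        | zero => intro s; rfl
        | succ n ih =>
          intro s
          rw [Function.iterate_succ_apply', pow_succ' a n, MulAut.mul_apply,
            show ((a ^ n) (Multiplicative.ofAdd s.1.1)) = Multiplicative.ofAdd ((a ^ n) (Multiplicative.ofAdd s.1.1)).toAdd from rfl, hd, ← ih s]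
          rfl
      have hσp : σ^[p] = id := funext fun s => Subtype.ext (Subtype.ext (by
        rw [hσ, orderOf_dvd_iff_pow_eq_one.mp (dvd_of_eq ha)]; rfl))
      let π : Equiv.Perm T :=
        { toFun := σ
          invFun := σ^[p - 1]
          left_inv := fun s => by
            rw [← Function.iterate_succ_apply, show (p - 1).succ = p from Nat.succ_pred_eq_of_pos hp'.pos, hσp]; rfl
          right_inv := fun s => by
            show σ (σ^[p - 1] s) = s
            rw [← Function.iterate_succ_apply' σ, show (p - 1).succ = p from Nat.succ_pred_eq_of_pos hp'.pos, hσp]; rfl }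
      haveI := Fintype.ofFinite T
      classical
      have hπ : π ^ (p ^ 1) = 1 := by
        rw [pow_one]; refine Equiv.ext fun s => ?_
        rw [Equiv.Perm.coe_pow]; exact congrFun hσp s
      have hdvd : p ∣ Fintype.card T := by
        haveI : Nontrivial S := (AddSubgroup.nontrivial_iff_ne_bot S).mpr hS1
        have h := (hΩp.to_subgroup (AddSubgroup.toSubgroup S)).exists_card_eq
        obtain ⟨j, hj⟩ := h
        rw [← Nat.card_eq_fintype_card]
        have hj' : Nat.card T = p ^ j := hj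
        rcases j with _ | j
        · exact absurd hj' (by simpa using (Finite.one_lt_card (α := S)).ne')
        · exact ⟨p ^ j, by rw [hj', pow_succ']⟩
      obtain ⟨s, hs, hs0⟩ := Equiv.Perm.exists_fixed_point_of_prime' hdvd hπ (a := (⟨0, S.zero_mem⟩ : T))
        (Subtype.ext (by show (0 : Ω) + g 0 = 0; rw [map_zero, add_zero]))
      refine ⟨s.1, s.2, fun h => hs0 (Subtype.ext h), ?_⟩
      have := congrArg Subtype.val hs
      exact add_eq_left.mp this
    by_cases hR : g.range = ⊥
    · intro z hz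
      have h1 : g ⟨z, (hΩ z).mpr hz⟩ = 0 := AddMonoidHom.mem_range.mpr ⟨_, rfl⟩ |> fun h => by rwa [hR, AddSubgroup.mem_bot] at h
      rw [show d z = 0 from congrArg Subtype.val h1, map_zero]
    have hΩ1 : (⊤ : AddSubgroup Ω) ≠ ⊥ := fun h => hR (eq_bot_iff.mpr (le_top.trans h.le))
    obtain ⟨s0, -, hs0, hgs0⟩ := hker ⊤ (fun _ _ => trivial) hΩ1
    obtain ⟨r, hr, hr0, hgr⟩ := hker g.range (fun s _ => ⟨s, rfl⟩) hR
    have hrle : Nat.card g.range ≤ p := by
      have h1 := AddSubgroup.card_mul_index g.ker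
      rw [AddSubgroup.index_ker] at h1
      obtain ⟨i, hi⟩ := (hΩp.to_subgroup (AddSubgroup.toSubgroup g.ker)).exists_card_eq
      have hi' : Nat.card g.ker = p ^ i := hi
      have h2 : p ≤ Nat.card g.ker := by
        rcases i with _ | i
        · exfalso
          have := AddSubgroup.eq_bot_of_card_eq g.ker (by rw [hi', pow_zero])
          exact hs0 ((AddSubgroup.mem_bot).mp (this ▸ (hgs0 : s0 ∈ g.ker)))
        · rw [hi']; exact Nat.le_self_pow (by omega) p
      have h3 : p * Nat.card g.range ≤ p * p := by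
        calc p * Nat.card g.range ≤ Nat.card g.ker * Nat.card g.range := Nat.mul_le_mul_right _ h2
          _ = Nat.card Ω := h1
          _ ≤ p * p := by rw [← pow_two]; exact hcard
      exact Nat.le_of_mul_le_mul_left h3 hp'.pos
    intro z hz
    have hgz : g (g ⟨z, (hΩ z).mpr hz⟩) = 0 := by
      have hzr : g ⟨z, (hΩ z).mpr hz⟩ ∈ AddSubgroup.zmultiples r := by
        have hord : addOrderOf r = p := addOrderOf_eq_prime (Subtype.ext ((hΩ _).mp r.2)) hr0
        have heq : AddSubgroup.zmultiples r = g.range := AddSubgroup.eq_of_le_of_card_ge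
          (AddSubgroup.zmultiples_le.mpr hr) (by rw [Nat.card_zmultiples, hord]; exact hrle)
        rw [heq]; exact ⟨_, rfl⟩
      obtain ⟨c, hc⟩ := AddSubgroup.mem_zmultiples_iff.mp hzr
      rw [← hc, map_zsmul, hgr, smul_zero]
    exact congrArg Subtype.val hgz
  have hxp : p • x.toAdd = 0 := by
    rw [← toAdd_pow, orderOf_dvd_iff_pow_eq_one.mp (dvd_of_eq hx)]; rfl
  obtain ⟨y, hy⟩ := hdiv _ hxp
  have hy2 : p • d (d y) = 0 := by
    rw [← map_nsmul, ← map_nsmul, ← hy]; exact hsq _ hxp
  have hy3 : p • d (d (d y)) = 0 := by rw [← map_nsmul, hy2, map_zero]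
  have h := hiter p y hsq hy2
  obtain ⟨c2, hc2⟩ := hp'.dvd_choose_self (k := 2) two_ne_zero (by omega)
  obtain ⟨c3, hc3⟩ := hp'.dvd_choose_self (k := 3) three_ne_zero (by omega)
  have hap : (a ^ p) (Multiplicative.ofAdd y) = Multiplicative.ofAdd y := by rw [orderOf_dvd_iff_pow_eq_one.mp (dvd_of_eq ha)]; rfl
  rw [hap, toAdd_ofAdd, hc2, hc3, mul_comm p c2, mul_comm p c3, mul_nsmul', mul_nsmul', hy2, hy3, smul_zero, smul_zero, add_zero,
    add_zero, left_eq_add, ← map_nsmul, ← hy] at h
  refine Multiplicative.toAdd.injective ?_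
  have := hd x.toAdd
  rw [ofAdd_toAdd, h, add_zero] at this
  exact this

end Cfsg.Agent.S4080
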