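import Cfsg.Statements.S4081
import Cfsg.Agent.S0144
import Cfsg.Agent.Lib.GroupB.Hall
import Cfsg.Agent.Lib.GroupB.CoprimeAbelian
import Mathlib.Algebra.Module.ZMod
import Mathlib.FieldTheory.Finite.Basic
import Mathlib.RingTheory.AdjoinRoot
import Mathlib.LinearAlgebra.FiniteDimensional.Basic

set_option autoImplicit false
open Cfsg

namespace Cfsg.Agent.S4081

open CfsgLib.GroupB Polynomial
open scoped IsMulCommutative

universe u

section Linear

variable {p q : ℕ} [Fact p.Prime] [Fact q.Prime]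
variable {V : Type u} [AddCommGroup V] [Module (ZMod p) V] [Finite V]

/-- `W` is stable under `L`. -/
def Stable (L : V →ₗ[ZMod p] V) (W : Submodule (ZMod p) V) : Prop := ∀ v ∈ W, L v ∈ W

theorem stable_pow {L : V →ₗ[ZMod p] V} {W : Submodule (ZMod p) V} (h : Stable L W) (i : ℕ) :
    Stable (L ^ i) W := by
  induction i with
  | zero => exact fun v hv => hv
  | succ i ih =>
    intro v hv
    rw [pow_succ', Module.End.mul_apply]
    exact h _ (ih v hv)

theorem pow_mod_eq {L : V →ₗ[ZMod p] V} (hq : L ^ q = 1) (i : ℕ) : L ^ i = L ^ (i % q) := by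
  conv_lhs => rw [← Nat.mod_add_div i q, pow_add, pow_mul, hq, one_pow, mul_one]

theorem sum_eq_zero {L : V →ₗ[ZMod p] V} (hq : L ^ q = 1) (hfpf : ∀ v, L v = v → v = 0) (v : V) :
    ∑ i : ZMod q, (L ^ i.val) v = 0 := by
  apply hfpf
  rw [map_sum]
  have : ∀ i : ZMod q, L ((L ^ i.val) v) = (L ^ (i + 1).val) v := by
    intro i
    rw [← Module.End.mul_apply, ← pow_succ', pow_mod_eq hq (i.val + 1)]
    congr 2
    rw [ZMod.val_add, ZMod.val_one]
  simp only [this]
  exact Equiv.sum_comp (Equiv.addRight (1 : ZMod q)) fun i => (L ^ i.val) v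

/-- The cyclic subspace. -/
def cyc (L : V →ₗ[ZMod p] V) (v : V) : Submodule (ZMod p) V :=
  Submodule.span (ZMod p) (Set.range fun i : ZMod q => (L ^ i.val) v)

theorem stable_cyc {L : V →ₗ[ZMod p] V} (hq : L ^ q = 1) (v : V) : Stable L (cyc (q := q) L v) := by
  intro w hw
  have : (cyc (q := q) L v).map L ≤ cyc (q := q) L v := by
    rw [cyc, Submodule.map_span_le]
    rintro _ ⟨i, rfl⟩
    refine Submodule.subset_span ⟨i + 1, ?_⟩
    show (L ^ (i + 1).val) v = L ((L ^ i.val) v)
    rw [← Module.End.mul_apply, ← pow_succ', pow_mod_eq hq (i.val + 1)]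
    congr 2
    rw [ZMod.val_add, ZMod.val_one]
  exact this ⟨w, hw, rfl⟩

theorem mem_cyc (L : V →ₗ[ZMod p] V) (v : V) : v ∈ cyc (q := q) L v :=
  Submodule.subset_span ⟨0, by simp⟩

theorem finrank_cyc_le {L : V →ₗ[ZMod p] V} (hq : L ^ q = 1) (hfpf : ∀ v, L v = v → v = 0) (v : V) :
    Module.finrank (ZMod p) (cyc (q := q) L v) ≤ q - 1 := by
  classical
  let s : Finset V := (Finset.univ.erase (0 : ZMod q)).image fun i => (L ^ i.val) v
  have hle : cyc (q := q) L v ≤ Submodule.span (ZMod p) (s : Set V) := by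
    rw [cyc, Submodule.span_le]
    rintro _ ⟨i, rfl⟩
    by_cases hi : i = 0
    · subst hi
      have h := sum_eq_zero hq hfpf v
      rw [← Finset.add_sum_erase _ _ (Finset.mem_univ (0 : ZMod q))] at h
      show (L ^ (0 : ZMod q).val) v ∈ _
      rw [eq_neg_of_add_eq_zero_left h]
      refine Submodule.neg_mem _ (Submodule.sum_mem _ fun j hj => Submodule.subset_span ?_)
      exact Finset.mem_coe.mpr (Finset.mem_image_of_mem _ hj)
    · exact Submodule.subset_span (Finset.mem_coe.mpr
        (Finset.mem_image_of_mem _ (Finset.mem_erase.mpr ⟨hi, Finset.mem_univ _⟩)))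
  refine (Submodule.finrank_mono hle).trans ((finrank_span_finset_le_card _).trans ?_)
  refine Finset.card_image_le.trans ?_
  rw [Finset.card_erase_of_mem (Finset.mem_univ _), Finset.card_univ, ZMod.card]

/-- A nonzero stable subspace has dimension a multiple of the order of `p` modulo `q`. -/
theorem le_finrank_of_stable {L : V →ₗ[ZMod p] V} (hq : L ^ q = 1) (hfpf : ∀ v, L v = v → v = 0)
    (hord : orderOf (p : ZMod q) = q - 1) {W : Submodule (ZMod p) V} (hW : Stable L W) (hne : W ≠ ⊥) :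
    q - 1 ≤ Module.finrank (ZMod p) W := by
  classical
  haveI := Fintype.ofFinite W
  let σ : Equiv.Perm W :=
    { toFun := fun v => ⟨L v, hW v v.2⟩
      invFun := fun v => ⟨(L ^ (q - 1)) v, stable_pow hW _ v v.2⟩
      left_inv := fun v => Subtype.ext (by
        show (L ^ (q - 1)) (L (v : V)) = v
        rw [← Module.End.mul_apply, ← pow_succ, Nat.sub_add_cancel (Fact.out : q.Prime).one_le, hq]; rfl)
      right_inv := fun v => Subtype.ext (by
        show L ((L ^ (q - 1)) (v : V)) = v
        rw [← Module.End.mul_apply, ← pow_succ', Nat.sub_add_cancel (Fact.out : q.Prime).one_le, hq]; rfl) }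
  have hσi : ∀ (i : ℕ) (v : W), (((σ ^ i) v : W) : V) = (L ^ i) v := by
    intro i
    induction i with
    | zero => intro v; rfl
    | succ i ih =>
      intro v
      rw [pow_succ', pow_succ', Equiv.Perm.mul_apply, Module.End.mul_apply, ← ih]
      rfl
  have hσ : σ ^ q ^ 1 = 1 := by
    rw [pow_one]
    exact Equiv.ext fun v => Subtype.ext (by rw [hσi, hq]; rfl)
  let F : Function.End W := ⇑σ
  have hF : ∀ i : ℕ, F ^ i = ⇑(σ ^ i) := by
    intro i
    induction i with
    | zero => rfl
    | succ i ih => rw [pow_succ', pow_succ', ih]; rfl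
  have hmod := Equiv.Perm.card_fixedPoints_modEq (p := q) (f := F) (n := 1) (by rw [hF, hσ]; rfl)
  have hfix : Fintype.card (Function.fixedPoints (⇑σ : W → W)) = 1 := by
    rw [Fintype.card_eq_one_iff]
    refine ⟨⟨0, Subtype.ext (map_zero L)⟩, ?_⟩
    rintro ⟨v, hv⟩
    exact Subtype.ext (Subtype.ext (hfpf v (congrArg Subtype.val hv)))
  have hcard : Fintype.card W = p ^ Module.finrank (ZMod p) W := by
    rw [Module.card_eq_pow_finrank (K := ZMod p), ZMod.card]
  rw [hfix, hcard] at hmod
  have h1 : (p : ZMod q) ^ Module.finrank (ZMod p) W = 1 := by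
    have := (ZMod.natCast_eq_natCast_iff _ _ q).mpr hmod
    simpa using this
  refine Nat.le_of_dvd ?_ (hord ▸ orderOf_dvd_of_pow_eq_one h1)
  exact Nat.pos_of_ne_zero fun h => hne (Submodule.finrank_eq_zero.mp h)

theorem exists_blocks {L : V →ₗ[ZMod p] V} (hq : L ^ q = 1) (hfpf : ∀ v, L v = v → v = 0)
    (hord : orderOf (p : ZMod q) = q - 1) (r : ℕ) : ∀ U : Submodule (ZMod p) V, Stable L U →
    Module.finrank (ZMod p) V ≤ Module.finrank (ZMod p) U + r →
    ∃ f : List V, (U ⊔ ⨆ i : Fin f.length, cyc (q := q) L (f.get i)) = ⊤ ∧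
      Module.finrank (ZMod p) U + f.length * (q - 1) = Module.finrank (ZMod p) V := by
  induction r with
  | zero =>
    intro U _ hr
    have hU : U = ⊤ := Submodule.eq_top_of_finrank_eq (le_antisymm (Submodule.finrank_le U) (by simpa using hr))
    exact ⟨[], by simp [hU], by subst hU; simp⟩
  | succ r ih =>
    intro U hU hr
    by_cases htop : U = ⊤
    · exact ⟨[], by simp [htop], by subst htop; simp⟩
    obtain ⟨v, -, hv⟩ := SetLike.exists_of_lt (lt_top_iff_ne_top.mpr htop)
    have hv0 : v ≠ 0 := fun h => hv (h ▸ U.zero_mem)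
    have hne : cyc (q := q) L v ≠ ⊥ := fun h => hv0 (by
      have := mem_cyc (q := q) L v; rwa [h, Submodule.mem_bot] at this)
    have hWd : Module.finrank (ZMod p) (cyc (q := q) L v) = q - 1 :=
      le_antisymm (finrank_cyc_le hq hfpf v) (le_finrank_of_stable hq hfpf hord (stable_cyc hq v) hne)
    have hdis : U ⊓ cyc (q := q) L v = ⊥ := by
      by_contra h
      have h1 := le_finrank_of_stable hq hfpf hord
        (fun w hw => ⟨hU w hw.1, stable_cyc hq v w hw.2⟩ : Stable L (U ⊓ cyc (q := q) L v)) h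
      have h2 : U ⊓ cyc (q := q) L v = cyc (q := q) L v :=
        Submodule.eq_of_le_of_finrank_le inf_le_right (hWd ▸ h1)
      have hm : v ∈ U ⊓ cyc (q := q) L v := by rw [h2]; exact mem_cyc (q := q) L v
      exact hv hm.1
    have hdim : Module.finrank (ZMod p) ↥(U ⊔ cyc (q := q) L v) = Module.finrank (ZMod p) U + (q - 1) := by
      have := Submodule.finrank_sup_add_finrank_inf_eq U (cyc (q := q) L v)
      rw [hdis, finrank_bot, add_zero, hWd] at this
      exact this
    have hst : Stable L (U ⊔ cyc (q := q) L v) := by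
      intro w hw
      obtain ⟨a, ha, b, hb, rfl⟩ := Submodule.mem_sup.mp hw
      rw [map_add]
      exact Submodule.add_mem_sup (hU a ha) (stable_cyc hq v b hb)
    have hq2 := (Fact.out : q.Prime).two_le
    obtain ⟨f, hf, hfd⟩ := ih (U ⊔ cyc (q := q) L v) hst (by omega)
    refine ⟨v :: f, ?_, ?_⟩
    · rw [eq_top_iff, ← hf]
      refine sup_le (sup_le le_sup_left (le_sup_of_le_right ?_)) (le_sup_of_le_right (iSup_le fun i => ?_))
      · exact le_iSup (fun i : Fin (v :: f).length => cyc (q := q) L ((v :: f).get i)) ⟨0, by simp⟩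
      · exact le_iSup (fun j : Fin (v :: f).length => cyc (q := q) L ((v :: f).get j)) ⟨i.val + 1, by simp⟩
    · rw [List.length_cons, add_mul, one_mul]
      omega

/-- The map from the free module on `m` blocks. -/
noncomputable def psi (L : V →ₗ[ZMod p] V) {m : ℕ} (f : Fin m → V) :
    (Fin m × ZMod q → ZMod p) →ₗ[ZMod p] V :=
  Fintype.linearCombination (ZMod p) fun ji : Fin m × ZMod q => (L ^ ji.2.val) (f ji.1)

theorem ker_psi {L : V →ₗ[ZMod p] V} (hq : L ^ q = 1) (hfpf : ∀ v, L v = v → v = 0) {m : ℕ}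
    (f : Fin m → V) (hspan : (⨆ i, cyc (q := q) L (f i)) = ⊤)
    (hm : m * (q - 1) = Module.finrank (ZMod p) V) :
    Function.Surjective (psi (q := q) L f) ∧
      ∀ c, psi (q := q) L f c = 0 ↔ ∀ j i i', c (j, i) = c (j, i') := by
  classical
  have hsurj : Function.Surjective (psi (q := q) L f) := by
    rw [← LinearMap.range_eq_top, eq_top_iff, ← hspan, psi, Fintype.range_linearCombination]
    refine iSup_le fun j => Submodule.span_mono ?_
    rintro _ ⟨i, rfl⟩
    exact ⟨(j, i), rfl⟩
  refine ⟨hsurj, ?_⟩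
  let C : (Fin m → ZMod p) →ₗ[ZMod p] (Fin m × ZMod q → ZMod p) :=
    LinearMap.funLeft (ZMod p) (ZMod p) Prod.fst
  have hCker : ∀ c, psi (q := q) L f (C c) = 0 := by
    intro c
    rw [psi, Fintype.linearCombination_apply, Fintype.sum_prod_type]
    refine Finset.sum_eq_zero fun j _ => ?_
    show ∑ i : ZMod q, c j • (L ^ i.val) (f j) = 0
    rw [← Finset.smul_sum, sum_eq_zero hq hfpf, smul_zero]
  have hker : LinearMap.range C = LinearMap.ker (psi (q := q) L f) := by
    refine Submodule.eq_of_le_of_finrank_le (by rintro _ ⟨c, rfl⟩; exact hCker c) ?_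
    have h1 := LinearMap.finrank_range_add_finrank_ker (psi (q := q) L f)
    rw [LinearMap.range_eq_top.mpr hsurj, finrank_top, Module.finrank_fintype_fun_eq_card,
      Fintype.card_prod, Fintype.card_fin, ZMod.card, ← hm] at h1
    rw [LinearMap.finrank_range_of_inj (LinearMap.funLeft_injective_of_surjective _ _ _ Prod.fst_surjective),
      Module.finrank_fintype_fun_eq_card, Fintype.card_fin]
    have hmq : m * q = m * (q - 1) + m := by
      rw [← Nat.mul_succ]; congr 1; have := (Fact.out : q.Prime).one_le; omega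
    omega
  intro c
  rw [← LinearMap.mem_ker, ← hker]
  constructor
  · rintro ⟨d, rfl⟩ j i i'; rfl
  · intro h
    exact ⟨fun j => c (j, 0), funext fun ⟨j, i⟩ => h j 0 i⟩

/-- **Semilinear maps are transitive**. -/
theorem exists_semilinear (L : V →ₗ[ZMod p] V) (hq : L ^ q = 1) (hfpf : ∀ v, L v = v → v = 0)
    (hord : orderOf (p : ZMod q) = q - 1) (k : (ZMod q)ˣ) {v w : V} (hv : v ≠ 0) (hw : w ≠ 0) :
    ∃ β : V ≃+ V, β v = w ∧ ∀ u, β (L u) = (L ^ (k : ZMod q).val) (β u) := by
  classical
  have hblocks : ∀ v : V, v ≠ 0 → ∃ (m : ℕ) (f : Fin (m + 1) → V), f 0 = v ∧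
      (⨆ i, cyc (q := q) L (f i)) = ⊤ ∧ (m + 1) * (q - 1) = Module.finrank (ZMod p) V := by
    intro v hv
    have hne : cyc (q := q) L v ≠ ⊥ := fun h => hv (by
      have := mem_cyc (q := q) L v; rwa [h, Submodule.mem_bot] at this)
    have hWd : Module.finrank (ZMod p) (cyc (q := q) L v) = q - 1 :=
      le_antisymm (finrank_cyc_le hq hfpf v) (le_finrank_of_stable hq hfpf hord (stable_cyc hq v) hne)
    obtain ⟨f, hf, hfd⟩ := exists_blocks hq hfpf hord (Module.finrank (ZMod p) V) (cyc (q := q) L v)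
      (stable_cyc hq v) (Nat.le_add_left _ _)
    refine ⟨f.length, Fin.cons v f.get, rfl, ?_, by rw [add_mul, one_mul]; omega⟩
    rw [eq_top_iff, ← hf]
    refine sup_le ?_ (iSup_le fun i => ?_)
    · exact le_iSup_of_le 0 (by simp)
    · exact le_iSup_of_le i.succ (by simp)
  obtain ⟨m, f, hf0, hfs, hfd⟩ := hblocks v hv
  obtain ⟨m', f', hf'0, hf's, hf'd⟩ := hblocks w hw
  obtain rfl : m = m' := by
    have h := Nat.eq_of_mul_eq_mul_right (show 0 < q - 1 by have := (Fact.out : q.Prime).two_le; omega)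
      (hfd.trans hf'd.symm)
    omega
  obtain ⟨hsf, hkf⟩ := ker_psi hq hfpf f hfs hfd
  obtain ⟨hsf', hkf'⟩ := ker_psi hq hfpf f' hf's hf'd
  -- permute the coordinates by `k`
  let perm : (Fin (m + 1) × ZMod q → ZMod p) → (Fin (m + 1) × ZMod q → ZMod p) :=
    fun c ji => c (ji.1, ((k⁻¹ : (ZMod q)ˣ) : ZMod q) * ji.2)
  let β₀ : V → V := fun u => psi (q := q) L f' (perm (Function.surjInv hsf u))
  have hwd : ∀ c, β₀ (psi (q := q) L f c) = psi (q := q) L f' (perm c) := by
    intro c
    have h0 : psi (q := q) L f (Function.surjInv hsf (psi (q := q) L f c) - c) = 0 := by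
      rw [map_sub, Function.surjInv_eq hsf, sub_self]
    have h1 : psi (q := q) L f' (perm (Function.surjInv hsf (psi (q := q) L f c) - c)) = 0 :=
      (hkf' _).mpr fun j i i' => (hkf _).mp h0 j _ _
    rw [show perm (Function.surjInv hsf (psi (q := q) L f c) - c) =
      perm (Function.surjInv hsf (psi (q := q) L f c)) - perm c from rfl, map_sub, sub_eq_zero] at h1
    exact h1
  have hadd : ∀ a b, β₀ (a + b) = β₀ a + β₀ b := by
    intro a b
    obtain ⟨a, rfl⟩ := hsf a
    obtain ⟨b, rfl⟩ := hsf b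
    rw [← map_add, hwd, hwd, hwd, show perm (a + b) = perm a + perm b from rfl, map_add]
  have hsur : Function.Surjective β₀ := by
    intro u
    obtain ⟨c, rfl⟩ := hsf' u
    refine ⟨psi (q := q) L f (fun ji => c (ji.1, (k : ZMod q) * ji.2)), ?_⟩
    rw [hwd]
    congr 1
    funext ⟨j, i⟩
    show c (j, (k : ZMod q) * (((k⁻¹ : (ZMod q)ˣ) : ZMod q) * i)) = c (j, i)
    rw [Units.mul_inv_cancel_left]
  let β : V ≃+ V := AddEquiv.ofBijective (AddMonoidHom.mk' β₀ hadd)
    (Finite.surjective_iff_bijective.mp hsur)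
  have hsingle : ∀ (L' : Fin (m + 1) → V) (j : Fin (m + 1)) (i : ZMod q),
      psi (q := q) L L' (Pi.single (j, i) 1) = (L ^ i.val) (L' j) := fun L' j i => by
    rw [psi, Fintype.linearCombination_apply_single, one_smul]
  have hperm : ∀ j i, perm (Pi.single (j, i) 1) = Pi.single (j, (k : ZMod q) * i) 1 := by
    intro j i
    funext ⟨j', i'⟩
    show (Pi.single (j, i) 1 : Fin (m + 1) × ZMod q → ZMod p) (j', ((k⁻¹ : (ZMod q)ˣ) : ZMod q) * i') = _
    rw [Pi.single_apply, Pi.single_apply]
    refine if_congr ?_ rfl rfl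
    simp only [Prod.mk.injEq]
    refine and_congr_right fun _ => ⟨fun h => ?_, fun h => ?_⟩
    · rw [← h, Units.mul_inv_cancel_left]
    · rw [h, Units.inv_mul_cancel_left]
  refine ⟨β, ?_, ?_⟩
  · have e := hwd (Pi.single (0, 0) 1)
    rw [hperm, mul_zero, hsingle, hsingle, ZMod.val_zero, pow_zero, hf0, hf'0] at e
    exact e
  · intro u
    have hlin : (β.toAddMonoidHom.comp L.toAddMonoidHom).comp (psi (q := q) L f).toAddMonoidHom =
        ((L ^ (k : ZMod q).val).toAddMonoidHom.comp β.toAddMonoidHom).comp (psi (q := q) L f).toAddMonoidHom := by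
      refine AddMonoidHom.functions_ext' _ _ _ fun ji => AddMonoidHom.ext fun a => ?_
      obtain ⟨j, i⟩ := ji
      obtain ⟨n, rfl⟩ : ∃ n : ℕ, (n : ZMod p) = a := ⟨a.val, ZMod.natCast_zmod_val a⟩
      have hn : (Pi.single (j, i) (n : ZMod p) : Fin (m + 1) × ZMod q → ZMod p) =
          n • Pi.single (j, i) 1 := by rw [← Pi.single_smul, nsmul_one]
      simp only [AddMonoidHom.comp_apply, AddMonoidHom.single_apply]
      rw [hn]
      simp only [map_nsmul]
      congr 1
      show β₀ (L (psi (q := q) L f (Pi.single (j, i) 1))) =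
        (L ^ (k : ZMod q).val) (β₀ (psi (q := q) L f (Pi.single (j, i) 1)))
      have e : L ((L ^ i.val) (f j)) = psi (q := q) L f (Pi.single (j, i + 1) 1) := by
        rw [hsingle, ← Module.End.mul_apply, ← pow_succ', pow_mod_eq hq (i.val + 1)]
        congr 2
        rw [ZMod.val_add, ZMod.val_one]
      rw [hsingle, e, ← hsingle f j i, hwd, hwd, hperm, hperm, hsingle, hsingle, ← Module.End.mul_apply,
        ← pow_add, pow_mod_eq hq ((k : ZMod q).val + _)]
      congr 2
      rw [← ZMod.val_add, mul_add, mul_one, add_comm]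
    obtain ⟨c, rfl⟩ := hsf u
    exact DFunLike.congr_fun hlin c

theorem aux_mem {L : V →ₗ[ZMod p] V} {W : Submodule (ZMod p) V} (hW : Stable L W) (a : (ZMod p)[X]) {w : V}
    (hw : w ∈ W) : aeval L a w ∈ W := by
  induction a using Polynomial.induction_on' with
  | add a b ha hb => rw [map_add, LinearMap.add_apply]; exact W.add_mem ha hb
  | monomial i c =>
    rw [aeval_monomial, Module.End.mul_apply, Module.algebraMap_end_apply]
    exact W.smul_mem c (stable_pow hW i w hw)

theorem aeval_comm {L : V →ₗ[ZMod p] V} (a : (ZMod p)[X]) (v : V) :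
    aeval L a (L v) = L (aeval L a v) := by
  have h : aeval L (a * X) = aeval L (X * a) := by rw [mul_comm]
  rw [map_mul, map_mul, aeval_X] at h
  exact LinearMap.congr_fun h v

theorem aeval_mul_apply {L : V →ₗ[ZMod p] V} (a b : (ZMod p)[X]) (v : V) :
    aeval L (a * b) v = aeval L a (aeval L b v) := by rw [map_mul, Module.End.mul_apply]

theorem eq_zero_of_isCoprime {L : V →ₗ[ZMod p] V} {a b : (ZMod p)[X]} (h : IsCoprime a b) {v : V}
    (ha : aeval L a v = 0) (hb : aeval L b v = 0) : v = 0 := by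
  obtain ⟨r, s, hrs⟩ := h
  have := congrArg (fun f => aeval L f v) hrs
  simp only [map_add, LinearMap.add_apply, map_one, Module.End.one_apply, aeval_mul_apply, ha, hb,
    map_zero, add_zero] at this
  exact this.symm

/-- A minimal stable subspace is killed by an irreducible polynomial in `L`. -/
theorem exists_irreducible (L : V →ₗ[ZMod p] V) {W : Submodule (ZMod p) V} (hWs : Stable L W) (hWne : W ≠ ⊥)
    (hmin : ∀ M, Stable L M → M ≠ ⊥ → M ≤ W → W ≤ M) :
    ∃ g : (ZMod p)[X], g.Monic ∧ Irreducible g ∧ ∀ w ∈ W, aeval L g w = 0 := by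
  classical
  have hex : ∃ n, ∃ g : (ZMod p)[X], g.Monic ∧ g.natDegree = n ∧ ∀ w ∈ W, aeval L g w = 0 :=
    ⟨_, minpoly (ZMod p) L, minpoly.monic (Algebra.IsIntegral.isIntegral _), rfl,
      fun w _ => by rw [minpoly.aeval]; rfl⟩
  obtain ⟨g, hgm, hgd, hgW⟩ := Nat.find_spec hex
  refine ⟨g, hgm, ?_, hgW⟩
  have hpos : 1 ≤ g.natDegree := by
    by_contra h
    obtain ⟨w, hw, hw0⟩ := Submodule.exists_mem_ne_zero_of_ne_bot hWne
    have := hgW w hw
    rw [Polynomial.eq_one_of_monic_natDegree_zero hgm (by omega), map_one] at this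
    exact hw0 this
  refine (Monic.irreducible_iff_natDegree hgm).mpr ⟨fun e => by simp [e] at hpos, fun a b ha hb hab => ?_⟩
  have hsmall : ∀ r : (ZMod p)[X], r.Monic → (∀ w ∈ W, aeval L r w = 0) → g.natDegree ≤ r.natDegree := by
    intro r hr h
    rw [hgd]
    exact Nat.find_min' hex ⟨r, hr, rfl, h⟩
  have hd : a.natDegree + b.natDegree = g.natDegree := by rw [← hab, ha.natDegree_mul hb]
  let K : Submodule (ZMod p) V := W ⊓ LinearMap.ker (aeval L b)
  by_cases hK : K = ⊥
  · right
    have := hsmall a ha fun w hw => by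
      have hmem : aeval L a w ∈ K := by
        refine ⟨?_, ?_⟩
        · exact aux_mem hWs a hw
        · show aeval L b (aeval L a w) = 0
          rw [← aeval_mul_apply, mul_comm, hab]; exact hgW w hw
      rwa [hK, Submodule.mem_bot] at hmem
    omega
  · left
    have hKW : W ≤ K := hmin K (fun v hv => ⟨hWs v hv.1, by
      show aeval L b (L v) = 0
      rw [aeval_comm, show aeval L b v = 0 from hv.2, map_zero]⟩) hK inf_le_left
    have := hsmall b hb fun w hw => (hKW hw).2
    omega

theorem aeval_twist {L : V →ₗ[ZMod p] V} (e : V ≃+ V) (k : ℕ) (he : ∀ u, e (L u) = (L ^ k) (e u))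
    (a : (ZMod p)[X]) : ∀ u, e (aeval L a u) = aeval (L ^ k) a (e u) := by
  induction a using Polynomial.induction_on' with
  | add a b ha hb => intro u; simp [ha, hb]
  | monomial i c =>
    intro u
    rw [aeval_monomial, aeval_monomial, Module.End.mul_apply, Module.End.mul_apply,
      Module.algebraMap_end_apply, Module.algebraMap_end_apply, ← ZMod.natCast_zmod_val c,
      Nat.cast_smul_eq_nsmul, Nat.cast_smul_eq_nsmul, map_nsmul]
    congr 1
    induction i generalizing u with
    | zero => rfl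
    | succ i ih => rw [pow_succ, pow_succ, Module.End.mul_apply, Module.End.mul_apply, ih, he]

/-- **Primitive root from transitivity**. -/
theorem orderOf_eq_of_twist [Nontrivial V] (L : V →ₗ[ZMod p] V) (hq : L ^ q = 1) (hL : L ≠ 1)
    (htrans : ∀ v w : V, v ≠ 0 → w ≠ 0 → ∃ (e : V ≃+ V) (k : ℕ), e v = w ∧ ∀ u, e (L u) = (L ^ k) (e u))
    (htw : ∀ k : (ZMod q)ˣ, ∃ e : V ≃+ V, ∀ u, e (L u) = (L ^ (k : ZMod q).val) (e u)) (hpq : p ≠ q) :
    orderOf (p : ZMod q) = q - 1 := by
  classical
  obtain ⟨W, -, ⟨hWs, hWne⟩, hWmin⟩ := Finite.exists_le_minimal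
    (p := fun W : Submodule (ZMod p) V => Stable L W ∧ W ≠ ⊥) (a := ⊤) ⟨fun _ _ => trivial, top_ne_bot⟩
  obtain ⟨w₀, hw₀, hw₀0⟩ := Submodule.exists_mem_ne_zero_of_ne_bot hWne
  -- every nonzero vector is killed by an irreducible polynomial
  have hirr : ∀ u : V, u ≠ 0 → ∃ a : (ZMod p)[X], a.Monic ∧ Irreducible a ∧ aeval L a u = 0 := by
    intro u hu
    obtain ⟨e, k, he, hek⟩ := htrans w₀ u hw₀0 hu
    have hk : (k : ZMod q) ≠ 0 := by
      intro hk0
      apply hL
      have hm : k % q = 0 := by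
        rw [← ZMod.val_natCast, hk0, ZMod.val_zero]
      have h1 : L ^ k = 1 := by rw [pow_mod_eq hq, hm, pow_zero]
      exact LinearMap.ext fun v => e.injective (by rw [hek, h1]; rfl)
    obtain ⟨j, hj⟩ : ∃ j : ℕ, k * j % q = 1 := by
      refine ⟨((k : ZMod q)⁻¹).val, ?_⟩
      rw [← ZMod.val_natCast, Nat.cast_mul, ZMod.natCast_zmod_val, mul_inv_cancel₀ hk, ZMod.val_one]
    let el : V →ₗ[ZMod p] V := (e : V →+ V).toZModLinearMap p
    let M : Submodule (ZMod p) V := W.map el
    have hMs : Stable L M := by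
      rintro _ ⟨w, hw, rfl⟩
      refine ⟨(L ^ j) w, stable_pow hWs j w hw, ?_⟩
      show e ((L ^ j) w) = L (e w)
      have : ∀ (i : ℕ), e ((L ^ i) w) = (L ^ (k * i)) (e w) := by
        intro i
        induction i with
        | zero => rfl
        | succ i ih => rw [pow_succ', Module.End.mul_apply, hek, ih, ← Module.End.mul_apply, ← pow_add,
            Nat.mul_succ, add_comm]
      rw [this, pow_mod_eq hq, hj, pow_one]
    obtain ⟨a, ha, hai, haM⟩ := exists_irreducible L hMs (fun h => hw₀0 (e.injective (by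
      have : el w₀ ∈ (⊥ : Submodule (ZMod p) V) := h ▸ ⟨w₀, hw₀, rfl⟩
      rw [map_zero]; exact this))) (fun M' hM' hne hle => by
      have hc : W ≤ M'.comap el := by
        refine hWmin ⟨fun v hv => ?_, fun h => ?_⟩ (fun v hv => ?_)
        · show e (L v) ∈ M'
          rw [hek]; exact stable_pow hM' k _ hv
        · obtain ⟨m, hm, hm0⟩ := Submodule.exists_mem_ne_zero_of_ne_bot hne
          obtain ⟨v, -, rfl⟩ := hle hm
          have : v ∈ M'.comap el := hm
          rw [h, Submodule.mem_bot] at this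
          exact hm0 (by rw [this, map_zero])
        · obtain ⟨v', hv', hvv⟩ := hle hv
          exact e.injective hvv ▸ hv'
      exact Submodule.map_le_iff_le_comap.mpr hc)
    exact ⟨a, ha, hai, haM u ⟨w₀, hw₀, he⟩⟩
  obtain ⟨g, hgm, hgi, hg0⟩ := hirr w₀ hw₀0
  have hcop : ∀ a b : (ZMod p)[X], a.Monic → Irreducible a → b.Monic → Irreducible b → a ≠ b → IsCoprime a b :=
    fun a b ha hai hb hbi hne => hai.coprime_iff_not_dvd.mpr fun hd =>
      hne (eq_of_monic_of_associated ha hb (hai.associated_of_dvd hbi hd))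
  have hall : ∀ u, aeval L g u = 0 := by
    intro u
    by_cases hu : u = 0
    · rw [hu, map_zero]
    obtain ⟨a, ham, hai, ha0⟩ := hirr u hu
    by_contra hne
    have hag : a ≠ g := fun e => hne (e ▸ ha0)
    have hs : u + w₀ ≠ 0 := by
      intro h
      refine hu (eq_zero_of_isCoprime (hcop a g ham hai hgm hgi hag) ha0 ?_)
      rw [eq_neg_of_add_eq_zero_left h, map_neg, hg0, neg_zero]
    obtain ⟨c, hcm, hci, hc0⟩ := hirr _ hs
    rw [map_add, add_eq_zero_iff_eq_neg] at hc0
    have hz : aeval L c u = 0 := by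
      refine eq_zero_of_isCoprime (L := L) (hcop a g ham hai hgm hgi hag) ?_ ?_
      · rw [← aeval_mul_apply, mul_comm, aeval_mul_apply, ha0, map_zero]
      · rw [hc0, map_neg, ← aeval_mul_apply, mul_comm, aeval_mul_apply, hg0, map_zero, neg_zero]
    have hzw : aeval L c w₀ = 0 := by rw [hz] at hc0; simpa using hc0.symm
    have hca : c = a := by
      by_contra h; exact hu (eq_zero_of_isCoprime (hcop c a hcm hci ham hai h) hz ha0)
    have hcg : c = g := by
      by_contra h; exact hw₀0 (eq_zero_of_isCoprime (hcop c g hcm hci hgm hgi h) hzw hg0)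
    exact hag (hca.symm.trans hcg)
  have hgL : aeval L g = 0 := LinearMap.ext hall
  have hgk : ∀ k : (ZMod q)ˣ, aeval (L ^ (k : ZMod q).val) g = 0 := by
    intro k
    obtain ⟨e, he⟩ := htw k
    refine LinearMap.ext fun u => ?_
    obtain ⟨u, rfl⟩ := e.surjective u
    rw [← aeval_twist e _ he, hall, map_zero]; rfl
  -- in the field `K = F_p[X]/(g)`
  haveI := Fact.mk hgi
  haveI : Module.Finite (ZMod p) (AdjoinRoot g) := hgm.finite_adjoinRoot
  haveI : Finite (AdjoinRoot g) := Module.finite_of_finite (ZMod p)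
  haveI : Nontrivial (Module.End (ZMod p) V) := ⟨⟨1, 0, fun h => by
    obtain ⟨v, hv⟩ := exists_ne (0 : V)
    exact hv (LinearMap.congr_fun h v)⟩⟩
  let Φ : AdjoinRoot g →+* Module.End (ZMod p) V :=
    Ideal.Quotient.lift (Ideal.span {g}) (aeval L).toRingHom fun a ha => by
      obtain ⟨b, rfl⟩ := Ideal.mem_span_singleton'.mp ha
      show aeval L (b * g) = 0
      rw [map_mul, hgL, mul_zero]
  have hΦinj : Function.Injective Φ := RingHom.injective Φ
  have hΦr : Φ (AdjoinRoot.root g) = L := (Ideal.Quotient.lift_mk _ _ _).trans (aeval_X L)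
  have hΦc : ∀ c : ZMod p, Φ (algebraMap (ZMod p) (AdjoinRoot g) c) = algebraMap (ZMod p) _ c :=
    fun c => DFunLike.congr_fun (Subsingleton.elim (Φ.comp (algebraMap (ZMod p) (AdjoinRoot g))) _) c
  have hΦa : ∀ (f : (ZMod p)[X]) (z : AdjoinRoot g), Φ (aeval z f) = aeval (Φ z) f := by
    intro f z
    induction f using Polynomial.induction_on' with
    | add a b ha hb => simp [ha, hb]
    | monomial i c => rw [aeval_monomial, aeval_monomial, map_mul, map_pow, hΦc]
  have hroot : ∀ k : (ZMod q)ˣ, ∃ n : ℕ, (k : ZMod q) = (p : ZMod q) ^ n := by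
    intro k
    have hz : aeval (AdjoinRoot.root g ^ (k : ZMod q).val) g = 0 :=
      hΦinj (by rw [hΦa, map_pow, hΦr, hgk, map_zero])
    let σ : AdjoinRoot g →ₐ[ZMod p] AdjoinRoot g :=
      AdjoinRoot.liftAlgHom g (Algebra.ofId (ZMod p) _) (AdjoinRoot.root g ^ (k : ZMod q).val) (by
        exact hz)
    obtain ⟨n, hn⟩ := (FiniteField.bijective_frobeniusAlgHom_pow (ZMod p) (AdjoinRoot g)).2 σ
    refine ⟨n, ?_⟩
    have h := DFunLike.congr_fun hn (AdjoinRoot.root g)
    simp only [AlgHom.coe_pow, FiniteField.coe_frobeniusAlgHom, pow_iterate, ZMod.card, σ,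
      AdjoinRoot.liftAlgHom_root] at h
    have hL' : L ^ p ^ (n : ℕ) = L ^ (k : ZMod q).val := by
      rw [← hΦr, ← map_pow, ← map_pow, h]
      exact congrArg Φ (AdjoinRoot.lift_root hz)
    have hord : orderOf L = q := orderOf_eq_prime hq hL
    obtain ⟨u, hu⟩ := IsUnit.of_pow_eq_one hq (Fact.out : q.Prime).ne_zero
    have hu' : u ^ p ^ (n : ℕ) = u ^ (k : ZMod q).val :=
      Units.ext (by rw [Units.val_pow_eq_pow_val, Units.val_pow_eq_pow_val, hu]; exact hL')
    have hmod := pow_eq_pow_iff_modEq.mp hu'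
    rw [← orderOf_units, hu, hord, ← ZMod.natCast_eq_natCast_iff, ZMod.natCast_zmod_val, Nat.cast_pow] at hmod
    exact hmod.symm
  have hp0 : (p : ZMod q) ≠ 0 := by
    rw [ne_eq, ZMod.natCast_eq_zero_iff]
    exact fun h => hpq ((Nat.prime_dvd_prime_iff_eq Fact.out Fact.out).mp h).symm
  have hall' : ∀ x : (ZMod q)ˣ, x ∈ Subgroup.zpowers (Units.mk0 (p : ZMod q) hp0) := by
    intro x
    obtain ⟨n, hn⟩ := hroot x
    exact Subgroup.mem_zpowers_iff.mpr ⟨n, Units.ext (by simp [hn])⟩
  have := orderOf_eq_card_of_forall_mem_zpowers hall'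
  rw [Nat.card_eq_fintype_card, ZMod.card_units q, ← orderOf_units, Units.val_mk0] at this
  exact this

end Linear

section Group

variable {G : Type u} [Group G] [Finite G]

theorem elem_rel {g h : G} : (Quotient.mk'' g : MulAction.orbitRel.Quotient (MulAut G) G) = Quotient.mk'' h ↔
    ∃ φ : MulAut G, φ h = g := by
  rw [Quotient.eq'', MulAction.orbitRel_apply, MulAction.mem_orbit_iff]
  rfl

/-- Conjugation by `x` as a linear map of `Additive P`. -/
theorem exists_conj_linear {p q : ℕ} [Fact p.Prime] (P : Subgroup G) [hP : P.Normal] [IsMulCommutative P]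
    (x : G) (hx : orderOf x = q) [Module (ZMod p) (Additive P)] :
    ∃ L : Additive P →ₗ[ZMod p] Additive P, L ^ q = 1 ∧
      ∀ (i : ℕ) (v : Additive P), ((Additive.toMul ((L ^ i) v) : P) : G) = x ^ i * (Additive.toMul v : P) * (x ^ i)⁻¹ := by
  let f : Additive P →+ Additive P := MonoidHom.toAdditive (MulAut.conjNormal x : MulAut P).toMonoidHom
  have hf : ∀ (i : ℕ) (v : Additive P),
      ((Additive.toMul (((f.toZModLinearMap p) ^ i) v) : P) : G) = x ^ i * (Additive.toMul v : P) * (x ^ i)⁻¹ := by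
    intro i
    induction i with
    | zero => intro v; simp
    | succ i ih =>
      intro v
      rw [pow_succ', Module.End.mul_apply]
      show ((MulAut.conjNormal x (Additive.toMul (((f.toZModLinearMap p) ^ i) v)) : P) : G) = _
      rw [MulAut.conjNormal_apply, ih, pow_succ']
      group
  refine ⟨f.toZModLinearMap p, LinearMap.ext fun v => ?_, hf⟩
  apply Additive.toMul.injective
  apply Subtype.ext
  rw [hf, ← hx, pow_orderOf_eq_one]
  simp

theorem exists_zmod_module {p : ℕ} (P : Subgroup G) [IsMulCommutative P] (he : ∀ y ∈ P, y ^ p = 1) :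
    Nonempty (Module (ZMod p) (Additive P)) := by
  refine ⟨AddCommGroup.zmodModule fun v => ?_⟩
  apply Additive.toMul.injective
  rw [toMul_nsmul, toMul_zero]
  exact Subtype.ext (by simpa using he _ (Additive.toMul v).2)

theorem nontrivial_of_orderOf {P : Subgroup G} {y : G} (hy : y ∈ P) (h1 : y ≠ 1) : Nontrivial (Additive P) := by
  refine ⟨⟨Additive.ofMul ⟨y, hy⟩, 0, fun h => h1 ?_⟩⟩
  exact congrArg (fun v : Additive P => ((Additive.toMul v : P) : G)) h

/-- Forward direction, with a characteristic `p`-subgroup. -/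
theorem fwd (p q : ℕ) [hp : Fact p.Prime] [hq : Fact q.Prime] (hpq : p ≠ q) (hpd : p ∣ Nat.card G)
    (hqd : q ∣ Nat.card G)
    (hord : ∀ g : G, g = 1 ∨ orderOf g = p ∨ orderOf g = q)
    (htr : ∀ g h : G, g ≠ 1 → orderOf g = orderOf h → ∃ φ : MulAut G, φ g = h)
    (K : Subgroup G) [hK : K.Characteristic] (hKne : K ≠ ⊥) (hKc : IsMulCommutative K)
    (hKe : ∀ y ∈ K, y ^ p = 1) :
    ∃ (n : ℕ), 1 ≤ n ∧ Nat.card G = p ^ n * q ∧
      (∀ P : Sylow p G, (P : Subgroup G).Normal ∧ Cfsg.IsElementaryAbelian p (P : Subgroup G)) ∧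
      orderOf (p : ZMod q) = q - 1 ∧ ∀ x y : G, orderOf x = q → orderOf y = p → x * y * x⁻¹ ≠ y := by
  classical
  haveI := hKc
  obtain ⟨⟨k₀, hk₀⟩, hk⟩ := K.ne_bot_iff_exists_ne_one.mp hKne
  have hk₀1 : k₀ ≠ 1 := fun e => hk (Subtype.ext e)
  have hk₀p : orderOf k₀ = p := orderOf_eq_prime (hKe k₀ hk₀) hk₀1
  have hKall : ∀ g : G, orderOf g = p → g ∈ K := by
    intro g hg
    obtain ⟨φ, rfl⟩ := htr k₀ g hk₀1 (hk₀p.trans hg.symm)
    exact Subgroup.characteristic_iff_le_comap.mp hK φ hk₀
  have hSyl : ∀ P : Sylow p G, (P : Subgroup G) = K := by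
    intro P
    refine le_antisymm (fun y hy => ?_) ?_
    · rcases hord y with h | h | h
      · exact h ▸ K.one_mem
      · exact hKall y h
      · exfalso
        obtain ⟨i, hi⟩ := P.isPGroup' ⟨y, hy⟩
        have hd : q ∣ p ^ i := h ▸ orderOf_dvd_of_pow_eq_one (by simpa using congrArg Subtype.val hi)
        exact hpq ((Nat.prime_dvd_prime_iff_eq hq.out hp.out).mp (hq.out.dvd_of_dvd_pow hd)).symm
    · exact CfsgLib.Core.sylow_inf_le P (N := K) (fun y => ⟨1, Subtype.ext (by simpa using hKe _ y.2)⟩)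
  have hfpf : ∀ x y : G, orderOf x = q → orderOf y = p → x * y * x⁻¹ ≠ y := by
    intro x y hx hy h
    have hc : Commute x y := mul_inv_eq_iff_eq_mul.mp h
    have ho := hc.orderOf_mul_eq_mul_orderOf_of_coprime
      (by rw [hx, hy]; exact (Nat.coprime_primes hq.out hp.out).mpr hpq.symm)
    rw [hx, hy] at ho
    have h2q := hq.out.two_le
    have h2p := hp.out.two_le
    rcases hord (x * y) with e | e | e
    · rw [e, orderOf_one] at ho; nlinarith
    · rw [e] at ho; nlinarith
    · rw [e] at ho; nlinarith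
  -- Sylow `q` has order `q`
  let Q : Sylow q G := default
  have hQe : ∀ y ∈ (Q : Subgroup G), y ≠ 1 → orderOf y = q := by
    intro y hy hy1
    rcases hord y with h | h | h
    · exact absurd h hy1
    · obtain ⟨i, hi⟩ := Q.isPGroup' ⟨y, hy⟩
      have hd : p ∣ q ^ i := h ▸ orderOf_dvd_of_pow_eq_one (by simpa using congrArg Subtype.val hi)
      exact absurd ((Nat.prime_dvd_prime_iff_eq hp.out hq.out).mp (hp.out.dvd_of_dvd_pow hd)) hpq
    · exact h
  haveI : Nontrivial (Q : Subgroup G) := (Subgroup.nontrivial_iff_ne_bot _).mpr (Q.ne_bot_of_dvd_card hqd)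
  haveI := Q.isPGroup'.center_nontrivial
  obtain ⟨⟨⟨z, hzQ⟩, hzc⟩, hz1'⟩ := exists_ne (1 : Subgroup.center (Q : Subgroup G))
  have hz1 : z ≠ 1 := fun e => hz1' (Subtype.ext (Subtype.ext e))
  have hzq : orderOf z = q := hQe z hzQ hz1
  have hQz : (Q : Subgroup G) = Subgroup.zpowers z := by
    refine le_antisymm (fun y hy => ?_) (Subgroup.zpowers_le.mpr hzQ)
    by_contra hyz
    let E : Subgroup G := Subgroup.closure {z, y}
    have hzy : z * y = y * z := (congrArg Subtype.val (Subgroup.mem_center_iff.mp hzc ⟨y, hy⟩)).symm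
    haveI hEc : IsMulCommutative E := Subgroup.isMulCommutative_closure (by
      intro a ha b hb
      simp only [Set.mem_insert_iff, Set.mem_singleton_iff] at ha hb
      rcases ha with rfl | rfl <;> rcases hb with rfl | rfl <;> first | rfl | exact hzy | exact hzy.symm)
    have hEQ : E ≤ Q := by
      rw [Subgroup.closure_le]
      intro a ha
      simp only [Set.mem_insert_iff, Set.mem_singleton_iff] at ha
      rcases ha with rfl | rfl <;> assumption
    have hKn : E ≤ Subgroup.normalizer (K : Set G) := by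
      rw [Subgroup.normalizer_eq_top_iff.mpr (inferInstance : K.Normal)]; exact le_top
    obtain ⟨i, hi⟩ := IsPGroup.iff_card.mp (Q.isPGroup'.to_le hEQ)
    obtain ⟨j, hj⟩ := IsPGroup.iff_card.mp (show IsPGroup p K from fun y => ⟨1, Subtype.ext (by simpa using hKe _ y.2)⟩)
    have hgen := CoprimeAbelian.iSup_centralizer_eq hEc hKn
      (by rw [hi, hj]; exact Nat.Coprime.pow _ _ ((Nat.coprime_primes hq.out hp.out).mpr hpq.symm))
    refine hKne (le_bot_iff.mp (hgen.ge.trans (iSup₂_le fun B hB => ?_)))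
    obtain ⟨b, hb, hb1⟩ : ∃ b ∈ B, b ≠ 1 := by
      by_contra hB'
      push Not at hB'
      obtain ⟨hBE, a, ha, hBa⟩ := hB
      have hBbot : B = ⊥ := (Subgroup.eq_bot_iff_forall B).mpr hB'
      rw [hBbot, bot_sup_eq] at hBa
      have ha1 : a ≠ 1 := fun e => hz1 (by
        have : z ∈ Subgroup.zpowers a := hBa ▸ Subgroup.subset_closure (Set.mem_insert z _)
        rwa [e, Subgroup.zpowers_one_eq_bot, Subgroup.mem_bot] at this)
      have hle : Subgroup.zpowers z ≤ Subgroup.zpowers a :=
        Subgroup.zpowers_le.mpr (hBa ▸ Subgroup.subset_closure (Set.mem_insert z _))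
      have heq := Subgroup.eq_of_le_of_card_ge hle (by
        rw [Nat.card_zpowers, Nat.card_zpowers, hzq, hQe a (hEQ ha) ha1])
      exact hyz (heq ▸ (hBa ▸ Subgroup.subset_closure (by simp) : y ∈ Subgroup.zpowers a))
    intro k hk
    rw [Subgroup.mem_bot]
    by_contra hk1
    refine hfpf b k (hQe b (hEQ (hB.1 hb)) hb1) (orderOf_eq_prime (hKe k hk.1) hk1) ?_
    rw [Subgroup.mem_centralizer_iff.mp hk.2 b hb, mul_inv_cancel_right]
  have hQc : Nat.card (Q : Subgroup G) = q := by rw [hQz, Nat.card_zpowers, hzq]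
  let P : Sylow p G := default
  have hn : Nat.card (P : Subgroup G) = p ^ (Nat.card G).factorization p := P.card_eq_multiplicity
  have hn1 : 1 ≤ (Nat.card G).factorization p :=
    (hp.out.dvd_iff_one_le_factorization Nat.card_pos.ne').mp hpd
  have hcard : Nat.card G = p ^ (Nat.card G).factorization p * q := by
    have hq' : q = q ^ (Nat.card G).factorization q := hQc.symm.trans Q.card_eq_multiplicity
    refine Nat.eq_of_factorization_eq Nat.card_pos.ne' (mul_ne_zero (pow_ne_zero _ hp.out.ne_zero) hq.out.ne_zero) fun r => ?_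
    rw [Nat.factorization_mul (pow_ne_zero _ hp.out.ne_zero) hq.out.ne_zero, Finsupp.add_apply,
      hp.out.factorization_pow, hq.out.factorization]
    by_cases hrp : r = p
    · subst hrp; simp [hpq.symm]
    by_cases hrq : r = q
    · subst hrq
      have : (Nat.card G).factorization r = 1 :=
        Nat.pow_right_injective hq.out.two_le (show r ^ _ = r ^ 1 by rw [← hq', pow_one])
      simp [hpq, this]
    · simp [Ne.symm hrp, Ne.symm hrq]
      by_contra h
      push Not at h
      obtain ⟨hr, hrd⟩ : r.Prime ∧ r ∣ Nat.card G := ⟨Nat.prime_of_mem_primeFactors (Nat.support_factorization _ ▸ Finsupp.mem_support_iff.mpr (by omega)),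
        Nat.dvd_of_mem_primeFactors (Nat.support_factorization _ ▸ Finsupp.mem_support_iff.mpr (by omega))⟩
      haveI := Fact.mk hr
      obtain ⟨g, hg⟩ := exists_prime_orderOf_dvd_card' r hrd
      rcases hord g with e | e | e
      · rw [e, orderOf_one] at hg; exact hr.one_lt.ne hg
      · exact hrp (hg.symm.trans e)
      · exact hrq (hg.symm.trans e)
  refine ⟨_, hn1, hcard, fun P => by rw [hSyl P]; exact ⟨inferInstance, hKc, fun a ha => hKe a ha⟩, ?_, hfpf⟩
  -- primitive root
  obtain ⟨inst⟩ := exists_zmod_module K hKe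
  letI := inst
  obtain ⟨L, hLq, hL⟩ := exists_conj_linear (p := p) K z hzq
  haveI : Nontrivial (Additive K) := nontrivial_of_orderOf hk₀ hk₀1
  have hKQ : ∀ g : G, ∃ v ∈ K, ∃ i : ℕ, g = v * z ^ i := by
    intro g
    have hcop : (Nat.card K).Coprime (Nat.card (Q : Subgroup G)) := by
      rw [← hSyl P, hn, hQc]; exact ((Nat.coprime_primes hp.out hq.out).mpr hpq).pow_left _
    have hc := Subgroup.isComplement'_of_coprime (by rw [← hSyl P, hn, hQc, ← hcard]) hcop
    obtain ⟨⟨⟨v, hv⟩, ⟨w, hw⟩⟩, rfl⟩ := (hc : Subgroup.IsComplement (K : Set G) (Q : Set G)).2 g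
    obtain ⟨i, rfl⟩ := (mem_zpowers_iff_mem_range_orderOf.mp (hQz ▸ hw : w ∈ Subgroup.zpowers z)) |> Finset.mem_image.mp |>.imp fun a h => h.2.symm
    exact ⟨v, hv, i, rfl⟩
  have haut : ∀ φ : MulAut G, ∃ e : Additive K ≃+ Additive K, (∀ v, ((Additive.toMul (e v) : K) : G) = φ (Additive.toMul v : K)) ∧
      ∀ (w : G) (i : ℕ), w ∈ K → φ z = w * z ^ i → ∀ u, e (L u) = (L ^ i) (e u) := by
    intro φ
    have hφ : ∀ a ∈ K, φ a ∈ K := fun a ha => Subgroup.characteristic_iff_le_comap.mp hK φ ha
    have hφ' : ∀ a ∈ K, φ.symm a ∈ K := fun a ha => Subgroup.characteristic_iff_le_comap.mp hK φ.symm ha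
    let e : Additive K ≃+ Additive K :=
      { toFun := fun v => Additive.ofMul ⟨φ (Additive.toMul v : K), hφ _ (Additive.toMul v).2⟩
        invFun := fun v => Additive.ofMul ⟨φ.symm (Additive.toMul v : K), hφ' _ (Additive.toMul v).2⟩
        left_inv := fun v => Additive.toMul.injective (Subtype.ext (φ.symm_apply_apply _))
        right_inv := fun v => Additive.toMul.injective (Subtype.ext (φ.apply_symm_apply _))
        map_add' := fun a b => Additive.toMul.injective (Subtype.ext (map_mul φ _ _)) }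
    refine ⟨e, fun v => rfl, fun w i hw hφz u => ?_⟩
    apply Additive.toMul.injective
    apply Subtype.ext
    rw [hL]
    show φ (Additive.toMul (L u) : K) = z ^ i * φ (Additive.toMul u : K) * (z ^ i)⁻¹
    rw [show ((Additive.toMul (L u) : K) : G) = z * (Additive.toMul u : K) * z⁻¹ from by simpa using hL 1 u,
      map_mul, map_mul, map_inv, hφz]
    have hc : w * (z ^ i * φ (Additive.toMul u : K) * (z ^ i)⁻¹) = (z ^ i * φ (Additive.toMul u : K) * (z ^ i)⁻¹) * w :=
      congrArg Subtype.val (hKc.is_comm.comm ⟨w, hw⟩ ⟨_, (inferInstance : K.Normal).conj_mem _ (hφ _ (Additive.toMul u).2) (z ^ i)⟩)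
    calc w * z ^ i * φ (Additive.toMul u : K) * (w * z ^ i)⁻¹
        = w * (z ^ i * φ (Additive.toMul u : K) * (z ^ i)⁻¹) * w⁻¹ := by group
      _ = _ := by rw [hc, mul_inv_cancel_right]
  refine orderOf_eq_of_twist L hLq ?_ ?_ ?_ hpq
  · intro h
    refine hfpf z k₀ hzq hk₀p ?_
    have := hL 1 (Additive.ofMul ⟨k₀, hk₀⟩)
    rw [h] at this
    simpa using this.symm
  · intro v w hv hw
    have hone : ∀ u : Additive K, u ≠ 0 → ((Additive.toMul u : K) : G) ≠ 1 :=
      fun u hu e => hu (Additive.toMul.injective (Subtype.ext e))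
    obtain ⟨φ, hφ⟩ := htr _ ((Additive.toMul w : K) : G) (hone v hv)
      ((orderOf_eq_prime (hKe _ (Additive.toMul v).2) (hone v hv)).trans
        (orderOf_eq_prime (hKe _ (Additive.toMul w).2) (hone w hw)).symm)
    obtain ⟨e, he, het⟩ := haut φ
    obtain ⟨a, ha, i, hi⟩ := hKQ (φ z)
    exact ⟨e, i, Additive.toMul.injective (Subtype.ext ((he v).trans hφ)), het a i ha hi⟩
  · intro k
    obtain ⟨φ, hφ⟩ := htr z (z ^ (k : ZMod q).val) hz1 (by
      rw [Nat.Coprime.orderOf_pow]
      rw [hzq]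
      exact (ZMod.val_coe_unit_coprime k).symm)
    obtain ⟨e, -, het⟩ := haut φ
    exact ⟨e, het 1 _ K.one_mem (by rw [hφ, one_mul])⟩

theorem exists_aut {p q : ℕ} [Fact p.Prime] [Fact q.Prime] (P : Subgroup G) [hP : P.Normal] (x : G)
    (hx : orderOf x = q) (hcop : (Nat.card P).Coprime q) (hcard : Nat.card G = Nat.card P * q)
    (k : (ZMod q)ˣ) (β : P ≃* P)
    (hβ : ∀ (y : P), (β (MulAut.conjNormal x y) : G) = x ^ (k : ZMod q).val * β y * (x ^ (k : ZMod q).val)⁻¹) :
    ∃ φ : MulAut G, φ x = x ^ (k : ZMod q).val ∧ ∀ y : P, φ y = β y := by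
  classical
  let T : P × ZMod q → G := fun a => a.1 * x ^ a.2.val
  have hxpow : ∀ i j : ℕ, (i : ZMod q) = j → x ^ i = x ^ j := fun i j h =>
    pow_eq_pow_iff_modEq.mpr (hx ▸ (ZMod.natCast_eq_natCast_iff _ _ _).mp h)
  have hT : Function.Bijective T := by
    have hinj : Function.Injective T := by
      rintro ⟨y, i⟩ ⟨z, j⟩ h
      have h' : (y : G) * x ^ i.val = z * x ^ j.val := h
      have hm : x ^ j.val * (x ^ i.val)⁻¹ ∈ P ⊓ Subgroup.zpowers x := by
        refine ⟨?_, Subgroup.mul_mem _ (Subgroup.pow_mem _ (Subgroup.mem_zpowers x) _)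
          (Subgroup.inv_mem _ (Subgroup.pow_mem _ (Subgroup.mem_zpowers x) _))⟩
        rw [show x ^ j.val * (x ^ i.val)⁻¹ = (z : G)⁻¹ * y by
          rw [mul_inv_eq_iff_eq_mul, mul_assoc, h', inv_mul_cancel_left]]
        exact Subgroup.mul_mem _ (Subgroup.inv_mem _ z.2) y.2
      rw [Coprime.inf_eq_bot_of_coprime (by rwa [Nat.card_zpowers, hx]), Subgroup.mem_bot, mul_inv_eq_one,
        pow_eq_pow_iff_modEq, hx, ← ZMod.natCast_eq_natCast_iff, ZMod.natCast_zmod_val, ZMod.natCast_zmod_val] at hm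
      subst hm
      rw [Prod.mk.injEq]
      exact ⟨Subtype.ext (mul_right_cancel h'), rfl⟩
    haveI : Finite (ZMod q) := inferInstance
    exact (Nat.bijective_iff_injective_and_card T).mpr ⟨hinj, by rw [Nat.card_prod, Nat.card_zmod, hcard]⟩
  let E := Equiv.ofBijective T hT
  let f₀ : P × ZMod q → G := fun a => (β a.1 : G) * x ^ ((k : ZMod q) * a.2).val
  have hconj : ∀ (n : ℕ) (y : P), (β (MulAut.conjNormal (x ^ n) y) : G) =
      (x ^ (k : ZMod q).val) ^ n * β y * ((x ^ (k : ZMod q).val) ^ n)⁻¹ := by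
    intro n
    induction n with
    | zero => intro y; simp
    | succ n ih =>
      intro y
      rw [pow_succ', map_mul, MulAut.mul_apply, hβ, ih, pow_succ']
      group
  have hmul : ∀ a b : P × ZMod q, ∃ c : P × ZMod q, T a * T b = T c ∧ f₀ a * f₀ b = f₀ c := by
    rintro ⟨y, i⟩ ⟨z, j⟩
    refine ⟨(y * MulAut.conjNormal (x ^ i.val) z, i + j), ?_, ?_⟩
    · show (y : G) * x ^ i.val * (z * x ^ j.val) = ((y * MulAut.conjNormal (x ^ i.val) z : P) : G) * x ^ (i + j).val
      rw [Subgroup.coe_mul, MulAut.conjNormal_apply, hxpow (i + j).val (i.val + j.val) (by simp), pow_add]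
      group
    · show (β y : G) * x ^ ((k : ZMod q) * i).val * (β z * x ^ ((k : ZMod q) * j).val) =
        ((β (y * MulAut.conjNormal (x ^ i.val) z) : P) : G) * x ^ ((k : ZMod q) * (i + j)).val
      rw [map_mul, Subgroup.coe_mul, hconj, ← pow_mul,
        hxpow ((k : ZMod q) * (i + j)).val (((k : ZMod q) * i).val + ((k : ZMod q) * j).val) (by simp [mul_add]),
        pow_add, hxpow ((k : ZMod q).val * i.val) (((k : ZMod q) * i).val) (by simp)]
      group
  let φ₀ : G →* G := MonoidHom.mk' (fun g => f₀ (E.symm g)) fun g h => by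
    obtain ⟨c, hc, hc'⟩ := hmul (E.symm g) (E.symm h)
    have e1 : T (E.symm g) = g := E.apply_symm_apply g
    have e2 : T (E.symm h) = h := E.apply_symm_apply h
    rw [e1, e2] at hc
    show f₀ (E.symm (g * h)) = f₀ (E.symm g) * f₀ (E.symm h)
    rw [hc', hc]
    exact congrArg f₀ (E.symm_apply_apply c)
  have hval : ∀ a, φ₀ (T a) = f₀ a := fun a => congrArg f₀ (E.symm_apply_apply a)
  have hsurj : Function.Surjective φ₀ := by
    intro g
    obtain ⟨⟨y, i⟩, rfl⟩ := hT.2 g
    refine ⟨T (β.symm y, ((k⁻¹ : (ZMod q)ˣ) : ZMod q) * i), ?_⟩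
    rw [hval]
    show (β (β.symm y) : G) * x ^ ((k : ZMod q) * (((k⁻¹ : (ZMod q)ˣ) : ZMod q) * i)).val = y * x ^ i.val
    rw [Units.mul_inv_cancel_left, MulEquiv.apply_symm_apply]
  refine ⟨MulEquiv.ofBijective φ₀ (Finite.surjective_iff_bijective.mp hsurj), ?_, fun y => ?_⟩
  · show φ₀ x = _
    rw [show x = T (1, 1) by simp [T, ZMod.val_one], hval]
    simp [f₀, T, ZMod.val_one]
  · show φ₀ y = _
    rw [show (y : G) = T (y, 0) by simp [T], hval]
    simp [f₀]

theorem bwd (p q n : ℕ) [hp : Fact p.Prime] [hq : Fact q.Prime] (hpq : p ≠ q) (hn : 1 ≤ n)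
    (hcard : Nat.card G = p ^ n * q)
    (hP : ∀ P : Sylow p G, (P : Subgroup G).Normal ∧ Cfsg.IsElementaryAbelian p (P : Subgroup G))
    (hord : orderOf (p : ZMod q) = q - 1)
    (hfpf : ∀ x y : G, orderOf x = q → orderOf y = p → x * y * x⁻¹ ≠ y) :
    Nat.card (MulAction.orbitRel.Quotient (MulAut G) G) = 3 := by
  classical
  let S : Sylow p G := default
  let P : Subgroup G := S
  haveI : P.Normal := (hP S).1
  haveI : IsMulCommutative P := (hP S).2.1
  have hPe : ∀ y ∈ P, y ^ p = 1 := (hP S).2.2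
  have hfac : (Nat.card G).factorization p = n := by
    rw [hcard, Nat.factorization_mul (pow_ne_zero _ hp.out.ne_zero) hq.out.ne_zero]
    simp [hp.out.factorization_pow, hq.out.factorization, hpq.symm]
  have hPc : Nat.card P = p ^ n := hfac ▸ S.card_eq_multiplicity
  have hcop : (Nat.card P).Coprime q := hPc ▸ ((Nat.coprime_primes hp.out hq.out).mpr hpq).pow_left n
  have hcard' : Nat.card G = Nat.card P * q := hPc ▸ hcard
  obtain ⟨x, hx⟩ := exists_prime_orderOf_dvd_card' (G := G) q (hcard ▸ dvd_mul_left q _)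
  haveI : Nontrivial P := by
    rw [← Finite.one_lt_card_iff_nontrivial, hPc]; exact Nat.one_lt_pow (by omega) hp.out.one_lt
  obtain ⟨⟨y₀, hy₀⟩, hy₀1⟩ := exists_ne (1 : P)
  have hy₀p : orderOf y₀ = p := orderOf_eq_prime (hPe _ hy₀) fun e => hy₀1 (Subtype.ext e)
  have hquot : Nat.card (G ⧸ P) = q := by
    have h := Subgroup.card_eq_card_quotient_mul_card_subgroup P
    rw [hcard', mul_comm] at h
    exact (Nat.eq_of_mul_eq_mul_right Nat.card_pos h).symm
  have houts : ∀ g : G, g ∉ P → orderOf g = q := by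
    intro g hg
    have hgq : g ^ q ∈ P := by
      rw [← QuotientGroup.eq_one_iff, QuotientGroup.mk_pow]
      exact orderOf_dvd_iff_pow_eq_one.mp (hquot ▸ orderOf_dvd_natCard _)
    have hgpq : (g ^ p) ^ q = 1 := by rw [← pow_mul, mul_comm, pow_mul, hPe _ hgq]
    have hgp1 : g ^ p ≠ 1 := by
      intro e
      apply hg
      rw [← QuotientGroup.eq_one_iff]
      have h1 : orderOf (g : G ⧸ P) ∣ p := orderOf_dvd_of_pow_eq_one (by rw [← QuotientGroup.mk_pow, e]; rfl)
      have h2 : orderOf (g : G ⧸ P) ∣ q := hquot ▸ orderOf_dvd_natCard _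
      exact orderOf_eq_one_iff.mp (Nat.eq_one_of_dvd_coprimes ((Nat.coprime_primes hp.out hq.out).mpr hpq) h1 h2)
    refine orderOf_eq_prime ?_ fun e => hg (e ▸ P.one_mem)
    by_contra hne
    refine hfpf (g ^ p) (g ^ q) (orderOf_eq_prime hgpq hgp1) (orderOf_eq_prime (hPe _ hgq) hne) ?_
    rw [← pow_add, add_comm, pow_add, mul_inv_cancel_right]
  -- transitivity
  obtain ⟨inst⟩ := exists_zmod_module P hPe
  letI := inst
  obtain ⟨L, hLq, hL⟩ := exists_conj_linear (p := p) P x hx
  have hLfpf : ∀ v, L v = v → v = 0 := by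
    intro v hv
    by_contra h0
    have h1 : ((Additive.toMul v : P) : G) ≠ 1 := fun e => h0 (Additive.toMul.injective (Subtype.ext e))
    refine hfpf x _ hx (orderOf_eq_prime (hPe _ (Additive.toMul v).2) h1) ?_
    have := hL 1 v
    rw [pow_one, hv, pow_one] at this
    exact this.symm
  have haut : ∀ (k : (ZMod q)ˣ) (v w : P), v ≠ 1 → w ≠ 1 →
      ∃ φ : MulAut G, φ x = x ^ (k : ZMod q).val ∧ φ (v : G) = w := by
    intro k v w hv hw
    obtain ⟨β, hβv, hβ⟩ := exists_semilinear L hLq hLfpf hord k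
      (v := Additive.ofMul v) (w := Additive.ofMul w) hv hw
    obtain ⟨φ, hφx, hφ⟩ := exists_aut (p := p) P x hx hcop hcard' k (MulEquiv.toAdditive.symm β) (by
      intro y
      show ((Additive.toMul (β (Additive.ofMul (MulAut.conjNormal x y))) : P) : G) = _
      have e : Additive.ofMul (MulAut.conjNormal x y) = L (Additive.ofMul y) :=
        Additive.toMul.injective (Subtype.ext (by
          have := hL 1 (Additive.ofMul y)
          rw [pow_one, pow_one] at this
          rw [this]; simp))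
      rw [e, hβ, hL]
      rfl)
    refine ⟨φ, hφx, (hφ v).trans ?_⟩
    exact congrArg (fun u : Additive P => ((Additive.toMul u : P) : G)) hβv
  have hcases : ∀ g : G, g = 1 ∨ (∃ φ : MulAut G, φ y₀ = g) ∨ ∃ φ : MulAut G, φ x = g := by
    intro g
    by_cases hg1 : g = 1
    · exact Or.inl hg1
    by_cases hgP : g ∈ P
    · obtain ⟨φ, -, hφ⟩ := haut 1 ⟨y₀, hy₀⟩ ⟨g, hgP⟩ hy₀1 fun e => hg1 (congrArg Subtype.val e)
      exact Or.inr (Or.inl ⟨φ, hφ⟩)
    · right; right
      have hg := houts g hgP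
      have hS : ∀ a : G, orderOf a = q → Nat.card (Subgroup.zpowers a) = q ^ (Nat.card G).factorization q := by
        intro a ha
        rw [Nat.card_zpowers, ha, hcard, Nat.factorization_mul (pow_ne_zero _ hp.out.ne_zero) hq.out.ne_zero]
        simp [hp.out.factorization_pow, hq.out.factorization, hpq]
      obtain ⟨a, ha⟩ := MulAction.exists_smul_eq G (Sylow.ofCard _ (hS x hx)) (Sylow.ofCard _ (hS g hg))
      have hmem : g ∈ (Subgroup.zpowers x).map (MulAut.conj a).toMonoidHom := by
        have h := congrArg Sylow.toSubgroup ha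
        rw [Sylow.coe_subgroup_smul] at h
        have h2 : g ∈ Subgroup.zpowers g := Subgroup.mem_zpowers g
        rw [show Subgroup.zpowers g = ((Sylow.ofCard _ (hS g hg) : Sylow q G) : Subgroup G) from rfl, ← h] at h2
        exact h2
      obtain ⟨b, hb, rfl⟩ := hmem
      obtain ⟨i, rfl⟩ := (mem_zpowers_iff_mem_range_orderOf.mp hb) |> Finset.mem_image.mp |>.imp fun a h => h.2.symm
      have hi : (i : ZMod q) ≠ 0 := by
        intro e
        rw [ZMod.natCast_eq_zero_iff, ← hx, orderOf_dvd_iff_pow_eq_one] at e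
        apply hg1
        show a * x ^ i * a⁻¹ = 1
        rw [e]; group
      obtain ⟨φ, hφ, -⟩ := haut (Units.mk0 _ hi) ⟨y₀, hy₀⟩ ⟨y₀, hy₀⟩ hy₀1 hy₀1
      refine ⟨MulAut.conj a * φ, ?_⟩
      show MulAut.conj a (φ x) = a * x ^ i * a⁻¹
      rw [hφ, Units.val_mk0, ← pow_eq_pow_iff_modEq.mpr (show i ≡ (i : ZMod q).val [MOD orderOf x] by
        rw [hx, ← ZMod.natCast_eq_natCast_iff, ZMod.natCast_zmod_val])]
      rfl
  let Φ : Fin 3 → MulAction.orbitRel.Quotient (MulAut G) G :=
    ![Quotient.mk'' 1, Quotient.mk'' y₀, Quotient.mk'' x]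
  have hΦ : Function.Bijective Φ := by
    refine ⟨fun i j h => ?_, fun c => ?_⟩
    · have ho : ∀ i : Fin 3, ![1, y₀, x] i = ![1, y₀, x] i := fun _ => rfl
      have key : ∀ a b : G, (Quotient.mk'' a : MulAction.orbitRel.Quotient (MulAut G) G) = Quotient.mk'' b →
          orderOf a = orderOf b := by
        intro a b h
        obtain ⟨φ, rfl⟩ := elem_rel.mp h
        exact φ.orderOf_eq b
      have h2p := hp.out.two_le
      have h2q := hq.out.two_le
      fin_cases i <;> fin_cases j <;> simp only [Φ] at h <;>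
        first
          | rfl
          | (have := key _ _ h; rw [orderOf_one] at this; omega)
          | (have := key _ _ h; omega)
    · induction c using Quotient.inductionOn' with
      | h g =>
        rcases hcases g with rfl | ⟨φ, rfl⟩ | ⟨φ, rfl⟩
        · exact ⟨0, rfl⟩
        · exact ⟨1, elem_rel.mpr ⟨φ⁻¹, φ.symm_apply_apply y₀⟩⟩
        · exact ⟨2, elem_rel.mpr ⟨φ⁻¹, φ.symm_apply_apply x⟩⟩
  rw [← Nat.card_congr (Equiv.ofBijective Φ hΦ), Nat.card_fin]

end Group

/-- Let G be a finite group whose order is not a prime power. Then the automorphism group of G has exactly three orbits on G if and only if there are distinct primes p, q with #G = pⁿ·q (n ≥ 1) such that G has a normal elementary abelian Sylow p-subgroup P, p is a primitive root modulo q (the multiplicative order of p mod q is q − 1), and every element of order q of G acts on P without non-identity fixed points. -/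
theorem result {G : Type*} [Group G] [Finite G] (hnpp : ¬ IsPrimePow (Nat.card G)) (hnt : Nat.card G ≠ 1) :
    Nat.card (MulAction.orbitRel.Quotient (MulAut G) G) = 3 ↔
    ∃ (p q n : ℕ) (_ : Fact p.Prime) (_ : Fact q.Prime), p ≠ q ∧ 1 ≤ n ∧ Nat.card G = p ^ n * q ∧
      (∀ P : Sylow p G, (P : Subgroup G).Normal ∧ Cfsg.IsElementaryAbelian p (P : Subgroup G)) ∧
      orderOf (p : ZMod q) = q - 1 ∧
      ∀ x y : G, orderOf x = q → orderOf y = p → x * y * x⁻¹ ≠ y := by
  constructor
  · intro h3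
    classical
    -- two primes
    have hne1 : (Nat.card G).primeFactors.Nonempty := by
      rw [Nat.nonempty_primeFactors]
      have := Nat.card_pos (α := G)
      omega
    obtain ⟨p, hp⟩ := hne1
    obtain ⟨q, hq, hqp⟩ : ∃ q ∈ (Nat.card G).primeFactors, q ≠ p := by
      by_contra h
      push Not at h
      exact hnpp ((isPrimePow_iff_card_primeFactors_eq_one).mpr (Finset.card_eq_one.mpr ⟨p, Finset.eq_singleton_iff_unique_mem.mpr ⟨hp, h⟩⟩))
    haveI := Fact.mk (Nat.prime_of_mem_primeFactors hp)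
    haveI := Fact.mk (Nat.prime_of_mem_primeFactors hq)
    have hpd := Nat.dvd_of_mem_primeFactors hp
    have hqd := Nat.dvd_of_mem_primeFactors hq
    obtain ⟨a, ha⟩ := exists_prime_orderOf_dvd_card' p hpd
    obtain ⟨b, hb⟩ := exists_prime_orderOf_dvd_card' q hqd
    let Φ : Fin 3 → MulAction.orbitRel.Quotient (MulAut G) G :=
      ![Quotient.mk'' 1, Quotient.mk'' a, Quotient.mk'' b]
    have key : ∀ u v : G, (Quotient.mk'' u : MulAction.orbitRel.Quotient (MulAut G) G) = Quotient.mk'' v →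
        orderOf u = orderOf v := by
      intro u v h
      obtain ⟨φ, rfl⟩ := elem_rel.mp h
      exact φ.orderOf_eq v
    have h2p := (Fact.out : p.Prime).two_le
    have h2q := (Fact.out : q.Prime).two_le
    have hinj : Function.Injective Φ := by
      intro i j h
      fin_cases i <;> fin_cases j <;> simp only [Φ] at h <;>
        first
          | rfl
          | (have := key _ _ h; rw [orderOf_one] at this; omega)
          | (have := key _ _ h; omega)
    have hbij : Function.Bijective Φ :=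
      (Nat.bijective_iff_injective_and_card Φ).mpr ⟨hinj, by rw [Nat.card_fin, h3]⟩
    have hcases : ∀ g : G, g = 1 ∨ (∃ φ : MulAut G, φ g = a) ∨ ∃ φ : MulAut G, φ g = b := by
      intro g
      obtain ⟨i, hi⟩ := hbij.2 (Quotient.mk'' g)
      fin_cases i
      · left
        have := key _ _ hi
        rw [orderOf_one] at this
        exact orderOf_eq_one_iff.mp this.symm
      · exact Or.inr (Or.inl (elem_rel.mp hi))
      · exact Or.inr (Or.inr (elem_rel.mp hi))
    have hord : ∀ g : G, g = 1 ∨ orderOf g = p ∨ orderOf g = q := by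
      intro g
      rcases hcases g with h | ⟨φ, hφ⟩ | ⟨φ, hφ⟩
      · exact Or.inl h
      · exact Or.inr (Or.inl (by rw [← φ.orderOf_eq g, hφ, ha]))
      · exact Or.inr (Or.inr (by rw [← φ.orderOf_eq g, hφ, hb]))
    have htr : ∀ g h : G, g ≠ 1 → orderOf g = orderOf h → ∃ φ : MulAut G, φ g = h := by
      intro g h hg ho
      have hh : h ≠ 1 := by rintro rfl; rw [orderOf_one, orderOf_eq_one_iff] at ho; exact hg ho
      rcases hcases g with e | ⟨φ, hφ⟩ | ⟨φ, hφ⟩
      · exact absurd e hg
      all_goals rcases hcases h with e | ⟨ψ, hψ⟩ | ⟨ψ, hψ⟩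
      all_goals first
        | exact absurd e hh
        | exact ⟨ψ⁻¹ * φ, by show ψ.symm (φ g) = h; rw [hφ, ← hψ, ψ.symm_apply_apply]⟩
        | (exfalso; rw [← φ.orderOf_eq g, hφ, ← ψ.orderOf_eq h, hψ, ha, hb] at ho; omega)
    have hsup : (Nat.card G).primeFactors ⊆ {p, q} := by
      intro r hr
      haveI := Fact.mk (Nat.prime_of_mem_primeFactors hr)
      obtain ⟨g, hg⟩ := exists_prime_orderOf_dvd_card' r (Nat.dvd_of_mem_primeFactors hr)
      rcases hord g with e | e | e
      · rw [e, orderOf_one] at hg; exact absurd hg (Fact.out : r.Prime).one_lt.ne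
      · simp [← hg, e]
      · simp [← hg, e]
    haveI : Group.IsSolvable G := by
      refine Cfsg.Agent.S0144.result p q ((Nat.card G).factorization p) ((Nat.card G).factorization q) Fact.out Fact.out ?_
      conv_lhs => rw [← Nat.prod_factorization_pow_eq_self (Nat.card_pos.ne' : Nat.card G ≠ 0)]
      rw [Nat.prod_factorization_eq_prod_primeFactors,
        Finset.prod_subset hsup (fun r _ hr => by
          rw [Finsupp.notMem_support_iff.mp (by rwa [Nat.support_factorization]), pow_zero]),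
        Finset.prod_pair hqp.symm]
    haveI : Nontrivial G := Finite.one_lt_card_iff_nontrivial.mp (by have := Nat.card_pos (α := G); omega)
    obtain ⟨r, K, hr, hK, hKne, hKc, hKe, -⟩ := CfsgLib.GroupB.Hall.exists_characteristic_abelian G
    haveI := hK
    have hr' : r = p ∨ r = q := by
      obtain ⟨u, hu⟩ := K.ne_bot_iff_exists_ne_one.mp hKne
      have hu' : orderOf (u : G) = r :=
        haveI := Fact.mk hr
        orderOf_eq_prime (hKe _ u.2) fun e => hu (Subtype.ext e)
      rcases hord (u : G) with e | e | e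
      · exact absurd (Subtype.ext e) hu
      · exact Or.inl (hu'.symm.trans e)
      · exact Or.inr (hu'.symm.trans e)
    rcases hr' with rfl | rfl
    · obtain ⟨n, hn⟩ := fwd r q hqp.symm hpd hqd hord htr K hKne hKc hKe
      exact ⟨r, q, n, inferInstance, inferInstance, hqp.symm, hn⟩
    · obtain ⟨n, hn⟩ := fwd r p hqp hqd hpd (fun g => (hord g).imp id Or.symm) htr K hKne hKc hKe
      exact ⟨r, p, n, inferInstance, inferInstance, hqp, hn⟩
  · rintro ⟨p, q, n, _, _, hpq, hn, hcard, hP, ho, hf⟩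
    exact bwd p q n hpq hn hcard hP ho hf

end Cfsg.Agent.S4081
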