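import Cfsg.Statements.S4084
import Mathlib

set_option autoImplicit false
open Cfsg

namespace Cfsg.Agent.S4084
theorem aux {A B : Type*} [Group A] [Finite A] [Group B] [Finite B] (f : A ≃ B)
    (hf : ∀ x y : A, Commute x y ↔ Commute (f x) (f y)) {p q : ℕ} (hp : p.Prime) (hq : q.Prime) (hpq : p ≠ q)
    (hg : ∃ g : A, orderOf g = p * q) : ∃ h : B, orderOf h = p * q := by
  classical
  obtain ⟨g, hg⟩ := hg
  have hpair : ∀ S : Set A, (∀ a ∈ S, ∀ b ∈ S, a * b = b * a) → ∀ a ∈ Subgroup.closure S, ∀ b ∈ Subgroup.closure S, Commute a b := by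
    intro S hS a ha b hb
    have h1 : Subgroup.closure S ≤ Subgroup.centralizer S :=
      (Subgroup.closure_le _).mpr fun x hx y hy => hS y hy x hx
    have h2 : Subgroup.closure S ≤ Subgroup.centralizer (Subgroup.centralizer S : Set A) :=
      (Subgroup.closure_le _).mpr fun x hx y hy => (hy x hx).symm
    exact (h2 hb a (h1 ha))
  obtain ⟨C, hgC, hC, hmax⟩ := Finite.exists_le_maximal (p := fun C : Subgroup A => ∀ a ∈ C, ∀ b ∈ C, Commute a b)
    (a := Subgroup.zpowers g) (fun a ha b hb => by
      obtain ⟨i, rfl⟩ := Subgroup.mem_zpowers_iff.mp ha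
      obtain ⟨j, rfl⟩ := Subgroup.mem_zpowers_iff.mp hb
      exact Commute.zpow_zpow_self g i j)
  have hself : ∀ x, (∀ c ∈ C, Commute x c) → x ∈ C := by
    intro x hx
    refine hmax (y := Subgroup.closure ((C : Set A) ∪ {x})) (hpair _ ?_) ?_ ?_
    · rintro a (ha | ha) b (hb | hb)
      · exact hC a ha b hb
      · rw [Set.mem_singleton_iff.mp hb]; exact (hx a ha).symm
      · rw [Set.mem_singleton_iff.mp ha]; exact hx b hb
      · rw [Set.mem_singleton_iff.mp ha, Set.mem_singleton_iff.mp hb]
    · exact fun c hc => Subgroup.subset_closure (Or.inl hc)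
    · exact Subgroup.subset_closure (Or.inr rfl)
  set D := Subgroup.centralizer (f '' (C : Set A)) with hD
  have hDC : ∀ d : B, d ∈ D ↔ f.symm d ∈ C := by
    intro d
    constructor
    · intro hd
      refine hself _ fun c hc => ((hf _ _).mpr ?_)
      rw [f.apply_symm_apply]
      exact (hd (f c) ⟨c, hc, rfl⟩).symm
    · rintro hd _ ⟨c, hc, rfl⟩
      have := (hf _ _).mp (hC c hc _ hd)
      rwa [f.apply_symm_apply] at this
  have hcard : Nat.card D = Nat.card C := Nat.card_congr
    { toFun := fun d => ⟨f.symm d, (hDC d).mp d.2⟩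
      invFun := fun c => ⟨f c, (hDC _).mpr (by rw [f.symm_apply_apply]; exact c.2)⟩
      left_inv := fun d => Subtype.ext (f.apply_symm_apply d)
      right_inv := fun c => Subtype.ext (f.symm_apply_apply c) }
  have hdvd : p * q ∣ Nat.card D := by
    rw [hcard, ← hg, show orderOf g = orderOf (⟨g, hgC (Subgroup.mem_zpowers g)⟩ : C) from (Subgroup.orderOf_mk _ _).symm]
    exact orderOf_dvd_natCard _
  haveI := Fact.mk hp
  haveI := Fact.mk hq
  obtain ⟨a, ha⟩ := exists_prime_orderOf_dvd_card' p (dvd_trans (dvd_mul_right p q) hdvd)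
  obtain ⟨b, hb⟩ := exists_prime_orderOf_dvd_card' q (dvd_trans (dvd_mul_left q p) hdvd)
  have hab : Commute a b := Subtype.ext (by
    have := (hf _ _).mp (hC _ ((hDC a).mp a.2) _ ((hDC b).mp b.2))
    rwa [f.apply_symm_apply, f.apply_symm_apply] at this)
  exact ⟨((a * b : D) : B), by
    rw [Subgroup.orderOf_coe, hab.orderOf_mul_eq_mul_orderOf_of_coprime (by rw [ha, hb]; exact (Nat.coprime_primes hp hq).mpr hpq), ha, hb]⟩

/-- Let G and H be finite groups whose commuting graphs are isomorphic: there is a bijection e : G → H with x, y commuting exactly when e(x), e(y) commute. Then G and H have the same prime graph: for distinct primes p, q, G has an element of order pq if and only if H does (and #G = #H, so the prime divisors agree). -/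
theorem result {G H : Type*} [Group G] [Finite G] [Group H] [Finite H] (e : G ≃ H)
    (he : ∀ x y : G, Commute x y ↔ Commute (e x) (e y))
    {p q : ℕ} (hp : p.Prime) (hq : q.Prime) (hpq : p ≠ q) :
    (∃ g : G, orderOf g = p * q) ↔ (∃ h : H, orderOf h = p * q) := by
  exact ⟨fun h => aux e he hp hq hpq h, fun h => aux e.symm
    (fun x y => by rw [he (e.symm x) (e.symm y), e.apply_symm_apply, e.apply_symm_apply]) hp hq hpq h⟩

end Cfsg.Agent.S4084
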