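import Cfsg.Statements.S4086
import Mathlib.GroupTheory.SpecificGroups.Cyclic
import Mathlib.Algebra.IsPrimePow

set_option autoImplicit false
open Cfsg

namespace Cfsg.Agent.S4086

theorem mem_of_dvd {G : Type*} [Group G] [Finite G] {c x y : G} (hx : x ∈ Subgroup.zpowers c)
    (hy : y ∈ Subgroup.zpowers c) (h : orderOf x ∣ orderOf y) : x ∈ Subgroup.zpowers y := by
  classical
  obtain ⟨x', rfl⟩ : ∃ x' : Subgroup.zpowers c, (x' : G) = x := ⟨⟨x, hx⟩, rfl⟩
  obtain ⟨y', rfl⟩ : ∃ y' : Subgroup.zpowers c, (y' : G) = y := ⟨⟨y, hy⟩, rfl⟩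
  rw [Subgroup.orderOf_coe, Subgroup.orderOf_coe] at h
  haveI : Fintype (Subgroup.zpowers c) := Fintype.ofFinite _
  have hmem : x' ∈ Subgroup.zpowers y' := by
    by_contra hnot
    have hsub : insert x' ((Finset.univ : Finset (Subgroup.zpowers c)).filter (· ∈ Subgroup.zpowers y')) ⊆
        (Finset.univ : Finset (Subgroup.zpowers c)).filter (fun z => z ^ orderOf y' = 1) := by
      intro z hz
      rw [Finset.mem_filter]
      refine ⟨Finset.mem_univ z, ?_⟩
      rw [Finset.mem_insert, Finset.mem_filter] at hz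
      rcases hz with rfl | ⟨-, hz⟩
      · exact orderOf_dvd_iff_pow_eq_one.mp h
      · exact orderOf_dvd_iff_pow_eq_one.mp (orderOf_dvd_of_mem_zpowers hz)
    have h1 := (Finset.card_le_card hsub).trans (IsCyclic.card_pow_eq_one_le (orderOf_pos y'))
    rw [Finset.card_insert_of_notMem (by simpa using hnot), ← Fintype.card_subtype, Fintype.card_eq_nat_card,
      show Nat.card {g // g ∈ Subgroup.zpowers y'} = orderOf y' from Nat.card_zpowers y'] at h1
    omega
  obtain ⟨i, hi⟩ := Subgroup.mem_zpowers_iff.mp hmem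
  exact Subgroup.mem_zpowers_iff.mpr ⟨i, congrArg Subtype.val hi⟩

/-- For a finite group G the following are equivalent: every non-identity element has prime-power order; whenever two elements generate a cyclic subgroup, one of them is a power of the other (the enhanced power graph of G coincides with its power graph). -/
theorem result {G : Type*} [Group G] [Finite G] :
    (∀ g : G, g ≠ 1 → IsPrimePow (orderOf g)) ↔
    (∀ x y : G, IsCyclic ↥(Subgroup.closure ({x, y} : Set G)) → (x ∈ Subgroup.zpowers y ∨ y ∈ Subgroup.zpowers x)) := by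
  classical
  constructor
  · intro h x y hc
    haveI := hc
    obtain ⟨c, hgen⟩ := IsCyclic.exists_generator (α := ↥(Subgroup.closure ({x, y} : Set G)))
    by_cases hc1 : (c : G) = 1
    · obtain ⟨i, hi⟩ := Subgroup.mem_zpowers_iff.mp (hgen ⟨x, Subgroup.subset_closure (Set.mem_insert _ _)⟩)
      left
      have : x = 1 := by
        have := congrArg Subtype.val hi
        simpa [hc1] using this.symm
      exact this ▸ Subgroup.one_mem _
    obtain ⟨p, k, hp, -, hpk⟩ := (h c hc1)
    have hp' : p.Prime := hp.nat_prime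
    obtain ⟨i, hi⟩ := Subgroup.mem_zpowers_iff.mp (hgen ⟨x, Subgroup.subset_closure (Set.mem_insert _ _)⟩)
    obtain ⟨j, hj⟩ := Subgroup.mem_zpowers_iff.mp (hgen ⟨y, Subgroup.subset_closure (Set.mem_insert_of_mem _ rfl)⟩)
    have hxc : x ∈ Subgroup.zpowers (c : G) := ⟨i, congrArg Subtype.val hi⟩
    have hyc : y ∈ Subgroup.zpowers (c : G) := ⟨j, congrArg Subtype.val hj⟩
    obtain ⟨a, -, ha⟩ := (Nat.dvd_prime_pow hp').mp (hpk ▸ orderOf_dvd_of_mem_zpowers hxc)
    obtain ⟨b, -, hb⟩ := (Nat.dvd_prime_pow hp').mp (hpk ▸ orderOf_dvd_of_mem_zpowers hyc)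
    rcases le_total a b with hab | hab
    · exact Or.inl (mem_of_dvd hxc hyc (by rw [ha, hb]; exact pow_dvd_pow p hab))
    · exact Or.inr (mem_of_dvd hyc hxc (by rw [ha, hb]; exact pow_dvd_pow p hab))
  · intro h g hg
    by_contra hne
    have h1 : orderOf g ≠ 1 := fun e => hg (orderOf_eq_one_iff.mp e)
    obtain ⟨p, hp, hpd⟩ := Nat.exists_prime_and_dvd h1
    obtain ⟨q, hq, hqd, hqp⟩ : ∃ q, q.Prime ∧ q ∣ orderOf g ∧ q ≠ p := by
      by_contra hcon
      push Not at hcon
      refine hne ((isPrimePow_nat_iff _).mpr ⟨p, (orderOf g).primeFactorsList.length, hp, ?_,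
        (Nat.eq_prime_pow_of_unique_prime_dvd (orderOf_pos g).ne' fun {d} hd hdd => hcon d hd hdd).symm⟩)
      rw [Nat.pos_iff_ne_zero]
      intro h0
      have := Nat.eq_prime_pow_of_unique_prime_dvd (orderOf_pos g).ne' fun {d} hd hdd => hcon d hd hdd
      rw [h0, pow_zero] at this
      exact h1 this
    set x := g ^ (orderOf g / p)
    set y := g ^ (orderOf g / q)
    have hx : orderOf x = p := orderOf_pow_orderOf_div (orderOf_pos g).ne' hpd
    have hy : orderOf y = q := orderOf_pow_orderOf_div (orderOf_pos g).ne' hqd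
    have hcyc : IsCyclic ↥(Subgroup.closure ({x, y} : Set G)) := by
      refine Subgroup.isCyclic_of_le (H' := Subgroup.zpowers g) ((Subgroup.closure_le _).mpr ?_)
      intro z hz
      rcases hz with rfl | rfl <;> exact Subgroup.npow_mem_zpowers _ _
    rcases h x y hcyc with e | e
    · exact hqp ((Nat.prime_dvd_prime_iff_eq hp hq).mp (hx ▸ hy ▸ orderOf_dvd_of_mem_zpowers e)).symm
    · exact hqp ((Nat.prime_dvd_prime_iff_eq hq hp).mp (hx ▸ hy ▸ orderOf_dvd_of_mem_zpowers e))

end Cfsg.Agent.S4086
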