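import Cfsg.Statements.S4089
import Cfsg.Agent.Lib.GroupB.Cores

set_option autoImplicit false
open Cfsg

namespace Cfsg.Agent.S4089

open Subgroup

variable {G : Type*} [Group G] [Finite G]

/-- the fixed point condition `R = O_p(N(R))` -/
def Rad (p : ℕ) (R : Subgroup G) : Prop :=
  (Cfsg.pCore p (normalizer (R : Set G))).map (normalizer (R : Set G)).subtype = R

theorem exists_rad {p : ℕ} [Fact p.Prime] (g : G) (R₀ : Subgroup G) (h₀ : IsPGroup p R₀)
    (hg : g ∈ normalizer (R₀ : Set G)) :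
    ∃ R : Subgroup G, R₀ ≤ R ∧ Rad p R ∧ g ∈ normalizer (R : Set G) := by
  obtain ⟨R, hR, hmax⟩ := Set.Finite.exists_maximal
    (s := {R : Subgroup G | R₀ ≤ R ∧ IsPGroup p R ∧ g ∈ normalizer (R : Set G)}) (Set.toFinite _) ⟨R₀, le_rfl, h₀, hg⟩
  refine ⟨R, hR.1, ?_, hR.2.2⟩
  set NR := normalizer (R : Set G) with hNR
  have hle : R ≤ (Cfsg.pCore p NR).map NR.subtype := by
    intro x hx
    exact ⟨⟨x, le_normalizer hx⟩, CfsgLib.Core.le_pCore (N := R.subgroupOf NR) normal_in_normalizer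
      (hR.2.1.comap_subtype) hx, rfl⟩
  refine le_antisymm (hmax ⟨hR.1.trans hle, (CfsgLib.Core.isPGroup_pCore p).map _, ?_⟩ hle) hle
  rw [CfsgLib.GroupB.Coprime.mem_normalizer_iff_map_conj_eq]
  haveI := CfsgLib.Core.pCore_characteristic (G := NR) p
  have h2 := CfsgLib.GroupB.Coprime.mem_normalizer_iff_map_conj_eq.mp
    ((normalizer_eq_top (H := Cfsg.pCore p NR)).ge (mem_top (⟨g, hR.2.2⟩ : NR)))
  conv_rhs => rw [← h2, map_map]
  rw [map_map]
  rfl

theorem sn_iff {p : ℕ} [Fact p.Prime] (H : Subgroup G) (hH : IsPGroup p H) (g : G) :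
    (H.subgroupOf (H ⊔ zpowers g)).IsSubnormal ↔
      ∃ R : Subgroup G, H ≤ R ∧ Rad p R ∧ g ∈ normalizer (R : Set G) := by
  constructor
  · intro h
    set J := H ⊔ zpowers g
    haveI := CfsgLib.Core.pCore_characteristic (G := J) p
    have hle := CfsgLib.Core.isPGroup_subnormal_le_pCore h hH.comap_subtype
    obtain ⟨R, hR, hrad, hg⟩ := exists_rad (p := p) g ((Cfsg.pCore p J).map J.subtype)
      ((CfsgLib.Core.isPGroup_pCore p).map _) (by
        rw [CfsgLib.GroupB.Coprime.mem_normalizer_iff_map_conj_eq]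
        have h2 := CfsgLib.GroupB.Coprime.mem_normalizer_iff_map_conj_eq.mp
          ((normalizer_eq_top (H := Cfsg.pCore p J)).ge (mem_top (⟨g, mem_sup_right (mem_zpowers g)⟩ : J)))
        conv_rhs => rw [← h2, map_map]
        rw [map_map]
        rfl)
    refine ⟨R, fun x hx => hR ⟨⟨x, mem_sup_left hx⟩, hle hx, rfl⟩, hrad, hg⟩
  · rintro ⟨R, hHR, hrad, hg⟩
    have hRp : IsPGroup p R := by rw [← hrad]; exact (CfsgLib.Core.isPGroup_pCore p).map _
    set J := H ⊔ zpowers g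
    haveI : (R.subgroupOf J).Normal := by
      refine ⟨fun x hx y => ?_⟩
      have hy : (y : G) ∈ normalizer (R : Set G) :=
        (sup_le (hHR.trans le_normalizer) (zpowers_le.mpr hg) : J ≤ _) y.2
      rw [mem_subgroupOf] at hx ⊢
      exact (mem_normalizer_iff.mp hy _).mp hx
    haveI : Group.IsNilpotent ↥(R.subgroupOf J) := (hRp.comap_subtype (K := J)).isNilpotent
    exact CfsgLib.GroupB.Subnormal.of_subgroupOf (Normal.isSubnormal inferInstance)
      (fun x hx => hHR hx) (CfsgLib.GroupB.Subnormal.of_isNilpotent (G := ↥(R.subgroupOf J)) _)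

theorem casolo (p : ℕ) [Fact p.Prime] (H : Subgroup G) (hH : IsPGroup p H) :
    {g : G | ((H).subgroupOf (H ⊔ zpowers g)).IsSubnormal} =
      {g : G | ∃ R : Subgroup G, H ≤ R ∧ (Cfsg.pCore p (normalizer (R : Set G))).map (normalizer (R : Set G)).subtype = R ∧ g ∈ normalizer (R : Set G)} ∧
    ∀ g : G, (((H).subgroupOf (H ⊔ zpowers g)).IsSubnormal ↔
      (((sInf {K : Subgroup G | ∃ Q : Sylow p G, H ≤ (Q : Subgroup G) ∧ K = (Q : Subgroup G)})).subgroupOf ((sInf {K : Subgroup G | ∃ Q : Sylow p G, H ≤ (Q : Subgroup G) ∧ K = (Q : Subgroup G)}) ⊔ zpowers g)).IsSubnormal) := by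
  refine ⟨Set.ext fun g => sn_iff H hH g, fun g => ?_⟩
  set H' := sInf {K : Subgroup G | ∃ Q : Sylow p G, H ≤ (Q : Subgroup G) ∧ K = (Q : Subgroup G)}
  have hH' : IsPGroup p H' := by
    obtain ⟨Q, hQ⟩ := hH.exists_le_sylow
    exact Q.isPGroup'.to_le (sInf_le ⟨Q, hQ, rfl⟩)
  have hHH' : H ≤ H' := le_sInf fun K ⟨Q, hQ, hK⟩ => hK ▸ hQ
  rw [sn_iff H hH, sn_iff H' hH']
  refine ⟨fun ⟨R, hHR, hrad, hg⟩ => ⟨R, ?_, hrad, hg⟩, fun ⟨R, h1, h2⟩ => ⟨R, hHH'.trans h1, h2⟩⟩
  have hRp : IsPGroup p R := by rw [← hrad]; exact (CfsgLib.Core.isPGroup_pCore p).map _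
  -- the intersection of the Sylow subgroups containing `R`
  set T : Subgroup G := ⨅ (Q : Sylow p G) (_ : R ≤ (Q : Subgroup G)), (Q : Subgroup G)
  have hRT : R ≤ T := le_iInf₂ fun Q hQ => hQ
  have hH'T : H' ≤ T := le_iInf₂ fun Q hQ => sInf_le ⟨Q, hHR.trans hQ, rfl⟩
  refine hH'T.trans ?_
  obtain ⟨Q₀, hQ₀⟩ := hRp.exists_le_sylow
  have hTp : IsPGroup p T := Q₀.isPGroup'.to_le (iInf₂_le Q₀ hQ₀)
  have hTN : ∀ n ∈ normalizer (R : Set G), n ∈ normalizer (T : Set G) := by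
    have key : ∀ n ∈ normalizer (R : Set G), ∀ x ∈ T, n * x * n⁻¹ ∈ T := by
      intro n hn x hx
      simp only [T, mem_iInf] at hx ⊢
      intro Q hQ
      have hR' : R ≤ ((n⁻¹ • Q : Sylow p G) : Subgroup G) := by
        intro r hr
        exact ⟨n * r * n⁻¹, hQ ((mem_normalizer_iff.mp hn r).mp hr),
          by show n⁻¹ * (n * r * n⁻¹) * n⁻¹⁻¹ = r; group⟩
      obtain ⟨q, hq, hqx⟩ := hx (n⁻¹ • Q) hR'
      have hqx' : n⁻¹ * q * n⁻¹⁻¹ = x := hqx
      rw [show n * x * n⁻¹ = q by rw [← hqx']; group]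
      exact hq
    exact fun n hn => CfsgLib.GroupB.Coprime.le_normalizer_of_conj_mem key hn
  by_contra hne
  have hlt : R < T := lt_of_le_not_ge hRT hne
  haveI := hTp.isNilpotent
  have hTR : R.subgroupOf T < ⊤ := lt_top_iff_ne_top.mpr fun e => hne (subgroupOf_eq_top.mp e)
  obtain ⟨y, hy, hy'⟩ := SetLike.exists_of_lt (Group.normalizerCondition_of_isNilpotent _ hTR)
  -- `N_T(R)` is a normal `p`-subgroup of `N(R)`
  set NR := normalizer (R : Set G)
  set V := T.subgroupOf NR with hV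
  have hVn : V.Normal := ⟨fun v hv n => by
    rw [hV, mem_subgroupOf] at hv ⊢
    exact (mem_normalizer_iff.mp (hTN n n.2) _).mp hv⟩
  have hle := CfsgLib.Core.le_pCore hVn hTp.comap_subtype
  rw [← subgroupOf_normalizer_eq hRT, mem_subgroupOf] at hy
  exact hy' ((hrad.le ⟨⟨y, hy⟩, hle y.2, rfl⟩ : (y : G) ∈ R))

/-- Let G be a finite group, p a prime and H a p-subgroup of G. Then the set of elements g of G such that H is subnormal in the subgroup generated by H and g is the union of the normalizers N_G(R) over the subgroups R of G containing H with R = O_p(N_G(R)); and this set does not change when H is replaced by the intersection of all Sylow p-subgroups of G containing H. -/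
theorem result {G : Type*} [Group G] [Finite G] (p : ℕ) [Fact p.Prime]
    (H : Subgroup G) (hH : IsPGroup p H) :
    {g : G | ((H).subgroupOf (H ⊔ Subgroup.zpowers g)).IsSubnormal} =
      {g : G | ∃ R : Subgroup G, H ≤ R ∧ (Cfsg.pCore p (Subgroup.normalizer (R : Set G))).map (Subgroup.normalizer (R : Set G)).subtype = R ∧ g ∈ Subgroup.normalizer (R : Set G)} ∧
    ∀ g : G, (((H).subgroupOf (H ⊔ Subgroup.zpowers g)).IsSubnormal ↔
      (((sInf {K : Subgroup G | ∃ Q : Sylow p G, H ≤ (Q : Subgroup G) ∧ K = (Q : Subgroup G)})).subgroupOf ((sInf {K : Subgroup G | ∃ Q : Sylow p G, H ≤ (Q : Subgroup G) ∧ K = (Q : Subgroup G)}) ⊔ Subgroup.zpowers g)).IsSubnormal) := by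
  exact casolo p H hH

end Cfsg.Agent.S4089
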