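import Cfsg.Statements.S4092
import Mathlib

set_option autoImplicit false
open Cfsg

namespace Cfsg.Agent.S4092

/-- Let G be a finite group, p a prime and P a Sylow p-subgroup of G that is not normal in G. Then G has at least p·#P elements of p-power order (the identity included). -/
theorem result {G : Type*} [Group G] [Finite G] (p : ℕ) [Fact p.Prime]
    (P : Sylow p G) (hP : ¬ (P : Subgroup G).Normal) :
    p * Nat.card (P : Subgroup G) ≤ Nat.card {g : G // ∃ k : ℕ, orderOf g = p ^ k} := by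
  classical
  have hp : p.Prime := Fact.out
  haveI := Fintype.ofFinite G
  -- two Sylow subgroups with the largest intersection
  haveI : Nonempty {AB : Sylow p G × Sylow p G // AB.1 ≠ AB.2} := by
    by_contra h
    haveI : Subsingleton (Sylow p G) := ⟨fun A B => by
      by_contra hne; exact h ⟨⟨(A, B), hne⟩⟩⟩
    exact hP inferInstance
  obtain ⟨⟨⟨A, B⟩, hAB⟩, hmax⟩ := Finite.exists_max
    (fun AB : {AB : Sylow p G × Sylow p G // AB.1 ≠ AB.2} => Nat.card ((AB.1.1 : Subgroup G) ⊓ (AB.1.2 : Subgroup G) : Subgroup G))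
  simp only at hmax hAB
  set D := (A : Subgroup G) ⊓ (B : Subgroup G) with hD
  set R := (A : Subgroup G) ⊓ Subgroup.normalizer (D : Set G) with hR
  -- `D` is properly contained in `R`
  have hDA : D < (A : Subgroup G) := lt_of_le_of_ne inf_le_left fun h => hAB (Sylow.ext (A.3 B.2 (h ▸ inf_le_right)).symm)
  have hDR : D < R := by
    refine lt_of_le_of_ne (le_inf inf_le_left Subgroup.le_normalizer) fun h => hDA.ne ?_
    haveI : Group.IsNilpotent (A : Subgroup G) := A.2.isNilpotent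
    by_contra hne
    have hlt : D.subgroupOf (A : Subgroup G) < ⊤ := lt_top_iff_ne_top.mpr fun ht => hne (le_antisymm hDA.le (Subgroup.subgroupOf_eq_top.mp ht))
    obtain ⟨x, hx, hxn⟩ := SetLike.exists_of_lt (Group.normalizerCondition_of_isNilpotent _ hlt)
    refine hxn (Subgroup.mem_subgroupOf.mpr ?_)
    have hxN : (x : G) ∈ Subgroup.normalizer (D : Set G) := by
      rw [Subgroup.mem_normalizer_iff] at hx ⊢
      intro d
      constructor
      · intro hd
        exact (hx ⟨d, hDA.le hd⟩).mp hd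
      · intro hd
        have hdA : d ∈ (A : Subgroup G) := by
          have := Subgroup.mul_mem _ (Subgroup.mul_mem _ (Subgroup.inv_mem _ x.2) (hDA.le hd)) x.2
          simpa [mul_assoc] using this
        exact (hx ⟨d, hdA⟩).mpr hd
    exact h.symm ▸ (⟨x.2, hxN⟩ : (x : G) ∈ R)
  set O := MulAction.orbit R B with hO
  have hcA : ∀ r : R, r • A = A := fun r =>
    Sylow.smul_eq_iff_mem_normalizer.mpr (Subgroup.le_normalizer r.2.1)
  have hsub : ∀ Q ∈ O, D ≤ (Q : Subgroup G) ∧ Q ≠ A := by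
    rintro Q ⟨r, rfl⟩
    refine ⟨fun d hd => ?_, fun h => hAB ?_⟩
    · have hd' := ((Subgroup.mem_normalizer_iff.mp (Subgroup.inv_mem _ r.2.2)) d).mp hd
      refine ⟨(r : G)⁻¹ * d * (r : G)⁻¹⁻¹, hd'.2, ?_⟩
      show (r : G) * ((r : G)⁻¹ * d * (r : G)⁻¹⁻¹) * (r : G)⁻¹ = d
      group
    · have h' : r • B = A := h
      exact (smul_left_cancel r (h'.trans (hcA r).symm)).symm
  have hOp : p ≤ Nat.card O := by
    obtain ⟨n, hn⟩ := (IsPGroup.to_le A.2 (inf_le_left : R ≤ (A : Subgroup G))).index (MulAction.stabilizer R B)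
    rw [Nat.card_coe_set_eq, ← MulAction.index_stabilizer, hn]
    refine Nat.le_self_pow (fun h0 => hDR.not_ge fun r hr => ?_) p
    rw [h0, pow_zero, Subgroup.index_eq_one] at hn
    refine ⟨hr.1, ?_⟩
    have h1 : (⟨r, hr⟩ : R) • B = B := MulAction.mem_stabilizer_iff.mp (hn ▸ Subgroup.mem_top _)
    have h2 : r ∈ Subgroup.normalizer ((B : Subgroup G) : Set G) := Sylow.smul_eq_iff_mem_normalizer.mp h1
    have hpz : IsPGroup p (Subgroup.zpowers r) := IsPGroup.to_le A.2 (Subgroup.zpowers_le.mpr hr.1)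
    exact (hpz.inf_normalizer_sylow B).le ⟨Subgroup.mem_zpowers r, h2⟩ |>.2
  set I := insert A O with hI
  have hIc : p + 1 ≤ Nat.card I := by
    rw [Nat.card_coe_set_eq, hI, Set.ncard_insert_of_notMem (fun h => (hsub A h).2 rfl), ← Nat.card_coe_set_eq]
    omega
  have hID : ∀ Q ∈ I, D ≤ (Q : Subgroup G) := by
    rintro Q (rfl | h)
    exacts [hDA.le, (hsub Q h).1]
  have hint : ∀ Q ∈ I, ∀ Q' ∈ I, Q ≠ Q' → (Q : Subgroup G) ⊓ (Q' : Subgroup G) = D := fun Q hQ Q' hQ' hne =>
    (Subgroup.eq_of_le_of_card_ge (le_inf (hID Q hQ) (hID Q' hQ')) (hmax ⟨(Q, Q'), hne⟩)).symm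
  let f : D ⊕ (Σ Q : I, {x : (Q.1 : Subgroup G) // (x : G) ∉ D}) → {g : G // ∃ k : ℕ, orderOf g = p ^ k} := fun s =>
    match s with
    | .inl d => ⟨d.1, by
        obtain ⟨k, hk⟩ := IsPGroup.iff_orderOf.mp A.2 ⟨d.1, hDA.le d.2⟩
        exact ⟨k, by rw [← hk, Subgroup.orderOf_mk]⟩⟩
    | .inr ⟨Q, x⟩ => ⟨x.1.1, by
        obtain ⟨k, hk⟩ := IsPGroup.iff_orderOf.mp Q.1.2 x.1
        exact ⟨k, by rw [← hk, Subgroup.orderOf_coe]⟩⟩
  have hf : Function.Injective f := by
    rintro (⟨d, hd⟩ | ⟨Q, ⟨⟨x, hx⟩, hxD⟩⟩) (⟨d', hd'⟩ | ⟨Q', ⟨⟨x', hx'⟩, hxD'⟩⟩) h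
    · simp only [f, Subtype.mk.injEq] at h; subst h; rfl
    · simp only [f, Subtype.mk.injEq] at h; subst h; exact absurd hd hxD'
    · simp only [f, Subtype.mk.injEq] at h; subst h; exact absurd hd' hxD
    · simp only [f, Subtype.mk.injEq] at h; subst h
      have : Q = Q' := by
        by_contra hne
        exact hxD (hint Q Q.2 Q' Q'.2 (fun e => hne (Subtype.ext e)) ▸ ⟨hx, hx'⟩)
      subst this; rfl
  have hle := Nat.card_le_card_of_injective f hf
  have hdiff : ∀ Q : I, Nat.card {x : (Q.1 : Subgroup G) // (x : G) ∉ D} = Nat.card (P : Subgroup G) - Nat.card D := by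
    intro Q
    haveI := Fintype.ofFinite (Q.1 : Subgroup G)
    rw [P.card_eq_multiplicity, ← Q.1.card_eq_multiplicity, Nat.card_eq_fintype_card, Fintype.card_subtype_compl,
      ← Nat.card_eq_fintype_card, ← Nat.card_eq_fintype_card]
    congr 1
    exact Nat.card_congr
      { toFun := fun x => ⟨x.1.1, x.2⟩
        invFun := fun d => ⟨⟨d.1, hID Q Q.2 d.2⟩, d.2⟩
        left_inv := fun x => rfl
        right_inv := fun x => rfl }
  haveI := Fintype.ofFinite I
  rw [Nat.card_sum, Nat.card_sigma, Finset.sum_congr rfl fun Q _ => hdiff Q, Finset.sum_const, Finset.card_univ,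
    smul_eq_mul, ← Nat.card_eq_fintype_card] at hle
  have hDp : p * Nat.card D ≤ Nat.card (P : Subgroup G) := by
    rw [P.card_eq_multiplicity, ← A.card_eq_multiplicity]
    obtain ⟨i, hi⟩ := (IsPGroup.to_le A.2 hDA.le).exists_card_eq
    obtain ⟨j, hj⟩ := A.2.exists_card_eq
    have h1 : Nat.card D < Nat.card (A : Subgroup G) := by
      by_contra hnl
      exact hDA.ne (Subgroup.eq_of_le_of_card_ge hDA.le (le_of_not_gt hnl))
    rw [hi, hj] at h1
    rw [hi, hj, ← pow_succ']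
    exact Nat.pow_le_pow_right hp.pos ((Nat.pow_lt_pow_iff_right hp.one_lt).mp h1)
  have := Nat.mul_le_mul_right (Nat.card (P : Subgroup G) - Nat.card D) hIc
  have h9 : (p + 1) * (Nat.card (P : Subgroup G) - Nat.card D) + p * Nat.card D + Nat.card D = (p + 1) * Nat.card (P : Subgroup G) := by
    have : Nat.card D ≤ Nat.card (P : Subgroup G) := le_trans (Nat.le_mul_of_pos_left _ hp.pos) hDp
    rw [add_assoc, ← Nat.succ_mul, ← Nat.mul_add, Nat.sub_add_cancel this]
  nlinarith

end Cfsg.Agent.S4092
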