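import Cfsg.Statements.S4093
import Mathlib

set_option autoImplicit false
open scoped BigOperators
open Cfsg

namespace Cfsg.Agent.S4093

/-- Let G be a finite group with a normal subgroup N complementing a Sylow p-subgroup P (a normal p-complement). Then the number of elements of G of p-power order equals the sum over x ∈ P of the index of C_N(x) in N. -/
theorem result {G : Type*} [Group G] [Finite G] (p : ℕ) [Fact p.Prime]
    (P : Sylow p G) (N : Subgroup G) [N.Normal] (hNP : N.IsComplement' (P : Subgroup G)) :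
    Nat.card {g : G // ∃ k : ℕ, orderOf g = p ^ k} =
      ∑ᶠ x : (P : Subgroup G), Nat.card N / Nat.card ↥(N ⊓ Subgroup.centralizer ({(x : G)} : Set G)) := by
  classical
  haveI := Fintype.ofFinite (P : Subgroup G)
  rw [finsum_eq_sum_of_fintype]
  letI act : MulAction N G := MulAction.compHom G (MulAut.conj.comp N.subtype)
  have hsmul : ∀ (n : N) (x : G), n • x = (n : G) * x * (n : G)⁻¹ := fun n x => rfl
  have horb : ∀ x : G, Nat.card (MulAction.orbit N x) = Nat.card N / Nat.card ↥(N ⊓ Subgroup.centralizer ({x} : Set G)) := by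
    intro x
    have h1 := Subgroup.card_mul_index (MulAction.stabilizer N x)
    rw [MulAction.index_stabilizer, ← Nat.card_coe_set_eq] at h1
    have h2 : Nat.card (MulAction.stabilizer N x) = Nat.card ↥(N ⊓ Subgroup.centralizer ({x} : Set G)) := by
      refine Nat.card_congr
        { toFun := fun n => ⟨n.1.1, n.1.2, Subgroup.mem_centralizer_singleton_iff.mpr ?_⟩
          invFun := fun n => ⟨⟨n.1, n.2.1⟩, ?_⟩
          left_inv := fun n => rfl
          right_inv := fun n => rfl }
      · have h := n.2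
        rw [MulAction.mem_stabilizer_iff, hsmul, mul_inv_eq_iff_eq_mul] at h
        exact h
      · rw [MulAction.mem_stabilizer_iff, hsmul, mul_inv_eq_iff_eq_mul]
        exact Subgroup.mem_centralizer_singleton_iff.mp n.2.2
    rw [← h1, h2, Nat.mul_div_cancel_left _ Nat.card_pos]
  have hdisj : ∀ g : G, g ∈ N → g ∈ (P : Subgroup G) → g = 1 := fun g h1 h2 =>
    Subgroup.disjoint_def.mp hNP.disjoint h1 h2
  calc Nat.card {g : G // ∃ k : ℕ, orderOf g = p ^ k}
      = Nat.card (Σ x : (P : Subgroup G), MulAction.orbit N (x : G)) := ?_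
    _ = _ := by rw [Nat.card_sigma]; exact Finset.sum_congr rfl fun x _ => horb x
  refine (Nat.card_congr (Equiv.ofBijective (fun s => (⟨s.2.1, ?_⟩ : {g : G // ∃ k : ℕ, orderOf g = p ^ k})) ⟨?_, ?_⟩)).symm
  · obtain ⟨n, hn⟩ := s.2.2
    obtain ⟨k, hk⟩ := IsPGroup.iff_orderOf.mp P.2 s.1
    refine ⟨k, ?_⟩
    refine Eq.trans ?_ hk
    rw [← hn, ← Subgroup.orderOf_coe s.1]
    exact (orderOf_injective (MulAut.conj (n : G)).toMonoidHom (MulAut.conj (n : G)).injective _)
  · rintro ⟨x, g, hg⟩ ⟨x', g', hg'⟩ h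
    have hgg : g = g' := congrArg Subtype.val h
    subst hgg
    have hxx : x = x' := by
      obtain ⟨n, rfl⟩ := hg
      obtain ⟨n', hn'⟩ := hg'
      have hn'' : (n' : G) * x' * (n' : G)⁻¹ = (n : G) * x * (n : G)⁻¹ := hn'
      have e : QuotientGroup.mk' N (x' : G) = QuotientGroup.mk' N (x : G) := by
        have h1 := congrArg (QuotientGroup.mk' N) hn''
        simp only [map_mul, map_inv, show ∀ m : N, QuotientGroup.mk' N (m : G) = 1 from fun m => (QuotientGroup.eq_one_iff (m : G)).mpr m.2] at h1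
        simpa using h1
      refine Subtype.ext ?_
      have := hdisj _ (QuotientGroup.eq.mp e) (Subgroup.mul_mem _ (Subgroup.inv_mem _ x'.2) x.2)
      exact (inv_mul_eq_one.mp this).symm
    subst hxx
    rfl
  · rintro ⟨g, k, hk⟩
    have hpg : IsPGroup p (Subgroup.zpowers g) := IsPGroup.of_card (n := k) (by rw [Nat.card_zpowers, hk])
    obtain ⟨Q, hQ⟩ := hpg.exists_le_sylow
    obtain ⟨a, ha⟩ := MulAction.exists_smul_eq G Q P
    have hag : a * g * a⁻¹ ∈ (P : Subgroup G) := by
      rw [← ha]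
      exact ⟨g, hQ (Subgroup.mem_zpowers g), rfl⟩
    obtain ⟨y, hy, n, hn, rfl⟩ : ∃ y ∈ (P : Subgroup G), ∃ n ∈ N, y * n = a := by
      have : a ∈ (P : Subgroup G) ⊔ N := by rw [sup_comm, hNP.sup_eq_top]; trivial
      exact Subgroup.mem_sup_of_normal_right.mp this
    have hng : n * g * n⁻¹ ∈ (P : Subgroup G) := by
      have := Subgroup.mul_mem _ (Subgroup.mul_mem _ (Subgroup.inv_mem _ hy) hag) hy
      rwa [show y⁻¹ * (y * n * g * (y * n)⁻¹) * y = n * g * n⁻¹ by group] at this
    exact ⟨⟨⟨_, hng⟩, g, ⟨⟨n, hn⟩⁻¹, by show n⁻¹ * (n * g * n⁻¹) * n⁻¹⁻¹ = g; group⟩⟩, rfl⟩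

end Cfsg.Agent.S4093
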