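import Cfsg.Statements.S4106
import Cfsg.Agent.Lib.GroupB.SchurZassenhaus

set_option autoImplicit false
open Cfsg

namespace Cfsg.Agent.S4106

universe u

/-- The classes of `s`-elements. -/
def SClass {G : Type u} [Group G] (s : Finset ℕ) (C : ConjClasses G) : Prop :=
  ∃ g : G, ConjClasses.mk g = C ∧ ∀ q : ℕ, q.Prime → q ∣ orderOf g → q ∈ s

theorem bound_one {G : Type u} [Group G] [Finite G] (p : ℕ) (hp : p.Prime) :
    Nat.card {C : ConjClasses G // SClass {p} C} ≤ p ^ (Nat.card G).factorization p := by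
  classical
  haveI := Fact.mk hp
  let P : Sylow p G := default
  rw [← P.card_eq_multiplicity]
  refine Nat.card_le_card_of_surjective (fun u : (P : Subgroup G) => ⟨ConjClasses.mk (u : G), u, rfl, fun q hq hd => ?_⟩) ?_
  · obtain ⟨k, hk⟩ := P.isPGroup' u
    have hd' : orderOf (u : G) ∣ p ^ k := orderOf_dvd_of_pow_eq_one (by simpa using congrArg Subtype.val hk)
    exact Finset.mem_singleton.mpr ((Nat.prime_dvd_prime_iff_eq hq hp).mp (hq.dvd_of_dvd_pow (hd.trans hd')))
  · rintro ⟨C, g, rfl, hg⟩
    have hgp : IsPGroup p (Subgroup.zpowers g) := by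
      refine IsPGroup.of_card (n := (orderOf g).primeFactorsList.length) ?_
      rw [Nat.card_zpowers]
      exact Nat.eq_prime_pow_of_unique_prime_dvd (orderOf_pos g).ne' fun {q} hq hd => Finset.mem_singleton.mp (hg q hq hd)
    obtain ⟨Q, hQ⟩ := hgp.exists_le_sylow
    obtain ⟨x, hx⟩ := MulAction.exists_smul_eq G Q P
    refine ⟨⟨x * g * x⁻¹, ?_⟩, Subtype.ext (ConjClasses.mk_eq_mk_iff_isConj.mpr (isConj_iff.mpr ⟨x⁻¹, by group⟩))⟩
    rw [← hx]
    exact ⟨g, hQ (Subgroup.mem_zpowers g), rfl⟩

theorem bound {G : Type u} [Group G] [Finite G] (s : Finset ℕ) (hs : ∀ q ∈ s, q.Prime) :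
    Nat.card {C : ConjClasses G // SClass s C} ≤ ∏ q ∈ s, q ^ (Nat.card G).factorization q := by
  classical
  induction s using Finset.induction_on generalizing G with
  | empty =>
    rw [Finset.prod_empty, Finite.card_le_one_iff_subsingleton]
    refine ⟨fun a b => Subtype.ext ?_⟩
    have h1 : ∀ C : ConjClasses G, SClass ∅ C → C = ConjClasses.mk 1 := by
      rintro C ⟨g, rfl, hg⟩
      rw [show g = 1 from orderOf_eq_one_iff.mp (by_contra fun h => by simpa using hg _ (Nat.minFac_prime h) (Nat.minFac_dvd _))]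
    rw [h1 _ a.2, h1 _ b.2]
  | insert p s hps ih =>
    haveI : Finite (ConjClasses G) := Finite.of_surjective _ ConjClasses.mk_surjective
    haveI : Fintype {C : ConjClasses G // SClass {p} C} := Fintype.ofFinite _
    have hp : p.Prime := hs p (Finset.mem_insert_self p s)
    choose rep hrep hrep' using fun C : {C : ConjClasses G // SClass {p} C} => C.2
    have hfin : ∀ u, Finite {D : ConjClasses (Subgroup.centralizer ({rep u} : Set G)) // SClass s D} := fun u =>
      haveI : Finite (ConjClasses (Subgroup.centralizer ({rep u} : Set G))) :=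
        Finite.of_surjective _ ConjClasses.mk_surjective
      inferInstance
    let F : (Σ u, {D : ConjClasses (Subgroup.centralizer ({rep u} : Set G)) // SClass s D}) → ConjClasses G :=
      fun x => ConjClasses.mk (rep x.1 * (x.2.2.choose : G))
    have hsub : {C : ConjClasses G | SClass (insert p s) C} ⊆ Set.range F := by
      rintro C ⟨g, rfl, hg⟩
      let pv := p ^ (orderOf g).factorization p
      let m := orderOf g / pv
      have hmp : m.Coprime pv := ((Nat.coprime_ordCompl hp (orderOf_pos g).ne').pow_left _).symm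
      obtain ⟨a, b, hab⟩ := Int.isCoprime_iff_gcd_eq_one.mpr (show Int.gcd (m : ℤ) pv = 1 by
        rw [Int.gcd_natCast_natCast]; exact hmp.gcd_eq_one)
      have hmul : pv * m = orderOf g := Nat.ordProj_mul_ordCompl_eq_self _ p
      let u : G := (g ^ m) ^ a
      let y : G := (g ^ pv) ^ b
      have hg' : g = u * y := by
        simp only [u, y]
        rw [← zpow_natCast g m, ← zpow_natCast g pv, ← zpow_mul, ← zpow_mul, ← zpow_add, mul_comm (m : ℤ),
          mul_comm (pv : ℤ), hab, zpow_one]
      have hus : Commute u y := ((Commute.refl g).pow_pow _ _).zpow_zpow _ _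
      have hu : SClass {p} (ConjClasses.mk u) := by
        refine ⟨u, rfl, fun q hq hd => ?_⟩
        have h1 : u ^ pv = 1 := by
          simp only [u]
          rw [← zpow_natCast _ pv, ← zpow_mul, mul_comm, zpow_mul, zpow_natCast, ← pow_mul, mul_comm m, hmul,
            pow_orderOf_eq_one, one_zpow]
        exact Finset.mem_singleton.mpr ((Nat.prime_dvd_prime_iff_eq hq hp).mp
          (hq.dvd_of_dvd_pow (hd.trans (orderOf_dvd_of_pow_eq_one h1))))
      obtain ⟨c, hc⟩ := isConj_iff.mp (ConjClasses.mk_eq_mk_iff_isConj.mp (hrep ⟨_, hu⟩).symm)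
      let y' : Subgroup.centralizer ({rep ⟨_, hu⟩} : Set G) := ⟨c * y * c⁻¹, Subgroup.mem_centralizer_singleton_iff.mpr (by
        rw [← hc]
        show c * y * c⁻¹ * (c * u * c⁻¹) = c * u * c⁻¹ * (c * y * c⁻¹)
        rw [show c * y * c⁻¹ * (c * u * c⁻¹) = c * (y * u) * c⁻¹ by group, ← hus.eq]; group)⟩
      have hy : SClass s (ConjClasses.mk y') := by
        refine ⟨y', rfl, fun q hq hd => ?_⟩
        rw [← Subgroup.orderOf_coe] at hd
        have hd' : q ∣ orderOf y := by
          rwa [show (y' : G) = MulAut.conj c y from rfl, MulEquiv.orderOf_eq] at hd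
        have h1 : y ^ m = 1 := by
          simp only [y]
          rw [← zpow_natCast _ m, ← zpow_mul, mul_comm, zpow_mul, zpow_natCast, ← pow_mul, hmul,
            pow_orderOf_eq_one, one_zpow]
        have hqm : q ∣ m := hd'.trans (orderOf_dvd_of_pow_eq_one h1)
        rcases Finset.mem_insert.mp (hg q hq (hqm.trans (Dvd.intro_left _ hmul))) with e | e
        · subst e; exact absurd hqm (Nat.not_dvd_ordCompl hp (orderOf_pos g).ne')
        · exact e
      refine ⟨⟨⟨_, hu⟩, ⟨_, hy⟩⟩, ?_⟩
      obtain ⟨z, hz⟩ := isConj_iff.mp (ConjClasses.mk_eq_mk_iff_isConj.mp hy.choose_spec.1.symm)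
      refine ConjClasses.mk_eq_mk_iff_isConj.mpr (IsConj.symm (isConj_iff.mpr ⟨(z : G) * c, ?_⟩))
      have hz' : (z : G) * (c * y * c⁻¹) * (z : G)⁻¹ = (hy.choose : G) := congrArg Subtype.val hz
      have hzu : (z : G) * rep ⟨_, hu⟩ * (z : G)⁻¹ = rep ⟨_, hu⟩ := by
        rw [Subgroup.mem_centralizer_singleton_iff.mp z.2, mul_inv_cancel_right]
      show (z : G) * c * g * ((z : G) * c)⁻¹ = _
      have he : (z : G) * c * (u * y) * ((z : G) * c)⁻¹ =
          ((z : G) * (c * u * c⁻¹) * (z : G)⁻¹) * ((z : G) * (c * y * c⁻¹) * (z : G)⁻¹) := by group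
      rw [hg', he, hc, hzu, hz']
    calc Nat.card {C : ConjClasses G // SClass (insert p s) C}
        ≤ Nat.card (Set.range F) := Nat.card_mono (Set.toFinite _) hsub
      _ ≤ Nat.card (Σ u, {D : ConjClasses (Subgroup.centralizer ({rep u} : Set G)) // SClass s D}) :=
          Finite.card_range_le F
      _ ≤ Nat.card {C : ConjClasses G // SClass {p} C} * ∏ q ∈ s, q ^ (Nat.card G).factorization q := by
          rw [Nat.card_sigma]
          refine (Finset.sum_le_card_nsmul _ _ _ fun u _ => ?_).trans (by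
            rw [smul_eq_mul, Finset.card_univ, Nat.card_eq_fintype_card (α := {C : ConjClasses G // SClass {p} C})])
          refine (ih (fun q hq => hs q (Finset.mem_insert_of_mem hq))).trans (Finset.prod_le_prod' fun q hq => ?_)
          exact Nat.pow_le_pow_right (hs q (Finset.mem_insert_of_mem hq)).pos
            ((Nat.factorization_le_iff_dvd Nat.card_pos.ne' Nat.card_pos.ne').mpr (Subgroup.card_subgroup_dvd_card _) q)
      _ ≤ _ := by
          rw [Finset.prod_insert hps]
          exact Nat.mul_le_mul_right _ (bound_one p hp)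

/-- Let G be a finite group, π a set of primes and m the π-part of the order of G. Then the number of conjugacy classes of G consisting of π-elements (elements whose order is divisible only by primes in π) is at most m. -/
theorem result {G : Type*} [Group G] [Finite G]
    (π : Set ℕ) (hπ : ∀ q ∈ π, q.Prime)
    (m : ℕ) (hm : m ∣ Nat.card G) (hmπ : ∀ q : ℕ, q.Prime → q ∣ m → q ∈ π)
    (hm' : ∀ q ∈ π, ¬ q ∣ Nat.card G / m) :
    Nat.card {C : ConjClasses G // ∀ q : ℕ, q.Prime → (∃ g : G, ConjClasses.mk g = C ∧ q ∣ orderOf g) → q ∈ π} ≤ m := by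
  classical
  have key := bound (G := G) ((Nat.card G).primeFactors.filter (fun q => q ∈ π))
    (fun q hq => Nat.prime_of_mem_primeFactors (Finset.mem_filter.mp hq).1)
  refine le_trans ?_ (key.trans (Nat.le_of_dvd (Nat.pos_of_dvd_of_pos hm Nat.card_pos) ?_))
  · haveI : Finite (ConjClasses G) := Finite.of_surjective _ ConjClasses.mk_surjective
    refine Nat.card_le_card_of_injective (fun C => ⟨C.1, ?_⟩) fun a b h => Subtype.ext (congrArg Subtype.val h :)
    obtain ⟨g, hg⟩ := ConjClasses.exists_rep C.1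
    exact ⟨g, hg, fun q hq hd => Finset.mem_filter.mpr
      ⟨Nat.mem_primeFactors.mpr ⟨hq, hd.trans (orderOf_dvd_natCard g), Nat.card_pos.ne'⟩, C.2 q hq ⟨g, hg, hd⟩⟩⟩
  · refine Finset.prod_dvd_of_isRelPrime ?_ ?_
    · intro a ha b hb hne
      exact Nat.coprime_iff_isRelPrime.mp (Nat.Coprime.pow _ _ ((Nat.coprime_primes
        (Nat.prime_of_mem_primeFactors (Finset.mem_filter.mp ha).1)
        (Nat.prime_of_mem_primeFactors (Finset.mem_filter.mp hb).1)).mpr hne))
    · intro q hq
      have hqp := Nat.prime_of_mem_primeFactors (Finset.mem_filter.mp hq).1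
      have hcop : (q ^ (Nat.card G).factorization q).Coprime (Nat.card G / m) :=
        ((hqp.coprime_iff_not_dvd).mpr (hm' q (Finset.mem_filter.mp hq).2)).pow_left _
      exact hcop.dvd_of_dvd_mul_right (by rw [Nat.mul_div_cancel' hm]; exact Nat.ordProj_dvd _ _)

end Cfsg.Agent.S4106
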