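import Cfsg.Statements.S4107
import Cfsg.Agent.Lib.Core

set_option autoImplicit false
open Cfsg

namespace Cfsg.Agent.S4107

/-- Let G be a finite group and N a proper non-trivial normal subgroup such that for every x outside N all elements of the coset xN have the same order as x. Then N ≤ F(G) or F(G) ≤ N, where F(G) is the Fitting subgroup; and if N is properly contained in F(G) then F(G) has prime-power order. -/
theorem result {G : Type*} [Group G] [Finite G] (N : Subgroup G) [N.Normal] (hN1 : N ≠ ⊥) (hN2 : N ≠ ⊤)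
    (heq : ∀ x : G, x ∉ N → ∀ n ∈ N, orderOf (x * n) = orderOf x) :
    (N ≤ Cfsg.fittingSubgroup G ∨ Cfsg.fittingSubgroup G ≤ N) ∧
    (N < Cfsg.fittingSubgroup G → IsPrimePow (Nat.card (Cfsg.fittingSubgroup G))) := by
  have key : ∀ q : {q : ℕ // q.Prime}, ¬ Cfsg.pCore (q : ℕ) G ≤ N → IsPGroup (q : ℕ) N := by
    rintro ⟨q, hq⟩ hle ⟨n, hn⟩
    haveI := Fact.mk hq
    obtain ⟨x, hxQ, hxN⟩ := SetLike.not_le_iff_exists.mp hle
    haveI := CfsgLib.Core.pCore_characteristic (p := q) (G := G)
    haveI : (Cfsg.pCore q G).Normal := inferInstance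
    obtain ⟨a, ha⟩ := (CfsgLib.Core.isPGroup_pCore (G := G) q).exists_orderOf_eq_pow ⟨x, hxQ⟩
    rw [Subgroup.orderOf_mk] at ha
    have h1 : (x * n) ^ q ^ a = 1 := by rw [← ha, ← heq x hxN n hn]; exact pow_orderOf_eq_one _
    have h2 : n ^ q ^ a ∈ Cfsg.pCore q G := by
      rw [← QuotientGroup.eq_one_iff] at hxQ ⊢
      have h3 := congrArg (QuotientGroup.mk' (Cfsg.pCore q G)) h1
      rwa [map_pow, map_mul, map_one, QuotientGroup.mk'_apply, hxQ, one_mul, QuotientGroup.mk'_apply, ← QuotientGroup.mk_pow] at h3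
    obtain ⟨b, hb⟩ := CfsgLib.Core.isPGroup_pCore (G := G) q ⟨_, h2⟩
    refine ⟨a + b, Subtype.ext ?_⟩
    show n ^ q ^ (a + b) = 1
    rw [pow_add, pow_mul]
    exact congrArg Subtype.val hb
  have hF := CfsgLib.Core.fittingSubgroup_eq_iSup_pCore (G := G)
  constructor
  · by_cases hle : Cfsg.fittingSubgroup G ≤ N
    · exact Or.inr hle
    rw [hF, iSup_le_iff] at hle
    push Not at hle
    obtain ⟨q, hq⟩ := hle
    haveI := Fact.mk q.2
    exact Or.inl (CfsgLib.Core.le_fittingSubgroup inferInstance (key q hq).isNilpotent)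
  · intro hlt
    have hle : ¬ Cfsg.fittingSubgroup G ≤ N := not_le_of_gt hlt
    rw [hF, iSup_le_iff] at hle
    push Not at hle
    obtain ⟨q, hq⟩ := hle
    haveI := Fact.mk q.2
    have hFq : Cfsg.fittingSubgroup G = Cfsg.pCore (q : ℕ) G := by
      refine le_antisymm ?_ (CfsgLib.Core.pCore_le_fittingSubgroup q.2)
      rw [hF, iSup_le_iff]
      intro r
      by_cases hr : Cfsg.pCore (r : ℕ) G ≤ N
      · intro z hz
        obtain ⟨i, hi⟩ := (key q hq).exists_orderOf_eq_pow ⟨z, hr hz⟩
        haveI := Fact.mk r.2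
        obtain ⟨j, hj⟩ := (CfsgLib.Core.isPGroup_pCore (G := G) r).exists_orderOf_eq_pow ⟨z, hz⟩
        rw [Subgroup.orderOf_mk] at hi hj
        by_cases hrq : r = q
        · subst hrq; exact hz
        · have hc : (orderOf z).Coprime (orderOf z) := by
            nth_rewrite 1 [hi]
            rw [hj]
            exact ((Nat.coprime_primes q.2 r.2).mpr fun e => hrq (Subtype.ext e.symm)).pow i j
          rw [orderOf_eq_one_iff.mp ((Nat.coprime_self _).mp hc)]
          exact Subgroup.one_mem _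
      · by_cases hrq : r = q
        · subst hrq; exact le_rfl
        · exfalso
          obtain ⟨⟨z, hz⟩, hz1⟩ := @exists_ne N ((Subgroup.nontrivial_iff_ne_bot N).mpr hN1) 1
          haveI := Fact.mk r.2
          obtain ⟨i, hi⟩ := (key q hq).exists_orderOf_eq_pow ⟨z, hz⟩
          obtain ⟨j, hj⟩ := (key r hr).exists_orderOf_eq_pow ⟨z, hz⟩
          refine hz1 (orderOf_eq_one_iff.mp ((Nat.coprime_self _).mp ?_))
          nth_rewrite 1 [hi]
          rw [hj]
          exact ((Nat.coprime_primes q.2 r.2).mpr fun e => hrq (Subtype.ext e.symm)).pow i j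
    rw [hFq]
    obtain ⟨k, hk⟩ := IsPGroup.iff_card.mp (CfsgLib.Core.isPGroup_pCore (G := G) (q : ℕ))
    rw [hk]
    refine (Nat.Prime.isPrimePow q.2).pow fun hk0 => hq ?_
    rw [hk0, pow_zero] at hk
    rw [Subgroup.card_eq_one.mp hk]
    exact bot_le

end Cfsg.Agent.S4107
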