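import Cfsg.Statements.S4108
import Cfsg.Agent.Lib.GroupB.FrobBasic

set_option autoImplicit false
open Cfsg

namespace Cfsg.Agent.S4108

/-- Let G be a finite group, p a prime and N a proper non-trivial normal p-subgroup such that for every x outside N all elements of the coset xN have the same order as x. Then every non-trivial subgroup H of G of order prime to p acts fixed-point-freely on N: NH is a Frobenius group with complement H and kernel N. -/
theorem result {G : Type*} [Group G] [Finite G] (N : Subgroup G) [N.Normal] (hN1 : N ≠ ⊥) (hN2 : N ≠ ⊤)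
    (heq : ∀ x : G, x ∉ N → ∀ n ∈ N, orderOf (x * n) = orderOf x)
    (p : ℕ) [Fact p.Prime] (hNp : IsPGroup p N) :
    ∀ H : Subgroup G, H ≠ ⊥ → (Nat.card H).Coprime p →
      Cfsg.IsFrobeniusComplement (H.subgroupOf (N ⊔ H)) ∧ Cfsg.frobeniusKernel (H.subgroupOf (N ⊔ H)) = (N.subgroupOf (N ⊔ H) : Set ↥(N ⊔ H)) := by
  intro H hH hcop
  obtain ⟨a, ha⟩ := IsPGroup.iff_card.mp hNp
  have hNH : N ⊓ H = ⊥ := Subgroup.inf_eq_bot_of_coprime (by rw [ha]; exact (hcop.symm).pow_left a)
  set M := N ⊔ H with hM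
  haveI : (N.subgroupOf M).Normal := (inferInstance : N.Normal).subgroupOf M
  have hc : Subgroup.IsComplement' (N.subgroupOf M) (H.subgroupOf M) := by
    refine Subgroup.isComplement'_of_card_mul_and_disjoint ?_ (disjoint_iff.mpr ?_)
    · rw [Nat.card_congr (Subgroup.subgroupOfEquivOfLe (le_sup_left : N ≤ M)).toEquiv,
        Nat.card_congr (Subgroup.subgroupOfEquivOfLe (le_sup_right : H ≤ M)).toEquiv,
        CfsgLib.GroupB.Coprime.card_sup_eq (by rw [Subgroup.normalizer_eq_top]; exact le_top) hNH]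
    · rw [show N.subgroupOf M ⊓ H.subgroupOf M = (N ⊓ H).subgroupOf M from (Subgroup.comap_inf N H _).symm, hNH, Subgroup.bot_subgroupOf]
  have hF : Cfsg.IsFrobeniusComplement (H.subgroupOf M) := by
    refine CfsgLib.GroupB.FrobBasic.isFrobeniusComplement_of_fpf (N.subgroupOf M) hc ?_ ?_ ?_
    · intro h; rw [Subgroup.subgroupOf_eq_bot, disjoint_iff, inf_eq_left.mpr (le_sup_left : N ≤ M)] at h; exact hN1 h
    · intro h; rw [Subgroup.subgroupOf_eq_bot, disjoint_iff, inf_eq_left.mpr (le_sup_right : H ≤ M)] at h; exact hH h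
    · intro h hh h1 v hv hcomm
      have hc' : Commute (h : G) (v : G) := congrArg Subtype.val hcomm
      have hhN : (h : G) ∉ N := fun hm => h1 (Subtype.ext (Subgroup.mem_bot.mp (hNH ▸ ⟨hm, hh⟩ : (h : G) ∈ (⊥ : Subgroup G))))
      have hcop' : (orderOf (h : G)).Coprime (orderOf (v : G)) :=
        (hcop.coprime_dvd_left (Subgroup.orderOf_dvd_natCard H hh)).pow_right a |>.coprime_dvd_right
          (ha ▸ Subgroup.orderOf_dvd_natCard N hv)
      have := heq (h : G) hhN (v : G) hv
      rw [hc'.orderOf_mul_eq_mul_orderOf_of_coprime hcop'] at this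
      exact Subtype.ext (orderOf_eq_one_iff.mp (Nat.eq_of_mul_eq_mul_left (orderOf_pos (h : G)) (this.trans (mul_one _).symm)))
  exact ⟨hF, (CfsgLib.GroupB.FrobBasic.kernel_eq hF _ hc).symm⟩

end Cfsg.Agent.S4108
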