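import Cfsg.Statements.S4112
import Mathlib.GroupTheory.SchurZassenhaus
import Mathlib.GroupTheory.Frattini
import Cfsg.Agent.Lib.PStep

set_option autoImplicit false
open Cfsg

namespace Cfsg.Agent.S4112

/-- Let G be a finite group and M ≤ N non-trivial proper normal subgroups such that for every g outside N the conjugacy class of g is a union of cosets of M (equivalently gm is conjugate to g for every m ∈ M). Then (1) and (2) below are equivalent, and they imply (3): (1) every g outside N acts fixed-point-freely on M, that is C_G(x) ≤ N for every x ∈ M, x ≠ 1; (2) the index of N in G is coprime to the order of M; (3) there is a subgroup H of G with HN = G and H ∩ M = 1. -/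
theorem result {G : Type*} [Group G] [Finite G] (N M : Subgroup G) [N.Normal] [M.Normal] (hMN : M ≤ N) (hM1 : M ≠ ⊥) (hN2 : N ≠ ⊤)
    (hcam : ∀ g : G, g ∉ N → ∀ m ∈ M, ∃ x : G, x * g * x⁻¹ = g * m) :
    ((∀ x ∈ M, x ≠ 1 → Subgroup.centralizer ({x} : Set G) ≤ N) ↔ N.index.Coprime (Nat.card M)) ∧
    ((∀ x ∈ M, x ≠ 1 → Subgroup.centralizer ({x} : Set G) ≤ N) → ∃ H : Subgroup G, H ⊔ N = ⊤ ∧ H ⊓ M = ⊥) := by
  classical
  -- a p-element lies in N when p does not divide the index
  have hpN : ∀ (p : ℕ), p.Prime → ¬ p ∣ N.index → ∀ u : G, (∃ k, orderOf u ∣ p ^ k) → u ∈ N := by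
    rintro p hp hpi u ⟨k, hk⟩
    rw [← QuotientGroup.eq_one_iff]
    refine orderOf_eq_one_iff.mp (Nat.eq_one_of_dvd_coprimes ((Nat.Prime.coprime_iff_not_dvd hp).mpr hpi |>.pow_left k)
      ((orderOf_map_dvd (QuotientGroup.mk' N) u).trans hk) (orderOf_dvd_natCard _))
  have h12 : (∀ x ∈ M, x ≠ 1 → Subgroup.centralizer ({x} : Set G) ≤ N) → N.index.Coprime (Nat.card M) := by
    intro h1
    refine Nat.coprime_of_dvd fun p hp hpi hpM => ?_
    haveI := Fact.mk hp
    obtain ⟨P⟩ : Nonempty (Sylow p G) := inferInstance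
    obtain ⟨g, hgP, hgN⟩ : ∃ g ∈ (P : Subgroup G), g ∉ N := by
      by_contra h
      push Not at h
      exact P.not_dvd_index (hpi.trans (Subgroup.index_dvd_of_le h))
    have hne : M.subgroupOf P ≠ ⊥ := by
      intro h
      obtain ⟨⟨x, hx⟩, hxo⟩ := exists_prime_orderOf_dvd_card' p hpM
      rw [Subgroup.orderOf_mk] at hxo
      obtain ⟨Q, hQ⟩ := (IsPGroup.of_card (n := 1) (G := Subgroup.zpowers x) (by rw [Nat.card_zpowers, hxo, pow_one])).exists_le_sylow
      obtain ⟨c, hc⟩ := MulAction.exists_smul_eq G Q P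
      have hm : c * x * c⁻¹ ∈ (P : Subgroup G) := hc ▸ ⟨x, hQ (Subgroup.mem_zpowers x), rfl⟩
      have h2 : (⟨_, hm⟩ : (P : Subgroup G)) ∈ M.subgroupOf P := Subgroup.Normal.conj_mem inferInstance x hx c
      rw [h, Subgroup.mem_bot] at h2
      rw [show x = 1 from conj_eq_one_iff.mp (congrArg Subtype.val h2), orderOf_one] at hxo
      exact hp.one_lt.ne hxo
    have hne2 := CfsgLib.PStep.normal_inf_center_ne_bot P.2 (inferInstance : (M.subgroupOf P).Normal) hne
    haveI := (Subgroup.nontrivial_iff_ne_bot _).mpr hne2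
    obtain ⟨⟨z, hzM, hzc⟩, hz1⟩ := exists_ne (1 : ↥(M.subgroupOf P ⊓ Subgroup.center (P : Subgroup G)))
    refine hgN (h1 (z : G) hzM (fun h => hz1 (Subtype.ext (Subtype.ext h))) (Subgroup.mem_centralizer_singleton_iff.mpr ?_))
    exact congrArg Subtype.val (Subgroup.mem_center_iff.mp hzc ⟨g, hgP⟩)
  refine ⟨⟨h12, fun hcop x₀ hx₀ hx₀1 g₀ hg₀ => ?_⟩, fun h1 => ?_⟩
  · by_contra hgN
    obtain ⟨p, hp, hpx⟩ := Nat.exists_prime_and_dvd (fun h => hx₀1 (orderOf_eq_one_iff.mp h))
    set x := x₀ ^ (orderOf x₀ / p) with hx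
    have hxo : orderOf x = p := by
      rw [hx, orderOf_pow_of_dvd (Nat.div_pos (Nat.le_of_dvd (orderOf_pos x₀) hpx) hp.pos).ne' (Nat.div_dvd_of_dvd hpx), Nat.div_div_self hpx (orderOf_pos x₀).ne']
    have hxM : x ∈ M := M.pow_mem hx₀ _
    have hpi : ¬ p ∣ N.index := fun h =>
      hp.one_lt.ne' (Nat.eq_one_of_dvd_coprimes hcop h (hxo ▸ Subgroup.orderOf_mk x hxM ▸ orderOf_dvd_natCard _))
    -- pass to the part of g₀ of order prime to p
    set g := g₀ ^ (p ^ (orderOf g₀).factorization p) with hg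
    have hgc : Commute g x := ((show Commute g₀ x₀ from Subgroup.mem_centralizer_singleton_iff.mp hg₀).pow_right _).pow_left _
    have hgN' : g ∉ N := by
      intro h
      apply hgN
      rw [← QuotientGroup.eq_one_iff] at h ⊢
      rw [hg, QuotientGroup.mk_pow] at h
      exact orderOf_eq_one_iff.mp (Nat.eq_one_of_dvd_coprimes
        ((Nat.Prime.coprime_iff_not_dvd hp).mpr hpi |>.pow_left _) (orderOf_dvd_of_pow_eq_one h) (orderOf_dvd_natCard _))
    have hgo : ¬ p ∣ orderOf g := by
      rw [hg, orderOf_pow_of_dvd (pow_ne_zero _ hp.ne_zero) (Nat.ordProj_dvd _ _)]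
      exact Nat.not_dvd_ordCompl hp (orderOf_pos g₀).ne'
    obtain ⟨c, hc⟩ := hcam g hgN' x hxM
    have hord : orderOf (g * x) = orderOf g * p := by
      rw [hgc.orderOf_mul_eq_mul_orderOf_of_coprime (hxo ▸ ((Nat.Prime.coprime_iff_not_dvd hp).mpr hgo).symm), hxo]
    have he : orderOf (g * x) = orderOf g := by rw [← hc]; exact (MulAut.conj c).orderOf_eq g
    rw [hord] at he
    have := hp.two_le
    have := orderOf_pos g
    nlinarith
  · have hcop := h12 h1
    obtain ⟨H, hH, hmin⟩ := Set.Finite.exists_minimalFor id {H : Subgroup G | H ⊔ N = ⊤} (Set.toFinite _) ⟨⊤, top_sup_eq N⟩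
    refine ⟨H, hH, ?_⟩
    by_contra hne
    obtain ⟨p, hp, hpd⟩ := Nat.exists_prime_and_dvd (fun h => hne (Subgroup.card_eq_one.mp h) : Nat.card ↥(H ⊓ M) ≠ 1)
    haveI := Fact.mk hp
    have hpi : ¬ p ∣ N.index := fun h =>
      hp.one_lt.ne' (Nat.eq_one_of_dvd_coprimes hcop h (hpd.trans (Subgroup.card_dvd_of_le inf_le_right)))
    have hgenf : ∀ K : Subgroup H, K ⊔ N.subgroupOf H = ⊤ → K = ⊤ := by
      intro K hK
      by_contra hKne
      have hlt : K.map H.subtype < H := lt_of_le_of_ne (Subgroup.map_subtype_le K) fun h => hKne (by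
        apply Subgroup.map_injective H.subtype_injective
        rw [h, ← MonoidHom.range_eq_map, Subgroup.range_subtype])
      refine not_le_of_gt hlt (hmin (j := K.map H.subtype) (?_ : _ ⊔ N = ⊤) hlt.le)
      rw [eq_top_iff, ← hH]
      refine sup_le ?_ le_sup_right
      have := congrArg (Subgroup.map H.subtype) hK
      rw [Subgroup.map_sup, ← MonoidHom.range_eq_map, Subgroup.range_subtype, Subgroup.subgroupOf_map_subtype] at this
      exact this.symm.le.trans (sup_le_sup le_rfl inf_le_left)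
    obtain ⟨P⟩ : Nonempty (Sylow p H) := inferInstance
    have hPN : (P : Subgroup H) ≤ N.subgroupOf H := fun u hu => by
      obtain ⟨k, hk⟩ := P.2.exists_orderOf_eq_pow ⟨u, hu⟩
      rw [Subgroup.orderOf_mk] at hk
      exact hpN p hp hpi (u : G) ⟨k, by rw [Subgroup.orderOf_coe, hk]⟩
    have hsup := Sylow.normalizer_sup_eq_top' P hPN
    haveI hPn : (P : Subgroup H).Normal := Subgroup.normalizer_eq_top_iff.mp (hgenf _ hsup)
    obtain ⟨K, hK⟩ := Subgroup.exists_right_complement'_of_coprime P.card_coprime_index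
    have hKtop := hgenf K (eq_top_iff.mpr (hK.sup_eq_top.symm.le.trans (sup_le (hPN.trans le_sup_right) le_sup_left)))
    have h3 := hK.card_mul
    rw [hKtop, Subgroup.card_top] at h3
    have hPc : 1 < Nat.card (P : Subgroup H) := by
      rw [P.card_eq_multiplicity]
      exact Nat.one_lt_pow (by
        rw [← Nat.pos_iff_ne_zero]
        exact hp.factorization_pos_of_dvd Nat.card_pos.ne' (hpd.trans (Subgroup.card_dvd_of_le inf_le_left))) hp.one_lt
    have : 0 < Nat.card H := Nat.card_pos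
    nlinarith

end Cfsg.Agent.S4112
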