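import Cfsg.Statements.S4116

set_option autoImplicit false
open Cfsg

namespace Cfsg.Agent.S4116

/-- Let G be a finite group with a subgroup H whose order is coprime to its index (a Hall subgroup) and which meets each of its conjugates by elements outside N_G(H) trivially. Then every subgroup of G whose order is divisible only by primes dividing the order of H lies in a conjugate of H. -/
theorem result {G : Type*} [Group G] [Finite G] (H : Subgroup G)
    (hHall : (Nat.card H).Coprime H.index) (hTI : Cfsg.IsTISubset (H : Set G))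
    (K : Subgroup G) (hK : ∀ q : ℕ, q.Prime → q ∣ Nat.card K → q ∣ Nat.card H) :
    ∃ g : G, K ≤ H.map (MulAut.conj g).toMonoidHom := by
  classical
  -- conjugates of `H`
  let M : G → Subgroup G := fun g => H.map (MulAut.conj g).toMonoidHom
  have hM : ∀ g x : G, x ∈ M g ↔ g⁻¹ * x * g ∈ H := fun g x => by
    show x ∈ H.map (MulAut.conj g).toMonoidHom ↔ _
    rw [Subgroup.mem_map_equiv]
    simp
  by_cases hK1 : K = ⊥
  · exact ⟨1, hK1 ▸ bot_le⟩
  have hH1 : H ≠ ⊥ := by
    intro h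
    obtain ⟨q, hq, hqd⟩ := Nat.exists_prime_and_dvd (mt Subgroup.card_eq_one.mp hK1)
    have := hK q hq hqd
    rw [h, Subgroup.card_bot] at this
    exact hq.one_lt.ne' (Nat.dvd_one.mp this)
  have hTI' : ∀ u v x : G, x ≠ 1 → x ∈ M u → x ∈ M v → M u = M v := by
    intro u v x hx hxu hxv
    rw [hM] at hxu hxv
    have hn : v⁻¹ * u ∈ Subgroup.normalizer (H : Set G) := by
      by_contra hn
      have := hTI _ hn (u⁻¹ * x * u) hxu (by
        rw [show v⁻¹ * u * (u⁻¹ * x * u) * (v⁻¹ * u)⁻¹ = v⁻¹ * x * v by group]; exact hxv)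
      exact (hx (by rw [show x = u * (u⁻¹ * x * u) * u⁻¹ by group, this]; group)).elim
    ext y
    rw [hM, hM]
    have := Subgroup.mem_normalizer_iff.mp hn (u⁻¹ * y * u)
    rwa [show v⁻¹ * u * (u⁻¹ * y * u) * (v⁻¹ * u)⁻¹ = v⁻¹ * y * v by group] at this
  -- a π-element normalising a conjugate lies in it
  have hnorm : ∀ (g : G), ∀ k ∈ K, (∀ x ∈ M g, k * x * k⁻¹ ∈ M g) → k ∈ M g := by
    intro g k hk hkM
    rw [hM]
    set j := g⁻¹ * k * g with hj
    have hjn : ∀ x ∈ H, j * x * j⁻¹ ∈ H := by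
      intro x hx
      have h1 := hkM (g * x * g⁻¹) ((hM _ _).mpr (by simpa [mul_assoc] using hx))
      rw [hM] at h1
      rwa [hj, show g⁻¹ * k * g * x * (g⁻¹ * k * g)⁻¹ = g⁻¹ * (k * (g * x * g⁻¹) * k⁻¹) * g by group]
    set N := Subgroup.normalizer (H : Set G)
    have hjN : j ∈ N := by
      have hmap : H.map (MulAut.conj j).toMonoidHom = H := by
        refine Subgroup.eq_of_le_of_card_ge ?_ (le_of_eq ?_)
        · rintro _ ⟨x, hx, rfl⟩
          exact hjn x hx
        · exact (Subgroup.card_map_of_injective (MulAut.conj j).injective).symm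
      rw [Subgroup.mem_normalizer_iff]
      intro x
      refine ⟨fun hx => hjn x hx, fun hx => ?_⟩
      rw [← hmap] at hx
      obtain ⟨y, hy, hyx⟩ := hx
      have : y = x := by simpa using hyx
      exact this ▸ hy
    haveI : (H.subgroupOf N).Normal := Subgroup.normal_in_normalizer
    have hpow := (H.subgroupOf N).pow_index_mem (⟨j, hjN⟩ : N)
    have hoj : orderOf j = orderOf k := by
      rw [hj]
      have := (MulAut.conj g⁻¹).orderOf_eq k
      simpa using this
    have hcop : (orderOf j).Coprime (H.subgroupOf N).index := by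
      rw [hoj]
      refine Nat.coprime_of_dvd fun q hq hq1 hq2 => ?_
      have hqH := hK q hq (hq1.trans (Subgroup.orderOf_dvd_natCard K hk))
      have hqi : q ∣ H.index := hq2.trans (Subgroup.relIndex_dvd_index_of_le Subgroup.le_normalizer)
      exact hq.one_lt.ne' (Nat.eq_one_of_dvd_coprimes hHall hqH hqi)
    obtain ⟨t, ht⟩ := exists_pow_eq_self_of_coprime hcop.symm
    have : j ^ (H.subgroupOf N).index ∈ H := by simpa [Subgroup.mem_subgroupOf] using hpow
    rw [← ht]
    exact H.pow_mem this t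
  -- Sylow subgroups of K are covered
  have hsyl : ∀ (q : ℕ) [Fact q.Prime], q ∣ Nat.card K → ∀ Q : Sylow q K, ∃ g, (Q : Subgroup K).map K.subtype ≤ M g := by
    intro q _ hqK Q
    obtain ⟨S, hS⟩ := (IsPGroup.exists_le_sylow (Q.2.map K.subtype))
    let R : Sylow q H := default
    obtain ⟨S', hS'⟩ := (IsPGroup.exists_le_sylow (R.2.map H.subtype))
    have hcard : Nat.card (S' : Subgroup G) = Nat.card ((R : Subgroup H).map H.subtype) := by
      rw [Subgroup.card_map_of_injective H.subtype_injective, Sylow.card_eq_multiplicity, Sylow.card_eq_multiplicity,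
        ← H.card_mul_index, Nat.factorization_mul Nat.card_pos.ne' Subgroup.index_ne_zero_of_finite]
      simp only [Finsupp.coe_add, Pi.add_apply]
      rw [Nat.factorization_eq_zero_of_not_dvd (n := H.index) (fun h =>
        (Fact.out : q.Prime).one_lt.ne' (Nat.eq_one_of_dvd_coprimes hHall (hK q Fact.out hqK) h)), add_zero]
    have hS'H : (S' : Subgroup G) ≤ H :=
      (Subgroup.eq_of_le_of_card_ge hS' hcard.le).ge.trans (Subgroup.map_subtype_le _)
    obtain ⟨g, hg⟩ := MulAction.exists_smul_eq G S' S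
    refine ⟨g, hS.trans ?_⟩
    intro x hx
    rw [← hg] at hx
    obtain ⟨y, hy, rfl⟩ := hx
    exact (hM _ _).mpr (by simpa [mul_assoc] using hS'H hy)
  -- conjugation inside K
  have hMmul : ∀ k g x : G, x ∈ M g ↔ k * x * k⁻¹ ∈ M (k * g) := by
    intro k g x
    rw [hM, hM, show (k * g)⁻¹ * (k * x * k⁻¹) * (k * g) = g⁻¹ * x * g by group]
  obtain ⟨q₀, hq₀, hq₀d⟩ := Nat.exists_prime_and_dvd (mt Subgroup.card_eq_one.mp hK1)
  haveI : Fact q₀.Prime := ⟨hq₀⟩
  let Q₀ : Sylow q₀ K := default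
  obtain ⟨g₀, hg₀⟩ := hsyl q₀ hq₀d Q₀
  refine ⟨g₀, ?_⟩
  by_contra hnle
  -- the counting
  have hcount : ∀ g : G, ¬ K ≤ M g → (∃ x ∈ K, x ∈ M g ∧ x ≠ 1) →
      Nat.card K ≤ 2 * Nat.card {x : G // x ∈ K ∧ x ≠ 1 ∧ ∃ k ∈ K, x ∈ M (k * g)} := by
    intro g hg hne
    set A := (M g).subgroupOf K with hA
    have hmap : Function.Injective (fun z : (K ⧸ A) × {a : A // a ≠ 1} =>
        (⟨(z.1.out : G) * ((z.2.1 : K) : G) * (z.1.out : G)⁻¹, K.mul_mem (K.mul_mem z.1.out.2 z.2.1.1.2) (K.inv_mem z.1.out.2),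
          fun h => z.2.2 (by
            apply Subtype.ext; apply Subtype.ext
            rw [mul_inv_eq_one, mul_eq_left] at h
            exact h),
          (z.1.out : G), z.1.out.2, (hMmul _ _ _).mp z.2.1.2⟩ : {x : G // x ∈ K ∧ x ≠ 1 ∧ ∃ k ∈ K, x ∈ M (k * g)})) := by
      rintro ⟨c, a, ha⟩ ⟨d, b, hb⟩ he
      have he' : (c.out : G) * ((a : K) : G) * (c.out : G)⁻¹ = (d.out : G) * ((b : K) : G) * (d.out : G)⁻¹ := congrArg Subtype.val he
      have hcd : c = d := by
        rw [← QuotientGroup.out_eq' c, ← QuotientGroup.out_eq' d, QuotientGroup.eq]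
        set k := c.out⁻¹ * d.out with hk
        show (k : G) ∈ M g
        refine hnorm g k k.2 ?_
        have hb' : (k : G) * ((b : K) : G) * (k : G)⁻¹ = ((a : K) : G) := by
          rw [hk, Subgroup.coe_mul, Subgroup.coe_inv]
          calc _ = (c.out : G)⁻¹ * ((d.out : G) * ((b : K) : G) * (d.out : G)⁻¹) * (c.out : G) := by group
            _ = _ := by rw [← he']; group
        have hmem : ((a : K) : G) ∈ M ((k : G) * g) := hb' ▸ (hMmul _ _ _).mp b.2
        have heq := hTI' g ((k : G) * g) ((a : K) : G) (fun h => ha (Subtype.ext (Subtype.ext h))) a.2 hmem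
        intro x hx
        rw [heq]
        exact (hMmul _ _ _).mp hx
      subst hcd
      have : ((a : K) : G) = ((b : K) : G) := mul_left_cancel (mul_right_cancel he')
      exact Prod.ext rfl (Subtype.ext (Subtype.ext (Subtype.ext this)))
    have h1 := Nat.card_le_card_of_injective _ hmap
    rw [Nat.card_prod] at h1
    haveI := Fintype.ofFinite A
    have h2 : Nat.card {a : A // a ≠ 1} + 1 = Nat.card A := by
      have := Nat.card_pos (α := A)
      rw [Nat.card_eq_fintype_card, Nat.card_eq_fintype_card, Fintype.card_subtype_compl, Fintype.card_subtype_eq]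
      have := Fintype.card_pos (α := A)
      omega
    have h3 := A.card_mul_index
    have h4 : 2 ≤ Nat.card A := by
      obtain ⟨x, hxK, hxM, hx1⟩ := hne
      haveI : Nontrivial A := ⟨⟨⟨⟨x, hxK⟩, hxM⟩, 1, fun h => hx1 (by simpa using congrArg (fun z : A => ((z : K) : G)) h)⟩⟩
      exact Finite.one_lt_card
    change A.index * _ ≤ _ at h1
    have h5 : A.index * 2 ≤ A.index * Nat.card A := Nat.mul_le_mul_left _ h4
    have h6 : A.index * (Nat.card {a : A // a ≠ 1} + 1) = Nat.card K := by rw [h2, mul_comm]; exact h3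
    rw [mul_add, mul_one] at h6
    rw [mul_comm A.index (Nat.card A), h3] at h5
    omega
  have hne₀ : ∃ x ∈ K, x ∈ M g₀ ∧ x ≠ 1 := by
    haveI : Nontrivial (Q₀ : Subgroup K) := (Subgroup.nontrivial_iff_ne_bot _).mpr (Q₀.ne_bot_of_dvd_card hq₀d)
    obtain ⟨x, hx⟩ := exists_ne (1 : (Q₀ : Subgroup K))
    exact ⟨(x : K), (x : K).2, hg₀ ⟨_, x.2, rfl⟩, fun h => hx (Subtype.ext (Subtype.ext h))⟩
  -- some Sylow subgroup is outside the class
  obtain ⟨q, hq, Q, hqK, hQ⟩ : ∃ q, ∃ _ : Fact q.Prime, ∃ Q : Sylow q K, q ∣ Nat.card K ∧ ¬ (Q : Subgroup K).map K.subtype ≤ M g₀ ∧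
      ∀ k ∈ K, ¬ (Q : Subgroup K).map K.subtype ≤ M (k * g₀) := by
    by_contra! hc
    apply hnle
    have hA : (M g₀).subgroupOf K = ⊤ := by
      rw [← Subgroup.index_eq_one]
      by_contra hi
      obtain ⟨q, hq, hqd⟩ := Nat.exists_prime_and_dvd hi
      haveI : Fact q.Prime := ⟨hq⟩
      have hqK : q ∣ Nat.card K := hqd.trans (Subgroup.index_dvd_card _)
      let Q : Sylow q K := default
      obtain ⟨k, hk, hkQ⟩ : ∃ k ∈ K, (Q : Subgroup K).map K.subtype ≤ M (k * g₀) := by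
        by_cases h : (Q : Subgroup K).map K.subtype ≤ M g₀
        · exact ⟨1, K.one_mem, by rwa [one_mul]⟩
        · exact hc q inferInstance Q hqK h
      let Q' : Sylow q K := (⟨k, hk⟩ : K)⁻¹ • Q
      have hQ' : (Q' : Subgroup K) ≤ (M g₀).subgroupOf K := by
        intro z hz
        obtain ⟨y, hy, rfl⟩ := hz
        have h1 := hkQ ⟨y, hy, rfl⟩
        rw [Subgroup.mem_subgroupOf]
        rw [hMmul k g₀]
        simpa [mul_assoc] using h1
      exact Q'.not_dvd_index (hqd.trans (Subgroup.index_dvd_of_le hQ'))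
    exact Subgroup.subgroupOf_eq_top.mp hA
  obtain ⟨g₁, hg₁⟩ := hsyl q hqK Q
  have hne₁ : ∃ x ∈ K, x ∈ M g₁ ∧ x ≠ 1 := by
    haveI : Nontrivial (Q : Subgroup K) := (Subgroup.nontrivial_iff_ne_bot _).mpr (Q.ne_bot_of_dvd_card hqK)
    obtain ⟨x, hx⟩ := exists_ne (1 : (Q : Subgroup K))
    exact ⟨(x : K), (x : K).2, hg₁ ⟨_, x.2, rfl⟩, fun h => hx (Subtype.ext (Subtype.ext h))⟩
  by_cases hK1' : K ≤ M g₁
  · -- both classes meet in a nontrivial element
    obtain ⟨x, hxK, hx, hx1⟩ := hne₀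
    exact hnle (hK1'.trans (hTI' g₁ g₀ x hx1 (hK1' hxK) hx).le)
  have h1 := hcount g₀ hnle hne₀
  have h2 := hcount g₁ hK1' hne₁
  have hdisj : Nat.card {x : G // x ∈ K ∧ x ≠ 1 ∧ ∃ k ∈ K, x ∈ M (k * g₀)} + Nat.card {x : G // x ∈ K ∧ x ≠ 1 ∧ ∃ k ∈ K, x ∈ M (k * g₁)} + 1 ≤ Nat.card K := by
    have hinj : Function.Injective (fun z : ({x : G // x ∈ K ∧ x ≠ 1 ∧ ∃ k ∈ K, x ∈ M (k * g₀)} ⊕ {x : G // x ∈ K ∧ x ≠ 1 ∧ ∃ k ∈ K, x ∈ M (k * g₁)}) ⊕ Unit =>
        (match z with
        | Sum.inl (Sum.inl x) => (⟨x.1, x.2.1⟩ : K)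
        | Sum.inl (Sum.inr x) => ⟨x.1, x.2.1⟩
        | Sum.inr _ => 1)) := by
      have hno : ∀ (x : {x : G // x ∈ K ∧ x ≠ 1 ∧ ∃ k ∈ K, x ∈ M (k * g₀)}) (y : {x : G // x ∈ K ∧ x ≠ 1 ∧ ∃ k ∈ K, x ∈ M (k * g₁)}), x.1 ≠ y.1 := by
        intro x' y' he
        obtain ⟨x, hxK', hx1, k, hk, hx⟩ := x'
        obtain ⟨y, hyK', hy1, l, hl, hy⟩ := y'
        obtain rfl : x = y := he
        have heq := hTI' _ _ x hx1 hx hy
        apply hQ.2 (l⁻¹ * k) (K.mul_mem (K.inv_mem hl) hk)
        intro w hw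
        have h5 : l * w * l⁻¹ ∈ M (l * g₁) := (hMmul _ _ _).mp (hg₁ hw)
        rw [← heq] at h5
        have h6 := (hMmul l⁻¹ _ _).mp h5
        rw [← mul_assoc] at h6
        rwa [show l⁻¹ * (l * w * l⁻¹) * l⁻¹⁻¹ = w by group] at h6
      rintro ((x | x) | u) ((y | y) | v) h <;> simp only at h
      · exact congrArg (Sum.inl ∘ Sum.inl) (Subtype.ext (congrArg (Subtype.val : K → G) h))
      · exact absurd (congrArg Subtype.val h) (hno x y)
      · exact absurd (congrArg Subtype.val h) x.2.2.1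
      · exact absurd (congrArg Subtype.val h).symm (hno y x)
      · exact congrArg (Sum.inl ∘ Sum.inr) (Subtype.ext (congrArg (Subtype.val : K → G) h))
      · exact absurd (congrArg Subtype.val h) x.2.2.1
      · exact absurd (congrArg Subtype.val h).symm y.2.2.1
      · exact absurd (congrArg Subtype.val h).symm y.2.2.1
      · rfl
    have := Nat.card_le_card_of_injective _ hinj
    rwa [Nat.card_sum, Nat.card_sum, Nat.card_eq_fintype_card (α := Unit), Fintype.card_unit] at this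
  omega

end Cfsg.Agent.S4116
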