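import Cfsg.Statements.S4115
import Cfsg.Agent.S0877
import Cfsg.Agent.S4116
import Cfsg.Agent.Lib.GroupB.Coprime
import Cfsg.Agent.Lib.GroupB.FrobBasic
import Mathlib.GroupTheory.Nilpotent

set_option autoImplicit false
universe u
open Cfsg

namespace Cfsg.Agent.S4115
open CfsgLib.GroupB

theorem hall_of_ti {G : Type*} [Group G] [Finite G] (H : Subgroup G) (hTI : Cfsg.IsTISubset (H : Set G))
    (hHall : (Nat.card H).Coprime (H.subgroupOf (Subgroup.normalizer (H : Set G))).index) :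
    (Nat.card H).Coprime H.index := by
  refine Nat.coprime_of_dvd fun p hp hpH hpi => ?_
  haveI := Fact.mk hp
  let P : Sylow p H := default
  set P' := (P : Subgroup H).map H.subtype with hP'
  have hP'H : P' ≤ H := Subgroup.map_subtype_le _
  have hP'p : IsPGroup p P' := P.isPGroup'.map _
  obtain ⟨S, hS⟩ := hP'p.exists_le_sylow
  set N := Subgroup.normalizer (H : Set G) with hN
  have hP'1 : P' ≠ ⊥ := by
    rw [hP', Ne, Subgroup.map_eq_bot_iff_of_injective _ H.subtype_injective]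
    exact P.ne_bot_of_dvd_card hpH
  have hNP : Subgroup.normalizer (P' : Set G) ≤ N := by
    intro g hg
    by_contra hgN
    refine hP'1 ((Subgroup.eq_bot_iff_forall _).mpr fun x hx => ?_)
    exact hTI g hgN x (hP'H hx) (hP'H ((Subgroup.mem_normalizer_iff.mp hg x).mp hx))
  by_cases heq : P' = (S : Subgroup G)
  · have hd : H.index ∣ (S : Subgroup G).index := Subgroup.index_dvd_of_le (heq ▸ hP'H)
    exact S.not_dvd_index (hpi.trans hd)
  -- grow `P'` inside the normalizer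
  haveI : Group.IsNilpotent (S : Subgroup G) := S.isPGroup'.isNilpotent
  have hlt : P'.subgroupOf (S : Subgroup G) < ⊤ := by
    rw [lt_top_iff_ne_top, Ne, Subgroup.subgroupOf_eq_top]
    exact fun h => heq (le_antisymm hS h)
  have hgrow := Group.normalizerCondition_of_isNilpotent (P'.subgroupOf (S : Subgroup G)) hlt
  obtain ⟨x, hxN, hxP⟩ := SetLike.exists_of_lt hgrow
  have hxN' : (x : G) ∈ N := hNP (by
    rw [Subgroup.mem_normalizer_iff]
    intro y
    constructor
    · intro hy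
      exact (Subgroup.mem_normalizer_iff.mp hxN ⟨y, hS hy⟩).mp hy
    · intro hy
      have hyS : y ∈ (S : Subgroup G) := by
        have h1 := (S : Subgroup G).mul_mem ((S : Subgroup G).mul_mem ((S : Subgroup G).inv_mem x.2) (hS hy)) x.2
        rwa [show (x : G)⁻¹ * ((x : G) * y * (x : G)⁻¹) * x = y by group] at h1
      exact (Subgroup.mem_normalizer_iff.mp hxN ⟨y, hyS⟩).mpr hy)
  -- the image of `x` in `N/H` is trivial
  haveI : (H.subgroupOf N).Normal := Subgroup.normal_in_normalizer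
  obtain ⟨k, hk⟩ := S.2 x
  have hxH : (x : G) ∈ H := by
    let y : N := ⟨x, hxN'⟩
    have h1 : orderOf (QuotientGroup.mk' (H.subgroupOf N) y) = 1 := by
      have hc : (p ^ k).Coprime (H.subgroupOf N).index :=
        Nat.Coprime.pow_left k (hp.coprime_iff_not_dvd.mpr fun h => hp.one_lt.ne' (Nat.eq_one_of_dvd_coprimes hHall hpH h))
      refine Nat.eq_one_of_dvd_coprimes hc ?_ ?_
      · refine (orderOf_map_dvd _ y).trans ?_
        rw [← Subgroup.orderOf_coe]
        refine orderOf_dvd_of_pow_eq_one ?_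
        have := congrArg (fun z : (S : Subgroup G) => (z : G)) hk
        simpa using this
      · rw [Subgroup.index_eq_card]
        exact orderOf_dvd_natCard _
    exact Subgroup.mem_subgroupOf.mp ((QuotientGroup.eq_one_iff y).mp (orderOf_eq_one_iff.mp h1))
  -- so it lies in the Sylow subgroup of `H`
  have hle : P' ⊔ Subgroup.zpowers (x : G) ≤ (S : Subgroup G) := sup_le hS (Subgroup.zpowers_le.mpr x.2)
  have hle2 : P' ⊔ Subgroup.zpowers (x : G) ≤ H := sup_le hP'H (Subgroup.zpowers_le.mpr hxH)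
  have hp2 : IsPGroup p ((P' ⊔ Subgroup.zpowers (x : G)).subgroupOf H) := (S.isPGroup'.to_le hle).comap_subtype
  have hPle : (P : Subgroup H) ≤ (P' ⊔ Subgroup.zpowers (x : G)).subgroupOf H := fun y hy =>
    Subgroup.mem_subgroupOf.mpr (Subgroup.mem_sup_left ⟨y, hy, rfl⟩)
  have heq2 := P.3 hp2 hPle
  refine hxP ?_
  rw [Subgroup.mem_subgroupOf]
  exact ⟨⟨x, hxH⟩, heq2 ▸ Subgroup.mem_subgroupOf.mpr (Subgroup.mem_sup_right (Subgroup.mem_zpowers _)), rfl⟩

theorem complement_of_normalizer {G : Type*} [Group G] [Finite G] (H : Subgroup G) (hTI : Cfsg.IsTISubset (H : Set G))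
    (hH : (Nat.card H).Coprime H.index) (K : Subgroup (Subgroup.normalizer (H : Set G))) (hKn : K.Normal)
    (hKc : K.IsComplement' (H.subgroupOf (Subgroup.normalizer (H : Set G)))) :
    ∃ N : Subgroup G, N.Normal ∧ N.IsComplement' H := by
  classical
  have hHN : H ≤ (Subgroup.normalizer (H : Set G)) := Subgroup.le_normalizer
  have hfus : ∀ x ∈ H, ∀ y ∈ H, IsConj x y → ∃ h ∈ H, h * x * h⁻¹ = y := by
    intro x hx y hy hxy
    obtain ⟨g, hg⟩ := isConj_iff.mp hxy
    by_cases hx1 : x = 1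
    · exact ⟨1, H.one_mem, by rw [← hg, hx1]; group⟩
    have hgN : g ∈ (Subgroup.normalizer (H : Set G)) := by
      by_contra hgN
      exact hx1 (hTI g hgN x hx (by rw [hg]; exact hy))
    obtain ⟨⟨⟨k, hk⟩, ⟨h, hh⟩⟩, hkh⟩ := hKc.2 ⟨g, hgN⟩
    have hgeq : (k : G) * h = g := congrArg Subtype.val hkh
    refine ⟨h, hh, ?_⟩
    set z : (Subgroup.normalizer (H : Set G)) := h * ⟨x, hHN hx⟩ * h⁻¹ with hz
    have hzH : z ∈ H.subgroupOf (Subgroup.normalizer (H : Set G)) := (H.subgroupOf (Subgroup.normalizer (H : Set G))).mul_mem ((H.subgroupOf (Subgroup.normalizer (H : Set G))).mul_mem hh hx) ((H.subgroupOf (Subgroup.normalizer (H : Set G))).inv_mem hh)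
    have h1 : k * z * k⁻¹ * z⁻¹ ∈ K := by
      rw [show k * z * k⁻¹ * z⁻¹ = k * (z * k⁻¹ * z⁻¹) by group]
      exact K.mul_mem hk (hKn.conj_mem _ (K.inv_mem hk) z)
    haveI : (H.subgroupOf (Subgroup.normalizer (H : Set G))).Normal := Subgroup.normal_in_normalizer
    have h2 : k * z * k⁻¹ * z⁻¹ ∈ H.subgroupOf (Subgroup.normalizer (H : Set G)) :=
      (H.subgroupOf (Subgroup.normalizer (H : Set G))).mul_mem ((inferInstance : (H.subgroupOf (Subgroup.normalizer (H : Set G))).Normal).conj_mem z hzH k) ((H.subgroupOf (Subgroup.normalizer (H : Set G))).inv_mem hzH)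
    have h3 : k * z * k⁻¹ * z⁻¹ = 1 := Subgroup.mem_bot.mp (hKc.disjoint.eq_bot ▸ ⟨h1, h2⟩)
    rw [mul_inv_eq_one] at h3
    have h4 : (z : G) = (h : G) * x * (h : G)⁻¹ := rfl
    rw [← h4, ← hg, ← hgeq, ← congrArg Subtype.val h3]
    show (k : G) * ((h : G) * x * (h : G)⁻¹) * (k : G)⁻¹ = _
    group
  obtain ⟨M, hMn, hsup, hinf⟩ := Cfsg.Agent.S0877.result H hH hfus fun E p _ _ hd => by
    obtain ⟨g, hg⟩ := Cfsg.Agent.S4116.result H hH hTI E fun q hq hqE => hqE.trans hd
    refine ⟨g⁻¹, ?_⟩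
    rintro _ ⟨e, he, rfl⟩
    obtain ⟨y, hy, rfl⟩ := hg he
    simpa [mul_assoc] using hy
  haveI := hMn
  refine ⟨M, hMn, Subgroup.isComplement'_of_disjoint_and_mul_eq_univ (disjoint_iff.mpr hinf) ?_⟩
  rw [← Subgroup.normal_mul, hsup, Subgroup.coe_top]

theorem exists_invariant {G : Type*} [Group G] [Finite G] (H : Subgroup G) (hTI : Cfsg.IsTISubset (H : Set G))
    (hH : (Nat.card H).Coprime H.index) (M : Subgroup G) [M.Normal] (hMc : M.IsComplement' H) (q : ℕ) [Fact q.Prime] :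
    ∃ Q : Subgroup G, Coprime.IsSylowOf q Q M ∧ H ≤ Subgroup.normalizer (Q : Set G) := by
  classical
  let S : Sylow q M := default
  set Q₀ := (S : Subgroup M).map M.subtype with hQ₀
  have hQ₀of : Coprime.IsSylowOf q Q₀ M := Coprime.isSylowOf_map S
  set T := Subgroup.normalizer (Q₀ : Set G) with hT
  have hsup : T ⊔ M = ⊤ := Sylow.normalizer_sup_eq_top S
  haveI : (M.subgroupOf T).Normal := (inferInstance : M.Normal).subgroupOf T
  have hidx : (M.subgroupOf T).index = Nat.card H := by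
    show M.relIndex T = _
    rw [← Subgroup.relIndex_sup_left, sup_comm, hsup, Subgroup.relIndex_top_right, hMc.symm.index_eq_card]
  have hcardM : Nat.card M = H.index := hMc.index_eq_card.symm
  have hdvd : Nat.card (M.subgroupOf T) ∣ Nat.card M :=
    Subgroup.card_dvd_of_injective ((T.subtype.comp (M.subgroupOf T).subtype).codRestrict M fun z => z.2)
      (fun a b h => Subtype.ext (Subtype.ext (congrArg (fun v : M => (v : G)) h)))
  obtain ⟨H₁, hH₁⟩ := Subgroup.exists_right_complement'_of_coprime (N := M.subgroupOf T)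
    (by rw [hidx]; exact (hcardM ▸ hH.symm).coprime_dvd_left hdvd)
  set H₁' := H₁.map T.subtype with hH₁'
  have hc1 : Nat.card H₁' = Nat.card H := by
    rw [hH₁', Subgroup.card_map_of_injective T.subtype_injective, ← hH₁.symm.index_eq_card, hidx]
  obtain ⟨g, hg⟩ := Cfsg.Agent.S4116.result H hH hTI H₁' fun r hr hrd => hc1 ▸ hrd
  have heq : H₁' = H.map (MulAut.conj g).toMonoidHom :=
    Subgroup.eq_of_le_of_card_ge hg (by rw [Subgroup.card_map_of_injective (MulAut.conj g).injective, hc1])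
  refine ⟨Q₀.map (MulAut.conj g⁻¹).toMonoidHom, hQ₀of.map_conj (by rw [Subgroup.normalizer_eq_top_iff.mpr ‹M.Normal›]; exact Subgroup.mem_top _), fun h hh => ?_⟩
  have hgh : g * h * g⁻¹ ∈ T := by
    have : g * h * g⁻¹ ∈ H₁' := by rw [heq]; exact ⟨h, hh, rfl⟩
    exact Subgroup.map_subtype_le _ this
  rw [Coprime.mem_normalizer_iff_map_conj_eq, SchurZassenhaus.map_conj_map_conj]
  have h2 := (Coprime.mem_normalizer_iff_map_conj_eq.mp hgh)
  conv_rhs => rw [← h2, SchurZassenhaus.map_conj_map_conj]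
  congr 3
  group


/-- Let G be a finite group and H a subgroup that meets each of its conjugates by elements outside N_G(H) trivially and whose order is coprime to its index in N_G(H). Then H has a normal complement in N_G(H) if and only if H has a normal complement in G. Moreover, if H is not normal in G and has a normal complement in N_G(H), then H is isomorphic to a Frobenius complement of some finite Frobenius group. -/
theorem result {G : Type u} [Group G] [Finite G] (H : Subgroup G)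
    (hTI : Cfsg.IsTISubset (H : Set G)) (hHall : (Nat.card H).Coprime (H.subgroupOf (Subgroup.normalizer (H : Set G))).index) :
    ((∃ K : Subgroup (Subgroup.normalizer (H : Set G)), K.Normal ∧ K.IsComplement' (H.subgroupOf (Subgroup.normalizer (H : Set G)))) ↔
      (∃ N : Subgroup G, N.Normal ∧ N.IsComplement' H)) ∧
    (¬ H.Normal → (∃ K : Subgroup (Subgroup.normalizer (H : Set G)), K.Normal ∧ K.IsComplement' (H.subgroupOf (Subgroup.normalizer (H : Set G)))) →
      ∃ (F : Type u) (_ : Group F) (_ : Finite F) (C : Subgroup F), Cfsg.IsFrobeniusComplement C ∧ Nonempty (H ≃* C)) := by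
  classical
  have hH := hall_of_ti H hTI hHall
  set N := Subgroup.normalizer (H : Set G) with hN
  have hHN : H ≤ N := Subgroup.le_normalizer
  refine ⟨⟨fun ⟨K, hKn, hKc⟩ => complement_of_normalizer H hTI hH K hKn hKc, ?_⟩, ?_⟩
  · rintro ⟨M, hMn, hMc⟩
    refine ⟨M.subgroupOf N, hMn.subgroupOf N, Subgroup.isComplement'_of_disjoint_and_mul_eq_univ ?_ ?_⟩
    · rw [disjoint_iff, Subgroup.eq_bot_iff_forall]
      rintro x ⟨hx1, hx2⟩
      exact Subtype.ext (Subgroup.mem_bot.mp (hMc.disjoint.eq_bot ▸ ⟨hx1, hx2⟩))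
    · refine Set.eq_univ_of_forall fun x => ?_
      obtain ⟨⟨⟨m, hm⟩, ⟨h, hh⟩⟩, hmh⟩ := hMc.2 (x : G)
      have hmN : m ∈ N := by
        have : m * h * h⁻¹ ∈ N := N.mul_mem (by rw [show m * h = (x : G) from hmh]; exact x.2) (N.inv_mem (hHN hh))
        simpa using this
      exact ⟨⟨m, hmN⟩, hm, ⟨h, hHN hh⟩, hh, Subtype.ext hmh⟩
  intro hnn ⟨K, hKn, hKc⟩
  obtain ⟨M, hMn, hMc⟩ := complement_of_normalizer H hTI hH K hKn hKc
  haveI := hMn
  have hH1 : H ≠ ⊥ := fun h => hnn (h ▸ inferInstance)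
  have hcop : (Nat.card H).Coprime (Nat.card M) := by rw [← hMc.index_eq_card]; exact hH
  have htriv : ∀ x, x ∈ M → x ∈ H → x = 1 := fun x h1 h2 => Subgroup.mem_bot.mp (hMc.disjoint.eq_bot ▸ ⟨h1, h2⟩)
  -- centralisers of nontrivial elements of `H` in `M` centralise `H`
  have hcent : ∀ h ∈ H, h ≠ 1 → ∀ m ∈ M, h * m = m * h → m ∈ Subgroup.centralizer (H : Set G) := by
    intro h hh h1 m hm hc
    have hmN : m ∈ N := by
      by_contra hmN
      exact h1 (hTI m hmN h hh (by rw [← hc]; simpa using hh))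
    rw [Subgroup.mem_centralizer_iff]
    intro y hy
    have e1 : y⁻¹ * (m * y * m⁻¹) ∈ H := H.mul_mem (H.inv_mem hy) ((Subgroup.mem_normalizer_iff.mp hmN y).mp hy)
    have e2 : y⁻¹ * (m * y * m⁻¹) ∈ M := by
      rw [show y⁻¹ * (m * y * m⁻¹) = (y⁻¹ * m * y⁻¹⁻¹) * m⁻¹ by group]
      exact M.mul_mem (hMn.conj_mem m hm _) (M.inv_mem hm)
    have e3 := htriv _ e2 e1
    rw [inv_mul_eq_one] at e3
    calc y * m = (m * y * m⁻¹) * m := by rw [← e3]
      _ = m * y := by group
  set C := M ⊓ Subgroup.centralizer (H : Set G) with hC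
  have hHM : H ≤ Subgroup.normalizer (M : Set G) := by
    rw [Subgroup.normalizer_eq_top_iff.mpr hMn]; exact le_top
  -- an invariant Sylow subgroup which is not centralised
  obtain ⟨q, hq, Q, hQ, hQH, hQC⟩ : ∃ (q : ℕ) (_ : Fact q.Prime) (Q : Subgroup G),
      Coprime.IsSylowOf q Q M ∧ H ≤ Subgroup.normalizer (Q : Set G) ∧ ¬ Q ≤ C := by
    by_contra hcon
    push Not at hcon
    refine hnn ?_
    have hMC : M ≤ C := by
      refine (Subgroup.eq_of_le_of_card_ge (inf_le_left : C ≤ M) (Nat.le_of_dvd Nat.card_pos ?_)).ge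
      refine (Nat.dvd_iff_prime_pow_dvd_dvd _ _).mpr fun q k hq hk => ?_
      haveI := Fact.mk hq
      obtain ⟨Q, hQM, hQ⟩ : ∃ Q : Subgroup G, Q ≤ C ∧ Coprime.IsSylowOf q Q M := by
        obtain ⟨Q, hQ, hQA⟩ := exists_invariant H hTI hH M hMc q
        exact ⟨Q, hcon q inferInstance Q hQ hQA, hQ⟩
      refine (pow_dvd_pow q ((hq.pow_dvd_iff_le_factorization Nat.card_pos.ne').mp hk)).trans ?_
      rw [← hQ.2]
      exact Subgroup.card_dvd_of_le hQM
    refine ⟨fun x hx g => ?_⟩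
    obtain ⟨⟨⟨m, hm⟩, ⟨h, hh⟩⟩, rfl⟩ := hMc.2 g
    show m * h * x * (m * h)⁻¹ ∈ H
    have hy : h * x * h⁻¹ ∈ H := H.mul_mem (H.mul_mem hh hx) (H.inv_mem hh)
    rw [show m * h * x * (m * h)⁻¹ = m * (h * x * h⁻¹) * m⁻¹ by group,
      ← Subgroup.mem_centralizer_iff.mp (hMC hm).2 _ hy, mul_inv_cancel_right]
    exact hy
  -- the fixed-point-free section
  set C₀ := Q ⊓ Subgroup.centralizer (H : Set G) with hC₀
  have hC₀Q : C₀ < Q := lt_of_le_of_ne inf_le_left fun h => hQC fun x hx => ⟨hQ.1 hx, (h.ge hx).2⟩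
  set W := Q ⊓ Subgroup.normalizer (C₀ : Set G) with hW
  have hC₀W : C₀ < W := by
    haveI : Group.IsNilpotent Q := hQ.isPGroup.isNilpotent
    have hlt : C₀.subgroupOf Q < ⊤ := by
      rw [lt_top_iff_ne_top, Ne, Subgroup.subgroupOf_eq_top]
      exact fun h => hC₀Q.not_ge h
    obtain ⟨x, hxN, hxC⟩ := SetLike.exists_of_lt (Group.normalizerCondition_of_isNilpotent _ hlt)
    refine lt_of_le_of_ne (le_inf inf_le_left Subgroup.le_normalizer) fun h => hxC ?_
    show (x : G) ∈ C₀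
    rw [h]
    refine ⟨x.2, Subgroup.mem_normalizer_iff.mpr fun y => ?_⟩
    constructor
    · intro hy
      exact (Subgroup.mem_normalizer_iff.mp hxN ⟨y, hy.1⟩).mp hy
    · intro hy
      have hyQ : y ∈ Q := by
        have h1 := Q.mul_mem (Q.mul_mem (Q.inv_mem x.2) hy.1) x.2
        rwa [show (x : G)⁻¹ * ((x : G) * y * (x : G)⁻¹) * x = y by group] at h1
      exact (Subgroup.mem_normalizer_iff.mp hxN ⟨y, hyQ⟩).mpr hy
  have hHC₀ : H ≤ Subgroup.normalizer (C₀ : Set G) := Coprime.le_normalizer_of_conj_mem fun a ha x hx => by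
    have : a * x = x * a := Subgroup.mem_centralizer_iff.mp hx.2 a ha
    rwa [this, mul_inv_cancel_right]
  have hHW : H ≤ Subgroup.normalizer (W : Set G) := Coprime.le_normalizer_of_conj_mem fun a ha x hx => by
    refine ⟨(Coprime.conj_mem_iff (hQH ha)).mpr hx.1, ?_⟩
    exact Subgroup.mul_mem _ (Subgroup.mul_mem _ (hHC₀ ha) hx.2) (Subgroup.inv_mem _ (hHC₀ ha))
  set X := W ⊔ H with hX
  have hXn : X ≤ Subgroup.normalizer (C₀ : Set G) := sup_le inf_le_right hHC₀
  haveI : (C₀.subgroupOf X).Normal := Subgroup.normal_subgroupOf_of_le_normalizer hXn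
  haveI : (W.subgroupOf X).Normal := Subgroup.normal_subgroupOf_of_le_normalizer (sup_le Subgroup.le_normalizer hHW)
  set π := QuotientGroup.mk' (C₀.subgroupOf X) with hπ
  have hπs : Function.Surjective π := QuotientGroup.mk'_surjective _
  have hπ1 : ∀ x : X, π x = 1 ↔ (x : G) ∈ C₀ := fun x => QuotientGroup.eq_one_iff x
  set V := (W.subgroupOf X).map π with hV
  haveI : V.Normal := Subgroup.Normal.map inferInstance π hπs
  set Cc := (H.subgroupOf X).map π with hCc
  have hWM : W ≤ M := inf_le_left.trans hQ.1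
  have hdis : V ⊓ Cc = ⊥ := by
    rw [Subgroup.eq_bot_iff_forall]
    rintro _ ⟨⟨w, hw, rfl⟩, h, hh, he⟩
    rw [← he]
    have h1 : π (h⁻¹ * w) = 1 := by rw [map_mul, map_inv, he, inv_mul_cancel]
    rw [hπ1] at h1
    have h2 : (h : G)⁻¹ ∈ M := by
      have := M.mul_mem (hQ.1 h1.1) (M.inv_mem (hWM hw))
      simpa using this
    rw [show h = 1 from Subtype.ext (htriv _ (by simpa using M.inv_mem h2) hh), map_one]
  have hcompl : Subgroup.IsComplement' V Cc := Subgroup.isComplement'_of_disjoint_and_mul_eq_univ (disjoint_iff.mpr hdis) (by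
    refine Set.eq_univ_of_forall fun y => ?_
    obtain ⟨⟨x, hx⟩, rfl⟩ := hπs y
    obtain ⟨w, hw, h, hh, rfl⟩ := (Coprime.mem_sup_of_le_normalizer hHW).mp hx
    exact ⟨_, ⟨⟨w, Subgroup.mem_sup_left hw⟩, hw, rfl⟩, _, ⟨⟨h, Subgroup.mem_sup_right hh⟩, hh, rfl⟩, (map_mul π _ _).symm⟩)
  let e : H →* (X ⧸ C₀.subgroupOf X) := π.comp (Subgroup.inclusion (le_sup_right : H ≤ X))
  have he : Function.Injective e := (injective_iff_map_eq_one e).mpr fun h hh =>
    Subtype.ext (htriv _ (hQ.1 ((hπ1 _).mp hh).1) h.2)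
  have herange : e.range = Cc := by
    ext y
    constructor
    · rintro ⟨h, rfl⟩; exact ⟨_, h.2, rfl⟩
    · rintro ⟨h, hh, rfl⟩; exact ⟨⟨h, hh⟩, rfl⟩
  have hVne : V ≠ ⊥ := fun h => by
    obtain ⟨w, hw, hwC⟩ := SetLike.exists_of_lt hC₀W
    have : π ⟨w, Subgroup.mem_sup_left hw⟩ ∈ V := ⟨_, hw, rfl⟩
    rw [h, Subgroup.mem_bot, hπ1] at this
    exact hwC this
  have hCne : Cc ≠ ⊥ := fun h => by
    obtain ⟨h0, hh0, hh1⟩ := (Subgroup.ne_bot_iff_exists_ne_one.mp hH1) |> fun ⟨a, ha⟩ => (⟨a.1, a.2, fun hh => ha (Subtype.ext hh)⟩ : ∃ a, a ∈ H ∧ a ≠ 1)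
    have : e ⟨h0, hh0⟩ ∈ Cc := herange ▸ ⟨_, rfl⟩
    rw [h, Subgroup.mem_bot] at this
    exact hh1 (congrArg Subtype.val (he (this.trans (map_one e).symm)))
  refine ⟨_, inferInstance, inferInstance, Cc, FrobBasic.isFrobeniusComplement_of_fpf V hcompl hVne hCne ?_,
    ⟨(MonoidHom.ofInjective he).trans (MulEquiv.subgroupCongr herange)⟩⟩
  rintro _ ⟨h, hh, rfl⟩ hne _ ⟨w, hw, rfl⟩ hcomm
  rw [hπ1]
  have hh1 : (h : G) ≠ 1 := fun h' => hne (by rw [show h = 1 from Subtype.ext h', map_one])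
  set A := Subgroup.zpowers (h : G) with hA
  have hAH : A ≤ H := Subgroup.zpowers_le.mpr hh
  have hcopA : ∀ Y : Subgroup G, Y ≤ M → (Nat.card A).Coprime (Nat.card Y) := fun Y hY =>
    (hcop.coprime_dvd_left (Subgroup.card_dvd_of_le hAH)).coprime_dvd_right (Subgroup.card_dvd_of_le hY)
  have hbase : (w : G)⁻¹ * h * w * (h : G)⁻¹ ∈ C₀ := by
    have h1 : π (w⁻¹ * h * w * h⁻¹) = 1 := by
      rw [map_mul, map_mul, map_mul, map_inv, map_inv, mul_assoc _ (π h) (π w), hcomm]; group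
    exact (hπ1 _).mp h1
  have hall : ∀ a ∈ A, (w : G)⁻¹ * a * w * a⁻¹ ∈ C₀ := by
    intro a ha
    obtain ⟨i, rfl⟩ := Subgroup.mem_zpowers_iff.mp ha
    have hpi : π (w⁻¹ * h ^ i * w * (h ^ i)⁻¹) = 1 := by
      have hc' := ((show Commute (π h) (π w) from hcomm).zpow_left i).eq
      rw [map_mul, map_mul, map_mul, map_inv, map_inv, map_zpow, mul_assoc _ (π h ^ i) (π w), hc']; group
    exact (hπ1 _).mp hpi
  obtain ⟨c, hc, hwc⟩ := Coprime.exists_fixed_of_coset (N := C₀) (A := A) (G := W)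
    (hAH.trans hHC₀) (hcopA _ (inf_le_left.trans hQ.1)) (Or.inr inferInstance) (hAH.trans hHW) (hcopA _ hWM) hC₀W.le hw hall
  have hcC : c ∈ C₀ := ⟨hc.1.1, hcent _ hh hh1 c (hWM hc.1) ((Subgroup.mem_centralizer_iff.mp hc.2) _ (Subgroup.mem_zpowers _))⟩
  have := C₀.mul_mem hcC (C₀.inv_mem hwc)
  simpa using this

end Cfsg.Agent.S4115
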