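import Cfsg.Statements.S4117
import Cfsg.Agent.Lib.GroupB.Coprime

set_option autoImplicit false
open Cfsg

namespace Cfsg.Agent.S4117
open scoped commutatorElement

/-- Let A be a finite group acting on the finite group G by automorphisms with the orders of A and G coprime, and suppose every Sylow subgroup of G is cyclic. Then the fixed-point subgroup C_G(A) is a Hall subgroup of G (its order is coprime to its index), the subgroup [G, A] generated by the elements g⁻¹·a(g) is cyclic and normal with [G, A] ∩ C_G(A) = 1 and [G, A]·C_G(A) = G. -/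
theorem result {G A : Type*} [Group G] [Finite G] [Group A] [Finite A]
    [MulDistribMulAction A G] (hcop : (Nat.card A).Coprime (Nat.card G))
    (hcyc : ∀ (p : ℕ) [Fact p.Prime] (P : Sylow p G), IsCyclic (P : Subgroup G)) :
    (Nat.card (MulAction.fixedPoints A G : Set G)).Coprime (Nat.card G / Nat.card (MulAction.fixedPoints A G : Set G)) ∧
    IsCyclic (Subgroup.closure {y : G | ∃ (a : A) (g : G), y = g⁻¹ * a • g}) ∧
    (Subgroup.closure {y : G | ∃ (a : A) (g : G), y = g⁻¹ * a • g}).Normal ∧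
    (Subgroup.closure {y : G | ∃ (a : A) (g : G), y = g⁻¹ * a • g} : Set G) ∩ MulAction.fixedPoints A G = {1} ∧
    Subgroup.closure {y : G | ∃ (a : A) (g : G), y = g⁻¹ * a • g} ⊔ Subgroup.closure (MulAction.fixedPoints A G) = ⊤ := by
  classical
  haveI := Fintype.ofFinite A
  haveI hZ : IsZGroup G := ⟨fun p hp P => haveI := Fact.mk hp; hcyc p P⟩
  let φ : A →* MulAut G := MulDistribMulAction.toMulAut A G
  haveI : Finite (SemidirectProduct G A φ) := Finite.of_equiv _ SemidirectProduct.equivProd.symm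
  let ι : G →* (SemidirectProduct G A φ) := SemidirectProduct.inl
  let κ : A →* (SemidirectProduct G A φ) := SemidirectProduct.inr
  have hιinj : Function.Injective ι := SemidirectProduct.inl_injective
  have hconj : ∀ (a : A) (g : G), κ a * ι g * (κ a)⁻¹ = ι (a • g) := fun a g => by
    show κ a * ι g * (κ a)⁻¹ = ι (φ a g)
    rw [← map_inv]; exact (SemidirectProduct.inl_aut a g).symm
  set D0 : Subgroup G := Subgroup.closure {y : G | ∃ (a : A) (g : G), y = g⁻¹ * a • g} with hD0
  let C0 : Subgroup G :=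
    { carrier := MulAction.fixedPoints A G
      one_mem' := fun a => smul_one a
      mul_mem' := fun {x y} hx hy a => by rw [smul_mul', hx a, hy a]
      inv_mem' := fun {x} hx a => by rw [smul_inv', hx a] }
  have hGN : (ι.range).Normal := by
    rw [show ι.range = (SemidirectProduct.rightHom : (SemidirectProduct G A φ) →* A).ker from SemidirectProduct.range_inl_eq_ker_rightHom]
    infer_instance
  have hAG : κ.range ≤ Subgroup.normalizer (ι.range : Set (SemidirectProduct G A φ)) := by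
    rw [Subgroup.normalizer_eq_top]; exact le_top
  have hcardG : Nat.card ι.range = Nat.card G := Nat.card_congr (MonoidHom.ofInjective hιinj).toEquiv.symm
  have hcardA : Nat.card κ.range = Nat.card A :=
    Nat.card_congr (MonoidHom.ofInjective (SemidirectProduct.inr_injective (φ := φ))).toEquiv.symm
  have hcop' : (Nat.card κ.range).Coprime (Nat.card ι.range) := by rw [hcardG, hcardA]; exact hcop
  haveI hsolG : Group.IsSolvable ι.range :=
    solvable_of_surjective (f := ι.rangeRestrict) ι.rangeRestrict_surjective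
  have hD1 : ⁅ι.range, κ.range⁆ = D0.map ι := by
    apply le_antisymm
    · rw [Subgroup.commutator_le]
      rintro _ ⟨g, rfl⟩ _ ⟨a, rfl⟩
      refine ⟨(g⁻¹)⁻¹ * a • g⁻¹, Subgroup.subset_closure ⟨a, g⁻¹, rfl⟩, ?_⟩
      rw [map_mul, ← hconj, map_inv, map_inv, commutatorElement_def, inv_inv]
      simp [mul_assoc]
    · rw [MonoidHom.map_closure, Subgroup.closure_le]
      rintro _ ⟨_, ⟨a, g, rfl⟩, rfl⟩
      have h1 := Subgroup.commutator_mem_commutator (H₁ := ι.range) (H₂ := κ.range) (g₁ := ι g⁻¹) (g₂ := κ a) ⟨_, rfl⟩ ⟨a, rfl⟩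
      rw [commutatorElement_def, map_inv, inv_inv] at h1
      rw [SetLike.mem_coe, map_mul, ← hconj, map_inv]
      simpa [mul_assoc] using h1
  have hC1 : ι.range ⊓ Subgroup.centralizer (κ.range : Set (SemidirectProduct G A φ)) = C0.map ι := by
    ext x
    constructor
    · rintro ⟨⟨g, rfl⟩, hx⟩
      refine ⟨g, fun a => hιinj ?_, rfl⟩
      rw [← hconj, Subgroup.mem_centralizer_iff.mp hx (κ a) ⟨a, rfl⟩, mul_inv_cancel_right]
    · rintro ⟨g, hg, rfl⟩
      refine ⟨⟨g, rfl⟩, Subgroup.mem_centralizer_iff.mpr ?_⟩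
      rintro _ ⟨a, rfl⟩
      have h1 := hconj a g
      rw [show a • g = g from hg a] at h1
      exact mul_inv_eq_iff_eq_mul.mp h1
  have hinv : ∀ (a : A), ∀ d ∈ D0, a • d ∈ D0 := by
    intro a d hd
    have h1 : κ a ∈ Subgroup.normalizer ((⁅ι.range, κ.range⁆ : Subgroup (SemidirectProduct G A φ)) : Set (SemidirectProduct G A φ)) :=
      CfsgLib.GroupB.Coprime.le_normalizer_commutator _ _ (Subgroup.mem_sup_right ⟨a, rfl⟩)
    have h2 := (CfsgLib.GroupB.Coprime.conj_mem_iff h1).mpr (hD1.ge ⟨d, hd, rfl⟩)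
    rw [hconj, hD1] at h2
    obtain ⟨e, he, hee⟩ := h2
    exact hιinj hee ▸ he
  haveI hDn : D0.Normal := by
    refine ⟨fun d hd g => ?_⟩
    have h1 : ι g ∈ Subgroup.normalizer ((⁅ι.range, κ.range⁆ : Subgroup (SemidirectProduct G A φ)) : Set (SemidirectProduct G A φ)) :=
      CfsgLib.GroupB.Coprime.le_normalizer_commutator _ _ (Subgroup.mem_sup_left ⟨g, rfl⟩)
    have h2 := (CfsgLib.GroupB.Coprime.conj_mem_iff h1).mpr (hD1.ge ⟨d, hd, rfl⟩)
    rw [hD1] at h2
    obtain ⟨e, he, hee⟩ := h2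
    rw [← map_inv, ← map_mul, ← map_mul] at hee
    exact hιinj hee ▸ he
  have hDD : ⁅D0.map ι, κ.range⁆ = D0.map ι := by
    rw [← hD1]
    exact CfsgLib.GroupB.Coprime.commutator_commutator_eq hAG hcop' (Or.inl hsolG)
  -- D0 is cyclic
  haveI hcE : IsCyclic (commutator D0) := IsZGroup.isCyclic_commutator D0
  have hED : ∀ e ∈ (⁅D0, D0⁆ : Subgroup G), e ∈ D0 := fun e he => Subgroup.commutator_le_left D0 D0 he
  have hEcomm : ∀ d ∈ D0, ∀ e ∈ (⁅D0, D0⁆ : Subgroup G), Commute d e := by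
    obtain ⟨⟨e₀, he₀⟩, hgen⟩ := hcE.exists_generator
    have hmap : (⁅D0, D0⁆ : Subgroup G) = (commutator D0).map D0.subtype := by
      rw [commutator_def, Subgroup.map_commutator, ← MonoidHom.range_eq_map, Subgroup.range_subtype]
    have hgen' : ∀ e ∈ (⁅D0, D0⁆ : Subgroup G), ∃ i : ℤ, e = (e₀ : G) ^ i := by
      intro e he
      rw [hmap] at he
      obtain ⟨e', he', rfl⟩ := he
      obtain ⟨i, hi⟩ := hgen ⟨e', he'⟩
      exact ⟨i, by rw [← SubgroupClass.coe_zpow]; exact (congrArg (fun z : commutator D0 => ((z : D0) : G)) hi).symm⟩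
    have he₀' : (e₀ : G) ∈ (⁅D0, D0⁆ : Subgroup G) := hmap ▸ ⟨e₀, he₀, rfl⟩
    have hstab : ∀ x : (SemidirectProduct G A φ), (∀ d ∈ D0, ∃ d' ∈ D0, x * ι d * x⁻¹ = ι d') → ∃ i : ℤ, x * ι e₀ * x⁻¹ = ι e₀ ^ i := by
      intro x hx
      have hle : (D0.map ι).map (MulAut.conj x).toMonoidHom ≤ D0.map ι := by
        rintro _ ⟨_, ⟨d, hd, rfl⟩, rfl⟩
        obtain ⟨d', hd', he⟩ := hx d hd
        exact ⟨d', hd', he.symm⟩
      have h1 : x * ι e₀ * x⁻¹ ∈ (⁅D0, D0⁆ : Subgroup G).map ι := by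
        have h2 : ((⁅D0, D0⁆ : Subgroup G).map ι).map (MulAut.conj x).toMonoidHom ≤ (⁅D0, D0⁆ : Subgroup G).map ι := by
          rw [Subgroup.map_commutator, Subgroup.map_commutator]
          exact Subgroup.commutator_mono hle hle
        exact h2 ⟨_, ⟨_, he₀', rfl⟩, rfl⟩
      obtain ⟨e, he, hee⟩ := h1
      obtain ⟨i, rfl⟩ := hgen' e he
      exact ⟨i, by rw [← hee, map_zpow]⟩
    have key : D0.map ι ≤ Subgroup.centralizer ({ι (e₀ : G)} : Set (SemidirectProduct G A φ)) := by
      rw [← hDD, Subgroup.commutator_le]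
      rintro _ ⟨d, hd, rfl⟩ _ ⟨a, rfl⟩
      obtain ⟨i, hi⟩ := hstab (ι d) fun d' hd' => ⟨d * d' * d⁻¹, D0.mul_mem (D0.mul_mem hd hd') (D0.inv_mem hd), by simp⟩
      obtain ⟨j, hj⟩ := hstab (κ a) fun d' hd' => ⟨a • d', hinv a d' hd', hconj a d'⟩
      rw [Subgroup.mem_centralizer_singleton_iff, commutatorElement_def]
      have h3 : (ι d * κ a) * ι e₀ * (ι d * κ a)⁻¹ = (κ a * ι d) * ι e₀ * (κ a * ι d)⁻¹ := by
        calc (ι d * κ a) * ι e₀ * (ι d * κ a)⁻¹ = ι d * (κ a * ι e₀ * (κ a)⁻¹) * (ι d)⁻¹ := by simp [mul_assoc]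
          _ = (ι e₀ ^ i) ^ j := by rw [hj, ← conj_zpow, hi]
          _ = (ι e₀ ^ j) ^ i := by rw [zpow_comm]
          _ = κ a * (ι d * ι e₀ * (ι d)⁻¹) * (κ a)⁻¹ := by rw [hi, ← conj_zpow, hj]
          _ = _ := by simp [mul_assoc]
      calc ι d * κ a * (ι d)⁻¹ * (κ a)⁻¹ * ι e₀ = (ι d * κ a) * ((κ a * ι d)⁻¹ * ι e₀ * (κ a * ι d)) * (κ a * ι d)⁻¹ := by group
        _ = ι e₀ * (ι d * κ a * (ι d)⁻¹ * (κ a)⁻¹) := by
          have h4 : (κ a * ι d)⁻¹ * ((ι d * κ a) * ι e₀ * (ι d * κ a)⁻¹) * (κ a * ι d) = ι e₀ := by rw [h3]; group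
          have h5 : Commute ((κ a * ι d)⁻¹ * (ι d * κ a)) (ι e₀) := by
            show _ = _
            calc (κ a * ι d)⁻¹ * (ι d * κ a) * ι e₀ = ((κ a * ι d)⁻¹ * ((ι d * κ a) * ι e₀ * (ι d * κ a)⁻¹) * (κ a * ι d)) * ((κ a * ι d)⁻¹ * (ι d * κ a)) := by group
              _ = _ := by rw [h4]
          have h6 : Commute (ι d * κ a * (κ a * ι d)⁻¹) (ι e₀) := by
            obtain ⟨i', hi'⟩ := hstab (κ a * ι d) fun d' hd' => ⟨a • (d * d' * d⁻¹), hinv a _ (D0.mul_mem (D0.mul_mem hd hd') (D0.inv_mem hd)), by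
              rw [← hconj, map_mul, map_mul, map_inv]; group⟩
            obtain ⟨k, hk⟩ := hstab (κ a * ι d)⁻¹ fun d' hd' => ⟨d⁻¹ * (a⁻¹ • d') * d, D0.mul_mem (D0.mul_mem (D0.inv_mem hd) (hinv a⁻¹ d' hd')) hd, by
              rw [map_mul, map_mul, map_inv, ← hconj, map_inv κ]; group⟩
            show _ = _
            have h7 := (h5.zpow_right k).eq
            rw [← hk] at h7
            calc ι d * κ a * (κ a * ι d)⁻¹ * ι e₀ = (κ a * ι d) * (((κ a * ι d)⁻¹ * (ι d * κ a)) * ((κ a * ι d)⁻¹ * ι e₀ * ((κ a * ι d)⁻¹)⁻¹)) * (κ a * ι d)⁻¹ := by group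
              _ = _ := by rw [h7]; group
          calc _ = ι d * κ a * (κ a * ι d)⁻¹ * ι e₀ := by group
            _ = ι e₀ * (ι d * κ a * (κ a * ι d)⁻¹) := h6.eq
            _ = _ := by group
    intro d hd e he
    obtain ⟨i, rfl⟩ := hgen' e he
    have h1 : Commute d (e₀ : G) := hιinj (by
      rw [map_mul, map_mul]
      exact Subgroup.mem_centralizer_singleton_iff.mp (key ⟨d, hd, rfl⟩))
    exact h1.zpow_right i
  haveI hDc : IsCyclic D0 := by
    haveI : IsCyclic (D0 ⧸ commutator D0) := IsZGroup.isCyclic_abelianization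
    have hab : ∀ x y : D0, x * y = y * x := fun x y =>
      commutative_of_cyclic_center_quotient (QuotientGroup.mk' (commutator D0)) (by
        rw [QuotientGroup.ker_mk']
        intro e he
        rw [Subgroup.mem_center_iff]
        intro d
        apply Subtype.ext
        have he' : (e : G) ∈ (⁅D0, D0⁆ : Subgroup G) := by
          have := Subgroup.mem_map_of_mem D0.subtype he
          rwa [commutator_def, Subgroup.map_commutator, ← MonoidHom.range_eq_map, Subgroup.range_subtype] at this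
        exact (hEcomm d d.2 e he').eq) x y
    letI : CommGroup D0 := { (inferInstance : Group D0) with mul_comm := hab }
    infer_instance
  letI : CommGroup D0 := IsCyclic.commGroup
  -- the norm map kills D0 and raises fixed points to the power |A|
  let N : D0 →* D0 := ∏ a : A, MonoidHom.mk' (fun d : D0 => (⟨a • (d : G), hinv a d d.2⟩ : D0))
    (fun d d' => Subtype.ext (smul_mul' a (d : G) d'))
  have hNapp : ∀ d, N d = ∏ a : A, (⟨a • (d : G), hinv a d d.2⟩ : D0) := fun d => by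
    simp only [N, MonoidHom.finsetProd_apply, MonoidHom.mk'_apply]
  have hN1 : ∀ d : D0, N d = 1 := by
    have hker : D0.map ι ≤ ((N.ker).map D0.subtype).map ι := by
      conv_lhs => rw [← hDD]
      rw [Subgroup.commutator_le]
      rintro _ ⟨d, hd, rfl⟩ _ ⟨a, rfl⟩
      refine ⟨d * a • d⁻¹, ⟨⟨d, hd⟩ * ⟨a • d⁻¹, hinv a _ (D0.inv_mem hd)⟩, ?_, rfl⟩, ?_⟩
      · rw [SetLike.mem_coe, MonoidHom.mem_ker, map_mul]
        have h1 : N ⟨a • d⁻¹, hinv a _ (D0.inv_mem hd)⟩ = N (⟨d, hd⟩⁻¹) := by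
          rw [hNapp, hNapp]
          refine Fintype.prod_equiv (Equiv.mulRight a) _ _ fun b => Subtype.ext ?_
          show b • a • d⁻¹ = (b * a) • d⁻¹
          rw [smul_smul]
        rw [h1, map_inv, mul_inv_cancel]
      · rw [map_mul, ← hconj, map_inv, commutatorElement_def]
        group
    intro d
    obtain ⟨_, ⟨d', hd', rfl⟩, hdd⟩ := hker ⟨d, d.2, rfl⟩
    have : d' = d := Subtype.ext (hιinj hdd)
    exact this ▸ hd'
  have hint : ∀ x ∈ D0, x ∈ C0 → x = 1 := by
    intro x hx hxC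
    have h1 : (⟨x, hx⟩ : D0) ^ Nat.card A = 1 := by
      rw [← hN1 ⟨x, hx⟩, hNapp, Finset.prod_eq_pow_card (b := ⟨x, hx⟩) fun a _ => Subtype.ext (hxC a),
        Finset.card_univ, Nat.card_eq_fintype_card]
    have h2 : x ^ Nat.card A = 1 := by simpa using congrArg Subtype.val h1
    exact orderOf_eq_one_iff.mp (Nat.eq_one_of_dvd_coprimes hcop (orderOf_dvd_of_pow_eq_one h2) (orderOf_dvd_natCard x))
  have hsup : C0 ⊔ D0 = ⊤ := by
    apply Subgroup.map_injective hιinj
    rw [Subgroup.map_sup, ← hC1, ← hD1, CfsgLib.GroupB.Coprime.centralizer_sup_commutator hAG hcop' (Or.inl hsolG),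
      MonoidHom.range_eq_map]
  have hcard : Nat.card G = Nat.card D0 * Nat.card C0 := by
    have h := CfsgLib.GroupB.Coprime.card_sup_eq (N := D0) (K := C0) (by rw [Subgroup.normalizer_eq_top]; exact le_top)
      (by rw [Subgroup.eq_bot_iff_forall]; rintro x ⟨hx1, hx2⟩; exact hint x hx1 hx2)
    rwa [sup_comm, hsup, Subgroup.card_top] at h
  have hC0 : Nat.card (MulAction.fixedPoints A G : Set G) = Nat.card C0 := rfl
  have hcopCD : (Nat.card C0).Coprime (Nat.card D0) := by
    refine Nat.coprime_of_dvd fun p hp h1 h2 => ?_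
    haveI := Fact.mk hp
    obtain ⟨⟨c, hc⟩, hoc⟩ := exists_prime_orderOf_dvd_card' p h1
    obtain ⟨⟨d, hd⟩, hod⟩ := exists_prime_orderOf_dvd_card' p h2
    rw [Subgroup.orderOf_mk] at hoc hod
    have hU : IsPGroup p (Subgroup.zpowers (ι c)) := IsPGroup.of_card (n := 1) (by
      rw [Nat.card_zpowers, orderOf_injective ι hιinj, hoc, pow_one])
    have hUA : κ.range ≤ Subgroup.normalizer (Subgroup.zpowers (ι c) : Set (SemidirectProduct G A φ)) := by
      refine le_trans ?_ (Subgroup.centralizer_le_normalizer _)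
      intro x hx
      rw [Subgroup.mem_centralizer_iff]
      intro w hw
      obtain ⟨i, rfl⟩ := Subgroup.mem_zpowers_iff.mp hw
      obtain ⟨a, rfl⟩ := hx
      have h3 := hconj a c
      rw [show a • c = c from hc a] at h3
      exact ((show Commute (κ a) (ι c) from mul_inv_eq_iff_eq_mul.mp h3).zpow_right i).symm.eq
    obtain ⟨P, hcP, hP, -⟩ := CfsgLib.GroupB.Coprime.exists_invariant_sylow_ge hAG hcop' (Or.inl hsolG) p
      (Subgroup.zpowers_le.mpr ⟨c, rfl⟩) hU hUA
    -- back in G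
    let P' : Subgroup G := P.comap ι
    have hP'card : Nat.card P' = p ^ (Nat.card G).factorization p := by
      rw [← hcardG, ← hP.2, ← Subgroup.map_comap_eq_self hP.1, Subgroup.card_map_of_injective hιinj]
    let S : Sylow p G := Sylow.ofCard P' hP'card
    have hcS : c ∈ (S : Subgroup G) := hcP (Subgroup.mem_zpowers _)
    obtain ⟨T, hT⟩ := (IsPGroup.of_card (n := 1) (G := Subgroup.zpowers d) (by rw [Nat.card_zpowers, hod, pow_one])).exists_le_sylow
    obtain ⟨g, hg⟩ := MulAction.exists_smul_eq G T S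
    have hdS : g * d * g⁻¹ ∈ (S : Subgroup G) := hg ▸ ⟨d, hT (Subgroup.mem_zpowers d), rfl⟩
    haveI : IsCyclic (S : Subgroup G) := hcyc p S
    letI := Fintype.ofFinite (S : Subgroup G)
    -- a cyclic group has one subgroup of order p
    have hmem : (⟨c, hcS⟩ : (S : Subgroup G)) ∈ Subgroup.zpowers (⟨g * d * g⁻¹, hdS⟩ : (S : Subgroup G)) := by
      have hodd : orderOf (g * d * g⁻¹) = p := by
        rw [← hod]; exact (MulAut.conj g).orderOf_eq d
      by_contra hne
      have hsub : ({x | x ^ p = 1} : Finset (S : Subgroup G)).card ≤ p := IsCyclic.card_pow_eq_one_le hp.pos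
      have hle : insert (⟨c, hcS⟩ : (S : Subgroup G)) (Finset.univ.filter fun x => x ∈ Subgroup.zpowers (⟨g * d * g⁻¹, hdS⟩ : (S : Subgroup G))) ⊆
          ({x | x ^ p = 1} : Finset (S : Subgroup G)) := by
        intro x hx
        simp only [Finset.mem_insert, Finset.mem_filter, Finset.mem_univ, true_and] at hx ⊢
        rcases hx with rfl | hx
        · exact Subtype.ext (by simp [← hoc, pow_orderOf_eq_one])
        · obtain ⟨i, rfl⟩ := Subgroup.mem_zpowers_iff.mp hx
          rw [← zpow_natCast, zpow_comm, zpow_natCast, show (⟨g * d * g⁻¹, hdS⟩ : (S : Subgroup G)) ^ p = 1 by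
            apply Subtype.ext; have hh := pow_orderOf_eq_one (g * d * g⁻¹); rw [hodd] at hh; rw [SubgroupClass.coe_pow]; exact hh, one_zpow]
      have h5 := (Finset.card_le_card hle).trans hsub
      rw [Finset.card_insert_of_notMem (by simpa using hne), ← Fintype.card_subtype, ← Nat.card_eq_fintype_card] at h5
      have h6 : Nat.card {x // x ∈ Subgroup.zpowers (⟨g * d * g⁻¹, hdS⟩ : (S : Subgroup G))} = p := by
        rw [Nat.card_zpowers, Subgroup.orderOf_mk, hodd]
      omega
    obtain ⟨i, hi⟩ := Subgroup.mem_zpowers_iff.mp hmem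
    have hcD : c ∈ D0 := by
      rw [← show (g * d * g⁻¹) ^ i = c by simpa using congrArg Subtype.val hi]
      exact D0.zpow_mem (hDn.conj_mem d hd g) i
    rw [hint c hcD hc, orderOf_one] at hoc
    exact hp.one_lt.ne hoc
  refine ⟨?_, hDc, hDn, ?_, ?_⟩
  · rw [hC0, hcard, Nat.mul_div_cancel _ Nat.card_pos]
    exact hcopCD
  · ext x
    simp only [Set.mem_inter_iff, SetLike.mem_coe, Set.mem_singleton_iff]
    exact ⟨fun h => hint x h.1 h.2, fun h => h ▸ ⟨D0.one_mem, C0.one_mem⟩⟩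
  · rw [show (MulAction.fixedPoints A G : Set G) = (C0 : Set G) from rfl, Subgroup.closure_eq, sup_comm]
    exact hsup

end Cfsg.Agent.S4117
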