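import Cfsg.Statements.S4126
import Cfsg.Agent.Lib.NPCFix

set_option autoImplicit false
open Cfsg

namespace Cfsg.Agent.S4126

/-- Let G be a finite group and p a prime. Suppose every element of order p, and when p = 2 also every element of order 4, has a conjugacy class of p-power size. Then G has a normal p-complement. -/
theorem result {G : Type*} [Group G] [Finite G] (p : ℕ) [Fact p.Prime]
    (h : ∀ x : G, (orderOf x = p ∨ (p = 2 ∧ orderOf x = 4)) → ∃ a : ℕ, (Subgroup.centralizer ({x} : Set G)).index = p ^ a) :
    Cfsg.HasNormalPComplement p G := by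
  classical
  obtain ⟨P⟩ := (inferInstance : Nonempty (Sylow p G))
  refine CfsgLib.NPCFix.npc_of_control P fun a ha hs g _ => ?_
  have hp : p.Prime := Fact.out
  by_cases ha1 : a = 1
  · exact ⟨1, one_mem _, by simp [ha1]⟩
  have ho : orderOf a = p ∨ (p = 2 ∧ orderOf a = 4) := by
    rcases hs with h1 | ⟨h2, h4⟩
    · exact Or.inl (orderOf_eq_prime h1 ha1)
    · subst h2
      obtain ⟨i, hi, hio⟩ := (Nat.dvd_prime_pow Nat.prime_two).mp
        (show orderOf a ∣ 2 ^ 2 from orderOf_dvd_of_pow_eq_one h4)
      interval_cases i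
      · exact absurd (orderOf_eq_one_iff.mp (by simpa using hio)) ha1
      · exact Or.inl (by simpa using hio)
      · exact Or.inr ⟨rfl, by simpa using hio⟩
  obtain ⟨k, hk⟩ := h a ho
  set C := Subgroup.centralizer ({a} : Set G) with hC
  let f : ↥(P : Subgroup G) ⧸ C.subgroupOf (P : Subgroup G) → G ⧸ C :=
    Quotient.map' Subtype.val (fun x y h => by
      rw [QuotientGroup.leftRel_apply] at h ⊢
      exact h)
  have hinj : Function.Injective f := by
    intro x y
    induction x using Quotient.inductionOn' with
    | h x =>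
      induction y using Quotient.inductionOn' with
      | h y =>
        intro e
        refine Quotient.sound' ?_
        rw [QuotientGroup.leftRel_apply]
        have e' : ((x : G) : G ⧸ C) = ((y : G) : G ⧸ C) := e
        exact (QuotientGroup.eq (s := C)).mp e'
  have hcard : C.index ≤ C.relIndex (P : Subgroup G) := by
    obtain ⟨j, hj⟩ := (P.isPGroup'.to_subgroup (C.subgroupOf (P : Subgroup G))).exists_card_eq
    have hd : p ^ j ∣ Nat.card C := by
      rw [← hj]
      exact Subgroup.card_dvd_of_injective
        (((P : Subgroup G).subtype.comp (C.subgroupOf (P : Subgroup G)).subtype).codRestrict C fun z => z.2)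
        fun z w e => Subtype.ext (Subtype.ext (congrArg (fun q : C => (q : G)) e))
    have hle : j + k ≤ (Nat.card G).factorization p := by
      rw [← hp.pow_dvd_iff_le_factorization Nat.card_pos.ne', pow_add, ← C.card_mul_index, hk]
      exact Nat.mul_dvd_mul hd dvd_rfl
    have h2 : p ^ j * C.relIndex (P : Subgroup G) = p ^ (Nat.card G).factorization p := by
      rw [← hj, ← P.card_eq_multiplicity]; exact Subgroup.card_mul_index _
    rw [hk]
    refine Nat.le_of_mul_le_mul_left ?_ (pow_pos hp.pos j)
    rw [h2, ← pow_add]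
    exact Nat.pow_le_pow_right hp.pos hle
  have hsurj : Function.Surjective f :=
    (hinj.bijective_of_nat_card_le (by rw [← Subgroup.index_eq_card, ← Subgroup.index_eq_card]; exact hcard)).2
  obtain ⟨x, hx⟩ := hsurj (g : G ⧸ C)
  induction x using Quotient.inductionOn' with
  | h x =>
    have hx' : ((x : G) : G ⧸ C) = ((g : G) : G ⧸ C) := hx
    refine ⟨x, x.2, ?_⟩
    have hm := Subgroup.mem_centralizer_iff.mp ((QuotientGroup.eq (s := C)).mp hx') a rfl
    calc g * a * g⁻¹ = (x : G) * (((x : G)⁻¹ * g) * a) * ((x : G)⁻¹ * g)⁻¹ * (x : G)⁻¹ := by group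
      _ = (x : G) * a * (x : G)⁻¹ := by rw [← hm]; group

end Cfsg.Agent.S4126
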