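import Cfsg.Statements.S4127
import Cfsg.Agent.Lib.InvariantCore
import Cfsg.Agent.Lib.Core
import Cfsg.Agent.Lib.Thompson.PClosed

set_option autoImplicit false
open Cfsg

namespace Cfsg.Agent.S4127
theorem eq_top_of_conj {G : Type*} [Group G] [Finite G] (H : Subgroup G) (h : ∀ g : G, ∃ c : G, c⁻¹ * g * c ∈ H) : H = ⊤ := by
  classical
  by_contra hne
  letI := Fintype.ofFinite G
  letI := Fintype.ofFinite (G ⧸ H)
  have key := MulAction.sum_card_fixedBy_eq_card_orbits_mul_card_group G (G ⧸ H)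
  haveI : MulAction.IsPretransitive G (G ⧸ H) := MulAction.isPretransitive_quotient G H
  haveI : Subsingleton (Quotient (MulAction.orbitRel G (G ⧸ H))) := ⟨by
    rintro ⟨a⟩ ⟨b⟩
    obtain ⟨g, hg⟩ := MulAction.exists_smul_eq G b a
    exact Quotient.sound ⟨g, hg⟩⟩
  haveI : Nonempty (Quotient (MulAction.orbitRel G (G ⧸ H))) := ⟨Quotient.mk _ (QuotientGroup.mk 1)⟩
  rw [Fintype.card_eq_one_iff_nonempty_unique.mpr ⟨uniqueOfSubsingleton (Classical.arbitrary _)⟩, one_mul] at key
  have h1 : ∀ g : G, 1 ≤ Fintype.card (MulAction.fixedBy (G ⧸ H) g) := fun g => by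
    obtain ⟨c, hc⟩ := h g
    exact Fintype.card_pos_iff.mpr ⟨⟨QuotientGroup.mk c, by
      show QuotientGroup.mk (g * c) = QuotientGroup.mk c
      rw [QuotientGroup.eq, mul_inv_rev, show c⁻¹ * g⁻¹ * c = (c⁻¹ * g * c)⁻¹ by group]
      exact H.inv_mem hc⟩⟩
  have h2 : ∑ _g : G, 1 < ∑ g : G, Fintype.card (MulAction.fixedBy (G ⧸ H) g) :=
    Finset.sum_lt_sum (fun g _ => h1 g) ⟨1, Finset.mem_univ _, by
      have h2 : Fintype.card (MulAction.fixedBy (G ⧸ H) (1 : G)) = H.index := by
        rw [Subgroup.index_eq_card, Nat.card_eq_fintype_card]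
        exact Fintype.card_congr (Equiv.subtypeUnivEquiv fun q => one_smul G q)
      have h3 := Subgroup.index_ne_zero_of_finite (H := H)
      have h4 : H.index ≠ 1 := fun e => hne (Subgroup.index_eq_one.mp e)
      omega⟩
  rw [key, Finset.sum_const, Finset.card_univ, smul_eq_mul, mul_one] at h2
  exact lt_irrefl _ h2

theorem exists_parts {G : Type*} [Group G] [Finite G] (p : ℕ) [Fact p.Prime] (z : G) :
    ∃ u v : G, (∃ k, orderOf u ∣ p ^ k) ∧ ¬ p ∣ orderOf v ∧ Commute u v ∧ u * v = z ∧ u ∈ Subgroup.zpowers z ∧ v ∈ Subgroup.zpowers z := by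
  have hp := (Fact.out : p.Prime)
  set n := orderOf z
  have hn : n ≠ 0 := (orderOf_pos z).ne'
  set A := p ^ n.factorization p with hA
  set B := n / A with hB
  have hAB : A * B = n := Nat.mul_div_cancel' (Nat.ordProj_dvd n p)
  have hBp : ¬ p ∣ B := Nat.not_dvd_ordCompl hp hn
  obtain ⟨s, t, hst⟩ : IsCoprime (A : ℤ) (B : ℤ) :=
    Int.isCoprime_iff_nat_coprime.mpr (by simpa using ((hp.coprime_iff_not_dvd.mpr hBp).pow_left _))
  refine ⟨z ^ (t * B), z ^ (s * A), ⟨n.factorization p, ?_⟩, ?_, (Commute.refl z).zpow_zpow _ _, ?_, Subgroup.zpow_mem _ (Subgroup.mem_zpowers z) _, Subgroup.zpow_mem _ (Subgroup.mem_zpowers z) _⟩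
  · refine orderOf_dvd_of_pow_eq_one ?_
    rw [← zpow_natCast (z ^ (t * (B : ℤ))), ← zpow_mul, ← hA, mul_assoc, ← Nat.cast_mul, mul_comm B A, hAB, mul_comm, zpow_mul,
      zpow_natCast, pow_orderOf_eq_one, one_zpow]
  · intro hd
    refine hBp (hd.trans (orderOf_dvd_of_pow_eq_one ?_))
    rw [← zpow_natCast (z ^ (s * (A : ℤ))), ← zpow_mul, mul_assoc, ← Nat.cast_mul, hAB, mul_comm, zpow_mul,
      zpow_natCast, pow_orderOf_eq_one, one_zpow]
  · rw [← zpow_add, add_comm, hst, zpow_one]

/-- If every p'-element centralises a Sylow p-subgroup, the group is a direct product. -/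
theorem sylow_factor {G : Type*} [Group G] [Finite G] (p : ℕ) [Fact p.Prime]
    (h : ∀ y : G, ¬ p ∣ orderOf y → ∃ S : Sylow p G, y ∈ Subgroup.centralizer ((S : Subgroup G) : Set G)) (R : Sylow p G) :
    (R : Subgroup G).Normal ∧ ∀ y : G, ¬ p ∣ orderOf y → y ∈ Subgroup.centralizer ((R : Subgroup G) : Set G) := by
  classical
  have hp := (Fact.out : p.Prime)
  set H := (R : Subgroup G) ⊔ Subgroup.centralizer ((R : Subgroup G) : Set G) with hH
  have htop : H = ⊤ := by
    refine eq_top_of_conj H fun z => ?_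
    obtain ⟨u, v, ⟨k, hu⟩, hv, hc, huv, -, -⟩ := exists_parts p z
    obtain ⟨S, hS⟩ := h v hv
    set Cv := Subgroup.centralizer ({v} : Set G) with hCv
    have hSC : (S : Subgroup G) ≤ Cv := fun w hw => Subgroup.mem_centralizer_singleton_iff.mpr (Subgroup.mem_centralizer_iff.mp hS w hw)
    obtain ⟨j, -, hj⟩ := (Nat.dvd_prime_pow hp).mp hu
    have huC : u ∈ Cv := Subgroup.mem_centralizer_singleton_iff.mpr hc.eq
    have hup : IsPGroup p (Subgroup.zpowers (⟨u, huC⟩ : Cv)) := IsPGroup.of_card (n := j) (by rw [Nat.card_zpowers, Subgroup.orderOf_mk, hj])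
    obtain ⟨T, hT⟩ := hup.exists_le_sylow
    obtain ⟨c, hc'⟩ := MulAction.exists_smul_eq Cv (S.subtype hSC) T
    have hum : (⟨u, huC⟩ : Cv) ∈ ((c • S.subtype hSC : Sylow p Cv) : Subgroup Cv) := hc' ▸ hT (Subgroup.mem_zpowers _)
    obtain ⟨w, hw, hwe⟩ := hum
    have hwe' : (c : G) * (w : G) * (c : G)⁻¹ = u := congrArg Subtype.val hwe
    obtain ⟨d, hd⟩ := MulAction.exists_smul_eq G R S
    have hvw : (c : G)⁻¹ * z * c = (w : G) * v := by
      have hcv : (c : G) * v = v * c := Subgroup.mem_centralizer_singleton_iff.mp c.2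
      rw [← huv, ← hwe']
      calc (c : G)⁻¹ * ((c : G) * w * (c : G)⁻¹ * v) * c = (w : G) * ((c : G)⁻¹ * (v * c)) := by group
        _ = _ := by rw [← hcv]; group
    refine ⟨(c : G) * d, ?_⟩
    rw [show ((c : G) * d)⁻¹ * z * ((c : G) * d) = d⁻¹ * ((c : G)⁻¹ * z * c) * d by group, hvw,
      show d⁻¹ * ((w : G) * v) * d = (d⁻¹ * w * d) * (d⁻¹ * v * d) by group]
    have hmem : ∀ s ∈ (S : Subgroup G), d⁻¹ * s * d ∈ (R : Subgroup G) := by
      intro s hs
      rw [← hd] at hs
      obtain ⟨r, hr, hre⟩ := hs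
      rw [show d⁻¹ * s * d = r by rw [← hre]; show d⁻¹ * (d * r * d⁻¹) * d = r; group]
      exact hr
    refine H.mul_mem (Subgroup.mem_sup_left (hmem _ hw)) (Subgroup.mem_sup_right (Subgroup.mem_centralizer_iff.mpr fun r hr => ?_))
    have h2 : d * r * d⁻¹ ∈ (S : Subgroup G) := hd ▸ ⟨r, hr, rfl⟩
    have h3 := Subgroup.mem_centralizer_iff.mp hS _ h2
    calc r * (d⁻¹ * v * d) = d⁻¹ * ((d * r * d⁻¹) * v) * d := by group
      _ = _ := by rw [h3]; group
  have hRn : (R : Subgroup G).Normal := by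
    rw [← Subgroup.normalizer_eq_top_iff, eq_top_iff, ← htop]
    exact sup_le Subgroup.le_normalizer (Subgroup.centralizer_le_normalizer _)
  refine ⟨hRn, fun y hy => ?_⟩
  obtain ⟨S, hS⟩ := h y hy
  haveI := Sylow.unique_of_normal R hRn
  rwa [Subsingleton.elim S R] at hS


/-- Let G be a finite group, p a prime and p^a the largest power of p dividing the size of any conjugacy class of G. If some element of p-power order has a conjugacy class of size exactly p^a, then G has a normal p-complement. -/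
theorem result {G : Type*} [Group G] [Finite G] (p : ℕ) [Fact p.Prime]
    (a : ℕ) (hmax : ∀ y : G, ¬ p ^ (a + 1) ∣ (Subgroup.centralizer ({y} : Set G)).index)
    (hx : ∃ x : G, (∃ k : ℕ, orderOf x = p ^ k) ∧ (Subgroup.centralizer ({x} : Set G)).index = p ^ a) :
    Cfsg.HasNormalPComplement p G := by
  classical
  have hp := (Fact.out : p.Prime)
  obtain ⟨x, ⟨kx, hkx⟩, hxi⟩ := hx
  set C := Subgroup.centralizer ({x} : Set G) with hC
  obtain ⟨R⟩ : Nonempty (Sylow p C) := inferInstance
  have hfac := sylow_factor p (G := C) (fun y hy => by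
    -- the centraliser of y in C has index prime to p
    have hyx : Commute (y : G) x := Subgroup.mem_centralizer_singleton_iff.mp y.2
    have hcop : (orderOf x).Coprime (orderOf (y : G)) := by
      rw [hkx, Subgroup.orderOf_coe]
      exact (hp.coprime_iff_not_dvd.mpr hy).pow_left _
    set D := Subgroup.centralizer ({y} : Set C) with hD
    have hle : (Subgroup.centralizer ({x * (y : G)} : Set G)).index = D.index * C.index := by
      have e : Subgroup.centralizer ({x * (y : G)} : Set G) = D.map C.subtype := by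
        ext g
        constructor
        · intro hg
          have hg' : Commute g (x * y) := Subgroup.mem_centralizer_singleton_iff.mp hg
          have hgx : Commute g x := by
            obtain ⟨m, hm⟩ := exists_pow_eq_self_of_coprime (x := x) hcop.symm
            rw [← hm, ← pow_mul]
            have h2 : (x * (y : G)) ^ (orderOf (y : G) * m) = x ^ (orderOf (y : G) * m) := by
              rw [hyx.symm.mul_pow, pow_mul (y : G), pow_orderOf_eq_one, one_pow, mul_one]
            exact h2 ▸ hg'.pow_right _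
          have hgy : Commute g (y : G) := by
            have h3 := hgx.inv_right.mul_right hg'
            rwa [inv_mul_cancel_left] at h3
          exact ⟨⟨g, Subgroup.mem_centralizer_singleton_iff.mpr hgx.eq⟩, Subgroup.mem_centralizer_singleton_iff.mpr (Subtype.ext hgy.eq), rfl⟩
        · rintro ⟨g', hg', rfl⟩
          have h1 : Commute (g' : G) x := Subgroup.mem_centralizer_singleton_iff.mp g'.2
          have h2 : Commute (g' : G) y := congrArg Subtype.val (Subgroup.mem_centralizer_singleton_iff.mp hg')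
          exact Subgroup.mem_centralizer_singleton_iff.mpr (h1.mul_right h2).eq
      rw [e, Subgroup.index_map_subtype]
    have hnd : ¬ p ∣ D.index := fun hd => hmax (x * y) (by
      rw [hle, hxi, pow_succ', ]
      exact Nat.mul_dvd_mul_right hd _)
    obtain ⟨T⟩ : Nonempty (Sylow p D) := inferInstance
    have hTc : Nat.card ((T : Subgroup D).map D.subtype) = p ^ (Nat.card C).factorization p := by
      rw [Subgroup.card_map_of_injective D.subtype_injective, T.card_eq_multiplicity]
      congr 1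
      rw [← D.card_mul_index, Nat.factorization_mul Nat.card_pos.ne' Subgroup.index_ne_zero_of_finite, Finsupp.add_apply,
        Nat.factorization_eq_zero_of_not_dvd hnd, add_zero]
    refine ⟨Sylow.ofCard _ hTc, Subgroup.mem_centralizer_iff.mpr fun w hw => ?_⟩
    exact Subgroup.mem_centralizer_singleton_iff.mp (Subgroup.map_subtype_le (T : Subgroup D) hw)) R
  obtain ⟨hRn, hRc⟩ := hfac
  obtain ⟨L, hL⟩ := Subgroup.exists_right_complement'_of_coprime R.card_coprime_index
  set R' := (R : Subgroup C).map C.subtype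
  set L' := L.map C.subtype
  have hLp : ∀ l ∈ L', ¬ p ∣ orderOf l := by
    rintro _ ⟨l, hl, rfl⟩ hd
    rw [Subgroup.coe_subtype, Subgroup.orderOf_coe] at hd
    have := hd.trans ((Subgroup.orderOf_dvd_natCard L hl).trans (dvd_of_eq hL.symm.index_eq_card.symm))
    exact R.not_dvd_index this
  have hRL : ∀ k ∈ L', ∀ e ∈ R', e * k = k * e := by
    rintro _ ⟨l, hl, rfl⟩ _ ⟨r, hr, rfl⟩
    exact congrArg Subtype.val (Subgroup.mem_centralizer_iff.mp (hRc l (fun hd => hLp _ ⟨l, hl, rfl⟩ (by rw [Subgroup.coe_subtype, Subgroup.orderOf_coe]; exact hd))) r hr)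
  have hLcop : (Nat.card L').Coprime p := by
    rw [Subgroup.card_map_of_injective C.subtype_injective, ← hL.symm.index_eq_card]
    exact (hp.coprime_iff_not_dvd.mpr R.not_dvd_index).symm
  have hcard : Nat.card G = Nat.card L' * (p ^ a * Nat.card R') := by
    rw [← C.card_mul_index, hxi, ← hL.card_mul, Subgroup.card_map_of_injective C.subtype_injective, Subgroup.card_map_of_injective C.subtype_injective]
    ring
  -- G = P C and x lies in the p-core
  set U := Cfsg.pCore p G
  have hxR : x ∈ R' := by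
    have hxC : x ∈ C := Subgroup.mem_centralizer_singleton_iff.mpr rfl
    obtain ⟨T, hT⟩ := (IsPGroup.of_card (n := kx) (G := Subgroup.zpowers (⟨x, hxC⟩ : C)) (by rw [Nat.card_zpowers, Subgroup.orderOf_mk, hkx])).exists_le_sylow
    haveI := Sylow.unique_of_normal R hRn
    exact ⟨⟨x, hxC⟩, (Subsingleton.elim T R) ▸ hT (Subgroup.mem_zpowers _), rfl⟩
  obtain ⟨P, hP⟩ := (R.2.map C.subtype).exists_le_sylow
  have hPC : ∀ g : G, ∃ b ∈ (P : Subgroup G), ∃ c ∈ C, g = b * c := by
    intro g
    have hi : (P : Subgroup G).index ∣ ((P : Subgroup G) ⊓ C).relIndex C * 1 := by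
      rw [mul_one]
      have h1 : (P : Subgroup G).index ∣ ((P : Subgroup G) ⊓ C).index := Subgroup.index_dvd_of_le inf_le_left
      rw [← Subgroup.relIndex_mul_index (inf_le_right : (P : Subgroup G) ⊓ C ≤ C), hxi] at h1
      exact (Nat.Coprime.pow_right a (hp.coprime_iff_not_dvd.mpr P.not_dvd_index).symm).dvd_of_dvd_mul_right h1
    let f : C ⧸ (P : Subgroup G).subgroupOf C → G ⧸ (P : Subgroup G) := Quotient.lift (fun b : C => QuotientGroup.mk (b : G)) (fun b b' hb => QuotientGroup.eq.mpr (QuotientGroup.leftRel_apply.mp hb :))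
    have hf : Function.Injective f := by
      rintro ⟨b⟩ ⟨b'⟩ he
      exact QuotientGroup.eq.mpr (QuotientGroup.eq.mp he :)
    have hc : Nat.card (C ⧸ (P : Subgroup G).subgroupOf C) = Nat.card (G ⧸ (P : Subgroup G)) := le_antisymm (Nat.card_le_card_of_injective f hf) (by
      rw [mul_one, Subgroup.inf_relIndex_right] at hi
      exact Nat.le_of_dvd (Nat.pos_of_ne_zero Subgroup.index_ne_zero_of_finite) hi)
    obtain ⟨q, hq⟩ := ((Nat.bijective_iff_injective_and_card f).mpr ⟨hf, hc⟩).2 (QuotientGroup.mk g⁻¹)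
    obtain ⟨c, rfl⟩ := QuotientGroup.mk_surjective q
    have h2 : (c : G)⁻¹ * g⁻¹ ∈ (P : Subgroup G) := QuotientGroup.eq.mp hq
    exact ⟨g * c, by simpa using (P : Subgroup G).inv_mem h2, (c : G)⁻¹, C.inv_mem c.2, by group⟩
  have hxU : x ∈ U := by
    refine (CfsgLib.Core.le_pCore (Subgroup.normalClosure_normal (s := {x})) ?_) (Subgroup.subset_normalClosure (Set.mem_singleton x))
    refine P.2.to_le ?_
    rw [Subgroup.normalClosure, Subgroup.closure_le]
    intro z hz
    obtain ⟨y, hy, hyz⟩ := Group.mem_conjugatesOfSet_iff.mp hz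
    rw [Set.mem_singleton_iff] at hy
    subst hy
    obtain ⟨g, rfl⟩ := isConj_iff.mp hyz
    obtain ⟨b, hb, c, hc, rfl⟩ := hPC g
    rw [SetLike.mem_coe, show b * c * y * (b * c)⁻¹ = b * (c * y * c⁻¹) * b⁻¹ by group,
      Subgroup.mem_centralizer_singleton_iff.mp hc, mul_inv_cancel_right]
    exact (P : Subgroup G).mul_mem ((P : Subgroup G).mul_mem hb (hP hxR)) ((P : Subgroup G).inv_mem hb)
  haveI := CfsgLib.Core.pCore_characteristic (p := p) (G := G)
  haveI hUn : U.Normal := inferInstance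
  have hUp : IsPGroup p U := CfsgLib.Core.isPGroup_pCore p
  have hLU : ∀ k ∈ L', ∀ u ∈ U, k * u = u * k :=
    CfsgLib.InvariantCore.centralizes_of_commute (R.2.map C.subtype) hUp hLcop (by rw [Subgroup.normalizer_eq_top]; exact le_top)
      (by rw [Subgroup.normalizer_eq_top]; exact le_top) hRL (fun u hu hue k hk => by
        have huC : u ∈ C := Subgroup.mem_centralizer_singleton_iff.mpr (hue x hxR).symm
        obtain ⟨j, hj⟩ := hUp.exists_orderOf_eq_pow ⟨u, hu⟩
        rw [Subgroup.orderOf_mk] at hj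
        obtain ⟨T, hT⟩ := (IsPGroup.of_card (n := j) (G := Subgroup.zpowers (⟨u, huC⟩ : C)) (by rw [Nat.card_zpowers, Subgroup.orderOf_mk, hj])).exists_le_sylow
        haveI := Sylow.unique_of_normal R hRn
        exact (hRL k hk u ⟨⟨u, huC⟩, (Subsingleton.elim T R) ▸ hT (Subgroup.mem_zpowers _), rfl⟩).symm)
  -- the p'-elements of the centraliser of U form L'
  set D := Subgroup.centralizer (U : Set G)
  haveI hDn : D.Normal := Subgroup.normal_centralizer
  have hDC : D ≤ C := fun g hg => Subgroup.mem_centralizer_singleton_iff.mpr (Subgroup.mem_centralizer_iff.mp hg x hxU).symm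
  have hmemL : ∀ g : G, g ∈ L' ↔ g ∈ C ∧ ¬ p ∣ orderOf g := by
    intro g
    refine ⟨fun hg => ⟨Subgroup.map_subtype_le L hg, hLp g hg⟩, fun ⟨hgC, hgp⟩ => ⟨⟨g, hgC⟩, ?_, rfl⟩⟩
    obtain ⟨r, l, hr, hl, hrl⟩ : ∃ r l : C, r ∈ (R : Subgroup C) ∧ l ∈ L ∧ r * l = ⟨g, hgC⟩ := by
      obtain ⟨⟨⟨r, hr⟩, ⟨l, hl⟩⟩, he⟩ := hL.2 (⟨g, hgC⟩ : C)
      exact ⟨r, l, hr, hl, he⟩
    have hcm : Commute r l := Subtype.ext (hRL l ⟨l, hl, rfl⟩ r ⟨r, hr, rfl⟩)
    obtain ⟨j, hj⟩ := R.2.exists_orderOf_eq_pow ⟨r, hr⟩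
    rw [Subgroup.orderOf_mk] at hj
    have hcl : (orderOf r).Coprime (orderOf l) := by
      rw [hj]; exact (hp.coprime_iff_not_dvd.mpr fun hd => hLp _ ⟨l, hl, rfl⟩ (by rw [Subgroup.coe_subtype, Subgroup.orderOf_coe]; exact hd)).pow_left j
    have hd := hcm.orderOf_mul_eq_mul_orderOf_of_coprime hcl
    rw [hrl, Subgroup.orderOf_mk] at hd
    rcases j with _ | j
    · rw [pow_zero, orderOf_eq_one_iff] at hj; rw [← hrl, hj, one_mul]; exact hl
    · exact absurd (hd ▸ Dvd.dvd.mul_right (hj ▸ dvd_pow_self p (Nat.succ_ne_zero j)) _) hgp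
  have hLn : L'.Normal := ⟨fun g hg c => by
    have hgD : g ∈ D := Subgroup.mem_centralizer_iff.mpr fun u hu => (hLU g hg u hu).symm
    refine (hmemL _).mpr ⟨hDC (hDn.conj_mem g hgD c), ?_⟩
    rw [show orderOf (c * g * c⁻¹) = orderOf g from (MulAut.conj c).orderOf_eq g]
    exact hLp g hg⟩
  refine ⟨P, L', hLn, Subgroup.isComplement'_of_coprime ?_ ?_⟩
  · rw [P.card_eq_multiplicity]
    have hR'c : ∃ r, Nat.card R' = p ^ r := IsPGroup.iff_card.mp (R.2.map C.subtype)
    obtain ⟨r, hr⟩ := hR'c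
    have hf : (Nat.card G).factorization p = a + r := by
      rw [hcard, hr, ← pow_add, Nat.factorization_mul Nat.card_pos.ne' (pow_ne_zero _ hp.ne_zero), Finsupp.add_apply,
        Nat.factorization_eq_zero_of_not_dvd (hp.coprime_iff_not_dvd.mp hLcop.symm), zero_add, hp.factorization_pow, Finsupp.single_eq_same]
    rw [hf, hcard, hr, pow_add]
  · rw [P.card_eq_multiplicity]; exact hLcop.pow_right _

end Cfsg.Agent.S4127
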