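import Cfsg.Statements.S4142
import Mathlib.Tactic

set_option autoImplicit false
open Cfsg

namespace Cfsg.Agent.S4142

/-- Let G be a finite group and N a normal subgroup. Then the conjugacy class of every element g outside N is a union of cosets of N (gn is conjugate to g for all n ∈ N) if and only if for every g outside N the centralizer of g in G has the same order as the centralizer of gN in G/N. -/
theorem result {G : Type*} [Group G] [Finite G] (N : Subgroup G) [N.Normal] :
    (∀ g : G, g ∉ N → ∀ n ∈ N, ∃ x : G, x * g * x⁻¹ = g * n) ↔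
      ∀ g : G, g ∉ N → Nat.card (Subgroup.centralizer ({g} : Set G)) =
        Nat.card (Subgroup.centralizer ({(QuotientGroup.mk g : G ⧸ N)} : Set (G ⧸ N))) := by
  have key : ∀ g : G, g ∉ N →
      (Nat.card (Subgroup.centralizer ({g} : Set G)) =
        Nat.card (Subgroup.centralizer ({(QuotientGroup.mk g : G ⧸ N)} : Set (G ⧸ N))) ↔
        ∀ n ∈ N, ∃ x : G, x * g * x⁻¹ = g * n) := by
    intro g _
    set C := Subgroup.centralizer ({g} : Set G)
    set Cb := Subgroup.centralizer ({(QuotientGroup.mk g : G ⧸ N)} : Set (G ⧸ N))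
    set K := Cb.comap (QuotientGroup.mk' N)
    have hmemK : ∀ x : G, x ∈ K ↔ g⁻¹ * (x * g * x⁻¹) ∈ N := fun x => by
      rw [← QuotientGroup.eq_one_iff (N := N) (g⁻¹ * (x * g * x⁻¹))]
      simp only [K, Cb, Subgroup.mem_comap, Subgroup.mem_centralizer_singleton_iff, QuotientGroup.mk'_apply,
        QuotientGroup.mk_mul, QuotientGroup.mk_inv, inv_mul_eq_one, eq_mul_inv_iff_mul_eq]
      exact eq_comm
    have hK : Nat.card K = Nat.card Cb * Nat.card N := by
      have h1 := K.card_mul_index
      rw [Subgroup.index_comap_of_surjective _ (QuotientGroup.mk'_surjective N)] at h1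
      have h2 := Cb.card_mul_index
      have h3 := N.card_eq_card_quotient_mul_card_subgroup
      rw [← h2] at h3
      rw [h3, mul_right_comm] at h1
      exact Nat.eq_of_mul_eq_mul_right (Nat.pos_of_ne_zero Subgroup.index_ne_zero_of_finite) h1
    have hCK : C ≤ K := fun x hx => by
      rw [hmemK, Subgroup.mem_centralizer_singleton_iff.mp hx]
      simp
    let F : K ⧸ C.subgroupOf K → N := fun q => Quotient.liftOn' q
      (fun x => (⟨g⁻¹ * ((x : G) * g * (x : G)⁻¹), (hmemK x).mp x.2⟩ : N)) (fun a b hab => by
        rw [QuotientGroup.leftRel_apply, Subgroup.mem_subgroupOf, Subgroup.mem_centralizer_singleton_iff] at hab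
        apply Subtype.ext
        show g⁻¹ * ((a : G) * g * (a : G)⁻¹) = g⁻¹ * ((b : G) * g * (b : G)⁻¹)
        simp only [Subgroup.coe_mul, Subgroup.coe_inv] at hab
        congr 1
        calc (a : G) * g * (a : G)⁻¹ = a * (g * ((a : G)⁻¹ * b)) * (b : G)⁻¹ := by group
          _ = a * ((a : G)⁻¹ * b * g) * (b : G)⁻¹ := by rw [hab]
          _ = (b : G) * g * (b : G)⁻¹ := by group)
    have hF : Function.Injective F := by
      intro a b h
      induction a using QuotientGroup.induction_on with
      | H a =>
        induction b using QuotientGroup.induction_on with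
        | H b =>
          have h1 : (a : G) * g * (a : G)⁻¹ = (b : G) * g * (b : G)⁻¹ := mul_left_cancel (congrArg Subtype.val h)
          refine QuotientGroup.eq.mpr ?_
          rw [Subgroup.mem_subgroupOf, Subgroup.mem_centralizer_singleton_iff]
          simp only [Subgroup.coe_mul, Subgroup.coe_inv]
          calc (a : G)⁻¹ * b * g = (a : G)⁻¹ * (b * g * (b : G)⁻¹) * b := by group
            _ = (a : G)⁻¹ * (a * g * (a : G)⁻¹) * b := by rw [h1]
            _ = g * ((a : G)⁻¹ * b) := by group
    have hidx : Nat.card (K ⧸ C.subgroupOf K) * Nat.card C = Nat.card Cb * Nat.card N := by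
      rw [← hK, ← Subgroup.index_eq_card, mul_comm, ← Nat.card_congr (Subgroup.subgroupOfEquivOfLe hCK).toEquiv,
        Subgroup.card_mul_index]
    have hsurj : (∀ n ∈ N, ∃ x : G, x * g * x⁻¹ = g * n) ↔ Function.Surjective F := by
      constructor
      · rintro h ⟨n, hn⟩
        obtain ⟨x, hx⟩ := h n hn
        refine ⟨QuotientGroup.mk ⟨x, (hmemK x).mpr (by rw [hx, inv_mul_cancel_left]; exact hn)⟩, Subtype.ext ?_⟩
        show g⁻¹ * (x * g * x⁻¹) = n
        rw [hx, inv_mul_cancel_left]
      · intro h n hn
        obtain ⟨q, hq⟩ := h ⟨n, hn⟩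
        induction q using QuotientGroup.induction_on with
        | H x =>
          have h9 : g⁻¹ * ((x : G) * g * (x : G)⁻¹) = n := congrArg Subtype.val hq
          exact ⟨x, by rw [← h9, mul_inv_cancel_left]⟩
    rw [hsurj]
    constructor
    · intro h
      rw [h, mul_comm (Nat.card Cb)] at hidx
      exact (hF.bijective_of_nat_card_le (Nat.eq_of_mul_eq_mul_right Nat.card_pos hidx).ge).2
    · intro h
      rw [Nat.card_eq_of_bijective F ⟨hF, h⟩, mul_comm] at hidx
      exact Nat.eq_of_mul_eq_mul_right Nat.card_pos hidx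
  exact ⟨fun h g hg => (key g hg).mpr (h g hg), fun h g hg => (key g hg).mp (h g hg)⟩

end Cfsg.Agent.S4142
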