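import Cfsg.Statements.S4145

set_option autoImplicit false
open Cfsg

namespace Cfsg.Agent.S4145
theorem section_trivial {G : Type*} [Group G] [Finite G] {p : ℕ} [Fact p.Prime] (T : Sylow p G)
    (hT : IsCyclic (T : Subgroup G)) (H : Subgroup G) (hTH : ¬ (T : Subgroup G) ≤ H) :
    ∀ g : G, g ∈ Subgroup.normalizer ((T : Subgroup G) : Set G) →
      ((∃ t ∈ (T : Subgroup G), t ≠ 1 ∧ g * t * g⁻¹ = t) ∨ (∀ t ∈ (T : Subgroup G), g * t * g⁻¹ * t⁻¹ ∈ H)) →
      g ∈ Subgroup.centralizer ((T : Subgroup G) : Set G) := by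
  classical
  letI : CommGroup (T : Subgroup G) := IsCyclic.commGroup
  have hp : p.Prime := Fact.out
  intro g hg hfix
  obtain ⟨⟨t0, ht0⟩, hgen⟩ := hT.exists_generator
  have hpow : ∀ t ∈ (T : Subgroup G), ∃ k : ℤ, t0 ^ k = t := by
    intro t ht
    obtain ⟨k, hk⟩ := hgen ⟨t, ht⟩
    exact ⟨k, by simpa using congrArg Subtype.val hk⟩
  obtain ⟨r, hr⟩ := hpow (g * t0 * g⁻¹) ((Subgroup.mem_normalizer_iff.mp hg t0).mp ht0)
  have hrn : ∀ t ∈ (T : Subgroup G), g * t * g⁻¹ = t ^ r := by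
    intro t ht
    obtain ⟨k, rfl⟩ := hpow t ht
    rw [← conj_zpow, ← hr, ← zpow_mul, ← zpow_mul, mul_comm]
  have hr1 : (p : ℤ) ∣ r - 1 := by
    rcases hfix with ⟨t, ht, ht1, hgt⟩ | hmod
    · rw [hrn t ht] at hgt
      have h3 : t ^ (r - 1) = 1 := by rw [zpow_sub, hgt, zpow_one, mul_inv_cancel]
      obtain ⟨n, hn⟩ := T.2 ⟨t, ht⟩
      have hd : orderOf t ∣ p ^ n := orderOf_dvd_of_pow_eq_one (by simpa using congrArg Subtype.val hn)
      obtain ⟨i, -, hi⟩ := (Nat.dvd_prime_pow hp).mp hd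
      have hi0 : i ≠ 0 := by
        intro h0
        rw [h0, pow_zero, orderOf_eq_one_iff] at hi
        exact ht1 hi
      exact (Int.natCast_dvd_natCast.mpr (hi ▸ dvd_pow_self p hi0)).trans (orderOf_dvd_iff_zpow_eq_one.mpr h3)
    · by_contra hnd
      apply hTH
      intro t ht
      obtain ⟨k, rfl⟩ := hpow t ht
      refine H.zpow_mem ?_ k
      have h3 : t0 ^ (r - 1) ∈ H := by
        rw [zpow_sub, hr, zpow_one]; exact hmod t0 ht0
      obtain ⟨n, hn⟩ := T.2 ⟨t0, ht0⟩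
      have hn' : t0 ^ (p ^ n) = 1 := by simpa using congrArg Subtype.val hn
      have hcop : IsCoprime (r - 1) ((p ^ n : ℕ) : ℤ) := by
        rw [Nat.cast_pow]
        exact (((Nat.prime_iff_prime_int.mp hp).coprime_iff_not_dvd.mpr hnd).symm).pow_right
      obtain ⟨a, b, hab⟩ := hcop
      rw [← zpow_one t0, ← hab, zpow_add, mul_comm b, zpow_mul t0 ((p ^ n : ℕ) : ℤ) b, zpow_natCast, hn', one_zpow, mul_one, mul_comm a, zpow_mul]
      exact H.zpow_mem h3 a
  obtain ⟨n, hn⟩ := T.2 ⟨t0, ht0⟩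
  have hn' : t0 ^ (p ^ n) = 1 := by simpa using congrArg Subtype.val hn
  have hiter : ∀ j : ℕ, g ^ j * t0 * (g ^ j)⁻¹ = t0 ^ (r ^ j) := by
    intro j
    induction j with
    | zero => simp
    | succ j ih =>
      calc g ^ (j + 1) * t0 * (g ^ (j + 1))⁻¹ = g * (g ^ j * t0 * (g ^ j)⁻¹) * g⁻¹ := by rw [pow_succ']; group
        _ = t0 ^ (r ^ (j + 1)) := by
            rw [ih, hrn _ ((T : Subgroup G).zpow_mem ht0 _), ← zpow_mul, pow_succ]
  have hg1 : g ^ (p ^ n) ∈ Subgroup.centralizer ((T : Subgroup G) : Set G) := by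
    have hd : ((p ^ n : ℕ) : ℤ) ∣ r ^ (p ^ n) - 1 := by
      have := dvd_sub_pow_of_dvd_sub hr1 n
      rw [one_pow] at this
      push_cast
      exact (pow_dvd_pow _ n.le_succ).trans this
    obtain ⟨c, hc⟩ := hd
    have h4 : Commute (g ^ (p ^ n)) t0 := by
      show _ = _
      apply mul_inv_eq_iff_eq_mul.mp
      rw [hiter, show r ^ (p ^ n) = ((p ^ n : ℕ) : ℤ) * c + 1 by rw [← hc]; ring, zpow_add, zpow_mul, zpow_natCast, hn']
      simp
    rw [Subgroup.mem_centralizer_iff]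
    intro t ht
    obtain ⟨k, rfl⟩ := hpow t ht
    exact (h4.zpow_right k).symm.eq
  obtain ⟨a, m, hm, hgo⟩ := Nat.exists_eq_pow_mul_and_not_dvd (orderOf_pos g).ne' p hp.one_lt.ne'
  have hgm : g ^ m ∈ (T : Subgroup G) := by
    have hz : IsPGroup p (Subgroup.zpowers (g ^ m)) := by
      intro w
      refine ⟨a, ?_⟩
      obtain ⟨k, hk⟩ := w.2
      apply Subtype.ext
      simp only [SubgroupClass.coe_pow, OneMemClass.coe_one]
      rw [← hk, ← zpow_natCast, zpow_comm, zpow_natCast, ← pow_mul, mul_comm, ← hgo, pow_orderOf_eq_one, one_zpow]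
    have hs : IsPGroup p ((Subgroup.zpowers (g ^ m) ⊔ (T : Subgroup G) : Subgroup G)) :=
      hz.to_sup_of_normal_right' T.2 ((Subgroup.zpowers_le).mpr (Subgroup.pow_mem _ hg m))
    have := T.3 hs le_sup_right
    rw [← this]
    exact Subgroup.mem_sup_left (Subgroup.mem_zpowers _)
  have hg2 : g ^ m ∈ Subgroup.centralizer ((T : Subgroup G) : Set G) := by
    rw [Subgroup.mem_centralizer_iff]
    intro t ht
    exact congrArg Subtype.val (mul_comm (⟨t, ht⟩ : (T : Subgroup G)) ⟨g ^ m, hgm⟩)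
  have hcop : (p ^ n).gcd m = 1 := (((hp.coprime_iff_not_dvd.mpr hm)).pow_left n).gcd_eq_one
  have hb := Nat.gcd_eq_gcd_ab (p ^ n) m
  rw [hcop, Nat.cast_one] at hb
  rw [← zpow_one g, hb, zpow_add, zpow_mul, zpow_mul, zpow_natCast, zpow_natCast]
  exact Subgroup.mul_mem _ (Subgroup.zpow_mem _ hg1 _) (Subgroup.zpow_mem _ hg2 _)

theorem complement_over {G : Type*} [Group G] [Finite G] {p : ℕ} [Fact p.Prime] (T : Sylow p G) :
    ∀ (C : Subgroup G), (T : Subgroup G) ≤ C →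
    (∀ g ∈ C, g ∈ Subgroup.normalizer ((T : Subgroup G) : Set G) → g ∈ Subgroup.centralizer ((T : Subgroup G) : Set G)) →
    ∃ K : Subgroup G, K ≤ C ∧ (Nat.card K).Coprime p ∧ K.relIndex C = Nat.card (T : Subgroup G) ∧ (∀ c ∈ C, ∀ k ∈ K, c * k * c⁻¹ ∈ K) ∧
      (∀ c ∈ C, ∃ k ∈ K, ∃ s ∈ (T : Subgroup G), c = s * k) := by
  classical
  have hp : p.Prime := Fact.out
  intro C hC hN
  let S : Sylow p C := T.subtype hC
  have hS : Subgroup.normalizer ((S : Subgroup C) : Set C) ≤ Subgroup.centralizer ((S : Subgroup C) : Set C) := by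
    intro c hc
    have h3 : (c : G) ∈ Subgroup.normalizer ((T : Subgroup G) : Set G) := by
      rw [Subgroup.mem_normalizer_iff] at hc ⊢
      intro t
      constructor
      · intro ht
        exact (hc ⟨t, hC ht⟩).mp ht
      · intro ht
        have h4 : t ∈ C := by
          have := C.mul_mem (C.mul_mem (C.inv_mem c.2) (hC ht)) c.2
          simpa [mul_assoc] using this
        exact (hc ⟨t, h4⟩).mpr ht
    rw [Subgroup.mem_centralizer_iff]
    intro s hs
    exact Subtype.ext (Subgroup.mem_centralizer_iff.mp (hN c c.2 h3) s hs)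
  have hcomp := MonoidHom.ker_transferSylow_isComplement' S hS
  have hnd := MonoidHom.not_dvd_card_ker_transferSylow S hS
  set K := (MonoidHom.transferSylow S hS).ker with hKdef
  have hKnor : K.Normal := MonoidHom.normal_ker _
  clear_value K
  refine ⟨K.map C.subtype, Subgroup.map_subtype_le _, ?_, ?_, ?_, ?_⟩
  · rw [Subgroup.card_map_of_injective C.subtype_injective]
    exact (hp.coprime_iff_not_dvd.mpr hnd).symm
  · rw [Subgroup.relIndex, Subgroup.subgroupOf, Subgroup.comap_map_eq_self_of_injective C.subtype_injective,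
      hcomp.symm.index_eq_card]
    exact Nat.card_congr (Subgroup.subgroupOfEquivOfLe hC).toEquiv
  · rintro c hc _ ⟨k, hk, rfl⟩
    exact Subgroup.mem_map.mpr ⟨(⟨c, hc⟩ : C) * k * (⟨c, hc⟩ : C)⁻¹, hKnor.conj_mem k hk (⟨c, hc⟩ : C), by simp⟩
  · intro c hc
    obtain ⟨⟨⟨s, hs⟩, ⟨k, hk⟩⟩, heq⟩ := (Subgroup.isComplement'_def.mp hcomp.symm).2 ⟨c, hc⟩
    exact ⟨k, ⟨k, hk, rfl⟩, s, hs, (congrArg Subtype.val heq).symm⟩

theorem mem_of_coprime_order {G : Type*} [Group G] [Finite G] {p : ℕ} [Fact p.Prime] (T : Sylow p G) :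
    ∀ (C K : Subgroup G), K.relIndex C = Nat.card (T : Subgroup G) → (∀ c ∈ C, ∀ k ∈ K, c * k * c⁻¹ ∈ K) →
    ∀ g ∈ C, (orderOf g).Coprime p → g ∈ K := by
  intro C K hi hn g hg ho
  haveI : (K.subgroupOf C).Normal := ⟨fun k hk c => hn c c.2 k hk⟩
  have h3 := (K.subgroupOf C).pow_index_mem (⟨g, hg⟩ : C)
  obtain ⟨e, he⟩ := IsPGroup.iff_card.mp T.2
  rw [show (K.subgroupOf C).index = K.relIndex C from rfl, hi, he] at h3
  have h4 : g ^ (p ^ e) ∈ K := h3
  have hb := Nat.gcd_eq_gcd_ab (orderOf g) (p ^ e)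
  rw [(Nat.Coprime.pow_right e ho).gcd_eq_one, Nat.cast_one] at hb
  rw [← zpow_one g, hb, zpow_add, zpow_mul, zpow_mul, zpow_natCast, zpow_natCast, pow_orderOf_eq_one, one_zpow, one_mul]
  exact K.zpow_mem h4 _


/-- Let G be a finite group with a cyclic Sylow p-subgroup and H a normal subgroup such that p divides both the order of H and the index of H. Then H has a normal p-complement and G is p-solvable. -/
theorem result {G : Type*} [Group G] [Finite G] (p : ℕ) [Fact p.Prime]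
    (P : Sylow p G) (hP : IsCyclic (P : Subgroup G)) (H : Subgroup G) [H.Normal] (h1 : p ∣ Nat.card H) (h2 : p ∣ H.index) :
    Cfsg.HasNormalPComplement p H ∧ Cfsg.IsPSolvable p G := by
  classical
have hp : p.Prime := Fact.out
let Q : Sylow p H := default
set Q' : Subgroup G := (Q : Subgroup H).map H.subtype with hQ'
have hQp : IsPGroup p Q' := Q.2.map _
have hQH : Q' ≤ H := Subgroup.map_subtype_le _
obtain ⟨T, hQT⟩ := hQp.exists_le_sylow
haveI hT : IsCyclic (T : Subgroup G) := (MulEquiv.isCyclic (P.equiv T)).mp hP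
letI : CommGroup (T : Subgroup G) := IsCyclic.commGroup
have hcQ : Nat.card Q' = Nat.card (Q : Subgroup H) := Subgroup.card_map_of_injective H.subtype_injective
have hQ1 : Q' ≠ ⊥ := by
  intro h
  rw [h, Subgroup.card_bot] at hcQ
  exact hp.one_lt.ne' (Nat.dvd_one.mp (hcQ ▸ Q.dvd_card_of_dvd_card h1))
have hinf : ∀ g ∈ (T : Subgroup G), g ∈ H → g ∈ Q' := by
  intro g hg hgH
  have hle : (Q : Subgroup H) ≤ (T : Subgroup G).subgroupOf H := fun w hw => hQT ⟨w, hw, rfl⟩
  have := Q.3 (IsPGroup.comap_of_injective T.2 H.subtype H.subtype_injective) hle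
  exact ⟨⟨g, hgH⟩, (SetLike.ext_iff.mp this ⟨g, hgH⟩).mp hg, rfl⟩
have hTH : ¬ (T : Subgroup G) ≤ H := by
  intro hle
  have hTQ : (T : Subgroup G) = Q' := le_antisymm (fun g hg => hinf g hg (hle hg)) hQT
  apply T.not_dvd_index
  rw [hTQ, hQ', Subgroup.index_map_subtype]
  exact dvd_mul_of_dvd_right h2 _
have hL := section_trivial T hT H hTH
have hK := complement_over T
have hKelim := mem_of_coprime_order T
set C := Subgroup.centralizer (Q' : Set G) with hCdef
have hTC : (T : Subgroup G) ≤ C := fun t ht => Subgroup.mem_centralizer_iff.mpr fun q hq =>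
  congrArg Subtype.val (mul_comm (⟨q, hQT hq⟩ : (T : Subgroup G)) ⟨t, ht⟩)
have hfixQ : ∀ g : G, (∀ q ∈ Q', g * q * g⁻¹ = q) → g ∈ Subgroup.normalizer ((T : Subgroup G) : Set G) → g ∈ Subgroup.centralizer ((T : Subgroup G) : Set G) := by
  intro g hg hgn
  obtain ⟨q, hq, hq1⟩ := Q'.bot_or_exists_ne_one.resolve_left hQ1
  exact hL g hgn (Or.inl ⟨q, hQT hq, hq1, hg q hq⟩)
obtain ⟨K, hKC, hKp, hKi, hKn, hKT⟩ := hK C hTC fun g hg hgn => hfixQ g
  (fun q hq => mul_inv_eq_iff_eq_mul.mpr (Subgroup.mem_centralizer_iff.mp hg q hq).symm) hgn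
-- normalizer of Q' in H centralizes it
have hMC : ∀ x ∈ H, x ∈ Subgroup.normalizer (Q' : Set G) → x ∈ C := by
  intro x hxH hxn
  have hconj : ∀ t ∈ (T : Subgroup G), x * t * x⁻¹ ∈ C := by
    intro t ht
    rw [Subgroup.mem_centralizer_iff]
    intro q hq
    have hq' : x⁻¹ * q * x ∈ Q' := by
      have := (Subgroup.mem_normalizer_iff.mp (Subgroup.inv_mem _ hxn) q).mp hq
      simpa using this
    have := Subgroup.mem_centralizer_iff.mp (hTC ht) _ hq'
    calc q * (x * t * x⁻¹) = x * (x⁻¹ * q * x * t) * x⁻¹ := by group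
      _ = x * (t * (x⁻¹ * q * x)) * x⁻¹ := by rw [this]
      _ = x * t * x⁻¹ * q := by group
  let T1 : Sylow p G := x • T
  have hT1 : (T1 : Subgroup G) ≤ C := by
    intro w hw
    obtain ⟨t, ht, rfl⟩ := hw
    exact hconj t ht
  obtain ⟨c, hc⟩ := MulAction.exists_smul_eq C (T1.subtype hT1) (T.subtype hTC)
  have hcx : (c : G) * x ∈ Subgroup.normalizer ((T : Subgroup G) : Set G) := by
    show _ ∈ Subgroup.normalizer (T : Set G)
    rw [← Sylow.smul_eq_iff_mem_normalizer, mul_smul]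
    rw [Sylow.smul_subtype] at hc
    exact Sylow.subtype_injective hc
  obtain ⟨k, hk, s, hs, hcs⟩ := hKT c c.2
  have hy : k * x ∈ Subgroup.normalizer ((T : Subgroup G) : Set G) := by
    have := Subgroup.mul_mem _ (Subgroup.inv_mem _ (Subgroup.le_normalizer hs)) hcx
    rwa [hcs, mul_assoc, inv_mul_cancel_left] at this
  have hyc : k * x ∈ Subgroup.centralizer ((T : Subgroup G) : Set G) := by
    refine hL _ hy (Or.inr fun t ht => ?_)
    set e := k * x * t * (k * x)⁻¹ * t⁻¹ with he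
    have heT : e ∈ (T : Subgroup G) :=
      (T : Subgroup G).mul_mem ((Subgroup.mem_normalizer_iff.mp hy t).mp ht) ((T : Subgroup G).inv_mem ht)
    have hkT : k * t * k⁻¹ * t⁻¹ ∈ K := by
      have := K.mul_mem hk (hKn t (hTC ht) _ (K.inv_mem hk))
      simpa [mul_assoc] using this
    have heq : (e : G ⧸ H) = ((k * t * k⁻¹ * t⁻¹ : G) : G ⧸ H) := by
      simp only [he, QuotientGroup.mk_mul, QuotientGroup.mk_inv, (QuotientGroup.eq_one_iff x).mpr hxH]
      group
    rw [← QuotientGroup.eq_one_iff, ← orderOf_eq_one_iff]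
    obtain ⟨i, hi⟩ := T.2 ⟨e, heT⟩
    have d1 : orderOf (e : G ⧸ H) ∣ p ^ i := orderOf_dvd_of_pow_eq_one (by
      rw [← QuotientGroup.mk_pow, show e ^ p ^ i = 1 by simpa using congrArg Subtype.val hi, QuotientGroup.mk_one])
    have d2 : orderOf (e : G ⧸ H) ∣ Nat.card K := orderOf_dvd_of_pow_eq_one (by
      rw [heq, ← QuotientGroup.mk_pow, show (k * t * k⁻¹ * t⁻¹) ^ Nat.card K = 1 from
        congrArg Subtype.val (pow_card_eq_one' (x := (⟨_, hkT⟩ : K))), QuotientGroup.mk_one])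
    exact Nat.eq_one_of_dvd_coprimes (Nat.Coprime.pow_left i hKp.symm) d1 d2
  rw [Subgroup.mem_centralizer_iff]
  intro q hq
  have e1 : Commute q (k * x) := Subgroup.mem_centralizer_iff.mp hyc q (hQT hq)
  have e2 : Commute q k := Subgroup.mem_centralizer_iff.mp (hKC hk) q hq
  have := e2.inv_right.mul_right e1
  simpa using this.eq
have hQburn : Subgroup.normalizer ((Q : Subgroup H) : Set H) ≤ Subgroup.centralizer ((Q : Subgroup H) : Set H) := by
  intro x hx
  have h3 : (x : G) ∈ Subgroup.normalizer (Q' : Set G) := by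
    rw [Subgroup.mem_normalizer_iff]
    intro q
    constructor
    · rintro ⟨w, hw, rfl⟩
      exact ⟨x * w * x⁻¹, (Subgroup.mem_normalizer_iff.mp hx w).mp hw, rfl⟩
    · rintro ⟨w, hw, hwq⟩
      refine ⟨x⁻¹ * w * x, ?_, ?_⟩
      · exact (Subgroup.mem_normalizer_iff.mp hx _).mpr (by
        rw [show x * (x⁻¹ * w * x) * x⁻¹ = w by group]; exact hw)
      · simp only [map_mul, map_inv, hwq, Subgroup.coe_subtype]
        group
  rw [Subgroup.mem_centralizer_iff]
  intro q hq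
  exact Subtype.ext (Subgroup.mem_centralizer_iff.mp (hMC x x.2 h3) q ⟨q, hq, rfl⟩)
have hcompH := MonoidHom.ker_transferSylow_isComplement' Q hQburn
refine ⟨⟨Q, _, inferInstance, hcompH⟩, ?_⟩
set K0 := (MonoidHom.transferSylow Q hQburn).ker with hK0
have hK0nd : ¬ p ∣ Nat.card K0 := MonoidHom.not_dvd_card_ker_transferSylow Q hQburn
let K0' : Subgroup G := K0.map H.subtype
have hK0mem : ∀ g ∈ H, (orderOf g).Coprime p → g ∈ K0' := by
  intro g hg ho
  have h3 := K0.pow_index_mem (⟨g, hg⟩ : H)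
  rw [hcompH.symm.index_eq_card] at h3
  obtain ⟨e, he⟩ := IsPGroup.iff_card.mp Q.2
  rw [he] at h3
  refine ⟨⟨g, hg⟩, ?_, rfl⟩
  have hb := Nat.gcd_eq_gcd_ab (orderOf (⟨g, hg⟩ : H)) (p ^ e)
  rw [Subgroup.orderOf_mk, (Nat.Coprime.pow_right e ho).gcd_eq_one, Nat.cast_one] at hb
  rw [← zpow_one (⟨g, hg⟩ : H), hb, zpow_add, zpow_mul, zpow_mul, zpow_natCast, zpow_natCast,
    ← Subgroup.orderOf_mk g hg, pow_orderOf_eq_one, one_zpow, one_mul]
  exact K0.zpow_mem h3 _
have hK0cop : ∀ g ∈ K0', g ∈ H ∧ (orderOf g).Coprime p := by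
  rintro _ ⟨w, hw, rfl⟩
  refine ⟨w.2, Nat.Coprime.coprime_dvd_left ?_ (hp.coprime_iff_not_dvd.mpr hK0nd).symm⟩
  rw [show orderOf (H.subtype w) = orderOf w from orderOf_injective _ H.subtype_injective w]
  exact Subgroup.orderOf_mk w hw ▸ orderOf_dvd_natCard _
haveI : K0'.Normal := ⟨fun g hg c => by
  obtain ⟨h3, h4⟩ := hK0cop g hg
  exact hK0mem _ ((inferInstance : H.Normal).conj_mem g h3 c) (by
    rwa [show orderOf (c * g * c⁻¹) = orderOf g from MulEquiv.orderOf_eq (MulAut.conj c) g])⟩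
-- the centralizer of H modulo K0
let C0 : Subgroup G := ((Subgroup.centralizer ((H.map (QuotientGroup.mk' K0')) : Set (G ⧸ K0'))).comap (QuotientGroup.mk' K0'))
haveI : (H.map (QuotientGroup.mk' K0')).Normal := Subgroup.Normal.map inferInstance _ (QuotientGroup.mk'_surjective _)
haveI hC0n : C0.Normal := Subgroup.normal_comap _
have hTC0 : (T : Subgroup G) ≤ C0 := by
  intro t ht
  show (QuotientGroup.mk' K0' t) ∈ Subgroup.centralizer _
  rw [Subgroup.mem_centralizer_iff]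
  rintro _ ⟨h, hh, rfl⟩
  obtain ⟨⟨⟨k, hk⟩, ⟨q, hq⟩⟩, heq⟩ := (Subgroup.isComplement'_def.mp hcompH).2 ⟨h, hh⟩
  have h5 : h = (k : G) * q := (congrArg Subtype.val heq).symm
  have h6 : QuotientGroup.mk' K0' (k : G) = 1 := (QuotientGroup.eq_one_iff _).mpr ⟨k, hk, rfl⟩
  rw [h5, map_mul, h6, one_mul, ← map_mul, ← map_mul]
  congr 1
  exact congrArg Subtype.val (mul_comm (⟨q, hQT ⟨q, hq, rfl⟩⟩ : (T : Subgroup G)) ⟨t, ht⟩)
obtain ⟨K1, hK1C, hK1p, hK1i, hK1n, -⟩ := hK C0 hTC0 fun g hg hgn => hfixQ g (fun q hq => by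
  have h3 : g * q * g⁻¹ * q⁻¹ ∈ K0' := by
    rw [← QuotientGroup.eq_one_iff]
    have := Subgroup.mem_centralizer_iff.mp hg (QuotientGroup.mk' K0' q) ⟨q, hQH hq, rfl⟩
    simp only [QuotientGroup.mk'_apply] at this
    simp only [QuotientGroup.mk_mul, QuotientGroup.mk_inv, ← this]
    group
  have h4 : g * q * g⁻¹ * q⁻¹ ∈ (T : Subgroup G) :=
    (T : Subgroup G).mul_mem ((Subgroup.mem_normalizer_iff.mp hgn q).mp (hQT hq)) ((T : Subgroup G).inv_mem (hQT hq))
  obtain ⟨i, hi⟩ := IsPGroup.iff_orderOf.mp T.2 ⟨_, h4⟩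
  rw [Subgroup.orderOf_mk] at hi
  have h5 := (hK0cop _ h3).2
  rw [hi] at h5
  have : orderOf (g * q * g⁻¹ * q⁻¹) = 1 := by
    rw [hi]; exact Nat.eq_one_of_dvd_coprimes h5 dvd_rfl (by
      rcases Nat.eq_zero_or_pos i with rfl | hi0
      · simp
      · exfalso
        exact hp.one_lt.ne' (Nat.eq_one_of_dvd_coprimes h5 (dvd_pow_self p hi0.ne') dvd_rfl))
  exact mul_inv_eq_one.mp (orderOf_eq_one_iff.mp this)) hgn
haveI hK1normal : K1.Normal := ⟨fun g hg c => by
  refine hKelim C0 K1 hK1i hK1n _ (hC0n.conj_mem g (hK1C hg) c) ?_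
  rw [show orderOf (c * g * c⁻¹) = orderOf g from MulEquiv.orderOf_eq (MulAut.conj c) g]
  exact Nat.Coprime.coprime_dvd_left ((Subgroup.orderOf_mk g hg) ▸ orderOf_dvd_natCard _) hK1p⟩
refine ⟨3, ![⊥, K1, C0, ⊤], rfl, rfl, ?_, ?_, ?_⟩
· rw [Fin.monotone_iff_le_succ]
  intro i
  fin_cases i
  · exact bot_le
  · exact hK1C
  · exact le_top
· intro i; fin_cases i
  · exact (inferInstance : (⊥ : Subgroup G).Normal)
  · exact hK1normal
  · exact hC0n
  · exact (inferInstance : (⊤ : Subgroup G).Normal)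
· intro i; fin_cases i
  · right
    show ((⊥ : Subgroup G).relIndex K1).Coprime p
    rw [Subgroup.relIndex_bot_left]; exact hK1p
  · left
    obtain ⟨e, he⟩ := IsPGroup.iff_card.mp T.2
    exact ⟨e, hK1i.trans he⟩
  · right
    show (C0.relIndex ⊤).Coprime p
    rw [Subgroup.relIndex_top_right]
    exact Nat.Coprime.coprime_dvd_left (Subgroup.index_dvd_of_le hTC0) (hp.coprime_iff_not_dvd.mpr T.not_dvd_index).symm

end Cfsg.Agent.S4145
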