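import Cfsg.Statements.S4151
import Cfsg.Agent.Lib.GroupB.Coprime
import Cfsg.Agent.Lib.CoprimeGen
import Cfsg.Agent.Lib.UniqueOrderP
import Mathlib.GroupTheory.SpecificGroups.ZGroup
import Mathlib.GroupTheory.Abelianization.Finite
import Mathlib.Tactic.Ring

set_option autoImplicit false
open Cfsg

namespace Cfsg.Agent.S4151

open scoped commutatorElement

open CfsgLib.GroupB.Coprime in
theorem fixed_mem_commutator {X : Type*} [Group X] [Finite X] {K Q : Subgroup X} (hQK : Q ≤ Subgroup.normalizer (K : Set X))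
    (hcop : (Nat.card Q).Coprime (Nat.card K)) (hK : ⁅K, Q⁆ = K) {u : X} (hu : u ∈ K)
    (huQ : u ∈ Subgroup.centralizer (Q : Set X)) : (⟨u, hu⟩ : K) ∈ commutator K := by
  classical
  haveI := Fintype.ofFinite Q
  let c : Q → K → K := fun q k => ⟨q * k * (q : X)⁻¹, (conj_mem_iff (hQK q.2)).mpr k.2⟩
  have hc : ∀ q k l, c q (k * l) = c q k * c q l := fun q k l => Subtype.ext (by simp [c, mul_assoc])
  let θ : K →* Abelianization K := MonoidHom.mk' (fun k => ∏ q : Q, Abelianization.of (c q k))
    (fun k l => by simp [hc, Finset.prod_mul_distrib])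
  have hker : ∀ x ∈ ⁅K, Q⁆, ∀ hx : x ∈ K, θ ⟨x, hx⟩ = 1 := by
    have hinv : ∀ (r : Q) (k : K), θ (c r k) = θ k := fun r k => by
      show ∏ q : Q, Abelianization.of (c q (c r k)) = ∏ q : Q, Abelianization.of (c q k)
      refine Fintype.prod_equiv (Equiv.mulRight r) _ _ fun q => congrArg Abelianization.of (Subtype.ext ?_)
      simp [c, mul_assoc]
    let T : Subgroup X := θ.ker.map K.subtype
    have hT : ⁅K, Q⁆ ≤ T := Subgroup.commutator_le.mpr fun k hk q hq => by
      refine ⟨⟨k, hk⟩ * (c ⟨q, hq⟩ (⟨k, hk⟩ : K)⁻¹), ?_, ?_⟩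
      · rw [SetLike.mem_coe, MonoidHom.mem_ker, map_mul, hinv, map_inv, mul_inv_cancel]
      · simp [c, commutatorElement_def, mul_assoc]
    intro x hx hxK
    obtain ⟨k, hk, hkx⟩ := hT hx
    rw [show (⟨x, hxK⟩ : K) = k from Subtype.ext hkx.symm]
    exact hk
  have h1 := hker u (hK.symm ▸ hu) hu
  have h2 : ∀ q : Q, c q ⟨u, hu⟩ = ⟨u, hu⟩ := fun q => Subtype.ext (by
    show (q : X) * u * (q : X)⁻¹ = u
    rw [Subgroup.mem_centralizer_iff.mp huQ q q.2, mul_inv_cancel_right])
  have h3 : (Abelianization.of (⟨u, hu⟩ : K)) ^ Nat.card Q = 1 := by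
    rw [← h1, Nat.card_eq_fintype_card]
    show _ = ∏ q : Q, Abelianization.of (c q ⟨u, hu⟩)
    simp [h2, Finset.prod_const]
  have h4 : orderOf (Abelianization.of (⟨u, hu⟩ : K)) ∣ 1 := by
    rw [← hcop.gcd_eq_one]
    exact Nat.dvd_gcd (orderOf_dvd_of_pow_eq_one h3) ((orderOf_map_dvd _ _).trans (orderOf_dvd_natCard _))
  rw [Nat.dvd_one, orderOf_eq_one_iff] at h4
  exact (QuotientGroup.eq_one_iff _).mp h4

theorem hall_of_ti {G : Type*} [Group G] [Finite G] (H : Subgroup G) (hTI : Cfsg.IsTISubset (H : Set G))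
    (hHall : (Nat.card H).Coprime (H.subgroupOf (Subgroup.normalizer (H : Set G))).index) :
    (Nat.card H).Coprime H.index := by
  refine Nat.coprime_of_dvd fun p hp h1 h2 => ?_
  haveI := Fact.mk hp
  obtain ⟨S⟩ : Nonempty (Sylow p H) := inferInstance
  set P := (S : Subgroup H).map H.subtype with hP
  obtain ⟨T, hT⟩ := (S.isPGroup'.map H.subtype : IsPGroup p P).exists_le_sylow
  have hcard : Nat.card P = p ^ (Nat.card H).factorization p := by
    rw [hP, Subgroup.card_map_of_injective H.subtype_injective, S.card_eq_multiplicity]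
  by_cases he : P = T
  · have := T.not_dvd_index
    rw [← he] at this
    exact this (h2.trans (Subgroup.index_dvd_of_le (Subgroup.map_subtype_le _)))
  · haveI := T.isPGroup'.isNilpotent
    have h3 : P.subgroupOf T < ⊤ := lt_top_iff_ne_top.mpr fun h => he (le_antisymm hT (Subgroup.subgroupOf_eq_top.mp h))
    obtain ⟨x, hx1, hx2⟩ := SetLike.exists_of_lt (normalizerCondition_of_isNilpotent _ h3)
    have hP1 : P ≠ ⊥ := by
      intro hb
      rw [hb, Subgroup.card_bot] at hcard
      exact (Nat.one_lt_pow (Nat.Prime.factorization_pos_of_dvd hp Nat.card_pos.ne' h1).ne' hp.one_lt).ne hcard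
    obtain ⟨y, hy, hy1⟩ : ∃ y ∈ P, y ≠ 1 := by
      by_contra hc
      push Not at hc
      exact hP1 ((Subgroup.eq_bot_iff_forall _).mpr hc)
    have hxy := (Subgroup.mem_normalizer_iff.mp hx1 ⟨y, hT hy⟩).mp hy
    have hxN : (x : G) ∈ Subgroup.normalizer (H : Set G) := by
      by_contra hc
      exact hy1 (hTI _ hc y (Subgroup.map_subtype_le _ hy) (Subgroup.map_subtype_le _ hxy))
    set N := Subgroup.normalizer (H : Set G)
    haveI : (H.subgroupOf N).Normal := Subgroup.normal_in_normalizer
    have hxH : (x : G) ∈ H := by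
      have hq : (QuotientGroup.mk ⟨x, hxN⟩ : N ⧸ H.subgroupOf N) = 1 := by
        rw [← orderOf_eq_one_iff, ← Nat.dvd_one, ← ((hHall.coprime_dvd_left h1).pow_left
          ((orderOf (x : G)).factorization p)).gcd_eq_one]
        refine Nat.dvd_gcd ?_ (orderOf_dvd_natCard _)
        refine (orderOf_map_dvd (QuotientGroup.mk' _) _).trans ?_
        obtain ⟨k, hk⟩ := IsPGroup.iff_orderOf.mp T.isPGroup' x
        rw [Subgroup.orderOf_mk, Subgroup.orderOf_coe, hk, hp.factorization_pow, Finsupp.single_eq_same]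
      exact Subgroup.mem_subgroupOf.mp ((QuotientGroup.eq_one_iff (N := H.subgroupOf N) (⟨(x : G), hxN⟩ : N)).mp hq)
    have hsup : IsPGroup p ↥((S : Subgroup H) ⊔ Subgroup.zpowers (⟨x, hxH⟩ : H)) := by
      refine IsPGroup.to_le (K := (T : Subgroup G).subgroupOf H) ?_ (sup_le ?_ ((Subgroup.zpowers_le).mpr x.2))
      · exact T.isPGroup'.comap_of_injective _ H.subtype_injective
      · exact fun s hs => hT ⟨s, hs, rfl⟩
    have := S.is_maximal' hsup le_sup_left
    exact hx2 ⟨⟨x, hxH⟩, this ▸ Subgroup.mem_sup_right (Subgroup.mem_zpowers _), rfl⟩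

theorem relIndex_dvd {G : Type*} [Group G] [Finite G] (H X : Subgroup G) [X.Normal] :
    H.relIndex X ∣ H.index := by
  have hn : H ≤ Subgroup.normalizer (X : Set G) := le_top.trans_eq (Subgroup.normalizer_eq_top (H := X)).symm
  have a1 : Nat.card X * X.relIndex (X ⊔ H) = Nat.card ↥(X ⊔ H) := by
    rw [← Subgroup.relIndex_bot_left, ← Subgroup.relIndex_bot_left, Subgroup.relIndex_mul_relIndex _ _ _ bot_le le_sup_left]
  have a2 : Nat.card H * H.relIndex (X ⊔ H) = Nat.card ↥(X ⊔ H) := by
    rw [← Subgroup.relIndex_bot_left, ← Subgroup.relIndex_bot_left, Subgroup.relIndex_mul_relIndex _ _ _ bot_le le_sup_right]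
  have a3 : Nat.card ↥(X ⊓ H) * X.relIndex H = Nat.card H := by
    rw [← Subgroup.inf_relIndex_right X H, ← Subgroup.relIndex_bot_left, ← Subgroup.relIndex_bot_left,
      Subgroup.relIndex_mul_relIndex _ _ _ bot_le inf_le_right]
  have a4 : Nat.card ↥(X ⊓ H) * H.relIndex X = Nat.card X := by
    rw [inf_comm, ← Subgroup.inf_relIndex_right H X, ← Subgroup.relIndex_bot_left, ← Subgroup.relIndex_bot_left,
      Subgroup.relIndex_mul_relIndex _ _ _ bot_le inf_le_right]
  rw [CfsgLib.GroupB.Coprime.relIndex_sup_of_le_normalizer hn, ← a2, ← a4] at a1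
  have e : H.relIndex X = H.relIndex (X ⊔ H) := by
    refine Nat.eq_of_mul_eq_mul_left (Nat.card_pos (α := H)) ?_
    conv_lhs => rw [← a3]
    rw [← a1]; ring
  rw [e]
  exact Dvd.intro _ (Subgroup.relIndex_mul_index le_sup_right)

theorem mem_of_coprime_index {G : Type*} [Group G] [Finite G] (N : Subgroup G) [N.Normal] {x : G}
    (h : (orderOf x).Coprime N.index) : x ∈ N := by
  rw [← QuotientGroup.eq_one_iff, ← orderOf_eq_one_iff, ← Nat.dvd_one, ← h.gcd_eq_one]
  exact Nat.dvd_gcd (orderOf_map_dvd (QuotientGroup.mk' N) x) (orderOf_dvd_natCard _)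

/-- Let G be a finite group and H a non-normal subgroup meeting each of its conjugates by elements outside N_G(H) trivially, with the order of H coprime to its index in N_G(H), such that G is π-separable for π the set of primes dividing the order of H (G has a chain of normal subgroups from 1 to G each of whose factors has order divisible only by primes dividing the order of H or coprime to it). Suppose a Sylow 2-subgroup of H is abelian and Q is a complement of H in N_G(H). Then C_H(Q), the subgroup of elements of H commuting with Q, has order coprime to its index in G and has a normal complement in G. -/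
theorem result {G : Type*} [Group G] [Finite G] (H : Subgroup G)
    (hTI : Cfsg.IsTISubset (H : Set G)) (hnn : ¬ H.Normal)
    (hHall : (Nat.card H).Coprime (H.subgroupOf (Subgroup.normalizer (H : Set G))).index)
    (hsep : ∃ (n : ℕ) (M : Fin (n + 1) → Subgroup G), M 0 = ⊥ ∧ M (Fin.last n) = ⊤ ∧ Monotone M ∧ (∀ i, (M i).Normal) ∧
      ∀ i : Fin n, (∀ q : ℕ, q.Prime → q ∣ (M i.castSucc).relIndex (M i.succ) → q ∣ Nat.card H) ∨
        ((M i.castSucc).relIndex (M i.succ)).Coprime (Nat.card H))
    (h2 : ∀ P : Sylow 2 H, IsMulCommutative (P : Subgroup H))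
    (Q : Subgroup G) (hQ : Q ≤ Subgroup.normalizer (H : Set G)) (hQH : Q ⊓ H = ⊥) (hQH' : Q ⊔ H = Subgroup.normalizer (H : Set G)) :
    (Nat.card ↥(H ⊓ Subgroup.centralizer (Q : Set G))).Coprime (H ⊓ Subgroup.centralizer (Q : Set G)).index ∧
    ∃ N : Subgroup G, N.Normal ∧ N.IsComplement' (H ⊓ Subgroup.centralizer (Q : Set G)) := by
  classical
  have hH : (Nat.card H).Coprime H.index := hall_of_ti H hTI hHall
  set NH := Subgroup.normalizer (H : Set G) with hNH
  have hNne : NH ≠ ⊤ := fun h => hnn (Subgroup.normalizer_eq_top_iff.mp h)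
  -- a maximal normal subgroup of order prime to `H`
  obtain ⟨O, -, ⟨hOn, hOcop⟩, hOmax⟩ := Finite.exists_le_maximal
    (p := fun O : Subgroup G => O.Normal ∧ (Nat.card O).Coprime (Nat.card H)) (a := ⊥) ⟨inferInstance, by simp⟩
  haveI := hOn
  have hGO : O ⊔ NH = ⊤ := by
    obtain ⟨n, M, hM0, hMn, -, hMn', hMi⟩ := hsep
    obtain ⟨i, hi1, hi2⟩ : ∃ i : Fin n, M i.castSucc ≤ O ∧ ¬ M i.succ ≤ O := by
      by_contra hc
      push Not at hc
      have hall : ∀ j : Fin (n + 1), M j ≤ O := by
        intro j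
        induction j using Fin.induction with
        | zero => rw [hM0]; exact bot_le
        | succ j ih => exact hc j ih
      have : Nat.card H = 1 := by
        have h1 := hOcop
        have hOtop : O = ⊤ := top_unique (hMn ▸ hall (Fin.last n))
        rw [hOtop, Subgroup.card_top] at h1
        exact Nat.eq_one_of_dvd_coprimes h1 (Subgroup.card_subgroup_dvd_card H) dvd_rfl
      rw [Subgroup.card_eq_one] at this
      exact hnn (this ▸ inferInstance)
    haveI := hMn' i.succ
    set X := O ⊔ M i.succ with hX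
    have hrel : O.relIndex X ∣ (M i.castSucc).relIndex (M i.succ) := by
      rw [hX, sup_comm, Subgroup.relIndex_sup_right]
      exact Subgroup.relIndex_dvd_of_le_left _ hi1
    have hcardX : Nat.card X = Nat.card O * O.relIndex X := by
      rw [← Subgroup.relIndex_bot_left, ← Subgroup.relIndex_bot_left, Subgroup.relIndex_mul_relIndex _ _ _ bot_le le_sup_left]
    have hpi : ∀ q : ℕ, q.Prime → q ∣ O.relIndex X → q ∣ Nat.card H := by
      rcases hMi i with hpi | hcp
      · exact fun q hq hd => hpi q hq (hd.trans hrel)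
      · exfalso
        refine hi2 (le_trans le_sup_right (hOmax ⟨inferInstance, ?_⟩ (le_sup_left : O ≤ X)))
        rw [hcardX]
        exact Nat.Coprime.mul_left hOcop (hcp.coprime_dvd_left hrel)
    set H0 := H ⊓ X with hH0
    have hH0n : ∃ p : ℕ, p.Prime ∧ p ∣ Nat.card H0 := by
      refine Nat.exists_prime_and_dvd fun h1 => hi2 (le_trans le_sup_right (hOmax ⟨inferInstance, ?_⟩ (le_sup_left : O ≤ X)))
      rw [hcardX]
      refine Nat.Coprime.mul_left hOcop (Nat.coprime_of_dvd fun q hq hd hqH => ?_)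
      haveI := Fact.mk hq
      obtain ⟨R⟩ : Nonempty (Sylow q H) := inferInstance
      haveI : X.Normal := inferInstance
      have hqX : q ∣ Nat.card X := hcardX ▸ hd.mul_left _
      -- a Sylow subgroup of `H` meets `X`
      obtain ⟨S, hS⟩ := (R.isPGroup'.map H.subtype : IsPGroup q ((R : Subgroup H).map H.subtype)).exists_le_sylow
      have hSH : (S : Subgroup G) = (R : Subgroup H).map H.subtype := by
        refine (Subgroup.eq_of_le_of_card_ge hS ?_).symm
        rw [Subgroup.card_map_of_injective H.subtype_injective, R.card_eq_multiplicity, S.card_eq_multiplicity,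
          ← Subgroup.card_mul_index H, Nat.factorization_mul Nat.card_pos.ne' Subgroup.index_ne_zero_of_finite, Finsupp.add_apply,
          Nat.factorization_eq_zero_of_not_dvd (fun hd' => hq.one_lt.ne' (Nat.eq_one_of_dvd_coprimes hH hqH hd')), add_zero]
      obtain ⟨x, hx⟩ := exists_prime_orderOf_dvd_card' (G := X) q hqX
      rw [← Subgroup.orderOf_coe] at hx
      obtain ⟨T, hT⟩ := (IsPGroup.of_card (p := q) (n := 1) (G := Subgroup.zpowers (x : G)) (by rw [Nat.card_zpowers, hx, pow_one])).exists_le_sylow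
      obtain ⟨g, hg⟩ := MulAction.exists_smul_eq G T S
      have hgx : g * (x : G) * g⁻¹ ∈ H0 := by
        refine ⟨?_, (inferInstance : X.Normal).conj_mem _ x.2 g⟩
        have : g * (x : G) * g⁻¹ ∈ (S : Subgroup G) := by
          rw [← hg, Sylow.coe_subgroup_smul]
          exact ⟨x, hT (Subgroup.mem_zpowers _), rfl⟩
        rw [hSH] at this
        exact Subgroup.map_subtype_le _ this
      rw [Subgroup.card_eq_one.mp h1, Subgroup.mem_bot, conj_eq_one_iff] at hgx
      rw [hgx, orderOf_one] at hx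
      exact hq.one_lt.ne hx
    obtain ⟨p, hp, hpd⟩ := hH0n
    haveI := Fact.mk hp
    have hH0X : O ⊔ H0 = X := by
      refine Subgroup.eq_of_le_of_card_ge (sup_le le_sup_left inf_le_right) ?_
      have hcp : (Nat.card O).Coprime (Nat.card H0) := hOcop.coprime_dvd_right (Subgroup.card_dvd_of_le inf_le_left)
      rw [CfsgLib.GroupB.Coprime.card_sup_eq (le_top.trans_eq (Subgroup.normalizer_eq_top (H := O)).symm)
        (CfsgLib.GroupB.Coprime.inf_eq_bot_of_coprime hcp), hcardX]
      refine Nat.mul_le_mul_left _ (Nat.le_of_dvd Nat.card_pos ?_)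
      -- `[X : O]` divides `|H ⊓ X|`
      have h1 : O.relIndex X ∣ Nat.card X := hcardX ▸ dvd_mul_left _ _
      have h2 : Nat.card H0 * H.relIndex X = Nat.card X := by
        rw [← Subgroup.relIndex_bot_left, ← Subgroup.relIndex_bot_left, ← Subgroup.inf_relIndex_right H X,
          Subgroup.relIndex_mul_relIndex _ _ _ bot_le inf_le_right]
      refine (Nat.Coprime.dvd_mul_right ?_).mp (h2 ▸ h1)
      refine Nat.coprime_of_dvd fun q hq hq1 hq2 => ?_
      exact hq.one_lt.ne' (Nat.eq_one_of_dvd_coprimes hH (hpi q hq hq1) (hq2.trans (relIndex_dvd H X)))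
    obtain ⟨S⟩ : Nonempty (Sylow p X) := inferInstance
    obtain ⟨S0⟩ : Nonempty (Sylow p H0) := inferInstance
    have hfr : ∀ (T : Sylow p X), X ⊔ Subgroup.normalizer (((T : Subgroup X).map X.subtype : Subgroup G) : Set G) = ⊤ := fun T => by
      rw [sup_comm]; exact Sylow.normalizer_sup_eq_top T
    let T0 : Subgroup G := (S0 : Subgroup H0).map H0.subtype
    have hT0X : T0 ≤ X := (Subgroup.map_subtype_le _).trans inf_le_right
    have hT0c : Nat.card T0 = p ^ (Nat.card X).factorization p := by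
      rw [Subgroup.card_map_of_injective H0.subtype_injective, S0.card_eq_multiplicity]
      congr 1
      rw [← hH0X, CfsgLib.GroupB.Coprime.card_sup_eq (le_top.trans_eq (Subgroup.normalizer_eq_top (H := O)).symm)
        (CfsgLib.GroupB.Coprime.inf_eq_bot_of_coprime (hOcop.coprime_dvd_right (Subgroup.card_dvd_of_le inf_le_left))),
        Nat.factorization_mul Nat.card_pos.ne' Nat.card_pos.ne', Finsupp.add_apply,
        Nat.factorization_eq_zero_of_not_dvd (n := Nat.card O) fun hd =>
          hp.one_lt.ne' (Nat.eq_one_of_dvd_coprimes hOcop hd (hpd.trans (Subgroup.card_dvd_of_le inf_le_left))), zero_add]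
    obtain ⟨T, hT⟩ := CfsgLib.GroupB.Coprime.IsSylowOf.exists_sylow ⟨hT0X, hT0c⟩
    have h5 := hfr T
    rw [hT] at h5
    have hT0ne : T0 ≠ ⊥ := by
      intro hb
      rw [hb, Subgroup.card_bot] at hT0c
      exact (Nat.one_lt_pow (Nat.Prime.factorization_pos_of_dvd hp Nat.card_pos.ne'
        (hpd.trans (Subgroup.card_dvd_of_le inf_le_right))).ne' hp.one_lt).ne hT0c
    have hT0N : Subgroup.normalizer (T0 : Set G) ≤ NH := by
      intro g hg
      by_contra hgN
      refine hT0ne ((Subgroup.eq_bot_iff_forall _).mpr fun y hy => ?_)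
      exact hTI g hgN y ((Subgroup.map_subtype_le _).trans inf_le_left hy)
        ((Subgroup.map_subtype_le _).trans inf_le_left ((Subgroup.mem_normalizer_iff.mp hg y).mp hy))
    refine top_unique (h5 ▸ sup_le (hH0X ▸ sup_le le_sup_left ?_) (hT0N.trans le_sup_right))
    exact (inf_le_left.trans Subgroup.le_normalizer).trans le_sup_right
  have hOH : O ⊓ H = ⊥ := CfsgLib.GroupB.Coprime.inf_eq_bot_of_coprime hOcop
  -- fixed points on `O`
  have hfix : ∀ x ∈ H, x ≠ 1 → O ⊓ Subgroup.centralizer ({x} : Set G) ≤ O ⊓ Subgroup.centralizer (H : Set G) := by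
    rintro x hx hx1 o ⟨ho, hoc⟩
    have hoN : o ∈ NH := by
      by_contra hc
      refine hx1 (hTI o hc x hx ?_)
      rw [← Subgroup.mem_centralizer_iff.mp hoc x rfl, mul_inv_cancel_right]
      exact hx
    refine ⟨ho, Subgroup.mem_centralizer_iff.mpr fun h hh => ?_⟩
    have h1 : h * o * h⁻¹ * o⁻¹ ∈ O ⊓ H := by
      refine ⟨O.mul_mem (hOn.conj_mem o ho h) (O.inv_mem ho), ?_⟩
      rw [show h * o * h⁻¹ * o⁻¹ = h * (o * h⁻¹ * o⁻¹) by group]
      exact H.mul_mem hh ((Subgroup.mem_normalizer_iff.mp hoN _).mp (H.inv_mem hh))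
    rw [hOH, Subgroup.mem_bot, mul_inv_eq_one, mul_inv_eq_iff_eq_mul] at h1
    exact h1
  -- all Sylow subgroups of `H` are cyclic
  haveI hZ : IsZGroup H := ⟨fun p hp R => by
    haveI := Fact.mk hp
    rcases Nat.eq_zero_or_pos ((Nat.card H).factorization p) with h0 | hpos
    · haveI : Subsingleton R := (Nat.card_eq_one_iff_unique.mp (by rw [R.card_eq_multiplicity, h0, pow_zero])).1
      infer_instance
    have hpH : p ∣ Nat.card H := Nat.dvd_of_factorization_pos hpos.ne'
    have huniq : CfsgLib.UniqueOrderP.Uniq p ↥(R : Subgroup H) := by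
      intro x y hx hy
      by_contra hxy
      -- a noncyclic subgroup of order `p ^ 2`
      have hcom : ∃ z : ↥(R : Subgroup H), orderOf z = p ∧ Commute x z ∧ z ∉ Subgroup.zpowers x := by
        obtain ⟨z, hz1, hzc⟩ : ∃ z : ↥(R : Subgroup H), orderOf z = p ∧ ∀ w, Commute z w := by
          haveI : Nontrivial ↥(R : Subgroup H) := ⟨⟨x, 1, fun h => hp.one_lt.ne (by rw [← hx, h, orderOf_one])⟩⟩
          haveI := R.isPGroup'.center_nontrivial
          obtain ⟨k, hk⟩ := IsPGroup.iff_card.mp (R.isPGroup'.to_subgroup (Subgroup.center ↥(R : Subgroup H)))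
          have hk0 : k ≠ 0 := fun h => by
            rw [h, pow_zero] at hk
            exact absurd hk Finite.one_lt_card.ne'
          obtain ⟨z, hz⟩ := exists_prime_orderOf_dvd_card' (G := Subgroup.center ↥(R : Subgroup H)) p (hk ▸ dvd_pow_self p hk0)
          exact ⟨z, (Subgroup.orderOf_coe z).trans hz, fun w => (Subgroup.mem_center_iff.mp z.2 w).symm⟩
        by_cases hzx : z ∈ Subgroup.zpowers x
        · refine ⟨y, hy, ?_, hxy⟩
          have : Subgroup.zpowers z = Subgroup.zpowers x := Subgroup.eq_of_le_of_card_ge ((Subgroup.zpowers_le).mpr hzx)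
            (by rw [Nat.card_zpowers, Nat.card_zpowers, hz1, hx])
          obtain ⟨i, hi⟩ := Subgroup.mem_zpowers_iff.mp (this ▸ Subgroup.mem_zpowers x : x ∈ Subgroup.zpowers z)
          rw [← hi]; exact (hzc y).zpow_left i
        · exact ⟨z, hz1, (hzc x).symm, hzx⟩
      obtain ⟨z, hz, hxz, hzx⟩ := hcom
      let E : Subgroup G := Subgroup.closure {((x : H) : G), ((z : H) : G)}
      have hEH : E ≤ H := (Subgroup.closure_le _).mpr (by
        rintro _ (rfl | rfl) <;> exact SetLike.coe_mem _)
      have hxz' : Commute ((x : H) : G) ((z : H) : G) := (hxz.map (R : Subgroup H).subtype).map H.subtype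
      haveI hEc : IsMulCommutative E := by
        refine Subgroup.isMulCommutative_closure ?_
        rintro _ (rfl | rfl) _ (rfl | rfl)
        · rfl
        · exact hxz'
        · exact hxz'.symm
        · rfl
      have hEp : ∀ a ∈ E, a ^ p = 1 := fun a ha => by
        refine Subgroup.closure_induction ?_ (one_pow p) ?_ ?_ ha
        · rintro _ (rfl | rfl)
          · rw [← orderOf_dvd_iff_pow_eq_one, Subgroup.orderOf_coe, Subgroup.orderOf_coe, hx]
          · rw [← orderOf_dvd_iff_pow_eq_one, Subgroup.orderOf_coe, Subgroup.orderOf_coe, hz]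
        · intro a b ha hb h1 h2
          have : Commute a b := congrArg Subtype.val (hEc.is_comm.comm ⟨a, ha⟩ ⟨b, hb⟩)
          rw [this.mul_pow, h1, h2, one_mul]
        · intro a _ h1; rw [inv_pow, h1, inv_one]
      have hE2 : p ^ 2 ≤ Nat.card E := by
        have hXE : Subgroup.zpowers ((x : H) : G) < E := by
          refine lt_of_le_of_ne ((Subgroup.zpowers_le).mpr (Subgroup.subset_closure (by simp))) fun he => hzx ?_
          have : ((z : H) : G) ∈ Subgroup.zpowers ((x : H) : G) := he.symm ▸ Subgroup.subset_closure (by simp)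
          obtain ⟨i, hi⟩ := Subgroup.mem_zpowers_iff.mp this
          exact Subgroup.mem_zpowers_iff.mpr ⟨i, Subtype.ext (Subtype.ext (by simpa using hi))⟩
        obtain ⟨k, hk⟩ := IsPGroup.iff_card.mp (show IsPGroup p E from fun a => ⟨1, Subtype.ext (by simpa using hEp a a.2)⟩)
        have h1 : Nat.card (Subgroup.zpowers ((x : H) : G)) < Nat.card E :=
          lt_of_not_ge fun hge => hXE.ne (Subgroup.eq_of_le_of_card_ge hXE.le hge)
        rw [Nat.card_zpowers, Subgroup.orderOf_coe, Subgroup.orderOf_coe, hx, hk] at h1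
        rw [hk]
        refine Nat.pow_le_pow_right hp.pos ?_
        by_contra hk2
        have hk1 : k ≤ 1 := by omega
        exact absurd h1 (not_lt.mpr (le_of_le_of_eq (Nat.pow_le_pow_right hp.pos hk1) (pow_one p)))
      have hcent : O ≤ O ⊓ Subgroup.centralizer (H : Set G) := CfsgLib.CoprimeGen.le_of_centralizers_le (p := p) O E _
        (le_top.trans_eq (Subgroup.normalizer_eq_top (H := O)).symm) (hOcop.coprime_dvd_right hpH) hEc hEp hE2
        fun a ha ha1 => hfix a (hEH ha) ha1
      refine hNne (top_unique (hGO ▸ sup_le ?_ le_rfl))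
      exact hcent.trans (inf_le_right.trans (Subgroup.centralizer_le_normalizer _))
    rcases CfsgLib.UniqueOrderP.cyclic_or_quaternion R.isPGroup' huniq with hc | ⟨rfl, n, ⟨e⟩⟩
    · exact hc
    · haveI := h2 R
      obtain ⟨b, hb⟩ := CfsgLib.UniqueOrderP.exists_eq_zpowers R.isPGroup' huniq ⊤
        (fun x _ y _ => (h2 R).is_comm.comm x y)
      exact isCyclic_iff_exists_zpowers_eq_top.mpr ⟨b, hb⟩⟩
  have hQHc : (Nat.card Q).Coprime (Nat.card H) := by
    refine Nat.Coprime.symm (hHall.coprime_dvd_right ?_)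
    haveI : (H.subgroupOf NH).Normal := Subgroup.normal_in_normalizer
    have h1 : H.relIndex NH = H.relIndex Q := by
      rw [← hQH', sup_comm, CfsgLib.GroupB.Coprime.relIndex_sup_of_le_normalizer hQ]
    show _ ∣ H.relIndex NH
    rw [h1, ← Subgroup.inf_relIndex_right, inf_comm, hQH, Subgroup.relIndex_bot_left]
  set C := H ⊓ Subgroup.centralizer (Q : Set G)
  set K := ⁅H, Q⁆
  have hKH : K ≤ H := CfsgLib.GroupB.Coprime.commutator_le_of_le_normalizer hQ
  have hNK : NH ≤ Subgroup.normalizer (K : Set G) := by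
    rw [← hQH', sup_comm]
    exact CfsgLib.GroupB.Coprime.le_normalizer_commutator H Q
  haveI hHs : Group.IsSolvable H := inferInstance
  -- `K` has no fixed points
  have hKC : K ⊓ Subgroup.centralizer (Q : Set G) = ⊥ := by
    have hQK : Q ≤ Subgroup.normalizer (K : Set G) := hQ.trans hNK
    have hcK : ⁅K, Q⁆ = K := CfsgLib.GroupB.Coprime.commutator_commutator_eq hQ hQHc (Or.inl hHs)
    haveI : IsZGroup K := IsZGroup.of_injective (Subgroup.inclusion_injective hKH)
    haveI hcy := IsZGroup.isCyclic_commutator (G := K)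
    let D : Subgroup G := (commutator K).map K.subtype
    haveI : IsCyclic D := isCyclic_of_surjective _ ((commutator K).equivMapOfInjective K.subtype K.subtype_injective).surjective
    have hND : NH ≤ Subgroup.normalizer (D : Set G) := by
      have : D = ⁅K, K⁆ := by
        show (commutator K).map K.subtype = _
        rw [commutator_def, Subgroup.map_commutator, ← MonoidHom.range_eq_map, Subgroup.range_subtype]
      rw [this]
      exact CfsgLib.LocalBasic.normalizer_commutator_ge hNK hNK
    have hKD : ∀ k ∈ K, ∀ d ∈ D, k * d = d * k := by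
      let T : Subgroup G := Subgroup.centralizer (D : Set G)
      suffices h : K ≤ T by
        intro k hk d hd
        exact (Subgroup.mem_centralizer_iff.mp (h hk) d hd).symm
      refine Subgroup.commutator_le.mpr fun h hh q hq => Subgroup.mem_centralizer_iff.mpr fun d hd => ?_
      obtain ⟨g, hg⟩ := IsCyclic.exists_generator (α := D)
      have hpw : ∀ x ∈ NH, ∃ i : ℤ, x * (g : G) * x⁻¹ = (g : G) ^ i := fun x hx => by
        obtain ⟨i, hi⟩ := Subgroup.mem_zpowers_iff.mp (hg ⟨_, (Subgroup.mem_normalizer_iff.mp (hND hx) _).mp g.2⟩)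
        exact ⟨i, (congrArg Subtype.val hi).symm⟩
      obtain ⟨i, hi⟩ := hpw h (Subgroup.le_normalizer hh)
      obtain ⟨j, hj⟩ := hpw q (hQ hq)
      have hcg : Commute ⁅h, q⁆ (g : G) := by
        have e1 : h * q * (g : G) * (h * q)⁻¹ = q * h * (g : G) * (q * h)⁻¹ := by
          calc h * q * (g : G) * (h * q)⁻¹ = h * (q * g * q⁻¹) * h⁻¹ := by group
            _ = (h * g * h⁻¹) ^ j := by rw [hj, conj_zpow]
            _ = ((g : G) ^ j) ^ i := by rw [hi, ← zpow_mul, ← zpow_mul, mul_comm]
            _ = (q * g * q⁻¹) ^ i := by rw [hj]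
            _ = q * (g : G) ^ i * q⁻¹ := by rw [conj_zpow]
            _ = q * h * (g : G) * (q * h)⁻¹ := by rw [← hi]; group
        show ⁅h, q⁆ * g = g * ⁅h, q⁆
        rw [commutatorElement_def]
        calc h * q * h⁻¹ * q⁻¹ * g = (h * q * ((q * h)⁻¹ * g * (q * h)) * (h * q)⁻¹) * (h * q * h⁻¹ * q⁻¹) := by group
          _ = (q * h * ((q * h)⁻¹ * g * (q * h)) * (q * h)⁻¹) * (h * q * h⁻¹ * q⁻¹) := by
              obtain ⟨m, hm⟩ : ∃ m : ℤ, (q * h)⁻¹ * (g : G) * (q * h) = (g : G) ^ m := by
                obtain ⟨m, hm⟩ := hpw _ (NH.inv_mem (NH.mul_mem (hQ hq) (Subgroup.le_normalizer hh)))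
                exact ⟨m, by simpa using hm⟩
              rw [hm, ← conj_zpow, e1, conj_zpow]
          _ = g * (h * q * h⁻¹ * q⁻¹) := by group
      obtain ⟨m, hm⟩ := Subgroup.mem_zpowers_iff.mp (hg ⟨d, hd⟩)
      rw [show d = (g : G) ^ m from (congrArg Subtype.val hm).symm]
      exact (hcg.zpow_right m).eq.symm
    have hle : commutator K ≤ Subgroup.center K := fun d hd => Subgroup.mem_center_iff.mpr fun k => Subtype.ext
      (hKD k k.2 d ⟨d, hd, rfl⟩)
    haveI : Group.IsNilpotent K := by
      haveI : Group.IsNilpotent (K ⧸ commutator K) := inferInstanceAs (Group.IsNilpotent (Abelianization K))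
      exact Subgroup.isNilpotent_of_ker_le_center (QuotientGroup.mk' (commutator K)) (by rwa [QuotientGroup.ker_mk'])
    haveI : IsCyclic K := inferInstance
    have hbot : commutator K = ⊥ := by
      rw [commutator_def, Subgroup.commutator_eq_bot_iff_le_centralizer]
      intro a _
      rw [Subgroup.mem_centralizer_iff]
      exact fun b _ => IsCyclic.commutative.is_comm.comm b a
    refine (Subgroup.eq_bot_iff_forall _).mpr fun u hu => ?_
    have := fixed_mem_commutator hQK (hQHc.coprime_dvd_right (Subgroup.card_dvd_of_le hKH)) hcK hu.1 hu.2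
    rw [hbot, Subgroup.mem_bot] at this
    exact congrArg Subtype.val this
  -- `C` is a Hall subgroup of `H`
  have hCS : ∀ p : ℕ, p.Prime → p ∣ Nat.card C → ¬ p ∣ C.relIndex H := by
    intro p hp hpC hd
    haveI := Fact.mk hp
    obtain ⟨u, hu⟩ := exists_prime_orderOf_dvd_card' (G := C) p hpC
    rw [← Subgroup.orderOf_coe] at hu
    obtain ⟨S, hUS, hS, hQS⟩ := CfsgLib.GroupB.Coprime.exists_invariant_sylow_ge hQ hQHc (Or.inl hHs) p
      (U := Subgroup.zpowers (u : G)) ((Subgroup.zpowers_le).mpr u.2.1)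
      (IsPGroup.of_card (n := 1) (by rw [Nat.card_zpowers, hu, pow_one]))
      ((show Q ≤ Subgroup.centralizer ((Subgroup.zpowers (u : G) : Subgroup G) : Set G) from fun q hq => by
        rw [Subgroup.mem_centralizer_iff]
        intro w hw
        obtain ⟨i, rfl⟩ := Subgroup.mem_zpowers_iff.mp hw
        exact ((Commute.zpow_right (Subgroup.mem_centralizer_iff.mp u.2.2 q hq) i)).eq.symm).trans (Subgroup.centralizer_le_normalizer _))
    obtain ⟨R, hR⟩ := hS.exists_sylow
    haveI : IsCyclic S := hR ▸ isCyclic_of_surjective _ ((R : Subgroup H).equivMapOfInjective H.subtype H.subtype_injective).surjective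
    rcases hS.isPGroup.commutator_eq_bot_or_commutator_eq_self hQS
      ((hQHc.coprime_dvd_right (Subgroup.card_dvd_of_le hS.1)).symm) with h0 | h0
    · have hSC : (R : Subgroup H) ≤ C.subgroupOf H := fun x hx => by
        refine ⟨x.2, Subgroup.mem_centralizer_iff.mpr fun q hq => ?_⟩
        exact (Subgroup.mem_centralizer_iff.mp (Subgroup.commutator_eq_bot_iff_le_centralizer.mp h0 hq) _ (hR ▸ Subgroup.mem_map_of_mem _ hx)).symm
      exact R.not_dvd_index (hd.trans (Subgroup.index_dvd_of_le hSC))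
    · rw [Subgroup.commutator_comm] at h0
      have h1 := fixed_mem_commutator hQS (hQHc.coprime_dvd_right (Subgroup.card_dvd_of_le hS.1)) h0
        (hUS (Subgroup.mem_zpowers _)) u.2.2
      have hbot : commutator S = ⊥ := by
        rw [commutator_def, Subgroup.commutator_eq_bot_iff_le_centralizer]
        intro a _
        rw [Subgroup.mem_centralizer_iff]
        exact fun b _ => IsCyclic.commutative.is_comm.comm b a
      rw [hbot, Subgroup.mem_bot] at h1
      rw [show (u : G) = 1 from congrArg Subtype.val h1, orderOf_one] at hu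
      exact hp.one_lt.ne hu
  have hCH : C ≤ H := inf_le_left
  have hci : (Nat.card C).Coprime C.index := by
    rw [← Subgroup.relIndex_mul_index hCH]
    exact Nat.Coprime.mul_right (Nat.coprime_of_dvd fun p hp h1 h2 => hCS p hp h1 h2)
      (hH.coprime_dvd_left (Subgroup.card_dvd_of_le hCH))
  refine ⟨hci, ?_⟩
  -- the normal complement
  set N0 := K ⊔ Q
  have hKQn : Q ≤ Subgroup.normalizer (K : Set G) := hQ.trans hNK
  have hNN0 : NH ≤ Subgroup.normalizer (N0 : Set G) := by
    rw [← hQH']
    refine sup_le (Subgroup.le_normalizer.trans' le_sup_right) (fun h hh => ?_)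
    have hconj : ∀ g : G, g ∈ H → ∀ y ∈ N0, g * y * g⁻¹ ∈ N0 := by
      intro g hg y hy
      obtain ⟨k, hk, q, hq, rfl⟩ := (CfsgLib.GroupB.Coprime.mem_sup_of_le_normalizer hKQn).mp hy
      rw [show g * (k * q) * g⁻¹ = (g * k * g⁻¹) * ((g * q * g⁻¹ * q⁻¹) * q) by group]
      refine N0.mul_mem (Subgroup.mem_sup_left ((Subgroup.mem_normalizer_iff.mp (hNK (Subgroup.le_normalizer hg)) k).mp hk))
        (N0.mul_mem (Subgroup.mem_sup_left (Subgroup.commutator_mem_commutator hg hq)) (Subgroup.mem_sup_right hq))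
    exact CfsgLib.GroupB.Coprime.le_normalizer_of_conj_mem (K := H) (fun g hg y hy => hconj g hg y hy) hh
  set N := O ⊔ N0
  have hNn : N.Normal := by
    refine Subgroup.normalizer_eq_top_iff.mp (top_unique (hGO ▸ sup_le (le_sup_left.trans Subgroup.le_normalizer) ?_))
    refine CfsgLib.GroupB.Coprime.le_normalizer_of_conj_mem fun g hg y hy => ?_
    obtain ⟨o, ho, m, hm, rfl⟩ := (CfsgLib.GroupB.Coprime.mem_sup_of_le_normalizer (N := O) (le_top.trans_eq (Subgroup.normalizer_eq_top (H := O)).symm)).mp hy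
    rw [show g * (o * m) * g⁻¹ = (g * o * g⁻¹) * (g * m * g⁻¹) by group]
    exact N.mul_mem (Subgroup.mem_sup_left (hOn.conj_mem o ho g))
      (Subgroup.mem_sup_right ((Subgroup.mem_normalizer_iff.mp (hNN0 hg) m).mp hm))
  refine ⟨N, hNn, ?_⟩
  have hKi : (Nat.card K).Coprime (Nat.card C) := by
    refine Nat.coprime_of_dvd fun p hp h1 h2 => ?_
    haveI := Fact.mk hp
    obtain ⟨k, hk⟩ := exists_prime_orderOf_dvd_card' (G := K) p h1
    haveI : ((K ⊔ C).subgroupOf H).Normal ∨ True := Or.inr trivial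
    have hcard := CfsgLib.GroupB.Coprime.card_sup_eq (N := K) (K := C) ((hCH.trans Subgroup.le_normalizer).trans hNK)
      (le_bot_iff.mp ((inf_le_inf_left K (inf_le_right : C ≤ Subgroup.centralizer (Q : Set G))).trans hKC.le))
    have hdd : Nat.card K * Nat.card C ∣ Nat.card H := hcard ▸ Subgroup.card_dvd_of_le (sup_le hKH hCH)
    rw [← Subgroup.relIndex_bot_left H, ← Subgroup.relIndex_mul_relIndex ⊥ C H bot_le hCH, Subgroup.relIndex_bot_left,
      mul_comm (Nat.card K)] at hdd
    exact hCS p hp h2 (h1.trans (Nat.dvd_of_mul_dvd_mul_left Nat.card_pos hdd))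
  have hN0c : (Nat.card N0).Coprime (Nat.card C) := by
    have hKQ0 : K ⊓ Q = ⊥ := le_bot_iff.mp ((inf_le_inf_right Q hKH).trans (by rw [inf_comm, hQH]))
    rw [CfsgLib.GroupB.Coprime.card_sup_eq hKQn hKQ0]
    exact Nat.Coprime.mul_left hKi (hQHc.coprime_dvd_right (Subgroup.card_dvd_of_le hCH))
  have hNc : (Nat.card N).Coprime (Nat.card C) := by
    refine Nat.Coprime.coprime_dvd_left ?_ (Nat.Coprime.mul_left (hOcop.coprime_dvd_right (Subgroup.card_dvd_of_le hCH)) hN0c)
    have h1 : Nat.card ↥(O ⊔ N0) = Nat.card O * O.relIndex (O ⊔ N0) := by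
      rw [← Subgroup.relIndex_bot_left, ← Subgroup.relIndex_bot_left, Subgroup.relIndex_mul_relIndex _ _ _ bot_le le_sup_left]
    rw [h1, sup_comm, Subgroup.relIndex_sup_right]
    exact Nat.mul_dvd_mul_left _ (Subgroup.relIndex_dvd_card _ _)
  refine Subgroup.isComplement'_of_disjoint_and_mul_eq_univ
    (disjoint_iff.mpr (CfsgLib.GroupB.Coprime.inf_eq_bot_of_coprime hNc)) ?_
  haveI := hNn
  rw [← Subgroup.normal_mul, Subgroup.coe_eq_univ]
  refine top_unique (hGO ▸ sup_le (le_sup_left.trans le_sup_left) ?_)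
  rw [← hQH']
  refine sup_le ((le_sup_right.trans le_sup_right).trans le_sup_left) ?_
  rw [← CfsgLib.GroupB.Coprime.centralizer_sup_commutator hQ hQHc (Or.inl hHs)]
  exact sup_le le_sup_right ((le_sup_left.trans le_sup_right).trans le_sup_left)

end Cfsg.Agent.S4151
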