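import Cfsg.Statements.S4152
import Mathlib.GroupTheory.GroupAction.ConjAct
import Mathlib.GroupTheory.GroupAction.Quotient
import Mathlib.Data.Nat.Factorization.Basic
import Mathlib.Tactic

set_option autoImplicit false
open Cfsg

namespace Cfsg.Agent.S4152
open scoped Classical

universe u

/-- Commuting pairs with first coordinate killed by `a`. -/
abbrev Pairs (a : ℕ) (X : Type u) [Group X] : Type u := {t : X × X // t.1 ^ a = 1 ∧ t.1 * t.2 = t.2 * t.1}

theorem card_pairs (a : ℕ) (X : Type u) [Group X] [Finite X] (P : ConjClasses X → Prop)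
    (hP : ∀ x, P (ConjClasses.mk x) ↔ x ^ a = 1) :
    Nat.card (Pairs a X) = Nat.card {C : ConjClasses X // P C} * Nat.card X := by
  haveI : Finite (ConjClasses X) := Finite.of_surjective _ ConjClasses.mk_surjective
  haveI := Fintype.ofFinite {C : ConjClasses X // P C}
  let e : Pairs a X ≃ Σ C : {C : ConjClasses X // P C}, Σ x : C.1.carrier, {y : X // (x : X) * y = y * x} :=
    { toFun := fun t => ⟨⟨ConjClasses.mk t.1.1, (hP _).mpr t.2.1⟩, ⟨t.1.1, ConjClasses.mem_carrier_mk⟩, t.1.2, t.2.2⟩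
      invFun := fun s => ⟨(s.2.1.1, s.2.2.1), (hP _).mp (by rw [ConjClasses.mem_carrier_iff_mk_eq.mp s.2.1.2]; exact s.1.2), s.2.2.2⟩
      left_inv := fun t => rfl
      right_inv := by
        rintro ⟨⟨C, hC⟩, ⟨x, hx⟩, y, hy⟩
        obtain rfl : ConjClasses.mk x = C := ConjClasses.mem_carrier_iff_mk_eq.mp hx
        rfl }
  rw [Nat.card_congr e, Nat.card_sigma, Finset.sum_congr rfl fun C _ => ?_, Finset.sum_const, Finset.card_univ,
    ← Nat.card_eq_fintype_card, smul_eq_mul]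
  haveI := Fintype.ofFinite C.1.carrier
  rw [Nat.card_sigma]
  have h1 : ∀ x : C.1.carrier, Nat.card {y : X // (x : X) * y = y * x} * Nat.card C.1.carrier = Nat.card X := by
    rintro ⟨x, hx⟩
    obtain ⟨g, hg⟩ := ConjClasses.exists_rep C.1
    have e1 : C.1.carrier = MulAction.orbit (ConjAct X) x := by
      ext z
      rw [ConjClasses.mem_carrier_iff_mk_eq, ConjAct.mem_orbit_conjAct, ← ConjClasses.mk_eq_mk_iff_isConj,
        ConjClasses.mem_carrier_iff_mk_eq.mp hx]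
    have e2 : {y : X // x * y = y * x} ≃ MulAction.stabilizer (ConjAct X) x :=
      ConjAct.toConjAct.toEquiv.subtypeEquiv fun y => by
        simp [MulAction.mem_stabilizer_iff, ConjAct.smul_def, mul_inv_eq_iff_eq_mul, eq_mul_inv_iff_mul_eq, eq_comm]
    rw [Nat.card_congr e2, e1, Nat.card_coe_set_eq, ← MulAction.index_stabilizer, Subgroup.card_mul_index]
    exact Nat.card_congr ConjAct.toConjAct.toEquiv.symm
  obtain ⟨g, hg⟩ := ConjClasses.exists_rep C.1
  haveI : Nonempty C.1.carrier := ⟨⟨g, ConjClasses.mem_carrier_iff_mk_eq.mpr hg⟩⟩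
  refine Nat.eq_of_mul_eq_mul_right (Nat.card_pos (α := C.1.carrier)) ?_
  rw [Finset.sum_mul, Finset.sum_congr rfl fun x _ => h1 x, Finset.sum_const, Finset.card_univ,
    ← Nat.card_eq_fintype_card, smul_eq_mul, mul_comm]


/-- Let G be a finite group, N a normal subgroup and π a set of primes. Then the number of conjugacy classes of π-elements of G (elements whose order is divisible only by primes in π) is at most the number of conjugacy classes of π-elements of N (under conjugation by N) times the number of conjugacy classes of π-elements of G/N. -/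
theorem result {G : Type*} [Group G] [Finite G] (N : Subgroup G) [N.Normal] (π : Set ℕ) :
    Nat.card {C : ConjClasses G // ∀ q : ℕ, q.Prime → (∃ g : G, ConjClasses.mk g = C ∧ q ∣ orderOf g) → q ∈ π} ≤ Nat.card {C : ConjClasses N // ∀ q : ℕ, q.Prime → (∃ g : N, ConjClasses.mk g = C ∧ q ∣ orderOf g) → q ∈ π} * Nat.card {C : ConjClasses (G ⧸ N) // ∀ q : ℕ, q.Prime → (∃ g : (G ⧸ N), ConjClasses.mk g = C ∧ q ∣ orderOf g) → q ∈ π} := by
  classical
  set M := Nat.card G with hM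
  set a := ∏ q ∈ M.primeFactors.filter (fun q => q ∈ π), q ^ M.factorization q with ha
  set b := ∏ q ∈ M.primeFactors.filter (fun q => q ∉ π), q ^ M.factorization q with hb
  have hab : a * b = M := by
    rw [ha, hb, Finset.prod_filter_mul_prod_filter_not]
    exact Nat.prod_factorization_pow_eq_self Nat.card_pos.ne'
  have hprime : ∀ (s : Finset ℕ) q, q.Prime → (∀ r ∈ s, r.Prime) → q ∣ ∏ r ∈ s, r ^ M.factorization r → q ∈ s := by
    intro s q hq hs h
    obtain ⟨r, hr, hd⟩ := (Prime.dvd_finsetProd_iff hq.prime _).mp h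
    rwa [(Nat.prime_dvd_prime_iff_eq hq (hs r hr)).mp (hq.dvd_of_dvd_pow hd)]
  have hfP : ∀ (Q : ℕ → Prop) [DecidablePred Q] r, r ∈ M.primeFactors.filter Q → r.Prime := fun Q _ r hr =>
    Nat.prime_of_mem_primeFactors (Finset.mem_filter.mp hr).1
  have hcop : a.Coprime b := Nat.coprime_of_dvd fun q hq h1 h2 => by
    rw [ha] at h1
    rw [hb] at h2
    exact (Finset.mem_filter.mp (hprime _ q hq (hfP (fun r => r ∉ π)) h2)).2 (Finset.mem_filter.mp (hprime _ q hq (hfP (fun r => r ∈ π)) h1)).2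
  have hiff : ∀ (X : Type u_1) [Group X], (∀ x : X, orderOf x ∣ M) → ∀ x : X,
      (∀ q : ℕ, q.Prime → (∃ g : X, ConjClasses.mk g = ConjClasses.mk x ∧ q ∣ orderOf g) → q ∈ π) ↔ x ^ a = 1 := by
    intro X _ hX x
    constructor
    · intro h
      rw [← orderOf_dvd_iff_pow_eq_one]
      refine Nat.Coprime.dvd_of_dvd_mul_right (Nat.coprime_of_dvd fun q hq h1 h2 => ?_) (hab.symm ▸ hX x)
      rw [hb] at h2
      exact (Finset.mem_filter.mp (hprime _ q hq (hfP (fun r => r ∉ π)) h2)).2 (h q hq ⟨x, rfl, h1⟩)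
    · rintro h q hq ⟨g, hg, hqg⟩
      obtain ⟨c, hc⟩ := isConj_iff.mp (ConjClasses.mk_eq_mk_iff_isConj.mp hg)
      have hga : g ^ a = 1 := by
        refine (mul_left_cancel (a := c) (mul_right_cancel (b := c⁻¹) ?_))
        rw [← conj_pow, hc, h, mul_one, mul_inv_cancel]
      have h4 := hqg.trans (orderOf_dvd_of_pow_eq_one hga)
      rw [ha] at h4
      exact (Finset.mem_filter.mp (hprime _ q hq (hfP (fun r => r ∈ π)) h4)).2
  have hordN : ∀ x : N, orderOf x ∣ M := fun x => by rw [← Subgroup.orderOf_coe]; exact orderOf_dvd_natCard (x : G)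
  have hordQ : ∀ x : G ⧸ N, orderOf x ∣ M := fun x =>
    (orderOf_dvd_natCard x).trans (Subgroup.card_quotient_dvd_card N)
  have kG := card_pairs a G (fun C => ∀ q : ℕ, q.Prime → (∃ g : G, ConjClasses.mk g = C ∧ q ∣ orderOf g) → q ∈ π) (hiff G orderOf_dvd_natCard)
  have kN := card_pairs a N (fun C => ∀ q : ℕ, q.Prime → (∃ g : N, ConjClasses.mk g = C ∧ q ∣ orderOf g) → q ∈ π) (hiff N hordN)
  have kQ := card_pairs a (G ⧸ N) (fun C => ∀ q : ℕ, q.Prime → (∃ g : G ⧸ N, ConjClasses.mk g = C ∧ q ∣ orderOf g) → q ∈ π) (hiff (G ⧸ N) hordQ)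
  obtain ⟨e, he1, he2⟩ := Nat.chineseRemainder hcop 1 0
  obtain ⟨e', he1', he2'⟩ := Nat.chineseRemainder hcop 0 1
  have hsum : ∀ y : G, y ^ e * y ^ e' = y := fun y => by
    rw [← pow_add]
    conv_rhs => rw [← pow_one y]
    refine pow_eq_pow_iff_modEq.mpr (Nat.ModEq.of_dvd (orderOf_dvd_natCard y) ?_)
    rw [← hM, ← hab, ← Nat.modEq_and_modEq_iff_modEq_mul hcop]
    exact ⟨by simpa using he1.add he1', by simpa using he2.add he2'⟩
  have hea : ∀ y : G, (y ^ e) ^ a = 1 := fun y => by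
    obtain ⟨t, ht⟩ := Nat.modEq_zero_iff_dvd.mp he2
    rw [← pow_mul, ← orderOf_dvd_iff_pow_eq_one, ht]
    refine (orderOf_dvd_natCard y).trans ?_
    rw [← hM, ← hab, mul_comm a b, mul_right_comm]
    exact dvd_mul_right _ _
  have heb : ∀ y : G, (y ^ e') ^ b = 1 := fun y => by
    obtain ⟨t, ht⟩ := Nat.modEq_zero_iff_dvd.mp he1'
    rw [← pow_mul, ← orderOf_dvd_iff_pow_eq_one, ht]
    refine (orderOf_dvd_natCard y).trans ?_
    rw [← hM, ← hab, mul_right_comm]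
    exact dvd_mul_right _ _
  have hfix : ∀ (y : G) (n k : ℕ), y ^ n = 1 → k ≡ 1 [MOD n] → y ^ k = y := fun y n k h hk => by
    conv_rhs => rw [← pow_one y]
    exact pow_eq_pow_iff_modEq.mpr (hk.of_dvd (orderOf_dvd_of_pow_eq_one h))
  have hkill : ∀ (y : G) (n k : ℕ), y ^ n = 1 → k ≡ 0 [MOD n] → y ^ k = 1 := fun y n k h hk =>
    orderOf_dvd_iff_pow_eq_one.mp ((orderOf_dvd_of_pow_eq_one h).trans (Nat.modEq_zero_iff_dvd.mp hk))
  let π' := QuotientGroup.mk' N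
  let Φ : Pairs a G → Pairs a (G ⧸ N) := fun t => ⟨(π' t.1.1, π' t.1.2),
    by rw [← map_pow, t.2.1, map_one], by rw [← map_mul, ← map_mul, t.2.2]⟩
  have hfib : ∀ s, Nat.card {t : Pairs a G // Φ t = s} ≤ Nat.card (Pairs a N) := by
    intro s
    have hsQ : ∀ t : {t : Pairs a G // Φ t = s}, π' t.1.1.1 = s.1.1 ∧ π' t.1.1.2 = s.1.2 := fun t =>
      ⟨congrArg (fun r : Pairs a (G ⧸ N) => r.1.1) t.2, congrArg (fun r : Pairs a (G ⧸ N) => r.1.2) t.2⟩
    -- shift the second coordinate into `N`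
    let T := {r : G × N // r.1 ^ a = 1 ∧ π' r.1 = s.1.1 ∧ r.1 * r.2 = r.2 * r.1}
    have hT : Nat.card {t : Pairs a G // Φ t = s} ≤ Nat.card T := by
      let Fx := fun x : G => {t : {t : Pairs a G // Φ t = s} // t.1.1.1 = x}
      have hy : ∀ x, Nonempty (Fx x) → ∃ y₀ : G, x * y₀ = y₀ * x ∧ π' y₀ = s.1.2 := fun x ⟨t⟩ =>
        ⟨t.1.1.1.2, (congrArg (fun w : G => w * t.1.1.1.2) t.2.symm).trans (t.1.1.2.2.trans (congrArg (fun w : G => t.1.1.1.2 * w) t.2)), (hsQ t.1).2⟩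
      choose y₀ hy₀c hy₀q using hy
      refine Nat.card_le_card_of_injective (fun t => (⟨(t.1.1.1, ⟨(y₀ t.1.1.1 ⟨⟨t, rfl⟩⟩)⁻¹ * t.1.1.2, ?_⟩),
        t.1.2.1, (hsQ t).1, ?_⟩ : T)) ?_
      · rw [← QuotientGroup.eq_one_iff]
        show π' ((y₀ t.1.1.1 _)⁻¹ * t.1.1.2) = 1
        rw [map_mul, map_inv, hy₀q, (hsQ t).2, inv_mul_cancel]
      · exact (((show Commute t.1.1.1 (y₀ t.1.1.1 ⟨⟨t, rfl⟩⟩) from hy₀c _ _).inv_right).mul_right (show Commute t.1.1.1 t.1.1.2 from t.1.2.2)).eq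
      · intro t t' h
        have h1 : t.1.1.1 = t'.1.1.1 := congrArg (fun r : T => r.1.1) h
        have h2 : (y₀ t.1.1.1 ⟨⟨t, rfl⟩⟩)⁻¹ * t.1.1.2 = (y₀ t'.1.1.1 ⟨⟨t', rfl⟩⟩)⁻¹ * t'.1.1.2 :=
          congrArg (fun r : T => ((r.1.2 : N) : G)) h
        have h3 : ∀ x x' (hx : Nonempty (Fx x)) (hx' : Nonempty (Fx x')), x = x' → y₀ x hx = y₀ x' hx' := by
          rintro x _ _ _ rfl; rfl
        rw [h3 _ _ _ ⟨⟨t', rfl⟩⟩ h1, mul_right_inj] at h2
        exact Subtype.ext (Subtype.ext (Prod.ext h1 h2))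
    -- exchange the parts
    let T' := {r : N × G // r.1 ^ a = 1 ∧ π' r.2 = s.1.1 ∧ (r.1 : G) * r.2 = r.2 * r.1}
    have hqa : (s.1.1) ^ a = 1 := s.2.1
    have hT' : Nat.card T ≤ Nat.card T' := by
      have hc : ∀ r : T, Commute r.1.1 ((r.1.2 : G)) := fun r => r.2.2.2
      refine Nat.card_le_card_of_injective (fun r => (⟨(r.1.2 ^ e, r.1.1 * (r.1.2 : G) ^ e'), Subtype.ext ?_, ?_, ?_⟩ : T')) ?_
      · rw [Subgroup.coe_pow, Subgroup.coe_pow]; exact hea _
      · rw [map_mul, r.2.2.1, map_pow, show π' (r.1.2 : G) = 1 from (QuotientGroup.eq_one_iff _).mpr r.1.2.2, one_pow, mul_one]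
      · rw [Subgroup.coe_pow]
        exact (((hc r).symm.pow_left e).mul_right (Commute.pow_pow_self _ e e')).eq
      · intro r r' h
        have h1 : (r.1.2 : G) ^ e = (r'.1.2 : G) ^ e := congrArg (fun r : T' => ((r.1.1 : N) : G)) h
        have h2 : r.1.1 * (r.1.2 : G) ^ e' = r'.1.1 * (r'.1.2 : G) ^ e' := congrArg (fun r : T' => r.1.2) h
        have hx : ∀ r : T, (r.1.1 * (r.1.2 : G) ^ e') ^ e = r.1.1 := fun r => by
          rw [((hc r).pow_right e').mul_pow, hfix _ a e r.2.1 he1, hkill _ b e (heb _) he2, mul_one]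
        have hxx : r.1.1 = r'.1.1 := by rw [← hx r, h2, hx r']
        rw [hxx, mul_right_inj] at h2
        refine Subtype.ext (Prod.ext hxx (Subtype.ext ?_))
        rw [← hsum (r.1.2 : G), h1, h2, hsum]
    refine hT.trans (hT'.trans ?_)
    let Fz := fun z : N => {r : T' // r.1.1 = z}
    have hy : ∀ z, Nonempty (Fz z) → ∃ y₀ : G, (z : G) * y₀ = y₀ * z ∧ π' y₀ = s.1.1 := fun z ⟨r⟩ =>
      ⟨r.1.1.2, (congrArg (fun w : N => (w : G)) r.2) ▸ r.1.2.2.2, r.1.2.2.1⟩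
    choose y₀ hy₀c hy₀q using hy
    refine Nat.card_le_card_of_injective (fun r => (⟨(r.1.1, ⟨(y₀ r.1.1 ⟨⟨r, rfl⟩⟩)⁻¹ * r.1.2, ?_⟩), r.2.1, Subtype.ext ?_⟩ : Pairs a N)) ?_
    · rw [← QuotientGroup.eq_one_iff]
      show π' ((y₀ r.1.1 _)⁻¹ * r.1.2) = 1
      rw [map_mul, map_inv, hy₀q, r.2.2.1, inv_mul_cancel]
    · exact (((show Commute (r.1.1 : G) (y₀ r.1.1 ⟨⟨r, rfl⟩⟩) from hy₀c _ _).inv_right).mul_right (show Commute (r.1.1 : G) r.1.2 from r.2.2.2)).eq
    · intro r r' h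
      have h1 : r.1.1 = r'.1.1 := congrArg (fun q : Pairs a N => q.1.1) h
      have h2 : (y₀ r.1.1 ⟨⟨r, rfl⟩⟩)⁻¹ * r.1.2 = (y₀ r'.1.1 ⟨⟨r', rfl⟩⟩)⁻¹ * r'.1.2 :=
        congrArg (fun q : Pairs a N => ((q.1.2 : N) : G)) h
      have h3 : ∀ x x' (hx : Nonempty (Fz x)) (hx' : Nonempty (Fz x')), x = x' → y₀ x hx = y₀ x' hx' := by
        rintro x _ _ _ rfl; rfl
      rw [h3 _ _ _ ⟨⟨r', rfl⟩⟩ h1, mul_right_inj] at h2
      exact Subtype.ext (Prod.ext h1 h2)
  have hmain : Nat.card (Pairs a G) ≤ Nat.card (Pairs a N) * Nat.card (Pairs a (G ⧸ N)) := by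
    haveI := Fintype.ofFinite (Pairs a (G ⧸ N))
    rw [← Nat.card_congr (Equiv.sigmaFiberEquiv Φ), Nat.card_sigma, Nat.card_eq_fintype_card (α := Pairs a (G ⧸ N))]
    refine (Finset.sum_le_card_nsmul _ _ _ fun s _ => hfib s).trans ?_
    rw [Finset.card_univ, smul_eq_mul, mul_comm]
  rw [kG, kN, kQ] at hmain
  refine Nat.le_of_mul_le_mul_right ?_ (Nat.card_pos (α := G))
  refine hmain.trans (le_of_eq ?_)
  rw [N.card_eq_card_quotient_mul_card_subgroup]
  ring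

end Cfsg.Agent.S4152
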