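import Cfsg.Statements.S4153
import Mathlib

set_option autoImplicit false
open Cfsg

namespace Cfsg.Agent.S4153

/-- Let G be a finite group, p a prime, N a normal subgroup, P a Sylow p-subgroup of G and P̄ a Sylow p-subgroup of G/N. Count the elements of p-power order, the identity included. Then (number of such elements of G/N)/#P̄ ≤ (number of such elements of G)/#P, stated as a cross-multiplied inequality, with equality when N is central. -/
theorem result {G : Type*} [Group G] [Finite G] (p : ℕ) [Fact p.Prime] (N : Subgroup G) [N.Normal]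
    (P : Sylow p G) (Pbar : Sylow p (G ⧸ N)) :
    Nat.card {g : (G ⧸ N) // ∃ k : ℕ, orderOf g = p ^ k} * Nat.card (P : Subgroup G) ≤ Nat.card {g : G // ∃ k : ℕ, orderOf g = p ^ k} * Nat.card (Pbar : Subgroup (G ⧸ N)) ∧
    (N ≤ Subgroup.center G → Nat.card {g : (G ⧸ N) // ∃ k : ℕ, orderOf g = p ^ k} * Nat.card (P : Subgroup G) = Nat.card {g : G // ∃ k : ℕ, orderOf g = p ^ k} * Nat.card (Pbar : Subgroup (G ⧸ N))) := by
  classical
  haveI := Fintype.ofFinite G
  haveI := Fintype.ofFinite (G ⧸ N)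
  set f := QuotientGroup.mk' N with hf
  have hfs : Function.Surjective f := QuotientGroup.mk'_surjective N
  set d := Nat.card ((P : Subgroup G) ⊓ N : Subgroup G) with hd
  have hPc : ∀ R : Sylow p G, Nat.card (R : Subgroup G) = Nat.card (Pbar : Subgroup (G ⧸ N)) * Nat.card ((R : Subgroup G) ⊓ N : Subgroup G) := by
    intro R
    set φ := f.comp (R : Subgroup G).subtype with hφ
    have h1 := Subgroup.card_mul_index φ.ker
    rw [Subgroup.index_ker, MonoidHom.range_comp, Subgroup.range_subtype] at h1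
    rw [Pbar.card_eq_multiplicity, ← (R.mapSurjective hfs).card_eq_multiplicity, Sylow.coe_mapSurjective, ← h1, mul_comm]
    congr 1
    refine Nat.card_congr
      { toFun := fun a => ⟨a.1.1, a.1.2, (QuotientGroup.eq_one_iff _).mp a.2⟩
        invFun := fun a => ⟨⟨a.1, a.2.1⟩, (QuotientGroup.eq_one_iff _).mpr a.2.2⟩
        left_inv := fun a => rfl
        right_inv := fun a => rfl }
  have hd' : ∀ R : Sylow p G, Nat.card ((R : Subgroup G) ⊓ N : Subgroup G) = d := fun R => by
    refine Nat.eq_of_mul_eq_mul_left (Nat.card_pos (α := (Pbar : Subgroup (G ⧸ N)))) ?_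
    rw [← hPc R, ← hPc P, R.card_eq_multiplicity, P.card_eq_multiplicity]
  let S := {g : G // ∃ k : ℕ, orderOf g = p ^ k}
  let S' := {g : (G ⧸ N) // ∃ k : ℕ, orderOf g = p ^ k}
  have hmem : ∀ (R : Sylow p G) (g : G), g ∈ (R : Subgroup G) → ∃ k : ℕ, orderOf g = p ^ k := fun R g hg =>
    (IsPGroup.iff_orderOf.mp R.2 ⟨g, hg⟩).imp fun k hk => by rw [← hk, Subgroup.orderOf_mk]
  have hsyl : ∀ g : G, (∃ k : ℕ, orderOf g = p ^ k) → ∃ R : Sylow p G, g ∈ (R : Subgroup G) := by
    rintro g ⟨k, hk⟩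
    obtain ⟨R, hR⟩ := (IsPGroup.of_card (n := k) (show Nat.card (Subgroup.zpowers g) = p ^ k by
      rw [Nat.card_zpowers, hk])).exists_le_sylow
    exact ⟨R, hR (Subgroup.mem_zpowers g)⟩
  let π : S → S' := fun s => ⟨f s.1, by
    obtain ⟨R, hR⟩ := hsyl s.1 s.2
    exact (IsPGroup.iff_orderOf.mp (R.mapSurjective hfs).2 ⟨f s.1, ⟨s.1, hR, rfl⟩⟩).imp fun k hk =>
      (orderOf_injective (Subgroup.subtype _) Subtype.coe_injective _).trans hk⟩
  have hlift : ∀ q : S', ∃ (R : Sylow p G) (g : G), g ∈ (R : Subgroup G) ∧ f g = q.1 := by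
    rintro ⟨q, k, hk⟩
    obtain ⟨Q, hQ⟩ := (IsPGroup.of_card (n := k) (show Nat.card (Subgroup.zpowers q) = p ^ k by
      rw [Nat.card_zpowers, hk])).exists_le_sylow
    obtain ⟨R, rfl⟩ := Sylow.mapSurjective_surjective hfs p Q
    obtain ⟨g, hg, hgq⟩ := hQ (Subgroup.mem_zpowers q)
    exact ⟨R, g, hg, hgq⟩
  have hsum : Nat.card S = ∑ q : S', Nat.card {s : S // π s = q} := by
    rw [← Nat.card_sigma]
    exact Nat.card_congr (Equiv.sigmaFiberEquiv π).symm
  have hfib : ∀ q : S', d ≤ Nat.card {s : S // π s = q} := by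
    intro q
    obtain ⟨R, g, hg, hgq⟩ := hlift q
    rw [← hd' R]
    refine Nat.card_le_card_of_injective (fun n => ⟨⟨g * n.1, hmem R _ (Subgroup.mul_mem _ hg n.2.1)⟩,
      Subtype.ext (by
        show f (g * n.1) = q.1
        rw [map_mul, show f n.1 = 1 from (QuotientGroup.eq_one_iff _).mpr n.2.2, mul_one, hgq])⟩) ?_
    intro a b h
    exact Subtype.ext (mul_left_cancel (congrArg (fun s => s.1.1) h))
  have hfib' : N ≤ Subgroup.center G → ∀ q : S', Nat.card {s : S // π s = q} ≤ d := by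
    intro hNc q
    obtain ⟨R, g, hg, hgq⟩ := hlift q
    rw [← hd' R]
    have hmemN : ∀ s : {s : S // π s = q}, g⁻¹ * s.1.1 ∈ N := fun s =>
      QuotientGroup.eq.mp (hgq.trans (congrArg Subtype.val s.2).symm)
    have hin : ∀ s : {s : S // π s = q}, g⁻¹ * s.1.1 ∈ (R : Subgroup G) := by
      intro s
      set n := g⁻¹ * s.1.1 with hn
      obtain ⟨k, hk⟩ := s.1.2
      obtain ⟨l, hl⟩ := hmem R g hg
      have hcm : Commute g n := Subgroup.mem_center_iff.mp (hNc (hmemN s)) g
      have h1 : (g * n) ^ p ^ (k + l) = 1 := by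
        rw [hn, mul_inv_cancel_left, pow_add, pow_mul, ← hk, pow_orderOf_eq_one, one_pow]
      have h2 : g ^ p ^ (k + l) = 1 := by
        rw [add_comm, pow_add, pow_mul, ← hl, pow_orderOf_eq_one, one_pow]
      rw [hcm.mul_pow, h2, one_mul] at h1
      -- a central `p`-element lies in every Sylow subgroup
      haveI : (Subgroup.zpowers n).Normal := ⟨fun a ha b => by
        have := hNc ((Subgroup.zpowers_le.mpr (hmemN s)) ha)
        rw [Subgroup.mem_center_iff.mp this b, mul_inv_cancel_right]; exact ha⟩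
      obtain ⟨j, -, hj⟩ := (Nat.dvd_prime_pow (Fact.out : p.Prime)).mp (orderOf_dvd_of_pow_eq_one h1)
      have hpz : IsPGroup p (Subgroup.zpowers n) := IsPGroup.of_card (n := j) (by rw [Nat.card_zpowers, hj])
      have h3 := R.3 (R.2.to_sup_of_normal_right hpz) le_sup_left
      rw [← h3]
      exact Subgroup.mem_sup_right (Subgroup.mem_zpowers n)
    exact Nat.card_le_card_of_injective (fun s => ⟨g⁻¹ * s.1.1, hin s, hmemN s⟩)
      fun a b h => Subtype.ext (Subtype.ext (mul_left_cancel (congrArg Subtype.val h)))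
  refine ⟨?_, fun hNc => ?_⟩ <;> rw [hPc P, ← hd]
  · calc _ = (Nat.card S' * d) * Nat.card (Pbar : Subgroup (G ⧸ N)) := by ring
      _ ≤ _ := Nat.mul_le_mul_right _ (by
        show Nat.card S' * d ≤ Nat.card S
        rw [hsum, Nat.card_eq_fintype_card, ← Finset.card_univ, ← smul_eq_mul, ← Finset.sum_const]
        exact Finset.sum_le_sum fun q _ => hfib q)
  · calc _ = (Nat.card S' * d) * Nat.card (Pbar : Subgroup (G ⧸ N)) := by ring
      _ = _ := by
        congr 1
        show Nat.card S' * d = Nat.card S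
        rw [hsum, Nat.card_eq_fintype_card, ← Finset.card_univ, ← smul_eq_mul, ← Finset.sum_const]
        exact Finset.sum_congr rfl fun q _ => le_antisymm (hfib q) (hfib' hNc q)

end Cfsg.Agent.S4153
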