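import Cfsg.Statements.S4154
import Mathlib.Tactic

set_option autoImplicit false
open Cfsg

namespace Cfsg.Agent.S4154

/-- Let G be a finite group and α an automorphism of G such that every element of G is the product of an element fixed by α and an element of the form g⁻¹α(g). If N is a normal α-invariant subgroup, then the automorphism ᾱ induced on G/N has the same property, and every coset fixed by ᾱ contains an element fixed by α (so the fixed points of ᾱ are the images of the fixed points of α). -/
theorem result {G : Type*} [Group G] [Finite G] (α : MulAut G)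
    (hccp : ∀ x : G, ∃ c g : G, α c = c ∧ x = c * (g⁻¹ * α g))
    (N : Subgroup G) [N.Normal] (hN : ∀ n ∈ N, α n ∈ N) :
    (∀ x : G, ∃ c g : G, c⁻¹ * α c ∈ N ∧ x⁻¹ * (c * (g⁻¹ * α g)) ∈ N) ∧
    (∀ x : G, x⁻¹ * α x ∈ N → ∃ c : G, α c = c ∧ c⁻¹ * x ∈ N) := by
  refine ⟨fun x => ?_, ?_⟩
  · obtain ⟨c, g, hc, hx⟩ := hccp x
    exact ⟨c, g, by simp [hc], by simp [← hx]⟩
  classical
  -- uniqueness in the decomposition
  let C : Subgroup G := { carrier := {c | α c = c}
                          one_mem' := map_one α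
                          mul_mem' := fun {a b} ha hb => by
                            show α (a * b) = a * b
                            rw [map_mul, show α a = a from ha, show α b = b from hb]
                          inv_mem' := fun {a} ha => by
                            show α a⁻¹ = a⁻¹
                            rw [map_inv, show α a = a from ha] }
  let ι : G → G := fun g => g⁻¹ * α g
  have hι : ∀ g h : G, ι g = ι h ↔ h * g⁻¹ ∈ C := by
    intro g h
    show g⁻¹ * α g = h⁻¹ * α h ↔ α (h * g⁻¹) = h * g⁻¹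
    rw [map_mul, map_inv]
    constructor
    · intro e
      calc α h * (α g)⁻¹ = h * (h⁻¹ * α h) * (α g)⁻¹ := by group
        _ = h * g⁻¹ := by rw [← e]; group
    · intro e
      calc g⁻¹ * α g = h⁻¹ * (h * g⁻¹) * α g := by group
        _ = h⁻¹ * α h := by rw [← e]; group
  have hIcard : Nat.card (Set.range ι) = C.index := by
    rw [Subgroup.index]
    refine (Nat.card_congr (Equiv.ofBijective
      (fun q : Quotient (QuotientGroup.rightRel C) => Quotient.liftOn' q (fun g => (⟨ι g, g, rfl⟩ : Set.range ι))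
        (fun g h e => Subtype.ext ((hι g h).mpr (QuotientGroup.rightRel_apply.mp e)))) ⟨?_, ?_⟩)).symm.trans
      (Nat.card_congr (QuotientGroup.quotientRightRelEquivQuotientLeftRel C))
    · intro a b e
      induction a using Quotient.inductionOn' with
      | h a =>
        induction b using Quotient.inductionOn' with
        | h b => exact Quotient.sound' (QuotientGroup.rightRel_apply.mpr ((hι a b).mp (congrArg Subtype.val e)))
    · rintro ⟨_, g, rfl⟩
      exact ⟨Quotient.mk'' g, rfl⟩
  let Φ : C × Set.range ι → G := fun z => (z.1 : G) * z.2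
  have hΦ : Function.Injective Φ := by
    refine (Function.Surjective.bijective_of_nat_card_le (fun x => ?_) (le_of_eq ?_)).1
    · obtain ⟨c, g, hc, hx⟩ := hccp x
      exact ⟨(⟨c, hc⟩, ⟨ι g, g, rfl⟩), hx.symm⟩
    · rw [Nat.card_prod, hIcard, Subgroup.card_mul_index]
  -- the restriction to `N`
  let CN : Subgroup N := C.subgroupOf N
  let ιN : N → N := fun m => ⟨(m : G)⁻¹ * α m, N.mul_mem (N.inv_mem m.2) (hN m m.2)⟩
  have hNcard : Nat.card (Set.range ιN) = CN.index := by
    rw [Subgroup.index]
    refine (Nat.card_congr (Equiv.ofBijective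
      (fun q : Quotient (QuotientGroup.rightRel CN) => Quotient.liftOn' q (fun g => (⟨ιN g, g, rfl⟩ : Set.range ιN))
        (fun g h e => Subtype.ext (Subtype.ext ((hι g h).mpr (show (h : G) * (g : G)⁻¹ ∈ C from (QuotientGroup.rightRel_apply.mp e : h * g⁻¹ ∈ CN)))))) ⟨?_, ?_⟩)).symm.trans
      (Nat.card_congr (QuotientGroup.quotientRightRelEquivQuotientLeftRel CN))
    · intro a b e
      induction a using Quotient.inductionOn' with
      | h a =>
        induction b using Quotient.inductionOn' with
        | h b =>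
          exact Quotient.sound' (QuotientGroup.rightRel_apply.mpr
            ((hι a b).mp (congrArg (fun z : Set.range ιN => ((z : N) : G)) e)))
    · rintro ⟨_, g, rfl⟩
      exact ⟨Quotient.mk'' g, rfl⟩
  let Ψ : CN × Set.range ιN → N := fun z => (z.1 : N) * z.2
  have hΨ : Function.Surjective Ψ := by
    refine (Function.Injective.bijective_of_nat_card_le (fun a b e => ?_) (le_of_eq ?_)).2
    · obtain ⟨⟨c, hc⟩, ⟨i, m, rfl⟩⟩ := a
      obtain ⟨⟨c', hc'⟩, ⟨i', m', rfl⟩⟩ := b
      have h1 := @hΦ (⟨(c : G), hc⟩, ⟨ι (m : G), m, rfl⟩) (⟨(c' : G), hc'⟩, ⟨ι (m' : G), m', rfl⟩)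
        (congrArg Subtype.val e)
      obtain ⟨h2, h3⟩ := Prod.ext_iff.mp h1
      exact Prod.ext (Subtype.ext (Subtype.ext (congrArg (fun z : C => (z : G)) h2)))
        (Subtype.ext (Subtype.ext (congrArg (fun z : Set.range ι => (z : G)) h3)))
    · rw [Nat.card_prod, hNcard, Subgroup.card_mul_index]
  intro x hx
  obtain ⟨⟨c, i, m, rfl⟩, hz⟩ := hΨ ⟨x⁻¹ * α x, hx⟩
  have h0 : ((c : N) : G) * ((m : G)⁻¹ * α m) = x⁻¹ * α x := congrArg Subtype.val hz
  have h1 := @hΦ (⟨((c : N) : G), c.2⟩, ⟨ι (m : G), m, rfl⟩) (1, ⟨ι x, x, rfl⟩) (by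
    show ((c : N) : G) * ((m : G)⁻¹ * α m) = 1 * (x⁻¹ * α x)
    rw [one_mul, h0])
  have h3 : ι (m : G) = ι x := congrArg Subtype.val (Prod.ext_iff.mp h1).2
  refine ⟨x * (m : G)⁻¹, (hι _ _).mp h3, ?_⟩
  rw [show (x * (m : G)⁻¹)⁻¹ * x = m by group]
  exact m.2

end Cfsg.Agent.S4154
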