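import Cfsg.Statements.S4155
import Cfsg.Agent.Lib.UniqueOrderP
import Cfsg.Agent.Lib.CNGroup
import Cfsg.Agent.Lib.Core
import Cfsg.Agent.Lib.GroupB.CoprimeAbelian

set_option autoImplicit false
open Cfsg

namespace Cfsg.Agent.S4155
theorem no_mul {G : Type*} [Group G] [Finite G] {N : Subgroup G}
    (heq : ∀ x : G, x ∉ N → ∀ n ∈ N, orderOf (x * n) = orderOf x) {x n : G} (hx : x ∉ N) (hn : n ∈ N)
    (hc : x * n = n * x) (hcop : (orderOf x).Coprime (orderOf n)) : n = 1 := by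
  have h := (show Commute x n from hc).orderOf_mul_eq_mul_orderOf_of_coprime hcop
  rw [heq x hx n hn] at h
  exact orderOf_eq_one_iff.1 (mul_left_cancel₀ (orderOf_pos x).ne' (h.symm.trans (mul_one _).symm))

theorem uniq {G : Type*} [Group G] [Finite G] (N : Subgroup G) [N.Normal]
    (heq : ∀ x : G, x ∉ N → ∀ n ∈ N, orderOf (x * n) = orderOf x)
    (hnil : Group.IsNilpotent N) {q r : ℕ} [hq : Fact q.Prime] [hr : Fact r.Prime] (hrq : r ≠ q) (hrN : r ∣ Nat.card N)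
    (E : Subgroup (G ⧸ N)) (hE : IsPGroup q E) (hEc : ∀ a ∈ E, ∀ b ∈ E, a * b = b * a) : IsCyclic E := by
  obtain ⟨Mq⟩ : Nonempty (Sylow q N) := inferInstance
  obtain ⟨S⟩ : Nonempty (Sylow r N) := inferInstance
  haveI := CfsgLib.CNGroup.sylow_normal hnil Mq
  haveI := CfsgLib.CNGroup.sylow_normal hnil S
  haveI := Mq.characteristic_of_normal inferInstance
  haveI := S.characteristic_of_normal inferInstance
  obtain ⟨M, hMd⟩ : ∃ M, M = (Mq : Subgroup N).map N.subtype := ⟨_, rfl⟩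
  obtain ⟨T, hTd⟩ : ∃ T, T = (S : Subgroup N).map N.subtype := ⟨_, rfl⟩
  haveI hMn : M.Normal := by rw [hMd]; infer_instance
  haveI hTn : T.Normal := by rw [hTd]; infer_instance
  have hT1 : T ≠ ⊥ := by
    rw [hTd, ne_eq, Subgroup.map_eq_bot_iff_of_injective _ N.subtype_injective]
    exact S.ne_bot_of_dvd_card hrN
  have hTN : T ≤ N := hTd ▸ Subgroup.map_subtype_le _
  have hMN : M ≤ N := hMd ▸ Subgroup.map_subtype_le _
  have hMp : IsPGroup q M := hMd ▸ Mq.2.map _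
  have hTp : IsPGroup r T := hTd ▸ S.2.map _
  obtain ⟨Rs⟩ : Nonempty (Sylow q ↥(E.comap (QuotientGroup.mk' N))) := inferInstance
  obtain ⟨R, hRd⟩ : ∃ R, R = (Rs : Subgroup _).map (E.comap (QuotientGroup.mk' N)).subtype := ⟨_, rfl⟩
  have hRp : IsPGroup q R := hRd ▸ Rs.2.map _
  have hRE : R.map (QuotientGroup.mk' N) = E := by
    let f : ↥(E.comap (QuotientGroup.mk' N)) →* ↥E :=
      ((QuotientGroup.mk' N).comp (E.comap (QuotientGroup.mk' N)).subtype).codRestrict E (fun x => x.2)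
    have hf : Function.Surjective f := fun e => by
      obtain ⟨g, hg⟩ := QuotientGroup.mk'_surjective N e.1
      exact ⟨⟨g, show QuotientGroup.mk' N g ∈ E from hg ▸ e.2⟩, Subtype.ext hg⟩
    have htop : ((Rs.mapSurjective hf : Sylow q ↥E) : Subgroup ↥E) = ⊤ :=
      ((Rs.mapSurjective hf).3 (Q := ⊤) (hE.to_subgroup ⊤) le_top).symm
    ext e
    constructor
    · rintro ⟨_, hx, rfl⟩
      rw [hRd] at hx
      obtain ⟨x, -, rfl⟩ := hx
      exact x.2
    · intro he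
      have : (⟨e, he⟩ : ↥E) ∈ ((Rs.mapSurjective hf : Sylow q ↥E) : Subgroup ↥E) := htop ▸ Subgroup.mem_top _
      rw [Sylow.coe_mapSurjective] at this
      obtain ⟨x, hx, hxe⟩ := this
      exact ⟨x.1, hRd ▸ ⟨x, hx, rfl⟩, congrArg Subtype.val hxe⟩
  have hRN : ∀ x ∈ R, x ∈ N → x ∈ M := by
    intro x hx hxN
    obtain ⟨j, hj⟩ := IsPGroup.iff_orderOf.1 hRp ⟨x, hx⟩
    rw [Subgroup.orderOf_mk] at hj
    rw [hMd]
    refine ⟨⟨x, hxN⟩, ?_, rfl⟩
    have hz : IsPGroup q (Subgroup.zpowers (⟨x, hxN⟩ : N)) := IsPGroup.of_card (n := j) (by rw [Nat.card_zpowers, Subgroup.orderOf_mk, hj])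
    obtain ⟨Q', hQ'⟩ := hz.exists_le_sylow
    haveI : Subsingleton (Sylow q N) := by
      refine ⟨fun A B => ?_⟩
      obtain ⟨g, hg⟩ := MulAction.exists_smul_eq N A B
      haveI := CfsgLib.CNGroup.sylow_normal hnil A
      rw [← hg, Sylow.smul_eq_of_normal]
    exact (Subsingleton.elim Q' Mq) ▸ hQ' (Subgroup.mem_zpowers _)
  obtain ⟨π, hπd⟩ : ∃ π : G →* G ⧸ M, π = QuotientGroup.mk' M := ⟨_, rfl⟩
  have hπ : ∀ {x : G}, π x = 1 ↔ x ∈ M := fun {x} => by rw [hπd]; exact QuotientGroup.eq_one_iff x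
  obtain ⟨A, hAd⟩ : ∃ A, A = R.map π := ⟨_, rfl⟩
  have hAc : IsMulCommutative A := by
    refine ⟨⟨fun a b => Subtype.ext ?_⟩⟩
    have key : ∀ a ∈ A, ∀ b ∈ A, a * b = b * a := by
      rw [hAd]
      rintro _ ⟨x, hx, rfl⟩ _ ⟨y, hy, rfl⟩
      have h := hEc _ (hRE ▸ Subgroup.mem_map_of_mem (QuotientGroup.mk' N) hx) _ (hRE ▸ Subgroup.mem_map_of_mem (QuotientGroup.mk' N) hy)
      have hN : x * y * x⁻¹ * y⁻¹ ∈ N := by
        apply (QuotientGroup.eq_one_iff _).1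
        show QuotientGroup.mk' N _ = 1
        rw [map_mul, map_mul, map_mul, map_inv, map_inv, h]; group
      have := hπ.2 (hRN _ (R.mul_mem (R.mul_mem (R.mul_mem hx hy) (R.inv_mem hx)) (R.inv_mem hy)) hN)
      rw [map_mul, map_mul, map_mul, map_inv, map_inv, mul_inv_eq_one, mul_inv_eq_iff_eq_mul] at this
      exact this
    exact key a a.2 b b.2
  by_contra hcyc
  have hnorm : A ≤ Subgroup.normalizer ((T.map π : Subgroup (G ⧸ M)) : Set (G ⧸ M)) := by
    haveI : (T.map π).Normal := hTn.map π (hπd ▸ QuotientGroup.mk'_surjective _)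
    rw [Subgroup.normalizer_eq_top]; exact le_top
  have hcop : (Nat.card A).Coprime (Nat.card (T.map π)) := by
    obtain ⟨i, hi⟩ := IsPGroup.iff_card.1 (hAd ▸ hRp.map π : IsPGroup q A)
    obtain ⟨j, hj⟩ := IsPGroup.iff_card.1 (hTp.map π)
    rw [hi, hj]
    exact Nat.Coprime.pow _ _ ((Nat.coprime_primes hq.out hr.out).2 hrq.symm)
  have htriv : ∀ b ∈ A, b ≠ 1 → ∀ s ∈ T.map π, b * s = s * b → s = 1 := by
    rw [hAd]
    rintro _ ⟨x, hx, rfl⟩ hb1 _ ⟨s, hs, rfl⟩ hc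
    have hxN : x ∉ N := fun h => hb1 (hπ.2 (hRN x hx h))
    have hcM : x * s * x⁻¹ * s⁻¹ ∈ M := by
      apply hπ.1
      rw [map_mul, map_mul, map_mul, map_inv, map_inv, hc]; group
    have hcT : x * s * x⁻¹ * s⁻¹ ∈ T := T.mul_mem (hTn.conj_mem s hs x) (T.inv_mem hs)
    obtain ⟨i, hi⟩ := IsPGroup.iff_orderOf.1 hMp ⟨_, hcM⟩
    obtain ⟨j, hj⟩ := IsPGroup.iff_orderOf.1 hTp ⟨_, hcT⟩
    rw [Subgroup.orderOf_mk] at hi hj
    have hc1 : x * s * x⁻¹ * s⁻¹ = 1 := orderOf_eq_one_iff.1 (Nat.eq_one_of_dvd_coprimes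
      (Nat.Coprime.pow i j ((Nat.coprime_primes hq.out hr.out).2 hrq.symm)) (dvd_of_eq hi) (dvd_of_eq hj))
    rw [mul_inv_eq_one, mul_inv_eq_iff_eq_mul] at hc1
    obtain ⟨k, hk⟩ := IsPGroup.iff_orderOf.1 hRp ⟨x, hx⟩
    obtain ⟨l, hl⟩ := IsPGroup.iff_orderOf.1 hTp ⟨s, hs⟩
    rw [Subgroup.orderOf_mk] at hk hl
    rw [no_mul heq hxN (hTN hs) hc1 (by rw [hk, hl]; exact Nat.Coprime.pow k l ((Nat.coprime_primes hq.out hr.out).2 hrq.symm)), map_one]
  have hgen := CfsgLib.GroupB.CoprimeAbelian.iSup_centralizer_eq hAc hnorm hcop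
  have hbot : T.map π = ⊥ := by
    rw [← hgen, eq_bot_iff]
    refine iSup₂_le fun B hB => ?_
    intro s hs
    rw [Subgroup.mem_bot]
    by_cases hB1 : B = ⊥
    · exfalso
      obtain ⟨-, a, -, hae⟩ := hB
      rw [hB1, bot_sup_eq] at hae
      apply hcyc
      haveI : IsCyclic A := (Subgroup.isCyclic_iff_exists_zpowers_eq_top A).2 ⟨a, hae⟩
      let f : ↥R →* ↥A := (π.comp R.subtype).codRestrict A (fun x => hAd ▸ ⟨x, x.2, rfl⟩)
      let g : ↥R →* ↥E := ((QuotientGroup.mk' N).comp R.subtype).codRestrict E (fun x => hRE ▸ ⟨x, x.2, rfl⟩)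
      have hf : Function.Surjective f := by
        rintro ⟨y, hy⟩
        obtain ⟨x, hx, hxy⟩ := hAd ▸ hy
        exact ⟨⟨x, hx⟩, Subtype.ext hxy⟩
      have hg : Function.Surjective g := by
        rintro ⟨y, hy⟩
        obtain ⟨x, hx, hxy⟩ := hRE.symm ▸ hy
        exact ⟨⟨x, hx⟩, Subtype.ext hxy⟩
      obtain ⟨c, hc⟩ := IsCyclic.exists_generator (α := ↥A)
      obtain ⟨c', rfl⟩ := hf c
      refine ⟨⟨g c', fun y => ?_⟩⟩
      obtain ⟨y', rfl⟩ := hg y
      obtain ⟨i, hi⟩ := Subgroup.mem_zpowers_iff.1 (hc (f y'))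
      refine Subgroup.mem_zpowers_iff.2 ⟨i, ?_⟩
      rw [← map_zpow] at hi ⊢
      have h1 : (c' ^ i)⁻¹.1 * y'.1 ∈ M := by
        apply hπ.1
        have := congrArg Subtype.val hi
        rw [map_mul, show π ((c' ^ i)⁻¹.1) = (π (c' ^ i).1)⁻¹ from map_inv π _, inv_mul_eq_one]
        exact this
      apply Subtype.ext
      show QuotientGroup.mk' N (c' ^ i).1 = QuotientGroup.mk' N y'.1
      exact QuotientGroup.eq.2 (hMN h1)
    obtain ⟨⟨b, hb⟩, hb1⟩ := Subgroup.ne_bot_iff_exists_ne_one.1 hB1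
    exact htriv b (hB.1 hb) (fun e => hb1 (Subtype.ext e)) s hs.1 (hs.2 b hb)
  obtain ⟨⟨s, hs⟩, hs1⟩ := Subgroup.ne_bot_iff_exists_ne_one.1 hT1
  have : π s ∈ T.map π := Subgroup.mem_map_of_mem π hs
  rw [hbot, Subgroup.mem_bot, hπ] at this
  obtain ⟨i, hi⟩ := IsPGroup.iff_orderOf.1 hMp ⟨_, this⟩
  obtain ⟨j, hj⟩ := IsPGroup.iff_orderOf.1 hTp ⟨_, hs⟩
  rw [Subgroup.orderOf_mk] at hi hj
  exact hs1 (Subtype.ext (orderOf_eq_one_iff.1 (Nat.eq_one_of_dvd_coprimes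
    (Nat.Coprime.pow i j ((Nat.coprime_primes hq.out hr.out).2 hrq.symm)) (dvd_of_eq hi) (dvd_of_eq hj))))

/-- Let G be a finite group and N a proper non-trivial normal nilpotent subgroup whose order is not a prime power, such that for every x outside N all elements of the coset xN have the same order as x. Then N is the Fitting subgroup of G, and for every prime q every Sylow q-subgroup of G/N is cyclic or generalized quaternion. -/
theorem result {G : Type*} [Group G] [Finite G] (N : Subgroup G) [N.Normal] (hN1 : N ≠ ⊥) (hN2 : N ≠ ⊤)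
    (heq : ∀ x : G, x ∉ N → ∀ n ∈ N, orderOf (x * n) = orderOf x)
    (hnil : Group.IsNilpotent N) (hnpp : ¬ IsPrimePow (Nat.card N)) :
    N = Cfsg.fittingSubgroup G ∧
    ∀ (q : ℕ) [Fact q.Prime] (Q : Sylow q (G ⧸ N)), IsCyclic (Q : Subgroup (G ⧸ N)) ∨ ∃ n : ℕ, Nonempty ((Q : Subgroup (G ⧸ N)) ≃* QuaternionGroup (2 ^ n)) := by
  
  have hcard1 : Nat.card N ≠ 1 := fun h => hN1 (Subgroup.eq_bot_of_card_eq _ h)
  have hother : ∀ q : ℕ, q.Prime → ∃ r, r.Prime ∧ r ≠ q ∧ r ∣ Nat.card N := by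
    intro q hq
    by_contra h
    push Not at h
    apply hnpp
    refine (isPrimePow_nat_iff _).2 ⟨q, (Nat.card N).factorization q, hq, ?_, ?_⟩
    · obtain ⟨r, hr, hrd⟩ := Nat.exists_prime_and_dvd hcard1
      have : r = q := by
        by_contra hne
        exact h r hr hne hrd
      subst this
      exact hr.factorization_pos_of_dvd Nat.card_pos.ne' hrd
    · have hu : Nat.card N = q ^ (Nat.card N).primeFactorsList.length :=
        Nat.eq_prime_pow_of_unique_prime_dvd Nat.card_pos.ne' fun {d} hd hdd => by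
          by_contra hne
          exact h d hd hne hdd
      conv_lhs => rw [hu, hq.factorization_pow, Finsupp.single_eq_same]
      exact hu.symm
  refine ⟨le_antisymm (CfsgLib.Core.le_fittingSubgroup inferInstance hnil) ?_, ?_⟩
  · refine CfsgLib.CNGroup.le_of_prime_pow_elements fun r hr x hx hxo => ?_
    by_contra hxN
    obtain ⟨i, hi⟩ := hxo
    obtain ⟨s, hs, hsr, hsd⟩ := hother r hr
    haveI := Fact.mk hs
    obtain ⟨⟨n, hn⟩, hno⟩ := exists_prime_orderOf_dvd_card' s hsd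
    rw [Subgroup.orderOf_mk] at hno
    have hcop : (orderOf x).Coprime (orderOf n) := by
      rw [hi, hno]; exact Nat.Coprime.pow_left i ((Nat.coprime_primes hr hs).2 hsr.symm)
    have hc := CfsgLib.CNGroup.commute_of_coprime (CfsgLib.Core.isNilpotent_fittingSubgroup (G := G)) hx
      (CfsgLib.Core.le_fittingSubgroup inferInstance hnil hn) hcop
    have := no_mul heq hxN hn hc hcop
    rw [this, orderOf_one] at hno
    exact hs.ne_one hno.symm
  intro q _ Q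
  obtain ⟨r, hr, hrq, hrd⟩ := hother q Fact.out
  haveI := Fact.mk hr
  have hu : CfsgLib.UniqueOrderP.Uniq q ↥(Q : Subgroup (G ⧸ N)) := by
    intro x y hx hy
    by_contra hne
    haveI : Nontrivial ↥(Q : Subgroup (G ⧸ N)) := ⟨x, 1, fun h => by rw [h, orderOf_one] at hx; exact (Fact.out : q.Prime).ne_one hx.symm⟩
    haveI := Q.2.center_nontrivial
    obtain ⟨j, hj0, hj⟩ := (Q.2.to_subgroup (Subgroup.center ↥(Q : Subgroup (G ⧸ N)))).nontrivial_iff_card.1 inferInstance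
    obtain ⟨⟨z, hzc⟩, hzo⟩ := exists_prime_orderOf_dvd_card' q (G := Subgroup.center ↥(Q : Subgroup (G ⧸ N))) (hj ▸ dvd_pow_self q hj0.ne')
    rw [Subgroup.orderOf_mk] at hzo
    obtain ⟨w, hwo, hwz⟩ : ∃ w, orderOf w = q ∧ w ∉ Subgroup.zpowers z := by
      by_cases h : x ∈ Subgroup.zpowers z
      · refine ⟨y, hy, fun h' => hne ?_⟩
        rw [Subgroup.eq_of_le_of_card_ge (Subgroup.zpowers_le.2 h) (by rw [Nat.card_zpowers, Nat.card_zpowers, hx, hzo])]
        exact h'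
      · exact ⟨x, hx, h⟩
    haveI : IsMulCommutative ↥(Subgroup.closure ({z, w} : Set ↥(Q : Subgroup (G ⧸ N)))) :=
      Subgroup.isMulCommutative_closure (by
        rintro a (rfl | rfl) b (rfl | rfl)
        · rfl
        · exact (Subgroup.mem_center_iff.1 hzc _).symm
        · exact Subgroup.mem_center_iff.1 hzc _
        · rfl)
    obtain ⟨E, hEd⟩ : ∃ E, E = (Subgroup.closure ({z, w} : Set ↥(Q : Subgroup (G ⧸ N)))).map (Q : Subgroup (G ⧸ N)).subtype := ⟨_, rfl⟩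
    have hEc : ∀ a ∈ E, ∀ b ∈ E, a * b = b * a := by
      rw [hEd]
      rintro _ ⟨a, ha, rfl⟩ _ ⟨b, hb, rfl⟩
      rw [← map_mul, ← map_mul]
      exact congrArg _ (congrArg Subtype.val ((inferInstance : IsMulCommutative ↥(Subgroup.closure ({z, w} : Set ↥(Q : Subgroup (G ⧸ N))))).is_comm.comm ⟨a, ha⟩ ⟨b, hb⟩))
    have hcyc := uniq N heq hnil hrq hrd E (Q.2.to_le (hEd ▸ Subgroup.map_subtype_le _)) hEc
    subst hEd
    haveI := hcyc
    haveI : IsCyclic ↥(Subgroup.closure ({z, w} : Set ↥(Q : Subgroup (G ⧸ N)))) :=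
      isCyclic_of_surjective (Subgroup.equivMapOfInjective _ _ (Q : Subgroup (G ⧸ N)).subtype_injective).symm
        (Subgroup.equivMapOfInjective _ _ (Q : Subgroup (G ⧸ N)).subtype_injective).symm.surjective
    have h := CfsgLib.UniqueOrderP.uniq_of_cyclic (p := q) (G := ↥(Subgroup.closure ({z, w} : Set ↥(Q : Subgroup (G ⧸ N)))))
      ⟨z, Subgroup.subset_closure (Or.inl rfl)⟩ ⟨w, Subgroup.subset_closure (Or.inr rfl)⟩
      (by rw [Subgroup.orderOf_mk, hzo]) (by rw [Subgroup.orderOf_mk, hwo])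
    obtain ⟨i, hi⟩ := Subgroup.mem_zpowers_iff.1 h
    exact hwz (Subgroup.mem_zpowers_iff.2 ⟨i, congrArg Subtype.val hi⟩)
  rcases CfsgLib.UniqueOrderP.cyclic_or_quaternion Q.2 hu with h | ⟨-, h⟩
  · exact Or.inl h
  · exact Or.inr h


end Cfsg.Agent.S4155
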