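import Cfsg.Statements.S4156
import Mathlib.GroupTheory.SpecificGroups.Alternating.Simple
import Mathlib.LinearAlgebra.Matrix.ProjectiveSpecialLinearGroup
import Mathlib.Tactic

set_option autoImplicit false
open Cfsg

namespace Cfsg.Agent.S4156
variable {n : ℕ} {F : Type*} [Field F]

def g (σ : Equiv.Perm (Fin (n + 1))) (i : Fin n) (j : Fin (n + 1)) : F :=
  (if σ j = i.castSucc then 1 else 0) - (if σ (Fin.last n) = i.castSucc then 1 else 0)

def M (σ : Equiv.Perm (Fin (n + 1))) : Matrix (Fin n) (Fin n) F := Matrix.of fun i k => g σ i k.castSucc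

theorem M_mul (σ τ : Equiv.Perm (Fin (n + 1))) : (M σ : Matrix (Fin n) (Fin n) F) * M τ = M (σ * τ) := by
  ext i k
  rw [Matrix.mul_apply]
  have h : ∀ f : Fin (n + 1) → F, f (Fin.last n) = 0 → ∀ u : Fin (n + 1), ∑ j : Fin n, f j.castSucc * (if u = j.castSucc then 1 else 0) = f u := by
    intro f hf u
    have := Fin.sum_univ_castSucc (fun j => f j * (if u = j then 1 else 0))
    simpa [hf] using this.symm
  have hl : g σ i (Fin.last n) = (0 : F) := sub_self _
  show ∑ j : Fin n, g σ i j.castSucc * ((if τ k.castSucc = j.castSucc then 1 else 0) - (if τ (Fin.last n) = j.castSucc then (1 : F) else 0)) = g (σ * τ) i k.castSucc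
  simp only [mul_sub, Finset.sum_sub_distrib, h (g σ i) hl]
  simp only [g, Equiv.Perm.mul_apply, sub_sub_sub_cancel_right]
  congr 1 <;> exact if_congr Iff.rfl rfl rfl

theorem M_one : (M (1 : Equiv.Perm (Fin (n + 1))) : Matrix (Fin n) (Fin n) F) = 1 := by
  ext i k
  simp [M, g, Matrix.one_apply, Fin.castSucc_inj, eq_comm]


/-- Let n ≥ 5 and F a finite field. Then the projective special linear group PSL_n(F) contains a subgroup isomorphic to the alternating group of degree n + 1. -/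
theorem result (n : ℕ) (hn : 5 ≤ n) (F : Type*) [Field F] [Finite F] :
    ∃ f : alternatingGroup (Fin (n + 1)) →* Matrix.ProjectiveSpecialLinearGroup (Fin n) F, Function.Injective f := by
  classical
  haveI := alternatingGroup.isSimpleGroup (α := Fin (n + 1)) (by rw [Nat.card_fin]; omega)
  have hnc : ∃ a b : alternatingGroup (Fin (n + 1)), a * b ≠ b * a := by
    let i0 : Fin (n + 1) := ⟨0, by omega⟩
    let i1 : Fin (n + 1) := ⟨1, by omega⟩
    let i2 : Fin (n + 1) := ⟨2, by omega⟩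
    let i3 : Fin (n + 1) := ⟨3, by omega⟩
    let i4 : Fin (n + 1) := ⟨4, by omega⟩
    refine ⟨⟨Equiv.swap i0 i1 * Equiv.swap i1 i2, ?_⟩, ⟨Equiv.swap i2 i3 * Equiv.swap i3 i4, ?_⟩, ?_⟩
    · rw [Equiv.Perm.mem_alternatingGroup, map_mul, Equiv.Perm.sign_swap (by simp [i0, i1, Fin.ext_iff]), Equiv.Perm.sign_swap (by simp [i1, i2, Fin.ext_iff])]; rfl
    · rw [Equiv.Perm.mem_alternatingGroup, map_mul, Equiv.Perm.sign_swap (by simp [i2, i3, Fin.ext_iff]), Equiv.Perm.sign_swap (by simp [i3, i4, Fin.ext_iff])]; rfl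
    · intro h
      have := congrArg (fun x : alternatingGroup (Fin (n + 1)) => (x : Equiv.Perm (Fin (n + 1))) i2) h
      simp [Equiv.swap_apply_def, i0, i1, i2, i3, i4, Fin.ext_iff] at this
  let φ : alternatingGroup (Fin (n + 1)) →* Matrix (Fin n) (Fin n) F :=
    { toFun := fun σ => M (σ : Equiv.Perm (Fin (n + 1)))
      map_one' := M_one
      map_mul' := fun a b => (M_mul _ _).symm }
  have triv : ∀ {H : Type _} [CommMonoid H] (ψ : alternatingGroup (Fin (n + 1)) →* H) x, ψ x = 1 := by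
    intro H _ ψ x
    rcases IsSimpleGroup.eq_bot_or_eq_top_of_normal _ (MonoidHom.normal_ker ψ) with h | h
    · obtain ⟨a, b, hab⟩ := hnc
      refine absurd ?_ hab
      have h' : a * b * (b * a)⁻¹ ∈ ψ.ker := by
        rw [MonoidHom.mem_ker, map_mul, map_mul, mul_comm (ψ a) (ψ b), ← map_mul, ← map_mul, mul_inv_cancel, map_one]
      rw [h, Subgroup.mem_bot, mul_inv_eq_one] at h'
      exact h'
    · exact MonoidHom.mem_ker.mp (h ▸ Subgroup.mem_top x)
  have hdet : ∀ x, (φ x).det = 1 := fun x => triv (Matrix.detMonoidHom.comp φ) x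
  let ψ : alternatingGroup (Fin (n + 1)) →* Matrix.SpecialLinearGroup (Fin n) F :=
    { toFun := fun x => ⟨φ x, hdet x⟩
      map_one' := Subtype.ext (map_one φ)
      map_mul' := fun a b => Subtype.ext (map_mul φ a b) }
  let π : Matrix.SpecialLinearGroup (Fin n) F →* Matrix.ProjectiveSpecialLinearGroup (Fin n) F :=
    QuotientGroup.mk' (Subgroup.center (Matrix.SpecialLinearGroup (Fin n) F))
  refine ⟨π.comp ψ, (injective_iff_map_eq_one _).mpr fun x hx => ?_⟩
  rcases IsSimpleGroup.eq_bot_or_eq_top_of_normal _ (MonoidHom.normal_ker (π.comp ψ)) with h | h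
  · exact Subgroup.mem_bot.mp (h ▸ hx)
  · exfalso
    rcases IsSimpleGroup.eq_bot_or_eq_top_of_normal _ (MonoidHom.normal_ker ψ) with h' | h'
    · obtain ⟨a, b, hab⟩ := hnc
      refine hab ((MonoidHom.ker_eq_bot_iff ψ).mp h' ?_)
      rw [map_mul, map_mul]
      have hb : π (ψ b) = 1 := MonoidHom.mem_ker.mp (show b ∈ (π.comp ψ).ker from h ▸ Subgroup.mem_top b)
      exact Subgroup.mem_center_iff.mp ((QuotientGroup.eq_one_iff _).mp hb) (ψ a)
    · -- a three-cycle acts nontrivially
      let j0 : Fin n := ⟨0, by omega⟩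
      let j1 : Fin n := ⟨1, by omega⟩
      let j2 : Fin n := ⟨2, by omega⟩
      have hσ : Equiv.swap j0.castSucc j1.castSucc * Equiv.swap j1.castSucc j2.castSucc ∈ alternatingGroup (Fin (n + 1)) := by
        rw [Equiv.Perm.mem_alternatingGroup, map_mul, Equiv.Perm.sign_swap (by simp [j0, j1, Fin.ext_iff]), Equiv.Perm.sign_swap (by simp [j1, j2, Fin.ext_iff])]; rfl
      have h1 := MonoidHom.mem_ker.mp (show (⟨_, hσ⟩ : alternatingGroup (Fin (n + 1))) ∈ ψ.ker from h' ▸ Subgroup.mem_top _)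
      have h2 : (M (Equiv.swap j0.castSucc j1.castSucc * Equiv.swap j1.castSucc j2.castSucc) : Matrix (Fin n) (Fin n) F) j1 j0 = (1 : Matrix (Fin n) (Fin n) F) j1 j0 :=
        congrArg (fun A : Matrix.SpecialLinearGroup (Fin n) F => (A : Matrix (Fin n) (Fin n) F) j1 j0) h1
      have b1 : j0.castSucc ≠ j1.castSucc ∧ j0.castSucc ≠ j2.castSucc := by simp [j0, j1, j2, Fin.ext_iff]
      have b2 : (j1 : Fin n) ≠ j0 := by simp [j0, j1, Fin.ext_iff]
      have b3 : ∀ j : Fin n, Fin.last n ≠ j.castSucc := fun j => (Fin.castSucc_ne_last j).symm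
      have e1 : (Equiv.swap j0.castSucc j1.castSucc * Equiv.swap j1.castSucc j2.castSucc) j0.castSucc = j1.castSucc := by
        rw [Equiv.Perm.mul_apply, Equiv.swap_apply_of_ne_of_ne b1.1 b1.2, Equiv.swap_apply_left]
      have e2 : ¬ (Equiv.swap j0.castSucc j1.castSucc * Equiv.swap j1.castSucc j2.castSucc) (Fin.last n) = j1.castSucc := by
        rw [Equiv.Perm.mul_apply, Equiv.swap_apply_of_ne_of_ne (b3 j1) (b3 j2), Equiv.swap_apply_of_ne_of_ne (b3 j0) (b3 j1)]
        exact b3 j1
      simp only [M, g, Matrix.of_apply] at h2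
      rw [if_pos e1, if_neg e2, sub_zero, Matrix.one_apply_ne b2] at h2
      exact one_ne_zero h2

end Cfsg.Agent.S4156
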