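import Cfsg.Statements.S4163

set_option autoImplicit false
open Cfsg

namespace Cfsg.Agent.S4163
open scoped commutatorElement

/-- With `C(A) = A` abelian normal and `x` in a class of least size, `[a, x]` is central. -/
theorem comm_central {G : Type*} [Group G] [Finite G]
    (A : Subgroup G) [A.Normal] (hA : IsMulCommutative A)
    (m : ℕ) (hmin : ∀ x : G, 1 < (Subgroup.centralizer ({x} : Set G)).index → m ≤ (Subgroup.centralizer ({x} : Set G)).index)
    {x : G} (hx : (Subgroup.centralizer ({x} : Set G)).index = m) {a : G} (ha : a ∈ A) :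
    ⁅a, x⁆ ∈ Subgroup.center G := by
  have hAc : ∀ u ∈ A, ∀ v ∈ A, u * v = v * u := fun u hu v hv => by
    have := hA.is_comm.comm (⟨u, hu⟩ : A) ⟨v, hv⟩
    exact congrArg Subtype.val this
  set C := Subgroup.centralizer ({x} : Set G) with hC
  set H := A ⊔ C with hH
  -- the commutator map on `A`
  have hmem : ∀ u ∈ A, ⁅u, x⁆ ∈ A := fun u hu => by
    rw [commutatorElement_def, show u * x * u⁻¹ * x⁻¹ = u * (x * u⁻¹ * x⁻¹) by group]
    exact A.mul_mem hu (Subgroup.Normal.conj_mem inferInstance _ (A.inv_mem hu) x)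
  let f : A →* G :=
    { toFun := fun u => ⁅(u : G), x⁆
      map_one' := commutatorElement_one_left x
      map_mul' := fun u v => by
        show ⁅(u : G) * v, x⁆ = ⁅(u : G), x⁆ * ⁅(v : G), x⁆
        calc ⁅(u : G) * v, x⁆ = (u : G) * ⁅(v : G), x⁆ * (u : G)⁻¹ * ⁅(u : G), x⁆ := by
              simp only [commutatorElement_def]; group
          _ = ⁅(v : G), x⁆ * ⁅(u : G), x⁆ := by rw [hAc _ u.2 _ (hmem _ v.2), mul_inv_cancel_right]
          _ = _ := hAc _ (hmem _ v.2) _ (hmem _ u.2) }
  by_contra hne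
  have hc1 : f ⟨a, ha⟩ ≠ 1 := fun h => hne (by
    change ⁅a, x⁆ = 1 at h; rw [h]; exact Subgroup.one_mem _)
  set c := f ⟨a, ha⟩ with hc
  -- the conjugates of `c` under `H` lie in the range of `f`
  have hHmem : ∀ h ∈ H, ∃ u ∈ A, ∃ g ∈ C, h = u * g := fun h hh => by
    obtain ⟨u, hu, g, hg, rfl⟩ := Subgroup.mem_sup_of_normal_left.mp hh
    exact ⟨u, hu, g, hg, rfl⟩
  have horb : ∀ h ∈ H, h * c * h⁻¹ ∈ {y : G | y ∈ f.range ∧ y ≠ 1} := by
    intro h hh
    refine ⟨?_, fun h0 => hc1 (by simpa [conj_eq_one_iff] using h0)⟩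
    obtain ⟨u, hu, g, hg, rfl⟩ := hHmem h hh
    have hgx : g * x = x * g := Subgroup.mem_centralizer_singleton_iff.mp hg
    refine ⟨⟨g * a * g⁻¹, Subgroup.Normal.conj_mem inferInstance _ ha g⟩, ?_⟩
    show ⁅g * a * g⁻¹, x⁆ = u * g * ⁅a, x⁆ * (u * g)⁻¹
    have e : g * ⁅a, x⁆ * g⁻¹ = ⁅g * a * g⁻¹, x⁆ := by
      calc g * ⁅a, x⁆ * g⁻¹ = ⁅g * a * g⁻¹, g * x * g⁻¹⁆ := by simp only [commutatorElement_def]; group
        _ = _ := by rw [hgx, mul_inv_cancel_right]
    rw [show u * g * ⁅a, x⁆ * (u * g)⁻¹ = u * (g * ⁅a, x⁆ * g⁻¹) * u⁻¹ by group, e,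
      hAc _ hu _ (hmem _ (Subgroup.Normal.conj_mem inferInstance _ ha g)), mul_inv_cancel_right]
  set D := Subgroup.centralizer ({c} : Set G) with hD
  have h1 : D.relIndex H ≤ Nat.card f.range - 1 := by
    let φ : H ⧸ D.subgroupOf H → G := fun q => Quotient.liftOn' q
        (fun h : H => (h : G) * c * (h : G)⁻¹) (fun h k hk => by
          rw [QuotientGroup.leftRel_apply, Subgroup.mem_subgroupOf] at hk
          have e := Subgroup.mem_centralizer_singleton_iff.mp hk
          push_cast at e
          calc (h : G) * c * (h : G)⁻¹ = (h : G) * (c * ((h : G)⁻¹ * (k : G))) * (k : G)⁻¹ := by group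
            _ = (h : G) * ((h : G)⁻¹ * (k : G) * c) * (k : G)⁻¹ := by rw [← e]
            _ = (k : G) * c * (k : G)⁻¹ := by group)
    have hinj : Function.Injective φ := by
      intro q r
      induction q using Quotient.inductionOn' with
      | h q =>
        induction r using Quotient.inductionOn' with
        | h r =>
          intro e
          simp only [φ, Quotient.liftOn'_mk''] at e
          rw [Quotient.eq'', QuotientGroup.leftRel_apply, Subgroup.mem_subgroupOf]
          refine Subgroup.mem_centralizer_singleton_iff.mpr ?_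
          push_cast
          calc (q : G)⁻¹ * (r : G) * c = (q : G)⁻¹ * ((r : G) * c * (r : G)⁻¹) * (r : G) := by group
            _ = (q : G)⁻¹ * ((q : G) * c * (q : G)⁻¹) * (r : G) := by rw [e]
            _ = c * ((q : G)⁻¹ * (r : G)) := by group
    have hrange : Set.range φ ⊆ {y : G | y ∈ f.range ∧ y ≠ 1} := by
      rintro _ ⟨q, rfl⟩
      induction q using Quotient.inductionOn' with
      | h q => exact horb q q.2
    have h2 := Set.ncard_le_ncard hrange (Set.toFinite _)
    rw [← Nat.card_coe_set_eq, Nat.card_range_of_injective hinj] at h2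
    refine h2.trans (le_of_eq ?_)
    rw [show {y : G | y ∈ f.range ∧ y ≠ 1} = (f.range : Set G) \ {1} from rfl,
      Set.ncard_sdiff_singleton_of_mem f.range.one_mem, ← Nat.card_coe_set_eq]
    rfl
  have h2 : Nat.card f.range ≤ C.relIndex H := by
    rw [← Subgroup.index_ker f]
    have hk : f.ker = C.subgroupOf A := by
      ext u
      rw [MonoidHom.mem_ker, Subgroup.mem_subgroupOf, hC, Subgroup.mem_centralizer_singleton_iff]
      exact commutatorElement_eq_one_iff_mul_comm
    rw [hk, Subgroup.relIndex, hH]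
    exact Subgroup.relIndex_le_of_le_right le_sup_left (Subgroup.index_ne_zero_of_finite)
  have h3 : D.index ≤ D.relIndex H * H.index := by
    have e1 := Subgroup.relIndex_mul_index (inf_le_right : D ⊓ H ≤ H)
    rw [Subgroup.inf_relIndex_right] at e1
    have e2 := Subgroup.relIndex_mul_index (inf_le_left : D ⊓ H ≤ D)
    rw [← e1] at e2
    rw [← e2]
    exact Nat.le_mul_of_pos_left _ (Nat.pos_of_ne_zero Subgroup.index_ne_zero_of_finite)
  have h4 : C.relIndex H * H.index = m := by
    rw [Subgroup.relIndex_mul_index le_sup_right, hC, hx]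
  have h5 : 1 < D.index := by
    refine Subgroup.one_lt_index_of_ne_top fun h => hne ?_
    rw [Subgroup.mem_center_iff]
    intro g
    exact Subgroup.mem_centralizer_singleton_iff.mp (h ▸ Subgroup.mem_top g : g ∈ D)
  have h6 := hmin c h5
  rw [← hD] at h6
  have hpos : 0 < Nat.card f.range := Nat.card_pos
  have hHpos : 0 < H.index := Nat.pos_of_ne_zero Subgroup.index_ne_zero_of_finite
  have h7 : D.relIndex H * H.index < C.relIndex H * H.index :=
    Nat.mul_lt_mul_of_pos_right (by omega) hHpos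
  omega

theorem comm_central' {G : Type*} [Group G] [Finite G]
    (A : Subgroup G) [A.Normal] (hA : IsMulCommutative A) (S : Set G)
    (hS : ∀ x ∈ S, ∀ a ∈ A, ⁅a, x⁆ ∈ Subgroup.center G) :
    ∀ x ∈ Subgroup.closure S, ∀ a ∈ A, ⁅a, x⁆ ∈ Subgroup.center G := by
  intro x hx
  induction hx using Subgroup.closure_induction with
  | mem x hx => exact hS x hx
  | one => intro a _; simp
  | mul x y _ _ hx hy =>
    intro a ha
    rw [show ⁅a, x * y⁆ = ⁅a, x⁆ * (x * ⁅a, y⁆ * x⁻¹) by simp only [commutatorElement_def]; group]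
    exact Subgroup.mul_mem _ (hx a ha) (Subgroup.Normal.conj_mem inferInstance _ (hy a ha) x)
  | inv x _ hx =>
    intro a ha
    rw [show ⁅a, x⁻¹⁆ = x⁻¹ * ⁅a, x⁆⁻¹ * x by simp only [commutatorElement_def]; group]
    have := Subgroup.Normal.conj_mem inferInstance _ (Subgroup.inv_mem _ (hx a ha)) x⁻¹
    rwa [inv_inv] at this

/-- Let G be a finite group with a normal abelian subgroup A satisfying C_G(A) = A. Suppose some conjugacy class of G has size greater than 1, let m be the smallest such size, and let M be the subgroup generated by the elements whose class has size 1 or m. Then M is nilpotent of class at most 3. -/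
theorem result {G : Type*} [Group G] [Finite G]
    (A : Subgroup G) [A.Normal] (hA : IsMulCommutative A) (hCA : Subgroup.centralizer (A : Set G) = A)
    (m : ℕ) (hm1 : 1 < m) (hm : ∃ x : G, (Subgroup.centralizer ({x} : Set G)).index = m) (hmin : ∀ x : G, 1 < (Subgroup.centralizer ({x} : Set G)).index → m ≤ (Subgroup.centralizer ({x} : Set G)).index) :
    Subgroup.upperCentralSeries ↥(Subgroup.closure {x : G | (Subgroup.centralizer ({x} : Set G)).index = 1 ∨ (Subgroup.centralizer ({x} : Set G)).index = m}) 3 = ⊤ := by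
  set S := {x : G | (Subgroup.centralizer ({x} : Set G)).index = 1 ∨ (Subgroup.centralizer ({x} : Set G)).index = m}
  set M := Subgroup.closure S
  have hcen : ∀ x ∈ M, ∀ a ∈ A, ⁅a, x⁆ ∈ Subgroup.center G := by
    refine comm_central' A hA S fun x hx a ha => ?_
    rcases hx with h | h
    · have : x ∈ Subgroup.center G := by
        rw [Subgroup.mem_center_iff]
        intro g
        exact Subgroup.mem_centralizer_singleton_iff.mp
          ((Subgroup.index_eq_one.mp h) ▸ Subgroup.mem_top g : g ∈ Subgroup.centralizer ({x} : Set G))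
      rw [commutatorElement_eq_one_iff_mul_comm.mpr (Subgroup.mem_center_iff.mp this a)]
      exact Subgroup.one_mem _
    · exact comm_central A hA m hmin h ha
  have hAM : ⁅A, M⁆ ≤ Subgroup.center G := Subgroup.commutator_le.mpr fun a ha x hx => hcen x hx a ha
  have hz : ∀ K : Subgroup G, ⁅Subgroup.center G, K⁆ = ⊥ := fun K => by
    rw [Subgroup.commutator_eq_bot_iff_le_centralizer]
    intro z hz g _
    exact Subgroup.mem_center_iff.mp hz g
  have h1 : ⁅⁅A, M⁆, M⁆ = ⊥ := le_bot_iff.mp ((Subgroup.commutator_mono hAM le_rfl).trans (hz M).le)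
  have h2 : ⁅⁅M, A⁆, M⁆ = ⊥ := by rw [Subgroup.commutator_comm M A]; exact h1
  have h3 : ⁅⁅M, M⁆, A⁆ = ⊥ := Subgroup.commutator_commutator_eq_bot_of_rotate h2 h1
  have h4 : ⁅M, M⁆ ≤ A := by
    rw [← hCA]; exact Subgroup.commutator_eq_bot_iff_le_centralizer.mp h3
  have h5 : ⁅⁅M, M⁆, M⁆ ≤ Subgroup.center G := (Subgroup.commutator_mono h4 le_rfl).trans hAM
  rw [Subgroup.eq_top_iff']
  intro x
  rw [Subgroup.mem_upperCentralSeries_succ_iff]
  intro y
  rw [Subgroup.mem_upperCentralSeries_succ_iff]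
  intro z
  rw [Subgroup.mem_upperCentralSeries_succ_iff]
  intro w
  rw [Subgroup.upperCentralSeries_zero, Subgroup.mem_bot]
  apply Subtype.ext
  have e : ((⁅⁅⁅x, y⁆, z⁆, w⁆ : M) : G) = ⁅⁅⁅(x : G), (y : G)⁆, (z : G)⁆, (w : G)⁆ := by
    simp only [commutatorElement_def]; push_cast; rfl
  rw [e]
  have hzc := h5 (Subgroup.commutator_mem_commutator (Subgroup.commutator_mem_commutator x.2 y.2) z.2)
  rw [commutatorElement_eq_one_iff_mul_comm.mpr (Subgroup.mem_center_iff.mp hzc w).symm]
  rfl

end Cfsg.Agent.S4163
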