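import Cfsg.Statements.S4168
import Mathlib

set_option autoImplicit false
open Cfsg

namespace Cfsg.Agent.S4168

/-- Let L be a finite quasisimple group (perfect with L/Z(L) simple). Then every prime dividing the order of the centre Z(L) also divides the order of L/Z(L). -/
theorem result {L : Type*} [Group L] [Finite L] (hL : Cfsg.IsQuasisimple L)
    (p : ℕ) (hp : p.Prime) (hdiv : p ∣ Nat.card (Subgroup.center L)) : p ∣ (Subgroup.center L).index := by
  haveI := Fact.mk hp
  haveI := hL.1
  by_contra hndvd
  obtain ⟨z, hz⟩ := exists_prime_orderOf_dvd_card' p hdiv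
  obtain ⟨f, hfa⟩ : ∃ f : L →* Subgroup.center L, ∀ g, (f g : L) = g ^ (Subgroup.center L).index :=
    ⟨MonoidHom.transferCenterPow L, fun g => MonoidHom.transferCenterPow_apply g⟩
  have hf : commutator L ≤ f.ker := by
    rw [commutator_def, Subgroup.commutator_le]
    intro a _ b _
    rw [MonoidHom.mem_ker, map_commutatorElement, commutatorElement_eq_one_iff_mul_comm]
    exact Subtype.ext (Subgroup.mem_center_iff.mp (f b).2 (f a))
  rw [Group.IsPerfect.commutator_eq_top] at hf
  have h1 : f (z : L) = 1 := MonoidHom.mem_ker.mp (hf (Subgroup.mem_top _))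
  have h2 : (z : L) ^ (Subgroup.center L).index = 1 := by rw [← hfa, h1, OneMemClass.coe_one]
  refine hndvd ?_
  rw [← hz, ← Subgroup.orderOf_coe]
  exact orderOf_dvd_of_pow_eq_one h2

end Cfsg.Agent.S4168
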