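import Cfsg.Statements.S4169
import Cfsg.Agent.S4163

set_option autoImplicit false
open Cfsg

namespace Cfsg.Agent.S4169
open scoped commutatorElement

/-- Let P be a finite p-group whose conjugacy classes have exactly two sizes (1 and one other value). Then P has nilpotency class at most 3. -/
theorem result {P : Type*} [Group P] [Finite P] {p : ℕ} [Fact p.Prime] (hP : IsPGroup p P)
    (m : ℕ) (hm : 1 < m) (h : ∀ x : P, (Subgroup.centralizer ({x} : Set P)).index = 1 ∨ (Subgroup.centralizer ({x} : Set P)).index = m) :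
    upperCentralSeries P 3 = ⊤ := by
  classical
  show Subgroup.upperCentralSeries P 3 = ⊤
  haveI := hP.isNilpotent
  have hne : ({A : Subgroup P | A.Normal ∧ IsMulCommutative A} : Set (Subgroup P)).Nonempty :=
    ⟨⊥, inferInstance, inferInstance⟩
  obtain ⟨A, ⟨hAn, hA⟩, hmax⟩ :=
    ({A : Subgroup P | A.Normal ∧ IsMulCommutative A} : Set (Subgroup P)).toFinite.exists_maximal hne
  have hle : A ≤ Subgroup.centralizer (A : Set P) := fun a ha => Subgroup.mem_centralizer_iff.mpr fun b hb =>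
    congrArg Subtype.val (hA.is_comm.comm (⟨b, hb⟩ : A) ⟨a, ha⟩)
  have hCA : Subgroup.centralizer (A : Set P) = A := by
    refine le_antisymm ?_ hle
    by_contra hne
    obtain ⟨n, hn⟩ := Group.IsNilpotent.nilpotent P
    set C := Subgroup.centralizer (A : Set P) with hC
    haveI : C.Normal := by rw [hC]; infer_instance
    have hex : ∃ i, ¬ C ⊓ Subgroup.upperCentralSeries P i ≤ A := ⟨n, by rw [hn, inf_top_eq]; exact hne⟩
    obtain ⟨i, hi, hmin⟩ : ∃ i, ¬ C ⊓ Subgroup.upperCentralSeries P i ≤ A ∧ ∀ j < i, C ⊓ Subgroup.upperCentralSeries P j ≤ A :=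
      ⟨Nat.find hex, Nat.find_spec hex, fun j hj => not_not.mp (Nat.find_min hex hj)⟩
    obtain ⟨x, hx, hxA⟩ := SetLike.not_le_iff_exists.mp hi
    rcases i with - | i
    · rw [Subgroup.upperCentralSeries_zero, inf_bot_eq] at hx
      exact hxA (bot_le (a := A) hx)
    have hcomm : ∀ g : P, g * x * g⁻¹ * x⁻¹ ∈ A := by
      intro g
      refine hmin i (Nat.lt_succ_self i) ⟨C.mul_mem (Subgroup.Normal.conj_mem inferInstance _ hx.1 g) (C.inv_mem hx.1), ?_⟩
      have := Subgroup.inv_mem _ ((Subgroup.mem_upperCentralSeries_succ_iff).mp hx.2 g)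
      rwa [commutatorElement_inv, commutatorElement_def] at this
    have hBn : (A ⊔ Subgroup.zpowers x).Normal := by
      rw [← Subgroup.normalizer_eq_top_iff, eq_top_iff]
      intro g _
      have key : ∀ g : P, (A ⊔ Subgroup.zpowers x) ≤ (A ⊔ Subgroup.zpowers x).comap (MulAut.conj g).toMonoidHom := by
        intro g
        refine sup_le (fun a ha => Subgroup.mem_sup_left (Subgroup.Normal.conj_mem hAn _ ha g)) (Subgroup.zpowers_le.mpr ?_)
        show g * x * g⁻¹ ∈ A ⊔ Subgroup.zpowers x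
        rw [show g * x * g⁻¹ = (g * x * g⁻¹ * x⁻¹) * x by group]
        exact Subgroup.mul_mem_sup (hcomm g) (Subgroup.mem_zpowers x)
      rw [Subgroup.mem_normalizer_iff]
      intro y
      refine ⟨fun hy => (key g hy : g * y * g⁻¹ ∈ A ⊔ Subgroup.zpowers x), fun hy => ?_⟩
      have h1 : g⁻¹ * (g * y * g⁻¹) * g⁻¹⁻¹ ∈ A ⊔ Subgroup.zpowers x := key g⁻¹ hy
      simpa [mul_assoc] using h1
    have hBa : IsMulCommutative (A ⊔ Subgroup.zpowers x : Subgroup P) := by
      refine ⟨⟨fun ⟨u, hu⟩ ⟨v, hv⟩ => Subtype.ext ?_⟩⟩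
      obtain ⟨a, ha, b, ⟨k, rfl⟩, rfl⟩ := Subgroup.mem_sup_of_normal_left.mp hu
      obtain ⟨a', ha', b', ⟨l, rfl⟩, rfl⟩ := Subgroup.mem_sup_of_normal_left.mp hv
      show a * x ^ k * (a' * x ^ l) = a' * x ^ l * (a * x ^ k)
      have c1 : Commute a a' := congrArg Subtype.val (hA.is_comm.comm (⟨a, ha⟩ : A) ⟨a', ha'⟩)
      have c2 : Commute a (x ^ l) := (show Commute a x from Subgroup.mem_centralizer_iff.mp hx.1 a ha).zpow_right l
      have c3 : Commute (x ^ k) a' := ((show Commute a' x from Subgroup.mem_centralizer_iff.mp hx.1 a' ha').zpow_right k).symm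
      have c4 : Commute (x ^ k) (x ^ l) := (Commute.refl x).zpow_zpow k l
      exact (c1.mul_right c2).mul_left (c3.mul_right c4)
    exact hxA (hmax ⟨hBn, hBa⟩ le_sup_left (Subgroup.mem_sup_right (Subgroup.mem_zpowers x)))
  by_cases hab : ∀ x : P, (Subgroup.centralizer ({x} : Set P)).index = 1
  · rw [Subgroup.eq_top_iff']
    intro x
    refine (Subgroup.upperCentralSeries_mono P (show 1 ≤ 3 by norm_num)) ?_
    rw [Subgroup.upperCentralSeries_one, Subgroup.mem_center_iff]
    exact fun g => Subgroup.mem_centralizer_singleton_iff.mp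
      (Subgroup.index_eq_one.mp (hab x) ▸ Subgroup.mem_top g : g ∈ Subgroup.centralizer ({x} : Set P))
  push Not at hab
  obtain ⟨x, hx⟩ := hab
  have htop := Cfsg.Agent.S4163.result A hA hCA m hm ⟨x, (h x).resolve_left hx⟩
    (fun y hy => ((h y).resolve_left (ne_of_gt hy)).ge)
  have hM : (Subgroup.closure {x : P | (Subgroup.centralizer ({x} : Set P)).index = 1 ∨ (Subgroup.centralizer ({x} : Set P)).index = m}) = ⊤ := by
    rw [eq_top_iff]; exact fun y _ => Subgroup.subset_closure (h y)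
  rw [hM] at htop
  rw [Subgroup.eq_top_iff']
  intro z
  rw [Subgroup.mem_upperCentralSeries_succ_iff]
  intro u
  rw [Subgroup.mem_upperCentralSeries_succ_iff]
  intro v
  rw [Subgroup.mem_upperCentralSeries_succ_iff]
  intro w
  rw [Subgroup.upperCentralSeries_zero, Subgroup.mem_bot]
  have h4 : (⟨z, trivial⟩ : (⊤ : Subgroup P)) ∈ Subgroup.upperCentralSeries (⊤ : Subgroup P) 3 := htop ▸ Subgroup.mem_top _
  have h5 := Subgroup.mem_bot.mp (Subgroup.upperCentralSeries_zero (⊤ : Subgroup P) ▸ Subgroup.mem_upperCentralSeries_succ_iff.mp (Subgroup.mem_upperCentralSeries_succ_iff.mp (Subgroup.mem_upperCentralSeries_succ_iff.mp h4 ⟨u, trivial⟩) ⟨v, trivial⟩) ⟨w, trivial⟩)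
  simpa [commutatorElement_def] using congrArg Subtype.val h5


end Cfsg.Agent.S4169
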