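import Cfsg.Statements.S4176
import Cfsg.Agent.S3744
import Cfsg.Agent.Lib.PSolvable

set_option autoImplicit false
open Cfsg

namespace Cfsg.Agent.S4176
theorem exists_coset {G : Type*} [Group G] [Finite G] (A B : Subgroup G) (h : A.index ≤ A.relIndex B) (g : G) :
    ∃ m : B, (m : G)⁻¹ * g ∈ A := by
  let f : B ⧸ A.subgroupOf B → G ⧸ A := Quotient.lift (fun b : B => QuotientGroup.mk (b : G)) (fun b b' hb => QuotientGroup.eq.mpr (QuotientGroup.leftRel_apply.mp hb :))
  have hf : Function.Injective f := by
    rintro ⟨b⟩ ⟨b'⟩ he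
    exact QuotientGroup.eq.mpr (QuotientGroup.eq.mp he :)
  have hcard : Nat.card (B ⧸ A.subgroupOf B) = Nat.card (G ⧸ A) := le_antisymm (Nat.card_le_card_of_injective f hf) h
  obtain ⟨q, hq⟩ := ((Nat.bijective_iff_injective_and_card f).mpr ⟨hf, hcard⟩).2 (QuotientGroup.mk g)
  obtain ⟨b, rfl⟩ := QuotientGroup.mk_surjective q
  exact ⟨b, QuotientGroup.eq.mp hq⟩


/-- Let k be a field of prime characteristic p, H a finite p-soluble group and ρ a k-linear representation of H on V. Let a be a vector that is fixed by some Sylow p-subgroup of H and whose H-orbit spans V. Then the space of H-fixed vectors has dimension at most 1, and every vector b whose H-orbit has size coprime to the size of the orbit of a is fixed by H. -/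
theorem result {k V H : Type*} [Field k] (p : ℕ) [Fact p.Prime] [CharP k p] [AddCommGroup V] [Module k V]
    [Group H] [Finite H] (hsol : Cfsg.IsPSolvable p H) (ρ : Representation k H V) (a : V)
    (hfix : ∃ P : Sylow p H, ∀ x : H, x ∈ (P : Subgroup H) → ρ x a = a)
    (hspan : Submodule.span k {u : V | ∃ h : H, ρ h a = u} = ⊤) :
    Module.finrank k ρ.invariants ≤ 1 ∧
    ∀ b : V, (Nat.card {u : V | ∃ h : H, ρ h a = u}).Coprime (Nat.card {u : V | ∃ h : H, ρ h b = u}) → ∀ h : H, ρ h b = b := by
  classical
  obtain ⟨P, hP⟩ := hfix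
  set O := {u : V | ∃ h : H, ρ h a = u} with hO
  haveI : Finite O := Set.finite_range (fun h : H => ρ h a) |>.subset (fun u ⟨h, hh⟩ => ⟨h, hh⟩)
  letI := Fintype.ofFinite O
  set s : V := ∑ u : O, (u : V) with hs
  letI actV : MulAction H V :=
    { smul := fun h v => ρ h v
      one_smul := fun v => by show ρ 1 v = v; rw [map_one]; rfl
      mul_smul := fun g h v => by show ρ (g * h) v = ρ g (ρ h v); rw [map_mul]; rfl }
  have hOeq : O = MulAction.orbit H a := rfl
  have hstab : (MulAction.stabilizer H a).index = Nat.card O := (MulAction.index_stabilizer H a).trans rfl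
  have hOp : ¬ p ∣ Nat.card O := by
    rw [← hstab]
    exact fun hd => P.not_dvd_index (hd.trans (Subgroup.index_dvd_of_le fun x hx => hP x hx))
  have hperm : ∀ h : H, ρ h s = s := fun h => by
    rw [hs, map_sum]
    let e : O ≃ O :=
      { toFun := fun u => ⟨ρ h u, by obtain ⟨g, hg⟩ := u.2; exact ⟨h * g, by rw [map_mul, ← hg]; rfl⟩⟩
        invFun := fun u => ⟨ρ h⁻¹ u, by obtain ⟨g, hg⟩ := u.2; exact ⟨h⁻¹ * g, by rw [map_mul, ← hg]; rfl⟩⟩
        left_inv := fun u => Subtype.ext (inv_smul_smul h (u : V))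
        right_inv := fun u => Subtype.ext (smul_inv_smul h (u : V)) }
    exact Fintype.sum_equiv e _ _ fun u => rfl
  -- fixed vectors of a subgroup of order prime to p transitive on the orbit
  have key : ∀ L : Subgroup H, (∀ u : O, ∃ l : L, ρ (l : H) a = u) → ∀ v : V, (∀ l : L, ρ (l : H) v = v) →
      v ∈ Submodule.span k ({s} : Set V) := by
    intro L htr v hv
    -- reduce to a p-complement of L
    obtain ⟨K, hK, n, hn⟩ := (Cfsg.Agent.S3744.result (CfsgLib.PSolvable.subgroup hsol L)).1
    have hKtr : ∀ u : O, ∃ l : K, ρ ((l : L) : H) a = u := by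
      set A := (MulAction.stabilizer H a).subgroupOf L with hA
      have hAi : A.index = Nat.card O := by
        let f : L ⧸ A → O := Quotient.lift (fun l : L => (⟨ρ (l : H) a, _, rfl⟩ : O)) (fun l l' hll => Subtype.ext (by
          have h : ((l : H)⁻¹ * l') • a = a := QuotientGroup.leftRel_apply.mp hll
          show (l : H) • a = (l' : H) • a
          rw [mul_smul, inv_smul_eq_iff] at h
          exact h.symm))
        refine Nat.card_congr (Equiv.ofBijective f ⟨?_, fun u => ?_⟩)
        · rintro ⟨l⟩ ⟨l'⟩ h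
          refine QuotientGroup.eq.mpr ?_
          show ((l : H)⁻¹ * l') • a = a
          rw [mul_smul, inv_smul_eq_iff]
          exact (congrArg Subtype.val h).symm
        · obtain ⟨l, hl⟩ := htr u
          exact ⟨QuotientGroup.mk l, Subtype.ext hl⟩
      have hcop : A.index.Coprime K.index := by
        rw [hAi, hn]; exact (((Fact.out : p.Prime).coprime_iff_not_dvd.mpr hOp).symm).pow_right n
      have hdvd : A.index ∣ A.relIndex K := by
        have h1 : A.index ∣ (A ⊓ K).index := Subgroup.index_dvd_of_le inf_le_left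
        rw [← Subgroup.relIndex_mul_index (inf_le_right : A ⊓ K ≤ K), Subgroup.inf_relIndex_right] at h1
        exact hcop.dvd_of_dvd_mul_right h1
      intro u
      obtain ⟨l, hl⟩ := htr u
      obtain ⟨m, hm⟩ := exists_coset A K (Nat.le_of_dvd (Nat.pos_of_ne_zero Subgroup.index_ne_zero_of_finite) hdvd) l
      refine ⟨m, ?_⟩
      have h3 : (((m : L) : H)⁻¹ * (l : H)) • a = a := hm
      rw [mul_smul, inv_smul_eq_iff] at h3
      show ((m : L) : H) • a = _
      rw [← h3]
      exact hl
    letI := Fintype.ofFinite K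
    let T : V →ₗ[k] V := ∑ l : K, ρ ((l : L) : H)
    have hTv : T v = (Fintype.card K : k) • v := by
      rw [LinearMap.sum_apply, show (∑ d : K, (ρ ((d : L) : H)) v) = ∑ _d : K, v from Finset.sum_congr rfl fun d _ => hv (d : L), Finset.sum_const, Finset.card_univ, Nat.cast_smul_eq_nsmul]
    have hTu : ∀ u : O, ∃ c : k, T u = c • s := by
      intro u
      obtain ⟨l₀, hl₀⟩ := hKtr u
      set cnt : O → ℕ := fun w => Nat.card {l : K // ρ ((l : L) : H) a = (w : V)} with hcnt
      have hconst : ∀ w w' : O, cnt w = cnt w' := by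
        intro w w'
        obtain ⟨l, hl⟩ := hKtr w
        obtain ⟨l', hl'⟩ := hKtr w'
        refine Nat.card_congr ((Equiv.mulLeft (l' * l⁻¹)).subtypeEquiv fun m => ?_)
        show ((m : L) : H) • a = (w : V) ↔ (((l' * l⁻¹ * m : K) : L) : H) • a = (w' : V)
        rw [← hl, ← hl']
        show _ ↔ _ = ((l' : L) : H) • a
        simp only [Subgroup.coe_mul, Subgroup.coe_inv, mul_smul]
        rw [smul_left_cancel_iff, inv_smul_eq_iff]
        rfl
      refine ⟨(cnt ⟨a, 1, by rw [map_one]; rfl⟩ : k), ?_⟩
      rw [LinearMap.sum_apply, ← hl₀]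
      have e1 : ∑ l : K, ρ ((l : L) : H) (ρ ((l₀ : L) : H) a) = ∑ l : K, ρ ((l : L) : H) a :=
        Fintype.sum_equiv (Equiv.mulRight l₀) _ _ fun l => by
          show _ = ρ ((((l * l₀ : K)) : L) : H) a
          rw [Subgroup.coe_mul, Subgroup.coe_mul, map_mul]; rfl
      rw [e1, hs, Finset.smul_sum]
      let F : K → O := fun l => ⟨ρ ((l : L) : H) a, _, rfl⟩
      rw [← Fintype.sum_fiberwise' F (fun w : O => (w : V))]
      refine Finset.sum_congr rfl fun w _ => ?_
      rw [Finset.sum_const, Finset.card_univ, Nat.cast_smul_eq_nsmul, hconst _ w]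
      congr 1
      show _ = Nat.card _
      rw [Nat.card_eq_fintype_card]
      exact Fintype.card_congr (Equiv.subtypeEquivRight fun l => Subtype.ext_iff)
    have hrange : ∀ w : V, T w ∈ Submodule.span k ({s} : Set V) := by
      intro w
      have hw : w ∈ Submodule.span k O := hspan ▸ Submodule.mem_top
      induction hw using Submodule.span_induction with
      | mem u hu =>
        obtain ⟨c, hc⟩ := hTu ⟨u, hu⟩
        exact hc ▸ Submodule.smul_mem _ c (Submodule.mem_span_singleton_self s)
      | zero => rw [map_zero]; exact Submodule.zero_mem _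
      | add x y _ _ hx hy => rw [map_add]; exact Submodule.add_mem _ hx hy
      | smul c x _ hx => rw [map_smul]; exact Submodule.smul_mem _ c hx
    have hK0 : (Fintype.card K : k) ≠ 0 := by
      rw [Ne, CharP.cast_eq_zero_iff k p, ← Nat.card_eq_fintype_card]
      exact fun hd => (Fact.out : p.Prime).one_lt.ne' (Nat.eq_one_of_dvd_coprimes hK hd dvd_rfl)
    have := hrange v
    rw [hTv] at this
    exact (Submodule.smul_mem_iff _ hK0).mp this
  refine ⟨?_, fun b hb h => ?_⟩
  · refine (Submodule.finrank_mono (t := Submodule.span k ({s} : Set V)) fun v hv => key ⊤ (fun u => ?_) v (fun l => (Representation.mem_invariants ρ v).mp hv l)).trans ?_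
    · obtain ⟨g, hg⟩ := u.2; exact ⟨⟨g, Subgroup.mem_top g⟩, hg⟩
    · exact (finrank_span_le_card ({s} : Set V)).trans (by simp)
  · have hib : (MulAction.stabilizer H b).index = Nat.card {u : V | ∃ h : H, ρ h b = u} := (MulAction.index_stabilizer H b).trans rfl
    rw [← hstab, ← hib] at hb
    set A := MulAction.stabilizer H a
    set B := MulAction.stabilizer H b
    have htr : ∀ u : O, ∃ l : B, ρ (l : H) a = u := by
      rintro ⟨_, g, rfl⟩
      have h1 : A.index ∣ (A ⊓ B).index := Subgroup.index_dvd_of_le inf_le_left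
      rw [← Subgroup.relIndex_mul_index (inf_le_right : A ⊓ B ≤ B), Subgroup.inf_relIndex_right] at h1
      obtain ⟨m, hm⟩ := exists_coset A B (Nat.le_of_dvd (Nat.pos_of_ne_zero Subgroup.index_ne_zero_of_finite) (hb.dvd_of_dvd_mul_right h1)) g
      refine ⟨m, ?_⟩
      have h3 : ((m : H)⁻¹ * g) • a = a := hm
      rw [mul_smul, inv_smul_eq_iff] at h3
      exact h3.symm
    obtain ⟨c, rfl⟩ := Submodule.mem_span_singleton.mp (key B htr b fun l => l.2)
    rw [map_smul, hperm h]

end Cfsg.Agent.S4176
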