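import Cfsg.Statements.S4177
import Mathlib

set_option autoImplicit false
open Cfsg

namespace Cfsg.Agent.S4177

/-- Let k be a field whose characteristic does not divide the order of the finite group H (for instance a field of characteristic zero), and ρ a k-linear representation of H on V. Let a be a vector whose H-orbit spans V. Then the space of H-fixed vectors has dimension at most 1, and every vector b whose H-orbit has size coprime to the size of the orbit of a is fixed by H. -/
theorem result {k V H : Type*} [Field k] [AddCommGroup V] [Module k V] [Group H] [Finite H]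
    (hchar : ¬ ringChar k ∣ Nat.card H) (ρ : Representation k H V) (a : V)
    (hspan : Submodule.span k {u : V | ∃ h : H, ρ h a = u} = ⊤) :
    Module.finrank k ρ.invariants ≤ 1 ∧
    ∀ b : V, (Nat.card {u : V | ∃ h : H, ρ h a = u}).Coprime (Nat.card {u : V | ∃ h : H, ρ h b = u}) → ∀ h : H, ρ h b = b := by
  classical
  haveI := Fintype.ofFinite H
  have hne : ∀ K : Subgroup H, (Nat.card K : k) ≠ 0 := fun K h => hchar
    (dvd_trans ((ringChar.spec k _).mp h) (Subgroup.card_subgroup_dvd_card K))
  have hH : (Nat.card H : k) ≠ 0 := fun h => hchar ((ringChar.spec k _).mp h)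
  have hmul : ∀ (x y : H) (v : V), ρ (x * y) v = ρ x (ρ y v) := fun x y v => by rw [map_mul]; rfl
  set s : V →ₗ[k] V := ∑ h : H, ρ h with hs
  have hinv : ∀ (g : H) (v : V), ρ g (s v) = s v := fun g v => by
    rw [hs, LinearMap.sum_apply, map_sum]
    exact Fintype.sum_equiv (Equiv.mulLeft g) _ _ fun h => (hmul g h v).symm
  have hs2 : ∀ (g : H) (v : V), s (ρ g v) = s v := fun g v => by
    rw [hs, LinearMap.sum_apply, LinearMap.sum_apply]
    exact Fintype.sum_equiv (Equiv.mulRight g) _ _ fun h => (hmul h g v).symm
  have hline : ∀ (T : V →ₗ[k] V), (∀ h : H, T (ρ h a) = T a) → ∀ v : V, T v ∈ k ∙ T a := by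
    intro T hT v
    have hv : v ∈ Submodule.span k {u : V | ∃ h : H, ρ h a = u} := by rw [hspan]; trivial
    induction hv using Submodule.span_induction with
    | mem u hu => obtain ⟨h, rfl⟩ := hu; rw [hT]; exact Submodule.mem_span_singleton_self _
    | zero => simp
    | add u w _ _ hu hw => rw [map_add]; exact add_mem hu hw
    | smul c u _ hu => rw [map_smul]; exact Submodule.smul_mem _ c hu
  have hle : ρ.invariants ≤ k ∙ s a := by
    intro v hv
    have h1 : s v = (Nat.card H : k) • v := by
      rw [hs, LinearMap.sum_apply, Finset.sum_congr rfl fun h _ => hv h, Finset.sum_const, Finset.card_univ,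
        Nat.card_eq_fintype_card, Nat.cast_smul_eq_nsmul]
    have h2 := Submodule.smul_mem _ ((Nat.card H : k)⁻¹) (hline s (fun h => hs2 h a) v)
    rwa [h1, inv_smul_smul₀ hH] at h2
  haveI : FiniteDimensional k (k ∙ s a) := inferInstance
  refine ⟨(Submodule.finrank_mono hle).trans (by
    rcases eq_or_ne (s a) 0 with h | h
    · rw [h, Submodule.span_zero_singleton, finrank_bot]; exact zero_le_one
    · rw [finrank_span_singleton h]), ?_⟩
  intro b hb h0
  let St : V → Subgroup H := fun v =>
    { carrier := {h | ρ h v = v}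
      one_mem' := by simp
      mul_mem' := fun {x y} hx hy => by show ρ (x * y) v = v; rw [hmul, hy, hx]
      inv_mem' := fun {x} hx => by
        show ρ x⁻¹ v = v
        conv_lhs => rw [← hx]
        rw [← hmul, inv_mul_cancel, map_one]; rfl }
  have hStiff : ∀ (v : V) (x y : H), x⁻¹ * y ∈ St v ↔ ρ x v = ρ y v := fun v x y => by
    show ρ (x⁻¹ * y) v = v ↔ _
    constructor
    · intro h
      conv_lhs => rw [← h]
      rw [← hmul, mul_inv_cancel_left]
    · intro h
      rw [hmul, ← h, ← hmul, inv_mul_cancel, map_one]; rfl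
  have horb : ∀ v : V, Nat.card {u : V | ∃ h : H, ρ h v = u} = (St v).index := by
    intro v
    refine (Nat.card_congr (Equiv.ofBijective
      (Quotient.lift (fun x : H => (⟨ρ x v, x, rfl⟩ : {u : V | ∃ h : H, ρ h v = u}))
        (fun x y h => Subtype.ext ((hStiff v x y).mp (QuotientGroup.leftRel_apply.mp h)))) ⟨?_, ?_⟩)).symm
    · intro p q
      induction p using Quotient.inductionOn' with
      | h x =>
        induction q using Quotient.inductionOn' with
        | h y =>
          intro h
          exact QuotientGroup.eq.mpr ((hStiff v x y).mpr (congrArg Subtype.val h))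
    · rintro ⟨u, x, rfl⟩
      exact ⟨QuotientGroup.mk x, rfl⟩
  rw [horb a, horb b] at hb
  set L := St a
  set K := St b
  have hdvd : L.index ∣ L.relIndex K := by
    refine Nat.Coprime.dvd_of_dvd_mul_right hb ?_
    rw [← Subgroup.inf_relIndex_right, Subgroup.relIndex_mul_index inf_le_right]
    exact Subgroup.index_dvd_of_le inf_le_left
  let φ : K ⧸ L.subgroupOf K → H ⧸ L := Quotient.map' Subtype.val fun x y h => by
    rw [QuotientGroup.leftRel_apply] at h ⊢; exact h
  have hinj : Function.Injective φ := by
    intro x y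
    induction x using Quotient.inductionOn' with
    | h x =>
      induction y using Quotient.inductionOn' with
      | h y =>
        intro h
        simp only [φ, Quotient.map'_mk''] at h
        rw [Quotient.eq'', QuotientGroup.leftRel_apply] at h ⊢
        exact h
  have hbij := hinj.bijective_of_nat_card_le (Nat.le_of_dvd (Nat.pos_of_ne_zero Subgroup.index_ne_zero_of_finite) hdvd)
  haveI := Fintype.ofFinite K
  set t : V →ₗ[k] V := ∑ x : K, ρ (x : H) with ht
  have ht2 : ∀ h : H, t (ρ h a) = t a := by
    intro h
    obtain ⟨q, hq⟩ := hbij.2 (QuotientGroup.mk h)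
    induction q using Quotient.inductionOn' with
    | h x =>
    simp only [φ, Quotient.map'_mk''] at hq
    have h1 : ρ (x : H) a = ρ h a := (hStiff a _ _).mp (QuotientGroup.eq.mp hq)
    rw [← h1, ht, LinearMap.sum_apply, LinearMap.sum_apply]
    exact Fintype.sum_equiv (Equiv.mulRight x) _ _ fun y => (hmul (y : H) (x : H) a).symm
  have h3 : t (s a) = (Nat.card H : k) • t a := by
    rw [show s a = ∑ h, ρ h a from LinearMap.sum_apply _ _ _, map_sum, Finset.sum_congr rfl fun h _ => ht2 h, Finset.sum_const, Finset.card_univ,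
      Nat.card_eq_fintype_card, Nat.cast_smul_eq_nsmul]
  have h4 : ρ h0 (t a) = t a := by
    have h5 : t (s a) = (Nat.card K : k) • s a := by
      rw [ht, LinearMap.sum_apply, Finset.sum_congr rfl fun (x : K) _ => hinv (x : H) a, Finset.sum_const, Finset.card_univ,
        Nat.card_eq_fintype_card, Nat.cast_smul_eq_nsmul]
    have h6 : t a = (Nat.card H : k)⁻¹ • ((Nat.card K : k) • s a) := by rw [← h5, h3, inv_smul_smul₀ hH]
    rw [h6, map_smul, map_smul, hinv]
  obtain ⟨c, hc⟩ := Submodule.mem_span_singleton.mp (hline t ht2 b)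
  have h7 : t b = (Nat.card K : k) • b := by
    rw [ht, LinearMap.sum_apply, Finset.sum_congr rfl fun (x : K) _ => (x.2 : ρ (x : H) b = b), Finset.sum_const, Finset.card_univ,
      Nat.card_eq_fintype_card, Nat.cast_smul_eq_nsmul]
  have h8 : b = (Nat.card K : k)⁻¹ • (c • t a) := by rw [hc, h7, inv_smul_smul₀ (hne K)]
  rw [h8, map_smul, map_smul, h4]

end Cfsg.Agent.S4177
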