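import Cfsg.Statements.S4178
import Mathlib

set_option autoImplicit false
open Cfsg

namespace Cfsg.Agent.S4178

/-- Let F be a finite field with q elements, V a non-zero finite-dimensional F-space of dimension d, H a group of invertible linear maps of V, and R the subgroup of H generated by the elements of H that fix some non-zero vector (have eigenvalue 1). Then the index of R in H is at most q^d − 1; and if H leaves invariant some proper non-zero subspace, the index is at most q^(d/2) − 1. -/
theorem result {F V : Type*} [Field F] [Fintype F] [AddCommGroup V] [Module F V] [FiniteDimensional F V] [Nontrivial V]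
    (H : Subgroup (V ≃ₗ[F] V)) :
    (Subgroup.closure {h : ↥H | ∃ v : V, v ≠ 0 ∧ (h : V ≃ₗ[F] V) v = v}).index ≤ Fintype.card F ^ Module.finrank F V - 1 ∧
    ((∃ W : Submodule F V, W ≠ ⊥ ∧ W ≠ ⊤ ∧ ∀ h ∈ H, ∀ w ∈ W, h w ∈ W) →
      ((Subgroup.closure {h : ↥H | ∃ v : V, v ≠ 0 ∧ (h : V ≃ₗ[F] V) v = v}).index : ℝ) ≤ Real.sqrt ((Fintype.card F : ℝ) ^ Module.finrank F V) - 1) := by
  classical
  haveI : Finite V := Module.finite_of_finite F
  set R := Subgroup.closure {h : ↥H | ∃ v : V, v ≠ 0 ∧ (h : V ≃ₗ[F] V) v = v} with hR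
  have key : ∀ {Y : Type _} [Finite Y] (f : H → Y) (z : Y), (∀ h, f h ≠ z) →
      (∀ a b, f a = f b → a⁻¹ * b ∈ R) → R.index + 1 ≤ Nat.card Y := by
    intro Y _ f z hz hf
    have hinj : Function.Injective (fun c : H ⧸ R => (⟨f c.out, hz _⟩ : {y : Y // y ≠ z})) := by
      intro c d e
      have := hf _ _ (congrArg Subtype.val e)
      rw [← QuotientGroup.out_eq' c, ← QuotientGroup.out_eq' d]
      exact QuotientGroup.eq.mpr this
    have h1 := Nat.card_le_card_of_injective _ hinj
    rw [← Subgroup.index_eq_card] at h1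
    haveI := Fintype.ofFinite Y
    have h2 : Nat.card {y : Y // y ≠ z} + 1 = Nat.card Y := by
      rw [Nat.card_eq_fintype_card, Nat.card_eq_fintype_card, Fintype.card_subtype_compl, Fintype.card_subtype_eq]
      have : 0 < Fintype.card Y := Fintype.card_pos_iff.mpr ⟨z⟩
      omega
    omega
  have hsub : ∀ (W : Submodule F V) (w : V), w ∈ W → w ≠ 0 → (∀ h ∈ H, ∀ x ∈ W, h x ∈ W) →
      R.index + 1 ≤ Fintype.card F ^ Module.finrank F W := by
    intro W w hw hw0 hinv
    have := key (fun h : H => (⟨(h : V ≃ₗ[F] V) w, hinv _ h.2 _ hw⟩ : W)) 0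
      (fun h e => hw0 ((h : V ≃ₗ[F] V).map_eq_zero_iff.mp (congrArg Subtype.val e)))
      (fun a b e => Subgroup.subset_closure ⟨w, hw0, by
        have e' : (a : V ≃ₗ[F] V) w = (b : V ≃ₗ[F] V) w := congrArg Subtype.val e
        rw [Subgroup.coe_mul, LinearEquiv.mul_apply, ← e', Subgroup.coe_inv, ← LinearEquiv.mul_apply, inv_mul_cancel]
        rfl⟩)
    rwa [Module.natCard_eq_pow_finrank (K := F), Nat.card_eq_fintype_card] at this
  constructor
  · obtain ⟨w, hw⟩ := exists_ne (0 : V)
    have := hsub ⊤ w Submodule.mem_top hw (fun _ _ _ _ => Submodule.mem_top)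
    rw [finrank_top] at this
    omega
  · rintro ⟨W, hW0, hW1, hinv⟩
    obtain ⟨w, hw, hw0⟩ := Submodule.exists_mem_ne_zero_of_ne_bot hW0
    have h1 := hsub W w hw hw0 hinv
    obtain ⟨v, -, hv⟩ := SetLike.exists_of_lt (lt_top_iff_ne_top.mpr hW1)
    haveI : Finite (V ⧸ W) := Finite.of_surjective _ W.mkQ_surjective
    have h2 := key (fun h : H => W.mkQ ((h : V ≃ₗ[F] V) v)) 0
      (fun h e => hv (by
        have h3 : (h : V ≃ₗ[F] V) v ∈ W := (Submodule.Quotient.mk_eq_zero W).mp e
        have h4 := hinv _ (H.inv_mem h.2) _ h3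
        rwa [← LinearEquiv.mul_apply, inv_mul_cancel] at h4))
      (fun a b e => by
        by_cases hfix : ∃ x ∈ W, x ≠ 0 ∧ ((a⁻¹ * b : H) : V ≃ₗ[F] V) x = x
        · obtain ⟨x, -, hx0, hxe⟩ := hfix
          exact Subgroup.subset_closure ⟨x, hx0, hxe⟩
        push Not at hfix
        set g : V ≃ₗ[F] V := ((a⁻¹ * b : H) : V ≃ₗ[F] V) with hg
        have hgv : g v - v ∈ W := by
          have h3 : (b : V ≃ₗ[F] V) v - (a : V ≃ₗ[F] V) v ∈ W := (Submodule.Quotient.eq W).mp e.symm
          have h4 := hinv _ (H.inv_mem a.2) _ h3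
          rw [map_sub, ← LinearEquiv.mul_apply, ← LinearEquiv.mul_apply, inv_mul_cancel] at h4
          exact h4
        let φ : W →ₗ[F] W :=
          LinearMap.codRestrict W (((g : V →ₗ[F] V) - LinearMap.id).comp W.subtype)
            (fun x => W.sub_mem (hinv _ (a⁻¹ * b : H).2 _ x.2) x.2)
        have hinj : Function.Injective φ := by
          rw [← LinearMap.ker_eq_bot, LinearMap.ker_eq_bot']
          intro x hx
          by_contra hx0
          exact hfix x x.2 (fun h => hx0 (Subtype.ext h)) (sub_eq_zero.mp (congrArg Subtype.val hx))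
        obtain ⟨x, hx⟩ := (LinearMap.injective_iff_surjective.mp hinj) ⟨-(g v - v), W.neg_mem hgv⟩
        refine Subgroup.subset_closure ⟨v + (x : V), fun h => hv ?_, ?_⟩
        · rw [eq_neg_of_add_eq_zero_left h]; exact W.neg_mem x.2
        · have h5 : g (x : V) - x = -(g v - v) := congrArg Subtype.val hx
          show g (v + (x : V)) = v + (x : V)
          rw [map_add, sub_eq_iff_eq_add.mp h5]; abel)
    rw [Module.natCard_eq_pow_finrank (K := F), Nat.card_eq_fintype_card] at h2
    have h3 := Nat.mul_le_mul h1 h2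
    rw [← pow_add, add_comm (Module.finrank F W), W.finrank_quotient_add_finrank] at h3
    have h4 : ((R.index : ℝ) + 1) ^ 2 ≤ (Fintype.card F : ℝ) ^ Module.finrank F V := by
      rw [sq]; exact_mod_cast h3
    have h6 := Real.sqrt_le_sqrt h4
    rw [Real.sqrt_sq (by positivity)] at h6
    linarith

end Cfsg.Agent.S4178
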