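import Cfsg.Statements.S4182
import Mathlib.GroupTheory.Sylow
import Mathlib.GroupTheory.PGroup

set_option autoImplicit false
open Cfsg

namespace Cfsg.Agent.S4182
universe u

abbrev Pel (p : ℕ) {G : Type u} [Group G] (g : G) : Prop := ∃ k : ℕ, orderOf g = p ^ k

def core' (p : ℕ) {G : Type u} [Group G] (K : Subgroup G) : Subgroup G := Subgroup.closure {g | g ∈ K ∧ Pel p g}

abbrev PGen (p : ℕ) {G : Type u} [Group G] (K : Subgroup G) : Prop := K ≤ core' p K

theorem core'_le (p : ℕ) {G : Type u} [Group G] (K : Subgroup G) : core' p K ≤ K :=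
  (Subgroup.closure_le K).mpr fun _ h => h.1

theorem pgen_core' (p : ℕ) {G : Type u} [Group G] (K : Subgroup G) : PGen p (core' p K) :=
  Subgroup.closure_mono fun _ h => ⟨Subgroup.subset_closure h, h.2⟩

theorem pgroup_case (p : ℕ) [hp : Fact p.Prime] {G : Type u} [Group G] [Finite G] (hG : IsPGroup p G)
    (s : Finset (Subgroup G)) (hs : s.card ≤ p) (hcov : ∀ g : G, ∃ K ∈ s, g ∈ K) : ⊤ ∈ s := by
  classical
  by_contra htop
  haveI := Fintype.ofFinite G
  have hsub : Finset.univ.erase (1 : G) ⊆ s.biUnion fun K => (Finset.univ.filter (· ∈ K)).erase 1 := fun g hg => by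
    obtain ⟨K, hK, hgK⟩ := hcov g
    exact Finset.mem_biUnion.mpr ⟨K, hK, by simp [hgK, (Finset.mem_erase.mp hg).1]⟩
  have hK : ∀ K ∈ s, p * ((Finset.univ.filter (· ∈ K)).erase 1).card + p ≤ Nat.card G := fun K hK => by
    have hne : K.index ≠ 1 := fun e => htop (Subgroup.index_eq_one.mp e ▸ hK)
    obtain ⟨n, hn⟩ := hG.index K
    have hdvd : p ≤ K.index := by
      rcases n with _ | n
      · exact absurd (by simpa using hn) hne
      · rw [hn]; exact Nat.le_self_pow (by omega) p
    have h1 : ((Finset.univ.filter (· ∈ K)).erase 1).card + 1 = Nat.card K := by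
      rw [Finset.card_erase_add_one (by simp), Nat.card_eq_fintype_card, Fintype.card_subtype]
    rw [← K.index_mul_card, ← h1]
    calc p * _ + p = p * (((Finset.univ.filter (· ∈ K)).erase 1).card + 1) := by ring
      _ ≤ _ := Nat.mul_le_mul_right _ hdvd
  have h2 := (Finset.card_le_card hsub).trans Finset.card_biUnion_le
  rw [Finset.card_erase_of_mem (Finset.mem_univ _), Finset.card_univ, ← Nat.card_eq_fintype_card] at h2
  have h3 : p * (Nat.card G - 1) + p * s.card ≤ s.card * Nat.card G := by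
    refine le_trans (Nat.add_le_add_right (Nat.mul_le_mul_left p h2) _) ?_
    rw [Finset.mul_sum, Nat.mul_comm p s.card, ← smul_eq_mul (a := s.card) (b := p), ← Finset.sum_const,
      ← Finset.sum_add_distrib, ← smul_eq_mul]
    exact Finset.sum_le_card_nsmul _ _ _ hK
  have h4 : s.card * Nat.card G ≤ p * Nat.card G := Nat.mul_le_mul_right _ hs
  have hs0 : 0 < s.card := by
    obtain ⟨K, hK, -⟩ := hcov 1
    exact Finset.card_pos.mpr ⟨K, hK⟩
  have hpos : 0 < Nat.card G := Nat.card_pos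
  have hp2 := hp.out.two_le
  rcases Nat.lt_or_ge s.card p with h | h
  · have h5 : (s.card + 1) * Nat.card G ≤ p * Nat.card G := Nat.mul_le_mul_right _ h
    rw [Nat.mul_sub, mul_one] at h3
    have h6 : p ≤ Nat.card G := le_trans (Nat.le_add_left _ _) (hK _ (Finset.card_pos.mp hs0).choose_spec)
    have h7 : p * 1 ≤ p * Nat.card G := Nat.mul_le_mul_left p hpos
    rw [Nat.add_mul, one_mul] at h5
    have h8 : 0 < p * s.card := Nat.mul_pos hp.out.pos hs0
    omega
  · have e : s.card = p := le_antisymm hs h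
    rw [e, Nat.mul_sub, mul_one] at h3
    have h7 : p * 1 ≤ p * Nat.card G := Nat.mul_le_mul_left p hpos
    have h8 : p * 2 ≤ p * p := Nat.mul_le_mul_left p hp2
    omega

theorem aux (p : ℕ) [hp : Fact p.Prime] : ∀ (n : ℕ) (G : Type u) [Group G] [Finite G], Nat.card G = n → PGen p (⊤ : Subgroup G) →
    ∀ s : Finset (Subgroup G), s.card ≤ p → (∀ g : G, Pel p g → ∃ K ∈ s, g ∈ K) → ⊤ ∈ s := by
  intro n
  induction n using Nat.strong_induction_on with
  | _ n IH =>
  intro G _ _ hn hgen s hs hcov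
  classical
  by_contra htop
  by_cases hG : IsPGroup p G
  · exact htop (pgroup_case p hG s hs fun g => hcov g (IsPGroup.iff_orderOf.mp hG g))
  have hsmall : ∀ H : Subgroup G, H ≠ ⊤ → PGen p H → ∃ K ∈ s, H ≤ K := by
    intro H hH hHg
    have hlt : Nat.card H < n := hn ▸ lt_of_le_of_ne (Subgroup.card_le_card_group H) fun e => hH (Subgroup.eq_top_of_card_eq H e)
    have hgen' : PGen p (⊤ : Subgroup H) := by
      rw [PGen, top_le_iff, ← (Subgroup.map_injective H.subtype_injective).eq_iff, core', MonoidHom.map_closure, ← MonoidHom.range_eq_map, H.range_subtype]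
      refine le_antisymm ((Subgroup.closure_le H).mpr fun _ ⟨x, _, hx⟩ => hx ▸ x.2) (hHg.trans (Subgroup.closure_mono fun g hg => ?_))
      exact ⟨⟨g, hg.1⟩, ⟨Subgroup.mem_top _, by simpa [Pel, ← Subgroup.orderOf_coe] using hg.2⟩, rfl⟩
    obtain ⟨K, hK, hKH⟩ := Finset.mem_image.mp (IH _ hlt H rfl hgen' (s.image fun K => K.subgroupOf H) (Finset.card_image_le.trans hs) fun g hg => by
      obtain ⟨K, hK, hgK⟩ := hcov (g : G) (by simpa [Pel, Subgroup.orderOf_coe] using hg)
      exact ⟨_, Finset.mem_image_of_mem _ hK, hgK⟩)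
    exact ⟨K, hK, Subgroup.subgroupOf_eq_top.mp hKH⟩
  let S : Set (Subgroup G) := {M | M ≠ ⊤ ∧ PGen p M}
  have hmax : ∀ M, Maximal (· ∈ S) M → M ∈ s.image (core' p) := by
    intro M hM
    obtain ⟨K, hK, hMK⟩ := hsmall M hM.1.1 hM.1.2
    refine Finset.mem_image.mpr ⟨K, hK, ?_⟩
    have h1 : M ≤ core' p K := hM.1.2.trans (Subgroup.closure_mono fun g hg => ⟨hMK hg.1, hg.2⟩)
    exact le_antisymm (hM.2 ⟨fun e => htop (top_le_iff.mp (e ▸ core'_le p K) ▸ hK), pgen_core' p K⟩ h1) h1
  obtain ⟨P⟩ : Nonempty (Sylow p G) := inferInstance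
  have hP : (P : Subgroup G) ∈ S := ⟨fun e => hG ((e ▸ P.isPGroup').of_equiv Subgroup.topEquiv), fun g hg =>
    Subgroup.subset_closure ⟨hg, by simpa [Pel, Subgroup.orderOf_mk] using IsPGroup.iff_orderOf.mp P.isPGroup' ⟨g, hg⟩⟩⟩
  obtain ⟨M, hPM, hM⟩ := Finite.exists_le_maximal (p := (· ∈ S)) hP
  set N := Subgroup.normalizer (M : Set G) with hN
  have hconj : ∀ g : G, Maximal (· ∈ S) (M.map (MulAut.conj g).toMonoidHom) := by
    have hS : ∀ (g : G) (T : Subgroup G), T ∈ S → T.map (MulAut.conj g).toMonoidHom ∈ S := fun g T hT => by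
      refine ⟨fun e => hT.1 ?_, ?_⟩
      · exact Subgroup.map_injective (MulAut.conj g).injective (by rw [e, ← MonoidHom.range_eq_map, MonoidHom.range_eq_top.mpr (MulAut.conj g).surjective])
      · refine (Subgroup.map_mono hT.2).trans ?_
        rw [core', MonoidHom.map_closure]
        refine Subgroup.closure_mono ?_
        rintro _ ⟨x, hx, rfl⟩
        obtain ⟨k, hk⟩ := hx.2
        exact ⟨Subgroup.mem_map_of_mem _ hx.1, k, (MulEquiv.orderOf_eq (MulAut.conj g) x).trans hk⟩
    intro g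
    refine ⟨hS g M hM.1, fun T hT hle => ?_⟩
    have h1 := hM.2 (hS g⁻¹ T hT) (by
      intro x hx
      exact ⟨g * x * g⁻¹, hle ⟨x, hx, by simp [MulAut.conj_apply]⟩, by simp [MulAut.conj_apply, mul_assoc]⟩)
    intro x hx
    exact ⟨g⁻¹ * x * g, h1 ⟨x, hx, by simp [MulAut.conj_apply]⟩, by simp [MulAut.conj_apply, mul_assoc]⟩
  have hnotN : ∃ x : G, Pel p x ∧ x ∉ N := by
    by_contra hc
    push Not at hc
    have hNtop : N = ⊤ := top_le_iff.mp (hgen.trans ((Subgroup.closure_le N).mpr fun g hg => hc g hg.2))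
    haveI : M.Normal := Subgroup.normalizer_eq_top_iff.mp hNtop
    refine hM.1.1 (top_le_iff.mp (hgen.trans ((Subgroup.closure_le M).mpr fun g hg => ?_)))
    obtain ⟨k, hk⟩ := hg.2
    obtain ⟨Q, hQ⟩ := (IsPGroup.of_card (n := k) (by rw [Nat.card_zpowers, hk]) : IsPGroup p (Subgroup.zpowers g)).exists_le_sylow
    obtain ⟨c, hc⟩ := MulAction.exists_smul_eq G P Q
    have h1 : (Q : Subgroup G) ≤ M := by
      rw [← hc, Sylow.coe_subgroup_smul]
      intro y hy
      obtain ⟨z, hz, rfl⟩ := hy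
      exact ‹M.Normal›.conj_mem z (hPM hz) c
    exact h1 (hQ (Subgroup.mem_zpowers g))
  obtain ⟨x, ⟨k, hk⟩, hxN⟩ := hnotN
  -- the coset space of the normalizer injects into the maximal ones
  let f : G ⧸ N → {T // T ∈ s.image (core' p)} := fun q => ⟨M.map (MulAut.conj q.out).toMonoidHom, hmax _ (hconj _)⟩
  have hf : Function.Injective f := by
    intro a b hab
    have h1 : M.map (MulAut.conj a.out).toMonoidHom = M.map (MulAut.conj b.out).toMonoidHom := congrArg Subtype.val hab
    rw [← a.out_eq, ← b.out_eq]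
    refine QuotientGroup.eq.mpr (Subgroup.mem_normalizer_iff.mpr fun y => ?_)
    constructor
    · intro hy
      obtain ⟨z, hz, hz2⟩ : b.out * y * b.out⁻¹ ∈ M.map (MulAut.conj a.out).toMonoidHom := by rw [h1]; exact ⟨y, hy, rfl⟩
      simp only [MulEquiv.coe_toMonoidHom, MulAut.conj_apply] at hz2
      have e : a.out⁻¹ * b.out * y * (a.out⁻¹ * b.out)⁻¹ = z := by
        calc a.out⁻¹ * b.out * y * (a.out⁻¹ * b.out)⁻¹ = a.out⁻¹ * (b.out * y * b.out⁻¹) * a.out := by group
          _ = z := by rw [← hz2]; group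
      rw [e]; exact hz
    · intro hy
      obtain ⟨z, hz, hz2⟩ : a.out * (a.out⁻¹ * b.out * y * (a.out⁻¹ * b.out)⁻¹) * a.out⁻¹ ∈ M.map (MulAut.conj b.out).toMonoidHom := by
        rw [← h1]; exact ⟨_, hy, rfl⟩
      simp only [MulEquiv.coe_toMonoidHom, MulAut.conj_apply] at hz2
      have e : y = z := by
       calc y = b.out⁻¹ * (a.out * (a.out⁻¹ * b.out * y * (a.out⁻¹ * b.out)⁻¹) * a.out⁻¹) * b.out := by group
        _ = z := by rw [← hz2]; group
      rw [e]; exact hz
  have hle : Nat.card (G ⧸ N) ≤ p := by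
    refine (Nat.card_le_card_of_injective f hf).trans ?_
    rw [Nat.card_eq_finsetCard]
    exact Finset.card_image_le.trans hs
  have hndvd : ¬ p ∣ Nat.card (G ⧸ N) := fun h => P.not_dvd_index (h.trans (Subgroup.index_dvd_of_le (hPM.trans Subgroup.le_normalizer)))
  -- an orbit of `x` has at least `p` points
  have hge : p ≤ Nat.card (G ⧸ N) := by
    set O := MulAction.orbit (Subgroup.zpowers x) ((1 : G) : G ⧸ N) with hO
    obtain ⟨m, hm⟩ := (IsPGroup.of_card (n := k) (by rw [Nat.card_zpowers, hk]) : IsPGroup p (Subgroup.zpowers x)).card_orbit ((1 : G) : G ⧸ N)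
    have hm0 : m ≠ 0 := by
      rintro rfl
      rw [pow_zero, Nat.card_eq_one_iff_unique] at hm
      obtain ⟨h1, -⟩ := hm
      have : ((x : G) : G ⧸ N) = ((1 : G) : G ⧸ N) := by
        have := congrArg Subtype.val (h1.elim ⟨_, MulAction.mem_orbit _ (⟨x, Subgroup.mem_zpowers x⟩ : Subgroup.zpowers x)⟩ ⟨_, MulAction.mem_orbit_self _⟩)
        have h2 : ((x * 1 : G) : G ⧸ N) = ((1 : G) : G ⧸ N) := this
        rwa [mul_one] at h2
      exact hxN (by simpa using QuotientGroup.eq.mp this)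
    refine (Nat.le_self_pow hm0 p).trans (hm ▸ ?_)
    exact Nat.card_le_card_of_injective _ Subtype.val_injective
  exact hndvd (le_antisymm hle hge ▸ dvd_rfl)


/-- Let p be a prime and G a finite group generated by its p-elements. If a finite family of proper subgroups of G covers the set of p-elements of G (every element of p-power order lies in one of them), then the family has at least p + 1 members. -/
theorem result {G : Type*} [Group G] [Finite G] (p : ℕ) [Fact p.Prime] (hgen : Subgroup.closure {g : G | ∃ k : ℕ, orderOf g = p ^ k} = ⊤)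
    {ι : Type*} [Fintype ι] (K : ι → Subgroup G) (hK : ∀ i, K i ≠ ⊤)
    (hcov : ∀ g : G, (∃ k : ℕ, orderOf g = p ^ k) → ∃ i, g ∈ K i) :
    p + 1 ≤ Fintype.card ι := by
  classical
  by_contra hlt
  push Not at hlt
  have h := aux p _ G rfl (by
    rw [PGen, ← hgen]
    exact Subgroup.closure_mono fun g hg => ⟨by rw [hgen]; exact Subgroup.mem_top g, hg⟩) (Finset.univ.image K)
    (Finset.card_image_le.trans (by rw [Finset.card_univ]; omega)) fun g hg => by
      obtain ⟨i, hi⟩ := hcov g hg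
      exact ⟨K i, Finset.mem_image_of_mem K (Finset.mem_univ i), hi⟩
  obtain ⟨i, -, hi⟩ := Finset.mem_image.mp h
  exact hK i hi

end Cfsg.Agent.S4182
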