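import Cfsg.Statements.S4184
import Mathlib.GroupTheory.Sylow
import Mathlib.GroupTheory.PGroup
import Mathlib.GroupTheory.GroupAction.ConjAct

set_option autoImplicit false
open Cfsg

namespace Cfsg.Agent.S4184

/-- Let G and M be finite groups with trivial centres and the same set of conjugacy class sizes, and suppose the prime graph of M is disconnected: the prime divisors of #M split into two non-empty parts such that M has no element of order pq with p in one part and q in the other. Then #G = #M. -/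
theorem result {G M : Type*}
    [Group G] [Finite G] [Group M] [Finite M] (hZG : Subgroup.center G = ⊥) (hZM : Subgroup.center M = ⊥)
    (h : Set.range (fun g : G => (Subgroup.centralizer ({g} : Set G)).index) = Set.range (fun g : M => (Subgroup.centralizer ({g} : Set M)).index))
    (hdisc : ∃ A : Set ℕ, (∃ a ∈ A, a.Prime ∧ a ∣ Nat.card M) ∧ (∃ b ∉ A, b.Prime ∧ b ∣ Nat.card M) ∧
      ∀ a ∈ A, ∀ b ∉ A, a.Prime → b.Prime → a ∣ Nat.card M → b ∣ Nat.card M → ¬ ∃ x : M, orderOf x = a * b) :
    Nat.card G = Nat.card M := by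
  classical
  obtain ⟨A, ⟨a0, ha0A, ha0, ha0M⟩, ⟨b0, hb0A, hb0, hb0M⟩, hA⟩ := hdisc
  -- centralisers in `M` are one-sided
  have hside : ∀ g : M, g ≠ 1 → ∀ a b : ℕ, a ∈ A → b ∉ A → a.Prime → b.Prime →
      a ∣ Nat.card (Subgroup.centralizer ({g} : Set M)) → b ∣ Nat.card (Subgroup.centralizer ({g} : Set M)) → False := by
    intro g hg a b ha hb hap hbp haC hbC
    haveI := Fact.mk hap
    haveI := Fact.mk hbp
    obtain ⟨x, hx⟩ := exists_prime_orderOf_dvd_card' a haC
    obtain ⟨y, hy⟩ := exists_prime_orderOf_dvd_card' b hbC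
    obtain ⟨q, hq, hqo⟩ := Nat.exists_prime_and_dvd (fun h => hg (orderOf_eq_one_iff.mp h))
    set z := g ^ (orderOf g / q) with hz
    have hzo : orderOf z = q := orderOf_pow_orderOf_div (orderOf_pos g).ne' hqo
    have hcz : ∀ s : Subgroup.centralizer ({g} : Set M), Commute (s : M) z := fun s =>
      ((show Commute g (s : M) from Subgroup.mem_centralizer_iff.mp s.2 g rfl).symm).pow_right _
    have hqM : q ∣ Nat.card M := hzo ▸ orderOf_dvd_natCard z
    by_cases hqA : q ∈ A
    · refine hA q hqA b hb hq hbp hqM (hy ▸ (orderOf_dvd_natCard y).trans (Subgroup.card_subgroup_dvd_card _)) ⟨(y : M) * z, ?_⟩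
      rw [(hcz y).orderOf_mul_eq_mul_orderOf_of_coprime, hzo, Subgroup.orderOf_coe, hy, mul_comm]
      rw [hzo, Subgroup.orderOf_coe, hy]
      exact (Nat.coprime_primes hbp hq).mpr fun h => hb (h ▸ hqA)
    · refine hA a ha q hqA hap hq (hx ▸ (orderOf_dvd_natCard x).trans (Subgroup.card_subgroup_dvd_card _)) hqM ⟨(x : M) * z, ?_⟩
      rw [(hcz x).orderOf_mul_eq_mul_orderOf_of_coprime, hzo, Subgroup.orderOf_coe, hx]
      rw [hzo, Subgroup.orderOf_coe, hx]
      exact (Nat.coprime_primes hap hq).mpr fun h => hqA (h ▸ ha)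
  -- every prime power of `#M` occurs in a class size
  have hfull : ∀ p : ℕ, p.Prime → p ∣ Nat.card M → ∃ g : M, ¬ p ∣ Nat.card (Subgroup.centralizer ({g} : Set M)) := by
    intro p hp hpM
    obtain ⟨r, hr, hrM, hne⟩ : ∃ r : ℕ, r.Prime ∧ r ∣ Nat.card M ∧ ¬ (p ∈ A ↔ r ∈ A) := by
      by_cases hpA : p ∈ A
      · exact ⟨b0, hb0, hb0M, fun h => hb0A (h.mp hpA)⟩
      · exact ⟨a0, ha0, ha0M, fun h => hpA (h.mpr ha0A)⟩
    haveI := Fact.mk hr
    obtain ⟨x, hx⟩ := exists_prime_orderOf_dvd_card' r hrM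
    have hx1 : x ≠ 1 := fun h => hr.ne_one (by rw [← hx, h, orderOf_one])
    have hrC : r ∣ Nat.card (Subgroup.centralizer ({x} : Set M)) :=
      hx ▸ Subgroup.orderOf_dvd_natCard _ (Subgroup.mem_centralizer_iff.mpr fun g hg => by rw [Set.mem_singleton_iff.mp hg])
    refine ⟨x, fun hd => ?_⟩
    by_cases hpA : p ∈ A
    · exact hside x hx1 p r hpA (fun hrA => hne ⟨fun _ => hrA, fun _ => hpA⟩) hp hr hd hrC
    · exact hside x hx1 r p (by_contra fun hrA => hne ⟨fun h => absurd h hpA, fun h => absurd h hrA⟩) hpA hr hp hrC hd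
  -- `#M` divides `#G`
  have hdvd : Nat.card M ∣ Nat.card G := by
    refine (Nat.factorization_prime_le_iff_dvd Nat.card_pos.ne' Nat.card_pos.ne').mp fun p hp => ?_
    by_cases hpM : p ∣ Nat.card M
    swap
    · rw [Nat.factorization_eq_zero_of_not_dvd hpM]; exact Nat.zero_le _
    obtain ⟨g, hg⟩ := hfull p hp hpM
    obtain ⟨g', hg'⟩ : (Subgroup.centralizer ({g} : Set M)).index ∈
        Set.range (fun g : G => (Subgroup.centralizer ({g} : Set G)).index) := h ▸ ⟨g, rfl⟩
    refine (hp.pow_dvd_iff_le_factorization Nat.card_pos.ne').mp (dvd_trans ?_ (Subgroup.index_dvd_card (Subgroup.centralizer ({g'} : Set G))))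
    show _ ∣ (Subgroup.centralizer ({g'} : Set G)).index
    simp only at hg'
    rw [hg']
    refine (((hp.coprime_iff_not_dvd).mpr hg).pow_left _).dvd_of_dvd_mul_left ?_
    rw [Subgroup.card_mul_index]
    exact Nat.ordProj_dvd _ _
  obtain ⟨n, hn⟩ := hdvd
  by_contra hne
  have hn1 : n ≠ 1 := fun h1 => hne (by rw [hn, h1, mul_one])
  obtain ⟨p, hp, hpn⟩ := Nat.exists_prime_and_dvd hn1
  -- types of elements of `G`
  have hc : ∀ g : G, g ≠ 1 → ∃ c : ℕ, 1 < c ∧ Nat.card (Subgroup.centralizer ({g} : Set G)) = n * c ∧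
      ∀ a b : ℕ, a ∈ A → b ∉ A → a.Prime → b.Prime → a ∣ c → b ∣ c → False := by
    intro g hg
    obtain ⟨g', hg'⟩ : (Subgroup.centralizer ({g} : Set G)).index ∈
        Set.range (fun g : M => (Subgroup.centralizer ({g} : Set M)).index) := h ▸ ⟨g, rfl⟩
    simp only at hg'
    have hg'1 : g' ≠ 1 := by
      intro h1
      refine hg (Subgroup.mem_bot.mp (hZG ▸ Subgroup.mem_center_iff.mpr fun x => ?_))
      have htop : Subgroup.centralizer ({g} : Set G) = ⊤ := by
        rw [← Subgroup.index_eq_one, ← hg', Subgroup.index_eq_one, h1, Subgroup.eq_top_iff']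
        intro x
        exact Subgroup.mem_centralizer_iff.mpr fun y hy => by rw [Set.mem_singleton_iff.mp hy, one_mul, mul_one]
      exact ((Subgroup.mem_centralizer_iff.mp (htop ▸ Subgroup.mem_top x : x ∈ Subgroup.centralizer ({g} : Set G))) g rfl).symm
    refine ⟨Nat.card (Subgroup.centralizer ({g'} : Set M)), ?_, ?_, hside g' hg'1⟩
    · haveI : Nontrivial (Subgroup.centralizer ({g'} : Set M)) :=
        ⟨⟨1, ⟨g', Subgroup.mem_centralizer_iff.mpr fun y hy => by rw [Set.mem_singleton_iff.mp hy]⟩,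
          fun he => hg'1 (congrArg Subtype.val he).symm⟩⟩
      exact Finite.one_lt_card
    · refine Nat.eq_of_mul_eq_mul_right (Nat.pos_of_ne_zero (Subgroup.index_ne_zero_of_finite (H := Subgroup.centralizer ({g} : Set G)))) ?_
      rw [Subgroup.card_mul_index, ← hg', hn, mul_assoc n, Subgroup.card_mul_index, mul_comm]
  -- elements of different types do not commute
  have hcomm : ∀ g k : G, ∀ cg ck : ℕ, g * k = k * g → (orderOf g).Coprime (orderOf k) → g ≠ 1 →
      Nat.card (Subgroup.centralizer ({g} : Set G)) = n * cg → Nat.card (Subgroup.centralizer ({k} : Set G)) = n * ck →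
      cg.Coprime ck → False := by
    intro g k cg ck hgk hco hg hcg hck hcc
    have hmem : g ∈ Subgroup.zpowers (g * k) ∧ k ∈ Subgroup.zpowers (g * k) := by
      obtain ⟨i, hi⟩ := exists_pow_eq_self_of_coprime (n := orderOf k) (x := g) hco.symm
      obtain ⟨j, hj⟩ := exists_pow_eq_self_of_coprime (n := orderOf g) (x := k) hco
      refine ⟨?_, ?_⟩
      · have : ((g * k) ^ orderOf k) ^ i = g := by rw [(show Commute g k from hgk).mul_pow, pow_orderOf_eq_one, mul_one, hi]
        have hm := Subgroup.pow_mem _ (Subgroup.pow_mem _ (Subgroup.mem_zpowers (g * k)) (orderOf k)) i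
        rwa [this] at hm
      · have : ((g * k) ^ orderOf g) ^ j = k := by rw [(show Commute g k from hgk).mul_pow, pow_orderOf_eq_one, one_mul, hj]
        have hm := Subgroup.pow_mem _ (Subgroup.pow_mem _ (Subgroup.mem_zpowers (g * k)) (orderOf g)) j
        rwa [this] at hm
    have hgk1 : g * k ≠ 1 := fun he => hg (by
      have := hmem.1
      rw [he, Subgroup.zpowers_one_eq_bot] at this
      exact Subgroup.mem_bot.mp this)
    obtain ⟨c, hc1, hcc', -⟩ := hc _ hgk1
    have hle : ∀ x ∈ Subgroup.zpowers (g * k), Subgroup.centralizer ({g * k} : Set G) ≤ Subgroup.centralizer ({x} : Set G) := by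
      intro x hx s hs
      obtain ⟨i, rfl⟩ := Subgroup.mem_zpowers_iff.mp hx
      refine Subgroup.mem_centralizer_iff.mpr fun y hy => ?_
      rw [Set.mem_singleton_iff.mp hy]
      exact ((show Commute (g * k) s from Subgroup.mem_centralizer_iff.mp hs _ rfl).zpow_left i).eq
    have h1 := Subgroup.card_dvd_of_le (hle g hmem.1)
    have h2 := Subgroup.card_dvd_of_le (hle k hmem.2)
    rw [hcc', hcg] at h1
    rw [hcc', hck] at h2
    have hn0 : 0 < n := Nat.pos_of_ne_zero fun h0 => by rw [h0, mul_zero] at hn; exact Nat.card_pos.ne' hn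
    have := Nat.eq_one_of_dvd_coprimes hcc (Nat.dvd_of_mul_dvd_mul_left hn0 h1) (Nat.dvd_of_mul_dvd_mul_left hn0 h2)
    omega
  -- primes of `G` divide `#M`
  have hpM : p ∣ Nat.card M := by
    by_contra hpM
    haveI := Fact.mk hp
    obtain ⟨P⟩ : Nonempty (Sylow p G) := inferInstance
    have hpG : p ∣ Nat.card G := hn ▸ dvd_mul_of_dvd_right hpn _
    -- every element centralises a conjugate of `P`
    have hall : ∀ x : G, ∃ g : G, g * x * g⁻¹ ∈ Subgroup.centralizer ((P : Subgroup G) : Set G) := by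
      intro x
      obtain ⟨x', hx'⟩ : (Subgroup.centralizer ({x} : Set G)).index ∈
          Set.range (fun g : M => (Subgroup.centralizer ({g} : Set M)).index) := h ▸ ⟨x, rfl⟩
      simp only at hx'
      have hpi : ¬ p ∣ (Subgroup.centralizer ({x} : Set G)).index := fun hd =>
        hpM ((hx' ▸ hd).trans (Subgroup.index_dvd_card _))
      obtain ⟨T⟩ : Nonempty (Sylow p (Subgroup.centralizer ({x} : Set G))) := inferInstance
      obtain ⟨P', hP'⟩ := T.exists_comap_subtype_eq
      have hTP : ((T : Subgroup (Subgroup.centralizer ({x} : Set G))).map (Subgroup.subtype _)) = (P' : Subgroup G) := by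
        refine Subgroup.eq_of_le_of_card_ge (by rw [← hP']; exact Subgroup.map_comap_le _ _) (le_of_eq ?_)
        rw [Subgroup.card_map_of_injective (Subgroup.subtype_injective _), T.card_eq_multiplicity, P'.card_eq_multiplicity]
        congr 1
        rw [← (Subgroup.centralizer ({x} : Set G)).card_mul_index, Nat.factorization_mul Nat.card_pos.ne' Subgroup.index_ne_zero_of_finite,
          Finsupp.add_apply, Nat.factorization_eq_zero_of_not_dvd hpi, add_zero]
      obtain ⟨g, hg⟩ := MulAction.exists_smul_eq G P' P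
      refine ⟨g, Subgroup.mem_centralizer_iff.mpr fun y hy => ?_⟩
      rw [← hg] at hy
      obtain ⟨z, hz, rfl⟩ := hy
      have hz' : z ∈ Subgroup.centralizer ({x} : Set G) := by
        have : z ∈ (P' : Subgroup G) := hz
        rw [← hTP] at this
        exact Subgroup.map_subtype_le _ this
      show g * z * g⁻¹ * (g * x * g⁻¹) = g * x * g⁻¹ * (g * z * g⁻¹)
      calc g * z * g⁻¹ * (g * x * g⁻¹) = g * (z * x) * g⁻¹ := by group
        _ = g * (x * z) * g⁻¹ := by rw [Subgroup.mem_centralizer_iff.mp hz' x rfl]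
        _ = _ := by group
    obtain ⟨z, hz⟩ := exists_prime_orderOf_dvd_card' p (show p ∣ Nat.card (P : Subgroup G) from P.dvd_card_of_dvd_card hpG)
    haveI : Nontrivial (P : Subgroup G) := ⟨⟨z, 1, fun he => hp.ne_one (by rw [← hz, he, orderOf_one])⟩⟩
    haveI := P.isPGroup'.center_nontrivial
    obtain ⟨w, hw⟩ := exists_ne (1 : Subgroup.center (P : Subgroup G))
    set y : G := ((w : (P : Subgroup G)) : G) with hy
    have hy1 : y ≠ 1 := fun he => hw (Subtype.ext (Subtype.ext he))
    -- the class of `y` covers everything: the union of conjugates of a proper subgroup is proper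
    have hcov : Subgroup.centralizer ((P : Subgroup G) : Set G) = ⊤ := by
      by_contra hne'
      set H := Subgroup.centralizer ((P : Subgroup G) : Set G)
      letI := MulAction.quotient G H
      haveI := Fintype.ofFinite (G ⧸ H)
      haveI := Fintype.ofFinite G
      have hnt : Nontrivial (G ⧸ H) := by
        rw [← Finite.one_lt_card_iff_nontrivial]
        have h1 : H.index ≠ 1 := fun h => hne' (Subgroup.index_eq_one.mp h)
        have h2 := Subgroup.index_ne_zero_of_finite (H := H)
        show 1 < H.index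
        omega
      obtain ⟨g, hg⟩ : ∃ g : G, ∀ q : G ⧸ H, g • q ≠ q := by
        by_contra hcon
        push Not at hcon
        have hburn := MulAction.sum_card_fixedBy_eq_card_orbits_mul_card_group G (G ⧸ H)
        have hone : Fintype.card (Quotient (MulAction.orbitRel G (G ⧸ H))) = 1 := by
          rw [Fintype.card_eq_one_iff]
          refine ⟨Quotient.mk _ (QuotientGroup.mk 1), fun q => Quotient.inductionOn q fun a => Quotient.sound ?_⟩
          exact MulAction.mem_orbit_iff.mpr (MulAction.exists_smul_eq G _ a)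
        rw [hone, one_mul, ← Finset.sum_erase_add _ _ (Finset.mem_univ (1 : G))] at hburn
        have h1 : Fintype.card (MulAction.fixedBy (G ⧸ H) (1 : G)) = Fintype.card (G ⧸ H) := by
          refine Fintype.card_congr (Equiv.subtypeUnivEquiv fun q => ?_)
          exact one_smul G q
        have h2 : (Finset.univ.erase (1 : G)).card ≤ ∑ g ∈ Finset.univ.erase (1 : G), Fintype.card (MulAction.fixedBy (G ⧸ H) g) := by
          rw [Finset.card_eq_sum_ones]
          refine Finset.sum_le_sum fun g _ => Fintype.card_pos_iff.mpr ?_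
          obtain ⟨q, hq⟩ := hcon g
          exact ⟨⟨q, hq⟩⟩
        rw [Finset.card_erase_of_mem (Finset.mem_univ _), Finset.card_univ] at h2
        have h3 : 1 < Fintype.card (G ⧸ H) := Fintype.one_lt_card
        have h4 := Fintype.card_pos (α := G)
        omega
      obtain ⟨k, hk⟩ := hall g
      refine hg (QuotientGroup.mk k⁻¹) ?_
      show ((g * k⁻¹ : G) : G ⧸ H) = (k⁻¹ : G)
      rw [QuotientGroup.eq]
      simpa [mul_assoc] using H.inv_mem hk
    refine hy1 (Subgroup.mem_bot.mp (hZG ▸ Subgroup.mem_center_iff.mpr fun x => ?_))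
    exact (Subgroup.mem_centralizer_iff.mp (hcov ▸ Subgroup.mem_top x : x ∈ Subgroup.centralizer ((P : Subgroup G) : Set G)) y
      (w : (P : Subgroup G)).2).symm
  obtain ⟨r, hr, hrM, hne'⟩ : ∃ r : ℕ, r.Prime ∧ r ∣ Nat.card M ∧ ¬ (p ∈ A ↔ r ∈ A) := by
    by_cases hpA : p ∈ A
    · exact ⟨b0, hb0, hb0M, fun h => hb0A (h.mp hpA)⟩
    · exact ⟨a0, ha0, ha0M, fun h => hpA (h.mpr ha0A)⟩
  -- primes on different sides are never both in one type
  have hsep : ∀ g : G, g ≠ 1 → ∀ c, Nat.card (Subgroup.centralizer ({g} : Set G)) = n * c → ∀ a b : ℕ, a.Prime → b.Prime →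
      ¬ (a ∈ A ↔ b ∈ A) → a ∣ c → b ∣ c → False := by
    intro g hg c hgc a b ha hb hab hac hbc
    obtain ⟨c', -, hgc', hs⟩ := hc g hg
    have hn0 : 0 < n := Nat.pos_of_ne_zero fun h0 => by rw [h0, mul_zero] at hn; exact Nat.card_pos.ne' hn
    obtain rfl : c = c' := Nat.eq_of_mul_eq_mul_left hn0 (hgc.symm.trans hgc')
    by_cases haA : a ∈ A
    · exact hs a b haA (fun hbA => hab ⟨fun _ => hbA, fun _ => haA⟩) ha hb hac hbc
    · exact hs b a (by_contra fun hbA => hab ⟨fun h => absurd h haA, fun h => absurd h hbA⟩) haA hb ha hbc hac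
  -- central elements of Sylow subgroups
  have hcen : ∀ (s : ℕ) [Fact s.Prime], s ∣ Nat.card M → ∀ S : Sylow s G, ∃ y : G, y ∈ (S : Subgroup G) ∧ y ≠ 1 ∧
      (∀ x ∈ (S : Subgroup G), x * y = y * x) ∧ ∀ c, Nat.card (Subgroup.centralizer ({y} : Set G)) = n * c → s ∣ c := by
    intro s _ hsM S
    have hs : s.Prime := Fact.out
    have hsG : s ∣ Nat.card G := hn ▸ dvd_mul_of_dvd_left hsM _
    obtain ⟨z, hz⟩ := exists_prime_orderOf_dvd_card' s (show s ∣ Nat.card (S : Subgroup G) from S.dvd_card_of_dvd_card hsG)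
    haveI : Nontrivial (S : Subgroup G) := ⟨⟨z, 1, fun he => hs.ne_one (by rw [← hz, he, orderOf_one])⟩⟩
    haveI := S.isPGroup'.center_nontrivial
    obtain ⟨w, hw⟩ := exists_ne (1 : Subgroup.center (S : Subgroup G))
    have hwc : ∀ x ∈ (S : Subgroup G), x * ((w : (S : Subgroup G)) : G) = ((w : (S : Subgroup G)) : G) * x := fun x hx =>
      congrArg Subtype.val (Subgroup.mem_center_iff.mp w.2 ⟨x, hx⟩)
    refine ⟨_, (w : (S : Subgroup G)).2, fun he => hw (Subtype.ext (Subtype.ext he)), hwc, fun c hcard => ?_⟩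
    have hle : (S : Subgroup G) ≤ Subgroup.centralizer ({((w : (S : Subgroup G)) : G)} : Set G) := fun x hx =>
      Subgroup.mem_centralizer_iff.mpr fun y hy => by rw [Set.mem_singleton_iff.mp hy]; exact (hwc x hx).symm
    have hd := Subgroup.card_dvd_of_le hle
    rw [S.card_eq_multiplicity, hcard, hn] at hd
    by_contra hsc
    have hn0 : n ≠ 0 := fun h0 => by rw [h0, mul_zero] at hn; exact Nat.card_pos.ne' hn
    have hd' := (((hs.coprime_iff_not_dvd).mpr hsc).pow_left _).dvd_of_dvd_mul_right hd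
    have := (hs.pow_dvd_iff_le_factorization hn0).mp hd'
    rw [Nat.factorization_mul Nat.card_pos.ne' hn0, Finsupp.add_apply] at this
    have h1 := hs.factorization_pos_of_dvd Nat.card_pos.ne' hsM
    omega
  haveI := Fact.mk hp
  haveI := Fact.mk hr
  obtain ⟨R⟩ : Nonempty (Sylow r G) := inferInstance
  obtain ⟨u, huR, hu1, -, huc⟩ := hcen r hrM R
  obtain ⟨cu, hcu1, hcu, -⟩ := hc u hu1
  have hrcu : r ∣ cu := huc cu hcu
  have hpcu : ¬ p ∣ cu := fun hd => hsep u hu1 cu hcu p r hp hr hne' hd hrcu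
  have hrp : r ≠ p := fun he => hne' (he ▸ Iff.rfl)
  obtain ⟨D⟩ : Nonempty (Sylow p (Subgroup.centralizer ({u} : Set G))) := inferInstance
  set D' := (D : Subgroup (Subgroup.centralizer ({u} : Set G))).map (Subgroup.subtype _) with hD'
  have hD'p : IsPGroup p D' := D.isPGroup'.map _
  have hn0 : n ≠ 0 := fun h0 => by rw [h0, mul_zero] at hn; exact Nat.card_pos.ne' hn
  have hD'card : Nat.card D' = p ^ n.factorization p := by
    rw [hD', Subgroup.card_map_of_injective (Subgroup.subtype_injective _), D.card_eq_multiplicity, hcu,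
      Nat.factorization_mul hn0 (by omega), Finsupp.add_apply, Nat.factorization_eq_zero_of_not_dvd hpcu, add_zero]
  obtain ⟨P, hP⟩ := hD'p.exists_le_sylow
  obtain ⟨y, hyP, hy1, hyc, hypc⟩ := hcen p hpM P
  haveI : Nontrivial D' := by
    rw [← Finite.one_lt_card_iff_nontrivial, hD'card]
    exact Nat.one_lt_pow (hp.factorization_pos_of_dvd hn0 hpn).ne' hp.one_lt
  haveI := hD'p.center_nontrivial
  obtain ⟨w', hw'⟩ := exists_ne (1 : Subgroup.center D')
  set w : G := ((w' : D') : G) with hwdef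
  have hwD : w ∈ D' := (w' : D').2
  have hw1 : w ≠ 1 := fun he => hw' (Subtype.ext (Subtype.ext he))
  have hDu : ∀ x ∈ D', u * x = x * u := fun x hx =>
    Subgroup.mem_centralizer_iff.mp (Subgroup.map_subtype_le _ hx) u rfl
  have hordu : ∀ x ∈ D', (orderOf u).Coprime (orderOf x) := by
    intro x hx
    obtain ⟨i, hi⟩ := IsPGroup.iff_orderOf.mp R.isPGroup' ⟨u, huR⟩
    obtain ⟨j, hj⟩ := IsPGroup.iff_orderOf.mp hD'p ⟨x, hx⟩
    rw [Subgroup.orderOf_mk] at hi hj
    rw [hi, hj]
    exact Nat.Coprime.pow _ _ ((Nat.coprime_primes hr hp).mpr hrp)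
  -- an element commuting with `u` is not of the other type
  have hsame : ∀ x ∈ D', x ≠ 1 → ∀ c, Nat.card (Subgroup.centralizer ({x} : Set G)) = n * c → ¬ p ∣ c := by
    intro x hx hx1 c hxc hpc
    refine hcomm u x cu c (hDu x hx) (hordu x hx) hu1 hcu hxc (Nat.coprime_of_dvd fun q hq hqu hqc => ?_)
    by_cases hq' : q ∈ A ↔ p ∈ A
    · exact hsep u hu1 cu hcu q r hq hr (fun h' => hne' (hq'.symm.trans h')) hqu hrcu
    · exact hsep x hx1 c hxc q p hq hp hq' hqc hpc
  obtain ⟨cw, hcw1, hcw, -⟩ := hc w hw1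
  have hpcw := hsame w hwD hw1 cw hcw
  -- hence `y` commutes with `u`
  have hyD : y ∈ D' := by
    let T := D' ⊔ Subgroup.zpowers y
    have hTP : T ≤ (P : Subgroup G) := sup_le hP (Subgroup.zpowers_le.mpr hyP)
    have hTC : T ≤ Subgroup.centralizer ({w} : Set G) := by
      refine sup_le (fun x hx => ?_) (Subgroup.zpowers_le.mpr ?_)
      · exact Subgroup.mem_centralizer_iff.mpr fun g hg => by
          rw [Set.mem_singleton_iff.mp hg]
          exact (congrArg Subtype.val (Subgroup.mem_center_iff.mp w'.2 ⟨x, hx⟩)).symm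
      · exact Subgroup.mem_centralizer_iff.mpr fun g hg => by rw [Set.mem_singleton_iff.mp hg]; exact hyc w (hP hwD)
    obtain ⟨i, hi⟩ := IsPGroup.iff_card.mp (P.isPGroup'.to_le hTP)
    have hd := Subgroup.card_dvd_of_le hTC
    rw [hi, hcw] at hd
    have hi' := (hp.pow_dvd_iff_le_factorization (mul_ne_zero hn0 (by omega))).mp hd
    rw [Nat.factorization_mul hn0 (by omega), Finsupp.add_apply, Nat.factorization_eq_zero_of_not_dvd hpcw, add_zero] at hi'
    have : D' = T := Subgroup.eq_of_le_of_card_ge le_sup_left (by rw [hi, hD'card]; exact Nat.pow_le_pow_right hp.pos hi')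
    rw [this]
    exact Subgroup.mem_sup_right (Subgroup.mem_zpowers y)
  obtain ⟨cy, -, hcy, -⟩ := hc y hy1
  exact hsame y hyD hy1 cy hcy (hypc cy hcy)

end Cfsg.Agent.S4184
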