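import Cfsg.Statements.S4186

set_option autoImplicit false
open Cfsg

namespace Cfsg.Agent.S4186

/-- Let T and X be subgroups of a group with T a finite 2-group normalizing X but not centralizing it. Then some element of T inverts some non-identity element of X under conjugation. -/
theorem result {G : Type*} [Group G] (T X : Subgroup G) [Finite ↥T] (hT : IsPGroup 2 ↥T) (hTN : T ≤ Subgroup.normalizer (X : Set G)) (hTC : ¬ T ≤ Subgroup.centralizer (X : Set G)) : ∃ t ∈ T, ∃ x ∈ X, x ≠ 1 ∧ t * x * t⁻¹ = x⁻¹ := by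
  classical
  obtain ⟨t₀, ht₀, hn₀⟩ := SetLike.not_le_iff_exists.mp hTC
  obtain ⟨k, hk⟩ := hT ⟨t₀, ht₀⟩
  have hk' : t₀ ^ 2 ^ k = 1 := by simpa using congrArg Subtype.val hk
  have hex : ∃ i, t₀ ^ 2 ^ i ∈ Subgroup.centralizer (X : Set G) := ⟨k, hk' ▸ one_mem _⟩
  obtain ⟨i, hi⟩ : ∃ i, Nat.find hex = i + 1 := ⟨Nat.find hex - 1, (Nat.succ_pred_eq_of_ne_zero fun h0 => hn₀ (by
    have := Nat.find_spec hex; rwa [h0, pow_zero, pow_one] at this)).symm⟩
  set t := t₀ ^ 2 ^ i with ht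
  have htn : t ∉ Subgroup.centralizer (X : Set G) := Nat.find_min hex (by omega)
  have htt : t * t ∈ Subgroup.centralizer (X : Set G) := by
    have := Nat.find_spec hex
    rw [hi, pow_succ, pow_mul, pow_two] at this
    exact this
  rw [Subgroup.mem_centralizer_iff] at htn
  push Not at htn
  obtain ⟨x, hx, hne⟩ := htn
  have htT : t ∈ T := pow_mem ht₀ _
  have hy : t * x * t⁻¹ ∈ X := (Subgroup.mem_normalizer_iff.mp (hTN htT) x).mp hx
  refine ⟨t, htT, x⁻¹ * (t * x * t⁻¹), X.mul_mem (X.inv_mem hx) hy, fun h1 => hne ?_, ?_⟩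
  · rw [inv_mul_eq_one, eq_mul_inv_iff_mul_eq] at h1; exact h1
  · have h2 : x * (t * t) = t * t * x := Subgroup.mem_centralizer_iff.mp htt x hx
    calc t * (x⁻¹ * (t * x * t⁻¹)) * t⁻¹ = t * x⁻¹ * t⁻¹ * (t * t * x) * (t * t)⁻¹ := by group
      _ = t * x⁻¹ * t⁻¹ * (x * (t * t)) * (t * t)⁻¹ := by rw [h2]
      _ = (x⁻¹ * (t * x * t⁻¹))⁻¹ := by group

end Cfsg.Agent.S4186
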