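import Cfsg.Statements.S4189
import Cfsg.Agent.Lib.GroupB.Coprime
import Cfsg.Agent.Lib.UniqueOrderP
import Cfsg.Agent.Lib.Solvable.Frattini

set_option autoImplicit false
open Cfsg

namespace Cfsg.Agent.S4189
open CfsgLib.GroupB CfsgLib.UniqueOrderP
open scoped commutatorElement



variable {P : Type*} [Group P]

/-- if `c` commutes with both generators it is central -/
theorem central_of_gen {a b c : P} (hgen : Subgroup.closure ({a, b} : Set P) = ⊤)
    (ha : Commute a c) (hb : Commute b c) : c ∈ Subgroup.center P := by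
  rw [Subgroup.mem_center_iff]
  intro g
  have : g ∈ Subgroup.centralizer ({c} : Set P) := by
    have h : Subgroup.closure ({a, b} : Set P) ≤ Subgroup.centralizer ({c} : Set P) := by
      rw [Subgroup.closure_le]
      rintro x (rfl | rfl) <;> simp only [SetLike.mem_coe, Subgroup.mem_centralizer_singleton_iff]
      · exact ha.eq
      · exact hb.eq
    exact h (hgen ▸ Subgroup.mem_top g)
  exact (Subgroup.mem_centralizer_singleton_iff.mp this)

/-- The derived subgroup of a finite nilpotent group is omissible. -/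
theorem top_of_sup_commutator [Finite P] (hP : IsPGroup 2 P) (S : Subgroup P) (h : S ⊔ commutator P = ⊤) : S = ⊤ := by
  haveI := hP.isNilpotent
  have h1 := CfsgLib.Solvable.commutator_le_frattini (F := (⊤ : Subgroup P)) (hP.to_subgroup ⊤).isNilpotent
  rw [← commutator_def] at h1
  exact frattini_nongenerating (eq_top_iff.mpr (h ▸ sup_le_sup_left h1 S))

/-- An automorphism of odd order of a `2`-group moving some coset of `P'`. -/
theorem exists_aut [Finite P] (hP : IsPGroup 2 P) (haut : ¬ IsPGroup 2 (MulAut P)) :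
    ∃ α : MulAut P, ∃ x : P, α x * x⁻¹ ∉ commutator P ∧ Odd (orderOf α) := by
  classical
  rw [IsPGroup.iff_orderOf] at haut
  push Not at haut
  obtain ⟨α₀, h0⟩ := haut
  obtain ⟨r, hr, hr2, hrd⟩ : ∃ r, r.Prime ∧ r ≠ 2 ∧ r ∣ orderOf α₀ := by
    by_contra hc
    push Not at hc
    exact h0 _ (Nat.eq_prime_pow_of_unique_prime_dvd (orderOf_pos α₀).ne' fun {d} hd hdd => not_not.mp fun hne => hc d hd hne hdd)
  set α := α₀ ^ (orderOf α₀ / r) with hα
  have ho : orderOf α = r := orderOf_pow_orderOf_div (orderOf_pos α₀).ne' hrd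
  by_contra hc
  push Not at hc
  have hfix : ∀ x, α x * x⁻¹ ∈ commutator P := fun x => by
    by_contra h
    exact hc α x h (ho ▸ hr.odd_of_ne_two hr2)
  haveI : Fact r.Prime := ⟨hr⟩
  let C : Subgroup P := α.toMonoidHom.eqLocus (MonoidHom.id P)
  have hC : C ⊔ commutator P = ⊤ := by
    rw [eq_top_iff]
    intro x _
    let Ω := {y : P // x⁻¹ * y ∈ commutator P}
    have hpres : ∀ g : Subgroup.zpowers α, ∀ y : Ω, x⁻¹ * (g.1 : MulAut P) y.1 ∈ commutator P := by
      rintro ⟨g, hg⟩ ⟨y, hy⟩
      let S : Subgroup (MulAut P) :=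
        { carrier := {g | ∀ z : P, z⁻¹ * g z ∈ commutator P}
          one_mem' := fun z => by simp
          mul_mem' := fun {g h} hg hh z => by
            rw [MulAut.mul_apply, show z⁻¹ * g (h z) = (z⁻¹ * h z) * ((h z)⁻¹ * g (h z)) by group]
            exact Subgroup.mul_mem _ (hh z) (hg _)
          inv_mem' := fun {g} hg z => by
            have := Subgroup.inv_mem _ (hg (g⁻¹ z))
            rwa [MulAut.apply_inv_self, mul_inv_rev, inv_inv] at this }
      have hS : α ∈ S := fun z => by
        have := (commutator P).inv_mem (hfix z)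
        have := Subgroup.Normal.conj_mem (inferInstance : (commutator P).Normal) _ (Subgroup.inv_mem _ this) z⁻¹
        convert this using 1; group
      have := (Subgroup.zpowers_le.mpr hS) hg y
      rw [show x⁻¹ * g y = (x⁻¹ * y) * (y⁻¹ * g y) by group]
      exact Subgroup.mul_mem _ hy this
    letI : MulAction (Subgroup.zpowers α) Ω :=
      { smul := fun g y => ⟨(g.1 : MulAut P) y.1, hpres g y⟩
        one_smul := fun y => Subtype.ext rfl
        mul_smul := fun g h y => Subtype.ext rfl }
    have hg : IsPGroup r (Subgroup.zpowers α) := IsPGroup.of_card (n := 1) (by rw [Nat.card_zpowers, ho, pow_one])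
    have hΩ : ¬ r ∣ Nat.card Ω := by
      rw [Nat.card_congr ((Equiv.mulLeft x⁻¹).subtypeEquiv (fun y => Iff.rfl) : Ω ≃ commutator P)]
      obtain ⟨k, hk⟩ := (hP.to_subgroup (commutator P)).exists_card_eq
      rw [hk]
      exact fun h => hr2 ((Nat.prime_dvd_prime_iff_eq hr Nat.prime_two).mp (hr.dvd_of_dvd_pow h))
    obtain ⟨⟨y, hy⟩, hfy⟩ := hg.nonempty_fixed_point_of_prime_not_dvd_card Ω hΩ
    have hyC : y ∈ C := congrArg Subtype.val (hfy ⟨α, Subgroup.mem_zpowers α⟩)
    rw [show x = y * (x⁻¹ * y)⁻¹ by group]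
    exact Subgroup.mul_mem_sup hyC (Subgroup.inv_mem _ hy)
  have h1 : α = 1 := MulEquiv.ext fun z => (top_of_sup_commutator hP C hC ▸ Subgroup.mem_top z : z ∈ C)
  rw [h1, orderOf_one] at ho
  exact hr.ne_one ho.symm

/-- Let P be a finite non-abelian 2-group whose commutator subgroup has index 4 and whose automorphism group is not a 2-group (some automorphism has order that is not a power of 2). Then P is isomorphic to the quaternion group of order 8. -/
theorem result {P : Type*} [Group P] [Finite P] (hP : IsPGroup 2 P) (hna : ¬ IsMulCommutative P) (h4 : (commutator P).index = 4) (haut : ¬ IsPGroup 2 (MulAut P)) : Nonempty (P ≃* QuaternionGroup 2) := by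
  obtain ⟨α, a, hα, hodd⟩ := exists_aut hP haut
  set D := commutator P with hD
  haveI : D.Normal := inferInstance
  have hcardQ : Nat.card (P ⧸ D) = 4 := h4
  have hDc : D.map α.toMonoidHom = D := by
    have := (inferInstance : (commutator P).Characteristic)
    exact Subgroup.characteristic_iff_map_eq.mp this α
  have hαD : ∀ z, z ∈ D → α z ∈ D := fun z hz => hDc ▸ ⟨z, hz, rfl⟩
  set b := α a with hb
  set β : P ⧸ D →* P ⧸ D := QuotientGroup.map D D α.toMonoidHom (fun z hz => hαD z hz) with hβ
  have hβk : ∀ (k : ℕ) (x : P), ((α ^ k) x : P ⧸ D) = β^[k] (x : P ⧸ D) := by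
    intro k
    induction k with
    | zero => intro x; rfl
    | succ k ih =>
      intro x
      rw [pow_succ', MulAut.mul_apply, Function.iterate_succ_apply', ← ih]
      rfl
  have hββ : ∀ x : P, β (x : P ⧸ D) = (α x : P ⧸ D) := fun x => rfl
  have habne : (b : P ⧸ D) ≠ (a : P ⧸ D) := by
    intro h
    apply hα
    rw [← QuotientGroup.eq_one_iff, QuotientGroup.mk_mul, QuotientGroup.mk_inv, h, mul_inv_cancel]
  have ha1 : (a : P ⧸ D) ≠ 1 := by
    intro h
    apply habne
    rw [hb, ← hββ, h, map_one]
  have hb1 : (b : P ⧸ D) ≠ 1 := by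
    intro h
    apply ha1
    have : ((α ^ orderOf α) a : P ⧸ D) = 1 := by
      rw [hβk]
      obtain ⟨j, hj⟩ := Nat.exists_eq_succ_of_ne_zero (orderOf_pos α).ne'
      rw [hj, Function.iterate_succ_apply, hββ, ← hb, h]
      exact iterate_map_one β j
    rwa [pow_orderOf_eq_one] at this
  -- the image of `b` is neither trivial nor `a`
  have hbb : (α b : P ⧸ D) ≠ (a : P ⧸ D) := by
    intro h
    apply habne
    have h2 : Function.IsPeriodicPt β 2 (a : P ⧸ D) := by
      show β (β (a : P ⧸ D)) = _
      rw [hββ, ← hb, hββ, h]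
    have h3 : Function.IsPeriodicPt β (orderOf α) (a : P ⧸ D) := by
      show β^[orderOf α] _ = _
      rw [← hβk, pow_orderOf_eq_one]; rfl
    have h5 := h2.gcd h3
    rw [show Nat.gcd 2 (orderOf α) = 1 from (Nat.coprime_two_left.mpr hodd)] at h5
    exact h5.eq
  -- exponent two
  have hsq : ∀ x : P, x * x ∈ D := by
    intro x
    have hd : orderOf (x : P ⧸ D) ∣ 4 := hcardQ ▸ orderOf_dvd_natCard _
    rw [← QuotientGroup.eq_one_iff, QuotientGroup.mk_mul]
    by_contra hne
    haveI : IsCyclic (P ⧸ D) := by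
      refine isCyclic_of_orderOf_eq_card (x : P ⧸ D) ?_
      rw [hcardQ]
      have hd' : orderOf (x : P ⧸ D) ∈ Nat.divisors 4 := Nat.mem_divisors.mpr ⟨hd, by norm_num⟩
      rw [show Nat.divisors 4 = {1, 2, 4} by decide] at hd'
      simp only [Finset.mem_insert, Finset.mem_singleton] at hd'
      rcases hd' with h | h | h
      · exact absurd (by rw [orderOf_eq_one_iff.mp h, one_mul]) hne
      · exact absurd (by rw [← pow_two, ← h, pow_orderOf_eq_one]) hne
      · exact h
    -- cyclic abelianisation: the group is cyclic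
    apply hna
    obtain ⟨g, hg⟩ := IsCyclic.exists_generator (α := P ⧸ D)
    obtain ⟨g, rfl⟩ := QuotientGroup.mk_surjective g
    have htop : Subgroup.zpowers g = ⊤ := by
      refine top_of_sup_commutator hP _ (eq_top_iff.mpr fun y _ => ?_)
      obtain ⟨k, hk⟩ := hg (y : P ⧸ D)
      simp only [← QuotientGroup.mk_zpow] at hk
      rw [show y = g ^ k * ((g ^ k)⁻¹ * y) by group]
      exact Subgroup.mul_mem_sup ⟨k, rfl⟩ (QuotientGroup.eq.mp hk)
    haveI : IsCyclic P := ⟨g, fun y => (show y ∈ Subgroup.zpowers g by rw [htop]; exact Subgroup.mem_top y)⟩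
    exact IsCyclic.isMulCommutative
  have hcl : ∀ x : P ⧸ D, x = 1 ∨ x = (a : P ⧸ D) ∨ x = (b : P ⧸ D) ∨ x = (a * b : P) := by
    intro x
    classical
    haveI := Fintype.ofFinite (P ⧸ D)
    have h22 : (a : P ⧸ D) * (b : P ⧸ D) ≠ 1 := fun h => habne (by
      have := (QuotientGroup.eq_one_iff _).mpr (hsq a)
      rw [QuotientGroup.mk_mul] at this
      exact mul_left_cancel (h.trans this.symm))
    have hcard : ({1, (a : P ⧸ D), (b : P ⧸ D), ((a * b : P) : P ⧸ D)} : Finset _).card = 4 := by
      rw [QuotientGroup.mk_mul]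
      rw [Finset.card_insert_of_notMem, Finset.card_insert_of_notMem, Finset.card_insert_of_notMem, Finset.card_singleton]
      · simp only [Finset.mem_singleton]; intro h; exact ha1 (mul_eq_right.mp h.symm)
      · simp only [Finset.mem_insert, Finset.mem_singleton, not_or]
        exact ⟨habne.symm, fun h => hb1 (mul_eq_left.mp h.symm)⟩
      · simp only [Finset.mem_insert, Finset.mem_singleton, not_or]
        exact ⟨ha1.symm, hb1.symm, h22.symm⟩
    have := Finset.eq_univ_of_card _ (hcard.trans (by rw [← Nat.card_eq_fintype_card, hcardQ]))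
    have hx := Finset.mem_univ x
    rw [← this] at hx
    simpa using hx
  have habD : (α b : P ⧸ D) = ((a * b : P) : P ⧸ D) := by
    obtain ⟨j, hj⟩ := Nat.exists_eq_succ_of_ne_zero (orderOf_pos α).ne'
    have hback : β^[j] (b : P ⧸ D) = (a : P ⧸ D) := by
      rw [hb, ← hββ, ← Function.iterate_succ_apply, ← hj, ← hβk, pow_orderOf_eq_one]; rfl
    rcases hcl (α b) with h | h | h | h
    · exfalso
      rcases Nat.eq_zero_or_pos j with rfl | hj0
      · exact habne hback
      · obtain ⟨i, rfl⟩ := Nat.exists_eq_succ_of_ne_zero hj0.ne'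
        rw [Function.iterate_succ_apply, hββ, h, iterate_map_one] at hback
        exact ha1 hback.symm
    · exact absurd h hbb
    · exfalso
      rw [Function.iterate_fixed (show β (b : P ⧸ D) = b from h)] at hback
      exact habne hback
    · exact h
  have hgen : Subgroup.closure ({a, b} : Set P) = ⊤ := by
    refine top_of_sup_commutator hP _ (eq_top_iff.mpr fun x _ => ?_)
    set S := Subgroup.closure ({a, b} : Set P) with hS
    have hm : ∀ y : P, (x : P ⧸ D) = (y : P ⧸ D) → y ∈ S → x ∈ S ⊔ D := fun y hy hyS => by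
      rw [show x = y * (y⁻¹ * x) by group]
      exact Subgroup.mul_mem_sup hyS (QuotientGroup.eq.mp hy.symm)
    have hamem : a ∈ S := Subgroup.subset_closure (by simp)
    have hbmem : b ∈ S := Subgroup.subset_closure (by simp)
    rcases hcl x with h | h | h | h
    · exact hm 1 h S.one_mem
    · exact hm a h hamem
    · exact hm b h hbmem
    · exact hm (a * b) h (S.mul_mem hamem hbmem)
  -- central series
  set N := (⁅D, ⊤⁆ : Subgroup P) with hN
  set M := (⁅N, ⊤⁆ : Subgroup P) with hM
  haveI : N.Normal := Subgroup.commutator_normal _ _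
  haveI : M.Normal := Subgroup.commutator_normal _ _
  have hND : N ≤ D := Subgroup.commutator_le_left _ _
  have hMN : M ≤ N := Subgroup.commutator_le_left _ _
  have hzN : ∀ z ∈ D, ∀ x : P, Commute (x : P ⧸ N) (z : P ⧸ N) := by
    intro z hz x
    refine ((commutatorElement_eq_one_iff_commute).mp ?_).symm
    rw [← QuotientGroup.mk'_apply, ← QuotientGroup.mk'_apply, ← map_commutatorElement, QuotientGroup.mk'_apply, QuotientGroup.eq_one_iff]
    exact Subgroup.commutator_mem_commutator hz (Subgroup.mem_top x)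
  set A : P ⧸ N := (a : P ⧸ N) with hA
  set B : P ⧸ N := (b : P ⧸ N) with hB
  have hAB : Subgroup.closure ({A, B} : Set (P ⧸ N)) = ⊤ := by
    have := congrArg (Subgroup.map (QuotientGroup.mk' N)) hgen
    rw [MonoidHom.map_closure, Subgroup.map_top_of_surjective _ (QuotientGroup.mk'_surjective N)] at this
    rw [← this]
    congr 1
    simp [Set.image_insert_eq, hA, hB]
  set c := ⁅a, b⁆ with hc
  have hcD : c ∈ D := by rw [hD, commutator_def]; exact Subgroup.commutator_mem_commutator (Subgroup.mem_top a) (Subgroup.mem_top b)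
  set C : P ⧸ N := (c : P ⧸ N) with hC
  have hCA : C = A * B * A⁻¹ * B⁻¹ := by
    rw [hC, hc, commutatorElement_def]; simp [hA, hB]
  have hAC : A * C = C * A := (hzN c hcD a).eq
  have hBC : B * C = C * B := (hzN c hcD b).eq
  have hA2B : Commute B (A * A) := by have := hzN _ (hsq a) b; rwa [QuotientGroup.mk_mul] at this
  have hC2 : C * C = 1 := by
    have h1 : A * B = C * (B * A) := by rw [hCA]; group
    have h2 : A * A * B = C * C * (B * (A * A)) := by
      calc A * A * B = A * (C * (B * A)) := by rw [mul_assoc, h1]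
        _ = C * (A * B) * A := by rw [← mul_assoc, hAC, ← mul_assoc, mul_assoc C A B]
        _ = C * C * (B * (A * A)) := by rw [h1]; simp only [mul_assoc]
    exact mul_eq_right.mp (h2.symm.trans hA2B.eq.symm)
  have hDC : ∀ z ∈ D, (z : P ⧸ N) = 1 ∨ (z : P ⧸ N) = C := by
    have hCc : C ∈ Subgroup.center (P ⧸ N) := central_of_gen hAB hAC hBC
    haveI : (Subgroup.zpowers C).Normal := ⟨fun x hx g => by
      obtain ⟨k, rfl⟩ := hx
      exact ⟨k, by simp only; rw [show g * C ^ k * g⁻¹ = C ^ k from by
        rw [Subgroup.mem_center_iff.mp (zpow_mem hCc k) g, mul_inv_cancel_right]]⟩⟩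
    have hab : ∀ u v : (P ⧸ N) ⧸ Subgroup.zpowers C, Commute u v := by
      set π := QuotientGroup.mk' (Subgroup.zpowers C) with hπ
      have hg' : Subgroup.closure ({π A, π B} : Set ((P ⧸ N) ⧸ Subgroup.zpowers C)) = ⊤ := by
        have := congrArg (Subgroup.map π) hAB
        rwa [MonoidHom.map_closure, Subgroup.map_top_of_surjective _ (QuotientGroup.mk'_surjective _), Set.image_insert_eq, Set.image_singleton] at this
      have hcm : Commute (π A) (π B) := by
        refine commutatorElement_eq_one_iff_commute.mp ?_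
        rw [← map_commutatorElement, hπ, QuotientGroup.mk'_apply, QuotientGroup.eq_one_iff, commutatorElement_def, ← hCA]
        exact Subgroup.mem_zpowers C
      have h1 : π A ∈ Subgroup.center _ := central_of_gen hg' (Commute.refl _) hcm.symm
      have h2 : π B ∈ Subgroup.center _ := central_of_gen hg' hcm (Commute.refl _)
      have htop : Subgroup.center ((P ⧸ N) ⧸ Subgroup.zpowers C) = ⊤ := by
        rw [eq_top_iff, ← hg', Subgroup.closure_le]
        rintro x (rfl | rfl) <;> assumption
      intro u v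
      exact Subgroup.mem_center_iff.mp (htop ▸ Subgroup.mem_top v) u
    intro z hz
    have hk : D ≤ ((QuotientGroup.mk' (Subgroup.zpowers C)).comp (QuotientGroup.mk' N)).ker := by
      rw [hD, commutator_def, Subgroup.commutator_le]
      intro x _ y _
      rw [MonoidHom.mem_ker, map_commutatorElement]
      exact commutatorElement_eq_one_iff_commute.mpr (hab _ _)
    have h := hk hz
    rw [MonoidHom.mem_ker, MonoidHom.comp_apply, QuotientGroup.mk'_apply, QuotientGroup.mk'_apply, QuotientGroup.eq_one_iff] at h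
    obtain ⟨k, hk2⟩ := h
    rw [← hk2]
    rcases Int.even_or_odd k with ⟨j, rfl⟩ | ⟨j, rfl⟩
    · left; simp only; rw [← two_mul, zpow_mul, zpow_two, hC2, one_zpow]
    · right; simp only; rw [zpow_add, zpow_mul, zpow_two, hC2, one_zpow, one_mul, zpow_one]
  -- the automorphism preserves `N`
  haveI hDch : D.Characteristic := by rw [hD]; infer_instance
  have hNch : N.Characteristic := inferInstance
  have hαN : ∀ z : P, z ∈ N ↔ α z ∈ N := fun z => by
    conv_lhs => rw [← Subgroup.characteristic_iff_comap_eq.mp hNch α]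
    rfl
  have hNlt : C ≠ 1 := by
    intro h
    apply hna
    have hle : D ≤ N := fun z hz => (QuotientGroup.eq_one_iff z).mp ((hDC z hz).elim id (fun e => e.trans h))
    have hDbot : D = ⊥ := by
      haveI := hP.isNilpotent
      obtain ⟨n, hn⟩ := (Subgroup.isNilpotent_iff_lowerCentralSeries (S := (⊤ : Subgroup P))).mp (hP.to_subgroup ⊤).isNilpotent
      have : ∀ k, D ≤ Subgroup.lowerCentralSeries (⊤ : Subgroup P) k := by
        intro k
        induction k with
        | zero => simp
        | succ k ih => exact hle.trans (Subgroup.commutator_mono ih le_rfl)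
      exact le_bot_iff.mp (hn ▸ this n)
    constructor; constructor
    intro x y
    exact commutatorElement_eq_one_iff_commute.mp (Subgroup.mem_bot.mp
      (hDbot ▸ (by rw [hD, commutator_def]; exact Subgroup.commutator_mem_commutator (Subgroup.mem_top x) (Subgroup.mem_top y) : ⁅x, y⁆ ∈ D)))
  have tr : ∀ x : P, (x : P ⧸ N) * (x : P ⧸ N) = 1 ↔ (α x : P ⧸ N) * (α x : P ⧸ N) = 1 := by
    intro x
    rw [← QuotientGroup.mk_mul, ← QuotientGroup.mk_mul, QuotientGroup.eq_one_iff, QuotientGroup.eq_one_iff, ← map_mul]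
    exact hαN _
  have hsame : ∀ x y : P, (x : P ⧸ D) = (y : P ⧸ D) → (x : P ⧸ N) * (x : P ⧸ N) = (y : P ⧸ N) * (y : P ⧸ N) := by
    intro x y hxy
    have hd := QuotientGroup.eq.mp hxy.symm
    set Z : P ⧸ N := ((y⁻¹ * x : P) : P ⧸ N) with hZ
    have hZ2 : Z * Z = 1 := by
      rcases hDC _ hd with e | e
      · rw [hZ, e, one_mul]
      · rw [hZ, e, hC2]
    have e1 : (x : P ⧸ N) = (y : P ⧸ N) * Z := by rw [hZ]; simp
    have hc1 : Commute (y : P ⧸ N) Z := hzN _ hd y
    rw [e1, hc1.symm.mul_mul_mul_comm, hZ2, mul_one]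
  have hA2 : A * A = C := by
    rcases hDC _ (hsq a) with h | h
    · exfalso
      rw [QuotientGroup.mk_mul] at h
      have hB2 : B * B = 1 := (tr a).mp h
      have e3 := (hsame _ _ habD).symm.trans ((tr b).mp hB2)
      rw [QuotientGroup.mk_mul] at e3
      apply hNlt
      rw [hCA, inv_eq_of_mul_eq_one_right h, inv_eq_of_mul_eq_one_right hB2]
      simp only [mul_assoc] at e3 ⊢
      exact e3
    · rw [← h, QuotientGroup.mk_mul]
  have hAB2 : ∀ x : P, x ∉ D → (x : P ⧸ N) * (x : P ⧸ N) = 1 → False := by
    intro x hxD hx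
    have hAA : A * A ≠ 1 := hA2 ▸ hNlt
    rcases hcl x with h | h | h | h
    · exact hxD ((QuotientGroup.eq_one_iff x).mp h)
    · exact hAA ((hsame _ _ h).symm.trans hx)
    · exact hAA ((tr a).mpr ((hsame _ _ h).symm.trans hx))
    · exact hAA ((tr a).mpr ((tr b).mpr ((hsame _ _ (h.trans habD.symm)).symm.trans hx)))
  -- `N` is trivial
  have hNbot : N = ⊥ := by
    have hzM : ∀ z ∈ N, ∀ x : P, Commute (x : P ⧸ M) (z : P ⧸ M) := by
      intro z hz x
      refine ((commutatorElement_eq_one_iff_commute).mp ?_).symm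
      rw [← QuotientGroup.mk'_apply, ← QuotientGroup.mk'_apply, ← map_commutatorElement, QuotientGroup.mk'_apply, QuotientGroup.eq_one_iff]
      exact Subgroup.commutator_mem_commutator hz (Subgroup.mem_top x)
    have hgM : Subgroup.closure ({(a : P ⧸ M), (b : P ⧸ M)} : Set (P ⧸ M)) = ⊤ := by
      have := congrArg (Subgroup.map (QuotientGroup.mk' M)) hgen
      rw [MonoidHom.map_closure, Subgroup.map_top_of_surjective _ (QuotientGroup.mk'_surjective M), Set.image_insert_eq, Set.image_singleton] at this
      exact this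
    have key : ∀ x : P, (x * x : P) ∈ D → ((x : P ⧸ N) * (x : P ⧸ N) = C) → Commute (x : P ⧸ M) (c : P ⧸ M) := by
      intro x _ hx
      rw [hC, ← QuotientGroup.mk_mul, QuotientGroup.eq] at hx
      have h1 := hzM _ hx x
      rw [show c = (x * x) * ((x * x)⁻¹ * c) by group, QuotientGroup.mk_mul, QuotientGroup.mk_mul]
      exact ((Commute.refl _).mul_right (Commute.refl _)).mul_right h1
    have hB2 : B * B = C := by
      rcases hDC _ (hsq b) with h | h
      · rw [QuotientGroup.mk_mul] at h
        exfalso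
        apply hNlt
        rw [← hA2]
        exact (tr a).mpr h
      · rwa [QuotientGroup.mk_mul] at h
    have hcc : (c : P ⧸ M) ∈ Subgroup.center (P ⧸ M) := central_of_gen hgM (key a (hsq a) hA2) (key b (hsq b) hB2)
    have hle : N ≤ M := by
      rw [hN, Subgroup.commutator_le]
      intro z hz x _
      rw [← QuotientGroup.eq_one_iff, ← QuotientGroup.mk'_apply, map_commutatorElement, commutatorElement_eq_one_iff_commute]
      rcases hDC z hz with h | h
      · exact (hzM z ((QuotientGroup.eq_one_iff z).mp h) x).symm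
      · rw [hC, QuotientGroup.eq] at h
        have h1 := hzM _ h x
        rw [show z = c * (z⁻¹ * c)⁻¹ by group, map_mul, map_inv]
        exact (Commute.mul_left ((Subgroup.mem_center_iff.mp hcc (x : P ⧸ M)).symm : Commute (c : P ⧸ M) (x : P ⧸ M)) h1.symm.inv_left)
    haveI := hP.isNilpotent
    obtain ⟨n, hn⟩ := (Subgroup.isNilpotent_iff_lowerCentralSeries (S := (⊤ : Subgroup P))).mp (hP.to_subgroup ⊤).isNilpotent
    have : ∀ k, N ≤ Subgroup.lowerCentralSeries (⊤ : Subgroup P) k := by
      intro k
      induction k with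
      | zero => simp
      | succ k ih => exact hle.trans (Subgroup.commutator_mono ih le_rfl)
    exact le_bot_iff.mp (hn ▸ this n)
  have hinj : ∀ x y : P, (x : P ⧸ N) = (y : P ⧸ N) → x = y := fun x y h => by
    rw [QuotientGroup.eq, hNbot, Subgroup.mem_bot] at h
    exact inv_mul_eq_one.mp h
  have hDcard : Nat.card D ≤ 2 := by
    classical
    haveI := Fintype.ofFinite D
    have : ∀ z : D, z = 1 ∨ z = ⟨c, hcD⟩ := fun z => (hDC z.1 z.2).imp (fun h => Subtype.ext (hinj _ _ h)) (fun h => Subtype.ext (hinj _ _ h))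
    rw [Nat.card_eq_fintype_card, ← Finset.card_univ]
    refine (Finset.card_le_card (t := {1, (⟨c, hcD⟩ : D)}) ?_).trans (Finset.card_le_two)
    intro z _
    simpa using this z
  have hPc : Nat.card P ≤ 8 := by rw [← Subgroup.index_mul_card D, h4]; omega
  have huniq : Uniq 2 P := by
    have hone : ∀ x : P, orderOf x = 2 → x = c := by
      intro x hx
      have hx2 : x * x = 1 := by rw [← pow_two, ← hx, pow_orderOf_eq_one]
      by_cases hxD : x ∈ D
      · rcases hDC x hxD with h | h
        · have := hinj x 1 h; rw [this, orderOf_one] at hx; norm_num at hx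
        · exact hinj _ _ h
      · exact (hAB2 x hxD (by rw [← QuotientGroup.mk_mul, hx2, QuotientGroup.mk_one])).elim
    intro x y hx hy
    rw [hone x hx, hone y hy]
    exact Subgroup.mem_zpowers c
  rcases cyclic_or_quaternion hP huniq with hcyc | ⟨-, n, ⟨e⟩⟩
  · exfalso
    apply hna
    exact IsCyclic.isMulCommutative
  · have hle : n ≤ 1 := by
      have := Nat.card_congr e.toEquiv
      rw [Nat.card_eq_fintype_card (α := QuaternionGroup (2 ^ n)), QuaternionGroup.card] at this
      by_contra hn
      have h4' : 4 ≤ 2 ^ n := (show (4 : ℕ) = 2 ^ 2 by norm_num) ▸ Nat.pow_le_pow_right (by norm_num) (by omega : 2 ≤ n)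
      omega
    rcases Nat.le_one_iff_eq_zero_or_eq_one.mp hle with rfl | rfl
    · exfalso
      apply hna
      haveI : IsCyclic (QuaternionGroup 1) := QuaternionGroup.quaternionGroup_one_isCyclic
      haveI : IsCyclic P := isCyclic_of_surjective e.symm e.symm.surjective
      exact IsCyclic.isMulCommutative
    · exact ⟨e⟩


end Cfsg.Agent.S4189
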