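import Cfsg.Statements.S4196
import Mathlib.Tactic

set_option autoImplicit false
open Cfsg

namespace Cfsg.Agent.S4196

theorem sq_eq_one {G : Type*} [Group G] [Finite G] {x : G} (hx : IsConj x x⁻¹)
    (hodd : Odd (Subgroup.centralizer ({x} : Set G)).index) : x ^ 2 = 1 := by
  obtain ⟨g, hg⟩ := isConj_iff.mp hx
  have hinv : ∀ y : conjugatesOf x, (y : G)⁻¹ ∈ conjugatesOf x := by
    rintro ⟨y, hy⟩
    obtain ⟨c, hc⟩ := isConj_iff.mp (hy : IsConj x y)
    exact isConj_iff.mpr ⟨c * g, by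
      show c * g * x * (c * g)⁻¹ = y⁻¹
      rw [← hc, conj_inv, ← hg]
      group⟩
  have hcard : Nat.card (conjugatesOf x) = (Subgroup.centralizer ({x} : Set G)).index := by
    refine (Nat.card_congr (Equiv.ofBijective (fun q : G ⧸ Subgroup.centralizer ({x} : Set G) =>
      Quotient.liftOn' q (fun c => (⟨c * x * c⁻¹, isConj_iff.mpr ⟨c, rfl⟩⟩ : conjugatesOf x)) ?_)
      ⟨?_, ?_⟩)).symm
    · intro a b hab
      rw [QuotientGroup.leftRel_apply, Subgroup.mem_centralizer_singleton_iff] at hab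
      apply Subtype.ext
      show a * x * a⁻¹ = b * x * b⁻¹
      calc a * x * a⁻¹ = a * (x * (a⁻¹ * b)) * b⁻¹ := by group
        _ = a * (a⁻¹ * b * x) * b⁻¹ := by rw [hab]
        _ = b * x * b⁻¹ := by group
    · intro a b h
      induction a using QuotientGroup.induction_on with
      | H a =>
        induction b using QuotientGroup.induction_on with
        | H b =>
          have h1 : a * x * a⁻¹ = b * x * b⁻¹ := congrArg Subtype.val h
          refine QuotientGroup.eq.mpr (Subgroup.mem_centralizer_singleton_iff.mpr ?_)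
          calc a⁻¹ * b * x = a⁻¹ * (b * x * b⁻¹) * b := by group
            _ = a⁻¹ * (a * x * a⁻¹) * b := by rw [h1]
            _ = x * (a⁻¹ * b) := by group
    · rintro ⟨y, hy⟩
      obtain ⟨c, hc⟩ := isConj_iff.mp (hy : IsConj x y)
      exact ⟨QuotientGroup.mk c, Subtype.ext hc⟩
  classical
  haveI := Fintype.ofFinite (conjugatesOf x)
  obtain ⟨y, hy⟩ := Equiv.Perm.exists_fixed_point_of_prime (p := 2) (n := 1)
    (by rw [← Nat.card_eq_fintype_card, hcard]; exact fun h => (Nat.not_even_iff_odd.mpr hodd) (even_iff_two_dvd.mpr h))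
    (σ := ({ toFun := fun y => ⟨(y : G)⁻¹, hinv y⟩, invFun := fun y => ⟨(y : G)⁻¹, hinv y⟩,
             left_inv := fun y => Subtype.ext (inv_inv _), right_inv := fun y => Subtype.ext (inv_inv _) } : Equiv.Perm (conjugatesOf x)))
    (Equiv.ext fun y => Subtype.ext (inv_inv (y : G)))
  have h1 : (y : G)⁻¹ = y := congrArg Subtype.val hy
  obtain ⟨c, hc⟩ := isConj_iff.mp (y.2 : IsConj x y)
  rw [← hc, conj_inv] at h1
  have h2 : x⁻¹ = x := mul_left_cancel (mul_right_cancel h1)
  rw [pow_two]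
  nth_rw 1 [← h2]
  exact inv_mul_cancel x

theorem odd_index_of_sylow {G : Type*} [Group G] [Finite G] (P : Sylow 2 G) {H : Subgroup G}
    (hP : (P : Subgroup G) ≤ H) : Odd H.index := by
  refine Nat.not_even_iff_odd.mp fun h => P.not_dvd_index ?_
  exact (even_iff_two_dvd.mp h).trans (Subgroup.index_dvd_of_le hP)

/-- A finite group G has elementary abelian Sylow 2-subgroups (commutative with every element squaring to the identity) if and only if every 2-element of G has a Sylow 2-subgroup in its centralizer and is conjugate to its inverse. -/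
theorem result {G : Type*} [Group G] [Finite G] (P : Sylow 2 G) :
    (IsMulCommutative (P : Subgroup G) ∧ ∀ x ∈ (P : Subgroup G), x ^ 2 = 1) ↔
      ∀ x : G, (∃ k : ℕ, orderOf x = 2 ^ k) → (∃ Q : Sylow 2 G, (Q : Subgroup G) ≤ Subgroup.centralizer ({x} : Set G)) ∧ IsConj x x⁻¹ := by
  constructor
  · rintro ⟨hc, hsq⟩ x ⟨k, hk⟩
    have hpz : IsPGroup 2 (Subgroup.zpowers x) := IsPGroup.of_card (by rw [Nat.card_zpowers, hk])
    obtain ⟨Q, hQ⟩ := hpz.exists_le_sylow
    obtain ⟨g, hg⟩ := MulAction.exists_smul_eq G P Q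
    have hQe : (Q : Subgroup G) = (P : Subgroup G).map (MulAut.conj g).toMonoidHom := by
      rw [← hg]; rfl
    have hxQ := hQ (Subgroup.mem_zpowers x)
    rw [hQe] at hxQ
    obtain ⟨a, ha, rfl⟩ := hxQ
    refine ⟨⟨Q, fun b hb => ?_⟩, ?_⟩
    · rw [hQe] at hb
      obtain ⟨b, hb, rfl⟩ := hb
      refine Subgroup.mem_centralizer_singleton_iff.mpr ?_
      rw [← map_mul, ← map_mul]
      exact congrArg _ (congrArg Subtype.val (hc.is_comm.comm (⟨b, hb⟩ : (P : Subgroup G)) ⟨a, ha⟩))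
    · have : ((MulAut.conj g).toMonoidHom a)⁻¹ = (MulAut.conj g).toMonoidHom a := by
        rw [← map_inv]
        refine congrArg _ ?_
        rw [inv_eq_iff_mul_eq_one, ← pow_two, hsq a ha]
      rw [this]
  · intro h
    have hsq : ∀ a ∈ (P : Subgroup G), a ^ 2 = 1 := by
      intro a ha
      obtain ⟨k, hk⟩ := IsPGroup.iff_orderOf.mp P.2 ⟨a, ha⟩
      rw [Subgroup.orderOf_mk] at hk
      obtain ⟨⟨Q, hQ⟩, hr⟩ := h a ⟨k, hk⟩
      exact sq_eq_one hr (odd_index_of_sylow Q hQ)
    refine ⟨⟨⟨fun a b => Subtype.ext ?_⟩⟩, hsq⟩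
    have ha := hsq a a.2
    have hb := hsq b b.2
    have hab := hsq _ ((P : Subgroup G).mul_mem a.2 b.2)
    rw [pow_two] at ha hb hab
    calc (a : G) * b = ((a : G) * b)⁻¹ := (inv_eq_of_mul_eq_one_left hab).symm
      _ = (b : G)⁻¹ * (a : G)⁻¹ := mul_inv_rev _ _
      _ = (b : G) * a := by rw [inv_eq_of_mul_eq_one_left ha, inv_eq_of_mul_eq_one_left hb]

end Cfsg.Agent.S4196
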