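import Cfsg.Statements.S4211
import Cfsg.Agent.S3987
import Cfsg.Agent.Lib.PLocal.OddRankTwo
import Mathlib.GroupTheory.SpecificGroups.Quaternion

set_option autoImplicit false
open Cfsg

namespace Cfsg.Agent.S4211
section

open scoped commutatorElement

variable {G : Type*} [Group G] [Finite G]

theorem comm_mem (hn : ∀ H : Subgroup G, H.Normal) (x y : G) :
    ⁅x, y⁆ ∈ Subgroup.zpowers x ∧ ⁅x, y⁆ ∈ Subgroup.zpowers y := by
  constructor
  · rw [show ⁅x, y⁆ = x * (y * x⁻¹ * y⁻¹) by rw [commutatorElement_def]; group]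
    exact Subgroup.mul_mem _ (Subgroup.mem_zpowers x) ((hn _).conj_mem _ (Subgroup.inv_mem _ (Subgroup.mem_zpowers x)) y)
  · rw [commutatorElement_def]
    exact Subgroup.mul_mem _ ((hn _).conj_mem _ (Subgroup.mem_zpowers y) x) (Subgroup.inv_mem _ (Subgroup.mem_zpowers y))

theorem commute_of_coprime (hn : ∀ H : Subgroup G, H.Normal) {x y : G} (h : (orderOf x).Coprime (orderOf y)) : Commute x y := by
  rw [← commutatorElement_eq_one_iff_commute, ← orderOf_eq_one_iff]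
  obtain ⟨h1, h2⟩ := comm_mem hn x y
  exact Nat.eq_one_of_dvd_coprimes h (orderOf_dvd_of_mem_zpowers h1) (orderOf_dvd_of_mem_zpowers h2)

/-- A minimal non-commuting pair of `p`-elements generates a quaternion group. -/
theorem exists_quaternion (hn : ∀ H : Subgroup G, H.Normal) (p : ℕ) [Fact p.Prime] {x₀ y₀ : G}
    (hx₀ : ∃ k, orderOf x₀ = p ^ k) (hy₀ : ∃ k, orderOf y₀ = p ^ k) (hxy₀ : ¬ Commute x₀ y₀) :
    p = 2 ∧ ∃ x y : G, orderOf x = 4 ∧ y * y = x * x ∧ y * x = x⁻¹ * y := by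
  classical
  have hp := (Fact.out : p.Prime)
  set S : Set (G × G) := {z | (∃ k, orderOf z.1 = p ^ k) ∧ (∃ k, orderOf z.2 = p ^ k) ∧ ¬ Commute z.1 z.2} with hS
  obtain ⟨⟨u, v⟩, ⟨hu, hv, huv⟩, hmin⟩ := Set.Finite.exists_minimalFor (fun z : G × G => orderOf z.1 + orderOf z.2) S (Set.toFinite _) ⟨(x₀, y₀), hx₀, hy₀, hxy₀⟩
  obtain ⟨x, y, hx, hy, hxy, hord, hmin⟩ : ∃ x y : G, (∃ k, orderOf x = p ^ k) ∧ (∃ k, orderOf y = p ^ k) ∧ ¬ Commute x y ∧
      orderOf y ≤ orderOf x ∧ ∀ z ∈ S, orderOf x + orderOf y ≤ orderOf z.1 + orderOf z.2 := by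
    have hmin' : ∀ z ∈ S, orderOf u + orderOf v ≤ orderOf z.1 + orderOf z.2 := fun z hz => by
      by_contra hlt
      have := hmin hz (by show orderOf z.1 + orderOf z.2 ≤ orderOf u + orderOf v; omega)
      simp only at this
      omega
    rcases le_total (orderOf v) (orderOf u) with h | h
    · exact ⟨u, v, hu, hv, huv, h, hmin'⟩
    · exact ⟨v, u, hv, hu, fun h' => huv h'.symm, h, fun z hz => by have := hmin' z hz; omega⟩
  obtain ⟨a', ha⟩ := hx
  obtain ⟨b', hb⟩ := hy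
  obtain ⟨a, rfl⟩ : ∃ a, a' = a + 1 := by
    rcases a' with _ | a
    · exact absurd (by rw [orderOf_eq_one_iff.mp (ha.trans (pow_zero p))]; exact Commute.one_left y) hxy
    · exact ⟨a, rfl⟩
  obtain ⟨b, rfl⟩ : ∃ b, b' = b + 1 := by
    rcases b' with _ | b
    · exact absurd (by rw [orderOf_eq_one_iff.mp (hb.trans (pow_zero p))]; exact Commute.one_right x) hxy
    · exact ⟨b, rfl⟩
  have hba : b ≤ a := by
    have := hord
    rw [ha, hb, Nat.pow_le_pow_iff_right hp.one_lt] at this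
    omega
  set c := ⁅x, y⁆ with hc
  obtain ⟨hcx, hcy⟩ := comm_mem hn x y
  rw [← hc] at hcx hcy
  obtain ⟨ix, hix⟩ := Subgroup.mem_zpowers_iff.mp hcx
  obtain ⟨iy, hiy⟩ := Subgroup.mem_zpowers_iff.mp hcy
  have hcxc : Commute c x := hix ▸ (Commute.refl x).zpow_left ix
  have hcyc : Commute c y := hiy ▸ (Commute.refl y).zpow_left iy
  have hconj : ∀ n : ℕ, x ^ n * y = c ^ n * y * x ^ n := by
    intro n
    induction n with
    | zero => simp
    | succ n ih =>
      calc x ^ (n + 1) * y = x * (x ^ n * y) := by rw [pow_succ', mul_assoc]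
        _ = (x * c ^ n) * y * x ^ n := by rw [ih]; group
        _ = c ^ n * (x * y) * x ^ n := by rw [← (hcxc.pow_left n).eq]; group
        _ = c ^ n * (c * y * x) * x ^ n := by rw [show x * y = c * y * x by rw [hc, commutatorElement_def]; group]
        _ = _ := by rw [pow_succ, pow_succ']; group
  have hc1 : c ≠ 1 := fun h => hxy (commutatorElement_eq_one_iff_commute.mp h)
  have hcp : c ^ p = 1 := by
    have hcm : Commute (x ^ p) y := by
      by_contra h
      have hlt : orderOf (x ^ p) < orderOf x := by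
        rw [orderOf_pow_of_dvd hp.ne_zero (ha ▸ dvd_pow_self p (Nat.succ_ne_zero a))]
        exact Nat.div_lt_self (orderOf_pos x) hp.one_lt
      have h1 : ∃ k, orderOf (x ^ p) = p ^ k := by
        obtain ⟨k, -, hk⟩ := (Nat.dvd_prime_pow hp).mp ((orderOf_pow_dvd p).trans ha.dvd)
        exact ⟨k, hk⟩
      have := hmin (x ^ p, y) ⟨h1, ⟨_, hb⟩, h⟩
      simp only at this
      omega
    have h := hconj p
    rw [hcm.eq, mul_assoc] at h
    exact mul_right_cancel (h.symm.trans (one_mul _).symm)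
  have hco : orderOf c = p := orderOf_eq_prime hcp hc1
  -- c generates the last layer of both cyclic groups
  have layer : ∀ (w : G) (e : ℕ), orderOf w = p ^ (e + 1) → c ∈ Subgroup.zpowers w → Subgroup.zpowers c = Subgroup.zpowers (w ^ p ^ e) := by
    intro w e hw hcw
    obtain ⟨i, hi⟩ := Subgroup.mem_zpowers_iff.mp hcw
    have hd : ((p ^ (e + 1) : ℕ) : ℤ) ∣ i * p := by
      rw [← hw, orderOf_dvd_iff_zpow_eq_one, zpow_mul, hi, zpow_natCast, hcp]
    rw [pow_succ, Nat.cast_mul] at hd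
    obtain ⟨j, hj⟩ := Int.dvd_of_mul_dvd_mul_right (by exact_mod_cast hp.ne_zero) hd
    refine Subgroup.eq_of_le_of_card_ge (Subgroup.zpowers_le.mpr ⟨j, ?_⟩) ?_
    · show (w ^ p ^ e) ^ j = c
      rw [← zpow_natCast, ← zpow_mul, ← hj, hi]
    · rw [Nat.card_zpowers, Nat.card_zpowers, hco, orderOf_pow_of_dvd (pow_ne_zero _ hp.ne_zero) (hw ▸ pow_dvd_pow p (Nat.le_succ e)), hw, pow_succ,
        Nat.mul_div_cancel_left _ (pow_pos hp.pos e)]
  have hLx := layer x a ha hcx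
  have hLy := layer y b hb hcy
  obtain ⟨m, hm⟩ : ∃ m : ℤ, (x ^ p ^ a) ^ m = y ^ p ^ b :=
    Subgroup.mem_zpowers_iff.mp (by rw [← hLx, hLy]; exact Subgroup.mem_zpowers _)
  set e : ℤ := -(m * (p ^ (a - b) : ℕ)) with he
  set z := x ^ e * y with hz
  -- commutator of y with the power of x
  have hyx : ⁅y, x⁆ = c⁻¹ := (commutatorElement_inv x y).symm
  have hxey : x ^ e * y = c ^ e * y * x ^ e := by
    obtain ⟨n, hn'⟩ : ∃ n : ℕ, x ^ e = x ^ n ∧ c ^ e = c ^ n := by
      refine ⟨(e % (orderOf x : ℤ)).toNat, ?_⟩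
      have h0 : 0 ≤ e % (orderOf x : ℤ) := Int.emod_nonneg _ (by exact_mod_cast (orderOf_pos x).ne')
      constructor
      · rw [← zpow_natCast, Int.toNat_of_nonneg h0, zpow_mod_orderOf]
      · rw [← zpow_natCast, Int.toNat_of_nonneg h0]
        refine (zpow_eq_zpow_iff_modEq.mpr ?_)
        rw [hco, ha]
        exact ((Int.mod_modEq e _).symm).of_dvd (by exact_mod_cast dvd_pow_self p (Nat.succ_ne_zero a))
    rw [hn'.1, hn'.2]
    exact hconj n
  have hcom : ⁅y, x ^ e⁆ = c ^ (-e) := by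
    calc ⁅y, x ^ e⁆ = y * x ^ e * (x ^ e * y)⁻¹ := by rw [commutatorElement_def]; group
      _ = y * x ^ e * (c ^ e * (y * x ^ e))⁻¹ := by rw [hxey, ← mul_assoc, mul_assoc (c ^ e) y (x ^ e)]
      _ = c ^ (-e) := by group
  have hzpow : z ^ p ^ b = c ^ (-e * ((p ^ b).choose 2 : ℕ)) := by
    rw [hz, CfsgLib.PLocal.mul_pow_central (by rw [hcom]; exact (hcxc.zpow_left (-e)).zpow_right e) (by rw [hcom]; exact hcyc.zpow_left _), hcom,
      ← hm, ← zpow_natCast (x ^ e), ← zpow_mul, ← zpow_natCast x, ← zpow_mul, mul_assoc, ← zpow_add, ← zpow_natCast (c ^ (-e)), ← zpow_mul]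
    rw [show e * ((p ^ b : ℕ) : ℤ) + ((p ^ a : ℕ) : ℤ) * m = 0 by
      rw [he, show p ^ a = p ^ (a - b) * p ^ b by rw [← pow_add, Nat.sub_add_cancel hba]]; push_cast; ring, zpow_zero, mul_one]
  have hkey : ¬ (p : ℤ) ∣ -e * ((p ^ b).choose 2 : ℕ) := by
    intro hd
    have h1 : z ^ p ^ b = 1 := by
      rw [hzpow, ← orderOf_dvd_iff_zpow_eq_one, hco]; exact hd
    obtain ⟨k, hk, hk'⟩ := (Nat.dvd_prime_pow hp).mp (orderOf_dvd_of_pow_eq_one h1)
    have hnc : ¬ Commute x z := fun h => hxy (by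
      have := ((Commute.refl x).zpow_right e).inv_right.mul_right h
      rwa [hz, inv_mul_cancel_left] at this)
    have := hmin (x, z) ⟨⟨_, ha⟩, ⟨k, hk'⟩, hnc⟩
    simp only at this
    have h3 : p ^ k < p ^ (b + 1) := Nat.pow_lt_pow_right hp.one_lt (by omega)
    omega
  have hp2 : p = 2 := by
    by_contra hne
    refine hkey (Dvd.dvd.mul_left ?_ _)
    rcases Nat.eq_zero_or_pos b with rfl | hb0
    · simp
    · have h2 : p ∣ (p ^ b).choose 2 * 2 := by
        rw [Nat.choose_two_right, Nat.div_mul_cancel (Nat.even_mul_pred_self _).two_dvd]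
        exact Dvd.dvd.mul_right (dvd_pow_self p hb0.ne') _
      exact_mod_cast ((Nat.coprime_primes hp Nat.prime_two).mpr hne).dvd_of_dvd_mul_right h2
  subst hp2
  have hb1 : b = 1 := by
    by_contra hne
    refine hkey (Dvd.dvd.mul_left ?_ _)
    rcases b with _ | _ | b
    · simp
    · omega
    · have : 2 ∣ (2 ^ (b + 1 + 1)).choose 2 := by
        rw [Nat.choose_two_right, pow_succ, show 2 ^ (b + 1) * 2 * (2 ^ (b + 1) * 2 - 1) = 2 * (2 ^ (b + 1) * (2 ^ (b + 1) * 2 - 1)) by ring,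
          Nat.mul_div_cancel_left _ two_pos]
        exact Dvd.dvd.mul_right (dvd_pow_self 2 (Nat.succ_ne_zero b)) _
      exact_mod_cast this
  subst hb1
  have ha1 : a = 1 := by
    by_contra hne
    refine hkey (Dvd.dvd.mul_right ?_ _)
    rw [he, neg_neg]
    exact Dvd.dvd.mul_left (by exact_mod_cast dvd_pow_self 2 (by omega : a - 1 ≠ 0)) _
  subst ha1
  refine ⟨rfl, x, y, by rw [ha]; norm_num, ?_, ?_⟩
  · have hx2 : x ^ 2 ∈ Subgroup.zpowers c := by rw [hLx, pow_one]; exact Subgroup.mem_zpowers _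
    have hy2 : y ^ 2 ∈ Subgroup.zpowers c := by rw [hLy, pow_one]; exact Subgroup.mem_zpowers _
    have two : ∀ w ∈ Subgroup.zpowers c, w = 1 ∨ w = c := by
      intro w hw
      obtain ⟨i, rfl⟩ := Subgroup.mem_zpowers_iff.mp hw
      rcases Int.even_or_odd i with ⟨j, rfl⟩ | ⟨j, rfl⟩
      · left; rw [← two_mul, zpow_mul, show c ^ (2 : ℤ) = 1 by exact_mod_cast hcp, one_zpow]
      · right; rw [zpow_add, zpow_mul, show c ^ (2 : ℤ) = 1 by exact_mod_cast hcp, one_zpow, one_mul, zpow_one]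
    have ne : ∀ w : G, orderOf w = 2 ^ (1 + 1) → w ^ 2 ≠ 1 := fun w hw h => by
      have := Nat.le_of_dvd two_pos (hw ▸ orderOf_dvd_of_pow_eq_one h)
      norm_num at this
    rw [← pow_two, ← pow_two, (two _ hy2).resolve_left (ne y hb), (two _ hx2).resolve_left (ne x ha)]
  · have hx2 : x ^ 2 ∈ Subgroup.zpowers c := by rw [hLx, pow_one]; exact Subgroup.mem_zpowers _
    have hcc : x ^ 2 = c := by
      obtain ⟨i, hi⟩ := Subgroup.mem_zpowers_iff.mp hx2
      rcases Int.even_or_odd i with ⟨j, rfl⟩ | ⟨j, rfl⟩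
      · exfalso
        have h := Nat.le_of_dvd two_pos (ha ▸ orderOf_dvd_of_pow_eq_one (show x ^ 2 = 1 by
          rw [← hi, ← two_mul, zpow_mul, show c ^ (2 : ℤ) = 1 by exact_mod_cast hcp, one_zpow]))
        norm_num at h
      · rw [← hi, zpow_add, zpow_mul, show c ^ (2 : ℤ) = 1 by exact_mod_cast hcp, one_zpow, one_mul, zpow_one]
    calc y * x = c⁻¹ * (x * y) := by rw [hc, commutatorElement_def]; group
      _ = x⁻¹ * y := by rw [← hcc, pow_two]; group

end

section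
end


/-- A finite non-abelian group in which every subgroup is normal is the internal direct product of a subgroup isomorphic to the quaternion group of order `8`, an elementary abelian `2`-subgroup and an abelian subgroup of odd order. -/
theorem result {G : Type*} [Group G] [Finite G] (hna : ¬ IsMulCommutative G) (hn : ∀ H : Subgroup G, H.Normal) : ∃ Q E A : Subgroup G, Nonempty (Q ≃* QuaternionGroup 2) ∧ Cfsg.IsElementaryAbelian 2 E ∧ IsMulCommutative A ∧ Odd (Nat.card A) ∧ E ⊓ A = ⊥ ∧ Q ⊓ (E ⊔ A) = ⊥ ∧ Q ⊔ (E ⊔ A) = ⊤ := by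
  classical
  haveI : Fact (Nat.Prime 2) := ⟨Nat.prime_two⟩
  obtain ⟨S⟩ : Nonempty (Sylow 2 G) := inferInstance
  haveI hSn : (S : Subgroup G).Normal := hn _
  haveI := Sylow.unique_of_normal S hSn
  obtain ⟨A, hA⟩ := Subgroup.exists_right_complement'_of_coprime S.card_coprime_index
  have hAodd : Odd (Nat.card A) := by
    rw [← hA.symm.index_eq_card, ← Nat.not_even_iff_odd, even_iff_two_dvd]; exact S.not_dvd_index
  have hS2 : ∀ u : G, u ∈ (S : Subgroup G) ↔ ∃ k, orderOf u = 2 ^ k := by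
    intro u
    refine ⟨fun hu => ?_, fun ⟨k, hk⟩ => ?_⟩
    · obtain ⟨k, hk⟩ := S.2.exists_orderOf_eq_pow ⟨u, hu⟩
      exact ⟨k, by rwa [Subgroup.orderOf_mk] at hk⟩
    · obtain ⟨T, hT⟩ := (IsPGroup.of_card (n := k) (G := Subgroup.zpowers u) (by rw [Nat.card_zpowers, hk])).exists_le_sylow
      rw [Subsingleton.elim T S] at hT
      exact hT (Subgroup.mem_zpowers u)
  have hAord : ∀ u ∈ A, Odd (orderOf u) := fun u hu => hAodd.of_dvd_nat (Subgroup.orderOf_dvd_natCard A hu)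
  have hSA : ∀ u ∈ (S : Subgroup G), ∀ v ∈ A, Commute u v := fun u hu v hv => by
    refine commute_of_coprime hn ?_
    obtain ⟨k, hk⟩ := (hS2 u).mp hu
    rw [hk]
    exact (Nat.coprime_two_left.mpr (hAord v hv)).pow_left k
  -- non-commuting prime power elements only occur for the prime 2
  have hpp : ∀ (p : ℕ) [Fact p.Prime] (u v : G), (∃ k, orderOf u = p ^ k) → (∃ k, orderOf v = p ^ k) → p ≠ 2 → Commute u v := by
    intro p _ u v hu hv hne
    by_contra hc
    exact hne (exists_quaternion hn p hu hv hc).1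
  have hAc : ∀ a ∈ A, ∀ b ∈ A, a * b = b * a := by
    have key : ∀ u v : A, (∃ q i, q.Prime ∧ orderOf u = q ^ i) → (∃ q i, q.Prime ∧ orderOf v = q ^ i) → Commute u v := by
      rintro u v ⟨q, i, hq, hi⟩ ⟨r, j, hr, hj⟩
      apply Subtype.ext
      by_cases hqr : q = r
      · subst hqr
        haveI := Fact.mk hq
        by_cases h2 : q = 2
        · have hu := hAord u u.2
          rw [Subgroup.orderOf_coe, hi, h2] at hu
          rcases i with _ | i
          · rw [pow_zero, orderOf_eq_one_iff] at hi; rw [hi]; simp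
          · exact absurd hu (Nat.not_odd_iff_even.mpr (even_iff_two_dvd.mpr (dvd_pow_self 2 (Nat.succ_ne_zero i))))
        · exact (hpp q (u : G) v ⟨i, by rw [Subgroup.orderOf_coe, hi]⟩ ⟨j, by rw [Subgroup.orderOf_coe, hj]⟩ h2).eq
      · exact (commute_of_coprime hn (x := (u : G)) (y := v) (by
          rw [Subgroup.orderOf_coe, Subgroup.orderOf_coe, hi, hj]; exact ((Nat.coprime_primes hq hr).mpr hqr).pow i j)).eq
    intro a ha b hb
    have h1 : ∀ u : A, (∃ q i, q.Prime ∧ orderOf u = q ^ i) → Subgroup.centralizer ({u} : Set A) = ⊤ := fun u hu =>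
      Cfsg.Agent.S3987.eq_top_of_prime_power _ fun v hv => Subgroup.mem_centralizer_singleton_iff.mpr (key u v hu hv).symm.eq
    have h2 : Subgroup.centralizer ({(⟨b, hb⟩ : A)} : Set A) = ⊤ :=
      Cfsg.Agent.S3987.eq_top_of_prime_power _ fun u hu => Subgroup.mem_centralizer_singleton_iff.mpr
        (Subgroup.mem_centralizer_singleton_iff.mp (show (⟨b, hb⟩ : A) ∈ Subgroup.centralizer ({u} : Set A) by rw [h1 u hu]; exact Subgroup.mem_top _)).symm
    have h3 : (⟨a, ha⟩ : A) ∈ Subgroup.centralizer ({(⟨b, hb⟩ : A)} : Set A) := by rw [h2]; exact Subgroup.mem_top _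
    exact congrArg Subtype.val (Subgroup.mem_centralizer_singleton_iff.mp h3)
  have hdec : ∀ g : G, ∃ u ∈ (S : Subgroup G), ∃ v ∈ A, u * v = g := fun g => by
    obtain ⟨⟨⟨u, hu⟩, ⟨v, hv⟩⟩, he⟩ := hA.2 g
    exact ⟨u, hu, v, hv, he⟩
  obtain ⟨u₀, hu₀, v₀, hv₀, hne⟩ : ∃ u ∈ (S : Subgroup G), ∃ v ∈ (S : Subgroup G), ¬ Commute u v := by
    by_contra h
    push Not at h
    refine hna ⟨⟨fun a b => ?_⟩⟩
    obtain ⟨u, hu, v, hv, rfl⟩ := hdec a
    obtain ⟨u', hu', v', hv', rfl⟩ := hdec b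
    exact ((h u hu u' hu').mul_right (hSA u hu v' hv')).mul_left ((hSA u' hu' v hv).symm.mul_right (hAc v hv v' hv')) |>.eq
  obtain ⟨-, x, y, hx4, hyy, hyx⟩ := exists_quaternion hn 2 ((hS2 u₀).mp hu₀) ((hS2 v₀).mp hv₀) hne
  have hx4' : x ^ 4 = 1 := hx4 ▸ pow_orderOf_eq_one x
  have hx2 : x ^ 2 ≠ 1 := fun h => by have := Nat.le_of_dvd two_pos (hx4 ▸ orderOf_dvd_of_pow_eq_one h); omega
  have hxy : x * y ≠ y * x := fun h => hx2 (by
    rw [pow_two]
    have h2 : x * y = x⁻¹ * y := h.trans hyx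
    have h3 := mul_right_cancel h2
    exact mul_eq_one_iff_eq_inv.mpr h3)
  have hxinv : x⁻¹ = x ^ 3 := inv_eq_of_mul_eq_one_right (by rw [← pow_succ']; exact hx4')
  -- the quaternion subgroup
  let E4 : ZMod (2 * 2) → G := fun i => x ^ i.val
  have hEadd : ∀ i j, E4 (i + j) = E4 i * E4 j := fun i j => by
    show x ^ (i + j).val = x ^ i.val * x ^ j.val
    rw [← pow_add, ZMod.val_add, ← pow_mod_orderOf x (i.val + j.val), hx4]
  have hcomm : ∀ n : ℕ, x ^ n * y = y * (x⁻¹) ^ n := by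
    intro n
    induction n with
    | zero => simp
    | succ n ih =>
      have h1 : x * y = y * x⁻¹ := by
        calc x * y = x * (y * x) * x⁻¹ := by group
          _ = y * x⁻¹ := by rw [hyx]; group
      rw [pow_succ, mul_assoc, h1, ← mul_assoc, ih, mul_assoc, ← pow_succ]
  have hEneg : ∀ i, E4 (-i) = (x⁻¹) ^ i.val := fun i => by
    refine eq_inv_of_mul_eq_one_left ?_ |>.trans (inv_pow x i.val).symm
    rw [← hEadd, neg_add_cancel]
    show x ^ (0 : ZMod (2 * 2)).val = 1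
    rw [ZMod.val_zero, pow_zero]
  let f : QuaternionGroup 2 →* G := MonoidHom.mk' (fun q => match q with
      | .a i => E4 i
      | .xa i => y * E4 i) (by
    rintro (i | i) (j | j)
    · exact hEadd i j
    · show y * E4 (j - i) = E4 i * (y * E4 j)
      rw [sub_eq_neg_add, hEadd, hEneg, ← mul_assoc, ← mul_assoc]
      congr 1
      exact (hcomm i.val).symm
    · show y * E4 (i + j) = y * E4 i * E4 j
      rw [hEadd, mul_assoc]
    · show E4 (((2 : ℕ) : ZMod (2 * 2)) + j - i) = y * E4 i * (y * E4 j)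
      rw [show ((2 : ℕ) : ZMod (2 * 2)) + j - i = ((2 : ℕ) : ZMod (2 * 2)) + (-i) + j by ring, hEadd, hEadd, hEneg, ← mul_assoc]
      congr 1
      rw [mul_assoc, show E4 i = x ^ i.val from rfl, hcomm, ← mul_assoc, hyy]
      congr 1
      exact pow_two x)
  have hfinj : Function.Injective f := by
    rw [injective_iff_map_eq_one]
    rintro (i | i) h
    · have h' : x ^ i.val = 1 := h
      have h2 := orderOf_dvd_of_pow_eq_one h'
      rw [hx4] at h2
      have := i.val_lt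
      have h0 : i.val = 0 := Nat.eq_zero_of_dvd_of_lt h2 this
      rw [(ZMod.val_eq_zero i).mp h0, ← QuaternionGroup.one_def]
    · exfalso
      have h' : y * x ^ i.val = 1 := h
      refine hxy ?_
      rw [eq_inv_of_mul_eq_one_left h']
      exact (((Commute.refl x).pow_right i.val).inv_right).eq
  set Q := f.range with hQ
  have hxQ : x ∈ Q := ⟨.a 1, by show x ^ (1 : ZMod (2 * 2)).val = x; rw [show (1 : ZMod (2 * 2)).val = 1 from rfl, pow_one]⟩
  have hyQ : y ∈ Q := ⟨.xa 0, by show y * x ^ (0 : ZMod (2 * 2)).val = y; rw [ZMod.val_zero, pow_zero, mul_one]⟩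
  have hQeq : ∀ q ∈ Q, ∃ n : ℕ, q = x ^ n ∨ q = y * x ^ n := by
    rintro _ ⟨i | i, rfl⟩
    · exact ⟨i.val, Or.inl rfl⟩
    · exact ⟨i.val, Or.inr rfl⟩
  have hy4 : orderOf y = 4 := by
    refine orderOf_eq_prime_pow (p := 2) (n := 1) ?_ ?_
    · rw [pow_one, pow_two, hyy, ← pow_two]; exact hx2
    · rw [show 2 ^ (1 + 1) = 2 * 2 from rfl, pow_mul, pow_two y, hyy, ← pow_two x, ← pow_mul]; exact hx4'
  have hQS : Q ≤ (S : Subgroup G) := fun q hq => by
    obtain ⟨n, h | h⟩ := hQeq q hq <;> rw [h]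
    · exact (S : Subgroup G).pow_mem ((hS2 x).mpr ⟨2, hx4⟩) n
    · exact (S : Subgroup G).mul_mem ((hS2 y).mpr ⟨2, hy4⟩) ((S : Subgroup G).pow_mem ((hS2 x).mpr ⟨2, hx4⟩) n)
  set C := Subgroup.centralizer ({x, y} : Set G) with hC
  have hCmem : ∀ g : G, g * x * g⁻¹ = x → g * y * g⁻¹ = y → g ∈ C := fun g h1 h2 => by
    rw [hC, Subgroup.mem_centralizer_iff]
    intro w hw
    rcases hw with rfl | rfl
    · exact (mul_inv_eq_iff_eq_mul.mp h1).symm
    · exact (mul_inv_eq_iff_eq_mul.mp h2).symm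
  have hC1 : ∀ g ∈ C, Commute g x := fun g hg => (Subgroup.mem_centralizer_iff.mp hg x (Set.mem_insert _ _)).symm
  have hC2 : ∀ g ∈ C, Commute g y := fun g hg => (Subgroup.mem_centralizer_iff.mp hg y (Set.mem_insert_of_mem _ rfl)).symm
  -- every element is an element of Q times a centralising one
  have four : ∀ w g : G, orderOf w = 4 → g * w * g⁻¹ = w ∨ g * w * g⁻¹ = w⁻¹ := by
    intro w g hw
    have hw4 : w ^ 4 = 1 := hw ▸ pow_orderOf_eq_one w
    obtain ⟨i, hi⟩ := Subgroup.mem_zpowers_iff.mp ((hn (Subgroup.zpowers w)).conj_mem w (Subgroup.mem_zpowers w) g)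
    have ho : orderOf (g * w * g⁻¹) = 4 := by rw [← hw]; exact (MulAut.conj g).orderOf_eq w
    have h0 : w ^ i = w ^ (i % 4).toNat := by
      rw [← zpow_natCast, Int.toNat_of_nonneg (Int.emod_nonneg _ (by norm_num)), ← zpow_mod_orderOf w i, hw]
      rfl
    rw [h0] at hi
    have hlt : (i % 4).toNat < 4 := by omega
    generalize (i % 4).toNat = n at hi hlt
    rw [← hi] at ho ⊢
    interval_cases n
    · rw [pow_zero, orderOf_one] at ho; omega
    · exact Or.inl (pow_one w)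
    · have := Nat.le_of_dvd two_pos (ho ▸ orderOf_dvd_of_pow_eq_one (show (w ^ 2) ^ 2 = 1 by rw [← pow_mul]; exact hw4))
      omega
    · exact Or.inr (inv_eq_of_mul_eq_one_right (by rw [← pow_succ']; exact hw4)).symm
  have hxyx : ∀ q : G, q * x * q⁻¹ = x⁻¹ → ∀ g : G, g * x * g⁻¹ = x⁻¹ → (q⁻¹ * g) * x * (q⁻¹ * g)⁻¹ = x := fun q hq g hg => by
    rw [show q⁻¹ * g * x * (q⁻¹ * g)⁻¹ = q⁻¹ * (g * x * g⁻¹) * q by group, hg, ← hq]; group
  have hx_y : x * y * x⁻¹ = y⁻¹ := by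
    refine (four y x hy4).resolve_left fun h => hxy ?_
    exact mul_inv_eq_iff_eq_mul.mp h
  have hy_x : y * x * y⁻¹ = x⁻¹ := by rw [hyx, mul_inv_cancel_right]
  have hGQC : ∀ g : G, ∃ q ∈ Q, q⁻¹ * g ∈ C := by
    intro g
    rcases four x g hx4 with h1 | h1 <;> rcases four y g hy4 with h2 | h2
    · exact ⟨1, Q.one_mem, by rw [inv_one, one_mul]; exact hCmem g h1 h2⟩
    · refine ⟨x, hxQ, hCmem _ ?_ ?_⟩
      · rw [show x⁻¹ * g * x * (x⁻¹ * g)⁻¹ = x⁻¹ * (g * x * g⁻¹) * x by group, h1, inv_mul_cancel, one_mul]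
      · rw [show x⁻¹ * g * y * (x⁻¹ * g)⁻¹ = x⁻¹ * (g * y * g⁻¹) * x by group, h2, ← hx_y]; group
    · refine ⟨y, hyQ, hCmem _ (hxyx y hy_x g h1) ?_⟩
      rw [show y⁻¹ * g * y * (y⁻¹ * g)⁻¹ = y⁻¹ * (g * y * g⁻¹) * y by group, h2, inv_mul_cancel, one_mul]
    · refine ⟨x * y, Q.mul_mem hxQ hyQ, hCmem _ (hxyx (x * y) ?_ g h1) ?_⟩
      · rw [show x * y * x * (x * y)⁻¹ = x * (y * x * y⁻¹) * x⁻¹ by group, hy_x]; group
      · rw [show (x * y)⁻¹ * g * y * ((x * y)⁻¹ * g)⁻¹ = y⁻¹ * (x⁻¹ * (g * y * g⁻¹) * x) * y by group, h2, show x⁻¹ * y⁻¹ * x = y by rw [← hx_y]; group, inv_mul_cancel, one_mul]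
  have hexp4 : ∀ c ∈ C, c ^ 4 = 1 → c * c = 1 := by
    intro c hc hc4
    obtain ⟨i, hi⟩ := Subgroup.mem_zpowers_iff.mp ((hn (Subgroup.zpowers (x * c))).conj_mem _ (Subgroup.mem_zpowers _) y)
    have hcx := (hC1 c hc).symm
    have h4 : (x * c) ^ (4 : ℤ) = 1 := by
      rw [show ((4 : ℤ)) = ((4 : ℕ) : ℤ) from rfl, zpow_natCast, hcx.mul_pow, hx4', hc4, one_mul]
    have hlhs : y * (x * c) * y⁻¹ = x⁻¹ * c := by
      rw [← mul_assoc, hyx, mul_assoc (x⁻¹) y c, ← (hC2 c hc).eq]; group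
    have h0 : (x * c) ^ i = (x * c) ^ (i % 4).toNat := by
      rw [← zpow_natCast, Int.toNat_of_nonneg (Int.emod_nonneg _ (by norm_num))]
      nth_rewrite 1 [← Int.mul_ediv_add_emod i 4]
      rw [zpow_add, zpow_mul, h4, one_zpow, one_mul]
    rw [h0, hlhs] at hi
    have hlt : (i % 4).toNat < 4 := by omega
    generalize (i % 4).toNat = n at hi hlt
    interval_cases n
    · exfalso
      refine hxy ?_
      rw [pow_zero] at hi
      rw [inv_mul_eq_one.mp hi.symm]
      exact (hC2 c hc).eq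
    · exfalso
      rw [pow_one] at hi
      exact hx2 (by rw [pow_two]; exact mul_eq_one_iff_eq_inv.mpr (mul_right_cancel hi))
    · exfalso
      rw [hcx.mul_pow, pow_two c, ← mul_assoc] at hi
      have h5 : x ^ 2 * c = x⁻¹ := mul_right_cancel hi
      have h6 : c = x := by
        calc c = (x ^ 2)⁻¹ * (x ^ 2 * c) := by group
          _ = (x ^ 4)⁻¹ * x := by rw [h5]; group
          _ = x := by rw [hx4', inv_one, one_mul]
      exact hxy (h6 ▸ (hC2 c hc).eq)
    · rw [hcx.mul_pow, hxinv] at hi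
      have h5 : c ^ 3 = c := mul_left_cancel hi
      rw [pow_succ, pow_two] at h5
      exact mul_eq_right.mp h5
  have hexp : ∀ c ∈ C, c ∈ (S : Subgroup G) → c * c = 1 := by
    intro c hc hcS
    obtain ⟨k, hk⟩ := (hS2 c).mp hcS
    rcases k with _ | _ | k
    · rw [pow_zero, orderOf_eq_one_iff] at hk; rw [hk, one_mul]
    · rw [zero_add, pow_one] at hk; rw [← pow_two, ← hk]; exact pow_orderOf_eq_one c
    · exfalso
      have hw : orderOf (c ^ 2 ^ k) = 4 := by
        rw [orderOf_pow_of_dvd (pow_ne_zero _ two_ne_zero) (hk ▸ pow_dvd_pow 2 (by omega)), hk, show k + 1 + 1 = 2 + k by omega,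
          pow_add, Nat.mul_div_cancel _ (Nat.two_pow_pos k)]; norm_num
      have h2 := hexp4 _ (C.pow_mem hc _) (hw ▸ pow_orderOf_eq_one _)
      rw [← pow_two] at h2
      have := Nat.le_of_dvd two_pos (hw ▸ orderOf_dvd_of_pow_eq_one h2)
      omega
  set U := C ⊓ (S : Subgroup G) with hU
  have hUc : ∀ a ∈ U, ∀ b ∈ U, a * b = b * a := fun a ha b hb => by
    have h := hexp _ (U.mul_mem ha hb).1 (U.mul_mem ha hb).2
    rw [← inv_eq_of_mul_eq_one_right h, mul_inv_rev, inv_eq_of_mul_eq_one_right (hexp a ha.1 ha.2), inv_eq_of_mul_eq_one_right (hexp b hb.1 hb.2)]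
  set z := x * x with hz
  have hzU : z ∈ U := by
    refine ⟨hCmem z (by rw [hz]; group) (mul_inv_eq_iff_eq_mul.mpr ?_), hQS (Q.mul_mem hxQ hxQ)⟩
    rw [← hyy, mul_assoc]
  obtain ⟨E, ⟨hEU, hzE⟩, hmax⟩ := Set.Finite.exists_maximalFor id {E : Subgroup G | E ≤ U ∧ z ∉ E} (Set.toFinite _)
    ⟨⊥, bot_le, fun h => hx2 (by rw [pow_two]; exact Subgroup.mem_bot.mp h)⟩
  have hEU' : ∀ u ∈ U, ∃ e ∈ E, u = e ∨ u = z * e := by
    intro u hu
    by_cases huE : u ∈ E
    · exact ⟨u, huE, Or.inl rfl⟩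
    have huu := hexp u hu.1 hu.2
    let F : Subgroup G :=
      { carrier := {w | ∃ e ∈ E, w = e ∨ w = u * e}
        one_mem' := ⟨1, E.one_mem, Or.inl rfl⟩
        mul_mem' := by
          rintro _ _ ⟨e, he, rfl | rfl⟩ ⟨e', he', rfl | rfl⟩
          · exact ⟨_, E.mul_mem he he', Or.inl rfl⟩
          · exact ⟨_, E.mul_mem he he', Or.inr (by rw [← mul_assoc, hUc _ (hEU he) u hu, mul_assoc])⟩
          · exact ⟨_, E.mul_mem he he', Or.inr (mul_assoc _ _ _)⟩
          · exact ⟨_, E.mul_mem he he', Or.inl (by rw [mul_assoc, ← mul_assoc e u, hUc _ (hEU he) u hu, mul_assoc, ← mul_assoc, huu, one_mul])⟩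
        inv_mem' := by
          rintro _ ⟨e, he, rfl | rfl⟩
          · exact ⟨_, E.inv_mem he, Or.inl rfl⟩
          · exact ⟨_, E.inv_mem he, Or.inr (by rw [mul_inv_rev, inv_eq_of_mul_eq_one_right huu, hUc _ (hEU (E.inv_mem he)) u hu])⟩ }
    have hzF : z ∈ F := by
      by_contra h
      refine huE (hmax (j := F) ⟨?_, h⟩ (fun e he => ⟨e, he, Or.inl rfl⟩) ⟨1, E.one_mem, Or.inr (mul_one u).symm⟩)
      rintro _ ⟨e, he, rfl | rfl⟩
      exacts [hEU he, U.mul_mem hu (hEU he)]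
    obtain ⟨e, he, h | h⟩ := hzF
    · exact absurd (h ▸ he) hzE
    · exact ⟨e⁻¹, E.inv_mem he, Or.inr (by rw [h, mul_inv_cancel_right])⟩
  have hEsq : ∀ e ∈ E, e * e = 1 := fun e he => hexp e (hEU he).1 (hEU he).2
  have hEA : ∀ e ∈ E, ∀ a ∈ A, Commute e a := fun e he a ha => hSA e (hEU he).2 a ha
  have hSA1 : ∀ w ∈ (S : Subgroup G), w ∈ A → w = 1 := fun w h1 h2 => Subgroup.mem_bot.mp (hA.disjoint.eq_bot ▸ ⟨h1, h2⟩)
  refine ⟨Q, E, A, ⟨(MonoidHom.ofInjective hfinj).symm⟩, ⟨⟨⟨fun a b => Subtype.ext (hUc a (hEU a.2) b (hEU b.2))⟩⟩,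
    fun e he => by rw [pow_two]; exact hEsq e he⟩, ⟨⟨fun a b => Subtype.ext (hAc a a.2 b b.2)⟩⟩, hAodd, ?_, ?_, ?_⟩
  · rw [Subgroup.eq_bot_iff_forall]; exact fun w hw => hSA1 w (hEU hw.1).2 hw.2
  · rw [Subgroup.eq_bot_iff_forall]
    rintro q ⟨hq, hq'⟩
    haveI : E.Normal := hn E
    have h : q ∈ (↑(E ⊔ A) : Set G) := hq'
    rw [Subgroup.normal_mul] at h
    obtain ⟨e, he, a, ha, rfl⟩ := h
    have ha1 : a = 1 := hSA1 a (((S : Subgroup G).mul_mem_cancel_left (hEU he).2).mp (hQS hq)) ha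
    subst ha1
    simp only [mul_one] at hq ⊢
    -- an element of Q centralising x and y is a power of z
    obtain ⟨n, h | h⟩ := hQeq e hq
    · rcases Nat.even_or_odd n with ⟨j, rfl⟩ | ⟨j, rfl⟩
      · rw [← two_mul, pow_mul, pow_two, ← hz] at h
        rcases Nat.even_or_odd j with ⟨i, rfl⟩ | ⟨i, rfl⟩
        · rw [h, hz, ← pow_two, ← pow_mul, show 2 * (i + i) = 4 * i by ring, pow_mul, hx4', one_pow]
        · exfalso
          refine hzE ?_
          have : e = z := by rw [h, pow_succ, hz, ← pow_two, ← pow_mul, show 2 * (2 * i) = 4 * i by ring, pow_mul, hx4', one_pow, one_mul]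
          exact this ▸ he
      · exfalso
        have hc := hC2 e (hEU he).1
        rw [h, pow_succ, pow_mul] at hc
        refine hxy ?_
        have h7 : Commute ((x ^ 2) ^ j) y := by
          refine Commute.pow_left ?_ j
          rw [pow_two, ← hz]; exact hC2 z hzU.1
        have h8 := h7.inv_left.mul_left hc
        rw [inv_mul_cancel_left] at h8
        exact h8.eq
    · exfalso
      have hc := hC1 e (hEU he).1
      rw [h] at hc
      refine hxy ?_
      have h8 := hc.mul_left (((Commute.refl x).pow_left n).inv_left)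
      rw [mul_inv_cancel_right] at h8
      exact h8.symm.eq
  · rw [eq_top_iff]
    intro g _
    obtain ⟨u, hu, a, ha, rfl⟩ := hdec g
    obtain ⟨q, hq, hqu⟩ := hGQC u
    have hqu' : q⁻¹ * u ∈ U := ⟨hqu, (S : Subgroup G).mul_mem ((S : Subgroup G).inv_mem (hQS hq)) hu⟩
    obtain ⟨e, he, h | h⟩ := hEU' _ hqu'
    · rw [show u = q * e by rw [← h, mul_inv_cancel_left], mul_assoc]
      exact Subgroup.mul_mem _ (Subgroup.mem_sup_left hq) (Subgroup.mem_sup_right (Subgroup.mul_mem _ (Subgroup.mem_sup_left he) (Subgroup.mem_sup_right ha)))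
    · rw [show u = (q * z) * e by rw [mul_assoc, ← h, mul_inv_cancel_left], mul_assoc]
      exact Subgroup.mul_mem _ (Subgroup.mem_sup_left (Q.mul_mem hq (Q.mul_mem hxQ hxQ))) (Subgroup.mem_sup_right (Subgroup.mul_mem _ (Subgroup.mem_sup_left he) (Subgroup.mem_sup_right ha)))

end Cfsg.Agent.S4211
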