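import Cfsg.Statements.S4230
import Mathlib

set_option autoImplicit false
open Cfsg

namespace Cfsg.Agent.S4230

/-- Let p be an odd prime, q a natural number not divisible by p, and e the multiplicative order of q modulo p. For a natural number f, p divides the value at q of the f-th cyclotomic polynomial if and only if f = e·p^j for some j ≥ 0. -/
theorem result (p q f : ℕ) (hp : p.Prime) (hp2 : p ≠ 2) (hpq : ¬ p ∣ q) :
    ((p : ℤ) ∣ (Polynomial.cyclotomic f ℤ).eval (q : ℤ)) ↔ ∃ j : ℕ, f = orderOf (q : ZMod p) * p ^ j := by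
  haveI := Fact.mk hp
  have hq0 : (q : ZMod p) ≠ 0 := fun h => hpq ((ZMod.natCast_eq_zero_iff q p).mp h)
  have hord : 0 < orderOf (q : ZMod p) := by
    rw [orderOf_pos_iff, isOfFinOrder_iff_pow_eq_one]
    exact ⟨p - 1, Nat.sub_pos_of_lt hp.one_lt, ZMod.pow_card_sub_one_eq_one hq0⟩
  rcases Nat.eq_zero_or_pos f with rfl | hf
  · constructor
    · intro h
      rw [Polynomial.cyclotomic_zero, Polynomial.eval_one] at h
      exact absurd (Int.eq_one_of_dvd_one (by positivity) h) (by exact_mod_cast hp.ne_one)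
    · rintro ⟨j, hj⟩
      exact absurd hj.symm (Nat.mul_pos hord (pow_pos hp.pos j)).ne'
  obtain ⟨k, m, hm, rfl⟩ := Nat.exists_eq_pow_mul_and_not_dvd hf.ne' p hp.ne_one
  haveI : NeZero (m : ZMod p) := ⟨fun h => hm ((ZMod.natCast_eq_zero_iff m p).mp h)⟩
  have e : ((p : ℤ) ∣ (Polynomial.cyclotomic (p ^ k * m) ℤ).eval (q : ℤ)) ↔
      (Polynomial.cyclotomic (p ^ k * m) (ZMod p)).IsRoot (q : ZMod p) := by
    rw [← ZMod.intCast_zmod_eq_zero_iff_dvd, ← Polynomial.map_cyclotomic (p ^ k * m) (Int.castRingHom (ZMod p)),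
      Polynomial.IsRoot, show (q : ZMod p) = Int.castRingHom (ZMod p) (q : ℤ) by simp,
      Polynomial.eval_map, Polynomial.eval₂_at_apply]
    rfl
  rw [e, Polynomial.isRoot_cyclotomic_prime_pow_mul_iff_of_charP]
  constructor
  · intro h
    exact ⟨k, by rw [← h.eq_orderOf]; ring⟩
  · rintro ⟨j, hj⟩
    have h2 : ¬ p ∣ orderOf (q : ZMod p) := fun h => by
      have h3 : orderOf (q : ZMod p) ∣ p - 1 := orderOf_dvd_of_pow_eq_one (ZMod.pow_card_sub_one_eq_one hq0)
      have := Nat.le_of_dvd (Nat.sub_pos_of_lt hp.one_lt) (h.trans h3)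
      exact absurd this (not_le.mpr (Nat.sub_lt hp.pos Nat.one_pos))
    have h5 := congrArg (fun n => n / p ^ padicValNat p n) hj
    have hval : ∀ a b : ℕ, ¬ p ∣ a → (p ^ b * a) / p ^ padicValNat p (p ^ b * a) = a := by
      intro a b ha
      have ha0 : a ≠ 0 := fun h => ha (h ▸ dvd_zero p)
      rw [padicValNat.mul (pow_ne_zero b hp.ne_zero) ha0, padicValNat.prime_pow, padicValNat.eq_zero_of_not_dvd ha,
        add_zero, Nat.mul_div_cancel_left _ (pow_pos hp.pos b)]
    simp only [mul_comm (orderOf (q : ZMod p)), hval _ _ hm, hval _ _ h2] at h5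
    rw [h5]
    exact IsPrimitiveRoot.orderOf _

end Cfsg.Agent.S4230
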