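import Cfsg.Statements.S4238
import Cfsg.Agent.Lib.Schmidt
import Cfsg.Agent.Lib.NPCFix
import Cfsg.Agent.Lib.PConstrained
import Cfsg.Agent.Lib.GroupB.Coprime
import Cfsg.Agent.S0577
import Cfsg.Agent.S0132

set_option autoImplicit false
open Cfsg

namespace Cfsg.Agent.S4238

theorem no_exponent_element {K : Type*} [Group K] [Finite K] {p q : ℕ} [hp : Fact p.Prime] [hq : Fact q.Prime]
    (hpq : p ≠ q) (P : Subgroup K) [P.Normal] (hP : IsPGroup p P) (hPc : ∀ a ∈ P, ∀ b ∈ P, a * b = b * a) (v : K)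
    (hv : ∃ j, orderOf v = q ^ j) (hsup : Subgroup.zpowers v ⊔ P = ⊤) (hna : ¬ IsMulCommutative K)
    (hmin : ∀ L : Subgroup K, L ≠ ⊤ → IsMulCommutative L) (k : K) (hk : orderOf k = Monoid.exponent K) : False := by
  classical
  obtain ⟨j, hj⟩ := hv
  obtain ⟨s, hs⟩ := hP.exists_card_eq
  have hexp : ∀ a : K, orderOf a ∣ orderOf k := fun a => hk ▸ Monoid.order_dvd_exponent a
  have hcomm_of : (∀ y ∈ P, v * y = y * v) → False := fun h => by
    refine hna ⟨⟨fun a b => ?_⟩⟩
    have hC : (⊤ : Subgroup K) ≤ Subgroup.centralizer ((⊤ : Subgroup K) : Set K) := by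
      rw [← hsup, sup_le_iff]
      refine ⟨Subgroup.zpowers_le.mpr ?_, fun y hy => ?_⟩
      · rw [hsup, Subgroup.mem_centralizer_iff]
        intro w _
        obtain ⟨c, hc, u, hu, rfl⟩ := Subgroup.mem_sup_of_normal_right.mp (hsup ▸ Subgroup.mem_top w)
        obtain ⟨i, rfl⟩ := hc
        exact ((show Commute v (v ^ i) from (Commute.refl v).zpow_right i).mul_right (h u hu)).eq.symm
      · rw [hsup, Subgroup.mem_centralizer_iff]
        intro w _
        obtain ⟨c, hc, u, hu, rfl⟩ := Subgroup.mem_sup_of_normal_right.mp (hsup ▸ Subgroup.mem_top w)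
        obtain ⟨i, rfl⟩ := hc
        exact (((show Commute v y from h y hy).zpow_left i).mul_left (hPc u hu y hy)).eq
    exact (Subgroup.mem_centralizer_iff.mp (hC (Subgroup.mem_top b)) a (Subgroup.mem_top a))
  have hPbot : P ≠ ⊥ := fun h0 => hcomm_of fun y hy => by rw [h0, Subgroup.mem_bot] at hy; simp [hy]
  have hpk : p ∣ orderOf k := by
    obtain ⟨u, hu, hu1⟩ := P.bot_or_exists_ne_one.resolve_left hPbot
    obtain ⟨i, hi⟩ := IsPGroup.iff_orderOf.mp hP ⟨u, hu⟩
    rw [Subgroup.orderOf_mk] at hi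
    refine (dvd_pow_self p ?_).trans (hi ▸ hexp u)
    rintro rfl
    exact hu1 (orderOf_eq_one_iff.mp (by simpa using hi))
  have hcard : Nat.card K ∣ q ^ j * p ^ s := by
    have h1 := CfsgLib.Core.card_sup_dvd_of_normal (Subgroup.zpowers v) P
    rwa [hsup, Subgroup.card_top, Nat.card_zpowers, hj, hs] at h1
  have hcop : (q ^ j).Coprime (p ^ s) := ((Nat.coprime_primes hq.out hp.out).mpr (Ne.symm hpq)).pow j s
  -- the `q`-part of `k`
  set w := k ^ p ^ s with hw
  have hwo : orderOf w = q ^ j := by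
    refine Nat.dvd_antisymm ?_ ?_
    · apply orderOf_dvd_of_pow_eq_one
      rw [hw, ← pow_mul, mul_comm]
      exact orderOf_dvd_iff_pow_eq_one.mp ((orderOf_dvd_natCard k).trans hcard)
    · have h1 : q ^ j ∣ orderOf w * p ^ s := by
        refine (hj ▸ hexp v).trans (orderOf_dvd_of_pow_eq_one ?_)
        rw [mul_comm, pow_mul]; exact pow_orderOf_eq_one _
      exact hcop.dvd_of_dvd_mul_right h1
  obtain ⟨S1, hS1⟩ := (IsPGroup.of_card (p := q) (n := j) (G := Subgroup.zpowers v) (by rw [Nat.card_zpowers, hj])).exists_le_sylow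
  have hS1e : (S1 : Subgroup K) = Subgroup.zpowers v := by
    refine le_antisymm (fun y hy => ?_) hS1
    obtain ⟨c, hc, u, hu, e⟩ := Subgroup.mem_sup_of_normal_right.mp (hsup ▸ Subgroup.mem_top y)
    have huS : u ∈ (S1 : Subgroup K) := by
      rw [show u = c⁻¹ * y by rw [← e, inv_mul_cancel_left]]
      exact (S1 : Subgroup K).mul_mem ((S1 : Subgroup K).inv_mem (hS1 hc)) hy
    obtain ⟨i1, hi1⟩ := IsPGroup.iff_orderOf.mp hP ⟨u, hu⟩
    obtain ⟨i2, hi2⟩ := IsPGroup.iff_orderOf.mp S1.2 ⟨u, huS⟩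
    rw [Subgroup.orderOf_mk] at hi1 hi2
    have hu1 : u = 1 := orderOf_eq_one_iff.mp (Nat.eq_one_of_dvd_coprimes
      (((Nat.coprime_primes hp.out hq.out).mpr hpq).pow i1 i2) (hi1 ▸ dvd_rfl) (hi2 ▸ dvd_rfl))
    rw [← e, hu1, mul_one]; exact hc
  obtain ⟨S2, hS2⟩ := (IsPGroup.of_card (p := q) (n := j) (G := Subgroup.zpowers w) (by rw [Nat.card_zpowers, hwo])).exists_le_sylow
  obtain ⟨g, hg⟩ := MulAction.exists_smul_eq K S2 S1
  have hgw : g * w * g⁻¹ ∈ Subgroup.zpowers v := by
    rw [← hS1e, ← hg, Sylow.coe_subgroup_smul]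
    exact ⟨w, hS2 (Subgroup.mem_zpowers w), rfl⟩
  have hvw : v ∈ Subgroup.zpowers (g * w * g⁻¹) := by
    have : Subgroup.zpowers (g * w * g⁻¹) = Subgroup.zpowers v := by
      refine Subgroup.eq_of_le_of_card_ge (Subgroup.zpowers_le.mpr hgw) ?_
      rw [Nat.card_zpowers, Nat.card_zpowers, CfsgLib.ThompsonNPC.orderOf_conj_eq, hwo, hj]
    rw [this]; exact Subgroup.mem_zpowers v
  set k' := g * k * g⁻¹ with hk'
  have hk'o : orderOf k' = orderOf k := by rw [hk', CfsgLib.ThompsonNPC.orderOf_conj_eq]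
  have hkv : Commute k' v := by
    obtain ⟨i, hi⟩ := hvw
    rw [← hi]
    refine Commute.zpow_right ?_ i
    have : g * w * g⁻¹ = k' ^ p ^ s := by rw [hk', conj_pow, hw]
    rw [this]
    exact (Commute.refl k').pow_right _
  set u := k' ^ q ^ j with hu
  have huP : u ∈ P := by
    refine (QuotientGroup.eq_one_iff u).mp ?_
    have h1 : (u : K ⧸ P) = ((k' : K ⧸ P)) ^ q ^ j := by rw [hu, QuotientGroup.mk_pow]
    rw [h1, ← orderOf_dvd_iff_pow_eq_one]
    obtain ⟨c, hc, a, ha, e⟩ := Subgroup.mem_sup_of_normal_right.mp (hsup ▸ Subgroup.mem_top k')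
    rw [← e, QuotientGroup.mk_mul, (QuotientGroup.eq_one_iff a).mpr ha, mul_one]
    exact ((orderOf_map_dvd (QuotientGroup.mk' P) c).trans
      ((Subgroup.orderOf_dvd_natCard _ hc).trans (by rw [Nat.card_zpowers, hj])))
  have hu1 : u ≠ 1 := by
    intro h1
    have h2 : orderOf k ∣ q ^ j := hk'o ▸ orderOf_dvd_of_pow_eq_one h1
    exact hpq ((Nat.prime_dvd_prime_iff_eq hp.out hq.out).mp (hp.out.dvd_of_dvd_pow (hpk.trans h2)))
  letI : CommGroup P := { (inferInstance : Group P) with mul_comm := fun a b => Subtype.ext (hPc a a.2 b b.2) }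
  let e : P →* P :=
    { toFun := fun y => ⟨v * y * v⁻¹, (inferInstance : P.Normal).conj_mem y y.2 v⟩
      map_one' := Subtype.ext (by simp)
      map_mul' := fun a b => Subtype.ext (by simp) }
  let d : P →* P := e / MonoidHom.id P
  set o := q ^ j
  have hiter : ∀ (i : ℕ) (y : P), ((e^[i] y : P) : K) = v ^ i * y * (v ^ i)⁻¹ := by
    intro i y
    induction i with
    | zero => simp
    | succ i ih =>
      rw [Function.iterate_succ_apply']
      show v * (e^[i] y : P) * v⁻¹ = _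
      rw [ih, pow_succ']; group
  let f : P → P := fun y => ∏ i ∈ Finset.range o, e^[i] y
  have hfd : ∀ y : P, f (d y) = 1 := by
    intro y
    have h1 : ∀ i, e^[i] (d y) = e^[i + 1] y / e^[i] y := by
      intro i
      rw [Function.iterate_succ_apply]
      show e^[i] (e y / y) = _
      exact iterate_map_div e i _ _
    show ∏ i ∈ Finset.range o, e^[i] (d y) = 1
    simp only [h1]
    rw [Finset.prod_range_div (fun i => e^[i] y), div_eq_one]
    apply Subtype.ext
    rw [hiter, hiter, ← hj, pow_orderOf_eq_one]; simp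
  set W := d.range.map P.subtype with hW
  have hWP : W ≤ P := Subgroup.map_subtype_le _
  have hWv : Subgroup.zpowers v ≤ Subgroup.normalizer (W : Set K) := by
    rw [Subgroup.zpowers_le]
    refine Subgroup.mem_normalizer_fintype fun y hy => ?_
    obtain ⟨_, ⟨y, rfl⟩, rfl⟩ := hy
    refine ⟨d (e y), ⟨e y, rfl⟩, ?_⟩
    show ((e (e y) / e y : P) : K) = v * ((e y / y : P) : K) * v⁻¹
    have : e (e y) / e y = e (e y / y) := (map_div e _ _).symm
    rw [this]; rfl
  have hL : Subgroup.zpowers v ⊔ W ≠ ⊤ := by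
    intro htop
    obtain ⟨c, hc, a, ha, ea⟩ := (CfsgLib.GroupB.Coprime.mem_sup_of_le_normalizer hWv).mp
      (show u ∈ W ⊔ Subgroup.zpowers v by rw [sup_comm, htop]; exact Subgroup.mem_top u)
    have ha1 : a = 1 := by
      have haP : a ∈ P := by
        rw [show a = c⁻¹ * u by rw [← ea, inv_mul_cancel_left]]
        exact P.mul_mem (P.inv_mem (hWP hc)) huP
      obtain ⟨i1, hi1⟩ := IsPGroup.iff_orderOf.mp hP ⟨a, haP⟩
      rw [Subgroup.orderOf_mk] at hi1
      exact orderOf_eq_one_iff.mp (Nat.eq_one_of_dvd_coprimes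
        (((Nat.coprime_primes hp.out hq.out).mpr hpq).pow i1 j) (hi1 ▸ dvd_rfl)
        ((Subgroup.orderOf_dvd_natCard _ ha).trans (by rw [Nat.card_zpowers, hj])))
    rw [ha1, mul_one] at ea
    obtain ⟨_, ⟨y, rfl⟩, hy⟩ := hc
    have h1 : f (d y) = d y ^ o := by
      show ∏ i ∈ Finset.range o, e^[i] (d y) = _
      have hfix : ∀ i, e^[i] (d y) = d y := fun i => by
        apply Subtype.ext
        rw [hiter]
        have hc' : Commute v (d y : K) := by
          rw [show ((d y : P) : K) = u from hy.trans ea, hu]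
          exact (hkv.symm).pow_right _
        rw [((hc'.pow_left i)).eq, mul_inv_cancel_right]
      simp only [hfix, Finset.prod_const, Finset.card_range]
    rw [hfd] at h1
    have h2 : u ^ o = 1 := by
      rw [← show ((d y : P) : K) = u from hy.trans ea, ← Subgroup.coe_pow, ← h1]; rfl
    obtain ⟨i1, hi1⟩ := IsPGroup.iff_orderOf.mp hP ⟨u, huP⟩
    rw [Subgroup.orderOf_mk] at hi1
    exact hu1 (orderOf_eq_one_iff.mp (Nat.eq_one_of_dvd_coprimes
      (((Nat.coprime_primes hp.out hq.out).mpr hpq).pow i1 j) (hi1 ▸ dvd_rfl) (orderOf_dvd_of_pow_eq_one h2)))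
  refine hcomm_of fun y hy => ?_
  have hn : v * ((d ⟨y, hy⟩ : P) : K) = ((d ⟨y, hy⟩ : P) : K) * v := by
    have := (hmin _ hL).is_comm.comm (⟨v, Subgroup.mem_sup_left (Subgroup.mem_zpowers v)⟩ : ↥(Subgroup.zpowers v ⊔ W))
      ⟨_, Subgroup.mem_sup_right ⟨d ⟨y, hy⟩, ⟨_, rfl⟩, rfl⟩⟩
    exact congrArg Subtype.val this
  obtain ⟨i1, hi1⟩ := hP (d ⟨y, hy⟩)
  refine CfsgLib.NPCFix.commute_of_shift (p := p) (n := ((d ⟨y, hy⟩ : P) : K)) (k := i1) ?_ ?_ hn
    (by have := congrArg Subtype.val hi1; simpa using this)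
  · rw [hj]; exact ((Nat.coprime_primes hq.out hp.out).mpr (Ne.symm hpq)).pow_left j
  · have : d ⟨y, hy⟩ = e ⟨y, hy⟩ / ⟨y, hy⟩ := rfl
    rw [this, div_eq_mul_inv, mul_comm (e ⟨y, hy⟩) _]
    show v * y * v⁻¹ = y * (y⁻¹ * (v * y * v⁻¹))
    rw [mul_inv_cancel_left]

/-- Let G be a finite group and p a prime. Then G has a normal p-complement if and only if every section K = H/N of G (N a normal subgroup of a subgroup H) whose largest normal subgroup of order prime to p is trivial contains an element whose order equals the exponent of K. -/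
theorem result {G : Type*} [Group G] [Finite G] (p : ℕ) [Fact p.Prime] :
    Cfsg.HasNormalPComplement p G ↔
      ∀ (H : Subgroup G) (N : Subgroup H) [N.Normal], Cfsg.pPrimeCore p (H ⧸ N) = ⊥ →
        ∃ k : H ⧸ N, orderOf k = Monoid.exponent (H ⧸ N) := by
  classical
  have hp : p.Prime := Fact.out
  constructor
  · intro hG H N _ hcore
    have h1 := CfsgLib.ThompsonNPC.hasNPC_subgroup_iff.mpr ((CfsgLib.ThompsonNPC.hasNPC_iff.mp hG).mono (le_top : H ≤ ⊤))
    obtain ⟨P, M, hM, hc⟩ := h1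
    haveI := hM
    have hπ : Function.Surjective (QuotientGroup.mk' N) := QuotientGroup.mk'_surjective N
    have hMN : M ≤ N := by
      have hcop : (Nat.card M).Coprime p := by
        rw [← hc.index_eq_card]; exact (hp.coprime_iff_not_dvd.mpr P.not_dvd_index).symm
      intro x hx
      have h2 := CfsgLib.Core.le_pPrimeCore (hM.map _ hπ) (CfsgLib.Core.coprime_card_map (QuotientGroup.mk' N) hcop)
        ⟨x, hx, rfl⟩
      rw [hcore, Subgroup.mem_bot] at h2
      exact (QuotientGroup.eq_one_iff x).mp h2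
    have hK : IsPGroup p (↥H ⧸ N) := by
      have h3 : IsPGroup p (↥H ⧸ M) := by
        obtain ⟨i, hi⟩ := P.2.exists_card_eq
        exact IsPGroup.of_card (n := i) (by rw [← Subgroup.index_eq_card, hc.symm.index_eq_card, hi])
      exact h3.of_surjective (QuotientGroup.map M N (MonoidHom.id _) hMN)
        (fun z => by
          obtain ⟨z, rfl⟩ := hπ z
          exact ⟨QuotientGroup.mk z, rfl⟩)
    obtain ⟨z, hz⟩ := Finite.exists_max (fun z : ↥H ⧸ N => orderOf z)
    refine ⟨z, Nat.dvd_antisymm (Monoid.order_dvd_exponent z) (Monoid.exponent_dvd.mpr fun w => ?_)⟩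
    obtain ⟨i, hi⟩ := IsPGroup.iff_orderOf.mp hK w
    obtain ⟨j, hj⟩ := IsPGroup.iff_orderOf.mp hK z
    rw [hi, hj]
    exact Nat.pow_dvd_pow p ((Nat.pow_le_pow_iff_right hp.one_lt).mp (by have := hz w; rwa [hi, hj] at this))
  · intro hsec
    by_contra hG
    obtain ⟨H, hH, hHmin⟩ : ∃ H : Subgroup G, ¬ Cfsg.HasNormalPComplement p H ∧
        ∀ L : Subgroup G, L < H → Cfsg.HasNormalPComplement p L := by
      have hex : ∃ n, ∃ H : Subgroup G, Nat.card H = n ∧ ¬ Cfsg.HasNormalPComplement p H := by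
        refine ⟨_, ⊤, rfl, fun h => hG ?_⟩
        exact CfsgLib.ThompsonNPC.hasNPC_iff.mpr (CfsgLib.ThompsonNPC.hasNPC_subgroup_iff.mp h)
      obtain ⟨H, hHc, hH⟩ := Nat.find_spec hex
      refine ⟨H, hH, fun L hL => ?_⟩
      by_contra hL'
      have h1 := Nat.find_min' hex ⟨L, rfl, hL'⟩
      rw [← hHc] at h1
      exact hL.ne (Subgroup.eq_of_le_of_card_ge hL.le h1)
    obtain ⟨hnil, hnot, hnorm⟩ := Cfsg.Agent.S0132.result hH fun L hL => by
      have h1 : L.map H.subtype < H := lt_of_le_of_ne (Subgroup.map_subtype_le L) fun e => hL (by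
        refine Subgroup.map_injective H.subtype_injective ?_
        rw [e, ← MonoidHom.range_eq_map, Subgroup.range_subtype])
      have h2 := CfsgLib.ThompsonNPC.hasNPC_subgroup_iff.mp (hHmin _ h1)
      refine CfsgLib.ThompsonNPC.hasNPC_subgroup_iff.mpr fun x hx y hy h3 h4 => ?_
      rw [← Subgroup.orderOf_coe] at h3 h4 ⊢
      exact h2 _ ⟨x, hx, rfl⟩ _ ⟨y, hy, rfl⟩ h3 h4
    have hS : Cfsg.IsMinimalNonNilpotent ↥H := ⟨hnot, hnil⟩
    obtain ⟨q, r, x, hq, hr, hqr, ⟨k, hk⟩, R, hR, hsup, hxC⟩ := CfsgLib.Schmidt.structure_thm hS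
    haveI := Fact.mk hq
    haveI := Fact.mk hr
    haveI := hR
    obtain ⟨P⟩ := (inferInstance : Nonempty (Sylow p ↥H))
    haveI hPn := hnorm P
    have hrp : r = p := by
      by_contra hne
      obtain ⟨T, hT⟩ := CfsgLib.Schmidt.exists_sylow_eq hqr hk R hsup
      obtain ⟨i, hi⟩ := R.2.exists_card_eq
      apply hH
      refine CfsgLib.ThompsonNPC.hasNPC_iff.mpr fun a _ b _ ha hb => ?_
      by_cases hqp : q = p
      · subst hqp
        have hin : ∀ z : ↥H, (orderOf z).Coprime q → z ∈ (R : Subgroup ↥H) := fun z hz => by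
          refine (QuotientGroup.eq_one_iff z).mp (orderOf_eq_one_iff.mp (Nat.eq_one_of_dvd_coprimes (hz.pow_right k)
            (orderOf_map_dvd (QuotientGroup.mk' (R : Subgroup ↥H)) z) ?_))
          obtain ⟨c, hc, w, hw, e⟩ := Subgroup.mem_sup_of_normal_right.mp (hsup ▸ Subgroup.mem_top z)
          rw [← e, QuotientGroup.mk_mul, (QuotientGroup.eq_one_iff w).mpr hw, mul_one]
          exact (orderOf_map_dvd (QuotientGroup.mk' (R : Subgroup ↥H)) c).trans
            ((Subgroup.orderOf_dvd_natCard _ hc).trans (by rw [Nat.card_zpowers, hk]))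
        exact ((Nat.coprime_primes hr hq).mpr (Ne.symm hqr)).pow_left i |>.coprime_dvd_left
          (hi ▸ Subgroup.orderOf_dvd_natCard _ (mul_mem (hin a ha) (hin b hb)))
      · have hcard : Nat.card ↥H ∣ q ^ k * r ^ i := by
          have h1 := CfsgLib.Core.card_sup_dvd_of_normal (Subgroup.zpowers x) (R : Subgroup ↥H)
          rwa [hsup, Subgroup.card_top, Nat.card_zpowers, hk, hi] at h1
        exact (Nat.Coprime.mul_left (((Nat.coprime_primes hq hp).mpr hqp).pow_left k)
          (((Nat.coprime_primes hr hp).mpr hne).pow_left i)).coprime_dvd_left ((orderOf_dvd_natCard _).trans hcard)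
    subst hrp
    set Q := (R : Subgroup ↥H)
    have hpdvd : r ∣ Nat.card ↥H := by
      by_contra hnd
      apply hH
      refine CfsgLib.ThompsonNPC.hasNPC_iff.mpr fun a _ b _ _ _ => ?_
      exact (hr.coprime_iff_not_dvd.mpr hnd).symm.coprime_dvd_left (orderOf_dvd_natCard _)
    set D := (commutator ↥Q).map Q.subtype with hD
    haveI hDn : D.Normal := by
      rw [hD]; infer_instance
    obtain ⟨hna, hmin⟩ := Cfsg.Agent.S0577.result hS r hpdvd R hR D hD
    set T := Cfsg.pPrimeCore r (↥H ⧸ D)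
    haveI := CfsgLib.Core.pPrimeCore_characteristic (G := ↥H ⧸ D) r
    set π := (QuotientGroup.mk' T).comp (QuotientGroup.mk' D) with hπdef
    have hπ : Function.Surjective π := (QuotientGroup.mk'_surjective T).comp (QuotientGroup.mk'_surjective D)
    let ee := QuotientGroup.quotientKerEquivOfSurjective π hπ
    obtain ⟨k0, hk0⟩ := hsec H π.ker (by
      rw [← Subgroup.map_eq_bot_iff_of_injective _ (f := ee.toMonoidHom) ee.injective,
        CfsgLib.Core.pPrimeCore_map_equiv ee r]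
      exact CfsgLib.Core.pPrimeCore_quotient_eq_bot r)
    have hQab : ∀ a ∈ Q, ∀ b ∈ Q, QuotientGroup.mk' D a * QuotientGroup.mk' D b =
        QuotientGroup.mk' D b * QuotientGroup.mk' D a := fun a ha b hb => by
      have h : QuotientGroup.mk' D (a * b * a⁻¹ * b⁻¹) = 1 := (QuotientGroup.eq_one_iff _).mpr
        ⟨_, Subgroup.commutator_mem_commutator (Subgroup.mem_top (⟨a, ha⟩ : ↥Q)) (Subgroup.mem_top (⟨b, hb⟩ : ↥Q)), rfl⟩
      rwa [map_mul, map_mul, map_mul, map_inv, map_inv, mul_inv_eq_one, mul_inv_eq_iff_eq_mul] at h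
    haveI : (Q.map π).Normal := hR.map π hπ
    refine no_exponent_element (Ne.symm hqr) (Q.map π) (R.2.map π) ?_ (π x) ?_ ?_ ?_ ?_ (ee k0) ?_
    · rintro _ ⟨a, ha, rfl⟩ _ ⟨b, hb, rfl⟩
      have := congrArg (QuotientGroup.mk' T) (hQab a ha b hb)
      rw [map_mul, map_mul] at this
      exact this
    · obtain ⟨i, -, hi⟩ := (Nat.dvd_prime_pow hq).mp (hk ▸ orderOf_map_dvd π x)
      exact ⟨i, hi⟩
    · rw [← MonoidHom.map_zpowers, ← Subgroup.map_sup, hsup, Subgroup.map_top_of_surjective π hπ]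
    · intro hab
      refine hna ⟨⟨fun a b => ?_⟩⟩
      have hxq : ∀ y ∈ Q, QuotientGroup.mk' D x * QuotientGroup.mk' D y = QuotientGroup.mk' D y * QuotientGroup.mk' D x := by
        intro y hy
        set c := QuotientGroup.mk' D (x * y * x⁻¹ * y⁻¹) with hc
        have hcT : c ∈ T := by
          refine (QuotientGroup.eq_one_iff c).mp ?_
          show π (x * y * x⁻¹ * y⁻¹) = 1
          simp only [map_mul, map_inv]
          rw [hab.is_comm.comm (π x) (π y)]; group
        have hcQ : c ∈ Q.map (QuotientGroup.mk' D) := ⟨_, Q.mul_mem (hR.conj_mem y hy x) (Q.inv_mem hy), rfl⟩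
        have h1 : Q.map (QuotientGroup.mk' D) ⊓ T = ⊥ :=
          CfsgLib.PConstrained.inf_eq_bot_of_coprime (R.2.map _) (CfsgLib.Core.card_pPrimeCore_coprime r)
        have h2 : c = 1 := Subgroup.mem_bot.mp (h1 ▸ ⟨hcQ, hcT⟩)
        rwa [hc, map_mul, map_mul, map_mul, map_inv, map_inv, mul_inv_eq_one, mul_inv_eq_iff_eq_mul] at h2
      obtain ⟨a, rfl⟩ := QuotientGroup.mk'_surjective D a
      obtain ⟨b, rfl⟩ := QuotientGroup.mk'_surjective D b
      obtain ⟨c1, hc1, u1, hu1, rfl⟩ := Subgroup.mem_sup_of_normal_right.mp (hsup ▸ Subgroup.mem_top a)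
      obtain ⟨c2, hc2, u2, hu2, rfl⟩ := Subgroup.mem_sup_of_normal_right.mp (hsup ▸ Subgroup.mem_top b)
      obtain ⟨i1, rfl⟩ := hc1
      obtain ⟨i2, rfl⟩ := hc2
      set X := QuotientGroup.mk' D x
      simp only [map_mul, map_zpow]
      have e1 : Commute X (QuotientGroup.mk' D u1) := hxq u1 hu1
      have e2 : Commute X (QuotientGroup.mk' D u2) := hxq u2 hu2
      exact ((((Commute.refl X).zpow_zpow i1 i2).mul_right (e2.zpow_left i1)).mul_left
        ((e1.symm.zpow_right i2).mul_right (hQab u1 hu1 u2 hu2))).eq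
    · intro L hL
      have hL' : L.comap (QuotientGroup.mk' T) ≠ ⊤ := fun e => hL (by
        rw [← Subgroup.map_comap_eq_self_of_surjective (QuotientGroup.mk'_surjective T) L, e,
          Subgroup.map_top_of_surjective _ (QuotientGroup.mk'_surjective T)])
      refine ⟨⟨fun a b => Subtype.ext ?_⟩⟩
      obtain ⟨a', ha'⟩ := QuotientGroup.mk'_surjective T (a : (↥H ⧸ D) ⧸ T)
      obtain ⟨b', hb'⟩ := QuotientGroup.mk'_surjective T (b : (↥H ⧸ D) ⧸ T)
      have h1 := congrArg Subtype.val ((hmin _ hL').is_comm.comm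
        (⟨a', show QuotientGroup.mk' T a' ∈ L from ha' ▸ a.2⟩ : ↥(L.comap (QuotientGroup.mk' T)))
        ⟨b', show QuotientGroup.mk' T b' ∈ L from hb' ▸ b.2⟩)
      have h2 := congrArg (QuotientGroup.mk' T) h1
      rw [Subgroup.coe_mul, Subgroup.coe_mul, map_mul, map_mul, ha', hb'] at h2
      exact h2
    · rw [MulEquiv.orderOf_eq, hk0]
      exact Monoid.exponent_eq_of_mulEquiv ee

end Cfsg.Agent.S4238
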