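import Cfsg.Statements.S4242
import Cfsg.Agent.Lib.Thompson.Kegel
import Cfsg.Agent.Lib.GroupB.FrobBasic
import Mathlib.GroupTheory.NoncommCoprod

set_option autoImplicit false
open Cfsg

namespace Cfsg.Agent.S4242

/-- Let G be a finite group and p a prime dividing its order. Every maximal subgroup of G of order divisible by p is nilpotent if and only if G is nilpotent, or G is a minimal non-nilpotent group, or G is the internal direct product of a normal subgroup of order p and a normal minimal non-nilpotent subgroup of order prime to p. -/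
theorem result {G : Type*} [Group G] [Finite G] (p : ℕ) (hp : p.Prime) (hpG : p ∣ Nat.card G) :
    (∀ M : Subgroup G, IsCoatom M → p ∣ Nat.card M → Group.IsNilpotent M) ↔
      (Group.IsNilpotent G ∨ Cfsg.IsMinimalNonNilpotent G ∨
        ∃ Z K : Subgroup G, Z.Normal ∧ K.Normal ∧ Z ⊓ K = ⊥ ∧ Z ⊔ K = ⊤ ∧ Nat.card Z = p ∧
          Cfsg.IsMinimalNonNilpotent K ∧ ¬ p ∣ Nat.card K) := by
  haveI := Fact.mk hp
  classical
  constructor
  · intro h
    by_cases hnil : Group.IsNilpotent G
    · exact Or.inl hnil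
    by_cases hmin : Cfsg.IsMinimalNonNilpotent G
    · exact Or.inr (Or.inl hmin)
    refine Or.inr (Or.inr ?_)
    have hprop : ∀ S : Subgroup G, S ≠ ⊤ → p ∣ Nat.card S → Group.IsNilpotent S := by
      intro S hS hd
      obtain ⟨M, hM, hle⟩ := (eq_top_or_exists_le_coatom S).resolve_left hS
      haveI := h M hM (hd.trans (Subgroup.card_dvd_of_le hle))
      exact Group.nilpotent_of_mulEquiv (Subgroup.subgroupOfEquivOfLe hle)
    obtain ⟨H, hH, hHn⟩ : ∃ H : Subgroup G, IsCoatom H ∧ ¬ Group.IsNilpotent H := by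
      by_contra hc
      push Not at hc
      refine hmin ⟨hnil, fun S hS => ?_⟩
      obtain ⟨M, hM, hle⟩ := (eq_top_or_exists_le_coatom S).resolve_left hS
      haveI := hc M hM
      exact Group.nilpotent_of_mulEquiv (Subgroup.subgroupOfEquivOfLe hle)
    have hpH : ¬ p ∣ Nat.card H := fun hd => hHn (h H hH hd)
    have hdvd : ∀ U : Subgroup G, IsPGroup p U → U ≠ ⊥ → p ∣ Nat.card U := by
      intro U hU hne
      obtain ⟨k, hk⟩ := IsPGroup.iff_card.mp hU
      rcases Nat.eq_zero_or_pos k with rfl | hk0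
      · exact absurd (Subgroup.card_eq_one.mp (by simpa using hk)) hne
      · rw [hk]; exact dvd_pow_self p hk0.ne'
    obtain ⟨U, hU, hUp, hUne⟩ : ∃ U : Subgroup G, U.Normal ∧ IsPGroup p U ∧ U ≠ ⊥ := by
      by_contra hc
      push Not at hc
      have hpc : CfsgLib.ThompsonNPC.PCOn p (⊤ : Subgroup G) := by
        refine CfsgLib.ThompsonNPC.pcOn_top_of_normalizers fun Q hQ hQne => ?_
        refine CfsgLib.ThompsonNPC.pcOn_top_subgroup.mp (CfsgLib.ThompsonNPC.pcOn_of_isNilpotent (hprop _ ?_
          ((hdvd Q hQ hQne).trans (Subgroup.card_dvd_of_le Subgroup.le_normalizer))))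
        exact fun ht => hQne (hc Q (Subgroup.normalizer_eq_top_iff.mp ht) hQ)
      obtain ⟨P, K, hK, hKP⟩ := (CfsgLib.ThompsonNPC.hasNPC_iff (p := p)).mpr hpc
      have hcop : (Nat.card (P : Subgroup G)).Coprime (Nat.card K) := by
        obtain ⟨k, hk⟩ := IsPGroup.iff_card.mp P.isPGroup'
        rw [hk, ← hKP.index_eq_card]
        exact Nat.Coprime.pow_left _ (hp.coprime_iff_not_dvd.mpr P.not_dvd_index)
      have hPK : (P : Subgroup G) ≤ Subgroup.normalizer (K : Set G) := by rw [Subgroup.normalizer_eq_top]; exact le_top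
      haveI : Group.IsNilpotent (P : Subgroup G) := P.isPGroup'.isNilpotent
      have hPne : (P : Subgroup G) ≠ ⊥ := by
        intro hb
        have := P.not_dvd_index
        rw [hb, Subgroup.index_bot] at this
        exact this hpG
      have hHK : H ≤ K := by
        intro x hx
        rw [← QuotientGroup.eq_one_iff (N := K), ← orderOf_eq_one_iff, ← Nat.dvd_one]
        have h2 : orderOf (QuotientGroup.mk x : G ⧸ K) ∣ Nat.card H :=
          (orderOf_map_dvd (QuotientGroup.mk' K) x).trans (Subgroup.orderOf_mk x hx ▸ orderOf_dvd_natCard (⟨x, hx⟩ : H))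
        have h3 : orderOf (QuotientGroup.mk x : G ⧸ K) ∣ Nat.card (P : Subgroup G) := by
          rw [← hKP.symm.index_eq_card]; exact orderOf_dvd_natCard _
        obtain ⟨k, hk⟩ := IsPGroup.iff_card.mp P.isPGroup'
        rw [hk] at h3
        exact (Nat.Coprime.pow_right k (hp.coprime_iff_not_dvd.mpr hpH).symm).gcd_eq_one ▸ Nat.dvd_gcd h2 h3
      have hcent : K ≤ Subgroup.centralizer ((P : Subgroup G) : Set G) := by
        -- each invariant Sylow subgroup of `K` is centralized
        have hsy : ∀ q : ℕ, q.Prime → ∃ Q : Subgroup G, CfsgLib.GroupB.Coprime.IsSylowOf q Q K ∧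
            Q ≤ Subgroup.centralizer ((P : Subgroup G) : Set G) := by
          intro q hq
          haveI := Fact.mk hq
          obtain ⟨⟨Q, hQ, hPQ⟩, -⟩ := CfsgLib.GroupB.Coprime.invariant_sylow hPK hcop (Or.inr inferInstance) q
          refine ⟨Q, hQ, ?_⟩
          have hS : (Q ⊔ (P : Subgroup G)) ≠ ⊤ := by
            intro ht
            have hKQ : K ≤ Q := by
              intro k hk
              obtain ⟨a, ha, b, hb, hab⟩ := (CfsgLib.GroupB.Coprime.mem_sup_of_le_normalizer hPQ).mp (ht ▸ Subgroup.mem_top k)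
              have hbK : b ∈ K := by
                have := K.mul_mem (K.inv_mem (hQ.1 ha)) hk
                rwa [← hab, inv_mul_cancel_left] at this
              have hb1 : b ∈ K ⊓ (P : Subgroup G) := ⟨hbK, hb⟩
              rw [CfsgLib.GroupB.Coprime.inf_eq_bot_of_coprime hcop.symm, Subgroup.mem_bot] at hb1
              rw [← hab, hb1, mul_one]; exact ha
            haveI : Group.IsNilpotent Q := hQ.isPGroup.isNilpotent
            exact hHn (Group.nilpotent_of_mulEquiv (Subgroup.subgroupOfEquivOfLe (hHK.trans hKQ)))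
          haveI := hprop _ hS ((hdvd _ P.isPGroup' hPne).trans (Subgroup.card_dvd_of_le le_sup_right))
          intro x hx
          rw [Subgroup.mem_centralizer_iff]
          intro y hy
          have := CfsgLib.GroupB.FrobBasic.commute_of_coprime (G := ↥(Q ⊔ (P : Subgroup G)))
            (a := ⟨y, Subgroup.mem_sup_right hy⟩) (b := ⟨x, Subgroup.mem_sup_left hx⟩) (by
              rw [Subgroup.orderOf_mk, Subgroup.orderOf_mk]
              exact (hcop.coprime_dvd_left (Subgroup.orderOf_mk y hy ▸ orderOf_dvd_natCard (⟨y, hy⟩ : (P : Subgroup G)))).coprime_dvd_right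
                ((Subgroup.orderOf_mk x hx ▸ orderOf_dvd_natCard (⟨x, hx⟩ : Q)).trans (Subgroup.card_dvd_of_le hQ.1)))
          exact congrArg Subtype.val this.eq
        intro k hk
        by_contra hkc
        set C := (Subgroup.centralizer ((P : Subgroup G) : Set G)).subgroupOf K
        have hne : C.index ≠ 1 := fun h1 => hkc (show (⟨k, hk⟩ : K) ∈ C by rw [Subgroup.index_eq_one.mp h1]; trivial)
        obtain ⟨q, hq, hqd⟩ := Nat.exists_prime_and_dvd hne
        haveI := Fact.mk hq
        obtain ⟨Q, hQ, hQC⟩ := hsy q hq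
        obtain ⟨S, hS⟩ := hQ.exists_sylow
        refine S.not_dvd_index (hqd.trans (Subgroup.index_dvd_of_le fun x hx => ?_))
        exact hQC (hS ▸ Subgroup.mem_map_of_mem K.subtype hx)
      refine hPne (hc P (Subgroup.normalizer_eq_top_iff.mp (eq_top_iff.mpr fun g _ => ?_)) P.isPGroup')
      obtain ⟨⟨k, u⟩, hku⟩ := hKP.2 g
      rw [← hku]
      exact mul_mem (Subgroup.centralizer_le_normalizer _ (hcent k.2)) (Subgroup.le_normalizer u.2)
    haveI := hU
    have hUH : ¬ U ≤ H := fun hle => hpH ((hdvd U hUp hUne).trans (Subgroup.card_dvd_of_le hle))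
    have htop : U ⊔ H = ⊤ := hH.2 _ (lt_of_le_not_ge le_sup_right fun hle => hUH (le_sup_left.trans hle))
    have hcop : (Nat.card U).Coprime (Nat.card H) := by
      obtain ⟨k, hk⟩ := IsPGroup.iff_card.mp hUp
      rw [hk]; exact Nat.Coprime.pow_left k (hp.coprime_iff_not_dvd.mpr hpH)
    have hinf := CfsgLib.GroupB.Coprime.inf_eq_bot_of_coprime hcop
    have hHU : H ≤ Subgroup.normalizer (U : Set G) := by rw [Subgroup.normalizer_eq_top]; exact le_top
    have hcard : ∀ L : Subgroup G, L ≤ H → Nat.card ↥(U ⊔ L) = Nat.card U * Nat.card L := fun L hL =>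
      CfsgLib.GroupB.Coprime.card_sup_eq (hL.trans hHU) (le_bot_iff.mp ((inf_le_inf_left U hL).trans hinf.le))
    have hsmall : ∀ L : Subgroup G, L ≤ H → L ≠ H → Group.IsNilpotent L ∧ ∀ x ∈ L, ∀ u ∈ U, x * u = u * x := by
      intro L hL hne
      have hne' : U ⊔ L ≠ ⊤ := by
        intro ht
        have h1 := hcard L hL
        rw [ht, ← htop, hcard H le_rfl] at h1
        exact hne (Subgroup.eq_of_le_of_card_ge hL (Nat.eq_of_mul_eq_mul_left Nat.card_pos h1).le)
      haveI := hprop _ hne' ((hdvd U hUp hUne).trans (Subgroup.card_dvd_of_le le_sup_left))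
      refine ⟨Group.nilpotent_of_mulEquiv (Subgroup.subgroupOfEquivOfLe (le_sup_right : L ≤ U ⊔ L)), fun x hx u hu => ?_⟩
      have := CfsgLib.GroupB.FrobBasic.commute_of_coprime (G := ↥(U ⊔ L))
        (a := ⟨x, Subgroup.mem_sup_right hx⟩) (b := ⟨u, Subgroup.mem_sup_left hu⟩) (by
          rw [Subgroup.orderOf_mk, Subgroup.orderOf_mk]
          exact (hcop.symm.coprime_dvd_left ((Subgroup.orderOf_mk x hx ▸ orderOf_dvd_natCard (⟨x, hx⟩ : L)).trans
            (Subgroup.card_dvd_of_le hL))).coprime_dvd_right (Subgroup.orderOf_mk u hu ▸ orderOf_dvd_natCard (⟨u, hu⟩ : U)))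
      exact congrArg Subtype.val this.eq
    have hHmin : Cfsg.IsMinimalNonNilpotent H := by
      refine ⟨hHn, fun L hL => ?_⟩
      haveI := (hsmall (L.map H.subtype) (Subgroup.map_subtype_le L) fun he => hL (Subgroup.map_injective H.subtype_injective
        (by rw [he, ← MonoidHom.range_eq_map, Subgroup.range_subtype]))).1
      exact Group.nilpotent_of_mulEquiv (L.equivMapOfInjective H.subtype H.subtype_injective).symm
    have hcomm : ∀ x ∈ H, ∀ u ∈ U, x * u = u * x := by
      intro x hx
      refine (hsmall (Subgroup.zpowers x) ((Subgroup.zpowers_le).mpr hx) fun he => hHn ?_).2 x (Subgroup.mem_zpowers x)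
      rw [← he]
      exact Group.nilpotent_of_mulEquiv (G := Multiplicative ℤ ⧸ (zpowersHom G x).ker)
        ((QuotientGroup.quotientKerEquivRange (zpowersHom G x)).trans (MulEquiv.subgroupCongr (by rw [Subgroup.range_zpowersHom])))
    have hHnorm : H.Normal := by
      refine Subgroup.normalizer_eq_top_iff.mp (top_unique ?_)
      rw [← htop]
      refine sup_le (fun u hu => Subgroup.mem_normalizer_iff.mpr fun y => ?_) Subgroup.le_normalizer
      constructor
      · intro hy
        rw [← hcomm y hy u hu, mul_inv_cancel_right]; exact hy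
      · intro hy
        have e := hcomm _ hy u hu
        have : y = u * y * u⁻¹ := by
          calc y = u⁻¹ * ((u * y * u⁻¹) * u) := by group
            _ = u⁻¹ * (u * (u * y * u⁻¹)) := by rw [e]
            _ = u * y * u⁻¹ := by group
        rwa [this]
    refine ⟨U, H, hU, hHnorm, hinf, htop, ?_, hHmin, hpH⟩
    obtain ⟨k, hk⟩ := IsPGroup.iff_card.mp hUp
    obtain ⟨z, hz⟩ := exists_prime_orderOf_dvd_card' (G := U) p (hdvd U hUp hUne)
    by_contra hne
    refine hHn ?_
    have hzU : Subgroup.zpowers (z : G) ≤ U := (Subgroup.zpowers_le).mpr z.2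
    have hV : Subgroup.zpowers (z : G) ⊔ H ≠ ⊤ := by
      intro ht
      have hHz : H ≤ Subgroup.normalizer ((Subgroup.zpowers (z : G) : Subgroup G) : Set G) := by
        refine le_trans (fun x hx => ?_) (Subgroup.centralizer_le_normalizer _)
        rw [Subgroup.mem_centralizer_iff]
        exact fun y hy => (hcomm x hx y (hzU hy)).symm
      have h1 := CfsgLib.GroupB.Coprime.card_sup_eq hHz (le_bot_iff.mp ((inf_le_inf_right H hzU).trans hinf.le))
      rw [ht, Nat.card_zpowers, Subgroup.orderOf_coe, hz, ← htop, hcard H le_rfl] at h1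
      exact hne (Nat.eq_of_mul_eq_mul_right Nat.card_pos h1)
    haveI := hprop _ hV ((show p ∣ Nat.card (Subgroup.zpowers (z : G)) by rw [Nat.card_zpowers, Subgroup.orderOf_coe, hz]).trans
      (Subgroup.card_dvd_of_le le_sup_left))
    exact Group.nilpotent_of_mulEquiv (Subgroup.subgroupOfEquivOfLe (le_sup_right : H ≤ Subgroup.zpowers (z : G) ⊔ H))
  · rintro (hn | hm | ⟨Z, K, hZ, hK, hZK, hsup, hZc, hKm, hpK⟩) M hM hd
    · infer_instance
    · exact hm.2 M hM.1
    · haveI := hZ
      haveI := hK
      obtain ⟨x, hx⟩ := exists_prime_orderOf_dvd_card' (G := M) p hd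
      rw [← Subgroup.orderOf_coe] at hx
      have hKZ : K ≤ Subgroup.normalizer (Z : Set G) := by rw [Subgroup.normalizer_eq_top]; exact le_top
      obtain ⟨a, ha, b, hb, hab⟩ := (CfsgLib.GroupB.Coprime.mem_sup_of_le_normalizer hKZ).mp (hsup ▸ Subgroup.mem_top (x : G))
      have hc : ∀ a ∈ Z, ∀ b ∈ K, Commute a b := fun a ha b hb =>
        Subgroup.commute_of_normal_of_disjoint Z K hZ hK (disjoint_iff.mpr hZK) a b ha hb
      have hb1 : b = 1 := by
        have h1 : (a * b) ^ p = 1 := by rw [hab, ← hx, pow_orderOf_eq_one]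
        rw [(hc a ha b hb).mul_pow, show a ^ p = 1 by rw [← hZc]; exact congrArg Subtype.val (pow_card_eq_one' (x := (⟨a, ha⟩ : Z))), one_mul] at h1
        have h2 := orderOf_dvd_of_pow_eq_one h1
        rcases (Nat.dvd_prime hp).mp h2 with h3 | h3
        · exact orderOf_eq_one_iff.mp h3
        · exact absurd (h3 ▸ (Subgroup.orderOf_mk b hb ▸ orderOf_dvd_natCard (⟨b, hb⟩ : K))) hpK
      have hZM : Z ≤ M := by
        haveI : Fact (Nat.card Z).Prime := ⟨by rw [hZc]; exact hp⟩
        rw [hb1, mul_one] at hab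
        have hxne : (x : G) ≠ 1 := fun h1 => hp.one_lt.ne (by rw [← hx, h1, orderOf_one])
        intro z hz
        have hg := mem_zpowers_of_prime_card (g := (⟨a, ha⟩ : Z)) (g' := ⟨z, hz⟩) rfl (fun h1 => hxne (by rw [← hab]; exact congrArg Subtype.val h1))
        obtain ⟨i, hi⟩ := Subgroup.mem_zpowers_iff.mp hg
        have : z = a ^ i := (congrArg Subtype.val hi).symm
        rw [this, hab]; exact M.zpow_mem x.2 i
      have hM'top : (M ⊓ K).subgroupOf K ≠ ⊤ := by
        intro ht
        rw [Subgroup.subgroupOf_eq_top] at ht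
        exact hM.1 (top_unique (hsup ▸ sup_le hZM (ht.trans inf_le_left)))
      haveI := hKm.2 _ hM'top
      haveI : Group.IsNilpotent ↥(M ⊓ K) := Group.nilpotent_of_mulEquiv (Subgroup.subgroupOfEquivOfLe inf_le_right)
      haveI : Group.IsNilpotent Z := (IsPGroup.of_card (p := p) (n := 1) (by rw [hZc, pow_one])).isNilpotent
      let f : Z × ↥(M ⊓ K) →* M := MonoidHom.noncommCoprod (Subgroup.inclusion hZM) (Subgroup.inclusion inf_le_left)
        fun u v => Subtype.ext (hc u u.2 v v.2.2).eq
      refine Group.nilpotent_of_surjective f fun m => ?_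
      obtain ⟨c, hc', d, hd', hcd⟩ := (CfsgLib.GroupB.Coprime.mem_sup_of_le_normalizer hKZ).mp (hsup ▸ Subgroup.mem_top (m : G))
      have hdM : d ∈ M := by
        have := M.mul_mem (M.inv_mem (hZM hc')) m.2
        rwa [← hcd, inv_mul_cancel_left] at this
      exact ⟨(⟨c, hc'⟩, ⟨d, hdM, hd'⟩), Subtype.ext hcd⟩

end Cfsg.Agent.S4242
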