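import Cfsg.Statements.S4249
import Cfsg.Agent.Lib.Thompson.Hughes

set_option autoImplicit false
open Cfsg

namespace Cfsg.Agent.S4249

/-- Let G be a finite group and p a prime such that G is not a p-group, and suppose the Hughes subgroup H_p(G), generated by all elements g with g^p ≠ 1, is a proper subgroup. Then H_p(G) is nilpotent and has index p in G. -/
theorem result {G : Type*} [Group G] [Finite G] (p : ℕ) (hp : p.Prime) (hG : ¬ IsPGroup p G)
    (hH : Subgroup.closure {g : G | g ^ p ≠ 1} ≠ ⊤) :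
    Group.IsNilpotent (Subgroup.closure {g : G | g ^ p ≠ 1}) ∧ (Subgroup.closure {g : G | g ^ p ≠ 1}).index = p := by
  haveI := Fact.mk hp
  set K := Subgroup.closure {g : G | g ^ p ≠ 1}
  haveI : K.Normal := by
    rw [← Subgroup.normalizer_eq_top_iff, eq_top_iff]
    intro g _
    apply CfsgLib.ThompsonNPC.mem_normalizer_of_conj_map_eq
    rw [MonoidHom.map_closure]
    congr 1
    ext x
    constructor
    · rintro ⟨y, hy, rfl⟩
      show (g * y * g⁻¹) ^ p ≠ 1
      rw [conj_pow]; intro h; exact hy (by simpa using h)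
    · intro hx
      refine ⟨g⁻¹ * x * g, fun h => hx ?_, by simp [mul_assoc]⟩
      rw [show g⁻¹ * x * g = g⁻¹ * x * g⁻¹⁻¹ by rw [inv_inv], conj_pow, inv_inv] at h
      calc x ^ p = g * (g⁻¹ * x ^ p * g) * g⁻¹ := by group
        _ = 1 := by rw [h, mul_one, mul_inv_cancel]
  have hout : ∀ g, g ∉ K → g ^ p = 1 := fun g hg => by_contra fun h => hg (Subgroup.subset_closure h)
  exact ⟨CfsgLib.ThompsonNPC.isNilpotent_of_pow_eq_one hH hout,
    CfsgLib.ThompsonNPC.index_eq_of_hughes hH hout hG⟩

end Cfsg.Agent.S4249
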