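import Cfsg.Statements.S4252
import Cfsg.Agent.Lib.GroupB.FrobBasic

set_option autoImplicit false
open Cfsg

namespace Cfsg.Agent.S4252

/-- Let a finite group G act on a finite set Ω with more than one point, transitively but not regularly, so that no non-identity element of G fixes two distinct points. Then the stabilizer H of any point is a Frobenius complement in G (nontrivial, proper, meeting its other conjugates trivially), and the Frobenius kernel of G with respect to H (the identity together with the elements lying in no conjugate of H) is exactly the set consisting of the identity and the elements fixing no point. -/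
theorem result {G Ω : Type*} [Group G] [Finite G] [Fintype Ω] [MulAction G Ω] (hΩ : 1 < Fintype.card Ω)
    (htrans : ∀ α β : Ω, ∃ g : G, g • α = β) (hnreg : ∃ g : G, g ≠ 1 ∧ ∃ α : Ω, g • α = α)
    (hfix : ∀ g : G, g ≠ 1 → ∀ α β : Ω, g • α = α → g • β = β → α = β) (α : Ω) :
    Cfsg.IsFrobeniusComplement (MulAction.stabilizer G α) ∧
      Cfsg.frobeniusKernel (MulAction.stabilizer G α) = {g : G | g = 1 ∨ ∀ ω : Ω, g • ω ≠ ω} := by
  refine ⟨⟨?_, ?_, fun g hg => ?_⟩, ?_⟩
  · intro hb
    obtain ⟨g, hg, β, hβ⟩ := hnreg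
    obtain ⟨x, rfl⟩ := htrans α β
    have : x⁻¹ * g * x ∈ MulAction.stabilizer G α := by
      rw [MulAction.mem_stabilizer_iff, mul_smul, mul_smul, hβ, inv_smul_smul]
    rw [hb, Subgroup.mem_bot] at this
    apply hg
    have := congrArg (fun t => x * t * x⁻¹) this
    simpa [mul_assoc] using this
  · intro ht
    haveI : Nontrivial Ω := Fintype.one_lt_card_iff_nontrivial.mp hΩ
    obtain ⟨β, hβ⟩ := exists_ne α
    obtain ⟨g, hg⟩ := htrans α β
    exact hβ (hg ▸ (ht.ge (Subgroup.mem_top g) : g • α = α))
  · rw [eq_bot_iff]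
    rintro x ⟨hx, hxg⟩
    have hxg' : g⁻¹ * x * g ∈ MulAction.stabilizer G α := CfsgLib.GroupB.Frobenius.mem_conj_smul_iff.mp hxg
    rw [MulAction.mem_stabilizer_iff, mul_smul, mul_smul, inv_smul_eq_iff] at hxg'
    rw [Subgroup.mem_bot]
    by_contra h1
    exact hg (MulAction.mem_stabilizer_iff.mpr (hfix x h1 α (g • α) hx hxg').symm)
  · ext x
    rw [CfsgLib.GroupB.Frobenius.mem_kernel_iff, Set.mem_setOf_eq]
    refine or_congr_right ⟨fun h ω hω => ?_, fun h g hg => ?_⟩
    · obtain ⟨g, rfl⟩ := htrans α ω
      exact h g (by rw [MulAction.mem_stabilizer_iff, mul_smul, mul_smul, hω, inv_smul_smul])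
    · rw [MulAction.mem_stabilizer_iff, mul_smul, mul_smul, inv_smul_eq_iff] at hg
      exact h _ hg

end Cfsg.Agent.S4252
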