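import Cfsg.Statements.S4253
import Cfsg.Agent.Lib.GroupB.FrobBasic

set_option autoImplicit false
open Cfsg

namespace Cfsg.Agent.S4253

/-- Let H be a Frobenius complement in a finite group G (a nontrivial proper subgroup meeting each conjugate gHg⁻¹ with g outside H trivially). Then in the action of G on the left cosets of H by left multiplication, no non-identity element of G fixes two distinct cosets. -/
theorem result {G : Type*} [Group G] [Finite G] (H : Subgroup G) (hH : Cfsg.IsFrobeniusComplement H)
    (g : G) (hg : g ≠ 1) (a b : G ⧸ H) (ha : g • a = a) (hb : g • b = b) : a = b := by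
  induction a using QuotientGroup.induction_on with
  | H x => induction b using QuotientGroup.induction_on with
    | H y =>
      have hx : x⁻¹ * g * x ∈ H := by
        have := (QuotientGroup.eq.mp ha.symm : x⁻¹ * (g * x) ∈ H); simpa [mul_assoc] using this
      have hy : y⁻¹ * g * y ∈ H := by
        have := (QuotientGroup.eq.mp hb.symm : y⁻¹ * (g * y) ∈ H); simpa [mul_assoc] using this
      refine QuotientGroup.eq.mpr (CfsgLib.GroupB.Frobenius.mem_of_conj_mem hH hx ?_ ?_)
      · intro e
        apply hg
        have := congrArg (fun t => x * t * x⁻¹) e
        simpa [mul_assoc] using this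
      · simpa [mul_assoc] using hy

end Cfsg.Agent.S4253
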