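import Cfsg.Statements.S4260

set_option autoImplicit false
open Cfsg

namespace Cfsg.Agent.S4260

/-- Let H be a Hall subgroup of a finite group G (the order of H is coprime to its index) such that x^[G : H] lies in H for every x in G. Then H is normal in G. -/
theorem result {G : Type*} [Group G] [Finite G] (H : Subgroup G) (hHall : (Nat.card H).Coprime H.index)
    (hexp : ∀ x : G, x ^ H.index ∈ H) : H.Normal := by
  refine ⟨fun h hh g => ?_⟩
  obtain ⟨u, hu⟩ : ∃ u : H, u ^ H.index = ⟨h, hh⟩ := (powCoprime hHall).surjective ⟨h, hh⟩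
  have h1 : (u : G) ^ H.index = h := congrArg Subtype.val hu
  have := hexp (g * u * g⁻¹)
  rwa [conj_pow, h1] at this

end Cfsg.Agent.S4260
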