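import Cfsg.Statements.S4261
import Mathlib

set_option autoImplicit false
open Cfsg

namespace Cfsg.Agent.S4261

/-- Let M be a maximal subgroup of a finite solvable group G such that x^[G : M] lies in M for every x in G. Then M is normal in G. -/
theorem result {G : Type*} [Group G] [Finite G] (hG : Group.IsSolvable G) (M : Subgroup G) (hM : IsCoatom M)
    (hexp : ∀ x : G, x ^ M.index ∈ M) : M.Normal := by
  classical
  suffices h : ∀ (n : ℕ) (H : Type _) [Group H] [Finite H] [Group.IsSolvable H], Nat.card H = n →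
      ∀ M : Subgroup H, IsCoatom M → (∀ x : H, x ^ M.index ∈ M) → M.Normal from
    haveI := hG; h _ G rfl M hM hexp
  intro n
  induction n using Nat.strong_induction_on with
  | _ n ih =>
  intro H _ _ _ hn M hM hexp
  by_cases hbot : Subsingleton H
  · exact ⟨fun x hx g => by rwa [Subsingleton.elim (g * x * g⁻¹) x]⟩
  haveI : Nontrivial H := not_subsingleton_iff_nontrivial.mp hbot
  -- a nontrivial abelian normal subgroup
  obtain ⟨A, hAn, hA1, hAc⟩ : ∃ A : Subgroup H, A.Normal ∧ A ≠ ⊥ ∧ IsMulCommutative A := by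
    obtain ⟨k, hk, hk'⟩ : ∃ k, derivedSeries H k ≠ ⊥ ∧ derivedSeries H (k + 1) = ⊥ := by
      by_contra h
      push Not at h
      obtain ⟨m, hm⟩ := (inferInstance : Group.IsSolvable H).solvable
      have : ∀ k, derivedSeries H k ≠ ⊥ := fun k => by
        induction k with
        | zero => exact top_ne_bot
        | succ k ihk => exact h k ihk
      exact this m hm
    refine ⟨derivedSeries H k, derivedSeries_normal H k, hk, ⟨⟨fun a b => Subtype.ext ?_⟩⟩⟩
    rw [derivedSeries_succ] at hk'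
    exact Subgroup.mem_centralizer_iff.mp (Subgroup.commutator_eq_bot_iff_le_centralizer.mp hk' b.2) a a.2
  have hdown : ∀ K : Subgroup H, K.Normal → K ≠ ⊥ → K ≤ M → M.Normal := by
    intro K hK hK1 hKM
    haveI := hK
    set f := QuotientGroup.mk' K
    have hf : Function.Surjective f := QuotientGroup.mk'_surjective K
    have hcm : (M.map f).comap f = M := by rw [Subgroup.comap_map_eq, QuotientGroup.ker_mk', sup_eq_left.mpr hKM]
    have hlt : Nat.card (H ⧸ K) < n := by
      rw [← hn, Subgroup.card_eq_card_quotient_mul_card_subgroup K]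
      exact lt_mul_of_one_lt_right Nat.card_pos ((Subgroup.one_lt_card_iff_ne_bot K).mpr hK1)
    have hidx : (M.map f).index = M.index := by rw [← Subgroup.index_comap_of_surjective _ hf, hcm]
    have hcoat : IsCoatom (M.map f) := by
      refine ⟨fun h => hM.1 (by rw [← hcm, h, Subgroup.comap_top]), fun L hL => ?_⟩
      have h1 : M < L.comap f := by
        rw [← hcm]; exact Subgroup.comap_lt_comap_of_surjective hf |>.mpr hL
      exact Subgroup.comap_injective hf ((hM.2 _ h1).trans (Subgroup.comap_top f).symm)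
    have := ih _ hlt (H ⧸ K) rfl (M.map f) hcoat fun x => by
      obtain ⟨x, rfl⟩ := hf x
      rw [hidx, ← map_pow]
      exact Subgroup.mem_map_of_mem _ (hexp x)
    rw [← hcm]
    exact this.comap f
  -- a nontrivial prime part of it
  obtain ⟨p, hp, hpd⟩ := Nat.exists_prime_and_dvd ((Subgroup.one_lt_card_iff_ne_bot A).mpr hA1).ne'
  haveI := Fact.mk hp
  let V : Subgroup H :=
    { carrier := {a | a ∈ A ∧ ∃ k, a ^ p ^ k = 1}
      one_mem' := ⟨A.one_mem, 0, one_pow _⟩
      mul_mem' := fun {a b} ha hb => ⟨A.mul_mem ha.1 hb.1, by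
        obtain ⟨k, hk⟩ := ha.2
        obtain ⟨l, hl⟩ := hb.2
        refine ⟨k + l, ?_⟩
        have hc : Commute a b := congrArg Subtype.val (hAc.is_comm.comm (⟨a, ha.1⟩ : A) ⟨b, hb.1⟩)
        rw [hc.mul_pow, pow_add, pow_mul, hk, one_pow, one_mul, mul_comm, pow_mul, hl, one_pow]⟩
      inv_mem' := fun {a} ha => ⟨A.inv_mem ha.1, ha.2.imp fun k hk => by rw [inv_pow, hk, inv_one]⟩ }
  haveI hVn : V.Normal := ⟨fun a ha g => ⟨hAn.conj_mem a ha.1 g, ha.2.imp fun k hk => by rw [conj_pow, hk]; group⟩⟩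
  have hVc : ∀ a ∈ V, ∀ b ∈ V, a * b = b * a := fun a ha b hb =>
    congrArg Subtype.val (hAc.is_comm.comm (⟨a, ha.1⟩ : A) ⟨b, hb.1⟩)
  have hVp : IsPGroup p V := fun a => a.2.2.imp fun k hk => Subtype.ext hk
  have hV1 : V ≠ ⊥ := by
    intro h
    obtain ⟨a, ha⟩ := exists_prime_orderOf_dvd_card' p hpd
    have : (a : H) ∈ V := ⟨a.2, 1, by rw [pow_one, ← ha, ← Subgroup.orderOf_coe, pow_orderOf_eq_one]⟩
    rw [h, Subgroup.mem_bot] at this
    rw [← Subgroup.orderOf_coe, this, orderOf_one] at ha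
    exact hp.ne_one ha.symm
  by_cases hVM : V ≤ M
  · exact hdown V hVn hV1 hVM
  have hsup : V ⊔ M = ⊤ := hM.2 _ (lt_of_le_of_ne le_sup_right fun h => hVM (h ▸ le_sup_left))
  by_cases hI : V ⊓ M = ⊥
  swap
  · refine hdown (V ⊓ M) (Subgroup.normalizer_eq_top_iff.mp (top_unique (hsup ▸ sup_le ?_ ?_))) hI inf_le_right
    · intro v hv
      rw [Subgroup.mem_normalizer_iff]
      intro y
      constructor
      · intro hy; rwa [hVc v hv y hy.1, mul_inv_cancel_right]
      · intro hy
        have := hVc v hv _ hy.1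
        have e : y = v * y * v⁻¹ := by
          conv_rhs => rw [show v * y * v⁻¹ = v⁻¹ * (v * (v * y * v⁻¹)) by group, this]
          group
        rwa [e]
    · intro m hm
      rw [Subgroup.mem_normalizer_iff]
      intro y
      constructor
      · exact fun hy => ⟨hVn.conj_mem y hy.1 m, M.mul_mem (M.mul_mem hm hy.2) (M.inv_mem hm)⟩
      · intro hy
        refine ⟨?_, ?_⟩
        · have := hVn.conj_mem _ hy.1 m⁻¹; simpa [mul_assoc] using this
        · have := M.mul_mem (M.mul_mem (M.inv_mem hm) hy.2) hm; simpa [mul_assoc] using this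
  -- the index is a power of `p`
  have hidx : M.index = Nat.card V := by
    have hc : Subgroup.IsComplement' V M := Subgroup.isComplement'_of_disjoint_and_mul_eq_univ
      (disjoint_iff.mpr hI) (Set.eq_univ_iff_forall.mpr fun g => by
        obtain ⟨v, hv, m, hm, rfl⟩ := Subgroup.mem_sup_of_normal_left.mp (hsup.symm ▸ Subgroup.mem_top g : g ∈ V ⊔ M)
        exact ⟨v, hv, m, hm, rfl⟩)
    exact hc.index_eq_card
  let φ : M →* MulAut V := (MulAut.conjNormal (H := V)).comp M.subtype
  have hker : ∀ m : M, (φ m) ^ M.index = 1 := by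
    intro m
    rw [← map_pow]
    refine MulEquiv.ext fun v => Subtype.ext ?_
    show (m : H) ^ M.index * (v : H) * ((m : H) ^ M.index)⁻¹ = v
    set y := (v : H) * ((m : H) ^ M.index) * (v : H)⁻¹ * ((m : H) ^ M.index)⁻¹ with hy
    have h1 : y ∈ M := by
      refine M.mul_mem ?_ (M.inv_mem (M.pow_mem m.2 _))
      rw [← conj_pow]; exact hexp _
    have h2 : y ∈ V := by
      rw [hy, mul_assoc ((v : H) * _), mul_assoc (v : H)]
      refine V.mul_mem v.2 ?_
      have := hVn.conj_mem _ (V.inv_mem v.2) ((m : H) ^ M.index)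
      simpa [mul_assoc] using this
    have h3 : y = 1 := Subgroup.mem_bot.mp (hI ▸ (⟨h2, h1⟩ : y ∈ V ⊓ M))
    rw [hy, mul_inv_eq_one, mul_inv_eq_iff_eq_mul] at h3
    rw [← h3, mul_inv_cancel_right]
  have hrp : IsPGroup p φ.range := by
    obtain ⟨j, hj⟩ := hVp.exists_card_eq
    rintro ⟨_, m, rfl⟩
    exact ⟨j, Subtype.ext (by show φ m ^ p ^ j = 1; rw [← hj, ← hidx]; exact hker m)⟩
  haveI : Nontrivial V := (Subgroup.nontrivial_iff_ne_bot V).mpr hV1
  have hdvd : p ∣ Nat.card V := by
    obtain ⟨j, hj⟩ := hVp.exists_card_eq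
    rcases j with _ | j
    · exact absurd hj (by simpa using (Finite.one_lt_card (α := V)).ne')
    · exact ⟨p ^ j, by rw [hj, pow_succ']⟩
  obtain ⟨w, hwfix, hw1⟩ := hrp.exists_fixed_point_of_prime_dvd_card_of_fixed_point V hdvd
    (a := 1) (fun u => map_one (u : MulAut V))
  have hwm : ∀ m ∈ M, m * (w : H) = w * m := fun m hm => by
    have := congrArg Subtype.val (hwfix ⟨φ ⟨m, hm⟩, ⟨m, hm⟩, rfl⟩)
    exact mul_inv_eq_iff_eq_mul.mp this
  have hwc : (w : H) ∈ Subgroup.center H := by
    rw [Subgroup.mem_center_iff]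
    intro g
    have : (⊤ : Subgroup H) ≤ Subgroup.centralizer ({(w : H)} : Set H) := hsup ▸ sup_le
      (fun v hv => Subgroup.mem_centralizer_singleton_iff.mpr (hVc v hv w w.2))
      (fun m hm => Subgroup.mem_centralizer_singleton_iff.mpr (hwm m hm))
    exact Subgroup.mem_centralizer_singleton_iff.mp (this (Subgroup.mem_top g))
  have hwM : (w : H) ∉ M := fun h => hw1 (Subtype.ext (Subgroup.mem_bot.mp (hI ▸ (⟨w.2, h⟩ : (w : H) ∈ V ⊓ M))).symm)
  have htop : M ⊔ Subgroup.zpowers (w : H) = ⊤ := hM.2 _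
    (lt_of_le_of_ne le_sup_left fun h => hwM (h ▸ Subgroup.mem_sup_right (Subgroup.mem_zpowers (w : H))))
  refine Subgroup.normalizer_eq_top_iff.mp (top_unique (htop ▸ sup_le Subgroup.le_normalizer (Subgroup.zpowers_le.mpr ?_)))
  rw [Subgroup.mem_normalizer_iff]
  intro y
  rw [← Subgroup.mem_center_iff.mp hwc y, mul_inv_cancel_right]

end Cfsg.Agent.S4261
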