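import Cfsg.Statements.S4263
import Cfsg.Agent.Lib.Core

set_option autoImplicit false
open Cfsg

namespace Cfsg.Agent.S4263

theorem nilpotent_pow_index_mem {F : Type*} [Group F] [Finite F] [Group.IsNilpotent F] (x : F) :
    ∀ K : Subgroup F, x ^ K.index ∈ K := by
  intro K
  induction hn : K.index using Nat.strong_induction_on generalizing K with
  | _ n ih =>
    subst hn
    by_cases hK : K = ⊤
    · subst hK; exact Subgroup.mem_top _
    have hlt : K < Subgroup.normalizer (K : Set F) :=
      Group.normalizerCondition_of_isNilpotent K (lt_top_iff_ne_top.mpr hK)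
    set N := Subgroup.normalizer (K : Set F) with hN
    have h1 : K.relIndex N * N.index = K.index := Subgroup.relIndex_mul_index hlt.le
    have h2 : N.index < K.index := Subgroup.index_strictAnti hlt
    have h3 : x ^ N.index ∈ N := ih _ h2 N rfl
    haveI : (K.subgroupOf N).Normal := Subgroup.normal_subgroupOf_of_le_normalizer le_rfl
    have h4 := Subgroup.pow_index_mem (K.subgroupOf N) (⟨_, h3⟩ : ↥N)
    rw [Subgroup.mem_subgroupOf, SubmonoidClass.coe_pow, ← pow_mul] at h4
    rw [← h1, mul_comm]
    exact h4

/-- Let G be a finite group. An element x lies in the Fitting subgroup F(G) if and only if, for every subgroup H of G, the power x^[G : H] lies in H. -/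
theorem result {G : Type*} [Group G] [Finite G] (x : G) :
    x ∈ Cfsg.fittingSubgroup G ↔ ∀ H : Subgroup G, x ^ H.index ∈ H := by
  haveI hFn : (fittingSubgroup G).Normal := CfsgLib.Core.fittingSubgroup_normal
  constructor
  · intro hx H
    haveI := CfsgLib.Core.isNilpotent_fittingSubgroup (G := G)
    have h1 := nilpotent_pow_index_mem (⟨x, hx⟩ : ↥(fittingSubgroup G))
      (H.subgroupOf (fittingSubgroup G))
    rw [Subgroup.mem_subgroupOf, SubmonoidClass.coe_pow] at h1
    have h2 : H.relIndex (fittingSubgroup G) ∣ H.index := by
      have e1 : H.relIndex (H ⊔ fittingSubgroup G) * (H ⊔ fittingSubgroup G).index = H.index :=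
        Subgroup.relIndex_mul_index le_sup_left
      have e2 : H.relIndex (H ⊔ fittingSubgroup G) = H.relIndex (fittingSubgroup G) := by
        set F := fittingSubgroup G
        have a : (H ⊓ F).relIndex H * H.relIndex (H ⊔ F) = (H ⊓ F).relIndex (H ⊔ F) :=
          Subgroup.relIndex_mul_relIndex _ _ _ inf_le_left le_sup_left
        have b : (H ⊓ F).relIndex F * F.relIndex (H ⊔ F) = (H ⊓ F).relIndex (H ⊔ F) :=
          Subgroup.relIndex_mul_relIndex _ _ _ inf_le_right le_sup_right
        rw [Subgroup.inf_relIndex_left] at a
        rw [Subgroup.inf_relIndex_right, Subgroup.relIndex_sup_right] at b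
        have hpos : F.relIndex H ≠ 0 := Subgroup.index_ne_zero_of_finite
        have : F.relIndex H * H.relIndex (H ⊔ F) = F.relIndex H * H.relIndex F := by
          rw [a, ← b, mul_comm]
        exact Nat.eq_of_mul_eq_mul_left (Nat.pos_of_ne_zero hpos) this
      exact e2 ▸ Dvd.intro _ e1
    obtain ⟨c, hc⟩ := h2
    rw [hc, pow_mul]
    exact pow_mem h1 c
  · intro h
    set π := QuotientGroup.mk' (fittingSubgroup G)
    have key : orderOf (π x) = 1 := by
      by_contra hne
      obtain ⟨q, hq, hqd⟩ := Nat.exists_prime_and_dvd hne
      haveI := Fact.mk hq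
      obtain ⟨P⟩ := (inferInstance : Nonempty (Sylow q G))
      have h1 : x ^ (P : Subgroup G).index ∈ pCore q G := by
        have hmem : x ^ (P : Subgroup G).index ∈ (P : Subgroup G).normalCore := by
          intro b
          have hb := h ((P : Subgroup G).map (MulAut.conj b⁻¹).toMonoidHom)
          rw [show ((P : Subgroup G).map (MulAut.conj b⁻¹).toMonoidHom).index = (P : Subgroup G).index
            from Subgroup.index_map_of_bijective (MulAut.conj b⁻¹).bijective _] at hb
          obtain ⟨z, hz, hze⟩ := hb
          have : b * x ^ (P : Subgroup G).index * b⁻¹ = z := by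
            rw [← hze, MulEquiv.coe_toMonoidHom, MulAut.conj_apply]
            group
          rw [this]; exact hz
        exact CfsgLib.Core.le_pCore (Subgroup.normalCore_normal _)
          (P.2.to_le (Subgroup.normalCore_le _)) hmem
      have h2 : orderOf (π x) ∣ (P : Subgroup G).index := by
        rw [orderOf_dvd_iff_pow_eq_one, ← map_pow]
        exact (QuotientGroup.eq_one_iff _).mpr (CfsgLib.Core.pCore_le_fittingSubgroup hq h1)
      exact P.not_dvd_index (hqd.trans h2)
    rw [orderOf_eq_one_iff] at key
    exact (QuotientGroup.eq_one_iff x).mp key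

end Cfsg.Agent.S4263
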