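import Cfsg.Statements.S4269

set_option autoImplicit false
open Cfsg

namespace Cfsg.Agent.S4269
open scoped commutatorElement

/-- Let G be a finite group, V an abelian normal subgroup and H a subgroup with HV = G. Then H is pronormal in G (H and gHg⁻¹ are conjugate inside the subgroup they generate, for every g) if and only if every H-invariant subgroup U of V satisfies U = N_U(H)·[H, U], that is, U is the join of U ∩ N_G(H) and the commutator subgroup [H, U]. -/
theorem result {G : Type*} [Group G] [Finite G]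
    (V : Subgroup G) [V.Normal] (hV : IsMulCommutative ↥V) (H : Subgroup G) (hHV : H ⊔ V = ⊤) :
    Cfsg.IsPronormal H ↔
      ∀ U : Subgroup G, U ≤ V → (∀ h ∈ H, U.map (MulAut.conj h).toMonoidHom = U) →
        U = (U ⊓ Subgroup.normalizer (H : Set G)) ⊔ ⁅H, U⁆ := by
  have hVc : ∀ a ∈ V, ∀ b ∈ V, a * b = b * a := fun a ha b hb => congrArg Subtype.val (hV.is_comm.comm (⟨a, ha⟩ : V) ⟨b, hb⟩)
  have hmem : ∀ (g x : G), x ∈ H.map (MulAut.conj g).toMonoidHom ↔ ∃ h ∈ H, g * h * g⁻¹ = x := fun g x => Iff.rfl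
  have hconjeq : ∀ x c n : G, x = c * n → n ∈ Subgroup.normalizer (H : Set G) →
      H.map (MulAut.conj x).toMonoidHom = H.map (MulAut.conj c).toMonoidHom := by
    rintro x c n rfl hn
    ext z
    rw [hmem, hmem]
    constructor
    · rintro ⟨h, hh, rfl⟩
      exact ⟨n * h * n⁻¹, (Subgroup.mem_normalizer_iff.mp hn h).mp hh, by group⟩
    · rintro ⟨h, hh, rfl⟩
      exact ⟨n⁻¹ * h * n, (Subgroup.mem_normalizer_iff''.mp hn h).mp hh, by group⟩
  constructor
  · intro hpro U hU hUinv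
    have hUc : ∀ h ∈ H, ∀ u ∈ U, h * u * h⁻¹ ∈ U := fun h hh u hu => (hUinv h hh) ▸ ⟨u, hu, rfl⟩
    have hcle : ⁅H, U⁆ ≤ U := Subgroup.commutator_le.mpr fun h hh u hu => U.mul_mem (hUc h hh u hu) (U.inv_mem hu)
    refine le_antisymm (fun u hu => ?_) (sup_le inf_le_left hcle)
    set J := H ⊔ ⁅H, U⁆
    have hHC : H ≤ Subgroup.normalizer (⁅H, U⁆ : Subgroup G) := by
      intro h hh
      refine Subgroup.mem_normalizer_fintype fun w hw => ?_
      have h2 : (⁅H, U⁆ : Subgroup G).map (MulAut.conj h).toMonoidHom ≤ ⁅H, U⁆ := by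
        rw [Subgroup.map_commutator]
        refine Subgroup.commutator_mono ?_ (hUinv h hh).le
        rintro _ ⟨a, ha, rfl⟩
        exact H.mul_mem (H.mul_mem hh ha) (H.inv_mem hh)
      exact h2 ⟨w, hw, rfl⟩
    obtain ⟨x, hx, he⟩ := hpro u
    have hxJ : x ∈ J := by
      refine (sup_le le_sup_left ?_ : H ⊔ H.map (MulAut.conj u).toMonoidHom ≤ J) hx
      rintro _ ⟨h, hh, rfl⟩
      show u * h * u⁻¹ ∈ J
      rw [show u * h * u⁻¹ = ⁅u, h⁆ * h by rw [commutatorElement_def]; group]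
      refine J.mul_mem (Subgroup.mem_sup_right ?_) (Subgroup.mem_sup_left hh)
      rw [← commutatorElement_inv]
      exact Subgroup.inv_mem _ (Subgroup.commutator_mem_commutator hh hu)
    have hx' : x ∈ (↑(H ⊔ ⁅H, U⁆) : Set G) := hxJ
    rw [Subgroup.coe_mul_of_left_le_normalizer_right _ _ hHC] at hx'
    obtain ⟨k, hk, c, hc, rfl⟩ := hx'
    -- write x as an element of the commutator times an element of H
    set c' := k * c * k⁻¹ with hc'
    have hc'm : c' ∈ (⁅H, U⁆ : Subgroup G) := (Subgroup.mem_normalizer_iff.mp (hHC hk) c).mp hc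
    have he' := he.trans (hconjeq (k * c) c' k (by rw [hc']; group) (Subgroup.le_normalizer hk))
    have hn : c'⁻¹ * u ∈ Subgroup.normalizer (H : Set G) := by
      refine Subgroup.mem_normalizer_fintype fun h hh => ?_
      obtain ⟨h', hh', e⟩ := (hmem c' _).mp (he' ▸ ⟨h, hh, rfl⟩ : u * h * u⁻¹ ∈ H.map (MulAut.conj c').toMonoidHom)
      rw [show c'⁻¹ * u * h * (c'⁻¹ * u)⁻¹ = c'⁻¹ * (u * h * u⁻¹) * c' by group, ← e]
      rw [show c'⁻¹ * (c' * h' * c'⁻¹) * c' = h' by group]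
      exact hh'
    rw [show u = c' * (c'⁻¹ * u) by group]
    exact Subgroup.mul_mem _ (Subgroup.mem_sup_right hc'm) (Subgroup.mem_sup_left ⟨U.mul_mem (U.inv_mem (hcle hc'm)) hu, hn⟩)
  · intro hall g
    obtain ⟨v, hv, h₀, hh₀, rfl⟩ : ∃ v ∈ V, ∃ h ∈ H, v * h = g := by
      have hg : g ∈ (↑(V ⊔ H) : Set G) := by rw [sup_comm, hHV]; trivial
      rw [Subgroup.normal_mul] at hg
      obtain ⟨v, hv, h, hh, e⟩ := hg
      exact ⟨v, hv, h, hh, e⟩
    rw [hconjeq (v * h₀) v h₀ rfl (Subgroup.le_normalizer hh₀)]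
    set J := H ⊔ H.map (MulAut.conj v).toMonoidHom
    have hHJ : H ≤ J := le_sup_left
    have hJv : ∀ h ∈ H, ⁅h, v⁆ ∈ J := fun h hh => by
      rw [show ⁅h, v⁆ = h * (v * h⁻¹ * v⁻¹) by rw [commutatorElement_def]; group]
      exact J.mul_mem (hHJ hh) (Subgroup.mem_sup_right ⟨h⁻¹, H.inv_mem hh, rfl⟩)
    set U := Subgroup.closure {u : G | ∃ h ∈ H, u = h * v * h⁻¹} with hUdef
    have hUV : U ≤ V := (Subgroup.closure_le _).mpr fun u ⟨h, _, e⟩ => e ▸ Subgroup.Normal.conj_mem inferInstance v hv h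
    have hUinv : ∀ h ∈ H, U.map (MulAut.conj h).toMonoidHom = U := by
      have key : ∀ h ∈ H, U.map (MulAut.conj h).toMonoidHom ≤ U := fun h hh => by
        rw [hUdef, MonoidHom.map_closure]
        refine Subgroup.closure_mono ?_
        rintro _ ⟨u, ⟨k, hk, rfl⟩, rfl⟩
        exact ⟨h * k, H.mul_mem hh hk, by show h * (k * v * k⁻¹) * h⁻¹ = _; group⟩
      intro h hh
      refine le_antisymm (key h hh) fun u hu => ⟨h⁻¹ * u * h, ?_, by show h * (h⁻¹ * u * h) * h⁻¹ = u; group⟩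
      have h2 := key h⁻¹ (H.inv_mem hh) ⟨u, hu, rfl⟩
      have h3 : h⁻¹ * u * h⁻¹⁻¹ ∈ U := h2
      rwa [inv_inv] at h3
    have hcJ : ⁅H, U⁆ ≤ J := by
      rw [Subgroup.commutator_le]
      intro h hh u hu
      induction hu using Subgroup.closure_induction generalizing h with
      | mem u hu =>
        obtain ⟨k, hk, rfl⟩ := hu
        rw [show ⁅h, k * v * k⁻¹⁆ = h * k * (⁅k⁻¹ * h⁻¹ * k, v⁆)⁻¹ * (h * k)⁻¹ by rw [commutatorElement_def, commutatorElement_def]; group]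
        exact J.mul_mem (J.mul_mem (hHJ (H.mul_mem hh hk)) (J.inv_mem (hJv _ (H.mul_mem (H.mul_mem (H.inv_mem hk) (H.inv_mem hh)) hk)))) (J.inv_mem (hHJ (H.mul_mem hh hk)))
      | one => rw [commutatorElement_one_right]; exact J.one_mem
      | mul a b ha hb iha ihb =>
        have e : ⁅h, a * b⁆ = ⁅h, a⁆ * ⁅h, b⁆ := by
          have hm : ⁅h, b⁆ ∈ V := V.mul_mem (Subgroup.Normal.conj_mem inferInstance b (hUV hb) h) (V.inv_mem (hUV hb))
          calc ⁅h, a * b⁆ = ⁅h, a⁆ * (a * ⁅h, b⁆ * a⁻¹) := by rw [commutatorElement_def, commutatorElement_def, commutatorElement_def]; group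
            _ = _ := by rw [hVc a (hUV ha) _ hm, mul_inv_cancel_right]
        rw [e]; exact J.mul_mem (iha h hh) (ihb h hh)
      | inv a ha iha =>
        have e : ⁅h, a⁻¹⁆ = ⁅h, a⁆⁻¹ := by
          have hm : ⁅h, a⁆⁻¹ ∈ V := V.inv_mem (V.mul_mem (Subgroup.Normal.conj_mem inferInstance a (hUV ha) h) (V.inv_mem (hUV ha)))
          calc ⁅h, a⁻¹⁆ = a⁻¹ * ⁅h, a⁆⁻¹ * a := by rw [commutatorElement_def, commutatorElement_def]; group
            _ = _ := by rw [hVc _ (V.inv_mem (hUV ha)) _ hm, inv_mul_cancel_right]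
        rw [e]; exact J.inv_mem (iha h hh)
    have hvU : v ∈ U := Subgroup.subset_closure ⟨1, H.one_mem, by group⟩
    rw [hall U hUV hUinv] at hvU
    haveI : IsMulCommutative U := ⟨⟨fun a b => Subtype.ext (hVc a (hUV a.2) b (hUV b.2))⟩⟩
    have hcle : ⁅H, U⁆ ≤ U := Subgroup.commutator_le.mpr fun h hh u hu =>
      U.mul_mem ((hUinv h hh) ▸ ⟨u, hu, rfl⟩ : h * u * h⁻¹ ∈ U) (U.inv_mem hu)
    have hn : U ⊓ Subgroup.normalizer (H : Set G) ≤ Subgroup.normalizer (⁅H, U⁆ : Subgroup G) := fun a ha =>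
      Subgroup.mem_normalizer_fintype fun w hw => by
        rw [hVc a (hUV ha.1) w (hUV (hcle hw)), mul_inv_cancel_right]; exact hw
    have hv' : v ∈ (↑((U ⊓ Subgroup.normalizer (H : Set G)) ⊔ ⁅H, U⁆) : Set G) := hvU
    rw [Subgroup.coe_mul_of_left_le_normalizer_right _ _ hn] at hv'
    obtain ⟨n, hn', c, hc, e⟩ := hv'
    refine ⟨c, hcJ hc, ?_⟩
    exact hconjeq v c n (by rw [← e]; exact hVc n (hUV hn'.1) c (hUV (hcle hc))) hn'.2

end Cfsg.Agent.S4269
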