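import Cfsg.Statements.S4270
import Cfsg.Agent.Lib.GroupB.Coprime

set_option autoImplicit false
open Cfsg

namespace Cfsg.Agent.S4270
universe u

abbrev cj {G : Type u} [Group G] (g : G) (H : Subgroup G) : Subgroup G := H.map (MulAut.conj g).toMonoidHom

theorem cj_cj {G : Type u} [Group G] (g h : G) (H : Subgroup G) : cj g (cj h H) = cj (g * h) H := by
  rw [cj, cj, cj, Subgroup.map_map, map_mul]; rfl

theorem cj_one {G : Type u} [Group G] (H : Subgroup G) : cj 1 H = H := by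
  rw [cj, map_one]; exact Subgroup.map_id _

theorem cj_eq {G : Type u} [Group G] {g : G} {H : Subgroup G} (h : g ∈ Subgroup.normalizer (H : Set G)) : cj g H = H :=
  CfsgLib.GroupB.Coprime.mem_normalizer_iff_map_conj_eq.mp h

theorem mem_norm {G : Type u} [Group G] {g : G} {H : Subgroup G} (h : cj g H = H) : g ∈ Subgroup.normalizer (H : Set G) :=
  CfsgLib.GroupB.Coprime.mem_normalizer_iff_map_conj_eq.mpr h

theorem cj_le {G : Type u} [Group G] {g : G} {H M : Subgroup G} (hH : H ≤ M) (hg : g ∈ M) : cj g H ≤ M := by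
  rintro _ ⟨x, hx, rfl⟩
  exact M.mul_mem (M.mul_mem hg (hH hx)) (M.inv_mem hg)

theorem cj_sup {G : Type u} [Group G] (g : G) (H K : Subgroup G) : cj g (H ⊔ K) = cj g H ⊔ cj g K := Subgroup.map_sup _ _ _

theorem pron_cj {G : Type u} [Group G] (c : G) {H : Subgroup G} (h : Cfsg.IsPronormal H) : Cfsg.IsPronormal (cj c H) := by
  intro g
  obtain ⟨x, hx, he⟩ := h (c⁻¹ * g * c)
  change cj (c⁻¹ * g * c) H = cj x H at he
  refine ⟨c * x * c⁻¹, ?_, ?_⟩
  · have h1 : c * x * c⁻¹ ∈ cj c (H ⊔ cj (c⁻¹ * g * c) H) := ⟨x, hx, rfl⟩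
    rw [cj_sup, cj_cj, show c * (c⁻¹ * g * c) = g * c by group, ← cj_cj] at h1
    exact h1
  · show cj g (cj c H) = cj (c * x * c⁻¹) (cj c H)
    rw [cj_cj, cj_cj, show c * x * c⁻¹ * c = c * x by group, ← cj_cj c x H, ← he, cj_cj,
      show c * (c⁻¹ * g * c) = g * c by group]

/-- Conjugates of a group inside a normal subgroup can be taken to normalize a given Sylow subgroup. -/
theorem adjust {G : Type u} [Group G] [Finite G] {p : ℕ} [Fact p.Prime] (A : Subgroup G) [A.Normal] (T : Subgroup G)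
    (hT : ∃ P : Sylow p A, (P : Subgroup A).map A.subtype = T) (X : Subgroup G) (hX : X ≤ A) (h1 : T ≤ X) (a : G) (ha : a ∈ A)
    (h2 : cj a T ≤ X) : ∃ i ∈ X, i * a ∈ Subgroup.normalizer (T : Set G) := by
  obtain ⟨P, rfl⟩ := hT
  set a' : A := ⟨a, ha⟩
  have hP1 : (P : Subgroup A) ≤ X.subgroupOf A := fun y hy => h1 ⟨y, hy, rfl⟩
  have hP2 : ((a' • P : Sylow p A) : Subgroup A) ≤ X.subgroupOf A := by
    rintro _ ⟨y, hy, rfl⟩
    exact h2 ⟨(y : G), ⟨y, hy, rfl⟩, rfl⟩
  obtain ⟨i, hi⟩ := MulAction.exists_smul_eq (X.subgroupOf A) ((a' • P).subtype hP2) (P.subtype hP1)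
  rw [Sylow.smul_subtype] at hi
  have hi' := Sylow.subtype_injective hi
  refine ⟨((i : A) : G), i.2, mem_norm ?_⟩
  have e : (i : A) • a' • P = P := hi'
  rw [← mul_smul] at e
  have e2 : cj ((i : A) * a') (P : Subgroup A) = (P : Subgroup A) := congrArg (fun Q : Sylow p A => (Q : Subgroup A)) e
  have e3 := congrArg (Subgroup.map A.subtype) e2
  rw [cj, Subgroup.map_map] at e3
  rw [cj, Subgroup.map_map]
  refine Eq.trans ?_ e3
  congr 1

theorem frattini {G : Type u} [Group G] [Finite G] {p : ℕ} [Fact p.Prime] (A : Subgroup G) [A.Normal] (T : Subgroup G)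
    (hT : ∃ P : Sylow p A, (P : Subgroup A).map A.subtype = T) (H : Subgroup G) (hH : T ≤ H) :
    (H ⊓ A) ⊔ (H ⊓ Subgroup.normalizer (T : Set G)) = H := by
  refine le_antisymm (sup_le inf_le_left inf_le_left) fun h hh => ?_
  obtain ⟨P, rfl⟩ := hT
  have hTA : (P : Subgroup A).map A.subtype ≤ A := Subgroup.map_subtype_le _
  have hTB : (P : Subgroup A).map A.subtype ≤ H ⊓ A := le_inf hH hTA
  set φ : A ≃* A := MulAut.conjNormal h with hφ
  have hP1 : (P : Subgroup A) ≤ (H ⊓ A).subgroupOf A := fun y hy => hTB ⟨y, hy, rfl⟩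
  have hP2 : ((φ • P : Sylow p A) : Subgroup A) ≤ (H ⊓ A).subgroupOf A := by
    rintro _ ⟨y, hy, rfl⟩
    refine ⟨?_, Subtype.coe_prop _⟩
    show ((MulAut.conjNormal h y : A) : G) ∈ H
    rw [MulAut.conjNormal_apply]
    exact H.mul_mem (H.mul_mem hh (hH ⟨y, hy, rfl⟩)) (H.inv_mem hh)
  obtain ⟨i, hi⟩ := MulAction.exists_smul_eq ((H ⊓ A).subgroupOf A) ((φ • P).subtype hP2) (P.subtype hP1)
  rw [Sylow.smul_subtype] at hi
  have hi' := Sylow.subtype_injective hi
  have e2 : ((φ • P : Sylow p A) : Subgroup A).map (MulAut.conj (i : A)).toMonoidHom = (P : Subgroup A) :=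
    congrArg (fun Q : Sylow p A => (Q : Subgroup A)) hi'
  have e3 := congrArg (Subgroup.map A.subtype) e2
  have hn : ((i : A) : G) * h ∈ Subgroup.normalizer (((P : Subgroup A).map A.subtype : Subgroup G) : Set G) := by
    refine mem_norm (le_antisymm ?_ ?_)
    · rintro _ ⟨_, ⟨y, hy, rfl⟩, rfl⟩
      rw [← e3]
      refine ⟨_, ⟨MulAut.conjNormal h y, ⟨y, hy, rfl⟩, rfl⟩, ?_⟩
      show ((i : A) : G) * ((MulAut.conjNormal h y : A) : G) * ((i : A) : G)⁻¹ = _
      rw [MulAut.conjNormal_apply]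
      show ((i : A) : G) * (h * (y : G) * h⁻¹) * ((i : A) : G)⁻¹ = ((i : A) : G) * h * (y : G) * (((i : A) : G) * h)⁻¹
      group
    · intro t ht
      rw [← e3] at ht
      obtain ⟨_, ⟨_, ⟨y, hy, rfl⟩, rfl⟩, rfl⟩ := ht
      refine ⟨(y : G), ⟨y, hy, rfl⟩, ?_⟩
      show ((i : A) : G) * h * (y : G) * (((i : A) : G) * h)⁻¹ = ((i : A) : G) * ((MulAut.conjNormal h y : A) : G) * ((i : A) : G)⁻¹
      rw [MulAut.conjNormal_apply]; group
  rw [show h = ((i : A) : G)⁻¹ * (((i : A) : G) * h) by group]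
  have hiH : ((i : A) : G) ∈ H := (Subgroup.mem_subgroupOf.mp i.2).1
  exact Subgroup.mul_mem_sup (Subgroup.inv_mem _ (Subgroup.mem_subgroupOf.mp i.2)) ⟨H.mul_mem hiH hh, hn⟩

theorem normalizer_map_le {G Q : Type u} [Group G] [Group Q] (f : G →* Q) (K : Subgroup G) :
    (Subgroup.normalizer (K : Set G)).map f ≤ Subgroup.normalizer ((K.map f : Subgroup Q) : Set Q) := Subgroup.le_normalizer_map f

theorem main {G : Type u} [Group G] [Finite G] {p : ℕ} [Fact p.Prime]
    (A : Subgroup G) [A.Normal] (hA : (∀ K : Subgroup ↥A, (∃ P : Sylow p ↥A, (P : Subgroup ↥A) ≤ K) → Cfsg.IsPronormal K)) (hQ : (∀ K : Subgroup (G ⧸ A), (∃ P : Sylow p (G ⧸ A), (P : Subgroup (G ⧸ A)) ≤ K) → Cfsg.IsPronormal K))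
    (T : Subgroup G) (hT : ∃ P : Sylow p ↥A, (P : Subgroup ↥A).map A.subtype = T) [(T.subgroupOf (Subgroup.normalizer (T : Set G))).Normal] :
    (∀ K : Subgroup G, (∃ P : Sylow p G, (P : Subgroup G) ≤ K) → Cfsg.IsPronormal K) ↔
      ((∀ K : Subgroup (↥(Subgroup.normalizer (T : Set G)) ⧸ T.subgroupOf (Subgroup.normalizer (T : Set G))), (∃ P : Sylow p (↥(Subgroup.normalizer (T : Set G)) ⧸ T.subgroupOf (Subgroup.normalizer (T : Set G))), (P : Subgroup (↥(Subgroup.normalizer (T : Set G)) ⧸ T.subgroupOf (Subgroup.normalizer (T : Set G)))) ≤ K) → Cfsg.IsPronormal K) ∧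
        ∀ K : Subgroup G, (∃ P : Sylow p G, (P : Subgroup G) ≤ K) →
          (Subgroup.normalizer (K : Set G)).map (QuotientGroup.mk' A) = Subgroup.normalizer ((K.map (QuotientGroup.mk' A) : Subgroup (G ⧸ A)) : Set (G ⧸ A))) := by
  classical
  set π := QuotientGroup.mk' A with hπdef
  have hπ := QuotientGroup.mk'_surjective A
  set N := Subgroup.normalizer (T : Set G) with hNdef
  set Tn := T.subgroupOf N with hTn
  set θ := QuotientGroup.mk' Tn with hθdef
  have hθ := QuotientGroup.mk'_surjective Tn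
  have hTA : T ≤ A := by obtain ⟨P, rfl⟩ := hT; exact Subgroup.map_subtype_le _
  have hTN : T ≤ N := Subgroup.le_normalizer
  -- a Sylow subgroup of `G` with `T` as its intersection with `A`
  obtain ⟨P₀, hP₀T, hP₀N⟩ : ∃ P : Sylow p G, T ≤ (P : Subgroup G) ∧ (P : Subgroup G) ≤ N := by
    obtain ⟨PA, hPA⟩ := hT
    obtain ⟨P, hP⟩ := (PA.2.map A.subtype).exists_le_sylow
    rw [hPA] at hP
    refine ⟨P, hP, ?_⟩
    have e : T = (P : Subgroup G) ⊓ A := by
      refine le_antisymm (le_inf hP hTA) fun x hx => ?_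
      have h1 : ((P : Subgroup G) ⊓ A).subgroupOf A = (PA : Subgroup A) := by
        refine PA.3 ?_ fun y hy => Subgroup.mem_subgroupOf.mpr ⟨hP (hPA ▸ ⟨y, hy, rfl⟩), y.2⟩
        exact (P.2.to_le inf_le_left).of_equiv (Subgroup.subgroupOfEquivOfLe inf_le_right).symm
      rw [← hPA]
      exact ⟨⟨x, hx.2⟩, by rw [← h1]; exact Subgroup.mem_subgroupOf.mpr hx, rfl⟩
    intro g hg
    refine mem_norm (le_antisymm ?_ ?_)
    · rintro _ ⟨w, hw, rfl⟩
      rw [e] at hw ⊢
      exact ⟨(P : Subgroup G).mul_mem ((P : Subgroup G).mul_mem hg hw.1) ((P : Subgroup G).inv_mem hg), (inferInstance : A.Normal).conj_mem w hw.2 g⟩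
    · intro w hw
      refine ⟨g⁻¹ * w * g, ?_, by simp [mul_assoc]⟩
      rw [e] at hw ⊢
      exact ⟨(P : Subgroup G).mul_mem ((P : Subgroup G).mul_mem ((P : Subgroup G).inv_mem hg) hw.1) hg, by
        have := (inferInstance : A.Normal).conj_mem w hw.2 g⁻¹; simpa using this⟩
  constructor
  · intro hG
    refine ⟨?_, ?_⟩
    · rintro K ⟨R, hR⟩ g
      obtain ⟨g', rfl⟩ := hθ g
      set K₁ := (K.comap θ).map N.subtype with hK₁
      have hex : ∃ P : Sylow p G, (P : Subgroup G) ≤ K₁ := by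
        obtain ⟨n, hn⟩ := MulAction.exists_smul_eq (↥N ⧸ Tn) ((P₀.subtype hP₀N).mapSurjective hθ) R
        obtain ⟨n', rfl⟩ := hθ n
        refine ⟨(n' : G) • P₀, ?_⟩
        rintro _ ⟨y, hy, rfl⟩
        refine ⟨n' * ⟨y, hP₀N hy⟩ * n'⁻¹, ?_, rfl⟩
        show θ (n' * ⟨y, hP₀N hy⟩ * n'⁻¹) ∈ K
        refine hR ?_
        rw [← hn]
        exact ⟨θ ⟨y, hP₀N hy⟩, ⟨⟨y, hP₀N hy⟩, hy, rfl⟩, by simp only [map_mul, map_inv]; rfl⟩
      obtain ⟨x, hx, he⟩ := hG K₁ hex (g' : G)
      change cj (g' : G) K₁ = cj x K₁ at he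
      have hc : ∀ z : N, cj (z : G) K₁ = (cj z (K.comap θ)).map N.subtype := fun z => by
        rw [hK₁, cj, cj, Subgroup.map_map, Subgroup.map_map]; congr 1
      have hmapθ : ∀ z : N, (cj z (K.comap θ)).map θ = cj (θ z) K := fun z => by
        conv_rhs => rw [← Subgroup.map_comap_eq_self_of_surjective hθ K]
        rw [cj, cj, Subgroup.map_map, Subgroup.map_map]; congr 1
      change x ∈ K₁ ⊔ cj (g' : G) K₁ at hx
      rw [hc, hK₁, ← Subgroup.map_sup] at hx
      obtain ⟨x', hx', rfl⟩ := hx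
      have e1 : cj g' (K.comap θ) = cj x' (K.comap θ) := by
        refine Subgroup.map_injective N.subtype_injective ?_
        rw [← hc, ← hc]; exact he
      refine ⟨θ x', ?_, ?_⟩
      · have := Subgroup.mem_map_of_mem θ hx'
        rw [Subgroup.map_sup, hmapθ, Subgroup.map_comap_eq_self_of_surjective hθ] at this
        exact this
      · show cj (θ g') K = cj (θ x') K
        rw [← hmapθ, ← hmapθ, e1]
    · intro K hK
      refine le_antisymm (normalizer_map_le π K) fun gq hgq => ?_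
      obtain ⟨g, rfl⟩ := hπ gq
      obtain ⟨x, hx, he⟩ := hG K hK g
      change cj g K = cj x K at he
      have hxK : π x ∈ K.map π := by
        have h1 := Subgroup.mem_map_of_mem π hx
        have h2 : (cj g K).map π = K.map π := by
          refine Eq.trans ?_ (cj_eq hgq)
          rw [cj, cj, Subgroup.map_map, Subgroup.map_map]; congr 1
        rw [Subgroup.map_sup] at h1
        rw [show K.map (MulAut.conj g).toMonoidHom = cj g K from rfl, h2, sup_idem] at h1
        exact h1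
      have hn : x⁻¹ * g ∈ Subgroup.normalizer (K : Set G) := mem_norm (by rw [← cj_cj, he, cj_cj, inv_mul_cancel, cj_one])
      rw [show g = x * (x⁻¹ * g) by group, map_mul]
      refine mul_mem ?_ (Subgroup.mem_map_of_mem π hn)
      exact Subgroup.map_mono (Subgroup.le_normalizer) hxK
  · rintro ⟨h1, h2⟩ K ⟨R, hR⟩
    obtain ⟨c, hc⟩ := MulAction.exists_smul_eq G R P₀
    obtain ⟨H, hHdef⟩ : ∃ H, H = cj c K := ⟨_, rfl⟩
    have hP₀H : (P₀ : Subgroup G) ≤ H := by rw [← hc, hHdef]; exact Subgroup.map_mono hR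
    suffices hH : Cfsg.IsPronormal H by
      have := pron_cj c⁻¹ hH
      rwa [hHdef, cj_cj, inv_mul_cancel, cj_one] at this
    have hTH : T ≤ H := hP₀T.trans hP₀H
    intro g
    set J := H ⊔ cj g H with hJdef
    have hHJ : H ≤ J := le_sup_left
    have hgJ : cj g H ≤ J := le_sup_right
    -- reduce to an element of `A`
    have hHq : ∃ Q : Sylow p (G ⧸ A), (Q : Subgroup (G ⧸ A)) ≤ H.map π := ⟨P₀.mapSurjective hπ, Subgroup.map_mono hP₀H⟩
    have hcmap : ∀ (z : G) (X : Subgroup G), (cj z X).map π = cj (π z) (X.map π) := fun z X => by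
      rw [cj, cj, Subgroup.map_map, Subgroup.map_map]; congr 1
    obtain ⟨jq, hjq, hje⟩ := hQ (H.map π) hHq (π g)
    change cj (π g) (H.map π) = cj jq (H.map π) at hje
    change jq ∈ H.map π ⊔ cj (π g) (H.map π) at hjq
    rw [← hcmap, ← Subgroup.map_sup] at hjq
    obtain ⟨j, hj, rfl⟩ := hjq
    obtain ⟨a, haA, n, hn, han⟩ : ∃ a ∈ A, ∃ n ∈ Subgroup.normalizer (H : Set G), a * n = j⁻¹ * g := by
      have h3 : π (j⁻¹ * g) ∈ (Subgroup.normalizer (H : Set G)).map π := by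
        rw [h2 H ⟨P₀, hP₀H⟩]
        exact mem_norm (by rw [map_mul, map_inv, ← cj_cj, hje, cj_cj, inv_mul_cancel, cj_one])
      obtain ⟨n, hn, hne⟩ := h3
      exact ⟨j⁻¹ * g * n⁻¹, (QuotientGroup.eq_one_iff _).mp (show π (j⁻¹ * g * n⁻¹) = 1 by
        rw [map_mul, map_inv, hne, mul_inv_cancel]), n, hn, by group⟩
    have hg1 : cj (j⁻¹ * g) H = cj a H := by rw [← han, ← cj_cj, cj_eq hn]
    have haJ : cj a H ≤ J := by rw [← hg1, ← cj_cj]; exact cj_le hgJ (J.inv_mem hj)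
    suffices key : ∃ z ∈ J, cj a H = cj z H by
      obtain ⟨z, hz, hze⟩ := key
      refine ⟨j * z, J.mul_mem hj hz, ?_⟩
      show cj g H = cj (j * z) H
      rw [← cj_cj, ← hze, ← hg1, cj_cj, mul_inv_cancel_left]
    obtain ⟨i, hi, hia⟩ := adjust A T hT (J ⊓ A) inf_le_right (le_inf (hTH.trans hHJ) hTA) a haA
      (le_inf ((Subgroup.map_mono hTH).trans haJ) (cj_le hTA haA))
    obtain ⟨hiJ, hiA⟩ := hi
    set a' := i * a with ha'
    have ha'A : a' ∈ A := A.mul_mem hiA haA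
    have ha'J : cj a' H ≤ J := by rw [ha', ← cj_cj]; exact cj_le haJ hiJ
    suffices key : ∃ z ∈ J, cj a' H = cj z H by
      obtain ⟨z, hz, hze⟩ := key
      refine ⟨i⁻¹ * z, J.mul_mem (J.inv_mem hiJ) hz, ?_⟩
      rw [← cj_cj, ← hze, cj_cj, ha', inv_mul_cancel_left]
    -- the two factors of `H`
    set B := H ⊓ A with hB
    set S := H ⊓ N with hS
    have hfr : B ⊔ S = H := frattini A T hT H hTH
    have hS' : cj a' S ≤ N := cj_le inf_le_right hia
    -- pronormality inside the normalizer, lifted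
    have liftN : ∀ y : G, y ∈ N → ∃ x ∈ S ⊔ cj y S, cj y S = cj x S := by
      intro y hy
      set y' : N := ⟨y, hy⟩
      set S₁ := S.subgroupOf N with hS₁
      have hTS : Tn ≤ S₁ := fun t ht => ⟨hTH ht, t.2⟩
      have hmem : ∃ P : Sylow p (↥N ⧸ Tn), (P : Subgroup _) ≤ S₁.map θ :=
        ⟨(P₀.subtype hP₀N).mapSurjective hθ, Subgroup.map_mono (fun t ht => ⟨hP₀H ht, t.2⟩)⟩
      obtain ⟨xq, hxq, hxe⟩ := h1 (S₁.map θ) hmem (θ y')
      have hcm : ∀ z : N, (cj z S₁).map θ = cj (θ z) (S₁.map θ) := fun z => by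
        rw [cj, cj, Subgroup.map_map, Subgroup.map_map]; congr 1
      change xq ∈ S₁.map θ ⊔ cj (θ y') (S₁.map θ) at hxq
      rw [← hcm, ← Subgroup.map_sup] at hxq
      obtain ⟨x, hx, rfl⟩ := hxq
      change cj (θ y') (S₁.map θ) = cj (θ x) (S₁.map θ) at hxe
      rw [← hcm, ← hcm] at hxe
      have hker : ∀ z : N, θ.ker ≤ cj z S₁ := fun z t ht => by
        rw [hθdef, QuotientGroup.ker_mk'] at ht
        refine ⟨z⁻¹ * t * z⁻¹⁻¹, hTS ((inferInstance : Tn.Normal).conj_mem t ht z⁻¹), ?_⟩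
        show z * (z⁻¹ * t * z⁻¹⁻¹) * z⁻¹ = t
        group
      have he2 : cj y' S₁ = cj x S₁ := by
        have h4 := congrArg (Subgroup.comap θ) hxe
        rwa [Subgroup.comap_map_eq_self (hker _), Subgroup.comap_map_eq_self (hker _)] at h4
      have hcc : ∀ z : N, (cj z S₁).map N.subtype = cj (z : G) S := fun z => by
        conv_rhs => rw [← Subgroup.map_subgroupOf_eq_of_le (show S ≤ N from inf_le_right)]
        rw [cj, cj, Subgroup.map_map, Subgroup.map_map]; congr 1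
      refine ⟨(x : G), ?_, by rw [← hcc x, ← he2, hcc]⟩
      have h5 := Subgroup.mem_map_of_mem N.subtype hx
      rw [Subgroup.map_sup, hcc, hS₁, Subgroup.map_subgroupOf_eq_of_le (show S ≤ N from inf_le_right)] at h5
      exact h5
    obtain ⟨x, hx, hxe⟩ := liftN a' hia
    have hxJ : x ∈ J := (sup_le ((inf_le_left : S ≤ H).trans hHJ) ((Subgroup.map_mono inf_le_left).trans ha'J)) hx
    have hxN : x ∈ N := (sup_le inf_le_right hS') hx
    set b := x⁻¹ * a' with hb
    have hbS : cj b S = S := by rw [hb, ← cj_cj, hxe, cj_cj, inv_mul_cancel, cj_one]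
    have hbJ : cj b H ≤ J := by rw [hb, ← cj_cj]; exact cj_le ha'J (J.inv_mem hxJ)
    suffices key : ∃ z ∈ J, cj b H = cj z H by
      obtain ⟨z, hz, hze⟩ := key
      refine ⟨x * z, J.mul_mem hxJ hz, ?_⟩
      conv_rhs => rw [← cj_cj, ← hze, cj_cj, hb, mul_inv_cancel_left]
    -- the conjugate of `B` is a conjugate under `A`
    obtain ⟨B', hB'⟩ : ∃ B', B' = cj b B := ⟨_, rfl⟩
    have hBn : H ≤ Subgroup.normalizer (B : Set G) := CfsgLib.GroupB.Coprime.le_normalizer_of_conj_mem fun k hk w hw =>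
      ⟨H.mul_mem (H.mul_mem hk hw.1) (H.inv_mem hk), (inferInstance : A.Normal).conj_mem w hw.2 k⟩
    have hB'le : B' ≤ cj b H := hB' ▸ Subgroup.map_mono inf_le_left
    obtain ⟨c', hc'A, hB'c⟩ : ∃ c' ∈ A, B' = cj c' B := by
      have hle : S ⊔ cj a' S ≤ A ⊔ H := sup_le (inf_le_left.trans le_sup_right)
        (cj_le (inf_le_left.trans le_sup_right) (Subgroup.mem_sup_left ha'A))
      have hbm : b ∈ A ⊔ H := (A ⊔ H).mul_mem ((A ⊔ H).inv_mem (hle hx)) (Subgroup.mem_sup_left ha'A)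
      obtain ⟨c', hc', k, hk, e⟩ := Subgroup.mem_sup_of_normal_left.mp hbm
      exact ⟨c', hc', by rw [hB', ← e, ← cj_cj, cj_eq (hBn hk)]⟩
    have hPB : ∃ P : Sylow p A, (P : Subgroup A) ≤ B.subgroupOf A := by
      obtain ⟨P, hP⟩ := hT
      exact ⟨P, fun y hy => ⟨hTH (hP ▸ ⟨y, hy, rfl⟩), y.2⟩⟩
    obtain ⟨y, hy, hye⟩ := hA (B.subgroupOf A) hPB ⟨c', hc'A⟩
    have hcA : ∀ z : A, (cj z (B.subgroupOf A)).map A.subtype = cj (z : G) B := fun z => by
      conv_rhs => rw [← Subgroup.map_subgroupOf_eq_of_le (show B ≤ A from inf_le_right)]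
      rw [cj, cj, Subgroup.map_map, Subgroup.map_map]; congr 1
    have hye' : B' = cj (y : G) B := by
      rw [hB'c, ← hcA ⟨c', hc'A⟩, ← hcA y]
      exact congrArg (Subgroup.map A.subtype) hye
    have hyJ : (y : G) ∈ J := by
      change y ∈ B.subgroupOf A ⊔ cj ⟨c', hc'A⟩ (B.subgroupOf A) at hy
      have h5 := Subgroup.mem_map_of_mem A.subtype hy
      rw [Subgroup.map_sup, hcA, Subgroup.map_subgroupOf_eq_of_le (show B ≤ A from inf_le_right)] at h5
      refine (sup_le ((inf_le_left : B ≤ H).trans hHJ) ?_) h5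
      show cj c' B ≤ J
      rw [← hB'c]; exact hB'le.trans hbJ
    -- choose it to normalize `T`
    have hTB' : T ≤ B' := by
      have : cj b T ≤ B' := hB' ▸ Subgroup.map_mono (le_inf hTH hTA)
      rwa [cj_eq (show b ∈ N from N.mul_mem (N.inv_mem hxN) hia)] at this
    obtain ⟨i', hi'B, hi'N⟩ := adjust A T hT B' (hye' ▸ cj_le inf_le_right y.2) hTB' (y : G) y.2
      (hye' ▸ Subgroup.map_mono (le_inf hTH hTA))
    have hi'J : i' ∈ J := hB'le.trans hbJ hi'B
    set y' := i' * (y : G) with hy'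
    have hy'B : cj y' B = B' := by rw [hy', ← cj_cj, ← hye', cj_eq (Subgroup.le_normalizer hi'B)]
    have hy'J : y' ∈ J := J.mul_mem hi'J hyJ
    obtain ⟨u, hu, hue⟩ := liftN y' hi'N
    have hSn : S ≤ Subgroup.normalizer (B' : Set G) := fun s hs => mem_norm (by
      obtain ⟨s₀, hs₀, rfl⟩ : s ∈ cj b S := hbS.symm ▸ hs
      rw [hB', cj_cj]
      show cj (b * s₀ * b⁻¹ * b) B = cj b B
      rw [inv_mul_cancel_right, ← cj_cj, cj_eq (hBn hs₀.1)])
    have hS2 : cj y' S ≤ Subgroup.normalizer (B' : Set G) := by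
      rintro _ ⟨s, hs, rfl⟩
      refine mem_norm ?_
      show cj (y' * s * y'⁻¹) B' = B'
      conv_lhs => rw [← hy'B]
      rw [cj_cj, inv_mul_cancel_right, ← cj_cj, cj_eq (hBn hs.1), hy'B]
    have huB : u ∈ Subgroup.normalizer (B' : Set G) := (sup_le hSn hS2) hu
    have huJ : u ∈ J := (sup_le ((inf_le_left : S ≤ H).trans hHJ) (cj_le ((inf_le_left : S ≤ H).trans hHJ) hy'J)) hu
    refine ⟨u⁻¹ * y', J.mul_mem (J.inv_mem huJ) hy'J, ?_⟩
    conv_lhs => rw [← hfr, cj_sup, hbS, ← hB']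
    conv_rhs => rw [← hfr, cj_sup, ← cj_cj u⁻¹ y' B, ← cj_cj u⁻¹ y' S, hy'B, hue, cj_cj, inv_mul_cancel, cj_one,
      cj_eq (Subgroup.inv_mem _ huB)]

/-- Let p be a prime and G a finite group with a normal subgroup A such that, both in A and in G/A, every subgroup containing a Sylow p-subgroup of that group is pronormal in that group. Let T be a Sylow p-subgroup of A. Then every subgroup of G containing a Sylow p-subgroup of G is pronormal in G if and only if (i) every subgroup of N_G(T)/T containing a Sylow p-subgroup of N_G(T)/T is pronormal there, and (ii) for every subgroup H of G containing a Sylow p-subgroup of G, the image of N_G(H) in G/A is the full normalizer of the image of H. (Pronormal: H and gHg⁻¹ are conjugate inside the subgroup they generate, for every g.) -/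
theorem result {G : Type*} [Group G] [Finite G] {p : ℕ} [Fact p.Prime]
    (A : Subgroup G) [A.Normal] (hA : (∀ K : Subgroup ↥A, (∃ P : Sylow p ↥A, (P : Subgroup ↥A) ≤ K) → Cfsg.IsPronormal K)) (hQ : (∀ K : Subgroup (G ⧸ A), (∃ P : Sylow p (G ⧸ A), (P : Subgroup (G ⧸ A)) ≤ K) → Cfsg.IsPronormal K))
    (T : Subgroup G) (hT : ∃ P : Sylow p ↥A, (P : Subgroup ↥A).map A.subtype = T) [(T.subgroupOf (Subgroup.normalizer (T : Set G))).Normal] :
    (∀ K : Subgroup G, (∃ P : Sylow p G, (P : Subgroup G) ≤ K) → Cfsg.IsPronormal K) ↔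
      ((∀ K : Subgroup (↥(Subgroup.normalizer (T : Set G)) ⧸ T.subgroupOf (Subgroup.normalizer (T : Set G))), (∃ P : Sylow p (↥(Subgroup.normalizer (T : Set G)) ⧸ T.subgroupOf (Subgroup.normalizer (T : Set G))), (P : Subgroup (↥(Subgroup.normalizer (T : Set G)) ⧸ T.subgroupOf (Subgroup.normalizer (T : Set G)))) ≤ K) → Cfsg.IsPronormal K) ∧
        ∀ K : Subgroup G, (∃ P : Sylow p G, (P : Subgroup G) ≤ K) →
          (Subgroup.normalizer (K : Set G)).map (QuotientGroup.mk' A) = Subgroup.normalizer ((K.map (QuotientGroup.mk' A) : Subgroup (G ⧸ A)) : Set (G ⧸ A))) := by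
  exact main A hA hQ T hT

end Cfsg.Agent.S4270
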