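import Cfsg.Statements.S4271
import Cfsg.Agent.S4270

set_option autoImplicit false
open Cfsg

namespace Cfsg.Agent.S4271
universe u

open Cfsg.Agent.S4270 (cj cj_cj cj_one cj_eq mem_norm cj_le)

theorem self_norm {Q : Type u} [Group Q] [Finite Q] {p : ℕ} [Fact p.Prime]
    (hQ : ∀ P : Sylow p Q, Subgroup.normalizer ((P : Subgroup Q) : Set Q) = P) (K : Subgroup Q) (P : Sylow p Q) (hP : (P : Subgroup Q) ≤ K)
    (g : Q) (J : Subgroup Q) (hK : K ≤ J) (hg : cj g K ≤ J) : ∃ x ∈ J, cj g K = cj x K := by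
  have hP2 : ((g • P : Sylow p Q) : Subgroup Q) ≤ J := le_trans (Subgroup.map_mono hP) hg
  obtain ⟨j, hj⟩ := MulAction.exists_smul_eq J (P.subtype (hP.trans hK)) ((g • P).subtype hP2)
  rw [Sylow.smul_subtype] at hj
  have hj' : (j : Q) • P = g • P := Sylow.subtype_injective hj
  have hfix : ((j : Q)⁻¹ * g) • P = P := by rw [mul_smul, ← hj', inv_smul_smul]
  have hn : (j : Q)⁻¹ * g ∈ (P : Subgroup Q) := by rw [← hQ P]; exact Sylow.smul_eq_iff_mem_normalizer.mp hfix
  refine ⟨j, j.2, ?_⟩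
  calc cj g K = cj ((j : Q) * ((j : Q)⁻¹ * g)) K := by rw [mul_inv_cancel_left]
    _ = cj (j : Q) K := by rw [← cj_cj, cj_eq (Subgroup.le_normalizer (hP hn))]

theorem main {G : Type u} [Group G] [Finite G] {p : ℕ} [Fact p.Prime]
    (A : Subgroup G) [A.Normal] (hA : (∀ K : Subgroup ↥A, (∃ P : Sylow p ↥A, (P : Subgroup ↥A) ≤ K) → Cfsg.IsPronormal K))
    (hQ : ∀ P : Sylow p (G ⧸ A), Subgroup.normalizer ((P : Subgroup (G ⧸ A)) : Set (G ⧸ A)) = P)
    (T : Subgroup G) (hT : ∃ P : Sylow p ↥A, (P : Subgroup ↥A).map A.subtype = T) [(T.subgroupOf (Subgroup.normalizer (T : Set G))).Normal] :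
    (∀ K : Subgroup G, (∃ P : Sylow p G, (P : Subgroup G) ≤ K) → Cfsg.IsPronormal K) ↔ (∀ K : Subgroup (↥(Subgroup.normalizer (T : Set G)) ⧸ T.subgroupOf (Subgroup.normalizer (T : Set G))), (∃ P : Sylow p (↥(Subgroup.normalizer (T : Set G)) ⧸ T.subgroupOf (Subgroup.normalizer (T : Set G))), (P : Subgroup (↥(Subgroup.normalizer (T : Set G)) ⧸ T.subgroupOf (Subgroup.normalizer (T : Set G)))) ≤ K) → Cfsg.IsPronormal K) := by
  have hQ' : ∀ K : Subgroup (G ⧸ A), (∃ P : Sylow p (G ⧸ A), (P : Subgroup (G ⧸ A)) ≤ K) → Cfsg.IsPronormal K :=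
    fun K ⟨P, hP⟩ g => self_norm hQ K P hP g _ le_sup_left le_sup_right
  rw [Cfsg.Agent.S4270.main A hA hQ' T hT, and_iff_left]
  intro K ⟨P, hP⟩
  refine le_antisymm (Cfsg.Agent.S4270.normalizer_map_le _ K) fun g hg => ?_
  -- an overgroup of a Sylow subgroup is self-normalizing
  have hmem : g ∈ K.map (QuotientGroup.mk' A) := by
    set Kb := K.map (QuotientGroup.mk' A)
    set Pb := P.mapSurjective (QuotientGroup.mk'_surjective A)
    have hPb : (Pb : Subgroup (G ⧸ A)) ≤ Kb := Subgroup.map_mono hP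
    have hP2 : ((g • Pb : Sylow p (G ⧸ A)) : Subgroup (G ⧸ A)) ≤ Kb := le_trans (Subgroup.map_mono hPb) (le_of_eq (cj_eq hg))
    obtain ⟨j, hj⟩ := MulAction.exists_smul_eq Kb (Pb.subtype hPb) ((g • Pb).subtype hP2)
    rw [Sylow.smul_subtype] at hj
    have hj' : (j : G ⧸ A) • Pb = g • Pb := Sylow.subtype_injective hj
    have hfix : ((j : G ⧸ A)⁻¹ * g) • Pb = Pb := by rw [mul_smul, ← hj', inv_smul_smul]
    have hn : (j : G ⧸ A)⁻¹ * g ∈ (Pb : Subgroup (G ⧸ A)) := by rw [← hQ Pb]; exact Sylow.smul_eq_iff_mem_normalizer.mp hfix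
    have := Kb.mul_mem j.2 (hPb hn)
    rwa [mul_inv_cancel_left] at this
  exact Subgroup.map_mono Subgroup.le_normalizer hmem

/-- Let p be a prime and G a finite group with a normal subgroup A such that every subgroup of A containing a Sylow p-subgroup of A is pronormal in A, and the Sylow p-subgroups of G/A are self-normalizing. Let T be a Sylow p-subgroup of A. Then every subgroup of G containing a Sylow p-subgroup of G is pronormal in G if and only if every subgroup of N_G(T)/T containing a Sylow p-subgroup of N_G(T)/T is pronormal in N_G(T)/T. (Pronormal: H and gHg⁻¹ are conjugate inside the subgroup they generate, for every g.) -/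
theorem result {G : Type*} [Group G] [Finite G] {p : ℕ} [Fact p.Prime]
    (A : Subgroup G) [A.Normal] (hA : (∀ K : Subgroup ↥A, (∃ P : Sylow p ↥A, (P : Subgroup ↥A) ≤ K) → Cfsg.IsPronormal K))
    (hQ : ∀ P : Sylow p (G ⧸ A), Subgroup.normalizer ((P : Subgroup (G ⧸ A)) : Set (G ⧸ A)) = P)
    (T : Subgroup G) (hT : ∃ P : Sylow p ↥A, (P : Subgroup ↥A).map A.subtype = T) [(T.subgroupOf (Subgroup.normalizer (T : Set G))).Normal] :
    (∀ K : Subgroup G, (∃ P : Sylow p G, (P : Subgroup G) ≤ K) → Cfsg.IsPronormal K) ↔ (∀ K : Subgroup (↥(Subgroup.normalizer (T : Set G)) ⧸ T.subgroupOf (Subgroup.normalizer (T : Set G))), (∃ P : Sylow p (↥(Subgroup.normalizer (T : Set G)) ⧸ T.subgroupOf (Subgroup.normalizer (T : Set G))), (P : Subgroup (↥(Subgroup.normalizer (T : Set G)) ⧸ T.subgroupOf (Subgroup.normalizer (T : Set G)))) ≤ K) → Cfsg.IsPronormal K) := by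
  exact main A hA hQ T hT

end Cfsg.Agent.S4271
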