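import Cfsg.Statements.S4331
import Cfsg.Agent.Lib.GroupB.Subnormal
import Cfsg.Agent.Lib.Core
import Cfsg.Agent.S0144
import Mathlib.LinearAlgebra.Matrix.GeneralLinearGroup.Defs

set_option autoImplicit false
open Cfsg

namespace Cfsg.Agent.S4331
open Matrix

abbrev M2 : Type := Matrix (Fin 2) (Fin 2) (ZMod 3)

abbrev V : Type := Fin 2 → ZMod 3

def J : M2 := !![0, 2; 1, 0]

def T : M2 := !![1, 0; 0, 2]

def Inv (M : M2) : Prop := M * J = J * M ∨ M * J = -(J * M)

instance (M : M2) : Decidable (Inv M) := by unfold Inv; infer_instance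

abbrev Nz (M : M2) : Prop := M.det ≠ 0 ∧ Inv M

def Hs : Subgroup (GL (Fin 2) (ZMod 3)) where
  carrier := {g | Inv (g : M2)}
  one_mem' := Or.inl (by simp)
  mul_mem' := by
    intro a b ha hb
    simp only [Set.mem_ofPred_eq, Inv] at *
    rw [Units.val_mul]
    rcases ha with ha | ha <;> rcases hb with hb | hb
    · exact Or.inl (by rw [Matrix.mul_assoc, hb, ← Matrix.mul_assoc, ha, Matrix.mul_assoc])
    · exact Or.inr (by rw [Matrix.mul_assoc, hb, Matrix.mul_neg, ← Matrix.mul_assoc, ha, Matrix.mul_assoc])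
    · exact Or.inr (by rw [Matrix.mul_assoc, hb, ← Matrix.mul_assoc, ha, Matrix.neg_mul, Matrix.mul_assoc])
    · exact Or.inl (by rw [Matrix.mul_assoc, hb, Matrix.mul_neg, ← Matrix.mul_assoc, ha, Matrix.neg_mul, neg_neg, Matrix.mul_assoc])
  inv_mem' := by
    intro a ha
    simp only [Set.mem_ofPred_eq, Inv] at *
    rcases ha with ha | ha
    · left
      calc ((a⁻¹ : GL (Fin 2) (ZMod 3)) : M2) * J = (a⁻¹ : GL (Fin 2) (ZMod 3)) * (J * (a : M2)) * (a⁻¹ : GL (Fin 2) (ZMod 3)) := by
            rw [Matrix.mul_assoc, Matrix.mul_assoc, Units.mul_inv, Matrix.mul_one]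
        _ = _ := by rw [← ha, ← Matrix.mul_assoc, Units.inv_mul, Matrix.one_mul]
    · right
      calc ((a⁻¹ : GL (Fin 2) (ZMod 3)) : M2) * J = (a⁻¹ : GL (Fin 2) (ZMod 3)) * (J * (a : M2)) * (a⁻¹ : GL (Fin 2) (ZMod 3)) := by
            rw [Matrix.mul_assoc, Matrix.mul_assoc, Units.mul_inv, Matrix.mul_one]
        _ = _ := by
          rw [show J * (a : M2) = -((a : M2) * J) by rw [ha, neg_neg], Matrix.mul_neg, Matrix.neg_mul, ← Matrix.mul_assoc, Units.inv_mul, Matrix.one_mul]

def act (h : Hs) : MulAut (Multiplicative V) :=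
  { toFun := fun v => Multiplicative.ofAdd (((h : GL (Fin 2) (ZMod 3)) : M2) *ᵥ v.toAdd)
    invFun := fun v => Multiplicative.ofAdd (((h⁻¹ : Hs) : GL (Fin 2) (ZMod 3)) : M2) *ᵥ v.toAdd
    left_inv := fun v => by
      show Multiplicative.ofAdd ((((h⁻¹ : Hs) : GL (Fin 2) (ZMod 3)) : M2) *ᵥ (((h : GL (Fin 2) (ZMod 3)) : M2) *ᵥ v.toAdd)) = v
      rw [Matrix.mulVec_mulVec, ← Units.val_mul, ← Subgroup.coe_mul, inv_mul_cancel, OneMemClass.coe_one, Units.val_one, Matrix.one_mulVec]
      rfl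
    right_inv := fun v => by
      show Multiplicative.ofAdd (((h : GL (Fin 2) (ZMod 3)) : M2) *ᵥ ((((h⁻¹ : Hs) : GL (Fin 2) (ZMod 3)) : M2) *ᵥ v.toAdd)) = v
      rw [Matrix.mulVec_mulVec, ← Units.val_mul, ← Subgroup.coe_mul, mul_inv_cancel, OneMemClass.coe_one, Units.val_one, Matrix.one_mulVec]
      rfl
    map_mul' := fun v w => by
      show Multiplicative.ofAdd (((h : GL (Fin 2) (ZMod 3)) : M2) *ᵥ (v.toAdd + w.toAdd)) = _
      rw [Matrix.mulVec_add]; rfl }

def φ : Hs →* MulAut (Multiplicative V) :=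
  MonoidHom.mk' act fun a b => MulEquiv.ext fun v => by
    show Multiplicative.ofAdd ((((a * b : Hs) : GL (Fin 2) (ZMod 3)) : M2) *ᵥ v.toAdd) =
      Multiplicative.ofAdd (((a : GL (Fin 2) (ZMod 3)) : M2) *ᵥ (((b : GL (Fin 2) (ZMod 3)) : M2) *ᵥ v.toAdd))
    rw [Matrix.mulVec_mulVec]; rfl

abbrev X : Type := Multiplicative V ⋊[φ] Hs

theorem T_ok : Nz T ∧ T * T = 1 ∧ T ≠ 1 := by decide +kernel

theorem card_nz : Fintype.card {M : M2 // Nz M} = 16 := by decide +kernel

theorem fix_free : ∀ M : M2, Nz M → (∀ v : V, M *ᵥ v = v → v = 0) → ∀ v : V, ∃ u : V, u + v - M *ᵥ u = 0 := by decide +kernel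

theorem fix_cases : ∀ M : M2, Nz M → (∃ v : V, v ≠ 0 ∧ M *ᵥ v = v) → M = 1 ∨ ∃ K : M2, Nz K ∧ K * M = T * K := by decide +kernel

theorem move : ∀ v : V, ∃ K : M2, Nz K ∧ T *ᵥ (K *ᵥ v) = K *ᵥ v := by decide +kernel

theorem split : ∀ v : V, ∃ u : V, T *ᵥ (u + v - T *ᵥ u) = u + v - T *ᵥ u := by decide +kernel

theorem not_fixed : T *ᵥ ![0, 1] ≠ ![0, 1] := by decide +kernel

noncomputable def lift (M : M2) (h : Nz M) : Hs :=
  ⟨Matrix.GeneralLinearGroup.mkOfDetNeZero M h.1, by show Inv _; exact h.2⟩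

theorem lift_val (M : M2) (h : Nz M) : (((lift M h : Hs) : GL (Fin 2) (ZMod 3)) : M2) = M := rfl

theorem nz (h : Hs) : Nz ((h : GL (Fin 2) (ZMod 3)) : M2) :=
  ⟨(Matrix.isUnit_iff_isUnit_det _).mp (Units.isUnit _) |>.ne_zero, h.2⟩

theorem hs_ext {a b : Hs} (h : ((a : GL (Fin 2) (ZMod 3)) : M2) = ((b : GL (Fin 2) (ZMod 3)) : M2)) : a = b :=
  Subtype.ext (Units.ext h)


/-- There is a finite solvable group G with a subgroup A of order 2 such that every conjugacy class of G contains an element g for which A is subnormal in the subgroup generated by A and g, and yet A is not contained in O_2(G). (So the corresponding criteria for odd primes fail at the prime 2, even for solvable groups.) -/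
theorem result :
    ∃ (G : Type) (_ : Group G) (_ : Finite G) (A : Subgroup G), Group.IsSolvable G ∧ Nat.card A = 2 ∧
      (∀ c : G, ∃ g : G, IsConj c g ∧ (A.subgroupOf (A ⊔ Subgroup.zpowers g)).IsSubnormal) ∧
      ¬ A ≤ Cfsg.pCore 2 G := by
  classical
  haveI : Fact (Nat.Prime 2) := ⟨Nat.prime_two⟩
  haveI : Finite X := Finite.of_equiv _ SemidirectProduct.equivProd.symm
  set t : Hs := lift T T_ok.1
  set a : X := SemidirectProduct.inr t
  have htt : t * t = 1 := hs_ext (by rw [Subgroup.coe_mul, Units.val_mul, lift_val]; exact T_ok.2.1)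
  have ht1 : t ≠ 1 := fun h => T_ok.2.2 (by rw [← lift_val T T_ok.1]; exact congrArg (fun z : Hs => ((z : GL (Fin 2) (ZMod 3)) : M2)) h)
  have hao : orderOf a = 2 := orderOf_eq_prime (by rw [← map_pow, pow_two, htt, map_one]) fun h =>
    ht1 (SemidirectProduct.inr_injective (h.trans (map_one _).symm))
  have hcH : Nat.card Hs = 16 := by
    rw [← card_nz, ← Nat.card_eq_fintype_card]
    exact Nat.card_congr
      { toFun := fun h => ⟨_, nz h⟩
        invFun := fun M => lift M.1 M.2
        left_inv := fun h => hs_ext rfl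
        right_inv := fun M => Subtype.ext rfl }
  have hcX : Nat.card X = 2 ^ 4 * 3 ^ 2 := by
    rw [SemidirectProduct.card, hcH, Nat.card_eq_fintype_card, Fintype.card_multiplicative, Fintype.card_fun, ZMod.card, Fintype.card_fin]
    norm_num
  have hcommA : ∀ g : X, a * g = g * a → ((Subgroup.zpowers a).subgroupOf (Subgroup.zpowers a ⊔ Subgroup.zpowers g)).IsSubnormal := by
    intro g hg
    refine Subgroup.Normal.isSubnormal ⟨fun z hz w => ?_⟩
    have hw : Subgroup.zpowers a ⊔ Subgroup.zpowers g ≤ Subgroup.centralizer ({a} : Set X) :=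
      sup_le (Subgroup.zpowers_le.mpr (Subgroup.mem_centralizer_singleton_iff.mpr rfl))
        (Subgroup.zpowers_le.mpr (Subgroup.mem_centralizer_singleton_iff.mpr hg.symm))
    obtain ⟨i, hi⟩ := Subgroup.mem_zpowers_iff.mp (show (z : X) ∈ Subgroup.zpowers a from hz)
    have hc : Commute (w : X) ((z : X)) := hi ▸ (show Commute (w : X) a from Subgroup.mem_centralizer_singleton_iff.mp (hw w.2)).zpow_right i
    show (w : X) * z * (w : X)⁻¹ ∈ Subgroup.zpowers a
    rw [hc.eq, mul_inv_cancel_right]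
    exact hz
  have hinH : ∀ h : Hs, ((Subgroup.zpowers a).subgroupOf (Subgroup.zpowers a ⊔ Subgroup.zpowers (SemidirectProduct.inr h : X))).IsSubnormal := by
    intro h
    have hle : Subgroup.zpowers a ⊔ Subgroup.zpowers (SemidirectProduct.inr h : X) ≤ (SemidirectProduct.inr : Hs →* X).range :=
      sup_le (Subgroup.zpowers_le.mpr ⟨t, rfl⟩) (Subgroup.zpowers_le.mpr ⟨h, rfl⟩)
    have hp : IsPGroup 2 Hs := IsPGroup.of_card (n := 4) (by rw [hcH]; norm_num)
    haveI : Group.IsNilpotent ↥(Subgroup.zpowers a ⊔ Subgroup.zpowers (SemidirectProduct.inr h : X)) :=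
      (((hp.of_surjective (SemidirectProduct.inr : Hs →* X).rangeRestrict (MonoidHom.rangeRestrict_surjective _)).to_le hle)).isNilpotent
    exact CfsgLib.GroupB.Subnormal.of_isNilpotent _
  -- conjugation formulas
  have cl : ∀ (u v : V) (h : Hs), (SemidirectProduct.inl (Multiplicative.ofAdd u) : X) * ⟨Multiplicative.ofAdd v, h⟩ * (SemidirectProduct.inl (Multiplicative.ofAdd u) : X)⁻¹ =
      ⟨Multiplicative.ofAdd (u + v - ((h : GL (Fin 2) (ZMod 3)) : M2) *ᵥ u), h⟩ := by
    intro u v h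
    apply SemidirectProduct.ext
    · rw [← map_inv, SemidirectProduct.mul_left, SemidirectProduct.mul_left, SemidirectProduct.mul_right, SemidirectProduct.left_inl, SemidirectProduct.right_inl, SemidirectProduct.left_inl, map_one, one_mul, MulAut.one_apply]
      show Multiplicative.ofAdd (u + v + ((h : GL (Fin 2) (ZMod 3)) : M2) *ᵥ (-u)) = _
      rw [Matrix.mulVec_neg, ← sub_eq_add_neg]
    · simp
  have cr : ∀ (k : Hs) (v : V) (h : Hs), (SemidirectProduct.inr k : X) * ⟨Multiplicative.ofAdd v, h⟩ * (SemidirectProduct.inr k : X)⁻¹ =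
      ⟨Multiplicative.ofAdd (((k : GL (Fin 2) (ZMod 3)) : M2) *ᵥ v), k * h * k⁻¹⟩ := by
    intro k v h
    apply SemidirectProduct.ext
    · rw [← map_inv, SemidirectProduct.mul_left, SemidirectProduct.mul_left, SemidirectProduct.left_inr, SemidirectProduct.right_inr, SemidirectProduct.left_inr, map_one, mul_one, one_mul]
      rfl
    · simp
  have fixed : ∀ (v : V) (h : Hs), T *ᵥ v = v → t * h = h * t → a * ⟨Multiplicative.ofAdd v, h⟩ = (⟨Multiplicative.ofAdd v, h⟩ : X) * a := by
    intro v h hv hh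
    apply SemidirectProduct.ext
    · show (1 : Multiplicative V) * φ t (Multiplicative.ofAdd v) = Multiplicative.ofAdd v * φ h 1
      rw [map_one, mul_one, one_mul]
      show Multiplicative.ofAdd (((t : GL (Fin 2) (ZMod 3)) : M2) *ᵥ v) = _
      rw [lift_val, hv]
    · exact hh
  have key : ∀ c : X, ∃ x : X, (∃ h : Hs, x * c * x⁻¹ = SemidirectProduct.inr h) ∨ a * (x * c * x⁻¹) = x * c * x⁻¹ * a := by
    rintro ⟨v, h⟩
    obtain ⟨v, rfl⟩ := Multiplicative.ofAdd.surjective v
    by_cases hf : ∀ w : V, ((h : GL (Fin 2) (ZMod 3)) : M2) *ᵥ w = w → w = 0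
    · obtain ⟨u, hu⟩ := fix_free _ (nz h) hf v
      exact ⟨SemidirectProduct.inl (Multiplicative.ofAdd u), Or.inl ⟨h, by rw [cl, hu]; rfl⟩⟩
    push Not at hf
    obtain ⟨w, hw, hw0⟩ := hf
    rcases fix_cases _ (nz h) ⟨w, hw0, hw⟩ with h1 | ⟨K, hK, hKM⟩
    · obtain rfl : h = 1 := hs_ext h1
      obtain ⟨K, hK, hKv⟩ := move v
      refine ⟨SemidirectProduct.inr (lift K hK), Or.inr ?_⟩
      rw [cr]
      exact fixed _ _ (by rw [lift_val]; exact hKv) (by rw [mul_one, mul_inv_cancel, mul_one, one_mul])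
    · have hc : lift K hK * h * (lift K hK)⁻¹ = t := mul_inv_eq_iff_eq_mul.mpr (hs_ext (by
        rw [Subgroup.coe_mul, Units.val_mul, Subgroup.coe_mul, Units.val_mul, lift_val, lift_val]; exact hKM))
      obtain ⟨u, hu⟩ := split (((lift K hK : Hs) : GL (Fin 2) (ZMod 3)) *ᵥ v : V)
      refine ⟨SemidirectProduct.inl (Multiplicative.ofAdd u) * SemidirectProduct.inr (lift K hK), Or.inr ?_⟩
      rw [show ∀ x y c : X, x * y * c * (x * y)⁻¹ = x * (y * c * y⁻¹) * x⁻¹ from fun x y c => by group, cr, hc, cl, lift_val]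
      exact fixed _ _ hu rfl
  refine ⟨X, inferInstance, inferInstance, Subgroup.zpowers a, ?_, by rw [Nat.card_zpowers, hao], fun c => ?_, fun hle => ?_⟩
  · exact Cfsg.Agent.S0144.result 2 3 4 2 Nat.prime_two Nat.prime_three hcX
  · obtain ⟨x, hx⟩ := key c
    refine ⟨x * c * x⁻¹, isConj_iff.mpr ⟨x, rfl⟩, ?_⟩
    rcases hx with ⟨h, hh⟩ | hh
    · rw [hh]; exact hinH h
    · exact hcommA _ hh
  · set O := Cfsg.pCore 2 X
    haveI := CfsgLib.Core.pCore_characteristic (p := 2) (G := X)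
    have haO : a ∈ O := hle (Subgroup.mem_zpowers a)
    set e : X := SemidirectProduct.inl (Multiplicative.ofAdd ![0, 1])
    haveI hR : ((SemidirectProduct.inl : Multiplicative V →* X).range).Normal := by
      rw [SemidirectProduct.range_inl_eq_ker_rightHom]; infer_instance
    have hd : Disjoint O (SemidirectProduct.inl : Multiplicative V →* X).range := by
      have hp3 : IsPGroup 3 (Multiplicative V) := IsPGroup.of_card (n := 2) (by
        rw [Nat.card_eq_fintype_card, Fintype.card_multiplicative, Fintype.card_fun, ZMod.card, Fintype.card_fin])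
      haveI : Fact (Nat.Prime 3) := ⟨Nat.prime_three⟩
      exact IsPGroup.disjoint_of_ne 2 3 (by norm_num) _ _ (CfsgLib.Core.isPGroup_pCore 2)
        (hp3.of_surjective (SemidirectProduct.inl : Multiplicative V →* X).rangeRestrict (MonoidHom.rangeRestrict_surjective _))
    have hc := Subgroup.commute_of_normal_of_disjoint O _ inferInstance hR hd a e haO ⟨_, rfl⟩
    have h2 := congrArg SemidirectProduct.left hc.eq
    rw [SemidirectProduct.mul_left, SemidirectProduct.mul_left] at h2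
    simp only [a, e, SemidirectProduct.left_inr, SemidirectProduct.left_inl, SemidirectProduct.right_inr, SemidirectProduct.right_inl, map_one, one_mul, mul_one] at h2
    refine not_fixed ?_
    rw [← lift_val T T_ok.1]
    exact Multiplicative.ofAdd.injective h2

end Cfsg.Agent.S4331
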