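import Cfsg.Statements.S4332
import Mathlib.GroupTheory.Perm.Cycle.Type
import Mathlib.GroupTheory.SpecificGroups.Alternating
import Mathlib.GroupTheory.IsSubnormal

set_option autoImplicit false
open Pointwise
open Cfsg

namespace Cfsg.Agent.S4332

theorem card_dvd_of_normal {r : ℕ} (hr : 2 ≤ r) (N : Subgroup (Equiv.Perm (Fin r))) [hN : N.Normal] (hne : N ≠ ⊥) :
    r ∣ Nat.card N := by
  obtain ⟨n, hn, hn1⟩ := N.bot_or_exists_ne_one.resolve_left hne
  obtain ⟨x, hx⟩ : ∃ x, n x ≠ x := by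
    by_contra h; push Not at h; exact hn1 (Equiv.ext h)
  have horb : MulAction.orbit N x = Set.univ := by
    refine Set.eq_univ_of_forall fun z => ?_
    by_cases hzx : z = x
    · rw [hzx]; exact MulAction.mem_orbit_self x
    refine ⟨⟨Equiv.swap (n x) z * n * (Equiv.swap (n x) z)⁻¹, hN.conj_mem n hn _⟩, ?_⟩
    show (Equiv.swap (n x) z * n * (Equiv.swap (n x) z)⁻¹) x = z
    rw [Equiv.swap_inv, Equiv.Perm.mul_apply, Equiv.Perm.mul_apply,
      Equiv.swap_apply_of_ne_of_ne (Ne.symm hx) (Ne.symm hzx), Equiv.swap_apply_left]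
  have h1 : Nat.card (MulAction.orbit N x) = r := by
    rw [horb, Nat.card_coe_set_eq, Set.ncard_univ, Nat.card_fin]
  have h2 := Subgroup.index_dvd_card (H := MulAction.stabilizer N x)
  rw [Subgroup.index_eq_card, ← Nat.card_congr (MulAction.orbitEquivQuotientStabilizer N x), h1] at h2
  exact h2

theorem commute_of_support {n : ℕ} {σ σ' : Equiv.Perm (Fin n)} (hσ : σ.IsThreeCycle) (hσ' : σ'.IsThreeCycle)
    (h : σ'.support = σ.support) : Commute σ σ' := by
  have hm : ∀ π : Equiv.Perm (Fin n), π.support = σ.support → ∀ x, π x ∈ σ.support ↔ x ∈ σ.support := by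
    intro π hπ x; rw [← hπ]; exact Equiv.Perm.apply_mem_support
  let a : Equiv.Perm {x // x ∈ σ.support} := σ.subtypePerm (hm σ rfl)
  let b : Equiv.Perm {x // x ∈ σ.support} := σ'.subtypePerm (hm σ' h)
  have ha : Equiv.Perm.ofSubtype a = σ :=
    Equiv.Perm.ofSubtype_subtypePerm _ (fun x hx => Equiv.Perm.mem_support.mpr hx)
  have hb : Equiv.Perm.ofSubtype b = σ' :=
    Equiv.Perm.ofSubtype_subtypePerm _ (fun x hx => h ▸ Equiv.Perm.mem_support.mpr hx)
  have hs : ∀ π : Equiv.Perm {x // x ∈ σ.support}, (Equiv.Perm.ofSubtype π).IsThreeCycle →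
      π ∈ alternatingGroup {x // x ∈ σ.support} := by
    intro π hπ
    rw [Equiv.Perm.mem_alternatingGroup, ← Equiv.Perm.sign_ofSubtype]
    exact hπ.sign
  haveI : Fact (Nat.Prime 3) := ⟨Nat.prime_three⟩
  haveI : Nontrivial {x // x ∈ σ.support} := Fintype.one_lt_card_iff_nontrivial.mp (by
    rw [Fintype.card_coe, hσ.card_support]; norm_num)
  have hcard : Nat.card (alternatingGroup {x // x ∈ σ.support}) = 3 := by
    rw [nat_card_alternatingGroup, Nat.card_eq_fintype_card, Fintype.card_coe, hσ.card_support]; rfl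
  haveI : IsCyclic (alternatingGroup {x // x ∈ σ.support}) := isCyclic_of_prime_card hcard
  letI : CommGroup (alternatingGroup {x // x ∈ σ.support}) := IsCyclic.commGroup
  have := congrArg Subtype.val (mul_comm (⟨a, hs a (ha.symm ▸ hσ)⟩ : alternatingGroup {x // x ∈ σ.support}) ⟨b, hs b (hb.symm ▸ hσ')⟩)
  rw [← ha, ← hb]
  exact (show Commute a b from this).map Equiv.Perm.ofSubtype

theorem exists_three (c : Equiv.Perm (Fin 8)) :
    ∃ T : Finset (Fin 8), T.card = 3 ∧ (T.map c.toEmbedding = T ∨ Disjoint (T.map c.toEmbedding) T) := by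
  classical
  set M := c.support with hM
  by_cases hF : 3 ≤ (Finset.univ \ M).card
  · obtain ⟨T, hT, hT3⟩ := Finset.exists_subset_card_eq hF
    refine ⟨T, hT3, Or.inl (Finset.eq_of_subset_of_card_le (fun y hy => ?_) (by rw [Finset.card_map]))⟩
    obtain ⟨x, hx, rfl⟩ := Finset.mem_map.mp hy
    have : c x = x := Equiv.Perm.notMem_support.mp (Finset.mem_sdiff.mp (hT hx)).2
    simpa [this] using hx
  have hM6 : 6 ≤ M.card := by
    have := Finset.card_sdiff_add_card_eq_card (Finset.subset_univ M)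
    rw [Finset.card_univ, Fintype.card_fin] at this
    omega
  obtain ⟨x, hx⟩ : M.Nonempty := Finset.card_pos.mp (by omega)
  have hne : ∀ u ∈ M, c u ≠ u := fun u hu => Equiv.Perm.mem_support.mp hu
  have key : ∀ y z, y ∈ M → z ∈ M → y ≠ x → z ≠ x → z ≠ y → c x ≠ y → c y ≠ x → c x ≠ z → c z ≠ x → c y ≠ z →
      c z ≠ y → ∃ T : Finset (Fin 8), T.card = 3 ∧ (T.map c.toEmbedding = T ∨ Disjoint (T.map c.toEmbedding) T) := by
    intro y z hy hz h1 h2 h3 h4 h5 h6 h7 h8 h9
    refine ⟨{x, y, z}, Finset.card_eq_three.mpr ⟨x, y, z, Ne.symm h1, Ne.symm h2, Ne.symm h3, rfl⟩, Or.inr ?_⟩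
    rw [Finset.disjoint_left]
    intro w hw
    simp only [Finset.mem_map, Finset.mem_insert, Finset.mem_singleton, Equiv.coe_toEmbedding] at hw ⊢
    obtain ⟨u, hu, rfl⟩ := hw
    rcases hu with rfl | rfl | rfl
    · simp [hne _ hx, h4, h6]
    · simp [hne _ hy, h5, h8]
    · simp [hne _ hz, h7, h9]
  have hmem : ∀ u ∈ M, c u ∈ M := fun u hu => Equiv.Perm.apply_mem_support.mpr hu
  by_cases h2 : c (c x) = x
  · obtain ⟨y, hy, hy'⟩ := Finset.exists_mem_notMem_of_card_lt_card (s := {x, c x}) (t := M)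
      (lt_of_le_of_lt (Finset.card_le_two) (by omega))
    obtain ⟨z, hz, hz'⟩ := Finset.exists_mem_notMem_of_card_lt_card (s := {x, c x, y, c y, c⁻¹ y}) (t := M)
      (lt_of_le_of_lt (Finset.card_le_five) (by omega))
    simp only [Finset.mem_insert, Finset.mem_singleton, not_or] at hy' hz'
    refine key y z hy hz hy'.1 hz'.1 hz'.2.2.1 (Ne.symm hy'.2) ?_ (Ne.symm hz'.2.1) ?_ (Ne.symm hz'.2.2.2.1) ?_
    · intro e; exact hy'.2 (c.injective (e.trans h2.symm))
    · intro e; exact hz'.2.1 (c.injective (e.trans h2.symm))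
    · intro e; exact hz'.2.2.2.2 (by rw [← e]; exact (Equiv.symm_apply_apply c z).symm)
  · by_cases h3 : c (c (c x)) = x
    · refine ⟨{x, c x, c (c x)}, Finset.card_eq_three.mpr ⟨x, c x, c (c x), Ne.symm (hne x hx), Ne.symm h2,
        Ne.symm (hne _ (hmem x hx)), rfl⟩, Or.inl ?_⟩
      ext w
      simp only [Finset.mem_map, Finset.mem_insert, Finset.mem_singleton, Equiv.coe_toEmbedding]
      constructor
      · rintro ⟨u, rfl | rfl | rfl, rfl⟩ <;> simp [h3]
      · rintro (rfl | rfl | rfl)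
        · exact ⟨c (c w), by simp, h3⟩
        · exact ⟨x, by simp, rfl⟩
        · exact ⟨c x, by simp, rfl⟩
    obtain ⟨z, hz, hz'⟩ := Finset.exists_mem_notMem_of_card_lt_card
      (s := {x, c x, c (c x), c (c (c x)), c⁻¹ x}) (t := M) (lt_of_le_of_lt (Finset.card_le_five) (by omega))
    simp only [Finset.mem_insert, Finset.mem_singleton, not_or] at hz'
    refine key (c (c x)) z (hmem _ (hmem x hx)) hz h2 hz'.1 hz'.2.2.1 (Ne.symm (hne _ (hmem x hx))) h3
      (Ne.symm hz'.2.1) ?_ (Ne.symm hz'.2.2.2.1) ?_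
    · intro e; exact hz'.2.2.2.2 (by rw [← e]; exact (Equiv.symm_apply_apply c z).symm)
    · intro e; exact hz'.2.1 (c.injective e)

/-- In the symmetric group of degree 8, let A be the subgroup generated by a 3-cycle. Then every conjugacy class contains an element g for which A is subnormal in the subgroup generated by A and its conjugate by g, although O_3 of the symmetric group of degree 8 is trivial. -/
theorem result
    (σ : Equiv.Perm (Fin 8)) (hσ : σ.IsThreeCycle) :
    (∀ c : Equiv.Perm (Fin 8), ∃ g : Equiv.Perm (Fin 8), IsConj c g ∧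
      ((Subgroup.zpowers σ).subgroupOf (Subgroup.zpowers σ ⊔ MulAut.conj g • Subgroup.zpowers σ)).IsSubnormal) ∧
    Cfsg.pCore 3 (Equiv.Perm (Fin 8)) = ⊥ := by
  classical
  refine ⟨fun c => ?_, ?_⟩
  · obtain ⟨T, hT, hTc⟩ := exists_three c
    have hS : σ.support.card = 3 := hσ.card_support
    let e : {x // x ∈ T} ≃ {x // x ∈ σ.support} := Finset.equivOfCardEq (hT.trans hS.symm)
    let τ : Equiv.Perm (Fin 8) := e.extendSubtype
    have hτ : T.map τ.toEmbedding = σ.support := by
      refine Finset.eq_of_subset_of_card_le ?_ (by rw [Finset.card_map]; omega)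
      intro y hy
      obtain ⟨x, hx, rfl⟩ := Finset.mem_map.mp hy
      exact e.extendSubtype_mem x hx
    refine ⟨τ * c * τ⁻¹, isConj_iff.mpr ⟨τ, rfl⟩, ?_⟩
    set g := τ * c * τ⁻¹
    set σ' := g * σ * g⁻¹
    have hsupp : σ'.support = (T.map c.toEmbedding).map τ.toEmbedding := by
      rw [Equiv.Perm.support_conj, ← hτ, Finset.map_map, Finset.map_map]
      congr 1
      ext x
      simp [g]
    have hσ' : σ'.IsThreeCycle := by
      rw [Equiv.Perm.IsThreeCycle, Equiv.Perm.cycleType_conj]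
      exact hσ
    have hcomm : Commute σ σ' := by
      rcases hTc with h | h
      · exact commute_of_support hσ hσ' (by rw [hsupp, h, hτ])
      · refine (Equiv.Perm.disjoint_iff_disjoint_support.mpr ?_).commute
        rw [hsupp, ← hτ, Finset.disjoint_map]
        exact h.symm
    have hB : MulAut.conj g • Subgroup.zpowers σ = Subgroup.zpowers σ' :=
      MonoidHom.map_zpowers _ σ
    rw [hB]
    have hcent : Subgroup.zpowers σ ⊔ Subgroup.zpowers σ' ≤ Subgroup.centralizer ({σ} : Set (Equiv.Perm (Fin 8))) := by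
      refine sup_le ?_ ?_ <;> rw [Subgroup.zpowers_le, Subgroup.mem_centralizer_singleton_iff]
      exact hcomm.eq.symm
    haveI : ((Subgroup.zpowers σ).subgroupOf (Subgroup.zpowers σ ⊔ Subgroup.zpowers σ')).Normal := by
      refine ⟨fun x hx y => ?_⟩
      rw [Subgroup.mem_subgroupOf] at hx ⊢
      obtain ⟨i, hi⟩ := Subgroup.mem_zpowers_iff.mp hx
      have hy : Commute σ (y : Equiv.Perm (Fin 8)) := (Subgroup.mem_centralizer_singleton_iff.mp (hcent y.2)).symm
      refine Subgroup.mem_zpowers_iff.mpr ⟨i, ?_⟩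
      rw [Subgroup.coe_mul, Subgroup.coe_mul, Subgroup.coe_inv, ← hi, ← (hy.zpow_left i).eq, mul_inv_cancel_right]
    exact Subgroup.Normal.isSubnormal inferInstance
  · haveI : Fact (Nat.Prime 3) := ⟨Nat.prime_three⟩
    rw [eq_bot_iff]
    refine sSup_le fun N hN => ?_
    by_contra hne
    haveI := hN.1
    obtain ⟨k, hk⟩ := IsPGroup.iff_card.mp hN.2
    have h8 := card_dvd_of_normal (by norm_num) N (fun h => hne (h ▸ le_rfl))
    have h2 : 2 ∣ 3 ^ k := (show (2 : ℕ) ∣ 8 by norm_num).trans (hk ▸ h8)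
    have := Nat.prime_two.dvd_of_dvd_pow h2
    omega

end Cfsg.Agent.S4332
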