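import Cfsg.Prelude.Def_HallClasses
import Cfsg.Prelude.Def_OddOrderLocal
import Cfsg.Agent.Lib.FrobeniusCrit
import Mathlib.GroupTheory.NoncommCoprod
import Mathlib.GroupTheory.Nilpotent

set_option autoImplicit false
open Cfsg

namespace Cfsg.Agent.S4334

open Subgroup CfsgLib.ThompsonNPC

theorem normalizer_le_normalizer_cent {G : Type*} [Group G] (P : Subgroup G) :
    normalizer (P : Set G) ≤ normalizer ((centralizer (P : Set G)) : Set G) := by
  intro g hg
  refine mem_normalizer_iff.mpr fun x => ?_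
  simp only [mem_centralizer_iff, SetLike.mem_coe]
  constructor
  · intro h y hy
    have h1 := h _ ((mem_normalizer_iff''.mp hg y).mp hy)
    have h2 : g * (g⁻¹ * y * g * x) * g⁻¹ = g * (x * (g⁻¹ * y * g)) * g⁻¹ := by rw [h1]
    simpa [mul_assoc] using h2
  · intro h y hy
    have h1 := h _ ((mem_normalizer_iff.mp hg y).mp hy)
    have h2 : g⁻¹ * (g * y * g⁻¹ * (g * x * g⁻¹)) * g = g⁻¹ * (g * x * g⁻¹ * (g * y * g⁻¹)) * g := by
      rw [h1]
    simpa [mul_assoc] using h2

/-- A normal subgroup of index coprime to the order of `x` contains `x`. -/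
theorem mem_of_coprime_relIndex {G : Type*} [Group G] [Finite G] {C M : Subgroup G}
    (hn : M ≤ normalizer (C : Set G)) {x : G} (hx : x ∈ M)
    (hc : (orderOf x).Coprime (C.relIndex M)) : x ∈ C := by
  haveI : (C.subgroupOf M).Normal := normal_subgroupOf_of_le_normalizer hn
  have h1 : orderOf (QuotientGroup.mk' (C.subgroupOf M) ⟨x, hx⟩) ∣ orderOf x :=
    (orderOf_map_dvd _ _).trans (by rw [Subgroup.orderOf_mk])
  have h2 : orderOf (QuotientGroup.mk' (C.subgroupOf M) ⟨x, hx⟩) ∣ C.relIndex M :=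
    orderOf_dvd_natCard _
  have h3 := orderOf_eq_one_iff.mp (Nat.eq_one_of_dvd_coprimes hc h1 h2)
  rw [QuotientGroup.mk'_apply, QuotientGroup.eq_one_iff, mem_subgroupOf] at h3
  exact h3

theorem sylow_le_conj {G : Type*} [Group G] [Finite G] {p : ℕ} [Fact p.Prime] {R P C : Subgroup G}
    (hR : IsPGroup p R) (hP : IsPGroup p P) (hRC : R ≤ C) (hPC : P ≤ C) (hi : ¬ p ∣ R.index) :
    ∃ c ∈ C, ∀ x ∈ P, c⁻¹ * x * c ∈ R := by
  have hi' : ¬ p ∣ (R.subgroupOf C).index := fun h => hi (h.trans (relIndex_dvd_index_of_le hRC))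
  have hR' : IsPGroup p (R.subgroupOf C) := hR.comap_subtype
  obtain ⟨Q, hQ⟩ := (hP.comap_subtype (K := C)).exists_le_sylow
  obtain ⟨c, hc⟩ := MulAction.exists_smul_eq C (hR'.toSylow hi') Q
  refine ⟨c, c.2, fun x hx => ?_⟩
  have h1 : (⟨x, hPC hx⟩ : C) ∈ Q := hQ (mem_subgroupOf.mpr hx)
  rw [← hc, ← SetLike.mem_coe, Sylow.coe_smul] at h1
  obtain ⟨y, hy, hxy⟩ := h1
  have h2 := congrArg Subtype.val hxy
  simp [MulAut.conj_apply] at h2
  rw [← h2]
  simpa [mul_assoc] using mem_subgroupOf.mp hy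

theorem exists_sylow_in {G : Type*} [Group G] [Finite G] {K : Subgroup G} {r : ℕ} [Fact r.Prime]
    (hr : ¬ r ∣ K.index) : ∃ R : Subgroup G, R ≤ K ∧ IsPGroup r R ∧ ¬ r ∣ R.index := by
  obtain ⟨R⟩ := (inferInstance : Nonempty (Sylow r K))
  refine ⟨(R : Subgroup K).map K.subtype, map_subtype_le _, R.2.map _, fun h => ?_⟩
  rw [index_map_subtype] at h
  rcases (Nat.Prime.dvd_mul Fact.out).mp h with h | h
  · exact R.not_dvd_index h
  · exact hr h

section
variable {G : Type*} [Group G] [Finite G] {σ τ π : Set ℕ} {H Hs Ht : Subgroup G}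

theorem core (hπ : π = σ ∪ τ) (hd : Disjoint σ τ) (hH : Cfsg.IsPiHall π H)
    (hs : Cfsg.IsPiSubgroup σ Hs) (ht : Cfsg.IsPiSubgroup τ Ht) (hsn : Group.IsNilpotent Hs)
    (hjoin : Hs ⊔ Ht = H) (hcomm : ∀ a ∈ Hs, ∀ b ∈ Ht, a * b = b * a) :
    (∀ r : ℕ, r.Prime → r ∈ τ → ¬ r ∣ Ht.index) ∧
    ∀ p : ℕ, p.Prime → p ∈ σ → ∃ P : Subgroup G, P ≤ H ∧ IsPGroup p P ∧ ¬ p ∣ P.index ∧
      H ≤ normalizer (P : Set G) ∧
      ∀ r : ℕ, r.Prime → r ∈ π → r ≠ p → ¬ r ∣ (centralizer (P : Set G)).index := by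
  have hsH : Hs ≤ H := hjoin ▸ le_sup_left
  have htH : Ht ≤ H := hjoin ▸ le_sup_right
  have hcop : (Nat.card Hs).Coprime (Nat.card Ht) := Nat.coprime_of_dvd fun r hr h1 h2 =>
    Set.disjoint_left.mp hd (hs r hr h1) (ht r hr h2)
  have hdis : Disjoint Hs Ht := disjoint_iff.mpr (inf_eq_bot_of_coprime hcop)
  have hcard : Nat.card H = Nat.card Hs * Nat.card Ht := by
    let f := MonoidHom.noncommCoprod Hs.subtype Ht.subtype (fun a b => hcomm a a.2 b b.2)
    have hinj : Function.Injective f := (MonoidHom.noncommCoprod_injective _ _ _).mpr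
      ⟨Hs.subtype_injective, Ht.subtype_injective, by rwa [range_subtype, range_subtype]⟩
    have hr : f.range = H := by
      exact (MonoidHom.noncommCoprod_range _ _ _).trans (by rw [range_subtype, range_subtype, hjoin])
    rw [← hr, ← Nat.card_prod]
    exact (Nat.card_congr (MonoidHom.ofInjective hinj).toEquiv).symm
  have his : Hs.index = Nat.card Ht * H.index := by
    have h1 := (Hs.card_mul_index).trans H.card_mul_index.symm
    rw [hcard, mul_assoc] at h1
    exact Nat.eq_of_mul_eq_mul_left Nat.card_pos h1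
  have hit : Ht.index = Nat.card Hs * H.index := by
    have h1 := (Ht.card_mul_index).trans H.card_mul_index.symm
    rw [hcard, mul_comm (Nat.card Hs), mul_assoc] at h1
    exact Nat.eq_of_mul_eq_mul_left Nat.card_pos h1
  have nts : ∀ r : ℕ, r.Prime → r ∈ σ → ¬ r ∣ Hs.index := fun r hr hrs h => by
    rw [his] at h
    rcases hr.dvd_mul.mp h with h | h
    · exact Set.disjoint_left.mp hd hrs (ht r hr h)
    · exact hH.2 r hr (hπ ▸ Or.inl hrs) h
  have ntt : ∀ r : ℕ, r.Prime → r ∈ τ → ¬ r ∣ Ht.index := fun r hr hrs h => by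
    rw [hit] at h
    rcases hr.dvd_mul.mp h with h | h
    · exact Set.disjoint_left.mp hd (hs r hr h) hrs
    · exact hH.2 r hr (hπ ▸ Or.inr hrs) h
  refine ⟨ntt, fun p hp hps => ?_⟩
  haveI := Fact.mk hp
  obtain ⟨S⟩ := (inferInstance : Nonempty (Sylow p Hs))
  haveI := hsn
  have hSn : ((S : Subgroup Hs)).Normal := Sylow.normal_of_normalizerCondition normalizerCondition_of_isNilpotent S
  set P := (S : Subgroup Hs).map Hs.subtype with hP
  have hPs : P ≤ Hs := map_subtype_le _
  have hNs : Hs ≤ normalizer (P : Set G) := by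
    refine (normal_subgroupOf_iff_le_normalizer hPs).mp ?_
    rw [hP, subgroupOf, comap_map_eq_self_of_injective Hs.subtype_injective]
    exact hSn
  have hNt : Ht ≤ centralizer (P : Set G) := fun b hb =>
    mem_centralizer_iff.mpr fun a ha => hcomm a (hPs ha) b hb
  refine ⟨P, hPs.trans hsH, S.2.map _, fun h => ?_, ?_, fun r hr hrπ hrp h => ?_⟩
  · rw [hP, index_map_subtype] at h
    rcases hp.dvd_mul.mp h with h | h
    · exact S.not_dvd_index h
    · exact nts p hp hps h
  · rw [← hjoin]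
    exact sup_le hNs (hNt.trans (centralizer_le_normalizer _))
  · haveI := Fact.mk hr
    rcases hπ ▸ hrπ with hrs | hrt
    · obtain ⟨R⟩ := (inferInstance : Nonempty (Sylow r Hs))
      have hRn : ((R : Subgroup Hs)).Normal := Sylow.normal_of_normalizerCondition normalizerCondition_of_isNilpotent R
      have hle : (R : Subgroup Hs).map Hs.subtype ≤ centralizer (P : Set G) := by
        rintro _ ⟨a, ha, rfl⟩
        refine mem_centralizer_iff.mpr ?_
        rintro _ ⟨b, hb, rfl⟩
        exact congrArg Subtype.val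
          (commute_of_normal_of_disjoint _ _ hSn hRn (IsPGroup.disjoint_of_ne p r (Ne.symm hrp) _ _ S.2 R.2) b a hb ha).eq
      have := h.trans (index_dvd_of_le hle)
      rw [index_map_subtype] at this
      rcases hr.dvd_mul.mp this with h | h
      · exact R.not_dvd_index h
      · exact nts r hr hrs h
    · exact ntt r hr hrt (h.trans (index_dvd_of_le hNt))

theorem conj_mem_map {K : Subgroup G} {g x : G} : x ∈ K.map (MulAut.conj g).toMonoidHom ↔ g⁻¹ * x * g ∈ K := by
  rw [mem_map_equiv, MulAut.conj_symm_apply]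

theorem main_aux (hπ : π = σ ∪ τ) (hd : Disjoint σ τ) (hH : Cfsg.IsPiHall π H)
    (hs : Cfsg.IsPiSubgroup σ Hs) (ht : Cfsg.IsPiSubgroup τ Ht) (hsn : Group.IsNilpotent Hs)
    (hjoin : Hs ⊔ Ht = H) (hcomm : ∀ a ∈ Hs, ∀ b ∈ Ht, a * b = b * a)
    (hD : Cfsg.IsDPiGroup τ G) :
    ∀ n, ∀ K : Subgroup G, Nat.card K ≤ n → Cfsg.IsPiSubgroup π K →
      ∃ g : G, ∀ x ∈ K, g⁻¹ * x * g ∈ H := by
  obtain ⟨ntt, hcore⟩ := core hπ hd hH hs ht hsn hjoin hcomm
  have key : ∀ p : ℕ, p.Prime → p ∈ σ → ∀ Q : Subgroup G, IsPGroup p Q → ∀ x ∈ normalizer (Q : Set G),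
      (orderOf x).Coprime p → (∀ r : ℕ, r.Prime → r ∣ orderOf x → r ∈ π) → x ∈ centralizer (Q : Set G) := by
    intro p hp hps Q hQ x hx hxc hxπ
    haveI := Fact.mk hp
    obtain ⟨P, -, hPp, hPi, -, hPc⟩ := hcore p hp hps
    obtain ⟨c, -, hc⟩ := sylow_le_conj hPp hQ le_top le_top hPi
    have hle : (centralizer (P : Set G)).map (MulAut.conj c).toMonoidHom ≤ centralizer (Q : Set G) := by
      intro z hz
      rw [conj_mem_map] at hz
      refine mem_centralizer_iff.mpr fun q hq => ?_
      have := mem_centralizer_iff.mp hz _ (hc q hq)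
      have e : c * ((c⁻¹ * q * c) * (c⁻¹ * z * c)) * c⁻¹ = c * ((c⁻¹ * z * c) * (c⁻¹ * q * c)) * c⁻¹ := by
        rw [this]
      simpa [mul_assoc] using e
    refine mem_of_coprime_relIndex (normalizer_le_normalizer_cent Q) hx (Nat.coprime_of_dvd fun r hr h1 h2 => ?_)
    have hrp : r ≠ p := by
      rintro rfl
      exact hp.ne_one ((Nat.coprime_self r).mp ((hxc.coprime_dvd_left h1)))
    refine hPc r hr (hxπ r hr h1) hrp ?_
    have h3 := (h2.trans (relIndex_dvd_index_of_le (centralizer_le_normalizer _))).trans (index_dvd_of_le hle)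
    exact h3.trans (dvd_of_eq (index_map_equiv _ (MulAut.conj c)))
  intro n
  induction n with
  | zero => intro K hn; exact absurd (Nat.card_pos (α := K)) (by omega)
  | succ n ih =>
    intro K hn hK
    by_cases hex : ∃ p : ℕ, p.Prime ∧ p ∈ σ ∧ p ∣ Nat.card K
    swap
    · have htmax : Maximal (Cfsg.IsPiSubgroup τ) Ht := by
        refine ⟨ht, fun L hL hle => ?_⟩
        have h1 : Ht.relIndex L = 1 := Nat.eq_one_iff_not_exists_prime_dvd.mpr fun r hr h =>
          ntt r hr (hL r hr (h.trans (relIndex_dvd_card _ _))) (h.trans (relIndex_dvd_index_of_le hle))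
        exact relIndex_eq_one.mp h1
      have hKτ : Cfsg.IsPiSubgroup τ K := fun r hr hrd => (hπ ▸ hK r hr hrd).resolve_left
        fun hrs => hex ⟨r, hr, hrs, hrd⟩
      obtain ⟨M, hKM, hM⟩ := Finite.exists_le_maximal hKτ
      obtain ⟨g, hg⟩ := hD Ht M htmax hM
      refine ⟨g, fun x hx => ?_⟩
      have := hKM hx
      rw [hg, conj_mem_map] at this
      exact hjoin ▸ mem_sup_right this
    obtain ⟨p, hp, hps, hpK⟩ := hex
    haveI := Fact.mk hp
    have hpc : PCOn p K := by
      refine pcOn_top_subgroup.mp (CfsgLib.FrobeniusCrit.pcOn_top _ K le_rfl fun X hX g hg hgc => ?_)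
      refine mem_centralizer_iff.mpr fun x hx => Subtype.ext ?_
      have hgN : (g : G) ∈ normalizer ((X.map K.subtype : Subgroup G) : Set G) :=
        le_normalizer_map K.subtype ⟨g, hg, rfl⟩
      exact mem_centralizer_iff.mp (key p hp hps (X.map K.subtype) (hX.map _) (g : G) hgN
        (by rwa [orderOf_coe]) fun r hr h => hK r hr (h.trans (Subgroup.orderOf_dvd_natCard _ g.2)))
        (x : G) ⟨x, hx, rfl⟩
    set N := pcore' hpc with hN
    have hNK : N ≤ K := pcore'_le hpc
    have hNlt : Nat.card N < Nat.card K := by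
      refine lt_of_le_of_ne (card_le_of_le hNK) fun h => ?_
      have := card_pcore'_coprime hpc
      rw [← hN, h] at this
      exact hp.coprime_iff_not_dvd.mp this.symm hpK
    obtain ⟨g, hg⟩ := ih N (by omega) fun r hr h => hK r hr (h.trans (card_dvd_of_le hNK))
    obtain ⟨R, hRH, hRp, hRi, hRn, -⟩ := hcore p hp hps
    set Rg := R.map (MulAut.conj g).toMonoidHom with hRg
    have hRgC : Rg ≤ centralizer (N : Set G) := by
      refine le_centralizer_iff.mp fun x hx => ?_
      refine key p hp hps Rg (hRp.map _) x ?_ ((mem_pcore' hpc).mp hx).2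
        fun r hr h => hK r hr (h.trans (Subgroup.orderOf_dvd_natCard _ (hNK hx)))
      have h1 := hRn (hg x hx)
      refine mem_normalizer_iff.mpr fun z => ?_
      rw [hRg, conj_mem_map, conj_mem_map, mem_normalizer_iff.mp h1 (g⁻¹ * z * g)]
      simp [mul_assoc]
    have hRgi : ¬ p ∣ Rg.index := fun h => hRi (h.trans (dvd_of_eq (index_map_equiv _ (MulAut.conj g))))
    obtain ⟨S⟩ := (inferInstance : Nonempty (Sylow p K))
    set P := (S : Subgroup K).map K.subtype with hP
    have hPK : P ≤ K := map_subtype_le _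
    have hPC : P ≤ centralizer (N : Set G) := by
      intro x hx
      refine mem_of_coprime_relIndex (normalizer_le_normalizer_cent N)
        (normalizer_le_pcore' hpc (le_normalizer (hPK hx))) ?_
      obtain ⟨k, hk⟩ := IsPGroup.iff_orderOf.mp (S.2.map K.subtype) ⟨x, hx⟩
      rw [Subgroup.orderOf_mk] at hk
      rw [hk]
      refine Nat.Coprime.pow_left k (hp.coprime_iff_not_dvd.mpr fun h => hRgi ?_)
      exact (h.trans (relIndex_dvd_index_of_le (centralizer_le_normalizer _))).trans (index_dvd_of_le hRgC)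
    obtain ⟨c, hc, hcP⟩ := sylow_le_conj (hRp.map _) (S.2.map K.subtype) hRgC hPC hRgi
    have hsup : K ≤ N ⊔ P := by
      have h1 : (N ⊔ P).relIndex K = 1 := Nat.eq_one_iff_not_exists_prime_dvd.mpr fun r hr h => by
        haveI := Fact.mk hr
        obtain ⟨T⟩ := (inferInstance : Nonempty (Sylow r K))
        by_cases hrp : r = p
        · subst hrp
          have h2 : (S : Subgroup K) ≤ (N ⊔ P).subgroupOf K := fun y hy =>
            mem_subgroupOf.mpr (mem_sup_right ⟨y, hy, rfl⟩)
          exact S.not_dvd_index (h.trans (index_dvd_of_le h2))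
        · have h2 : (T : Subgroup K) ≤ (N ⊔ P).subgroupOf K := fun y hy => by
            refine mem_subgroupOf.mpr (mem_sup_left ((mem_pcore' hpc).mpr ⟨y.2, ?_⟩))
            obtain ⟨k, hk⟩ := IsPGroup.iff_orderOf.mp T.2 ⟨y, hy⟩
            rw [Subgroup.orderOf_mk] at hk
            rw [orderOf_coe, hk]
            exact Nat.Coprime.pow_left k ((Nat.coprime_primes hr hp).mpr hrp)
          exact T.not_dvd_index (h.trans (index_dvd_of_le h2))
      exact relIndex_eq_one.mp h1
    refine ⟨c * g, fun x hx => ?_⟩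
    have h2 : N ⊔ P ≤ H.map (MulAut.conj (c * g)).toMonoidHom := by
      refine sup_le (fun y hy => ?_) (fun y hy => ?_) <;> rw [conj_mem_map]
      · have := mem_centralizer_iff.mp hc y hy
        have e : (c * g)⁻¹ * y * (c * g) = g⁻¹ * y * g := by
          rw [mul_inv_rev, mul_assoc, mul_assoc, ← mul_assoc y, this]
          simp [mul_assoc]
        rw [e]
        exact hg y hy
      · have := hcP y hy
        rw [conj_mem_map] at this
        simpa [mul_assoc] using hRH this
    exact conj_mem_map.mp (h2 (hsup hx))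

end

/-- Let σ and τ be disjoint sets of primes with union π. Suppose a finite group G has a Hall π-subgroup H which is the direct product of a nilpotent σ-subgroup and a τ-subgroup (two elementwise-commuting subgroups generating H), and that the maximal τ-subgroups of G are pairwise conjugate. Then the maximal π-subgroups of G are pairwise conjugate. -/
theorem result {G : Type*} [Group G] [Finite G]
    (σ τ π : Set ℕ) (hπ : π = σ ∪ τ) (hd : Disjoint σ τ) (H Hs Ht : Subgroup G) (hH : Cfsg.IsPiHall π H)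
    (hs : Cfsg.IsPiSubgroup σ Hs) (ht : Cfsg.IsPiSubgroup τ Ht) (hsn : Group.IsNilpotent Hs)
    (hjoin : Hs ⊔ Ht = H) (hcomm : ∀ a ∈ Hs, ∀ b ∈ Ht, a * b = b * a) (hD : Cfsg.IsDPiGroup τ G) :
    Cfsg.IsDPiGroup π G := by
  have haux := main_aux hπ hd hH hs ht hsn hjoin hcomm hD
  have hconj : ∀ A : Subgroup G, Maximal (Cfsg.IsPiSubgroup π) A →
      ∃ g : G, A = H.map (MulAut.conj g).toMonoidHom := by
    intro A hA
    obtain ⟨g, hg⟩ := haux _ A le_rfl hA.1
    refine ⟨g, hA.eq_of_le ?_ fun x hx => conj_mem_map.mpr (hg x hx)⟩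
    intro r hr h
    exact hH.1 r hr (h.trans (dvd_of_eq (Nat.card_congr ((H.equivMapOfInjective _
      (MulAut.conj g).injective).toEquiv).symm)))
  intro A B hA hB
  obtain ⟨a, rfl⟩ := hconj A hA
  obtain ⟨b, rfl⟩ := hconj B hB
  refine ⟨b * a⁻¹, ?_⟩
  ext x
  rw [map_map, conj_mem_map, mem_map]
  constructor
  · intro h
    exact ⟨_, h, by simp [mul_assoc]⟩
  · rintro ⟨y, hy, rfl⟩
    simpa [mul_assoc] using hy

end Cfsg.Agent.S4334
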