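import Cfsg.Statements.S4337
import Cfsg.Agent.Lib.GroupB.Small

set_option autoImplicit false
open Cfsg

namespace Cfsg.Agent.S4337

theorem key {n : ℕ} (a b c : Equiv.Perm (Fin n)) (ha : a.IsSwap) (hb : b.IsSwap)
    (h : Disjoint (a.support ∪ b.support) c.support) :
    Group.IsSolvable (Subgroup.closure ({a, b, c} : Set (Equiv.Perm (Fin n)))) := by
  classical
  haveI : Group.IsSolvable ↥(Subgroup.closure ({a, b} : Set (Equiv.Perm (Fin n)))) := by
    refine CfsgLib.GroupB.Small.isSolvable_closure_of_moved (a.support ∪ b.support) ?_ ?_
    · refine (Finset.card_union_le _ _).trans ?_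
      rw [Equiv.Perm.card_support_eq_two.mpr ha, Equiv.Perm.card_support_eq_two.mpr hb]
    · intro s hs x hx
      simp only [Set.mem_insert_iff, Set.mem_singleton_iff] at hs
      rcases hs with rfl | rfl <;> simp [hx]
  haveI : Group.IsSolvable ↥(Subgroup.zpowers c) :=
    Group.isSolvable_of_comm fun x y => (inferInstance : IsMulCommutative ↥(Subgroup.zpowers c)).is_comm.comm x y
  have hs : Subgroup.closure ({a, b, c} : Set (Equiv.Perm (Fin n))) =
      Subgroup.closure {a, b} ⊔ Subgroup.zpowers c := by
    rw [Subgroup.zpowers_eq_closure, ← Subgroup.closure_union]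
    congr 1
    ext; simp only [Set.mem_insert_iff, Set.mem_singleton_iff, Set.mem_union]; tauto
  rw [hs]
  refine CfsgLib.GroupB.Small.isSolvable_sup_of_commute _ _ ?_
  intro x hx y hy
  have hc : ∀ s ∈ ({a, b} : Set (Equiv.Perm (Fin n))), s * c = c * s := by
    intro s hs
    simp only [Set.mem_insert_iff, Set.mem_singleton_iff] at hs
    rw [Finset.disjoint_union_left] at h
    rcases hs with rfl | rfl
    · exact (Equiv.Perm.disjoint_iff_disjoint_support.mpr h.1).commute.eq
    · exact (Equiv.Perm.disjoint_iff_disjoint_support.mpr h.2).commute.eq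
  obtain ⟨k, rfl⟩ := Subgroup.mem_zpowers_iff.mp hy
  refine Commute.zpow_right ?_ k
  induction hx using Subgroup.closure_induction with
  | mem s hs => exact hc s hs
  | one => exact Commute.one_left _
  | mul x y _ _ p q => exact p.mul_left q
  | inv x _ p => exact p.inv_left

/-- In a finite symmetric group, any three transpositions generate a solvable subgroup. -/
theorem result (n : ℕ) (a b c : Equiv.Perm (Fin n))
    (ha : a.IsSwap) (hb : b.IsSwap) (hc : c.IsSwap) :
    Group.IsSolvable (Subgroup.closure ({a, b, c} : Set (Equiv.Perm (Fin n)))) := by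
  classical
  have sw : ∀ x : Equiv.Perm (Fin n), x.IsSwap → x.support.card = 2 :=
    fun x hx => Equiv.Perm.card_support_eq_two.mpr hx
  by_cases h4 : (a.support ∪ b.support ∪ c.support).card ≤ 4
  · refine CfsgLib.GroupB.Small.isSolvable_closure_of_moved _ h4 ?_
    intro s hs x hx
    simp only [Set.mem_insert_iff, Set.mem_singleton_iff] at hs
    rcases hs with rfl | rfl | rfl <;> simp [hx]
  · have e1 := Finset.card_union_add_card_inter (a.support ∪ b.support) c.support
    have e2 := Finset.card_union_add_card_inter a.support b.support
    rw [sw a ha, sw b hb] at e2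
    rw [sw c hc] at e1
    by_cases hd : Disjoint (a.support ∪ b.support) c.support
    · exact key a b c ha hb hd
    · rw [Finset.disjoint_iff_inter_eq_empty, ← Finset.card_eq_zero] at hd
      have hab : Disjoint a.support b.support := by
        rw [Finset.disjoint_iff_inter_eq_empty, ← Finset.card_eq_zero]; omega
      have e3 : ((a.support ∪ b.support) ∩ c.support).card =
          (a.support ∩ c.support).card + (b.support ∩ c.support).card := by
        rw [Finset.union_inter_distrib_right, Finset.card_union_of_disjoint]
        exact hab.mono Finset.inter_subset_left Finset.inter_subset_left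
      by_cases hac : a.support ∩ c.support = ∅
      · have hs : ({a, b, c} : Set (Equiv.Perm (Fin n))) = {b, c, a} := by
          ext; simp only [Set.mem_insert_iff, Set.mem_singleton_iff]; tauto
        rw [hs]
        refine key b c a hb hc ?_
        rw [Finset.disjoint_union_left]
        exact ⟨hab.symm, (Finset.disjoint_iff_inter_eq_empty.mpr hac).symm⟩
      · have hbc : Disjoint b.support c.support := by
          rw [Finset.disjoint_iff_inter_eq_empty, ← Finset.card_eq_zero]
          have : (a.support ∩ c.support).card ≠ 0 := by simpa using hac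
          omega
        have hs : ({a, b, c} : Set (Equiv.Perm (Fin n))) = {a, c, b} := by
          ext; simp only [Set.mem_insert_iff, Set.mem_singleton_iff]; tauto
        rw [hs]
        refine key a c b ha hc ?_
        rw [Finset.disjoint_union_left]
        exact ⟨hab, hbc.symm⟩

end Cfsg.Agent.S4337
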