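import Cfsg.Statements.S4341
import Cfsg.Agent.Lib.GroupB.SylowNumber
import Cfsg.Agent.Lib.GroupB.Coprime

set_option autoImplicit false
open Cfsg

namespace Cfsg.Agent.S4341

open Subgroup

variable {G : Type*} [Group G] [Finite G]

theorem relIndex_left_sup {A M : Subgroup G} (h : A ≤ normalizer (M : Set G)) :
    A.relIndex (A ⊔ M) = A.relIndex M := by
  have h1 := CfsgLib.GroupB.Coprime.relIndex_sup_of_le_normalizer h
  have e1 := relIndex_mul_relIndex ⊥ A (A ⊔ M) bot_le le_sup_left
  have e2 := relIndex_mul_relIndex ⊥ M (A ⊔ M) bot_le le_sup_right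
  rw [relIndex_bot_left, relIndex_bot_left] at e1 e2
  rw [sup_comm] at h1
  rw [h1] at e2
  have e3 := relIndex_mul_relIndex ⊥ (A ⊓ M) A bot_le inf_le_left
  have e4 := relIndex_mul_relIndex ⊥ (A ⊓ M) M bot_le inf_le_right
  rw [relIndex_bot_left, relIndex_bot_left, inf_relIndex_left] at e3
  rw [relIndex_bot_left, relIndex_bot_left, inf_relIndex_right] at e4
  refine Nat.eq_of_mul_eq_mul_left (Nat.card_pos (α := A)) (e1.trans ?_)
  rw [← e2, ← e4, ← e3]; ring

variable {p : ℕ} [Fact p.Prime]

theorem card_sylow_subgroup (P : Sylow p G) {H : Subgroup G} (h : (P : Subgroup G) ≤ H) :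
    Nat.card (Sylow p H) = (normalizer ((P : Subgroup G) : Set G)).relIndex H := by
  rw [(P.subtype h).card_eq_index_normalizer, relIndex, subgroupOf_normalizer_eq h]
  rfl

/-- Frattini inside the normalizer. -/
theorem normalizer_eq_sup (P : Sylow p G) {M : Subgroup G} (h : (P : Subgroup G) ≤ M)
    (hPM : normalizer ((P : Subgroup G) : Set G) ≤ normalizer (M : Set G)) :
    normalizer ((P : Subgroup G) : Set G) ⊔ M = normalizer (M : Set G) := by
  refine le_antisymm (sup_le hPM le_normalizer) fun g hg => ?_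
  have hgP : ((g • P : Sylow p G) : Subgroup G) ≤ M := by
    rintro _ ⟨x, hx, rfl⟩
    exact (mem_normalizer_iff.mp hg x).mp (h hx)
  obtain ⟨m, hm⟩ := MulAction.exists_smul_eq M (P.subtype h) ((g • P).subtype hgP)
  have hm' : (m : G) • P = g • P := by
    refine Sylow.subtype_injective (N := M) (hP := ?_) (hQ := hgP) ?_
    · rintro _ ⟨x, hx, rfl⟩
      exact (mem_normalizer_iff.mp (le_normalizer m.2) x).mp (h hx)
    · rw [← hm]
      exact (Sylow.smul_subtype h m).symm
  have : (m : G)⁻¹ * g ∈ normalizer ((P : Subgroup G) : Set G) := by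
    refine Sylow.smul_eq_iff_mem_normalizer.mp ?_
    rw [mul_smul, ← hm', inv_smul_smul]
  rw [show g = (m : G) * ((m : G)⁻¹ * g) by group]
  exact mul_mem (mem_sup_right m.2) (mem_sup_left this)

theorem formula (p : ℕ) [Fact p.Prime] (K : Subgroup G) [K.Normal] (P : Sylow p G) (N : Subgroup G)
    (hN : N = ((P : Subgroup G) ⊔ K) ⊓ normalizer (((P : Subgroup G) ⊓ K : Subgroup G) : Set G))
    [hn : (((P : Subgroup G) ⊓ K).subgroupOf N).Normal] :
    Nat.card (Sylow p G) =
      Nat.card (Sylow p (G ⧸ K)) * Nat.card (Sylow p K) *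
        Nat.card (Sylow p (N ⧸ ((P : Subgroup G) ⊓ K).subgroupOf N)) := by
  set M := (P : Subgroup G) ⊔ K with hM
  set NP := normalizer ((P : Subgroup G) : Set G) with hNP
  set Q := (P : Subgroup G) ⊓ K with hQ
  set NQ := normalizer (Q : Set G) with hNQ
  have hPNQ : NP ≤ NQ := by
    intro g hg
    rw [hNP, CfsgLib.GroupB.Coprime.mem_normalizer_iff_map_conj_eq] at hg
    rw [hNQ, CfsgLib.GroupB.Coprime.mem_normalizer_iff_map_conj_eq, hQ,
      Subgroup.map_inf _ _ _ (MulAut.conj g).injective, hg,
      CfsgLib.GroupB.Coprime.mem_normalizer_iff_map_conj_eq.mp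
        (show g ∈ normalizer (K : Set G) by rw [normalizer_eq_top]; trivial)]
  have hPM : NP ≤ normalizer (M : Set G) := by
    intro g hg
    rw [CfsgLib.GroupB.Coprime.mem_normalizer_iff_map_conj_eq, hM, Subgroup.map_sup,
      CfsgLib.GroupB.Coprime.mem_normalizer_iff_map_conj_eq.mp hg,
      CfsgLib.GroupB.Coprime.mem_normalizer_iff_map_conj_eq.mp
        (show g ∈ normalizer (K : Set G) by rw [normalizer_eq_top]; trivial)]
  have hPN : (P : Subgroup G) ≤ N := hN ▸ le_inf le_sup_left (le_normalizer.trans hPNQ)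
  -- the three numbers
  have h1 : Nat.card (Sylow p (G ⧸ K)) = (normalizer (M : Set G)).index := by
    rw [(P.mapSurjective (QuotientGroup.mk'_surjective K)).card_eq_index_normalizer,
      ← index_comap_of_surjective _ (QuotientGroup.mk'_surjective K),
      ← Sylow.coe_coe, comap_normalizer_eq_of_surjective _ (QuotientGroup.mk'_surjective K)]
    congr
    show ((P : Subgroup G).map (QuotientGroup.mk' K)).comap (QuotientGroup.mk' K) = M
    rw [comap_map_eq, QuotientGroup.ker_mk']
  have hG : Nat.card (Sylow p G) = Nat.card (Sylow p (G ⧸ K)) * Nat.card (Sylow p M) := by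
    rw [h1, card_sylow_subgroup P le_sup_left, P.card_eq_index_normalizer, ← Sylow.coe_coe, ← relIndex_mul_index hPM,
      ← normalizer_eq_sup P le_sup_left hPM, relIndex_left_sup hPM, mul_comm]
  have hK : Nat.card (Sylow p K) = NQ.relIndex K := by
    obtain ⟨R, hR⟩ := (IsPGroup.of_injective (show IsPGroup p Q from P.isPGroup'.to_le inf_le_left)
      (Subgroup.subgroupOfEquivOfLe (inf_le_right : Q ≤ K)).toMonoidHom
      (Subgroup.subgroupOfEquivOfLe (inf_le_right : Q ≤ K)).injective).exists_le_sylow
    have hRQ : (R : Subgroup K) = Q.subgroupOf K := by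
      refine le_antisymm ?_ hR
      intro x hx
      obtain ⟨P', hP'⟩ := (R.isPGroup'.map K.subtype).exists_le_sylow
      obtain ⟨g, hg⟩ := MulAction.exists_smul_eq G P' P
      -- compare orders
      have hle : Nat.card (R : Subgroup K) ≤ Nat.card Q := by
        rw [Nat.card_congr ((R : Subgroup K).equivMapOfInjective K.subtype K.subtype_injective).toEquiv,
          ← CfsgLib.GroupB.SchurZassenhaus.card_map_conj g]
        refine Nat.le_of_dvd Nat.card_pos (card_dvd_of_le (le_inf ?_ ?_))
        · rw [← hg]; exact map_mono hP'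
        · rintro _ ⟨_, ⟨y, -, rfl⟩, rfl⟩
          exact (inferInstance : K.Normal).conj_mem _ y.2 g
      exact (eq_of_le_of_card_ge hR (by
        rw [Nat.card_congr (subgroupOfEquivOfLe (inf_le_right : Q ≤ K)).toEquiv]; exact hle)).ge hx
    rw [R.card_eq_index_normalizer, relIndex, subgroupOf_normalizer_eq inf_le_right, ← hRQ]
    rfl
  have hMeq : (normalizer (Q : Set G)) ⊓ M = N := by rw [hN, inf_comm]
  have hNK : K ⊔ N = M := by
    refine le_antisymm (sup_le le_sup_right (hN ▸ inf_le_left)) (sup_le ?_ le_sup_left)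
    exact hPN.trans le_sup_right
  have hMN : Nat.card (Sylow p M) = Nat.card (Sylow p K) * Nat.card (Sylow p N) := by
    rw [hK, card_sylow_subgroup P le_sup_left, card_sylow_subgroup P hPN, ← inf_relIndex_right NP M,
      ← relIndex_mul_relIndex (NP ⊓ M) N M (hMeq ▸ inf_le_inf_right M hPNQ) (hN ▸ inf_le_left), mul_comm]
    congr 1
    · rw [← hNK, sup_comm, relIndex_left_sup (by rw [normalizer_eq_top]; exact le_top), ← hMeq,
        ← inf_relIndex_right, inf_assoc, inf_eq_right.mpr (le_sup_right : K ≤ M), inf_relIndex_right]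
    · rw [← inf_relIndex_right (NP ⊓ M) N, inf_assoc, inf_eq_right.mpr (hN ▸ inf_le_left : N ≤ M),
        inf_relIndex_right]
  rw [hG, hMN, mul_assoc, CfsgLib.GroupB.SylowNumber.card_sylow_quotient (G := N)]
  intro R
  obtain ⟨R', hR'⟩ := (IsPGroup.of_injective (show IsPGroup p Q from P.isPGroup'.to_le inf_le_left)
      (Subgroup.subgroupOfEquivOfLe (hN ▸ le_inf (inf_le_left.trans le_sup_left) le_normalizer : Q ≤ N)).toMonoidHom
      (Subgroup.subgroupOfEquivOfLe _).injective).exists_le_sylow
  obtain ⟨g, hg⟩ := MulAction.exists_smul_eq N R' R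
  refine le_trans ?_ le_normalizer
  rw [← hg]
  intro x hx
  exact ⟨g⁻¹ * x * g, hR' (by simpa using hn.conj_mem x hx g⁻¹), by simp [mul_assoc]⟩

/-- Let K be a normal subgroup of a finite group G, p a prime and P a Sylow p-subgroup of G; let N be the normalizer of P ∩ K inside the subgroup PK. Then the number of Sylow p-subgroups of G equals the product of the numbers of Sylow p-subgroups of G/K, of K, and of N/(P ∩ K). (The normality of P ∩ K in N, which always holds, is assumed as a hypothesis so that the quotient can be formed.) -/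
theorem result {G : Type*} [Group G] [Finite G]
    (p : ℕ) [Fact p.Prime] (K : Subgroup G) [K.Normal] (P : Sylow p G) (N : Subgroup G)
    (hN : N = ((P : Subgroup G) ⊔ K) ⊓ Subgroup.normalizer (((P : Subgroup G) ⊓ K : Subgroup G) : Set G))
    [hn : (((P : Subgroup G) ⊓ K).subgroupOf N).Normal] :
    Nat.card (Sylow p G) =
      Nat.card (Sylow p (G ⧸ K)) * Nat.card (Sylow p K) * Nat.card (Sylow p (N ⧸ ((P : Subgroup G) ⊓ K).subgroupOf N)) := by
  exact formula p K P N hN

end Cfsg.Agent.S4341
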