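import Cfsg.Statements.S4343
import Cfsg.Agent.Lib.GroupB.Coprime

set_option autoImplicit false
open Cfsg

namespace Cfsg.Agent.S4343

/-- Let S be a finite non-abelian simple group and p a prime dividing its order. If S has fewer than p² Sylow p-subgroups, then its Sylow p-subgroups have order p. -/
theorem result {S : Type*} [Group S] [Finite S]
    [IsSimpleGroup S] (hS : ¬ IsMulCommutative S) (p : ℕ) [Fact p.Prime] (hp : p ∣ Nat.card S)
    (hn : Nat.card (Sylow p S) < p ^ 2) (P : Sylow p S) : Nat.card P = p := by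
  classical
  haveI := Fintype.ofFinite S
  have hp' : p.Prime := Fact.out
  have hcen : ∀ N : Subgroup S, N.Normal → IsPGroup p N → N = ⊥ := by
    intro N hN hNp
    refine hN.eq_bot_or_eq_top.resolve_right fun htop => hS ?_
    subst htop
    have hpS : IsPGroup p S := hNp.of_equiv Subgroup.topEquiv
    haveI := hpS.isNilpotent
    exact ⟨⟨fun a b => IsSimpleGroup.comm_iff_isSolvable.mpr inferInstance a b⟩⟩
  have hPne : (P : Subgroup S) ≠ ⊥ := P.ne_bot_of_dvd_card hp
  have hpi : ∀ Q R : Sylow p S, Q ≠ R → Nat.card ((Q : Subgroup S) ⊓ R : Subgroup S) * p = Nat.card (Q : Subgroup S) := by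
    intro Q R hne
    obtain ⟨k, hk⟩ := Q.isPGroup'.index ((R : Subgroup S).subgroupOf Q)
    have hinf : Subgroup.normalizer ((R : Subgroup S) : Set S) ⊓ (Q : Subgroup S) = (R : Subgroup S) ⊓ Q := by
      exact (inf_comm _ _).trans ((Q.isPGroup'.inf_normalizer_sylow R).trans (inf_comm _ _))
    have horb : (MulAction.orbit (Q : Subgroup S) R).ncard = ((R : Subgroup S).subgroupOf Q).index := by
      rw [← MulAction.index_stabilizer]
      congr 1
      ext ⟨x, hx⟩
      rw [MulAction.mem_stabilizer_iff]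
      show x • R = R ↔ x ∈ (R : Subgroup S)
      rw [Sylow.smul_eq_iff_mem_normalizer]
      refine ⟨fun h => (hinf.le ⟨h, hx⟩).1, fun h => Subgroup.le_normalizer h⟩
    have hlt : ((R : Subgroup S).subgroupOf Q).index < p ^ 2 := by
      rw [← horb]
      refine lt_of_le_of_lt ?_ hn
      exact (Set.ncard_le_card _)
    have hk1 : k = 1 := by
      rw [hk] at hlt
      have h2 : k < 2 := (Nat.pow_lt_pow_iff_right hp'.one_lt).mp hlt
      rcases Nat.eq_zero_or_pos k with rfl | h0
      · exfalso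
        rw [pow_zero, Subgroup.index_eq_one, Subgroup.subgroupOf_eq_top] at hk
        exact hne (Sylow.ext (Q.3 R.isPGroup' hk)).symm
      · omega
    have := Subgroup.card_mul_index ((R : Subgroup S).subgroupOf Q)
    rw [hk, hk1, pow_one] at this
    rw [← this]
    congr 1
    rw [← Subgroup.card_map_of_injective (Q : Subgroup S).subtype_injective, Subgroup.subgroupOf_map_subtype, inf_comm]
  obtain ⟨Q, hQ⟩ : ∃ Q : Sylow p S, P ≠ Q := by
    by_contra h
    push Not at h
    haveI : Subsingleton (Sylow p S) := ⟨fun a b => (h a).symm.trans (h b)⟩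
    exact hPne (hcen _ (Sylow.normal_of_subsingleton P) P.isPGroup')
  let D : Subgroup S := (P : Subgroup S) ⊓ Q
  obtain ⟨a, ha⟩ := IsPGroup.iff_card.mp P.isPGroup'
  have hDp : IsPGroup p D := P.isPGroup'.to_le inf_le_left
  have hnorm : ∀ R : Sylow p S, D ≤ R → Nat.card D * p = Nat.card (R : Subgroup S) → (R : Subgroup S) ≤ Subgroup.normalizer (D : Set S) := by
    intro R hle hc
    haveI : (D.subgroupOf (R : Subgroup S)).Normal := by
      obtain ⟨i, hi⟩ := IsPGroup.iff_card.mp R.isPGroup'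
      refine Subgroup.normal_of_index_eq_minFac_card ?_
      have h1 := Subgroup.card_mul_index (D.subgroupOf (R : Subgroup S))
      rw [Nat.card_congr (Subgroup.subgroupOfEquivOfLe hle).toEquiv, ← hc] at h1
      rw [Nat.eq_of_mul_eq_mul_left Nat.card_pos h1, hi,
        Nat.pow_minFac (fun e => ?_), hp'.minFac_eq]
      subst e
      rw [pow_zero, ← hc] at hi
      exact absurd (Nat.eq_one_of_mul_eq_one_left hi) hp'.ne_one
    exact CfsgLib.GroupB.Coprime.le_normalizer_of_conj_mem fun k hk x hx =>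
      Subgroup.Normal.conj_mem (inferInstance : (D.subgroupOf (R : Subgroup S)).Normal) ⟨x, hle hx⟩ hx ⟨k, hk⟩
  let N := Subgroup.normalizer (D : Set S)
  have hPN : (P : Subgroup S) ≤ N := hnorm P inf_le_left (hpi P Q hQ)
  have hQN : (Q : Subgroup S) ≤ N := hnorm Q inf_le_right ((hpi P Q hQ).trans (P.card_eq_multiplicity.trans Q.card_eq_multiplicity.symm))
  have hall : ∀ R : Sylow p S, D ≤ R := by
    intro R
    obtain ⟨T, hT⟩ := (R.isPGroup'.comap_subtype (K := N)).exists_le_sylow
    obtain ⟨x, hx⟩ := MulAction.exists_smul_eq N T (P.subtype hPN)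
    have hxm : ∀ y ∈ (R : Subgroup S), y ∈ N → (x : S) * y * (x : S)⁻¹ ∈ (P : Subgroup S) := by
      intro y hy hyN
      have h1 : (MulAut.conj x) ⟨y, hyN⟩ ∈ ((x • T : Sylow p N) : Subgroup N) := ⟨⟨y, hyN⟩, hT hy, rfl⟩
      rw [hx] at h1
      exact h1
    let R' : Sylow p S := (x : S) • R
    have hR'P : ∀ y, y ∈ (R' : Subgroup S) → y ∈ N → y ∈ (P : Subgroup S) := by
      intro y hy hyN
      obtain ⟨z, hz, rfl⟩ := hy
      have hz' : (MulAut.conj (x : S)) z = (x : S) * z * (x : S)⁻¹ := rfl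
      refine hxm z hz ?_
      have := Subgroup.mul_mem _ (Subgroup.mul_mem _ (Subgroup.inv_mem _ x.2) hyN) x.2
      simpa [MulAut.smul_def, mul_assoc] using this
    have hD' : D ≤ (R' : Subgroup S) := by
      by_cases hRQ : R' = Q
      · rw [hRQ]; exact inf_le_right
      have hle : (R' : Subgroup S) ⊓ Q ≤ D := fun y hy => ⟨hR'P y hy.1 (hQN hy.2), hy.2⟩
      have hcc : Nat.card D * p = Nat.card ((R' : Subgroup S) ⊓ Q : Subgroup S) * p := by
        rw [hpi R' Q hRQ, hpi P Q hQ, P.card_eq_multiplicity, R'.card_eq_multiplicity]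
      have := Subgroup.eq_of_le_of_card_ge hle (le_of_eq (Nat.eq_of_mul_eq_mul_right hp'.pos hcc))
      exact this ▸ inf_le_left
    intro y hy
    have hy' : (x : S) * y * (x : S)⁻¹ ∈ D := (CfsgLib.GroupB.Coprime.conj_mem_iff x.2).mpr hy
    obtain ⟨z, hz, hzy⟩ := hD' hy'
    have : z = y := (MulAut.conj (x : S)).injective hzy
    exact this ▸ hz
  have hDbot : D = ⊥ := by
    by_contra hne
    let O : Subgroup S := ⨅ R : Sylow p S, (R : Subgroup S)
    have hO : O.Normal := by
      refine ⟨fun y hy g => Subgroup.mem_iInf.mpr fun R => ?_⟩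
      obtain ⟨z, hz, hzy⟩ : y ∈ ((g⁻¹ • R : Sylow p S) : Subgroup S) := Subgroup.mem_iInf.mp hy _
      have h2 : z = g * y * g⁻¹ := by
        rw [← hzy]
        simp [mul_assoc]
      exact h2 ▸ hz
    have := hcen O hO (P.isPGroup'.to_le (iInf_le _ P))
    exact hne (le_bot_iff.mp (this ▸ le_iInf hall))
  have h := hpi P Q hQ
  rw [show ((P : Subgroup S) ⊓ Q : Subgroup S) = ⊥ from hDbot, Subgroup.card_bot, one_mul] at h
  exact h.symm

end Cfsg.Agent.S4343
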