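import Cfsg.Statements.S4344
import Mathlib

set_option autoImplicit false
open Cfsg

namespace Cfsg.Agent.S4344

/-- Let S be a finite non-abelian simple group, M a maximal subgroup of S and C a cyclic normal subgroup of M. If a Sylow p-subgroup P of S (for a prime p dividing the order of S) is contained in C, then the number of Sylow p-subgroups of S equals the index of M. -/
theorem result {S : Type*} [Group S] [Finite S]
    [IsSimpleGroup S] (hS : ¬ IsMulCommutative S) (p : ℕ) [Fact p.Prime] (hp : p ∣ Nat.card S)
    (M : Subgroup S) (hM : IsCoatom M) (C : Subgroup S) (hCM : C ≤ M) (hCn : (C.subgroupOf M).Normal)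
    (hC : IsCyclic C) (P : Sylow p S) (hP : (P : Subgroup S) ≤ C) :
    Nat.card (Sylow p S) = M.index := by
  classical
  set R := Subgroup.normalizer ((P : Subgroup S) : Set S) with hR
  rw [Sylow.card_eq_index_normalizer P]
  show R.index = M.index
  congr 1
  have hle : M ≤ R := by
    intro m hm
    rw [hR, Subgroup.mem_normalizer_iff_map_conj_eq]
    have h1 : ∀ x ∈ (P : Subgroup S).map (MulAut.conj m).toMonoidHom, x ∈ C := by
      rintro _ ⟨x, hx, rfl⟩
      have := hCn.conj_mem ⟨x, hCM (hP hx)⟩ (Subgroup.mem_subgroupOf.mpr (hP hx)) ⟨m, hm⟩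
      exact this
    haveI := hC
    haveI : IsMulCommutative C := IsCyclic.isMulCommutative
    have hn : ((P.subtype hP : Sylow p C) : Subgroup C).Normal := Subgroup.normal_of_comm _
    haveI := Sylow.unique_of_normal (P.subtype hP) hn
    have hc : IsPGroup p ((P : Subgroup S).map (MulAut.conj m).toMonoidHom) := P.2.map _
    obtain ⟨Q, hQ⟩ := (hc.comap_subtype (K := C)).exists_le_sylow
    rw [Subsingleton.elim Q (P.subtype hP)] at hQ
    refine Subgroup.eq_of_le_of_card_ge (fun x hx => ?_) (Nat.card_congr
      ((P : Subgroup S).equivMapOfInjective _ (MulAut.conj m).injective).toEquiv).le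
    exact hQ (show (⟨x, h1 x hx⟩ : C) ∈ Subgroup.comap C.subtype _ from hx)
  refine (hM.le_iff_eq ?_).mp hle
  intro hT
  have hn : (P : Subgroup S).Normal := Subgroup.normalizer_eq_top_iff.mp hT
  rcases hn.eq_bot_or_eq_top with h | h
  · have := P.dvd_card_of_dvd_card hp
    rw [h, Subgroup.card_bot] at this
    exact (Fact.out : p.Prime).one_lt.ne' (Nat.dvd_one.mp this)
  · refine hS ?_
    have hCt : C = ⊤ := top_unique (h ▸ hP)
    subst hCt
    haveI := hC
    haveI : IsCyclic S := isCyclic_of_surjective Subgroup.topEquiv.toMonoidHom Subgroup.topEquiv.surjective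
    exact IsCyclic.isMulCommutative

end Cfsg.Agent.S4344
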