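import Cfsg.Statements.S4345
import Mathlib
import Cfsg.Agent.Lib.GroupB.SylowQuot

set_option autoImplicit false
open Cfsg

namespace Cfsg.Agent.S4345

/-- Let G be a finite solvable group and p, ℓ primes. Then the largest power of ℓ dividing the number of Sylow p-subgroups of G is congruent to 1 modulo p. -/
theorem result {G : Type*} [Group G] [Finite G]
    (hG : Group.IsSolvable G) (p ℓ : ℕ) [Fact p.Prime] (hℓ : ℓ.Prime) :
    ℓ ^ (Nat.card (Sylow p G)).factorization ℓ ≡ 1 [MOD p] := by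
  classical
  suffices h : ∀ (n : ℕ) (H : Type _) [Group H] [Finite H] [Group.IsSolvable H], Nat.card H = n →
      ℓ ^ (Nat.card (Sylow p H)).factorization ℓ ≡ 1 [MOD p] from
    haveI := hG; h _ G rfl
  intro n
  induction n using Nat.strong_induction_on with
  | _ n ih =>
  intro H _ _ _ hn
  rcases subsingleton_or_nontrivial H with hs | hnt
  · haveI : Subsingleton (Sylow p H) := ⟨fun A B => Sylow.ext (Subsingleton.elim _ _)⟩
    rw [Nat.card_of_subsingleton (Classical.arbitrary (Sylow p H))]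
    simp [Nat.ModEq.refl]
  obtain ⟨A, hAn, hA1, hAc⟩ : ∃ A : Subgroup H, A.Normal ∧ A ≠ ⊥ ∧ IsMulCommutative A := by
    obtain ⟨k, hk, hk'⟩ : ∃ k, derivedSeries H k ≠ ⊥ ∧ derivedSeries H (k + 1) = ⊥ := by
      by_contra h
      push Not at h
      obtain ⟨m, hm⟩ := (inferInstance : Group.IsSolvable H).solvable
      have : ∀ k, derivedSeries H k ≠ ⊥ := fun k => by
        induction k with
        | zero => exact top_ne_bot
        | succ k ihk => exact h k ihk
      exact this m hm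
    refine ⟨derivedSeries H k, derivedSeries_normal H k, hk, ⟨⟨fun a b => Subtype.ext ?_⟩⟩⟩
    rw [derivedSeries_succ] at hk'
    exact Subgroup.mem_centralizer_iff.mp (Subgroup.commutator_eq_bot_iff_le_centralizer.mp hk' b.2) a a.2
  obtain ⟨q, hq, hqd⟩ := Nat.exists_prime_and_dvd ((Subgroup.one_lt_card_iff_ne_bot A).mpr hA1).ne'
  haveI := Fact.mk hq
  obtain ⟨a, ha⟩ := exists_prime_orderOf_dvd_card' q hqd
  rw [← Subgroup.orderOf_coe] at ha
  let V : Subgroup H :=
    { carrier := {y | y ∈ A ∧ y ^ q = 1}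
      one_mem' := ⟨A.one_mem, one_pow _⟩
      mul_mem' := fun {u v} hu hv => ⟨A.mul_mem hu.1 hv.1, by
        have hc : Commute u v := congrArg Subtype.val (hAc.is_comm.comm (⟨u, hu.1⟩ : A) ⟨v, hv.1⟩)
        rw [hc.mul_pow, hu.2, hv.2, one_mul]⟩
      inv_mem' := fun {u} hu => ⟨A.inv_mem hu.1, by rw [inv_pow, hu.2, inv_one]⟩ }
  haveI : V.Normal := ⟨fun u hu g => ⟨hAn.conj_mem u hu.1 g, by rw [conj_pow, hu.2]; group⟩⟩
  have hV1 : V ≠ ⊥ := fun e => by
    have : (a : H) ∈ V := ⟨a.2, by rw [← ha, pow_orderOf_eq_one]⟩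
    rw [e, Subgroup.mem_bot] at this
    rw [this, orderOf_one] at ha
    exact hq.ne_one ha.symm
  have hVc : IsMulCommutative V := ⟨⟨fun u v => Subtype.ext (congrArg Subtype.val (hAc.is_comm.comm (⟨u, u.2.1⟩ : A) ⟨v, v.2.1⟩) :)⟩⟩
  obtain ⟨P⟩ := (inferInstance : Nonempty (Sylow p H))
  obtain ⟨b, hb, hb1⟩ := CfsgLib.GroupB.SylowQuot.card_sylow_eq_mul P V hVc (q := q) (fun u => ⟨1, Subtype.ext (by rw [pow_one]; exact u.2.2)⟩)
  have hlt : Nat.card (H ⧸ V) < n := by
    rw [← hn, Subgroup.card_eq_card_quotient_mul_card_subgroup V]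
    exact lt_mul_of_one_lt_right Nat.card_pos ((Subgroup.one_lt_card_iff_ne_bot V).mpr hV1)
  have h0 := ih _ hlt (H ⧸ V) rfl
  rw [hb, Nat.factorization_mul Nat.card_pos.ne' (pow_ne_zero _ hq.ne_zero), Finsupp.add_apply, pow_add, hq.factorization_pow]
  by_cases hql : q = ℓ
  · subst hql
    rw [Finsupp.single_eq_same]
    simpa using h0.mul (show q ^ b ≡ 1 [MOD p] from hb1)
  · rw [Finsupp.single_eq_of_ne (Ne.symm hql), pow_zero, mul_one]
    exact h0

end Cfsg.Agent.S4345
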