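import Cfsg.Statements.S4365

set_option autoImplicit false
open Cfsg

namespace Cfsg.Agent.S4365

/-- Let P be a finite p-group whose conjugacy class sizes are exactly 1 and pᵃ for some a ≥ 1. Then every element of P has its p-th power in the center of P (P/Z(P) has exponent p). -/
theorem result {P : Type*} [Group P] [Finite P] (p : ℕ) [Fact p.Prime]
    (hP : IsPGroup p P) (a : ℕ) (ha : 1 ≤ a)
    (hcs : {k : ℕ | ∃ x : P, (Subgroup.centralizer ({x} : Set P)).index = k} = {1, p ^ a}) (x : P) :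
    x ^ p ∈ Subgroup.center P := by
  classical
have hp : p.Prime := Fact.out
set Z := Subgroup.center P with hZ
have hidx : ∀ y : P, y ∉ Z → (Subgroup.centralizer ({y} : Set P)).index = p ^ a := by
  intro y hy
  have : (Subgroup.centralizer ({y} : Set P)).index ∈ ({1, p ^ a} : Set ℕ) := hcs ▸ ⟨y, rfl⟩
  rcases this with h | h
  · exfalso
    apply hy
    rw [Subgroup.mem_center_iff]
    intro g
    have : g ∈ Subgroup.centralizer ({y} : Set P) := by
      rw [Subgroup.index_eq_one.mp h]; exact Subgroup.mem_top g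
    exact (Subgroup.mem_centralizer_singleton_iff.mp this)
  · exact h
have heq : ∀ y w : P, y ∉ Z → w ∉ Z → Subgroup.centralizer ({y} : Set P) ≤ Subgroup.centralizer ({w} : Set P) → Subgroup.centralizer ({y} : Set P) = Subgroup.centralizer ({w} : Set P) := by
  intro y w hy hw hle
  refine Subgroup.eq_of_le_of_card_ge hle (le_of_eq ?_)
  have h1 := Subgroup.card_mul_index (Subgroup.centralizer ({y} : Set P))
  have h2 := Subgroup.card_mul_index (Subgroup.centralizer ({w} : Set P))
  rw [hidx y hy, ← h2, hidx w hw] at h1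
  exact (Nat.eq_of_mul_eq_mul_right (pow_pos hp.pos a) h1).symm
by_contra hxp
have hxZ : x ∉ Z := fun h => hxp (Z.pow_mem h p)
obtain ⟨z, hzZ, hzp, hzc⟩ : ∃ z : P, z ∉ Z ∧ z ^ p ∈ Z ∧ ∀ g : P, z * g * z⁻¹ * g⁻¹ ∈ Z := by
  haveI : Nontrivial (P ⧸ Z) := by
    rw [QuotientGroup.nontrivial_iff]
    intro h
    exact hxZ (h ▸ Subgroup.mem_top x)
  have hq : IsPGroup p (P ⧸ Z) := hP.to_quotient Z
  haveI := hq.center_nontrivial
  obtain ⟨n, hn, hcard⟩ := (hq.to_subgroup (Subgroup.center (P ⧸ Z))).nontrivial_iff_card.mp inferInstance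
  have hd : p ∣ Nat.card (Subgroup.center (P ⧸ Z)) := hcard ▸ dvd_pow_self p (by omega)
  obtain ⟨⟨w, hwc⟩, hw⟩ := exists_prime_orderOf_dvd_card' p hd
  rw [Subgroup.orderOf_mk] at hw
  obtain ⟨z, rfl⟩ := QuotientGroup.mk_surjective w
  refine ⟨z, ?_, ?_, ?_⟩
  · intro h
    rw [(QuotientGroup.eq_one_iff z).mpr h, orderOf_one] at hw
    exact hp.one_lt.ne hw
  · rw [← QuotientGroup.eq_one_iff, QuotientGroup.mk_pow, ← hw, pow_orderOf_eq_one]
  · intro g
    rw [← QuotientGroup.eq_one_iff]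
    rw [QuotientGroup.mk_mul, QuotientGroup.mk_mul, QuotientGroup.mk_mul, QuotientGroup.mk_inv, QuotientGroup.mk_inv,
      ← Subgroup.mem_center_iff.mp hwc (g : P ⧸ Z)]
    group
-- p-th powers centralize z
have hgp : ∀ g : P, g ^ p ∈ Subgroup.centralizer ({z} : Set P) := by
  intro g
  set c := z * g * z⁻¹ * g⁻¹ with hc
  have hcc : ∀ h : P, Commute c h := fun h => (Subgroup.mem_center_iff.mp (hzc g) h).symm
  have h1 : ∀ k : ℕ, z ^ k * g * (z ^ k)⁻¹ = c ^ k * g := by
    intro k
    induction k with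
    | zero => simp
    | succ k ih =>
      calc z ^ (k + 1) * g * (z ^ (k + 1))⁻¹ = z * (z ^ k * g * (z ^ k)⁻¹) * z⁻¹ := by
            rw [pow_succ']; group
        _ = z * (c ^ k * g) * z⁻¹ := by rw [ih]
        _ = c ^ k * (z * g * z⁻¹) := by
            rw [← mul_assoc z, ((hcc z).pow_left k).eq.symm]; group
        _ = c ^ (k + 1) * g := by rw [pow_succ, hc]; group
  have h2 := h1 p
  rw [← Subgroup.mem_center_iff.mp hzp g, mul_inv_cancel_right] at h2
  have hcp : c ^ p = 1 := by simpa using h2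
  rw [Subgroup.mem_centralizer_singleton_iff]
  have h3 : z * g ^ p * z⁻¹ = g ^ p := by
    calc z * g ^ p * z⁻¹ = (z * g * z⁻¹) ^ p := conj_pow.symm
      _ = (c * g) ^ p := by rw [hc]; group
      _ = g ^ p := by rw [(hcc g).mul_pow, hcp, one_mul]
  exact (mul_inv_eq_iff_eq_mul.mp h3).symm
have hbig : ∀ y : P, y ^ p ∉ Z → Subgroup.centralizer ({y} : Set P) = Subgroup.centralizer ({z} : Set P) := by
  intro y hyp
  have hy : y ∉ Z := fun h => hyp (Z.pow_mem h p)
  have h1 : Subgroup.centralizer ({y} : Set P) = Subgroup.centralizer ({y ^ p} : Set P) := by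
    refine heq y (y ^ p) hy hyp fun g hg => ?_
    rw [Subgroup.mem_centralizer_singleton_iff] at hg ⊢
    exact Commute.pow_right hg p
  have hcyz : Commute y z := by
    have : z ∈ Subgroup.centralizer ({y ^ p} : Set P) := Subgroup.mem_centralizer_singleton_iff.mpr
      (Subgroup.mem_centralizer_singleton_iff.mp (hgp y)).symm
    rw [← h1, Subgroup.mem_centralizer_singleton_iff] at this
    exact Commute.symm this
  have hyzp : (y * z) ^ p ∉ Z := by
    rw [hcyz.mul_pow]
    intro h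
    exact hyp ((Z.mul_mem_cancel_right hzp).mp h)
  have hyz : y * z ∉ Z := fun h => hyzp (Z.pow_mem h p)
  have h2 : Subgroup.centralizer ({y * z} : Set P) = Subgroup.centralizer ({(y * z) ^ p} : Set P) := by
    refine heq _ _ hyz hyzp fun g hg => ?_
    rw [Subgroup.mem_centralizer_singleton_iff] at hg ⊢
    exact Commute.pow_right hg p
  refine heq y z hy hzZ fun g hg => ?_
  have hg2 : g ∈ Subgroup.centralizer ({y * z} : Set P) := by
    rw [h2, Subgroup.mem_centralizer_singleton_iff, hcyz.mul_pow]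
    have hg1 : Commute g (y ^ p) := Commute.pow_right (Subgroup.mem_centralizer_singleton_iff.mp hg) p
    exact hg1.mul_right (Subgroup.mem_center_iff.mp hzp g)
  rw [Subgroup.mem_centralizer_singleton_iff] at hg hg2 ⊢
  have : Commute g (y⁻¹ * (y * z)) := (Commute.inv_right hg).mul_right hg2
  simpa using this.eq
set A := Subgroup.centralizer ({z} : Set P) with hA
have hxA : x ∈ A := by rw [← hbig x hxp, Subgroup.mem_centralizer_singleton_iff]
have hZA : Z ≤ A := fun w hw => Subgroup.mem_centralizer_singleton_iff.mpr (Subgroup.mem_center_iff.mp hw z).symm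
haveI hAn : A.Normal := by
  refine ⟨fun m hm g => ?_⟩
  rw [hA, Subgroup.mem_centralizer_singleton_iff] at hm ⊢
  have hm' : z * m * z⁻¹ = m := mul_inv_eq_iff_eq_mul.mpr hm.symm
  set c := z * g * z⁻¹ * g⁻¹ with hc
  have hcc : ∀ h : P, Commute c h := fun h => (Subgroup.mem_center_iff.mp (hzc g) h).symm
  have : z * (g * m * g⁻¹) * z⁻¹ = g * m * g⁻¹ := by
    calc z * (g * m * g⁻¹) * z⁻¹ = (c * g) * (z * m * z⁻¹) * (c * g)⁻¹ := by rw [hc]; group
      _ = c * (g * m * g⁻¹) * c⁻¹ := by rw [hm']; group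
      _ = g * m * g⁻¹ := by rw [(hcc (g * m * g⁻¹)).eq, mul_inv_cancel_right]
  exact (mul_inv_eq_iff_eq_mul.mp this).symm
have hAab : ∀ g ∈ A, ∀ y ∈ A, Commute g y := by
  intro g hg y hy
  by_cases hyp : y ^ p ∈ Z
  · have hxy : Commute x y := by
      rw [← hbig x hxp] at hy
      exact (Subgroup.mem_centralizer_singleton_iff.mp hy).symm
    have h1 : (x * y) ^ p ∉ Z := by
      rw [hxy.mul_pow]
      exact fun h => hxp ((Z.mul_mem_cancel_right hyp).mp h)
    have hg1 := hg
    rw [← hbig _ h1, Subgroup.mem_centralizer_singleton_iff] at hg1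
    rw [← hbig x hxp, Subgroup.mem_centralizer_singleton_iff] at hg
    have := (Commute.inv_right hg).mul_right hg1
    simpa using this
  · rw [← hbig y hyp, Subgroup.mem_centralizer_singleton_iff] at hg
    exact hg
have hAC : ∀ u : P, u ∉ A → ∀ b ∈ A, Commute b u → b ∈ Z := by
  intro u hu b hb hbu
  by_contra hbZ
  have : A = Subgroup.centralizer ({b} : Set P) :=
    heq z b hzZ hbZ fun g hg => Subgroup.mem_centralizer_singleton_iff.mpr (hAab g hg b hb)
  exact hu (this ▸ Subgroup.mem_centralizer_singleton_iff.mpr hbu.symm)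
have hout : ∀ u : P, u ∉ A → u ^ p ∈ Z := by
  intro u hu
  by_contra h
  exact hu (hbig u h ▸ Subgroup.mem_centralizer_singleton_iff.mpr rfl)
letI : CommGroup A := { (inferInstance : Group A) with mul_comm := fun g y => Subtype.ext (hAab g g.2 y y.2) }
have hAtop : A ≠ ⊤ := fun h => hzZ (Subgroup.mem_center_iff.mpr fun g =>
  Subgroup.mem_centralizer_singleton_iff.mp ((show g ∈ A from h ▸ Subgroup.mem_top g)))
obtain ⟨v, hv⟩ : ∃ v : P, v ∉ A := by
  by_contra! h
  exact hAtop ((Subgroup.eq_top_iff' A).mpr h)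
by_cases hsup : A ⊔ Subgroup.zpowers v = ⊤
· -- index p
  have hi : A.index ∣ p := by
    rw [Subgroup.index]
    have : Subgroup.zpowers (v : P ⧸ A) = ⊤ := by
      have := congrArg (Subgroup.map (QuotientGroup.mk' A)) hsup
      rwa [Subgroup.map_sup, QuotientGroup.map_mk'_self, bot_sup_eq, MonoidHom.map_zpowers,
        Subgroup.map_top_of_surjective _ (QuotientGroup.mk'_surjective A)] at this
    rw [← Subgroup.card_top, ← this, Nat.card_zpowers]
    apply orderOf_dvd_of_pow_eq_one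
    rw [← QuotientGroup.mk_pow, QuotientGroup.eq_one_iff]
    exact hZA (hout v hv)
  have hvZ : v ∉ Z := fun h => hv (hZA h)
  have hCp : (Subgroup.centralizer ({v} : Set P)).index ≤ p := by
    rw [hidx v hvZ, ← hidx z hzZ]; exact Nat.le_of_dvd hp.pos hi
  let B := (Subgroup.centralizer ({v} : Set P)).subgroupOf A
  have hBi : B.index ≤ p := le_trans (Subgroup.relIndex_top_right (Subgroup.centralizer ({v} : Set P)) ▸ Subgroup.relIndex_le_of_le_right le_top (by rw [Subgroup.relIndex_top_right]; exact Subgroup.index_ne_zero_of_finite)) hCp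
  have hBd : B.index ∣ p := by
    obtain ⟨j, hj⟩ := (hP.to_subgroup A).index B
    rw [hj] at hBi ⊢
    exact (pow_dvd_pow p ((Nat.pow_le_pow_iff_right hp.one_lt).mp (hBi.trans_eq (pow_one p).symm))).trans (pow_one p).dvd
  haveI : B.Normal := by refine ⟨fun m hm g => ?_⟩; rwa [mul_comm g m, mul_inv_cancel_right]
  have hxB := B.pow_index_mem (⟨x, hxA⟩ : A)
  obtain ⟨t, ht⟩ := hBd
  have : (⟨x, hxA⟩ : A) ^ p ∈ B := by rw [ht, pow_mul]; exact B.pow_mem hxB t
  rw [Subgroup.mem_subgroupOf, SubgroupClass.coe_pow] at this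
  exact hxp (hAC v hv _ (A.pow_mem hxA p) (Subgroup.mem_centralizer_singleton_iff.mp this))
· obtain ⟨u, hu⟩ : ∃ u : P, u ∉ A ⊔ Subgroup.zpowers v := by
    by_contra! h
    exact hsup ((Subgroup.eq_top_iff' _).mpr h)
  let φ : P →* MulAut A := MulAut.conjNormal
  have hcomm : Commute (φ u) (φ v) := by
    apply MulEquiv.ext
    intro b
    apply Subtype.ext
    have hd : (u * v) * (v * u)⁻¹ ∈ A := by
      rw [hA, Subgroup.mem_centralizer_singleton_iff]
      set c := z * u * z⁻¹ * u⁻¹ with hc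
      set d := z * v * z⁻¹ * v⁻¹ with hd
      have hcc : ∀ h : P, Commute c h := fun h => (Subgroup.mem_center_iff.mp (hzc u) h).symm
      have hdd : ∀ h : P, Commute d h := fun h => (Subgroup.mem_center_iff.mp (hzc v) h).symm
      refine (mul_inv_eq_iff_eq_mul.mp (show z * (u * v * (v * u)⁻¹) * z⁻¹ = u * v * (v * u)⁻¹ from ?_)).symm
      have e1 : (c * u) * (d * v) = (c * d) * (u * v) := (hdd u).symm.mul_mul_mul_comm _ _
      have e2 : (d * v) * (c * u) = (c * d) * (v * u) := by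
        rw [(hcc v).symm.mul_mul_mul_comm, (hdd c).eq]
      calc z * (u * v * (v * u)⁻¹) * z⁻¹ = ((c * u) * (d * v)) * ((d * v) * (c * u))⁻¹ := by rw [hc, hd]; group
        _ = (c * d) * (u * v * (v * u)⁻¹) * (c * d)⁻¹ := by rw [e1, e2]; group
        _ = u * v * (v * u)⁻¹ := by
            rw [((hcc _).mul_left (hdd _)).eq, mul_inv_cancel_right]
    have hcb : Commute ((u * v) * (v * u)⁻¹) ((v * u) * b * (v * u)⁻¹) := hAab _ hd _ (hAn.conj_mem _ b.2 _)
    show (((φ u * φ v) b : A) : P) = ((φ v * φ u) b : A)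
    rw [← map_mul, ← map_mul]
    show (u * v) * (b : P) * (u * v)⁻¹ = (v * u) * b * (v * u)⁻¹
    calc (u * v) * (b : P) * (u * v)⁻¹ = ((u * v) * (v * u)⁻¹) * ((v * u) * b * (v * u)⁻¹) * ((u * v) * (v * u)⁻¹)⁻¹ := by group
      _ = (v * u) * b * (v * u)⁻¹ := by rw [hcb.eq, mul_inv_cancel_right]
  -- the norm of an element outside A is central
  let ZA : Subgroup A := Z.subgroupOf A
  have hN : ∀ g : P, g ∉ A → ∀ b : A, ∏ i ∈ Finset.range p, (φ g ^ i) b ∈ ZA := by
    intro g hg b
    have hf : ∀ n : ℕ, ((b : P) * g) ^ n = ((∏ i ∈ Finset.range n, (φ g ^ i) b : A) : P) * g ^ n := by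
      intro n
      induction n with
      | zero => simp
      | succ n ih =>
        rw [pow_succ, ih, Finset.prod_range_succ, Subgroup.coe_mul, ← map_pow φ g n]
        show _ = ((∏ i ∈ Finset.range n, (φ g ^ i) b : A) : P) * (g ^ n * b * (g ^ n)⁻¹) * g ^ (n + 1)
        group
    have hbg : (b : P) * g ∉ A := fun h => hg ((A.mul_mem_cancel_left b.2).mp h)
    have h1 := hout _ hbg
    rw [hf p, Z.mul_mem_cancel_right (hout g hg)] at h1
    exact h1
  have hvi : ∀ i : ℕ, 0 < i → i < p → v ^ i ∉ A := by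
    intro i hi hip hmem
    have h1 : v ^ Nat.gcd i p ∈ A := by
      have h2 : orderOf (v : P ⧸ A) ∣ Nat.gcd i p := Nat.dvd_gcd
        (orderOf_dvd_of_pow_eq_one (by rw [← QuotientGroup.mk_pow, QuotientGroup.eq_one_iff]; exact hmem))
        (orderOf_dvd_of_pow_eq_one (by rw [← QuotientGroup.mk_pow, QuotientGroup.eq_one_iff]; exact hZA (hout v hv)))
      rw [← QuotientGroup.eq_one_iff, QuotientGroup.mk_pow]
      exact orderOf_dvd_iff_pow_eq_one.mp h2
    rw [Nat.Coprime.gcd_eq_one ((hp.coprime_iff_not_dvd.mpr (Nat.not_dvd_of_pos_of_lt hi hip)).symm), pow_one] at h1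
    exact hv h1
  have huv : ∀ j : ℕ, u * v ^ j ∉ A := by
    intro j h
    apply hu
    have h1 : u * v ^ j ∈ A ⊔ Subgroup.zpowers v := Subgroup.mem_sup_left h
    exact (Subgroup.mul_mem_cancel_right _ (Subgroup.mem_sup_right (Subgroup.npow_mem_zpowers v j))).mp h1
  set b : A := ⟨x, hxA⟩ with hb
  have key : ∏ j ∈ Finset.range p, ∏ i ∈ Finset.range p, (φ (u * v ^ j) ^ i) b ∈ ZA :=
    Subgroup.prod_mem _ fun j _ => hN _ (huv j) b
  rw [Finset.prod_comm, Finset.range_eq_Ico, Finset.prod_eq_prod_Ico_succ_bot hp.pos] at key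
  have hrest : ∏ i ∈ Finset.Ico (0 + 1) p, ∏ j ∈ Finset.Ico 0 p, (φ (u * v ^ j) ^ i) b ∈ ZA := by
    refine Subgroup.prod_mem _ fun i hi => ?_
    rw [Finset.mem_Ico] at hi
    have he : ∏ j ∈ Finset.Ico 0 p, (φ (u * v ^ j) ^ i) b = (φ u ^ i) (∏ j ∈ Finset.range p, (φ (v ^ i) ^ j) b) := by
      rw [map_prod, ← Finset.range_eq_Ico]
      refine Finset.prod_congr rfl fun j _ => ?_
      rw [← MulAut.mul_apply, map_mul φ, map_pow φ v j, (hcomm.pow_right j).mul_pow, map_pow φ v i,
        ← pow_mul, ← pow_mul, mul_comm j i]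
    rw [he]
    have h1 := hN _ (hvi i (by omega) hi.2) b
    rw [Subgroup.mem_subgroupOf] at h1 ⊢
    rw [← map_pow φ u i]
    exact (inferInstance : Z.Normal).conj_mem _ h1 _
  rw [Subgroup.mul_mem_cancel_right _ hrest] at key
  simp only [pow_zero, MulAut.one_apply, Finset.prod_const, Nat.card_Ico, Nat.sub_zero] at key
  rw [Subgroup.mem_subgroupOf, SubgroupClass.coe_pow] at key
  exact hxp key

end Cfsg.Agent.S4365
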