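import Cfsg.Statements.S4370
import Cfsg.Agent.Lib.UniqueOrderP
import Cfsg.Agent.Lib.GroupB.FrobBasic
import Mathlib.GroupTheory.SchurZassenhaus

set_option autoImplicit false
open Cfsg

namespace Cfsg.Agent.S4370
open QuaternionGroup in
theorem quat_centralizer {N : ℕ} [NeZero N] (q : QuaternionGroup N) (hq : ∃ r, r * q ≠ q * r) :
    ∃ g, ∀ r : QuaternionGroup N, r * q = q * r → r ∈ Subgroup.zpowers g := by
  cases q with
  | a i =>
    refine ⟨QuaternionGroup.a 1, fun r hr => ?_⟩
    cases r with
    | a j => exact ⟨(j.val : ℤ), by show QuaternionGroup.a 1 ^ ((j.val : ℕ) : ℤ) = _; rw [zpow_natCast, QuaternionGroup.a_one_pow, ZMod.natCast_zmod_val]⟩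
    | xa j =>
      exfalso
      simp only [QuaternionGroup.xa_mul_a, QuaternionGroup.a_mul_xa, QuaternionGroup.xa.injEq] at hr
      obtain ⟨s, hs⟩ := hq
      cases s with
      | a k => exact hs (by simp [add_comm])
      | xa k =>
        refine hs ?_
        simp only [QuaternionGroup.xa_mul_a, QuaternionGroup.a_mul_xa, QuaternionGroup.xa.injEq]
        calc k + i = (j + i) + (k - j) := by ring
          _ = (j - i) + (k - j) := by rw [hr]
          _ = k - i := by ring
  | xa i =>
    refine ⟨QuaternionGroup.xa i, fun r hr => ?_⟩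
    have key : ∀ j : ZMod (2 * N), j + j = 0 → QuaternionGroup.a j ∈ Subgroup.zpowers (QuaternionGroup.xa i : QuaternionGroup N) := by
      intro j hj
      by_cases hj0 : j = 0
      · rw [hj0, ← QuaternionGroup.one_def]; exact Subgroup.one_mem _
      · refine ⟨2, ?_⟩
        show (QuaternionGroup.xa i) ^ (2 : ℤ) = QuaternionGroup.a j
        rw [zpow_two, QuaternionGroup.xa_mul_xa, add_sub_cancel_right]
        congr 1
        have h1 : (N : ZMod (2 * N)) + (N : ZMod (2 * N)) = 0 := by rw [← Nat.cast_add, ← two_mul, ZMod.natCast_self]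
        have key : ∀ z : ZMod (2 * N), z ≠ 0 → z + z = 0 → z.val = N := fun z hz0 hz => by
          have h := congrArg ZMod.val hz
          rw [ZMod.val_add, ZMod.val_zero] at h
          have hlt := z.val_lt
          have hpos : z.val ≠ 0 := fun e => hz0 ((ZMod.val_eq_zero z).mp e)
          obtain ⟨c, hc⟩ := Nat.dvd_of_mod_eq_zero h
          rcases c with _ | _ | c
          · omega
          · omega
          · rw [Nat.mul_add, Nat.mul_add] at hc; omega
        exact (congrArg Nat.cast (key j hj0 hj).symm).trans (ZMod.natCast_zmod_val j)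
    cases r with
    | a j =>
      refine key j ?_
      simp only [QuaternionGroup.xa_mul_a, QuaternionGroup.a_mul_xa, QuaternionGroup.xa.injEq] at hr
      calc j + j = (i + j) - (i - j) := by ring
        _ = 0 := by rw [hr]; ring
    | xa j =>
      simp only [QuaternionGroup.xa_mul_xa, QuaternionGroup.a.injEq] at hr
      have h := key (j - i) (by
        calc j - i + (j - i) = ((N : ZMod (2 * N)) + j - i) - ((N : ZMod (2 * N)) + i - j) := by ring
          _ = 0 := by rw [hr]; ring)
      have h2 := Subgroup.mul_mem _ (Subgroup.mem_zpowers (QuaternionGroup.xa i : QuaternionGroup N)) h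
      rwa [QuaternionGroup.xa_mul_a, add_sub_cancel] at h2


/-- Let G be a finite non-abelian nilpotent group. Then the centralizer of every non-central element of G is cyclic if and only if G is isomorphic to the direct product of a generalized quaternion group and a cyclic group of odd order. -/
theorem result {G : Type*} [Group G] [Finite G] (hG : Group.IsNilpotent G)
    (hna : ¬ IsMulCommutative G) :
    (∀ x : G, x ∉ Subgroup.center G → IsCyclic (Subgroup.centralizer ({x} : Set G))) ↔
      ∃ (k m : ℕ), 1 ≤ k ∧ Odd m ∧ Nonempty (G ≃* QuaternionGroup (2 ^ k) × Multiplicative (ZMod m)) := by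
  classical
  haveI := hG
  constructor
  · intro hall
    -- a prime with a non-abelian Sylow subgroup
    obtain ⟨q, hq, P, a₀, ha₀, b₀, hb₀, hab⟩ : ∃ (q : ℕ) (_ : Fact q.Prime) (P : Sylow q G), ∃ a ∈ (P : Subgroup G), ∃ b ∈ (P : Subgroup G), a * b ≠ b * a := by
      by_contra hne
      push Not at hne
      obtain ⟨e⟩ := ((Group.isNilpotent_of_finite_tfae (G := G)).out 0 4 rfl rfl).mp hG
      refine hna ⟨⟨fun a b => ?_⟩⟩
      obtain ⟨f, rfl⟩ := e.surjective a
      obtain ⟨f', rfl⟩ := e.surjective b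
      rw [← map_mul, ← map_mul]
      congr 1
      funext r S
      exact Subtype.ext (hne r ⟨Nat.prime_of_mem_primeFactors r.2⟩ S _ (f r S).2 _ (f' r S).2)
    haveI := hq
    haveI hPn : (P : Subgroup G).Normal := ((Group.isNilpotent_of_finite_tfae (G := G)).out 0 3 rfl rfl).mp hG q inferInstance P
    obtain ⟨K, hK⟩ := Subgroup.exists_right_complement'_of_coprime P.card_coprime_index
    have hKP : ∀ k ∈ K, ∀ u ∈ (P : Subgroup G), Commute k u := by
      intro k hk u hu
      refine CfsgLib.GroupB.FrobBasic.commute_of_coprime ?_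
      refine Nat.Coprime.coprime_dvd_left (Subgroup.orderOf_dvd_natCard K hk) ?_
      refine Nat.Coprime.coprime_dvd_right (Subgroup.orderOf_dvd_natCard _ hu) ?_
      rw [← hK.symm.index_eq_card]
      exact P.card_coprime_index.symm
    have hdec : ∀ g : G, ∃ u ∈ (P : Subgroup G), ∃ k ∈ K, u * k = g := fun g => by
      obtain ⟨⟨⟨u, hu⟩, ⟨k, hk⟩⟩, he⟩ := hK.2 g
      exact ⟨u, hu, k, hk, he⟩
    have hcen : ∀ z ∈ (P : Subgroup G), (∀ u ∈ (P : Subgroup G), u * z = z * u) → z ∈ Subgroup.center G := by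
      intro z hz hzu
      rw [Subgroup.mem_center_iff]
      intro g
      obtain ⟨u, hu, k, hk, rfl⟩ := hdec g
      exact ((show Commute u z from hzu u hu).mul_left (hKP k hk z hz)).eq
    have ha₀Z : a₀ ∉ Subgroup.center G := fun h => hab (Subgroup.mem_center_iff.mp h b₀).symm
    have huq : ∀ (C : Subgroup G), IsCyclic C → ∀ u v : G, u ∈ C → v ∈ C → orderOf u = q → orderOf v = q → v ∈ Subgroup.zpowers u := by
      intro C hC u v hu hv hou hov
      letI := Fintype.ofFinite C
      have hroots := @IsCyclic.card_pow_eq_one_le C _ _ _ hC q hq.out.pos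
      by_contra hne
      have hsub : insert (⟨v, hv⟩ : C) (Finset.univ.filter fun z => z ∈ Subgroup.zpowers (⟨u, hu⟩ : C)) ⊆ ({z | z ^ q = 1} : Finset C) := by
        intro z hz
        simp only [Finset.mem_insert, Finset.mem_filter, Finset.mem_univ, true_and] at hz ⊢
        rcases hz with rfl | hz
        · exact Subtype.ext (by simp [← hov, pow_orderOf_eq_one])
        · obtain ⟨i, rfl⟩ := Subgroup.mem_zpowers_iff.mp hz
          rw [← zpow_natCast, zpow_comm, zpow_natCast, show (⟨u, hu⟩ : C) ^ q = 1 from Subtype.ext (by simp [← hou, pow_orderOf_eq_one]), one_zpow]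
      have h := (Finset.card_le_card hsub).trans hroots
      rw [Finset.card_insert_of_notMem (by
        simp only [Finset.mem_filter, Finset.mem_univ, true_and]
        exact fun h => hne (by
          obtain ⟨i, hi⟩ := Subgroup.mem_zpowers_iff.mp h
          exact ⟨i, congrArg Subtype.val hi⟩)), ← Fintype.card_subtype, ← Nat.card_eq_fintype_card] at h
      have h6 : Nat.card {z // z ∈ Subgroup.zpowers (⟨u, hu⟩ : C)} = q := by rw [Nat.card_zpowers, Subgroup.orderOf_mk, hou]
      omega
    -- elements of order q are central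
    have hcentral : ∀ x ∈ (P : Subgroup G), orderOf x = q → x ∈ Subgroup.center G := by
      intro x hx hxo
      by_contra hxZ
      haveI : Nontrivial (P : Subgroup G) := ⟨⟨⟨a₀, ha₀⟩, 1, fun h => hab (by rw [show a₀ = 1 from congrArg Subtype.val h, one_mul, mul_one])⟩⟩
      haveI := P.2.center_nontrivial
      obtain ⟨k, hk0, hk⟩ := (IsPGroup.nontrivial_iff_card (P.2.to_subgroup (Subgroup.center (P : Subgroup G)))).mp inferInstance
      obtain ⟨⟨⟨z, hzP⟩, hzc⟩, hzo⟩ := exists_prime_orderOf_dvd_card' (G := Subgroup.center (P : Subgroup G)) q (hk ▸ dvd_pow_self q hk0.ne')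
      rw [Subgroup.orderOf_mk, Subgroup.orderOf_mk] at hzo
      have hzZ : z ∈ Subgroup.center G := hcen z hzP fun u hu => congrArg Subtype.val (Subgroup.mem_center_iff.mp hzc ⟨u, hu⟩)
      have h := huq _ (hall x hxZ) z x (Subgroup.mem_centralizer_singleton_iff.mpr (Subgroup.mem_center_iff.mp hzZ x).symm)
        (Subgroup.mem_centralizer_singleton_iff.mpr rfl) hzo hxo
      exact hxZ (Subgroup.zpowers_le.mpr hzZ h)
    have hu : CfsgLib.UniqueOrderP.Uniq q (P : Subgroup G) := by
      intro x y hx hy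
      rw [← Subgroup.orderOf_coe] at hx hy
      obtain ⟨i, hi⟩ := huq _ (hall a₀ ha₀Z) (x : G) (y : G)
        (Subgroup.mem_centralizer_singleton_iff.mpr ((Subgroup.mem_center_iff.mp (hcentral x x.2 hx) a₀).symm))
        (Subgroup.mem_centralizer_singleton_iff.mpr ((Subgroup.mem_center_iff.mp (hcentral y y.2 hy) a₀).symm)) hx hy
      exact ⟨i, Subtype.ext (by simpa using hi)⟩
    rcases CfsgLib.UniqueOrderP.cyclic_or_quaternion P.2 hu with hc | ⟨rfl, n, ⟨e⟩⟩
    · exact absurd (congrArg Subtype.val ((IsCyclic.commGroup (α := (P : Subgroup G))).mul_comm ⟨a₀, ha₀⟩ ⟨b₀, hb₀⟩)) hab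
    have hn : 1 ≤ n := by
      by_contra hn
      obtain rfl : n = 0 := by omega
      haveI : IsCyclic (QuaternionGroup (2 ^ 0)) := by rw [pow_zero]; exact QuaternionGroup.quaternionGroup_one_isCyclic
      haveI : IsCyclic (P : Subgroup G) := e.isCyclic.mpr inferInstance
      exact absurd (congrArg Subtype.val ((IsCyclic.commGroup (α := (P : Subgroup G))).mul_comm ⟨a₀, ha₀⟩ ⟨b₀, hb₀⟩)) hab
    haveI : IsCyclic K := by
      haveI := hall a₀ ha₀Z
      exact Subgroup.isCyclic_of_le (H' := Subgroup.centralizer ({a₀} : Set G)) fun k hk =>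
        Subgroup.mem_centralizer_singleton_iff.mpr (hKP k hk a₀ ha₀).eq
    refine ⟨n, Nat.card K, hn, ?_, ⟨?_⟩⟩
    · rw [← Nat.not_even_iff_odd, even_iff_two_dvd, ← hK.symm.index_eq_card]
      exact P.not_dvd_index
    · let f : ↥(P : Subgroup G) × ↥K →* G := MonoidHom.noncommCoprod (P : Subgroup G).subtype K.subtype fun u k => (hKP k k.2 u u.2).symm
      exact (MulEquiv.ofBijective f hK).symm.trans (MulEquiv.prodCongr e (zmodCyclicMulEquiv (inferInstance : IsCyclic K)).symm)
  · rintro ⟨k, m, hk, hm, ⟨e⟩⟩ x hx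
    haveI : NeZero m := ⟨hm.pos.ne'⟩
    haveI : NeZero (2 ^ k) := ⟨(Nat.two_pow_pos k).ne'⟩
    obtain ⟨⟨qx, cx⟩, rfl⟩ := e.symm.surjective x
    obtain ⟨g, hg⟩ := quat_centralizer qx (by
      by_contra h
      push Not at h
      refine hx (Subgroup.mem_center_iff.mpr fun y => ?_)
      obtain ⟨⟨r, c⟩, rfl⟩ := e.symm.surjective y
      rw [← map_mul, ← map_mul]
      exact congrArg e.symm (Prod.ext (h r) (mul_comm c cx)))
    set c₁ : Multiplicative (ZMod m) := Multiplicative.ofAdd 1
    refine Subgroup.isCyclic_of_le (H' := Subgroup.zpowers (e.symm (g, c₁))) fun y hy => ?_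
    rw [Subgroup.mem_centralizer_singleton_iff] at hy
    obtain ⟨⟨r, c⟩, rfl⟩ := e.symm.surjective y
    rw [← map_mul, ← map_mul] at hy
    have hr := hg r (congrArg Prod.fst (e.symm.injective hy))
    have hcop : (orderOf g).Coprime (orderOf c₁) := by
      refine Nat.Coprime.coprime_dvd_left (orderOf_dvd_natCard g) (Nat.Coprime.coprime_dvd_right (orderOf_dvd_natCard c₁) ?_)
      rw [Nat.card_eq_fintype_card, QuaternionGroup.card, Nat.card_eq_fintype_card, Fintype.card_multiplicative, ZMod.card,
        show 4 * 2 ^ k = 2 ^ (k + 2) by ring]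
      exact (Nat.coprime_two_left.mpr hm).pow_left _
    have hg1 : ((g, 1) : QuaternionGroup (2 ^ k) × Multiplicative (ZMod m)) ∈ Subgroup.zpowers (g, c₁) := by
      obtain ⟨i, hi⟩ := exists_pow_eq_self_of_coprime (x := g) hcop.symm
      refine ⟨(orderOf c₁ * i : ℕ), ?_⟩
      show ((g, c₁) : QuaternionGroup (2 ^ k) × Multiplicative (ZMod m)) ^ ((orderOf c₁ * i : ℕ) : ℤ) = _
      rw [zpow_natCast, Prod.pow_mk, pow_mul, pow_mul, hi, pow_orderOf_eq_one, one_pow]
    have hc1 : ((1, c₁) : QuaternionGroup (2 ^ k) × Multiplicative (ZMod m)) ∈ Subgroup.zpowers (g, c₁) := by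
      rw [show ((1, c₁) : QuaternionGroup (2 ^ k) × Multiplicative (ZMod m)) = (g, 1)⁻¹ * (g, c₁) by simp]
      exact Subgroup.mul_mem _ (Subgroup.inv_mem _ hg1) (Subgroup.mem_zpowers _)
    obtain ⟨i, rfl⟩ := Subgroup.mem_zpowers_iff.mp hr
    rw [← MulEquiv.coe_toMonoidHom, ← MonoidHom.map_zpowers]
    refine Subgroup.mem_map_of_mem _ ?_
    rw [show ((g ^ i, c) : QuaternionGroup (2 ^ k) × Multiplicative (ZMod m)) = (g, 1) ^ i * (1, c₁) ^ (c.toAdd.val : ℤ) by
      refine Prod.ext (by simp) ?_
      simp only [Prod.snd_mul, Prod.pow_mk, one_zpow, one_mul, zpow_natCast]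
      show c = Multiplicative.ofAdd (1 : ZMod m) ^ c.toAdd.val
      rw [← ofAdd_nsmul, nsmul_one, ZMod.natCast_zmod_val]; rfl]
    exact Subgroup.mul_mem _ (Subgroup.zpow_mem _ hg1 i) (Subgroup.zpow_mem _ hc1 _)

end Cfsg.Agent.S4370
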