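import Cfsg.Statements.S4377
import Mathlib.NumberTheory.Divisors

set_option autoImplicit false
open Cfsg

namespace Cfsg.Agent.S4377

theorem card_pow_eq {G : Type*} [Group G] [Finite G] (n : ℕ) (hn : n ≠ 0) :
    Nat.card {g : G // g ^ n = 1} = ∑ d ∈ n.divisors, Nat.card {g : G // orderOf g = d} := by
  classical
  haveI := Fintype.ofFinite G
  simp only [Nat.card_eq_fintype_card, Fintype.card_subtype]
  exact (sum_card_orderOf_eq_card_pow_eq_one hn).symm

theorem pow_eq_of_orderOf_eq {G H : Type*} [Group G] [Finite G] [Group H] [Finite H]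
    (h : ∀ n : ℕ, Nat.card {g : G // orderOf g = n} = Nat.card {h : H // orderOf h = n}) (n : ℕ) :
    Nat.card {g : G // g ^ n = 1} = Nat.card {h : H // h ^ n = 1} := by
  rcases Nat.eq_zero_or_pos n with rfl | hn
  · classical
    haveI := Fintype.ofFinite G
    haveI := Fintype.ofFinite H
    obtain ⟨e⟩ := Finite.card_eq.mp (h 1)
    have e2 : G ≃ H := Equiv.ofFiberEquiv (f := orderOf) (g := orderOf) (fun m => (Finite.card_eq.mp (h m)).some)
    exact Nat.card_congr (e2.subtypeEquiv fun g => by simp)
  · rw [card_pow_eq n hn.ne', card_pow_eq n hn.ne']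
    exact Finset.sum_congr rfl fun d _ => h d

theorem orderOf_eq_of_pow_eq {G H : Type*} [Group G] [Finite G] [Group H] [Finite H]
    (h : ∀ n : ℕ, Nat.card {g : G // g ^ n = 1} = Nat.card {h : H // h ^ n = 1}) (n : ℕ) :
    Nat.card {g : G // orderOf g = n} = Nat.card {h : H // orderOf h = n} := by
  induction n using Nat.strong_induction_on with
  | _ n ih =>
    rcases Nat.eq_zero_or_pos n with rfl | hn
    · haveI : IsEmpty {g : G // orderOf g = 0} := ⟨fun g => (orderOf_pos g.1).ne' g.2⟩
      haveI : IsEmpty {g : H // orderOf g = 0} := ⟨fun g => (orderOf_pos g.1).ne' g.2⟩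
      rw [Nat.card_of_isEmpty, Nat.card_of_isEmpty]
    · have h1 := h n
      rw [card_pow_eq n hn.ne', card_pow_eq n hn.ne', ← Nat.cons_self_properDivisors hn.ne',
        Finset.sum_cons, Finset.sum_cons] at h1
      rw [Finset.sum_congr rfl fun d hd => ih d (Nat.mem_properDivisors.mp hd).2] at h1
      omega

/-- Two finite groups have the same number of elements of each order if and only if, for every n, they have the same number of elements g with gⁿ = 1. -/
theorem result {G H : Type*} [Group G] [Finite G] [Group H] [Finite H] :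
    (∀ n : ℕ, Nat.card {g : G // orderOf g = n} = Nat.card {h : H // orderOf h = n}) ↔
      ∀ n : ℕ, Nat.card {g : G // g ^ n = 1} = Nat.card {h : H // h ^ n = 1} := by
  exact ⟨fun h => pow_eq_of_orderOf_eq h, fun h n => orderOf_eq_of_pow_eq h n⟩

end Cfsg.Agent.S4377
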