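import Cfsg.Statements.S4387

set_option autoImplicit false
open Pointwise
open Cfsg

namespace Cfsg.Agent.S4387

open MulAction in
theorem exists_derangement (G X : Type*) [Group G] [Finite G] [MulAction G X] [Fintype X]
    [MulAction.IsPretransitive G X] (h : 1 < Fintype.card X) : ∃ g : G, ∀ x : X, g • x ≠ x := by
  classical
  haveI : Fintype G := Fintype.ofFinite _
  by_contra hcon
  push Not at hcon
  have hb := sum_card_fixedBy_eq_card_orbits_mul_card_group G X
  haveI : Subsingleton (Quotient (orbitRel G X)) := by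
    refine ⟨fun a b => ?_⟩
    induction a using Quotient.inductionOn with
    | h a =>
      induction b using Quotient.inductionOn with
      | h b => exact Quotient.sound (exists_smul_eq G b a)
  obtain ⟨x₀⟩ := Fintype.card_pos_iff.mp (Nat.lt_of_lt_of_le Nat.zero_lt_one h.le)
  haveI : Nonempty (Quotient (orbitRel G X)) := ⟨Quotient.mk _ x₀⟩
  rw [Fintype.card_eq_one_iff_nonempty_unique.mpr ⟨uniqueOfSubsingleton (Quotient.mk _ x₀)⟩, one_mul] at hb
  have : ∑ _g : G, 1 < ∑ g : G, Fintype.card (fixedBy X g) := by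
    refine Finset.sum_lt_sum (fun g _ => Fintype.card_pos_iff.mpr ((hcon g).elim fun x hx => ⟨⟨x, hx⟩⟩)) ⟨1, Finset.mem_univ _, ?_⟩
    have : fixedBy X (1 : G) = Set.univ := by ext; simp
    simp [this]; exact h
  rw [hb] at this
  simp at this

/-- Let G be a non-trivial finite group in which any two maximal subgroups are conjugate. Then G is cyclic of prime-power order. -/
theorem result {G : Type*} [Group G] [Finite G] [Nontrivial G]
    (h : ∀ M N : Subgroup G, IsCoatom M → IsCoatom N → ∃ g : G, N = MulAut.conj g • M) :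
    IsCyclic G ∧ IsPrimePow (Nat.card G) := by
  classical
  have hcard : 1 < Nat.card G := Finite.one_lt_card
  obtain ⟨M, hM⟩ : ∃ M : Subgroup G, IsCoatom M :=
    ((eq_top_or_exists_le_coatom (⊥ : Subgroup G)).resolve_left bot_ne_top).imp fun _ h => h.1
  have hx : ∃ x : G, Subgroup.zpowers x = ⊤ := by
    by_contra hcon
    push Not at hcon
    have hall : ∀ x : G, ∃ g : G, g⁻¹ * x * g ∈ M := by
      intro x
      obtain ⟨N, hN, hle⟩ := (eq_top_or_exists_le_coatom (Subgroup.zpowers x)).resolve_left (hcon x)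
      obtain ⟨g, rfl⟩ := h M N hM hN
      refine ⟨g, ?_⟩
      have h1 := hle (Subgroup.mem_zpowers x)
      rw [Subgroup.mem_pointwise_smul_iff_inv_smul_mem] at h1
      simpa [MulAut.smul_def] using h1
    -- a proper subgroup does not meet every class
    haveI : Fintype (G ⧸ M) := Fintype.ofFinite _
    obtain ⟨q, hq⟩ : ∃ q : G, ∀ c : G ⧸ M, q • c ≠ c := by
      haveI : MulAction.IsPretransitive G (G ⧸ M) := inferInstance
      have h1 : 1 < Fintype.card (G ⧸ M) := by
        rw [← Nat.card_eq_fintype_card, ← Subgroup.index_eq_card]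
        rcases Nat.lt_or_ge 1 M.index with h2 | h2
        · exact h2
        · have := Subgroup.index_ne_zero_of_finite (H := M)
          exact absurd (Subgroup.index_eq_one.mp (by omega)) hM.ne_top
      exact exists_derangement G (G ⧸ M) h1
    obtain ⟨g, hg⟩ := hall q
    refine hq (g : G ⧸ M) ?_
    rw [MulAction.Quotient.smul_mk, QuotientGroup.eq]
    have := M.inv_mem hg
    simpa [mul_assoc] using this
  obtain ⟨x, hx⟩ := hx
  haveI : IsCyclic G := isCyclic_iff_exists_zpowers_eq_top.mpr ⟨x, hx⟩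
  refine ⟨inferInstance, ?_⟩
  rw [isPrimePow_iff_unique_prime_dvd]
  obtain ⟨p, hp, hpd⟩ := Nat.exists_prime_and_dvd hcard.ne'
  refine ⟨p, ⟨hp, hpd⟩, fun r ⟨hr, hrd⟩ => ?_⟩
  letI : CommGroup G := IsCyclic.commGroup
  have hcoat : ∀ s : ℕ, s.Prime → s ∣ Nat.card G → (powMonoidHom s : G →* G).range.index = s ∧ IsCoatom (powMonoidHom s : G →* G).range := by
    intro s hs hsd
    have h1 := IsCyclic.index_powMonoidHom_range (G := G) s
    rw [Nat.gcd_eq_right hsd] at h1
    refine ⟨h1, fun e => hs.ne_one (by rw [← h1, e, Subgroup.index_top]), fun K hK => ?_⟩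
    have h3 := Subgroup.relIndex_mul_index hK.le
    rw [h1] at h3
    rcases hs.eq_one_or_self_of_dvd _ (Dvd.intro_left _ h3) with h4 | h4
    · exact Subgroup.index_eq_one.mp h4
    · rw [h4] at h3
      have h5 : (powMonoidHom s : G →* G).range.relIndex K = 1 := (Nat.mul_eq_right hs.ne_zero).mp h3
      exact absurd (Subgroup.relIndex_eq_one.mp h5) hK.not_ge
  obtain ⟨h1, h1c⟩ := hcoat p hp hpd
  obtain ⟨h2, h2c⟩ := hcoat r hr hrd
  obtain ⟨g, hg⟩ := h _ _ h1c h2c
  have : MulAut.conj g • (powMonoidHom p : G →* G).range = (powMonoidHom p : G →* G).range := Subgroup.Normal.conjAct inferInstance g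
  rw [this] at hg
  rw [← h2, hg, h1]

end Cfsg.Agent.S4387
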