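import Cfsg.Statements.S4398
import Cfsg.Agent.Lib.MaximalClassTwoIso
import Mathlib.Tactic

set_option autoImplicit false
open Cfsg

namespace Cfsg.Agent.S4398

universe v

open scoped commutatorElement

/-- The centralizer of a non-abelian subgroup of order eight lies inside it. -/
def SC (Y : Type v) [Group Y] : Prop :=
  ∀ K : Subgroup Y, Nat.card K = 8 → (∃ a ∈ K, ∃ b ∈ K, a * b ≠ b * a) →
    ∀ x : Y, (∀ k ∈ K, k * x = x * k) → x ∈ K

theorem sc_sub {Y : Type v} [Group Y] (h : SC Y) (M : Subgroup Y) : SC M := by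
  intro K hK ⟨a, ha, b, hb, hab⟩ x hx
  obtain ⟨y, hy, hyx⟩ := h (K.map M.subtype)
    (by rw [Subgroup.card_map_of_injective M.subtype_injective, hK])
    ⟨a, ⟨a, ha, rfl⟩, b, ⟨b, hb, rfl⟩, fun e => hab (Subtype.ext e)⟩ x
    (by rintro _ ⟨k, hk, rfl⟩; exact congrArg Subtype.val (hx k hk))
  exact (Subtype.ext hyx : y = x) ▸ hy

theorem eight {Y : Type v} [Group Y] [Finite Y] (h8 : Nat.card Y = 8) (hab : ∃ a b : Y, a * b ≠ b * a) :
    (commutator Y).index = 4 ∧ Nat.card ↥(Subgroup.center Y) = 2 ∧ ∀ x : Y, x * x ∈ Subgroup.center Y := by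
  haveI := Fact.mk Nat.prime_two
  have hp : IsPGroup 2 Y := IsPGroup.of_card (n := 3) (by rw [h8]; rfl)
  obtain ⟨a, b, hab⟩ := hab
  have h4 := CfsgLib.MaximalClassTwo.sq_dvd_commutator_index hp hab
  have hmul := (commutator Y).card_mul_index
  have hc1 : Nat.card (commutator Y) ≠ 1 := fun e => hab (commutatorElement_eq_one_iff_mul_comm.mp (by
    have : ⁅a, b⁆ ∈ commutator Y := Subgroup.commutator_mem_commutator trivial trivial
    rw [Subgroup.card_eq_one.mp e, Subgroup.mem_bot] at this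
    exact this))
  rw [h8] at hmul
  obtain ⟨q, hq⟩ := h4
  have hi : (commutator Y).index = 4 := by
    rw [hq] at hmul ⊢
    have hcpos : 0 < Nat.card (commutator Y) := Nat.card_pos
    have : Nat.card (commutator Y) * q = 2 := by linarith
    rcases q with _ | _ | _ | q
    · simp at this
    · rfl
    · exfalso; omega
    · exfalso; have := Nat.mul_le_mul hcpos (show 3 ≤ q + 1 + 1 + 1 by omega); omega
  obtain ⟨-, -, hz, -⟩ := CfsgLib.MaximalClassTwo.main 3 Y le_rfl (by rw [h8]; rfl) (Or.inr hi)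
  refine ⟨hi, hz, fun x => ?_⟩
  have hm := (Subgroup.center Y).card_mul_index
  rw [hz, h8, Subgroup.index_eq_card] at hm
  have h4q : Nat.card (Y ⧸ Subgroup.center Y) = 2 ^ 2 := by norm_num; omega
  have hnc : ¬ IsCyclic (Y ⧸ Subgroup.center Y) := by
    intro hc
    exact hab (((commutative_of_cyclic_center_quotient (QuotientGroup.mk' (Subgroup.center Y))
      (by rw [QuotientGroup.ker_mk'])) a b))
  have he := (not_isCyclic_iff_exponent_eq_prime Nat.prime_two h4q).mp hnc
  rw [← QuotientGroup.eq_one_iff, QuotientGroup.mk_mul, ← pow_two]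
  exact orderOf_dvd_iff_pow_eq_one.mp ((Monoid.order_dvd_exponent _).trans he.dvd)

theorem sc_of_rank {S : Type v} [Group S] [Finite S] (h2 : IsPGroup 2 S)
    (hr : Cfsg.SectionalPRankLE 2 2 S) : SC S := by
  intro K h8 ⟨a, ha, b, hb, hab⟩ y hy
  by_contra hyK
  obtain ⟨k, hk⟩ := h2 y
  obtain ⟨j, hj1, hj2⟩ : ∃ j, y ^ 2 ^ j ∉ K ∧ y ^ 2 ^ (j + 1) ∈ K := by
    by_contra hno
    push Not at hno
    have : ∀ j, y ^ 2 ^ j ∉ K := fun j => by
      induction j with
      | zero => simpa using hyK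
      | succ j ih => exact hno j ih
    exact this k (by rw [hk]; exact K.one_mem)
  set x := y ^ 2 ^ j with hxd
  have hx : ∀ k ∈ K, Commute k x := fun k hk => Commute.pow_right (hy k hk) _
  obtain ⟨-, hz, hsq⟩ := eight h8 ⟨⟨a, ha⟩, ⟨b, hb⟩, fun e => hab (congrArg Subtype.val e)⟩
  set Z := (Subgroup.center ↥K).map K.subtype
  set L := K ⊔ Subgroup.zpowers x
  have hL : ∀ l ∈ L, ∃ k ∈ K, ∃ i : ℤ, l = k * x ^ i := by
    intro l hl
    let J : Subgroup S :=
      { carrier := {l | ∃ k ∈ K, ∃ i : ℤ, l = k * x ^ i}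
        one_mem' := ⟨1, K.one_mem, 0, by simp⟩
        mul_mem' := by
          rintro _ _ ⟨k, hk, i, rfl⟩ ⟨k', hk', i', rfl⟩
          refine ⟨k * k', K.mul_mem hk hk', i + i', ?_⟩
          rw [zpow_add, (((hx k' hk').zpow_right i).symm).mul_mul_mul_comm]
        inv_mem' := by
          rintro _ ⟨k, hk, i, rfl⟩
          refine ⟨k⁻¹, K.inv_mem hk, -i, ?_⟩
          rw [mul_inv_rev, zpow_neg]
          exact (((hx k hk).zpow_right i).inv_inv).symm.eq }
    exact (sup_le (fun k hk => (⟨k, hk, 0, by simp⟩ : k ∈ J))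
      (Subgroup.zpowers_le.mpr (⟨1, K.one_mem, 1, by simp⟩ : x ∈ J)) : L ≤ J) hl
  have hx2 : x * x ∈ Z := by
    have hm : x * x ∈ K := by rw [hxd, ← pow_add, ← two_mul, ← pow_succ']; exact hj2
    exact ⟨⟨_, hm⟩, Subgroup.mem_center_iff.mpr fun k =>
      Subtype.ext ((hx k k.2).mul_right (hx k k.2)).eq, rfl⟩
  have hsqL : ∀ l ∈ L, l * l ∈ Z := by
    intro l hl
    obtain ⟨k, hk, i, rfl⟩ := hL l hl
    rw [((hx k hk).zpow_right i).symm.mul_mul_mul_comm, ← (Commute.refl x).mul_zpow]
    exact Z.mul_mem ⟨_, hsq ⟨k, hk⟩, rfl⟩ (Z.zpow_mem hx2 i)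
  haveI hn : (Z.subgroupOf L).Normal := ⟨fun z hz' l => by
    obtain ⟨w, hw, hwz⟩ := Subgroup.mem_subgroupOf.mp hz'
    obtain ⟨k, hk, i, hl⟩ := hL l l.2
    have h1 : Commute (l : S) (z : S) := by
      rw [hl, ← hwz]
      exact Commute.mul_left (congrArg Subtype.val (Subgroup.mem_center_iff.mp hw ⟨k, hk⟩))
        (((hx w w.2).symm).zpow_left i)
    have : l * z * l⁻¹ = z := Subtype.ext (mul_inv_eq_iff_eq_mul.mpr h1.eq)
    rwa [this]⟩
  have hsq' : ∀ q : ↥L ⧸ Z.subgroupOf L, q * q = 1 := by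
    intro q
    obtain ⟨l, rfl⟩ := QuotientGroup.mk'_surjective _ q
    rw [← map_mul]
    exact (QuotientGroup.eq_one_iff _).mpr (Subgroup.mem_subgroupOf.mpr (hsqL l l.2))
  have hinv : ∀ q : ↥L ⧸ Z.subgroupOf L, q⁻¹ = q := fun q => inv_eq_of_mul_eq_one_left (hsq' q)
  have h4 := hr L (Z.subgroupOf L) ⊤ ⟨⟨fun a b => Subtype.ext (by
      show (a : ↥L ⧸ Z.subgroupOf L) * b = b * a
      calc (a : ↥L ⧸ Z.subgroupOf L) * b = ((a : ↥L ⧸ Z.subgroupOf L) * b)⁻¹ := (hinv _).symm
        _ = _ := by rw [mul_inv_rev, hinv, hinv])⟩⟩ (fun a _ => by rw [pow_two]; exact hsq' a)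
  rw [Subgroup.card_top, ← Subgroup.index_eq_card] at h4
  change Z.relIndex L ≤ 2 ^ 2 at h4
  have hZL : Z ≤ L := (Subgroup.map_subtype_le _).trans le_sup_left
  have e1 : Nat.card Z * Z.relIndex L = Nat.card L := by
    rw [← Subgroup.relIndex_bot_left Z, ← Subgroup.relIndex_bot_left L]
    exact Subgroup.relIndex_mul_relIndex ⊥ Z L bot_le hZL
  have e2 : Nat.card K * K.relIndex L = Nat.card L := by
    rw [← Subgroup.relIndex_bot_left K, ← Subgroup.relIndex_bot_left L]
    exact Subgroup.relIndex_mul_relIndex ⊥ K L bot_le le_sup_left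
  have e3 : 2 ≤ K.relIndex L := by
    have h1 : K.relIndex L ≠ 1 := fun e =>
      hj1 (Subgroup.relIndex_eq_one.mp e (Subgroup.mem_sup_right (Subgroup.mem_zpowers x)))
    have h0 : K.relIndex L ≠ 0 := Subgroup.index_ne_zero_of_finite
    omega
  have hZc : Nat.card Z = 2 := by rw [Subgroup.card_map_of_injective K.subtype_injective, hz]
  rw [hZc] at e1
  rw [h8] at e2
  omega

theorem index_four : ∀ (N : ℕ) (Y : Type v) [Group Y] [Finite Y], Nat.card Y ≤ N → IsPGroup 2 Y → SC Y →
    (∃ K : Subgroup Y, Nat.card K = 8 ∧ ∃ a ∈ K, ∃ b ∈ K, a * b ≠ b * a) →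
    (commutator Y).index = 4 := by
  intro N
  induction N with
  | zero => intro Y _ _ hN; have := Nat.card_pos (α := Y); omega
  | succ N ih =>
    intro Y _ _ hN hY hsc ⟨H, hH8, a0, ha0, b0, hb0, hab0⟩
    haveI := Fact.mk Nat.prime_two
    haveI := hY.isNilpotent
    by_cases hHt : H = ⊤
    · subst hHt
      rw [Subgroup.card_top] at hH8
      exact (eight hH8 ⟨a0, b0, hab0⟩).1
    obtain ⟨M, hM, hHM⟩ := (eq_top_or_exists_le_coatom H).resolve_left hHt
    haveI hMn : M.Normal :=
      Subgroup.NormalizerCondition.normal_of_coatom M (Group.normalizerCondition_of_isNilpotent (G := Y)) hM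
    have hMlt : Nat.card M < Nat.card Y := lt_of_le_of_ne (Subgroup.card_le_card_group M)
      fun e => hM.1 (Subgroup.eq_top_of_card_eq M e)
    have hMY : IsPGroup 2 M := hY.to_subgroup M
    have hidx := ih M (by omega) hMY (sc_sub hsc M)
      ⟨H.subgroupOf M, by rw [Nat.card_congr (Subgroup.subgroupOfEquivOfLe hHM).toEquiv, hH8],
        ⟨a0, hHM ha0⟩, ha0, ⟨b0, hHM hb0⟩, hb0, fun e => hab0 (congrArg Subtype.val e)⟩
    obtain ⟨m, hm⟩ := hMY.exists_card_eq
    have hm3 : 3 ≤ m := by
      have h1 := Subgroup.card_le_of_le hHM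
      rw [hH8, hm] at h1
      by_contra hlt
      have := Nat.pow_le_pow_right two_pos (show m ≤ 2 by omega)
      omega
    have hM2 : M.index = 2 := by
      haveI : Nontrivial (Y ⧸ M) := QuotientGroup.nontrivial_iff.mpr hM.1
      obtain ⟨k, hk⟩ := (hY.to_quotient M).exists_card_eq
      have h2 : 2 ∣ Nat.card (Y ⧸ M) := by
        cases k with
        | zero => exact absurd hk (Finite.one_lt_card).ne'
        | succ k => rw [hk, pow_succ]; exact dvd_mul_left _ _
      obtain ⟨u, hu⟩ := exists_prime_orderOf_dvd_card' (G := Y ⧸ M) 2 h2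
      have htop : (Subgroup.zpowers u).comap (QuotientGroup.mk' M) = ⊤ := by
        refine hM.2 _ (lt_of_le_of_ne (fun g hg => ?_) ?_)
        · rw [Subgroup.mem_comap, show QuotientGroup.mk' M g = 1 from (QuotientGroup.eq_one_iff g).mpr hg]
          exact one_mem _
        · intro e
          obtain ⟨t, rfl⟩ := QuotientGroup.mk'_surjective M u
          have ht : t ∈ M := by rw [e]; exact Subgroup.mem_comap.mpr (Subgroup.mem_zpowers _)
          rw [show QuotientGroup.mk' M t = 1 from (QuotientGroup.eq_one_iff t).mpr ht, orderOf_one] at hu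
          omega
      have hz : Subgroup.zpowers u = ⊤ := by
        rw [← Subgroup.map_comap_eq_self_of_surjective (QuotientGroup.mk'_surjective M) (Subgroup.zpowers u),
          htop, Subgroup.map_top_of_surjective _ (QuotientGroup.mk'_surjective M)]
      rw [Subgroup.index_eq_card, ← Subgroup.card_top, ← hz, Nat.card_zpowers, hu]
    set D := (commutator M).map M.subtype with hDdef
    have hDle : D ≤ commutator Y := by
      rw [hDdef, commutator_def, commutator_def, Subgroup.map_commutator]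
      exact Subgroup.commutator_mono le_top le_top
    have hDc : Nat.card D * 4 = Nat.card M := by
      rw [hDdef, Subgroup.card_map_of_injective M.subtype_injective, ← hidx, Subgroup.card_mul_index]
    have hYc : Nat.card Y = Nat.card M * 2 := by rw [← hM2, Subgroup.card_mul_index]
    by_cases hDY : ∀ s g : Y, ⁅s, g⁆ ∈ D
    swap
    · push Not at hDY
      obtain ⟨s, g, hsg⟩ := hDY
      have hne : Nat.card D ≠ Nat.card (commutator Y) := fun e =>
        hsg (by rw [Subgroup.eq_of_le_of_card_ge hDle e.ge]; exact Subgroup.commutator_mem_commutator trivial trivial)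
      obtain ⟨t, ht⟩ := Subgroup.card_dvd_of_le hDle
      have ht2 : 2 ≤ t := by
        rcases t with _ | _ | t
        · rw [mul_zero] at ht; exact absurd ht Nat.card_pos.ne'
        · rw [zero_add, mul_one] at ht; exact absurd ht.symm hne
        · omega
      obtain ⟨q, hq⟩ := CfsgLib.MaximalClassTwo.sq_dvd_commutator_index hY hab0
      have hmul := (commutator Y).card_mul_index
      rw [ht, hq, hYc, ← hDc] at hmul
      have hd : 0 < Nat.card D := Nat.card_pos
      have htq : t * q = 2 := Nat.eq_of_mul_eq_mul_left (show 0 < Nat.card D * 4 by omega) (by linarith)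
      rw [hq]
      rcases q with _ | _ | q
      · omega
      · rfl
      · exfalso; have := Nat.mul_le_mul ht2 (show 2 ≤ q + 1 + 1 by omega); omega
    exfalso
    obtain ⟨-, -, hz2, ⟨c, hcM⟩, hcidx, hrel⟩ := CfsgLib.MaximalClassTwo.main m M hm3 hm (Or.inr hidx)
    set cM : M := ⟨c, hcM⟩
    obtain ⟨⟨b, hbM⟩, hb⟩ : ∃ x : M, x ∉ Subgroup.zpowers cM := by
      by_contra h
      push Not at h
      rw [Subgroup.eq_top_iff' _ |>.mpr h, Subgroup.index_top] at hcidx
      omega
    set bM : M := ⟨b, hbM⟩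
    obtain ⟨hrc, hrb⟩ := hrel bM hb
    have hcent : ∀ u : M, u ∈ Subgroup.center M → (u : Y) * u = 1 ∧ ∀ g ∈ M, g * (u : Y) = u * g := by
      intro u hu
      refine ⟨?_, fun g hg => congrArg Subtype.val (Subgroup.mem_center_iff.mp hu ⟨g, hg⟩)⟩
      have h1 := Subgroup.orderOf_dvd_natCard (Subgroup.center M) hu
      rw [hz2] at h1
      have := congrArg Subtype.val (orderOf_dvd_iff_pow_eq_one.mp h1)
      simpa [pow_two] using this
    obtain ⟨he2, hec⟩ := hcent _ hrc
    set e : Y := b * c * b⁻¹ * c with hed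
    change e * e = 1 at he2
    change ∀ g ∈ M, g * e = e * g at hec
    have hbcb : b * c * b⁻¹ = e * c⁻¹ := by rw [hed]; group
    have hordc : orderOf c = 2 ^ (m - 1) := by
      have h1 := (Subgroup.zpowers cM).card_mul_index
      rw [hcidx, Nat.card_zpowers, hm, ← Subgroup.orderOf_coe] at h1
      change orderOf c * 2 = 2 ^ m at h1
      rw [show (2 : ℕ) ^ m = 2 ^ (m - 1) * 2 by rw [← pow_succ]; congr 1; omega] at h1
      omega
    have hbc : b * c ≠ c * b := by
      intro h
      obtain ⟨x, y, hxy⟩ : ∃ x y : M, x * y ≠ y * x :=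
        ⟨⟨a0, hHM ha0⟩, ⟨b0, hHM hb0⟩, fun e => hab0 (congrArg Subtype.val e)⟩
      apply hxy
      have hcb : Commute cM bM := Subtype.ext h.symm
      have hall : ∀ u : M, ∃ i : ℤ, u = cM ^ i ∨ u = cM ^ i * bM := by
        intro u
        by_cases hu : u ∈ Subgroup.zpowers cM
        · obtain ⟨i, hi⟩ := Subgroup.mem_zpowers_iff.mp hu
          exact ⟨i, Or.inl hi.symm⟩
        · have : u * bM⁻¹ ∈ Subgroup.zpowers cM := (Subgroup.mul_mem_iff_of_index_two hcidx).mpr
            (iff_of_false hu fun e => hb (inv_inv bM ▸ Subgroup.inv_mem _ e))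
          obtain ⟨i, hi⟩ := Subgroup.mem_zpowers_iff.mp this
          exact ⟨i, Or.inr (by rw [hi, inv_mul_cancel_right])⟩
      obtain ⟨i, hi⟩ := hall x
      obtain ⟨j, hj⟩ := hall y
      have c1 : ∀ i j : ℤ, Commute (cM ^ i) (cM ^ j) := fun i j => (Commute.refl cM).zpow_zpow i j
      rcases hi with rfl | rfl <;> rcases hj with rfl | rfl
      · exact (c1 i j).eq
      · exact ((c1 i j).mul_right (hcb.zpow_left i)).eq
      · exact ((c1 i j).mul_left (hcb.zpow_left j).symm).eq
      · exact (((c1 i j).mul_right (hcb.zpow_left i)).mul_left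
          ((hcb.zpow_left j).symm.mul_right (Commute.refl bM))).eq
    have hce : Commute c e := hec c hcM
    set w : Y := c * (b * c * b⁻¹)⁻¹ with hw
    have hw' : w = c * c * e := by
      rw [hw, hbcb, mul_inv_rev, inv_inv, inv_eq_of_mul_eq_one_left he2, ← mul_assoc]
    have hwD : w ∈ D := by
      refine ⟨⁅cM, bM⁆, Subgroup.commutator_mem_commutator trivial trivial, ?_⟩
      show c * b * c⁻¹ * b⁻¹ = w
      rw [hw]; group
    have hwi : ∀ i : ℤ, w ^ i = c ^ i * b * (c ^ i)⁻¹ * b⁻¹ := by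
      intro i
      have hcm : Commute c (b * c * b⁻¹)⁻¹ := by
        rw [hbcb]; exact (hce.mul_right (Commute.refl c).inv_right).inv_right
      rw [hw, hcm.mul_zpow, inv_zpow, conj_zpow]
      group
    set N2 := 2 ^ (m - 3) with hN2
    set c4 := c ^ N2 with hc4
    have hm1 : (2 : ℕ) ^ (m - 1) = N2 * 4 := by
      rw [hN2, show (4 : ℕ) = 2 ^ 2 from rfl, ← pow_add]; congr 1; omega
    have hord4 : orderOf c4 = 4 := by
      rw [hc4, orderOf_pow' c (by positivity), hordc, hm1, Nat.gcd_eq_right (dvd_mul_right _ _),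
        Nat.mul_div_cancel_left 4 (by positivity)]
    have hbc4 : b * c4 * b⁻¹ = c4⁻¹ := by
      rw [hc4, ← conj_pow, hbcb, ((hce.symm).inv_right).mul_pow, inv_pow]
      suffices e ^ N2 = 1 by rw [this, one_mul]
      rcases Nat.eq_or_lt_of_le hm3 with h3 | h3
      · -- `m = 3`
        obtain ⟨hsqb, -⟩ := hcent _ hrb
        have hN1 : N2 = 1 := by rw [hN2, ← h3]; rfl
        rw [hN1, pow_one]
        by_contra hne
        have hcc : (⟨c * c, M.mul_mem hcM hcM⟩ : M) ∈ Subgroup.center M := by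
          have h8 : Nat.card M = 8 := by rw [hm, ← h3]; rfl
          exact (eight h8 ⟨⟨a0, hHM ha0⟩, ⟨b0, hHM hb0⟩, fun e => hab0 (congrArg Subtype.val e)⟩).2.2 cM
        obtain ⟨u, v, huv, huniv⟩ := Nat.card_eq_two_iff.mp hz2
        have h1 : ∀ t : Subgroup.center M, t = u ∨ t = v := fun t => by
          have : t ∈ ({u, v} : Set _) := huniv ▸ Set.mem_univ t
          simpa using this
        have hc2ne : c * c ≠ 1 := fun e' => by
          have := orderOf_dvd_iff_pow_eq_one.mpr (show c ^ 2 = 1 by rw [pow_two, e'])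
          rw [hordc, ← h3] at this
          norm_num at this
        have heq : c * c = e := by
          have key : ∀ p q r : Subgroup.center M, p ≠ r → q ≠ r → p = q := fun p q r hp hq => by
            rcases h1 p with rfl | rfl <;> rcases h1 q with rfl | rfl <;> rcases h1 r with rfl | rfl <;>
              first | rfl | exact absurd rfl hp | exact absurd rfl hq
          exact congrArg (fun t : Subgroup.center M => ((t : M) : Y))
            (key ⟨_, hcc⟩ ⟨_, hrc⟩ 1
              (fun e' => hc2ne (congrArg (fun t : Subgroup.center M => ((t : M) : Y)) e'))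
              (fun e' => hne (congrArg (fun t : Subgroup.center M => ((t : M) : Y)) e')))
        apply hbc
        rw [← heq, mul_inv_cancel_right] at hbcb
        exact mul_inv_eq_iff_eq_mul.mp hbcb
      · obtain ⟨r, hr⟩ : ∃ r, N2 = 2 * r := ⟨2 ^ (m - 4), by rw [hN2, ← pow_succ']; congr 1; omega⟩
        rw [hr, pow_mul, pow_two, he2, one_pow]
    have hc44 : c4 * c4 * (c4 * c4) = 1 := by
      rw [← pow_two, ← pow_two, ← pow_mul, show 2 * 2 = orderOf c4 by rw [hord4]]
      exact pow_orderOf_eq_one c4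
    -- every element of `D` is a power of `w`
    have hDw : D = Subgroup.zpowers w := by
      refine (Subgroup.eq_of_le_of_card_ge (Subgroup.zpowers_le.mpr hwD) ?_).symm
      rw [Nat.card_zpowers]
      have hD2 : Nat.card D = 2 ^ (m - 2) := by
        rw [hm, show (2 : ℕ) ^ m = 2 ^ (m - 2) * 4 by
          rw [show (4 : ℕ) = 2 ^ 2 from rfl, ← pow_add]; congr 1; omega] at hDc
        omega
      rw [hD2]
      obtain ⟨k, hk⟩ := hY w
      obtain ⟨i, -, hi⟩ := (Nat.dvd_prime_pow Nat.prime_two).mp (orderOf_dvd_of_pow_eq_one hk)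
      rw [hi]
      refine Nat.pow_le_pow_right two_pos ?_
      by_contra hlt
      have h1 : w ^ 2 ^ (m - 3) = 1 := by
        rw [← orderOf_dvd_iff_pow_eq_one, hi]; exact pow_dvd_pow 2 (by omega)
      rcases Nat.eq_or_lt_of_le hm3 with h3 | h3
      · rw [← h3, Nat.sub_self, pow_zero, pow_one] at h1
        rw [hw, mul_inv_eq_one] at h1
        exact hbc (mul_inv_eq_iff_eq_mul.mp h1.symm)
      · rw [hw', (hce.mul_left hce).mul_pow, show e ^ 2 ^ (m - 3) = 1 by
            rw [show m - 3 = (m - 4) + 1 by omega, pow_succ', pow_mul, pow_two, he2, one_pow],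
          mul_one, ← pow_two, ← pow_mul] at h1
        have h5 := orderOf_dvd_of_pow_eq_one h1
        rw [hordc, ← pow_succ', Nat.pow_dvd_pow_iff_le_right (by norm_num)] at h5
        omega
    obtain ⟨s, hs⟩ : ∃ s : Y, s ∉ M := by
      by_contra h
      push Not at h
      exact hM.1 (Subgroup.eq_top_iff' M |>.mpr h)
    have h1 := hDY s b
    rw [hDw, Subgroup.mem_zpowers_iff] at h1
    obtain ⟨i, hi⟩ := h1
    rw [hwi, commutatorElement_def, mul_left_inj] at hi
    set s' := (c ^ i)⁻¹ * s with hs'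
    have hs'M : s' ∉ M := fun h => hs (by simpa [hs'] using M.mul_mem (M.zpow_mem hcM i) h)
    have hs'b : s' * b = b * s' := by
      refine mul_inv_eq_iff_eq_mul.mp ?_
      rw [hs', show (c ^ i)⁻¹ * s * b * ((c ^ i)⁻¹ * s)⁻¹ = (c ^ i)⁻¹ * (s * b * s⁻¹) * c ^ i by group, ← hi]
      group
    have h2 := hDY s' c
    rw [hDw, Subgroup.mem_zpowers_iff] at h2
    obtain ⟨j, hj⟩ := h2
    have hwc : ∃ j' : ℤ, s' * c4 * s'⁻¹ = c4 ^ j' := by
      have heN : e ^ N2 = 1 := by
        have := hbc4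
        rw [hc4, ← conj_pow, hbcb, ((hce.symm).inv_right).mul_pow, inv_pow, mul_eq_right] at this
        exact this
      have hwN : w ^ N2 = c4 ^ (2 : ℤ) := by
        rw [hw', (hce.mul_left hce).mul_pow, heN, mul_one, ← pow_two, ← pow_mul, zpow_two, hc4, ← pow_add, two_mul]
      refine ⟨2 * j + 1, ?_⟩
      have h3 : s' * c * s'⁻¹ = w ^ j * c := by rw [hj, commutatorElement_def]; group
      have hwc' : Commute (w ^ j) c := by
        refine Commute.zpow_left ?_ j
        rw [hw']
        exact (((Commute.refl c).mul_left (Commute.refl c)).mul_left hce.symm)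
      rw [show s' * c4 * s'⁻¹ = (s' * c * s'⁻¹) ^ N2 by rw [conj_pow, ← hc4], h3, hwc'.mul_pow,
        ← hc4, ← zpow_natCast (w ^ j), ← zpow_mul, mul_comm j, zpow_mul, zpow_natCast, hwN, ← zpow_mul,
        ← zpow_add_one]
    have hc4b : ∀ i : ℤ, b * c4 ^ i = c4 ^ (-i) * b := by
      intro i
      refine mul_inv_eq_iff_eq_mul.mp ?_
      rw [← conj_zpow, hbc4, inv_zpow, zpow_neg]
    -- adjust to centralize `c4`
    obtain ⟨x, hxM, hxb, hxc⟩ : ∃ x, x ∉ M ∧ x * b = b * x ∧ x * c4 = c4 * x := by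
      obtain ⟨j', hj'⟩ := hwc
      have hz4 : (c4 : Y) ^ (4 : ℤ) = 1 := by
        rw [show (4 : ℤ) = ((4 : ℕ) : ℤ) from rfl, zpow_natCast, ← hord4]; exact pow_orderOf_eq_one c4
      have hmod : c4 ^ j' = c4 ^ (j' % 4) := by
        conv_lhs => rw [← Int.mul_ediv_add_emod j' 4]
        rw [zpow_add, zpow_mul, hz4, one_zpow, one_mul]
      rw [hmod] at hj'
      have hord : orderOf (s' * c4 * s'⁻¹) = 4 := by
        rw [← MulAut.conj_apply, MulEquiv.orderOf_eq, hord4]
      have : j' % 4 = 0 ∨ j' % 4 = 1 ∨ j' % 4 = 2 ∨ j' % 4 = 3 := by omega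
      rcases this with e' | e' | e' | e' <;> rw [e'] at hj'
      · rw [hj', zpow_zero, orderOf_one] at hord; omega
      · rw [zpow_one] at hj'
        exact ⟨s', hs'M, hs'b, mul_inv_eq_iff_eq_mul.mp hj'⟩
      · exfalso
        have : orderOf (s' * c4 * s'⁻¹) ∣ 2 := orderOf_dvd_of_pow_eq_one (by
          rw [hj', ← zpow_natCast, ← zpow_mul, show ((2 : ℤ) * ((2 : ℕ) : ℤ)) = 4 from rfl, hz4])
        rw [hord] at this; norm_num at this
      · refine ⟨b * s', fun h => hs'M (by simpa using M.mul_mem (M.inv_mem hbM) h), ?_, ?_⟩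
        · rw [mul_assoc, hs'b]
        · refine mul_inv_eq_iff_eq_mul.mp ?_
          rw [show b * s' * c4 * (b * s')⁻¹ = b * (s' * c4 * s'⁻¹) * b⁻¹ by group, hj', hc4b,
            mul_inv_cancel_right, show (-(3 : ℤ)) = 1 + -4 from rfl, zpow_add, zpow_neg, hz4, inv_one,
            mul_one, zpow_one]
    -- the subgroup generated by `c4` and `b`
    obtain ⟨hsqb, hbcen⟩ := hcent _ hrb
    change b * b * (b * b) = 1 at hsqb
    have hbb : ∃ t : ℤ, b * b = c4 ^ t := by
      by_cases h : b * b = 1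
      · exact ⟨0, by rw [h, zpow_zero]⟩
      refine ⟨2, ?_⟩
      have hc42 : (⟨c4 * c4, M.mul_mem (M.pow_mem hcM _) (M.pow_mem hcM _)⟩ : M) ∈ Subgroup.center M := by
        rw [Subgroup.mem_center_iff]
        intro g
        have hb2 : b * (c4 * c4) = c4 * c4 * b := by
          rw [← zpow_two, hc4b]
          have hz4 : (c4 : Y) ^ (4 : ℤ) = 1 := by
            rw [show (4 : ℤ) = ((4 : ℕ) : ℤ) from rfl, zpow_natCast, ← hord4]; exact pow_orderOf_eq_one c4
          rw [show (-(2 : ℤ)) = 2 + -4 from rfl, zpow_add, zpow_neg, hz4, inv_one, mul_one]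
        have hcc : Commute c (c4 * c4) := (Commute.self_pow c N2).mul_right (Commute.self_pow c N2)
        apply Subtype.ext
        show (g : Y) * (c4 * c4) = c4 * c4 * g
        by_cases hg : g ∈ Subgroup.zpowers cM
        · obtain ⟨l, rfl⟩ := Subgroup.mem_zpowers_iff.mp hg
          rw [SubgroupClass.coe_zpow]
          exact (hcc.zpow_left l).eq
        · have : g * bM⁻¹ ∈ Subgroup.zpowers cM := (Subgroup.mul_mem_iff_of_index_two hcidx).mpr
            (iff_of_false hg fun e => hb (inv_inv bM ▸ Subgroup.inv_mem _ e))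
          obtain ⟨l, hl⟩ := Subgroup.mem_zpowers_iff.mp this
          have hgv : (g : Y) = c ^ l * b := by
            rw [show g = cM ^ l * bM by rw [hl, inv_mul_cancel_right]]; rfl
          rw [hgv]
          exact Commute.mul_left (hcc.zpow_left l) hb2
      obtain ⟨u, v, huv, huniv⟩ := Nat.card_eq_two_iff.mp hz2
      have h1 : ∀ t : Subgroup.center M, t = u ∨ t = v := fun t => by
        have : t ∈ ({u, v} : Set _) := huniv ▸ Set.mem_univ t
        simpa using this
      have key : ∀ p q r : Subgroup.center M, p ≠ r → q ≠ r → p = q := fun p q r hp hq => by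
        rcases h1 p with rfl | rfl <;> rcases h1 q with rfl | rfl <;> rcases h1 r with rfl | rfl <;>
          first | rfl | exact absurd rfl hp | exact absurd rfl hq
      rw [zpow_two]
      exact congrArg (fun t : Subgroup.center M => ((t : M) : Y))
        (key ⟨_, hrb⟩ ⟨_, hc42⟩ 1
          (fun e' => h (congrArg (fun t : Subgroup.center M => ((t : M) : Y)) e'))
          (fun e' => by
            have h2' : c4 * c4 = 1 := congrArg (fun t : Subgroup.center M => ((t : M) : Y)) e'
            have := orderOf_dvd_of_pow_eq_one (show c4 ^ 2 = 1 by rw [pow_two, h2'])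
            rw [hord4] at this; norm_num at this))
    obtain ⟨t, ht⟩ := hbb
    let K : Subgroup Y :=
      { carrier := {y | ∃ i : ℤ, y = c4 ^ i ∨ y = c4 ^ i * b}
        one_mem' := ⟨0, Or.inl (zpow_zero _).symm⟩
        mul_mem' := by
          rintro _ _ ⟨i, rfl | rfl⟩ ⟨j, rfl | rfl⟩
          · exact ⟨i + j, Or.inl (zpow_add _ _ _).symm⟩
          · exact ⟨i + j, Or.inr (by rw [zpow_add, mul_assoc])⟩
          · exact ⟨i + -j, Or.inr (by rw [mul_assoc, hc4b, ← mul_assoc, ← zpow_add])⟩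
          · exact ⟨i + -j + t, Or.inl (by
              rw [mul_assoc, ← mul_assoc b, hc4b, mul_assoc (c4 ^ (-j)), ht, ← zpow_add, ← zpow_add]
              congr 1; omega)⟩
        inv_mem' := by
          rintro _ ⟨i, rfl | rfl⟩
          · exact ⟨-i, Or.inl (zpow_neg _ _).symm⟩
          · exact ⟨i - t, Or.inr (inv_eq_of_mul_eq_one_left (by
              rw [mul_assoc, ← mul_assoc b, hc4b, mul_assoc (c4 ^ (-i)), ht, ← zpow_add, ← zpow_add,
                show i - t + (-i + t) = 0 by omega, zpow_zero]))⟩ }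
    have hc4K : c4 ∈ K := ⟨1, Or.inl (zpow_one _).symm⟩
    have hbK : b ∈ K := ⟨0, Or.inr (by rw [zpow_zero, one_mul])⟩
    have hna : c4 * b ≠ b * c4 := by
      intro h
      have h' := mul_inv_eq_iff_eq_mul.mpr h.symm
      rw [hbc4, inv_eq_iff_mul_eq_one] at h'
      have := orderOf_dvd_of_pow_eq_one (show c4 ^ 2 = 1 by rw [pow_two, h'])
      rw [hord4] at this; norm_num at this
    have hK8 : Nat.card K = 8 := by
      have hle : Nat.card K ≤ 8 := by
        let f : Fin 4 × Bool → K := fun p =>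
          ⟨c4 ^ (p.1 : ℕ) * (if p.2 then b else 1), K.mul_mem (K.pow_mem hc4K _)
            (by split_ifs; exacts [hbK, K.one_mem])⟩
        have hf : Function.Surjective f := by
          rintro ⟨y, i, hy⟩
          have hi : c4 ^ i = c4 ^ ((i % 4).toNat) := by
            rw [← zpow_natCast, Int.toNat_of_nonneg (Int.emod_nonneg i (by norm_num)),
              show (4 : ℤ) = ((orderOf c4 : ℕ) : ℤ) by rw [hord4]; rfl, zpow_mod_orderOf]
          have hlt : (i % 4).toNat < 4 := by omega
          rcases hy with rfl | rfl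
          · exact ⟨(⟨_, hlt⟩, false), Subtype.ext (by simp [f, hi])⟩
          · exact ⟨(⟨_, hlt⟩, true), Subtype.ext (by simp [f, hi])⟩
        have := Nat.card_le_card_of_surjective f hf
        simpa using this
      obtain ⟨k, hk⟩ := (hY.to_subgroup K).exists_card_eq
      rw [hk] at hle ⊢
      have hk3 : k ≤ 3 := (Nat.pow_le_pow_iff_right (a := 2) Nat.one_lt_two).mp (by simpa using hle)
      interval_cases k
      · exfalso
        have := Subgroup.card_eq_one.mp (hk.trans (pow_zero 2))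
        rw [this, Subgroup.mem_bot] at hbK
        exact hna (by rw [hbK, mul_one, one_mul])
      · exfalso
        haveI : IsCyclic K := isCyclic_of_prime_card (hk.trans (pow_one 2))
        obtain ⟨g, hg⟩ := IsCyclic.exists_generator (α := K)
        obtain ⟨i1, h1⟩ := Subgroup.mem_zpowers_iff.mp (hg ⟨c4, hc4K⟩)
        obtain ⟨i2, h2⟩ := Subgroup.mem_zpowers_iff.mp (hg ⟨b, hbK⟩)
        exact hna (congrArg Subtype.val (show (⟨c4, hc4K⟩ : K) * ⟨b, hbK⟩ = ⟨b, hbK⟩ * ⟨c4, hc4K⟩ by
          rw [← h1, ← h2]; exact ((Commute.refl g).zpow_zpow i1 i2).eq))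
      · exfalso
        letI := IsPGroup.commGroupOfCardEqPrimeSq (p := 2) hk
        exact hna (congrArg Subtype.val (mul_comm (⟨c4, hc4K⟩ : K) ⟨b, hbK⟩))
      · rfl
    have hxK := hsc K hK8 ⟨c4, hc4K, b, hbK, hna⟩ x (by
      rintro _ ⟨i, rfl | rfl⟩
      · exact ((show Commute c4 x from hxc.symm).zpow_left i).eq
      · exact (((show Commute c4 x from hxc.symm).zpow_left i).mul_left (show Commute b x from hxb.symm)).eq)
    obtain ⟨i, rfl | rfl⟩ := hxK
    · exact hxM (M.zpow_mem (M.pow_mem hcM _) i)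
    · exact hxM (M.mul_mem (M.zpow_mem (M.pow_mem hcM _) i) hbM)

/-- Let S be a finite 2-group of sectional 2-rank at most 2 that contains a subgroup isomorphic to the dihedral group of order 8 or to the quaternion group of order 8. Then S is dihedral of order at least 8, semidihedral of order at least 16 (order 2^(k+4) with an element a of order 2^(k+3) and an involution b with b a b⁻¹ = a^(2^(k+2)−1)), or generalized quaternion of order at least 8. -/
theorem result {S : Type*} [Group S] [Finite S] (h2 : IsPGroup 2 S) (hr : Cfsg.SectionalPRankLE 2 2 S)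
    (hsub : ∃ H : Subgroup S, Nonempty (↥H ≃* DihedralGroup 4) ∨ Nonempty (↥H ≃* QuaternionGroup 2)) :
    ((∃ k : ℕ, Nonempty (S ≃* DihedralGroup (2 ^ (k + 2)))) ∨
      (∃ k : ℕ, Nat.card S = 2 ^ (k + 4) ∧ ∃ a b : S, orderOf a = 2 ^ (k + 3) ∧ orderOf b = 2 ∧ b * a * b⁻¹ = a ^ (2 ^ (k + 2) - 1)) ∨
      (∃ k : ℕ, Nonempty (S ≃* QuaternionGroup (2 ^ (k + 1))))) := by
  
  classical
  haveI := Fact.mk Nat.prime_two
  obtain ⟨H, hH⟩ := hsub
  have h8 : Nat.card H = 8 := by
    rcases hH with ⟨⟨e⟩⟩ | ⟨⟨e⟩⟩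
    · rw [Nat.card_congr e.toEquiv, DihedralGroup.nat_card]
    · rw [Nat.card_congr e.toEquiv, Nat.card_eq_fintype_card, QuaternionGroup.card]
  have hna : ∃ a ∈ H, ∃ b ∈ H, a * b ≠ b * a := by
    rcases hH with ⟨⟨e⟩⟩ | ⟨⟨e⟩⟩
    · refine ⟨e.symm (DihedralGroup.r 1), SetLike.coe_mem _, e.symm (DihedralGroup.sr 0), SetLike.coe_mem _, ?_⟩
      intro h
      rw [← Subgroup.coe_mul, ← Subgroup.coe_mul, Subtype.coe_inj, ← map_mul, ← map_mul, e.symm.injective.eq_iff] at h
      revert h; decide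
    · refine ⟨e.symm (QuaternionGroup.a 1), SetLike.coe_mem _, e.symm (QuaternionGroup.xa 0), SetLike.coe_mem _, ?_⟩
      intro h
      rw [← Subgroup.coe_mul, ← Subgroup.coe_mul, Subtype.coe_inj, ← map_mul, ← map_mul, e.symm.injective.eq_iff] at h
      revert h; decide
  have hidx := index_four (Nat.card S) S le_rfl h2 (sc_of_rank h2 hr) ⟨H, h8, hna⟩
  obtain ⟨n, hn⟩ := h2.exists_card_eq
  have hn3 : 3 ≤ n := by
    have h1 := Subgroup.card_le_card_group H
    rw [h8, hn] at h1
    by_contra hlt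
    have := Nat.pow_le_pow_right two_pos (show n ≤ 2 by omega)
    omega
  exact CfsgLib.MaximalClassTwoIso.classify hn3 hn hidx


end Cfsg.Agent.S4398
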