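import Cfsg.Statements.S4400
import Cfsg.Agent.Lib.PStep
import Mathlib.Tactic

set_option autoImplicit false
open Cfsg

namespace Cfsg.Agent.S4400

/-- The subgroup generated by the squares of the elements of `P`. -/
def sqSub {S : Type*} [Group S] (P : Subgroup S) : Subgroup S :=
  Subgroup.closure {y | ∃ x ∈ P, x * x = y}

theorem sqSub_le {S : Type*} [Group S] (P : Subgroup S) : sqSub P ≤ P :=
  (Subgroup.closure_le P).mpr fun _ ⟨x, hx, e⟩ => e ▸ P.mul_mem hx hx

theorem sq_mem_sqSub {S : Type*} [Group S] {P : Subgroup S} {x : S} (hx : x ∈ P) : x * x ∈ sqSub P :=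
  Subgroup.subset_closure ⟨x, hx, rfl⟩

theorem sqSub_normal {S : Type*} [Group S] (P : Subgroup S) [P.Normal] : (sqSub P).Normal := by
  refine ⟨fun n hn g => ?_⟩
  induction hn using Subgroup.closure_induction with
  | mem y hy =>
    obtain ⟨x, hx, rfl⟩ := hy
    rw [show g * (x * x) * g⁻¹ = (g * x * g⁻¹) * (g * x * g⁻¹) by group]
    exact sq_mem_sqSub ((inferInstance : P.Normal).conj_mem x hx g)
  | one => simp
  | mul a b _ _ ha hb =>
    rw [show g * (a * b) * g⁻¹ = (g * a * g⁻¹) * (g * b * g⁻¹) by group]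
    exact mul_mem ha hb
  | inv a _ ha =>
    rw [show g * a⁻¹ * g⁻¹ = (g * a * g⁻¹)⁻¹ by simp [mul_assoc]]
    exact inv_mem ha

theorem comm_of_sq {S : Type*} [Group S] (h : ∀ x : S, x * x = 1) (a b : S) : a * b = b * a := by
  have hi : ∀ x : S, x⁻¹ = x := fun x => inv_eq_of_mul_eq_one_left (h x)
  calc a * b = (a * b)⁻¹ := (hi _).symm
    _ = b * a := by rw [mul_inv_rev, hi, hi]

/-- A non-abelian `2`-group has at least four cosets of the subgroup of squares. -/
theorem four_le {T : Type*} [Group T] [Finite T] (hT : IsPGroup 2 T) (hna : ¬ IsMulCommutative T) :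
    4 ≤ (sqSub (⊤ : Subgroup T)).index := by
  classical
  set D := sqSub (⊤ : Subgroup T)
  haveI : D.Normal := sqSub_normal ⊤
  haveI := hT.isNilpotent
  have hfr : D ≤ frattini T := by
    refine le_iInf₂ fun M hM => (Subgroup.closure_le M).mpr ?_
    rintro _ ⟨x, -, rfl⟩
    have hMn : M.Normal := Subgroup.NormalizerCondition.normal_of_coatom M (Group.normalizerCondition_of_isNilpotent (G := T)) hM
    haveI : Nontrivial (T ⧸ M) := QuotientGroup.nontrivial_iff.mpr hM.1
    have h2 : 2 ∣ Nat.card (T ⧸ M) := by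
      obtain ⟨n, hn⟩ := IsPGroup.iff_card.mp (hT.to_quotient M)
      cases n with
      | zero => exact absurd hn (Finite.one_lt_card).ne'
      | succ n => rw [hn, pow_succ]; exact dvd_mul_left _ _
    haveI : Fact (Nat.Prime 2) := ⟨Nat.prime_two⟩
    obtain ⟨u, hu⟩ := exists_prime_orderOf_dvd_card' (G := T ⧸ M) 2 h2
    have htop : (Subgroup.zpowers u).comap (QuotientGroup.mk' M) = ⊤ := by
      refine hM.2 _ (lt_of_le_of_ne (fun m hm => ?_) ?_)
      · rw [Subgroup.mem_comap, show QuotientGroup.mk' M m = 1 from (QuotientGroup.eq_one_iff m).mpr hm]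
        exact one_mem _
      · intro e
        obtain ⟨t, rfl⟩ := QuotientGroup.mk'_surjective M u
        have ht : t ∈ M := by rw [e]; exact Subgroup.mem_comap.mpr (Subgroup.mem_zpowers _)
        rw [show QuotientGroup.mk' M t = 1 from (QuotientGroup.eq_one_iff t).mpr ht, orderOf_one] at hu
        omega
    have hx : QuotientGroup.mk' M x ∈ Subgroup.zpowers u := by
      rw [← Subgroup.mem_comap, htop]; trivial
    obtain ⟨i, hi⟩ := Subgroup.mem_zpowers_iff.mp hx
    rw [SetLike.mem_coe, ← QuotientGroup.eq_one_iff, QuotientGroup.mk_mul]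
    change QuotientGroup.mk' M x * QuotientGroup.mk' M x = 1
    rw [← hi, ← (Commute.refl u).mul_zpow, ← pow_two, show u ^ 2 = 1 from hu ▸ pow_orderOf_eq_one u, one_zpow]
  by_contra hlt
  push Not at hlt
  apply hna
  have hsqQ : ∀ q : T ⧸ D, q * q = 1 := by
    intro q
    obtain ⟨t, rfl⟩ := QuotientGroup.mk'_surjective D q
    rw [← map_mul]; exact (QuotientGroup.eq_one_iff _).mpr (sq_mem_sqSub trivial)
  have hne3 : D.index ≠ 3 := by
    intro h3
    obtain ⟨n, hn⟩ := IsPGroup.iff_card.mp (hT.to_quotient D)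
    rw [← Subgroup.index_eq_card, h3] at hn
    rcases n with _ | _ | n <;> simp [pow_succ] at hn <;> omega
  obtain ⟨g, hg⟩ : ∃ g : T, ∀ t : T, t ∈ Subgroup.zpowers g ⊔ D := by
    by_cases h1 : D = ⊤
    · exact ⟨1, fun t => Subgroup.mem_sup_right (h1 ▸ Subgroup.mem_top t)⟩
    obtain ⟨g, -, hg⟩ := SetLike.exists_of_lt (lt_top_iff_ne_top.mpr h1)
    refine ⟨g, fun t => ?_⟩
    have hpos : D.index ≠ 0 := D.index_ne_zero_of_finite
    have h2 : D.index = 2 := by
      have : D.index ≠ 1 := fun e => h1 (Subgroup.index_eq_one.mp e)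
      omega
    by_cases ht : t ∈ D
    · exact Subgroup.mem_sup_right ht
    · have : g⁻¹ * t ∈ D := (Subgroup.mul_mem_iff_of_index_two h2).mpr
        (iff_of_false (fun e => hg (inv_inv g ▸ D.inv_mem e)) ht)
      rw [show t = g * (g⁻¹ * t) by group]
      exact Subgroup.mul_mem_sup (Subgroup.mem_zpowers g) this
  have hcyc : Subgroup.zpowers g = ⊤ := frattini_nongenerating
    (eq_top_iff.mpr fun t _ => (sup_le_sup_left hfr _) (hg t))
  refine ⟨⟨fun a b => ?_⟩⟩
  obtain ⟨i, rfl⟩ := Subgroup.mem_zpowers_iff.mp (hcyc ▸ Subgroup.mem_top a)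
  obtain ⟨j, rfl⟩ := Subgroup.mem_zpowers_iff.mp (hcyc ▸ Subgroup.mem_top b)
  exact ((Commute.refl g).zpow_zpow i j)

theorem four_le_rel {S : Type*} [Group S] [Finite S] (hS : IsPGroup 2 S) (P : Subgroup S)
    (hna : ¬ IsMulCommutative P) : 4 * Nat.card (sqSub P) ≤ Nat.card P := by
  have h := four_le (hS.to_subgroup P) hna
  have hmap : (sqSub (⊤ : Subgroup P)).map P.subtype = sqSub P := by
    rw [sqSub, MonoidHom.map_closure]
    congr 1
    ext y
    constructor
    · rintro ⟨_, ⟨x, -, rfl⟩, rfl⟩; exact ⟨x, x.2, rfl⟩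
    · rintro ⟨x, hx, rfl⟩; exact ⟨⟨x, hx⟩ * ⟨x, hx⟩, ⟨⟨x, hx⟩, trivial, rfl⟩, rfl⟩
  rw [← hmap, Subgroup.card_map_of_injective P.subtype_injective,
    ← (sqSub (⊤ : Subgroup P)).index_mul_card]
  exact Nat.mul_le_mul_right _ h

theorem card_sup {S : Type*} [Group S] (A B : Subgroup S) [A.Normal] (h : A ⊓ B = ⊥) :
    Nat.card ↥(A ⊔ B) = Nat.card A * Nat.card B := by
  have h1 := Subgroup.relIndex_mul_relIndex ⊥ A (A ⊔ B) bot_le le_sup_left
  rw [Subgroup.relIndex_bot_left, Subgroup.relIndex_bot_left, Subgroup.relIndex_sup_left,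
    ← Subgroup.inf_relIndex_right, h, Subgroup.relIndex_bot_left] at h1
  exact h1.symm

theorem meet_center {S : Type*} [Group S] [Finite S] (hS : IsPGroup 2 S) {P : Subgroup S}
    (hZ : Nat.card ↥(Subgroup.center ↥P) = 2) {N : Subgroup S} (hN : N.Normal) (hNP : N ≤ P)
    (hne : N ≠ ⊥) : (Subgroup.center ↥P).map P.subtype ≤ N := by
  haveI : Fact (Nat.Prime 2) := ⟨Nat.prime_two⟩
  obtain ⟨⟨c, hcN, hcS⟩, hc1⟩ := Subgroup.ne_bot_iff_exists_ne_one.mp
    (CfsgLib.PStep.normal_inf_center_ne_bot hS hN hne)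
  have hc1' : c ≠ 1 := fun e => hc1 (Subtype.ext e)
  have hcZ : (⟨c, hNP hcN⟩ : P) ∈ Subgroup.center ↥P :=
    Subgroup.mem_center_iff.mpr fun q => Subtype.ext (Subgroup.mem_center_iff.mp hcS q)
  rintro _ ⟨y, hy, rfl⟩
  obtain ⟨u, v, huv, huniv⟩ := Nat.card_eq_two_iff.mp hZ
  have hall : ∀ w : Subgroup.center ↥P, w = 1 ∨ w = ⟨_, hcZ⟩ := by
    have h1 : ∀ w : Subgroup.center ↥P, w = u ∨ w = v := fun w => by
      have : w ∈ ({u, v} : Set _) := huniv ▸ Set.mem_univ w
      simpa using this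
    intro w
    have hne' : (⟨_, hcZ⟩ : Subgroup.center ↥P) ≠ 1 := fun e => hc1'
      (congrArg (fun t : Subgroup.center ↥P => ((t : P) : S)) e)
    rcases h1 w with rfl | rfl <;> rcases h1 1 with e | e <;> rcases h1 ⟨_, hcZ⟩ with f | f <;>
      first
        | exact Or.inl e.symm
        | exact Or.inr f.symm
        | exact absurd (f.trans e.symm) hne'
  rcases hall ⟨y, hy⟩ with e | e
  · rw [show y = 1 from congrArg Subtype.val e, map_one]; exact N.one_mem
  · rw [show y = ⟨c, hNP hcN⟩ from congrArg Subtype.val e]; exact hcN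

/-- Let S be a finite 2-group of sectional 2-rank at most 4, and let P and Q be normal non-abelian subgroups of S whose centres have order 2 and are different. Then P and Q commute elementwise and intersect trivially, and PQ contains its own centralizer in S. -/
theorem result {S : Type*} [Group S] [Finite S] (h2 : IsPGroup 2 S) (hr : Cfsg.SectionalPRankLE 2 4 S)
    (P Q : Subgroup S) [P.Normal] [Q.Normal] (hP : ¬ IsMulCommutative ↥P) (hQ : ¬ IsMulCommutative ↥Q)
    (hZP : Nat.card ↥(Subgroup.center ↥P) = 2) (hZQ : Nat.card ↥(Subgroup.center ↥Q) = 2)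
    (hne : (Subgroup.center ↥P).map P.subtype ≠ (Subgroup.center ↥Q).map Q.subtype) :
    ⁅P, Q⁆ = ⊥ ∧ P ⊓ Q = ⊥ ∧ Subgroup.centralizer ((P ⊔ Q : Subgroup S) : Set S) ≤ P ⊔ Q := by
  
  classical
  haveI : Fact (Nat.Prime 2) := ⟨Nat.prime_two⟩
  have hd : P ⊓ Q = ⊥ := by
    by_contra h
    apply hne
    have h1 := meet_center h2 hZP (inferInstance : (P ⊓ Q).Normal) inf_le_left h
    have h3 := meet_center h2 hZQ (inferInstance : (P ⊓ Q).Normal) inf_le_right h
    have aux : ∀ (A B : Subgroup S) (hA : Nat.card ↥(Subgroup.center ↥A) = 2)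
        (hB : Nat.card ↥(Subgroup.center ↥B) = 2) (hle : (Subgroup.center ↥A).map A.subtype ≤ B)
        (hleA : (Subgroup.center ↥B).map B.subtype ≤ A),
        (Subgroup.center ↥B).map B.subtype ≤ (Subgroup.center ↥A).map A.subtype →
        (Subgroup.center ↥B).map B.subtype = (Subgroup.center ↥A).map A.subtype :=
      fun A B hA hB _ _ hle => Subgroup.eq_of_le_of_card_ge hle (by
        rw [Subgroup.card_map_of_injective A.subtype_injective,
          Subgroup.card_map_of_injective B.subtype_injective, hA, hB])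
    refine (aux P Q hZP hZQ (h1.trans inf_le_right) (h3.trans inf_le_left) ?_).symm
    -- the central involution common to both
    obtain ⟨⟨c, hc, hcS⟩, hc1⟩ := Subgroup.ne_bot_iff_exists_ne_one.mp
      (CfsgLib.PStep.normal_inf_center_ne_bot h2 (inferInstance : (P ⊓ Q).Normal) h)
    have hcP : c ∈ (Subgroup.center ↥P).map P.subtype := ⟨⟨c, hc.1⟩,
      Subgroup.mem_center_iff.mpr fun q => Subtype.ext (Subgroup.mem_center_iff.mp hcS q), rfl⟩
    have hcQ : c ∈ (Subgroup.center ↥Q).map Q.subtype := ⟨⟨c, hc.2⟩,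
      Subgroup.mem_center_iff.mpr fun q => Subtype.ext (Subgroup.mem_center_iff.mp hcS q), rfl⟩
    have hzc : Subgroup.zpowers c = (Subgroup.center ↥Q).map Q.subtype := by
      refine Subgroup.eq_of_le_of_card_ge (Subgroup.zpowers_le.mpr hcQ) ?_
      rw [Subgroup.card_map_of_injective Q.subtype_injective, hZQ, Nat.card_zpowers]
      have : orderOf c ≠ 1 := fun e => hc1 (Subtype.ext (orderOf_eq_one_iff.mp e))
      have := orderOf_pos c
      omega
    rw [← hzc]
    exact Subgroup.zpowers_le.mpr hcP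
  have hcomm : ⁅P, Q⁆ = ⊥ := le_bot_iff.mp (hd ▸ Subgroup.commutator_le_inf P Q)
  refine ⟨hcomm, hd, ?_⟩
  have hPQ : ∀ p ∈ P, ∀ q ∈ Q, p * q = q * p := fun p hp q hq =>
    commutatorElement_eq_one_iff_mul_comm.mp
      (Subgroup.mem_bot.mp (hcomm ▸ Subgroup.commutator_mem_commutator hp hq))
  set M := P ⊔ Q
  set DP := sqSub P
  set DQ := sqSub Q
  haveI hDP : DP.Normal := sqSub_normal P
  haveI hDQ : DQ.Normal := sqSub_normal Q
  have hDne : ∀ (A : Subgroup S), ¬ IsMulCommutative A → sqSub A ≠ ⊥ := by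
    intro A hA e
    refine hA ⟨⟨fun a b => comm_of_sq (fun x => Subtype.ext ?_) a b⟩⟩
    exact Subgroup.mem_bot.mp (e ▸ sq_mem_sqSub x.2)
  have hzP := meet_center h2 hZP hDP (sqSub_le P) (hDne P hP)
  have hzQ := meet_center h2 hZQ hDQ (sqSub_le Q) (hDne Q hQ)
  set D := DP ⊔ DQ
  haveI : D.Normal := Subgroup.sup_normal DP DQ
  have hCM : ∀ c ∈ Subgroup.centralizer (M : Set S), c ∈ M → c ∈ D := by
    intro c hc hcM
    obtain ⟨p, hp, q, hq, rfl⟩ := Subgroup.mem_sup_of_normal_left.mp hcM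
    have hc' : ∀ m ∈ M, m * (p * q) = p * q * m := Subgroup.mem_centralizer_iff.mp hc
    refine Subgroup.mul_mem_sup (hzP ⟨⟨p, hp⟩, Subgroup.mem_center_iff.mpr fun x => Subtype.ext ?_, rfl⟩)
      (hzQ ⟨⟨q, hq⟩, Subgroup.mem_center_iff.mpr fun x => Subtype.ext ?_, rfl⟩)
    · have h1 := hc' x (Subgroup.mem_sup_left x.2)
      rw [mul_assoc p q, ← hPQ x x.2 q hq, ← mul_assoc, ← mul_assoc] at h1
      exact mul_right_cancel h1
    · have h1 := hc' x (Subgroup.mem_sup_right x.2)
      rw [← mul_assoc, ← hPQ p hp x x.2, mul_assoc, mul_assoc p q x] at h1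
      exact mul_left_cancel h1
  by_contra hle
  obtain ⟨y, hyC, hyM⟩ := SetLike.not_le_iff_exists.mp hle
  obtain ⟨k, hk⟩ := h2 y
  obtain ⟨j, hj1, hj2⟩ : ∃ j, y ^ 2 ^ j ∉ M ∧ y ^ 2 ^ (j + 1) ∈ M := by
    by_contra hno
    push Not at hno
    have : ∀ j, y ^ 2 ^ j ∉ M := fun j => by
      induction j with
      | zero => simpa using hyM
      | succ j ih => exact hno j ih
    exact this k (by rw [hk]; exact M.one_mem)
  set x := y ^ 2 ^ j with hxd
  have hxC : x ∈ Subgroup.centralizer (M : Set S) := Subgroup.pow_mem _ hyC _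
  have hx2 : x * x ∈ D := hCM _ (mul_mem hxC hxC) (by rw [hxd, ← pow_add, ← two_mul, ← pow_succ']; exact hj2)
  set H := M ⊔ Subgroup.zpowers x
  haveI : M.Normal := Subgroup.sup_normal P Q
  have hDM : D ≤ M := sup_le_sup (sqSub_le P) (sqSub_le Q)
  have hsq : ∀ h ∈ H, h * h ∈ D := by
    intro h hh
    obtain ⟨m, hm, w, hw, rfl⟩ := Subgroup.mem_sup_of_normal_left.mp hh
    obtain ⟨i, rfl⟩ := Subgroup.mem_zpowers_iff.mp hw
    obtain ⟨p, hp, q, hq, rfl⟩ := Subgroup.mem_sup_of_normal_left.mp hm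
    have hxm : Commute x (p * q) :=
      (Subgroup.mem_centralizer_iff.mp hxC _ (Subgroup.mul_mem_sup hp hq)).symm
    rw [(hxm.zpow_left i).mul_mul_mul_comm, ← (Commute.refl x).mul_zpow,
      (show Commute q p from (hPQ p hp q hq).symm).mul_mul_mul_comm]
    exact D.mul_mem (Subgroup.mul_mem_sup (sq_mem_sqSub hp) (sq_mem_sqSub hq)) (D.zpow_mem hx2 i)
  haveI : (D.subgroupOf H).Normal := inferInstance
  have hsq' : ∀ a : ↥H ⧸ D.subgroupOf H, a * a = 1 := by
    intro a
    obtain ⟨h, rfl⟩ := QuotientGroup.mk'_surjective _ a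
    rw [← map_mul]
    exact (QuotientGroup.eq_one_iff _).mpr (Subgroup.mem_subgroupOf.mpr (hsq h h.2))
  have h16 := hr H (D.subgroupOf H) ⊤ ⟨⟨fun a b => Subtype.ext (comm_of_sq hsq' _ _)⟩⟩
    (fun a _ => by rw [pow_two]; exact hsq' a)
  rw [Subgroup.card_top, ← Subgroup.index_eq_card] at h16
  change D.relIndex H ≤ 2 ^ 4 at h16
  have e1 : Nat.card D * D.relIndex H = Nat.card H := by
    rw [← Subgroup.relIndex_bot_left D, ← Subgroup.relIndex_bot_left H]
    exact Subgroup.relIndex_mul_relIndex ⊥ D H bot_le (hDM.trans le_sup_left)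
  have e2 : Nat.card M * M.relIndex H = Nat.card H := by
    rw [← Subgroup.relIndex_bot_left M, ← Subgroup.relIndex_bot_left H]
    exact Subgroup.relIndex_mul_relIndex ⊥ M H bot_le le_sup_left
  have e3 : 2 ≤ M.relIndex H := by
    have h1 : M.relIndex H ≠ 1 := fun e =>
      hj1 (Subgroup.relIndex_eq_one.mp e (Subgroup.mem_sup_right (Subgroup.mem_zpowers x)))
    have h0 : M.relIndex H ≠ 0 := Subgroup.index_ne_zero_of_finite
    omega
  have e4 : Nat.card M = Nat.card P * Nat.card Q := card_sup P Q hd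
  have e5 : Nat.card D = Nat.card DP * Nat.card DQ :=
    card_sup DP DQ (le_bot_iff.mp (hd ▸ inf_le_inf (sqSub_le P) (sqSub_le Q)))
  have e6 : 16 * Nat.card D ≤ Nat.card M := by
    rw [e4, e5]
    exact le_of_eq_of_le (by ring) (Nat.mul_le_mul (four_le_rel h2 P hP) (four_le_rel h2 Q hQ))
  have hpos : 0 < Nat.card D := Nat.card_pos
  have e7 : Nat.card D * D.relIndex H ≤ Nat.card D * 16 := Nat.mul_le_mul_left _ h16
  have e8 : Nat.card M * 2 ≤ Nat.card M * M.relIndex H := Nat.mul_le_mul_left _ e3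
  omega


end Cfsg.Agent.S4400
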