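import Cfsg.Statements.S4401
import Cfsg.Agent.S4400
import Mathlib.Tactic

set_option autoImplicit false
open Cfsg

namespace Cfsg.Agent.S4401

/-- `a` is the only non-identity central element of `A`. -/
def CP {S : Type*} [Group S] (A : Subgroup S) (a : S) : Prop :=
  a ∈ A ∧ a ≠ 1 ∧ (∀ x ∈ A, x * a = a * x) ∧ ∀ x ∈ A, (∀ y ∈ A, x * y = y * x) → x = 1 ∨ x = a

theorem conj_mul {S : Type*} [Group S] (g x y : S) :
    g * (x * y) * g⁻¹ = (g * x * g⁻¹) * (g * y * g⁻¹) := by group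

theorem conj_conj' {S : Type*} [Group S] (g x : S) : g * (g⁻¹ * x * g) * g⁻¹ = x := by group

theorem CP.conj {S : Type*} [Group S] {A : Subgroup S} {a : S} (h : CP A a) (g : S) :
    CP (A.map (MulAut.conj g).toMonoidHom) (g * a * g⁻¹) := by
  refine ⟨⟨a, h.1, rfl⟩, fun e => h.2.1 (conj_eq_one_iff.mp e), ?_, ?_⟩
  · rintro _ ⟨x, hx, rfl⟩
    show (g * x * g⁻¹) * _ = _ * (g * x * g⁻¹)
    rw [← conj_mul, ← conj_mul, h.2.2.1 x hx]
  · rintro _ ⟨x, hx, rfl⟩ hall
    rcases h.2.2.2 x hx (fun y hy => by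
      have h0 : (g * x * g⁻¹) * (g * y * g⁻¹) = (g * y * g⁻¹) * (g * x * g⁻¹) := hall _ ⟨y, hy, rfl⟩
      rw [← conj_mul, ← conj_mul] at h0
      exact mul_left_cancel (mul_right_cancel h0)) with e | e
    · left; show g * x * g⁻¹ = 1; rw [e]; group
    · right; show g * x * g⁻¹ = _; rw [e]

theorem transfer {S : Type*} [Group S] (t c z : S) :
    t * ((t⁻¹ * c * t) * z) * t⁻¹ = c * (t * z * t⁻¹) ∧
      t * (z * (t⁻¹ * c * t)) * t⁻¹ = t * z * t⁻¹ * c ∧
      t * (t⁻¹ * c * t * z * (t⁻¹ * c * t)⁻¹) * t⁻¹ = c * (t * z * t⁻¹) * c⁻¹ :=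
  ⟨by group, by group, by group⟩

theorem pair_facts {S : Type*} [Group S] [Finite S] (h2 : IsPGroup 2 S)
    (hr : Cfsg.SectionalPRankLE 2 4 S) (U A B : Subgroup S) (hA : A ≤ U) (hB : B ≤ U)
    (hAn : ∀ u ∈ U, ∀ x ∈ A, u * x * u⁻¹ ∈ A) (hBn : ∀ u ∈ U, ∀ x ∈ B, u * x * u⁻¹ ∈ B)
    (hAna : ∃ x ∈ A, ∃ y ∈ A, x * y ≠ y * x) (hBna : ∃ x ∈ B, ∃ y ∈ B, x * y ≠ y * x)
    {a b : S} (ha : CP A a) (hb : CP B b) (hab : a ≠ b) :
    (∀ x ∈ A, ∀ y ∈ B, x * y = y * x) ∧ A ⊓ B = ⊥ ∧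
      ∀ c ∈ U, (∀ x ∈ A, x * c = c * x) → (∀ y ∈ B, y * c = c * y) →
        c = 1 ∨ c = a ∨ c = b ∨ c = a * b := by
  classical
  have hrU : Cfsg.SectionalPRankLE 2 4 U := by
    intro H N hN E hE hexp
    let e : H ≃* H.map U.subtype := Subgroup.equivMapOfInjective H U.subtype U.subtype_injective
    let q : H.map U.subtype →* H ⧸ N := (QuotientGroup.mk' N).comp e.symm.toMonoidHom
    have hq : Function.Surjective q := (QuotientGroup.mk'_surjective N).comp e.symm.surjective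
    let i : H.map U.subtype ⧸ q.ker ≃* H ⧸ N := QuotientGroup.quotientKerEquivOfSurjective q hq
    have h := hr (H.map U.subtype) q.ker (E.map i.symm.toMonoidHom) inferInstance (by
      rintro _ ⟨x, hx, rfl⟩; rw [← map_pow, hexp x hx, map_one])
    rwa [Subgroup.card_map_of_injective i.symm.injective] at h
  haveI nA : (A.subgroupOf U).Normal := ⟨fun x hx u => hAn u u.2 x hx⟩
  haveI nB : (B.subgroupOf U).Normal := ⟨fun x hx u => hBn u u.2 x hx⟩
  have hna : ∀ C : Subgroup S, C ≤ U → (∃ x ∈ C, ∃ y ∈ C, x * y ≠ y * x) →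
      ¬ IsMulCommutative (C.subgroupOf U) := by
    rintro C hC ⟨x, hx, y, hy, hxy⟩ hc
    exact hxy (congrArg (fun t : C.subgroupOf U => ((t : U) : S))
      (hc.is_comm.comm ⟨⟨x, hC hx⟩, hx⟩ ⟨⟨y, hC hy⟩, hy⟩))
  have hcen : ∀ (C : Subgroup S) (hC : C ≤ U) (c : S), CP C c →
      Nat.card ↥(Subgroup.center ↥(C.subgroupOf U)) = 2 ∧
      ∀ g : U, g ∈ (Subgroup.center ↥(C.subgroupOf U)).map (C.subgroupOf U).subtype ↔
        ((g : S) = 1 ∨ (g : S) = c) := by
    intro C hC c hc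
    have hm : ∀ t : C.subgroupOf U, t ∈ Subgroup.center _ ↔ ((t : U) : S) = 1 ∨ ((t : U) : S) = c := by
      intro t
      rw [Subgroup.mem_center_iff]
      constructor
      · intro h
        refine hc.2.2.2 _ t.2 fun y hy => ?_
        exact (congrArg (fun s : C.subgroupOf U => ((s : U) : S)) (h ⟨⟨y, hC hy⟩, hy⟩)).symm
      · intro h y
        refine Subtype.ext (Subtype.ext ?_)
        show ((y : U) : S) * ((t : U) : S) = ((t : U) : S) * ((y : U) : S)
        rcases h with h | h <;> rw [h]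
        · simp
        · exact hc.2.2.1 _ y.2
    refine ⟨Nat.card_eq_two_iff.mpr ⟨1, ⟨⟨⟨c, hC hc.1⟩, hc.1⟩, (hm _).mpr (Or.inr rfl)⟩, ?_, ?_⟩, ?_⟩
    · exact fun e => hc.2.1
        (congrArg (fun s : Subgroup.center ↥(C.subgroupOf U) => (((s : C.subgroupOf U) : U) : S)) e).symm
    · rw [Set.eq_univ_iff_forall]
      intro t
      rcases (hm t.1).mp t.2 with h | h
      · exact Or.inl (Subtype.ext (Subtype.ext (Subtype.ext h)))
      · exact Or.inr (Subtype.ext (Subtype.ext (Subtype.ext h)))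
    · intro g
      constructor
      · rintro ⟨t, ht, rfl⟩; exact (hm t).mp ht
      · intro h
        have hgC : (g : S) ∈ C := by rcases h with h | h <;> rw [h]; exacts [C.one_mem, hc.1]
        exact ⟨⟨g, hgC⟩, (hm _).mpr h, rfl⟩
  have hne : (Subgroup.center ↥(A.subgroupOf U)).map (A.subgroupOf U).subtype ≠
      (Subgroup.center ↥(B.subgroupOf U)).map (B.subgroupOf U).subtype := by
    intro e
    have h1 := ((hcen A hA a ha).2 ⟨a, hA ha.1⟩).mpr (Or.inr rfl)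
    rw [e] at h1
    exact (((hcen B hB b hb).2 _).mp h1).elim ha.2.1 hab
  obtain ⟨hc, hd, hC⟩ := Cfsg.Agent.S4400.result (h2.to_subgroup U) hrU (A.subgroupOf U)
    (B.subgroupOf U) (hna A hA hAna) (hna B hB hBna) (hcen A hA a ha).1 (hcen B hB b hb).1 hne
  have hcomm : ∀ x ∈ A, ∀ y ∈ B, x * y = y * x := by
    intro x hx y hy
    have h0 : (⟨x, hA hx⟩ : U) * ⟨y, hB hy⟩ = ⟨y, hB hy⟩ * ⟨x, hA hx⟩ := by
      refine commutatorElement_eq_one_iff_mul_comm.mp (Subgroup.mem_bot.mp ?_)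
      rw [← hc]
      exact Subgroup.commutator_mem_commutator hx hy
    exact congrArg Subtype.val h0
  refine ⟨hcomm, eq_bot_iff.mpr fun x hx => ?_, fun c hcU h1 h3 => ?_⟩
  · have : (⟨x, hA hx.1⟩ : U) ∈ A.subgroupOf U ⊓ B.subgroupOf U := ⟨hx.1, hx.2⟩
    rw [hd, Subgroup.mem_bot] at this
    exact Subgroup.mem_bot.mpr (congrArg Subtype.val this)
  · have hmem : (⟨c, hcU⟩ : U) ∈ A.subgroupOf U ⊔ B.subgroupOf U := hC (by
      rw [Subgroup.mem_centralizer_iff]
      intro g hg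
      obtain ⟨p, hp, q, hq, rfl⟩ := Subgroup.mem_sup_of_normal_left.mp hg
      exact Subtype.ext ((Commute.mul_left (h1 p hp) (h3 q hq))))
    obtain ⟨⟨p, hpU⟩, hp, ⟨q, hqU⟩, hq, hpq⟩ := Subgroup.mem_sup_of_normal_left.mp hmem
    have hpq' : p * q = c := congrArg Subtype.val hpq
    change p ∈ A at hp
    change q ∈ B at hq
    have hp' : p = 1 ∨ p = a := ha.2.2.2 p hp fun y hy => by
      have h := h1 y hy
      rw [← hpq', mul_assoc p q, ← hcomm y hy q hq, ← mul_assoc, ← mul_assoc] at h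
      exact (mul_right_cancel h).symm
    have hq' : q = 1 ∨ q = b := hb.2.2.2 q hq fun y hy => by
      have h := h3 y hy
      rw [← hpq', ← mul_assoc, ← hcomm p hp y hy, mul_assoc, mul_assoc p q y] at h
      exact (mul_left_cancel h).symm
    rcases hp' with rfl | rfl <;> rcases hq' with rfl | rfl <;> simp [← hpq']

theorem rank_two {S : Type*} [Group S] [Finite S] (hr : Cfsg.SectionalPRankLE 2 4 S) (P : Subgroup S)
    (g : S) (hcomm : ∀ x ∈ P, ∀ y ∈ P, x * (g * y * g⁻¹) = g * y * g⁻¹ * x)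
    (hd : ∀ x ∈ P, ∀ y ∈ P, x = g * y * g⁻¹ → x = 1) : Cfsg.SectionalPRankLE 2 2 P := by
  intro H N hN E hE hexp
  let f : H × H →* S := MonoidHom.mk' (fun t => ((t.1 : P) : S) * (g * ((t.2 : P) : S) * g⁻¹))
    (fun t u => by
      show ((t.1 : P) : S) * ((u.1 : P) : S) * (g * (((t.2 : P) : S) * ((u.2 : P) : S)) * g⁻¹) = _
      rw [conj_mul]
      exact Commute.mul_mul_mul_comm (hcomm _ (u.1 : P).2 _ (t.2 : P).2) _ _)
  have hf : Function.Injective f := by
    rw [injective_iff_map_eq_one]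
    rintro ⟨x, y⟩ h
    change ((x : P) : S) * (g * ((y : P) : S) * g⁻¹) = 1 at h
    have hx1 : ((x : P) : S) = 1 := hd _ (x : P).2 _ (P.inv_mem (y : P).2) (by
      rw [eq_inv_of_mul_eq_one_left h]; simp [mul_assoc])
    rw [hx1, one_mul] at h
    exact Prod.ext (Subtype.ext (Subtype.ext hx1)) (Subtype.ext (Subtype.ext (conj_eq_one_iff.mp h)))
  let q : f.range →* (H ⧸ N) × (H ⧸ N) :=
    ((QuotientGroup.mk' N).prodMap (QuotientGroup.mk' N)).comp (MonoidHom.ofInjective hf).symm.toMonoidHom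
  have hq : Function.Surjective q :=
    (Function.Surjective.prodMap (QuotientGroup.mk'_surjective N) (QuotientGroup.mk'_surjective N)).comp
      (MonoidHom.ofInjective hf).symm.surjective
  let i : f.range ⧸ q.ker ≃* (H ⧸ N) × (H ⧸ N) := QuotientGroup.quotientKerEquivOfSurjective q hq
  have h := hr f.range q.ker ((E.prod E).map i.symm.toMonoidHom) (by
      refine ⟨⟨fun a b => Subtype.ext ?_⟩⟩
      obtain ⟨_, u, hu, rfl⟩ := a
      obtain ⟨_, v, hv, rfl⟩ := b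
      show i.symm.toMonoidHom u * i.symm.toMonoidHom v = i.symm.toMonoidHom v * i.symm.toMonoidHom u
      rw [← map_mul, ← map_mul, show u * v = v * u from Prod.ext
        (congrArg Subtype.val (hE.is_comm.comm ⟨_, hu.1⟩ ⟨_, hv.1⟩))
        (congrArg Subtype.val (hE.is_comm.comm ⟨_, hu.2⟩ ⟨_, hv.2⟩))])
    (by
      rintro _ ⟨x, hx, rfl⟩
      rw [← map_pow, show x ^ 2 = 1 from Prod.ext (hexp _ hx.1) (hexp _ hx.2), map_one])
  rw [Subgroup.card_map_of_injective i.symm.injective, Nat.card_congr (E.prodEquiv E).toEquiv,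
    Nat.card_prod] at h
  by_contra hlt
  push Not at hlt
  have := Nat.mul_le_mul hlt hlt
  norm_num at h this
  omega

/-- Let S be a finite 2-group of sectional 2-rank at most 4 and P a proper non-abelian subgroup whose centre has order 2. Let S₀ be the centralizer in S of Z(P) and suppose P is normal in S₀. Then either S₀ = S, or P has sectional 2-rank at most 2 and S₀ has index 2 in S. -/
theorem result {S : Type*} [Group S] [Finite S] (h2 : IsPGroup 2 S) (hr : Cfsg.SectionalPRankLE 2 4 S)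
    (P : Subgroup S) (hPlt : P ≠ ⊤) (hP : ¬ IsMulCommutative ↥P) (hZP : Nat.card ↥(Subgroup.center ↥P) = 2)
    (S₀ : Subgroup S) (hS₀ : S₀ = Subgroup.centralizer (((Subgroup.center ↥P).map P.subtype : Subgroup S) : Set S))
    (hPn : ∀ s ∈ S₀, ∀ x ∈ P, s * x * s⁻¹ ∈ P) :
    S₀ = ⊤ ∨ (Cfsg.SectionalPRankLE 2 2 ↥P ∧ S₀.index = 2) := by
  
  classical
  haveI : Fact (Nat.Prime 2) := ⟨Nat.prime_two⟩
  by_cases htop : S₀ = ⊤
  · exact Or.inl htop
  right
  obtain ⟨z, hz⟩ : ∃ z, CP P z := by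
    obtain ⟨u, v, huv, huniv⟩ := Nat.card_eq_two_iff.mp hZP
    obtain ⟨⟨w, hw⟩, hw1⟩ : ∃ w : Subgroup.center ↥P, w ≠ 1 := by
      by_cases h : u = 1
      · exact ⟨v, fun e => huv (h.trans e.symm)⟩
      · exact ⟨u, h⟩
    refine ⟨(w : P), w.2, fun e => hw1 (Subtype.ext (Subtype.ext e)),
      fun x hx => congrArg Subtype.val (Subgroup.mem_center_iff.mp hw ⟨x, hx⟩), fun x hx h => ?_⟩
    have hxc : (⟨x, hx⟩ : P) ∈ Subgroup.center ↥P :=
      Subgroup.mem_center_iff.mpr fun y => Subtype.ext (h y y.2).symm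
    by_contra hcon
    rw [not_or] at hcon
    obtain ⟨a1, a2, hne12, huniv'⟩ := Nat.card_eq_two_iff.mp hZP
    have h1 : ∀ t : Subgroup.center ↥P, t = a1 ∨ t = a2 := fun t => by
      have : t ∈ ({a1, a2} : Set _) := huniv' ▸ Set.mem_univ t
      simpa using this
    have e1 : (⟨_, hxc⟩ : Subgroup.center ↥P) ≠ 1 := fun e =>
      hcon.1 (congrArg (fun t : Subgroup.center ↥P => ((t : P) : S)) e)
    have e2 : (⟨_, hxc⟩ : Subgroup.center ↥P) ≠ ⟨w, hw⟩ := fun e =>
      hcon.2 (congrArg (fun t : Subgroup.center ↥P => ((t : P) : S)) e)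
    rcases h1 ⟨_, hxc⟩ with p | p <;> rcases h1 ⟨w, hw⟩ with q | q <;> rcases h1 1 with r | r <;>
      first
        | exact e2 (p.trans q.symm)
        | exact e1 (p.trans r.symm)
        | exact hw1 (q.trans r.symm)
  have hPna : ∃ x ∈ P, ∃ y ∈ P, x * y ≠ y * x := by
    by_contra h
    push Not at h
    exact hP ⟨⟨fun a b => Subtype.ext (h a a.2 b b.2)⟩⟩
  have hzS : ∀ s, s ∈ S₀ ↔ s * z = z * s := by
    intro s
    rw [hS₀, Subgroup.mem_centralizer_iff]
    constructor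
    · intro h
      refine (h z ⟨⟨z, hz.1⟩, Subgroup.mem_center_iff.mpr fun y => Subtype.ext (hz.2.2.1 y y.2), rfl⟩).symm
    · rintro h _ ⟨t, ht, rfl⟩
      rcases hz.2.2.2 (t : S) t.2 (fun y hy =>
        (congrArg Subtype.val (Subgroup.mem_center_iff.mp ht ⟨y, hy⟩)).symm) with e | e
      · show (t : S) * s = s * (t : S); rw [e]; simp
      · show (t : S) * s = s * (t : S); rw [e]; exact h.symm
  have hPS : P ≤ S₀ := fun x hx => (hzS x).mpr (hz.2.2.1 x hx)
  set N1 := Subgroup.normalizer (S₀ : Set S)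
  have hnorm : ∀ g ∈ N1, ∀ x ∈ S₀, g * x * g⁻¹ ∈ S₀ := fun g hg x hx =>
    (Subgroup.mem_normalizer_iff.mp hg x).mp hx
  let Pc : S → Subgroup S := fun g => P.map (MulAut.conj g).toMonoidHom
  have hPc : ∀ g ∈ N1, Pc g ≤ S₀ := by
    rintro g hg _ ⟨x, hx, rfl⟩
    exact hnorm g hg x (hPS hx)
  have hPcn : ∀ g ∈ N1, ∀ u ∈ S₀, ∀ x ∈ Pc g, u * x * u⁻¹ ∈ Pc g := by
    rintro g hg u hu _ ⟨x, hx, rfl⟩
    refine ⟨(g⁻¹ * u * g) * x * (g⁻¹ * u * g)⁻¹, hPn _ ?_ x hx, ?_⟩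
    · simpa using hnorm g⁻¹ (N1.inv_mem hg) u hu
    · show g * ((g⁻¹ * u * g) * x * (g⁻¹ * u * g)⁻¹) * g⁻¹ = u * (g * x * g⁻¹) * u⁻¹
      group
  have hPcna : ∀ g : S, ∃ x ∈ Pc g, ∃ y ∈ Pc g, x * y ≠ y * x := by
    intro g
    obtain ⟨x, hx, y, hy, hxy⟩ := hPna
    refine ⟨_, ⟨x, hx, rfl⟩, _, ⟨y, hy, rfl⟩, fun e => hxy ?_⟩
    exact (MulAut.conj g).injective (by
      change g * x * g⁻¹ * (g * y * g⁻¹) = g * y * g⁻¹ * (g * x * g⁻¹) at e
      simpa [map_mul] using e)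
  obtain ⟨g, hgN, hgS⟩ := SetLike.exists_of_lt
    (Group.normalizerCondition_of_isNilpotent (h := h2.isNilpotent) S₀ (lt_top_iff_ne_top.mpr htop))
  set w := g * z * g⁻¹ with hwd
  have hw : CP (Pc g) w := hz.conj g
  have hzw : z ≠ w := fun e => hgS ((hzS g).mpr (mul_inv_eq_iff_eq_mul.mp e.symm))
  obtain ⟨hcPQ, hdPQ, hCPQ⟩ := pair_facts h2 hr S₀ P (Pc g) hPS (hPc g hgN) hPn (hPcn g hgN)
    hPna (hPcna g) hz hw hzw
  refine ⟨rank_two hr P g (fun x hx y hy => hcPQ x hx _ ⟨y, hy, rfl⟩) (fun x hx y hy e => ?_), ?_⟩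
  · have : x ∈ P ⊓ Pc g := ⟨hx, e ▸ ⟨y, hy, rfl⟩⟩
    rwa [hdPQ, Subgroup.mem_bot] at this
  -- the normalizer of `S₀` moves `z` only to `w`
  have horb : ∀ h ∈ N1, h * z * h⁻¹ = z ∨ h * z * h⁻¹ = w := by
    intro h hh
    by_contra hcon
    rw [not_or] at hcon
    obtain ⟨h1, -, -⟩ := pair_facts h2 hr S₀ P (Pc h) hPS (hPc h hh) hPn (hPcn h hh) hPna (hPcna h)
      hz (hz.conj h) (Ne.symm hcon.1)
    obtain ⟨h3, -, -⟩ := pair_facts h2 hr S₀ (Pc g) (Pc h) (hPc g hgN) (hPc h hh) (hPcn g hgN)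
      (hPcn h hh) (hPcna g) (hPcna h) hw (hz.conj h) (Ne.symm hcon.2)
    obtain ⟨x, hx, y, hy, hxy⟩ := hPcna h
    apply hxy
    have hzw' : ∀ t ∈ Pc h, t = 1 ∨ t = z ∨ t = w ∨ t = z * w := fun t ht =>
      hCPQ t (hPc h hh ht) (fun p hp => h1 p hp t ht) (fun q hq => h3 q hq t ht)
    have hc : Commute z w := hcPQ z hz.1 w hw.1
    rcases hzw' x hx with e | e | e | e <;> rcases hzw' y hy with f | f | f | f <;> rw [e, f] <;>
      first
        | simp
        | exact hc.eq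
        | exact hc.symm.eq
        | exact (Commute.refl _).eq
        | exact ((Commute.refl z).mul_right hc).eq
        | exact ((Commute.refl z).mul_right hc).symm.eq
        | exact (hc.symm.mul_right (Commute.refl w)).eq
        | exact (hc.symm.mul_right (Commute.refl w)).symm.eq
  have hgw : g * w * g⁻¹ = z := by
    rcases horb (g * g) (N1.mul_mem hgN hgN) with h | h
    · rw [← h, hwd]; group
    · exfalso; apply hzw
      rw [hwd] at h ⊢
      calc z = g⁻¹ * (g * z * g⁻¹) * g := by group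
        _ = g⁻¹ * (g * g * z * (g * g)⁻¹) * g := by rw [h]
        _ = g * z * g⁻¹ := by group
  have hidx : ∀ h ∈ N1, h ∉ S₀ → g⁻¹ * h ∈ S₀ := by
    intro h hh hhS
    rw [hzS]
    have e1 : h * z * h⁻¹ = w := (horb h hh).resolve_left
      fun e => hhS ((hzS h).mpr (mul_inv_eq_iff_eq_mul.mp e))
    refine mul_inv_eq_iff_eq_mul.mp ?_
    rw [show g⁻¹ * h * z * (g⁻¹ * h)⁻¹ = g⁻¹ * (h * z * h⁻¹) * g by group, e1, hwd]
    group
  have hrel : S₀.relIndex N1 = 2 := by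
    rw [Subgroup.relIndex, Subgroup.index_eq_two_iff']
    refine ⟨⟨g⁻¹, N1.inv_mem hgN⟩, fun b => ?_⟩
    by_cases hb : (b : S) ∈ S₀
    · refine Or.inr ⟨Subgroup.mem_subgroupOf.mpr hb, fun hc => hgS ?_⟩
      have := S₀.mul_mem hc (S₀.inv_mem hb)
      simpa using S₀.inv_mem this
    · exact Or.inl ⟨Subgroup.mem_subgroupOf.mpr (hidx b b.2 hb), fun hc => hb (Subgroup.mem_subgroupOf.mp hc)⟩
  suffices hN : N1 = ⊤ by rw [← hrel, hN, Subgroup.relIndex_top_right]
  by_contra hN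
  obtain ⟨t, ht, htN⟩ := SetLike.exists_of_lt
    (Group.normalizerCondition_of_isNilpotent (h := h2.isNilpotent) N1 (lt_top_iff_ne_top.mpr hN))
  have htN1 : ∀ h, h ∈ N1 ↔ t * h * t⁻¹ ∈ N1 := Subgroup.mem_normalizer_iff.mp ht
  have hS0N : S₀ ≤ N1 := Subgroup.le_normalizer
  set u := t * z * t⁻¹ with hud
  have huN : u ∈ N1 := (htN1 z).mp (hS0N (hPS hz.1))
  have hu0 : u ≠ 1 := fun e => hz.2.1 (conj_eq_one_iff.mp e)
  -- `C_{N1}(u)` has index two
  have hcu : ∀ a ∈ N1, ∀ b ∈ N1, a * u ≠ u * a → b * u ≠ u * b → a * b * u = u * (a * b) := by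
    intro a ha b hb hau hbu
    have key : ∀ c ∈ N1, c * u ≠ u * c → t⁻¹ * c * t ∈ N1 ∧ t⁻¹ * c * t ∉ S₀ := by
      intro c hc hcu'
      refine ⟨(htN1 _).mpr (by rwa [conj_conj' t c]), fun hcS => hcu' ?_⟩
      have e := congrArg (fun r => t * r * t⁻¹) ((hzS _).mp hcS)
      simp only [(transfer t c z).1, (transfer t c z).2.1] at e
      exact e
    obtain ⟨ha1, ha2⟩ := key a ha hau
    obtain ⟨hb1, hb2⟩ := key b hb hbu
    have hS : (t⁻¹ * a * t) * (t⁻¹ * b * t) ∈ S₀ := by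
      have h1 := Subgroup.mul_mem_iff_of_index_two (H := S₀.subgroupOf N1) hrel
        (a := ⟨_, ha1⟩) (b := ⟨_, hb1⟩)
      exact h1.mpr (iff_of_false ha2 hb2)
    rw [show t⁻¹ * a * t * (t⁻¹ * b * t) = t⁻¹ * (a * b) * t by group] at hS
    have e := congrArg (fun r => t * r * t⁻¹) ((hzS _).mp hS)
    simp only [(transfer t (a * b) z).1, (transfer t (a * b) z).2.1] at e
    exact e
  by_cases huS : u ∈ S₀
  · -- `u` is then centralized by `P` and by its conjugate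
    have hzwc : z * w = w * z := hcPQ z hz.1 w hw.1
    have hall : ∀ (A : Subgroup S) (a : S), CP A a → A ≤ S₀ → (∀ v ∈ S₀, ∀ x ∈ A, v * x * v⁻¹ ∈ A) →
        z * w ∉ A → ∀ x ∈ A, x * u = u * x := by
      intro A a hA hAS hAn hzwA x hx
      by_contra hne
      -- the commutator of `x` and `u` is then `z * w`
      have hu2 : t * w * t⁻¹ = x * u * x⁻¹ := by
        have hxN : t⁻¹ * x * t ∈ N1 := (htN1 _).mpr (by rw [conj_conj']; exact hS0N (hAS hx))
        rcases horb _ hxN with e | e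
        · exfalso; apply hne
          have e' := congrArg (fun r => t * r * t⁻¹) e
          simp only [(transfer t x z).2.2, ← hud] at e'
          exact mul_inv_eq_iff_eq_mul.mp e'
        · have e' := congrArg (fun r => t * r * t⁻¹) e
          simp only [(transfer t x z).2.2, ← hud] at e'
          exact e'.symm
      have hc0 : t * (z * w) * t⁻¹ = z * w := by
        -- `z * w` is the only non-identity central element of `N1`
        have hcent : ∀ r ∈ N1, r * (z * w) = z * w * r := by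
          intro r hr'
          refine mul_inv_eq_iff_eq_mul.mp ?_
          rw [conj_mul]
          by_cases hrS : r ∈ S₀
          · rw [mul_inv_eq_iff_eq_mul.mpr ((hzS r).mp hrS)]
            have : r * w * r⁻¹ = w := by
              have h1 : g⁻¹ * r * g ∈ S₀ := by simpa using hnorm g⁻¹ (N1.inv_mem hgN) r hrS
              rw [show r * w * r⁻¹ = g * ((g⁻¹ * r * g) * z * (g⁻¹ * r * g)⁻¹) * g⁻¹ by rw [hwd]; group,
                mul_inv_eq_iff_eq_mul.mpr ((hzS _).mp h1)]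
            rw [this]
          · have h1 : r * z * r⁻¹ = w := (horb r hr').resolve_left
              fun e => hrS ((hzS r).mpr (mul_inv_eq_iff_eq_mul.mp e))
            have h3 : r * w * r⁻¹ = z := by
              have h4 := hidx r hr' hrS
              have h5 : (g⁻¹ * r) * w * (g⁻¹ * r)⁻¹ = w := by
                have h6 : g⁻¹ * (g⁻¹ * r) * g ∈ S₀ := by simpa using hnorm g⁻¹ (N1.inv_mem hgN) _ h4
                rw [show (g⁻¹ * r) * w * (g⁻¹ * r)⁻¹ =
                    g * ((g⁻¹ * (g⁻¹ * r) * g) * z * (g⁻¹ * (g⁻¹ * r) * g)⁻¹) * g⁻¹ by rw [hwd]; group,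
                  mul_inv_eq_iff_eq_mul.mpr ((hzS _).mp h6)]
              rw [show r * w * r⁻¹ = g * ((g⁻¹ * r) * w * (g⁻¹ * r)⁻¹) * g⁻¹ by group, h5, hgw]
            rw [h1, h3, hzwc]
        set c := t * (z * w) * t⁻¹
        have hcc : ∀ r ∈ N1, r * c = c * r := by
          intro r hr'
          have h1 := congrArg (fun q => t * q * t⁻¹)
            (hcent (t⁻¹ * r * t) ((htN1 _).mpr (by rwa [conj_conj'])))
          simp only [(transfer t r (z * w)).1, (transfer t r (z * w)).2.1] at h1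
          exact h1
        have hcS : c ∈ S₀ := (hzS c).mpr (hcc z (hS0N (hPS hz.1))).symm
        rcases hCPQ c hcS (fun p hp => hcc p (hS0N (hPS hp)))
          (fun q hq => hcc q (hS0N (hPc g hgN hq))) with e | e | e | e
        · exfalso
          have h1 : z * w = 1 := conj_eq_one_iff.mp e
          exact hz.2.1 (by
            have : z ∈ P ⊓ Pc g := ⟨hz.1, by rw [eq_inv_of_mul_eq_one_left h1]; exact (Pc g).inv_mem hw.1⟩
            rwa [hdPQ, Subgroup.mem_bot] at this)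
        · exfalso
          exact hgS ((hzS g).mpr (e ▸ hcc g hgN))
        · exfalso
          refine hzw ?_
          have h1 := mul_inv_eq_iff_eq_mul.mpr (e ▸ hcc g hgN)
          rw [hgw] at h1
          exact h1
        · exact e
      apply hzwA
      have h1 : u * (x * u * x⁻¹) = z * w := by rw [← hu2, hud, ← conj_mul, hc0]
      have h2' : u * (x * u * x⁻¹) ∈ A := by
        have hu2' : u * u = 1 := by
          have hzz : z * z = 1 := by
            rcases hz.2.2.2 (z * z) (P.mul_mem hz.1 hz.1) (fun y hy =>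
              ((show Commute y z from hz.2.2.1 y hy).mul_right (hz.2.2.1 y hy)).symm.eq) with e | e
            · exact e
            · exact absurd (mul_eq_left.mp e) hz.2.1
          rw [hud, ← conj_mul, hzz]; group
        rw [show u * (x * u * x⁻¹) = (u * x * u⁻¹) * (u * u) * x⁻¹ by group, hu2', mul_one]
        exact A.mul_mem (hAn u huS x hx) (A.inv_mem hx)
      exact h1 ▸ h2'
    have hzwP : z * w ∉ P := fun h => hzw (absurd (show w ∈ P ⊓ Pc g from
      ⟨by simpa using P.mul_mem (P.inv_mem hz.1) h, hw.1⟩) (by rw [hdPQ, Subgroup.mem_bot]; exact hw.2.1))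
    have hzwQ : z * w ∉ Pc g := fun h => hz.2.1 (by
      have : z ∈ P ⊓ Pc g := ⟨hz.1, by simpa using (Pc g).mul_mem h ((Pc g).inv_mem hw.1)⟩
      rwa [hdPQ, Subgroup.mem_bot] at this)
    have h1 := hall P z hz hPS hPn hzwP
    have h3 := hall (Pc g) w hw (hPc g hgN) (hPcn g hgN) hzwQ
    rcases hCPQ u huS h1 h3 with e | e | e | e
    · exact hu0 e
    · exact htN (hS0N ((hzS t).mpr (mul_inv_eq_iff_eq_mul.mp (hud ▸ e))))
    · refine htN ?_
      have h4 : g⁻¹ * t ∈ S₀ := (hzS _).mpr (mul_inv_eq_iff_eq_mul.mp (by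
        rw [show g⁻¹ * t * z * (g⁻¹ * t)⁻¹ = g⁻¹ * (t * z * t⁻¹) * g by group, ← hud, e, hwd]; group))
      simpa using N1.mul_mem hgN (hS0N h4)
    · -- `u = z * w` is central in `N1`, but `z` is not
      apply hgS
      have h5 : t⁻¹ * (t * g * t⁻¹) * t ∉ S₀ := by simpa [mul_assoc] using hgS
      by_contra
      have hgu : (t * g * t⁻¹) * u = u * (t * g * t⁻¹) := by
        have hrN := (htN1 g).mp hgN
        rw [e]
        refine mul_inv_eq_iff_eq_mul.mp ?_
        rw [conj_mul]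
        rcases horb _ hrN with k | k
        · have : (t * g * t⁻¹) ∈ S₀ := (hzS _).mpr (mul_inv_eq_iff_eq_mul.mp k)
          have h6 : g⁻¹ * (t * g * t⁻¹) * g ∈ S₀ := by simpa using hnorm g⁻¹ (N1.inv_mem hgN) _ this
          rw [k, hwd, show t * g * t⁻¹ * (g * z * g⁻¹) * (t * g * t⁻¹)⁻¹ =
              g * ((g⁻¹ * (t * g * t⁻¹) * g) * z * (g⁻¹ * (t * g * t⁻¹) * g)⁻¹) * g⁻¹ by group,
            mul_inv_eq_iff_eq_mul.mpr ((hzS _).mp h6)]
        · have h4 : g⁻¹ * (t * g * t⁻¹) ∈ S₀ := (hzS _).mpr (mul_inv_eq_iff_eq_mul.mp (by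
            rw [show g⁻¹ * (t * g * t⁻¹) * z * (g⁻¹ * (t * g * t⁻¹))⁻¹ =
              g⁻¹ * ((t * g * t⁻¹) * z * (t * g * t⁻¹)⁻¹) * g by group, k, hwd]; group))
          have h6 : g⁻¹ * (g⁻¹ * (t * g * t⁻¹)) * g ∈ S₀ := by
            simpa using hnorm g⁻¹ (N1.inv_mem hgN) _ h4
          have h7 : (t * g * t⁻¹) * w * (t * g * t⁻¹)⁻¹ = g * w * g⁻¹ := by
            rw [show (t * g * t⁻¹) * w * (t * g * t⁻¹)⁻¹ = g * (g *
              ((g⁻¹ * (g⁻¹ * (t * g * t⁻¹)) * g) * z * (g⁻¹ * (g⁻¹ * (t * g * t⁻¹)) * g)⁻¹) * g⁻¹) * g⁻¹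
              by rw [hwd]; group, mul_inv_eq_iff_eq_mul.mpr ((hzS _).mp h6), ← hwd]
          rw [k, h7, hgw, hzwc]
      apply hgS
      rw [hzS]
      have h8 := congrArg (fun r => t⁻¹ * r * t) hgu
      simpa [hud, mul_assoc] using h8
  · -- `u` then interchanges `P` and its conjugate
    obtain ⟨x1, hx1, y1, hy1, hxy1⟩ := hPna
    have hcx : ∀ x ∈ P, x ≠ 1 → x * u ≠ u * x := by
      intro x hx hxne e
      have hux : u * x * u⁻¹ = x := mul_inv_eq_iff_eq_mul.mpr e.symm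
      have h4 := hidx u huN huS
      have h6 : u * x * u⁻¹ ∈ Pc g := by
        refine ⟨(g⁻¹ * u) * x * (g⁻¹ * u)⁻¹, hPn _ h4 x hx, ?_⟩
        show g * ((g⁻¹ * u) * x * (g⁻¹ * u)⁻¹) * g⁻¹ = _
        group
      apply hxne
      have : x ∈ P ⊓ Pc g := ⟨hx, hux ▸ h6⟩
      rwa [hdPQ, Subgroup.mem_bot] at this
    have hxn : x1 ≠ 1 := fun e => hxy1 (by simp [e])
    have hyn : y1 ≠ 1 := fun e => hxy1 (by simp [e])
    have hprod : ∀ a ∈ P, ∀ b ∈ P, a ≠ 1 → b ≠ 1 → a * b = 1 := fun a ha b hb ha1 hb1 => by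
      by_contra h
      exact hcx _ (P.mul_mem ha hb) h
        (hcu a (hS0N (hPS ha)) b (hS0N (hPS hb)) (hcx a ha ha1) (hcx b hb hb1))
    apply hxy1
    rw [hprod x1 hx1 y1 hy1 hxn hyn, hprod y1 hy1 x1 hx1 hyn hxn]


end Cfsg.Agent.S4401
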