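import Cfsg.Statements.S4405
import Cfsg.Agent.Lib.Core
import Cfsg.Agent.Lib.GroupB.MinimalAction

set_option autoImplicit false
open Cfsg

namespace Cfsg.Agent.S4405
set_option maxHeartbeats 1600000

theorem five_mod {α : Type*} [Finite α] (σ : Equiv.Perm α) (h : σ ^ 5 = 1) :
    Nat.card α ≡ Nat.card {x : α // σ x = x} [MOD 5] := by
  haveI : Fact (Nat.Prime 5) := ⟨by norm_num⟩
  have hp : IsPGroup 5 (Subgroup.zpowers σ) := by
    obtain ⟨j, -, hj⟩ := (Nat.dvd_prime_pow (show Nat.Prime 5 by norm_num)).1 (show orderOf σ ∣ 5 ^ 1 from orderOf_dvd_of_pow_eq_one (by rw [pow_one]; exact h))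
    exact IsPGroup.of_card (n := j) (by rw [Nat.card_zpowers, hj])
  have := hp.card_modEq_card_fixedPoints α
  have he : Nat.card (MulAction.fixedPoints (Subgroup.zpowers σ) α) = Nat.card {x : α // σ x = x} := by
    refine Nat.card_congr (Equiv.subtypeEquivRight fun x => ⟨fun hx => hx ⟨σ, Subgroup.mem_zpowers σ⟩, fun hx g => ?_⟩)
    obtain ⟨g, hg⟩ := g
    obtain ⟨i, rfl⟩ := Subgroup.mem_zpowers_iff.1 hg
    exact Equiv.Perm.zpow_apply_eq_self_of_apply_eq_self hx i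
  rwa [he] at this

theorem pow_two_cases {c : ℕ} {n : ℕ} (hd : c ∣ 2 ^ n) : ∃ i ≤ n, c = 2 ^ i := (Nat.dvd_prime_pow Nat.prime_two).1 hd

/-- An element of order five and an element acting on it modulo a kernel: a fixed space of size at least eight is everything. -/
theorem fix_small {Q : Type*} [Group Q] [Finite Q] (V : Subgroup Q) (hV : Nat.card V = 16)
    (hab : ∀ a ∈ V, ∀ b ∈ V, a * b = b * a) (e t : Q) (he : e ^ 5 = 1)
    (heV : ∀ v ∈ V, e * v * e⁻¹ ∈ V) (hfpf : ∀ v ∈ V, e * v * e⁻¹ = v → v = 1)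
    (hrel : (∀ v ∈ V, t * v * t⁻¹ = v → t * (e * v * e⁻¹) * t⁻¹ = e * v * e⁻¹) ∨ (∀ v ∈ V, t * v * t⁻¹ = v → t * (e * v * e⁻¹) * t⁻¹ = e⁻¹ * v * e)) :
    Nat.card ↥(V ⊓ Subgroup.centralizer ({t} : Set Q)) ≤ 4 ∨ (∀ v ∈ V, t * v * t⁻¹ = v) := by
  obtain ⟨F, hFd⟩ : ∃ F, F = V ⊓ Subgroup.centralizer ({t} : Set Q) := ⟨_, rfl⟩
  rw [← hFd]
  have hFmem : ∀ v, v ∈ F ↔ v ∈ V ∧ t * v * t⁻¹ = v := by
    intro v
    rw [hFd, Subgroup.mem_inf, Subgroup.mem_centralizer_singleton_iff, mul_inv_eq_iff_eq_mul]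
    exact and_congr_right fun _ => ⟨fun h => h.symm, fun h => h.symm⟩
  have hFV : F ≤ V := hFd ▸ inf_le_left
  obtain ⟨i, hi4, hi⟩ := pow_two_cases (n := 4) (show Nat.card F ∣ 2 ^ 4 by norm_num; rw [← hV]; exact Subgroup.card_dvd_of_le hFV)
  rcases Nat.lt_or_ge i 3 with hi3 | hi3
  · left; rw [hi]; exact le_trans (Nat.pow_le_pow_right (by norm_num) (show i ≤ 2 by omega)) le_rfl
  rcases eq_or_lt_of_le hi4 with rfl | hlt
  · right
    intro v hv
    have : F = V := Subgroup.eq_of_le_of_card_ge hFV (by rw [hV, hi]; norm_num)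
    exact ((hFmem v).1 (this.symm ▸ hv)).2
  exfalso
  have hF8 : Nat.card F = 8 := by rw [hi, show i = 3 by omega]; norm_num
  -- the conjugate of the fixed space
  obtain ⟨F', hF'd⟩ : ∃ F', F' = F.map (MulAut.conj e).toMonoidHom := ⟨_, rfl⟩
  have hF'V : F' ≤ V := by
    rw [hF'd]
    rintro _ ⟨v, hv, rfl⟩
    exact heV v (hFV hv)
  have hF'8 : Nat.card F' = 8 := by rw [hF'd, Subgroup.card_map_of_injective (MulAut.conj e).injective, hF8]
  by_cases hinv : F' = F
  · -- an invariant fixed space of order eight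
    have hst : ∀ v : Q, v ∈ F ↔ e * v * e⁻¹ ∈ F := by
      intro v
      constructor
      · intro hv; exact hinv ▸ hF'd ▸ ⟨v, hv, rfl⟩
      · intro hv
        rw [← hinv, hF'd] at hv
        obtain ⟨w, hw, hwv⟩ := hv
        exact (MulAut.conj e).injective (show (MulAut.conj e) w = (MulAut.conj e) v from hwv) ▸ hw
    let σ : Equiv.Perm {v : Q // v ∈ F} := Equiv.Perm.subtypePerm ((MulAut.conj e).toEquiv : Equiv.Perm Q) (fun v => (hst v).symm)
    have hσ : ∀ (k : ℕ) (v), ((σ ^ k) v).1 = e ^ k * v.1 * (e ^ k)⁻¹ := by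
      intro k
      induction k with
      | zero => intro v; simp
      | succ k ih =>
        intro v
        rw [pow_succ σ, Equiv.Perm.mul_apply, ih, pow_succ e]
        show e ^ k * (e * v.1 * e⁻¹) * (e ^ k)⁻¹ = _
        group
    have h5 := five_mod σ (by ext v; rw [hσ, he]; simp)
    have hone : Nat.card {x : {v : Q // v ∈ F} // σ x = x} = 1 := Nat.card_eq_one_iff_exists.2
      ⟨⟨⟨1, one_mem _⟩, Subtype.ext (show e * 1 * e⁻¹ = 1 by group)⟩,
        fun x => Subtype.ext (Subtype.ext (hfpf _ (hFV x.1.2) (congrArg Subtype.val x.2)))⟩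
    rw [hone] at h5
    have h8 : Nat.card {v : Q // v ∈ F} = 8 := hF8
    rw [h8] at h5
    exact absurd h5 (by decide)
  · -- two different fixed hyperplanes
    have hne : F ⊓ F' ≠ ⊥ := by
      intro hbot
      have h1 : Nat.card (F × F') ≤ Nat.card V := by
        refine Nat.card_le_card_of_injective (fun x => (⟨x.1.1 * x.2.1, V.mul_mem (hFV x.1.2) (hF'V x.2.2)⟩ : V)) fun a b hab' => ?_
        have h := congrArg Subtype.val hab'
        have h2 : (b.1.1)⁻¹ * a.1.1 = b.2.1 * (a.2.1)⁻¹ := by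
          calc (b.1.1)⁻¹ * a.1.1 = (b.1.1)⁻¹ * (a.1.1 * a.2.1) * (a.2.1)⁻¹ := by group
            _ = (b.1.1)⁻¹ * (b.1.1 * b.2.1) * (a.2.1)⁻¹ := by rw [show a.1.1 * a.2.1 = b.1.1 * b.2.1 from h]
            _ = _ := by group
        have h3 : (b.1.1)⁻¹ * a.1.1 ∈ F ⊓ F' := ⟨F.mul_mem (F.inv_mem b.1.2) a.1.2, h2 ▸ F'.mul_mem b.2.2 (F'.inv_mem a.2.2)⟩
        rw [hbot, Subgroup.mem_bot, inv_mul_eq_one] at h3
        have h4 : a.2.1 = b.2.1 := by
          have : a.1.1 * a.2.1 = b.1.1 * b.2.1 := h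
          rw [h3] at this
          exact mul_left_cancel this
        exact Prod.ext (Subtype.ext h3.symm) (Subtype.ext h4)
      rw [Nat.card_prod, hF8, hF'8, hV] at h1
      omega
    obtain ⟨⟨x, hx⟩, hx1⟩ := Subgroup.ne_bot_iff_exists_ne_one.1 hne
    obtain ⟨y, hy, hyx⟩ : x ∈ F.map (MulAut.conj e).toMonoidHom := hF'd ▸ hx.2
    have hyx' : e * y * e⁻¹ = x := hyx
    have hy1 : y ≠ 1 := fun hy0 => hx1 (Subtype.ext (show x = 1 by rw [← hyx', hy0, mul_one, mul_inv_cancel]))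
    have htx := ((hFmem x).1 hx.1).2
    rw [← hyx'] at htx
    rcases hrel with h | h
    · -- then the fixed space is invariant
      apply hinv
      refine Subgroup.eq_of_le_of_card_ge (fun z hz => ?_) (by rw [hF8, hF'8])
      rw [hF'd] at hz
      obtain ⟨w, hw, rfl⟩ := hz
      exact (hFmem _).2 ⟨heV w (hFV hw), h w (hFV hw) ((hFmem w).1 hw).2⟩
    · replace h := h y (hFV hy) ((hFmem y).1 hy).2
      rw [htx] at h
      have h2 : e ^ 2 * y * (e ^ 2)⁻¹ = y := by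
        calc e ^ 2 * y * (e ^ 2)⁻¹ = e * (e * y * e⁻¹) * e⁻¹ := by rw [sq]; group
          _ = e * (e⁻¹ * y * e) * e⁻¹ := by rw [h]
          _ = y := by group
      have h4 : e ^ 4 * y * (e ^ 4)⁻¹ = y := by
        calc e ^ 4 * y * (e ^ 4)⁻¹ = e ^ 2 * (e ^ 2 * y * (e ^ 2)⁻¹) * (e ^ 2)⁻¹ := by group
          _ = y := by rw [h2, h2]
      exact hy1 (hfpf y (hFV hy) (by
        calc e * y * e⁻¹ = e * (e ^ 4 * y * (e ^ 4)⁻¹) * e⁻¹ := by rw [h4]
          _ = e ^ 5 * y * (e ^ 5)⁻¹ := by group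
          _ = y := by rw [he]; group))

/-- Let G be a finite group of order 320 = 64·5 whose largest normal 2-subgroup H = O₂(G) equals the Fitting subgroup F(G) and is extraspecial of order 32 containing no elementary abelian subgroup of order 8 (so H is the central product of a quaternion group and a dihedral group of order 8). If T is an involution of G outside H whose centralizer in H contains an elementary abelian subgroup of order 4, then C_H(T) itself is elementary abelian of order 4. -/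
theorem result {G : Type*} [Group G] [Finite G]
    (hG : Nat.card G = 320) (hHF : Cfsg.pCore 2 G = Cfsg.fittingSubgroup G)
    (hex : Cfsg.IsExtraspecial 2 ↥(Cfsg.pCore 2 G)) (h32 : Nat.card ↥(Cfsg.pCore 2 G) = 32)
    (hminus : ∀ A : Subgroup G, A ≤ Cfsg.pCore 2 G → Cfsg.IsElementaryAbelian 2 A → Nat.card ↥A ≤ 4)
    (T : G) (hT : orderOf T = 2) (hTH : T ∉ Cfsg.pCore 2 G)
    (V : Subgroup G) (hV : V ≤ Cfsg.pCore 2 G ⊓ Subgroup.centralizer ({T} : Set G)) (hV4 : Nat.card ↥V = 4) (hVe : Cfsg.IsElementaryAbelian 2 V) :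
    Nat.card ↥(Cfsg.pCore 2 G ⊓ Subgroup.centralizer ({T} : Set G)) = 4 ∧
      Cfsg.IsElementaryAbelian 2 (Cfsg.pCore 2 G ⊓ Subgroup.centralizer ({T} : Set G)) := by
  
  haveI : Fact (Nat.Prime 2) := ⟨Nat.prime_two⟩
  haveI : Fact (Nat.Prime 5) := ⟨by norm_num⟩
  haveI := CfsgLib.Core.pCore_characteristic (G := G) 2
  obtain ⟨R, hRd⟩ : ∃ R, R = Cfsg.pCore 2 G := ⟨_, rfl⟩
  rw [← hRd] at hex h32 hminus hTH hV hHF ⊢
  haveI hRn : R.Normal := hRd ▸ inferInstance
  have hR2 : IsPGroup 2 R := hRd ▸ CfsgLib.Core.isPGroup_pCore (G := G) 2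
  obtain ⟨hsp, hzcard⟩ := hex
  obtain ⟨-, hΦ, hcommR⟩ := hsp
  obtain ⟨Z, hZd⟩ : ∃ Z, Z = (Subgroup.center ↥R).map R.subtype := ⟨_, rfl⟩
  haveI hZn : Z.Normal := by rw [hZd]; infer_instance
  have hZ2 : Nat.card Z = 2 := by rw [hZd, Subgroup.card_map_of_injective R.subtype_injective, hzcard]
  have hZR : Z ≤ R := hZd ▸ Subgroup.map_subtype_le _
  have hZc : ∀ z ∈ Z, ∀ g : G, g * z = z * g := by
    intro z hz g
    by_cases hz1 : z = 1
    · rw [hz1, mul_one, one_mul]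
    have hmem := hZn.conj_mem z hz g
    haveI : Finite Z := inferInstance
    obtain ⟨a, b, hab, huniv⟩ := Nat.card_eq_two_iff.1 hZ2
    have key : ∀ w ∈ Z, w = 1 ∨ w = z := by
      intro w hw
      have h1 : (⟨1, Z.one_mem⟩ : Z) ∈ ({a, b} : Set Z) := huniv.symm ▸ Set.mem_univ _
      have h2 : (⟨z, hz⟩ : Z) ∈ ({a, b} : Set Z) := huniv.symm ▸ Set.mem_univ _
      have h3 : (⟨w, hw⟩ : Z) ∈ ({a, b} : Set Z) := huniv.symm ▸ Set.mem_univ _
      rcases h1 with h1 | h1 <;> rcases h2 with h2 | h2 <;> rcases h3 with h3 | h3 <;>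
        first
          | exact Or.inl (congrArg Subtype.val (h3.trans h1.symm))
          | exact Or.inr (congrArg Subtype.val (h3.trans h2.symm))
          | exact absurd (congrArg Subtype.val (h2.trans h1.symm)) hz1
    rcases key _ hmem with h | h
    · exact absurd (conj_eq_one_iff.1 h) hz1
    · exact mul_inv_eq_iff_eq_mul.1 h
  have hcommZ : ∀ a ∈ R, ∀ b ∈ R, a * b * a⁻¹ * b⁻¹ ∈ Z := by
    intro a ha b hb
    rw [hZd]
    refine ⟨(⟨a, ha⟩ : R) * ⟨b, hb⟩ * (⟨a, ha⟩ : R)⁻¹ * (⟨b, hb⟩ : R)⁻¹, ?_, rfl⟩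
    rw [← hcommR, ← commutatorElement_def]
    exact Subgroup.commutator_mem_commutator trivial trivial
  have hZsq : ∀ z ∈ Z, z * z = 1 := by
    intro z hz
    have := orderOf_dvd_natCard (⟨z, hz⟩ : Z)
    rw [hZ2, orderOf_dvd_iff_pow_eq_one] at this
    have := congrArg Subtype.val this
    simpa [sq] using this
  obtain ⟨π, hπd⟩ : ∃ π : G →* G ⧸ Z, π = QuotientGroup.mk' Z := ⟨_, rfl⟩
  have hπ : ∀ {x : G}, π x = 1 ↔ x ∈ Z := fun {x} => by rw [hπd]; exact QuotientGroup.eq_one_iff x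
  have hV16 : Nat.card (R.map π) = 16 := by
    have h := Subgroup.card_mul_index ((Z.subgroupOf R))
    rw [Nat.card_congr (Subgroup.subgroupOfEquivOfLe hZR).toEquiv, hZ2, h32] at h
    have h2 : (Z.subgroupOf R).index = Nat.card (R.map π) := by
      rw [← Subgroup.relIndex, hπd]
      conv_lhs => rw [← QuotientGroup.ker_mk' Z]
      exact Subgroup.relIndex_ker _ _
    omega
  have hVab : ∀ a ∈ R.map π, ∀ b ∈ R.map π, a * b = b * a := by
    rintro _ ⟨a, ha, rfl⟩ _ ⟨b, hb, rfl⟩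
    have := hπ.2 (hcommZ a ha b hb)
    rw [map_mul, map_mul, map_mul, map_inv, map_inv, mul_inv_eq_one, mul_inv_eq_iff_eq_mul] at this
    exact this
  -- an element of order five
  obtain ⟨d, hd⟩ := exists_prime_orderOf_dvd_card' (G := G) 5 (by rw [hG]; norm_num)
  have hd5 : d ^ 5 = 1 := by rw [← hd, pow_orderOf_eq_one]
  have hdR : d ∉ R := by
    intro h
    have h' := orderOf_dvd_natCard (⟨d, h⟩ : R)
    rw [Subgroup.orderOf_mk, hd, h32] at h'
    norm_num at h'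
  have hfpf : ∀ v ∈ R.map π, π d * v * (π d)⁻¹ = v → v = 1 := by
    by_contra hcon
    push Not at hcon
    obtain ⟨v₀, hv₀, hfix, hv₀1⟩ := hcon
    have hst : ∀ v, v ∈ R.map π ↔ π d * v * (π d)⁻¹ ∈ R.map π := by
      haveI : (R.map π).Normal := Subgroup.Normal.map hRn π (hπd ▸ QuotientGroup.mk'_surjective _)
      intro v
      refine ⟨fun hv => Subgroup.Normal.conj_mem inferInstance v hv _, fun hv => ?_⟩
      have := Subgroup.Normal.conj_mem (inferInstance : (R.map π).Normal) _ hv (π d)⁻¹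
      simpa [mul_assoc] using this
    let σ : Equiv.Perm {v : G ⧸ Z // v ∈ R.map π} :=
      Equiv.Perm.subtypePerm ((MulAut.conj (π d)).toEquiv : Equiv.Perm (G ⧸ Z)) (fun v => (hst v).symm)
    have hσ : ∀ (k : ℕ) (v), ((σ ^ k) v).1 = π d ^ k * v.1 * (π d ^ k)⁻¹ := by
      intro k
      induction k with
      | zero => intro v; simp
      | succ k ih =>
        intro v
        rw [pow_succ σ, Equiv.Perm.mul_apply, ih, pow_succ (π d)]
        show π d ^ k * (π d * v.1 * (π d)⁻¹) * (π d ^ k)⁻¹ = _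
        group
    have h5 := five_mod σ (by ext v; rw [hσ, ← map_pow, hd5, map_one]; simp)
    -- the fixed points form a subgroup
    have hW : Nat.card {x : {v : G ⧸ Z // v ∈ R.map π} // σ x = x} = Nat.card ↥(R.map π ⊓ Subgroup.centralizer ({π d} : Set (G ⧸ Z))) := by
      refine Nat.card_congr ⟨fun x => ⟨x.1.1, x.1.2, Subgroup.mem_centralizer_singleton_iff.2 ?_⟩,
        fun x => ⟨⟨x.1, x.2.1⟩, Subtype.ext ?_⟩, fun x => rfl, fun x => rfl⟩
      · exact (mul_inv_eq_iff_eq_mul.1 (congrArg Subtype.val x.2)).symm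
      · exact mul_inv_eq_iff_eq_mul.2 (Subgroup.mem_centralizer_singleton_iff.1 x.2.2).symm
    rw [hW] at h5
    have h16 : Nat.card {v : G ⧸ Z // v ∈ R.map π} = 16 := hV16
    rw [h16] at h5
    obtain ⟨i, hi4, hi⟩ := pow_two_cases (n := 4) (show Nat.card ↥(R.map π ⊓ Subgroup.centralizer ({π d} : Set (G ⧸ Z))) ∣ 2 ^ 4 from by
      have := Subgroup.card_dvd_of_le (inf_le_left : R.map π ⊓ Subgroup.centralizer ({π d} : Set (G ⧸ Z)) ≤ R.map π)
      rw [hV16] at this
      exact this)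
    rw [hi] at h5
    have hi0 : i ≠ 0 := by
      rintro rfl
      have := Subgroup.eq_bot_of_card_eq _ hi
      have hmem : v₀ ∈ R.map π ⊓ Subgroup.centralizer ({π d} : Set (G ⧸ Z)) :=
        ⟨hv₀, Subgroup.mem_centralizer_singleton_iff.2 (mul_inv_eq_iff_eq_mul.1 hfix).symm⟩
      rw [this, Subgroup.mem_bot] at hmem
      exact hv₀1 hmem
    have hi4' : i = 4 := by
      interval_cases i
      all_goals first | rfl | (exact absurd h5 (by decide)) | (exact absurd rfl hi0)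
    subst hi4'
    have hall : R.map π ≤ Subgroup.centralizer ({π d} : Set (G ⧸ Z)) :=
      (Subgroup.eq_of_le_of_card_ge inf_le_left (by rw [hV16, hi]; norm_num) : R.map π ⊓ _ = R.map π) ▸ inf_le_right
    have hdC : d ∈ Subgroup.centralizer (R : Set G) := by
      intro r hr
      have hc : d * r * d⁻¹ * r⁻¹ ∈ Z := by
        apply hπ.1
        have h := Subgroup.mem_centralizer_singleton_iff.1 (hall ⟨r, hr, rfl⟩)
        rw [map_mul, map_mul, map_mul, map_inv, map_inv, mul_inv_eq_one, mul_inv_eq_iff_eq_mul]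
        exact h.symm
      obtain ⟨c, hcd⟩ : ∃ c, c = d * r * d⁻¹ * r⁻¹ := ⟨_, rfl⟩
      rw [← hcd] at hc
      have hk : ∀ k : ℕ, d ^ k * r * (d ^ k)⁻¹ = c ^ k * r := by
        intro k
        induction k with
        | zero => simp
        | succ k ih =>
          calc d ^ (k + 1) * r * (d ^ (k + 1))⁻¹ = d * (d ^ k * r * (d ^ k)⁻¹) * d⁻¹ := by rw [pow_succ']; group
            _ = d * (c ^ k * r) * d⁻¹ := by rw [ih]
            _ = c ^ k * (d * r * d⁻¹) := by
              rw [← mul_assoc, ((show Commute d c from hZc c hc d).pow_right k).eq]; group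
            _ = c ^ (k + 1) * r := by rw [pow_succ, hcd]; group
      have h5' := hk 5
      rw [hd5, one_mul, inv_one, mul_one] at h5'
      have hc1 : c = 1 := by
        have e : c ^ 5 = 1 := (right_eq_mul.1 h5')
        calc c = c ^ 5 * (c * c)⁻¹ * (c * c)⁻¹ := by group
          _ = 1 := by rw [e, hZsq c hc]; group
      rw [hcd, mul_inv_eq_one, mul_inv_eq_iff_eq_mul] at hc1
      exact hc1.symm
    -- d generates a normal subgroup
    obtain ⟨K, hKd⟩ : ∃ K, K = Subgroup.centralizer (R : Set G) := ⟨_, rfl⟩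
    haveI hKn : K.Normal := hKd ▸ inferInstance
    have hKR : K ⊓ R = Z := by
      rw [hZd]
      ext x
      constructor
      · rintro ⟨hx, hxR⟩
        exact ⟨⟨x, hxR⟩, Subgroup.mem_center_iff.2 fun y => Subtype.ext ((hKd ▸ hx : x ∈ Subgroup.centralizer (R : Set G)) y y.2), rfl⟩
      · rintro ⟨y, hy, rfl⟩
        exact ⟨hKd ▸ fun r hr => congrArg Subtype.val (Subgroup.mem_center_iff.1 hy ⟨r, hr⟩), y.2⟩
    have hK20 : Nat.card K ∣ 20 := by
      have h1 := Subgroup.card_mul_index (R.subgroupOf K)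
      have h2 : Nat.card (R.subgroupOf K) = 2 := by
        have : (R.subgroupOf K).map K.subtype = Z := by rw [Subgroup.subgroupOf_map_subtype, inf_comm, hKR]
        rw [← hZ2, ← this, Subgroup.card_map_of_injective K.subtype_injective]
      have h3 : (R.subgroupOf K).index ∣ 10 := by
        have := Subgroup.relIndex_dvd_index_of_normal R K
        have hidx := Subgroup.card_mul_index R
        rw [h32, hG] at hidx
        rwa [show R.index = 10 by omega] at this
      rw [← h1, h2]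
      exact Nat.mul_dvd_mul_left 2 h3
    obtain ⟨S⟩ : Nonempty (Sylow 5 K) := inferInstance
    have hsub : Subsingleton (Sylow 5 K) := by
      have h1 : Nat.card (Sylow 5 K) ∣ 20 := (Sylow.card_dvd_index (default : Sylow 5 K)).trans
        ((Subgroup.index_dvd_card _).trans hK20)
      have h2 := card_sylow_modEq_one 5 K
      have hle := Nat.le_of_dvd (by norm_num) h1
      have : Nat.card (Sylow 5 K) = 1 := by
        have hpos := Nat.card_pos (α := Sylow 5 K)
        unfold Nat.ModEq at h2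
        interval_cases hc : Nat.card (Sylow 5 K) <;> omega
      exact (Nat.card_eq_one_iff_unique.1 this).1
    haveI : (S : Subgroup K).Characteristic := by
      haveI := hsub
      exact S.characteristic_of_subsingleton
    obtain ⟨N, hNd⟩ : ∃ N, N = (S : Subgroup K).map K.subtype := ⟨_, rfl⟩
    haveI hNn : N.Normal := by rw [hNd]; infer_instance
    have hNp : IsPGroup 5 N := hNd ▸ S.2.map _
    have hdN : d ∈ N := by
      haveI := hsub
      obtain ⟨S', hS'⟩ := (IsPGroup.of_card (n := 1) (by rw [Nat.card_zpowers, Subgroup.orderOf_mk, hd, pow_one]) :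
        IsPGroup 5 (Subgroup.zpowers (⟨d, hKd ▸ hdC⟩ : K))).exists_le_sylow
      rw [hNd]
      exact ⟨_, (Subsingleton.elim S' S) ▸ hS' (Subgroup.mem_zpowers _), rfl⟩
    apply hdR
    rw [hHF]
    exact (le_sSup (show N ∈ {N : Subgroup G | N.Normal ∧ Group.IsNilpotent N} from ⟨hNn, hNp.isNilpotent⟩)) hdN
  have hheV : ∀ v ∈ R.map π, π d * v * (π d)⁻¹ ∈ R.map π := by
    rintro _ ⟨r, hr, rfl⟩
    exact ⟨d * r * d⁻¹, hRn.conj_mem r hr d, by rw [map_mul, map_mul, map_inv]⟩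
  -- the action of T on the subgroup of index two modulo R
  have hrel : (∀ v ∈ R.map π, π T * v * (π T)⁻¹ = v → π T * (π d * v * (π d)⁻¹) * (π T)⁻¹ = π d * v * (π d)⁻¹) ∨
      (∀ v ∈ R.map π, π T * v * (π T)⁻¹ = v → π T * (π d * v * (π d)⁻¹) * (π T)⁻¹ = (π d)⁻¹ * v * π d) := by
    have hidx : R.index = 10 := by
      have hidx := Subgroup.card_mul_index R
      rw [h32, hG] at hidx
      omega
    obtain ⟨ρ, hρd⟩ : ∃ ρ : G →* G ⧸ R, ρ = QuotientGroup.mk' R := ⟨_, rfl⟩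
    obtain ⟨D, hDd⟩ : ∃ D, D = Subgroup.zpowers (ρ d) := ⟨_, rfl⟩
    have hoD : orderOf (ρ d) = 5 := orderOf_eq_prime (by rw [← map_pow, hd5, map_one])
      (fun h => hdR (by rw [hρd] at h; exact (QuotientGroup.eq_one_iff d).1 h))
    have hD2 : D.index = 2 := by
      have := Subgroup.card_mul_index D
      rw [hDd, Nat.card_zpowers, hoD, ← Subgroup.index_eq_card R, hidx] at this
      rw [hDd]; omega
    haveI : D.Normal := Subgroup.normal_of_index_eq_two hD2
    have hmem : ρ T * ρ d * (ρ T)⁻¹ ∈ D := Subgroup.Normal.conj_mem inferInstance _ (hDd ▸ Subgroup.mem_zpowers _) _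
    rw [hDd] at hmem
    obtain ⟨k, hk⟩ := (Submonoid.mem_powers_iff _ _).1 ((isOfFinOrder_of_finite (ρ d)).mem_powers_iff_mem_zpowers.2 hmem)
    have hT2 : T * T = 1 := by rw [← sq, ← hT, pow_orderOf_eq_one]
    have hρT : ρ T * ρ T = 1 := by rw [← map_mul, hT2, map_one]
    have hk2 : ρ d ^ (k * k) = ρ d := by
      calc ρ d ^ (k * k) = (ρ T * ρ d * (ρ T)⁻¹) ^ k := by rw [← hk, pow_mul]
        _ = ρ T * ρ d ^ k * (ρ T)⁻¹ := conj_pow
        _ = (ρ T * ρ T) * ρ d * (ρ T * ρ T)⁻¹ := by rw [hk]; group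
        _ = ρ d := by rw [hρT]; group
    have hmod : k * k ≡ 1 [MOD 5] := by
      rw [← hoD, ← pow_eq_pow_iff_modEq, hk2, pow_one]
    obtain ⟨j, hj, hjk⟩ : ∃ j, (j = 1 ∨ j = 4) ∧ ρ d ^ k = ρ d ^ j := by
      refine ⟨k % 5, ?_, ?_⟩
      · have h := Nat.mul_mod k k 5
        rw [show k * k % 5 = 1 from hmod] at h
        have := Nat.mod_lt k (show 5 > 0 by norm_num)
        generalize k % 5 = r at h this ⊢
        interval_cases r <;> omega
      · rw [pow_eq_pow_iff_modEq, hoD]; exact (Nat.mod_modEq k 5).symm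
    have hr0 : (T * d * T⁻¹) * (d ^ j)⁻¹ ∈ R := by
      apply (QuotientGroup.eq_one_iff _).1
      show QuotientGroup.mk' R _ = 1
      rw [← hρd, map_mul, map_inv, map_pow, map_mul, map_mul, map_inv, ← hk, hjk, mul_inv_cancel]
    obtain ⟨r₀, hr₀d⟩ : ∃ r₀, r₀ = (T * d * T⁻¹) * (d ^ j)⁻¹ := ⟨_, rfl⟩
    rw [← hr₀d] at hr0
    suffices key' : ∀ v ∈ R.map π, π T * v * (π T)⁻¹ = v → π T * (π d * v * (π d)⁻¹) * (π T)⁻¹ = π d ^ j * v * (π d ^ j)⁻¹ by
      rcases hj with rfl | rfl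
      · exact Or.inl fun v hv h => by rw [key' v hv h, pow_one]
      · have hd4 : π d ^ 4 = (π d)⁻¹ := eq_inv_of_mul_eq_one_left (by rw [← pow_succ, ← map_pow, hd5, map_one])
        exact Or.inr fun v hv h => by rw [key' v hv h, hd4, inv_inv]
    rintro _ ⟨r, hr, rfl⟩ hfix
    have key : π T * (π d * π r * (π d)⁻¹) * (π T)⁻¹ = π d ^ j * π r * (π d ^ j)⁻¹ := by
      have e1 : π T * π d * (π T)⁻¹ = π r₀ * π d ^ j := by
        rw [← map_inv, ← map_mul, ← map_mul, ← map_pow, ← map_mul, hr₀d]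
        congr 1
        group
      have e2 : π d ^ j * π r * (π d ^ j)⁻¹ ∈ R.map π :=
        ⟨d ^ j * r * (d ^ j)⁻¹, hRn.conj_mem r hr _, by rw [map_mul, map_mul, map_inv, map_pow]⟩
      calc π T * (π d * π r * (π d)⁻¹) * (π T)⁻¹
          = (π T * π d * (π T)⁻¹) * (π T * π r * (π T)⁻¹) * (π T * π d * (π T)⁻¹)⁻¹ := by group
        _ = π r₀ * (π d ^ j * π r * (π d ^ j)⁻¹) * (π r₀)⁻¹ := by rw [e1, hfix]; group
        _ = π d ^ j * π r * (π d ^ j)⁻¹ := by
          rw [hVab _ (Subgroup.mem_map_of_mem π hr0) _ e2, mul_inv_cancel_right]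
    exact key
  -- T moves something modulo Z
  have hnt : ¬ ∀ v ∈ R.map π, π T * v * (π T)⁻¹ = v := by
    intro htriv
    obtain ⟨M, hMd⟩ : ∃ M, M = (Subgroup.centralizer ((R.map π : Subgroup (G ⧸ Z)) : Set (G ⧸ Z))).comap π := ⟨_, rfl⟩
    haveI : (R.map π).Normal := Subgroup.Normal.map hRn π (hπd ▸ QuotientGroup.mk'_surjective _)
    haveI hMn : M.Normal := by rw [hMd]; infer_instance
    have hTM : T ∈ M := by
      rw [hMd]
      intro v hv
      exact (mul_inv_eq_iff_eq_mul.1 (htriv v hv)).symm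
    have hdM : d ∉ M := by
      intro h
      haveI : Nontrivial ↥(R.map π) := Finite.one_lt_card_iff_nontrivial.1 (by rw [hV16]; norm_num)
      obtain ⟨⟨v, hv⟩, hv1⟩ := exists_ne (1 : ↥(R.map π))
      refine hv1 (Subtype.ext (hfpf v hv ?_))
      rw [hMd] at h
      exact mul_inv_eq_iff_eq_mul.2 (h v hv).symm
    have hRM : R ≤ M := by
      intro r hr
      rw [hMd]
      intro v hv
      exact hVab v hv _ (Subgroup.mem_map_of_mem π hr)
    apply hTH
    have hM2 : IsPGroup 2 M := by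
      have h1 : Nat.card M ∣ 320 := hG ▸ Subgroup.card_subgroup_dvd_card M
      have h5 : ¬ 5 ∣ Nat.card M := by
        intro h
        obtain ⟨S⟩ : Nonempty (Sylow 5 M) := inferInstance
        obtain ⟨⟨c, hcM⟩, hc⟩ := exists_prime_orderOf_dvd_card' 5 h
        rw [Subgroup.orderOf_mk] at hc
        -- d is conjugate into M
        obtain ⟨P₁, hP₁⟩ := (IsPGroup.of_card (n := 1) (by rw [Nat.card_zpowers, hd, pow_one]) : IsPGroup 5 (Subgroup.zpowers d)).exists_le_sylow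
        obtain ⟨P₂, hP₂⟩ := (IsPGroup.of_card (n := 1) (by rw [Nat.card_zpowers, hc, pow_one]) : IsPGroup 5 (Subgroup.zpowers c)).exists_le_sylow
        have hcard : Nat.card (P₂ : Subgroup G) = 5 := by
          rw [P₂.card_eq_multiplicity, hG, show (320 : ℕ) = 2 ^ 6 * 5 by norm_num,
            Nat.factorization_mul (by norm_num) (by norm_num), Finsupp.add_apply,
            Nat.Prime.factorization_pow Nat.prime_two, Nat.Prime.factorization_self (by norm_num)]
          simp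
        have hP₂M : (P₂ : Subgroup G) ≤ M := by
          rw [← Subgroup.eq_of_le_of_card_ge hP₂ (by rw [hcard, Nat.card_zpowers, hc])]
          exact Subgroup.zpowers_le.2 hcM
        obtain ⟨g, hg⟩ := MulAction.exists_smul_eq G P₂ P₁
        have hdP := hP₁ (Subgroup.mem_zpowers d)
        rw [← hg, Sylow.coe_subgroup_smul, Subgroup.mem_smul_pointwise_iff_exists] at hdP
        obtain ⟨w, hw, hwd⟩ := hdP
        exact hdM (hwd ▸ hMn.conj_mem w (hP₂M hw) g)
      obtain ⟨j, -, hj⟩ := (Nat.dvd_prime_pow Nat.prime_two).1 (show Nat.card M ∣ 2 ^ 6 from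
        (Nat.Coprime.dvd_of_dvd_mul_right (((Nat.Prime.coprime_iff_not_dvd (by norm_num : Nat.Prime 5)).2 h5).symm) (show Nat.card M ∣ 2 ^ 6 * 5 by norm_num; exact h1)))
      exact IsPGroup.of_card hj
    rw [hRd]
    exact CfsgLib.Core.le_pCore hMn hM2 hTM
  have hF4 := (fix_small (R.map π) hV16 hVab (π d) (π T) (by rw [← map_pow, hd5, map_one]) hheV hfpf hrel).resolve_right hnt
  obtain ⟨C, hCd⟩ : ∃ C, C = R ⊓ Subgroup.centralizer ({T} : Set G) := ⟨_, rfl⟩
  rw [← hCd]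
  rw [← hCd] at hV
  have hCmem : ∀ w, w ∈ C ↔ w ∈ R ∧ T * w * T⁻¹ = w := by
    intro v
    rw [hCd, Subgroup.mem_inf, Subgroup.mem_centralizer_singleton_iff, mul_inv_eq_iff_eq_mul]
    exact and_congr_right fun _ => ⟨fun h => h.symm, fun h => h.symm⟩
  have hZC : Z ≤ C := fun z hz => (hCmem z).2 ⟨hZR hz, by rw [hZc z hz T, mul_inv_cancel_right]⟩
  obtain ⟨F, hFd⟩ : ∃ F, F = R.map π ⊓ Subgroup.centralizer ({π T} : Set (G ⧸ Z)) := ⟨_, rfl⟩
  rw [← hFd] at hF4
  have hCF : C.map π ≤ F := by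
    rw [hFd]
    rintro _ ⟨w, hw, rfl⟩
    refine ⟨⟨w, ((hCmem w).1 hw).1, rfl⟩, Subgroup.mem_centralizer_singleton_iff.2 ?_⟩
    rw [← map_mul, ← map_mul, mul_inv_eq_iff_eq_mul.1 ((hCmem w).1 hw).2]
  have hCcard : Nat.card C = 2 * Nat.card (C.map π) := by
    have h := Subgroup.card_mul_index (Z.subgroupOf C)
    rw [Nat.card_congr (Subgroup.subgroupOfEquivOfLe hZC).toEquiv, hZ2] at h
    rw [← h, ← Subgroup.relIndex, hπd]
    congr 1
    conv_lhs => rw [← QuotientGroup.ker_mk' Z]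
    exact Subgroup.relIndex_ker _ _
  by_cases hC4 : Nat.card C ≤ 4
  · have hVC : V = C := Subgroup.eq_of_le_of_card_ge hV (by rw [hV4]; exact hC4)
    exact ⟨hVC ▸ hV4, hVC ▸ hVe⟩
  exfalso
  have hF := Subgroup.card_le_of_le hCF
  have hCFeq : C.map π = F := by
    obtain ⟨i, -, hi⟩ := pow_two_cases (n := 4) (show Nat.card (C.map π) ∣ 2 ^ 4 from by
      have := Subgroup.card_dvd_of_le (hCF.trans (hFd ▸ inf_le_left : F ≤ R.map π))
      rw [hV16] at this
      exact this)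
    refine Subgroup.eq_of_le_of_card_ge hCF ?_
    rw [hi] at hCcard ⊢
    rcases Nat.lt_or_ge i 2 with h | h
    · exfalso
      have := Nat.pow_le_pow_right (show 0 < 2 by norm_num) (show i ≤ 1 by omega)
      omega
    · have := Nat.pow_le_pow_right (show 0 < 2 by norm_num) h
      omega
  -- the map r ↦ r⁻¹ (T r T⁻¹)
  have hrT : ∀ r ∈ R, T * r * T⁻¹ ∈ R := fun r hr => hRn.conj_mem r hr T
  have hT2 : T * T = 1 := by rw [← sq, ← hT, pow_orderOf_eq_one]
  have hTinv : T⁻¹ = T := inv_eq_of_mul_eq_one_right hT2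
  have hU : ∀ r ∈ R, r⁻¹ * (T * r * T⁻¹) ∈ C ∧ (r⁻¹ * (T * r * T⁻¹)) * (r⁻¹ * (T * r * T⁻¹)) = 1 := by
    intro r hr
    obtain ⟨s, hs⟩ : ∃ s, s = T * r * T⁻¹ := ⟨_, rfl⟩
    have hsR : s ∈ R := hs ▸ hrT r hr
    have hTs : T * s * T⁻¹ = r := by
      rw [hs, hTinv]
      calc T * (T * r * T) * T = (T * T) * r * (T * T) := by group
        _ = r := by rw [hT2, one_mul, mul_one]
    rw [← hs]
    have hconj : T * (r⁻¹ * s) * T⁻¹ = s⁻¹ * r := by
      conv_rhs => rw [← hTs]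
      rw [hs]
      group
    have hmem : π (r⁻¹ * s) ∈ F := by
      rw [hFd]
      refine ⟨⟨_, R.mul_mem (R.inv_mem hr) hsR, rfl⟩, Subgroup.mem_centralizer_singleton_iff.2 ?_⟩
      have h1 : π T * π (r⁻¹ * s) * (π T)⁻¹ = π (r⁻¹ * s) := by
        rw [← map_inv, ← map_mul, ← map_mul, hconj, map_mul, map_mul, map_inv, map_inv]
        -- commutative of exponent two
        have hsq : ∀ x ∈ R, π x * π x = 1 := by
          intro x hx
          rw [← map_mul, hπ, hZd]
          refine ⟨(⟨x, hx⟩ : R) * ⟨x, hx⟩, ?_, rfl⟩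
          rw [← hΦ, ← sq]
          exact (CfsgLib.GroupB.MinimalAction.frattini_facts (p := 2) hR2).2 _
        rw [inv_eq_of_mul_eq_one_right (hsq s hsR), inv_eq_of_mul_eq_one_right (hsq r hr)]
        exact hVab _ (Subgroup.mem_map_of_mem π hsR) _ (Subgroup.mem_map_of_mem π hr)
      exact (mul_inv_eq_iff_eq_mul.1 h1).symm
    rw [← hCFeq] at hmem
    obtain ⟨w, hw, hwe⟩ := hmem
    have hUC : r⁻¹ * s ∈ C := by
      have : w⁻¹ * (r⁻¹ * s) ∈ Z := hπ.1 (by rw [map_mul, map_inv, hwe, inv_mul_cancel])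
      simpa using C.mul_mem hw (hZC this)
    refine ⟨hUC, ?_⟩
    have h := ((hCmem _).1 hUC).2
    rw [hconj] at h
    calc r⁻¹ * s * (r⁻¹ * s) = r⁻¹ * s * (s⁻¹ * r) := by rw [h]
      _ = 1 := by group
  have hUc : ∀ r ∈ R, ∀ w ∈ C, Commute (r⁻¹ * (T * r * T⁻¹)) w := by
    intro r hr w hw
    obtain ⟨hwR, hTw⟩ := (hCmem w).1 hw
    obtain ⟨c, hc⟩ : ∃ c, c = r * w * r⁻¹ * w⁻¹ := ⟨_, rfl⟩
    have hcZ : c ∈ Z := hc ▸ hcommZ r hr w hwR
    have e1 : (T * r * T⁻¹) * w * (T * r * T⁻¹)⁻¹ = c * w := by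
      calc (T * r * T⁻¹) * w * (T * r * T⁻¹)⁻¹ = T * (r * (T⁻¹ * w * T) * r⁻¹) * T⁻¹ := by group
        _ = T * (r * w * r⁻¹) * T⁻¹ := by
          have : T⁻¹ * w * T = w := by
            calc T⁻¹ * w * T = T * w * T⁻¹ := by rw [hTinv]
              _ = w := hTw
          rw [this]
        _ = (T * c * T⁻¹) * (T * w * T⁻¹) := by rw [hc]; group
        _ = c * w := by rw [hTw, hZc c hcZ T, mul_inv_cancel_right]
    have e2 : r * w * r⁻¹ = c * w := by rw [hc]; group
    show _ = _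
    have e3 := e1.trans e2.symm
    calc r⁻¹ * (T * r * T⁻¹) * w = r⁻¹ * ((T * r * T⁻¹) * w * (T * r * T⁻¹)⁻¹) * (T * r * T⁻¹) := by group
      _ = r⁻¹ * (r * w * r⁻¹) * (T * r * T⁻¹) := by rw [e3]
      _ = w * (r⁻¹ * (T * r * T⁻¹)) := by group
  have hVsq : ∀ v ∈ R.map π, v * v = 1 := by
    rintro _ ⟨x, hx, rfl⟩
    rw [← map_mul, hπ, hZd]
    refine ⟨(⟨x, hx⟩ : R) * ⟨x, hx⟩, ?_, rfl⟩
    rw [← hΦ, ← sq]
    exact (CfsgLib.GroupB.MinimalAction.frattini_facts (p := 2) hR2).2 _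
  let u : ↥(R.map π) →* G ⧸ Z :=
    { toFun := fun v => v.1 * (π T * v.1 * (π T)⁻¹)
      map_one' := by simp
      map_mul' := fun a b => by
        haveI : (R.map π).Normal := Subgroup.Normal.map hRn π (hπd ▸ QuotientGroup.mk'_surjective _)
        have hc := hVab _ b.2 _ (Subgroup.Normal.conj_mem (inferInstance : (R.map π).Normal) _ a.2 (π T))
        calc (a * b : ↥(R.map π)).1 * (π T * (a * b : ↥(R.map π)).1 * (π T)⁻¹)
            = a.1 * (b.1 * (π T * a.1 * (π T)⁻¹)) * (π T * b.1 * (π T)⁻¹) := by rw [Subgroup.coe_mul]; group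
          _ = a.1 * ((π T * a.1 * (π T)⁻¹) * b.1) * (π T * b.1 * (π T)⁻¹) := by rw [hc]
          _ = a.1 * (π T * a.1 * (π T)⁻¹) * (b.1 * (π T * b.1 * (π T)⁻¹)) := by group }
  have hrange : u.range = F := by
    refine Subgroup.eq_of_le_of_card_ge ?_ ?_
    · rintro _ ⟨⟨_, r, hr, rfl⟩, rfl⟩
      rw [← hCFeq]
      refine ⟨_, (hU r hr).1, ?_⟩
      show π (r⁻¹ * (T * r * T⁻¹)) = π r * (π T * π r * (π T)⁻¹)
      rw [map_mul, map_mul, map_mul, map_inv, map_inv, inv_eq_of_mul_eq_one_right (hVsq _ (Subgroup.mem_map_of_mem π hr))]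
    · have hker : Nat.card u.ker ≤ 4 := by
        refine le_trans (le_of_le_of_eq (Nat.card_le_card_of_injective (fun x => (⟨x.1.1, ?_⟩ : F)) ?_) rfl) hF4
        · rw [hFd]
          refine ⟨x.1.2, Subgroup.mem_centralizer_singleton_iff.2 ?_⟩
          have hx : x.1.1 * (π T * x.1.1 * (π T)⁻¹) = 1 := x.2
          have h2 : π T * x.1.1 * (π T)⁻¹ = x.1.1 := mul_left_cancel (hx.trans (hVsq _ x.1.2).symm)
          exact (mul_inv_eq_iff_eq_mul.1 h2).symm
        · intro a b h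
          have h' : (a.1.1 : G ⧸ Z) = b.1.1 := congrArg (fun x : ↥F => (x : G ⧸ Z)) h
          exact Subtype.ext (Subtype.ext h')
      have h := Subgroup.card_mul_index u.ker
      rw [Subgroup.index_ker, hV16] at h
      by_contra hlt
      push Not at hlt
      have := Nat.mul_le_mul hker (show Nat.card u.range ≤ 3 by omega)
      omega
  have hdec : ∀ w ∈ C, ∃ r ∈ R, ∃ z ∈ Z, w = r⁻¹ * (T * r * T⁻¹) * z := by
    intro w hw
    have : π w ∈ u.range := hrange ▸ hCF (Subgroup.mem_map_of_mem π hw)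
    obtain ⟨⟨_, r, hr, rfl⟩, he⟩ := this
    refine ⟨r, hr, (r⁻¹ * (T * r * T⁻¹))⁻¹ * w, hπ.1 ?_, by group⟩
    rw [map_mul, map_inv, map_mul, map_mul, map_mul, map_inv, map_inv,
      inv_eq_of_mul_eq_one_right (hVsq _ (Subgroup.mem_map_of_mem π hr)), inv_mul_eq_one]
    exact he
  have hel : Cfsg.IsElementaryAbelian 2 C := by
    refine ⟨⟨⟨fun a b => Subtype.ext ?_⟩⟩, fun a ha => ?_⟩
    · obtain ⟨r, hr, z, hz, hae⟩ := hdec a a.2
      show (a : G) * b = b * a
      rw [hae]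
      exact ((hUc r hr b b.2).mul_left (show Commute z (b : G) from (hZc z hz b).symm)).eq
    · obtain ⟨r, hr, z, hz, rfl⟩ := hdec a ha
      rw [(show Commute (r⁻¹ * (T * r * T⁻¹)) z from hZc z hz _).mul_pow, sq, sq, (hU r hr).2, hZsq z hz, one_mul]
  exact hC4 (hminus C (hCd ▸ inf_le_left) hel)


end Cfsg.Agent.S4405
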