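import Cfsg.Statements.S4406

set_option autoImplicit false
open Cfsg

namespace Cfsg.Agent.S4406
abbrev A4 : Type := ↥(alternatingGroup (Fin 4))

theorem sq_of_pow : ∀ g : A4, g ^ 16 = 1 → g ^ 2 = 1 := by decide +kernel

set_option synthInstance.maxSize 4096 in
theorem key : ∀ u₁ ∈ (Finset.univ.filter fun g : A4 => g ^ 2 = 1 ∧ g ≠ 1), ∀ u₂ ∈ (Finset.univ.filter fun g : A4 => g ^ 2 = 1 ∧ g ≠ 1),
    ∀ v₁ ∈ (Finset.univ.filter fun g : A4 => g ^ 2 = 1 ∧ g ≠ 1), ∀ v₂ ∈ (Finset.univ.filter fun g : A4 => g ^ 2 = 1 ∧ g ≠ 1),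
    u₁ ≠ u₂ → v₁ ≠ v₂ →
    ∀ r ∈ (Finset.univ.filter fun g : A4 => g ^ 3 = 1 ∧ g ≠ 1), ∀ s ∈ (Finset.univ.filter fun g : A4 => g ^ 3 = 1 ∧ g ≠ 1),
      ∃ t ∈ [s, s⁻¹],
        ((r, t) * (u₁, v₁) * (r, t)⁻¹ ∈ [(u₁, v₁), (u₂, v₂), (u₁, v₁) * (u₂, v₂)]) ∧
        ((r, t) * (u₂, v₂) * (r, t)⁻¹ ∈ [(u₁, v₁), (u₂, v₂), (u₁, v₁) * (u₂, v₂)]) := by
  decide +kernel


/-- In the direct product P = A₄ × A₄, let X be the Sylow 2-subgroup, X₁ and X₂ its intersections with the two direct factors, Q a Sylow 3-subgroup and Q₁, Q₂ its intersections with the two factors. Then every subgroup B of X of order 4 either meets X₁ or X₂ nontrivially, or is normalized by one of the two subgroups of Q of order 3 other than Q₁ and Q₂. -/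
theorem result
    (X : Sylow 2 (↥(alternatingGroup (Fin 4)) × ↥(alternatingGroup (Fin 4))))
    (Q : Sylow 3 (↥(alternatingGroup (Fin 4)) × ↥(alternatingGroup (Fin 4))))
    (B : Subgroup (↥(alternatingGroup (Fin 4)) × ↥(alternatingGroup (Fin 4)))) (hBX : B ≤ (X : Subgroup _)) (hB4 : Nat.card ↥B = 4) :
    B ⊓ ((X : Subgroup _) ⊓ Subgroup.prod ⊤ ⊥) ≠ ⊥ ∨ B ⊓ ((X : Subgroup _) ⊓ Subgroup.prod ⊥ ⊤) ≠ ⊥ ∨
      ∃ R : Subgroup (↥(alternatingGroup (Fin 4)) × ↥(alternatingGroup (Fin 4))), R ≤ (Q : Subgroup _) ∧ Nat.card ↥R = 3 ∧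
        R ≠ (Q : Subgroup _) ⊓ Subgroup.prod ⊤ ⊥ ∧ R ≠ (Q : Subgroup _) ⊓ Subgroup.prod ⊥ ⊤ ∧ R ≤ Subgroup.normalizer (B : Set _) := by
  classical
  let P := A4 × A4
  by_cases hc1 : ∃ x ∈ B, x ≠ 1 ∧ x.2 = 1
  · obtain ⟨x, hx, hx1, hx2⟩ := hc1
    refine Or.inl fun h => hx1 ?_
    exact Subgroup.mem_bot.mp (h ▸ ⟨hx, hBX hx, ⟨Subgroup.mem_top _, Subgroup.mem_bot.mpr hx2⟩⟩)
  by_cases hc2 : ∃ x ∈ B, x ≠ 1 ∧ x.1 = 1
  · obtain ⟨x, hx, hx1, hx2⟩ := hc2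
    refine Or.inr (Or.inl fun h => hx1 ?_)
    exact Subgroup.mem_bot.mp (h ▸ ⟨hx, hBX hx, ⟨Subgroup.mem_bot.mpr hx2, Subgroup.mem_top _⟩⟩)
  push Not at hc1 hc2
  right; right
  haveI h2 : Fact (Nat.Prime 2) := ⟨Nat.prime_two⟩
  haveI h3 : Fact (Nat.Prime 3) := ⟨Nat.prime_three⟩
  have hA : Nat.card A4 = 12 := by rw [Nat.card_eq_fintype_card]; decide +kernel
  have hP : Nat.card P = 144 := by rw [Nat.card_prod, hA]
  have hXc : Nat.card (X : Subgroup P) = 16 := by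
    rw [X.card_eq_multiplicity, hP, show (144 : ℕ) = 2 ^ 4 * 3 ^ 2 by norm_num,
      Nat.factorization_mul (by norm_num) (by norm_num), Nat.Prime.factorization_pow Nat.prime_two, Nat.Prime.factorization_pow Nat.prime_three]
    simp
  have hQc : Nat.card (Q : Subgroup P) = 9 := by
    rw [Q.card_eq_multiplicity, hP, show (144 : ℕ) = 2 ^ 4 * 3 ^ 2 by norm_num,
      Nat.factorization_mul (by norm_num) (by norm_num), Nat.Prime.factorization_pow Nat.prime_two, Nat.Prime.factorization_pow Nat.prime_three]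
    simp
  have hsq : ∀ x ∈ B, x.1 ^ 2 = 1 ∧ x.2 ^ 2 = 1 := fun x hx => by
    have h := pow_card_eq_one' (x := (⟨x, hBX hx⟩ : (X : Subgroup P)))
    rw [hXc] at h
    have h' : x ^ 16 = 1 := congrArg Subtype.val h
    exact ⟨sq_of_pow _ (congrArg Prod.fst h'), sq_of_pow _ (congrArg Prod.snd h')⟩
  have hfin : (B : Set P).Finite := Set.toFinite _
  have hcB : (B : Set P).ncard = 4 := hB4
  obtain ⟨b₁, hb₁, hb₁1⟩ : ∃ b ∈ (B : Set P), b ∉ ({1} : Set P) :=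
    Set.exists_mem_notMem_of_ncard_lt_ncard (by rw [Set.ncard_singleton, hcB]; omega) (Set.toFinite _)
  obtain ⟨b₂, hb₂, hb₂1⟩ : ∃ b ∈ (B : Set P), b ∉ ({1, b₁} : Set P) :=
    Set.exists_mem_notMem_of_ncard_lt_ncard
      (by have := Set.ncard_insert_le (1 : P) {b₁}; rw [Set.ncard_singleton] at this; omega) (Set.toFinite _)
  simp only [Set.mem_insert_iff, Set.mem_singleton_iff, not_or] at hb₁1 hb₂1
  have hd : b₁⁻¹ * b₂ ∈ B ∧ b₁⁻¹ * b₂ ≠ 1 :=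
    ⟨B.mul_mem (B.inv_mem hb₁) hb₂, fun h => hb₂1.2 (inv_mul_eq_one.mp h).symm⟩
  have hu : b₁.1 ≠ b₂.1 := fun h => hc2 _ hd.1 hd.2 (by rw [Prod.fst_mul, Prod.fst_inv, h, inv_mul_cancel])
  have hv : b₁.2 ≠ b₂.2 := fun h => hc1 _ hd.1 hd.2 (by rw [Prod.snd_mul, Prod.snd_inv, h, inv_mul_cancel])
  -- a pair of elements of order 3 in the two projections of Q
  set Q₁ := (Q : Subgroup P).map (MonoidHom.fst A4 A4) with hQ₁
  set Q₂ := (Q : Subgroup P).map (MonoidHom.snd A4 A4) with hQ₂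
  have hc₁ : Nat.card Q₁ ≤ 3 := by
    have hdvd : Nat.card Q₁ ∣ 12 := hA ▸ Subgroup.card_subgroup_dvd_card _
    have h9 : Nat.card Q₁ ∣ 9 := hQc ▸ Subgroup.card_map_dvd _ _
    exact Nat.le_of_dvd (by norm_num) ((show Nat.gcd 12 9 = 3 by norm_num) ▸ Nat.dvd_gcd hdvd h9)
  have hc₂ : Nat.card Q₂ ≤ 3 := by
    have hdvd : Nat.card Q₂ ∣ 12 := hA ▸ Subgroup.card_subgroup_dvd_card _
    have h9 : Nat.card Q₂ ∣ 9 := hQc ▸ Subgroup.card_map_dvd _ _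
    exact Nat.le_of_dvd (by norm_num) ((show Nat.gcd 12 9 = 3 by norm_num) ▸ Nat.dvd_gcd hdvd h9)
  have hle : (Q : Subgroup P) ≤ Q₁.prod Q₂ := fun x hx => ⟨⟨x, hx, rfl⟩, ⟨x, hx, rfl⟩⟩
  have hcp : Nat.card (Q₁.prod Q₂) = Nat.card Q₁ * Nat.card Q₂ := by
    rw [Nat.card_congr (Subgroup.prodEquiv Q₁ Q₂).toEquiv, Nat.card_prod]
  have h9 := Subgroup.card_le_of_le hle
  rw [hQc, hcp] at h9
  have hQ1c : Nat.card Q₁ = 3 ∧ Nat.card Q₂ = 3 := by constructor <;> nlinarith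
  have hQeq : (Q : Subgroup P) = Q₁.prod Q₂ := Subgroup.eq_of_le_of_card_ge hle (by rw [hQc, hcp, hQ1c.1, hQ1c.2])
  have h3' : ∀ S : Subgroup A4, Nat.card S = 3 → ∃ r ∈ S, r ^ 3 = 1 ∧ r ≠ 1 := fun S hS => by
    haveI : Nontrivial S := Finite.one_lt_card_iff_nontrivial.mp (by omega)
    obtain ⟨⟨r, hr⟩, hr1⟩ := exists_ne (1 : S)
    refine ⟨r, hr, ?_, fun h => hr1 (Subtype.ext h)⟩
    have h := pow_card_eq_one' (x := (⟨r, hr⟩ : S))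
    rw [hS] at h
    exact congrArg Subtype.val h
  obtain ⟨r, hrQ, hr⟩ := h3' Q₁ hQ1c.1
  obtain ⟨s, hsQ, hs⟩ := h3' Q₂ hQ1c.2
  have hne : ∀ b ∈ B, b ≠ 1 → b.1 ^ 2 = 1 ∧ b.1 ≠ 1 ∧ b.2 ^ 2 = 1 ∧ b.2 ≠ 1 := fun b hb h1 =>
    ⟨(hsq b hb).1, hc2 b hb h1, (hsq b hb).2, hc1 b hb h1⟩
  have e₁ := hne b₁ hb₁ hb₁1
  have e₂ := hne b₂ hb₂ hb₂1.1
  obtain ⟨t, ht, ht1, ht2⟩ := key b₁.1 (by simp [e₁.1, e₁.2.1]) b₂.1 (by simp [e₂.1, e₂.2.1]) b₁.2 (by simp [e₁.2.2.1, e₁.2.2.2])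
    b₂.2 (by simp [e₂.2.2.1, e₂.2.2.2]) hu hv r (by simp [hr.1, hr.2]) s (by simp [hs.1, hs.2])
  have htQ : t ∈ Q₂ ∧ t ≠ 1 := by
    simp only [List.mem_cons, List.not_mem_nil, or_false] at ht
    rcases ht with rfl | rfl
    · exact ⟨hsQ, hs.2⟩
    · exact ⟨Q₂.inv_mem hsQ, inv_ne_one.mpr hs.2⟩
  have hgQ : (r, t) ∈ (Q : Subgroup P) := by rw [hQeq]; exact ⟨hrQ, htQ.1⟩
  refine ⟨Subgroup.zpowers (r, t), Subgroup.zpowers_le.mpr hgQ, ?_, ?_, ?_, ?_⟩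
  · rw [Nat.card_zpowers]
    refine orderOf_eq_prime (Prod.ext hr.1 ?_) fun h => hr.2 (congrArg Prod.fst h)
    have h := pow_card_eq_one' (x := (⟨t, htQ.1⟩ : Q₂))
    rw [hQ1c.2] at h
    exact congrArg Subtype.val h
  · exact fun h => htQ.2 (Subgroup.mem_bot.mp ((h ▸ Subgroup.mem_zpowers (r, t) : (r, t) ∈ (Q : Subgroup P) ⊓ Subgroup.prod ⊤ ⊥).2.2))
  · exact fun h => hr.2 (Subgroup.mem_bot.mp ((h ▸ Subgroup.mem_zpowers (r, t) : (r, t) ∈ (Q : Subgroup P) ⊓ Subgroup.prod ⊥ ⊤).2.1))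
  rw [Subgroup.zpowers_le]
  have hB : (B : Set P) = {1, b₁, b₂, b₁ * b₂} := by
    refine (Set.eq_of_subset_of_ncard_le ?_ ?_ hfin).symm
    · rintro x (rfl | rfl | rfl | rfl)
      exacts [B.one_mem, hb₁, hb₂, B.mul_mem hb₁ hb₂]
    · rw [hcB, Set.ncard_insert_of_notMem, Set.ncard_insert_of_notMem, Set.ncard_pair]
      · exact fun h => hb₁1 (mul_eq_right.mp h.symm)
      · simp only [Set.mem_insert_iff, Set.mem_singleton_iff, not_or]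
        exact ⟨Ne.symm hb₂1.2, fun h => hb₂1.1 (left_eq_mul.mp h)⟩
      · simp only [Set.mem_insert_iff, Set.mem_singleton_iff, not_or]
        exact ⟨Ne.symm hb₁1, Ne.symm hb₂1.1, fun h => hb₂1.2 (by
          have h1 : b₁⁻¹ = b₂ := inv_eq_of_mul_eq_one_right h.symm
          rw [← h1]
          exact Prod.ext (inv_eq_of_mul_eq_one_right (by rw [← pow_two]; exact e₁.1))
            (inv_eq_of_mul_eq_one_right (by rw [← pow_two]; exact e₁.2.2.1)))⟩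
  have hin : ∀ z : P, z ∈ [b₁, b₂, b₁ * b₂] → z ∈ B := by
    intro z hz
    simp only [List.mem_cons, List.not_mem_nil, or_false] at hz
    rcases hz with rfl | rfl | rfl
    exacts [hb₁, hb₂, B.mul_mem hb₁ hb₂]
  have hc : ∀ x ∈ B, (r, t) * x * (r, t)⁻¹ ∈ B := by
    intro x hx
    have hx' : x ∈ ({1, b₁, b₂, b₁ * b₂} : Set P) := hB ▸ hx
    rcases hx' with rfl | rfl | rfl | rfl
    · rw [mul_one, mul_inv_cancel]; exact B.one_mem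
    · exact hin _ ht1
    · exact hin _ ht2
    · rw [conj_mul.symm]
      exact B.mul_mem (hin _ ht1) (hin _ ht2)
  exact Subgroup.mem_normalizer_fintype hc

end Cfsg.Agent.S4406
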