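import Cfsg.Statements.S4407
import Mathlib.Tactic

set_option autoImplicit false
open Cfsg

namespace Cfsg.Agent.S4407

/-- Generators and relations of `3^2 : D8`. -/
structure Gens {S : Type*} [Group S] (a b r s : S) : Prop where
  a3 : a * a * a = 1
  b3 : b * b * b = 1
  ab : a * b = b * a
  r4 : r * r * (r * r) = 1
  ss : s * s = 1
  sr : s * r = r * r * r * s
  sa : s * a = a * s
  sb : s * b = b * b * s
  ra : r * a = b * r
  rb : r * b = a * a * r
  gen : Subgroup.closure ({a, b, r, s} : Set S) = ⊤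

variable {S : Type*} [Group S] [Finite S] {M : Type*} [AddCommGroup M] [Module (ZMod 2) M] [Finite M]

theorem inv_of_gens {a b r s : S} (h : Gens a b r s) (ρ : Representation (ZMod 2) S M)
    (N : Submodule (ZMod 2) M) (ha : ∀ m ∈ N, ρ a m ∈ N) (hb : ∀ m ∈ N, ρ b m ∈ N)
    (hr : ∀ m ∈ N, ρ r m ∈ N) (hs : ∀ m ∈ N, ρ s m ∈ N) (g : S) : ∀ m ∈ N, ρ g m ∈ N := by
  have hg : g ∈ Subgroup.closure ({a, b, r, s} : Set S) := h.gen ▸ Subgroup.mem_top g
  induction hg using Subgroup.closure_induction with
  | mem x hx =>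
    simp only [Set.mem_insert_iff, Set.mem_singleton_iff] at hx
    rcases hx with rfl | rfl | rfl | rfl <;> assumption
  | one => intro m hm; simpa using hm
  | mul x y _ _ hx hy => intro m hm; rw [map_mul]; exact hx _ (hy m hm)
  | inv x _ hx =>
    intro m hm
    have hp : ∀ (n : ℕ), ρ (x ^ n) m ∈ N := by
      intro n
      induction n with
      | zero => simpa using hm
      | succ n ih => rw [pow_succ', map_mul]; exact hx _ ih
    obtain ⟨n, hn⟩ : ∃ n : ℕ, x ^ n = x⁻¹ := by
      refine ⟨orderOf x - 1, eq_inv_of_mul_eq_one_left ?_⟩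
      rw [← pow_succ, Nat.sub_add_cancel (orderOf_pos x), pow_orderOf_eq_one]
    rw [← hn]; exact hp n

theorem core {a b r s : S} (h : Gens a b r s) (ρ : Representation (ZMod 2) S M)
    (hA : ∀ m, ρ a m = m → ρ b m = m → m = 0)
    (hirr : ∀ N : Submodule (ZMod 2) M, (∀ g : S, ∀ m ∈ N, ρ g m ∈ N) → N = ⊥ ∨ N = ⊤)
    (hFa : ∃ m, m ≠ 0 ∧ ρ a m = m) :
    Nat.card M = 16 ∧ 2 < Nat.card {m : M // ρ (r * r) m = m ∧ ρ s m = m} ∧
      Nat.card {m : M // ρ (r * r) m = m ∧ ρ (r * s) m = m} = 2 := by
  classical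
  have two : ∀ m : M, m + m = 0 := fun m => ZModModule.add_self m
  have ap : ∀ (g k : S) (m : M), ρ g (ρ k m) = ρ (g * k) m := fun g k m => by rw [map_mul]; rfl
  set z := r * r with hz
  -- relations with the central involution
  have zz : z * z = 1 := h.r4
  have za : z * a = a * a * z := by
    calc z * a = r * (r * a) := by rw [hz, mul_assoc]
      _ = r * b * r := by rw [h.ra, mul_assoc]
      _ = a * a * z := by rw [h.rb, hz]; group
  have zb : z * b = b * b * z := by
    calc z * b = r * (r * b) := by rw [hz, mul_assoc]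
      _ = (r * a) * (a * r) := by rw [h.rb]; group
      _ = (b * r) * (a * r) := by rw [h.ra]
      _ = b * ((r * a) * r) := by group
      _ = b * (b * r * r) := by rw [h.ra]
      _ = b * b * z := by rw [hz]; group
  have zr : z * r = r * z := by rw [hz]; group
  have zs : z * s = s * z := by
    symm
    calc s * z = s * r * r := by rw [hz]; group
      _ = (r * r * r * s) * r := by rw [h.sr]
      _ = r * r * r * (s * r) := by group
      _ = r * r * (r * r) * (r * r) * s := by rw [h.sr]; group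
      _ = z * s := by rw [h.r4, one_mul, hz]
  have aas : s * (a * a) = a * a * s := by
    rw [← mul_assoc, h.sa, mul_assoc, h.sa, mul_assoc]
  -- `F` = fixed vectors of `a`, and the fixed part of `zs` in it
  have pair : ∀ (c : S) (P : M → Prop), c * c = 1 → (∀ m n, P m → P n → P (m + n)) →
      (∀ m, P m → P (ρ c m)) → (∃ m, m ≠ 0 ∧ P m) → ∃ m, m ≠ 0 ∧ P m ∧ ρ c m = m := by
    intro c P hc hadd hP ⟨m, hm, hPm⟩
    by_cases hfix : ρ c m = m
    · exact ⟨m, hm, hPm, hfix⟩
    refine ⟨m + ρ c m, fun e => hfix ?_, hadd _ _ hPm (hP _ hPm), ?_⟩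
    · rw [← add_left_inj m, two, add_comm]; exact e
    · rw [map_add, ap, hc, map_one]; exact add_comm _ _
  have Fz : ∀ m, ρ a m = m → ρ a (ρ z m) = ρ z m := by
    intro m hm
    have e : a * z = z * (a * a) := by
      calc a * z = (a * a * a) * a * z := by rw [h.a3, one_mul]
        _ = a * a * (a * a * z) := by group
        _ = a * a * (z * a) := by rw [za]
        _ = (a * a * z) * a := by group
        _ = z * (a * a) := by rw [← za, mul_assoc]
    rw [ap, e, ← ap z, ← ap a a, hm, hm]
  have Fs : ∀ m, ρ a m = m → ρ a (ρ s m) = ρ s m := by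
    intro m hm; rw [ap, ← h.sa, ← ap, hm]
  have Fb : ∀ m, ρ a m = m → ρ a (ρ b m) = ρ b m := by
    intro m hm; rw [ap, h.ab, ← ap, hm]
  -- a vector fixed by `a`, `z * s` and `s`
  obtain ⟨u, hu0, hua, huzs⟩ := pair (z * s) (fun m => ρ a m = m)
    (by rw [show z * s * (z * s) = z * (s * z) * s by group, ← zs, show z * (z * s) * s = (z * z) * (s * s) by group, zz, h.ss, one_mul])
    (fun m n hm hn => by simp only [map_add, hm, hn])
    (fun m hm => by rw [← ap z s m]; exact Fz _ (Fs _ hm)) hFa
  obtain ⟨w, hw0, ⟨hwa, hwzs⟩, hws⟩ := pair s (fun m => ρ a m = m ∧ ρ (z * s) m = m) h.ss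
    (fun m n hm hn => ⟨by rw [map_add, hm.1, hn.1], by rw [map_add, hm.2, hn.2]⟩)
    (fun m hm => ⟨Fs _ hm.1, by
      rw [ap, show z * s * s = s * (z * s) by rw [← mul_assoc, ← zs], ← ap, hm.2]⟩)
    ⟨u, hu0, hua, huzs⟩
  have hwz : ρ z w = w := by
    have := hwzs; rwa [← ap z s, hws] at this
  set x := ρ b w with hx
  have hxa : ρ a x = x := Fb _ hwa
  have hbx : ρ b x = w + x := by
    have hsum : w + x + ρ b x = 0 := by
      refine hA _ ?_ ?_
      · rw [map_add, map_add, hwa, hxa, Fb _ hxa]
      · have h3 : ρ b (ρ b x) = w := by rw [hx, ap, ap, h.b3, map_one]; rfl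
        rw [map_add, map_add, ← hx, h3]; abel
    rw [← add_right_inj (w + x), hsum, two]
  have hsx : ρ s x = w + x := by
    rw [hx, ap, h.sb, ← ap, hws, ← ap, ← hx, hbx]
  have hzx : ρ z x = w + x := by
    rw [hx, ap, zb, ← ap, hwz, ← ap, ← hx, hbx]
  set w' := ρ r w with hw'
  set x' := ρ r x with hx'
  have hbw' : ρ b w' = w' := by rw [hw', ap, ← h.ra, ← ap, hwa]
  have hbx' : ρ b x' = x' := by rw [hx', ap, ← h.ra, ← ap, hxa]
  have hrw' : ρ r w' = w := by rw [hw', ap, ← hz, hwz]
  have hrx' : ρ r x' = w + x := by rw [hx', ap, ← hz, hzx]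
  have ha' : ∀ m, ρ a m = m → ρ a (ρ r m) = ρ r (ρ b (ρ b m)) := by
    intro m _
    have e : a * r = r * (b * b) := by
      calc a * r = (a * a * a) * a * r := by rw [h.a3, one_mul]
        _ = a * a * (a * a * r) := by group
        _ = a * a * (r * b) := by rw [h.rb]
        _ = (a * a * r) * b := by group
        _ = r * (b * b) := by rw [← h.rb, mul_assoc]
    rw [ap, e, ← ap, ← ap]
  have haw' : ρ a w' = w' + x' := by
    rw [hw', ha' _ hwa, ← hx, hbx, map_add, ← hx']
  have hax' : ρ a x' = w' := by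
    rw [hx', ha' _ hxa, hbx, map_add, ← hx, hbx, ← add_assoc, add_comm x w, add_assoc, two, add_zero]
  have hs' : ∀ m, ρ s (ρ r m) = ρ r (ρ z (ρ s m)) := by
    intro m
    rw [ap, h.sr, show r * r * r * s = r * (z * s) by rw [hz]; group, ← ap, ← ap]
  have hsw' : ρ s w' = w' := by rw [hw', hs', hws, hwz]
  have hsx' : ρ s x' = x' := by
    rw [hx', hs', hsx, map_add, hwz, hzx, ← add_assoc, two, zero_add]
  -- the four vectors span
  let v : Fin 4 → M := ![w, x, w', x']
  set N := Submodule.span (ZMod 2) (Set.range v)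
  have hv : ∀ i, v i ∈ N := fun i => Submodule.subset_span ⟨i, rfl⟩
  have hmap : ∀ g : S, (∀ i, ρ g (v i) ∈ N) → ∀ m ∈ N, ρ g m ∈ N := by
    intro g hg m hm
    have : N ≤ N.comap (ρ g) := by
      rw [Submodule.span_le]
      rintro _ ⟨i, rfl⟩
      exact hg i
    exact this hm
  have hNtop : N = ⊤ := by
    refine (hirr N (inv_of_gens h ρ N (hmap a ?_) (hmap b ?_) (hmap r ?_) (hmap s ?_))).resolve_left
      (fun e => hw0 ((Submodule.eq_bot_iff _).mp e w (hv 0)))
    · intro i; fin_cases i
      · simpa [v, hwa] using hv 0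
      · simpa [v, hxa] using hv 1
      · simpa [v, haw'] using N.add_mem (hv 2) (hv 3)
      · simpa [v, hax'] using hv 2
    · intro i; fin_cases i
      · simpa [v, ← hx] using hv 1
      · simpa [v, hbx] using N.add_mem (hv 0) (hv 1)
      · simpa [v, hbw'] using hv 2
      · simpa [v, hbx'] using hv 3
    · intro i; fin_cases i
      · simpa [v, ← hw'] using hv 2
      · simpa [v, ← hx'] using hv 3
      · simpa [v, hrw'] using hv 0
      · simpa [v, hrx'] using N.add_mem (hv 0) (hv 1)
    · intro i; fin_cases i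
      · simpa [v, hws] using hv 0
      · simpa [v, hsx] using N.add_mem (hv 0) (hv 1)
      · simpa [v, hsw'] using hv 2
      · simpa [v, hsx'] using hv 3
  -- they are independent
  have c01 : ∀ i : ZMod 2, i = 0 ∨ i = 1 := by decide
  have indA : ∀ i j : ZMod 2, i • w + j • x = 0 → i = 0 ∧ j = 0 := by
    intro i j e
    rcases c01 i with rfl | rfl <;> rcases c01 j with rfl | rfl <;>
      simp only [zero_smul, one_smul, zero_add, add_zero] at e
    · exact ⟨rfl, rfl⟩
    · exact absurd (by rw [← h.b3] at *; exact ((by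
        have := congrArg (fun m => ρ b (ρ b m)) e
        simp only [hbx, map_add, ← hx, map_zero] at this
        rwa [← add_assoc, add_comm x w, add_assoc, two, add_zero] at this) : w = 0)) hw0
    · exact absurd e hw0
    · have : x = w := by rw [← add_right_inj w, e, two]
      exact absurd (hA w hwa this) hw0
  have ind : ∀ i j k l : ZMod 2, i • w + j • x + k • w' + l • x' = 0 →
      i = 0 ∧ j = 0 ∧ k = 0 ∧ l = 0 := by
    intro i j k l e
    have h1 : i • w + j • x = k • w' + l • x' := by
      rw [← add_left_inj (k • w' + l • x'), two, ← add_assoc, e]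
    have h2 : i • w + j • x = 0 := by
      refine hA _ ?_ ?_
      · rw [map_add, map_smul, map_smul, hwa, hxa]
      · rw [h1, map_add, map_smul, map_smul, hbw', hbx']
    have h3 : k • w + l • x = 0 := by
      have hinj : Function.Injective (ρ r) := fun p q e => by
        have := congrArg (ρ (r⁻¹)) e
        simpa [ap] using this
      apply hinj
      rw [map_add, map_smul, map_smul, ← hw', ← hx', ← h1, h2, map_zero]
    obtain ⟨hi, hj⟩ := indA i j h2
    obtain ⟨hk, hl⟩ := indA k l h3
    exact ⟨hi, hj, hk, hl⟩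
  have coord : ∀ m : M, ∃ i j k l : ZMod 2, i • w + j • x + k • w' + l • x' = m := by
    intro m
    obtain ⟨c, hc⟩ := (Submodule.mem_span_range_iff_exists_fun (ZMod 2)).mp
      (hNtop ▸ Submodule.mem_top : m ∈ N)
    exact ⟨c 0, c 1, c 2, c 3, by rw [← hc, Fin.sum_univ_four]; rfl⟩
  refine ⟨?_, ?_, ?_⟩
  · have hb : Function.Bijective (fun c : ZMod 2 × ZMod 2 × ZMod 2 × ZMod 2 =>
        c.1 • w + c.2.1 • x + c.2.2.1 • w' + c.2.2.2 • x') := by
      refine ⟨fun c d e => ?_, fun m => ?_⟩
      · obtain ⟨h1, h2, h3, h4⟩ := ind (c.1 - d.1) (c.2.1 - d.2.1) (c.2.2.1 - d.2.2.1)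
          (c.2.2.2 - d.2.2.2) (by simp only at e; simp only [sub_smul]; rw [← sub_eq_zero.mpr e]; abel)
        simp only [sub_eq_zero] at h1 h2 h3 h4
        exact Prod.ext h1 (Prod.ext h2 (Prod.ext h3 h4))
      · obtain ⟨i, j, k, l, e⟩ := coord m
        exact ⟨(i, j, k, l), e⟩
    rw [← Nat.card_eq_of_bijective _ hb]
    simp [Nat.card_prod]
  · have hzw' : ρ z w' = w' := by rw [hw', ap, zr, ← ap, hwz]
    have hne : w ≠ w' := fun e => hw0 (hA w hwa (by rw [e, hbw']))
    have hw'0 : w' ≠ 0 := fun e => by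
      rw [e, map_zero] at hrw'
      exact hw0 hrw'.symm
    let f : Option Bool → {m : M // ρ z m = m ∧ ρ s m = m} := fun o => match o with
      | none => ⟨0, map_zero _, map_zero _⟩
      | some true => ⟨w, hwz, hws⟩
      | some false => ⟨w', hzw', hsw'⟩
    have hf : Function.Injective f := by
      intro p q e
      rcases p with _ | _ | _ <;> rcases q with _ | _ | _ <;>
        simp [f, hw0, hne, hw'0, hne.symm, Ne.symm hw0, Ne.symm hw'0] at e ⊢
    have := Nat.card_le_card_of_injective f hf
    simp at this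
    omega
  · have hzw' : ρ z w' = w' := by rw [hw', ap, zr, ← ap, hwz]
    have hzx' : ρ z x' = w' + x' := by rw [hx', ap, zr, ← ap, hzx, map_add]
    have hd : w + w' ≠ 0 := fun e => by
      have := (ind 1 0 1 0 (by simpa using e)).1
      exact one_ne_zero this
    have hset : {m : M | ρ z m = m ∧ ρ (r * s) m = m} = {0, w + w'} := by
      ext m
      simp only [Set.mem_setOf_eq, Set.mem_insert_iff, Set.mem_singleton_iff]
      constructor
      · rintro ⟨h1, h2⟩
        obtain ⟨i, j, k, l, rfl⟩ := coord m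
        simp only [map_add, map_smul, hwz, hzx, hzw', hzx', smul_add] at h1
        obtain ⟨hj, -, hl, -⟩ := ind j 0 l 0 (by
          rw [zero_smul, zero_smul, add_zero, add_zero, ← sub_eq_zero.mpr h1]; abel)
        subst hj hl
        rw [← ap] at h2
        simp only [zero_smul, add_zero, map_add, map_smul, hws, hsw', hrw', ← hw'] at h2
        obtain ⟨hik, -⟩ := ind (k - i) 0 (i - k) 0 (by
          simp only [sub_smul, zero_smul, add_zero]; rw [← sub_eq_zero.mpr h2]; abel)
        rw [sub_eq_zero] at hik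
        subst hik
        rcases c01 k with rfl | rfl <;> simp
      · rintro (rfl | rfl)
        · simp
        · refine ⟨by rw [map_add, hwz, hzw'], ?_⟩
          rw [← ap, map_add, hws, hsw', map_add, hrw', ← hw', add_comm]
    calc Nat.card {m : M // ρ z m = m ∧ ρ (r * s) m = m}
        = ({m : M | ρ z m = m ∧ ρ (r * s) m = m} : Set M).ncard := Nat.card_coe_set_eq _
      _ = 2 := by rw [hset, Set.ncard_pair (Ne.symm hd)]


def four (i : ZMod 4) : Finset (DihedralGroup 4) :=
  {1, DihedralGroup.r 2, DihedralGroup.sr i, DihedralGroup.sr (i + 2)}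

theorem four_mul : ∀ i : ZMod 4, ∀ p ∈ four i, ∀ q ∈ four i, p * q ∈ four i ∧ p * p = 1 ∧ p⁻¹ ∈ four i := by
  decide +kernel

theorem four_card : ∀ i : ZMod 4, (four i).card = 4 := by decide +kernel

theorem four_cases : ∀ p q : DihedralGroup 4, p * p = 1 → q * q = 1 → p ≠ 1 → q ≠ 1 → p ≠ q →
    (p * q) * (p * q) = 1 →
    ({1, p, q, p * q} : Finset (DihedralGroup 4)) = four 0 ∨
      ({1, p, q, p * q} : Finset (DihedralGroup 4)) = four 3 := by
  decide +kernel

/-- The four-group `four i` inside the image of `DihedralGroup 4`. -/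
def fourSub (i : ZMod 4) : Subgroup (DihedralGroup 4) where
  carrier := {t | t ∈ four i}
  one_mem' := by simp [four]
  mul_mem' := fun hp hq => (four_mul i _ hp _ hq).1
  inv_mem' := fun hp => (four_mul i _ hp _ hp).2.2

/-- Let S be a finite group with a normal elementary abelian subgroup A of order 9 that is self-centralizing (C_S(A) = A), and a dihedral subgroup X of order 8 with S = AX. Let M be a finite-dimensional module for S over the field with two elements that is faithful and irreducible. Then M has 16 elements, and X contains exactly one subgroup B of order 4 and exponent 2 whose fixed points on M form a subspace with exactly 2 elements (equivalently, M is free of rank one over the group algebra of B). -/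
theorem result {S : Type*} [Group S] [Finite S]
    (A : Subgroup S) [A.Normal] (hA : Cfsg.IsElementaryAbelian 3 A) (hA9 : Nat.card ↥A = 9)
    (hAC : Subgroup.centralizer (A : Set S) = A) (X : Subgroup S) (hX : Nonempty (↥X ≃* DihedralGroup 4)) (hAX : A ⊔ X = ⊤)
    {M : Type*} [AddCommGroup M] [Module (ZMod 2) M] [Finite M] (ρ : Representation (ZMod 2) S M)
    (hfaith : Function.Injective ρ)
    (hirr : ∀ N : Submodule (ZMod 2) M, (∀ s : S, ∀ m ∈ N, ρ s m ∈ N) → N = ⊥ ∨ N = ⊤) (hM : Nontrivial M) :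
    Nat.card M = 16 ∧
      ∃! B : Subgroup S, B ≤ X ∧ Nat.card ↥B = 4 ∧ (∀ b ∈ B, b ^ 2 = 1) ∧
        Nat.card {m : M // ∀ b ∈ B, ρ b m = m} = 2 := by
  
  classical
  obtain ⟨e⟩ := hX
  let ψ : DihedralGroup 4 →* S := X.subtype.comp e.symm.toMonoidHom
  have hψi : Function.Injective ψ := Subtype.val_injective.comp e.symm.injective
  have hψm : ∀ t, ψ t ∈ X := fun t => (e.symm t).2
  have hψs : ∀ g ∈ X, ∃ t, ψ t = g := fun g hg => ⟨e ⟨g, hg⟩, by simp [ψ]⟩
  have h3 : ∀ x ∈ A, x * x * x = 1 := fun x hx => by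
    have := hA.2 x hx; rwa [pow_succ, pow_two] at this
  have hcom : ∀ x ∈ A, ∀ y ∈ A, x * y = y * x := fun x hx y hy =>
    congrArg Subtype.val (hA.1.is_comm.comm ⟨x, hx⟩ ⟨y, hy⟩)
  have hinv : ∀ x ∈ A, x⁻¹ = x * x := fun x hx => inv_eq_of_mul_eq_one_left (h3 x hx)
  have hX8 : Nat.card X = 8 := by rw [Nat.card_congr e.toEquiv, DihedralGroup.nat_card]
  have hXA : ∀ g ∈ X, g ∈ A → g = 1 := by
    intro g hg hgA
    have : g ∈ X ⊓ A := ⟨hg, hgA⟩
    rwa [disjoint_iff.mp (Subgroup.disjoint_of_coprime_natCard (by rw [hX8, hA9]; decide)),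
      Subgroup.mem_bot] at this
  have faith : ∀ t, (∀ x ∈ A, ψ t * x = x * ψ t) → t = 1 := by
    intro t ht
    have : ψ t ∈ Subgroup.centralizer (A : Set S) :=
      Subgroup.mem_centralizer_iff.mpr fun x hx => (ht x hx).symm
    rw [hAC] at this
    exact hψi ((hXA _ (hψm t) this).trans (map_one ψ).symm)
  have conjA : ∀ g : S, ∀ x ∈ A, g * x * g⁻¹ ∈ A := fun g x hx =>
    (inferInstance : A.Normal).conj_mem x hx g
  set r := ψ (DihedralGroup.r 1) with hrd
  set s := ψ (DihedralGroup.sr 0) with hsd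
  have hz : r * r = ψ (DihedralGroup.r 2) := by rw [hrd, ← map_mul]; rfl
  have hr4 : r * r * (r * r) = 1 := by rw [hz, ← map_mul, ← map_one ψ]; rfl
  have hss : s * s = 1 := by rw [hsd, ← map_mul, ← map_one ψ]; rfl
  have hsr : s * r = r * r * r * s := by
    rw [hrd, hsd, ← map_mul, ← map_mul, ← map_mul, ← map_mul]; rfl
  -- the central involution inverts `A`
  have hzinv : ∀ x ∈ A, r * r * x * (r * r)⁻¹ = x⁻¹ := by
    by_contra hcon
    push Not at hcon
    obtain ⟨x0, hx0, hx0'⟩ := hcon
    let I : Subgroup S :=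
      { carrier := {y | y ∈ A ∧ r * r * y * (r * r)⁻¹ = y⁻¹}
        one_mem' := ⟨A.one_mem, by group⟩
        mul_mem' := fun {p q} hp hq => ⟨A.mul_mem hp.1 hq.1, by
          rw [show r * r * (p * q) * (r * r)⁻¹ = (r * r * p * (r * r)⁻¹) * (r * r * q * (r * r)⁻¹) by group,
            hp.2, hq.2, mul_inv_rev, hcom _ (A.inv_mem hp.1) _ (A.inv_mem hq.1)]⟩
        inv_mem' := fun {p} hp => ⟨A.inv_mem hp.1, by
          rw [show r * r * p⁻¹ * (r * r)⁻¹ = (r * r * p * (r * r)⁻¹)⁻¹ by simp [mul_assoc], hp.2]⟩ }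
    have hIA : I ≤ A := fun y hy => hy.1
    obtain ⟨y, hy, hy'⟩ : ∃ y ∈ A, r * r * y * (r * r)⁻¹ ≠ y := by
      by_contra hno
      push Not at hno
      have := faith (DihedralGroup.r 2) fun x hx => by
        rw [← hz]; exact mul_inv_eq_iff_eq_mul.mp (hno x hx)
      exact absurd this (by decide)
    set d := y * (r * r * y * (r * r)⁻¹)⁻¹ with hd
    have hyz : r * r * (r * r * y * (r * r)⁻¹) * (r * r)⁻¹ = y := by
      rw [show r * r * (r * r * y * (r * r)⁻¹) * (r * r)⁻¹ =
        (r * r * (r * r)) * y * (r * r * (r * r))⁻¹ by group, hr4]; group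
    have hdI : d ∈ I := ⟨A.mul_mem hy (A.inv_mem (conjA _ _ hy)), by
      rw [hd, show r * r * (y * (r * r * y * (r * r)⁻¹)⁻¹) * (r * r)⁻¹ = (r * r * y * (r * r)⁻¹) *
        (r * r * (r * r * y * (r * r)⁻¹) * (r * r)⁻¹)⁻¹ by group, hyz]; simp [mul_assoc]⟩
    have hd1 : d ≠ 1 := fun e => hy' (mul_inv_eq_one.mp e).symm
    have hord : orderOf d = 3 := orderOf_eq_prime (hA.2 d (hIA hdI)) hd1
    have hI : Nat.card I = 3 := by
      have h1 : Nat.card I ∣ 3 ^ 2 := by rw [show (3 : ℕ) ^ 2 = 9 from rfl, ← hA9]; exact Subgroup.card_dvd_of_le hIA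
      obtain ⟨i, hi, hIc⟩ := (Nat.dvd_prime_pow Nat.prime_three).mp h1
      have h2 : 3 ∣ Nat.card I := hord ▸ Subgroup.orderOf_dvd_natCard I hdI
      rw [hIc] at h2 ⊢
      interval_cases i
      · simp at h2
      · rfl
      · refine absurd ?_ hx0'
        have := Subgroup.eq_of_le_of_card_ge hIA (by rw [hA9, hIc]; rfl)
        exact (this ▸ hx0 : x0 ∈ I).2
    have hIz : I = Subgroup.zpowers d :=
      (Subgroup.eq_of_le_of_card_ge (Subgroup.zpowers_le.mpr hdI)
        (by rw [Nat.card_zpowers, hord, hI])).symm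
    have hrd' : r * d * r⁻¹ ∈ I := ⟨conjA _ _ (hIA hdI), by
      rw [show r * r * (r * d * r⁻¹) * (r * r)⁻¹ = r * (r * r * d * (r * r)⁻¹) * r⁻¹ by group, hdI.2]
      group⟩
    rw [hIz, mem_zpowers_iff_mem_range_orderOf, hord] at hrd'
    simp only [Finset.mem_image, Finset.mem_range] at hrd'
    obtain ⟨i, hi, hie⟩ := hrd'
    apply hd1
    have hzd : r * r * d * (r * r)⁻¹ = d := by
      rw [show r * r * d * (r * r)⁻¹ = r * (r * d * r⁻¹) * r⁻¹ by group, ← hie, conj_pow.symm.trans rfl, ← hie, ← pow_mul]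
      interval_cases i
      · exfalso; exact hd1 (by simpa using hie.symm)
      · simp
      · rw [show 2 * 2 = 3 + 1 from rfl, pow_succ, hA.2 d (hIA hdI), one_mul]
    have h4 : d = d⁻¹ := hzd.symm.trans hdI.2
    have h5 := h3 d (hIA hdI)
    rwa [show d * d = 1 by nth_rw 2 [h4]; exact mul_inv_cancel d, one_mul] at h5
  -- a vector of `A` fixed by `s`
  obtain ⟨x, hxA, hxne⟩ : ∃ x ∈ A, x * (s * x * s⁻¹) ≠ 1 := by
    by_contra hno
    push Not at hno
    have := faith (DihedralGroup.r 2 * DihedralGroup.sr 0) fun x hx => by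
      rw [map_mul, ← hz]
      refine mul_inv_eq_iff_eq_mul.mp ?_
      rw [show r * r * s * x * (r * r * s)⁻¹ = r * r * (s * x * s⁻¹) * (r * r)⁻¹ by group,
        eq_inv_of_mul_eq_one_right (hno x hx), hzinv _ (A.inv_mem hx), inv_inv]
    exact absurd this (by decide)
  set a := x * (s * x * s⁻¹)
  have haA : a ∈ A := A.mul_mem hxA (conjA _ _ hxA)
  have hsa : s * a = a * s := by
    refine mul_inv_eq_iff_eq_mul.mp ?_
    rw [show s * (x * (s * x * s⁻¹)) * s⁻¹ = (s * x * s⁻¹) * ((s * s) * x * (s * s)⁻¹) by group, hss,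
      one_mul, inv_one, mul_one]
    exact hcom _ (conjA _ _ hxA) _ hxA
  set b := r * a * r⁻¹ with hbd
  have hbA : b ∈ A := conjA _ _ haA
  have hra : r * a = b * r := by rw [hbd]; group
  have hrb : r * b = a * a * r := by
    rw [← hinv a haA, ← hzinv a haA, hbd]; group
  have hsb : s * b = b * b * s := by
    refine mul_inv_eq_iff_eq_mul.mp ?_
    rw [← hinv b hbA, hbd, show s * (r * a * r⁻¹) * s⁻¹ = (s * r) * a * (s * r)⁻¹ by group, hsr,
      show r * r * r * s * a * (r * r * r * s)⁻¹ = r * (r * r * (s * a * s⁻¹) * (r * r)⁻¹) * r⁻¹ by group,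
      hsa, mul_inv_cancel_right, hzinv a haA]
    group
  have hgen : Subgroup.closure ({a, b, r, s} : Set S) = ⊤ := by
    set H := Subgroup.closure ({a, b, r, s} : Set S)
    have hHX : X ≤ H := by
      intro g hg
      obtain ⟨t, rfl⟩ := hψs g hg
      have hr' : ∀ i : ZMod 4, ψ (DihedralGroup.r i) ∈ H := by
        intro i
        rw [← ZMod.natCast_zmod_val i, ← DihedralGroup.r_one_pow, map_pow]
        exact H.pow_mem (Subgroup.subset_closure (by simp [hrd])) _
      cases t with
      | r i => exact hr' i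
      | sr i =>
        rw [show DihedralGroup.sr i = DihedralGroup.sr 0 * DihedralGroup.r i by simp, map_mul]
        exact H.mul_mem (Subgroup.subset_closure (by simp [hsd])) (hr' i)
    have hHA : A ≤ H := by
      have h1 : Nat.card ↥(H ⊓ A) ∣ 3 ^ 2 := by
        rw [show (3 : ℕ) ^ 2 = 9 from rfl, ← hA9]; exact Subgroup.card_dvd_of_le inf_le_right
      obtain ⟨i, hi, hIc⟩ := (Nat.dvd_prime_pow Nat.prime_three).mp h1
      have haI : a ∈ H ⊓ A := ⟨Subgroup.subset_closure (by simp), haA⟩
      have hbI : b ∈ H ⊓ A := ⟨Subgroup.subset_closure (by simp), hbA⟩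
      have hord : orderOf a = 3 := orderOf_eq_prime (hA.2 a haA) hxne
      have h2 : 3 ∣ Nat.card ↥(H ⊓ A) := hord ▸ Subgroup.orderOf_dvd_natCard _ haI
      rw [hIc] at h2
      interval_cases i
      · simp at h2
      · exfalso
        have hIz : Subgroup.zpowers a = H ⊓ A := Subgroup.eq_of_le_of_card_ge
          (Subgroup.zpowers_le.mpr haI) (by rw [Nat.card_zpowers, hord, hIc]; rfl)
        rw [← hIz, Subgroup.mem_zpowers_iff] at hbI
        obtain ⟨j, hj⟩ := hbI
        have hc : s * b = b * s := by rw [← hj]; exact (Commute.zpow_right hsa j)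
        rw [hsb, mul_left_inj] at hc
        have hb1 : b = 1 := mul_eq_left.mp hc
        exact hxne (conj_eq_one_iff.mp (hbd ▸ hb1))
      · exact inf_eq_right.mp (Subgroup.eq_of_le_of_card_ge inf_le_right (by rw [hA9, hIc]; rfl))
    exact eq_top_iff.mpr (hAX ▸ sup_le hHA hHX)
  have G1 : Gens a b r s :=
    ⟨h3 a haA, h3 b hbA, hcom a haA b hbA, hr4, hss, hsr, hsa, hsb, hra, hrb, hgen⟩
  -- no common fixed vector
  have hfix0 : ∀ m, ρ a m = m → ρ b m = m → m = 0 := by
    let N : Submodule (ZMod 2) M :=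
      { carrier := {m | ρ a m = m ∧ ρ b m = m}
        zero_mem' := ⟨map_zero _, map_zero _⟩
        add_mem' := fun hp hq => ⟨by rw [map_add, hp.1, hq.1], by rw [map_add, hp.2, hq.2]⟩
        smul_mem' := fun c m hm => ⟨by rw [map_smul, hm.1], by rw [map_smul, hm.2]⟩ }
    have ap : ∀ (g k : S) (m : M), ρ g (ρ k m) = ρ (g * k) m := fun g k m => by rw [map_mul]; rfl
    have hN := hirr N (inv_of_gens G1 ρ N (fun m hm => by rw [hm.1]; exact hm)
      (fun m hm => by rw [hm.2]; exact hm)
      (fun m hm => ⟨by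
          rw [ap, show a * r = r * (b * b) by
            calc a * r = (a * a * a) * a * r := by rw [h3 a haA, one_mul]
              _ = a * a * (a * a * r) := by group
              _ = a * a * (r * b) := by rw [hrb]
              _ = (a * a * r) * b := by group
              _ = r * (b * b) := by rw [← hrb, mul_assoc],
            ← ap, ← ap, hm.2, hm.2],
        by rw [ap, ← hra, ← ap, hm.1]⟩)
      (fun m hm => ⟨by rw [ap, ← hsa, ← ap, hm.1], by
          rw [ap, show b * s = s * (b * b) by
            rw [← mul_assoc, hsb, mul_assoc (b * b) s b, hsb,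
              show b * b * (b * b * s) = (b * b * b) * b * s by group, h3 b hbA, one_mul],
            ← ap, ← ap, hm.2, hm.2]⟩))
    intro m h1 h2
    rcases hN with hN | hN
    · exact (Submodule.eq_bot_iff _).mp hN m ⟨h1, h2⟩
    · exfalso
      apply hxne
      apply hfaith
      rw [map_one]
      exact LinearMap.ext fun m => ((hN ▸ Submodule.mem_top : m ∈ N)).1
  -- the other pair of lines
  have hab : a * b = b * a := hcom a haA b hbA
  have ha'A : a * b ∈ A := A.mul_mem haA hbA
  have hb'A : b * (a * a) ∈ A := A.mul_mem hbA (A.mul_mem haA haA)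
  have G2 : Gens (a * b) (b * (a * a)) r (r * s) := by
    refine ⟨h3 _ ha'A, h3 _ hb'A, hcom _ ha'A _ hb'A, hr4, ?_, ?_, ?_, ?_, ?_, ?_, ?_⟩
    · calc r * s * (r * s) = r * (s * r) * s := by group
        _ = (r * r * (r * r)) * (s * s) := by rw [hsr]; group
        _ = 1 := by rw [hr4, hss, one_mul]
    · calc r * s * r = r * (s * r) := by group
        _ = r * r * r * (r * s) := by rw [hsr]; group
    · calc r * s * (a * b) = r * ((s * a) * b) := by group
        _ = (r * a) * (s * b) := by rw [hsa]; group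
        _ = b * r * (b * b * s) := by rw [hra, hsb]
        _ = b * ((r * b) * b) * s := by group
        _ = b * ((a * a * r) * b) * s := by rw [hrb]
        _ = b * (a * a * (r * b)) * s := by group
        _ = b * (a * a * (a * a * r)) * s := by rw [hrb]
        _ = b * (a * a * a) * a * r * s := by group
        _ = a * b * (r * s) := by rw [h3 a haA, mul_one, ← hab]; group
    · calc r * s * (b * (a * a)) = r * ((s * b) * (a * a)) := by group
        _ = r * (b * b * ((s * a) * a)) := by rw [hsb]; group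
        _ = r * (b * b * ((a * s) * a)) := by rw [hsa]
        _ = r * (b * b * (a * (s * a))) := by group
        _ = r * (b * b * (a * (a * s))) := by rw [hsa]
        _ = r * (b * b * (a * a)) * s := by group
        _ = (r * b) * b * a * a * s := by group
        _ = (a * a * r) * b * a * a * s := by rw [hrb]
        _ = a * a * (r * b) * a * a * s := by group
        _ = a * a * (a * a * r) * a * a * s := by rw [hrb]
        _ = a * a * (a * a) * (r * a) * a * s := by group
        _ = a * a * (a * a) * (b * r) * a * s := by rw [hra]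
        _ = (a * a * a) * a * b * (r * a) * s := by group
        _ = a * b * b * (r * s) := by rw [h3 a haA, hra, one_mul]; group
        _ = b * (a * a) * (b * (a * a)) * (r * s) := by
          rw [show b * (a * a) * (b * (a * a)) = b * ((a * a) * b) * (a * a) by group,
            hcom _ (A.mul_mem haA haA) _ hbA,
            show b * (b * (a * a)) * (a * a) = (b * b) * ((a * a * a) * a) by group, h3 a haA, one_mul,
            hcom _ (A.mul_mem hbA hbA) _ haA, ← mul_assoc a b b]
    · calc r * (a * b) = (r * a) * b := by group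
        _ = b * (r * b) := by rw [hra]; group
        _ = b * (a * a) * r := by rw [hrb]; group
    · calc r * (b * (a * a)) = (r * b) * a * a := by group
        _ = a * a * (r * a) * a := by rw [hrb]; group
        _ = a * a * (b * r) * a := by rw [hra]
        _ = a * a * b * (r * a) := by group
        _ = a * a * b * (b * r) := by rw [hra]
        _ = a * a * (b * b) * r := by group
        _ = a * b * (a * b) * r := by
          rw [show a * b * (a * b) = a * (b * a) * b by group, ← hab]; group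
    · refine eq_top_iff.mpr ?_
      rw [← hgen, Subgroup.closure_le]
      set H := Subgroup.closure ({a * b, b * (a * a), r, r * s} : Set S)
      have m1 : a * b ∈ H := Subgroup.subset_closure (by simp)
      have m2 : b * (a * a) ∈ H := Subgroup.subset_closure (by simp)
      have m3 : r ∈ H := Subgroup.subset_closure (by simp)
      have m4 : r * s ∈ H := Subgroup.subset_closure (by simp)
      have mb : b ∈ H := by
        have : (a * b) * (b * (a * a)) = b⁻¹ := by
          rw [hinv b hbA, show a * b * (b * (a * a)) = a * ((b * b) * (a * a)) by group,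
            hcom _ (A.mul_mem hbA hbA) _ (A.mul_mem haA haA),
            show a * (a * a * (b * b)) = (a * a * a) * (b * b) by group, h3 a haA, one_mul]
        exact inv_inv b ▸ H.inv_mem (this ▸ H.mul_mem m1 m2)
      rintro g (rfl | rfl | rfl | rfl)
      · simpa using H.mul_mem m1 (H.inv_mem mb)
      · exact mb
      · exact m3
      · simpa using H.mul_mem (H.inv_mem m3) m4
  have hfix0' : ∀ m, ρ (a * b) m = m → ρ (b * (a * a)) m = m → m = 0 := by
    intro m h1 h2
    have hp : ρ (a * b * (b * (a * a))) m = m := by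
      rw [map_mul, Module.End.mul_apply, h2, h1]
    have hbb : a * b * (b * (a * a)) = b * b := by
      rw [show a * b * (b * (a * a)) = a * ((b * b) * (a * a)) by group,
            hcom _ (A.mul_mem hbA hbA) _ (A.mul_mem haA haA),
            show a * (a * a * (b * b)) = (a * a * a) * (b * b) by group, h3 a haA, one_mul]
    rw [hbb] at hp
    have hb : ρ b m = m := by
      conv_rhs => rw [← hp, ← hp]
      rw [← Module.End.mul_apply, ← map_mul, show b * b * (b * b) = (b * b * b) * b by group, h3 b hbA, one_mul]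
    refine hfix0 m ?_ hb
    have : a * b * (b * b) = a := by
      rw [show a * b * (b * b) = a * (b * b * b) by group, h3 b hbA, mul_one]
    conv_lhs => rw [← this, map_mul, Module.End.mul_apply, hp, h1]
  -- some line has a fixed vector
  have hcases : (∃ m, m ≠ 0 ∧ ρ a m = m) ∨ ∃ m, m ≠ 0 ∧ ρ (a * b) m = m := by
    by_contra hno
    push Not at hno
    obtain ⟨n1, n2⟩ := hno
    obtain ⟨m, hm⟩ := exists_ne (0 : M)
    have ap : ∀ (g k : S) (m : M), ρ g (ρ k m) = ρ (g * k) m := fun g k m => by rw [map_mul]; rfl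
    have e3 : ∀ g, g * g * g = 1 → ρ g (m + ρ g m + ρ (g * g) m) = m + ρ g m + ρ (g * g) m := by
      intro g hg
      rw [map_add, map_add, ap, ap, ← mul_assoc, hg, map_one]
      simp only [Module.End.one_apply]
      abel
    have q1 : m + ρ a m + ρ (a * a) m = 0 := by
      by_contra hq; exact n1 _ hq (e3 a (h3 a haA))
    have q3 : m + ρ (a * b) m + ρ (a * b * (a * b)) m = 0 := by
      by_contra hq; exact n2 _ hq (e3 _ (h3 _ ha'A))
    have back : ∀ (p q : S), r * q = p * p * r → p * p * p = 1 → q * q * q = 1 → p ∈ A →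
        (∀ v, v ≠ 0 → ρ p v ≠ v) → ∀ v, ρ q v = v → v = 0 := by
      intro p q hpq hp _ _ hn v hv
      by_contra hv0
      have h1 : ρ (p * p) (ρ r v) = ρ r v := by rw [ap, ← hpq, ← ap, hv]
      refine hn (ρ r v) (fun e => hv0 ?_) ?_
      · simpa [ap] using congrArg (ρ r⁻¹) e
      · calc ρ p (ρ r v) = ρ ((p * p) * (p * p)) (ρ r v) := by
              rw [show p * p * (p * p) = (p * p * p) * p by group, hp, one_mul]
          _ = ρ (p * p) (ρ (p * p) (ρ r v)) := (ap _ _ _).symm
          _ = ρ r v := by rw [h1, h1]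
    have q2 : m + ρ b m + ρ (b * b) m = 0 :=
      back a b hrb (h3 a haA) (h3 b hbA) haA n1 _ (e3 b (h3 b hbA))
    have q4 : m + ρ (b * (a * a)) m + ρ (b * (a * a) * (b * (a * a))) m = 0 :=
      back _ _ G2.rb (h3 _ ha'A) (h3 _ hb'A) ha'A n2 _ (e3 _ (h3 _ hb'A))
    have eq1 : b * (a * a) = a * a * b := hcom _ hbA _ (A.mul_mem haA haA)
    have eq2 : a * b * (a * b) = a * a * (b * b) := by
      rw [show a * b * (a * b) = a * (b * a) * b by group, ← hab]; group
    have eq3 : b * (a * a) * (b * (a * a)) = a * (b * b) := by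
      rw [eq1, show a * a * b * (a * a * b) = a * a * (b * (a * a)) * b by group, eq1,
        show a * a * (a * a * b) * b = (a * a * a) * a * (b * b) by group, h3 a haA, one_mul]
    rw [eq2] at q3
    rw [eq3, eq1] at q4
    -- the sum over all of `A`
    have h0 : (m + ρ a m + ρ (a * a) m) + (ρ b m + ρ (a * b) m + ρ (a * a * b) m) +
        (ρ (b * b) m + ρ (a * (b * b)) m + ρ (a * a * (b * b)) m) = 0 := by
      refine hfix0 _ ?_ ?_
      · simp only [map_add, ap, ← mul_assoc, h3 a haA, one_mul, map_one, Module.End.one_apply]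
        abel
      · have c1 : b * (a * b) = a * (b * b) := by rw [← mul_assoc, ← hab, mul_assoc]
        have c2 : b * (a * a * b) = a * a * (b * b) := by rw [← mul_assoc, eq1, mul_assoc]
        have c3 : b * (a * (b * b)) = a := by
          rw [← mul_assoc, ← hab, show a * b * (b * b) = a * (b * b * b) by group, h3 b hbA, mul_one]
        have c4 : b * (a * a * (b * b)) = a * a := by
          rw [← mul_assoc, eq1, show a * a * b * (b * b) = a * a * (b * b * b) by group, h3 b hbA, mul_one]
        have c5 : b * (b * b) = 1 := by rw [← mul_assoc, h3 b hbA]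
        simp only [map_add, ap, c1, c2, c3, c4, c5, ← hab, eq1, map_one, Module.End.one_apply]
        abel
    apply hm
    have h4 : m + (m + (m + m)) + ((m + ρ a m + ρ (a * a) m) + (ρ b m + ρ (a * b) m + ρ (a * a * b) m) +
        (ρ (b * b) m + ρ (a * (b * b)) m + ρ (a * a * (b * b)) m)) = m := by
      have := congrArg₂ (· + ·) (congrArg₂ (· + ·) q1 q2) (congrArg₂ (· + ·) q3 q4)
      simp only [add_zero] at this
      calc _ = ((m + ρ a m + ρ (a * a) m) + (m + ρ b m + ρ (b * b) m) +
            ((m + ρ (a * b) m + ρ (a * a * (b * b)) m) + (m + ρ (a * a * b) m + ρ (a * (b * b)) m))) + m := by abel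
        _ = m := by rw [add_eq_right]; exact this
    rw [h0, add_zero] at h4
    rw [ZModModule.add_self, add_zero, ZModModule.add_self] at h4
    exact h4.symm
  -- the fixed points of the two four-groups
  let Fx : ZMod 4 → ℕ := fun i => Nat.card {m : M // ∀ t ∈ four i, ρ (ψ t) m = m}
  have hFx : ∀ (i : ZMod 4) (g : S), g = ψ (DihedralGroup.sr i) ∨ g = ψ (DihedralGroup.sr (i + 2)) →
      Nat.card {m : M // ρ (r * r) m = m ∧ ρ g m = m} = Fx i := by
    intro i g hg
    refine Nat.card_congr (Equiv.subtypeEquivRight fun m => ⟨fun hm t ht => ?_, fun hm => ?_⟩)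
    · have key2 : ∀ j : ZMod 4, DihedralGroup.r 2 * DihedralGroup.sr j = DihedralGroup.sr (j + 2) := by
        decide
      have hg' : ρ (ψ (DihedralGroup.sr i)) m = m ∧ ρ (ψ (DihedralGroup.sr (i + 2))) m = m := by
        rcases hg with rfl | rfl
        · refine ⟨hm.2, ?_⟩
          rw [← key2, map_mul, map_mul, Module.End.mul_apply, hm.2, ← hz, hm.1]
        · refine ⟨?_, hm.2⟩
          rw [show DihedralGroup.sr i = DihedralGroup.sr ((i + 2) + 2) by
            rw [add_assoc, show (2 : ZMod 4) + 2 = 0 from rfl, add_zero],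
            ← key2, map_mul, map_mul, Module.End.mul_apply, hm.2, ← hz, hm.1]
      simp only [four, Finset.mem_insert, Finset.mem_singleton] at ht
      rcases ht with rfl | rfl | rfl | rfl
      · simp
      · rw [← hz]; exact hm.1
      · exact hg'.1
      · exact hg'.2
    · refine ⟨by rw [hz]; exact hm _ (by simp [four]), ?_⟩
      rcases hg with rfl | rfl <;> exact hm _ (by simp [four])
  have hrs : r * s = ψ (DihedralGroup.sr 3) := by rw [hrd, hsd, ← map_mul]; rfl
  have hrrs : r * (r * s) = ψ (DihedralGroup.sr (0 + 2)) := by rw [hrs, hrd, ← map_mul]; rfl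
  obtain ⟨hM16, i0, hi0, hiz⟩ : Nat.card M = 16 ∧
      ∃ i0 : ZMod 4, (i0 = 0 ∧ Fx 0 = 2 ∧ 2 < Fx 3 ∨ i0 = 3 ∧ Fx 3 = 2 ∧ 2 < Fx 0) ∧ Fx i0 = 2 := by
    rcases hcases with hc | hc
    · obtain ⟨p1, p2, p3⟩ := core G1 ρ hfix0 hirr hc
      rw [hFx 0 s (Or.inl rfl)] at p2
      rw [hFx 3 _ (Or.inl hrs)] at p3
      exact ⟨p1, 3, Or.inr ⟨rfl, p3, p2⟩, p3⟩
    · obtain ⟨p1, p2, p3⟩ := core G2 ρ hfix0' hirr hc
      rw [hFx 3 _ (Or.inl hrs)] at p2
      rw [hFx 0 _ (Or.inr hrrs)] at p3
      exact ⟨p1, 0, Or.inl ⟨rfl, p3, p2⟩, p3⟩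
  refine ⟨hM16, (fourSub i0).map ψ, ⟨?_, ?_, ?_, ?_⟩, ?_⟩
  · rintro _ ⟨t, _, rfl⟩; exact hψm t
  · rw [Subgroup.card_map_of_injective hψi]
    show Nat.card {t // t ∈ four i0} = 4
    rw [Nat.card_eq_finsetCard, four_card]
  · rintro _ ⟨t, ht, rfl⟩
    rw [← map_pow, pow_two, (four_mul i0 t ht t ht).2.1, map_one]
  · refine Eq.trans ?_ hiz
    exact Nat.card_congr (Equiv.subtypeEquivRight fun m =>
      ⟨fun hm t ht => hm _ ⟨t, ht, rfl⟩, fun hm => by rintro _ ⟨t, ht, rfl⟩; exact hm t ht⟩)
  · rintro B ⟨hBX, hB4, hB2, hBfix⟩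
    set T := Finset.univ.filter fun t => ψ t ∈ B
    have hTm : ∀ t, t ∈ T ↔ ψ t ∈ B := by simp [T]
    have hT4 : T.card = 4 := by
      refine Eq.trans ?_ hB4
      rw [← Nat.card_eq_finsetCard]
      refine Nat.card_eq_of_bijective (fun t => ⟨ψ t, (hTm t).mp t.2⟩) ⟨fun p q e => ?_, fun g => ?_⟩
      · simp only [Subtype.mk.injEq] at e
        exact Subtype.ext (hψi e)
      · obtain ⟨t, ht⟩ := hψs g (hBX g.2)
        exact ⟨⟨t, (hTm t).mpr (ht ▸ g.2)⟩, Subtype.ext ht⟩
    have h1T : (1 : DihedralGroup 4) ∈ T := (hTm 1).mpr (by rw [map_one]; exact B.one_mem)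
    obtain ⟨p, hp, hp1⟩ := Finset.exists_mem_ne (by omega : 1 < T.card) 1
    obtain ⟨q, hq, hqn⟩ : ∃ q ∈ T, q ∉ ({1, p} : Finset (DihedralGroup 4)) :=
      Finset.exists_mem_notMem_of_card_lt_card
        (by rw [hT4]; exact lt_of_le_of_lt Finset.card_le_two (by norm_num))
    simp only [Finset.mem_insert, Finset.mem_singleton, not_or] at hqn
    have hpqT : p * q ∈ T :=
      (hTm _).mpr (by rw [map_mul]; exact B.mul_mem ((hTm p).mp hp) ((hTm q).mp hq))
    have hsq : ∀ t ∈ T, t * t = 1 := fun t ht => hψi (by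
      rw [map_mul, map_one, ← pow_two]; exact hB2 _ ((hTm t).mp ht))
    have hcase := four_cases p q (hsq p hp) (hsq q hq) hp1 hqn.1 (Ne.symm hqn.2) (hsq _ hpqT)
    have hsub : ({1, p, q, p * q} : Finset (DihedralGroup 4)) ⊆ T := by
      intro t ht
      simp only [Finset.mem_insert, Finset.mem_singleton] at ht
      rcases ht with rfl | rfl | rfl | rfl <;> assumption
    have hfour : T = four 0 ∨ T = four 3 := hcase.imp
      (fun e => (Finset.eq_of_subset_of_card_le (e ▸ hsub) (by rw [hT4, four_card])).symm)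
      (fun e => (Finset.eq_of_subset_of_card_le (e ▸ hsub) (by rw [hT4, four_card])).symm)
    have hfx : ∀ i, T = four i → Fx i = 2 := by
      intro i e
      refine Eq.trans ?_ hBfix
      refine Nat.card_congr (Equiv.subtypeEquivRight fun m =>
        ⟨fun hm g hg => ?_, fun hm t ht => hm _ ((hTm t).mp (e ▸ ht))⟩)
      obtain ⟨t, rfl⟩ := hψs g (hBX hg)
      exact hm t (e ▸ (hTm t).mpr hg)
    have hTi : T = four i0 := by
      rcases hfour with e | e <;> rcases hi0 with ⟨rfl, u1, u2⟩ | ⟨rfl, u1, u2⟩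
      · exact e
      · have := hfx _ e; omega
      · have := hfx _ e; omega
      · exact e
    ext g
    constructor
    · intro hg
      obtain ⟨t, rfl⟩ := hψs g (hBX hg)
      exact ⟨t, (hTi ▸ (hTm t).mpr hg : t ∈ four i0), rfl⟩
    · rintro ⟨t, ht, rfl⟩
      exact (hTm t).mp (hTi.symm ▸ ht)


end Cfsg.Agent.S4407
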