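import Cfsg.Statements.S4408
import Cfsg.Agent.Lib.GroupB.CoprimeAbelian
import Cfsg.Agent.Lib.GenFitting
import Cfsg.Agent.Lib.Core
import Mathlib.GroupTheory.NoncommPiCoprod

set_option autoImplicit false
open Cfsg

namespace Cfsg.Agent.S4408
universe u

theorem three {S : Type u} [Group S] {a g w : S} (hg : a * g * a⁻¹ * (a * w * a⁻¹) * (a * g * a⁻¹)⁻¹ = g * w * g⁻¹)
    (hw : a * w * a⁻¹ = w) : w * (g⁻¹ * (a * g * a⁻¹)) = g⁻¹ * (a * g * a⁻¹) * w := by
  rw [hw] at hg
  calc w * (g⁻¹ * (a * g * a⁻¹)) = g⁻¹ * (g * w * g⁻¹) * (a * g * a⁻¹) := by group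
    _ = g⁻¹ * (a * g * a⁻¹ * w * (a * g * a⁻¹)⁻¹) * (a * g * a⁻¹) := by rw [hg]
    _ = g⁻¹ * (a * g * a⁻¹) * w := by group

theorem eq_one_of_sq {S : Type u} [Group S] [Finite S] {U : Subgroup S} (hU : Odd (Nat.card U)) {z : S} (hz : z ∈ U)
    (h2 : z * z = 1) : z = 1 := by
  have h1 : orderOf z ∣ 2 := orderOf_dvd_of_pow_eq_one (by rw [sq, h2])
  rcases (Nat.dvd_prime Nat.prime_two).mp h1 with h | h
  · exact orderOf_eq_one_iff.mp h
  · exfalso
    have := Subgroup.orderOf_dvd_natCard U hz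
    rw [h] at this
    obtain ⟨j, hj⟩ := hU
    omega

/-- An automorphism of order two centralizing the centralizer of an element is trivial. -/
theorem centralizes {S : Type u} [Group S] [Finite S] (U : Subgroup S) [Group.IsNilpotent U] (hU : Odd (Nat.card U))
    (a : S) (ha : a * a = 1) (haU : ∀ u ∈ U, a * u * a⁻¹ ∈ U) (x : S) (hx : x ∈ U)
    (h : ∀ u ∈ U, u * x = x * u → a * u * a⁻¹ = u) : ∀ u ∈ U, a * u * a⁻¹ = u := by
  let W : Subgroup U :=
    { carrier := {u | a * (u : S) * a⁻¹ = (u : S)}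
      one_mem' := by simp
      mul_mem' := fun {u v} hu hv => by
        show a * ((u : S) * (v : S)) * a⁻¹ = (u : S) * (v : S)
        rw [show a * ((u : S) * (v : S)) * a⁻¹ = (a * (u : S) * a⁻¹) * (a * (v : S) * a⁻¹) by group, hu, hv]
      inv_mem' := fun {u} hu => by
        show a * (u : S)⁻¹ * a⁻¹ = (u : S)⁻¹
        rw [show a * (u : S)⁻¹ * a⁻¹ = (a * (u : S) * a⁻¹)⁻¹ by group, hu] }
  have hN : Subgroup.normalizer (W : Set U) ≤ W := by
    intro g hg
    set z : U := g⁻¹ * ⟨a * (g : S) * a⁻¹, haU _ g.2⟩ with hz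
    have hcz : ∀ w ∈ W, (w : S) * (z : S) = (z : S) * (w : S) := by
      intro w hw
      have h1 : a * ((g : S) * (w : S) * (g : S)⁻¹) * a⁻¹ = (g : S) * (w : S) * (g : S)⁻¹ :=
        (Subgroup.mem_normalizer_iff.mp hg w).mp hw
      refine three (a := a) (g := (g : S)) (w := (w : S)) ?_ hw
      rw [← h1]; group
    have hzW : z ∈ W := h (z : S) z.2 (hcz ⟨x, hx⟩ (h x hx rfl)).symm
    have e : a * (g : S) * a⁻¹ = (g : S) * (z : S) := by rw [hz]; simp
    have e2 : (g : S) = (g : S) * ((z : S) * (z : S)) := by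
      calc (g : S) = a * (a * (g : S) * a⁻¹) * a⁻¹ := by
            rw [show a * (a * (g : S) * a⁻¹) * a⁻¹ = (a * a) * (g : S) * (a * a)⁻¹ by group, ha]; group
        _ = a * ((g : S) * (z : S)) * a⁻¹ := by rw [e]
        _ = (a * (g : S) * a⁻¹) * (a * (z : S) * a⁻¹) := by group
        _ = (g : S) * ((z : S) * (z : S)) := by rw [e, hzW, mul_assoc]
    have hz1 : (z : S) = 1 := eq_one_of_sq hU z.2 (mul_eq_left.mp e2.symm)
    show a * (g : S) * a⁻¹ = (g : S)
    rw [e, hz1, mul_one]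
  have htop : W = ⊤ := by
    by_contra hne
    exact absurd (Group.normalizerCondition_of_isNilpotent W (lt_top_iff_ne_top.mpr hne)) (fun hlt => hlt.not_ge hN)
  intro u hu
  exact (show (⟨u, hu⟩ : U) ∈ W by rw [htop]; trivial)

theorem rec_aux {S : Type u} [Group S] [Finite S] : ∀ (n : ℕ) (J K U : Subgroup S), J ≤ K → Group.IsNilpotent U → Odd (Nat.card U) →
    IsMulCommutative K → (∀ a ∈ K, a * a = 1) → (∃ m, Nat.card K = 2 ^ m) → Nat.card J = 2 ^ n →
    (∀ a ∈ K, ∀ u ∈ U, a * u * a⁻¹ ∈ U) → (∀ a ∈ J, (∀ u ∈ U, a * u * a⁻¹ = u) → a = 1) →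
    ∃ x : Fin n → S, (∀ i, x i ∈ U) ∧ (∀ i, (orderOf (x i)).Prime) ∧
      (∀ i j, x i * x j = x j * x i) ∧ (∀ i, ∀ b ∈ K, b * x i * b⁻¹ = x i ∨ b * x i * b⁻¹ = (x i)⁻¹) ∧
      (∀ s : Fin n → Bool, ∃ b ∈ J, ∀ i, b * x i * b⁻¹ = if s i then (x i)⁻¹ else x i) ∧
      (∀ b ∈ J, (∀ i, b * x i * b⁻¹ = x i) → b = 1) := by
  intro n
  induction n with
  | zero =>
    intro J K U _ _ _ _ _ _ hcard _ _
    refine ⟨Fin.elim0, fun i => i.elim0, fun i => i.elim0, fun i => i.elim0,
      fun i => i.elim0, fun _ => ⟨1, one_mem _, fun i => i.elim0⟩, fun b hb _ => ?_⟩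
    rw [pow_zero, Subgroup.card_eq_one] at hcard
    rw [hcard] at hb
    exact Subgroup.mem_bot.mp hb
  | succ n IH =>
    intro J K U hJK hnil hU hJ h2 hKcard hcard hinv hfaith
    classical
    haveI := hnil
    have hcop : (Nat.card K).Coprime (Nat.card U) := by
      obtain ⟨m, hm⟩ := hKcard
      rw [hm]; exact (Nat.coprime_two_left.mpr hU).pow_left _
    have hJU : K ≤ Subgroup.normalizer (U : Set S) := CfsgLib.GroupB.Coprime.le_normalizer_of_conj_mem hinv
    obtain ⟨B, hBJ, a, ha, hBa, y, hyU, hyB, j, hj, hjy⟩ : ∃ B, B ≤ K ∧ ∃ a ∈ K, B ⊔ Subgroup.zpowers a = K ∧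
        ∃ y ∈ U, y ∈ Subgroup.centralizer (B : Set S) ∧ ∃ j ∈ J, j * y * j⁻¹ ≠ y := by
      by_contra hcon
      push Not at hcon
      obtain ⟨j, hj, hj1⟩ : ∃ j ∈ J, j ≠ 1 := by
        refine J.bot_or_exists_ne_one.resolve_left fun e => ?_
        rw [e, Subgroup.card_bot] at hcard
        exact absurd hcard.symm (Nat.one_lt_two_pow (Nat.succ_ne_zero n)).ne'
      refine hj1 (hfaith j hj ?_)
      have hle : (⨆ B ∈ CfsgLib.GroupB.CoprimeAbelian.cocyclic K, U ⊓ Subgroup.centralizer (B : Set S)) ≤ Subgroup.centralizer ({j} : Set S) := by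
        refine iSup₂_le fun B hB => ?_
        obtain ⟨hBJ, a, ha, hBa⟩ := hB
        rintro y ⟨hyU, hyB⟩
        refine Subgroup.mem_centralizer_iff.mpr fun w hw => ?_
        rw [Set.mem_singleton_iff.mp hw]
        exact mul_inv_eq_iff_eq_mul.mp (hcon B hBJ a ha hBa y hyU hyB j hj)
      rw [CfsgLib.GroupB.CoprimeAbelian.iSup_centralizer_eq hJ hJU hcop] at hle
      intro u hu
      exact mul_inv_eq_iff_eq_mul.mpr (Subgroup.mem_centralizer_iff.mp (hle hu) j rfl)
    have hcomm : ∀ b ∈ K, ∀ c ∈ K, b * c = c * b := fun b hb c hc => congrArg Subtype.val (hJ.is_comm.comm (⟨b, hb⟩ : K) ⟨c, hc⟩)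
    have hyB' : ∀ b ∈ B, b * y * b⁻¹ = y := fun b hb => mul_inv_eq_iff_eq_mul.mpr (Subgroup.mem_centralizer_iff.mp hyB b hb)
    -- `j` and `a` agree on the fixed points of `B`
    obtain ⟨b₀, hb₀, hjb⟩ : ∃ b₀ ∈ B, j = b₀ * a := by
      have hjK : j ∈ B ⊔ Subgroup.zpowers a := by rw [hBa]; exact hJK hj
      obtain ⟨b₀, hb₀, c, hc, e⟩ := (CfsgLib.GroupB.Coprime.mem_sup_of_le_normalizer (CfsgLib.GroupB.Coprime.le_normalizer_of_conj_mem
        (fun k hk w hw => by
          rw [hcomm k (Subgroup.zpowers_le.mpr ha hk) w (hBJ hw), mul_inv_cancel_right]; exact hw))).mp hjK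
      obtain ⟨k, rfl⟩ := Subgroup.mem_zpowers_iff.mp hc
      rcases Int.even_or_odd k with ⟨l, hl⟩ | ⟨l, hl⟩
      · refine absurd ?_ hjy
        have : a ^ k = 1 := by rw [hl, ← two_mul, zpow_mul, zpow_ofNat, sq, h2 a ha, one_zpow]
        rw [← e, this, mul_one]
        exact hyB' b₀ hb₀
      · exact ⟨b₀, hb₀, by rw [← e, hl, zpow_add, zpow_mul, zpow_ofNat, sq, h2 a ha, one_zpow, one_mul, zpow_one]⟩
    have hja : ∀ w : S, (∀ b ∈ B, b * w * b⁻¹ = w) → j * w * j⁻¹ = a * w * a⁻¹ := fun w hw => by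
      rw [hjb, hcomm b₀ (hBJ hb₀) a ha, show a * b₀ * w * (a * b₀)⁻¹ = a * (b₀ * w * b₀⁻¹) * a⁻¹ by group, hw b₀ hb₀]
    have hya : a * y * a⁻¹ ≠ y := fun e => hjy ((hja y hyB').trans e)
    obtain ⟨z, hzU, hz1, hzB, hza⟩ : ∃ z ∈ U, z ≠ 1 ∧ (∀ b ∈ B, b * z * b⁻¹ = z) ∧ a * z * a⁻¹ = z⁻¹ := by
      refine ⟨y⁻¹ * (a * y * a⁻¹), U.mul_mem (U.inv_mem hyU) (hinv a ha y hyU), fun e => hya (inv_mul_eq_one.mp e).symm, fun b hb => ?_, ?_⟩
      · calc b * (y⁻¹ * (a * y * a⁻¹)) * b⁻¹ = (b * y * b⁻¹)⁻¹ * ((b * a) * y * (b * a)⁻¹) := by group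
          _ = y⁻¹ * ((a * b) * y * (a * b)⁻¹) := by rw [hyB' b hb, hcomm b (hBJ hb) a ha]
          _ = y⁻¹ * (a * (b * y * b⁻¹) * a⁻¹) := by group
          _ = y⁻¹ * (a * y * a⁻¹) := by rw [hyB' b hb]
      · calc a * (y⁻¹ * (a * y * a⁻¹)) * a⁻¹ = (a * y * a⁻¹)⁻¹ * ((a * a) * y * (a * a)⁻¹) := by group
          _ = (y⁻¹ * (a * y * a⁻¹))⁻¹ := by rw [h2 a ha]; group
    -- an element of prime order
    have hpr : (orderOf z).minFac.Prime := Nat.minFac_prime fun e => hz1 (orderOf_eq_one_iff.mp e)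
    set p := (orderOf z).minFac
    set x := z ^ (orderOf z / p) with hx
    have hxo : orderOf x = p := orderOf_pow_orderOf_div (orderOf_pos z).ne' (Nat.minFac_dvd _)
    have hxU : x ∈ U := U.pow_mem hzU _
    have hax : a * x * a⁻¹ = x⁻¹ := by rw [hx, ← conj_pow, hza, inv_pow]
    have hx1 : x ≠ 1 := fun e => hpr.ne_one (by rw [← hxo, e, orderOf_one])
    have hxne : x⁻¹ ≠ x := fun e => hx1 (eq_one_of_sq hU hxU (by nth_rewrite 1 [← e]; rw [inv_mul_cancel]))
    have hsign : ∀ b ∈ K, b * x * b⁻¹ = x ∨ b * x * b⁻¹ = x⁻¹ := by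
      let L : Subgroup S :=
        { carrier := {b | b * x * b⁻¹ = x ∨ b * x * b⁻¹ = x⁻¹}
          one_mem' := Or.inl (by group)
          mul_mem' := fun {b c} hb hc => by
            have e : (b * c) * x * (b * c)⁻¹ = b * (c * x * c⁻¹) * b⁻¹ := by group
            show (b * c) * x * (b * c)⁻¹ = x ∨ (b * c) * x * (b * c)⁻¹ = x⁻¹
            rw [e]
            rcases hc with hc | hc <;> rw [hc]
            · exact hb
            · rw [show b * x⁻¹ * b⁻¹ = (b * x * b⁻¹)⁻¹ by group]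
              rcases hb with hb | hb <;> rw [hb]
              · exact Or.inr rfl
              · exact Or.inl (inv_inv x)
          inv_mem' := fun {b} hb => by
            show b⁻¹ * x * b⁻¹⁻¹ = x ∨ b⁻¹ * x * b⁻¹⁻¹ = x⁻¹
            rcases hb with hb | hb
            · exact Or.inl (by calc b⁻¹ * x * b⁻¹⁻¹ = b⁻¹ * (b * x * b⁻¹) * b := by rw [hb]; group
                                 _ = x := by group)
            · exact Or.inr (by calc b⁻¹ * x * b⁻¹⁻¹ = (b⁻¹ * x⁻¹ * b)⁻¹ := by group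
                                 _ = (b⁻¹ * (b * x * b⁻¹) * b)⁻¹ := by rw [hb]
                                 _ = x⁻¹ := by group) }
      have hJL : K ≤ L := by
        rw [← hBa]
        refine sup_le (fun b hb => Or.inl ?_) (Subgroup.zpowers_le.mpr (Or.inr hax))
        rw [hx, ← conj_pow, hzB b hb]
      exact fun b hb => hJL hb
    have hjx : j * x * j⁻¹ = x⁻¹ := (hja x fun b hb => by rw [hx, ← conj_pow, hzB b hb]).trans hax
    -- the kernel of the sign
    set J₁ := J ⊓ Subgroup.centralizer ({x} : Set S) with hJ₁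
    have hmem : ∀ b, b ∈ J₁ ↔ b ∈ J ∧ b * x * b⁻¹ = x := by
      intro b
      rw [hJ₁, Subgroup.mem_inf, Subgroup.mem_centralizer_iff]
      simp only [Set.mem_singleton_iff, forall_eq, mul_inv_eq_iff_eq_mul]
      exact and_congr_right fun _ => eq_comm
    have hcard₁ : Nat.card J₁ = 2 ^ n := by
      have h1 : (J₁.subgroupOf J).index = 2 := by
        rw [Subgroup.index_eq_two_iff]
        refine ⟨⟨j, hj⟩, fun b => ?_⟩
        simp only [Subgroup.mem_subgroupOf, hmem, Subgroup.coe_mul, J.mul_mem b.2 hj, b.2, true_and]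
        have e : (b : S) * j * x * ((b : S) * j)⁻¹ = ((b : S) * x * (b : S)⁻¹)⁻¹ := by
          rw [show (b : S) * j * x * ((b : S) * j)⁻¹ = (b : S) * (j * x * j⁻¹) * (b : S)⁻¹ by group, hjx]; group
        rcases hsign b (hJK b.2) with hb | hb <;> rw [e, hb]
        · exact Or.inr ⟨rfl, hxne⟩
        · exact Or.inl ⟨inv_inv x, hxne⟩
      have h3 := (J₁.subgroupOf J).index_mul_card
      rw [h1, Nat.card_congr (Subgroup.subgroupOfEquivOfLe (show J₁ ≤ J from inf_le_left)).toEquiv, hcard, pow_succ'] at h3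
      exact Nat.eq_of_mul_eq_mul_left two_pos h3
    set U₁ := U ⊓ Subgroup.centralizer ({x} : Set S) with hU₁
    have hmemU : ∀ u, u ∈ U₁ ↔ u ∈ U ∧ u * x = x * u := by
      intro u
      rw [hU₁, Subgroup.mem_inf, Subgroup.mem_centralizer_iff]
      simp only [Set.mem_singleton_iff, forall_eq]
      exact and_congr_right fun _ => eq_comm
    obtain ⟨xs, hxs, hxp, hxc, hsg, hsur, hf⟩ := IH J₁ K U₁ (inf_le_left.trans hJK)
      (Group.nilpotent_of_mulEquiv (G := U₁.subgroupOf U) (Subgroup.subgroupOfEquivOfLe inf_le_left))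
      (hU.of_dvd_nat (Subgroup.card_dvd_of_le inf_le_left)) hJ h2 hKcard hcard₁
      (fun b hb u hu => (hmemU _).mpr ⟨hinv b hb u ((hmemU u).mp hu).1, by
        have e : ∀ w : S, u * w = w * u → b * u * b⁻¹ * (b * w * b⁻¹) = b * w * b⁻¹ * (b * u * b⁻¹) := fun w hw => by
          calc b * u * b⁻¹ * (b * w * b⁻¹) = b * (u * w) * b⁻¹ := by group
            _ = b * (w * u) * b⁻¹ := by rw [hw]
            _ = b * w * b⁻¹ * (b * u * b⁻¹) := by group
        rcases hsign b hb with h | h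
        · have := e x ((hmemU u).mp hu).2; rwa [h] at this
        · have := e x⁻¹ ((show Commute u x from ((hmemU u).mp hu).2).inv_right).eq
          rw [show b * x⁻¹ * b⁻¹ = (b * x * b⁻¹)⁻¹ by group, h, inv_inv] at this
          exact this⟩)
      (fun b hb hfix => hfaith b ((hmem b).mp hb).1 (centralizes U hU b (h2 b (hJK ((hmem b).mp hb).1))
        (hinv b (hJK ((hmem b).mp hb).1)) x hxU fun u hu hcm => hfix u ((hmemU u).mpr ⟨hu, hcm⟩)))
    have hxsU : ∀ i, xs i ∈ U := fun i => ((hmemU _).mp (hxs i)).1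
    refine ⟨Fin.cons x xs, Fin.cases hxU hxsU, Fin.cases (by rw [Fin.cons_zero, hxo]; exact hpr) (fun i => by rw [Fin.cons_succ]; exact hxp i),
      ?_, ?_, ?_, ?_⟩
    · intro i k
      induction i using Fin.cases with
      | zero => induction k using Fin.cases with
        | zero => rfl
        | succ k => simp only [Fin.cons_zero, Fin.cons_succ]; exact ((hmemU _).mp (hxs k)).2.symm
      | succ i => induction k using Fin.cases with
        | zero => simp only [Fin.cons_zero, Fin.cons_succ]; exact ((hmemU _).mp (hxs i)).2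
        | succ k => simp only [Fin.cons_succ]; exact hxc i k
    · intro i b hb
      induction i using Fin.cases with
      | zero => simp only [Fin.cons_zero]; exact hsign b hb
      | succ i => simp only [Fin.cons_succ]; exact hsg i b hb
    · intro s
      -- first fix the sign on `x`, then correct the others inside the kernel
      set h₀ : S := if s 0 then j else 1 with hh₀
      have hh₀J : h₀ ∈ J := by rw [hh₀]; split_ifs; exact hj; exact one_mem _
      obtain ⟨c, hc, hc'⟩ := hsur fun i => xor (s i.succ) (decide (h₀ * xs i * h₀⁻¹ ≠ xs i))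
      refine ⟨h₀ * c, J.mul_mem hh₀J ((hmem c).mp hc).1, fun i => ?_⟩
      induction i using Fin.cases with
      | zero =>
        rw [Fin.cons_zero, show h₀ * c * x * (h₀ * c)⁻¹ = h₀ * (c * x * c⁻¹) * h₀⁻¹ by group, ((hmem c).mp hc).2, hh₀]
        split_ifs
        · exact hjx
        · group
      | succ i =>
        rw [Fin.cons_succ, show h₀ * c * xs i * (h₀ * c)⁻¹ = h₀ * (c * xs i * c⁻¹) * h₀⁻¹ by group, hc' i]
        have hinvh : h₀ * (xs i)⁻¹ * h₀⁻¹ = (h₀ * xs i * h₀⁻¹)⁻¹ := by group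
        rcases hsg i h₀ (hJK hh₀J) with h | h
        · cases s i.succ <;> simp [hinvh, h]
        · have hne : h₀ * xs i * h₀⁻¹ ≠ xs i := by
            rw [h]; intro e
            refine (hxp i).ne_one ?_
            rw [eq_one_of_sq hU (hxsU i) (by nth_rewrite 1 [← e]; rw [inv_mul_cancel]), orderOf_one]
          have hne' : (xs i)⁻¹ ≠ xs i := fun e => hne (h.trans e)
          cases s i.succ <;> simp [hinvh, h, hne']
    · intro b hb hfix
      refine hf b ((hmem b).mpr ⟨hb, ?_⟩) fun i => ?_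
      · simpa using hfix 0
      · simpa using hfix i.succ

theorem main {S : Type u} [Group S] [Finite S]
    [Group.IsSolvable S] (hF : Odd (Nat.card ↥(Cfsg.fittingSubgroup S)))
    (I : Subgroup S) (hI : Cfsg.IsElementaryAbelian 2 I) (n : ℕ) (hIn : Nat.card ↥I = 2 ^ n) :
    ∃ f : Fin n → Subgroup S, (∀ i, (Nat.card ↥(f i)).Prime) ∧ (∀ i, f i ≤ Cfsg.fittingSubgroup S) ∧
      (∀ i, I ≤ Subgroup.normalizer ((f i) : Set S)) ∧ (∀ i j, i ≠ j → ∀ a ∈ f i, ∀ b ∈ f j, a * b = b * a) ∧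
      Nat.card ↥(⨆ i, f i) = ∏ i, Nat.card ↥(f i) ∧ I ⊓ Subgroup.centralizer ((⨆ i, f i : Subgroup S) : Set S) = ⊥ := by
  classical
  set F := Cfsg.fittingSubgroup S
  haveI hFn : F.Normal := CfsgLib.Core.fittingSubgroup_normal
  have h2 : ∀ a ∈ I, a * a = 1 := fun a ha => by rw [← sq]; exact hI.2 a ha
  have hfaith : ∀ a ∈ I, (∀ u ∈ F, a * u * a⁻¹ = u) → a = 1 := by
    intro a ha hfix
    haveI : Group.IsSolvable ↥(Subgroup.centralizer (F : Set S)) := inferInstance
    have h1 : a ∈ F := CfsgLib.GenFitting.solvable_le_fitting (R := Subgroup.centralizer (F : Set S)) inferInstance le_rfl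
      (Subgroup.mem_centralizer_iff.mpr fun u hu => (mul_inv_eq_iff_eq_mul.mp (hfix u hu)).symm)
    exact eq_one_of_sq hF h1 (h2 a ha)
  obtain ⟨x, hxF, hxp, hxc, hsg, hsur, hf⟩ := rec_aux n I I F le_rfl CfsgLib.Core.isNilpotent_fittingSubgroup hF hI.1 h2
    ⟨n, hIn⟩ hIn (fun a _ u hu => hFn.conj_mem u hu a) hfaith
  have hmemz : ∀ i, ∀ w ∈ Subgroup.zpowers (x i), ∃ k : ℤ, x i ^ k = w := fun i w hw => Subgroup.mem_zpowers_iff.mp hw
  have hcommf : ∀ i j, ∀ u ∈ Subgroup.zpowers (x i), ∀ v ∈ Subgroup.zpowers (x j), Commute u v := by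
    intro i j u hu v hv
    obtain ⟨k, rfl⟩ := hmemz i u hu
    obtain ⟨l, rfl⟩ := hmemz j v hv
    exact (show Commute (x i) (x j) from hxc i j).zpow_zpow k l
  have hind : iSupIndep fun i => Subgroup.zpowers (x i) := by
    intro i
    obtain ⟨b, hb, hb'⟩ := hsur fun k => decide (k = i)
    rw [disjoint_iff, Subgroup.eq_bot_iff_forall]
    rintro w ⟨hwi, hwo⟩
    have hle : (⨆ j, ⨆ (_ : j ≠ i), Subgroup.zpowers (x j)) ≤ Subgroup.centralizer ({b} : Set S) := by
      refine iSup₂_le fun k hk => Subgroup.zpowers_le.mpr (Subgroup.mem_centralizer_iff.mpr fun t ht => ?_)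
      rw [Set.mem_singleton_iff.mp ht]
      have := hb' k
      rw [if_neg (by simp [hk])] at this
      exact mul_inv_eq_iff_eq_mul.mp this
    obtain ⟨k, rfl⟩ := hmemz i w hwi
    have h1 : b * x i ^ k * b⁻¹ = x i ^ k :=
      mul_inv_eq_iff_eq_mul.mpr (Subgroup.mem_centralizer_iff.mp (hle hwo) b rfl)
    rw [← conj_zpow, hb' i, if_pos (by simp), inv_zpow] at h1
    exact eq_one_of_sq hF (F.zpow_mem (hxF i) k) (by nth_rewrite 1 [← h1]; rw [inv_mul_cancel])
  refine ⟨fun i => Subgroup.zpowers (x i), fun i => by rw [Nat.card_zpowers]; exact hxp i,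
    fun i => Subgroup.zpowers_le.mpr (hxF i), fun i => ?_, fun i j _ u hu v hv => hcommf i j u hu v hv, ?_, ?_⟩
  · refine CfsgLib.GroupB.Coprime.le_normalizer_of_conj_mem fun b hb w hw => ?_
    obtain ⟨k, rfl⟩ := hmemz i w hw
    rw [← conj_zpow]
    rcases hsg i b hb with h | h <;> rw [h]
    · exact Subgroup.zpow_mem_zpowers _ _
    · exact Subgroup.zpow_mem _ (Subgroup.inv_mem _ (Subgroup.mem_zpowers _)) k
  · have hcomm' : Pairwise fun i j => ∀ u v : S, u ∈ Subgroup.zpowers (x i) → v ∈ Subgroup.zpowers (x j) → Commute u v :=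
      fun i j _ u v hu hv => hcommf i j u hu v hv
    have hinj := Subgroup.injective_noncommPiCoprod_of_iSupIndep (hcomm := hcomm') hind
    rw [← Subgroup.noncommPiCoprod_range (hcomm := hcomm'), Nat.card_congr (MonoidHom.ofInjective hinj).symm.toEquiv, Nat.card_pi]
  · rw [Subgroup.eq_bot_iff_forall]
    rintro b ⟨hb, hbc⟩
    exact hf b hb fun i => mul_inv_eq_iff_eq_mul.mpr
      (Subgroup.mem_centralizer_iff.mp hbc (x i) (le_iSup (fun i => Subgroup.zpowers (x i)) i (Subgroup.mem_zpowers _))).symm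

/-- Let S be a finite solvable group whose Fitting subgroup F(S) has odd order, and let I be an elementary abelian 2-subgroup of S of order 2ⁿ with n ≥ 1. Then F(S) contains subgroups A₁, …, Aₙ of prime order, each normalized by I, pairwise commuting and generating a subgroup A of order |A₁|⋯|Aₙ| (their internal direct product), such that no non-identity element of I centralizes A. -/
theorem result {S : Type*} [Group S] [Finite S]
    [Group.IsSolvable S] (hF : Odd (Nat.card ↥(Cfsg.fittingSubgroup S)))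
    (I : Subgroup S) (hI : Cfsg.IsElementaryAbelian 2 I) (n : ℕ) (hn : 1 ≤ n) (hIn : Nat.card ↥I = 2 ^ n) :
    ∃ f : Fin n → Subgroup S, (∀ i, (Nat.card ↥(f i)).Prime) ∧ (∀ i, f i ≤ Cfsg.fittingSubgroup S) ∧
      (∀ i, I ≤ Subgroup.normalizer ((f i) : Set S)) ∧ (∀ i j, i ≠ j → ∀ a ∈ f i, ∀ b ∈ f j, a * b = b * a) ∧
      Nat.card ↥(⨆ i, f i) = ∏ i, Nat.card ↥(f i) ∧ I ⊓ Subgroup.centralizer ((⨆ i, f i : Subgroup S) : Set S) = ⊥ := by
  exact main hF I hI n hIn

end Cfsg.Agent.S4408
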