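import Cfsg.Statements.S4410
import Cfsg.Agent.Lib.Core
import Cfsg.Agent.Lib.CNGroup
import Cfsg.Agent.Lib.GenFitting

set_option autoImplicit false
open Cfsg

namespace Cfsg.Agent.S4410
variable {V : Type*} [AddCommGroup V] [Module (ZMod 2) V]

theorem self_add (x : V) : x + x = 0 := by
  rw [← two_smul (ZMod 2) x, show (2 : ZMod 2) = 0 from by decide, zero_smul]

theorem neg_self' (x : V) : -x = x := neg_eq_of_add_eq_zero_left (self_add x)

/-- The difference of an automorphism and the identity, as a function. -/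
def dif (t : V ≃ₗ[ZMod 2] V) (z : V) : V := t z + z

theorem dif_add (t : V ≃ₗ[ZMod 2] V) (z w : V) : dif t (z + w) = dif t z + dif t w := by
  simp only [dif, map_add]; abel

theorem dif_zero (t : V ≃ₗ[ZMod 2] V) : dif t 0 = 0 := by simp [dif]

theorem apply_eq (t : V ≃ₗ[ZMod 2] V) (z : V) : t z = z + dif t z := by
  rw [dif, ← add_assoc, add_comm z, add_assoc, self_add, add_zero]

/-- A transvection with centre `a`. -/
def Tv (t : V ≃ₗ[ZMod 2] V) (a : V) : Prop := (∀ z, dif t z = 0 ∨ dif t z = a) ∧ dif t a = 0 ∧ a ≠ 0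

theorem key {t u : V ≃ₗ[ZMod 2] V} {a b : V} (ht : Tv t a) (hu : Tv u b)
    (h : dif t b = 0 ∨ dif u a = 0) : ∀ z, t (u (t (u (t (u (t (u z))))))) = z := by
  obtain ⟨ht1, ht2, -⟩ := ht
  obtain ⟨hu1, hu2, -⟩ := hu
  have h2 : ∀ x : V, 2 • x = 0 := fun x => by rw [two_nsmul, self_add]
  have h3 : ∀ x : V, 3 • x = x := fun x => by rw [succ_nsmul, h2, zero_add]
  have h2' : ∀ x : V, (2 : ℤ) • x = 0 := fun x => by rw [two_zsmul, self_add]
  have h3' : ∀ x : V, (3 : ℤ) • x = x := fun x => by rw [show (3 : ℤ) = 2 + 1 from rfl, add_zsmul, h2', zero_add, one_zsmul]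
  have key : ∀ z, t (u (t (u z))) = z + dif t (dif u z) + dif u (dif t z) ∧
      dif t (dif u (dif t (dif u z) + dif u (dif t z))) = 0 ∧ dif u (dif t (dif t (dif u z) + dif u (dif t z))) = 0 := by
    intro z
    have e : ∀ w, t (u w) = w + (dif u w + dif t w + dif t (dif u w)) := by
      intro w
      rw [apply_eq t (u w), apply_eq u w, dif_add]
      abel
    have htt : ∀ w, dif t (dif t w) = 0 := fun w => by
      rcases ht1 w with h | h <;> rw [h]
      · exact dif_zero t
      · exact ht2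
    have huu : ∀ w, dif u (dif u w) = 0 := fun w => by
      rcases hu1 w with h | h <;> rw [h]
      · exact dif_zero u
      · exact hu2
    have hz : (∀ w, dif t (dif u w) = 0) ∨ (∀ w, dif u (dif t w) = 0) := by
      rcases h with h | h
      · left; intro w; rcases hu1 w with e | e <;> rw [e]
        · exact dif_zero t
        · exact h
      · right; intro w; rcases ht1 w with e | e <;> rw [e]
        · exact dif_zero u
        · exact h
    refine ⟨?_, ?_, ?_⟩
    · rw [e (t (u z)), e z]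
      simp only [dif_add, htt, huu, add_zero, zero_add, dif_zero]
      rcases hz with hz | hz <;> simp only [hz, add_zero, zero_add, dif_zero, htt, huu] <;> abel_nf <;>
        (try simp only [h2, h3, h2', h3', add_zero, zero_add])
    · rcases hz with hz | hz <;> simp only [hz, htt, huu, dif_add, dif_zero, add_zero]
    · rcases hz with hz | hz <;> simp only [hz, htt, huu, dif_add, dif_zero, add_zero]
  intro z
  obtain ⟨e1, k1, k2⟩ := key z
  have e2 := (key (t (u (t (u z))))).1
  rw [e2, e1]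
  simp only [dif_add] at k1 k2 ⊢
  calc _ = z + ((dif t (dif u z) + dif t (dif u z)) + (dif u (dif t z) + dif u (dif t z))) +
        (dif t (dif u (dif t (dif u z))) + dif t (dif u (dif u (dif t z)))) +
        (dif u (dif t (dif t (dif u z))) + dif u (dif t (dif u (dif t z)))) := by abel
    _ = z := by rw [k1, k2, self_add, self_add]; simp

/-- Let V be a finite-dimensional vector space over the field with two elements and S a solvable group of linear automorphisms of V with O₂(S) = 1. If P ∈ S has order 4 and (P − 1)³ = 0 on V, then the image of (P − 1)² has at least 4 elements; equivalently, in the decomposition of V into indecomposable modules for the cyclic group generated by P, at least two summands have dimension 3. -/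
theorem result
    {V : Type*} [AddCommGroup V] [Module (ZMod 2) V] [Finite V]
    (S : Subgroup (V ≃ₗ[ZMod 2] V)) (hS : Group.IsSolvable ↥S) (hO2 : Cfsg.pCore 2 ↥S = ⊥)
    (P : V ≃ₗ[ZMod 2] V) (hPS : P ∈ S) (hP4 : orderOf P = 4)
    (hcub : ((P : V →ₗ[ZMod 2] V) - LinearMap.id) ^ 3 = 0) :
    4 ≤ Nat.card ↥(LinearMap.range (((P : V →ₗ[ZMod 2] V) - LinearMap.id) ^ 2)) := by
  
  classical
  haveI : Finite (V ≃ₗ[ZMod 2] V) := Finite.of_injective (fun e => (e : V → V)) DFunLike.coe_injective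
  by_contra hlt
  rw [not_le] at hlt
  obtain ⟨τ, hτ⟩ : ∃ τ, τ = P ^ 2 := ⟨_, rfl⟩
  have hN2 : ∀ z, ((((P : V →ₗ[ZMod 2] V) - LinearMap.id) ^ 2 : V →ₗ[ZMod 2] V)) z = dif τ z := by
    intro z
    rw [sq]
    show P (P z - z) - (P z - z) = dif τ z
    rw [hτ, dif, map_sub, sq]
    show P (P z) - P z - (P z - z) = P (P z) + z
    calc P (P z) - P z - (P z - z) = P (P z) + z + -(P z + P z) := by abel
      _ = P (P z) + z := by rw [self_add, neg_zero, add_zero]
  have hτ1 : τ ≠ 1 := fun e => by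
    have := orderOf_dvd_of_pow_eq_one (hτ ▸ e : P ^ 2 = 1)
    rw [hP4] at this
    exact absurd (Nat.le_of_dvd (by norm_num) this) (by norm_num)
  have hτ2 : τ * τ = 1 := by rw [hτ, ← pow_add, show (2 + 2) = 4 from rfl, ← hP4, pow_orderOf_eq_one]
  obtain ⟨z₀, hz₀⟩ : ∃ z, dif τ z ≠ 0 := by
    by_contra h
    push Not at h
    exact hτ1 (LinearEquiv.ext fun z => by rw [apply_eq τ z, h z, add_zero]; rfl)
  obtain ⟨a, ha⟩ : ∃ a, a = dif τ z₀ := ⟨_, rfl⟩
  have hta : Tv τ a := by
    refine ⟨fun z => ?_, ?_, ha ▸ hz₀⟩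
    · by_contra h
      push Not at h
      obtain ⟨b, hb⟩ : ∃ b, b = dif τ z := ⟨_, rfl⟩
      rw [← hb] at h
      have mem : ∀ w, dif τ w ∈ LinearMap.range (((P : V →ₗ[ZMod 2] V) - LinearMap.id) ^ 2) := fun w => ⟨w, hN2 w⟩
      let f : Fin 4 → ↥(LinearMap.range (((P : V →ₗ[ZMod 2] V) - LinearMap.id) ^ 2)) :=
        ![⟨_, mem 0⟩, ⟨_, mem z₀⟩, ⟨_, mem z⟩, ⟨_, mem (z₀ + z)⟩]
      have hab : a + b ≠ 0 := fun e => h.2 (by
        calc b = (a + a) + b := by rw [self_add, zero_add]
          _ = a := by rw [add_assoc, e, add_zero])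
      have hf : Function.Injective f := by
        intro i j hij
        have hv := congrArg Subtype.val hij
        fin_cases i <;> fin_cases j <;> simp [f, dif_zero, dif_add, ← ha, ← hb] at hv ⊢
        all_goals first
          | exact absurd hv h.1
          | exact absurd hv.symm h.1
          | exact absurd hv h.2
          | exact absurd hv.symm h.2
          | exact absurd hv (ha ▸ hz₀)
          | exact absurd hv.symm (ha ▸ hz₀)
          | exact absurd hv hab
          | exact absurd hv.symm hab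
      have := Nat.card_le_card_of_injective f hf
      rw [Nat.card_eq_fintype_card, Fintype.card_fin] at this
      omega
    · have h2 : τ (τ z₀) = z₀ := LinearEquiv.congr_fun hτ2 z₀
      rw [apply_eq τ (τ z₀), apply_eq τ z₀, dif_add, ← ha] at h2
      have h3 : dif τ a = (z₀ + a + (a + dif τ a)) + z₀ := by
        calc dif τ a = (z₀ + z₀) + ((a + a) + dif τ a) := by rw [self_add, self_add, zero_add, zero_add]
          _ = _ := by abel
      rw [h3, h2, self_add]
  have hPa : P a = a := by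
    have hconj : P (dif τ z₀) = dif τ (P z₀) := by
      simp only [dif, map_add, hτ, sq]
      rfl
    rcases hta.1 (P z₀) with h | h
    · exfalso
      rw [← ha] at hconj
      rw [h] at hconj
      exact hta.2.2 (P.injective (hconj.trans (map_zero P).symm))
    · rw [← ha] at hconj; rw [hconj, h]
  -- the Fitting subgroup has odd order and is not centralized by τ
  haveI : Finite ↥S := inferInstance
  obtain ⟨F, hF⟩ : ∃ F, F = Cfsg.fittingSubgroup ↥S := ⟨_, rfl⟩
  haveI : Fact (Nat.Prime 2) := ⟨Nat.prime_two⟩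
  haveI hFc : F.Characteristic := hF ▸ CfsgLib.Core.fittingSubgroup_characteristic
  have hFodd : ¬ 2 ∣ Nat.card F := by
    intro hd
    have hnil : Group.IsNilpotent F := hF ▸ CfsgLib.Core.isNilpotent_fittingSubgroup
    obtain ⟨Q⟩ : Nonempty (Sylow 2 F) := inferInstance
    haveI := CfsgLib.CNGroup.sylow_normal hnil Q
    haveI := Q.characteristic_of_normal inferInstance
    have hle := CfsgLib.Core.le_pCore (G := ↥S) (p := 2) (N := (Q : Subgroup F).map F.subtype) inferInstance (Q.2.map _)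
    rw [hO2, le_bot_iff, Subgroup.map_eq_bot_iff_of_injective _ F.subtype_injective] at hle
    exact Q.ne_bot_of_dvd_card hd hle
  have hτS : τ ∈ S := hτ ▸ pow_mem hPS 2
  obtain ⟨t, ht⟩ : ∃ t : ↥S, t = ⟨τ, hτS⟩ := ⟨_, rfl⟩
  have htnc : t ∉ Subgroup.centralizer (F : Set ↥S) := by
    intro h
    have hmem : t ∈ F := by
      have hrad : Cfsg.solvableRadical ↥S = ⊤ := eq_top_iff.2 (le_sSup ⟨inferInstance, by
        haveI := hS; infer_instance⟩)
      have := CfsgLib.GenFitting.solvableRadical_inf_centralizer_le (G := ↥S) (show t ∈ _ from ⟨hrad ▸ Subgroup.mem_top t, hF ▸ h⟩)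
      exact hF ▸ this
    have h2 := orderOf_dvd_natCard (⟨t, hmem⟩ : F)
    rw [Subgroup.orderOf_mk, show orderOf t = 2 from orderOf_eq_prime (by rw [sq]; exact Subtype.ext (by rw [ht]; exact hτ2))
      (fun e => hτ1 (by have := congrArg Subtype.val e; rw [ht] at this; exact this))] at h2
    exact hFodd h2
  obtain ⟨y, hyF, hyt⟩ : ∃ y ∈ F, y * t * y⁻¹ ≠ t := by
    by_contra h
    push Not at h
    exact htnc fun y hy => mul_inv_eq_iff_eq_mul.1 (h y hy)
  -- conjugates of τ by the Fitting subgroup multiply into it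
  have hodd : ∀ g ∈ F, ∀ h ∈ F, ∀ u w : V ≃ₗ[ZMod 2] V, u = ((g * t * g⁻¹ : ↥S) : V ≃ₗ[ZMod 2] V) → w = ((h * t * h⁻¹ : ↥S) : V ≃ₗ[ZMod 2] V) →
      (∀ z, u (w (u (w (u (w (u (w z))))))) = z) → u = w := by
    intro g hg h hh u w hu hw hpow
    obtain ⟨x, hx⟩ : ∃ x, x = (g * t * g⁻¹) * (h * t * h⁻¹) := ⟨_, rfl⟩
    have htt : t * t = 1 := Subtype.ext (by rw [ht]; exact hτ2)
    have hxF : x ∈ F := by
      rw [hx, show (g * t * g⁻¹) * (h * t * h⁻¹) = g * (t * (g⁻¹ * h) * t⁻¹) * (t * t) * h⁻¹ by group, htt, mul_one]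
      exact F.mul_mem (F.mul_mem hg (Subgroup.Normal.conj_mem inferInstance _ (F.mul_mem (F.inv_mem hg) hh) t)) (F.inv_mem hh)
    have hx4 : x ^ 4 = 1 := by
      apply Subtype.ext
      apply LinearEquiv.ext
      intro z
      rw [hx, SubgroupClass.coe_pow, Subgroup.coe_mul, ← hu, ← hw]
      simp only [pow_succ, pow_zero, one_mul]
      exact hpow z
    have h1 : orderOf x ∣ Nat.card F := Subgroup.orderOf_mk (H := F) x hxF ▸ orderOf_dvd_natCard _
    have h4 : orderOf x ∣ 2 ^ 2 := orderOf_dvd_of_pow_eq_one hx4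
    have hx1 : x = 1 := orderOf_eq_one_iff.1 (Nat.eq_one_of_dvd_coprimes
      (Nat.Coprime.pow_right 2 ((Nat.Prime.coprime_iff_not_dvd Nat.prime_two).2 hFodd).symm) h1 h4)
    rw [hx] at hx1
    have hw2 : (h * t * h⁻¹) * (h * t * h⁻¹) = 1 := by
      rw [show (h * t * h⁻¹) * (h * t * h⁻¹) = h * (t * t) * h⁻¹ by group, htt]; group
    rw [hu, hw, mul_right_cancel (hx1.trans hw2.symm)]
  have hTv : ∀ (g : ↥S) (u : V ≃ₗ[ZMod 2] V), u = ((g * t * g⁻¹ : ↥S) : V ≃ₗ[ZMod 2] V) → Tv u ((g : V ≃ₗ[ZMod 2] V) a) := by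
    intro g u hu
    have he : ∀ z, dif u ((g : V ≃ₗ[ZMod 2] V) z) = (g : V ≃ₗ[ZMod 2] V) (dif τ z) := by
      intro z
      rw [hu, ht, dif, dif, map_add]
      congr 1
      show (g : V ≃ₗ[ZMod 2] V) (τ ((g : V ≃ₗ[ZMod 2] V)⁻¹ ((g : V ≃ₗ[ZMod 2] V) z))) = _
      rw [show (g : V ≃ₗ[ZMod 2] V)⁻¹ ((g : V ≃ₗ[ZMod 2] V) z) = z from (g : V ≃ₗ[ZMod 2] V).symm_apply_apply z]
    refine ⟨fun z => ?_, by rw [he, hta.2.1, map_zero], fun e => hta.2.2 ((g : V ≃ₗ[ZMod 2] V).injective (e.trans (map_zero _).symm))⟩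
    obtain ⟨z, rfl⟩ := (g : V ≃ₗ[ZMod 2] V).surjective z
    rw [he]
    rcases hta.1 z with h | h <;> rw [h]
    · exact Or.inl (map_zero _)
    · exact Or.inr rfl
  obtain ⟨π, hπ⟩ : ∃ π : ↥S, π = ⟨P, hPS⟩ := ⟨_, rfl⟩
  have hπ2 : π * π = t := Subtype.ext (by rw [hπ, ht]; exact (sq P).symm.trans hτ.symm)
  have hπt : π * t = t * π := by rw [← hπ2, mul_assoc]
  obtain ⟨y', hy'⟩ : ∃ y', y' = π * y * π⁻¹ := ⟨_, rfl⟩
  have hy'F : y' ∈ F := hy' ▸ Subgroup.Normal.conj_mem inferInstance y hyF π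
  obtain ⟨u, hu⟩ : ∃ u, u = ((y * t * y⁻¹ : ↥S) : V ≃ₗ[ZMod 2] V) := ⟨_, rfl⟩
  obtain ⟨w, hw⟩ : ∃ w, w = ((y' * t * y'⁻¹ : ↥S) : V ≃ₗ[ZMod 2] V) := ⟨_, rfl⟩
  have hTu := hTv y u hu
  obtain ⟨b, hb⟩ : ∃ b, b = (y : V ≃ₗ[ZMod 2] V) a := ⟨_, rfl⟩
  rw [← hb] at hTu
  have hy'a : (y' : V ≃ₗ[ZMod 2] V) a = P b := by
    rw [hy', hπ, hb]
    show P ((y : V ≃ₗ[ZMod 2] V) (P⁻¹ a)) = _
    rw [show P⁻¹ a = a from by
      conv_lhs => rw [← hPa]
      exact P.symm_apply_apply a]
  have hTw := hTv y' w hw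
  rw [hy'a] at hTw
  have hne1 : τ ≠ u := fun e => hyt (Subtype.ext (by rw [← hu, ← e, ht]))
  have hwu : ∀ z, w (P z) = P (u z) := by
    intro z
    have e : y' * t * y'⁻¹ * π = π * (y * t * y⁻¹) := by
      calc y' * t * y'⁻¹ * π = π * y * (π⁻¹ * (t * π)) * y⁻¹ := by rw [hy']; group
        _ = π * y * (π⁻¹ * (π * t)) * y⁻¹ := by rw [hπt]
        _ = π * (y * t * y⁻¹) := by group
    have e' := congrArg (fun x : ↥S => (x : V ≃ₗ[ZMod 2] V) z) e
    rw [hw, hu]
    rw [hπ] at e'
    exact e'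
  have h1F : ∀ v : V ≃ₗ[ZMod 2] V, v = τ → v = (((1 : ↥S) * t * 1⁻¹ : ↥S) : V ≃ₗ[ZMod 2] V) := fun v hv => by
    rw [hv, ht]; simp
  have hTt := hta
  -- pairwise products are not of two power order
  have a1 : dif τ b = a ∧ dif u a = b := by
    by_contra h
    apply hne1
    refine hodd 1 F.one_mem y hyF τ u (h1F τ rfl) hu (key hTt hTu ?_)
    rcases hta.1 b with e | e
    · exact Or.inl e
    · rcases hTu.1 a with e' | e'
      · exact Or.inr e'
      · exact absurd ⟨e, e'⟩ h
  have hPb : P (P b) = a + b := by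
    have h := a1.1
    have e : τ b = P (P b) := by rw [hτ, sq]; rfl
    rw [← e, apply_eq τ b, h, add_comm]
  have hne2 : u ≠ w := by
    intro e
    rcases hTw.1 (P a) with h | h
    · rcases hTu.1 b with h' | h'
      · -- the centres agree
        have h2 : dif u a = P b := by
          have := hwu a
          rw [← e, hPa, apply_eq u a, a1.2, map_add, hPa] at this
          rw [a1.2]
          exact add_left_cancel this
        rw [a1.2] at h2
        rw [← h2, ← h2] at hPb
        exact hta.2.2 (by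
          calc a = (a + b) + b := by rw [add_assoc, self_add, add_zero]
            _ = 0 := by rw [← hPb, self_add])
      · exact hTu.2.2 (h'.symm.trans hTu.2.1)
    · rw [hPa] at h
      have h2 : dif u a = P b := by rw [e]; exact h
      rw [a1.2] at h2
      rw [← h2, ← h2] at hPb
      exact hta.2.2 (by
        calc a = (a + b) + b := by rw [add_assoc, self_add, add_zero]
          _ = 0 := by rw [← hPb, self_add])
  have hne3 : τ ≠ w := by
    intro e
    apply hne1
    apply LinearEquiv.ext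
    intro z
    apply P.injective
    rw [← hwu, ← e, hτ, sq]
    rfl
  have a2 : dif τ (P b) = a ∧ dif w a = P b := by
    by_contra h
    apply hne3
    refine hodd 1 F.one_mem y' hy'F τ w (h1F τ rfl) hw (key hTt hTw ?_)
    rcases hta.1 (P b) with e | e
    · exact Or.inl e
    · rcases hTw.1 a with e' | e'
      · exact Or.inr e'
      · exact absurd ⟨e, e'⟩ h
  have a3 : dif u (P b) = b ∧ dif w b = P b := by
    by_contra h
    apply hne2
    refine hodd y hyF y' hy'F u w hu hw (key hTu hTw ?_)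
    rcases hTu.1 (P b) with e | e
    · exact Or.inl e
    · rcases hTw.1 b with e' | e'
      · exact Or.inr e'
      · exact absurd ⟨e, e'⟩ h
  -- the conjugate of u by τ has centre a + b and commutes with w
  obtain ⟨g, hg⟩ : ∃ g, g = t * y * t⁻¹ := ⟨_, rfl⟩
  have hgF : g ∈ F := hg ▸ Subgroup.Normal.conj_mem inferInstance y hyF t
  obtain ⟨s, hs⟩ : ∃ s, s = ((g * t * g⁻¹ : ↥S) : V ≃ₗ[ZMod 2] V) := ⟨_, rfl⟩
  have hTs := hTv g s hs
  have hga : (g : V ≃ₗ[ZMod 2] V) a = a + b := by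
    rw [hg, ht]
    show τ ((y : V ≃ₗ[ZMod 2] V) (τ⁻¹ a)) = _
    rw [show τ⁻¹ = τ from inv_eq_of_mul_eq_one_right hτ2, apply_eq τ a, hta.2.1, add_zero, ← hb, apply_eq τ b, a1.1, add_comm]
  rw [hga] at hTs
  have hsw : s = w := by
    refine hodd g hgF y' hy'F s w hs hw (key hTs hTw (Or.inr ?_))
    rw [dif_add, a2.2, a3.2, self_add]
  have hc : P b = a + b := by
    have h : dif s a = P b := hsw ▸ a2.2
    rcases hTs.1 a with e | e
    · exfalso
      exact hTw.2.2 (h.symm.trans e)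
    · exact h.symm.trans e
  have : P (P b) = b := by
    rw [hc, map_add, hPa, hc, ← add_assoc, self_add, zero_add]
  rw [hPb] at this
  exact hta.2.2 (by simpa using this)


end Cfsg.Agent.S4410
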