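import Cfsg.Statements.S4420

set_option autoImplicit false
open Cfsg

namespace Cfsg.Agent.S4420

/-- Structure of groups in which every element outside some proper subgroup has square 1. Let H be a finite group with a proper subgroup A such that every element outside A has square 1. Then H has an abelian normal subgroup B of index 2 such that every element outside B is an involution inverting every element of B; and if H is not an elementary abelian 2-group, B is the only abelian normal subgroup of index 2 with this property. -/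
theorem result {H : Type*} [Group H] [Finite H] (A : Subgroup H) (hA : A ≠ ⊤) (hD : ∀ x : H, x ∉ A → x ^ 2 = 1) :
    ∃ B : Subgroup H, B.Normal ∧ IsMulCommutative ↥B ∧ B.index = 2 ∧
      (∀ x : H, x ∉ B → x ^ 2 = 1 ∧ ∀ b ∈ B, x * b * x⁻¹ = b⁻¹) ∧
      (¬ (IsMulCommutative H ∧ ∀ x : H, x ^ 2 = 1) →
        ∀ B' : Subgroup H, B'.Normal → IsMulCommutative ↥B' → B'.index = 2 →
          (∀ x : H, x ∉ B' → x ^ 2 = 1 ∧ ∀ b ∈ B', x * b * x⁻¹ = b⁻¹) → B' = B) := by
  classical
  have inv : ∀ x ∉ A, ∀ a ∈ A, x * a * x⁻¹ = a⁻¹ := by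
    intro x hx a ha
    have h1 := hD x hx
    have h2 := hD (x * a) fun h => hx ((A.mul_mem_cancel_right ha).mp h)
    rw [pow_two] at h1 h2
    rw [inv_eq_of_mul_eq_one_right h1]
    refine eq_inv_of_mul_eq_one_left ?_
    calc x * a * x * a = (x * a) * (x * a) := by group
      _ = 1 := h2
  obtain ⟨x, hx⟩ : ∃ x, x ∉ A := by
    by_contra h
    push Not at h
    exact hA (eq_top_iff.mpr fun g _ => h g)
  have hAc : ∀ a ∈ A, ∀ b ∈ A, a * b = b * a := fun a ha b hb => by
    have h := inv x hx _ (A.mul_mem ha hb)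
    rw [mul_inv_rev, ← inv x hx a ha, ← inv x hx b hb] at h
    have h2 : x * (a * b) * x⁻¹ = x * (b * a) * x⁻¹ := by rw [h]; group
    exact mul_left_cancel (mul_right_cancel h2)
  haveI hAm : IsMulCommutative A := ⟨⟨fun a b => Subtype.ext (hAc a a.2 b b.2)⟩⟩
  by_cases hex : ∃ a ∈ A, a⁻¹ ≠ a
  · obtain ⟨a₀, ha₀, ha₀'⟩ := hex
    have hidx : A.index = 2 := by
      rw [Subgroup.index_eq_two_iff]
      refine ⟨x, fun b => ?_⟩
      by_cases hb : b ∈ A
      · exact Or.inr ⟨hb, fun h => hx ((A.mul_mem_cancel_left hb).mp h)⟩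
      · refine Or.inl ⟨?_, hb⟩
        by_contra hbx
        have h1 := inv (b * x) hbx a₀ ha₀
        have h2 : b * (x * a₀ * x⁻¹) * b⁻¹ = a₀⁻¹ := by rw [← h1]; group
        rw [inv x hx a₀ ha₀, inv b hb a₀⁻¹ (A.inv_mem ha₀), inv_inv] at h2
        exact ha₀' h2.symm
    haveI := Subgroup.normal_of_index_eq_two hidx
    refine ⟨A, inferInstance, hAm, hidx, fun y hy => ⟨hD y hy, inv y hy⟩, fun _ B' _ hB' hB'i hB'x => ?_⟩
    have haB : a₀ ∈ B' := by
      by_contra h
      exact ha₀' (inv_eq_of_mul_eq_one_right (by rw [← pow_two]; exact (hB'x a₀ h).1))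
    have hle : B' ≤ A := fun y hy => by
      by_contra hyA
      have h := inv y hyA a₀ ha₀
      have hc : y * a₀ = a₀ * y := congrArg Subtype.val (hB'.is_comm.comm (⟨y, hy⟩ : B') ⟨a₀, haB⟩)
      rw [hc, mul_inv_cancel_right] at h
      exact ha₀' h.symm
    haveI : Finite A := inferInstance
    refine Subgroup.eq_of_le_of_card_ge hle ?_
    have e1 := A.card_mul_index
    have e2 := B'.card_mul_index
    rw [hidx] at e1
    rw [hB'i] at e2
    omega
  · push Not at hex
    have hsq : ∀ y : H, y ^ 2 = 1 := fun y => by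
      by_cases hy : y ∈ A
      · rw [pow_two]; nth_rewrite 1 [← hex y hy]; exact inv_mul_cancel y
      · exact hD y hy
    have hcomm : ∀ a b : H, a * b = b * a := fun a b => by
      have h := hsq (a * b)
      have ha := hsq a
      have hb := hsq b
      rw [pow_two] at h ha hb
      rw [← inv_eq_of_mul_eq_one_right h, mul_inv_rev, inv_eq_of_mul_eq_one_right ha, inv_eq_of_mul_eq_one_right hb]
    haveI : Fact (Nat.Prime 2) := ⟨Nat.prime_two⟩
    haveI hHm : IsMulCommutative H := ⟨⟨hcomm⟩⟩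
    obtain ⟨n, hn⟩ := IsPGroup.iff_card.mp (show IsPGroup 2 H from fun y => ⟨1, by rw [pow_one]; exact hsq y⟩)
    obtain ⟨n', rfl⟩ : ∃ n', n = n' + 1 := by
      rcases n with _ | n
      · exfalso
        haveI : Subsingleton H := (Nat.card_eq_one_iff_unique.mp hn).1
        exact hx (Subsingleton.elim x 1 ▸ A.one_mem)
      · exact ⟨n, rfl⟩
    obtain ⟨B, hB⟩ := Sylow.exists_subgroup_card_pow_prime 2 (G := H) (n := n') (hn ▸ pow_dvd_pow 2 (Nat.le_succ n'))
    have hBi : B.index = 2 := by
      have h := B.card_mul_index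
      rw [hB, hn, pow_succ] at h
      exact Nat.eq_of_mul_eq_mul_left (Nat.two_pow_pos n') h
    haveI := Subgroup.normal_of_index_eq_two hBi
    refine ⟨B, inferInstance, ⟨⟨fun a b => Subtype.ext (hcomm a b)⟩⟩, hBi, fun y _ => ⟨hsq y, fun b _ => ?_⟩, fun h => absurd ⟨hHm, hsq⟩ h⟩
    rw [hcomm y b, mul_inv_cancel_right, eq_comm]
    exact inv_eq_of_mul_eq_one_right (by rw [← pow_two]; exact hsq b)

end Cfsg.Agent.S4420
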