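import Cfsg.Statements.S4517
import Cfsg.Agent.Lib.Blocks.RealBlock
import Cfsg.Agent.Lib.Blocks.BrauerFeit

set_option autoImplicit false
open Cfsg

namespace Cfsg.Agent.S4517

open CfsgLib.Chars CfsgLib.Blocks
open scoped ComplexConjugate

/-- Let G be a finite group, M a maximal ideal of the algebraic integers containing 2, and k a natural number coprime to the order of G with g ^ k = g⁻¹ for every element g of odd order (so that g ↦ g ^ k induces a field automorphism of the character values inverting the roots of unity of odd order). If B is a 2-block of full defect (its defect equals the exponent of 2 in the order of G) that is stable under χ ↦ χ ∘ (· ^ k), then B is the principal 2-block. -/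
theorem result {G : Type*} [Group G] [Finite G] (M : Ideal Cfsg.AlgInt) (hM : Cfsg.IsPModular 2 M) (k : ℕ) (hk : Nat.Coprime k (Nat.card G)) (hk₂ : ∀ g : G, Odd (orderOf g) → g ^ k = g⁻¹) (B : Set (Cfsg.IrrCharacter G)) (hB : Cfsg.IsPBlock M B) (hdef : Cfsg.blockDefect 2 B = (Nat.card G).factorization 2) (hstab : ∀ χ ∈ B, ∃ ψ ∈ B, ∀ g : G, (ψ : G → ℂ) g = (χ : G → ℂ) (g ^ k)) : B = Cfsg.principalBlock M G := by
  haveI := Fintype.ofFinite G
  classical
  obtain ⟨φ, hφ, hφ0⟩ := exists_minExp hM hB
  have e1 := minExp_add_defect (p := 2) hφ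
  have hdeg : ¬ 2 ∣ charDegree (φ : G → ℂ) := by
    intro h
    have := (Nat.prime_two.dvd_iff_one_le_factorization (charDegree_pos φ).ne').mp h
    omega
  obtain ⟨ψ, hψB, hψ⟩ := hstab φ hφ
  have hreg : ∀ x : G, ¬ 2 ∣ orderOf x → (ψ : G → ℂ) x = conj ((φ : G → ℂ) x) := by
    intro x hx
    rw [hψ, hk₂ x (Nat.not_even_iff_odd.mp fun h => hx (even_iff_two_dvd.mp h)),
      IsCharacter.map_inv (isCharacter_irr φ)]
  have hsame : SameBlock M (conjChar φ : G → ℂ) (ψ : G → ℂ) := by
    by_contra hn
    have h0 := regInner_eq_zero hM hn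
    rw [regInner_eq] at h0
    have h1 := (mul_eq_zero.mp h0).resolve_left (inv_ne_zero (natCast_card_ne_zero G))
    rw [Finset.sum_congr rfl fun x hx => by
      rw [show (conjChar φ : G → ℂ) x = (ψ : G → ℂ) x from
        (hreg x (Finset.mem_filter.mp hx).2).symm, Complex.mul_conj]] at h1
    rw [← Complex.ofReal_sum, Complex.ofReal_eq_zero,
      Finset.sum_eq_zero_iff_of_nonneg fun _ _ => Complex.normSq_nonneg _] at h1
    exact irr_one_ne_zero ψ (Complex.normSq_eq_zero.mp
      (h1 1 (Finset.mem_filter.mpr ⟨Finset.mem_univ _, not_dvd_orderOf_one hM⟩)))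
  have hsb : SameBlock M (φ : G → ℂ) (conjChar φ : G → ℂ) :=
    sameBlock_trans hM (IsPBlock.sameBlock hM hB hφ hψB) (sameBlock_symm hsame)
  exact IsPBlock.eq_of_mem hM hB isPBlock_principalBlock hφ
    (mem_principal_of_real hM hdeg hsb)

end Cfsg.Agent.S4517
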