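import Cfsg.Statements.S4518
import Cfsg.Agent.Lib.Chars.Clifford
import Cfsg.Agent.Lib.Chars.GaloisTwist

set_option autoImplicit false
open Cfsg

namespace Cfsg.Agent.S4518

open CfsgLib.Chars

/-- Let N be a normal subgroup of the finite group G whose index is not divisible by the prime p, and let k be coprime to the order of G with k ^ (p ^ e) ≡ 1 modulo the order of G for some e (so g ↦ g ^ k induces a field automorphism of p-power order on character values). If an irreducible character χ of G satisfies χ (g ^ k) = χ g for all g, then every irreducible constituent θ of the restriction of χ to N satisfies θ (n ^ k) = θ n for all n. -/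
theorem result {G : Type*} [Group G] [Fintype G] (p : ℕ) [Fact p.Prime] (N : Subgroup G) [N.Normal] [Fintype N] (hidx : ¬ p ∣ N.index) (k e : ℕ) (hk : Nat.Coprime k (Nat.card G)) (hke : k ^ (p ^ e) ≡ 1 [MOD Nat.card G]) (χ : Cfsg.IrrCharacter G) (hχ : ∀ g : G, (χ : G → ℂ) (g ^ k) = (χ : G → ℂ) g) (θ : Cfsg.IrrCharacter N) (hθ : Cfsg.classInner (fun n : N => (χ : G → ℂ) n) (θ : N → ℂ) ≠ 0) : ∀ n : N, (θ : N → ℂ) (n ^ k) = (θ : N → ℂ) n := by
  classical
  have hkN : Nat.Coprime k (Nat.card N) := hk.coprime_dvd_right (Subgroup.card_subgroup_dvd_card N)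
  set σ : Cfsg.IrrCharacter N → Cfsg.IrrCharacter N := powIrr hkN with hσ
  have hσv : ∀ (η : Cfsg.IrrCharacter N) (n : N), (σ η : N → ℂ) n = (η : N → ℂ) (n ^ k) :=
    fun η n => rfl
  have hcomm : ∀ (η : Cfsg.IrrCharacter N) (x : G), σ (conjIrr N η x) = conjIrr N (σ η) x := by
    intro η x
    apply Subtype.ext; funext n
    rw [hσv, conjIrr_apply, conjIrr_apply, hσv, map_pow]
  have hc : Cfsg.classInner (fun n : N => (χ : G → ℂ) n) (σ θ : N → ℂ) ≠ 0 := by
    have e : Cfsg.classInner (fun n : N => (χ : G → ℂ) n) (σ θ : N → ℂ) =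
        Cfsg.classInner (fun n : N => (χ : G → ℂ) n) (θ : N → ℂ) := by
      simp only [Cfsg.classInner]
      congr 1
      refine Fintype.sum_equiv (powCoprime (G := N) hkN.symm) _ _ fun n => ?_
      rw [powCoprime_apply, hσv, Subgroup.coe_pow, hχ]
    rw [e]; exact hθ
  obtain ⟨g, hg⟩ := clifford_conjugate N χ θ (σ θ) hθ hc
  have hiter : ∀ j : ℕ, σ^[j] θ = conjIrr N θ (g ^ j) := by
    intro j
    induction j with
    | zero => rw [pow_zero, conjIrr_one]; rfl
    | succ j ih =>
      rw [Function.iterate_succ', Function.comp_apply, ih, hcomm, hg, ← conjIrr_mul, ← pow_succ']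
  have hival : ∀ (j : ℕ) (n : N), (σ^[j] θ : N → ℂ) n = (θ : N → ℂ) (n ^ k ^ j) := by
    intro j
    induction j with
    | zero => intro n; simp
    | succ j ih =>
      intro n
      rw [Function.iterate_succ', Function.comp_apply, hσv, ih, ← pow_mul, ← pow_succ']
  let T : Subgroup G :=
    { carrier := {x | conjIrr N θ x = θ}
      one_mem' := conjIrr_one N θ
      mul_mem' := fun {a b} ha hb => by
        show conjIrr N θ (a * b) = θ
        rw [conjIrr_mul, ha, hb]
      inv_mem' := fun {a} ha => by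
        show conjIrr N θ a⁻¹ = θ
        conv_lhs => rw [← ha]
        rw [← conjIrr_mul, mul_inv_cancel, conjIrr_one] }
  have h1 : g ^ (p ^ e) ∈ T := by
    show conjIrr N θ (g ^ p ^ e) = θ
    rw [← hiter]
    apply Subtype.ext; funext n
    rw [hival]
    refine congrArg (θ : N → ℂ) ?_
    calc n ^ k ^ p ^ e = n ^ 1 := by
          rw [pow_eq_pow_iff_modEq]
          exact Nat.ModEq.of_dvd
            ((orderOf_dvd_natCard n).trans (Subgroup.card_subgroup_dvd_card N)) hke
      _ = n := pow_one n
  have h2 : g ^ N.index ∈ T := by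
    show conjIrr N θ (g ^ N.index) = θ
    have hm : g ^ N.index ∈ N := by
      simpa [Subgroup.index] using Subgroup.pow_index_mem N g
    apply Subtype.ext; funext n
    rw [conjIrr_apply]
    have := IsCharacter.isClassFunction (isCharacter_irr θ) n ⟨_, hm⟩
    rw [← this]
    refine congrArg (θ : N → ℂ) ?_
    apply Subtype.ext
    simp [conjN_coe]
  have hgT : g ∈ T := by
    have hcop : Nat.gcd (p ^ e) N.index = 1 :=
      Nat.Coprime.pow_left e ((Fact.out : p.Prime).coprime_iff_not_dvd.mpr hidx)
    have hb := Nat.gcd_eq_gcd_ab (p ^ e) N.index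
    rw [hcop, Nat.cast_one] at hb
    have : g = (g ^ (p ^ e)) ^ Nat.gcdA (p ^ e) N.index * (g ^ N.index) ^ Nat.gcdB (p ^ e) N.index := by
      rw [← zpow_natCast g (p ^ e), ← zpow_natCast g N.index, ← zpow_mul, ← zpow_mul, ← zpow_add, ← hb, zpow_one]
    rw [this]
    exact T.mul_mem (T.zpow_mem h1 _) (T.zpow_mem h2 _)
  intro n
  have := hg.trans (show conjIrr N θ g = θ from hgT)
  exact (hσv θ n).symm.trans (congrFun (congrArg Subtype.val this) n)

end Cfsg.Agent.S4518
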