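import Cfsg.Statements.S4520
import Cfsg.Agent.Lib.Blocks.PrincipalFixed
import Cfsg.Agent.Lib.Blocks.RealBlock
import Cfsg.Agent.Lib.FixedOverOdd
import Cfsg.Agent.Lib.CharDegree
import Cfsg.Agent.Lib.Blocks.Cover

set_option autoImplicit false
open Cfsg

namespace Cfsg.Agent.S4520

open CfsgLib.Chars CfsgLib.Blocks

open scoped ComplexConjugate
set_option maxHeartbeats 400000
universe u

variable {G : Type u} [Group G] [Fintype G] (N : Subgroup G) [N.Normal] [Fintype N]

theorem deg_factor (θ : IrrCharacter N) (χ : IrrCharacter G)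
    (hχ : classInner (fun n : N => (χ : G → ℂ) n) (θ : N → ℂ) ≠ 0) :
    ∃ a c : ℕ, classInner (fun n : N => (χ : G → ℂ) n) (θ : N → ℂ) = a ∧
      charDegree (χ : G → ℂ) = a * c * charDegree (θ : N → ℂ) ∧ a * c ∣ N.index := by
  obtain ⟨a, -, hm, -, hdeg⟩ := clifford N χ θ hχ
  obtain ⟨T', e, hNT, hmem, hdeg', he⟩ := CfsgLib.CharDegree.exists_inertia N θ χ hχ
  have heq : a * (orbit N θ).card = T'.index * e := by
    refine Nat.eq_of_mul_eq_mul_right (charDegree_pos θ) ?_
    rw [← hdeg', hdeg]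
  refine ⟨a, (orbit N θ).card, hm, by rw [hdeg], ?_⟩
  rw [heq, ← Subgroup.relIndex_mul_index hNT, mul_comm (N.relIndex T') T'.index]
  exact Nat.mul_dvd_mul_left _ he

open Classical in
theorem key (hidx : Odd N.index) (B : Set (IrrCharacter G)) (θ : IrrCharacter N) :
    ∃ S : ℕ, (S : ℂ) = (N.index : ℂ) * omega (θ : N → ℂ) (fun n : N => blockCoeff B (n : G)) ∧
      S % 2 = (Finset.univ.filter (fun χ : IrrCharacter G => χ ∈ B ∧
        classInner (fun n : N => (χ : G → ℂ) n) (θ : N → ℂ) ≠ 0)).card % 2 := by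
  choose m hm using fun χ : IrrCharacter G => exists_mult (IsCharacter.restrict (isCharacter_irr χ) N) θ
  set X := Finset.univ.filter (fun χ : IrrCharacter G => χ ∈ B ∧
    classInner (fun n : N => (χ : G → ℂ) n) (θ : N → ℂ) ≠ 0) with hX
  refine ⟨∑ χ ∈ X, m χ * (charDegree (χ : G → ℂ) / charDegree (θ : N → ℂ)), ?_, ?_⟩
  · have hθ0 : (θ : N → ℂ) 1 ≠ 0 := irr_one_ne_zero θ
    have hterm : ∀ χ ∈ X, ((m χ * (charDegree (χ : G → ℂ) / charDegree (θ : N → ℂ)) : ℕ) : ℂ) *
        (θ : N → ℂ) 1 = (m χ : ℂ) * (χ : G → ℂ) 1 := fun χ hχ => by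
      obtain ⟨a, c, ha, hd, -⟩ := deg_factor N θ χ (Finset.mem_filter.mp hχ).2.2
      rw [irr_apply_one, irr_apply_one, hd, Nat.mul_div_cancel _ (charDegree_pos θ)]
      push_cast
      ring
    have hG : (Nat.card G : ℂ) ≠ 0 := natCast_card_ne_zero G
    have hN : (Nat.card N : ℂ) ≠ 0 := natCast_card_ne_zero N
    have hidx' : (N.index : ℂ) * (Nat.card N : ℂ) = (Nat.card G : ℂ) := by
      rw [← Nat.cast_mul, mul_comm, N.card_mul_index]
    have hall : ∑ χ ∈ X, (m χ : ℂ) * (χ : G → ℂ) 1 =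
        ∑ χ ∈ Finset.univ.filter (· ∈ B), (m χ : ℂ) * (χ : G → ℂ) 1 := by
      refine Finset.sum_subset (fun χ hχ => Finset.mem_filter.mpr
        ⟨Finset.mem_univ _, (Finset.mem_filter.mp hχ).2.1⟩) fun χ hχ hn => ?_
      simp only [X, Finset.mem_filter, Finset.mem_univ, true_and, not_and, not_not] at hχ hn
      have h0 := hn hχ
      rw [hm] at h0
      rw [h0, zero_mul]
    have hinner : ∀ χ : IrrCharacter G, ∑ n : N, conj ((χ : G → ℂ) n) * (θ : N → ℂ) n =
        (Nat.card N : ℂ) * (m χ : ℂ) := fun χ => by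
      rw [← Complex.conj_natCast (m χ), ← hm, classInner, map_mul, map_inv₀, Complex.conj_natCast,
        map_sum, ← mul_assoc, mul_inv_cancel₀ hN, one_mul]
      exact Finset.sum_congr rfl fun n _ => by rw [map_mul, Complex.conj_conj]
    rw [omega, mul_div_assoc', eq_div_iff hθ0, Nat.cast_sum, Finset.sum_mul,
      Finset.sum_congr rfl hterm, hall]
    simp only [blockCoeff_eq_sum, mul_assoc, Finset.sum_mul, Finset.mul_sum]
    rw [Finset.sum_comm]
    refine Finset.sum_congr rfl fun χ _ => ?_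
    simp only [← Finset.mul_sum, hinner]
    field_simp
    rw [← hidx']
    ring
  · rw [Finset.sum_nat_mod, Finset.sum_congr rfl (g := fun _ => 1), Finset.sum_const, smul_eq_mul,
      mul_one]
    intro χ hχ
    obtain ⟨a, c, ha, hd, hdvd⟩ := deg_factor N θ χ (Finset.mem_filter.mp hχ).2.2
    have hma : m χ = a := by exact_mod_cast (hm χ).symm.trans ha
    rw [hma, hd, Nat.mul_div_cancel _ (charDegree_pos θ)]
    have hac := hidx.of_dvd_nat hdvd
    exact Nat.odd_iff.mp ((Nat.odd_mul.mp hac).1.mul hac)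

theorem powIrr_over {k : ℕ} (hk : k.Coprime (Nat.card G)) (θ : IrrCharacter N)
    (hθ : ∀ n : N, (θ : N → ℂ) (n ^ k) = (θ : N → ℂ) n) {χ : IrrCharacter G}
    (h : classInner (fun n : N => (χ : G → ℂ) n) (θ : N → ℂ) ≠ 0) :
    classInner (fun n : N => (powIrr hk χ : G → ℂ) n) (θ : N → ℂ) ≠ 0 := by
  have hkN : (Nat.card N).Coprime k := (hk.coprime_dvd_right (Subgroup.card_subgroup_dvd_card N)).symm
  have e : classInner (fun n : N => (powIrr hk χ : G → ℂ) n) (θ : N → ℂ) =
      classInner (fun n : N => (χ : G → ℂ) n) (θ : N → ℂ) := by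
    simp only [classInner]
    congr 1
    refine Fintype.sum_equiv (powCoprime hkN) _ _ fun n => ?_
    rw [powCoprime_apply, hθ, SubgroupClass.coe_pow]
    rfl
  rwa [e]

open Classical in
theorem odd_trivial_count {M : Ideal AlgInt} (hM : IsPModular 2 M) (hidx : Odd N.index) :
    Odd (Finset.univ.filter (fun χ : IrrCharacter G => χ ∈ principalBlock M G ∧
        classInner (fun n : N => (χ : G → ℂ) n) (trivIrr N : N → ℂ) ≠ 0)).card := by
  set X := Finset.univ.filter (fun χ : IrrCharacter G => χ ∈ principalBlock M G ∧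
    classInner (fun n : N => (χ : G → ℂ) n) (trivIrr N : N → ℂ) ≠ 0) with hX
  have htriv : trivIrr G ∈ X := by
    simp only [X, Finset.mem_filter, Finset.mem_univ, true_and]
    refine ⟨self_mem_blockOf hM (trivIrr G), ?_⟩
    rw [show (fun n : N => (trivIrr G : G → ℂ) n) = (trivIrr N : N → ℂ) from rfl, classInner_irr,
      if_pos rfl]
    exact one_ne_zero
  have hconj : ∀ χ ∈ X, conjChar χ ∈ X := by
    intro χ hχ
    simp only [X, Finset.mem_filter, Finset.mem_univ, true_and] at hχ ⊢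
    refine ⟨?_, fun h0 => hχ.2 ?_⟩
    · have h := sameBlock_conjChar (χ := trivIrr G) (ψ := χ) hχ.1
      rwa [show conjChar (trivIrr G) = trivIrr G from
        Subtype.ext (funext fun g => map_one (starRingEnd ℂ))] at h
    · have h1 := congrArg conj h0
      rw [map_zero] at h1
      rw [← h1]
      simp [classInner, conjChar, trivIrr, map_sum]
  have hfix : ∀ χ ∈ X, conjChar χ = χ → χ = trivIrr G := by
    intro χ hχ hreal
    simp only [X, Finset.mem_filter, Finset.mem_univ, true_and] at hχ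
    obtain ⟨χ₁, -, hu⟩ := CfsgLib.FixedOverOdd.unique_fixed (k := Nat.card G - 1)
      (Nat.coprime_self_sub_left (Nat.card_pos (α := G)) |>.mpr (Nat.coprime_one_left _))
      (fun g _ => eq_inv_of_mul_eq_one_left (by
        rw [← pow_succ, Nat.sub_add_cancel Nat.card_pos, pow_card_eq_one']))
      N hidx (trivIrr N) (fun n => rfl)
    have hinv : ∀ g : G, g ^ (Nat.card G - 1) = g⁻¹ := fun g => eq_inv_of_mul_eq_one_left (by
      rw [← pow_succ, Nat.sub_add_cancel Nat.card_pos, pow_card_eq_one'])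
    refine (hu χ hχ.2 fun g => ?_).trans (hu (trivIrr G) ?_ fun g => rfl).symm
    · rw [hinv, IsCharacter.map_inv (isCharacter_irr χ)]
      exact congrFun (congrArg Subtype.val hreal) g
    · exact (Finset.mem_filter.mp htriv).2.2
  have hsum : ∑ _χ ∈ X.erase (trivIrr G), (1 : ZMod 2) = 0 := by
    refine Finset.sum_involution (fun χ _ => conjChar χ) (fun χ _ => by decide)
      (fun χ hχ _ h => (Finset.mem_erase.mp hχ).1 (hfix χ (Finset.mem_erase.mp hχ).2 h))
      (fun χ hχ => Finset.mem_erase.mpr ⟨fun h => (Finset.mem_erase.mp hχ).1 ?_,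
        hconj χ (Finset.mem_erase.mp hχ).2⟩)
      (fun χ _ => conjChar_conjChar χ)
    rw [← conjChar_conjChar χ, h]
    exact Subtype.ext (funext fun g => map_one (starRingEnd ℂ))
  rw [Finset.sum_const, nsmul_one, ZMod.natCast_eq_zero_iff_even] at hsum
  rw [← Finset.card_erase_add_one htriv]
  exact hsum.add_one

/-- Let N be a normal subgroup of odd index in the finite group G, M a maximal ideal of the algebraic integers containing 2, and k coprime to the order of G with k ^ (2 ^ e) ≡ 1 modulo the order of G for some e and g ^ k = g⁻¹ for every element g of odd order. Let θ be an irreducible character of N and χ an irreducible character of G over θ, both unchanged by composing with g ↦ g ^ k. Then χ lies in the principal 2-block of G if and only if θ lies in the principal 2-block of N. -/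
theorem result {G : Type*} [Group G] [Fintype G] (M : Ideal Cfsg.AlgInt) (hM : Cfsg.IsPModular 2 M) (N : Subgroup G) [N.Normal] [Fintype N] (hidx : Odd N.index) (k e : ℕ) (hk : Nat.Coprime k (Nat.card G)) (hke : k ^ (2 ^ e) ≡ 1 [MOD Nat.card G]) (hk₂ : ∀ g : G, Odd (orderOf g) → g ^ k = g⁻¹) (θ : Cfsg.IrrCharacter N) (hθ : ∀ n : N, (θ : N → ℂ) (n ^ k) = (θ : N → ℂ) n) (χ : Cfsg.IrrCharacter G) (hχ : ∀ g : G, (χ : G → ℂ) (g ^ k) = (χ : G → ℂ) g) (hover : Cfsg.classInner (fun n : N => (χ : G → ℂ) n) (θ : N → ℂ) ≠ 0) : χ ∈ Cfsg.principalBlock M G ↔ θ ∈ Cfsg.principalBlock M N := by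
  classical
  have h2 : (2 : ℕ).Prime := Nat.prime_two
  have hcov : ∀ ξ : Cfsg.IrrCharacter G, ξ ∈ Cfsg.principalBlock M G → ∀ η : Cfsg.IrrCharacter N,
      Cfsg.classInner (fun n : N => (ξ : G → ℂ) n) (η : N → ℂ) ≠ 0 →
      η ∈ Cfsg.principalBlock M N := by
    intro ξ hξ η hη
    obtain ⟨g, hg⟩ := constituent_mem_blockOrbit N hM (isPBlock_principalBlock (M := M) (G := N))
      (self_mem_blockOf hM (trivIrr N)) (χ := ξ)
      (mli_centralChar_of_cover N hM (isPBlock_principalBlock (M := M) (G := G))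
        (isPBlock_principalBlock (M := M) (G := N)) (self_mem_blockOf hM (trivIrr G))
        (self_mem_blockOf hM (trivIrr N)) (by
          rw [show (fun n : N => (trivIrr G : G → ℂ) n) = (trivIrr N : N → ℂ) from rfl, classInner_irr,
            if_pos rfl]
          exact one_ne_zero) hξ (self_mem_blockOf hM (trivIrr N))) hη
    have h := sameBlock_conjIrr N (θ := trivIrr N) (ψ := conjIrr N η g) hg g⁻¹
    rw [conjIrr_inv_cancel, show conjIrr N (trivIrr N) g⁻¹ = trivIrr N from Subtype.ext rfl] at h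
    exact h
  refine ⟨fun hχB => hcov χ hχB θ hover, fun hθB => ?_⟩
  obtain ⟨S₀, hS₀, hpar₀⟩ := key N hidx (Cfsg.principalBlock M G) (trivIrr N)
  obtain ⟨S, hS, hpar⟩ := key N hidx (Cfsg.principalBlock M G) θ
  have hodd₀ : Odd S₀ := Nat.odd_iff.mpr (hpar₀.trans (Nat.odd_iff.mp (odd_trivial_count N hM hidx)))
  have hmod : MemLocalIdeal M ((S : ℂ) - (S₀ : ℂ)) := by
    rw [hS, hS₀, ← mul_sub]
    refine mli_mul_left hM (mlr_natCast hM _) ?_
    have := mli_omega_sub hM (χ := trivIrr N) (ψ := θ) hθB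
      (f := fun n : N => blockCoeff (principalBlock M G) (n : G))
      (fun n m => blockCoeff_isClassFunction _ (n : G) (m : G))
      (fun n => mlr_blockCoeff hM isPBlock_principalBlock _)
    have := mli_neg this
    rwa [neg_sub] at this
  have hodd : Odd S := by
    have h : MemLocalIdeal M (((S : ℤ) - (S₀ : ℤ) : ℤ) : ℂ) := by push_cast; exact hmod
    rw [mli_intCast_iff hM] at h
    rw [Nat.odd_iff] at hodd₀ ⊢
    omega
  set X := Finset.univ.filter (fun ξ : Cfsg.IrrCharacter G => ξ ∈ Cfsg.principalBlock M G ∧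
    Cfsg.classInner (fun n : N => (ξ : G → ℂ) n) (θ : N → ℂ) ≠ 0) with hX
  have hXodd : ¬ 2 ∣ Nat.card X := by
    rw [Nat.card_eq_finsetCard]
    have := Nat.odd_iff.mp hodd
    omega
  let σ : X → X := fun ξ => ⟨powIrr hk ξ.1, Finset.mem_filter.mpr ⟨Finset.mem_univ _,
    PrincipalFixed.powIrr_mem hk (Finset.mem_filter.mp ξ.2).2.1,
    powIrr_over N hk θ hθ (Finset.mem_filter.mp ξ.2).2.2⟩⟩
  have hval : ∀ (j : ℕ) (ξ : X) (y : G), ((σ^[j] ξ).1 : G → ℂ) y = (ξ.1 : G → ℂ) (y ^ k ^ j) := by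
    intro j
    induction j with
    | zero => intro ξ y; simp
    | succ j ih =>
      intro ξ y
      rw [Function.iterate_succ_apply, ih]
      show (ξ.1 : G → ℂ) ((y ^ k ^ j) ^ k) = _
      rw [← pow_mul, pow_succ]
  have hσm : ∀ ξ, σ^[2 ^ e] ξ = ξ := fun ξ => by
    refine Subtype.ext (Subtype.ext (funext fun y => ?_))
    rw [hval]
    conv_rhs => rw [← pow_one y]
    exact congrArg _ (pow_eq_pow_iff_modEq.mpr (hke.of_dvd (orderOf_dvd_natCard y)))
  let e' : Equiv.Perm X := Equiv.ofBijective σ <| by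
    have hb : Function.Bijective σ^[2 ^ e] := by
      rw [show σ^[2 ^ e] = id from funext hσm]; exact Function.bijective_id
    obtain ⟨q, hq⟩ := Nat.exists_eq_succ_of_ne_zero (pow_ne_zero e h2.ne_zero)
    rw [hq] at hb
    exact ⟨(Function.iterate_succ σ q ▸ hb.1 : Function.Injective (σ^[q] ∘ σ)).of_comp,
      (Function.iterate_succ' σ q ▸ hb.2 : Function.Surjective (σ ∘ σ^[q])).of_comp⟩
  have he : e' ^ 2 ^ e = 1 := by
    refine Equiv.ext fun ξ => ?_
    rw [Equiv.Perm.coe_pow, Equiv.Perm.one_apply]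
    exact hσm ξ
  haveI := Fact.mk h2
  have hZ : IsPGroup 2 (Subgroup.zpowers e') := fun x => ⟨e, by
    obtain ⟨z, hz⟩ := Subgroup.mem_zpowers_iff.mp x.2
    refine Subtype.ext ?_
    rw [SubgroupClass.coe_pow, ← hz, ← zpow_natCast, ← zpow_mul, mul_comm, zpow_mul,
      zpow_natCast, he, one_zpow, OneMemClass.coe_one]⟩
  obtain ⟨ξ, hξ⟩ := hZ.nonempty_fixed_point_of_prime_not_dvd_card _ hXodd
  have hfξ : σ ξ = ξ := hξ ⟨e', Subgroup.mem_zpowers e'⟩
  obtain ⟨χ₁, -, hu⟩ := CfsgLib.FixedOverOdd.unique_fixed hk hk₂ N hidx θ hθ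
  have e1 := hu χ hover hχ
  have e2 := hu ξ.1 (Finset.mem_filter.mp ξ.2).2.2
    (fun g => congrFun (congrArg Subtype.val (congrArg Subtype.val hfξ)) g)
  rw [e1, ← e2]
  exact (Finset.mem_filter.mp ξ.2).2.1

end Cfsg.Agent.S4520
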