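import Cfsg.Statements.S4521
import Cfsg.Agent.Lib.Blocks.Orth
import Cfsg.Agent.Lib.Chars.Clifford
import Cfsg.Agent.Lib.Chars.Central

set_option autoImplicit false
open Cfsg

namespace Cfsg.Agent.S4521

open scoped ComplexConjugate
open CfsgLib.Chars CfsgLib.Blocks

universe u

variable {G : Type u} [Group G] [Fintype G] {p : ℕ} {M : Ideal AlgInt}

theorem criterion (hM : IsPModular p M) (χ : IrrCharacter G)
    (h : ∀ g : G, ¬ p ∣ orderOf g →
      MemLocalIdeal M (centralChar (χ : G → ℂ) g - centralChar (trivIrr G : G → ℂ) g)) :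
    χ ∈ principalBlock M G := by
  classical
  haveI : Finite (ConjClasses G) := Finite.of_surjective _ ConjClasses.mk_surjective
  haveI : Fintype (ConjClasses G) := Fintype.ofFinite _
  set B := principalBlock M G
  have hB : IsPBlock M B := ⟨trivIrr G, rfl⟩
  by_contra hn
  apply not_mli_one hM
  have h1 := omega_blockCoeff B (trivIrr G)
  rw [indic_of_mem (show trivIrr G ∈ B from self_mem_blockOf hM (trivIrr G)),
    omega_eq_sum_centralChar (IsCharacter.isClassFunction (isCharacter_irr _)) (blockCoeff_isClassFunction B)] at h1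
  have h2 := omega_blockCoeff B χ
  rw [indic_of_notMem hn,
    omega_eq_sum_centralChar (IsCharacter.isClassFunction (isCharacter_irr _)) (blockCoeff_isClassFunction B)] at h2
  have h3 : MemLocalIdeal M (∑ c : ConjClasses G, blockCoeff B c.out *
      (centralChar (χ : G → ℂ) c.out - centralChar (trivIrr G : G → ℂ) c.out)) := mli_sum hM _ fun c _ => by
    by_cases hc : p ∣ orderOf c.out
    · rw [blockCoeff_eq_zero_of_singular hM hB hc, zero_mul]; exact mli_zero hM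
    · exact mli_mul_left hM (mlr_blockCoeff hM hB _) (h _ hc)
  simp only [mul_sub, Finset.sum_sub_distrib] at h3
  rw [h1, h2, zero_sub] at h3
  simpa using mli_neg h3

theorem normal_of_central (U V : Subgroup G) (hcomm : ∀ u ∈ U, ∀ v ∈ V, u * v = v * u)
    (hgen : U ⊔ V = ⊤) : U.Normal := by
  rw [← Subgroup.normalizer_eq_top_iff, eq_top_iff, ← hgen]
  refine sup_le Subgroup.le_normalizer (le_trans ?_ (Subgroup.centralizer_le_normalizer _))
  exact fun v hv => Subgroup.mem_centralizer_iff.mpr fun u hu => hcomm u hu v hv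

theorem decomp (U V : Subgroup G) (hcomm : ∀ u ∈ U, ∀ v ∈ V, u * v = v * u) (hgen : U ⊔ V = ⊤) (g : G) :
    ∃ u ∈ U, ∃ v ∈ V, g = u * v := by
  haveI := normal_of_central U V hcomm hgen
  have h : g ∈ ((U ⊔ V : Subgroup G) : Set G) := by rw [hgen]; exact Subgroup.mem_top g
  rw [Subgroup.normal_mul] at h
  obtain ⟨u, hu, v, hv, rfl⟩ := Set.mem_mul.mp h
  exact ⟨u, hu, v, hv, rfl⟩

theorem conj_inner (U V : Subgroup G) (hcomm : ∀ u ∈ U, ∀ v ∈ V, u * v = v * u) (hgen : U ⊔ V = ⊤)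
    {u : G} (hu : u ∈ U) (g : G) : ∃ a ∈ U, g * u * g⁻¹ = a * u * a⁻¹ := by
  obtain ⟨a, ha, b, hb, rfl⟩ := decomp U V hcomm hgen g
  refine ⟨a, ha, ?_⟩
  calc a * b * u * (a * b)⁻¹ = a * (b * u) * b⁻¹ * a⁻¹ := by group
    _ = a * (u * b) * b⁻¹ * a⁻¹ := by rw [hcomm u hu b hb]
    _ = _ := by group

theorem index_sub (U V : Subgroup G) (hcomm : ∀ u ∈ U, ∀ v ∈ V, u * v = v * u) (hgen : U ⊔ V = ⊤)
    [Fintype U] (u : U) : (Subgroup.centralizer ({(u : G)} : Set G)).index =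
      (Subgroup.centralizer ({u} : Set U)).index := by
  rw [← card_isConj_eq_index, ← card_isConj_eq_index]
  have hmem : ∀ {g : G}, IsConj (u : G) g → ∃ y : U, IsConj u y ∧ (y : G) = g := by
    intro g hg
    obtain ⟨c, rfl⟩ := isConj_iff.mp hg
    obtain ⟨a, ha, e⟩ := conj_inner U V hcomm hgen u.2 c
    exact ⟨⟨a, ha⟩ * u * ⟨a, ha⟩⁻¹, isConj_iff.mpr ⟨⟨a, ha⟩, rfl⟩, e.symm⟩
  symm
  refine Nat.card_congr (Equiv.ofBijective (fun y : {y : U // IsConj u y} =>
    (⟨(y.1 : G), (U.subtype.map_isConj y.2 : IsConj (u : G) (y.1 : G))⟩ : {g : G // IsConj (u : G) g})) ⟨?_, ?_⟩)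
  · intro a b hab
    have h := Subtype.ext_iff.mp hab
    exact Subtype.ext (Subtype.ext h)
  · rintro ⟨g, hg⟩
    obtain ⟨y, hy, rfl⟩ := hmem hg
    exact ⟨⟨y, hy⟩, rfl⟩

theorem central_sub (U V : Subgroup G) (hcomm : ∀ u ∈ U, ∀ v ∈ V, u * v = v * u) (hgen : U ⊔ V = ⊤)
    [Fintype U] (χ : IrrCharacter G) (ψ : IrrCharacter U)
    (h : classInner (fun u : U => (χ : G → ℂ) u) (ψ : U → ℂ) ≠ 0) (u : U) :
    centralChar (χ : G → ℂ) (u : G) = centralChar (ψ : U → ℂ) u := by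
  classical
  haveI := normal_of_central U V hcomm hgen
  obtain ⟨e, he, -, hval, hdeg⟩ := clifford U χ ψ h
  have horb : orbit U ψ = {ψ} := by
    refine Finset.eq_singleton_iff_unique_mem.mpr ⟨(mem_orbit U).mpr ⟨1, (conjIrr_one U ψ).symm⟩, ?_⟩
    intro φ hφ
    obtain ⟨g, rfl⟩ := (mem_orbit U).mp hφ
    refine Subtype.ext (funext fun k => ?_)
    rw [conjIrr_apply]
    obtain ⟨a, ha, e'⟩ := conj_inner U V hcomm hgen k.2 g
    rw [show conjN U g k = ⟨a, ha⟩ * k * ⟨a, ha⟩⁻¹ from Subtype.ext (by rw [conjN_coe]; exact e')]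
    exact IsCharacter.isClassFunction (isCharacter_irr ψ) k ⟨a, ha⟩
  have e1 : (χ : G → ℂ) (u : G) = (e : ℂ) * (ψ : U → ℂ) u := by rw [hval u, horb, Finset.sum_singleton]
  have e2 : (χ : G → ℂ) 1 = (e : ℂ) * (ψ : U → ℂ) 1 := by
    have := hval 1
    rw [horb, Finset.sum_singleton] at this
    exact this
  rw [centralChar, centralChar, e1, e2, index_sub U V hcomm hgen u, mul_left_comm,
    mul_div_mul_left _ _ (Nat.cast_ne_zero.mpr he.ne' : (e : ℂ) ≠ 0)]

theorem central_mul (hM : IsPModular p M) (U V : Subgroup G) (hcomm : ∀ u ∈ U, ∀ v ∈ V, u * v = v * u)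
    (hgen : U ⊔ V = ⊤) (hZ : IsPGroup p ↥(U ⊓ V)) (χ : IrrCharacter G) {u v : G} (hu : u ∈ U) (hv : v ∈ V)
    (hur : ¬ p ∣ orderOf u) :
    centralChar (χ : G → ℂ) (u * v) = centralChar (χ : G → ℂ) u * centralChar (χ : G → ℂ) v := by
  classical
  haveI := normal_of_central U V hcomm hgen
  haveI := normal_of_central V U (fun a ha b hb => (hcomm b hb a ha).symm) (by rw [sup_comm, hgen])
  have hcl := IsCharacter.isClassFunction (isCharacter_irr χ)
  rw [← omega_classInd hcl, ← omega_classInd hcl u, ← omega_classInd hcl v,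
    ← omega_conv χ (classInd_isClassFunction u) (classInd_isClassFunction v)]
  congr 1
  funext x
  simp only [CfsgLib.Chars.conv, classInd]
  have hfac : ∀ y, IsConj u y → IsConj v (y⁻¹ * x) → y ∈ U ∧ y⁻¹ * x ∈ V := by
    intro y hy hw
    obtain ⟨c, rfl⟩ := isConj_iff.mp hy
    obtain ⟨d, hd⟩ := isConj_iff.mp hw
    exact ⟨Subgroup.Normal.conj_mem ‹U.Normal› u hu c, hd ▸ Subgroup.Normal.conj_mem ‹V.Normal› v hv d⟩
  have huniq : ∀ y y', IsConj u y → IsConj v (y⁻¹ * x) → IsConj u y' → IsConj v (y'⁻¹ * x) → y = y' := by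
    intro y y' hy hw hy' hw'
    obtain ⟨hyU, hwV⟩ := hfac y hy hw
    obtain ⟨hyU', hwV'⟩ := hfac y' hy' hw'
    have hz : y⁻¹ * y' ∈ U ⊓ V := ⟨U.mul_mem (U.inv_mem hyU) hyU', by
      rw [show y⁻¹ * y' = (y⁻¹ * x) * (y'⁻¹ * x)⁻¹ by group]
      exact V.mul_mem hwV (V.inv_mem hwV')⟩
    have hc : Commute y (y⁻¹ * y') := hcomm y hyU _ hz.2
    obtain ⟨k, hk⟩ := hZ ⟨_, hz⟩
    have h1 : (y⁻¹ * y') ^ p ^ k = 1 := congrArg Subtype.val hk
    have hoy : ∀ w, IsConj u w → w ^ orderOf u = 1 := by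
      intro w hw
      obtain ⟨c, rfl⟩ := isConj_iff.mp hw
      rw [conj_pow, pow_orderOf_eq_one, mul_one, mul_inv_cancel]
    have h2 : (y⁻¹ * y') ^ orderOf u = 1 := by
      have := hc.mul_pow (orderOf u)
      rw [mul_inv_cancel_left, hoy y' hy', hoy y hy, one_mul] at this
      exact this.symm
    exact inv_mul_eq_one.mp (orderOf_eq_one_iff.mp (Nat.eq_one_of_dvd_coprimes
      (Nat.Coprime.pow_left k ((hM.1.coprime_iff_not_dvd).mpr hur))
      (orderOf_dvd_of_pow_eq_one h1) (orderOf_dvd_of_pow_eq_one h2)))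
  by_cases hx : IsConj (u * v) x
  · rw [if_pos hx]
    obtain ⟨c, hc⟩ := isConj_iff.mp hx
    have h1 : IsConj u (c * u * c⁻¹) := isConj_iff.mpr ⟨c, rfl⟩
    have h2 : IsConj v ((c * u * c⁻¹)⁻¹ * x) := isConj_iff.mpr ⟨c, by rw [← hc]; group⟩
    rw [Finset.sum_eq_single (c * u * c⁻¹)]
    · rw [if_pos h1, if_pos h2, mul_one]
    · intro y _ hy
      by_cases a1 : IsConj u y
      · by_cases a2 : IsConj v (y⁻¹ * x)
        · exact absurd (huniq y _ a1 a2 h1 h2) hy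
        · rw [if_neg a2, mul_zero]
      · rw [if_neg a1, zero_mul]
    · exact fun h => absurd (Finset.mem_univ _) h
  · rw [if_neg hx]
    symm
    refine Finset.sum_eq_zero fun y _ => ?_
    by_cases a1 : IsConj u y
    · by_cases a2 : IsConj v (y⁻¹ * x)
      · obtain ⟨a, rfl⟩ := isConj_iff.mp a1
        obtain ⟨b, hb⟩ := isConj_iff.mp a2
        obtain ⟨a', ha', e1⟩ := conj_inner U V hcomm hgen hu a
        obtain ⟨b', hb', e2⟩ := conj_inner V U (fun a ha b hb => (hcomm b hb a ha).symm)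
          (by rw [sup_comm, hgen]) hv b
        refine absurd (isConj_iff.mpr ⟨a' * b', ?_⟩) hx
        have hx' : x = (a' * u * a'⁻¹) * (b' * v * b'⁻¹) := by
          rw [← e1, ← e2, hb, mul_inv_cancel_left]
        rw [hx']
        calc a' * b' * (u * v) * (a' * b')⁻¹ = a' * (b' * u) * v * b'⁻¹ * a'⁻¹ := by group
          _ = a' * (u * b') * v * b'⁻¹ * a'⁻¹ := by rw [hcomm u hu b' hb']
          _ = a' * u * ((b' * v * b'⁻¹) * a'⁻¹) := by group
          _ = a' * u * (a'⁻¹ * (b' * v * b'⁻¹)) := by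
              rw [hcomm a'⁻¹ (U.inv_mem ha') _ (V.mul_mem (V.mul_mem hb' hv) (V.inv_mem hb'))]
          _ = _ := by group
      · rw [if_neg a2, mul_zero]
    · rw [if_neg a1, zero_mul]

theorem regular_parts (hM : IsPModular p M) (U V : Subgroup G) (hcomm : ∀ u ∈ U, ∀ v ∈ V, u * v = v * u)
    (hgen : U ⊔ V = ⊤) {g : G} (hg : ¬ p ∣ orderOf g) :
    ∃ u ∈ U, ∃ v ∈ V, g = u * v ∧ ¬ p ∣ orderOf u ∧ ¬ p ∣ orderOf v := by
  obtain ⟨u, hu, v, hv, rfl⟩ := decomp U V hcomm hgen g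
  set N := (Nat.card G).factorization p
  obtain ⟨s, hs⟩ := exists_pow_eq_self_of_coprime (x := u * v) (n := p ^ N)
    (Nat.Coprime.pow_left N ((hM.1.coprime_iff_not_dvd).mpr hg))
  have hreg : ∀ w : G, ¬ p ∣ orderOf ((w ^ p ^ N) ^ s) := by
    intro w h
    have h1 : (w ^ p ^ N) ^ (Nat.card G / p ^ N) = 1 := by
      rw [← pow_mul, Nat.mul_div_cancel' (Nat.ordProj_dvd (Nat.card G) p), pow_card_eq_one']
    have h2 : ((w ^ p ^ N) ^ s) ^ (Nat.card G / p ^ N) = 1 := by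
      rw [← pow_mul, mul_comm, pow_mul, h1, one_pow]
    exact Nat.not_dvd_ordCompl hM.1 Nat.card_pos.ne' (h.trans (orderOf_dvd_of_pow_eq_one h2))
  refine ⟨(u ^ p ^ N) ^ s, U.pow_mem (U.pow_mem hu _) _, (v ^ p ^ N) ^ s, V.pow_mem (V.pow_mem hv _) _,
    ?_, hreg u, hreg v⟩
  have hc : Commute u v := hcomm u hu v hv
  rw [hc.mul_pow, (hc.pow_pow _ _).mul_pow] at hs
  exact hs.symm

/-- Let the finite group G be generated by subgroups U₁ and U₂ that commute elementwise and whose intersection is a p-group, and let M be a maximal ideal of the algebraic integers containing the prime p. If the irreducible character χ of G has the irreducible constituents ψ₁ on U₁ and ψ₂ on U₂, then χ lies in the principal block of G if and only if ψ₁ and ψ₂ lie in the principal blocks of U₁ and U₂. -/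
theorem result {G : Type*} [Group G] [Fintype G] (p : ℕ) [Fact p.Prime] (M : Ideal Cfsg.AlgInt) (hM : Cfsg.IsPModular p M) (U₁ U₂ : Subgroup G) [Fintype U₁] [Fintype U₂] (hcomm : ∀ u ∈ U₁, ∀ v ∈ U₂, u * v = v * u) (hgen : U₁ ⊔ U₂ = ⊤) (hZ : IsPGroup p ↥(U₁ ⊓ U₂)) (χ : Cfsg.IrrCharacter G) (ψ₁ : Cfsg.IrrCharacter U₁) (ψ₂ : Cfsg.IrrCharacter U₂) (h₁ : Cfsg.classInner (fun u : U₁ => (χ : G → ℂ) u) (ψ₁ : U₁ → ℂ) ≠ 0) (h₂ : Cfsg.classInner (fun u : U₂ => (χ : G → ℂ) u) (ψ₂ : U₂ → ℂ) ≠ 0) : χ ∈ Cfsg.principalBlock M G ↔ (ψ₁ ∈ Cfsg.principalBlock M U₁ ∧ ψ₂ ∈ Cfsg.principalBlock M U₂) := by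
  classical
  have hcomm' : ∀ a ∈ U₂, ∀ b ∈ U₁, a * b = b * a := fun a ha b hb => (hcomm b hb a ha).symm
  have hgen' : U₂ ⊔ U₁ = ⊤ := by rw [sup_comm, hgen]
  have htriv : ∀ (U V : Subgroup G) [Fintype U], (∀ u ∈ U, ∀ v ∈ V, u * v = v * u) → U ⊔ V = ⊤ →
      ∀ u : U, centralChar (trivIrr G : G → ℂ) (u : G) = centralChar (trivIrr U : U → ℂ) u := by
    intro U V _ h1 h2 u
    rw [centralChar, centralChar, index_sub U V h1 h2 u]
    rfl
  constructor
  · intro hχ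
    refine ⟨criterion hM ψ₁ fun u _ => ?_, criterion hM ψ₂ fun u _ => ?_⟩
    · rw [← central_sub U₁ U₂ hcomm hgen χ ψ₁ h₁ u, ← htriv U₁ U₂ hcomm hgen u]
      have h := mli_neg (hχ (u : G))
      rw [neg_sub] at h
      exact h
    · rw [← central_sub U₂ U₁ hcomm' hgen' χ ψ₂ h₂ u, ← htriv U₂ U₁ hcomm' hgen' u]
      have h := mli_neg (hχ (u : G))
      rw [neg_sub] at h
      exact h
  · rintro ⟨hψ₁, hψ₂⟩
    refine criterion hM χ fun g hg => ?_
    obtain ⟨u, hu, v, hv, rfl, hur, -⟩ := regular_parts hM U₁ U₂ hcomm hgen hg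
    have a1 : MemLocalIdeal M (centralChar (χ : G → ℂ) u - centralChar (trivIrr G : G → ℂ) u) := by
      rw [show centralChar (χ : G → ℂ) u = _ from central_sub U₁ U₂ hcomm hgen χ ψ₁ h₁ ⟨u, hu⟩,
        show centralChar (trivIrr G : G → ℂ) u = _ from htriv U₁ U₂ hcomm hgen ⟨u, hu⟩]
      have := mli_neg (hψ₁ ⟨u, hu⟩)
      rwa [neg_sub] at this
    have a2 : MemLocalIdeal M (centralChar (χ : G → ℂ) v - centralChar (trivIrr G : G → ℂ) v) := by
      rw [show centralChar (χ : G → ℂ) v = _ from central_sub U₂ U₁ hcomm' hgen' χ ψ₂ h₂ ⟨v, hv⟩,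
        show centralChar (trivIrr G : G → ℂ) v = _ from htriv U₂ U₁ hcomm' hgen' ⟨v, hv⟩]
      have := mli_neg (hψ₂ ⟨v, hv⟩)
      rwa [neg_sub] at this
    rw [central_mul hM U₁ U₂ hcomm hgen hZ χ hu hv hur, central_mul hM U₁ U₂ hcomm hgen hZ (trivIrr G) hu hv hur]
    have := mli_add hM (mli_mul_right hM a1 (mlr_centralChar hM χ v))
      (mli_mul_left hM (mlr_centralChar hM (trivIrr G) u) a2)
    convert this using 1
    ring

end Cfsg.Agent.S4521
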