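import Cfsg.Statements.S4541
import Cfsg.Agent.Lib.Blocks.Contribution
import Cfsg.Agent.Lib.Chars.TwoPowerRoot

set_option autoImplicit false
open Cfsg

namespace Cfsg.Agent.S4541

open CfsgLib.Chars CfsgLib.Blocks

open scoped ComplexConjugate

/-- The numerical conclusion. -/
theorem arith {ι : Type*} (S T : Finset ι) (d l : ℕ) (a : ι → ℕ)
    (h : T ⊆ S ∧ ∑ i ∈ S, a i = 2 ^ d * l ∧ ∀ i ∈ T, a i % 2 = 1 ∧ T.card ≤ 2 ^ d * a i) :
    (Odd (Nat.sqrt l) → T.card ≤ Nat.sqrt l * 2 ^ d) ∧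
      (¬ Odd (Nat.sqrt l) → (Nat.sqrt l + 1) * T.card ≤ l * 2 ^ d) ∧
      (l ≤ 3 → T.card ≤ 2 ^ d) := by
  obtain ⟨hTS, hsum, hT⟩ := h
  have hall : ∀ c, (∀ i ∈ T, c ≤ a i) → c * T.card ≤ l * 2 ^ d := by
    intro c hc
    have h1 := Finset.card_nsmul_le_sum T a c hc
    rw [smul_eq_mul] at h1
    have h2 := Finset.sum_le_sum_of_subset (f := a) hTS
    rw [hsum] at h2
    nlinarith
  set s := Nat.sqrt l with hs
  have hl1 : l < (s + 1) * (s + 1) := Nat.lt_succ_sqrt l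
  have hl0 : s * s ≤ l := Nat.sqrt_le l
  refine ⟨fun ho => ?_, fun he => ?_, fun hl => ?_⟩
  · by_cases hex : ∃ i ∈ T, a i ≤ s
    · obtain ⟨i, hi, hle⟩ := hex
      nlinarith [(hT i hi).2, Nat.two_pow_pos d]
    · push Not at hex
      have h2 : ∀ i ∈ T, s + 2 ≤ a i := fun i hi => by
        have h1 := (hT i hi).1
        have h3 := hex i hi
        obtain ⟨q, hq⟩ := ho
        omega
      have h4 := hall _ h2
      have h5 : l * 2 ^ d ≤ (s + 2) * (s * 2 ^ d) := by nlinarith [Nat.two_pow_pos d]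
      exact Nat.le_of_mul_le_mul_left (h4.trans h5) (by omega)
  · by_cases hex : ∃ i ∈ T, a i ≤ s
    · obtain ⟨i, hi, hle⟩ := hex
      have h1 := (hT i hi).1
      obtain ⟨q, hq⟩ := Nat.not_odd_iff_even.mp he
      have h2 : a i + 1 ≤ s := by omega
      have h3 : (s + 1) * a i ≤ l := by nlinarith
      calc (s + 1) * T.card ≤ (s + 1) * (2 ^ d * a i) := Nat.mul_le_mul_left _ (hT i hi).2
        _ = ((s + 1) * a i) * 2 ^ d := by ring
        _ ≤ l * 2 ^ d := Nat.mul_le_mul_right _ h3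
    · push Not at hex
      exact hall _ fun i hi => hex i hi
  · by_cases hex : ∃ i ∈ T, a i = 1
    · obtain ⟨i, hi, hi1⟩ := hex
      have := (hT i hi).2
      rwa [hi1, mul_one] at this
    · push Not at hex
      have h2 : ∀ i ∈ T, 3 ≤ a i := fun i hi => by
        have h1 := (hT i hi).1
        have h3 := hex i hi
        omega
      have h4 := hall _ h2
      have h5 : l * 2 ^ d ≤ 3 * 2 ^ d := Nat.mul_le_mul_right _ hl
      exact Nat.le_of_mul_le_mul_left (h4.trans h5) (by omega)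

section

variable {G : Type*} [Group G] [Fintype G] {M : Ideal Cfsg.AlgInt} {C : Subgroup G} [Fintype C]
  {x : G} {k : ℕ}

/-- A coefficient on a section is an integer times a root of unity. -/
theorem classInner_sec_eq {p : ℕ} (hx : orderOf x = p ^ k)
    (hC : ∀ g, g ∈ C ↔ Commute g x) (χ : Cfsg.IrrCharacter G) (η : Cfsg.IrrCharacter C) :
    ∃ (m : ℕ) (w : ℂ), w ^ p ^ k = 1 ∧
      Cfsg.classInner (secFun C x (χ : G → ℂ)) (η : C → ℂ) = (m : ℂ) * w := by
  classical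
  let x' : C := ⟨x, (hC x).mpr (Commute.refl x)⟩
  have hz : x' ∈ Subgroup.center C :=
    Subgroup.mem_center_iff.mpr fun c => Subtype.ext ((hC _).mp c.2).eq
  have hres : Cfsg.IsCharacter C (fun c : C => (χ : G → ℂ) (c : G)) :=
    IsCharacter.restrict (isCharacter_irr χ) C
  have e : secFun C x (χ : G → ℂ) = fun c => ∑ φ : Cfsg.IrrCharacter C,
      (Cfsg.classInner (fun c : C => (χ : G → ℂ) (c : G)) (φ : C → ℂ) *
        ((φ : C → ℂ) x' / (φ : C → ℂ) 1)) * (φ : C → ℂ) c := by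
    funext c
    change (χ : G → ℂ) ((x' * c : C) : G) = _
    rw [classFunction_expand (IsCharacter.isClassFunction hres) (x' * c)]
    refine Finset.sum_congr rfl fun φ _ => ?_
    have h := mul_central φ hz c
    rw [mul_assoc]
    congr 1
    rw [div_mul_eq_mul_div, ← h, mul_div_cancel_right₀ _ (irr_one_ne_zero φ)]
  obtain ⟨m, hm⟩ := exists_mult hres η
  refine ⟨m, (η : C → ℂ) x' / (η : C → ℂ) 1, ?_, ?_⟩
  · have hpow : ∀ j : ℕ, (η : C → ℂ) (x' ^ j) =
        ((η : C → ℂ) x' / (η : C → ℂ) 1) ^ j * (η : C → ℂ) 1 := by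
      intro j
      induction j with
      | zero => simp
      | succ j ih =>
        have h := mul_central η hz (x' ^ j)
        rw [← pow_succ', ih] at h
        rw [pow_succ ((η : C → ℂ) x' / (η : C → ℂ) 1)]
        refine mul_right_cancel₀ (irr_one_ne_zero η) (h.trans ?_)
        field_simp [irr_one_ne_zero η]
    have ho : orderOf x' = p ^ k := by rw [← Subgroup.orderOf_coe]; exact hx
    have h := hpow (p ^ k)
    rw [← ho, pow_orderOf_eq_one, ho] at h
    exact (mul_right_cancel₀ (irr_one_ne_zero η) (by rw [one_mul, ← h])).symm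
  · rw [e, classInner_sum, Finset.sum_eq_single η]
    · rw [classInner_irr, if_pos rfl, mul_one, hm]
    · intro φ _ hne
      rw [classInner_irr, if_neg hne, mul_zero]
    · simp

/-- The rows of the contribution matrix are idempotent. -/
theorem sum_row (hM : Cfsg.IsPModular 2 M) (hx : orderOf x = 2 ^ k)
    (hC : ∀ g, g ∈ C ↔ Commute g x) {b : Set (Cfsg.IrrCharacter C)} {B : Set (Cfsg.IrrCharacter G)}
    (hind : Cfsg.IsInducedBlock M C b B) [DecidablePred (· ∈ B)] (χ : Cfsg.IrrCharacter G) :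
    ∑ ψ ∈ Finset.univ.filter (· ∈ B),
      regInner 2 (secPart C x b (χ : G → ℂ)) (secPart C x b (ψ : G → ℂ)) *
        conj (regInner 2 (secPart C x b (χ : G → ℂ)) (secPart C x b (ψ : G → ℂ))) =
      regInner 2 (secPart C x b (χ : G → ℂ)) (secPart C x b (χ : G → ℂ)) := by
  classical
  set S := Finset.univ.filter (· ∈ B)
  set T := Finset.univ.filter (· ∈ b) with hT
  set D := Finset.univ.filter (fun a : C => ¬ 2 ∣ orderOf a)
  set n := (Nat.card C : ℂ)
  set s := secPart C x b (χ : G → ℂ) with hs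
  have hK : ∀ a' ∈ D, ∑ a ∈ D, (∑ φ ∈ T, (φ : C → ℂ) a' * conj ((φ : C → ℂ) a)) * s a = n * s a' := by
    intro a' ha'
    have h1 : ∑ a ∈ D, (∑ φ ∈ T, (φ : C → ℂ) a' * conj ((φ : C → ℂ) a)) * s a =
        n * ∑ φ ∈ T, regInner 2 s (φ : C → ℂ) * (φ : C → ℂ) a' := by
      simp only [regInner_eq, Finset.sum_mul, Finset.mul_sum]
      rw [Finset.sum_comm]
      refine Finset.sum_congr rfl fun φ _ => Finset.sum_congr rfl fun a _ => ?_
      rw [← mul_assoc, ← mul_assoc, mul_inv_cancel₀ (natCast_card_ne_zero C), one_mul]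
      ring
    rw [h1]
    congr 1
    have hL : ∀ φ : Cfsg.IrrCharacter C, regInner 2 s (φ : C → ℂ) = ∑ η ∈ T,
        Cfsg.classInner (secFun C x (χ : G → ℂ)) (η : C → ℂ) * regInner 2 (η : C → ℂ) (φ : C → ℂ) :=
      fun φ => regInner_blockPart_left b _ _
    have hR : s a' = ∑ η ∈ T,
        Cfsg.classInner (secFun C x (χ : G → ℂ)) (η : C → ℂ) * (η : C → ℂ) a' :=
      blockPart_eq_filter b _ _
    simp only [hL, hR, Finset.sum_mul]
    rw [Finset.sum_comm]
    refine Finset.sum_congr rfl fun η hη => ?_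
    simp only [mul_assoc, ← Finset.mul_sum]
    congr 1
    have h2 := regPart_expand (p := 2) η a'
    rw [pRegularPart_of_regular (Finset.mem_filter.mp ha').2] at h2
    rw [h2, hT, Finset.sum_filter]
    refine Finset.sum_congr rfl fun φ _ => ?_
    split_ifs with hφ
    · rfl
    · rw [regInner_eq_zero hM fun hh => hφ
        (IsPBlock.mem_of_sameBlock hM hind.1 (Finset.mem_filter.mp hη).2 hh), zero_mul]
  have hterm : ∀ ψ : Cfsg.IrrCharacter G,
      regInner 2 s (secPart C x b (ψ : G → ℂ)) * conj (regInner 2 s (secPart C x b (ψ : G → ℂ))) =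
      ∑ a' ∈ D, ∑ a ∈ D, n⁻¹ * n⁻¹ * (conj (s a') *
        ((secPart C x b (ψ : G → ℂ) a' * conj (secPart C x b (ψ : G → ℂ) a)) * s a)) := by
    intro ψ
    rw [regInner_comm, regInner_eq, regInner_eq, mul_mul_mul_comm, Finset.sum_mul_sum,
      Finset.sum_comm, Finset.mul_sum]
    refine Finset.sum_congr rfl fun a' _ => ?_
    rw [Finset.mul_sum]
    exact Finset.sum_congr rfl fun a _ => by ring
  rw [Finset.sum_congr rfl fun ψ _ => hterm ψ, Finset.sum_comm, regInner_eq, Finset.mul_sum]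
  refine Finset.sum_congr rfl fun a' ha' => ?_
  rw [Finset.sum_comm]
  simp only [← Finset.mul_sum, ← Finset.sum_mul]
  have h3 : ∀ a ∈ D, (∑ ψ ∈ S, secPart C x b (ψ : G → ℂ) a' * conj (secPart C x b (ψ : G → ℂ) a)) * s a =
      (∑ φ ∈ T, (φ : C → ℂ) a' * conj ((φ : C → ℂ) a)) * s a := fun a ha => by
    simp only [secPart]
    rw [sec_orth hM hx hC hind (Finset.mem_filter.mp ha').2 (Finset.mem_filter.mp ha).2]
  rw [Finset.sum_congr rfl h3, hK a' ha']
  have hn0 : n ≠ 0 := natCast_card_ne_zero C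
  change n⁻¹ * n⁻¹ * (conj (s a') * (n * s a')) = n⁻¹ * (s a' * conj (s a'))
  field_simp

/-- The diagonal adds up to the rank. -/
theorem sum_diag (hM : Cfsg.IsPModular 2 M) (hx : orderOf x = 2 ^ k)
    (hC : ∀ g, g ∈ C ↔ Commute g x) {b : Set (Cfsg.IrrCharacter C)} {B : Set (Cfsg.IrrCharacter G)}
    (hind : Cfsg.IsInducedBlock M C b B) [DecidablePred (· ∈ B)] :
    ∑ χ ∈ Finset.univ.filter (· ∈ B),
      regInner 2 (secPart C x b (χ : G → ℂ)) (secPart C x b (χ : G → ℂ)) =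
      (Cfsg.blockRank 2 b : ℂ) := by
  classical
  simp only [regInner_eq]
  rw [← Finset.mul_sum, Finset.sum_comm]
  rw [Finset.sum_congr rfl fun a ha => by
    simp only [secPart]
    exact sec_orth hM hx hC hind (Finset.mem_filter.mp ha).2 (Finset.mem_filter.mp ha).2]
  rw [sum_regular_sq hM hind.1, ← mul_assoc, inv_mul_cancel₀ (natCast_card_ne_zero C), one_mul]

/-- The rational components of the diagonal contributions. -/
theorem exists_weights (hM : Cfsg.IsPModular 2 M) (hx : orderOf x = 2 ^ k)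
    (hC : ∀ g, g ∈ C ↔ Commute g x) {b : Set (Cfsg.IrrCharacter C)} {B : Set (Cfsg.IrrCharacter G)}
    (hind : Cfsg.IsInducedBlock M C b B) [DecidablePred (· ∈ B)]
    [DecidablePred fun χ : Cfsg.IrrCharacter G => χ ∈ B ∧ Cfsg.blockHeight 2 B (χ : G → ℂ) = 0] :
    ∃ (S T : Finset (Cfsg.IrrCharacter G)) (a : Cfsg.IrrCharacter G → ℕ),
      T = Finset.univ.filter (fun χ : Cfsg.IrrCharacter G =>
        χ ∈ B ∧ Cfsg.blockHeight 2 B (χ : G → ℂ) = 0) ∧
      T ⊆ S ∧ ∑ i ∈ S, a i = 2 ^ Cfsg.blockDefect 2 b * Cfsg.blockRank 2 b ∧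
      ∀ i ∈ T, a i % 2 = 1 ∧ T.card ≤ 2 ^ Cfsg.blockDefect 2 b * a i := by
  classical
  obtain ⟨L, hL1, hLc, hLi, hLs⟩ := TwoPower.exists_component k
  set d := Cfsg.blockDefect 2 b
  set S := Finset.univ.filter (· ∈ B) with hS
  set U := Finset.univ.filter (· ∈ b) with hU
  choose m w hw hc using fun (χ : Cfsg.IrrCharacter G) (η : Cfsg.IrrCharacter C) =>
    classInner_sec_eq hx hC χ η
  have hq' : ∀ η η' : Cfsg.IrrCharacter C, ∃ q : ℤ, η ∈ b →
      ((2 ^ d : ℕ) : ℂ) * regInner 2 (η : C → ℂ) (η' : C → ℂ) = (q : ℂ) := by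
    intro η η'
    by_cases hη : η ∈ b
    · obtain ⟨q, hq⟩ := dvd_trans (pow_dvd_pow ((2 : ℕ) : ℤ) (minExp_le (p := 2) hη))
        (ppow_dvd_regMat hM.1 η η')
      refine ⟨q, fun _ => ?_⟩
      have h := regMat_spec hM.1 η η'
      rw [hq, ← minExp_add_defect (p := 2) hη] at h
      push_cast at h ⊢
      rw [pow_add, mul_assoc] at h
      exact mul_left_cancel₀ (pow_ne_zero _ (two_ne_zero)) h
    · exact ⟨0, fun h => absurd h hη⟩
  choose q hq using hq'
  let R : Cfsg.IrrCharacter G → Cfsg.IrrCharacter G → ℂ := fun χ ψ =>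
    regInner 2 (secPart C x b (χ : G → ℂ)) (secPart C x b (ψ : G → ℂ))
  let N : Cfsg.IrrCharacter G → Cfsg.IrrCharacter G → ℂ := fun χ ψ => ((2 ^ d : ℕ) : ℂ) * R χ ψ
  have hN : ∀ χ ψ, N χ ψ = ∑ e ∈ U ×ˢ U,
      ((q e.1 e.2 * (m χ e.1 * m ψ e.2 : ℕ) : ℤ) : ℂ) * (w χ e.1 * conj (w ψ e.2)) := by
    intro χ ψ
    simp only [N, R, secPart]
    rw [regInner_blockPart_left, Finset.sum_product, Finset.mul_sum]
    refine Finset.sum_congr rfl fun η hη => ?_
    rw [← regInner_comm, regInner_blockPart_left, map_sum, Finset.mul_sum, Finset.mul_sum]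
    refine Finset.sum_congr rfl fun η' _ => ?_
    rw [map_mul, regInner_comm, hc, hc, map_mul, map_natCast, Int.cast_mul, Int.cast_natCast,
      Nat.cast_mul, ← hq η η' (Finset.mem_filter.mp hη).2]
    ring
  have hroot : ∀ χ ψ η η', (w χ η * conj (w ψ η')) ^ 2 ^ k = 1 := fun χ ψ η η' => by
    rw [mul_pow, ← map_pow, hw, hw, map_one, mul_one]
  have hroot' : ∀ χ ψ η η', (w χ η * conj (w ψ η')) ^ 2 ^ (k + 1) = 1 := fun χ ψ η η' => by
    rw [pow_succ, pow_mul, hroot, one_pow]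
  have hspan : ∀ χ ψ, N χ ψ ∈ TwoPower.rootSpan k := fun χ ψ => by
    rw [hN]
    refine sum_mem fun e _ => ?_
    rw [← zsmul_eq_mul]
    have hmem : w χ e.1 * conj (w ψ e.2) ∈ TwoPower.rootSpan k := AddSubgroup.subset_closure (hroot' χ ψ e.1 e.2)
    exact zsmul_mem hmem _
  choose a₀ ha₀ using fun χ => hLi _ (hspan χ χ)
  choose s hs hs1 using fun χ ψ => hLs _ (hspan χ ψ)
  have hrow : ∀ χ, ((2 ^ d : ℕ) : ℤ) * a₀ χ = ∑ ψ ∈ S, (s χ ψ : ℤ) := by
    intro χ
    have h := congrArg L (sum_row hM hx hC hind χ)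
    have e : ∑ ψ ∈ S, N χ ψ * conj (N χ ψ) = ((2 ^ d : ℕ) : ℂ) * N χ χ := by
      simp only [N, R, map_mul, map_natCast]
      rw [← sum_row hM hx hC hind χ, Finset.mul_sum, Finset.mul_sum]
      exact Finset.sum_congr rfl fun ψ _ => by ring
    have h' := congrArg L e
    rw [map_sum, Finset.sum_congr rfl fun ψ _ => hs χ ψ, ← nsmul_eq_mul, map_nsmul, ha₀,
      nsmul_eq_mul] at h'
    exact_mod_cast h'.symm
  have ha0 : ∀ χ, 0 ≤ a₀ χ := fun χ => by
    have h := hrow χ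
    have h2 : (0 : ℤ) ≤ ∑ ψ ∈ S, (s χ ψ : ℤ) := Finset.sum_nonneg fun _ _ => Int.natCast_nonneg _
    have h3 : (0 : ℤ) < ((2 ^ d : ℕ) : ℤ) := by exact_mod_cast Nat.two_pow_pos d
    nlinarith
  refine ⟨S, _, fun χ => (a₀ χ).toNat, rfl, ?_, ?_, ?_⟩
  · intro χ hχ
    exact Finset.mem_filter.mpr ⟨Finset.mem_univ _, (Finset.mem_filter.mp hχ).2.1⟩
  · have h1 : ∑ χ ∈ S, N χ χ = ((2 ^ d * Cfsg.blockRank 2 b : ℕ) : ℂ) := by
      simp only [N, R]
      rw [← Finset.mul_sum, hS, sum_diag hM hx hC hind, Nat.cast_mul]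
    have h2 := congrArg L h1
    rw [map_sum, Finset.sum_congr rfl fun χ _ => ha₀ χ, ← mul_one ((_ : ℕ) : ℂ), ← nsmul_eq_mul,
      map_nsmul, hL1, nsmul_eq_mul, mul_one] at h2
    have h3 : ∑ χ ∈ S, a₀ χ = ((2 ^ d * Cfsg.blockRank 2 b : ℕ) : ℤ) := by exact_mod_cast h2
    have h4 : ((∑ χ ∈ S, (a₀ χ).toNat : ℕ) : ℤ) = ∑ χ ∈ S, a₀ χ := by
      rw [Nat.cast_sum]
      exact Finset.sum_congr rfl fun χ _ => Int.toNat_of_nonneg (ha0 χ)
    exact_mod_cast h4.trans h3
  · intro χ hχ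
    obtain ⟨hχB, hχ0⟩ := (Finset.mem_filter.mp hχ).2
    constructor
    · have hε' : ∀ η η', ∃ e : ℤ, L (w χ η * conj (w χ η')) = (e : ℚ) := fun η η' =>
        hLi _ (AddSubgroup.subset_closure (hroot' χ χ η η'))
      choose ε hε using hε'
      have hsymm : ∀ η η', ε η η' = ε η' η := fun η η' => by
        have h := hLc _ (hroot' χ χ η η')
        rw [map_mul, Complex.conj_conj, mul_comm, hε, hε] at h
        exact_mod_cast h.symm
      have hdiag : ∀ η, ε η η = 1 := fun η => by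
        have h := hε η η
        rw [Complex.mul_conj', Complex.norm_eq_one_of_pow_eq_one (hw χ η) (Nat.two_pow_pos k).ne',
          Complex.ofReal_one, one_pow, hL1] at h
        exact_mod_cast h.symm
      set F : Cfsg.IrrCharacter C × Cfsg.IrrCharacter C → ℤ := fun e =>
        q e.1 e.2 * (m χ e.1 * m χ e.2 : ℕ) with hF
      have hqs : ∀ e ∈ U ×ˢ U, q e.2 e.1 = q e.1 e.2 := fun e he => by
        have h1 := hq e.2 e.1 (Finset.mem_filter.mp (Finset.mem_product.mp he).2).2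
        have h2 := hq e.1 e.2 (Finset.mem_filter.mp (Finset.mem_product.mp he).1).2
        have h3 := congrArg conj h2
        rw [map_mul, map_natCast, regInner_comm, map_intCast, h1] at h3
        exact_mod_cast h3
      have hLN : a₀ χ = ∑ e ∈ U ×ˢ U, F e * ε e.1 e.2 := by
        have h : (a₀ χ : ℚ) = ∑ e ∈ U ×ˢ U, (F e : ℚ) * (ε e.1 e.2 : ℚ) := by
          rw [← ha₀, hN, map_sum]
          exact Finset.sum_congr rfl fun e _ => by
            rw [← zsmul_eq_mul, map_zsmul, hε, zsmul_eq_mul]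
        exact_mod_cast h
      have hpar : ((a₀ χ : ℤ) : ZMod 2) = ((∑ e ∈ U ×ˢ U, F e : ℤ) : ZMod 2) := by
        rw [hLN, Int.cast_sum, Int.cast_sum, ← sub_eq_zero, ← Finset.sum_sub_distrib]
        refine Finset.sum_involution (fun e _ => (e.2, e.1)) (fun e he => ?_) (fun e _ hne heq => ?_)
          (fun e he => Finset.mem_product.mpr ⟨(Finset.mem_product.mp he).2, (Finset.mem_product.mp he).1⟩)
          (fun e _ => rfl)
        · simp only [hF, hqs e he, hsymm e.2 e.1, mul_comm (m χ e.2)]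
          exact CharTwo.add_self_eq_zero _
        · apply hne
          have h12 : e.2 = e.1 := congrArg Prod.fst heq
          rw [h12, hdiag]
          simp
      have hodd : ¬ Cfsg.MemLocalIdeal M (N χ χ) := contribution_not_mli hM hx hC hind hχB hχB hχ0 hχ0
      have hres : ¬ (2 : ℤ) ∣ ∑ e ∈ U ×ˢ U, F e := fun hd => by
        refine hodd ?_
        have h1 : Cfsg.MemLocalIdeal M (N χ χ - ((∑ e ∈ U ×ˢ U, F e : ℤ) : ℂ)) := by
          rw [hN, Int.cast_sum, ← Finset.sum_sub_distrib]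
          refine mli_sum hM _ fun e _ => ?_
          rw [← mul_sub_one]
          exact mli_mul_left hM (mlr_intCast hM _) (mli_sub_one_of_pow_eq_one hM (hroot χ χ e.1 e.2))
        have h2 := mli_add hM h1 ((mli_intCast_iff hM _).mpr (by exact_mod_cast hd))
        rwa [sub_add_cancel] at h2
      have h5 : ¬ (2 : ℤ) ∣ a₀ χ := fun hd => hres (by
        have := (ZMod.intCast_zmod_eq_zero_iff_dvd _ 2).mpr (by exact_mod_cast hd : ((2 : ℕ) : ℤ) ∣ a₀ χ)
        rw [hpar] at this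
        exact_mod_cast (ZMod.intCast_zmod_eq_zero_iff_dvd _ 2).mp this)
      have h6 := ha0 χ
      change (a₀ χ).toNat % 2 = 1
      omega
    · have h : ((2 ^ d : ℕ) : ℤ) * a₀ χ = _ := hrow χ
      have h1 : ∀ ψ ∈ Finset.univ.filter (fun ψ : Cfsg.IrrCharacter G =>
          ψ ∈ B ∧ Cfsg.blockHeight 2 B (ψ : G → ℂ) = 0), 1 ≤ s χ ψ := fun ψ hψ => by
        obtain ⟨hψB, hψ0⟩ := (Finset.mem_filter.mp hψ).2
        exact hs1 χ ψ (mul_ne_zero (ppow_cast_ne_zero hM.1 d)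
          (contribution_ne_zero hM hx hC hind hψB hχB hψ0 hχ0))
      have h2 := Finset.card_nsmul_le_sum _ (s χ) 1 h1
      rw [smul_eq_mul, mul_one] at h2
      refine h2.trans ?_
      have h3 : ((∑ ψ ∈ S, s χ ψ : ℕ) : ℤ) = ((2 ^ d * (a₀ χ).toNat : ℕ) : ℤ) := by
        rw [Nat.cast_sum, ← h, Nat.cast_mul, Int.toNat_of_nonneg (ha0 χ)]
      rw [← (by exact_mod_cast h3 : ∑ ψ ∈ S, s χ ψ = 2 ^ d * (a₀ χ).toNat)]
      exact Finset.sum_le_sum_of_subset fun ψ hψ =>
        Finset.mem_filter.mpr ⟨Finset.mem_univ _, (Finset.mem_filter.mp hψ).2.1⟩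

end

/-- Let B be a 2-block of the finite group G (relative to a maximal ideal M of the algebraic integers containing 2), u a 2-element, and b a block of the centralizer of u inducing B (a subsection (u, b)), of defect q and 2-regular rank l; write s for the integer square root of l and k₀(B) for the number of members of B of height zero. If s is odd then k₀(B) ≤ s·2 ^ q, and otherwise (s + 1)·k₀(B) ≤ l·2 ^ q; in particular k₀(B) ≤ 2 ^ q when l ≤ 3. -/
theorem result {G : Type*} [Group G] [Finite G] (M : Ideal Cfsg.AlgInt) (hM : Cfsg.IsPModular 2 M) (B : Set (Cfsg.IrrCharacter G)) (hB : Cfsg.IsPBlock M B) (u : G) (hu : ∃ j : ℕ, orderOf u = 2 ^ j) (b : Set (Cfsg.IrrCharacter ↥(Subgroup.centralizer ({u} : Set G)))) (hb : Cfsg.IsInducedBlock M (Subgroup.centralizer ({u} : Set G)) b B) : (Odd (Nat.sqrt (Cfsg.blockRank 2 b)) → Nat.card {χ : Cfsg.IrrCharacter G // χ ∈ B ∧ Cfsg.blockHeight 2 B (χ : G → ℂ) = 0} ≤ Nat.sqrt (Cfsg.blockRank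 2 b) * 2 ^ Cfsg.blockDefect 2 b) ∧ (¬ Odd (Nat.sqrt (Cfsg.blockRank 2 b)) → (Nat.sqrt (Cfsg.blockRank 2 b) + 1) * Nat.card {χ : Cfsg.IrrCharacter G // χ ∈ B ∧ Cfsg.blockHeight 2 B (χ : G → ℂ) = 0} ≤ Cfsg.blockRank 2 b * 2 ^ Cfsg.blockDefect 2 b) ∧ (Cfsg.blockRank 2 b ≤ 3 → Nat.card {χ : Cfsg.IrrCharacter G // χ ∈ B ∧ Cfsg.blockHeight 2 B (χ : G → ℂ) = 0} ≤ 2 ^ Cfsg.blockDefect 2 b) := by
  classical
  haveI : Fintype G := Fintype.ofFinite G
  set C := Subgroup.centralizer ({u} : Set G)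
  haveI : Fintype C := Fintype.ofFinite _
  obtain ⟨k, hk⟩ := hu
  have hC : ∀ a, a ∈ C ↔ Commute a u := fun a => Subgroup.mem_centralizer_singleton_iff
  rw [show Nat.card {χ : Cfsg.IrrCharacter G // χ ∈ B ∧ Cfsg.blockHeight 2 B (χ : G → ℂ) = 0} =
      (Finset.univ.filter fun χ : Cfsg.IrrCharacter G =>
        χ ∈ B ∧ Cfsg.blockHeight 2 B (χ : G → ℂ) = 0).card by
    rw [Nat.card_eq_fintype_card, Fintype.card_subtype]]
  obtain ⟨S, T, a, hT, h⟩ := exists_weights hM hk hC hb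
  rw [← hT]
  exact arith S T _ _ a h

end Cfsg.Agent.S4541
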