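import Cfsg.Statements.S4549
import Cfsg.Agent.Lib.Blocks.PrincipalFixed

set_option autoImplicit false
open Cfsg

namespace Cfsg.Agent.S4549

open CfsgLib.Chars CfsgLib.Blocks

/-- Let G be a finite group and M a maximal ideal of the algebraic integers containing 2. Let k be a natural number with g ^ k = g ^ 3 for every 2-element g and g ^ k = g for every element g of odd order (such k exist); an irreducible character χ is unchanged by g ↦ g ^ k exactly when it is fixed by the field automorphism that cubes the 2-power roots of unity and fixes the roots of unity of odd order. Then G has a normal 2-complement if and only if every member χ of the principal 2-block of odd degree with χ (g ^ k) = χ g for all g has degree one. -/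
theorem result {G : Type*} [Group G] [Finite G] (M : Ideal Cfsg.AlgInt) (hM : Cfsg.IsPModular 2 M) (k : ℕ) (hk₁ : ∀ g : G, (∃ j : ℕ, orderOf g = 2 ^ j) → g ^ k = g ^ 3) (hk₂ : ∀ g : G, Odd (orderOf g) → g ^ k = g) : Cfsg.HasNormalPComplement 2 G ↔ ∀ χ ∈ Cfsg.principalBlock M G, Odd (Cfsg.charDegree (χ : G → ℂ)) → (∀ g : G, (χ : G → ℂ) (g ^ k) = (χ : G → ℂ) g) → Cfsg.charDegree (χ : G → ℂ) = 1 := by
  classical
  haveI := Fintype.ofFinite G
  constructor
  · intro h χ hχ hodd _
    exact PrincipalFixed.degree_one_of_normalPComplement hM h hχ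
      fun h2 => Nat.not_even_iff_odd.mpr hodd (even_iff_two_dvd.mpr h2)
  · intro h
    refine PrincipalFixed.normalPComplement_of_residual fun hdiv => ?_
    have hk : k.Coprime (Nat.card G) := Nat.coprime_of_dvd fun q hq hqk hqG => by
      haveI := Fact.mk hq
      obtain ⟨g, hg⟩ := exists_prime_orderOf_dvd_card' q hqG
      have h1 : g ^ k = 1 := orderOf_dvd_iff_pow_eq_one.mp (hg ▸ hqk)
      have hg1 : g ≠ 1 := fun e => hq.ne_one (by rw [← hg, e, orderOf_one])
      rcases hq.eq_two_or_odd' with rfl | hq2
      · rw [hk₁ g ⟨1, by rw [hg, pow_one]⟩, pow_succ, ← hg, pow_orderOf_eq_one, one_mul] at h1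
        exact hg1 h1
      · rw [hk₂ g (hg ▸ hq2)] at h1
        exact hg1 h1
    have hper : ∀ g : G, g ^ k ^ 2 ^ Nat.card G = g := fun g => by
      set a := (orderOf g).factorization 2
      set u := orderOf g / 2 ^ a
      have ho : 2 ^ a * u = orderOf g := Nat.ordProj_mul_ordCompl_eq_self _ 2
      have hu2 : ¬ 2 ∣ u := Nat.not_dvd_ordCompl Nat.prime_two (orderOf_pos g).ne'
      have hku : k ≡ 1 [MOD u] := by
        have hou : orderOf (g ^ 2 ^ a) = u := orderOf_pow_of_dvd (by positivity) (Nat.ordProj_dvd _ 2)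
        have := hk₂ (g ^ 2 ^ a) (by rw [hou]; exact Nat.not_even_iff_odd.mp fun e => hu2 (even_iff_two_dvd.mp e))
        conv_rhs at this => rw [← pow_one (g ^ 2 ^ a)]
        rw [pow_eq_pow_iff_modEq, hou] at this
        exact this
      have hka : k ^ 2 ^ Nat.card G ≡ 1 [MOD 2 ^ a] := by
        have hc : k.Coprime (2 ^ a) :=
          hk.coprime_dvd_right ((Nat.ordProj_dvd _ 2).trans (orderOf_dvd_natCard g))
        obtain ⟨t, ht⟩ : Nat.totient (2 ^ a) ∣ 2 ^ Nat.card G := by
          rcases Nat.eq_zero_or_pos a with h0 | h0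
          · simp [h0]
          · rw [Nat.totient_prime_pow Nat.prime_two h0, show 2 - 1 = 1 from rfl, mul_one]
            refine pow_dvd_pow _ ?_
            have h3 : 2 ^ a ≤ Nat.card G :=
              Nat.le_of_dvd Nat.card_pos ((Nat.ordProj_dvd _ 2).trans (orderOf_dvd_natCard g))
            have h4 := a.lt_two_pow_self
            omega
        rw [ht, pow_mul]
        simpa using (Nat.ModEq.pow_totient hc).pow t
      have hall : k ^ 2 ^ Nat.card G ≡ 1 [MOD orderOf g] := by
        rw [← ho]
        refine (Nat.modEq_and_modEq_iff_modEq_mul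
          (Nat.Coprime.pow_left a ((Nat.prime_two.coprime_iff_not_dvd).mpr hu2))).mp ⟨hka, ?_⟩
        simpa using hku.pow (2 ^ Nat.card G)
      conv_rhs => rw [← pow_one g]
      exact pow_eq_pow_iff_modEq.mpr hall
    obtain ⟨χ, hχ, hχp, hχ1, hfix⟩ := PrincipalFixed.exists_fixed_char hM hdiv hk hper
    exact hχ1 (h χ hχ (Nat.not_even_iff_odd.mp fun e => hχp (even_iff_two_dvd.mp e)) hfix)

end Cfsg.Agent.S4549
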