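import Cfsg.Statements.S4550
import Cfsg.Agent.Lib.Blocks.RegEq
import Cfsg.Agent.Lib.Blocks.PPart
import Mathlib.GroupTheory.Perm.Cycle.Type
import Mathlib.FieldTheory.Finite.Basic

set_option autoImplicit false
open Cfsg

namespace Cfsg.Agent.S4550

open CfsgLib.Chars CfsgLib.Blocks

/-- Let G be a finite group of even order and M a maximal ideal of the algebraic integers containing 2. Let k be a natural number with g ^ k = g ^ 3 for every 2-element g and g ^ k = g for every element g of odd order (such k exist); an irreducible character χ is unchanged by g ↦ g ^ k exactly when it is fixed by the field automorphism that cubes the 2-power roots of unity and fixes the roots of unity of odd order. Then the number of members χ of the principal 2-block of odd degree with χ (g ^ k) = χ g for all g is even. -/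
theorem result {G : Type*} [Group G] [Finite G] (M : Ideal Cfsg.AlgInt) (hM : Cfsg.IsPModular 2 M) (hev : Even (Nat.card G)) (k : ℕ) (hk₁ : ∀ g : G, (∃ j : ℕ, orderOf g = 2 ^ j) → g ^ k = g ^ 3) (hk₂ : ∀ g : G, Odd (orderOf g) → g ^ k = g) : Even (Nat.card {χ : Cfsg.IrrCharacter G // χ ∈ Cfsg.principalBlock M G ∧ Odd (Cfsg.charDegree (χ : G → ℂ)) ∧ ∀ g : G, (χ : G → ℂ) (g ^ k) = (χ : G → ℂ) g}) := by
  classical
  haveI := Fintype.ofFinite G
  haveI : Fact (Nat.Prime 2) := ⟨Nat.prime_two⟩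
  set a := (Nat.card G).factorization 2
  have hk : k.Coprime (Nat.card G) := by
    refine Nat.coprime_of_dvd fun r hr h1 h2 => ?_
    haveI : Fact r.Prime := ⟨hr⟩
    obtain ⟨x, hx⟩ := exists_prime_orderOf_dvd_card' r h2
    have h3 : x ^ k = 1 := orderOf_dvd_iff_pow_eq_one.mp (hx ▸ h1)
    have hx1 : x ≠ 1 := fun e => hr.ne_one (by rw [← hx, e, orderOf_one])
    rcases eq_or_ne r 2 with rfl | hr2
    · rw [hk₁ x ⟨1, by rw [hx, pow_one]⟩] at h3
      have := orderOf_dvd_of_pow_eq_one h3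
      rw [hx] at this
      exact absurd this (by decide)
    · rw [hk₂ x (hx ▸ hr.odd_of_ne_two hr2)] at h3
      exact hx1 h3
  set B := Cfsg.principalBlock M G
  have hB : Cfsg.IsPBlock M B := isPBlock_principalBlock
  set S := (Finset.univ.filter (· ∈ B)).filter
    (fun χ : Cfsg.IrrCharacter G => ¬ 2 ∣ Cfsg.charDegree (χ : G → ℂ))
  have hσmem : ∀ χ ∈ S, powIrr hk χ ∈ S := by
    intro χ hχ
    simp only [S, Finset.mem_filter, Finset.mem_univ, true_and] at hχ ⊢
    refine ⟨IsPBlock.mem_of_sameBlock hM hB hχ.1 (sameBlock_of_reg_eq hM fun x hx => ?_), ?_⟩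
    · exact (congrArg (χ : G → ℂ) (hk₂ x (Nat.not_even_iff_odd.mp
        fun h => hx (even_iff_two_dvd.mp h)))).symm
    · have : Cfsg.charDegree (powIrr hk χ : G → ℂ) = Cfsg.charDegree (χ : G → ℂ) := by
        simp [Cfsg.charDegree, powIrr]
      rw [this]; exact hχ.2
  have hinj : Function.Injective (fun χ : {χ // χ ∈ S} => (⟨powIrr hk χ.1, hσmem χ.1 χ.2⟩ :
      {χ // χ ∈ S})) := by
    intro χ ψ h
    refine Subtype.ext (Subtype.ext (funext fun g => ?_))
    obtain ⟨g', rfl⟩ := (powCoprime hk.symm).surjective g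
    exact congrFun (congrArg (fun z : {χ // χ ∈ S} => (z.1 : G → ℂ)) h) g'
  let σ : Equiv.Perm {χ // χ ∈ S} := Equiv.ofBijective _ (Finite.injective_iff_bijective.mp hinj)
  have hσ : ∀ (n : ℕ) (χ : {χ // χ ∈ S}) (g : G),
      (((σ ^ n) χ).1 : G → ℂ) g = (χ.1 : G → ℂ) (g ^ k ^ n) := by
    intro n
    induction n with
    | zero => simp
    | succ n ih =>
      intro χ g
      rw [pow_succ', Equiv.Perm.mul_apply]
      change (((σ ^ n) χ).1 : G → ℂ) (g ^ k) = _
      rw [ih, ← pow_mul, ← pow_succ']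
  have hper : ∀ g : G, g ^ k ^ (2 ^ a) = g := by
    intro g
    obtain ⟨u, y, rfl, hc, ⟨i, hi⟩, hy⟩ := exists_pPart Nat.prime_two g
    have h2 : ∀ (n : ℕ) (u : G), (∃ j, orderOf u = 2 ^ j) → u ^ k ^ n = u ^ 3 ^ n := by
      intro n
      induction n with
      | zero => simp
      | succ n ih =>
        rintro v ⟨j, hj⟩
        rw [pow_succ', pow_mul, hk₁ v ⟨j, hj⟩, pow_succ' 3, pow_mul]
        refine ih _ ⟨j, ?_⟩
        have hcop : (orderOf v).Coprime 3 := by
          rw [hj]; exact Nat.Coprime.pow_left j (by decide)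
        rw [hcop.orderOf_pow, hj]
    have hy' : ∀ n : ℕ, y ^ k ^ n = y := by
      intro n
      induction n with
      | zero => simp
      | succ n ih => rw [pow_succ', pow_mul, hk₂ y (Nat.not_even_iff_odd.mp
          fun h => hy (even_iff_two_dvd.mp h)), ih]
    rw [hc.mul_pow, h2 _ u ⟨i, hi⟩, hy']
    congr 1
    conv_rhs => rw [← pow_one u]
    rw [pow_eq_pow_iff_modEq, hi]
    have hia : i ≤ a := by
      have := orderOf_dvd_natCard u
      rw [hi] at this
      exact (Nat.prime_two.pow_dvd_iff_le_factorization Nat.card_pos.ne').mp this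
    rcases i with _ | i
    · simp [Nat.modEq_one]
    · have ht := Nat.ModEq.pow_totient (x := 3) (n := 2 ^ (i + 1))
        (Nat.Coprime.pow_right _ (by decide))
      rw [Nat.totient_prime_pow_succ Nat.prime_two] at ht
      obtain ⟨c, hc'⟩ : 2 ^ i * (2 - 1) ∣ 2 ^ a := by
        simpa using pow_dvd_pow 2 (show i ≤ a by omega)
      rw [hc', pow_mul]
      simpa using ht.pow c
  have hσ1 : σ ^ 2 ^ a = 1 := by
    refine Equiv.ext fun χ => Subtype.ext (Subtype.ext (funext fun g => ?_))
    rw [hσ, hper]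
    rfl
  have hmod := Equiv.Perm.card_compl_support_modEq (p := 2) (n := a) hσ1
  have hcard : Nat.card {χ : Cfsg.IrrCharacter G // χ ∈ B ∧
      Odd (Cfsg.charDegree (χ : G → ℂ)) ∧ ∀ g : G, (χ : G → ℂ) (g ^ k) = (χ : G → ℂ) g} =
      σ.supportᶜ.card := by
    rw [Nat.card_eq_fintype_card, ← Fintype.card_coe]
    refine Fintype.card_congr
      { toFun := fun χ => ⟨⟨χ.1, ?_⟩, ?_⟩
        invFun := fun χ => ⟨χ.1.1, ?_⟩
        left_inv := fun χ => rfl
        right_inv := fun χ => rfl }
    · simp only [S, Finset.mem_filter, Finset.mem_univ, true_and]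
      exact ⟨χ.2.1, fun h => Nat.not_even_iff_odd.mpr χ.2.2.1 (even_iff_two_dvd.mpr h)⟩
    · rw [Finset.mem_compl, Equiv.Perm.notMem_support]
      exact Subtype.ext (Subtype.ext (funext χ.2.2.2))
    · obtain ⟨⟨ψ, hψ⟩, hf⟩ := χ
      rw [Finset.mem_compl, Equiv.Perm.notMem_support] at hf
      simp only [S, Finset.mem_filter, Finset.mem_univ, true_and] at hψ
      exact ⟨hψ.1, Nat.not_even_iff_odd.mp fun h => hψ.2 (even_iff_two_dvd.mp h),
        fun g => congrFun (congrArg (fun z : {χ // χ ∈ S} => (z.1 : G → ℂ)) hf) g⟩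
  rw [hcard, even_iff_two_dvd]
  refine Nat.modEq_zero_iff_dvd.mp (hmod.trans (Nat.modEq_zero_iff_dvd.mpr ?_))
  rw [Fintype.card_coe]
  refine even_card_odd_degree hM hB ?_ ⟨trivIrr G, ?_, ?_⟩
  · exact Nat.Prime.factorization_pos_of_dvd Nat.prime_two Nat.card_pos.ne' (even_iff_two_dvd.mp hev)
  · exact self_mem_blockOf hM (trivIrr G)
  · have : Cfsg.charDegree (trivIrr G : G → ℂ) = 1 := by simp [Cfsg.charDegree, trivIrr]
    rw [this]; decide

end Cfsg.Agent.S4550
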