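import Cfsg.Statements.S4553
import Cfsg.Agent.Lib.Blocks.PrincipalFixed
import Cfsg.Agent.Lib.CharDegree
import Cfsg.Agent.Lib.DetChar
import Cfsg.Agent.Lib.Blocks.PPart
import Mathlib.RingTheory.RootsOfUnity.Complex

set_option autoImplicit false
open Cfsg

namespace Cfsg.Agent.S4553

open CfsgLib.Chars CfsgLib.Blocks

open scoped ComplexConjugate
universe u

variable {G : Type u} [Group G] [Fintype G] {p : ℕ} [Fact p.Prime]

theorem irr_ext (N : Subgroup G) [N.Normal] [Fintype N] {a : ℕ} (ha : N.index = p ^ a)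
    (χ : IrrCharacter G) (hχ : ¬ p ∣ charDegree (χ : G → ℂ)) :
    ∃ θ : IrrCharacter N, (∀ g, conjIrr N θ g = θ) ∧ (∀ n : N, (χ : G → ℂ) n = (θ : N → ℂ) n) ∧
      charDegree (θ : N → ℂ) = charDegree (χ : G → ℂ) := by
  have hp : p.Prime := Fact.out
  obtain ⟨θ, hθ⟩ := exists_res_constituent N χ
  obtain ⟨T, e, hNT, hmem, hdeg, he⟩ := CfsgLib.CharDegree.exists_inertia N θ χ hθ
  have hone : ∀ {m : ℕ}, m ∣ N.index → m ∣ charDegree (χ : G → ℂ) → m = 1 := fun {m} h1 h2 =>
    Nat.eq_one_of_dvd_coprimes (ha ▸ ((hp.coprime_iff_not_dvd).mpr hχ).pow_left a) h1 h2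
  have hT1 : T.index = 1 := hone (Subgroup.index_dvd_of_le hNT)
    (hdeg ▸ dvd_mul_of_dvd_left (dvd_mul_right _ _) _)
  have he1 : e = 1 := hone (he.trans (Subgroup.relIndex_dvd_index_of_normal _ _))
    (hdeg ▸ dvd_mul_of_dvd_left (dvd_mul_left _ _) _)
  have hinv : ∀ g, conjIrr N θ g = θ := fun g =>
    (hmem g).mp (Subgroup.index_eq_one.mp hT1 ▸ Subgroup.mem_top g)
  rw [hT1, he1, one_mul, one_mul] at hdeg
  obtain ⟨a, -, -, hval, hdeg'⟩ := clifford N χ θ hθ
  have horb : orbit N θ = {θ} := Finset.eq_singleton_iff_unique_mem.2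
    ⟨(mem_orbit N).2 ⟨1, (conjIrr_one _ _).symm⟩, fun x hx => by
      obtain ⟨g, rfl⟩ := (mem_orbit N).1 hx
      exact hinv g⟩
  rw [horb, Finset.card_singleton, mul_one, hdeg] at hdeg'
  have ha : a = 1 := (Nat.mul_eq_right (charDegree_pos θ).ne').mp hdeg'.symm
  exact ⟨θ, hinv, fun n => by rw [hval n, ha, horb, Finset.sum_singleton, Nat.cast_one, one_mul],
    hdeg.symm⟩

theorem mem_principal_res {M : Ideal AlgInt} (hM : IsPModular p M) (N : Subgroup G) [N.Normal]
    [Fintype N] {χ : IrrCharacter G} (hχ : χ ∈ principalBlock M G) {θ : IrrCharacter N}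
    (hres : ∀ n : N, (χ : G → ℂ) n = (θ : N → ℂ) n) (hinv : ∀ g, conjIrr N θ g = θ) :
    θ ∈ principalBlock M N := by
  classical
  have hne : ∀ (ξ : IrrCharacter G) (η : IrrCharacter N),
      (∀ n : N, (ξ : G → ℂ) n = (η : N → ℂ) n) →
      classInner (fun n : N => (ξ : G → ℂ) n) (η : N → ℂ) ≠ 0 := fun ξ η h => by
    rw [show (fun n : N => (ξ : G → ℂ) n) = (η : N → ℂ) from funext h, classInner_irr, if_pos rfl]
    exact one_ne_zero
  obtain ⟨g, hg⟩ := constituent_mem_blockOrbit N hM (isPBlock_principalBlock (M := M) (G := N))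
    (self_mem_blockOf hM (trivIrr N)) (χ := χ)
    (mli_centralChar_of_cover N hM (isPBlock_principalBlock (M := M) (G := G))
      (isPBlock_principalBlock (M := M) (G := N)) (self_mem_blockOf hM (trivIrr G))
      (self_mem_blockOf hM (trivIrr N)) (hne _ (trivIrr N) fun _ => rfl) hχ
      (self_mem_blockOf hM (trivIrr N))) (hne χ θ hres)
  rwa [hinv] at hg

theorem exists_canonical (N : Subgroup G) [N.Normal] [Fintype N] (hN : N = pResidual p G) {a : ℕ}
    (ha : N.index = p ^ a) {k : ℕ} (hk : k.Coprime (Nat.card G)) (θ : IrrCharacter N)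
    (hinv : ∀ g, conjIrr N θ g = θ) (hd : ¬ p ∣ charDegree (θ : N → ℂ))
    (hfix : ∀ n : N, (θ : N → ℂ) (n ^ k) = (θ : N → ℂ) n) :
    ∃ χ : IrrCharacter G, (∀ n : N, (χ : G → ℂ) n = (θ : N → ℂ) n) ∧
      ∀ g : G, (χ : G → ℂ) (g ^ k) = (χ : G → ℂ) g := by
  subst hN
  have hp : p.Prime := Fact.out
  obtain ⟨D, hD⟩ := CfsgLib.Extendible.exists_detHom θ
  have hord : detOrder (θ : pResidual p G → ℂ) = orderOf D := by
    let F : (pResidual p G →* ℂˣ) →* (pResidual p G → ℂ) :=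
      { toFun := fun f n => (f n : ℂ), map_one' := rfl, map_mul' := fun a b => rfl }
    have hF : Function.Injective F := fun a b h => MonoidHom.ext fun n => Units.ext (congrFun h n)
    rw [← orderOf_injective F hF D]
    exact (congrArg orderOf (funext hD)).symm
  have hdo : ¬ p ∣ detOrder (θ : pResidual p G → ℂ) := hord ▸ PrincipalFixed.not_dvd_orderOf_hom D
  obtain ⟨χ, ⟨hχ, hres, hdet⟩, huniq⟩ := Cfsg.Agent.S0867.result (pResidual p G)
    (θ : pResidual p G → ℂ) θ.2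
    (fun g n => (conjIrr_apply' _ θ g n).symm.trans (congrFun (congrArg Subtype.val (hinv g)) n))
    (charDegree (θ : pResidual p G → ℂ)) (irr_apply_one θ)
    (ha ▸ ((hp.coprime_iff_not_dvd).mpr (hp.not_dvd_mul hdo hd)).pow_left a)
  let χ' : IrrCharacter G := ⟨χ, hχ⟩
  refine ⟨χ', hres, ?_⟩
  have hpow : (powIrr hk χ' : G → ℂ) = χ := by
    refine huniq _ (powIrr hk χ').2 (fun n => ?_) ?_
    · show χ ((n : G) ^ k) = _
      rw [← SubgroupClass.coe_pow, hres]
      exact hfix n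
    · have hfun : detChar (powIrr hk χ' : G → ℂ) = detChar χ ^ k :=
        funext fun g => PrincipalFixed.detChar_powIrr hk χ' g
      rw [detOrder, hfun, ha]
      refine (((hp.coprime_iff_not_dvd).mpr fun h => hdo ?_).pow_left a)
      rw [← hdet]
      exact h.trans (orderOf_pow_dvd k)
  exact congrFun hpow

/-- Let G be a finite group, p a prime, P a Sylow p-subgroup, N the p-residual of G (the subgroup generated by the elements of order prime to p, the smallest normal subgroup with G/N a p-group), and M a maximal ideal of the algebraic integers containing p; suppose G/N is cyclic and nontrivial. Let k be a natural number with g ^ k = g ^ (1 + p) for every p-element g and g ^ k = g for every element g of order prime to p (so that χ (g ^ k) is the image of χ g under the field automorphism that raises p-power roots of unity to the power 1 + p and fixes the roots of unity of order prime to p). Then the number of members χ of the principal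 block of G of degree prime to p with χ (g ^ k) = χ g for all g equals p times the number of members θ of the principal block of N of degree prime to p that are invariant under conjugation by P and satisfy θ (n ^ k) = θ n for all n. -/
theorem result {G : Type*} [Group G] [Finite G] (p : ℕ) [Fact p.Prime] (M : Ideal Cfsg.AlgInt) (hM : Cfsg.IsPModular p M) (P : Sylow p G) (N : Subgroup G) [hN : N.Normal] (hNres : N = Cfsg.pResidual p G) (hcyc : IsCyclic (G ⧸ N)) (hnt : N ≠ ⊤) (k : ℕ) (hk₁ : ∀ g : G, (∃ j : ℕ, orderOf g = p ^ j) → g ^ k = g ^ (1 + p)) (hk₂ : ∀ g : G, Nat.Coprime (orderOf g) p → g ^ k = g) : Nat.card {χ : Cfsg.IrrCharacter G // χ ∈ Cfsg.principalBlock M G ∧ ¬ p ∣ Cfsg.charDegree (χ : G → ℂ) ∧ ∀ g : G, (χ : G → ℂ) (g ^ k) = (χ : G → ℂ) g} = p * Nat.card {θ : Cfsg.IrrCharacter ↥N // θ ∈ Cfsg.principalBlock M ↥N ∧ ¬ p ∣ Cfsg.charDegree (θ : ↥N → ℂ) ∧ (∀ x ∈ (P : Subgroup G), ∀ n : ↥N, (θ : ↥N → ℂ) ⟨x * n * x⁻¹, hN.conj_mem n n.2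 x⟩ = (θ : ↥N → ℂ) n) ∧ ∀ n : ↥N, (θ : ↥N → ℂ) (n ^ k) = (θ : ↥N → ℂ) n} := by
  classical
  haveI := Fintype.ofFinite G
  haveI : Fintype N := Fintype.ofFinite N
  have hp : p.Prime := Fact.out
  obtain ⟨a, ha⟩ : ∃ a, N.index = p ^ a := by
    subst hNres
    obtain ⟨a, ha⟩ := IsPGroup.iff_card.mp (CfsgLib.PResidual.isPGroup_quotient (p := p) (G := G))
    exact ⟨a, ha⟩
  have hk : k.Coprime (Nat.card G) := Nat.coprime_of_dvd fun q hq hqk hqG => by
    haveI := Fact.mk hq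
    obtain ⟨g, hg⟩ := exists_prime_orderOf_dvd_card' q hqG
    have h1 : g ^ k = 1 := orderOf_dvd_iff_pow_eq_one.mp (hg ▸ hqk)
    have hg1 : g ≠ 1 := fun e => hq.ne_one (by rw [← hg, e, orderOf_one])
    by_cases hqp : q = p
    · subst hqp
      rw [hk₁ g ⟨1, by rw [hg, pow_one]⟩, pow_add, pow_one, ← hg, pow_orderOf_eq_one, mul_one] at h1
      exact hg1 h1
    · rw [hk₂ g (hg ▸ (Nat.coprime_primes hq hp).mpr hqp)] at h1
      exact hg1 h1
  have hpN : ∀ g : G, ¬ p ∣ orderOf g → g ∈ N := fun g hg => hNres ▸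
    CfsgLib.PResidual.mem_pResidual ((hp.coprime_iff_not_dvd).mpr hg).symm
  have hkey : ∀ (f : G →* ℂˣ), (∀ n : N, f n = 1) → ∀ g, f (g ^ k) = f g * f g ^ p := by
    intro f hf g
    obtain ⟨x, y, hxy, hcomm, hx, hy⟩ := exists_pPart hp g
    have hy1 : f y = 1 := hf ⟨y, hpN y hy⟩
    rw [← hxy, hcomm.mul_pow, map_mul, map_mul, hy1, mul_one, map_pow f y, hy1, one_pow, mul_one,
      hk₁ x hx, map_pow, pow_add, pow_one]
  let L := {f : G →* ℂˣ // (∀ n : N, f n = 1) ∧ ∀ g, f (g ^ k) = f g}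
  have hL : Nat.card L = p := by
    obtain ⟨q, hq⟩ := hcyc.exists_generator
    haveI : Nontrivial (G ⧸ N) := QuotientGroup.nontrivial_iff.mpr hnt
    have hpq : p ∣ orderOf q := by
      rw [orderOf_eq_card_of_forall_mem_zpowers hq]
      have hpos : a ≠ 0 := by
        rintro rfl
        exact hnt (Subgroup.index_eq_one.mp (by rw [ha, pow_zero]))
      show p ∣ N.index
      rw [ha]
      exact dvd_pow_self p hpos
    obtain ⟨g₀, hg₀⟩ := QuotientGroup.mk_surjective q
    have hN' : ∀ f : L, N ≤ MonoidHom.ker f.1 := fun f n hn => f.2.1 ⟨n, hn⟩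
    let F : L → rootsOfUnity p ℂ := fun f => ⟨f.1 g₀, by
      rw [mem_rootsOfUnity]
      have h := (hkey f.1 f.2.1 g₀).symm.trans (f.2.2 g₀)
      exact mul_eq_left.mp h⟩
    have hFinj : Function.Injective F := by
      intro f f' h
      have h0 : f.1 g₀ = f'.1 g₀ := congrArg Subtype.val h
      refine Subtype.ext (MonoidHom.ext fun g => ?_)
      obtain ⟨z, hz⟩ := Subgroup.mem_zpowers_iff.mp (hq (QuotientGroup.mk g))
      rw [← hg₀, ← QuotientGroup.mk_zpow, QuotientGroup.eq] at hz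
      have e1 := f.2.1 ⟨_, hz⟩
      have e2 := f'.2.1 ⟨_, hz⟩
      simp only [map_mul, map_inv, map_zpow, inv_mul_eq_one] at e1 e2
      rw [← e1, ← e2, h0]
    have hFsur : Function.Surjective F := by
      rintro ⟨ζ, hζ⟩
      have hζd : orderOf ζ ∣ orderOf q :=
        (orderOf_dvd_of_pow_eq_one ((mem_rootsOfUnity _ _).mp hζ)).trans hpq
      let f : G →* ℂˣ := (monoidHomOfForallMemZpowers hq hζd).comp (QuotientGroup.mk' N)
      have hf : ∀ n : N, f n = 1 := fun n => by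
        simp [f, (QuotientGroup.eq_one_iff (n : G)).mpr n.2]
      have hg : f g₀ = ζ := by
        simp only [f, MonoidHom.comp_apply, QuotientGroup.mk'_apply, hg₀]
        exact monoidHomOfForallMemZpowers_apply_gen hq hζd
      refine ⟨⟨f, hf, fun g => ?_⟩, Subtype.ext hg⟩
      rw [hkey f hf]
      obtain ⟨z, hz⟩ := Subgroup.mem_zpowers_iff.mp (hq (QuotientGroup.mk g))
      rw [← hg₀, ← QuotientGroup.mk_zpow, QuotientGroup.eq] at hz
      have e1 := hf ⟨_, hz⟩
      simp only [map_mul, map_inv, map_zpow, inv_mul_eq_one, hg] at e1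
      rw [← e1, mul_eq_left, ← zpow_natCast, ← zpow_mul, mul_comm, zpow_mul, zpow_natCast,
        (mem_rootsOfUnity _ _).mp hζ, one_zpow]
    haveI : NeZero p := ⟨hp.ne_zero⟩
    rw [Nat.card_congr (Equiv.ofBijective F ⟨hFinj, hFsur⟩), Complex.card_rootsOfUnity]
  let T := {θ : Cfsg.IrrCharacter ↥N // θ ∈ Cfsg.principalBlock M ↥N ∧
    ¬ p ∣ Cfsg.charDegree (θ : ↥N → ℂ) ∧ (∀ x ∈ (P : Subgroup G), ∀ n : ↥N,
      (θ : ↥N → ℂ) ⟨x * n * x⁻¹, hN.conj_mem n n.2 x⟩ = (θ : ↥N → ℂ) n) ∧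
    ∀ n : ↥N, (θ : ↥N → ℂ) (n ^ k) = (θ : ↥N → ℂ) n}
  have hinv : ∀ θ : T, ∀ g, conjIrr N θ.1 g = θ.1 := by
    intro θ g
    have hg : g ∈ (P : Subgroup G) ⊔ N := by
      rw [hNres, CfsgLib.PResidual.sup_pResidual_eq_top P]; exact Subgroup.mem_top g
    obtain ⟨x, hx, n, hn, rfl⟩ := Subgroup.mem_sup_of_normal_right.mp hg
    have hxθ : conjIrr N θ.1 x = θ.1 :=
      Subtype.ext (funext fun y => (conjIrr_apply' N θ.1 x y).trans (θ.2.2.2.1 x hx y))
    rw [conjIrr_mul, hxθ]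
    refine Subtype.ext (funext fun y => ?_)
    rw [conjIrr_apply]
    have := (IsCharacter.isClassFunction (isCharacter_irr θ.1)) y ⟨n, hn⟩
    rw [← this]
    exact congrArg _ (Subtype.ext (conjN_coe N n y))
  choose χ₀ hχ₀ hχ₀fix using fun θ : T =>
    exists_canonical N hNres ha hk θ.1 (hinv θ) θ.2.2.1 θ.2.2.2.2
  have hdeg : ∀ (f : G →* ℂˣ) (θ : T), Cfsg.charDegree
      (fun g => (f g : ℂ) * (χ₀ θ : G → ℂ) g) = Cfsg.charDegree (θ.1 : N → ℂ) := fun f θ => by
    have h := hχ₀ θ 1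
    rw [OneMemClass.coe_one] at h
    simp [Cfsg.charDegree, h]
  let Φ : L × T → {χ : Cfsg.IrrCharacter G // χ ∈ Cfsg.principalBlock M G ∧
      ¬ p ∣ Cfsg.charDegree (χ : G → ℂ) ∧ ∀ g : G, (χ : G → ℂ) (g ^ k) = (χ : G → ℂ) g} :=
    fun x => ⟨⟨_, isIrrCharacter_hom_mul x.1.1 (χ₀ x.2)⟩,
      PrincipalFixed.mem_principal_of_res hM N hpN _ x.2.1 (fun n => by
        show (x.1.1 n : ℂ) * (χ₀ x.2 : G → ℂ) n = _
        rw [x.1.2.1, Units.val_one, one_mul, hχ₀]) x.2.2.1,
      (hdeg x.1.1 x.2).symm ▸ x.2.2.2.1,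
      fun g => by
        show (x.1.1 (g ^ k) : ℂ) * (χ₀ x.2 : G → ℂ) (g ^ k) = _
        rw [x.1.2.2, hχ₀fix]⟩
  have hΦ : Function.Bijective Φ := by
    constructor
    · rintro ⟨f, θ⟩ ⟨f', θ'⟩ h
      have h' : ∀ g, (f.1 g : ℂ) * (χ₀ θ : G → ℂ) g = (f'.1 g : ℂ) * (χ₀ θ' : G → ℂ) g :=
        congrFun (congrArg Subtype.val (congrArg Subtype.val h))
      have hθ : θ = θ' := Subtype.ext (Subtype.ext (funext fun n => by
        have := h' n
        rwa [f.2.1, f'.2.1, hχ₀, hχ₀, Units.val_one, one_mul, one_mul] at this))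
      subst hθ
      refine Prod.ext (Subtype.ext (MonoidHom.ext fun g => ?_)) rfl
      have hd : f.1 g ^ Cfsg.charDegree (θ.1 : N → ℂ) = f'.1 g ^ Cfsg.charDegree (θ.1 : N → ℂ) := by
        have e : (fun g => (f.1 g : ℂ) * (χ₀ θ : G → ℂ) g) =
            fun g => (f'.1 g : ℂ) * (χ₀ θ : G → ℂ) g := funext h'
        have e1 := CfsgLib.DetChar.detChar_twist f.1 (χ₀ θ) g
        have e2 := CfsgLib.DetChar.detChar_twist f'.1 (χ₀ θ) g
        rw [e, e2] at e1
        obtain ⟨D, hD⟩ := CfsgLib.Extendible.exists_detHom (χ₀ θ)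
        have hdd : Cfsg.charDegree (χ₀ θ : G → ℂ) = Cfsg.charDegree (θ.1 : N → ℂ) := by
          simpa using hdeg 1 θ
        rw [← hD, hdd] at e1
        exact Units.ext (by
          rw [Units.val_pow_eq_pow_val, Units.val_pow_eq_pow_val]
          exact (mul_right_cancel₀ (Units.ne_zero _) e1).symm)
      have hi : ∀ f : L, f.1 g ^ N.index = 1 := fun f => by
        rw [← map_pow]; exact f.2.1 ⟨_, N.pow_index_mem g⟩
      have h1 : (f.1 g / f'.1 g) = 1 := orderOf_eq_one_iff.1 (Nat.eq_one_of_dvd_coprimes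
        (ha ▸ ((hp.coprime_iff_not_dvd).mpr θ.2.2.1).pow_left a)
        (orderOf_dvd_of_pow_eq_one (by rw [div_pow, hi, hi, div_one]))
        (orderOf_dvd_of_pow_eq_one (by rw [div_pow, hd, div_self'])))
      exact div_eq_one.mp h1
    · rintro ⟨χ, hB, hd, hfix⟩
      obtain ⟨θ, hθi, hres, hθd⟩ := irr_ext N ha χ hd
      let t : T := ⟨θ, mem_principal_res hM N hB hres hθi, hθd ▸ hd,
        fun x _ n => (conjIrr_apply' N θ x n).symm.trans (congrFun (congrArg Subtype.val (hθi x)) n),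
        fun n => by rw [← hres, ← hres, SubgroupClass.coe_pow, hfix]⟩
      obtain ⟨f, hfN, hf⟩ := CfsgLib.DetChar.exists_twist N θ (χ₀ t) χ (hχ₀ t) hres
      refine ⟨(⟨f, hfN, fun g => ?_⟩, t), Subtype.ext (Subtype.ext (funext fun g => (hf g).symm))⟩
      -- the twist is fixed by the power map
      have hi : ∀ x, f x ^ N.index = 1 := fun x => by
        rw [← map_pow]; exact hfN ⟨_, N.pow_index_mem x⟩
      let f' : G →* ℂˣ := f ^ k
      have hf' : ∀ x, (χ : G → ℂ) x = (f' x : ℂ) * (χ₀ t : G → ℂ) x := fun x => by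
        rw [← hfix, hf, hχ₀fix, MonoidHom.pow_apply, ← map_pow]
      obtain ⟨D, hD⟩ := CfsgLib.Extendible.exists_detHom (χ₀ t)
      have e : (fun x => (f x : ℂ) * (χ₀ t : G → ℂ) x) = fun x => (f' x : ℂ) * (χ₀ t : G → ℂ) x :=
        funext fun x => (hf x).symm.trans (hf' x)
      have e1 := CfsgLib.DetChar.detChar_twist f (χ₀ t) g
      rw [e, CfsgLib.DetChar.detChar_twist f' (χ₀ t) g, ← hD] at e1
      have hd' : f' g ^ Cfsg.charDegree (χ₀ t : G → ℂ) = f g ^ Cfsg.charDegree (χ₀ t : G → ℂ) :=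
        Units.ext (by
          rw [Units.val_pow_eq_pow_val, Units.val_pow_eq_pow_val]
          exact mul_right_cancel₀ (Units.ne_zero _) e1)
      have hdd : Cfsg.charDegree (χ₀ t : G → ℂ) = Cfsg.charDegree (θ : N → ℂ) := by
        simpa using hdeg 1 t
      have h1 : (f' g / f g) = 1 := orderOf_eq_one_iff.1 (Nat.eq_one_of_dvd_coprimes
        (ha ▸ ((hp.coprime_iff_not_dvd).mpr (hθd ▸ hd)).pow_left a)
        (orderOf_dvd_of_pow_eq_one (by
          rw [div_pow, MonoidHom.pow_apply, pow_right_comm, hi, one_pow, div_one]))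
        (orderOf_dvd_of_pow_eq_one (by rw [div_pow, ← hdd, hd', div_self'])))
      rw [map_pow, ← MonoidHom.pow_apply]
      exact div_eq_one.mp h1
  rw [← Nat.card_congr (Equiv.ofBijective Φ hΦ), Nat.card_prod, hL]

end Cfsg.Agent.S4553
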