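import Cfsg.Statements.S4558
import Cfsg.Agent.Lib.Chars.Orth
import Cfsg.Agent.Lib.Blocks.Local

set_option autoImplicit false
open Cfsg

namespace Cfsg.Agent.S4558

open CfsgLib.Chars CfsgLib.Blocks

/-- Let χ be a character of the finite group G and g an element of p-power order for the prime p. If χ g = 0, then p divides the degree of χ. -/
theorem result {G : Type*} [Group G] [Finite G] (p : ℕ) [Fact p.Prime] (χ : G → ℂ) (hχ : Cfsg.IsCharacter G χ) (g : G) (hg : ∃ j : ℕ, orderOf g = p ^ j) (h0 : χ g = 0) : p ∣ Cfsg.charDegree χ := by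
  obtain ⟨j, hj⟩ := hg
  obtain ⟨M, hM⟩ := exists_isPModular (Fact.out : p.Prime)
  obtain ⟨l, hl, hk⟩ := exists_list_eigen hχ g
  have h1 := hk 1
  simp only [pow_one, List.map_id'] at h1
  have hlen : (charDegree χ : ℂ) = (l.length : ℂ) :=
    (IsCharacter.apply_one hχ).symm.trans (eigen_length hk)
  have key : MemLocalIdeal M (l.sum - (l.length : ℂ)) := by
    clear hk h1 hlen
    induction l with
    | nil => simpa using mli_zero hM
    | cons a t ih =>
      have ha : MemLocalIdeal M (a - 1) :=
        mli_sub_one_of_pow_eq_one hM (hj ▸ hl a (by simp))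
      have := mli_add hM ha (ih fun μ hμ => hl μ (by simp [hμ]))
      convert this using 1
      simp only [List.sum_cons, List.length_cons, Nat.cast_succ]
      ring
  rw [← h1, h0, zero_sub, ← hlen] at key
  have := mli_neg key
  rw [neg_neg] at this
  exact (mli_natCast_iff hM _).mp this

end Cfsg.Agent.S4558
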