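import Cfsg.Statements.S4565
import Cfsg.Agent.Lib.CharExtend
import Cfsg.Agent.S0886

set_option autoImplicit false
open Cfsg

namespace Cfsg.Agent.S4565

/-- Let χ be an irreducible character of the finite group H that is fully ramified over the normal subgroup Z: the restriction of χ to Z is e times an irreducible character of Z with e ^ 2 equal to the index of Z. If Z ≠ H, then H/Z has no cyclic subgroup that is its own centralizer. -/
theorem result {H : Type*} [Group H] [Finite H] (Z : Subgroup H) [Z.Normal] (χ : Cfsg.IrrCharacter H) (hfr : ∃ (θ : Cfsg.IrrCharacter ↥Z) (e : ℕ), e ^ 2 = Z.index ∧ ∀ z : ↥Z, (χ : H → ℂ) z = (e : ℂ) * (θ : ↥Z → ℂ) z) (hZ : Z ≠ ⊤) (C : Subgroup (H ⧸ Z)) (hC : IsCyclic C) : Subgroup.centralizer (C : Set (H ⧸ Z)) ≠ C := by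
      classical
      haveI : Fintype H := Fintype.ofFinite H
      haveI : Fintype Z := Fintype.ofFinite Z
      obtain ⟨θ, e, he, hres⟩ := hfr
      have he0 : e ≠ 0 := fun h => Z.index_ne_zero_of_finite (by rw [← he, h]; rfl)
      have heC : (e : ℂ) ≠ 0 := Nat.cast_ne_zero.2 he0
      intro hC2
      obtain ⟨⟨c, hc⟩, hgen⟩ := hC.exists_generator
      obtain ⟨g, rfl⟩ := QuotientGroup.mk_surjective c
      have hgen' : ∀ x ∈ C, ∃ i : ℤ, ((g : H ⧸ Z)) ^ i = x := fun x hx => by
        obtain ⟨i, hi⟩ := hgen ⟨x, hx⟩
        exact ⟨i, congrArg Subtype.val hi⟩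
      have hcom : ∀ x ∈ C, x * (g : H ⧸ Z) = (g : H ⧸ Z) * x := fun x hx => by
        obtain ⟨i, rfl⟩ := hgen' x hx
        exact ((Commute.refl (g : H ⧸ Z)).zpow_left i).eq
      have hcent : ∀ x : H ⧸ Z, x * (g : H ⧸ Z) = (g : H ⧸ Z) * x → x ∈ C := fun x hx => by
        rw [← hC2, Subgroup.mem_centralizer_iff]
        intro y hy
        obtain ⟨i, rfl⟩ := hgen' y hy
        exact ((show Commute x (g : H ⧸ Z) from hx).zpow_right i).eq.symm
      have hgZ : g ∉ Z := by
        intro hg
        apply hZ
        rw [Subgroup.eq_top_iff']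
        intro x
        obtain ⟨i, hi⟩ := hgen' (x : H ⧸ Z) (hcent _ (by rw [(QuotientGroup.eq_one_iff g).2 hg, mul_one, one_mul]))
        rw [(QuotientGroup.eq_one_iff g).2 hg, one_zpow] at hi
        exact (QuotientGroup.eq_one_iff x).1 hi.symm
      -- the character vanishes outside Z
      have hvan : ∀ y, y ∉ Z → (χ : H → ℂ) y = 0 := by
        have h1 := CfsgLib.Chars.sum_mul_conj_irr χ χ
        have h2 := CfsgLib.Chars.sum_mul_conj_irr θ θ
        rw [if_pos rfl] at h1 h2
        have h3 : ∑ y ∈ Finset.univ.filter (fun y : H => y ∈ Z), (χ : H → ℂ) y * starRingEnd ℂ ((χ : H → ℂ) y) =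
            (Nat.card H : ℂ) := by
          rw [Finset.sum_subtype (Finset.univ.filter fun y : H => y ∈ Z) (p := fun y => y ∈ Z) (fun y => by simp),
            ← Z.card_mul_index, ← he, Nat.cast_mul, ← h2, Finset.sum_mul]
          refine Finset.sum_congr rfl fun z _ => ?_
          rw [hres z, map_mul, map_natCast]
          push_cast; ring
        rw [← Finset.sum_filter_add_sum_filter_not Finset.univ (fun y : H => y ∈ Z), h3] at h1
        simp only [Complex.mul_conj, add_eq_left] at h1
        rw [← Complex.ofReal_sum, Complex.ofReal_eq_zero] at h1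
        intro y hy
        exact Complex.normSq_eq_zero.1 ((Finset.sum_eq_zero_iff_of_nonneg fun x _ => Complex.normSq_nonneg _).1 h1 y
          (Finset.mem_filter.2 ⟨Finset.mem_univ _, hy⟩))
      -- other characters do not lie over θ
      have hoff : ∀ η : Cfsg.IrrCharacter H, η ≠ χ → Cfsg.classInner (fun z : Z => (η : H → ℂ) z) (θ : Z → ℂ) = 0 := by
        intro η hη
        have h := CfsgLib.Chars.sum_mul_conj_irr η χ
        rw [if_neg hη, ← Finset.sum_filter_add_sum_filter_not Finset.univ (fun y : H => y ∈ Z),
          Finset.sum_eq_zero (s := Finset.univ.filter fun y : H => ¬ y ∈ Z) (fun y hy => by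
            rw [hvan y (Finset.mem_filter.1 hy).2, map_zero, mul_zero]), add_zero,
          Finset.sum_subtype (Finset.univ.filter fun y : H => y ∈ Z) (p := fun y => y ∈ Z) (fun y => by simp),
          Finset.sum_congr rfl (g := fun z : Z => (e : ℂ) * ((η : H → ℂ) z * starRingEnd ℂ ((θ : Z → ℂ) z)))
            (fun z _ => by rw [hres z, map_mul, map_natCast]; ring), ← Finset.mul_sum] at h
        rw [Cfsg.classInner, (mul_eq_zero.1 h).resolve_left heC, mul_zero]
      -- extend θ to the preimage of C
      set A := C.comap (QuotientGroup.mk' Z) with hA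
      haveI : Fintype A := Fintype.ofFinite A
      have hZA : Z ≤ A := fun z hz => by
        show (z : H ⧸ Z) ∈ C
        rw [(QuotientGroup.eq_one_iff z).2 hz]; exact C.one_mem
      set Z' := Z.subgroupOf A with hZ'
      haveI : Fintype Z' := Fintype.ofFinite Z'
      let iso : Z' ≃* Z := Subgroup.subgroupOfEquivOfLe hZA
      have hinv : ∀ (x : H) (z : Z) (h : x * (z : H) * x⁻¹ ∈ Z), (θ : Z → ℂ) ⟨x * (z : H) * x⁻¹, h⟩ = (θ : Z → ℂ) z := by
        intro x z h
        apply mul_left_cancel₀ heC
        rw [← hres, ← hres]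
        exact CfsgLib.Chars.IsCharacter.isClassFunction (CfsgLib.Chars.isCharacter_irr χ) (z : H) x
      have hcycA : IsCyclic (A ⧸ Z') := by
        refine isCyclic_of_injective (QuotientGroup.map Z' Z A.subtype (fun z hz => hz) |>.codRestrict C ?_) ?_
        · intro q
          obtain ⟨a, rfl⟩ := QuotientGroup.mk_surjective q
          exact a.2
        · rw [← MonoidHom.ker_eq_bot_iff, eq_bot_iff]
          intro q hq
          obtain ⟨a, rfl⟩ := QuotientGroup.mk_surjective q
          rw [MonoidHom.mem_ker, Subtype.ext_iff] at hq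
          exact (QuotientGroup.eq_one_iff a).2 ((QuotientGroup.eq_one_iff (a : H)).1 hq)
      obtain ⟨ψ, hψ, hψres⟩ := Cfsg.Agent.S0886.result Z' hcycA (fun z => (θ : Z → ℂ) (iso z))
        (CfsgLib.Chars.IsIrrCharacter.comp θ.2 iso.toMonoidHom iso.surjective) (fun a z => hinv (a : H) (iso z) _)
      let Ψ : Cfsg.IrrCharacter A := ⟨ψ, hψ⟩
      let g' : A := ⟨g, hc⟩
      have hnorm := CfsgLib.CharExtend.sum_coset_norm Z' Ψ
        ⟨_, CfsgLib.Chars.IsIrrCharacter.comp θ.2 iso.toMonoidHom iso.surjective⟩ hψres g'
      obtain ⟨n₀, hn₀⟩ : ∃ n : Z', ψ ((n : A) * g') ≠ 0 := by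
        by_contra hno
        push Not at hno
        rw [Finset.sum_eq_zero fun n _ => by
          show ψ ((n : A) * g') * _ = 0
          rw [hno n, zero_mul]] at hnorm
        exact CfsgLib.Chars.natCast_card_ne_zero Z' hnorm.symm
      let f : H → ℂ := fun x => if hx : x ∈ A then (if x * g⁻¹ ∈ Z then ψ ⟨x, hx⟩ else 0) else 0
      let F : H → ℂ := fun y => ∑ h : H, f (h * y * h⁻¹)
      have hF : Cfsg.IsClassFunction H F := by
        intro y k
        refine Fintype.sum_equiv (Equiv.mulRight k) _ _ fun h => ?_
        simp only [Equiv.coe_mulRight]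
        congr 1
        group
      have horth : ∀ η : Cfsg.IrrCharacter H, η ≠ χ → Cfsg.classInner F (η : H → ℂ) = 0 := by
        intro η hη
        have hsum : ∑ n : Z', ψ ((n : A) * g') * starRingEnd ℂ ((η : H → ℂ) (((n : A) * g' : A) : H)) = 0 := by
          set φ : A → ℂ := fun a => ψ a * starRingEnd ℂ ((η : H → ℂ) (a : H)) with hφdef
          have hφ : Cfsg.IsCharacter A φ := CfsgLib.Chars.IsCharacter.mul (CfsgLib.Chars.isCharacter_irr Ψ)
            (CfsgLib.Chars.IsCharacter.restrict
              (CfsgLib.Chars.IsIrrCharacter.isCharacter (CfsgLib.Chars.isIrrCharacter_conj η)) A)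
          choose m hm using CfsgLib.Chars.exists_mult hφ
          choose k hk using fun β : Cfsg.IrrCharacter A => CfsgLib.Chars.exists_mult
            (CfsgLib.Chars.IsCharacter.restrict (CfsgLib.Chars.isCharacter_irr β) Z')
            (⟨fun _ => 1, CfsgLib.Chars.isIrrCharacter_one Z'⟩ : Cfsg.IrrCharacter Z')
          have hexp : ∀ a, φ a = ∑ β : Cfsg.IrrCharacter A, (m β : ℂ) * (β : A → ℂ) a := fun a => by
            rw [CfsgLib.Chars.classFunction_expand (CfsgLib.Chars.IsCharacter.isClassFunction hφ) a]
            simp only [hm]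
          have hk' : ∀ β : Cfsg.IrrCharacter A, ∑ n : Z', (β : A → ℂ) n = (Nat.card Z' : ℂ) * (k β : ℂ) := by
            intro β
            rw [← hk β]
            show _ = (Nat.card Z' : ℂ) * Cfsg.classInner (fun n : Z' => (β : A → ℂ) n) (fun _ => 1)
            rw [CfsgLib.CharExtend.classInner_one_right, ← mul_assoc,
              mul_inv_cancel₀ (CfsgLib.Chars.natCast_card_ne_zero Z'), one_mul]
          have h0 : ∑ n : Z', φ n = 0 := by
            have h := hoff η hη
            rw [Cfsg.classInner, mul_eq_zero] at h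
            have h' := congrArg (starRingEnd ℂ) (h.resolve_left (inv_ne_zero (CfsgLib.Chars.natCast_card_ne_zero Z)))
            rw [map_sum, map_zero] at h'
            refine Eq.trans (Fintype.sum_equiv iso.toEquiv _ _ fun n => ?_) h'
            rw [map_mul, Complex.conj_conj, mul_comm]
            show ψ (n : A) * starRingEnd ℂ ((η : H → ℂ) ((n : A) : H)) = _
            rw [hψres n]
            rfl
          have hzero : ∀ β, m β * k β = 0 := by
            have h : (Nat.card Z' : ℂ) * ((∑ β : Cfsg.IrrCharacter A, m β * k β : ℕ) : ℂ) = 0 := by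
              rw [← h0]
              simp only [hexp]
              rw [Finset.sum_comm]
              simp only [← Finset.mul_sum, hk']
              push_cast
              rw [Finset.mul_sum]
              exact Finset.sum_congr rfl fun β _ => by ring
            have h' : ∑ β : Cfsg.IrrCharacter A, m β * k β = 0 := by
              exact_mod_cast (mul_eq_zero.1 h).resolve_left (CfsgLib.Chars.natCast_card_ne_zero Z')
            exact fun β => Finset.sum_eq_zero_iff.1 h' β (Finset.mem_univ _)
          show ∑ n : Z', φ ((n : A) * g') = 0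
          simp only [hexp]
          rw [Finset.sum_comm]
          simp only [← Finset.mul_sum, CfsgLib.CharExtend.sum_coset Z', hk']
          refine Finset.sum_eq_zero fun β _ => ?_
          rcases Nat.mul_eq_zero.1 (hzero β) with h | h <;> simp [h]
        have key : ∀ h : H, ∑ y, f (h * y * h⁻¹) * starRingEnd ℂ ((η : H → ℂ) y) =
            ∑ x, f x * starRingEnd ℂ ((η : H → ℂ) x) := by
          intro h
          refine Fintype.sum_equiv (MulAut.conj h).toEquiv _ _ fun y => ?_
          simp only [MulEquiv.toEquiv_eq_coe, MulEquiv.coe_toEquiv, MulAut.conj_apply]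
          rw [CfsgLib.Chars.IsCharacter.isClassFunction (CfsgLib.Chars.isCharacter_irr η) y h]
        have hf0 : ∑ x, f x * starRingEnd ℂ ((η : H → ℂ) x) = 0 := by
          rw [← Finset.sum_filter_add_sum_filter_not Finset.univ (fun x : H => x * g⁻¹ ∈ Z),
            Finset.sum_eq_zero (s := Finset.univ.filter fun x : H => ¬ x * g⁻¹ ∈ Z) (fun x hx => by
              simp only [f]
              split_ifs with h1 h2
              · exact absurd h2 (Finset.mem_filter.1 hx).2
              · rw [zero_mul]
              · rw [zero_mul]), add_zero, ← hsum]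
          refine (Finset.sum_bij (fun (n : Z') _ => (((n : A) * g' : A) : H)) (fun n _ => ?_)
            (fun n _ n' _ h => Subtype.ext (mul_right_cancel (Subtype.ext h))) (fun x hx => ?_) (fun n _ => ?_)).symm
          · refine Finset.mem_filter.2 ⟨Finset.mem_univ _, ?_⟩
            show ((n : A) : H) * g * g⁻¹ ∈ Z
            rw [mul_inv_cancel_right]
            exact n.2
          · have hx' := (Finset.mem_filter.1 hx).2
            exact ⟨⟨⟨x * g⁻¹, hZA hx'⟩, hx'⟩, Finset.mem_univ _, inv_mul_cancel_right x g⟩
          · have hmem : (((n : A) * g' : A) : H) * g⁻¹ ∈ Z := by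
              show ((n : A) : H) * g * g⁻¹ ∈ Z
              rw [mul_inv_cancel_right]
              exact n.2
            simp only [f]
            rw [dif_pos ((n : A) * g').2, if_pos hmem]
        simp only [Cfsg.classInner, F, Finset.sum_mul]
        rw [Finset.sum_comm, Finset.sum_eq_zero fun h _ => (key h).trans hf0, mul_zero]
      set y := (n₀ : A) * g' with hy
      have hyg : ((y : H) : H ⧸ Z) = (g : H ⧸ Z) := by
        show ((((n₀ : A) : H) * g : H) : H ⧸ Z) = _
        rw [QuotientGroup.mk_mul, (QuotientGroup.eq_one_iff ((n₀ : A) : H)).2 n₀.2, one_mul]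
      have hyZ : (y : H) ∉ Z := fun h => hgZ ((QuotientGroup.eq_one_iff g).1 (hyg ▸ (QuotientGroup.eq_one_iff _).2 h))
      have hFy : F y = 0 := by
        rw [CfsgLib.Chars.classFunction_expand hF y, Finset.sum_eq_single χ (fun η _ hη => by rw [horth η hη, zero_mul])
          (fun h => absurd (Finset.mem_univ _) h), hvan _ hyZ, mul_zero]
      apply hn₀
      have hFy' : F y = (Nat.card A : ℂ) * ψ y := by
        simp only [F]
        rw [← Finset.sum_filter_add_sum_filter_not Finset.univ (fun h : H => h ∈ A),
          Finset.sum_eq_zero (s := Finset.univ.filter fun h : H => ¬ h ∈ A) (fun h hh => ?_), add_zero,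
          Finset.sum_congr rfl (g := fun _ => ψ y) (fun h hh => ?_), Finset.sum_const, nsmul_eq_mul,
          show (Finset.univ.filter fun h : H => h ∈ A).card = Nat.card A by
            rw [Nat.card_eq_fintype_card, Fintype.card_subtype]]
        · have hhA := (Finset.mem_filter.1 hh).2
          have hin : h * (y : H) * h⁻¹ ∈ A := mul_mem (mul_mem hhA y.2) (inv_mem hhA)
          have hcg : (h * (y : H) * h⁻¹) * g⁻¹ ∈ Z := by
            rw [← QuotientGroup.eq_one_iff]
            simp only [QuotientGroup.mk_mul, QuotientGroup.mk_inv, hyg]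
            rw [hcom (h : H ⧸ Z) hhA, mul_inv_cancel_right, mul_inv_cancel]
          simp only [f]
          rw [dif_pos hin, if_pos hcg]
          exact CfsgLib.Chars.IsCharacter.isClassFunction (CfsgLib.Chars.isCharacter_irr Ψ) y ⟨h, hhA⟩
        · have hhA := (Finset.mem_filter.1 hh).2
          simp only [f]
          split_ifs with hin hcg
          · exfalso
            refine hhA (hcent _ ?_)
            have h1 := (QuotientGroup.eq_one_iff _).2 hcg
            simp only [QuotientGroup.mk_mul, QuotientGroup.mk_inv, hyg] at h1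
            rw [mul_inv_eq_one, mul_inv_eq_iff_eq_mul] at h1
            exact h1
          · rfl
          · rfl
      rw [hFy] at hFy'
      exact (mul_eq_zero.1 hFy'.symm).resolve_left (CfsgLib.Chars.natCast_card_ne_zero A)

end Cfsg.Agent.S4565
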