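import Cfsg.Statements.S4566
import Cfsg.Agent.Lib.Chars.Misc

set_option autoImplicit false
open Cfsg

namespace Cfsg.Agent.S4566

open CfsgLib.Chars
open scoped ComplexConjugate

/-- Let N be a central subgroup of the finite group G, ψ a faithful irreducible (hence degree-one) character of N, and χ an irreducible character of G whose restriction to N contains ψ. If g ∈ G and some x ∈ G has commutator x⁻¹ g⁻¹ x g in N but different from 1, then χ g = 0. -/
theorem result {G : Type*} [Group G] [Fintype G] (N : Subgroup G) [Fintype N] (hN : N ≤ Subgroup.center G) (ψ : Cfsg.IrrCharacter ↥N) (hfaith : ∀ n : ↥N, (ψ : ↥N → ℂ) n = (ψ : ↥N → ℂ) 1 → n = 1) (χ : Cfsg.IrrCharacter G) (hover : Cfsg.classInner (fun n : ↥N => (χ : G → ℂ) n) (ψ : ↥N → ℂ) ≠ 0) (g x : G) (hcomm : x⁻¹ * g⁻¹ * x * g ∈ N) (hne : x⁻¹ * g⁻¹ * x * g ≠ 1) : (χ : G → ℂ) g = 0 := by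
  classical
  by_contra hg0
  set c := x⁻¹ * g⁻¹ * x * g with hc
  have hcz : c ∈ Subgroup.center G := hN hcomm
  have hci : c⁻¹ ∈ Subgroup.center G := inv_mem hcz
  have e : c⁻¹ * g = x⁻¹ * g * x := by
    have h' : g * c⁻¹ = x⁻¹ * g * x := by rw [hc]; group
    rw [← h', Subgroup.mem_center_iff.mp hci g]
  have hcl : (χ : G → ℂ) (c⁻¹ * g) = (χ : G → ℂ) g := by
    rw [e]
    simpa using IsCharacter.isClassFunction (isCharacter_irr χ) g x⁻¹
  have hc1 : (χ : G → ℂ) c⁻¹ = (χ : G → ℂ) 1 := by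
    have := mul_central χ hci g
    rw [hcl] at this
    exact mul_right_cancel₀ hg0 (this.symm.trans (mul_comm _ _))
  have hinv : ∀ y : G, (χ : G → ℂ) (c⁻¹ * y) = (χ : G → ℂ) y := fun y => by
    have := mul_central χ hci y
    rw [hc1] at this
    exact mul_left_cancel₀ (irr_one_ne_zero χ) ((mul_comm _ _).trans this)
  let m : ↥N := ⟨c⁻¹, inv_mem hcomm⟩
  have hmz : m ∈ Subgroup.center ↥N := by
    rw [Subgroup.mem_center_iff]
    intro y
    exact Subtype.ext (Subgroup.mem_center_iff.mp hci (y : G))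
  apply hne
  have hψ : (ψ : ↥N → ℂ) m = (ψ : ↥N → ℂ) 1 := by
    set S := ∑ n : ↥N, (χ : G → ℂ) n * conj ((ψ : ↥N → ℂ) n) with hS
    have hS0 : S ≠ 0 := fun h => hover (by rw [classInner, ← hS, h, mul_zero])
    have : S * conj ((ψ : ↥N → ℂ) 1) = S * conj ((ψ : ↥N → ℂ) m) := by
      calc S * conj ((ψ : ↥N → ℂ) 1)
          = (∑ n : ↥N, (χ : G → ℂ) n * conj ((ψ : ↥N → ℂ) (m * n))) *
              conj ((ψ : ↥N → ℂ) 1) := by
            congr 1
            rw [hS, ← Equiv.sum_comp (Equiv.mulLeft m)]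
            refine Finset.sum_congr rfl fun n _ => ?_
            simp only [Equiv.coe_mulLeft, Subgroup.coe_mul]
            rw [show ((m : G)) = c⁻¹ from rfl, hinv]
        _ = S * conj ((ψ : ↥N → ℂ) m) := by
            rw [hS, Finset.sum_mul, Finset.sum_mul]
            refine Finset.sum_congr rfl fun n _ => ?_
            rw [mul_assoc, mul_assoc, ← map_mul, ← map_mul, mul_central ψ hmz n]
            rw [mul_comm ((ψ : ↥N → ℂ) m)]
    exact ((starRingEnd ℂ).injective (mul_left_cancel₀ hS0 this)).symm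
  have := congrArg Subtype.val (hfaith m hψ)
  simpa [m] using this

end Cfsg.Agent.S4566
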