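import Cfsg.Statements.S4567
import Cfsg.Agent.Lib.Chars.Misc

set_option autoImplicit false
open Cfsg

namespace Cfsg.Agent.S4567

open CfsgLib.Chars
open scoped ComplexConjugate

open Classical in
theorem sum_centralizer {Q : Type*} [Group Q] [Fintype Q] (P : Q → Prop)
    (hP : ∀ q c, P q → P (c * q * c⁻¹)) :
    ∑ q ∈ Finset.univ.filter P, Nat.card (Subgroup.centralizer ({q} : Set Q)) =
      Nat.card Q * Nat.card {C : ConjClasses Q // ∃ q, ConjClasses.mk q = C ∧ P q} := by
  haveI : Finite (ConjClasses Q) := Finite.of_surjective _ ConjClasses.mk_surjective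
  haveI : Fintype (ConjClasses Q) := Fintype.ofFinite _
  rw [Nat.card_eq_fintype_card (α := {C : ConjClasses Q // ∃ q, ConjClasses.mk q = C ∧ P q}),
    Fintype.card_subtype, mul_comm, ← smul_eq_mul, ← Finset.sum_const,
    ← Finset.sum_fiberwise_of_maps_to (g := fun q : Q => ConjClasses.mk q)
      (t := Finset.univ.filter fun C : ConjClasses Q => ∃ q, ConjClasses.mk q = C ∧ P q)
      (fun q hq => Finset.mem_filter.mpr
        ⟨Finset.mem_univ _, q, rfl, (Finset.mem_filter.mp hq).2⟩)]
  refine Finset.sum_congr rfl fun C hC => ?_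
  obtain ⟨q, rfl, hq⟩ := (Finset.mem_filter.mp hC).2
  have hs : (Finset.univ.filter P).filter (fun y => ConjClasses.mk y = ConjClasses.mk q) =
      Finset.univ.filter (fun y => IsConj q y) := by
    ext y
    simp only [Finset.mem_filter, Finset.mem_univ, true_and, ConjClasses.mk_eq_mk_iff_isConj]
    constructor
    · exact fun h => h.2.symm
    · intro h
      obtain ⟨c, rfl⟩ := isConj_iff.mp h
      exact ⟨hP q c hq, h.symm⟩
  rw [hs, Finset.sum_congr rfl (g := fun _ => Nat.card (Subgroup.centralizer ({q} : Set Q)))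
    (fun y hy => ?_), Finset.sum_const, smul_eq_mul, ← Fintype.card_subtype,
    ← Nat.card_eq_fintype_card, card_isConj_eq_index, Subgroup.index_mul_card]
  have hy' := (Finset.mem_filter.mp hy).2
  have h1 := Subgroup.index_mul_card (Subgroup.centralizer ({q} : Set Q))
  have h2 := Subgroup.index_mul_card (Subgroup.centralizer ({y} : Set Q))
  have e : (Subgroup.centralizer ({y} : Set Q)).index =
      (Subgroup.centralizer ({q} : Set Q)).index := by
    rw [← card_isConj_eq_index, ← card_isConj_eq_index]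
    exact Nat.card_congr (Equiv.subtypeEquivRight fun z =>
      ⟨fun h => hy'.trans h, fun h => hy'.symm.trans h⟩)
  rw [e, ← h1] at h2
  exact mul_left_cancel₀ (Subgroup.index_ne_zero_of_finite) h2

section

variable {G : Type*} [Group G] {N : Subgroup G}

/-- The special elements. -/
def Good (N : Subgroup G) (g : G) : Prop := ∀ x : G, x⁻¹ * g⁻¹ * x * g ∈ N → x * g = g * x

theorem good_mul (hN : N ≤ Subgroup.center G) {g : G} (hg : Good N g) {n : G} (hn : n ∈ N) :
    Good N (n * g) := by
  intro x hx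
  have hz := Subgroup.mem_center_iff.mp (hN hn)
  have e : x⁻¹ * (n * g)⁻¹ * x * (n * g) = x⁻¹ * g⁻¹ * x * g := by
    calc x⁻¹ * (n * g)⁻¹ * x * (n * g) = x⁻¹ * g⁻¹ * n⁻¹ * (x * n) * g := by group
      _ = x⁻¹ * g⁻¹ * n⁻¹ * (n * x) * g := by rw [hz x]
      _ = x⁻¹ * g⁻¹ * x * g := by group
  rw [e] at hx
  calc x * (n * g) = (x * n) * g := by group
    _ = n * (x * g) := by rw [hz x]; group
    _ = n * g * x := by rw [hg x hx]; group

theorem good_conj [hn : N.Normal] {g : G} (hg : Good N g) (c : G) :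
    Good N (c * g * c⁻¹) := by
  intro x hx
  have h := hn.conj_mem _ hx c⁻¹
  have := hg (c⁻¹ * x * c) (by
    convert h using 1
    group)
  calc x * (c * g * c⁻¹) = c * ((c⁻¹ * x * c) * g) * c⁻¹ := by group
    _ = c * (g * (c⁻¹ * x * c)) * c⁻¹ := by rw [this]
    _ = c * g * c⁻¹ * x := by group

end

/-- Let N be a central subgroup of the finite group G and ψ a faithful irreducible (hence degree-one) character of N. Call a coset g N special when every x ∈ G whose commutator x⁻¹ g⁻¹ x g lies in N actually commutes with g (this depends only on the coset). Then the number of irreducible characters of G whose restriction to N contains ψ equals the number of conjugacy classes of G/N consisting of special cosets. -/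
theorem result {G : Type*} [Group G] [Fintype G] (N : Subgroup G) [N.Normal] [Fintype N] (hN : N ≤ Subgroup.center G) (ψ : Cfsg.IrrCharacter ↥N) (hfaith : ∀ n : ↥N, (ψ : ↥N → ℂ) n = (ψ : ↥N → ℂ) 1 → n = 1) : Nat.card {χ : Cfsg.IrrCharacter G // Cfsg.classInner (fun n : ↥N => (χ : G → ℂ) n) (ψ : ↥N → ℂ) ≠ 0} = Nat.card {C : ConjClasses (G ⧸ N) // ∃ g : G, ConjClasses.mk (g : G ⧸ N) = C ∧ ∀ x : G, x⁻¹ * g⁻¹ * x * g ∈ N → x * g = g * x} := by
  classical
  let Q := G ⧸ N
  haveI : Fintype Q := Fintype.ofFinite _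
  -- `ψ` is a linear character
  have hNc : ∀ m : ↥N, m ∈ Subgroup.center ↥N := fun m => by
    rw [Subgroup.mem_center_iff]
    intro y
    exact Subtype.ext (Subgroup.mem_center_iff.mp (hN m.2) (y : G))
  have hψnorm : ∀ m : ↥N, (ψ : ↥N → ℂ) m * conj ((ψ : ↥N → ℂ) m) =
      (ψ : ↥N → ℂ) 1 * (ψ : ↥N → ℂ) 1 := fun m => by
    rw [← IsCharacter.map_inv (isCharacter_irr ψ), ← mul_central ψ (hNc m), mul_inv_cancel]
  have hψ1 : (ψ : ↥N → ℂ) 1 = 1 := by
    have h := sum_mul_conj_irr ψ ψ
    rw [if_pos rfl, Finset.sum_congr rfl (fun m _ => hψnorm m), Finset.sum_const, nsmul_eq_mul,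
      Finset.card_univ, ← Nat.card_eq_fintype_card] at h
    have h2 := mul_left_cancel₀ (natCast_card_ne_zero ↥N) (h.trans (mul_one _).symm)
    rw [irr_apply_one] at h2 ⊢
    rw [← Nat.cast_mul, Nat.cast_eq_one] at h2
    rw [(mul_eq_one.mp h2).1, Nat.cast_one]
  have hψu : ∀ m : ↥N, (ψ : ↥N → ℂ) m * conj ((ψ : ↥N → ℂ) m) = 1 := fun m => by
    rw [hψnorm, hψ1, one_mul]
  have hψmul : ∀ m n : ↥N, (ψ : ↥N → ℂ) (m * n) = (ψ : ↥N → ℂ) m * (ψ : ↥N → ℂ) n :=
    fun m n => by simpa [hψ1] using mul_central ψ (hNc m) n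
  let over : IrrCharacter G → Prop := fun χ =>
    classInner (fun n : ↥N => (χ : G → ℂ) n) (ψ : ↥N → ℂ) ≠ 0
  -- restriction to `N` of a character over `ψ`
  have hres : ∀ χ, over χ → ∀ n : ↥N, (χ : G → ℂ) n = (χ : G → ℂ) 1 * (ψ : ↥N → ℂ) n := by
    intro χ hχ m
    set S := ∑ n : ↥N, (χ : G → ℂ) n * conj ((ψ : ↥N → ℂ) n) with hS
    have hS0 : S ≠ 0 := fun h => hχ (by rw [classInner, ← hS, h, mul_zero])
    have : (χ : G → ℂ) 1 * S = (χ : G → ℂ) m * conj ((ψ : ↥N → ℂ) m) * S := by
      conv_lhs => rw [hS, ← Equiv.sum_comp (Equiv.mulLeft m)]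
      rw [hS, Finset.mul_sum, Finset.mul_sum]
      refine Finset.sum_congr rfl fun n _ => ?_
      simp only [Equiv.coe_mulLeft, Subgroup.coe_mul, hψmul, map_mul]
      linear_combination (conj ((ψ : ↥N → ℂ) m) * conj ((ψ : ↥N → ℂ) n)) *
        mul_central χ (hN m.2) (n : G)
    have h := mul_right_cancel₀ hS0 this
    calc (χ : G → ℂ) m = (χ : G → ℂ) m * ((ψ : ↥N → ℂ) m * conj ((ψ : ↥N → ℂ) m)) := by
          rw [hψu, mul_one]
      _ = (χ : G → ℂ) 1 * (ψ : ↥N → ℂ) m := by rw [h]; ring
  have key : ∀ (χ : IrrCharacter G) (g : G),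
      ∑ n : ↥N, conj ((ψ : ↥N → ℂ) n) * (χ : G → ℂ) ((n : G) * g) =
        if over χ then (Nat.card ↥N : ℂ) * (χ : G → ℂ) g else 0 := by
    intro χ g
    apply mul_right_cancel₀ (irr_one_ne_zero χ)
    have e : (∑ n : ↥N, conj ((ψ : ↥N → ℂ) n) * (χ : G → ℂ) ((n : G) * g)) * (χ : G → ℂ) 1 =
        (∑ n : ↥N, (χ : G → ℂ) n * conj ((ψ : ↥N → ℂ) n)) * (χ : G → ℂ) g := by
      rw [Finset.sum_mul, Finset.sum_mul]
      refine Finset.sum_congr rfl fun n _ => ?_
      rw [mul_assoc, mul_central χ (hN n.2) g]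
      ring
    rw [e]
    split_ifs with h
    · rw [Finset.sum_congr rfl (g := fun _ => (χ : G → ℂ) 1)
          (fun n _ => by rw [hres χ h n, mul_assoc, hψu, mul_one]),
        Finset.sum_const, nsmul_eq_mul, Finset.card_univ, ← Nat.card_eq_fintype_card]
      ring
    · have h' : classInner (fun n : ↥N => (χ : G → ℂ) n) (ψ : ↥N → ℂ) = 0 := not_not.mp h
      rw [classInner, mul_eq_zero] at h'
      rw [h'.resolve_left (inv_ne_zero (natCast_card_ne_zero ↥N))]
      simp
  -- the sum over `n` with `g` conjugate to `n g`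
  have hA : ∀ g : G, (∑ n : ↥N, conj ((ψ : ↥N → ℂ) n) * if IsConj g ((n : G) * g) then
      (Nat.card (Subgroup.centralizer ({g} : Set G)) : ℂ) else 0) =
      if Good N g then (Nat.card (Subgroup.centralizer ({g} : Set G)) : ℂ) else 0 := by
    intro g
    by_cases hg : Good N g
    · rw [if_pos hg, Finset.sum_eq_single (1 : ↥N)]
      · rw [OneMemClass.coe_one, one_mul, if_pos (IsConj.refl g)]
        simp [hψ1]
      · intro n _ hn
        rw [if_neg, mul_zero]
        intro hc
        obtain ⟨c, hc⟩ := isConj_iff.mp hc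
        have hz := Subgroup.mem_center_iff.mp (hN n.2)
        have e : c⁻¹⁻¹ * g⁻¹ * c⁻¹ * g = (n : G)⁻¹ := by
          calc c⁻¹⁻¹ * g⁻¹ * c⁻¹ * g = (c * g * c⁻¹)⁻¹ * g := by group
            _ = g⁻¹ * ((n : G)⁻¹ * g) := by rw [hc]; group
            _ = g⁻¹ * (g * (n : G)⁻¹) := by
              rw [Subgroup.mem_center_iff.mp (inv_mem (hN n.2)) g]
            _ = (n : G)⁻¹ := by group
        have h := hg c⁻¹ (by rw [e]; exact inv_mem n.2)
        apply hn
        apply Subtype.ext
        have : (n : G) * g = 1 * g := by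
          rw [one_mul, ← hc]
          calc c * g * c⁻¹ = c * (g * c⁻¹) := by group
            _ = g := by rw [← h]; group
        simpa using mul_right_cancel this
      · simp
    · rw [if_neg hg]
      obtain ⟨x, hx, hne⟩ : ∃ x, x⁻¹ * g⁻¹ * x * g ∈ N ∧ x * g ≠ g * x := by
        simpa [Good] using hg
      let m : ↥N := ⟨(x⁻¹ * g⁻¹ * x * g)⁻¹, inv_mem hx⟩
      have hmz := Subgroup.mem_center_iff.mp (hN m.2)
      have hm : x⁻¹ * g * x = (m : G) * g := by
        rw [← hmz g]
        simp only [m]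
        group
      have hm1 : m ≠ 1 := by
        intro h
        have h' : (m : G) = 1 := by rw [h]; rfl
        rw [h', one_mul] at hm
        apply hne
        conv_lhs => rw [← hm]
        group
      have hinv : ∀ n : ↥N, IsConj g ((n : G) * g) ↔ IsConj g (((m * n : ↥N) : G) * g) := by
        intro n
        have hnz := Subgroup.mem_center_iff.mp (hN n.2)
        have step : IsConj ((n : G) * g) (((m * n : ↥N) : G) * g) := by
          refine isConj_iff.mpr ⟨x⁻¹, ?_⟩
          rw [inv_inv, Subgroup.coe_mul]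
          calc x⁻¹ * ((n : G) * g) * x = (x⁻¹ * (n : G)) * g * x := by group
            _ = (n : G) * (x⁻¹ * g * x) := by rw [hnz x⁻¹]; group
            _ = (n : G) * (m : G) * g := by rw [hm]; group
            _ = (m : G) * (n : G) * g := by rw [hnz (m : G)]
        exact ⟨fun h => h.trans step, fun h => h.trans step.symm⟩
      set S := (∑ n : ↥N, conj ((ψ : ↥N → ℂ) n) * if IsConj g ((n : G) * g) then
        (Nat.card (Subgroup.centralizer ({g} : Set G)) : ℂ) else 0) with hS
      have hSm : S = conj ((ψ : ↥N → ℂ) m) * S := by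
        conv_lhs => rw [hS, ← Equiv.sum_comp (Equiv.mulLeft m)]
        rw [hS, Finset.mul_sum]
        refine Finset.sum_congr rfl fun n _ => ?_
        simp only [Equiv.coe_mulLeft, hψmul, map_mul, ← hinv n]
        ring
      by_contra hS0
      have h1 : conj ((ψ : ↥N → ℂ) m) = conj 1 := by
        rw [map_one]
        exact mul_right_cancel₀ hS0 (hSm.symm.trans (one_mul S).symm)
      exact hm1 (hfaith m (by rw [hψ1]; exact (starRingEnd ℂ).injective h1))
  -- the number of characters over `ψ`
  have hover : (Nat.card ↥N : ℂ) * (Nat.card G : ℂ) * (Nat.card {χ // over χ} : ℂ) =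
      ((∑ g ∈ Finset.univ.filter (Good N),
        Nat.card (Subgroup.centralizer ({g} : Set G)) : ℕ) : ℂ) := by
    rw [Nat.cast_sum, Finset.sum_filter, ← Finset.sum_congr rfl (fun g _ => hA g)]
    have hcol : ∀ (g : G) (n : ↥N), (if IsConj g ((n : G) * g) then
        (Nat.card (Subgroup.centralizer ({g} : Set G)) : ℂ) else 0) =
        ∑ χ : IrrCharacter G, (χ : G → ℂ) ((n : G) * g) * conj ((χ : G → ℂ) g) := fun g n => by
      rw [col_orth]
      split_ifs <;> rfl
    simp only [hcol, Finset.mul_sum]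
    rw [Finset.sum_congr rfl (fun g _ => Finset.sum_comm), Finset.sum_comm,
      Nat.card_eq_fintype_card (α := {χ // over χ}), Fintype.card_subtype,
      Finset.card_filter, Nat.cast_sum, Finset.mul_sum]
    refine Finset.sum_congr rfl fun χ _ => ?_
    simp only [← mul_assoc, ← Finset.sum_mul, key]
    split_ifs with h
    · simp only [mul_assoc, ← Finset.mul_sum, sum_mul_conj_irr, if_true]
      push_cast
      ring
    · simp
  -- passing to the quotient
  let P : Q → Prop := fun q => ∃ g : G, (g : Q) = q ∧ Good N g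
  have hgoodP : ∀ g : G, Good N g ↔ P g := by
    refine fun g => ⟨fun h => ⟨g, rfl, h⟩, fun ⟨g', e, h⟩ => ?_⟩
    have hn : g'⁻¹ * g ∈ N := QuotientGroup.eq.mp e
    have := good_mul hN h hn
    rwa [← Subgroup.mem_center_iff.mp (hN hn) g', mul_inv_cancel_left] at this
  have hP : ∀ q c, P q → P (c * q * c⁻¹) := by
    rintro q c ⟨g, rfl, hg⟩
    obtain ⟨c, rfl⟩ := QuotientGroup.mk_surjective c
    exact ⟨c * g * c⁻¹, by simp [Q], good_conj hg c⟩
  have hcent : ∀ g : G, Good N g → Nat.card (Subgroup.centralizer ({g} : Set G)) =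
      Nat.card ↥N * Nat.card (Subgroup.centralizer ({(g : Q)} : Set Q)) := by
    intro g hg
    have hc : Subgroup.centralizer ({g} : Set G) =
        (Subgroup.centralizer ({(g : Q)} : Set Q)).comap (QuotientGroup.mk' N) := by
      ext x
      simp only [Subgroup.mem_comap, Subgroup.mem_centralizer_singleton_iff,
        QuotientGroup.mk'_apply, Q, ← QuotientGroup.mk_mul]
      constructor
      · intro h; rw [h]
      · intro h
        apply hg
        have := QuotientGroup.eq.mp h
        have h2 := inv_mem this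
        convert QuotientGroup.eq.mp h.symm using 1
        group
    have h1 := Subgroup.index_mul_card (Subgroup.centralizer ({g} : Set G))
    have h2 := Subgroup.index_mul_card (Subgroup.centralizer ({(g : Q)} : Set Q))
    have h3 := Subgroup.card_eq_card_quotient_mul_card_subgroup N
    have hi : (Subgroup.centralizer ({g} : Set G)).index =
        (Subgroup.centralizer ({(g : Q)} : Set Q)).index := by
      rw [hc, Subgroup.index_comap_of_surjective _ (QuotientGroup.mk'_surjective N)]
    rw [hi, h3, ← h2, mul_assoc] at h1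
    rw [mul_left_cancel₀ Subgroup.index_ne_zero_of_finite h1, mul_comm]
  have hsum : (∑ g ∈ Finset.univ.filter (Good N),
      Nat.card (Subgroup.centralizer ({g} : Set G))) =
      Nat.card ↥N * (Nat.card ↥N * (Nat.card Q *
        Nat.card {C : ConjClasses Q // ∃ q, ConjClasses.mk q = C ∧ P q})) := by
    rw [← sum_centralizer P hP, Finset.sum_congr rfl (fun g hg =>
      hcent g (Finset.mem_filter.mp hg).2), ← Finset.mul_sum]
    congr 1
    rw [Finset.sum_filter, Finset.sum_filter, Fintype.sum_equiv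
      (Subgroup.groupEquivQuotientProdSubgroup (s := N))
      _ (fun p : Q × ↥N => if P p.1 then
        Nat.card (Subgroup.centralizer ({p.1} : Set Q)) else 0)
      (fun g => by
        have e : ((Subgroup.groupEquivQuotientProdSubgroup (s := N)) g).1 = (g : Q) := rfl
        simp only [e, ← hgoodP]), Fintype.sum_prod_type_right]
    simp only [Finset.sum_const, smul_eq_mul, Finset.card_univ, Nat.card_eq_fintype_card]
    rfl
  have hGQ := Subgroup.card_eq_card_quotient_mul_card_subgroup N
  have hfin : Nat.card {χ // over χ} =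
      Nat.card {C : ConjClasses Q // ∃ q, ConjClasses.mk q = C ∧ P q} := by
    rw [hsum] at hover
    have h' : Nat.card ↥N * Nat.card G * Nat.card {χ // over χ} =
        Nat.card ↥N * (Nat.card ↥N * (Nat.card Q *
          Nat.card {C : ConjClasses Q // ∃ q, ConjClasses.mk q = C ∧ P q})) := by
      exact_mod_cast hover
    rw [hGQ] at h'
    have hpos : Nat.card ↥N * (Nat.card ↥N * Nat.card Q) ≠ 0 :=
      mul_ne_zero Nat.card_pos.ne' (mul_ne_zero Nat.card_pos.ne' Nat.card_pos.ne')
    apply mul_left_cancel₀ hpos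
    linarith
  refine hfin.trans (Nat.card_congr (Equiv.subtypeEquivRight fun C => ?_))
  constructor
  · rintro ⟨q, rfl, g, rfl, hg⟩
    exact ⟨g, rfl, hg⟩
  · rintro ⟨g, rfl, hg⟩
    exact ⟨g, rfl, g, rfl, hg⟩

end Cfsg.Agent.S4567
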