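import Cfsg.Statements.S4571
import Cfsg.Agent.Lib.Blocks.PInflate
import Cfsg.Agent.Lib.Blocks.Orth
import Cfsg.Agent.S0941

set_option autoImplicit false
open Cfsg

namespace Cfsg.Agent.S4571

set_option linter.style.haveILetI false
open CfsgLib.Chars CfsgLib.Blocks

/-- Let Q be a normal p-subgroup of the finite group G with G = Q·C_G(Q), and M a maximal ideal of the algebraic integers containing p. Then the principal p-blocks of G and of G/Q have the same p-regular rank (the same number of irreducible Brauer characters). -/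
theorem result {G : Type*} [Group G] [Finite G] (p : ℕ) [Fact p.Prime] (M : Ideal Cfsg.AlgInt) (hM : Cfsg.IsPModular p M) (Q : Subgroup G) [Q.Normal] (hQ : IsPGroup p Q) (hsup : Q ⊔ Subgroup.centralizer (Q : Set G) = ⊤) : Cfsg.blockRank p (Cfsg.principalBlock M G) = Cfsg.blockRank p (Cfsg.principalBlock M (G ⧸ Q)) := by
  classical
  haveI := Fintype.ofFinite G
  haveI := Fintype.ofFinite (G ⧸ Q)
  have hp := hM.1
  haveI hCn : (Subgroup.centralizer (Q : Set G)).Normal := Subgroup.normal_centralizer
  obtain ⟨j, hj⟩ := IsPGroup.iff_card.mp hQ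
  have hC : ∃ k : ℕ, (Subgroup.centralizer (Q : Set G)).index = p ^ k := by
    have h1 : (Subgroup.centralizer (Q : Set G)).index = (Subgroup.centralizer (Q : Set G)).relIndex Q := by
      rw [← Subgroup.relIndex_top_right, ← hsup, Subgroup.relIndex_sup_right]
    obtain ⟨k, -, hk⟩ := (Nat.dvd_prime_pow hp).mp (hj ▸
      ((dvd_of_eq h1).trans (Subgroup.relIndex_dvd_card _ _)))
    exact ⟨k, hk⟩
  obtain ⟨hbij, -⟩ := Cfsg.Agent.S0941.result p M hM Q hQ hC
  obtain ⟨kc, hkc⟩ := hC
  have hcen : ∀ g : G, ¬ p ∣ orderOf g → g ∈ Subgroup.centralizer (Q : Set G) := fun g hg => by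
    have h1 : orderOf (g : G ⧸ Subgroup.centralizer (Q : Set G)) ∣ p ^ kc := by
      rw [← hkc, Subgroup.index_eq_card]; exact orderOf_dvd_natCard _
    exact (QuotientGroup.eq_one_iff g).mp (orderOf_eq_one_iff.mp (Nat.eq_one_of_dvd_coprimes
      (((hp.coprime_iff_not_dvd.mpr hg).symm).pow_right kc)
      (orderOf_map_dvd (QuotientGroup.mk' (Subgroup.centralizer (Q : Set G))) g) h1))
  have huniq : ∀ g g' : G, ¬ p ∣ orderOf g → ¬ p ∣ orderOf g' → (g : G ⧸ Q) = g' → g = g' := by
    intro g g' hg hg' h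
    have hu : g⁻¹ * g' ∈ Q := QuotientGroup.eq.mp h
    have hcomm : Commute g g' := by
      have h1 : Commute g (g⁻¹ * g') := (Subgroup.mem_centralizer_iff.mp (hcen g hg) _ hu).symm
      have := (Commute.refl g).mul_right h1
      rwa [mul_inv_cancel_left] at this
    obtain ⟨i, hi⟩ := IsPGroup.iff_orderOf.mp hQ ⟨_, hu⟩
    rw [Subgroup.orderOf_mk] at hi
    have h2 : orderOf (g⁻¹ * g') ∣ orderOf g * orderOf g' := by
      refine (hcomm.inv_left.orderOf_mul_dvd_lcm).trans ?_
      rw [orderOf_inv]
      exact Nat.lcm_dvd_mul _ _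
    have h3 : orderOf (g⁻¹ * g') = 1 := Nat.eq_one_of_dvd_coprimes
      ((Nat.Coprime.pow_left i (hp.coprime_iff_not_dvd.mpr (hp.not_dvd_mul hg hg'))))
      (dvd_of_eq hi) h2
    exact inv_mul_eq_one.mp (orderOf_eq_one_iff.mp h3)
  let L : ((G ⧸ Q) → ℂ) →ₗ[ℂ] (G → ℂ) :=
    { toFun := fun f g => if p ∣ orderOf g then 0 else f (g : G ⧸ Q)
      map_add' := fun a b => by funext g; by_cases h : p ∣ orderOf g <;> simp [h]
      map_smul' := fun c a => by funext g; by_cases h : p ∣ orderOf g <;> simp [h] }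
  have hreg : ∀ g : G, ¬ p ∣ orderOf g → ¬ p ∣ orderOf (g : G ⧸ Q) := fun g hg h =>
    hg (h.trans (orderOf_map_dvd (QuotientGroup.mk' Q) g))
  set Bb := Cfsg.principalBlock M (G ⧸ Q) with hBb
  set S := Submodule.span ℂ ((fun χ : IrrCharacter (G ⧸ Q) => pRegularPart p (χ : G ⧸ Q → ℂ)) '' Bb) with hS
  have hmap : Submodule.span ℂ ((fun χ : IrrCharacter G => pRegularPart p (χ : G → ℂ)) ''
      Cfsg.principalBlock M G) = S.map L := by
    let one : IrrCharacter (G ⧸ Q) := ⟨fun _ => 1, isIrrCharacter_one _⟩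
    have hL : ∀ φ : IrrCharacter (G ⧸ Q), L (pRegularPart p (φ : G ⧸ Q → ℂ)) =
        pRegularPart p ((φ : G ⧸ Q → ℂ) ∘ QuotientGroup.mk) := by
      intro φ; funext g
      show (if p ∣ orderOf g then 0 else pRegularPart p (φ : G ⧸ Q → ℂ) (g : G ⧸ Q)) = _
      by_cases h : p ∣ orderOf g
      · rw [if_pos h, pRegularPart_of_singular h]
      · rw [if_neg h, pRegularPart_of_regular h, pRegularPart_of_regular (hreg g h)]
        rfl
    apply le_antisymm
    · refine Submodule.span_le.mpr ?_
      rintro _ ⟨χ, hχ, rfl⟩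
      -- the function on the quotient carried by `χ`
      have hlift : ∀ q : G ⧸ Q, ¬ p ∣ orderOf q → ∃ g : G, (g : G ⧸ Q) = q ∧ ¬ p ∣ orderOf g :=
        fun q hq => exists_regular_lift hp Q hq
      choose lift hlift1 hlift2 using hlift
      let f : G ⧸ Q → ℂ := fun q => if h : p ∣ orderOf q then 0 else (χ : G → ℂ) (lift q h)
      have hf : IsClassFunction (G ⧸ Q) f := by
        intro q y
        obtain ⟨y, rfl⟩ := QuotientGroup.mk_surjective y
        have e : orderOf ((y : G ⧸ Q) * q * (y : G ⧸ Q)⁻¹) = orderOf q :=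
          orderOf_injective (MulAut.conj (y : G ⧸ Q)).toMonoidHom (MulEquiv.injective _) q
        by_cases h : p ∣ orderOf q
        · simp only [f, dif_pos h, dif_pos (e.symm ▸ h : p ∣ orderOf ((y : G ⧸ Q) * q * (y : G ⧸ Q)⁻¹))]
        · have h' : ¬ p ∣ orderOf ((y : G ⧸ Q) * q * (y : G ⧸ Q)⁻¹) := e.symm ▸ h
          simp only [f, dif_neg h, dif_neg h']
          rw [show lift _ h' = y * lift q h * y⁻¹ from huniq _ _ (hlift2 _ _) (by
              rw [show orderOf (y * lift q h * y⁻¹) = orderOf (lift q h) from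
                orderOf_injective (MulAut.conj y).toMonoidHom (MulEquiv.injective _) _]
              exact hlift2 _ _) (by rw [hlift1]; simp [hlift1]),
            IsCharacter.isClassFunction (isCharacter_irr χ) (lift q h) y]
      have hLf : L f = pRegularPart p (χ : G → ℂ) := by
        funext g
        show (if p ∣ orderOf g then 0 else f (g : G ⧸ Q)) = _
        by_cases h : p ∣ orderOf g
        · rw [if_pos h, pRegularPart_of_singular h]
        · rw [if_neg h, pRegularPart_of_regular h]
          simp only [f, dif_neg (hreg g h)]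
          rw [huniq _ g (hlift2 _ _) h (hlift1 _ _)]
      have hfS : f ∈ S := by
        have hexp : f = ∑ φ : IrrCharacter (G ⧸ Q),
            classInner f (φ : G ⧸ Q → ℂ) • pRegularPart p (φ : G ⧸ Q → ℂ) := by
          funext q
          rw [Finset.sum_apply]
          by_cases h : p ∣ orderOf q
          · simp only [f, dif_pos h, Pi.smul_apply, smul_eq_mul, pRegularPart_of_singular h, mul_zero,
              Finset.sum_const_zero]
          · simp only [Pi.smul_apply, smul_eq_mul, pRegularPart_of_regular h]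
            exact classFunction_expand hf q
        rw [hexp]
        refine Submodule.sum_mem _ fun φ _ => ?_
        by_cases hφ : φ ∈ Bb
        · exact Submodule.smul_mem _ _ (Submodule.subset_span ⟨φ, hφ, rfl⟩)
        · suffices h0 : classInner f (φ : G ⧸ Q → ℂ) = 0 by rw [h0, zero_smul]; exact Submodule.zero_mem _
          let φ' : IrrCharacter G := ⟨_, isIrrCharacter_inflate Q φ⟩
          have hns : ¬ SameBlock M (χ : G → ℂ) (φ' : G → ℂ) := fun h => hφ ((hbij one φ).mpr
            (sameBlock_trans hM (show SameBlock M (fun _ : G => (1 : ℂ)) (χ : G → ℂ) from hχ) h))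
          have h1 := regInner_eq_zero hM hns
          rw [regInner_eq, mul_eq_zero, inv_eq_zero] at h1
          have h2 := h1.resolve_left (natCast_card_ne_zero G)
          rw [classInner, mul_eq_zero]
          right
          rw [← Finset.sum_filter_add_sum_filter_not Finset.univ (fun q : G ⧸ Q => p ∣ orderOf q),
            Finset.sum_eq_zero (fun q hq => by simp only [f, dif_pos (Finset.mem_filter.mp hq).2, zero_mul]), zero_add]
          refine Eq.trans ?_ h2
          refine Finset.sum_bij' (fun q hq => lift q (Finset.mem_filter.mp hq).2) (fun g _ => (g : G ⧸ Q))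
            ?_ ?_ ?_ ?_ ?_
          · exact fun q hq => Finset.mem_filter.mpr ⟨Finset.mem_univ _, hlift2 _ _⟩
          · exact fun g hg => Finset.mem_filter.mpr ⟨Finset.mem_univ _, hreg g (Finset.mem_filter.mp hg).2⟩
          · exact fun q hq => hlift1 _ _
          · exact fun g hg => huniq _ _ (hlift2 _ _) (Finset.mem_filter.mp hg).2 (hlift1 _ _)
          · intro q hq
            simp only [f, dif_neg (Finset.mem_filter.mp hq).2]
            show _ = (χ : G → ℂ) _ * (starRingEnd ℂ) ((φ : G ⧸ Q → ℂ) ((lift q _ : G) : G ⧸ Q))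
            rw [hlift1]
      exact ⟨f, hfS, hLf⟩
    · rw [Submodule.map_span_le]
      rintro _ ⟨φ, hφ, rfl⟩
      rw [hL]
      exact Submodule.subset_span ⟨⟨_, isIrrCharacter_inflate Q φ⟩, (hbij one φ).mp hφ, rfl⟩
  rw [Cfsg.blockRank, Cfsg.blockRank, hmap, ← LinearMap.range_domRestrict]
  refine LinearMap.finrank_range_of_inj ((injective_iff_map_eq_zero _).mpr ?_)
  rintro ⟨f, hf⟩ h0
  refine Subtype.ext (funext fun q => ?_)
  show f q = 0
  by_cases h : p ∣ orderOf q
  · have hle : S ≤ LinearMap.ker (LinearMap.proj q : ((G ⧸ Q) → ℂ) →ₗ[ℂ] ℂ) := by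
      rw [hS, Submodule.span_le]
      rintro _ ⟨φ, -, rfl⟩
      exact pRegularPart_of_singular h
    exact LinearMap.mem_ker.mp (hle hf)
  · obtain ⟨g, hg1, hg2⟩ := exists_regular_lift hp Q h
    have := congrFun (show L f = 0 from h0) g
    simp only [L, LinearMap.coe_mk, AddHom.coe_mk, if_neg hg2, hg1, Pi.zero_apply] at this
    exact this

end Cfsg.Agent.S4571
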