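import Cfsg.Statements.S4574
import Cfsg.Agent.Lib.Chars.Galois
import Cfsg.Agent.Lib.Chars.Kernel

set_option autoImplicit false
open Cfsg

namespace Cfsg.Agent.S4574

open CfsgLib.Chars

/-- The norm of a character stays maximal along powers. -/
theorem norm_pow_of_max {G : Type*} [Group G] [Finite G] {χ : G → ℂ} (hχ : Cfsg.IsCharacter G χ)
    {g : G} {d : ℕ} (hd : χ 1 = (d : ℂ)) (hd0 : d ≠ 0) (hg : ‖χ g‖ = (d : ℝ)) (k : ℕ) :
    ‖χ (g ^ k)‖ = (d : ℝ) := by
  obtain ⟨l, hl, hsum⟩ := exists_list_eigen hχ g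
  have hlen : (l.length : ℂ) = (d : ℂ) := by rw [← hd, eigen_length hsum]
  have hd' : (d : ℂ) ≠ 0 := Nat.cast_ne_zero.mpr hd0
  set c := χ g / (d : ℂ) with hc
  have hcn : ‖c‖ = 1 := by
    rw [hc, norm_div, hg, Complex.norm_natCast, div_self (Nat.cast_ne_zero.mpr hd0)]
  have hcc : c * (starRingEnd ℂ) c = 1 := by
    rw [Complex.mul_conj']; rw [hcn]; simp
  have h1 : χ g = l.sum := by simpa using hsum 1
  have hone : ∀ μ ∈ l.map (fun μ => μ * (starRingEnd ℂ) c), μ = 1 := by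
    refine eq_one_of_sum_eq_length ?_ ?_
    · intro μ hμ
      obtain ⟨ν, hν, rfl⟩ := List.mem_map.mp hμ
      rw [norm_mul, Complex.norm_conj, hcn, mul_one,
        norm_eq_one_of_pow_eq_one (orderOf_pos g).ne' (hl ν hν)]
    · rw [List.sum_map_mul_right, List.map_id', ← h1, List.length_map,
        show χ g = (d : ℂ) * c by rw [hc, mul_div_cancel₀ _ hd'], mul_assoc, hcc, mul_one,
        ← hlen]
      simp
  have heq : ∀ μ ∈ l, μ = c := fun μ hμ => by
    have h2 := hone _ (List.mem_map.mpr ⟨μ, hμ, rfl⟩)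
    calc μ = μ * (c * (starRingEnd ℂ) c) := by rw [hcc, mul_one]
      _ = μ * (starRingEnd ℂ) c * c := by ring
      _ = c := by rw [h2, one_mul]
  rw [hsum k, List.map_congr_left (g := fun _ => c ^ k) (fun μ hμ => by rw [heq μ hμ]),
    List.map_const', List.sum_replicate, nsmul_eq_mul, hlen, norm_mul, norm_pow, hcn, one_pow,
    mul_one, Complex.norm_natCast]

/-- Let χ be an irreducible character of the finite group G, of degree d, and let Z(χ) be the set of elements g with |χ g| = d (the centre of χ). Then χ vanishes on at least (d ^ 2 - 1) · |Z(χ)| elements of G, with equality when every value |χ g| is 0, 1 or d. -/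
theorem result {G : Type*} [Group G] [Fintype G] [DecidableEq G] (χ : G → ℂ) (hχ : Cfsg.IsIrrCharacter G χ) : (Cfsg.charDegree χ ^ 2 - 1) * (Finset.univ.filter (fun g : G => ‖χ g‖ = (Cfsg.charDegree χ : ℝ))).card ≤ (Finset.univ.filter (fun g : G => χ g = 0)).card ∧ ((∀ g : G, ‖χ g‖ = 0 ∨ ‖χ g‖ = 1 ∨ ‖χ g‖ = (Cfsg.charDegree χ : ℝ)) → (Cfsg.charDegree χ ^ 2 - 1) * (Finset.univ.filter (fun g : G => ‖χ g‖ = (Cfsg.charDegree χ : ℝ))).card = (Finset.univ.filter (fun g : G => χ g = 0)).card) := by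
  classical
  set d := Cfsg.charDegree χ with hd
  have hc : Cfsg.IsCharacter G χ := IsIrrCharacter.isCharacter hχ
  have h1 : χ 1 = (d : ℂ) := IsCharacter.apply_one hc
  have hd0 : d ≠ 0 := (charDegree_pos ⟨χ, hχ⟩).ne'
  have hdR : (d : ℝ) ≠ 0 := Nat.cast_ne_zero.mpr hd0
  have hclosed : ∀ h h' : G, Subgroup.zpowers h' = Subgroup.zpowers h →
      ‖χ h‖ = (d : ℝ) → ‖χ h'‖ = (d : ℝ) := by
    intro h h' e hh
    have hmem : h' ∈ Subgroup.zpowers h := e ▸ Subgroup.mem_zpowers h'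
    rw [← mem_powers_iff_mem_zpowers, Submonoid.mem_powers_iff] at hmem
    obtain ⟨k, rfl⟩ := hmem
    exact norm_pow_of_max hc h1 hd0 hh k
  set Z := Finset.univ.filter (fun g : G => ‖χ g‖ = (d : ℝ)) with hZ
  set O := Finset.univ.filter (fun g : G => χ g = 0) with hO
  set S := Finset.univ.filter (fun g : G => ¬ ‖χ g‖ = (d : ℝ) ∧ χ g ≠ 0) with hS
  have hnorm : ∑ g : G, ‖χ g‖ ^ 2 = (Nat.card G : ℝ) := by
    have h2 := classInner_irr (⟨χ, hχ⟩ : Cfsg.IrrCharacter G) ⟨χ, hχ⟩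
    rw [if_pos rfl, Cfsg.classInner, inv_mul_eq_one₀ (natCast_card_ne_zero G)] at h2
    simp only [Complex.mul_conj'] at h2
    exact_mod_cast h2.symm
  have hdisj : ∀ g : G, (if ‖χ g‖ = (d : ℝ) then 1 else 0) + (if χ g = 0 then 1 else 0) +
      (if ¬ ‖χ g‖ = (d : ℝ) ∧ χ g ≠ 0 then 1 else 0) = (1 : ℕ) := by
    intro g
    by_cases a : ‖χ g‖ = (d : ℝ) <;> by_cases b : χ g = 0 <;> simp [a, b]
    all_goals exact fun e => hdR e.symm
  have hcount : Z.card + O.card + S.card = Nat.card G := by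
    rw [Nat.card_eq_fintype_card, ← Finset.card_univ, Finset.card_eq_sum_ones (Finset.univ : Finset G),
      ← Finset.sum_congr rfl fun g _ => hdisj g, Finset.sum_add_distrib, Finset.sum_add_distrib]
    simp [hZ, hO, hS, Finset.sum_boole]
  have hsplit : ∑ g : G, ‖χ g‖ ^ 2 = (d : ℝ) ^ 2 * Z.card + ∑ g ∈ S, ‖χ g‖ ^ 2 := by
    rw [← Finset.sum_filter_add_sum_filter_not Finset.univ (fun g : G => ‖χ g‖ = (d : ℝ))]
    congr 1
    · rw [Finset.sum_congr rfl (g := fun _ => (d : ℝ) ^ 2) fun g hg => by rw [(Finset.mem_filter.mp hg).2],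
        Finset.sum_const, nsmul_eq_mul, mul_comm]
    · symm
      refine Finset.sum_subset (fun g hg => Finset.mem_filter.mpr
        ⟨Finset.mem_univ _, (Finset.mem_filter.mp hg).2.1⟩) fun g hg hn => ?_
      have : χ g = 0 := by
        by_contra h0
        exact hn (Finset.mem_filter.mpr ⟨Finset.mem_univ _, (Finset.mem_filter.mp hg).2, h0⟩)
      simp [this]
  rw [hnorm] at hsplit
  have hcountR : (Z.card : ℝ) + O.card + S.card = (Nat.card G : ℝ) := by exact_mod_cast hcount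
  have hd1 : (1 : ℕ) ≤ d ^ 2 := Nat.one_le_pow _ _ (Nat.pos_of_ne_zero hd0)
  constructor
  · have h3 := card_le_sum_norm_pow hc 2 S (fun h hh h' e => ?_) (fun h hh => (Finset.mem_filter.mp hh).2.2)
    · have : (((d ^ 2 - 1) * Z.card : ℕ) : ℝ) ≤ (O.card : ℝ) := by
        push_cast [Nat.cast_sub hd1]
        linarith
      exact_mod_cast this
    · refine Finset.mem_filter.mpr ⟨Finset.mem_univ _, fun hz => ?_, fun hz => ?_⟩
      · exact (Finset.mem_filter.mp hh).2.1 (hclosed h' h e.symm hz)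
      · exact (Finset.mem_filter.mp hh).2.2 (IsCharacter.eq_zero_of_zpowers_eq hc e hz)
  · intro hval
    have h3 : ∑ g ∈ S, ‖χ g‖ ^ 2 = (S.card : ℝ) := by
      rw [Finset.sum_congr rfl (g := fun _ => (1 : ℝ)) fun g hg => ?_]
      · simp
      · obtain ⟨-, ha, hb⟩ := Finset.mem_filter.mp hg
        rcases hval g with e | e | e
        · exact absurd (norm_eq_zero.mp e) hb
        · rw [e, one_pow]
        · exact absurd e ha
    have : (((d ^ 2 - 1) * Z.card : ℕ) : ℝ) = (O.card : ℝ) := by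
      push_cast [Nat.cast_sub hd1]
      linarith
    exact_mod_cast this

end Cfsg.Agent.S4574
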