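import Cfsg.Statements.S4580
import Cfsg.Agent.Lib.Blocks.RealBlock
import Cfsg.Agent.Lib.Blocks.RegEq
import Cfsg.Agent.Lib.Chars.Clifford

set_option autoImplicit false
open Cfsg

namespace Cfsg.Agent.S4580

open CfsgLib.Chars CfsgLib.Blocks
open scoped ComplexConjugate

/-- Two irreducible extensions differ by a linear character. -/
theorem extensions_differ {G : Type*} [Group G] [Fintype G] (N : Subgroup G) [N.Normal] [Fintype N]
    (θ : Cfsg.IrrCharacter N) (η η' : Cfsg.IrrCharacter G)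
    (h : ∀ n : N, (η : G → ℂ) n = (θ : N → ℂ) n) (h' : ∀ n : N, (η' : G → ℂ) n = (θ : N → ℂ) n) :
    ∃ l : G →* ℂˣ, (∀ n : N, l n = 1) ∧
      (η' : G → ℂ) = fun g => (l g : ℂ) * (η : G → ℂ) g := by
  classical
  set φ : G → ℂ := fun g => (η' : G → ℂ) g * conj ((η : G → ℂ) g)
  have hφ : IsCharacter G φ :=
    IsCharacter.mul (isCharacter_irr η') (IsIrrCharacter.isCharacter (isIrrCharacter_conj η))
  choose m hm using exists_mult hφ
  choose k hk using fun ξ : Cfsg.IrrCharacter G =>
    exists_mult (IsCharacter.restrict (isCharacter_irr ξ) N) (trivIrr N)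
  have hsum : ∑ ξ : Cfsg.IrrCharacter G, m ξ * k ξ = 1 := by
    have e1 : classInner (fun n : N => φ n) (trivIrr N : N → ℂ) = 1 := by
      have := classInner_irr θ θ
      rw [if_pos rfl] at this
      rw [← this]
      simp only [classInner, φ, h, h', trivIrr, map_one, mul_one]
    have e2 : classInner (fun n : N => φ n) (trivIrr N : N → ℂ) =
        ∑ ξ : Cfsg.IrrCharacter G, (m ξ : ℂ) * (k ξ : ℂ) := by
      rw [show (fun n : N => φ n) = fun n : N => ∑ ξ : Cfsg.IrrCharacter G,
        (m ξ : ℂ) * (ξ : G → ℂ) n from funext fun n => by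
          rw [classFunction_expand (IsCharacter.isClassFunction hφ) (n : G)]
          exact Finset.sum_congr rfl fun ξ _ => by rw [hm], classInner_sum]
      exact Finset.sum_congr rfl fun ξ _ => by rw [hk]
    rw [e1] at e2
    exact_mod_cast e2.symm
  obtain ⟨ξ, -, hξ⟩ := Finset.exists_ne_zero_of_sum_ne_zero (hsum.trans_ne one_ne_zero)
  have hle : m ξ * k ξ ≤ 1 :=
    hsum ▸ Finset.single_le_sum (f := fun ξ => m ξ * k ξ) (fun _ _ => Nat.zero_le _) (Finset.mem_univ ξ)
  have hmk : m ξ * k ξ = 1 := le_antisymm hle (Nat.pos_of_ne_zero hξ)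
  have hm1 : m ξ = 1 := Nat.eq_one_of_mul_eq_one_right hmk
  have hk1 : k ξ = 1 := Nat.eq_one_of_mul_eq_one_left hmk
  have hne : classInner (fun n : N => (ξ : G → ℂ) n) (trivIrr N : N → ℂ) ≠ 0 := by
    rw [hk, hk1]; simp
  obtain ⟨e, -, he, hval, hdeg⟩ := clifford N ξ (trivIrr N) hne
  rw [hk, hk1] at he
  have he1 : e = 1 := by exact_mod_cast he.symm
  have horb : orbit N (trivIrr N) = {trivIrr N} := by
    ext ψ
    rw [mem_orbit, Finset.mem_singleton]
    constructor
    · rintro ⟨g, rfl⟩; exact Subtype.ext rfl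
    · rintro rfl; exact ⟨1, (conjIrr_one N _).symm⟩
  have hd1 : Cfsg.charDegree (ξ : G → ℂ) = 1 := by
    rw [hdeg, he1, horb, Finset.card_singleton]
    simp [Cfsg.charDegree, trivIrr]
  obtain ⟨l, hl⟩ := exists_homIrr ξ hd1
  refine ⟨l, fun n => ?_, ?_⟩
  · have := hval n
    rw [← hl, he1, horb, Finset.sum_singleton] at this
    simpa [homIrr, trivIrr] using this
  · by_contra hcon
    let ζ : Cfsg.IrrCharacter G := ⟨_, isIrrCharacter_hom_mul l η⟩
    have h0 := classInner_irr η' ζ
    rw [if_neg (fun e : η' = ζ => hcon (congrArg Subtype.val e))] at h0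
    have h1 : classInner φ (ξ : G → ℂ) = classInner (η' : G → ℂ) (ζ : G → ℂ) := by
      simp only [classInner, φ, ζ, ← hl, homIrr, map_mul]
      exact congrArg _ (Finset.sum_congr rfl fun g _ => by ring)
    rw [hm, hm1, h0, Nat.cast_one] at h1
    exact one_ne_zero h1

/-- Let N be a normal subgroup of the finite group G, M a maximal ideal of the algebraic integers containing 2, and θ a real-valued irreducible character of N of odd degree that extends to G (some irreducible character of G restricts to θ). Then θ has an extension to G lying in the principal 2-block of G. -/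
theorem result {G : Type*} [Group G] [Finite G] (N : Subgroup G) [N.Normal] (M : Ideal Cfsg.AlgInt) (hM : Cfsg.IsPModular 2 M) (θ : Cfsg.IrrCharacter N) (hreal : ∀ n : N, ((θ : N → ℂ) n).im = 0) (hodd : Odd (Cfsg.charDegree (θ : N → ℂ))) (hext : ∃ η : Cfsg.IrrCharacter G, ∀ n : N, (η : G → ℂ) n = (θ : N → ℂ) n) :
    ∃ η : Cfsg.IrrCharacter G, (∀ n : N, (η : G → ℂ) n = (θ : N → ℂ) n) ∧ η ∈ Cfsg.principalBlock M G := by
  classical
  haveI := Fintype.ofFinite G
  haveI : Fintype N := Fintype.ofFinite N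
  obtain ⟨η, hη⟩ := hext
  have hbar : ∀ n : N, (conjChar η : G → ℂ) n = (η : G → ℂ) n := fun n => by
    change conj ((η : G → ℂ) n) = _
    rw [hη]
    exact Complex.conj_eq_iff_im.mpr (hreal n)
  obtain ⟨l, hlN, hl⟩ := extensions_differ N θ η (conjChar η) hη fun n => by rw [hbar, hη]
  set d := regCard 2 G
  have hd : Odd d := Nat.not_even_iff_odd.mp fun h =>
    not_dvd_regCard Nat.prime_two G (even_iff_two_dvd.mp h)
  obtain ⟨c, hc⟩ := hd
  let η' : Cfsg.IrrCharacter G :=
    ⟨fun g => ((l ^ (c + 1)) g : ℂ) * (η : G → ℂ) g, isIrrCharacter_hom_mul _ η⟩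
  have hη' : ∀ n : N, (η' : G → ℂ) n = (θ : N → ℂ) n := fun n => by
    change ((l ^ (c + 1)) (n : G) : ℂ) * (η : G → ℂ) n = _
    rw [MonoidHom.pow_apply, hlN, one_pow, Units.val_one, one_mul, hη]
  refine ⟨η', hη', mem_principal_of_real hM ?_ (sameBlock_of_reg_eq hM fun x hx => ?_)⟩
  · have e : Cfsg.charDegree (η' : G → ℂ) = Cfsg.charDegree (θ : N → ℂ) := by
      have := hη' 1
      rw [OneMemClass.coe_one] at this
      simp [Cfsg.charDegree, this]
    rw [e]
    exact fun h => Nat.not_even_iff_odd.mpr hodd (even_iff_two_dvd.mpr h)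
  · have hlx : (l x : ℂ) ^ d = 1 := by
      rw [← Units.val_pow_eq_pow_val, ← map_pow,
        orderOf_dvd_iff_pow_eq_one.mp (orderOf_dvd_regCard Nat.prime_two hx), map_one, Units.val_one]
    have hcj : (l x : ℂ) * conj (l x : ℂ) = 1 := hom_mul_conj l x
    change ((l ^ (c + 1)) x : ℂ) * (η : G → ℂ) x = conj (((l ^ (c + 1)) x : ℂ) * (η : G → ℂ) x)
    have hxe : conj ((η : G → ℂ) x) = (l x : ℂ) * (η : G → ℂ) x := congrFun hl x
    rw [map_mul, hxe, MonoidHom.pow_apply, Units.val_pow_eq_pow_val, map_pow]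
    have h2 : (l x : ℂ) ^ (c + 1) * (l x : ℂ) ^ (c + 1) = (l x : ℂ) := by
      rw [← pow_add, show c + 1 + (c + 1) = d + 1 by omega, pow_succ, hlx, one_mul]
    have h3 : conj (l x : ℂ) ^ (c + 1) * (l x : ℂ) = (l x : ℂ) ^ (c + 1) := by
      conv_lhs => arg 2; rw [← h2]
      rw [← mul_assoc, ← mul_pow, mul_comm (conj _), hcj, one_pow, one_mul]
    rw [← mul_assoc, h3]

end Cfsg.Agent.S4580
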