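import Mathlib.GroupTheory.Transfer
import Mathlib.GroupTheory.Sylow
import Mathlib.GroupTheory.Abelianization.Defs
import Cfsg.Prelude.Def_Transfer

set_option autoImplicit false
open Cfsg Subgroup

namespace Cfsg.Agent.S4582

open Subgroup
open scoped commutatorElement

theorem map_transfer {G : Type*} [Group G] {H : Subgroup G} [H.FiniteIndex] {A B : Type*} [CommGroup A]
    [CommGroup B] (ϕ : H →* A) (π : A →* B) (g : G) :
    π (MonoidHom.transfer ϕ g) = MonoidHom.transfer (π.comp ϕ) g := by
  let T : H.LeftTransversal := default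
  rw [MonoidHom.transfer_def ϕ T, MonoidHom.transfer_def (π.comp ϕ) T]
  simp only [leftTransversals.diff, map_prod]
  rfl

theorem transfer_restrict {G : Type*} [Group G] {H : Subgroup G} [H.FiniteIndex] {A : Type*} [CommGroup A]
    (f : G →* A) (g : G) : MonoidHom.transfer (f.comp H.subtype) g = f g ^ H.index := by
  classical
  let T : H.LeftTransversal := default
  letI := H.fintypeQuotientOfFiniteIndex
  rw [MonoidHom.transfer_def _ T]
  simp only [leftTransversals.diff, MonoidHom.coe_comp, Function.comp_apply, coe_subtype, map_mul, map_inv,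
    smul_apply_eq_smul_apply_inv_smul, smul_eq_mul]
  have h1 : (∏ q : G ⧸ H, f ((T.2.leftQuotientEquiv (g⁻¹ • q) : G))) =
      ∏ q : G ⧸ H, f ((T.2.leftQuotientEquiv q : G)) :=
    Fintype.prod_equiv (MulAction.toPerm g⁻¹) _ _ (fun q => rfl)
  rw [Finset.prod_mul_distrib, Finset.prod_mul_distrib, Finset.prod_const, h1, Finset.card_univ,
    index_eq_card, Nat.card_eq_fintype_card, Finset.prod_inv_distrib]
  rw [inv_mul_eq_iff_eq_mul, mul_comm]

theorem aux {X : Type*} [Group X] [Finite X] (N : Subgroup X) [N.Normal] (P : Sylow 2 X)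
    (htop : (P : Subgroup X) ⊔ N = ⊤)
    (hP : ∀ x ∈ (P : Subgroup X), x ^ 2 ∈ ((P : Subgroup X) ⊓ N) ⊔ ⁅(P : Subgroup X), (P : Subgroup X)⁆)
    (hQ : ∀ x ∈ (P : Subgroup X) ⊓ N, x ^ 2 ∈ ⁅(P : Subgroup X) ⊓ N, (P : Subgroup X) ⊓ N⁆)
    (hodd : Odd (Nat.card (Abelianization N))) :
    ∀ x ∈ (P : Subgroup X), x ^ 2 ∈ ⁅(P : Subgroup X), (P : Subgroup X)⁆ := by
  classical
  set P' := (P : Subgroup X) with hP'
  set D := ⁅P', P'⁆ with hD
  have hDP : D ≤ P' := commutator_le_self P'
  -- the part of `P` inside `N` lies in `N'`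
  have hQN : P' ⊓ N ≤ ⁅N, N⁆ := by
    intro q hq
    have h1 : orderOf (Abelianization.of (⟨q, hq.2⟩ : N)) ∣ orderOf q :=
      (orderOf_map_dvd _ _).trans (by rw [Subgroup.orderOf_mk])
    obtain ⟨k, hk⟩ := IsPGroup.iff_orderOf.mp P.2 ⟨q, hq.1⟩
    rw [Subgroup.orderOf_mk] at hk
    rw [hk] at h1
    have h2 := Nat.eq_one_of_dvd_coprimes ((Nat.Coprime.pow_left k (Nat.coprime_two_left.mpr hodd))) h1
      (orderOf_dvd_natCard _)
    have h3 := orderOf_eq_one_iff.mp h2
    rw [← MonoidHom.mem_ker, Abelianization.ker_of] at h3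
    rw [← map_subtype_commutator]
    exact ⟨_, h3, rfl⟩
  intro x hx
  let T : X →* Abelianization P' := MonoidHom.transfer Abelianization.of
  have hTN : ∀ q ∈ ⁅N, N⁆, T q = 1 := fun q hq => by
    have : ⁅N, N⁆ ≤ T.ker := (commutator_mono le_top le_top).trans
      ((_root_.commutator_def X).symm.le.trans (Abelianization.commutator_subset_ker T))
    exact this hq
  have hT2 : T (x ^ 2) = 1 := by
    have hle : P' ⊓ N ⊔ D ≤ T.ker := sup_le (fun q hq => hTN q (hQN hq))
      ((commutator_mono le_top le_top).trans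
        ((_root_.commutator_def X).symm.le.trans (Abelianization.commutator_subset_ker T)))
    exact hle (hP x hx)
  let f : X →* Abelianization (X ⧸ N) := Abelianization.of.comp (QuotientGroup.mk' N)
  let π : Abelianization P' →* Abelianization (X ⧸ N) := Abelianization.lift (f.comp P'.subtype)
  obtain ⟨w, hw⟩ := QuotientGroup.mk_surjective (T x)
  have hπ : π (T x) = f x ^ P'.index := by
    rw [map_transfer]
    have e : π.comp Abelianization.of = f.comp P'.subtype := MonoidHom.ext fun a => Abelianization.lift_apply_of _ _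
    rw [e, transfer_restrict]
  -- `y` is the discrepancy between the transfer and the index power
  set y : P' := w * (⟨x, hx⟩ ^ P'.index)⁻¹ with hy
  have hyker : f (y : X) = 1 := by
    have h1 : π (T x) = f (w : X) := by rw [← hw]; exact Abelianization.lift_apply_of _ _
    rw [hπ] at h1
    show f ((w : X) * (x ^ P'.index)⁻¹) = 1
    rw [map_mul, map_inv, map_pow, h1, mul_inv_cancel]
  have hy' : (y : X) ∈ N ⊔ D := by
    have h1 : QuotientGroup.mk' N (y : X) ∈ commutator (X ⧸ N) := by
      rw [← Abelianization.ker_of]; exact hyker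
    have h2 : commutator (X ⧸ N) = D.map (QuotientGroup.mk' N) := by
      rw [hD, map_commutator, _root_.commutator_def]
      have : P'.map (QuotientGroup.mk' N) = ⊤ := by
        have h3 := congrArg (Subgroup.map (QuotientGroup.mk' N)) htop
        rw [Subgroup.map_sup, map_top_of_surjective _ (QuotientGroup.mk'_surjective N),
          QuotientGroup.map_mk'_self, sup_bot_eq] at h3
        exact h3
      rw [this]
    rw [h2] at h1
    obtain ⟨d, hd, hde⟩ := h1
    rw [QuotientGroup.mk'_apply, QuotientGroup.mk'_apply, QuotientGroup.eq] at hde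
    have : (y : X) = d * (d⁻¹ * y) := by simp
    rw [this]
    exact mul_mem (mem_sup_right hd) (mem_sup_left hde)
  -- squares of such elements lie in `P'`
  have hy2 : (y : X) ^ 2 ∈ D := by
    rw [← SetLike.mem_coe, normal_mul, Set.mem_mul] at hy'
    obtain ⟨a, ha, d, hd, had⟩ := hy'
    have haP : a ∈ P' := by
      have : a = (y : X) * d⁻¹ := eq_mul_inv_of_mul_eq had
      rw [this]; exact mul_mem y.2 (inv_mem (hDP hd))
    have ha2 : a ^ 2 ∈ D := commutator_mono inf_le_left inf_le_left (hQ a ⟨haP, ha⟩)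
    have hsplit : (y : X) ^ 2 = a ^ 2 * (a⁻¹ * d * a * d) := by rw [← had]; simp [sq, mul_assoc]
    rw [hsplit]
    refine mul_mem ha2 (mul_mem ?_ hd)
    have : a⁻¹ * d * a = ⁅a⁻¹, d⁆ * d := by simp [commutatorElement_def, mul_assoc]
    rw [this]
    exact mul_mem (commutator_mem_commutator (inv_mem haP) (hDP hd)) hd
  have key : Abelianization.of (⟨x, hx⟩ : P') ^ (2 * P'.index) = 1 := by
    have h1 : Abelianization.of w ^ 2 = 1 := by
      rw [show Abelianization.of w = T x from hw, ← map_pow, hT2]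
    have h2 : Abelianization.of y ^ 2 = 1 := by
      rw [← map_pow, ← MonoidHom.mem_ker, Abelianization.ker_of]
      have h3 : ((y ^ 2 : P') : X) ∈ (_root_.commutator P').map P'.subtype := by
        rw [map_subtype_commutator]; simpa using hy2
      obtain ⟨z, hz, hze⟩ := h3
      exact Subtype.coe_injective hze ▸ hz
    rw [hy, map_mul, map_inv, map_pow, mul_pow, h1, one_mul, inv_pow, inv_eq_one, ← pow_mul, mul_comm] at h2
    exact h2
  have hidx : ¬ 2 ∣ P'.index := P.not_dvd_index
  obtain ⟨k, hk⟩ := IsPGroup.iff_orderOf.mp P.2 ⟨x, hx⟩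
  have h4 : Abelianization.of (⟨x, hx⟩ : P') ^ 2 ^ k = 1 := by
    rw [← map_pow, ← hk, pow_orderOf_eq_one, map_one]
  have h5 := pow_gcd_eq_one.mpr ⟨key, h4⟩
  have hg : (2 * P'.index).gcd (2 ^ k) ∣ 2 := by
    rw [Nat.Coprime.gcd_mul_right_cancel _ (Nat.Coprime.pow_right k
      ((Nat.prime_two.coprime_iff_not_dvd.mpr hidx).symm))]
    exact Nat.gcd_dvd_left _ _
  obtain ⟨m, hm⟩ := hg
  have h6 : Abelianization.of (⟨x, hx⟩ : P') ^ 2 = 1 := by rw [hm, pow_mul, h5, one_pow]
  rw [← map_pow, ← MonoidHom.mem_ker, Abelianization.ker_of] at h6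
  rw [hD, ← map_subtype_commutator]
  exact ⟨_, h6, rfl⟩

/-- Let N be a normal subgroup of the finite group G, P a Sylow 2-subgroup of G and Q = P ∩ N. Suppose that P/QP' and Q/Q' are elementary abelian (every square of an element of P lies in the subgroup generated by Q and the derived subgroup of P, and every square of an element of Q lies in the derived subgroup of Q), and that the commutator factor group N/N' has odd order. Then P/P' is elementary abelian. -/
theorem result {G : Type*} [Group G] [Finite G] (N : Subgroup G) [N.Normal] (P : Sylow 2 G)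
    (hP : ∀ x ∈ (P : Subgroup G), x ^ 2 ∈ ((P : Subgroup G) ⊓ N) ⊔ ⁅(P : Subgroup G), (P : Subgroup G)⁆)
    (hQ : ∀ x ∈ (P : Subgroup G) ⊓ N, x ^ 2 ∈ ⁅(P : Subgroup G) ⊓ N, (P : Subgroup G) ⊓ N⁆)
    (hodd : Odd (Nat.card (Abelianization N))) :
    ∀ x ∈ (P : Subgroup G), x ^ 2 ∈ ⁅(P : Subgroup G), (P : Subgroup G)⁆ := by
  intro x hx
  set X := (P : Subgroup G) ⊔ N with hX
  let PX : Sylow 2 X := P.subtype le_sup_left
  have hPX : (PX : Subgroup X).map X.subtype = (P : Subgroup G) := by
    rw [Sylow.coe_subtype, subgroupOf_map_subtype, inf_eq_left.mpr le_sup_left]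
  have hmem : ∀ y : X, (y : G) ∈ (P : Subgroup G) ↔ y ∈ (PX : Subgroup X) := fun y => by
    rw [Sylow.coe_subtype, mem_subgroupOf]
  let NX : Subgroup X := N.subgroupOf X
  have hNX : NX.map X.subtype = N := by
    rw [subgroupOf_map_subtype, inf_eq_left.mpr le_sup_right]
  have hinf : ((PX : Subgroup X) ⊓ NX).map X.subtype = (P : Subgroup G) ⊓ N := by
    rw [map_inf _ _ _ X.subtype_injective, hPX, hNX]
  have htop : (PX : Subgroup X) ⊔ NX = ⊤ := by
    apply map_injective X.subtype_injective
    rw [Subgroup.map_sup, hPX, hNX, ← MonoidHom.range_eq_map, range_subtype]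
  have hinj := X.subtype_injective
  have h := aux NX PX htop
    (fun y hy => by
      have := hP (y : G) ((hmem y).mpr hy)
      rw [← hinf, ← hPX, ← map_commutator, ← Subgroup.map_sup] at this
      obtain ⟨z, hz, hze⟩ := this
      exact hinj (show X.subtype z = X.subtype (y ^ 2) by rw [hze, map_pow]; rfl) ▸ hz)
    (fun y hy => by
      have := hQ (y : G) ⟨(hmem y).mpr hy.1, hy.2⟩
      rw [← hinf, ← map_commutator] at this
      obtain ⟨z, hz, hze⟩ := this
      exact hinj (show X.subtype z = X.subtype (y ^ 2) by rw [hze, map_pow]; rfl) ▸ hz)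
    (by
      let e : NX ≃* N := subgroupOfEquivOfLe le_sup_right
      rwa [Nat.card_congr e.abelianizationCongr.toEquiv])
    ⟨x, mem_sup_left hx⟩ ((hmem _).mp hx)
  have h2 : ((⟨x, mem_sup_left hx⟩ : X) ^ 2 : X).1 ∈ ⁅(PX : Subgroup X), (PX : Subgroup X)⁆.map X.subtype :=
    ⟨_, h, rfl⟩
  rw [map_commutator, hPX] at h2
  simpa using h2

end Cfsg.Agent.S4582
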