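import Cfsg.Statements.S4583
import Cfsg.Agent.Lib.Blocks.PrincipalIdem
import Cfsg.Agent.Lib.Blocks.DefectClass
import Cfsg.Agent.Lib.Blocks.BrauerHom
import Cfsg.Agent.Lib.Blocks.Orth
import Cfsg.Agent.Lib.Chars.Clifford

set_option autoImplicit false
open Cfsg

namespace Cfsg.Agent.S4583

open CfsgLib.Chars CfsgLib.Blocks

open scoped ComplexConjugate
set_option maxHeartbeats 400000
universe u

theorem constituent_trans' {H K : Type u} [Group H] [Fintype H] [Group K] [Fintype K] (f : K →* H)
    {F : H → ℂ} (hF : IsCharacter H F) {φ : IrrCharacter H} (hφ : classInner F (φ : H → ℂ) ≠ 0)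
    {ρ : IrrCharacter K} (hρ : classInner (fun k : K => (φ : H → ℂ) (f k)) (ρ : K → ℂ) ≠ 0) :
    classInner (fun k : K => F (f k)) (ρ : K → ℂ) ≠ 0 := by
  classical
  choose m hm using fun ψ : IrrCharacter H => exists_mult hF ψ
  choose k hk using fun ψ : IrrCharacter H =>
    exists_mult (IsCharacter.comp (isCharacter_irr ψ) f) ρ
  have e : (fun x : K => F (f x)) =
      fun x : K => ∑ ψ : IrrCharacter H, (m ψ : ℂ) * (fun y : K => (ψ : H → ℂ) (f y)) x := by
    funext x
    rw [classFunction_expand (IsCharacter.isClassFunction hF) (f x)]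
    simp only [hm]
  rw [e, classInner_sum]
  have hk' : ∀ ψ : IrrCharacter H, classInner (fun y : K => (ψ : H → ℂ) (f y)) (ρ : K → ℂ) = k ψ := hk
  simp only [hk']
  rw [← Finset.sum_congr rfl fun ψ _ => Nat.cast_mul (m ψ) (k ψ), ← Nat.cast_sum]
  refine Nat.cast_ne_zero.mpr fun h => ?_
  rcases Nat.mul_eq_zero.mp (Finset.sum_eq_zero_iff.mp h φ (Finset.mem_univ φ)) with h | h
  · exact hφ (by rw [hm, h, Nat.cast_zero])
  · exact hρ (by rw [hk', h, Nat.cast_zero])

variable {G : Type u} [Group G] [Fintype G] {p : ℕ} [Fact p.Prime] {M : Ideal AlgInt}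

open Classical in
/-- The sum of the principal idempotent over a normal subgroup is a unit. -/
theorem not_mli_sum_normal (hM : IsPModular p M) (P : Sylow p G) (N : Subgroup G) [hN : N.Normal]
    [Fintype N] : ¬ MemLocalIdeal M (∑ n : N, blockCoeff (principalBlock M G) (n : G)) := by
  set e := blockCoeff (principalBlock M G)
  set C := Subgroup.centralizer ((P : Subgroup G) : Set G)
  let H : Subgroup G := N ⊓ C
  intro hu
  have hsum : ∀ g : G, MemLocalIdeal M ((numReg p G : ℂ) * e g -
      (if p ∣ orderOf g then 0 else ∑ x ∈ pEls p G, regInd p G (x * g))) := fun g => by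
    split_ifs with h
    · rw [sub_zero, show e g = 0 from blockCoeff_eq_zero_of_singular hM isPBlock_principalBlock h,
        mul_zero]
      exact mli_zero hM
    · exact mli_principal_formula hM h
  let f : N × G → ℂ := fun y =>
    (if ¬ p ∣ orderOf (y.1 : G) ∧ y.2 ∈ pEls p G then regInd p G (y.2 * (y.1 : G)) else 0) -
      (if ¬ p ∣ orderOf (y.1 : G) ∧ (y.1 : G) ∈ C ∧ y.2 = 1 then 1 else 0)
  letI : MulAction (P : Subgroup G) (N × G) :=
    { smul := fun q y => (⟨(q : G) * y.1 * (q : G)⁻¹, hN.conj_mem _ y.1.2 _⟩,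
        (q : G) * y.2 * (q : G)⁻¹)
      one_smul := fun y => Prod.ext (Subtype.ext (show ((1 : (P : Subgroup G)) : G) * y.1 *
        ((1 : (P : Subgroup G)) : G)⁻¹ = y.1 by simp))
        (show ((1 : (P : Subgroup G)) : G) * y.2 * ((1 : (P : Subgroup G)) : G)⁻¹ = y.2 by simp)
      mul_smul := fun a b y => Prod.ext (Subtype.ext (show ((a * b : (P : Subgroup G)) : G) * y.1 *
          ((a * b : (P : Subgroup G)) : G)⁻¹ = (a : G) * ((b : G) * y.1 * (b : G)⁻¹) * (a : G)⁻¹ by
            rw [Subgroup.coe_mul]; group))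
        (show ((a * b : (P : Subgroup G)) : G) * y.2 * ((a * b : (P : Subgroup G)) : G)⁻¹ =
          (a : G) * ((b : G) * y.2 * (b : G)⁻¹) * (a : G)⁻¹ by rw [Subgroup.coe_mul]; group) }
  have hord : ∀ (q g : G), orderOf (q * g * q⁻¹) = orderOf g := fun q g =>
    orderOf_injective (MulAut.conj q).toMonoidHom (MulEquiv.injective _) g
  have hCconj : ∀ (q : (P : Subgroup G)) (g : G), (q : G) * g * (q : G)⁻¹ ∈ C ↔ g ∈ C := by
    intro q g
    have hq : (q : G) ∈ Subgroup.normalizer ((P : Subgroup G) : Set G) := Subgroup.le_normalizer q.2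
    constructor
    · intro h
      have := conj_mem_centralizer_of_normalizer (Subgroup.inv_mem _ hq) h
      rwa [show (q : G)⁻¹ * ((q : G) * g * (q : G)⁻¹) * (q : G)⁻¹⁻¹ = g by group] at this
    · exact fun h => conj_mem_centralizer_of_normalizer hq h
  have hinv : ∀ (q : (P : Subgroup G)) y, f (q • y) = f y := by
    intro q y
    show f (⟨(q : G) * y.1 * (q : G)⁻¹, hN.conj_mem _ y.1.2 _⟩, (q : G) * y.2 * (q : G)⁻¹) = f y
    simp only [f, hord, hCconj, mem_pEls, regInd,
      show (q : G) * y.2 * (q : G)⁻¹ * ((q : G) * y.1 * (q : G)⁻¹) =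
        (q : G) * (y.2 * y.1) * (q : G)⁻¹ by group, conj_eq_one_iff]
  have hl : ∀ y, MemLocalRing M (f y) := fun y => by
    refine mlr_sub hM ?_ ?_
    · split_ifs
      · exact mlr_regInd hM _
      · exact mlr_zero hM
    · split_ifs
      · exact mlr_one hM
      · exact mlr_zero hM
  have hfix : ∀ y : N × G, (∀ q : (P : Subgroup G), q • y = y) → MemLocalIdeal M (f y) := by
    intro y hy
    have hnC : (y.1 : G) ∈ C := Subgroup.mem_centralizer_iff.mpr fun q hq =>
      mul_inv_eq_iff_eq_mul.mp (congrArg (fun z : N × G => (z.1 : G)) (hy ⟨q, hq⟩))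
    have hxC : y.2 ∈ C := Subgroup.mem_centralizer_iff.mpr fun q hq =>
      mul_inv_eq_iff_eq_mul.mp (congrArg (fun z : N × G => z.2) (hy ⟨q, hq⟩))
    have hzero : f y = 0 := by
      by_cases hn : p ∣ orderOf (y.1 : G)
      · simp only [f]
        rw [if_neg (fun h => h.1 hn), if_neg (fun h => h.1 hn), sub_zero]
      · by_cases hx1 : y.2 = 1
        · simp only [f]
          rw [if_pos ⟨hn, mem_pEls.mpr ⟨0, by rw [hx1, orderOf_one, pow_zero]⟩⟩, if_pos ⟨hn, hnC, hx1⟩,
            hx1, one_mul, regInd, if_neg hn, sub_self]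
        · simp only [f, hn, hnC, hx1, not_false_eq_true, true_and, and_false, if_false, sub_zero]
          split_ifs with hx
          · obtain ⟨k, hk⟩ := mem_pEls.mp hx
            have hxP : y.2 ∈ (P : Subgroup G) := by
              have hle : Subgroup.zpowers y.2 ≤ Subgroup.normalizer ((P : Subgroup G) : Set G) :=
                Subgroup.zpowers_le.mpr (Subgroup.centralizer_le_normalizer _ hxC)
              have hsup : IsPGroup p ((P : Subgroup G) ⊔ Subgroup.zpowers y.2 : Subgroup G) :=
                P.isPGroup'.to_sup_of_normal_left' (IsPGroup.of_card (n := k)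
                  (by rw [Nat.card_zpowers, hk])) hle
              rw [← P.is_maximal' hsup le_sup_left]
              exact Subgroup.mem_sup_right (Subgroup.mem_zpowers _)
            have hcomm : Commute y.2 (y.1 : G) := Subgroup.mem_centralizer_iff.mp hnC y.2 hxP
            have hp : p.Prime := Fact.out
            rw [regInd, if_pos]
            by_contra hreg
            have h1 : y.2 = (y.2 * (y.1 : G)) * (y.1 : G)⁻¹ := by rw [mul_inv_cancel_right]
            have h2 : orderOf y.2 ∣ orderOf (y.2 * (y.1 : G)) * orderOf ((y.1 : G)⁻¹) := by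
              nth_rw 1 [h1]
              exact ((hcomm.mul_left (Commute.refl (y.1 : G))).inv_right).orderOf_mul_dvd_mul_orderOf
            have hk0 : k ≠ 0 := by
              rintro rfl
              exact hx1 (orderOf_eq_one_iff.mp (by rw [hk, pow_zero]))
            rw [hk, orderOf_inv] at h2
            rcases (hp.dvd_mul).mp ((dvd_pow_self p hk0).trans h2) with h | h
            · exact hreg h
            · exact hn h
          · rfl
    rw [hzero]
    exact mli_zero hM
  have hkey := mli_sum_of_no_fixed hM P.isPGroup' hinv hl hfix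
  have hsplit : ∑ y : N × G, f y = (∑ n : N, (if p ∣ orderOf (n : G) then 0 else
      ∑ x ∈ pEls p G, regInd p G (x * (n : G)))) - (numReg p H : ℂ) := by
    simp only [f, Finset.sum_sub_distrib]
    congr 1
    · rw [Fintype.sum_prod_type]
      refine Finset.sum_congr rfl fun n _ => ?_
      by_cases hn : p ∣ orderOf (n : G)
      · rw [if_pos hn]
        exact Finset.sum_eq_zero fun x _ => if_neg fun h => h.1 hn
      · rw [if_neg hn, ← Finset.sum_filter]
        refine Finset.sum_congr (Finset.ext fun x => ?_) fun x _ => rfl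
        simp only [Finset.mem_filter, Finset.mem_univ, true_and]
        exact and_iff_right hn
    · rw [Finset.sum_boole, numReg, ← Nat.card_eq_finsetCard]
      refine congrArg _ (Nat.card_congr
        { toFun := fun y => ⟨⟨(y.1.1 : G), y.1.1.2, (Finset.mem_filter.mp y.2).2.2.1⟩, by
            simpa [← Subgroup.orderOf_coe] using (Finset.mem_filter.mp y.2).2.1⟩
          invFun := fun z => ⟨(⟨z.1.1, z.1.2.1⟩, 1), Finset.mem_filter.mpr ⟨Finset.mem_univ _,
            (Subgroup.orderOf_coe z.1).symm ▸ z.2, z.1.2.2, rfl⟩⟩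
          left_inv := fun y => Subtype.ext (Prod.ext (Subtype.ext rfl)
            (Finset.mem_filter.mp y.2).2.2.2.symm)
          right_inv := fun z => rfl })
  rw [hsplit] at hkey
  have h1 : MemLocalIdeal M (∑ n : N, ((numReg p G : ℂ) * e (n : G) -
      (if p ∣ orderOf (n : G) then 0 else ∑ x ∈ pEls p G, regInd p G (x * (n : G))))) :=
    mli_sum hM _ fun n _ => hsum n
  rw [Finset.sum_sub_distrib, ← Finset.mul_sum] at h1
  have h2 := mli_sub hM (mli_mul_left hM (mlr_natCast hM (numReg p G)) hu) (mli_add hM h1 hkey)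
  refine not_dvd_numReg hM H ((mli_natCast_iff hM _).mp ?_)
  convert h2 using 1
  ring

/-- Let N be a normal subgroup of the finite group G, p a prime, M a maximal ideal of the algebraic integers containing p, and P a Sylow p-subgroup of G. Let θ be an irreducible character of N of degree prime to p lying in the principal p-block of N, and suppose θ extends to the subgroup NP (some irreducible character of NP restricts to θ). Then some irreducible character χ of G of degree prime to p in the principal p-block of G lies over θ (θ is a constituent of the restriction of χ to N). -/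
theorem result {G : Type*} [Group G] [Finite G] (N : Subgroup G) [N.Normal] (p : ℕ) [Fact p.Prime] (M : Ideal Cfsg.AlgInt) (hM : Cfsg.IsPModular p M) (P : Sylow p G)
    (θ : Cfsg.IrrCharacter N) (hθ : θ ∈ Cfsg.principalBlock M N) (hdeg : ¬ p ∣ Cfsg.charDegree (θ : N → ℂ))
    (hext : ∃ η : Cfsg.IrrCharacter ↥(N ⊔ (P : Subgroup G)), ∀ n : N, (η : ↥(N ⊔ (P : Subgroup G)) → ℂ) (Subgroup.inclusion le_sup_left n) = (θ : N → ℂ) n) :
    ∃ χ : Cfsg.IrrCharacter G, χ ∈ Cfsg.principalBlock M G ∧ ¬ p ∣ Cfsg.charDegree (χ : G → ℂ) ∧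
      haveI := Fintype.ofFinite N; Cfsg.classInner (fun n : N => (χ : G → ℂ) n) (θ : N → ℂ) ≠ 0 := by
  classical
  haveI := Fintype.ofFinite G
  haveI := Fintype.ofFinite N
  set H := N ⊔ (P : Subgroup G)
  haveI := Fintype.ofFinite H
  obtain ⟨η, hη⟩ := hext
  have hp : p.Prime := Fact.out
  set B := Cfsg.principalBlock M G
  have hdegη : (η : H → ℂ) 1 = (θ : N → ℂ) 1 := by
    have := hη 1
    rwa [map_one] at this
  have hregN : ∀ h : H, ¬ p ∣ orderOf (h : G) → (h : G) ∈ N := by
    intro h hh
    obtain ⟨n, hn, x, hx, hnx⟩ := Subgroup.mem_sup_of_normal_left.mp h.2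
    have hq : orderOf ((h : G) : G ⧸ N) ∣ orderOf x := by
      rw [← hnx, QuotientGroup.mk_mul, (QuotientGroup.eq_one_iff n).mpr hn, one_mul]
      exact orderOf_map_dvd (QuotientGroup.mk' N) x
    obtain ⟨k, hk⟩ := IsPGroup.iff_orderOf.mp P.isPGroup' ⟨x, hx⟩
    rw [Subgroup.orderOf_mk] at hk
    rw [hk] at hq
    rw [← QuotientGroup.eq_one_iff, ← orderOf_eq_one_iff]
    exact Nat.eq_one_of_dvd_coprimes (((hp.coprime_iff_not_dvd).mpr hh).pow_left k) hq
      (orderOf_map_dvd (QuotientGroup.mk' N) (h : G))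
  choose m hm using fun χ : Cfsg.IrrCharacter G => exists_mult (IsCharacter.restrict (isCharacter_irr χ) H) η
  have hG : (Nat.card G : ℂ) ≠ 0 := natCast_card_ne_zero G
  have hH : (Nat.card H : ℂ) ≠ 0 := natCast_card_ne_zero H
  have hidx : (H.index : ℂ) * (Nat.card H : ℂ) = (Nat.card G : ℂ) := by
    rw [← Nat.cast_mul, mul_comm, H.card_mul_index]
  have hinner : ∀ χ : Cfsg.IrrCharacter G, ∑ h : H, conj ((χ : G → ℂ) h) * (η : H → ℂ) h =
      (Nat.card H : ℂ) * (m χ : ℂ) := fun χ => by
    rw [← Complex.conj_natCast (m χ), ← hm, Cfsg.classInner, map_mul, map_inv₀, Complex.conj_natCast,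
      map_sum, ← mul_assoc, mul_inv_cancel₀ hH, one_mul]
    exact Finset.sum_congr rfl fun n _ => by rw [map_mul, Complex.conj_conj]
  have hS : (H.index : ℂ) * ∑ h : H, Cfsg.blockCoeff B (h : G) * (η : H → ℂ) h =
      ((∑ χ ∈ Finset.univ.filter (· ∈ B), m χ * Cfsg.charDegree (χ : G → ℂ) : ℕ) : ℂ) := by
    simp only [blockCoeff_eq_sum, mul_assoc, Finset.sum_mul, Finset.mul_sum]
    rw [Finset.sum_comm, Nat.cast_sum]
    refine Finset.sum_congr rfl fun χ _ => ?_
    simp only [← Finset.mul_sum, hinner]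
    rw [irr_apply_one, ← hidx]
    have : (H.index : ℂ) ≠ 0 := Nat.cast_ne_zero.mpr H.index_ne_zero_of_finite
    push_cast
    field_simp
  have hres : ∑ h : H, Cfsg.blockCoeff B (h : G) * (η : H → ℂ) h =
      ∑ n : N, Cfsg.blockCoeff B (n : G) * (θ : N → ℂ) n := by
    rw [← Finset.sum_subset (Finset.subset_univ (Finset.univ.image (Subgroup.inclusion (le_sup_left : N ≤ H))))
      (fun h _ hh => by
        rw [blockCoeff_eq_zero_of_singular hM isPBlock_principalBlock (not_not.mp fun hr => hh
          (Finset.mem_image.mpr ⟨⟨_, hregN h hr⟩, Finset.mem_univ _, Subtype.ext rfl⟩)), zero_mul]),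
      Finset.sum_image (fun a _ b _ hab => Subgroup.inclusion_injective _ hab)]
    exact Finset.sum_congr rfl fun n _ => by rw [hη]; rfl
  have hu := not_mli_sum_normal hM P N
  have hω := mli_omega_sub hM (χ := trivIrr N) (ψ := θ) hθ
    (f := fun n : N => Cfsg.blockCoeff B (n : G))
    (fun n m => blockCoeff_isClassFunction _ (n : G) (m : G))
    (fun n => mlr_blockCoeff hM isPBlock_principalBlock _)
  have hω0 : omega (trivIrr N : N → ℂ) (fun n : N => Cfsg.blockCoeff B (n : G)) =
      ∑ n : N, Cfsg.blockCoeff B (n : G) := by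
    simp [omega, trivIrr]
  have hωθ : ∑ n : N, Cfsg.blockCoeff B (n : G) * (θ : N → ℂ) n =
      (θ : N → ℂ) 1 * omega (θ : N → ℂ) (fun n : N => Cfsg.blockCoeff B (n : G)) := by
    rw [omega, mul_div_cancel₀ _ (irr_one_ne_zero θ)]
  have hidxp : ¬ p ∣ H.index := fun h =>
    P.not_dvd_index (h.trans (Subgroup.index_dvd_of_le le_sup_right))
  have hndvd : ¬ p ∣ ∑ χ ∈ Finset.univ.filter (· ∈ B), m χ * Cfsg.charDegree (χ : G → ℂ) := by
    intro hd
    have h := (mli_natCast_iff hM _).mpr hd
    rw [← hS, hres, hωθ, irr_apply_one, ← mul_assoc, ← Nat.cast_mul] at h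
    rcases mli_mul_cases hM (mlr_natCast hM _)
      (mlr_omega hM θ (fun n m => blockCoeff_isClassFunction _ (n : G) (m : G))
        (fun n => mlr_blockCoeff hM isPBlock_principalBlock _)) h with h1 | h1
    · exact hp.not_dvd_mul hidxp hdeg ((mli_natCast_iff hM _).mp h1)
    · refine hu ?_
      have := mli_add hM hω h1
      rwa [sub_add_cancel, hω0] at this
  obtain ⟨χ, hχ, hχd⟩ : ∃ χ ∈ Finset.univ.filter (· ∈ B),
      ¬ p ∣ m χ * Cfsg.charDegree (χ : G → ℂ) := by
    by_contra hc
    push Not at hc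
    exact hndvd (Finset.dvd_sum hc)
  refine ⟨χ, (Finset.mem_filter.mp hχ).2, fun h => hχd (dvd_mul_of_dvd_right h _), ?_⟩
  have h0 : Cfsg.classInner (fun n : N => (η : H → ℂ) (Subgroup.inclusion (le_sup_left : N ≤ H) n))
      (θ : N → ℂ) ≠ 0 := by
    rw [show (fun n : N => (η : H → ℂ) (Subgroup.inclusion (le_sup_left : N ≤ H) n)) = (θ : N → ℂ)
      from funext hη, classInner_irr, if_pos rfl]
    exact one_ne_zero
  have h1 : Cfsg.classInner (fun h : H => (χ : G → ℂ) h) (η : H → ℂ) ≠ 0 := fun h => by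
    rw [hm] at h
    exact hχd (by rw [show m χ = 0 by exact_mod_cast h, zero_mul]; exact dvd_zero _)
  convert constituent_trans' (Subgroup.inclusion (le_sup_left : N ≤ H))
    (IsCharacter.restrict (isCharacter_irr χ) H) h1 h0 using 3
  rfl

end Cfsg.Agent.S4583
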