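import Cfsg.Statements.S4585
import Cfsg.Agent.Lib.PFourth.Basic

set_option autoImplicit false
open Cfsg

namespace Cfsg.Agent.S4585

/-- Let p be a prime and P a group of order p^4. Then P' has index p^2 in P if and only if P has maximal nilpotency class, that is, nilpotency class exactly 3. -/
theorem result {P : Type*} [Group P] [Finite P] (p : ℕ) [Fact p.Prime] (hP : Nat.card P = p ^ 4) :
    (commutator P).index = p ^ 2 ↔ Group.nilpotencyClass P = 3 := by
  classical
  have hPp : IsPGroup p P := IsPGroup.of_card hP
  haveI : Group.IsNilpotent P := hPp.isNilpotent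
  have hp := (Fact.out : p.Prime)
  have hmul := Subgroup.card_mul_index (commutator P)
  rw [hP] at hmul
  have h2 : Group.nilpotencyClass P ≤ 2 ↔ ∀ g ∈ commutator P, g ∈ Subgroup.center P := by
    rw [← Subgroup.lowerCentralSeries_eq_bot_iff_nilpotencyClass_le]
    show ⁅(⊤ : Subgroup P).lowerCentralSeries 1, (⊤ : Subgroup P)⁆ = ⊥ ↔ _
    rw [Subgroup.commutator_eq_bot_iff_le_centralizer, Subgroup.coe_top, Subgroup.centralizer_univ]
    constructor
    · intro h g hg
      exact h (by rw [show (⊤ : Subgroup P).lowerCentralSeries 1 = commutator P from rfl]; exact hg)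
    · exact fun h g hg => h g hg
  constructor
  · intro h
    rw [h] at hmul
    have hD : Nat.card (commutator P) = p ^ 2 := Nat.eq_of_mul_eq_mul_right (pow_pos hp.pos 2) (hmul.trans (by ring))
    have hna : ¬ ∀ a b : P, a * b = b * a := fun hh => by
      have : commutator P = ⊥ := le_bot_iff.mp (Subgroup.commutator_le.mpr fun a _ b _ =>
        Subgroup.mem_bot.mpr (commutatorElement_eq_one_iff_mul_comm.mpr (hh a b)))
      rw [this, Subgroup.card_bot] at hD
      exact (Nat.one_lt_pow two_ne_zero hp.one_lt).ne hD
    have hgt : ¬ Group.nilpotencyClass P ≤ 2 := fun hle => by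
      have hle' : commutator P ≤ Subgroup.center P := h2.mp hle
      have h1 : (Subgroup.center P).index ∣ p ^ 2 := h ▸ Subgroup.index_dvd_of_le hle'
      have h3 := CfsgLib.PFourth.card_commutator_of_index hPp (Nat.dvd_antisymm h1 (CfsgLib.PFourth.index_center_ne hPp hna))
      rw [hD] at h3
      nlinarith [hp.two_le]
    have hle := CfsgLib.PFourth.class_le (G := P) hP
    omega
  · intro h
    have h3 : ¬ ∀ g ∈ commutator P, g ∈ Subgroup.center P := fun hh => by
      have := h2.mpr hh; omega
    obtain ⟨i, hi4, hi⟩ := (Nat.dvd_prime_pow hp).mp (hP ▸ (commutator P).index_dvd_card)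
    rw [hi]
    congr 1
    have hD : Nat.card (commutator P) = p ^ (4 - i) := by
      rw [hi] at hmul
      refine Nat.eq_of_mul_eq_mul_right (pow_pos hp.pos i) (hmul.trans ?_)
      rw [← pow_add, Nat.sub_add_cancel hi4]
    have hi2 : 2 ≤ i := by
      by_contra hlt
      apply h3
      intro g hg
      haveI : IsCyclic (P ⧸ commutator P) := by
        rcases (show i = 0 ∨ i = 1 by omega) with rfl | rfl
        · haveI : Subsingleton (P ⧸ commutator P) := by
            refine (Nat.card_eq_one_iff_unique.mp ?_).1
            rw [← Subgroup.index_eq_card, hi, pow_zero]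
          infer_instance
        · exact isCyclic_of_prime_card (p := p) (by rw [← Subgroup.index_eq_card, hi, pow_one])
      exact CfsgLib.PFourth.center_of_cyclic_abelianization g hg
    by_contra hne
    apply h3
    intro g hg
    rcases (show i = 3 ∨ i = 4 by omega) with rfl | rfl
    · exact CfsgLib.PFourth.prime_normal_central hPp (commutator P) (by rw [hD]; norm_num) hg
    · rw [Nat.sub_self, pow_zero, Subgroup.card_eq_one] at hD
      rw [hD, Subgroup.mem_bot] at hg
      exact hg ▸ one_mem _

end Cfsg.Agent.S4585
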