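import Cfsg.Statements.S4586
import Cfsg.Agent.Lib.PFourth.Basic

set_option autoImplicit false
open Cfsg

namespace Cfsg.Agent.S4586

/-- Let p be a prime, P a finite p-group and N a normal subgroup of P of index p. For x ∈ P write c(x) for the number of elements n of N whose commutator x n x⁻¹ n⁻¹ lies in the derived subgroup N' (so c(x)/#N' is the order of the centralizer of x acting on N/N'). Then [P : P'] = p² if and only if c(x) = p·#N' for every x ∈ P outside N, and also if and only if c(x) = p·#N' for some x ∈ P outside N. -/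
theorem result {P : Type*} [Group P] [Finite P] (p : ℕ) [Fact p.Prime] (hP : IsPGroup p P) (N : Subgroup P) [N.Normal] (hN : N.index = p) :
    ((commutator P).index = p ^ 2 ↔ ∀ x : P, x ∉ N →
        Nat.card {n : N // x * n * x⁻¹ * (n : P)⁻¹ ∈ (commutator N).map N.subtype} = p * Nat.card (commutator N)) ∧
    ((commutator P).index = p ^ 2 ↔ ∃ x : P, x ∉ N ∧
        Nat.card {n : N // x * n * x⁻¹ * (n : P)⁻¹ ∈ (commutator N).map N.subtype} = p * Nat.card (commutator N)) := by
  classical
  have hcard : ∀ x : P, x ∉ N → Nat.card {n : N // x * n * x⁻¹ * (n : P)⁻¹ ∈ (commutator N).map N.subtype} * p =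
      Nat.card (commutator N) * (commutator P).index := CfsgLib.PFourth.card_fix N hN
  have hpos : 0 < Nat.card (commutator N) := Nat.card_pos
  have hp0 : 0 < p := (Fact.out : p.Prime).pos
  obtain ⟨x₀, hx₀⟩ : ∃ x : P, x ∉ N := by
    by_contra hh
    push Not at hh
    rw [(Subgroup.eq_top_iff' N).mpr hh, Subgroup.index_top] at hN
    exact (Fact.out : p.Prime).one_lt.ne hN
  have key : ∀ x : P, x ∉ N → ((commutator P).index = p ^ 2 ↔
      Nat.card {n : N // x * n * x⁻¹ * (n : P)⁻¹ ∈ (commutator N).map N.subtype} = p * Nat.card (commutator N)) := by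
    intro x hx
    constructor
    · intro h
      have h1 := hcard x hx
      rw [h] at h1
      exact Nat.eq_of_mul_eq_mul_right hp0 (h1.trans (by ring))
    · intro h
      have h1 := hcard x hx
      rw [h] at h1
      exact Nat.eq_of_mul_eq_mul_left hpos (h1.symm.trans (by ring))
  exact ⟨⟨fun h x hx => (key x hx).mp h, fun h => (key x₀ hx₀).mpr (h x₀ hx₀)⟩,
    ⟨fun h => ⟨x₀, hx₀, (key x₀ hx₀).mp h⟩, fun ⟨x, hx, h⟩ => (key x hx).mpr h⟩⟩

end Cfsg.Agent.S4586
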