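import Cfsg.Statements.S4593
import Cfsg.Agent.Lib.ZStar.Main
import Cfsg.Agent.Lib.Isolated
import Cfsg.Agent.Lib.Core
import Mathlib.GroupTheory.Sylow

set_option autoImplicit false
open Cfsg

namespace Cfsg.Agent.S4593

open CfsgLib

set_option maxHeartbeats 1600000 in
/-- Let G be a finite group with trivial centre and no nontrivial normal subgroup of odd order, whose Sylow 2-subgroups are abelian, and let P be a Sylow 2-subgroup. Every automorphism of G of 2-power order that fixes P elementwise is inner. -/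
theorem result {G : Type*} [Group G] [Finite G] (hZ : Subgroup.center G = ⊥) (hcore : Cfsg.pPrimeCore 2 G = ⊥) (P : Sylow 2 G) (hab : IsMulCommutative (P : Subgroup G))
    (α : MulAut G) (h2 : ∃ j : ℕ, orderOf α = 2 ^ j) (hfix : ∀ x ∈ (P : Subgroup G), α x = x) :
    ∃ g : G, ∀ x : G, α x = g * x * g⁻¹ := by
  classical
  haveI : Finite (MulAut G) := Finite.of_injective (fun e : MulAut G => (e : G → G))
    DFunLike.coe_injective
  haveI : Fact (Nat.Prime 2) := ⟨Nat.prime_two⟩
  set ι : G →* MulAut G := MulAut.conj with hι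
  have hinj : Function.Injective ι := by
    rw [← MonoidHom.ker_eq_bot_iff, ← hZ]
    ext g
    simp only [MonoidHom.mem_ker, Subgroup.mem_center_iff, hι, MulEquiv.ext_iff, MulAut.conj_apply,
      MulAut.one_apply, mul_inv_eq_iff_eq_mul]
    exact ⟨fun h x => (h x).symm, fun h x => (h x).symm⟩
  have hconj : ∀ (a : MulAut G) (g : G), a * ι g * a⁻¹ = ι (a g) := fun a g =>
    MulEquiv.ext fun x => by simp [hι]
  by_contra hno
  push Not at hno
  have hα : α ∉ ι.range := by
    rintro ⟨g, hg⟩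
    obtain ⟨x, hx⟩ := hno g
    exact hx (by rw [← hg]; rfl)
  let X : Subgroup (MulAut G) := ι.range ⊔ Subgroup.zpowers α
  let I : Subgroup X := ι.range.subgroupOf X
  haveI : ι.range.Normal := ⟨by
    rintro _ ⟨g, rfl⟩ a
    exact ⟨a g, (hconj a g).symm⟩⟩
  haveI : I.Normal := inferInstance
  let a : X := ⟨α, Subgroup.mem_sup_right (Subgroup.mem_zpowers α)⟩
  let j : G →* X := ι.codRestrict X fun g => Subgroup.mem_sup_left ⟨g, rfl⟩
  have hjinj : Function.Injective j := fun x y e => hinj (congrArg Subtype.val e)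
  have hjI : ∀ g, j g ∈ I := fun g => ⟨g, rfl⟩
  have hIj : ∀ x ∈ I, ∃ g, j g = x := fun x hx => by
    obtain ⟨g, hg⟩ := hx
    exact ⟨g, Subtype.ext hg⟩
  have hdec : ∀ x : X, ∃ g : G, ∃ n : ℤ, x = j g * a ^ n := fun x => by
    have hx : (x : MulAut G) ∈ ((ι.range ⊔ Subgroup.zpowers α : Subgroup (MulAut G)) : Set (MulAut G)) := x.2
    rw [Subgroup.normal_mul] at hx
    obtain ⟨y, ⟨g, rfl⟩, z, hz, e⟩ := Set.mem_mul.mp hx
    obtain ⟨n, rfl⟩ := Subgroup.mem_zpowers_iff.mp hz
    exact ⟨g, n, Subtype.ext (by rw [← e]; simp [j, a])⟩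
  -- an abelian Sylow subgroup of X
  obtain ⟨S₀, hS₀⟩ : ∃ S₀ : Subgroup X, S₀ = (P : Subgroup G).map j ⊔ Subgroup.zpowers a := ⟨_, rfl⟩
  have hac : ∀ u ∈ (P : Subgroup G), Commute a (j u) := fun u hu => Subtype.ext (by
    change α * ι u = ι u * α
    rw [← mul_inv_eq_iff_eq_mul, hconj, hfix u hu])
  have haO : ∃ e, orderOf a = 2 ^ e := by
    obtain ⟨e, he⟩ := h2
    exact ⟨e, by rw [← he, ← Subgroup.orderOf_coe]⟩
  have hP0 : IsPGroup 2 S₀ := by
    rw [hS₀]
    refine IsPGroup.to_sup_of_normal_left' (P.2.map j) (IsPGroup.of_card (n := haO.choose) ?_) ?_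
    · rw [Nat.card_zpowers]; exact haO.choose_spec
    · intro x hx
      obtain ⟨n, rfl⟩ := Subgroup.mem_zpowers_iff.mp hx
      refine Subgroup.mem_normalizer_iff.mpr fun y => ?_
      constructor
      · rintro ⟨u, hu, rfl⟩
        exact ⟨u, hu, by rw [((hac u hu).zpow_left n).eq, mul_inv_cancel_right]⟩
      · rintro ⟨u, hu, e⟩
        refine ⟨u, hu, ?_⟩
        have h1 : a ^ n * j u = j u * a ^ n := ((hac u hu).zpow_left n).eq
        calc j u = (a ^ n)⁻¹ * (a ^ n * j u) := by group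
          _ = (a ^ n)⁻¹ * (j u * a ^ n) := by rw [h1]
          _ = y := by rw [e]; group
  obtain ⟨S, hS⟩ := hP0.exists_le_sylow
  have haS : a ∈ (S : Subgroup X) := hS (hS₀ ▸ Subgroup.mem_sup_right (Subgroup.mem_zpowers a))
  have hPS : ∀ u ∈ (P : Subgroup G), j u ∈ (S : Subgroup X) := fun u hu =>
    hS (hS₀ ▸ Subgroup.mem_sup_left ⟨u, hu, rfl⟩)
  have hmax : ∀ g, j g ∈ (S : Subgroup X) → g ∈ (P : Subgroup G) := by
    intro g hg
    have h := P.3 (Q := (S : Subgroup X).comap j) (S.2.comap_of_injective j hjinj) fun u hu => hPS u hu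
    exact h.le hg
  have hgen : ∀ s ∈ (S : Subgroup X), ∃ u ∈ (P : Subgroup G), ∃ n : ℤ, s = j u * a ^ n := fun s hs => by
    obtain ⟨g, n, rfl⟩ := hdec s
    refine ⟨g, hmax g ?_, n, rfl⟩
    simpa using mul_mem hs (inv_mem (zpow_mem haS n))
  haveI hSc : IsMulCommutative (S : Subgroup X) := ⟨⟨fun s t => Subtype.ext (by
    obtain ⟨u, hu, m, hm⟩ := hgen _ s.2
    obtain ⟨v, hv, n, hn⟩ := hgen _ t.2
    simp only [Subgroup.coe_mul, hm, hn]
    have h1 : Commute (j u) (j v) := by
      have := hab.is_comm.comm ⟨u, hu⟩ ⟨v, hv⟩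
      exact (show Commute u v from congrArg Subtype.val this).map j
    exact ((h1.mul_right ((hac u hu).zpow_left n).symm).mul_left
      (((hac v hv).zpow_left m).mul_right (Commute.zpow_zpow (Commute.refl a) m n))).eq)⟩⟩
  have hcomm : ∀ x ∈ (S : Subgroup X), ∀ y ∈ (S : Subgroup X), x * y = y * x := fun x hx y hy =>
    congrArg Subtype.val (hSc.is_comm.comm ⟨x, hx⟩ ⟨y, hy⟩)
  -- averaging over the normaliser
  set N := Subgroup.normalizer ((S : Subgroup X) : Set X) with hN
  let Q := N ⧸ (S : Subgroup X).subgroupOf N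
  have hodd : ¬ 2 ∣ Nat.card Q := by
    intro hd
    refine S.not_dvd_index ?_
    exact hd.trans (Subgroup.relIndex_dvd_index_of_le Subgroup.le_normalizer)
  haveI : Fintype Q := Fintype.ofFinite Q
  let val : N → (S : Subgroup X) := fun n =>
    ⟨(n : X) * a * (n : X)⁻¹, (Subgroup.mem_normalizer_iff.mp n.2 a).mp haS⟩
  letI : CommGroup (S : Subgroup X) :=
    { (inferInstance : Group (S : Subgroup X)) with mul_comm := hSc.is_comm.comm }
  let F : Q → (S : Subgroup X) := Quotient.lift val (fun n m hnm => by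
    have h1 : n⁻¹ * m ∈ (S : Subgroup X).subgroupOf N := QuotientGroup.leftRel_apply.mp hnm
    apply Subtype.ext
    have h2 := hcomm _ (Subgroup.mem_subgroupOf.mp h1) _ haS
    simp only [Subgroup.coe_mul, InvMemClass.coe_inv] at h2
    change (n : X) * a * (n : X)⁻¹ = (m : X) * a * (m : X)⁻¹
    calc (n : X) * a * (n : X)⁻¹ = (n : X) * (a * ((n : X)⁻¹ * m)) * (m : X)⁻¹ := by group
      _ = (n : X) * ((n : X)⁻¹ * m * a) * (m : X)⁻¹ := by rw [h2]
      _ = _ := by group)
  let b : (S : Subgroup X) := ∏ q : Q, F q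
  have hbfix : ∀ n ∈ N, n * (b : X) * n⁻¹ = b := by
    intro n hn
    let c : (S : Subgroup X) →* X := (MulAut.conj n).toMonoidHom.comp (S : Subgroup X).subtype
    let c' : (S : Subgroup X) →* (S : Subgroup X) := c.codRestrict _ fun s =>
      (Subgroup.mem_normalizer_iff.mp hn (s : X)).mp s.2
    change ((c' b : (S : Subgroup X)) : X) = b
    congr 1
    rw [map_prod]
    refine Fintype.prod_equiv (MulAction.toPerm (⟨n, hn⟩ : N)) _ _ fun q => ?_
    induction q using Quotient.inductionOn with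
    | h m =>
      apply Subtype.ext
      change n * ((m : X) * a * (m : X)⁻¹) * n⁻¹ = (n * (m : X)) * a * (n * (m : X))⁻¹
      group
  let π : X →* X ⧸ I := QuotientGroup.mk' I
  have hπcomm : ∀ x : X, π x * π a * (π x)⁻¹ = π a := fun x => by
    obtain ⟨g, n, rfl⟩ := hdec x
    rw [map_mul, show π (j g) = 1 from (QuotientGroup.eq_one_iff _).mpr (hjI g), one_mul, map_zpow,
      ((Commute.refl (π a)).zpow_left n).eq, mul_inv_cancel_right]
  have hπb : π (b : X) = π a ^ Nat.card Q := by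
    have hconst : ∀ q : Q, π (F q : X) = π a := fun q => by
      induction q using Quotient.inductionOn with
      | h m =>
        change π ((m : X) * a * (m : X)⁻¹) = π a
        rw [map_mul, map_mul, map_inv, hπcomm]
    have hprod : ∀ s : Finset Q, π ((∏ q ∈ s, F q : (S : Subgroup X)) : X) = π a ^ s.card := by
      intro s
      induction s using Finset.induction with
      | empty => simp
      | insert q s hq ih =>
        rw [Finset.prod_insert hq, Subgroup.coe_mul, map_mul, ih, hconst, Finset.card_insert_of_notMem hq,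
          pow_succ']
    rw [Nat.card_eq_fintype_card, ← Finset.card_univ]
    exact hprod _
  have hb1 : (b : X) ≠ 1 := by
    intro h1
    rw [h1, map_one] at hπb
    obtain ⟨e, he⟩ := haO
    have h3 : orderOf (π a) ∣ 2 ^ e := he ▸ orderOf_map_dvd π a
    have h4 : orderOf (π a) = 1 := Nat.eq_one_of_dvd_coprimes
      (Nat.Coprime.pow_left e ((Nat.prime_two.coprime_iff_not_dvd).mpr hodd)) h3
      (orderOf_dvd_of_pow_eq_one hπb.symm)
    exact hα ((QuotientGroup.eq_one_iff a).mp (orderOf_eq_one_iff.mp h4))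
  -- an involution among the powers
  obtain ⟨e, he⟩ := IsPGroup.iff_orderOf.mp S.2 b
  have he0 : e ≠ 0 := fun h => hb1 (by
    rw [h, pow_zero, orderOf_eq_one_iff] at he
    rw [he]; rfl)
  set t : X := (b : X) ^ 2 ^ (e - 1) with ht
  have hto : orderOf t = 2 := by
    have hne : 2 ^ (e - 1) ≠ 0 := by positivity
    have hd : 2 ^ (e - 1) ∣ orderOf (b : X) := by
      rw [Subgroup.orderOf_coe, he]; exact pow_dvd_pow 2 (Nat.sub_le e 1)
    rw [ht, orderOf_pow_of_dvd hne hd, Subgroup.orderOf_coe, he,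
      Nat.pow_div (Nat.sub_le e 1) two_pos, show e - (e - 1) = 1 by omega, pow_one]
  have htS : t ∈ (S : Subgroup X) := pow_mem b.2 _
  have hiso : IsIsolatedInvolution t := CfsgLib.Isolated.isIsolated_of_sylow (S := S) hto fun g hg => by
    obtain ⟨n, hn, hn'⟩ := S.conj_eq_normalizer_conj_of_mem t g⁻¹ htS (by simpa using hg)
    rw [inv_inv] at hn'
    have h5 := hbfix n⁻¹ (inv_mem hn)
    have h7 : (n⁻¹ * (b : X) * (n⁻¹)⁻¹) ^ 2 ^ (e - 1) = n⁻¹ * (b : X) ^ 2 ^ (e - 1) * (n⁻¹)⁻¹ := conj_pow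
    rw [h5, inv_inv, ← ht] at h7
    rw [hn', ← h7]
  -- it centralizes the inner automorphisms
  haveI : (Cfsg.oddCore X).Normal := ZStar.oddCore_normal
  have hkill : ∀ g : G, t * j g * t⁻¹ * (j g)⁻¹ = 1 := fun g => by
    have hO := ZStar.zstar hiso (j g)
    have hI : t * j g * t⁻¹ * (j g)⁻¹ ∈ I :=
      mul_mem (Subgroup.Normal.conj_mem inferInstance _ (hjI g) t) (inv_mem (hjI g))
    obtain ⟨y, hy⟩ := hIj _ hI
    have hn : (Cfsg.oddCore X).comap j ≤ Cfsg.pPrimeCore 2 G := by
      refine Core.le_pPrimeCore inferInstance (Nat.coprime_two_right.mpr ?_)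
      exact Odd.of_dvd_nat ZStar.oddCore_odd (Subgroup.card_comap_dvd_of_injective _ j hjinj)
    rw [hcore, le_bot_iff] at hn
    have hy' : y ∈ (Cfsg.oddCore X).comap j := by rw [Subgroup.mem_comap, hy]; exact hO
    rw [hn, Subgroup.mem_bot] at hy'
    rw [← hy, hy', map_one]
  have ht1 : t = 1 := by
    apply Subtype.ext
    refine MulEquiv.ext fun g => ?_
    have h6 := congrArg Subtype.val (hkill g)
    simp only [Subgroup.coe_mul, InvMemClass.coe_inv, OneMemClass.coe_one] at h6
    rw [mul_inv_eq_one] at h6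
    rw [show ((j g : X) : MulAut G) = ι g from rfl, hconj] at h6
    exact hinj h6
  rw [ht1, orderOf_one] at hto
  omega

end Cfsg.Agent.S4593
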