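import Cfsg.Agent.Lib.GroupB.Coprime
import Cfsg.Agent.Lib.PSeries
import Cfsg.Agent.S3790
-- import your own Cfsg.Agent.* helpers here

set_option autoImplicit false
open Cfsg

namespace Cfsg.Agent.S4601

open CfsgLib.GroupB

theorem card_sylow_eq {X : Type*} [Group X] [Finite X] {q : ℕ} [Fact q.Prime] {M : Subgroup X} (Q : Sylow q X)
    (hQM : (Q : Subgroup X) ≤ M) {Q' : Subgroup X} (h : Coprime.IsSylowOf q Q' M) : Nat.card Q' = Nat.card (Q : Subgroup X) := by
  obtain ⟨T, hT⟩ := h.exists_sylow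
  have h1 : Nat.card T = Nat.card (Q.subtype hQM) := Nat.card_congr (T.equiv _).toEquiv
  rw [← hT, Subgroup.card_map_of_injective M.subtype_injective, h1]
  exact Nat.card_congr (Subgroup.subgroupOfEquivOfLe hQM).toEquiv

theorem not_dvd_index {X : Type*} [Group X] [Finite X] {p : ℕ} [Fact p.Prime] {N : Subgroup X}
    (h : ¬ p ∣ N.index) : ∃ P : Sylow p X, (P : Subgroup X) ≤ N := by
  obtain ⟨S⟩ := (inferInstance : Nonempty (Sylow p N))
  obtain ⟨P, hP⟩ := (S.2.map N.subtype).exists_le_sylow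
  refine ⟨P, ?_⟩
  have he : (S : Subgroup N).map N.subtype = P := by
    refine Subgroup.eq_of_le_of_card_ge hP ?_
    rw [Subgroup.card_map_of_injective N.subtype_injective, P.card_eq_multiplicity, S.card_eq_multiplicity,
      ← N.card_mul_index, Nat.factorization_mul Nat.card_pos.ne' Subgroup.index_ne_zero_of_finite, Finsupp.add_apply,
      Nat.factorization_eq_zero_of_not_dvd h, add_zero]
  exact he ▸ Subgroup.map_subtype_le _

theorem relIndex_sup_of_normal {X : Type*} [Group X] [Finite X] (H N : Subgroup X) [H.Normal] :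
    N.relIndex (H ⊔ N) = N.relIndex H := by
  have a := Subgroup.relIndex_mul_relIndex ⊥ N (H ⊔ N) bot_le le_sup_right
  have b := Subgroup.relIndex_mul_relIndex ⊥ H (H ⊔ N) bot_le le_sup_left
  have c := Subgroup.relIndex_mul_relIndex ⊥ (H ⊓ N) N bot_le inf_le_right
  have d := Subgroup.relIndex_mul_relIndex ⊥ (H ⊓ N) H bot_le inf_le_left
  simp only [Subgroup.relIndex_bot_left, Subgroup.inf_relIndex_right, Subgroup.inf_relIndex_left, Subgroup.relIndex_sup_left] at a b c d
  refine Nat.eq_of_mul_eq_mul_left (Nat.card_pos (α := N)) ?_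
  rw [a, ← b, ← d, ← c]; ring

theorem step {X : Type*} [Group X] [Finite X] {p q : ℕ} [Fact p.Prime] [Fact q.Prime] (hpq : p ≠ q)
    (H : Subgroup X) [H.Normal] (P : Sylow p X) (Q : Sylow q X)
    (hy : ∀ y ∈ (Q : Subgroup X), ¬ p ∣ (Subgroup.centralizer ({y} : Set X)).index)
    (hPQ : (P : Subgroup X) ≤ Subgroup.normalizer ((H ⊔ (Q : Subgroup X) : Subgroup X) : Set X))
    (hcase : IsPGroup q H ∨ ¬ p ∣ Nat.card H ∨ ¬ q ∣ Nat.card H) :
    ∃ (P' : Sylow p X) (Q' : Sylow q X), (P' : Subgroup X) ≤ Subgroup.normalizer ((Q' : Subgroup X) : Set X) := by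
  classical
  have hp : p.Prime := Fact.out
  have hq : q.Prime := Fact.out
  set M := H ⊔ (Q : Subgroup X) with hM
  rcases hcase with h | h | h
  · refine ⟨P, Q, ?_⟩
    have : M = (Q : Subgroup X) := Q.3 (h.to_sup_of_normal_left Q.2) le_sup_right
    rwa [this] at hPQ
  · obtain ⟨a, ha⟩ := IsPGroup.iff_card.mp P.2
    obtain ⟨b, hb⟩ := IsPGroup.iff_card.mp Q.2
    have hMc : ¬ p ∣ Nat.card M := by
      intro hd
      have h1 : Nat.card M ∣ Nat.card H * Nat.card (Q : Subgroup X) := by
        rw [hM, sup_comm, mul_comm]; exact CfsgLib.Core.card_sup_dvd_of_normal _ _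
      rcases hp.dvd_mul.mp (hd.trans h1) with h2 | h2
      · exact h h2
      · rw [hb] at h2; exact hpq ((Nat.prime_dvd_prime_iff_eq hp hq).mp (hp.dvd_of_dvd_pow h2))
    have hcop : (Nat.card (P : Subgroup X)).Coprime (Nat.card M) := by
      rw [ha]; exact Nat.Coprime.pow_left a (hp.coprime_iff_not_dvd.mpr hMc)
    haveI := P.2.isNilpotent
    obtain ⟨Q', hQ', hPQ'⟩ := (Coprime.invariant_sylow hPQ hcop (Or.inr inferInstance) q).1
    have hcard := card_sylow_eq Q le_sup_right hQ'
    exact ⟨P, Sylow.ofCard Q' (hcard.trans Q.card_eq_multiplicity), hPQ'⟩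
  · obtain ⟨b, hb⟩ := IsPGroup.iff_card.mp Q.2
    have hcop : (Nat.card (Q : Subgroup X)).Coprime (Nat.card H) := by
      rw [hb]; exact Nat.Coprime.pow_left b (hq.coprime_iff_not_dvd.mpr h)
    haveI := Q.2.isNilpotent
    have hQH : (Q : Subgroup X) ≤ Subgroup.normalizer (H : Set X) := by
      rw [Subgroup.normalizer_eq_top]; exact le_top
    obtain ⟨S₀, hS₀, hQS₀⟩ := (Coprime.invariant_sylow hQH hcop (Or.inr inferInstance) p).1
    have hcent : (Q : Subgroup X) ≤ Subgroup.centralizer (S₀ : Set X) := by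
      intro y hyQ
      obtain ⟨T, hT⟩ := not_dvd_index (p := p) (hy y hyQ)
      set S₁ := (T : Subgroup X) ⊓ H with hS₁
      have hS₁H : Coprime.IsSylowOf p S₁ H := by
        refine ⟨inf_le_right, ?_⟩
        have hT1 : IsPGroup p ↥S₁ := T.2.to_le inf_le_left
        obtain ⟨c, hc⟩ := IsPGroup.iff_card.mp hT1
        have h2 := Subgroup.relIndex_mul_relIndex ⊥ S₁ H bot_le inf_le_right
        rw [Subgroup.relIndex_bot_left, Subgroup.relIndex_bot_left] at h2
        have h3 : ¬ p ∣ S₁.relIndex H := by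
          intro hd
          rw [hS₁, Subgroup.inf_relIndex_right] at hd
          refine T.not_dvd_index (hd.trans ?_)
          rw [← Subgroup.relIndex_top_right (H := (T : Subgroup X)),
            ← Subgroup.relIndex_mul_relIndex (T : Subgroup X) ((T : Subgroup X) ⊔ H) ⊤ le_sup_left le_top,
            sup_comm, relIndex_sup_of_normal]
          exact dvd_mul_right _ _
        rw [← h2, Nat.factorization_mul Nat.card_pos.ne' (fun e => h3 (by rw [e]; exact dvd_zero p)), Finsupp.add_apply,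
          Nat.factorization_eq_zero_of_not_dvd h3, add_zero, hc, Nat.Prime.factorization_pow hp, Finsupp.single_eq_same]
      have hyS₁ : ∀ s ∈ S₁, y * s = s * y := fun s hs => (Subgroup.mem_centralizer_singleton_iff.mp (hT hs.1)).symm
      have hAS₁ : Subgroup.zpowers y ≤ Subgroup.normalizer (S₁ : Set X) := by
        refine (Subgroup.zpowers_le.mpr ?_).trans (Subgroup.centralizer_le_normalizer _)
        exact Subgroup.mem_centralizer_iff.mpr fun s hs => (hyS₁ s hs).symm
      have hyQ' : Subgroup.zpowers y ≤ (Q : Subgroup X) := Subgroup.zpowers_le.mpr hyQ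
      obtain ⟨c, hc, hce⟩ := (Coprime.invariant_sylow (hyQ'.trans hQH) (hcop.coprime_dvd_left (Subgroup.card_dvd_of_le hyQ'))
        (Or.inr inferInstance) p).2 S₁ S₀ hS₁H hAS₁ hS₀ (hyQ'.trans hQS₀)
      refine Subgroup.mem_centralizer_iff.mpr fun s hs => ?_
      rw [← hce] at hs
      obtain ⟨u, hu, rfl⟩ := hs
      have h1 : y * c = c * y := Subgroup.mem_centralizer_iff.mp hc.2 y (Subgroup.mem_zpowers y)
      show c * u * c⁻¹ * y = y * (c * u * c⁻¹)
      calc c * u * c⁻¹ * y = c * u * (c⁻¹ * y) := by group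
        _ = c * u * (y * c⁻¹) := by rw [show c⁻¹ * y = y * c⁻¹ from ((show Commute y c from h1).inv_right).symm.eq]
        _ = c * (u * y) * c⁻¹ := by group
        _ = c * (y * u) * c⁻¹ := by rw [hyS₁ u hu]
        _ = c * y * u * c⁻¹ := by group
        _ = y * c * u * c⁻¹ := by rw [h1]
        _ = y * (c * u * c⁻¹) := by group
    set N := Subgroup.normalizer ((Q : Subgroup X) : Set X) with hN
    have hS₀N : S₀ ≤ N := fun s hs => Subgroup.centralizer_le_normalizer _ (Subgroup.mem_centralizer_iff.mpr fun y hy' =>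
      (Subgroup.mem_centralizer_iff.mp (hcent hy') s hs).symm)
    have hPN : (P : Subgroup X) ≤ H ⊔ N := by
      intro g hg
      have h1 : Coprime.IsSylowOf q (Q : Subgroup X) M := by
        refine ⟨le_sup_right, ?_⟩
        rw [← Nat.card_congr (Subgroup.subgroupOfEquivOfLe (le_sup_right : (Q : Subgroup X) ≤ M)).toEquiv]
        exact (Q.subtype le_sup_right).card_eq_multiplicity
      obtain ⟨m, hm, hme⟩ := h1.exists_conj (h1.map_conj (hPQ hg))
      have h2 : m⁻¹ * g ∈ N := by
        rw [hN, Subgroup.mem_normalizer_iff_map_conj_eq]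
        show (Q : Subgroup X).map (MulAut.conj (m⁻¹ * g)).toMonoidHom = Q
        rw [show (MulAut.conj (m⁻¹ * g)).toMonoidHom = (MulAut.conj m⁻¹).toMonoidHom.comp (MulAut.conj g).toMonoidHom from
          MonoidHom.ext fun u => by simp [mul_assoc], ← Subgroup.map_map, ← hme, Subgroup.map_map]
        conv_rhs => rw [← Subgroup.map_id (Q : Subgroup X)]
        congr 1; ext u; simp [mul_assoc]
      have h3 : M ≤ H ⊔ N := sup_le le_sup_left (Subgroup.le_normalizer.trans le_sup_right)
      have := mul_mem (h3 hm) (Subgroup.mem_sup_right (S := H) h2)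
      rwa [mul_inv_cancel_left] at this
    obtain ⟨P', hP'⟩ := not_dvd_index (p := p) (N := N) (fun hd => by
      rw [← Subgroup.relIndex_mul_index (le_sup_right : N ≤ H ⊔ N)] at hd
      rcases hp.dvd_mul.mp hd with h1 | h1
      · rw [relIndex_sup_of_normal] at h1
        refine (?_ : ¬ p ∣ S₀.relIndex H) (h1.trans ?_)
        · intro hd'
          have h2 := Subgroup.relIndex_mul_relIndex ⊥ S₀ H bot_le hS₀.1
          rw [Subgroup.relIndex_bot_left, Subgroup.relIndex_bot_left, hS₀.2] at h2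
          obtain ⟨k, hk⟩ : ∃ k, k = (Nat.card H).factorization p := ⟨_, rfl⟩
          rw [← hk] at h2
          have h4 : p ^ (k + 1) ∣ Nat.card H := by
            rw [← h2, pow_succ]; exact mul_dvd_mul_left _ hd'
          have := (hp.pow_dvd_iff_le_factorization Nat.card_pos.ne').mp h4
          omega
        · rw [← Subgroup.inf_relIndex_right N H]
          exact Subgroup.relIndex_dvd_of_le_left H (le_inf hS₀N hS₀.1)
      · exact P.not_dvd_index (h1.trans (Subgroup.index_dvd_of_le hPN)))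
    exact ⟨P', Q, hP'⟩

theorem main {G : Type*} [Group G] [Finite G] {p q r : ℕ} [Fact p.Prime] [Fact q.Prime] (hpq : p ≠ q)
    (hr : r = p ∨ r = q) (hsolv : Cfsg.IsPSolvable r G)
    (h : ∀ y : G, (∃ k : ℕ, orderOf y = q ^ k) → ¬ p ∣ (Subgroup.centralizer ({y} : Set G)).index) :
    ∃ (P : Sylow p G) (Q : Sylow q G), (P : Subgroup G) ≤ Subgroup.normalizer ((Q : Subgroup G) : Set G) := by
  classical
  have hp : p.Prime := Fact.out
  have hq : q.Prime := Fact.out
  obtain ⟨n, H, h0, hlast, hmono, hnorm, hlayer⟩ := hsolv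
  suffices key : ∀ i : Fin (n + 1), ∃ (P : Sylow p G) (Q : Sylow q G),
      (P : Subgroup G) ≤ Subgroup.normalizer ((H i ⊔ (Q : Subgroup G) : Subgroup G) : Set G) by
    obtain ⟨P, Q, hPQ⟩ := key 0
    rw [h0, bot_sup_eq] at hPQ
    exact ⟨P, Q, hPQ⟩
  refine Fin.reverseInduction ?_ (fun i ih => ?_)
  · refine ⟨default, default, ?_⟩
    rw [hlast, top_sup_eq, Subgroup.normalizer_eq_top]; exact le_top
  obtain ⟨P, Q, hPQ⟩ := ih
  haveI := hnorm i.castSucc
  haveI := hnorm i.succ
  set π := QuotientGroup.mk' (H i.castSucc) with hπ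
  have hs : Function.Surjective π := QuotientGroup.mk'_surjective _
  have hle : H i.castSucc ≤ H i.succ := hmono (Fin.castSucc_le_succ i)
  haveI : ((H i.succ).map π).Normal := (hnorm i.succ).map π hs
  have hcard : Nat.card ((H i.succ).map π) = (H i.castSucc).relIndex (H i.succ) := CfsgLib.PSeries.card_map_mk _ _ hle
  obtain ⟨P', Q', hPQ'⟩ := step hpq ((H i.succ).map π) (P.mapSurjective hs) (Q.mapSurjective hs) (fun y hy hd => by
      rw [Sylow.coe_mapSurjective] at hy
      obtain ⟨x, hx, rfl⟩ := hy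
      obtain ⟨k, hk⟩ := IsPGroup.iff_orderOf.mp Q.2 ⟨x, hx⟩
      refine h x ⟨k, by rw [← hk, Subgroup.orderOf_mk]⟩ (hd.trans (Subgroup.index_dvd_of_le ?_ |>.trans (Subgroup.index_map_dvd _ hs)))
      rintro _ ⟨u, hu, rfl⟩
      exact Subgroup.mem_centralizer_singleton_iff.mpr (by rw [← map_mul, ← map_mul, Subgroup.mem_centralizer_singleton_iff.mp hu]))
    (by
      rw [Sylow.coe_mapSurjective, Sylow.coe_mapSurjective, ← Subgroup.map_sup]
      exact (Subgroup.map_mono hPQ).trans (Subgroup.le_normalizer_map π))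
    (by
      rcases hlayer i with ⟨m, hm⟩ | hco
      · rcases hr with rfl | rfl
        · refine Or.inr (Or.inr fun hd => ?_)
          rw [hcard, hm] at hd
          exact hpq ((Nat.prime_dvd_prime_iff_eq hq hp).mp (hq.dvd_of_dvd_pow hd)).symm
        · exact Or.inl (IsPGroup.of_card (n := m) (hcard.trans hm))
      · rcases hr with rfl | rfl
        · refine Or.inr (Or.inl fun hd => ?_)
          rw [hcard] at hd
          exact hp.one_lt.ne' (Nat.eq_one_of_dvd_coprimes hco hd dvd_rfl)
        · refine Or.inr (Or.inr fun hd => ?_)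
          rw [hcard] at hd
          exact hq.one_lt.ne' (Nat.eq_one_of_dvd_coprimes hco hd dvd_rfl))
  obtain ⟨a, ha⟩ := MulAction.exists_smul_eq (G ⧸ H i.castSucc) (P.mapSurjective hs) P'
  obtain ⟨b, hb⟩ := MulAction.exists_smul_eq (G ⧸ H i.castSucc) (Q.mapSurjective hs) Q'
  obtain ⟨a, rfl⟩ := hs a
  obtain ⟨b, rfl⟩ := hs b
  have himg : ∀ {r : ℕ} (S : Sylow r G) [Fact r.Prime] (c : G), ((π c • S.mapSurjective hs : Sylow r (G ⧸ H i.castSucc)) : Subgroup (G ⧸ H i.castSucc)) =
      ((c • S : Sylow r G) : Subgroup G).map π := by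
    intro r S _ c
    rw [Sylow.coe_subgroup_smul, Sylow.coe_mapSurjective, Sylow.coe_subgroup_smul]
    ext x
    simp only [Subgroup.mem_map, Subgroup.mem_smul_pointwise_iff_exists, MulAut.smul_def, MulAut.conj_apply]
    constructor
    · rintro ⟨_, ⟨u, hu, rfl⟩, rfl⟩; exact ⟨_, ⟨u, hu, rfl⟩, by simp⟩
    · rintro ⟨_, ⟨u, hu, rfl⟩, rfl⟩; exact ⟨_, ⟨u, hu, rfl⟩, by simp⟩
  refine ⟨a • P, b • Q, fun g hg => ?_⟩
  have h1 : π g ∈ Subgroup.normalizer ((((b • Q : Sylow q G) : Subgroup G).map π : Subgroup (G ⧸ H i.castSucc)) : Set (G ⧸ H i.castSucc)) := by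
    rw [← himg, hb]
    refine hPQ' ?_
    rw [← ha, himg]
    exact ⟨g, hg, rfl⟩
  have h2 : (((b • Q : Sylow q G) : Subgroup G).map π).comap π = H i.castSucc ⊔ ((b • Q : Sylow q G) : Subgroup G) := by
    rw [Subgroup.comap_map_eq, hπ, QuotientGroup.ker_mk', sup_comm]
  rw [← h2]
  exact Subgroup.le_normalizer_comap π h1



/-- Let p and q be primes and G a finite group that is p-solvable or q-solvable, in which no q-element has conjugacy class size divisible by p. Then some Sylow p-subgroup of G normalizes some Sylow q-subgroup of G. -/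
theorem result {G : Type*} [Group G] [Finite G] (p q : ℕ) [Fact p.Prime] [Fact q.Prime] (hsolv : Cfsg.IsPSolvable p G ∨ Cfsg.IsPSolvable q G)
    (h : ∀ y : G, (∃ k : ℕ, orderOf y = q ^ k) → ¬ p ∣ (Subgroup.centralizer ({y} : Set G)).index) :
    ∃ (P : Sylow p G) (Q : Sylow q G), (P : Subgroup G) ≤ Subgroup.normalizer ((Q : Subgroup G) : Set G) := by
  rcases eq_or_ne p q with rfl | hpq
  · exact ⟨default, default, Subgroup.le_normalizer⟩
  rcases hsolv with hs | hs
  · exact main hpq (Or.inl rfl) hs h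
  · exact main hpq (Or.inr rfl) hs h

end Cfsg.Agent.S4601
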