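import Cfsg.Statements.S4602
import Cfsg.Agent.Lib.PSolvable
import Cfsg.Agent.Lib.GroupB.Coprime
import Cfsg.Agent.Lib.Core
import Mathlib.GroupTheory.Sylow

set_option autoImplicit false
open Cfsg

namespace Cfsg.Agent.S4602

open scoped commutatorElement

/-- Let G be a finite p-solvable group and q a prime different from p. Some Sylow p-subgroup of G normalizes some Sylow q-subgroup of G if and only if q does not divide the order of G/O_{p'}(G), the quotient by the largest normal subgroup of order prime to p. -/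
theorem result {G : Type*} [Group G] [Finite G] (p q : ℕ) [Fact p.Prime] [Fact q.Prime] (hpq : p ≠ q) (hsolv : Cfsg.IsPSolvable p G) :
    (∃ (P : Sylow p G) (Q : Sylow q G), (P : Subgroup G) ≤ Subgroup.normalizer ((Q : Subgroup G) : Set G)) ↔ ¬ q ∣ (Cfsg.pPrimeCore p G).index := by
  have hp : p.Prime := Fact.out
  have hq : q.Prime := Fact.out
  haveI : (Cfsg.pPrimeCore p G).Normal := by
    haveI := CfsgLib.Core.pPrimeCore_characteristic (G := G) p
    infer_instance
  set K := Cfsg.pPrimeCore p G with hK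
  constructor
  · rintro ⟨P, Q, hPQ⟩ hdvd
    set π := QuotientGroup.mk' K
    have hπ : Function.Surjective π := QuotientGroup.mk'_surjective K
    have hch : CfsgLib.CharP.HasCharP p (G ⧸ K) :=
      CfsgLib.PSolvable.charP (CfsgLib.PSolvable.map π hπ hsolv) (CfsgLib.Core.pPrimeCore_quotient_eq_bot p)
    haveI := CfsgLib.Core.pCore_characteristic (G := G ⧸ K) p
    set O := Cfsg.pCore p (G ⧸ K) with hO
    have hQK : (Q : Subgroup G) ≤ K := by
      intro x hx
      rw [← QuotientGroup.eq_one_iff]
      have hxC : π x ∈ Subgroup.centralizer (O : Set (G ⧸ K)) := by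
        rw [Subgroup.mem_centralizer_iff]
        intro a ha
        have haP : a ∈ ((P.mapSurjective hπ : Sylow p (G ⧸ K)) : Subgroup (G ⧸ K)) :=
          CfsgLib.Core.pCore_le_sylow _ ha
        rw [Sylow.coe_mapSurjective] at haP
        obtain ⟨b, hb, rfl⟩ := haP
        have h1 : ⁅π x, π b⁆ ∈ O := by
          rw [commutatorElement_def]
          exact mul_mem ((inferInstance : O.Normal).conj_mem _ ha _) (inv_mem ha)
        have h2 : ⁅x, b⁆ ∈ (Q : Subgroup G) := by
          rw [commutatorElement_def, mul_assoc, mul_assoc]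
          refine mul_mem hx ?_
          rw [← mul_assoc]
          exact (Subgroup.mem_normalizer_iff.mp (hPQ hb) _).mp (inv_mem hx)
        obtain ⟨i, hi⟩ := IsPGroup.iff_orderOf.mp (CfsgLib.Core.isPGroup_pCore (G := G ⧸ K) p) ⟨_, h1⟩
        obtain ⟨j, hj⟩ := IsPGroup.iff_orderOf.mp Q.2 ⟨_, h2⟩
        rw [Subgroup.orderOf_mk] at hi hj
        have h3 : orderOf ⁅π x, π b⁆ ∣ q ^ j := by
          rw [← map_commutatorElement, ← hj]
          exact orderOf_map_dvd π _
        have h4 : ⁅π x, π b⁆ = 1 := orderOf_eq_one_iff.mp (Nat.eq_one_of_dvd_coprimes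
          (Nat.coprime_pow_primes i j hp hq hpq) (hi ▸ dvd_rfl) h3)
        exact (commutatorElement_eq_one_iff_mul_comm.mp h4).symm
      have hxO : π x ∈ O := hch hxC
      obtain ⟨i, hi⟩ := IsPGroup.iff_orderOf.mp (CfsgLib.Core.isPGroup_pCore (G := G ⧸ K) p) ⟨_, hxO⟩
      obtain ⟨j, hj⟩ := IsPGroup.iff_orderOf.mp Q.2 ⟨_, hx⟩
      rw [Subgroup.orderOf_mk] at hi hj
      exact orderOf_eq_one_iff.mp (Nat.eq_one_of_dvd_coprimes
        (Nat.coprime_pow_primes i j hp hq hpq) (hi ▸ dvd_rfl) (hj ▸ orderOf_map_dvd π x))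
    exact Q.not_dvd_index (hdvd.trans (Subgroup.index_dvd_of_le hQK))
  · intro hnd
    obtain ⟨P⟩ : Nonempty (Sylow p G) := inferInstance
    haveI : Group.IsNilpotent (P : Subgroup G) := P.2.isNilpotent
    obtain ⟨j, hj⟩ := P.2.exists_card_eq
    obtain ⟨⟨Q, hQ, hQP⟩, -⟩ := CfsgLib.GroupB.Coprime.invariant_sylow (G := K) (A := (P : Subgroup G))
      (by rw [Subgroup.normalizer_eq_top]; exact le_top)
      (by rw [hj]; exact ((CfsgLib.Core.card_pPrimeCore_coprime (G := G) p).symm).pow_left j)
      (Or.inr inferInstance) q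
    obtain ⟨S, hS⟩ := hQ.exists_sylow
    have hQp : IsPGroup q Q := hS ▸ S.2.map _
    have hQi : ¬ q ∣ Q.index := by
      intro h
      have hQK : Q ≤ K := hS ▸ Subgroup.map_subtype_le _
      rw [← Subgroup.relIndex_mul_index hQK] at h
      rcases hq.dvd_mul.mp h with h' | h'
      · apply S.not_dvd_index
        rw [← hS] at h'
        change q ∣ ((S : Subgroup K).map K.subtype).relIndex K at h'
        rwa [Subgroup.relIndex, Subgroup.subgroupOf, Subgroup.comap_map_eq_self_of_injective K.subtype_injective] at h'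
      · exact hnd h'
    exact ⟨P, hQp.toSylow hQi, by simpa using hQP⟩

end Cfsg.Agent.S4602
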