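import Cfsg.Statements.S4604
import Cfsg.Agent.Lib.Chars.PowerMap
import Cfsg.Agent.Lib.Chars.Linear
import Cfsg.Agent.Lib.Blocks.PPart
import Cfsg.Agent.Lib.Blocks.Local
import Mathlib.GroupTheory.Sylow
import Mathlib.Algebra.CharP.Quotient

set_option autoImplicit false
open Cfsg

namespace Cfsg.Agent.S4604

open CfsgLib.Chars CfsgLib.Blocks
open scoped ComplexConjugate

/-- The `p ^ a`-th power of a character value. -/
theorem congr_pow (p a : ℕ) [Fact p.Prime] {G : Type*} [Group G] [Finite G] {χ : G → ℂ}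
    (hχ : IsCharacter G χ) (g : G) :
    ∃ γ : Cfsg.AlgInt, χ g ^ (p ^ a) - χ (g ^ (p ^ a)) = (p : ℂ) * (γ : ℂ) := by
  classical
  have hp : p.Prime := Fact.out
  obtain ⟨l, hl, hsum⟩ := exists_list_eigen hχ g
  let L : List Cfsg.AlgInt := l.pmap (fun μ hμ => mkInt μ hμ)
    (fun μ hμ => isIntegral_of_pow_eq_one (orderOf_pos g) (hl μ hμ))
  let I : Ideal Cfsg.AlgInt := Ideal.span {(p : Cfsg.AlgInt)}
  haveI : CharP (Cfsg.AlgInt ⧸ I) p := CharP.quotient _ p (natCast_not_isUnit hp)
  haveI : ExpChar (Cfsg.AlgInt ⧸ I) p := ExpChar.prime hp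
  have hmem : L.sum ^ (p ^ a) - (L.map (fun μ => μ ^ (p ^ a))).sum ∈ I := by
    rw [← Ideal.Quotient.eq, map_pow, map_list_sum, map_list_sum, list_sum_pow_char_pow,
      List.map_map, List.map_map]
    rfl
  obtain ⟨γ, hγ⟩ := Ideal.mem_span_singleton'.mp hmem
  refine ⟨γ, ?_⟩
  have hv : ∀ k : ℕ, (((L.map (fun μ => μ ^ k)).sum : Cfsg.AlgInt) : ℂ) = χ (g ^ k) := by
    intro k
    rw [hsum k, AddSubmonoidClass.coe_list_sum, List.map_map]
    simp [L, List.map_pmap, List.pmap_eq_map, mkInt, Function.comp_def]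
  have hv1 : ((L.sum : Cfsg.AlgInt) : ℂ) = χ g := by simpa using hv 1
  have hB := hv (p ^ a)
  generalize L.sum = A at hγ hv1
  generalize (L.map fun μ => μ ^ (p ^ a)).sum = B at hγ hB
  have := congrArg (fun z : Cfsg.AlgInt => (z : ℂ)) hγ
  push_cast at this
  rw [hv1, hB] at this
  rw [← this, mul_comm]

theorem eq_of_pow_eq {G : Type*} [Group G] {z w : G} {q : ℕ}
    (hc : Nat.Coprime q (orderOf z * orderOf w)) (h : z ^ q = w ^ q) : z = w := by
  obtain ⟨α, β, hαβ⟩ := Nat.isCoprime_iff_coprime.mpr hc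
  have e : ∀ t : G, t ^ ((orderOf z * orderOf w : ℕ) : ℤ) = 1 → t = (t ^ q) ^ α := by
    intro t ht
    conv_lhs => rw [← zpow_one t, ← hαβ]
    rw [zpow_add, mul_comm β, zpow_mul, zpow_mul, ht, one_zpow, mul_one, ← zpow_natCast t q,
      ← zpow_mul, ← zpow_mul, mul_comm]
  rw [e z (by rw [zpow_natCast, pow_mul, pow_orderOf_eq_one, one_pow]),
    e w (by rw [zpow_natCast, mul_comm, pow_mul, pow_orderOf_eq_one, one_pow]), h]

/-- The average of a character over a translate of a subgroup by a commuting element. -/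
theorem avg_translate {G S : Type*} [Group G] [Finite G] [Group S] [Fintype S] {χ : G → ℂ}
    (hχ : IsCharacter G χ) (f : S →* G) {u : G} (hc : ∀ s, Commute u (f s)) :
    IsIntegral ℤ ((Nat.card S : ℂ)⁻¹ * ∑ s : S, χ (u * f s)) := by
  obtain ⟨n, ρ, rfl⟩ := hχ
  set A : G → Matrix (Fin n) (Fin n) ℂ := fun g => LinearMap.toMatrix' (ρ g)
  have hA : ∀ g h, A (g * h) = A g * A h := fun g h => by
    simp only [A, map_mul, Module.End.mul_eq_comp, LinearMap.toMatrix'_comp]
  set P := (Nat.card S : ℂ)⁻¹ • ∑ s : S, A (f s) with hP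
  have hAP : ∀ t : S, A (f t) * P = P := by
    intro t
    simp only [hP, Matrix.mul_smul, Finset.mul_sum, ← hA, ← map_mul]
    congr 1
    exact Equiv.sum_comp (Equiv.mulLeft t) fun s => A (f s)
  have hPP : P * P = P := by
    conv_lhs => arg 1; rw [hP]
    rw [Matrix.smul_mul, Finset.sum_mul, Finset.sum_congr rfl (fun g _ => hAP g), Finset.sum_const,
      Finset.card_univ, ← Nat.card_eq_fintype_card, ← Nat.cast_smul_eq_nsmul ℂ, smul_smul,
      inv_mul_cancel₀ (natCast_card_ne_zero S), one_smul]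
  have hcP : ∀ k : ℕ, P * A (u ^ k) = A (u ^ k) * P := by
    intro k
    simp only [hP, Matrix.smul_mul, Matrix.mul_smul, Finset.mul_sum, Finset.sum_mul, ← hA]
    congr 1
    exact Finset.sum_congr rfl fun s _ => by rw [((hc s).pow_left k).eq]
  have hT : ∀ k : ℕ, (A u * P) ^ (k + 1) = A (u ^ (k + 1)) * P := by
    intro k
    induction k with
    | zero => rw [pow_one, pow_one]
    | succ k ih =>
      rw [pow_succ, ih, ← mul_assoc, mul_assoc (A (u ^ (k + 1))), ← pow_one u, hcP, pow_one,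
        ← mul_assoc, ← hA, ← pow_succ, mul_assoc, hPP]
  have hper : (A u * P) ^ (orderOf u + 1) = A u * P := by
    rw [hT, pow_succ, pow_orderOf_eq_one, one_mul]
  have htr : (A u * P).trace = (Nat.card S : ℂ)⁻¹ * ∑ s : S, ρ.character (u * f s) := by
    simp only [hP, Matrix.mul_smul, Matrix.trace_smul, Finset.mul_sum, Matrix.trace_sum,
      smul_eq_mul, ← hA]
    refine Finset.sum_congr rfl fun s _ => ?_
    rw [Representation.character, LinearMap.trace_eq_matrix_trace ℂ (Pi.basisFun ℂ (Fin n)),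
      LinearMap.toMatrix_eq_toMatrix']
  rw [← htr]
  exact isIntegral_trace_of_pow_eq _ (orderOf_pos u) hper

/-- Regular elements with congruent character values are conjugate. -/
theorem isConj_of_congr (p : ℕ) [Fact p.Prime] {G : Type*} [Group G] [Fintype G] {u v : G}
    (hu : ¬ p ∣ orderOf u) (hv : ¬ p ∣ orderOf v)
    (h : ∀ χ : Cfsg.IrrCharacter G, IsIntegral ℤ (((χ : G → ℂ) u - (χ : G → ℂ) v) / (p : ℂ))) :
    IsConj u v := by
  classical
  have hp : p.Prime := Fact.out
  by_contra hne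
  set C := Subgroup.centralizer ({u} : Set G)
  obtain ⟨S⟩ : Nonempty (Sylow p C) := inferInstance
  set m := Nat.card (S : Subgroup C)
  have hm0 : (m : ℂ) ≠ 0 := Nat.cast_ne_zero.mpr Nat.card_pos.ne'
  haveI : Fintype (S : Subgroup C) := Fintype.ofFinite _
  have hcomm : ∀ s : (S : Subgroup C), Commute u ((s : C) : G) := fun s =>
    (Subgroup.mem_centralizer_singleton_iff.mp (s : C).2).symm
  let f : G → ℂ := fun g => (m : ℂ)⁻¹ *
    ∑ w : G, ∑ s : (S : Subgroup C), if w * g * w⁻¹ = u * ((s : C) : G) then 1 else 0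
  have hcl : IsClassFunction G f := by
    intro g k
    simp only [f]
    congr 1
    refine Fintype.sum_equiv (Equiv.mulRight k) _ _ fun w => ?_
    simp only [Equiv.coe_mulRight, mul_inv_rev, mul_assoc]
  have hreg : ∀ (g : G) (w : G) (s : (S : Subgroup C)), ¬ p ∣ orderOf g →
      w * g * w⁻¹ = u * ((s : C) : G) → (s : (S : Subgroup C)) = 1 ∧ w * g * w⁻¹ = u := by
    intro g w s hg he
    have ho : ¬ p ∣ orderOf (w * g * w⁻¹) := by
      rwa [show orderOf (w * g * w⁻¹) = orderOf g from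
        orderOf_injective (MulAut.conj w).toMonoidHom (MulEquiv.injective _) g]
    obtain ⟨k, hk⟩ := IsPGroup.iff_orderOf.mp S.isPGroup' s
    have hk' : orderOf ((s : C) : G) = p ^ k := by
      rw [Subgroup.orderOf_coe, Subgroup.orderOf_coe]; exact hk
    have h1 : IsPPart p (w * g * w⁻¹) ((s : C) : G) :=
      ⟨u, by rw [he, (hcomm s).eq], (hcomm s).symm, ⟨k, hk'⟩, hu⟩
    have h2 : IsPPart p (w * g * w⁻¹) 1 :=
      ⟨_, one_mul _, Commute.one_left _, ⟨0, by simp⟩, ho⟩
    have hs : ((s : C) : G) = 1 := isPPart_unique hp h1 h2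
    exact ⟨Subtype.ext (Subtype.ext hs), by rw [he, hs, mul_one]⟩
  have hfv : f v = 0 := by
    refine mul_eq_zero_of_right _ (Finset.sum_eq_zero fun w _ => Finset.sum_eq_zero fun s _ => ?_)
    rw [if_neg]
    intro he
    exact hne (isConj_iff.mpr ⟨w, (hreg v w s hv he).2⟩).symm
  obtain ⟨n, hn, hfu⟩ : ∃ n : ℕ, ¬ p ∣ n ∧ f u = (n : ℂ) := by
    refine ⟨Nat.card C / m, ?_, ?_⟩
    · have : m = p ^ (Nat.card C).factorization p := S.card_eq_multiplicity
      rw [this]
      exact Nat.not_dvd_ordCompl hp Nat.card_pos.ne'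
    · have hd : m ∣ Nat.card C := Subgroup.card_subgroup_dvd_card _
      have e : ∑ w : G, ∑ s : (S : Subgroup C),
          (if w * u * w⁻¹ = u * ((s : C) : G) then (1 : ℂ) else 0) = (Nat.card C : ℂ) := by
        have : ∀ w : G, ∑ s : (S : Subgroup C),
            (if w * u * w⁻¹ = u * ((s : C) : G) then (1 : ℂ) else 0) =
            if w ∈ C then 1 else 0 := by
          intro w
          rw [Finset.sum_eq_single (1 : (S : Subgroup C))]
          · refine if_congr ?_ rfl rfl
            simp [C, Subgroup.mem_centralizer_singleton_iff, mul_inv_eq_iff_eq_mul]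
          · intro s _ hs
            rw [if_neg fun he => hs (hreg u w s hu he).1]
          · simp
        rw [Finset.sum_congr rfl fun w _ => this w, Finset.sum_boole, Nat.card_eq_fintype_card,
          Fintype.card_subtype]
      simp only [f]
      rw [e, Nat.cast_div hd hm0, inv_mul_eq_div]
  have hint : ∀ χ : Cfsg.IrrCharacter G, IsIntegral ℤ (classInner f (χ : G → ℂ)) := by
    intro χ
    have e : classInner f (χ : G → ℂ) = (m : ℂ)⁻¹ *
        ∑ s : (S : Subgroup C), conj ((χ : G → ℂ) (u * ((s : C) : G))) := by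
      have e0 : ∀ g : G, f g * conj ((χ : G → ℂ) g) = (m : ℂ)⁻¹ * ∑ w : G, ∑ s : (S : Subgroup C),
          (if w * g * w⁻¹ = u * ((s : C) : G) then (1 : ℂ) else 0) * conj ((χ : G → ℂ) g) :=
        fun g => by simp only [f, mul_assoc (m : ℂ)⁻¹, Finset.sum_mul]
      rw [classInner, Finset.sum_congr rfl fun g _ => e0 g, ← Finset.mul_sum,
        mul_left_comm (Nat.card G : ℂ)⁻¹]
      congr 1
      rw [Finset.sum_comm, Finset.sum_congr rfl fun w _ => Finset.sum_comm]
      have : ∀ w : G, ∑ s : (S : Subgroup C), ∑ g : G,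
          (if w * g * w⁻¹ = u * ((s : C) : G) then (1 : ℂ) else 0) * conj ((χ : G → ℂ) g) =
          ∑ s : (S : Subgroup C), conj ((χ : G → ℂ) (u * ((s : C) : G))) := by
        intro w
        refine Finset.sum_congr rfl fun s _ => ?_
        rw [Finset.sum_eq_single (w⁻¹ * (u * ((s : C) : G)) * w)]
        · rw [if_pos (by group), one_mul, ← IsCharacter.isClassFunction (isCharacter_irr χ) _ w]
          congr 2
          group
        · intro g _ hg
          rw [if_neg fun he => hg (by rw [← he]; group), zero_mul]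
        · simp
      rw [Finset.sum_congr rfl fun w _ => this w, Finset.sum_const, Finset.card_univ,
        ← Nat.card_eq_fintype_card, nsmul_eq_mul,
        inv_mul_cancel_left₀ (natCast_card_ne_zero G)]
    rw [e]
    exact avg_translate (IsIrrCharacter.isCharacter (isIrrCharacter_conj χ))
      (C.subtype.comp (S : Subgroup C).subtype) hcomm
  have hkey : IsIntegral ℤ ((f u - f v) / (p : ℂ)) := by
    rw [classFunction_expand hcl u, classFunction_expand hcl v, ← Finset.sum_sub_distrib,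
      Finset.sum_div]
    refine IsIntegral.sum _ fun χ _ => ?_
    rw [← mul_sub, mul_div_assoc]
    exact (hint χ).mul (h χ)
  rw [hfu, hfv, sub_zero] at hkey
  exact hn (exists_int_of_isIntegral_div hp.ne_zero hkey)

/-- Let G be a finite group, p a prime and p^a the p-part of the order of G. Let x, y ∈ G and let x′, y′ be their p-regular parts: x′ has order prime to p, commutes with x·x′⁻¹, and x·x′⁻¹ has p-power order (likewise for y). Then x′ and y′ are conjugate in G if and only if for every irreducible character χ of G the algebraic integer χ(x)^(p^a) − χ(y)^(p^a) is p times an algebraic integer. -/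
theorem result {G : Type*} [Group G] [Finite G] (p : ℕ) [Fact p.Prime] (x y x' y' : G)
    (hx : (∃ k : ℕ, orderOf (x * x'⁻¹) = p ^ k) ∧ Commute (x * x'⁻¹) x' ∧ ¬ p ∣ orderOf x')
    (hy : (∃ k : ℕ, orderOf (y * y'⁻¹) = p ^ k) ∧ Commute (y * y'⁻¹) y' ∧ ¬ p ∣ orderOf y') :
    IsConj x' y' ↔ ∀ χ : Cfsg.IrrCharacter G, ∃ γ : Cfsg.AlgInt,
      (χ : G → ℂ) x ^ (p ^ (Nat.card G).factorization p) - (χ : G → ℂ) y ^ (p ^ (Nat.card G).factorization p) = (p : ℂ) * (γ : ℂ) := by
  classical
  haveI := Fintype.ofFinite G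
  have hp : p.Prime := Fact.out
  set a := (Nat.card G).factorization p
  set q := p ^ a
  have hpow : ∀ (z z' : G), ((∃ k : ℕ, orderOf (z * z'⁻¹) = p ^ k) ∧ Commute (z * z'⁻¹) z') →
      z ^ q = z' ^ q := by
    rintro z z' ⟨⟨k, hk⟩, hc⟩
    have h1 : (z * z'⁻¹) ^ q = 1 := by
      apply orderOf_dvd_iff_pow_eq_one.mp
      have := orderOf_dvd_natCard (z * z'⁻¹)
      rw [hk] at this ⊢
      exact pow_dvd_pow p ((hp.pow_dvd_iff_le_factorization Nat.card_pos.ne').mp this)
    conv_lhs => rw [show z = z * z'⁻¹ * z' by group, hc.mul_pow, h1, one_mul]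
  have hxq := hpow x x' ⟨hx.1, hx.2.1⟩
  have hyq := hpow y y' ⟨hy.1, hy.2.1⟩
  constructor
  · intro hc χ
    obtain ⟨γx, hγx⟩ := congr_pow p a (isCharacter_irr χ) x
    obtain ⟨γy, hγy⟩ := congr_pow p a (isCharacter_irr χ) y
    refine ⟨γx - γy, ?_⟩
    have e : (χ : G → ℂ) (x ^ q) = (χ : G → ℂ) (y ^ q) := by
      rw [hxq, hyq]
      obtain ⟨c, rfl⟩ := isConj_iff.mp hc
      rw [conj_pow, IsCharacter.isClassFunction (isCharacter_irr χ)]
    push_cast
    linear_combination hγx - hγy + e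
  · intro h
    have hval : ∀ χ : Cfsg.IrrCharacter G, IsIntegral ℤ
        (((χ : G → ℂ) (x' ^ q) - (χ : G → ℂ) (y' ^ q)) / (p : ℂ)) := by
      intro χ
      obtain ⟨γ, hγ⟩ := h χ
      obtain ⟨γx, hγx⟩ := congr_pow p a (isCharacter_irr χ) x
      obtain ⟨γy, hγy⟩ := congr_pow p a (isCharacter_irr χ) y
      have e : ((χ : G → ℂ) (x' ^ q) - (χ : G → ℂ) (y' ^ q)) / (p : ℂ) =
          ((γ - γx + γy : Cfsg.AlgInt) : ℂ) := by
        rw [div_eq_iff (Nat.cast_ne_zero.mpr hp.ne_zero)]
        push_cast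
        rw [← hxq, ← hyq]
        linear_combination hγ - hγx + hγy
      rw [e]
      exact (γ - γx + γy : Cfsg.AlgInt).2
    have hco : ∀ z : G, ¬ p ∣ orderOf z → Nat.Coprime q (orderOf z) := fun z hz =>
      Nat.Coprime.pow_left _ ((Nat.Prime.coprime_iff_not_dvd hp).mpr hz)
    have hord : ∀ z : G, ¬ p ∣ orderOf z → ¬ p ∣ orderOf (z ^ q) := fun z hz => by
      rwa [(hco z hz).symm.orderOf_pow]
    have hc := isConj_of_congr p (hord x' hx.2.2) (hord y' hy.2.2) hval
    obtain ⟨c, hc⟩ := isConj_iff.mp hc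
    rw [← conj_pow] at hc
    refine isConj_iff.mpr ⟨c, ?_⟩
    have ho : orderOf (c * x' * c⁻¹) = orderOf x' :=
      orderOf_injective (MulAut.conj c).toMonoidHom (MulEquiv.injective _) x'
    exact eq_of_pow_eq ((hco _ (ho ▸ hx.2.2)).mul_right (hco _ hy.2.2)) hc

end Cfsg.Agent.S4604
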