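import Cfsg.Statements.S4611
import Cfsg.Agent.S0915
import Cfsg.Agent.Lib.ExponentSix
import Cfsg.Agent.Lib.Core
import Cfsg.Agent.Lib.Blocks.PrincipalSection
import Cfsg.Agent.Lib.Chars.Linear
import Cfsg.Agent.Lib.Chars.Kernel
import Cfsg.Agent.Lib.InducedCoherence

set_option autoImplicit false
open Cfsg

namespace Cfsg.Agent.S4611

open CfsgLib.Chars CfsgLib.Blocks

set_option maxHeartbeats 200000

universe u

theorem inflate_sameBlock {G : Type u} [Group G] [Finite G] {p : ℕ} {M : Ideal AlgInt}
    (hM : IsPModular p M) (N : Subgroup G) [N.Normal] {χ ψ : G ⧸ N → ℂ}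
    (h : SameBlock M χ ψ) : SameBlock M (χ ∘ QuotientGroup.mk) (ψ ∘ QuotientGroup.mk) := by
  intro g
  have hdvd : (Subgroup.centralizer ({(g : G ⧸ N)} : Set (G ⧸ N))).index ∣
      (Subgroup.centralizer ({g} : Set G)).index := by
    refine (Subgroup.index_dvd_of_le ?_).trans
      (Subgroup.index_map_dvd (f := QuotientGroup.mk' N) _ (QuotientGroup.mk'_surjective N))
    rintro _ ⟨c, hc, rfl⟩
    have hc' := Subgroup.mem_centralizer_singleton_iff.mp hc
    rw [Subgroup.mem_centralizer_singleton_iff]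
    simp only [QuotientGroup.mk'_apply, ← QuotientGroup.mk_mul, hc']
  obtain ⟨c, hc⟩ := hdvd
  have e : ∀ φ : G ⧸ N → ℂ, centralChar (φ ∘ QuotientGroup.mk) g = (c : ℂ) * centralChar φ (g : G ⧸ N) := by
    intro φ
    simp only [centralChar, Function.comp_apply, QuotientGroup.mk_one, hc, Nat.cast_mul]
    ring
  rw [e, e, ← mul_sub]
  exact mli_mul_left hM (mlr_natCast hM c) (h (g : G ⧸ N))

theorem mem_principal_of_core {G : Type u} [Group G] [Finite G] [Group.IsSolvable G] {p : ℕ}
    {M : Ideal AlgInt} (hM : IsPModular p M) (χ : IrrCharacter G)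
    (hχ : ∀ n ∈ pPrimeCore p G, (χ : G → ℂ) n = (χ : G → ℂ) 1) : χ ∈ principalBlock M G := by
  haveI : Fact p.Prime := ⟨hM.1⟩
  haveI := CfsgLib.Core.pPrimeCore_characteristic (G := G) p
  obtain ⟨ψ, hψ⟩ := exists_deflate (pPrimeCore p G) χ hχ
  have h := inflate_sameBlock hM (pPrimeCore p G) (Cfsg.Agent.S0915.result p M hM
    (CfsgLib.ExponentSix.isPSolvable_of_isSolvable p) (CfsgLib.Core.pPrimeCore_quotient_eq_bot p)
    (trivIrr (G ⧸ pPrimeCore p G)) ψ)
  rw [← hψ] at h
  exact h

/-- Let G be a finite solvable group and π a nonempty set of primes, each dividing the order of G; fix for each p in π a maximal ideal M p of the algebraic integers containing p. Then the only irreducible character lying in the principal p-block for every p in π is the principal character if and only if G is generated by the subgroups O_{p'}(G), p in π (the largest normal subgroups of order prime to p). -/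
theorem result {G : Type*} [Group G] [Finite G] [Group.IsSolvable G] (π : Set ℕ) (hπ : ∀ p ∈ π, p.Prime ∧ p ∣ Nat.card G) (hne : π.Nonempty) (M : ℕ → Ideal Cfsg.AlgInt) (hM : ∀ p ∈ π, Cfsg.IsPModular p (M p)) :
    (∀ χ : Cfsg.IrrCharacter G, (∀ p ∈ π, χ ∈ Cfsg.principalBlock (M p) G) → (χ : G → ℂ) = fun _ => 1) ↔
      ⨆ p ∈ π, Cfsg.pPrimeCore p G = ⊤ := by
  classical
  haveI := Fintype.ofFinite G
  set K := ⨆ p ∈ π, Cfsg.pPrimeCore p G with hK
  have hle : ∀ p ∈ π, Cfsg.pPrimeCore p G ≤ K := fun p hp => le_iSup₂ (f := fun p (_ : p ∈ π) => Cfsg.pPrimeCore p G) p hp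
  constructor
  · intro h
    by_contra hne
    haveI : ∀ p : ℕ, (Cfsg.pPrimeCore p G).Characteristic := fun p =>
      CfsgLib.Core.pPrimeCore_characteristic p
    haveI hKn : K.Normal := by
      rw [hK]
      exact Subgroup.biSup_normal π (fun p => Cfsg.pPrimeCore p G) fun p _ => Subgroup.normal_of_characteristic _
    haveI : Nontrivial (G ⧸ K) := QuotientGroup.nontrivial_iff.mpr hne
    obtain ⟨a, ha, hane⟩ := CfsgLib.InducedCoherence.exists_linear_ne_one (G := G ⧸ K)
    obtain ⟨f, rfl⟩ := exists_homIrr a ha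
    have hf : f ≠ 1 := by
      rintro rfl
      exact hane (funext fun q => by simp [homIrr])
    obtain ⟨q, hq⟩ : ∃ q, f q ≠ 1 := by
      by_contra hc
      push Not at hc
      exact hf (MonoidHom.ext hc)
    obtain ⟨g, rfl⟩ := QuotientGroup.mk_surjective q
    let χ := homIrr (f.comp (QuotientGroup.mk' K))
    have hχ := h χ fun p hp => by
      refine mem_principal_of_core (hM p hp) χ fun n hn => ?_
      show ((f (QuotientGroup.mk n) : ℂˣ) : ℂ) = ((f (QuotientGroup.mk (1 : G)) : ℂˣ) : ℂ)
      rw [(QuotientGroup.eq_one_iff n).mpr (hle p hp hn), QuotientGroup.mk_one]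
    exact hq (Units.ext (congrFun hχ g))
  · intro hK' χ hχ
    let C : Subgroup G :=
      { carrier := {n | ∀ a, (χ : G → ℂ) (n * a) = (χ : G → ℂ) a}
        one_mem' := fun a => by rw [one_mul]
        mul_mem' := fun {a b} ha hb c => by rw [mul_assoc, ha, hb]
        inv_mem' := fun {a} ha c => by
          have := ha (a⁻¹ * c)
          rwa [mul_inv_cancel_left, eq_comm] at this }
    have hKC : K ≤ C := iSup₂_le fun p hp n hn a => by
      haveI := CfsgLib.Core.pPrimeCore_characteristic (G := G) p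
      exact principal_apply_mul (hM p hp) (hχ p hp) (Cfsg.pPrimeCore p G)
        (CfsgLib.Core.card_pPrimeCore_coprime p) hn a
    have hconst : ∀ g, (χ : G → ℂ) g = (χ : G → ℂ) 1 := fun g => by
      have h := (hKC (hK' ▸ Subgroup.mem_top g)) 1
      rwa [mul_one] at h
    have h1 := classInner_irr χ χ
    rw [if_pos rfl, Cfsg.classInner] at h1
    simp only [hconst _, irr_apply_one, map_natCast, Finset.sum_const, Finset.card_univ, nsmul_eq_mul,
      ← Nat.card_eq_fintype_card] at h1
    rw [inv_mul_cancel_left₀ (natCast_card_ne_zero G)] at h1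
    have hd : Cfsg.charDegree (χ : G → ℂ) = 1 := by
      have : Cfsg.charDegree (χ : G → ℂ) * Cfsg.charDegree (χ : G → ℂ) = 1 := by exact_mod_cast h1
      exact Nat.eq_one_of_mul_eq_one_right this
    funext g
    rw [hconst g, irr_apply_one, hd, Nat.cast_one]

end Cfsg.Agent.S4611
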