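import Cfsg.Statements.S4619
import Mathlib.GroupTheory.Sylow

set_option autoImplicit false
open scoped Pointwise
open Cfsg

namespace Cfsg.Agent.S4619

/-- Let P be a Sylow p-subgroup of the finite group G that is a trivial-intersection set: P meets each conjugate g P g⁻¹ with g outside N_G(P) trivially. Then for every nontrivial subgroup Q of P the normalizer of Q lies in the normalizer of P, and any g ∈ G conjugating Q into P lies in N_G(P). -/
theorem result {G : Type*} [Group G] [Finite G] (p : ℕ) [Fact p.Prime] (P : Sylow p G) (hTI : (∀ g : G, g ∉ Subgroup.normalizer ((P : Subgroup G) : Set G) → (P : Subgroup G) ⊓ (MulAut.conj g • (P : Subgroup G)) = ⊥)) (Q : Subgroup G) (hQ : Q ≤ (P : Subgroup G)) (hQ1 : Q ≠ ⊥) :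
    Subgroup.normalizer (Q : Set G) ≤ Subgroup.normalizer ((P : Subgroup G) : Set G) ∧
      ∀ g : G, MulAut.conj g • Q ≤ (P : Subgroup G) → g ∈ Subgroup.normalizer ((P : Subgroup G) : Set G) := by
  have key : ∀ (R : Subgroup G) (g : G), R ≤ (P : Subgroup G) → R ≠ ⊥ →
      R ≤ MulAut.conj g • (P : Subgroup G) → g ∈ Subgroup.normalizer ((P : Subgroup G) : Set G) := by
    intro R g h1 h2 h3
    by_contra hg
    exact h2 (le_bot_iff.mp ((le_inf h1 h3).trans_eq (hTI g hg)))
  have hne : ∀ g : G, MulAut.conj g • Q ≠ ⊥ := fun g h => hQ1 (by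
    have h' := congrArg (fun R : Subgroup G => (MulAut.conj g)⁻¹ • R) h
    simpa using h')
  refine ⟨fun n hn => key (MulAut.conj n • Q) n ?_ (hne n) ?_, fun g hg => key _ g hg (hne g) ?_⟩
  · rintro _ ⟨q, hq, rfl⟩
    exact hQ ((Subgroup.mem_normalizer_iff.mp hn q).mp hq)
  · rintro _ ⟨q, hq, rfl⟩
    exact ⟨q, hQ hq, rfl⟩
  · rintro _ ⟨q, hq, rfl⟩
    exact ⟨q, hQ hq, rfl⟩

end Cfsg.Agent.S4619
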