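import Cfsg.Statements.S4620
import Cfsg.Agent.Lib.Core

set_option autoImplicit false
open scoped Pointwise
open Cfsg

namespace Cfsg.Agent.S4620

open CfsgLib CfsgLib.Core
open scoped Pointwise

universe u

variable {H : Type u} [Group H] [Finite H] {p : ℕ} [Fact p.Prime]

/-- Trivial intersection Sylow subgroups. -/
def TI (P : Sylow p H) : Prop :=
  ∀ g : H, g ∉ Subgroup.normalizer ((P : Subgroup H) : Set H) →
    (P : Subgroup H) ⊓ (MulAut.conj g • (P : Subgroup H)) = ⊥

theorem mem_sylow_of_normalizes (P : Sylow p H) {y : H}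
    (hy : y ∈ Subgroup.normalizer ((P : Subgroup H) : Set H)) (hyo : orderOf y = p) :
    y ∈ (P : Subgroup H) := by
  have h1 : IsPGroup p (Subgroup.zpowers y) :=
    IsPGroup.of_card (n := 1) (by rw [Nat.card_zpowers, hyo, pow_one])
  have h2 : IsPGroup p ((P : Subgroup H) ⊔ Subgroup.zpowers y : Subgroup H) :=
    IsPGroup.to_sup_of_normal_left' P.2 h1 (Subgroup.zpowers_le.mpr hy)
  rw [← P.3 h2 le_sup_left]
  exact Subgroup.mem_sup_right (Subgroup.mem_zpowers y)

theorem cores_normal (hOp : pCore p H = ⊥) (hOp' : pPrimeCore p H = ⊥) (N : Subgroup H) [N.Normal] :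
    pCore p N = ⊥ ∧ pPrimeCore p N = ⊥ := by
  constructor
  · exact (Subgroup.map_eq_bot_iff_of_injective _ N.subtype_injective).mp
      (le_bot_iff.mp (hOp ▸ pCore_subgroup_map_le p N))
  · exact (Subgroup.map_eq_bot_iff_of_injective _ N.subtype_injective).mp
      (le_bot_iff.mp (hOp' ▸ pPrimeCore_subgroup_map_le p N))

theorem exists_order_p (hOp' : pPrimeCore p H = ⊥) (A : Subgroup H) [hA : A.Normal] (hA1 : A ≠ ⊥) :
    ∃ a ∈ A, orderOf a = p := by
  have hdvd : p ∣ Nat.card A := by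
    by_contra h
    exact hA1 (le_bot_iff.mp (hOp' ▸ le_pPrimeCore hA
      ((Fact.out : p.Prime).coprime_iff_not_dvd.mpr h).symm))
  obtain ⟨a, ha⟩ := exists_prime_orderOf_dvd_card' p hdvd
  exact ⟨a, a.2, by rw [Subgroup.orderOf_coe, ha]⟩

theorem no_disjoint (hOp : pCore p H = ⊥) (hOp' : pPrimeCore p H = ⊥) (P : Sylow p H) (hTI : TI P)
    (A B : Subgroup H) [A.Normal] [B.Normal] (hAB : A ⊓ B = ⊥) (hA1 : A ≠ ⊥) (hB1 : B ≠ ⊥) : False := by
  obtain ⟨a, haA, hao⟩ := exists_order_p hOp' A hA1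
  obtain ⟨R, hR⟩ := (IsPGroup.of_card (p := p) (n := 1) (G := Subgroup.zpowers a)
    (by rw [Nat.card_zpowers, hao, pow_one])).exists_le_sylow
  obtain ⟨g, hg⟩ := MulAction.exists_smul_eq H R P
  set x := g * a * g⁻¹
  have hxA : x ∈ A := (inferInstance : A.Normal).conj_mem a haA g
  have hxP : x ∈ (P : Subgroup H) := by
    rw [← hg]
    exact Subgroup.smul_mem_pointwise_smul _ _ _ (hR (Subgroup.mem_zpowers a))
  have hx1 : x ≠ 1 := by
    intro h
    have ha : a = 1 := by simpa [x] using h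
    rw [ha, orderOf_one] at hao
    exact (Fact.out : p.Prime).one_lt.ne hao
  have hBN : B ≤ Subgroup.normalizer ((P : Subgroup H) : Set H) := by
    intro b hb
    by_contra hbN
    have hbx : Commute x b := Subgroup.commute_of_normal_of_disjoint A B inferInstance inferInstance
      (disjoint_iff.mpr hAB) x b hxA hb
    refine hx1 (Subgroup.mem_bot.mp (hTI b hbN ▸ Subgroup.mem_inf.mpr ⟨hxP, ?_⟩))
    rw [Subgroup.mem_pointwise_smul_iff_inv_smul_mem, MulAut.smul_def, MulAut.conj_inv_apply,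
      mul_assoc, hbx.eq, inv_mul_cancel_left]
    exact hxP
  obtain ⟨y, hyB, hyo⟩ := exists_order_p hOp' B hB1
  set C := (P : Subgroup H).subgroupOf B
  haveI : C.Normal := Subgroup.normal_subgroupOf_of_le_normalizer hBN
  have hC : IsPGroup p C := P.2.comap_subtype
  have h1 : (⟨y, hyB⟩ : B) ∈ pCore p B := le_pCore inferInstance hC
    (Subgroup.mem_subgroupOf.mpr (mem_sylow_of_normalizes P (hBN hyB) hyo))
  rw [(cores_normal hOp hOp' B).1, Subgroup.mem_bot] at h1
  have hy1 : y = 1 := congrArg Subtype.val h1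
  rw [hy1, orderOf_one] at hyo
  exact (Fact.out : p.Prime).one_lt.ne hyo

theorem ti_normal (P : Sylow p H) (hTI : TI P) (N : Subgroup H) [N.Normal] (Q : Sylow p N) : TI Q := by
  obtain ⟨R, hR⟩ := (Q.2.map N.subtype).exists_le_sylow
  obtain ⟨a, ha⟩ := MulAction.exists_smul_eq H P R
  have hmax : ∀ q : N, q ∈ (Q : Subgroup N) ↔ (q : H) ∈ (R : Subgroup H) := by
    intro q
    refine ⟨fun h => hR ⟨q, h, rfl⟩, fun h => ?_⟩
    have e := Q.3 (Q := (R : Subgroup H).subgroupOf N) R.2.comap_subtype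
      (fun z hz => Subgroup.mem_subgroupOf.mpr (hR ⟨z, hz, rfl⟩))
    rw [← e]
    exact Subgroup.mem_subgroupOf.mpr h
  intro n hn
  rw [eq_bot_iff]
  intro q hq
  obtain ⟨hq1, hq2⟩ := Subgroup.mem_inf.mp hq
  rw [Subgroup.mem_pointwise_smul_iff_inv_smul_mem, MulAut.smul_def, MulAut.conj_inv_apply] at hq2
  have hnR : (n : H) ∉ Subgroup.normalizer ((R : Subgroup H) : Set H) := by
    intro h
    refine hn (Subgroup.mem_normalizer_iff.mpr fun z => ?_)
    rw [hmax, hmax]
    exact Subgroup.mem_normalizer_iff.mp h z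
  have hRTI : ∀ g : H, g ∉ Subgroup.normalizer ((R : Subgroup H) : Set H) → ∀ z ∈ (R : Subgroup H),
      g⁻¹ * z * g ∈ (R : Subgroup H) → z = 1 := by
    intro g hg z hz hgz
    have hm : ∀ w, w ∈ (R : Subgroup H) ↔ a⁻¹ * w * a ∈ (P : Subgroup H) := fun w => by
      rw [← ha, Sylow.coe_subgroup_smul, Subgroup.mem_pointwise_smul_iff_inv_smul_mem,
        MulAut.smul_def, MulAut.conj_inv_apply]
    have hg' : a⁻¹ * g * a ∉ Subgroup.normalizer ((P : Subgroup H) : Set H) := by
      intro h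
      refine hg (Subgroup.mem_normalizer_iff.mpr fun w => ?_)
      rw [hm, hm, Subgroup.mem_normalizer_iff.mp h (a⁻¹ * w * a)]
      refine Iff.of_eq (congrArg (fun v => v ∈ (P : Subgroup H)) ?_)
      group
    have h0 : a⁻¹ * z * a = 1 := by
      refine Subgroup.mem_bot.mp (hTI _ hg' ▸ Subgroup.mem_inf.mpr ⟨(hm z).mp hz, ?_⟩)
      rw [Subgroup.mem_pointwise_smul_iff_inv_smul_mem, MulAut.smul_def, MulAut.conj_inv_apply]
      convert (hm _).mp hgz using 1
      group
    simpa [mul_assoc] using congrArg (fun w => a * w * a⁻¹) h0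
  refine Subgroup.mem_bot.mpr (Subtype.ext (hRTI n hnR q ((hmax q).mp hq1) ?_))
  exact (hmax _).mp hq2

theorem eq_top_of_minimal (hOp : pCore p H = ⊥) (hOp' : pPrimeCore p H = ⊥) (P : Sylow p H) (hTI : TI P)
    (N : Subgroup H) [N.Normal] (hmin : ∀ K : Subgroup H, K.Normal → K ≤ N → K = ⊥ ∨ K = N)
    (T : Subgroup N) [T.Normal] (hT1 : T ≠ ⊥)
    (hTmin : ∀ K : Subgroup N, K.Normal → K ≤ T → K = ⊥ ∨ K = T) : T = ⊤ := by
  by_contra hT
  obtain ⟨h, hh⟩ : ∃ h : H, T.map (MulAut.conjNormal h).toMonoidHom ≠ T := by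
    by_contra hall
    push Not at hall
    haveI hn : (T.map N.subtype).Normal := by
      constructor
      rintro _ ⟨t, ht, rfl⟩ g
      refine ⟨MulAut.conjNormal g t, ?_, MulAut.conjNormal_apply g t⟩
      rw [← hall g]
      exact ⟨t, ht, rfl⟩
    rcases hmin _ hn (Subgroup.map_subtype_le T) with h | h
    · exact hT1 ((Subgroup.map_eq_bot_iff_of_injective _ N.subtype_injective).mp h)
    · refine hT (Subgroup.map_injective N.subtype_injective ?_)
      rw [h, ← MonoidHom.range_eq_map, Subgroup.range_subtype]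
  set T' := T.map (MulAut.conjNormal h).toMonoidHom
  haveI : T'.Normal := (inferInstance : T.Normal).map _ (MulEquiv.surjective _)
  have hcard : Nat.card T' = Nat.card T :=
    Nat.card_congr (T.equivMapOfInjective _ (MulEquiv.injective _)).toEquiv.symm
  obtain ⟨hOpN, hOpN'⟩ := cores_normal hOp hOp' N
  obtain ⟨Q⟩ : Nonempty (Sylow p N) := inferInstance
  rcases hTmin (T ⊓ T') inferInstance inf_le_left with h' | h'
  · exact no_disjoint hOpN hOpN' Q (ti_normal P hTI N Q) T T' h' hT1 fun e => hT1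
      ((Subgroup.map_eq_bot_iff_of_injective _ (MulEquiv.injective _)).mp e)
  · exact hh (Subgroup.eq_of_le_of_card_ge (inf_eq_left.mp h') hcard.le).symm

/-- Let H be a finite group with no nontrivial normal p-subgroup and no nontrivial normal subgroup of order prime to p, whose Sylow p-subgroup P is nontrivial and a trivial-intersection set (P meets its conjugates by elements outside N_H(P) trivially). Then H has a unique minimal normal subgroup N; N is non-abelian simple with trivial centralizer in H (so H embeds in Aut(N)), and a Sylow p-subgroup of N is again a nontrivial trivial-intersection set in N. -/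
theorem result {H : Type*} [Group H] [Finite H] (p : ℕ) [Fact p.Prime] (hOp : Cfsg.pCore p H = ⊥) (hOp' : Cfsg.pPrimeCore p H = ⊥) (P : Sylow p H) (hP1 : (P : Subgroup H) ≠ ⊥)
    (hTI : ∀ g : H, g ∉ Subgroup.normalizer ((P : Subgroup H) : Set H) → (P : Subgroup H) ⊓ (MulAut.conj g • (P : Subgroup H)) = ⊥) :
    ∃ N : Subgroup H, N.Normal ∧ N ≠ ⊥ ∧ (∀ K : Subgroup H, K.Normal → K ≠ ⊥ → N ≤ K) ∧
      IsSimpleGroup N ∧ ¬ IsMulCommutative N ∧ Subgroup.centralizer (N : Set H) = ⊥ ∧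
      ∀ Q : Sylow p N, (Q : Subgroup N) ≠ ⊥ ∧
        ∀ n : N, n ∉ Subgroup.normalizer ((Q : Subgroup N) : Set N) → (Q : Subgroup N) ⊓ (MulAut.conj n • (Q : Subgroup N)) = ⊥ := by
  classical
  have hH1 : (⊤ : Subgroup H) ≠ ⊥ := fun e => hP1 (le_bot_iff.mp (le_top.trans e.le))
  let S : Set (Subgroup H) := {K | K.Normal ∧ K ≠ ⊥}
  obtain ⟨N, ⟨hN, hN1⟩, hNmin⟩ := Set.Finite.exists_minimalFor (fun K : Subgroup H => K) S
    (Set.toFinite _) ⟨⊤, inferInstance, hH1⟩
  haveI := hN
  have hmin : ∀ K : Subgroup H, K.Normal → K ≤ N → K = ⊥ ∨ K = N := fun K hK hle =>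
    or_iff_not_imp_left.mpr fun h => le_antisymm hle (hNmin (j := K) ⟨hK, h⟩ hle)
  have hnab : ¬ IsMulCommutative N := by
    intro hab
    obtain ⟨y, hy, hyo⟩ := exists_order_p hOp' N hN1
    haveI : (Subgroup.zpowers (⟨y, hy⟩ : N)).Normal := ⟨fun z hz g => by
      rwa [hab.is_comm.comm g z, mul_inv_cancel_right]⟩
    have h1 : (⟨y, hy⟩ : N) ∈ pCore p N := le_pCore inferInstance
      (IsPGroup.of_card (n := 1) (by rw [Nat.card_zpowers, Subgroup.orderOf_mk, hyo, pow_one]))
      (Subgroup.mem_zpowers _)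
    rw [(cores_normal hOp hOp' N).1, Subgroup.mem_bot] at h1
    have hy1 : y = 1 := congrArg Subtype.val h1
    rw [hy1, orderOf_one] at hyo
    exact (Fact.out : p.Prime).one_lt.ne hyo
  have huniq : ∀ K : Subgroup H, K.Normal → K ≠ ⊥ → N ≤ K := by
    intro K hK hK1
    rcases hmin (K ⊓ N) inferInstance inf_le_right with h | h
    · exact (no_disjoint hOp hOp' P hTI K N h hK1 hN1).elim
    · exact inf_eq_right.mp h
  refine ⟨N, hN, hN1, huniq, ?_, hnab, ?_, fun Q => ⟨?_, ti_normal P hTI N Q⟩⟩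
  · haveI : Nontrivial N := (Subgroup.nontrivial_iff_ne_bot N).mpr hN1
    refine ⟨fun K hK => or_iff_not_imp_left.mpr fun hK1 => ?_⟩
    obtain ⟨T, ⟨hTn, hT1, hTK⟩, hTmin⟩ := Set.Finite.exists_minimalFor (fun L : Subgroup N => L)
      {L : Subgroup N | L.Normal ∧ L ≠ ⊥ ∧ L ≤ K} (Set.toFinite _) ⟨K, hK, hK1, le_rfl⟩
    haveI := hTn
    have := eq_top_of_minimal hOp hOp' P hTI N hmin T hT1 fun L hL hle =>
      or_iff_not_imp_left.mpr fun h => le_antisymm hle (hTmin (j := L) ⟨hL, h, hle.trans hTK⟩ hle)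
    exact top_le_iff.mp (this ▸ hTK)
  · by_contra hC
    have h := huniq _ inferInstance hC
    exact hnab ⟨⟨fun a b => Subtype.ext (Subgroup.mem_centralizer_iff.mp (h b.2) a a.2)⟩⟩
  · intro hQ
    obtain ⟨y, hy, hyo⟩ := exists_order_p hOp' N hN1
    have hd : p ∣ Nat.card N := by
      rw [← hyo, ← Subgroup.orderOf_mk y hy]; exact orderOf_dvd_natCard _
    exact Sylow.ne_bot_of_dvd_card Q hd hQ

end Cfsg.Agent.S4620
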