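import Cfsg.Statements.S4623
import Mathlib.GroupTheory.SpecificGroups.Alternating
import Mathlib.GroupTheory.Sylow
import Mathlib.NumberTheory.Padics.PadicVal.Basic
import Mathlib.GroupTheory.Abelianization.Defs
-- import your own Cfsg.Agent.* helpers here

set_option autoImplicit false
open Cfsg

namespace Cfsg.Agent.S4623

open Equiv Equiv.Perm
open scoped Nat
set_option linter.unusedSectionVars false

variable {p : ℕ} [hp : Fact p.Prime]

/-- The two generation properties. -/
def Good (p : ℕ) {α : Type} [Fintype α] [DecidableEq α] (H : Subgroup (Perm α)) : Prop :=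
  (∀ x ∈ H, x ∈ Subgroup.closure {y | y ∈ H ∧ y ^ p = 1}) ∧
  (∀ x ∈ H, sign x = 1 → x ∈ Subgroup.closure {y | y ∈ H ∧ y ^ p = 1 ∧ sign y = 1})

theorem exists_good : ∀ n : ℕ, ∃ H : Subgroup (Perm (Fin n)), Nat.card H = p ^ padicValNat p n ! ∧ Good p H := by
  intro n
  induction n using Nat.strong_induction_on with
  | _ n ih =>
  rcases Nat.eq_zero_or_pos n with rfl | hn
  · refine ⟨⊥, by simp, fun x hx => ?_, fun x hx _ => ?_⟩ <;>
      (rw [Subgroup.mem_bot] at hx; subst hx; exact Subgroup.one_mem _)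
  set m := n / p with hm
  set r := n % p with hr
  obtain ⟨S, hScard, hS1, hS2⟩ := ih m (Nat.div_lt_self hn hp.out.one_lt)
  let X := (ZMod p × Fin m) ⊕ Fin r
  let ε : Perm (Fin m) →* Perm X :=
    { toFun := fun s => Equiv.Perm.sumCongr (prodCongrRight fun _ : ZMod p => s) (1 : Perm (Fin r))
      map_one' := by ext x; rcases x with ⟨a, b⟩ | c <;> rfl
      map_mul' := fun s u => by ext x; rcases x with ⟨a, b⟩ | c <;> rfl }
  let τ : Multiplicative (Fin m → ZMod p) →* Perm X :=
    { toFun := fun f => Equiv.Perm.sumCongr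
        (⟨fun x => (x.1 + f.toAdd x.2, x.2), fun x => (x.1 - f.toAdd x.2, x.2), fun x => by simp, fun x => by simp⟩)
        (1 : Perm (Fin r))
      map_one' := by ext x; rcases x with ⟨a, b⟩ | c <;> simp
      map_mul' := fun f g => by
        ext x; rcases x with ⟨a, b⟩ | c <;> simp [add_comm, add_left_comm] }
  have hconj : ∀ s : Perm (Fin m), ∀ f, ε s * τ f * (ε s)⁻¹ = τ (Multiplicative.ofAdd fun i => f.toAdd (s⁻¹ i)) := by
    intro s f
    rw [mul_inv_eq_iff_eq_mul]
    ext x
    rcases x with ⟨a, b⟩ | c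
    · simp [ε, τ, X, Equiv.Perm.sumCongr]
    · simp [ε, τ, X, Equiv.Perm.sumCongr]
  let H : Subgroup (Perm X) :=
    { carrier := {x | ∃ f, ∃ s ∈ S, x = τ f * ε s}
      one_mem' := ⟨1, 1, S.one_mem, by simp⟩
      mul_mem' := by
        rintro _ _ ⟨f, s, hs, rfl⟩ ⟨g, u, hu, rfl⟩
        refine ⟨f * Multiplicative.ofAdd fun i => g.toAdd (s⁻¹ i), s * u, S.mul_mem hs hu, ?_⟩
        rw [map_mul, map_mul, ← hconj]; group
      inv_mem' := by
        rintro _ ⟨f, s, hs, rfl⟩
        refine ⟨Multiplicative.ofAdd fun i => (f⁻¹).toAdd (s i), s⁻¹, S.inv_mem hs, ?_⟩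
        have h := hconj s⁻¹ f⁻¹
        simp only [inv_inv, map_inv] at h ⊢
        rw [← h]; group }
  have hεsign : ∀ s : Perm (Fin m), sign (ε s) = (sign s) ^ p := by
    intro s
    show sign (Equiv.Perm.sumCongr (prodCongrRight fun _ : ZMod p => s) (1 : Perm (Fin r))) = _
    rw [sign_sumCongr, map_one, mul_one, sign_prodCongrRight, Finset.prod_const, Finset.card_univ, ZMod.card]
  have hτp : ∀ f, τ f ^ p = 1 := fun f => by
    have h0 : f ^ p = 1 := by
      apply Multiplicative.toAdd.injective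
      funext i
      simp [ZMod.natCast_self]
    rw [← map_pow, h0, map_one]
  have hevenp : ∀ x : Perm X, x ^ p = 1 → p ≠ 2 → sign x = 1 := fun x hx h2 => by
    have h := congrArg sign hx
    rw [map_pow, map_one] at h
    rcases Int.units_eq_one_or (sign x) with e | e
    · exact e
    · rw [e, (hp.out.odd_of_ne_two h2).neg_one_pow] at h
      exact absurd h (by decide)
  have hεeven : ∀ s : Perm (Fin m), s ^ p = 1 → sign (ε s) = 1 := fun s hs => by
    rw [hεsign, ← map_pow, hs, map_one]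
  have hgen : ∀ s ∈ S, ε s ∈ Subgroup.closure {y | y ∈ H ∧ y ^ p = 1 ∧ sign y = 1} := by
    intro s hs
    have h := Subgroup.mem_map_of_mem ε (hS1 s hs)
    rw [MonoidHom.map_closure] at h
    refine Subgroup.closure_mono ?_ h
    rintro _ ⟨u, ⟨hu, hup⟩, rfl⟩
    exact ⟨⟨1, u, hu, by simp⟩, by rw [← map_pow, hup, map_one], hεeven u hup⟩
  have hgood : Good p H := by
    refine ⟨?_, ?_⟩
    · rintro _ ⟨f, s, hs, rfl⟩
      refine Subgroup.mul_mem _ (Subgroup.subset_closure ⟨⟨f, 1, S.one_mem, by simp⟩, hτp f⟩) ?_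
      exact Subgroup.closure_mono (show {y | y ∈ H ∧ y ^ p = 1 ∧ sign y = 1} ⊆ {y | y ∈ H ∧ y ^ p = 1} from
        fun y hy => ⟨hy.1, hy.2.1⟩) (hgen s hs)
    · rintro _ ⟨f, s, hs, rfl⟩ hsg
      refine Subgroup.mul_mem _ (Subgroup.subset_closure ⟨⟨f, 1, S.one_mem, by simp⟩, hτp f, ?_⟩) (hgen s hs)
      have he : sign (ε s) = 1 :=
        (Subgroup.closure_le (K := (sign : Perm X →* ℤˣ).ker)).mpr (fun y hy => hy.2.2) (hgen s hs)
      rwa [map_mul, he, mul_one] at hsg
  have hcard : Nat.card H = p ^ padicValNat p n ! := by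
    have hbij : Function.Bijective (fun z : Multiplicative (Fin m → ZMod p) × S =>
        (⟨τ z.1 * ε z.2, z.1, z.2, z.2.2, rfl⟩ : H)) := by
      refine ⟨?_, ?_⟩
      · rintro ⟨f, s⟩ ⟨g, u⟩ h
        have h' : τ f * ε s = τ g * ε u := congrArg Subtype.val h
        have hsu : s = u := by
          refine Subtype.ext (Equiv.ext fun i => ?_)
          have := congrArg (fun q : Perm X => q (Sum.inl (0, i))) h'
          simpa [ε, τ, X] using congrArg (fun z : X => Sum.elim (fun w => some w.2) (fun _ => none) z) this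
        subst hsu
        have hfg : f = g := by
          apply Multiplicative.toAdd.injective
          funext i
          have := congrArg (fun q : Perm X => q (Sum.inl (0, i))) (mul_right_cancel h')
          simpa [τ, X, Equiv.Perm.sumCongr] using this
        rw [hfg]
      · rintro ⟨_, f, s, hs, rfl⟩
        exact ⟨(f, ⟨s, hs⟩), rfl⟩
    rw [← Nat.card_eq_of_bijective _ hbij, Nat.card_prod, hScard]
    have h1 : Nat.card (Multiplicative (Fin m → ZMod p)) = p ^ m := by
      rw [Nat.card_congr Multiplicative.toAdd, Nat.card_fun, Nat.card_zmod, Nat.card_eq_fintype_card, Fintype.card_fin]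
    rw [h1, ← pow_add]
    congr 1
    conv_rhs => rw [← Nat.div_add_mod n p, ← hm, ← hr]
    rw [padicValNat_factorial_mul_add m (Nat.mod_lt n hp.out.pos), padicValNat_factorial_mul, add_comm]
  have hX : Fintype.card X = n := by
    simp only [X, Fintype.card_sum, Fintype.card_prod, ZMod.card, Fintype.card_fin, hm, hr]
    exact Nat.div_add_mod n p
  let E : Perm X ≃* Perm (Fin n) := (Fintype.equivFinOfCardEq hX).permCongrHom
  have hsign : ∀ q, sign (E q) = sign q := fun q => sign_permCongr _ q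
  refine ⟨H.map E.toMonoidHom, ?_, ?_, ?_⟩
  · rw [Subgroup.card_map_of_injective E.injective, hcard]
  · rintro _ ⟨q, hq, rfl⟩
    have h := Subgroup.mem_map_of_mem E.toMonoidHom (hgood.1 q hq)
    rw [MonoidHom.map_closure] at h
    refine Subgroup.closure_mono ?_ h
    rintro _ ⟨y, ⟨hy, hyp⟩, rfl⟩
    exact ⟨⟨y, hy, rfl⟩, by rw [← map_pow, hyp, map_one]⟩
  · rintro _ ⟨q, hq, rfl⟩ hsq
    have h := Subgroup.mem_map_of_mem E.toMonoidHom (hgood.2 q hq ((hsign q).symm.trans hsq))
    rw [MonoidHom.map_closure] at h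
    refine Subgroup.closure_mono ?_ h
    rintro _ ⟨y, ⟨hy, hyp, hys⟩, rfl⟩
    exact ⟨⟨y, hy, rfl⟩, by rw [← map_pow, hyp, map_one], (hsign y).trans hys⟩

/-- A group generated by elements of order dividing `p` has elementary abelianisation. -/
theorem pow_mem_commutator {G : Type} [Group G] (T : Subgroup G)
    (h : ∀ x ∈ T, x ∈ Subgroup.closure {y | y ∈ T ∧ y ^ p = 1}) (x : T) : x ^ p ∈ commutator T := by
  have key : ∀ z ∈ Subgroup.closure {y | y ∈ T ∧ y ^ p = 1}, ∀ hz : z ∈ T,
      (Abelianization.of (⟨z, hz⟩ : T)) ^ p = 1 := by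
    intro z hz
    induction hz using Subgroup.closure_induction with
    | mem y hy =>
      intro hy'
      rw [← map_pow, show (⟨y, hy'⟩ : T) ^ p = 1 from Subtype.ext hy.2, map_one]
    | one => intro h1; rw [show (⟨1, h1⟩ : T) = 1 from rfl, map_one, one_pow]
    | mul a b ha hb h1 h2 =>
      intro hab
      have haT : a ∈ T := (Subgroup.closure_le T).mpr (fun y hy => hy.1) ha
      have hbT : b ∈ T := (Subgroup.closure_le T).mpr (fun y hy => hy.1) hb
      rw [show (⟨a * b, hab⟩ : T) = ⟨a, haT⟩ * ⟨b, hbT⟩ from rfl, map_mul, mul_pow, h1 haT, h2 hbT, one_mul]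
    | inv a ha h1 =>
      intro ha'
      have haT : a ∈ T := (Subgroup.closure_le T).mpr (fun y hy => hy.1) ha
      rw [show (⟨a⁻¹, ha'⟩ : T) = (⟨a, haT⟩)⁻¹ from rfl, map_inv, inv_pow, h1 haT, inv_one]
  have := key _ (h x x.2) x.2
  rw [← map_pow] at this
  exact (QuotientGroup.eq_one_iff _).mp this


/-- For every prime p and every n, a Sylow p-subgroup P of the symmetric group on n letters has P/P' elementary abelian (the p-th power of every element of P lies in the derived subgroup of P), and the same holds for a Sylow p-subgroup of the alternating group on n letters. -/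
theorem result (p : ℕ) [Fact p.Prime] (n : ℕ) (P : Sylow p (Equiv.Perm (Fin n))) (Q : Sylow p (alternatingGroup (Fin n))) :
    (∀ x : (P : Subgroup (Equiv.Perm (Fin n))), x ^ p ∈ commutator (P : Subgroup (Equiv.Perm (Fin n)))) ∧
    (∀ x : (Q : Subgroup (alternatingGroup (Fin n))), x ^ p ∈ commutator (Q : Subgroup (alternatingGroup (Fin n)))) := by
  obtain ⟨H, hH, hH1, hH2⟩ := exists_good (p := p) n
  have hcardn : (Nat.card (Equiv.Perm (Fin n))).factorization p = padicValNat p n ! := by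
    rw [Nat.card_perm, Nat.card_eq_fintype_card, Fintype.card_fin, Nat.factorization_def _ (Fact.out : p.Prime)]
  let T : Sylow p (Equiv.Perm (Fin n)) := Sylow.ofCard H (by rw [hcardn]; exact hH)
  have hT : (T : Subgroup (Equiv.Perm (Fin n))) = H := rfl
  have hpull : ∀ (c : Equiv.Perm (Fin n)) (Y : Subgroup (Equiv.Perm (Fin n))) (x : Equiv.Perm (Fin n)),
      (MulAut.conj c) x ∈ Subgroup.closure {y | y ∈ Y ∧ y ^ p = 1} →
      x ∈ Subgroup.closure {y | (MulAut.conj c) y ∈ Y ∧ y ^ p = 1} := by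
    intro c Y x hx
    have h := Subgroup.mem_map_of_mem (MulAut.conj c).symm.toMonoidHom hx
    rw [MonoidHom.map_closure] at h
    have h' : (MulAut.conj c).symm ((MulAut.conj c) x) = x := MulEquiv.symm_apply_apply _ _
    rw [show (MulAut.conj c).symm.toMonoidHom ((MulAut.conj c) x) = x from h'] at h
    refine Subgroup.closure_mono ?_ h
    rintro _ ⟨y, ⟨hy, hyp⟩, rfl⟩
    refine ⟨?_, ?_⟩
    · show (MulAut.conj c) ((MulAut.conj c).symm y) ∈ Y
      rwa [MulEquiv.apply_symm_apply]
    · show ((MulAut.conj c).symm y) ^ p = 1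
      rw [← map_pow, hyp, map_one]
  refine ⟨pow_mem_commutator _ fun x hx => ?_, fun x => ?_⟩
  · obtain ⟨c, hc⟩ := MulAction.exists_smul_eq (Equiv.Perm (Fin n)) P T
    have hiff : ∀ y, (MulAut.conj c) y ∈ H ↔ y ∈ (P : Subgroup (Equiv.Perm (Fin n))) := fun y => by
      rw [← hT, ← hc, Sylow.coe_subgroup_smul]
      exact Subgroup.smul_mem_pointwise_smul_iff
    refine Subgroup.closure_mono (fun y hy => ?_) (hpull c H x (hH1 _ ((hiff x).mpr hx)))
    exact ⟨(hiff y).mp hy.1, hy.2⟩
  · set Q' := (Q : Subgroup (alternatingGroup (Fin n))).map (alternatingGroup (Fin n)).subtype with hQ'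
    obtain ⟨P', hP'⟩ := (Q.2.map (alternatingGroup (Fin n)).subtype).exists_le_sylow
    obtain ⟨c, hc⟩ := MulAction.exists_smul_eq (Equiv.Perm (Fin n)) P' T
    have hiffP : ∀ y, (MulAut.conj c) y ∈ H ↔ y ∈ (P' : Subgroup (Equiv.Perm (Fin n))) := fun y => by
      rw [← hT, ← hc, Sylow.coe_subgroup_smul]
      exact Subgroup.smul_mem_pointwise_smul_iff
    have hmax : ((P' : Subgroup (Equiv.Perm (Fin n))).comap (alternatingGroup (Fin n)).subtype) = (Q : Subgroup (alternatingGroup (Fin n))) :=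
      Q.3 (P'.2.comap_of_injective (alternatingGroup (Fin n)).subtype (alternatingGroup (Fin n)).subtype_injective) (Subgroup.map_le_iff_le_comap.mp hP')
    have hgenQ : ∀ y ∈ Q', y ∈ Subgroup.closure {z | z ∈ Q' ∧ z ^ p = 1} := by
      intro y hy
      have hyA : y ∈ (alternatingGroup (Fin n)) := Subgroup.map_subtype_le _ hy
      have hsy : Equiv.Perm.sign ((MulAut.conj c) y) = 1 := by
        rw [MulAut.conj_apply, map_mul, map_mul, map_inv, Equiv.Perm.mem_alternatingGroup.mp hyA, mul_one, mul_inv_cancel]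
      have h := hpull c (H ⊓ (alternatingGroup (Fin n))) y (Subgroup.closure_mono
        (show {z | z ∈ H ∧ z ^ p = 1 ∧ Equiv.Perm.sign z = 1} ⊆ {z | z ∈ H ⊓ (alternatingGroup (Fin n)) ∧ z ^ p = 1} from
          fun z hz => ⟨⟨hz.1, Equiv.Perm.mem_alternatingGroup.mpr hz.2.2⟩, hz.2.1⟩) (hH2 _ ((hiffP y).mpr (hP' hy)) hsy))
      refine Subgroup.closure_mono ?_ h
      intro z hz
      refine ⟨?_, hz.2⟩
      have hzP := (hiffP z).mp hz.1.1
      have hzA : z ∈ (alternatingGroup (Fin n)) := by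
        have := Equiv.Perm.mem_alternatingGroup.mp hz.1.2
        rw [MulAut.conj_apply, map_mul, map_mul, map_inv, mul_right_comm, mul_inv_cancel, one_mul] at this
        exact Equiv.Perm.mem_alternatingGroup.mpr this
      exact ⟨⟨z, hzA⟩, hmax.le hzP, rfl⟩
    refine pow_mem_commutator _ (fun y hy => ?_) x
    have h := hgenQ y ⟨y, hy, rfl⟩
    have key : Subgroup.closure {z | z ∈ Q' ∧ z ^ p = 1} ≤
        (Subgroup.closure {z : (alternatingGroup (Fin n)) | z ∈ (Q : Subgroup (alternatingGroup (Fin n))) ∧ z ^ p = 1}).map (alternatingGroup (Fin n)).subtype := by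
      rw [Subgroup.closure_le]
      rintro _ ⟨⟨z, hz, rfl⟩, hzp⟩
      exact ⟨z, Subgroup.subset_closure ⟨hz, Subtype.ext hzp⟩, rfl⟩
    obtain ⟨z, hz, hzy⟩ := key h
    exact (Subtype.ext hzy : z = y) ▸ hz

end Cfsg.Agent.S4623
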