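import Cfsg.Statements.S4736
import Cfsg.Agent.S0915
import Cfsg.Agent.S4713
import Cfsg.Agent.Lib.Core
import Cfsg.Agent.Lib.PSolvable
import Cfsg.Agent.Lib.Blocks.PrincipalSection
import Cfsg.Agent.Lib.Chars.Kernel
import Mathlib.GroupTheory.Sylow

set_option autoImplicit false
open Cfsg

namespace Cfsg.Agent.S4736

open CfsgLib.Chars CfsgLib.Blocks

open scoped ComplexConjugate
set_option maxHeartbeats 400000
universe u

theorem inflate_sameBlock {G : Type u} [Group G] [Finite G] {p : ℕ} {M : Ideal AlgInt}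
    (hM : IsPModular p M) (N : Subgroup G) [N.Normal] {χ ψ : G ⧸ N → ℂ}
    (h : SameBlock M χ ψ) : SameBlock M (χ ∘ QuotientGroup.mk) (ψ ∘ QuotientGroup.mk) := by
  intro g
  have hdvd : (Subgroup.centralizer ({(g : G ⧸ N)} : Set (G ⧸ N))).index ∣
      (Subgroup.centralizer ({g} : Set G)).index := by
    refine (Subgroup.index_dvd_of_le ?_).trans
      (Subgroup.index_map_dvd (f := QuotientGroup.mk' N) _ (QuotientGroup.mk'_surjective N))
    rintro _ ⟨c, hc, rfl⟩
    have hc' := Subgroup.mem_centralizer_singleton_iff.mp hc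
    rw [Subgroup.mem_centralizer_singleton_iff]
    simp only [QuotientGroup.mk'_apply, ← QuotientGroup.mk_mul, hc']
  obtain ⟨c, hc⟩ := hdvd
  have e : ∀ φ : G ⧸ N → ℂ, centralChar (φ ∘ QuotientGroup.mk) g = (c : ℂ) * centralChar φ (g : G ⧸ N) := by
    intro φ
    simp only [centralChar, Function.comp_apply, QuotientGroup.mk_one, hc, Nat.cast_mul]
    ring
  rw [e, e, ← mul_sub]
  exact mli_mul_left hM (mlr_natCast hM c) (h (g : G ⧸ N))

/-- Let p be a prime, M a maximal ideal of the algebraic integers containing p, and G a finite p-solvable group with Sylow p-subgroup P. Then P is abelian if and only if every irreducible character in the principal p-block of G has height zero. -/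
theorem result {G : Type*} [Group G] [Finite G] (p : ℕ) [Fact p.Prime] (M : Ideal Cfsg.AlgInt) (hM : Cfsg.IsPModular p M) (hsolv : Cfsg.IsPSolvable p G) (P : Sylow p G) : IsMulCommutative P ↔ ∀ χ ∈ Cfsg.principalBlock M G, Cfsg.blockHeight p (Cfsg.principalBlock M G) (χ : G → ℂ) = 0 := by
  classical
  haveI := Fintype.ofFinite G
  have hp : p.Prime := Fact.out
  set K := Cfsg.pPrimeCore p G
  haveI : K.Characteristic := CfsgLib.Core.pPrimeCore_characteristic (G := G) p
  haveI := Fintype.ofFinite (G ⧸ K)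
  have hsolQ : Cfsg.IsPSolvable p (G ⧸ K) := CfsgLib.PSolvable.map _ (QuotientGroup.mk'_surjective K) hsolv
  have hredQ : Cfsg.pPrimeCore p (G ⧸ K) = ⊥ := CfsgLib.Core.pPrimeCore_quotient_eq_bot p
  have hKco : (Nat.card K).Coprime p := CfsgLib.Core.card_pPrimeCore_coprime p
  let Q : Sylow p (G ⧸ K) := P.mapSurjective (QuotientGroup.mk'_surjective K)
  let f : (P : Subgroup G) →* (Q : Subgroup (G ⧸ K)) :=
    ((QuotientGroup.mk' K).comp (P : Subgroup G).subtype).codRestrict _ fun x => ⟨x, x.2, rfl⟩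
  have hf : Function.Surjective f := by
    rintro ⟨_, ⟨x, hx, rfl⟩⟩
    exact ⟨⟨x, hx⟩, rfl⟩
  have hfi : Function.Injective f := by
    rw [injective_iff_map_eq_one]
    intro x hx
    have hxK : (x : G) ∈ K := (QuotientGroup.eq_one_iff _).mp (congrArg Subtype.val hx)
    have hd1 : orderOf (x : G) ∣ Nat.card K := Subgroup.orderOf_dvd_natCard _ hxK
    obtain ⟨k, hk⟩ := IsPGroup.iff_orderOf.mp P.isPGroup' x
    rw [← Subgroup.orderOf_coe] at hk
    rw [hk] at hd1
    refine Subtype.ext (orderOf_eq_one_iff.mp ?_)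
    rw [hk]
    exact Nat.eq_one_of_dvd_coprimes (hKco.symm.pow_left k) dvd_rfl hd1
  have hcomm : IsMulCommutative P ↔ IsMulCommutative Q := by
    constructor
    · intro h
      refine ⟨⟨fun a b => ?_⟩⟩
      obtain ⟨a, rfl⟩ := hf a
      obtain ⟨b, rfl⟩ := hf b
      rw [← map_mul, ← map_mul, h.is_comm.comm a b]
    · intro h
      exact ⟨⟨fun a b => hfi (by rw [map_mul, map_mul]; exact h.is_comm.comm _ _)⟩⟩
  have hinf : sInf ((fun ψ : Cfsg.IrrCharacter G => (Cfsg.charDegree (ψ : G → ℂ)).factorization p) ''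
      Cfsg.principalBlock M G) = 0 :=
    Nat.eq_zero_of_le_zero (Nat.sInf_le ⟨trivIrr G, self_mem_blockOf hM (trivIrr G),
      by simp [Cfsg.charDegree, trivIrr]⟩)
  have hh : ∀ χ : Cfsg.IrrCharacter G,
      Cfsg.blockHeight p (Cfsg.principalBlock M G) (χ : G → ℂ) = 0 ↔
        ¬ p ∣ Cfsg.charDegree (χ : G → ℂ) := fun χ => by
    rw [Cfsg.blockHeight, hinf, Nat.sub_zero, Nat.factorization_eq_zero_iff]
    have := charDegree_pos χ
    constructor
    · rintro (h | h | h)
      · exact absurd hp h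
      · exact h
      · omega
    · exact fun h => Or.inr (Or.inl h)
  rw [hcomm]
  constructor
  · intro hab χ hχ
    rw [hh]
    have hker : ∀ n ∈ K, (χ : G → ℂ) n = (χ : G → ℂ) 1 := fun n hn => by
      simpa using principal_apply_mul hM hχ K hKco hn 1
    obtain ⟨ψ, hψ⟩ := exists_deflate K χ hker
    have hdeg : Cfsg.charDegree (χ : G → ℂ) = Cfsg.charDegree (ψ : G ⧸ K → ℂ) := by
      simp [Cfsg.charDegree, hψ]
    rw [hdeg]
    refine (Cfsg.Agent.S4713.result p hsolQ Q).mp ⟨?_, hab⟩ ψ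
    -- an abelian Sylow subgroup of a reduced `p`-solvable group is the core
    have hC := CfsgLib.PSolvable.charP hsolQ hredQ
    have hle : (Q : Subgroup (G ⧸ K)) ≤ Cfsg.pCore p (G ⧸ K) := fun x hx => hC
      (Subgroup.mem_centralizer_iff.mpr fun y hy => by
        have hyQ : y ∈ (Q : Subgroup (G ⧸ K)) := CfsgLib.Core.pCore_le_sylow Q hy
        exact congrArg Subtype.val (hab.is_comm.comm ⟨y, hyQ⟩ ⟨x, hx⟩))
    have heq : (Q : Subgroup (G ⧸ K)) = Cfsg.pCore p (G ⧸ K) :=
      le_antisymm hle (CfsgLib.Core.pCore_le_sylow Q)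
    rw [heq]
    exact Cfsg.pCore_normal p (G ⧸ K)
  · intro h0
    refine ((Cfsg.Agent.S4713.result p hsolQ Q).mpr fun ψ => ?_).2
    let χ : Cfsg.IrrCharacter G := ⟨_, isIrrCharacter_inflate K ψ⟩
    have hχ : χ ∈ Cfsg.principalBlock M G :=
      inflate_sameBlock hM K (Cfsg.Agent.S0915.result p M hM hsolQ hredQ (trivIrr (G ⧸ K)) ψ)
    have := (hh χ).mp (h0 χ hχ)
    rwa [show Cfsg.charDegree (χ : G → ℂ) = Cfsg.charDegree (ψ : G ⧸ K → ℂ) by
      simp [Cfsg.charDegree, χ]] at this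

end Cfsg.Agent.S4736
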