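import Cfsg.Statements.S4742
import Cfsg.Agent.Lib.Blocks.ClassProduct

set_option autoImplicit false
open Cfsg

namespace Cfsg.Agent.S4742

/-- Let p ≠ q be primes dividing the order of the finite group G, and suppose the centralizer of every non-identity p-element of G has order prime to q. Then either G has an irreducible character of p-defect zero, or for every non-identity q-element z of G there are conjugates g, h of z such that g h⁻¹ is a non-identity p-element. -/
theorem result {G : Type*} [Group G] [Finite G] (p q : ℕ) [Fact p.Prime] [Fact q.Prime] (hppq : p ≠ q) (hpG : p ∣ Nat.card G) (hqG : q ∣ Nat.card G) (hC : ∀ g : G, g ≠ 1 → (∃ k : ℕ, orderOf g = p ^ k) → ¬ q ∣ Nat.card ↥(Subgroup.centralizer ({g} : Set G))) : (∃ χ : Cfsg.IrrCharacter G, (Cfsg.charDegree (χ : G → ℂ)).factorization p = (Nat.card G).factorization p) ∨ ∀ z : G, z ≠ 1 → (∃ k : ℕ, orderOf z = q ^ k) → ∃ g h : G, IsConj z g ∧ IsConj z h ∧ g * h⁻¹ ≠ 1 ∧ ∃ k : ℕ, orderOf (g * h⁻¹) = p ^ k := by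
  haveI := Fintype.ofFinite G
  by_cases hno : ∃ χ : Cfsg.IrrCharacter G,
      (Cfsg.charDegree (χ : G → ℂ)).factorization p = (Nat.card G).factorization p
  · exact Or.inl hno
  refine Or.inr fun z hz hzk => ?_
  by_contra hn
  refine hno (CfsgLib.Blocks.CP.exists_defect_zero (x := z) (fun hd => ?_)
    fun g g' hg hg' k hk => ?_)
  · obtain ⟨u, hu⟩ := exists_prime_orderOf_dvd_card' (G := Subgroup.centralizer ({z} : Set G)) p hd
    have hu1 : (u : G) ≠ 1 := fun e => by
      rw [← Subgroup.orderOf_coe, e, orderOf_one] at hu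
      exact (Fact.out : p.Prime).ne_one hu.symm
    refine hC u hu1 ⟨1, by rw [Subgroup.orderOf_coe, hu, pow_one]⟩ ?_
    obtain ⟨j, hj⟩ := hzk
    have hm : z ∈ Subgroup.centralizer ({(u : G)} : Set G) :=
      Subgroup.mem_centralizer_singleton_iff.mpr
        (Subgroup.mem_centralizer_singleton_iff.mp u.2).symm
    refine dvd_trans ?_ (orderOf_dvd_natCard (⟨z, hm⟩ : Subgroup.centralizer ({(u : G)} : Set G)))
    rw [Subgroup.orderOf_mk, hj]
    refine dvd_pow_self q fun j0 => hz ?_
    rw [j0, pow_zero] at hj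
    exact orderOf_eq_one_iff.mp hj
  · by_contra hne
    exact hn ⟨g, g', hg, hg', fun e => hne (mul_inv_eq_one.mp e), k, hk⟩


end Cfsg.Agent.S4742
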