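import Cfsg.Statements.S4743
import Cfsg.Agent.Lib.Blocks.ClassProduct
import Cfsg.Agent.Lib.Blocks.Local

set_option autoImplicit false
open Cfsg

namespace Cfsg.Agent.S4743

open CfsgLib.Chars CfsgLib.Blocks

theorem crit {G : Type*} [Group G] [Fintype G] (p q : ℕ) [Fact p.Prime] [hq : Fact q.Prime]
    (hC : ∀ g : G, g ≠ 1 → (∃ k : ℕ, orderOf g = p ^ k) →
      ¬ q ∣ Nat.card ↥(Subgroup.centralizer ({g} : Set G)))
    (L : Subgroup G) (hL : L.Normal) (hpL : p ∣ Nat.card L) (hqL : ¬ q ∣ Nat.card L) :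
    ∃ χ : IrrCharacter G,
      (charDegree (χ : G → ℂ)).factorization q = (Nat.card G).factorization q := by
  obtain ⟨x, hx⟩ := exists_prime_orderOf_dvd_card' (G := L) p hpL
  rw [← Subgroup.orderOf_coe] at hx
  have hx1 : (x : G) ≠ 1 := fun e => by
    rw [e, orderOf_one] at hx; exact (Fact.out : p.Prime).ne_one hx.symm
  refine CP.exists_defect_zero (p := q) (x := (x : G)) (hC x hx1 ⟨1, by rw [hx, pow_one]⟩)
    fun g g' hg hg' k hk => ?_
  have hmem : ∀ {a : G}, IsConj (x : G) a → a ∈ L := by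
    intro a ha
    obtain ⟨c, rfl⟩ := isConj_iff.mp ha
    exact hL.conj_mem _ x.2 c
  have hm : g * g'⁻¹ ∈ L := L.mul_mem (hmem hg) (L.inv_mem (hmem hg'))
  have hd : q ^ k ∣ Nat.card L := by
    rw [← hk, ← Subgroup.orderOf_mk _ hm]; exact orderOf_dvd_natCard _
  rcases Nat.eq_zero_or_pos k with rfl | hk0
  · rw [pow_zero, orderOf_eq_one_iff, mul_inv_eq_one] at hk
    exact hk
  · exact absurd ((dvd_pow_self q hk0.ne').trans hd) hqL

theorem main {G : Type*} [Group G] [Fintype G] (p q : ℕ) [hp : Fact p.Prime] [hq : Fact q.Prime]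
    (hpq : p ≠ q) (hpG : p ∣ Nat.card G)
    (hC : ∀ g : G, g ≠ 1 → (∃ k : ℕ, orderOf g = p ^ k) →
      ¬ q ∣ Nat.card ↥(Subgroup.centralizer ({g} : Set G)))
    (hC' : ∀ g : G, g ≠ 1 → (∃ k : ℕ, orderOf g = q ^ k) →
      ¬ p ∣ Nat.card ↥(Subgroup.centralizer ({g} : Set G)))
    (hsolv : IsPSolvable p G) :
    (∃ χ : IrrCharacter G, (charDegree (χ : G → ℂ)).factorization p = (Nat.card G).factorization p) ∨
    (∃ χ : IrrCharacter G, (charDegree (χ : G → ℂ)).factorization q = (Nat.card G).factorization q) := by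
  obtain ⟨n, H, h0, hn, hmono, hnormal, hfac⟩ := hsolv
  by_contra hne
  push Not at hne
  obtain ⟨hne1, hne2⟩ := hne
  have hclean : ∀ i : Fin (n + 1), ¬ p ∣ Nat.card (H i) ∧ ¬ q ∣ Nat.card (H i) := by
    intro i
    induction i using Fin.induction with
    | zero =>
      rw [h0, Subgroup.card_bot]
      exact ⟨hp.out.not_dvd_one, hq.out.not_dvd_one⟩
    | succ i ih =>
      have hle : H i.castSucc ≤ H i.succ := hmono (Fin.castSucc_le_succ i)
      have hcard : Nat.card (H i.castSucc) * (H i.castSucc).relIndex (H i.succ) = Nat.card (H i.succ) := by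
        rw [← Subgroup.relIndex_bot_left, ← Subgroup.relIndex_bot_left]
        exact Subgroup.relIndex_mul_relIndex _ _ _ bot_le hle
      rcases hfac i with ⟨m, hm⟩ | hcop
      · have hq' : ¬ q ∣ Nat.card (H i.succ) := by
          rw [← hcard, hm]
          intro h
          rcases hq.out.dvd_mul.mp h with h | h
          · exact ih.2 h
          · exact hpq ((Nat.prime_dvd_prime_iff_eq hq.out hp.out).mp (hq.out.dvd_of_dvd_pow h)).symm
        refine ⟨fun h => ?_, hq'⟩
        obtain ⟨χ, hχ⟩ := crit p q hC _ (hnormal _) h hq'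
        exact hne2 χ hχ
      · have hp' : ¬ p ∣ Nat.card (H i.succ) := by
          rw [← hcard]
          intro h
          rcases hp.out.dvd_mul.mp h with h | h
          · exact ih.1 h
          · exact hp.out.one_lt.ne' (Nat.eq_one_of_dvd_coprimes hcop h dvd_rfl)
        refine ⟨hp', fun h => ?_⟩
        obtain ⟨χ, hχ⟩ := crit q p hC' _ (hnormal _) h hp'
        exact hne1 χ hχ
  have := (hclean (Fin.last n)).1
  rw [hn, Subgroup.card_top] at this
  exact this hpG

/-- Let p ≠ q be primes dividing the order of the finite group G, suppose the centralizer of every non-identity p-element has order prime to q, and suppose G is p-solvable or q-solvable. Then G has an irreducible character of p-defect zero or an irreducible character of q-defect zero. -/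
theorem result {G : Type*} [Group G] [Finite G] (p q : ℕ) [Fact p.Prime] [Fact q.Prime] (hppq : p ≠ q) (hpG : p ∣ Nat.card G) (hqG : q ∣ Nat.card G) (hC : ∀ g : G, g ≠ 1 → (∃ k : ℕ, orderOf g = p ^ k) → ¬ q ∣ Nat.card ↥(Subgroup.centralizer ({g} : Set G))) (hsolv : Cfsg.IsPSolvable p G ∨ Cfsg.IsPSolvable q G) : (∃ χ : Cfsg.IrrCharacter G, (Cfsg.charDegree (χ : G → ℂ)).factorization p = (Nat.card G).factorization p) ∨ (∃ χ : Cfsg.IrrCharacter G, (Cfsg.charDegree (χ : G → ℂ)).factorization q = (Nat.card G).factorization q) := by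
  haveI := Fintype.ofFinite G
  have hC' : ∀ g : G, g ≠ 1 → (∃ k : ℕ, orderOf g = q ^ k) →
      ¬ p ∣ Nat.card ↥(Subgroup.centralizer ({g} : Set G)) := by
    intro g hg ⟨k, hk⟩ hd
    obtain ⟨y, hy⟩ := exists_prime_orderOf_dvd_card' (G := Subgroup.centralizer ({g} : Set G)) p hd
    rw [← Subgroup.orderOf_coe] at hy
    have hy1 : (y : G) ≠ 1 := fun e => by
      rw [e, orderOf_one] at hy; exact (Fact.out : p.Prime).ne_one hy.symm
    refine hC y hy1 ⟨1, by rw [hy, pow_one]⟩ ?_
    have hm : g ∈ Subgroup.centralizer ({(y : G)} : Set G) :=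
      Subgroup.mem_centralizer_singleton_iff.mpr (Subgroup.mem_centralizer_singleton_iff.mp y.2).symm
    refine dvd_trans ?_ (Subgroup.orderOf_mk _ hm ▸ orderOf_dvd_natCard (⟨g, hm⟩ : Subgroup.centralizer ({(y : G)} : Set G)))
    rw [hk]
    exact dvd_pow_self q fun k0 => hg (orderOf_eq_one_iff.mp (by rw [hk, k0, pow_zero]))
  rcases hsolv with h | h
  · exact main p q hppq hpG hC hC' h
  · exact (main q p hppq.symm hqG hC' hC h).symm

end Cfsg.Agent.S4743
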