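import Cfsg.Statements.S4746
import Cfsg.Agent.Lib.Blocks.ClassProduct
import Cfsg.Agent.Lib.Chars.Central
import Mathlib.GroupTheory.Perm.Cycle.Type

set_option autoImplicit false
open Cfsg

namespace Cfsg.Agent.S4746

open scoped ComplexConjugate
open CfsgLib.Chars

universe u

theorem sq_sum {ι : Type*} [DecidableEq ι] (s : Finset ι) (f : ι → ℂ) (hf : ∀ i ∈ s, IsIntegral ℤ (f i)) :
    ∃ E : ℂ, IsIntegral ℤ E ∧ (∑ i ∈ s, f i) ^ 2 = ∑ i ∈ s, f i * f i + 2 * E := by
  induction s using Finset.induction_on with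
  | empty => exact ⟨0, isIntegral_zero, by simp⟩
  | @insert a s ha ih =>
    obtain ⟨E, hE, he⟩ := ih fun i hi => hf i (Finset.mem_insert_of_mem hi)
    refine ⟨E + f a * ∑ i ∈ s, f i, hE.add ((hf a (Finset.mem_insert_self a s)).mul
      (IsIntegral.sum _ fun i hi => hf i (Finset.mem_insert_of_mem hi))), ?_⟩
    rw [Finset.sum_insert ha, Finset.sum_insert ha]
    linear_combination he

theorem no_real {G : Type u} [Group G] [Fintype G] (hodd : ∀ χ : IrrCharacter G, Odd (charDegree (χ : G → ℂ)))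
    {s z : G} (hz1 : z ≠ 1) (hs : s * z * s⁻¹ = z⁻¹) :
    ¬ Odd (Nat.card (Subgroup.centralizer ({z} : Set G))) := by
  classical
  intro hC
  have hreal : ∀ χ : IrrCharacter G, conj ((χ : G → ℂ) z) = (χ : G → ℂ) z := fun χ => by
    rw [← IsCharacter.map_inv (isCharacter_irr χ), ← hs]
    exact IsCharacter.isClassFunction (isCharacter_irr χ) z s
  have hint : ∀ χ : IrrCharacter G, IsIntegral ℤ ((χ : G → ℂ) z) := fun χ =>
    IsCharacter.isIntegral (isCharacter_irr χ) z
  obtain ⟨E, hE, he⟩ := sq_sum (Finset.univ : Finset (IrrCharacter G)) (fun χ => (χ : G → ℂ) z)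
    fun χ _ => hint χ
  set A : ℂ := ∑ χ : IrrCharacter G, ((charDegree (χ : G → ℂ) / 2 : ℕ) : ℂ) * (χ : G → ℂ) z with hA
  have hAi : IsIntegral ℤ A := IsIntegral.sum _ fun χ _ => (by
    rw [← map_natCast (algebraMap ℤ ℂ)]; exact isIntegral_algebraMap : IsIntegral ℤ
      ((charDegree (χ : G → ℂ) / 2 : ℕ) : ℂ)).mul (hint χ)
  have hS : (∑ χ : IrrCharacter G, (χ : G → ℂ) z) = -(2 * A) := by
    have h := sum_deg_mul z
    rw [if_neg hz1] at h
    rw [eq_neg_iff_add_eq_zero, ← h, hA, Finset.mul_sum, ← Finset.sum_add_distrib]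
    refine Finset.sum_congr rfl fun χ _ => ?_
    obtain ⟨m, hm⟩ := hodd χ
    rw [irr_apply_one, hm, show (2 * m + 1) / 2 = m by omega]
    push_cast
    ring
  have hsq : ∑ χ : IrrCharacter G, (χ : G → ℂ) z * (χ : G → ℂ) z =
      (Nat.card (Subgroup.centralizer ({z} : Set G)) : ℂ) := by
    have h := col_orth z z
    rw [if_pos (IsConj.refl z)] at h
    rw [← h]
    exact Finset.sum_congr rfl fun χ _ => by rw [hreal χ]
  rw [hS, hsq] at he
  refine (Nat.not_even_iff_odd.mpr hC) (even_iff_two_dvd.mpr (exists_int_of_isIntegral_div two_ne_zero ?_))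
  have e : ((Nat.card (Subgroup.centralizer ({z} : Set G)) : ℕ) : ℂ) / ((2 : ℕ) : ℂ) = 2 * A * A - E := by
    push_cast
    linear_combination (-1 / 2 : ℂ) * he
  rw [e]
  exact ((IsIntegral.mul (by
    rw [← map_ofNat (algebraMap ℤ ℂ) 2]; exact isIntegral_algebraMap) hAi).mul hAi).sub hE

/-- Let p be an odd prime and G a finite group of even order divisible by p in which the centralizer of every non-identity p-element has odd order. Then G has an irreducible character of p-defect zero or an irreducible character of even degree. -/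
theorem result {G : Type*} [Group G] [Finite G] (p : ℕ) [Fact p.Prime] (hp2 : p ≠ 2) (hpG : p ∣ Nat.card G) (h2G : 2 ∣ Nat.card G) (hC : ∀ g : G, g ≠ 1 → (∃ k : ℕ, orderOf g = p ^ k) → Odd (Nat.card ↥(Subgroup.centralizer ({g} : Set G)))) : (∃ χ : Cfsg.IrrCharacter G, (Cfsg.charDegree (χ : G → ℂ)).factorization p = (Nat.card G).factorization p) ∨ ∃ χ : Cfsg.IrrCharacter G, Even (Cfsg.charDegree (χ : G → ℂ)) := by
  classical
  haveI := Fintype.ofFinite G
  by_contra hne
  push Not at hne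
  obtain ⟨hz, hev⟩ := hne
  have hodd : ∀ χ : Cfsg.IrrCharacter G, Odd (Cfsg.charDegree (χ : G → ℂ)) := fun χ =>
    Nat.not_even_iff_odd.mp (hev χ)
  haveI : Fact (Nat.Prime 2) := ⟨Nat.prime_two⟩
  obtain ⟨x, hx⟩ := exists_prime_orderOf_dvd_card' 2 h2G
  have hxx : x * x = 1 := by rw [← pow_two, ← hx, pow_orderOf_eq_one]
  have hcx : ¬ p ∣ Nat.card (Subgroup.centralizer ({x} : Set G)) := fun h => by
    obtain ⟨u, hu⟩ := exists_prime_orderOf_dvd_card' p h
    have hu' : orderOf (u : G) = p := by rw [Subgroup.orderOf_coe, hu]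
    have := hC (u : G) (fun e => (Fact.out : p.Prime).ne_one (by rw [← hu', e, orderOf_one])) ⟨1, by rw [hu', pow_one]⟩
    refine (Nat.not_even_iff_odd.mpr this) (even_iff_two_dvd.mpr ?_)
    have hxm : x ∈ Subgroup.centralizer ({(u : G)} : Set G) := Subgroup.mem_centralizer_singleton_iff.mpr
      (Subgroup.mem_centralizer_singleton_iff.mp u.2).symm
    rw [← hx, ← Subgroup.orderOf_mk x hxm]
    exact orderOf_dvd_natCard _
  obtain ⟨χ, hχ⟩ := CfsgLib.Blocks.CP.exists_defect_zero (p := p) hcx (fun g g' hg hg' k hk => by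
    by_contra hgg
    have hinv : ∀ {y : G}, IsConj x y → y * y = 1 := by
      intro y hy
      obtain ⟨c, rfl⟩ := isConj_iff.mp hy
      calc c * x * c⁻¹ * (c * x * c⁻¹) = c * (x * x) * c⁻¹ := by group
        _ = 1 := by rw [hxx, mul_one, mul_inv_cancel]
    have hz1 : g * g'⁻¹ ≠ 1 := fun e => hgg (mul_inv_eq_one.mp e)
    refine no_real hodd (s := g) hz1 ?_ (hC _ hz1 ⟨k, hk⟩)
    have h1 := inv_eq_of_mul_eq_one_right (hinv hg)
    have h2 := inv_eq_of_mul_eq_one_right (hinv hg')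
    rw [mul_inv_rev, inv_inv, h1, ← mul_assoc g g, hinv hg, one_mul, h2])
  exact hz χ hχ

end Cfsg.Agent.S4746
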