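import Cfsg.Statements.S4748
import Cfsg.Agent.Lib.Blocks.CoprimeFree
import Cfsg.Agent.Lib.Core
import Mathlib.GroupTheory.Sylow

set_option autoImplicit false
open scoped Pointwise
open Cfsg

namespace Cfsg.Agent.S4748

open CfsgLib

theorem main {G : Type*} [Group G] [Finite G] (p : ℕ) [hp : Fact p.Prime] (hsolv : IsPSolvable p G)
    (P : Sylow p G) (hTI : ∀ g : G, g ∉ Subgroup.normalizer ((P : Subgroup G) : Set G) →
      (P : Subgroup G) ⊓ (MulAut.conj g • (P : Subgroup G)) = ⊥) (χ : G → ℂ) (hχ : IsCharacter G χ)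
    (hfaith : ∀ g : G, χ g = χ 1 → g = 1)
    (hdeg : charDegree χ ^ 2 ≤ Nat.card ↥(P : Subgroup G)) : (P : Subgroup G).Normal := by
  classical
  haveI := Fintype.ofFinite G
  by_contra hPn
  have hP1 : (P : Subgroup G) ≠ ⊥ := fun e => hPn (e ▸ inferInstance)
  obtain ⟨g, hg⟩ : ∃ g : G, g ∉ Subgroup.normalizer ((P : Subgroup G) : Set G) := by
    by_contra h
    push Not at h
    exact hPn (Subgroup.normalizer_eq_top_iff.mp (eq_top_iff.mpr fun x _ => h x))
  -- no normal `p`-subgroup
  have hno : ∀ S : Subgroup G, S.Normal → IsPGroup p S → S = ⊥ := by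
    intro S hSn hS
    have hle : ∀ R : Sylow p G, S ≤ R := by
      intro R
      obtain ⟨R₀, hR₀⟩ := hS.exists_le_sylow
      obtain ⟨c, hc⟩ := MulAction.exists_smul_eq G R₀ R
      intro x hx
      rw [← hc, Sylow.coe_subgroup_smul, Subgroup.mem_pointwise_smul_iff_inv_smul_mem]
      refine hR₀ ?_
      simpa [MulAut.smul_def, MulAut.conj_inv_apply] using hSn.conj_mem x hx c⁻¹
    rw [eq_bot_iff, ← hTI g hg]
    exact le_inf (hle P) (hle (g • P))
  set K := pPrimeCore p G with hK
  haveI hKn : K.Normal := by
    haveI := Core.pPrimeCore_characteristic (G := G) p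
    infer_instance
  have hKc : (Nat.card K).Coprime p := Core.card_pPrimeCore_coprime p
  obtain ⟨j, hj⟩ := P.2.exists_card_eq
  have hPKc : (Nat.card (P : Subgroup G)).Coprime (Nat.card K) := by
    rw [hj]; exact (hKc.symm).pow_left _
  have hPK : ∀ z : G, z ∈ (P : Subgroup G) → z ∈ K → z = 1 := fun z h1 h2 => by
    have e1 : orderOf z ∣ Nat.card (P : Subgroup G) := Subgroup.orderOf_mk z h1 ▸ orderOf_dvd_natCard _
    have e2 : orderOf z ∣ Nat.card K := Subgroup.orderOf_mk z h2 ▸ orderOf_dvd_natCard _
    exact orderOf_eq_one_iff.mp (Nat.eq_one_of_dvd_coprimes hPKc e1 e2)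
  have hcent := Blocks.CFree.centralized (p := p) (P : Subgroup G) K P.2 hP1
    (fun a _ => by rw [Subgroup.normalizer_eq_top]; trivial) hPKc
    (fun x hx hx1 k hk hc => by
      have hkN : k ∈ Subgroup.normalizer ((P : Subgroup G) : Set G) := by
        by_contra hkN
        have h := hTI k hkN
        rw [eq_bot_iff] at h
        refine hx1 (Subgroup.mem_bot.mp (h ⟨hx, ?_⟩))
        change x ∈ MulAut.conj k • (P : Subgroup G)
        rw [Subgroup.mem_pointwise_smul_iff_inv_smul_mem, MulAut.smul_def, MulAut.conj_inv_apply]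
        rwa [mul_assoc, hc.eq, inv_mul_cancel_left]
      rw [Subgroup.mem_centralizer_iff]
      intro a ha
      have h1 : k * a * k⁻¹ * a⁻¹ ∈ (P : Subgroup G) :=
        mul_mem ((Subgroup.mem_normalizer_iff.mp hkN a).mp ha) (inv_mem ha)
      have h2 : k * a * k⁻¹ * a⁻¹ ∈ K := by
        rw [show k * a * k⁻¹ * a⁻¹ = k * (a * k⁻¹ * a⁻¹) by group]
        exact mul_mem hk (hKn.conj_mem _ (inv_mem hk) a)
      have h3 := hPK _ h1 h2
      rw [mul_inv_eq_one, mul_inv_eq_iff_eq_mul] at h3
      exact h3.symm)
    χ hχ hfaith hdeg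
  -- hence `P` is central on the core
  set C := Subgroup.centralizer (K : Set G)
  haveI hCn : C.Normal := inferInstance
  obtain ⟨n, H, h0, h1, hmono, hnormal, hstep⟩ := hsolv
  have hall : ∀ i : Fin (n + 1), H i ⊓ C ≤ K := by
    intro i
    induction i using Fin.induction with
    | zero => rw [h0, bot_inf_eq]; exact bot_le
    | succ i ih =>
      set L' := H i.castSucc ⊓ C
      set L := H i.succ ⊓ C
      haveI := hnormal i.castSucc
      haveI := hnormal i.succ
      haveI hLn : L.Normal := Subgroup.normal_inf_normal _ _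
      have hle : L' ≤ L := inf_le_inf_right _ (hmono (Fin.castSucc_le_succ i))
      have hrel : L'.relIndex L ∣ (H i.castSucc).relIndex (H i.succ) := by
        have e : L'.relIndex L = (H i.castSucc).relIndex L := by
          rw [← Subgroup.inf_relIndex_right (H i.castSucc) L]
          congr 1
          apply le_antisymm (le_inf inf_le_left hle)
          exact le_inf inf_le_left (inf_le_right.trans inf_le_right)
        rw [e, ← Subgroup.inf_relIndex_right (H i.castSucc) L]
        have h2 := Subgroup.relIndex_dvd_index_of_normal ((H i.castSucc).subgroupOf (H i.succ))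
          (L.subgroupOf (H i.succ))
        rw [Subgroup.relIndex_subgroupOf inf_le_left] at h2
        rwa [Subgroup.inf_relIndex_right]
      have hL'c : (Nat.card L').Coprime p := hKc.coprime_dvd_left (Subgroup.card_dvd_of_le ih)
      have hcard : Nat.card L' * L'.relIndex L = Nat.card L := by
        rw [← Subgroup.relIndex_bot_left, ← Subgroup.relIndex_bot_left]
        exact Subgroup.relIndex_mul_relIndex _ _ _ bot_le hle
      rcases hstep i with ⟨m, hm⟩ | hcop
      · rw [hm] at hrel
        obtain ⟨m', -, hm'⟩ := (Nat.dvd_prime_pow hp.out).mp hrel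
        obtain ⟨S⟩ : Nonempty (Sylow p L) := inferInstance
        have hScard : Nat.card (S : Subgroup L) = p ^ m' := by
          rw [S.card_eq_multiplicity, ← hcard, hm', Nat.factorization_mul Nat.card_pos.ne'
            (pow_ne_zero _ hp.out.ne_zero), Finsupp.add_apply, hp.out.factorization_pow,
            Finsupp.single_eq_same, Nat.factorization_eq_zero_of_not_dvd
              ((hp.out.coprime_iff_not_dvd).mp hL'c.symm), zero_add]
        have htop : L'.subgroupOf L ⊔ (S : Subgroup L) = ⊤ := by
          have hA : Nat.card (L'.subgroupOf L) = Nat.card L' :=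
            Nat.card_congr (Subgroup.subgroupOfEquivOfLe hle).toEquiv
          have hc : (Nat.card L').Coprime (p ^ m') := hL'c.pow_right _
          have hd := hc.mul_dvd_of_dvd_of_dvd
            (hA ▸ Subgroup.card_dvd_of_le (le_sup_left : L'.subgroupOf L ≤ _ ⊔ (S : Subgroup L)))
            (hScard ▸ Subgroup.card_dvd_of_le (le_sup_right : (S : Subgroup L) ≤ L'.subgroupOf L ⊔ _))
          rw [← hm', hcard] at hd
          exact Subgroup.eq_top_of_le_card _ (Nat.le_of_dvd Nat.card_pos hd)
        haveI hSn : (S : Subgroup L).Normal := by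
          rw [← Subgroup.normalizer_eq_top_iff, eq_top_iff, ← htop]
          refine sup_le ?_ Subgroup.le_normalizer
          refine le_trans (fun z hz => ?_) (Subgroup.centralizer_le_normalizer _)
          rw [Subgroup.mem_centralizer_iff]
          intro s _
          exact Subtype.ext (Subgroup.mem_centralizer_iff.mp s.2.2 _ (ih hz)).symm
        haveI := Sylow.characteristic_of_normal S hSn
        have hbot := hno ((S : Subgroup L).map L.subtype) inferInstance (S.2.map _)
        rw [Subgroup.map_eq_bot_iff_of_injective _ L.subtype_injective] at hbot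
        rw [hbot, Subgroup.card_bot] at hScard
        rw [hm', ← hScard, mul_one] at hcard
        exact (Subgroup.eq_of_le_of_card_ge hle hcard.ge) ▸ ih
      · refine Core.le_pPrimeCore hLn ?_
        rw [← hcard]
        exact Nat.Coprime.mul_left hL'c (hcop.coprime_dvd_left hrel)
  have hCK : C ≤ K := by
    have := hall (Fin.last n)
    rwa [h1, top_inf_eq] at this
  refine hP1 (eq_bot_iff.mpr fun x hx => Subgroup.mem_bot.mpr (hPK x hx (hCK ?_)))
  rw [Subgroup.mem_centralizer_iff]
  intro k hk
  exact ((Subgroup.mem_centralizer_iff.mp (hcent hk)) x hx).symm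

/-- Let G be a finite p-solvable group whose Sylow p-subgroup P meets each conjugate g P g⁻¹ with g outside N_G(P) trivially, and let χ be a faithful character of G (χ g = χ 1 only for g = 1) whose degree d satisfies d² ≤ |P|. Then P is normal in G. -/
theorem result {G : Type*} [Group G] [Finite G] (p : ℕ) [Fact p.Prime] (hsolv : Cfsg.IsPSolvable p G) (P : Sylow p G) (hTI : ∀ g : G, g ∉ Subgroup.normalizer ((P : Subgroup G) : Set G) → (P : Subgroup G) ⊓ (MulAut.conj g • (P : Subgroup G)) = ⊥) (χ : G → ℂ) (hχ : Cfsg.IsCharacter G χ) (hfaith : ∀ g : G, χ g = χ 1 → g = 1) (hdeg : Cfsg.charDegree χ ^ 2 ≤ Nat.card ↥(P : Subgroup G)) : (P : Subgroup G).Normal := by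
  classical
  exact main p hsolv P hTI χ hχ hfaith hdeg

end Cfsg.Agent.S4748
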