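import Cfsg.Statements.S4754
import Cfsg.Agent.Lib.Blocks.Core
import Cfsg.Agent.Lib.Chars.Misc

set_option autoImplicit false
open Cfsg

namespace Cfsg.Agent.S4754

open CfsgLib.Chars CfsgLib.Blocks

/-- The average of a character over products of two classes. -/
theorem avg_product {G : Type*} [Group G] [Fintype G] (χ : Cfsg.IrrCharacter G) (x y : G) :
    ∑ a : G, (χ : G → ℂ) (a⁻¹ * x * a * y) * (χ : G → ℂ) 1 =
      (Nat.card G : ℂ) * ((χ : G → ℂ) x * (χ : G → ℂ) y) := by
  classical
  have h1 := sum_classFunction_mul χ (classInd_isClassFunction x) y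
  rw [omega_classInd (IsCharacter.isClassFunction (isCharacter_irr χ))] at h1
  have h2 : ∑ w : G, classInd x w * (χ : G → ℂ) (w * y) =
      ∑ w ∈ Finset.univ.filter (fun w => IsConj x w), (χ : G → ℂ) (w * y) := by
    rw [Finset.sum_filter]
    refine Finset.sum_congr rfl fun w _ => ?_
    by_cases h : IsConj x w <;> simp [classInd, h]
  rw [← Finset.sum_mul, sum_conj x (fun w => (χ : G → ℂ) (w * y)), ← h2, h1, Cfsg.centralChar,
    ← (Subgroup.centralizer ({x} : Set G)).index_mul_card, Nat.cast_mul]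
  field_simp [irr_one_ne_zero χ]

/-- For elements x, y of a finite group G, the conjugacy class of x y equals the set of all products of a conjugate of x with a conjugate of y if and only if χ(1) χ(a x a⁻¹ b y b⁻¹) = χ(x) χ(y) for all a, b ∈ G and every irreducible character χ. -/
theorem result {G : Type*} [Group G] [Finite G] (x y : G) : (∀ z : G, IsConj (x * y) z ↔ ∃ a b : G, z = a * x * a⁻¹ * (b * y * b⁻¹)) ↔ ∀ (a b : G) (χ : Cfsg.IrrCharacter G), (χ : G → ℂ) 1 * (χ : G → ℂ) (a * x * a⁻¹ * (b * y * b⁻¹)) = (χ : G → ℂ) x * (χ : G → ℂ) y := by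
  classical
  haveI : Fintype G := Fintype.ofFinite G
  constructor
  · intro h a b χ
    have hval : ∀ a b : G, (χ : G → ℂ) (a * x * a⁻¹ * (b * y * b⁻¹)) = (χ : G → ℂ) (x * y) := by
      intro a b
      obtain ⟨w, hw⟩ := isConj_iff.mp ((h _).mpr ⟨a, b, rfl⟩)
      rw [← hw, IsCharacter.isClassFunction (isCharacter_irr χ)]
    have h1 := avg_product χ x y
    rw [Finset.sum_congr rfl (g := fun _ => (χ : G → ℂ) (x * y) * (χ : G → ℂ) 1) fun w _ => by
      rw [show w⁻¹ * x * w * y = w⁻¹ * x * w⁻¹⁻¹ * (1 * y * 1⁻¹) by simp, hval],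
      Finset.sum_const, nsmul_eq_mul, Finset.card_univ, ← Nat.card_eq_fintype_card] at h1
    rw [hval, mul_comm]
    exact mul_left_cancel₀ (natCast_card_ne_zero G) h1
  · intro h z
    constructor
    · intro hz
      obtain ⟨w, rfl⟩ := isConj_iff.mp hz
      exact ⟨w, w, by group⟩
    · rintro ⟨a, b, rfl⟩
      by_contra hne
      have hval : ∀ χ : Cfsg.IrrCharacter G,
          (χ : G → ℂ) (a * x * a⁻¹ * (b * y * b⁻¹)) = (χ : G → ℂ) (x * y) := fun χ => by
        refine mul_left_cancel₀ (irr_one_ne_zero χ) ?_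
        rw [h a b χ, ← h 1 1 χ]
        simp
      have h0 := col_orth (a * x * a⁻¹ * (b * y * b⁻¹)) (x * y)
      have h1 := col_orth (x * y) (x * y)
      rw [Finset.sum_congr rfl (fun χ _ => by rw [hval χ]), h1, if_pos (IsConj.refl _),
        if_neg hne] at h0
      exact Nat.card_pos.ne' (Nat.cast_eq_zero.mp h0)

end Cfsg.Agent.S4754
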