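import Cfsg.Statements.S4755
import Cfsg.Agent.Lib.Blocks.Core
import Cfsg.Agent.Lib.Chars.Misc
import Cfsg.Agent.Lib.Chars.Linear

set_option autoImplicit false
open Cfsg

namespace Cfsg.Agent.S4755

open CfsgLib.Chars CfsgLib.Blocks

/-- The average of a character over products of two classes. -/
theorem avg_product {G : Type*} [Group G] [Fintype G] (χ : Cfsg.IrrCharacter G) (x y : G) :
    ∑ a : G, (χ : G → ℂ) (a⁻¹ * x * a * y) * (χ : G → ℂ) 1 =
      (Nat.card G : ℂ) * ((χ : G → ℂ) x * (χ : G → ℂ) y) := by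
  classical
  have h1 := sum_classFunction_mul χ (classInd_isClassFunction x) y
  rw [omega_classInd (IsCharacter.isClassFunction (isCharacter_irr χ))] at h1
  have h2 : ∑ w : G, classInd x w * (χ : G → ℂ) (w * y) =
      ∑ w ∈ Finset.univ.filter (fun w => IsConj x w), (χ : G → ℂ) (w * y) := by
    rw [Finset.sum_filter]
    refine Finset.sum_congr rfl fun w _ => ?_
    by_cases h : IsConj x w <;> simp [classInd, h]
  rw [← Finset.sum_mul, sum_conj x (fun w => (χ : G → ℂ) (w * y)), ← h2, h1, Cfsg.centralChar,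
    ← (Subgroup.centralizer ({x} : Set G)).index_mul_card, Nat.cast_mul]
  field_simp [irr_one_ne_zero χ]

/-- Let x, y be non-identity elements of the finite group G such that χ(x' y') = χ(x') χ(y') for all conjugates x' of x, y' of y and every irreducible character χ. Then the conjugacy class of x y is the set of all products of a conjugate of x with a conjugate of y; every irreducible character of degree greater than 1 vanishes at x y; and the conjugacy class of x y is the coset of the commutator subgroup containing x y. -/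
theorem result {G : Type*} [Group G] [Finite G] (x y : G) (hx : x ≠ 1) (hy : y ≠ 1) (h : ∀ (a b : G) (χ : Cfsg.IrrCharacter G), (χ : G → ℂ) (a * x * a⁻¹ * (b * y * b⁻¹)) = (χ : G → ℂ) (a * x * a⁻¹) * (χ : G → ℂ) (b * y * b⁻¹)) : (∀ z : G, IsConj (x * y) z ↔ ∃ a b : G, z = a * x * a⁻¹ * (b * y * b⁻¹)) ∧ (∀ χ : Cfsg.IrrCharacter G, (χ : G → ℂ) 1 ≠ 1 → (χ : G → ℂ) (x * y) = 0) ∧ (∀ z : G, IsConj (x * y) z ↔ (x * y)⁻¹ * z ∈ commutator G) := by
  classical
  haveI : Fintype G := Fintype.ofFinite G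
  have hcf : ∀ χ : Cfsg.IrrCharacter G, ∀ a w : G, (χ : G → ℂ) (a * w * a⁻¹) = (χ : G → ℂ) w :=
    fun χ a w => IsCharacter.isClassFunction (isCharacter_irr χ) w a
  have hconst : ∀ (χ : Cfsg.IrrCharacter G) (a b : G),
      (χ : G → ℂ) (a * x * a⁻¹ * (b * y * b⁻¹)) = (χ : G → ℂ) x * (χ : G → ℂ) y := fun χ a b => by
    rw [h a b χ, hcf, hcf]
  have hxy : ∀ χ : Cfsg.IrrCharacter G, (χ : G → ℂ) (x * y) = (χ : G → ℂ) x * (χ : G → ℂ) y :=
    fun χ => by simpa using hconst χ 1 1
  have hzero : ∀ χ : Cfsg.IrrCharacter G, (χ : G → ℂ) 1 ≠ 1 → (χ : G → ℂ) (x * y) = 0 := by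
    intro χ hne
    have h1 := avg_product χ x y
    rw [Finset.sum_congr rfl (g := fun _ => (χ : G → ℂ) x * (χ : G → ℂ) y * (χ : G → ℂ) 1) fun w _ => by
      rw [show w⁻¹ * x * w * y = w⁻¹ * x * w⁻¹⁻¹ * (1 * y * 1⁻¹) by simp, hconst],
      Finset.sum_const, nsmul_eq_mul, Finset.card_univ, ← Nat.card_eq_fintype_card] at h1
    have h2 := mul_left_cancel₀ (natCast_card_ne_zero G) h1
    rw [hxy]
    by_contra h0
    exact hne (mul_left_cancel₀ h0 (h2.trans (mul_one _).symm))
  have hconj : ∀ z : G, (∀ χ : Cfsg.IrrCharacter G, (χ : G → ℂ) 1 = 1 → (χ : G → ℂ) z = (χ : G → ℂ) (x * y)) →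
      IsConj (x * y) z := by
    intro z hz
    by_contra hne
    have h0 := col_orth z (x * y)
    have h1 := col_orth (x * y) (x * y)
    rw [Finset.sum_congr rfl (g := fun χ : Cfsg.IrrCharacter G =>
      (χ : G → ℂ) (x * y) * (starRingEnd ℂ) ((χ : G → ℂ) (x * y))) fun χ _ => ?_, h1,
      if_pos (IsConj.refl _), if_neg hne] at h0
    · exact Nat.card_pos.ne' (Nat.cast_eq_zero.mp h0)
    · by_cases hc : (χ : G → ℂ) 1 = 1
      · rw [hz χ hc]
      · rw [hzero χ hc, map_zero, mul_zero, mul_zero]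
  refine ⟨fun z => ⟨fun hz => ?_, ?_⟩, hzero, fun z => ⟨fun hz => ?_, fun hz => hconj z fun χ hc => ?_⟩⟩
  · obtain ⟨w, rfl⟩ := isConj_iff.mp hz
    exact ⟨w, w, by group⟩
  · rintro ⟨a, b, rfl⟩
    exact hconj _ fun χ _ => by rw [hconst, hxy]
  · obtain ⟨w, rfl⟩ := isConj_iff.mp hz
    rw [commutator_def]
    have := Subgroup.commutator_mem_commutator (H₁ := (⊤ : Subgroup G)) (H₂ := (⊤ : Subgroup G))
      (Subgroup.mem_top (x * y)⁻¹) (Subgroup.mem_top w)
    simpa [commutatorElement_def, mul_assoc] using this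
  · obtain ⟨f, hf⟩ := IsCharacter.exists_hom (isCharacter_irr χ) hc
    have h2 : f ((x * y)⁻¹ * z) = 1 := Abelianization.commutator_subset_ker f hz
    rw [map_mul, map_inv, inv_mul_eq_one] at h2
    simp only [hf, h2]

end Cfsg.Agent.S4755
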