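import Cfsg.Statements.S4757
import Cfsg.Agent.Lib.Core
import Cfsg.Agent.Lib.Chars.Misc

set_option autoImplicit false
open Cfsg

namespace Cfsg.Agent.S4757

open CfsgLib.Chars
open scoped ComplexConjugate

/-- Let u ≠ 1 be an element of the finite group G and c a complex number such that every non-principal irreducible character χ satisfies χ(1) − χ(u) = c or χ(u) = 0. Then the following are equivalent: (a) u has order 2, G is generated by u together with O(G), the largest normal subgroup of G of odd order, and the centralizer of u is {1, u}; (b) G is not perfect; (c) c = 2. -/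
theorem result {G : Type*} [Group G] [Finite G] (u : G) (hu : u ≠ 1) (c : ℂ) (hyp : ∀ χ : Cfsg.IrrCharacter G, (χ : G → ℂ) ≠ (fun _ => (1 : ℂ)) → ((χ : G → ℂ) 1 - (χ : G → ℂ) u = c ∨ (χ : G → ℂ) u = 0)) : ((orderOf u = 2 ∧ Subgroup.zpowers u ⊔ Cfsg.oddCore G = ⊤ ∧ Subgroup.centralizer ({u} : Set G) = Subgroup.zpowers u) ↔ commutator G ≠ ⊤) ∧ (commutator G ≠ ⊤ ↔ c = 2) := by
  classical
  haveI := Fintype.ofFinite G
  let one : IrrCharacter G := homIrr 1
  have hone : ∀ g, (one : G → ℂ) g = 1 := fun g => Units.val_one
  have hne1 : ∀ χ : IrrCharacter G, (χ : G → ℂ) ≠ (fun _ => (1 : ℂ)) ↔ χ ≠ one := fun χ =>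
    ⟨fun h e => h (by rw [e]; funext g; exact hone g),
      fun h e => h (Subtype.ext (by rw [e]; funext g; exact (hone g).symm))⟩
  have horth : (1 : ℂ) + ∑ χ ∈ Finset.univ.erase one, (χ : G → ℂ) 1 * (χ : G → ℂ) u = 0 := by
    have h := sum_deg_mul u
    rw [if_neg hu, ← Finset.add_sum_erase _ _ (Finset.mem_univ one), hone, hone, one_mul] at h
    exact h
  have hc0 : c ≠ 0 := by
    intro hc
    have hnn : 0 ≤ (∑ χ ∈ Finset.univ.erase one, (χ : G → ℂ) 1 * (χ : G → ℂ) u).re := by
      rw [Complex.re_sum]
      refine Finset.sum_nonneg fun χ hχ => ?_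
      rcases hyp χ ((hne1 χ).mpr (Finset.ne_of_mem_erase hχ)) with h | h
      · rw [hc, sub_eq_zero] at h
        rw [← h, irr_apply_one, ← Nat.cast_mul, Complex.natCast_re]
        exact Nat.cast_nonneg _
      · simp [h]
    have h := congrArg Complex.re horth
    rw [Complex.add_re, Complex.one_re, Complex.zero_re] at h
    linarith
  -- nontrivial linear characters take the value `1 - c` at `u`
  have hlin : ∀ f : G →* ℂˣ, f ≠ 1 → ((f u : ℂˣ) : ℂ) = 1 - c := by
    intro f hf
    have hne : homIrr f ≠ one := fun h => hf (homIrr_injective h)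
    rcases hyp (homIrr f) ((hne1 _).mpr hne) with h | h
    · rw [show (homIrr f : G → ℂ) 1 = 1 from by simp [homIrr], show (homIrr f : G → ℂ) u = (f u : ℂ) from rfl] at h
      linear_combination -h
    · exact absurd h (f u).ne_zero
  have hR : commutator G ≠ ⊤ → c = 2 ∧ (commutator G).index = 2 := by
    intro hG
    have hidx : 1 < (commutator G).index := by
      have h0 := Subgroup.index_ne_zero_of_finite (H := commutator G)
      have h1 : (commutator G).index ≠ 1 := fun h => hG (Subgroup.index_eq_one.mp h)
      omega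
    rw [← card_linear] at hidx
    haveI : Finite (G →* ℂˣ) := Finite.of_injective _ homIrr_injective
    let e : (G →* ℂˣ) ≃ {χ : IrrCharacter G // charDegree (χ : G → ℂ) = 1} :=
      Equiv.ofBijective (fun f => ⟨homIrr f, charDegree_hom f⟩)
        ⟨fun a b h => homIrr_injective (congrArg Subtype.val h), fun χ => by
          obtain ⟨f, hf⟩ := exists_homIrr χ.1 χ.2
          exact ⟨f, Subtype.ext hf⟩⟩
    rw [← Nat.card_congr e] at hidx
    haveI := Finite.one_lt_card_iff_nontrivial.mp hidx
    obtain ⟨f, hf⟩ := exists_ne (1 : G →* ℂˣ)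
    have hw1 : (1 - c : ℂ) ≠ 1 := fun h => hc0 (by linear_combination -h)
    have hw0 : (1 - c : ℂ) ≠ 0 := hlin f hf ▸ (f u).ne_zero
    have hpair : ∀ a b : G →* ℂˣ, a ≠ 1 → b ≠ 1 → a * b = 1 := by
      intro a b ha hb
      by_contra hab
      have h := hlin _ hab
      rw [MonoidHom.mul_apply, Units.val_mul, hlin a ha, hlin b hb] at h
      exact hw1 (mul_right_cancel₀ hw0 (h.trans (one_mul _).symm))
    have hff := hpair f f hf hf
    have hc2 : c = 2 := by
      have h := congrArg (fun a : G →* ℂˣ => ((a u : ℂˣ) : ℂ)) hff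
      simp only [MonoidHom.mul_apply, Units.val_mul, hlin f hf, MonoidHom.one_apply, Units.val_one] at h
      have h' : c * (c - 2) = 0 := by linear_combination h
      exact sub_eq_zero.mp ((mul_eq_zero.mp h').resolve_left hc0)
    refine ⟨hc2, ?_⟩
    rw [← card_linear, ← Nat.card_congr e, Nat.card_eq_two_iff' (1 : G →* ℂˣ)]
    exact ⟨f, hf, fun g hg => mul_right_cancel ((hpair g f hg hf).trans hff.symm)⟩
  have hiff : commutator G ≠ ⊤ ↔ c = 2 := by
    refine ⟨fun h => (hR h).1, fun hc htop => ?_⟩
    have hdeg : ∀ χ : IrrCharacter G, χ ≠ one → 2 ≤ charDegree (χ : G → ℂ) := by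
      intro χ hχ
      by_contra hlt
      have hd : charDegree (χ : G → ℂ) = 1 := by
        have := charDegree_pos χ
        omega
      obtain ⟨f, rfl⟩ := exists_homIrr χ hd
      apply hχ
      refine congrArg homIrr (MonoidHom.ext fun g => ?_)
      exact (Abelianization.commutator_subset_ker f) (htop ▸ Subgroup.mem_top g)
    have hnn : 0 ≤ (∑ χ ∈ Finset.univ.erase one, (χ : G → ℂ) 1 * (χ : G → ℂ) u).re := by
      rw [Complex.re_sum]
      refine Finset.sum_nonneg fun χ hχ => ?_
      rcases hyp χ ((hne1 χ).mpr (Finset.ne_of_mem_erase hχ)) with h | h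
      · have h2 := hdeg χ (Finset.ne_of_mem_erase hχ)
        have hv : (χ : G → ℂ) u = ((charDegree (χ : G → ℂ) - 2 : ℕ) : ℂ) := by
          rw [Nat.cast_sub h2, ← irr_apply_one]
          push_cast
          linear_combination (-1 : ℂ) * h - hc
        rw [hv, irr_apply_one, ← Nat.cast_mul, Complex.natCast_re]
        exact Nat.cast_nonneg _
      · simp [h]
    have h := congrArg Complex.re horth
    rw [Complex.add_re, Complex.one_re, Complex.zero_re] at h
    linarith
  refine ⟨⟨?_, ?_⟩, hiff⟩
  · rintro ⟨hu2, htop, -⟩ hG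
    set O := Cfsg.oddCore G
    haveI : O.Normal := by
      haveI := CfsgLib.Core.pPrimeCore_characteristic (G := G) 2
      infer_instance
    have hnd : ¬ 2 ∣ Nat.card O := fun h =>
      Nat.prime_two.not_dvd_one ((CfsgLib.Core.card_pPrimeCore_coprime (G := G) 2).gcd_eq_one ▸
        Nat.dvd_gcd h (dvd_refl 2))
    have huO : u ∉ O := fun h => hnd (by
      rw [← hu2, ← Subgroup.orderOf_mk u h]; exact orderOf_dvd_natCard _)
    have hle : commutator G ≤ O := by
      rw [commutator_def, Subgroup.commutator_le]
      intro a _ b _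
      rw [← QuotientGroup.eq_one_iff]
      have hgen : ∀ x : G, ∃ k : ℤ, (x : G ⧸ O) = (u : G ⧸ O) ^ k := by
        intro x
        have hx : x ∈ Subgroup.zpowers u ⊔ O := htop ▸ Subgroup.mem_top x
        obtain ⟨y, hy, z, hz, rfl⟩ := Subgroup.mem_sup_of_normal_right.mp hx
        obtain ⟨k, rfl⟩ := Subgroup.mem_zpowers_iff.mp hy
        exact ⟨k, by rw [QuotientGroup.mk_mul, (QuotientGroup.eq_one_iff z).mpr hz, mul_one,
          QuotientGroup.mk_zpow]⟩
      obtain ⟨i, hi⟩ := hgen a
      obtain ⟨j, hj⟩ := hgen b
      rw [← QuotientGroup.mk'_apply, map_commutatorElement, commutatorElement_eq_one_iff_mul_comm,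
        QuotientGroup.mk'_apply, QuotientGroup.mk'_apply, hi, hj, ← zpow_add, ← zpow_add, add_comm]
    exact huO (hle (hG ▸ Subgroup.mem_top u))
  · intro hG
    obtain ⟨hc, hidx⟩ := hR hG
    obtain ⟨f, hf⟩ : ∃ f : G →* ℂˣ, f ≠ 1 := by
      by_contra hno
      push Not at hno
      have h1 : Nat.card {χ : IrrCharacter G // charDegree (χ : G → ℂ) = 1} ≤ 1 := by
        haveI : Subsingleton {χ : IrrCharacter G // charDegree (χ : G → ℂ) = 1} := ⟨fun a b => by
          obtain ⟨x, hx⟩ := exists_homIrr a.1 a.2
          obtain ⟨y, hy⟩ := exists_homIrr b.1 b.2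
          exact Subtype.ext (by rw [← hx, ← hy, hno x, hno y])⟩
        exact Finite.card_le_one_iff_subsingleton.mpr inferInstance
      rw [card_linear, hidx] at h1
      omega
    have hfu : ((f u : ℂˣ) : ℂ) = -1 := by rw [hlin f hf, hc]; norm_num
    -- all other characters vanish at `u`
    have hvan : ∀ χ : IrrCharacter G, χ ≠ one → χ ≠ homIrr f → (χ : G → ℂ) u = 0 := by
      intro χ h1 h2
      rcases hyp χ ((hne1 χ).mpr h1) with h | h
      swap
      · exact h
      by_contra hne
      let ψ : IrrCharacter G := ⟨_, isIrrCharacter_hom_mul f χ⟩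
      have hψu : (ψ : G → ℂ) u = -(χ : G → ℂ) u := by
        show (f u : ℂ) * (χ : G → ℂ) u = _
        rw [hfu]; ring
      have hψ1 : (ψ : G → ℂ) 1 = (χ : G → ℂ) 1 := by
        show (f 1 : ℂ) * (χ : G → ℂ) 1 = _
        simp
      rw [hc] at h
      by_cases hψ : ψ = one
      · apply h2
        apply Subtype.ext
        funext g
        have hg : (f g : ℂ) * (χ : G → ℂ) g = 1 := (congrFun (congrArg Subtype.val hψ) g).trans (hone g)
        have hff : ((f g : ℂˣ) : ℂ) * (f g : ℂ) = 1 := by
          have h3 : f * f = 1 := by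
            by_contra hne'
            have h4 := hlin _ hne'
            rw [MonoidHom.mul_apply, Units.val_mul, hfu, hc] at h4
            norm_num at h4
          exact congrArg Units.val (DFunLike.congr_fun h3 g)
        show (χ : G → ℂ) g = (f g : ℂ)
        linear_combination (f g : ℂ) * hg - (χ : G → ℂ) g * hff
      · rcases hyp ψ ((hne1 ψ).mpr hψ) with h' | h'
        · rw [hψu, hψ1, hc] at h'
          apply hne
          linear_combination ((1 : ℂ) / 2) * h' - ((1 : ℂ) / 2) * h
        · rw [hψu, neg_eq_zero] at h'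
          exact hne h'
    have hfone : homIrr f ≠ one := fun h => hf (homIrr_injective h)
    have hCcard : Nat.card (Subgroup.centralizer ({u} : Set G)) = 2 := by
      have h := col_orth u u
      rw [if_pos (IsConj.refl u), ← Finset.add_sum_erase _ _ (Finset.mem_univ one),
        ← Finset.add_sum_erase _ _ (Finset.mem_erase.mpr ⟨hfone, Finset.mem_univ _⟩),
        Finset.sum_eq_zero (fun χ hχ => by
          obtain ⟨h1, h2⟩ := Finset.mem_erase.mp hχ
          rw [hvan χ (Finset.ne_of_mem_erase h2) h1, zero_mul]), hone,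
        show (homIrr f : G → ℂ) u = -1 from hfu] at h
      norm_num at h
      rw [Nat.card_eq_fintype_card]
      exact_mod_cast h.symm
    have hZeq : Subgroup.centralizer ({u} : Set G) = Subgroup.zpowers u := by
      refine (Subgroup.eq_of_le_of_card_ge (Subgroup.zpowers_le.mpr
        (Subgroup.mem_centralizer_singleton_iff.mpr rfl)) ?_).symm
      rw [hCcard, Nat.card_zpowers]
      have h0 := orderOf_pos u
      have h1 : orderOf u ≠ 1 := fun h => hu (orderOf_eq_one_iff.mp h)
      omega
    have hu2 : orderOf u = 2 := by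
      rw [← Nat.card_zpowers, ← hZeq, hCcard]
    refine ⟨hu2, ?_, hZeq⟩
    -- the derived subgroup has odd order
    haveI : Fact (Nat.Prime 2) := ⟨Nat.prime_two⟩
    set K := commutator G
    have huK : u ∉ K := fun h => by
      have := Abelianization.commutator_subset_ker f h
      rw [MonoidHom.mem_ker] at this
      rw [this, Units.val_one] at hfu
      norm_num at hfu
    have huu : u * u = 1 := by rw [← pow_two, ← hu2, pow_orderOf_eq_one]
    have hodd : ¬ 2 ∣ Nat.card K := by
      intro h2
      -- every element outside `K` is conjugate to `u`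
      have hclass : ∀ g : G, g ∉ K → IsConj u g := by
        intro g hg
        have hs : Finset.univ.filter (fun y : G => IsConj u y) =
            Finset.univ.filter (fun y : G => y ∉ K) := by
          refine Finset.eq_of_subset_of_card_le (fun y hy => ?_) ?_
          · obtain ⟨x, rfl⟩ := isConj_iff.mp (Finset.mem_filter.mp hy).2
            refine Finset.mem_filter.mpr ⟨Finset.mem_univ _, fun hK => huK ?_⟩
            have := (inferInstance : K.Normal).conj_mem _ hK x⁻¹
            simpa [mul_assoc] using this
          · rw [Finset.filter_not, Finset.card_sdiff]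
            simp only [Finset.inter_univ, ← Fintype.card_subtype, Finset.card_univ, ← Nat.card_eq_fintype_card]
            rw [card_isConj_eq_index]
            have h1 := Subgroup.index_mul_card (Subgroup.centralizer ({u} : Set G))
            have h3 := K.index_mul_card
            rw [hCcard] at h1
            rw [hidx] at h3
            change Nat.card G - Nat.card K ≤ _
            omega
        have := (Finset.ext_iff.mp hs g).mpr (Finset.mem_filter.mpr ⟨Finset.mem_univ _, hg⟩)
        exact (Finset.mem_filter.mp this).2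
      obtain ⟨z, hz⟩ := exists_prime_orderOf_dvd_card' (G := K) 2 h2
      have hzo : orderOf (z : G) = 2 := by rw [Subgroup.orderOf_coe]; exact hz
      have huz : u * (z : G) ∉ K := fun h => huK (by
        have := mul_mem h (inv_mem z.2)
        simpa using this)
      obtain ⟨x, hx⟩ := isConj_iff.mp (hclass _ huz)
      have hsq : u * (z : G) * (u * (z : G)) = 1 := by
        rw [← hx]
        calc x * u * x⁻¹ * (x * u * x⁻¹) = x * (u * u) * x⁻¹ := by group
          _ = 1 := by rw [huu]; group
      have hzz : (z : G) * (z : G) = 1 := by rw [← pow_two, ← hzo, pow_orderOf_eq_one]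
      have hzu : (z : G) * u = u * (z : G) := by
        calc (z : G) * u = u * u * ((z : G) * u) * ((z : G) * (z : G)) := by rw [huu, hzz, one_mul, mul_one]
          _ = u * (u * (z : G) * (u * (z : G))) * (z : G) := by group
          _ = u * (z : G) := by rw [hsq, mul_one]
      have hzC : (z : G) ∈ Subgroup.centralizer ({u} : Set G) :=
        Subgroup.mem_centralizer_singleton_iff.mpr hzu
      rw [hZeq, Subgroup.mem_zpowers_iff] at hzC
      obtain ⟨k, hk⟩ := hzC
      rcases Int.even_or_odd k with ⟨m, rfl⟩ | ⟨m, rfl⟩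
      · rw [← two_mul, zpow_mul, zpow_two, huu, one_zpow] at hk
        rw [← hk, orderOf_one] at hzo
        omega
      · rw [zpow_add_one, zpow_mul, zpow_two, huu, one_zpow, one_mul] at hk
        exact huK (hk ▸ z.2)
    rw [eq_top_iff]
    intro g _
    have hKO : K ≤ Cfsg.oddCore G :=
      CfsgLib.Core.le_pPrimeCore (inferInstance : K.Normal)
        ((Nat.prime_two.coprime_iff_not_dvd.mpr hodd).symm)
    by_cases hg : g ∈ K
    · exact Subgroup.mem_sup_right (hKO hg)
    · have hgu : u⁻¹ * g ∈ K :=
        (Subgroup.mul_mem_iff_of_index_two hidx).mpr (by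
          simp only [Subgroup.inv_mem_iff]
          exact ⟨fun h => absurd h huK, fun h => absurd h hg⟩)
      have : g = u * (u⁻¹ * g) := by group
      rw [this]
      exact Subgroup.mul_mem_sup (Subgroup.mem_zpowers u) (hKO hgu)

end Cfsg.Agent.S4757
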