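import Cfsg.Statements.S4762
import Cfsg.Agent.Lib.Blocks.Reynolds
import Cfsg.Agent.Lib.GroupB.FrobBasic
import Cfsg.Agent.Lib.LocalBasic
import Cfsg.Agent.Lib.FourAct
import Cfsg.Agent.Lib.Chars.Misc

set_option autoImplicit false
open Cfsg

namespace Cfsg.Agent.S4762

open CfsgLib.Chars
open scoped ComplexConjugate commutatorElement

open Classical in
/-- In a group with derived subgroup of order two the nonlinear characters live on the centre. -/
theorem structure_two {P : Type*} [Group P] [Fintype P] (hK : Nat.card (commutator P) = 2) :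
    commutator P ≤ Subgroup.center P ∧
      (∀ χ : IrrCharacter P, charDegree (χ : P → ℂ) ≠ 1 →
        (∀ g, g ∉ Subgroup.center P → (χ : P → ℂ) g = 0) ∧
          Nat.card (Subgroup.center P) * charDegree (χ : P → ℂ) ^ 2 = Nat.card P) ∧
      (∑ χ ∈ Finset.univ.filter (fun χ : IrrCharacter P => charDegree (χ : P → ℂ) ≠ 1),
        charDegree (χ : P → ℂ) ^ 2) + (commutator P).index = Nat.card P := by
  have hle : commutator P ≤ Subgroup.center P := by
    intro z hz
    rw [Subgroup.mem_center_iff]
    intro y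
    by_cases h1 : z = 1
    · simp [h1]
    have h' : y * z * y⁻¹ ∈ commutator P :=
      (inferInstance : (commutator P).Normal).conj_mem z hz y
    haveI := Fintype.ofFinite (commutator P)
    obtain ⟨a, b, hab, huniv⟩ := Finset.card_eq_two.mp
      (show (Finset.univ : Finset (commutator P)).card = 2 by
        rw [Finset.card_univ, ← Nat.card_eq_fintype_card, hK])
    have hcase : ∀ w : commutator P, w = a ∨ w = b := fun w => by
      have := Finset.mem_univ w
      rw [huniv] at this
      simpa using this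
    by_contra hne
    have h3 : (⟨_, h'⟩ : commutator P) ≠ ⟨z, hz⟩ := fun h => hne (by
      have : y * z * y⁻¹ = z := congrArg Subtype.val h
      calc y * z = (y * z * y⁻¹) * y := by group
        _ = z * y := by rw [this])
    have h4 : (⟨_, h'⟩ : commutator P) ≠ 1 := fun h => h1 (by
      have := congrArg Subtype.val h
      simpa using this)
    have h5 : (⟨z, hz⟩ : commutator P) ≠ 1 := fun h => h1 (congrArg Subtype.val h)
    rcases hcase ⟨_, h'⟩ with e1 | e1 <;> rcases hcase ⟨z, hz⟩ with e2 | e2 <;>
      rcases hcase 1 with e3 | e3 <;>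
      first
        | exact h3 (e1.trans e2.symm)
        | exact h4 (e1.trans e3.symm)
        | exact h5 (e2.trans e3.symm)
  have hcard : (commutator P).index * 2 = Nat.card P := by
    rw [← hK, Subgroup.index_mul_card]
  have hvan : ∀ χ : IrrCharacter P, charDegree (χ : P → ℂ) ≠ 1 →
      ∀ g, g ∉ Subgroup.center P → (χ : P → ℂ) g = 0 := by
    intro χ hχ g hg
    have hcl : Nat.card {y : P // IsConj g y} = 2 := by
      apply le_antisymm
      · rw [← hK]
        refine Nat.card_le_card_of_injective (fun y => ⟨y.1 * g⁻¹, ?_⟩) ?_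
        · obtain ⟨c, hc⟩ := isConj_iff.mp y.2
          rw [← hc]
          exact Subgroup.commutator_mem_commutator (Subgroup.mem_top c) (Subgroup.mem_top g)
        · intro a b hab
          exact Subtype.ext (mul_right_cancel (congrArg Subtype.val hab))
      · obtain ⟨y, hy⟩ : ∃ y, y * g ≠ g * y := by
          by_contra hno
          push Not at hno
          exact hg (Subgroup.mem_center_iff.mpr hno)
        haveI : Nontrivial {y : P // IsConj g y} :=
          ⟨⟨g, IsConj.refl g⟩, ⟨y * g * y⁻¹, isConj_iff.mpr ⟨y, rfl⟩⟩, fun h => hy (by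
            have : g = y * g * y⁻¹ := congrArg Subtype.val h
            calc y * g = (y * g * y⁻¹) * y := by group
              _ = g * y := by rw [← this])⟩
        exact Finite.one_lt_card
    have hC : Nat.card (Subgroup.centralizer ({g} : Set P)) = (commutator P).index := by
      have h1 := Subgroup.index_mul_card (Subgroup.centralizer ({g} : Set P))
      rw [← card_isConj_eq_index, hcl, ← hcard] at h1
      linarith
    have h := col_orth g g
    rw [if_pos (IsConj.refl g), hC,
      ← Finset.sum_filter_add_sum_filter_not Finset.univ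
        (fun χ : IrrCharacter P => charDegree (χ : P → ℂ) = 1)] at h
    rw [Finset.sum_congr rfl (g := fun _ => (1 : ℂ)) (fun ψ hψ => by
      obtain ⟨f, rfl⟩ := exists_homIrr ψ (Finset.mem_filter.mp hψ).2
      exact hom_mul_conj f g), Finset.sum_const, nsmul_eq_mul, mul_one, ← card_linear,
      Nat.card_eq_fintype_card, Fintype.card_subtype, add_eq_left] at h
    have hz : ∀ ψ ∈ Finset.univ.filter (fun χ : IrrCharacter P => ¬ charDegree (χ : P → ℂ) = 1),
        Complex.normSq ((ψ : P → ℂ) g) = 0 := by
      refine (Finset.sum_eq_zero_iff_of_nonneg (fun ψ _ => Complex.normSq_nonneg _)).mp ?_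
      have h' : ((∑ ψ ∈ Finset.univ.filter (fun χ : IrrCharacter P => ¬ charDegree (χ : P → ℂ) = 1),
          Complex.normSq ((ψ : P → ℂ) g) : ℝ) : ℂ) = 0 := by
        rw [Complex.ofReal_sum, ← h]
        exact Finset.sum_congr rfl fun ψ _ => (Complex.mul_conj _).symm
      exact_mod_cast h'
    exact Complex.normSq_eq_zero.mp (hz χ (Finset.mem_filter.mpr ⟨Finset.mem_univ _, hχ⟩))
  refine ⟨hle, fun χ hχ => ⟨hvan χ hχ, ?_⟩, ?_⟩
  · have h := sum_mul_conj_irr χ χ
    rw [if_pos rfl, ← Finset.sum_filter_add_sum_filter_not Finset.univ (· ∈ Subgroup.center P),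
      Finset.sum_eq_zero (s := Finset.univ.filter fun x => ¬ x ∈ Subgroup.center P) (fun x hx => by
        rw [hvan χ hχ x (Finset.mem_filter.mp hx).2, zero_mul]), add_zero,
      Finset.sum_congr rfl (g := fun _ => (χ : P → ℂ) 1 * (χ : P → ℂ) 1) (fun x hx => by
        rw [← IsCharacter.map_inv (isCharacter_irr χ), ← mul_central χ (Finset.mem_filter.mp hx).2,
          mul_inv_cancel]),
      Finset.sum_const, nsmul_eq_mul, ← Fintype.card_subtype, ← Nat.card_eq_fintype_card,
      irr_apply_one] at h
    rw [sq]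
    exact_mod_cast h
  · rw [← card_linear, Nat.card_eq_fintype_card, Fintype.card_subtype, Finset.card_eq_sum_ones,
      ← sum_deg_sq, ← Finset.sum_filter_add_sum_filter_not Finset.univ
        (fun χ : IrrCharacter P => charDegree (χ : P → ℂ) = 1), add_comm]
    congr 1
    exact Finset.sum_congr rfl fun χ hχ => by rw [(Finset.mem_filter.mp hχ).2, one_pow]

/-- Let p be a prime and G a finite nilpotent group. Then G has exactly one irreducible complex character of degree divisible by p if and only if p = 2 and G is an extraspecial 2-group. -/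
theorem result {G : Type*} [Group G] [Finite G] [Group.IsNilpotent G] (p : ℕ) [Fact p.Prime] : Nat.card {χ : Cfsg.IrrCharacter G // p ∣ Cfsg.charDegree (χ : G → ℂ)} = 1 ↔ (p = 2 ∧ Cfsg.IsExtraspecial 2 G) := by
  classical
  haveI := Fintype.ofFinite G
  have hp := (Fact.out : p.Prime)
  have hdeg_p : IsPGroup p G → ∀ χ : IrrCharacter G,
      (p ∣ charDegree (χ : G → ℂ) ↔ charDegree (χ : G → ℂ) ≠ 1) := by
    intro hG χ
    obtain ⟨n, hn⟩ := IsPGroup.iff_card.mp hG
    obtain ⟨j, -, hj⟩ := (Nat.dvd_prime_pow hp).mp (hn ▸ charDegree_dvd χ)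
    rw [hj]
    rcases Nat.eq_zero_or_pos j with rfl | hj0
    · simp [hp.ne_one]
    · simp only [dvd_pow_self p hj0.ne', true_iff]
      exact (Nat.one_lt_pow hj0.ne' hp.one_lt).ne'
  constructor
  · intro hone
    rw [Nat.card_eq_one_iff_unique] at hone
    obtain ⟨hsub, ⟨⟨χ, hχ⟩⟩⟩ := hone
    have huniq : ∀ ψ : IrrCharacter G, p ∣ charDegree (ψ : G → ℂ) → ψ = χ := fun ψ hψ =>
      congrArg Subtype.val (hsub.elim ⟨ψ, hψ⟩ ⟨χ, hχ⟩)
    -- `G` is a `p`-group
    obtain ⟨P⟩ : Nonempty (Sylow p G) := inferInstance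
    haveI hPn : (P : Subgroup G).Normal :=
      P.normal_of_normalizerCondition Group.normalizerCondition_of_isNilpotent
    obtain ⟨H, hH⟩ := Subgroup.exists_right_complement'_of_coprime
      (N := (P : Subgroup G)) (P.card_coprime_index)
    have hcomm : ∀ h ∈ H, ∀ x ∈ (P : Subgroup G), Commute h x := by
      intro h hh x hx
      refine CfsgLib.GroupB.FrobBasic.commute_of_coprime ?_
      have h1 : orderOf h ∣ (P : Subgroup G).index := by
        rw [hH.symm.index_eq_card, ← Subgroup.orderOf_mk h hh]
        exact orderOf_dvd_natCard _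
      have h2 : orderOf x ∣ Nat.card (P : Subgroup G) := by
        rw [← Subgroup.orderOf_mk x hx]
        exact orderOf_dvd_natCard _
      exact (P.card_coprime_index.symm.coprime_dvd_left h1).coprime_dvd_right h2
    haveI hHn : H.Normal := ⟨fun n hn g => by
      obtain ⟨⟨x, h⟩, hxh, -⟩ := Subgroup.isComplement_iff_existsUnique.mp hH g
      simp only [] at hxh
      rw [← hxh]
      have hc : Commute ((h : G) * n * (h : G)⁻¹) (x : G) :=
        hcomm _ (H.mul_mem (H.mul_mem h.2 hn) (H.inv_mem h.2)) _ x.2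
      have : (x : G) * (h : G) * n * ((x : G) * (h : G))⁻¹ = (h : G) * n * (h : G)⁻¹ := by
        calc (x : G) * (h : G) * n * ((x : G) * (h : G))⁻¹
            = (x : G) * ((h : G) * n * (h : G)⁻¹) * (x : G)⁻¹ := by group
          _ = _ := by rw [← hc.eq]; group
      rw [this]
      exact H.mul_mem (H.mul_mem h.2 hn) (H.inv_mem h.2)⟩
    have hHp : ¬ p ∣ Nat.card H := by
      rw [← hH.symm.index_eq_card]; exact P.not_dvd_index
    -- `χ` is trivial on `H`
    have hkerH : ∀ h ∈ H, (χ : G → ℂ) h = (χ : G → ℂ) 1 := by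
      haveI : Fintype (G ⧸ H) := Fintype.ofFinite _
      have hQ : IsPGroup p (G ⧸ H) := P.isPGroup'.of_surjective
        ((QuotientGroup.mk' H).comp (P : Subgroup G).subtype) (fun q => by
          obtain ⟨g, rfl⟩ := QuotientGroup.mk_surjective q
          obtain ⟨⟨x, h⟩, hxh, -⟩ := Subgroup.isComplement_iff_existsUnique.mp hH g
          refine ⟨x, QuotientGroup.eq.mpr ?_⟩
          simp only [] at hxh
          rw [← hxh]
          show ((x : G))⁻¹ * ((x : G) * (h : G)) ∈ H
          rw [inv_mul_cancel_left]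
          exact h.2)
      by_contra hne
      apply hne
      obtain ⟨β, hβ⟩ : ∃ β : IrrCharacter (G ⧸ H), charDegree (β : G ⧸ H → ℂ) ≠ 1 := by
        by_contra hno
        push Not at hno
        have hcomQ : ∀ a b : G ⧸ H, a * b = b * a := by
          intro a b
          have h1 : Nat.card {χ : IrrCharacter (G ⧸ H) // charDegree (χ : G ⧸ H → ℂ) = 1} =
              Nat.card (G ⧸ H) := by
            rw [Nat.card_eq_fintype_card, Fintype.card_subtype, Finset.filter_true_of_mem
              (fun χ _ => hno χ), Finset.card_univ, ← sum_deg_sq]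
            simp [hno]
          rw [card_linear, ← (commutator (G ⧸ H)).index_mul_card] at h1
          have h2 : Nat.card (commutator (G ⧸ H)) = 1 :=
            mul_left_cancel₀ Subgroup.index_ne_zero_of_finite (h1.symm.trans (mul_one _).symm)
          rw [← commutatorElement_eq_one_iff_mul_comm]
          have h3 := Subgroup.eq_bot_of_card_eq _ h2
          have h4 : ⁅a, b⁆ ∈ commutator (G ⧸ H) :=
            Subgroup.commutator_mem_commutator (Subgroup.mem_top a) (Subgroup.mem_top b)
          rwa [h3, Subgroup.mem_bot] at h4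
        have hPab : ∀ a b : (P : Subgroup G), a * b = b * a := by
          intro a b
          have h := hcomQ ((a : G) : G ⧸ H) ((b : G) : G ⧸ H)
          rw [← QuotientGroup.mk_mul, ← QuotientGroup.mk_mul, QuotientGroup.eq] at h
          have h2 : ((a : G) * b)⁻¹ * ((b : G) * a) ∈ (P : Subgroup G) ⊓ H :=
            ⟨Subgroup.mul_mem _ (Subgroup.inv_mem _ (Subgroup.mul_mem _ a.2 b.2)) (Subgroup.mul_mem _ b.2 a.2), h⟩
          rw [hH.disjoint.eq_bot, Subgroup.mem_bot, inv_mul_eq_one] at h2
          exact Subtype.ext h2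
        exact P.not_dvd_index (dvd_trans hχ
          (CfsgLib.Blocks.Reynolds.ito χ (P : Subgroup G) hPab))
      obtain ⟨n, hn⟩ := IsPGroup.iff_card.mp hQ
      obtain ⟨j, -, hj⟩ := (Nat.dvd_prime_pow hp).mp (hn ▸ charDegree_dvd β)
      have hinf : charDegree ((β : G ⧸ H → ℂ) ∘ QuotientGroup.mk) = charDegree (β : G ⧸ H → ℂ) := by
        simp [charDegree]
      have := huniq ⟨_, isIrrCharacter_inflate H β⟩ (by
        show p ∣ charDegree ((β : G ⧸ H → ℂ) ∘ QuotientGroup.mk)
        rw [hinf, hj]
        refine dvd_pow_self p fun h0 => hβ ?_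
        rw [hj, h0, pow_zero])
      intro h hh
      rw [← this]
      show (β : G ⧸ H → ℂ) (h : G ⧸ H) = (β : G ⧸ H → ℂ) ((1 : G) : G ⧸ H)
      rw [(QuotientGroup.eq_one_iff h).mpr hh, QuotientGroup.mk_one]
    have hG : IsPGroup p G := by
      rcases eq_or_ne (P : Subgroup G) ⊤ with htop | hne
      · exact P.isPGroup'.of_equiv ((MulEquiv.subgroupCongr htop).trans Subgroup.topEquiv)
      exfalso
      haveI : Nontrivial (G ⧸ (P : Subgroup G)) := QuotientGroup.nontrivial_iff.mpr hne
      haveI : Fintype (G ⧸ (P : Subgroup G)) := Fintype.ofFinite _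
      have h1 : 1 < Nat.card {χ : IrrCharacter (G ⧸ (P : Subgroup G)) //
          charDegree (χ : G ⧸ (P : Subgroup G) → ℂ) = 1} := by
        rw [card_linear]
        have hne' : commutator (G ⧸ (P : Subgroup G)) ≠ ⊤ :=
          (Group.IsSolvable.commutator_lt_top_of_nontrivial (G := G ⧸ (P : Subgroup G))).ne
        have h0 := Subgroup.index_ne_zero_of_finite (H := commutator (G ⧸ (P : Subgroup G)))
        have h1' : (commutator (G ⧸ (P : Subgroup G))).index ≠ 1 := fun h =>
          hne' (Subgroup.index_eq_one.mp h)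
        omega
      let one : {χ : IrrCharacter (G ⧸ (P : Subgroup G)) //
          charDegree (χ : G ⧸ (P : Subgroup G) → ℂ) = 1} :=
        ⟨homIrr 1, charDegree_hom 1⟩
      haveI := Finite.one_lt_card_iff_nontrivial.mp h1
      obtain ⟨μ, hμ⟩ := exists_ne one
      obtain ⟨f, hf⟩ := exists_homIrr μ.1 μ.2
      let F : G →* ℂˣ := f.comp (QuotientGroup.mk' (P : Subgroup G))
      have hFχ := huniq ⟨_, isIrrCharacter_hom_mul F χ⟩ (by
        show p ∣ charDegree (fun g => (F g : ℂ) * (χ : G → ℂ) g)
        have : charDegree (fun g => (F g : ℂ) * (χ : G → ℂ) g) = charDegree (χ : G → ℂ) := by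
          simp [charDegree]
        rwa [this])
      apply hμ
      apply Subtype.ext
      rw [← hf]
      congr 1
      ext g
      obtain ⟨⟨x, h⟩, hxh, -⟩ := Subgroup.isComplement_iff_existsUnique.mp hH g
      simp only [] at hxh
      have hv := congrFun (congrArg Subtype.val hFχ) (h : G)
      simp only [hkerH _ h.2] at hv
      have hFh : (F (h : G) : ℂ) = 1 :=
        mul_right_cancel₀ (irr_one_ne_zero χ) (hv.trans (one_mul _).symm)
      show ((f ((g : G) : G ⧸ (P : Subgroup G)) : ℂˣ) : ℂ) = 1
      rw [← hxh, QuotientGroup.mk_mul, (QuotientGroup.eq_one_iff _).mpr x.2, one_mul]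
      exact hFh
    -- the derived subgroup has order two
    have hfil : Finset.univ.filter (fun ψ : IrrCharacter G => ¬ charDegree (ψ : G → ℂ) = 1) = {χ} := by
      refine Finset.eq_singleton_iff_unique_mem.mpr ⟨Finset.mem_filter.mpr
        ⟨Finset.mem_univ _, (hdeg_p hG χ).mp hχ⟩, fun ψ hψ => ?_⟩
      exact huniq ψ ((hdeg_p hG ψ).mpr (Finset.mem_filter.mp hψ).2)
    have hsq : (commutator G).index + charDegree (χ : G → ℂ) ^ 2 = Nat.card G := by
      rw [← sum_deg_sq, ← Finset.sum_filter_add_sum_filter_not Finset.univ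
        (fun ψ : IrrCharacter G => charDegree (ψ : G → ℂ) = 1), hfil, Finset.sum_singleton,
        ← card_linear, Nat.card_eq_fintype_card, Fintype.card_subtype, Finset.card_eq_sum_ones]
      congr 1
      exact (Finset.sum_congr rfl fun ψ hψ => by rw [(Finset.mem_filter.mp hψ).2, one_pow]).symm
    obtain ⟨n, hn⟩ := IsPGroup.iff_card.mp hG
    obtain ⟨j, -, hj⟩ := (Nat.dvd_prime_pow hp).mp (hn ▸ (commutator G).index_dvd_card)
    obtain ⟨i, -, hi⟩ := (Nat.dvd_prime_pow hp).mp (hn ▸ (commutator G).card_subgroup_dvd_card)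
    obtain ⟨k, -, hk⟩ := (Nat.dvd_prime_pow hp).mp (hn ▸ charDegree_dvd χ)
    have hk0 : k ≠ 0 := fun h => (hdeg_p hG χ).mp hχ (by rw [hk, h, pow_zero])
    rw [← (commutator G).index_mul_card, hk, hj, hi, ← pow_mul] at hsq
    have hi0 : i ≠ 0 := by
      intro h
      rw [h, pow_zero, mul_one] at hsq
      have := pow_pos hp.pos (k * 2)
      omega
    have hdvd : p ^ i - 1 ∣ p ^ (k * 2) := by
      refine ⟨p ^ j, ?_⟩
      have : p ^ (k * 2) = p ^ j * p ^ i - p ^ j := by omega
      rw [this, Nat.sub_mul, one_mul, mul_comm (p ^ i) (p ^ j)]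
    obtain ⟨l, -, hl⟩ := (Nat.dvd_prime_pow hp).mp hdvd
    have hl0 : l = 0 := by
      by_contra hl0
      have h1 : p ∣ p ^ i := dvd_pow_self p hi0
      have h2 : p ∣ p ^ i - 1 := hl ▸ dvd_pow_self p hl0
      have h3 := Nat.dvd_sub h1 h2
      rw [Nat.sub_sub_self (Nat.one_le_pow _ _ hp.pos)] at h3
      exact hp.not_dvd_one h3
    rw [hl0, pow_zero] at hl
    have hpi : p ^ i = 2 := by omega
    have hp2 : p = 2 := (Nat.prime_dvd_prime_iff_eq hp Nat.prime_two).mp
      (hpi ▸ dvd_pow_self p hi0)
    have hK : Nat.card (commutator G) = 2 := by rw [hi, hpi]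
    refine ⟨hp2, ?_⟩
    subst hp2
    obtain ⟨hle, hnl, hsum⟩ := structure_two (P := G) hK
    have hχne := (hdeg_p hG χ).mp hχ
    obtain ⟨-, hZ⟩ := hnl χ hχne
    rw [show Finset.univ.filter (fun ψ : IrrCharacter G => charDegree (ψ : G → ℂ) ≠ 1) = {χ} from hfil,
      Finset.sum_singleton] at hsum
    have hI := (commutator G).index_mul_card
    rw [hK] at hI
    have hZc : Nat.card (Subgroup.center G) = 2 := by
      have hd2 : charDegree (χ : G → ℂ) ^ 2 = (commutator G).index := by omega
      rw [hd2, ← hI, mul_comm (commutator G).index 2] at hZ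
      exact mul_right_cancel₀ Subgroup.index_ne_zero_of_finite hZ
    have hKZ : commutator G = Subgroup.center G :=
      Subgroup.eq_of_le_of_card_ge hle (by rw [hZc, hK])
    refine ⟨⟨hG, ?_, hKZ⟩, hZc⟩
    have hsq2 : ∀ a : G, a ^ 2 ∈ Subgroup.center G := by
      intro a
      rw [Subgroup.mem_center_iff]
      intro b
      have hc : ⁅a, b⁆ ∈ commutator G :=
        Subgroup.commutator_mem_commutator (Subgroup.mem_top a) (Subgroup.mem_top b)
      have hcz := Subgroup.mem_center_iff.mp (hle hc)
      have h2 : ⁅a, b⁆ ^ 2 = 1 := by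
        have := pow_card_eq_one' (x := (⟨_, hc⟩ : commutator G))
        rw [hK] at this
        exact congrArg Subtype.val this
      have e : a * b * a⁻¹ = ⁅a, b⁆ * b := by rw [commutatorElement_def]; group
      have e2 : a ^ 2 * b * (a ^ 2)⁻¹ = ⁅a, b⁆ ^ 2 * b := by
        calc a ^ 2 * b * (a ^ 2)⁻¹ = a * (a * b * a⁻¹) * a⁻¹ := by rw [pow_two]; group
          _ = a * ⁅a, b⁆ * b * a⁻¹ := by rw [e]; group
          _ = ⁅a, b⁆ * (a * b * a⁻¹) := by rw [hcz a]; group
          _ = ⁅a, b⁆ ^ 2 * b := by rw [e, pow_two]; group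
      rw [h2, one_mul] at e2
      calc b * a ^ 2 = (a ^ 2 * b * (a ^ 2)⁻¹) * a ^ 2 := by rw [e2]
        _ = a ^ 2 * b := by group
    refine le_antisymm (CfsgLib.LocalBasic.frattini_le_of_elementary_quotient (p := 2)
      (Subgroup.center G) (fun a b => hle (Subgroup.commutator_mem_commutator
        (Subgroup.mem_top a) (Subgroup.mem_top b))) hsq2) ?_
    rw [← hKZ, commutator_def, Subgroup.commutator_le]
    exact fun a _ b _ => (CfsgLib.FourAct.mem_frattini hG a b).1
  · rintro ⟨rfl, ⟨hG, -, hKZ⟩, hZ⟩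
    have hK : Nat.card (commutator G) = 2 := by rw [hKZ, hZ]
    obtain ⟨-, hnl, hsum⟩ := structure_two (P := G) hK
    rw [Nat.card_congr (Equiv.subtypeEquivRight fun χ => hdeg_p hG χ),
      Nat.card_eq_fintype_card, Fintype.card_subtype]
    have hI := (commutator G).index_mul_card
    rw [hK] at hI
    rw [Finset.sum_congr rfl (g := fun _ => (commutator G).index) (fun χ hχ => by
      have h := (hnl χ (Finset.mem_filter.mp hχ).2).2
      rw [hZ, ← hI, mul_comm (commutator G).index 2] at h
      exact mul_left_cancel₀ two_ne_zero h), Finset.sum_const, smul_eq_mul] at hsum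
    apply mul_right_cancel₀ (Subgroup.index_ne_zero_of_finite (H := commutator G))
    rw [one_mul]
    omega

end Cfsg.Agent.S4762
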