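import Cfsg.Statements.S4763
import Cfsg.Agent.S4713
import Cfsg.Agent.Lib.Chars.GlaubermanFixed
import Cfsg.Agent.Lib.Blocks.Reynolds
import Cfsg.Agent.Lib.Blocks.Cover
import Cfsg.Agent.Lib.CliffordCorr
import Cfsg.Agent.Lib.Chars.Kernel
import Cfsg.Agent.Lib.Chars.Misc
import Mathlib.Algebra.Group.ConjFinite
import Mathlib.GroupTheory.Nilpotent

set_option autoImplicit false
open Cfsg

namespace Cfsg.Agent.S4763

open CfsgLib.Chars CfsgLib.Blocks
open CfsgLib.Chars.Glauberman
open scoped ComplexConjugate commutatorElement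

theorem comm_of_linear {Q : Type*} [Group Q] [Finite Q]
    (h : ∀ χ : Cfsg.IrrCharacter Q, Cfsg.charDegree (χ : Q → ℂ) = 1) (a b : Q) : a * b = b * a := by
  classical
  haveI := Fintype.ofFinite Q
  rw [← commutatorElement_eq_one_iff_mul_comm]
  by_contra hne
  have hs := sum_deg_mul ⁅a, b⁆
  rw [if_neg hne] at hs
  rw [Fintype.sum_congr _ (fun _ => (1 : ℂ)) (fun θ => by
    obtain ⟨f, rfl⟩ := exists_homIrr θ (h θ)
    show ((f 1 : ℂˣ) : ℂ) * ((f ⁅a, b⁆ : ℂˣ) : ℂ) = 1
    rw [map_commutatorElement, commutatorElement_eq_one_iff_mul_comm.mpr (mul_comm _ _), map_one,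
      Units.val_one, one_mul])] at hs
  simp only [Finset.sum_const, Finset.card_univ, nsmul_eq_mul, mul_one, Nat.cast_eq_zero] at hs
  haveI : Nonempty (Cfsg.IrrCharacter Q) := ⟨homIrr 1⟩
  exact Fintype.card_ne_zero hs

theorem mul_of_complement {G : Type*} [Group G] [Fintype G] (A B : Subgroup G)
    (hbij : Function.Bijective (fun q : A × B => (q.1 : G) * (q.2 : G)))
    (α β : Cfsg.IrrCharacter G) (hA : ∀ (a : A) (g : G), (α : G → ℂ) ((a : G) * g) = (α : G → ℂ) g)
    (hB : ∀ (a : A) (b : B), (β : G → ℂ) ((a : G) * b) = (β : G → ℂ) a) :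
    Cfsg.IsIrrCharacter G (fun g => (α : G → ℂ) g * (β : G → ℂ) g) := by
  classical
  refine isIrrCharacter_of_norm_one (IsCharacter.mul (isCharacter_irr α) (isCharacter_irr β)) ?_
  have hsum : ∀ F : G → ℂ, ∑ g, F g = ∑ a : A, ∑ b : B, F ((a : G) * b) := by
    intro F
    rw [← Fintype.sum_prod_type']
    exact (Fintype.sum_bijective _ hbij (fun q : A × B => F ((q.1 : G) * q.2)) F fun q => rfl).symm
  have hcard : (Nat.card G : ℂ) = (Nat.card A : ℂ) * (Nat.card B : ℂ) := by
    rw [← Nat.cast_mul, ← Nat.card_prod, Nat.card_eq_of_bijective _ hbij]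
  have hA0 : (Nat.card A : ℂ) ≠ 0 := natCast_card_ne_zero A
  have hB0 : (Nat.card B : ℂ) ≠ 0 := natCast_card_ne_zero B
  have hα := sum_mul_conj_irr α α
  rw [if_pos rfl, hsum, hcard] at hα
  simp only [hA, Finset.sum_const, nsmul_eq_mul, Finset.card_univ, ← Nat.card_eq_fintype_card] at hα
  have hα' := mul_left_cancel₀ hA0 hα
  have hβ := sum_mul_conj_irr β β
  rw [if_pos rfl, hsum, hcard] at hβ
  simp only [hB, Finset.sum_const, nsmul_eq_mul, Finset.card_univ, ← Nat.card_eq_fintype_card,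
    ← Finset.mul_sum] at hβ
  rw [mul_comm (Nat.card A : ℂ)] at hβ
  have hβ' := mul_left_cancel₀ hB0 hβ
  rw [Cfsg.classInner, hsum]
  simp only [hA, hB, map_mul]
  have : ∀ a : A, ∑ b : B, (α : G → ℂ) b * (β : G → ℂ) a * (conj ((α : G → ℂ) b) * conj ((β : G → ℂ) a)) =
      (Nat.card B : ℂ) * ((β : G → ℂ) a * conj ((β : G → ℂ) a)) := by
    intro a
    rw [← hα', Finset.sum_mul]
    exact Finset.sum_congr rfl fun b _ => by ring
  simp only [this, ← Finset.mul_sum, hβ']
  rw [hcard]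
  field_simp

/-- Let p be a prime and G a finite group that is not nilpotent and has a normal p-complement (a normal subgroup of order prime to p and index a power of p). If G has exactly one irreducible complex character of degree divisible by p, then G has exactly one conjugacy class whose size is divisible by p. -/
theorem result {G : Type*} [Group G] [Finite G] (p : ℕ) [Fact p.Prime] (hnil : ¬ Group.IsNilpotent G) (N : Subgroup G) [N.Normal] (hN : (Nat.card N).Coprime p) (hidx : ∃ k : ℕ, N.index = p ^ k) (hone : Nat.card {χ : Cfsg.IrrCharacter G // p ∣ Cfsg.charDegree (χ : G → ℂ)} = 1) : Nat.card {C : ConjClasses G // p ∣ Nat.card C.carrier} = 1 := by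
  classical
  haveI := Fintype.ofFinite G
  haveI := Fintype.ofFinite N
  have hp : p.Prime := Fact.out
  obtain ⟨k, hk⟩ := hidx
  have hNc : ¬ p ∣ Nat.card N := fun h => hp.not_dvd_one (hN.gcd_eq_one ▸ Nat.dvd_gcd h dvd_rfl)
  obtain ⟨P⟩ : Nonempty (Sylow p G) := inferInstance
  have hPN : Nat.card (P : Subgroup G) = N.index := by
    rw [P.card_eq_multiplicity, hk, ← N.card_mul_index, hk,
      Nat.factorization_mul Nat.card_pos.ne' (pow_ne_zero _ hp.ne_zero), Finsupp.add_apply,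
      Nat.factorization_eq_zero_of_not_dvd hNc, zero_add, Nat.Prime.factorization_pow hp,
      Finsupp.single_eq_same]
  have hcop : (Nat.card N).Coprime (Nat.card (P : Subgroup G)) := by
    rw [hPN, hk]; exact hN.pow_right k
  have hNP1 : ∀ z, z ∈ N → z ∈ (P : Subgroup G) → z = 1 := fun z h1 h2 => by
    have e1 : orderOf z ∣ Nat.card N := Subgroup.orderOf_mk z h1 ▸ orderOf_dvd_natCard _
    have e2 : orderOf z ∣ Nat.card (P : Subgroup G) := Subgroup.orderOf_mk z h2 ▸ orderOf_dvd_natCard _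
    exact orderOf_eq_one_iff.mp (Nat.eq_one_of_dvd_coprimes hcop e1 e2)
  have hbij : Function.Bijective (fun q : N × (P : Subgroup G) => (q.1 : G) * (q.2 : G)) := by
    rw [Nat.bijective_iff_injective_and_card]
    refine ⟨fun a b hab => ?_, by rw [Nat.card_prod, hPN, Subgroup.card_mul_index]⟩
    have e : (b.1 : G)⁻¹ * a.1 = (b.2 : G) * (a.2 : G)⁻¹ := by
      rw [eq_mul_inv_iff_mul_eq, mul_assoc, inv_mul_eq_iff_eq_mul]; exact hab
    have h1 := hNP1 _ (mul_mem (inv_mem b.1.2) a.1.2)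
      (e ▸ mul_mem b.2.2 (inv_mem a.2.2))
    have h2 : a.1 = b.1 := Subtype.ext (inv_mul_eq_one.mp h1).symm
    refine Prod.ext h2 (Subtype.ext ?_)
    have hab' : (a.1 : G) * a.2 = (b.1 : G) * b.2 := hab
    rw [h2] at hab'
    exact mul_left_cancel hab'
  have hdec : ∀ g : G, ∃ n : N, ∃ t : (P : Subgroup G), g = (n : G) * t := fun g => by
    obtain ⟨⟨n, t⟩, h⟩ := hbij.2 g
    exact ⟨n, t, h.symm⟩
  haveI : Group.IsNilpotent (P : Subgroup G) := P.2.isNilpotent
  let φ : (P : Subgroup G) →* MulAut N := MulAut.conjNormal.comp (P : Subgroup G).subtype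
  let F : Subgroup N := (Subgroup.centralizer ((P : Subgroup G) : Set G)).subgroupOf N
  haveI := Fintype.ofFinite F
  have hF : ∀ n, n ∈ F ↔ ∀ s, φ s n = n := by
    intro n
    simp only [F, Subgroup.mem_subgroupOf, Subgroup.mem_centralizer_iff, φ, MonoidHom.comp_apply,
      Subtype.ext_iff, MulAut.conjNormal_apply, Subgroup.coe_subtype, Subtype.forall, SetLike.mem_coe]
    exact forall₂_congr fun a _ => mul_inv_eq_iff_eq_mul.symm
  let S : Setting N F (P : Subgroup G) p :=
    ⟨φ, F.subtype, F.subtype_injective,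
      fun g => ⟨fun h => ⟨⟨g, (hF g).mpr h⟩, rfl⟩, fun ⟨c, hc⟩ => hc ▸ (hF c).mp c.2⟩, P.2, hp, hNc⟩
  have hcardF := card_inv_eq_fixed _ N (P : Subgroup G) φ le_rfl hcop F hF
  rw [card_irr (G := F)] at hcardF
  -- a character of degree prime to `p` lies over invariant characters only
  have hinv : ∀ (χ : Cfsg.IrrCharacter G) (θ : Cfsg.IrrCharacter N), ¬ p ∣ Cfsg.charDegree (χ : G → ℂ) →
      Cfsg.classInner (fun n : N => (χ : G → ℂ) n) (θ : N → ℂ) ≠ 0 → IsInv φ (θ : N → ℂ) := by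
    intro χ θ hχp hχ s n
    let T : Subgroup G :=
      { carrier := {g | conjIrr N θ g = θ}
        one_mem' := conjIrr_one N θ
        mul_mem' := fun {a b} ha hb => by
          show conjIrr N θ (a * b) = θ
          rw [conjIrr_mul, ha, hb]
        inv_mem' := fun {a} ha => by
          show conjIrr N θ a⁻¹ = θ
          conv_lhs => rw [← ha]
          rw [← conjIrr_mul, mul_inv_cancel, conjIrr_one] }
    haveI := Fintype.ofFinite T
    have hmem : ∀ g, g ∈ T ↔ conjIrr N θ g = θ := fun g => Iff.rfl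
    obtain ⟨e, -, -, -, hd⟩ := clifford N χ θ hχ
    rw [CfsgLib.CliffordCorr.card_orbit N θ hmem] at hd
    have hNT : N ≤ T := CfsgLib.CliffordCorr.le_inertia N θ hmem
    obtain ⟨i, -, hi⟩ := (Nat.dvd_prime_pow hp).mp (hk ▸ Subgroup.index_dvd_of_le hNT)
    have hi0 : i = 0 := by
      by_contra h0
      exact hχp (hd ▸ dvd_mul_of_dvd_left (dvd_mul_of_dvd_right (hi ▸ dvd_pow_self p h0) e) _)
    have hT : (s : G) ∈ T := by
      rw [Subgroup.index_eq_one.mp (hi.trans (by rw [hi0, pow_zero]))]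
      trivial
    exact congrFun (congrArg Subtype.val ((hmem _).mp hT)) n
  obtain ⟨hsub, ⟨⟨χ₀, hχ₀⟩⟩⟩ := Nat.card_eq_one_iff_unique.mp hone
  have huniq : ∀ χ : Cfsg.IrrCharacter G, p ∣ Cfsg.charDegree (χ : G → ℂ) → χ = χ₀ := fun χ h =>
    congrArg Subtype.val (hsub.elim ⟨χ, h⟩ ⟨χ₀, hχ₀⟩)
  have hquot : ∀ β : Cfsg.IrrCharacter (G ⧸ N), ∃ j : ℕ, Cfsg.charDegree (β : G ⧸ N → ℂ) = p ^ j := by
    intro β
    obtain ⟨j, -, hj⟩ := (Nat.dvd_prime_pow hp).mp
      (show Cfsg.charDegree (β : G ⧸ N → ℂ) ∣ p ^ k from hk ▸ charDegree_dvd β)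
    exact ⟨j, hj⟩
  -- some character of `N` is not invariant
  have hFtop : F ≠ ⊤ := by
    intro hFtop
    have hcomm : ∀ n : N, ∀ t : (P : Subgroup G), (t : G) * n = (n : G) * t := fun n t => by
      have hn : n ∈ F := hFtop ▸ Subgroup.mem_top n
      exact Subgroup.mem_centralizer_iff.mp (Subgroup.mem_subgroupOf.mp hn) t t.2
    have hPn : (P : Subgroup G).Normal := ⟨fun x hx g => by
      obtain ⟨n, t, rfl⟩ := hdec g
      have h1 : (t : G) * x * (t : G)⁻¹ ∈ (P : Subgroup G) := mul_mem (mul_mem t.2 hx) (inv_mem t.2)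
      have h2 := hcomm n ⟨_, h1⟩
      have : (n : G) * t * x * ((n : G) * t)⁻¹ = (t : G) * x * (t : G)⁻¹ := by
        calc (n : G) * t * x * ((n : G) * t)⁻¹ = (n : G) * ((t : G) * x * (t : G)⁻¹) * (n : G)⁻¹ := by group
          _ = (t : G) * x * (t : G)⁻¹ := by rw [← h2]; group
      rw [this]; exact h1⟩
    haveI := hPn
    have hPna : ¬ ∀ a b : (P : Subgroup G), a * b = b * a := fun h =>
      P.not_dvd_index (hχ₀.trans (CfsgLib.Blocks.Reynolds.ito χ₀ (P : Subgroup G) h))
    obtain ⟨β, hβ⟩ : ∃ β : Cfsg.IrrCharacter (G ⧸ N), Cfsg.charDegree (β : G ⧸ N → ℂ) ≠ 1 := by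
      by_contra h
      push Not at h
      refine hPna fun a b => ?_
      rw [← commutatorElement_eq_one_iff_mul_comm]
      apply Subtype.ext
      refine hNP1 _ ?_ (⁅a, b⁆ : (P : Subgroup G)).2
      rw [← QuotientGroup.eq_one_iff]
      change ((QuotientGroup.mk' N) ((P : Subgroup G).subtype ⁅a, b⁆)) = 1
      rw [map_commutatorElement, map_commutatorElement, commutatorElement_eq_one_iff_mul_comm]
      exact comm_of_linear h _ _
    let α : Cfsg.IrrCharacter G := ⟨_, isIrrCharacter_inflate N β⟩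
    have hαd : p ∣ Cfsg.charDegree (α : G → ℂ) := by
      obtain ⟨j, hj⟩ := hquot β
      show p ∣ Cfsg.charDegree (β : G ⧸ N → ℂ)
      rw [hj]
      exact dvd_pow_self p fun h => hβ (by rw [hj, h, pow_zero])
    have hPtop : (P : Subgroup G) ≠ ⊤ := by
      intro h
      apply hnil
      haveI : Group.IsNilpotent (⊤ : Subgroup G) := h ▸ P.2.isNilpotent
      exact Group.nilpotent_of_mulEquiv Subgroup.topEquiv
    obtain ⟨γ, hγ⟩ : ∃ γ : Cfsg.IrrCharacter (G ⧸ (P : Subgroup G)),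
        (γ : G ⧸ (P : Subgroup G) → ℂ) ≠ fun _ => 1 := by
      by_contra h
      push Not at h
      haveI := Fintype.ofFinite (G ⧸ (P : Subgroup G))
      have hss : Subsingleton (Cfsg.IrrCharacter (G ⧸ (P : Subgroup G))) :=
        ⟨fun a b => Subtype.ext ((h a).trans (h b).symm)⟩
      have hs := sum_deg_sq (G := G ⧸ (P : Subgroup G))
      haveI := hss
      rw [Fintype.sum_subsingleton _ (homIrr (1 : G ⧸ (P : Subgroup G) →* ℂˣ)), charDegree_hom, one_pow] at hs
      apply hPtop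
      rw [← Subgroup.index_eq_one, Subgroup.index_eq_card, ← hs]
    let ψ : Cfsg.IrrCharacter G := ⟨_, isIrrCharacter_inflate (P : Subgroup G) γ⟩
    have hαN : ∀ (a : N) (g : G), (α : G → ℂ) ((a : G) * g) = (α : G → ℂ) g := fun a g => by
      show (β : G ⧸ N → ℂ) (QuotientGroup.mk ((a : G) * g)) = (β : G ⧸ N → ℂ) (QuotientGroup.mk g)
      rw [QuotientGroup.mk_mul, (QuotientGroup.eq_one_iff _).mpr a.2, one_mul]
    have hψP : ∀ (a : N) (b : (P : Subgroup G)), (ψ : G → ℂ) ((a : G) * b) = (ψ : G → ℂ) a := fun a b => by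
      show (γ : G ⧸ (P : Subgroup G) → ℂ) (QuotientGroup.mk ((a : G) * b)) =
        (γ : G ⧸ (P : Subgroup G) → ℂ) (QuotientGroup.mk (a : G))
      rw [QuotientGroup.mk_mul, (QuotientGroup.eq_one_iff _).mpr b.2, mul_one]
    let η : Cfsg.IrrCharacter G := ⟨_, mul_of_complement N (P : Subgroup G) hbij α ψ hαN hψP⟩
    have hη1 : Cfsg.charDegree (η : G → ℂ) =
        Cfsg.charDegree (α : G → ℂ) * Cfsg.charDegree (ψ : G → ℂ) := by
      have h : (η : G → ℂ) 1 = (α : G → ℂ) 1 * (ψ : G → ℂ) 1 := rfl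
      rw [irr_apply_one, irr_apply_one, irr_apply_one, ← Nat.cast_mul] at h
      exact_mod_cast h
    have heq : η = α := (huniq η (hη1 ▸ dvd_mul_of_dvd_left hαd _)).trans (huniq α hαd).symm
    apply hγ
    funext x
    obtain ⟨g, rfl⟩ := QuotientGroup.mk_surjective x
    obtain ⟨a, b, rfl⟩ := hdec g
    show (ψ : G → ℂ) ((a : G) * b) = 1
    rw [hψP]
    have h : (α : G → ℂ) a * (ψ : G → ℂ) a = (α : G → ℂ) a := congrFun (congrArg Subtype.val heq) a
    have ha : (α : G → ℂ) a = (α : G → ℂ) 1 := by simpa using hαN a 1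
    rw [ha] at h
    exact mul_left_cancel₀ (irr_one_ne_zero α) (h.trans (mul_one _).symm)
  -- hence the quotient is abelian
  obtain ⟨θ₀, hθ₀⟩ : ∃ θ : Cfsg.IrrCharacter N, ¬ IsInv φ (θ : N → ℂ) := by
    by_contra h
    push Not at h
    apply hFtop
    rw [Nat.card_congr (Equiv.subtypeUnivEquiv h), card_irr] at hcardF
    have hinj : Function.Injective (ConjClasses.map F.subtype) := by
      intro a b
      obtain ⟨a, rfl⟩ := ConjClasses.mk_surjective a
      obtain ⟨b, rfl⟩ := ConjClasses.mk_surjective b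
      intro hab
      exact ConjClasses.mk_eq_mk_iff_isConj.mpr
        ((isConj_iff_fixed S a b).mp (ConjClasses.mk_eq_mk_iff_isConj.mp hab))
    have hb := (Nat.bijective_iff_injective_and_card _).mpr ⟨hinj, hcardF.symm⟩
    refine Cfsg.Agent.S4713.eq_top_of_conj F fun n => ?_
    obtain ⟨c, hc⟩ := hb.2 (ConjClasses.mk n)
    obtain ⟨f, rfl⟩ := ConjClasses.mk_surjective c
    exact ⟨f, f.2, ConjClasses.mk_eq_mk_iff_isConj.mp hc⟩
  obtain ⟨χ₁, hχ₁⟩ := exists_over N θ₀
  have hχ₁p : p ∣ Cfsg.charDegree (χ₁ : G → ℂ) := by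
    by_contra h
    exact hθ₀ (hinv χ₁ θ₀ h hχ₁)
  have hab : ∀ a b : G, ⁅a, b⁆ ∈ N := by
    intro a b
    rw [← QuotientGroup.eq_one_iff]
    change (QuotientGroup.mk' N) ⁅a, b⁆ = 1
    rw [map_commutatorElement, commutatorElement_eq_one_iff_mul_comm]
    refine comm_of_linear (fun β => ?_) _ _
    obtain ⟨j, hj⟩ := hquot β
    by_contra hne
    have hd : p ∣ Cfsg.charDegree (β : G ⧸ N → ℂ) :=
      hj ▸ dvd_pow_self p fun h => hne (by rw [hj, h, pow_zero])
    have e := (huniq ⟨_, isIrrCharacter_inflate N β⟩ hd).trans (huniq χ₁ hχ₁p).symm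
    apply hθ₀
    have hone' : Cfsg.classInner (fun n : N => (χ₁ : G → ℂ) n) (homIrr (1 : N →* ℂˣ) : N → ℂ) ≠ 0 := by
      have hv : ∀ n : N, (χ₁ : G → ℂ) n = (β : G ⧸ N → ℂ) 1 := fun n => by
        rw [← e]
        show (β : G ⧸ N → ℂ) (QuotientGroup.mk (n : G)) = _
        rw [(QuotientGroup.eq_one_iff _).mpr n.2]
      simp only [Cfsg.classInner, hv, homIrr, MonoidHom.one_apply, Units.val_one, map_one, mul_one,
        Finset.sum_const, nsmul_eq_mul, Finset.card_univ, ← Nat.card_eq_fintype_card]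
      rw [← mul_assoc, inv_mul_cancel₀ (natCast_card_ne_zero N), one_mul]
      exact irr_one_ne_zero β
    obtain ⟨g, hg⟩ := clifford_conjugate N χ₁ (homIrr 1) θ₀ hone' hχ₁
    intro s n
    rw [hg, conjIrr_apply, conjIrr_apply]
    rfl
  have hPc : ∀ a ∈ (P : Subgroup G), ∀ b ∈ (P : Subgroup G), a * b = b * a := fun a ha b hb => by
    rw [← commutatorElement_eq_one_iff_mul_comm]
    exact hNP1 _ (hab a b) (mul_mem (mul_mem (mul_mem ha hb) (inv_mem ha)) (inv_mem hb))
  -- the two counts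
  have hfib : ∀ θ : Cfsg.IrrCharacter N, (Finset.univ.filter fun χ : Cfsg.IrrCharacter G =>
      Cfsg.classInner (fun n : N => (χ : G → ℂ) n) (θ : N → ℂ) ≠ 0).card ≤ N.index := by
    intro θ
    have hI := IsCharacter.indFun N (isCharacter_irr θ)
    choose m hm using exists_mult hI
    have he := classFunction_expand (IsCharacter.isClassFunction hI) 1
    simp only [hm, irr_apply_one, indFun_one] at he
    have he' : N.index * Cfsg.charDegree (θ : N → ℂ) =
        ∑ χ : Cfsg.IrrCharacter G, m χ * Cfsg.charDegree (χ : G → ℂ) := by exact_mod_cast he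
    refine Nat.le_of_mul_le_mul_right ?_ (charDegree_pos θ)
    rw [he', ← smul_eq_mul, ← Finset.sum_const]
    refine le_trans (Finset.sum_le_sum fun χ hχ => ?_)
      (Finset.sum_le_sum_of_subset (Finset.subset_univ _))
    have hc := (Finset.mem_filter.mp hχ).2
    have h1 : m χ ≠ 0 := fun h0 => hc (by
      rw [classInner_character_comm (IsCharacter.restrict (isCharacter_irr χ) N) (isCharacter_irr θ),
        ← frobenius N (θ : N → ℂ) (IsCharacter.isClassFunction (isCharacter_irr χ)), hm, h0, Nat.cast_zero])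
    have h2 := charDegree_le_of_constituent (IsCharacter.restrict (isCharacter_irr χ) N) θ hc
    have h3 : Cfsg.charDegree (fun n : N => (χ : G → ℂ) n) = Cfsg.charDegree (χ : G → ℂ) := by
      simp [Cfsg.charDegree]
    calc Cfsg.charDegree (θ : N → ℂ) ≤ 1 * Cfsg.charDegree (χ : G → ℂ) := by rw [one_mul]; exact h3 ▸ h2
      _ ≤ m χ * Cfsg.charDegree (χ : G → ℂ) := Nat.mul_le_mul_right _ (by omega)
  choose con hcon using fun χ : Cfsg.IrrCharacter G => exists_res_constituent N χ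
  have hupper : Nat.card {χ : Cfsg.IrrCharacter G // ¬ p ∣ Cfsg.charDegree (χ : G → ℂ)} ≤
      N.index * Nat.card (ConjClasses F) := by
    rw [Nat.card_eq_fintype_card, Fintype.card_subtype]
    refine le_trans (Finset.card_le_mul_card_image (f := con) _ N.index fun θ _ => ?_)
      (Nat.mul_le_mul_left _ ?_)
    · refine le_trans (Finset.card_le_card fun χ hχ => ?_) (hfib θ)
      obtain ⟨-, rfl⟩ := Finset.mem_filter.mp hχ
      exact Finset.mem_filter.mpr ⟨Finset.mem_univ _, hcon χ⟩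
    · rw [← hcardF, Nat.card_eq_fintype_card, Fintype.card_subtype]
      refine Finset.card_le_card fun θ hθ => ?_
      obtain ⟨χ, hχ, rfl⟩ := Finset.mem_image.mp hθ
      exact Finset.mem_filter.mpr ⟨Finset.mem_univ _, hinv χ _ (Finset.mem_filter.mp hχ).2 (hcon χ)⟩
  have hcls : ∀ g : G, Nat.card (ConjClasses.mk g).carrier = (Subgroup.centralizer ({g} : Set G)).index := by
    intro g
    rw [← card_isConj_eq_index]
    exact Nat.card_congr (Equiv.subtypeEquivRight fun y => by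
      rw [ConjClasses.mem_carrier_iff_mk_eq, ConjClasses.mk_eq_mk_iff_isConj]; exact isConj_comm)
  have hlower : N.index * Nat.card (ConjClasses F) ≤
      Nat.card {C : ConjClasses G // ¬ p ∣ Nat.card C.carrier} := by
    rw [← hPN, ← Nat.card_prod]
    choose rep hrep using (ConjClasses.mk_surjective : Function.Surjective (ConjClasses.mk (α := F)))
    have hcen : ∀ (f : F) (t : (P : Subgroup G)),
        (P : Subgroup G) ≤ Subgroup.centralizer ({((f : N) : G) * t} : Set G) := by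
      intro f t a ha
      rw [Subgroup.mem_centralizer_singleton_iff]
      have h1 := Subgroup.mem_centralizer_iff.mp (Subgroup.mem_subgroupOf.mp f.2) a ha
      rw [← mul_assoc, h1, mul_assoc, mul_assoc, hPc a ha t t.2]
    refine Nat.card_le_card_of_injective (fun q : ↥(P : Subgroup G) × ConjClasses F =>
      ⟨ConjClasses.mk (((rep q.2 : N) : G) * (q.1 : G)), fun h => P.not_dvd_index
        ((hcls _ ▸ h).trans (Subgroup.index_dvd_of_le (hcen _ _)))⟩) ?_
    rintro ⟨t, c⟩ ⟨t', c'⟩ h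
    have h' := ConjClasses.mk_eq_mk_iff_isConj.mp (congrArg Subtype.val h)
    obtain ⟨z, hz⟩ := isConj_iff.mp h'
    dsimp only at hz
    set f : N := (rep c : N) with hf
    set f' : N := (rep c' : N) with hf'
    have ht : t = t' := by
      have e : ((f : G) * t)⁻¹ * ((f' : G) * t') ∈ N := by
        rw [← hz]
        have := hab ((f : G) * t)⁻¹ z
        rw [commutatorElement_def, inv_inv] at this
        simpa [mul_assoc] using this
      have e2 : (t : G)⁻¹ * t' ∈ N := by
        have : (t : G)⁻¹ * t' = (t : G)⁻¹ * (f : G) * t * ((((f : G) * t)⁻¹ * ((f' : G) * t'))) *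
            ((t' : G)⁻¹ * (f' : G)⁻¹ * t') := by group
        rw [this]
        refine mul_mem (mul_mem ?_ e) ?_
        · simpa using (inferInstance : N.Normal).conj_mem _ f.2 (t : G)⁻¹
        · simpa [mul_assoc] using (inferInstance : N.Normal).conj_mem _ (inv_mem f'.2) (t' : G)⁻¹
      exact Subtype.ext (inv_mul_eq_one.mp (hNP1 _ e2 (mul_mem (inv_mem t.2) t'.2)))
    subst ht
    refine Prod.ext rfl ?_
    show c = c'
    rw [← hrep c, ← hrep c', ConjClasses.mk_eq_mk_iff_isConj]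
    refine (isConj_iff_fixed S _ _).mp ?_
    obtain ⟨j, hj1, hj2⟩ : ∃ j : ℕ, j ≡ 1 [MOD Nat.card N] ∧ j ≡ 0 [MOD Nat.card (P : Subgroup G)] :=
      ⟨(Nat.chineseRemainder hcop 1 0).1, (Nat.chineseRemainder hcop 1 0).2.1,
        (Nat.chineseRemainder hcop 1 0).2.2⟩
    have hpow : ∀ e : F, (((e : N) : G) * (t : G)) ^ j = ((e : N) : G) := by
      intro e
      have hc : Commute ((e : N) : G) (t : G) :=
        (Subgroup.mem_centralizer_iff.mp (Subgroup.mem_subgroupOf.mp e.2) t t.2).symm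
      rw [hc.mul_pow]
      have h1 : (e : N) ^ j = (e : N) := by
        conv_rhs => rw [← pow_one (e : N)]
        rw [pow_eq_pow_iff_modEq]
        exact hj1.of_dvd (orderOf_dvd_natCard _)
      have h2 : t ^ j = 1 := by
        rw [← pow_zero t, pow_eq_pow_iff_modEq]
        exact hj2.of_dvd (orderOf_dvd_natCard _)
      rw [← Subgroup.coe_pow, h1, ← Subgroup.coe_pow, h2, OneMemClass.coe_one, mul_one]
    have hz2 : z * (f : G) * z⁻¹ = (f' : G) := by
      rw [hf, hf', ← hpow (rep c), ← hpow (rep c'), ← conj_pow, hz]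
    obtain ⟨n, s, rfl⟩ := hdec z
    refine isConj_iff.mpr ⟨n, Subtype.ext ?_⟩
    show (n : G) * (f : G) * (n : G)⁻¹ = (f' : G)
    have hs := Subgroup.mem_centralizer_iff.mp (Subgroup.mem_subgroupOf.mp (rep c).2) s s.2
    rw [← hz2]
    calc (n : G) * (f : G) * (n : G)⁻¹ = (n : G) * ((f : G) * s) * (s : G)⁻¹ * (n : G)⁻¹ := by group
      _ = _ := by rw [hf, ← hs]; group
  have hex : ∃ C : ConjClasses G, p ∣ Nat.card C.carrier := by
    by_contra h
    push Not at h
    apply hFtop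
    refine Cfsg.Agent.S4713.eq_top_of_conj F fun n => ?_
    letI : MulAction (P : Subgroup G) {y : G // IsConj (n : G) y} :=
      { smul := fun s y => ⟨(s : G) * y.1 * (s : G)⁻¹, y.2.trans (isConj_iff.mpr ⟨s, rfl⟩)⟩
        one_smul := fun y => Subtype.ext (show ((1 : (P : Subgroup G)) : G) * y.1 * ((1 : (P : Subgroup G)) : G)⁻¹ = y.1 by simp)
        mul_smul := fun s t y => Subtype.ext (show ((s * t : (P : Subgroup G)) : G) * y.1 * ((s * t : (P : Subgroup G)) : G)⁻¹ =
          (s : G) * ((t : G) * y.1 * (t : G)⁻¹) * (s : G)⁻¹ by simp only [Subgroup.coe_mul]; group) }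
    have hnd : ¬ p ∣ Nat.card {y : G // IsConj (n : G) y} := by
      rw [card_isConj_eq_index, ← hcls]; exact h _
    obtain ⟨⟨y, hy⟩, hfix⟩ := P.2.nonempty_fixed_point_of_prime_not_dvd_card _ hnd
    obtain ⟨z, hz⟩ := isConj_iff.mp hy
    have hyN : y ∈ N := hz ▸ (inferInstance : N.Normal).conj_mem _ n.2 z
    have hyC : ∀ s : (P : Subgroup G), (s : G) * y = y * s := fun s =>
      mul_inv_eq_iff_eq_mul.mp (congrArg Subtype.val (hfix s))
    obtain ⟨m, s, rfl⟩ := hdec z
    refine ⟨⟨y, hyN⟩, Subgroup.mem_subgroupOf.mpr (Subgroup.mem_centralizer_iff.mpr fun a ha => hyC ⟨a, ha⟩), ?_⟩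
    refine isConj_iff.mpr ⟨conjN N (s : G)⁻¹ m⁻¹, Subtype.ext ?_⟩
    simp only [Subgroup.coe_mul, InvMemClass.coe_inv, conjN_coe, inv_inv]
    have hs := hyC s
    calc (s : G)⁻¹ * (m : G)⁻¹ * s * y * ((s : G)⁻¹ * (m : G)⁻¹ * s)⁻¹
        = (s : G)⁻¹ * (m : G)⁻¹ * ((s : G) * y) * (s : G)⁻¹ * m * s := by group
      _ = (s : G)⁻¹ * (m : G)⁻¹ * (y * s) * (s : G)⁻¹ * m * s := by rw [hs]
      _ = (s : G)⁻¹ * (m : G)⁻¹ * ((m : G) * s * n * ((m : G) * s)⁻¹) * m * s := by rw [hz]; group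
      _ = (n : G) := by group
  have hsplit1 : Nat.card {χ : Cfsg.IrrCharacter G // p ∣ Cfsg.charDegree (χ : G → ℂ)} +
      Nat.card {χ : Cfsg.IrrCharacter G // ¬ p ∣ Cfsg.charDegree (χ : G → ℂ)} = Nat.card (ConjClasses G) := by
    rw [← Nat.card_sum, ← card_irr (G := G)]
    exact Nat.card_congr (Equiv.sumCompl _)
  have hsplit2 : Nat.card {C : ConjClasses G // p ∣ Nat.card C.carrier} +
      Nat.card {C : ConjClasses G // ¬ p ∣ Nat.card C.carrier} = Nat.card (ConjClasses G) := by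
    rw [← Nat.card_sum]
    exact Nat.card_congr (Equiv.sumCompl _)
  have hpos : 0 < Nat.card {C : ConjClasses G // p ∣ Nat.card C.carrier} := by
    obtain ⟨C, hC⟩ := hex
    haveI : Nonempty {C : ConjClasses G // p ∣ Nat.card C.carrier} := ⟨⟨C, hC⟩⟩
    exact Nat.card_pos
  omega

end Cfsg.Agent.S4763
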