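import Cfsg.Statements.S4765
import Cfsg.Agent.Lib.SL2Borel.Degrees

set_option autoImplicit false
open Cfsg

namespace Cfsg.Agent.S4765

/-- Let F be a finite field of characteristic p with at least 4 elements. Then PSL(2,F) has exactly one irreducible complex character of degree divisible by p, and its degree is the order of F. -/
theorem result (p : ℕ) [Fact p.Prime] (F : Type*) [Field F] [Fintype F] [CharP F p] (hF : 4 ≤ Fintype.card F) : Nat.card {χ : Cfsg.IrrCharacter (Matrix.ProjectiveSpecialLinearGroup (Fin 2) F) // p ∣ Cfsg.charDegree (χ : Matrix.ProjectiveSpecialLinearGroup (Fin 2) F → ℂ)} = 1 ∧ ∀ χ : Cfsg.IrrCharacter (Matrix.ProjectiveSpecialLinearGroup (Fin 2) F), p ∣ Cfsg.charDegree (χ : Matrix.ProjectiveSpecialLinearGroup (Fin 2) F → ℂ) → Cfsg.charDegree (χ : Matrix.ProjectiveSpecialLinearGroup (Fin 2) F → ℂ) = Fintype.card F := by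
  classical
  let π := QuotientGroup.mk' (Subgroup.center (Matrix.SpecialLinearGroup (Fin 2) F))
  have hπ : Function.Surjective π := QuotientGroup.mk'_surjective _
  obtain ⟨n, hp, hn⟩ := FiniteField.card F p
  have hpq : p ∣ Fintype.card F := by rw [hn]; exact dvd_pow_self p n.pos.ne'
  have hp1 : ¬ p ∣ 1 := fun h => hp.one_lt.ne' (Nat.dvd_one.1 h)
  have hdeg : ∀ χ : Cfsg.IrrCharacter (Matrix.ProjectiveSpecialLinearGroup (Fin 2) F),
      p ∣ Cfsg.charDegree (χ : Matrix.ProjectiveSpecialLinearGroup (Fin 2) F → ℂ) →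
      Cfsg.charDegree (χ : Matrix.ProjectiveSpecialLinearGroup (Fin 2) F → ℂ) = Fintype.card F := by
    intro χ hdvd
    have hirr := CfsgLib.Chars.IsIrrCharacter.comp χ.2 π hπ
    obtain ⟨X, Y, hY12, hd, -, -, hcases, hev⟩ := CfsgLib.SL2Borel.over_degree (⟨_, hirr⟩ : Cfsg.IrrCharacter _)
    have hsame : Cfsg.charDegree (fun g => (χ : Matrix.ProjectiveSpecialLinearGroup (Fin 2) F → ℂ) (π g)) =
        Cfsg.charDegree (χ : Matrix.ProjectiveSpecialLinearGroup (Fin 2) F → ℂ) := by
      unfold Cfsg.charDegree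
      simp only [map_one]
    dsimp only at hd
    rw [hsame] at hd
    have hdX : p ∣ Cfsg.charDegree (X : Matrix.GeneralLinearGroup (Fin 2) F → ℂ) := hd ▸ hdvd.mul_left _
    have hXq : Cfsg.charDegree (X : Matrix.GeneralLinearGroup (Fin 2) F → ℂ) = Fintype.card F := by
      rcases hcases with c | c | c | c
      · rw [c] at hdX; exact absurd hdX hp1
      · rw [c] at hdX
        exact absurd ((Nat.dvd_add_right hdX).1 (by rwa [Nat.sub_add_cancel Fintype.card_pos])) hp1
      · exact c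
      · rw [c] at hdX
        exact absurd ((Nat.dvd_add_right hpq).1 hdX) hp1
    rw [hXq] at hd
    rcases hY12 with h | h
    · rw [h, one_mul] at hd; exact hd.symm
    · exfalso
      have := hev (by rw [hd, h]; exact even_two_mul _)
      omega
  refine ⟨?_, hdeg⟩
  obtain ⟨St, hSt, hStval⟩ := CfsgLib.SL2Borel.exists_deg_card (F := F)
  obtain ⟨φ, hφ⟩ := CfsgLib.Chars.exists_deflate (Subgroup.center (Matrix.SpecialLinearGroup (Fin 2) F)) St (by
    intro z hz
    obtain ⟨r, hr, hrz⟩ := Matrix.SpecialLinearGroup.mem_center_iff.1 hz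
    have hr2 : r * r = 1 := by rw [← pow_two]; simpa using hr
    have e00 : (z : Matrix (Fin 2) (Fin 2) F) 0 0 = r := by rw [← hrz]; simp
    have e11 : (z : Matrix (Fin 2) (Fin 2) F) 1 1 = r := by rw [← hrz]; simp
    have e01 : (z : Matrix (Fin 2) (Fin 2) F) 0 1 = 0 := by rw [← hrz]; simp
    have e10 : (z : Matrix (Fin 2) (Fin 2) F) 1 0 = 0 := by rw [← hrz]; simp
    rw [CfsgLib.Chars.irr_apply_one, hSt, hStval, CfsgLib.GL2Borel.indFun_eq, CfsgLib.SL2Borel.toGL_coe, e00, e11, e01, e10]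
    simp only [if_true, zero_mul, sub_self, add_zero, zero_add, sub_zero, ← map_mul, hr2, map_one, Finset.sum_const,
      Finset.card_univ, nsmul_eq_mul, mul_one]
    ring)
  have hφdeg : Cfsg.charDegree (φ : Matrix.ProjectiveSpecialLinearGroup (Fin 2) F → ℂ) = Fintype.card F := by
    rw [← hSt, hφ]
    rfl
  rw [Nat.card_eq_one_iff_unique]
  refine ⟨⟨fun a b => ?_⟩, ⟨⟨φ, hφdeg ▸ hpq⟩⟩⟩
  have h := CfsgLib.SL2Borel.deg_card_unique ⟨_, CfsgLib.Chars.IsIrrCharacter.comp a.1.2 π hπ⟩ ⟨_, CfsgLib.Chars.IsIrrCharacter.comp b.1.2 π hπ⟩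
    (by have := hdeg a.1 a.2; unfold Cfsg.charDegree at this ⊢; simpa only [map_one] using this)
    (by have := hdeg b.1 b.2; unfold Cfsg.charDegree at this ⊢; simpa only [map_one] using this)
  refine Subtype.ext (Subtype.ext (funext fun x => ?_))
  obtain ⟨g, rfl⟩ := hπ x
  exact congrFun (congrArg Subtype.val h) g

end Cfsg.Agent.S4765
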