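import Cfsg.Statements.S4768
import Cfsg.Agent.S4713
import Cfsg.Agent.Lib.PSolvable
import Cfsg.Agent.Lib.Blocks.Cover
import Cfsg.Agent.Lib.CliffordCorr
import Cfsg.Agent.Lib.Chars.Kernel
import Cfsg.Agent.Lib.Chars.Misc
import Mathlib.GroupTheory.Solvable
import Mathlib.LinearAlgebra.Determinant

set_option autoImplicit false
open Cfsg

namespace Cfsg.Agent.S4768

open CfsgLib.Chars CfsgLib.Blocks
open scoped commutatorElement Pointwise

universe u

theorem succ_eq_bot {P : Type u} [Group P] (A : Subgroup P) (hA : ∀ a ∈ A, ∀ b ∈ A, a * b = b * a) (k : ℕ)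
    (h : derivedSeries P k ≤ A) : derivedSeries P (k + 1) = ⊥ := by
  rw [derivedSeries_succ, eq_bot_iff, Subgroup.commutator_le]
  exact fun a ha b hb => Subgroup.mem_bot.mpr (commutatorElement_eq_one_iff_mul_comm.mpr (hA a (h ha) b (h hb)))

theorem scalar_of_char {N : Type u} [Group N] [Finite N] {d : ℕ}
    (ρ : Representation ℂ N (Fin d → ℂ)) (f : N →* ℂˣ) (h : ∀ n, ρ.character n = (f n : ℂ) * (d : ℂ))
    (n : N) : ρ n = (f n : ℂ) • (1 : Module.End ℂ (Fin d → ℂ)) := by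
  let σ : Representation ℂ N (Fin d → ℂ) :=
    { toFun := fun x => ((f x⁻¹ : ℂˣ) : ℂ) • ρ x
      map_one' := by simp
      map_mul' := fun a b => by
        rw [map_mul ρ, mul_inv_rev, map_mul f, mul_comm (f b⁻¹), Units.val_mul, smul_mul_smul_comm] }
  have h1 : σ.character n = σ.character 1 := by
    have e : ∀ x, σ.character x = (d : ℂ) := fun x => by
      change LinearMap.trace ℂ _ (((f x⁻¹ : ℂˣ) : ℂ) • ρ x) = _
      rw [map_smul, smul_eq_mul]
      change ((f x⁻¹ : ℂˣ) : ℂ) * ρ.character x = _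
      rw [h, ← mul_assoc, ← Units.val_mul, ← map_mul, inv_mul_cancel, map_one, Units.val_one, one_mul]
    rw [e, e]
  have h2 : σ n = 1 := (character_eq_degree_iff (ρ := σ) n).mp h1
  have h3 : ((f n⁻¹ : ℂˣ) : ℂ) • ρ n = 1 := h2
  calc ρ n = ((f n : ℂˣ) : ℂ) • (((f n⁻¹ : ℂˣ) : ℂ) • ρ n) := by
        rw [smul_smul, ← Units.val_mul, ← map_mul, mul_inv_cancel, map_one, Units.val_one, one_smul]
    _ = _ := by rw [h3]

theorem linear_ext {T : Type u} [Group T] [Finite T] {p : ℕ} [hp : Fact p.Prime] (M : Subgroup T)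
    (hM : IsPGroup p M) (ψ : Cfsg.IrrCharacter T) (lam : M →* ℂˣ)
    (hres : ∀ m : M, (ψ : T → ℂ) m = (lam m : ℂ) * (Cfsg.charDegree (ψ : T → ℂ) : ℂ))
    (hd : ¬ p ∣ Cfsg.charDegree (ψ : T → ℂ)) : ∃ f : T →* ℂˣ, ∀ m : M, f m = lam m := by
  obtain ⟨n, ρ, -, hρ⟩ := ψ.2
  have hdn : Cfsg.charDegree (ψ : T → ℂ) = n := by
    have h1 := irr_apply_one ψ
    rw [← hρ, Representation.char_one, Module.finrank_fin_fun, hρ] at h1
    exact_mod_cast h1.symm
  rw [hdn] at hd hres
  have hs := scalar_of_char (ρ.comp M.subtype) lam (fun m => by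
    rw [← hres, ← hρ]; rfl)
  let δ : T →* ℂˣ := ((LinearMap.det : Module.End ℂ (Fin n → ℂ) →* ℂ).comp ρ).toHomUnits
  have hδ : ∀ m : M, δ m = lam m ^ n := by
    intro m
    apply Units.ext
    show LinearMap.det (ρ (m : T)) = _
    have e : ρ (m : T) = (lam m : ℂ) • (1 : Module.End ℂ (Fin n → ℂ)) := hs m
    rw [e, LinearMap.det_smul, map_one, mul_one, Module.finrank_fin_fun, Units.val_pow_eq_pow_val]
  obtain ⟨j, hj⟩ := hM.exists_card_eq
  have hcop : Nat.Coprime n (p ^ j) := ((hp.out.coprime_iff_not_dvd.mpr hd).symm).pow_right j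
  have h := (Nat.chineseRemainder hcop 0 1).2
  obtain ⟨c, hc⟩ : n ∣ (Nat.chineseRemainder hcop 0 1).1 := Nat.modEq_zero_iff_dvd.mp h.1
  refine ⟨δ ^ c, fun m => ?_⟩
  rw [MonoidHom.pow_apply, hδ, ← pow_mul, ← hc]
  conv_rhs => rw [← pow_one (lam m)]
  rw [pow_eq_pow_iff_modEq]
  refine h.2.of_dvd ?_
  exact (orderOf_map_dvd lam m).trans (hj ▸ orderOf_dvd_natCard m)

theorem quot_sylow_le {G : Type u} [Group G] [Finite G] {p : ℕ} [hp : Fact p.Prime]
    (hs : Cfsg.IsPSolvable p G) (N : Subgroup G) [N.Normal] (hN : IsPGroup p N)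
    (hab : ∀ a b : N, a * b = b * a) (hN0 : N ≠ ⊥)
    (hkill : ∀ χ : Cfsg.IrrCharacter G, p ∣ Cfsg.charDegree (χ : G → ℂ) → ∀ x ∈ N, (χ : G → ℂ) x = (χ : G → ℂ) 1)
    (P : Sylow p G) : ∀ a ∈ (P : Subgroup G), ∀ b ∈ (P : Subgroup G), ⁅a, b⁆ ∈ N := by
  classical
  haveI := Fintype.ofFinite G
  haveI := Fintype.ofFinite N
  obtain ⟨θ, hθ⟩ : ∃ θ : Cfsg.IrrCharacter N, θ ≠ homIrr 1 := by
    by_contra h
    push Not at h
    apply hN0
    rw [← Subgroup.card_eq_one, ← sum_deg_sq (G := N)]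
    haveI : Subsingleton (Cfsg.IrrCharacter N) := ⟨fun a b => (h a).trans (h b).symm⟩
    rw [Fintype.sum_subsingleton _ (homIrr (1 : N →* ℂˣ)), charDegree_hom, one_pow]
  have hgood : ∀ χ : Cfsg.IrrCharacter G,
      Cfsg.classInner (fun n : N => (χ : G → ℂ) n) (θ : N → ℂ) ≠ 0 → ¬ p ∣ Cfsg.charDegree (χ : G → ℂ) := by
    intro χ hχ hd
    apply hχ
    have h1 := classInner_irr (homIrr (1 : N →* ℂˣ)) θ
    rw [if_neg (Ne.symm hθ)] at h1
    have e : (fun n : N => (χ : G → ℂ) n) =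
        fun n : N => (χ : G → ℂ) 1 * (homIrr (1 : N →* ℂˣ) : N → ℂ) n := funext fun n => by
      rw [hkill χ hd n n.2]
      show _ = _ * ((1 : ℂˣ) : ℂ)
      simp
    rw [e]
    simp only [Cfsg.classInner] at h1 ⊢
    simp only [mul_assoc, ← Finset.mul_sum]
    rw [← mul_assoc, mul_comm _ ((χ : G → ℂ) 1), mul_assoc, h1, mul_zero]
  let T : Subgroup G :=
    { carrier := {g | conjIrr N θ g = θ}
      one_mem' := conjIrr_one N θ
      mul_mem' := fun {a b} ha hb => by
        show conjIrr N θ (a * b) = θ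
        rw [conjIrr_mul, ha, hb]
      inv_mem' := fun {a} ha => by
        show conjIrr N θ a⁻¹ = θ
        conv_lhs => rw [← ha]
        rw [← conjIrr_mul, mul_inv_cancel, conjIrr_one] }
  haveI := Fintype.ofFinite T
  have hmem : ∀ g, g ∈ T ↔ conjIrr N θ g = θ := fun g => Iff.rfl
  have hNT : N ≤ T := CfsgLib.CliffordCorr.le_inertia N θ hmem
  obtain ⟨lam, hlam⟩ := exists_homIrr θ (charDegree_eq_one_of_comm hab θ)
  obtain ⟨χ, hχ⟩ := exists_over N θ
  obtain ⟨ψ, hψ1, hψ2⟩ := CfsgLib.CliffordCorr.exists_corr N θ hmem hNT χ hχ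
  obtain ⟨hind, -, -⟩ := CfsgLib.CliffordCorr.clifford_corr N θ hmem hNT ψ hψ2 χ hψ1
  obtain ⟨b, -, -, hbval⟩ := CfsgLib.CliffordCorr.res_inertia N θ hmem hNT ψ hψ2
  have hdeg : Cfsg.charDegree (χ : G → ℂ) = T.index * Cfsg.charDegree (ψ : T → ℂ) := by
    have h := congrFun hind 1
    rw [indFun_one, irr_apply_one, irr_apply_one, ← Nat.cast_mul] at h
    exact_mod_cast h.symm
  have hTi : ¬ p ∣ T.index := fun h => hgood χ hχ (hdeg ▸ dvd_mul_of_dvd_left h _)
  have hψd : ¬ p ∣ Cfsg.charDegree (ψ : T → ℂ) := fun h => hgood χ hχ (hdeg ▸ dvd_mul_of_dvd_right h _)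
  haveI : (N.subgroupOf T).Normal := (inferInstance : N.Normal).subgroupOf T
  obtain ⟨f, hf⟩ := linear_ext (p := p) (N.subgroupOf T)
    (hN.of_equiv (Subgroup.subgroupOfEquivOfLe hNT).symm) ψ
    (lam.comp (Subgroup.subgroupOfEquivOfLe hNT).toMonoidHom) (fun m => by
      have hone : (θ : N → ℂ) 1 = 1 := by rw [← hlam]; show ((lam 1 : ℂˣ) : ℂ) = 1; simp
      have h1 := hbval 1
      rw [hone, mul_one] at h1
      have e : (⟨((1 : N) : G), hNT (1 : N).2⟩ : T) = 1 := rfl
      rw [e, irr_apply_one] at h1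
      have h2 := hbval (Subgroup.subgroupOfEquivOfLe hNT m)
      rw [h1, mul_comm]
      exact h2.trans (by rw [← hlam]; rfl)) hψd
  have hTq : Cfsg.IsPSolvable p (T ⧸ N.subgroupOf T) :=
    CfsgLib.PSolvable.map (QuotientGroup.mk' _) (QuotientGroup.mk'_surjective _) (CfsgLib.PSolvable.subgroup hs T)
  have hall : ∀ β : Cfsg.IrrCharacter (T ⧸ N.subgroupOf T), ¬ p ∣ Cfsg.charDegree (β : T ⧸ N.subgroupOf T → ℂ) := by
    intro β hd
    let η : Cfsg.IrrCharacter T := ⟨_, isIrrCharacter_hom_mul f ⟨_, isIrrCharacter_inflate (N.subgroupOf T) β⟩⟩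
    have hηd : Cfsg.charDegree (η : T → ℂ) = Cfsg.charDegree (β : T ⧸ N.subgroupOf T → ℂ) := by
      show Cfsg.charDegree (fun g => (f g : ℂ) * (β : T ⧸ N.subgroupOf T → ℂ) (QuotientGroup.mk g)) = _
      simp [Cfsg.charDegree]
    have hηN : ∀ n : N, (η : T → ℂ) ⟨n, hNT n.2⟩ =
        (Cfsg.charDegree (β : T ⧸ N.subgroupOf T → ℂ) : ℂ) * (θ : N → ℂ) n := by
      intro n
      show (f ⟨n, hNT n.2⟩ : ℂ) * (β : T ⧸ N.subgroupOf T → ℂ) (QuotientGroup.mk (⟨n, hNT n.2⟩ : T)) = _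
      have hm : (⟨n, hNT n.2⟩ : T) ∈ N.subgroupOf T := n.2
      rw [(QuotientGroup.eq_one_iff _).mpr hm, irr_apply_one, mul_comm, ← hlam]
      congr 1
      exact congrArg Units.val (hf ⟨_, hm⟩)
    have hη2 : Cfsg.classInner (fun n : N => (η : T → ℂ) ⟨n, hNT n.2⟩) (θ : N → ℂ) ≠ 0 := by
      have h1 := classInner_irr θ θ
      rw [if_pos rfl] at h1
      simp only [Cfsg.classInner, hηN, mul_assoc, ← Finset.mul_sum] at h1 ⊢
      rw [← mul_assoc, mul_comm _ ((Cfsg.charDegree (β : T ⧸ N.subgroupOf T → ℂ) : ℂ)), mul_assoc, h1, mul_one]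
      exact Nat.cast_ne_zero.mpr (charDegree_pos β).ne'
    obtain ⟨χ', hi', hc'⟩ := CfsgLib.CliffordCorr.exists_induced N θ hmem hNT η hη2
    obtain ⟨-, heq, -⟩ := CfsgLib.CliffordCorr.clifford_corr N θ hmem hNT η hη2 χ' hc'
    refine hgood χ' (heq ▸ hη2) ?_
    have h := congrFun hi' 1
    rw [indFun_one, irr_apply_one, irr_apply_one, ← Nat.cast_mul, hηd] at h
    have h' : Cfsg.charDegree (χ' : G → ℂ) = T.index * Cfsg.charDegree (β : T ⧸ N.subgroupOf T → ℂ) := by
      exact_mod_cast h.symm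
    exact h' ▸ dvd_mul_of_dvd_right hd _
  obtain ⟨R⟩ : Nonempty (Sylow p T) := inferInstance
  have hQ := Cfsg.Agent.S4713.result p hTq (R.mapSurjective (QuotientGroup.mk'_surjective (N.subgroupOf T))) |>.mpr hall
  have hRcomm : ∀ a ∈ (R : Subgroup T), ∀ b ∈ (R : Subgroup T), ((⁅a, b⁆ : T) : G) ∈ N := by
    intro a ha b hb
    have ha' : QuotientGroup.mk' (N.subgroupOf T) a ∈
        ((R.mapSurjective (QuotientGroup.mk'_surjective (N.subgroupOf T)) : Sylow p (T ⧸ N.subgroupOf T)) : Subgroup (T ⧸ N.subgroupOf T)) := by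
      rw [Sylow.coe_mapSurjective]; exact Subgroup.mem_map_of_mem _ ha
    have hb' : QuotientGroup.mk' (N.subgroupOf T) b ∈
        ((R.mapSurjective (QuotientGroup.mk'_surjective (N.subgroupOf T)) : Sylow p (T ⧸ N.subgroupOf T)) : Subgroup (T ⧸ N.subgroupOf T)) := by
      rw [Sylow.coe_mapSurjective]; exact Subgroup.mem_map_of_mem _ hb
    have hc := congrArg Subtype.val (hQ.2.is_comm.comm ⟨_, ha'⟩ ⟨_, hb'⟩)
    simp only [Subgroup.coe_mul] at hc
    rw [← commutatorElement_eq_one_iff_mul_comm, ← map_commutatorElement] at hc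
    rw [QuotientGroup.mk'_apply, QuotientGroup.eq_one_iff] at hc
    exact hc
  have hP₁ : IsPGroup p ((R : Subgroup T).map T.subtype) := R.2.map _
  have hP₁i : ¬ p ∣ ((R : Subgroup T).map T.subtype).index := by
    rw [Subgroup.index_map_subtype]
    exact fun h => (hp.out.dvd_mul.mp h).elim R.not_dvd_index hTi
  obtain ⟨g, hg⟩ := MulAction.exists_smul_eq G (hP₁.toSylow hP₁i) P
  intro a ha b hb
  rw [← hg, Sylow.coe_subgroup_smul, Subgroup.mem_pointwise_smul_iff_inv_smul_mem] at ha hb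
  obtain ⟨a', ha', ea⟩ := ha
  obtain ⟨b', hb', eb⟩ := hb
  have h := (inferInstance : N.Normal).conj_mem _ (hRcomm a' ha' b' hb') g
  rw [show ((⁅a', b'⁆ : T) : G) = ⁅T.subtype a', T.subtype b'⁆ from map_commutatorElement T.subtype a' b',
    ea, eb, MulAut.smul_def, MulAut.smul_def, MulAut.conj_inv_apply, MulAut.conj_inv_apply] at h
  convert h using 1
  simp only [commutatorElement_def]
  group

theorem main : ∀ (k : ℕ) (G : Type u) [Group G] [Finite G] (p : ℕ) [Fact p.Prime], Nat.card G ≤ k →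
    Cfsg.IsPSolvable p G → ∀ P : Sylow p G,
      derivedSeries ↥(P : Subgroup G) (Nat.card {χ : Cfsg.IrrCharacter G // p ∣ Cfsg.charDegree (χ : G → ℂ)} + 1) = ⊥ := by
  intro k
  induction k with
  | zero =>
    intro G _ _ p _ hk
    exact absurd (Nat.card_pos (α := G)) (by omega)
  | succ k ih =>
    intro G _ _ p _ hk hs P
    classical
    have hp : p.Prime := Fact.out
    -- reduction to a quotient
    have hquot : ∀ (N : Subgroup G) [N.Normal], N ≠ ⊥ →
        (derivedSeries ↥(P : Subgroup G)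
          (Nat.card {χ : Cfsg.IrrCharacter (G ⧸ N) // p ∣ Cfsg.charDegree (χ : G ⧸ N → ℂ)} + 1) ≤
          N.subgroupOf (P : Subgroup G)) := by
      intro N _ hN
      have hlt : Nat.card (G ⧸ N) ≤ k := by
        have h1 := N.card_mul_index
        have h2 : 1 < Nat.card N := Subgroup.one_lt_card_iff_ne_bot N |>.mpr hN
        have h3 := N.index_ne_zero_of_finite
        change N.index ≤ k
        nlinarith
      let P' : Sylow p (G ⧸ N) := P.mapSurjective (QuotientGroup.mk'_surjective N)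
      have h := ih (G ⧸ N) p hlt (CfsgLib.PSolvable.map _ (QuotientGroup.mk'_surjective N) hs) P'
      intro x hx
      let π : ↥(P : Subgroup G) →* ↥(P' : Subgroup (G ⧸ N)) :=
        ((QuotientGroup.mk' N).comp (P : Subgroup G).subtype).codRestrict _ fun y => by
          show _ ∈ (P' : Subgroup (G ⧸ N))
          rw [Sylow.coe_mapSurjective]; exact Subgroup.mem_map_of_mem _ y.2
      have hx' := map_derivedSeries_le_derivedSeries π _ (Subgroup.mem_map_of_mem π hx)
      rw [h, Subgroup.mem_bot] at hx'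
      exact Subgroup.mem_subgroupOf.mpr ((QuotientGroup.eq_one_iff _).mp (congrArg Subtype.val hx'))
    let inf : ∀ (N : Subgroup G) [N.Normal],
        {χ : Cfsg.IrrCharacter (G ⧸ N) // p ∣ Cfsg.charDegree (χ : G ⧸ N → ℂ)} →
        {χ : Cfsg.IrrCharacter G // p ∣ Cfsg.charDegree (χ : G → ℂ)} :=
      fun N _ χ => ⟨⟨_, isIrrCharacter_inflate N χ.1⟩, χ.2⟩
    have hinj : ∀ (N : Subgroup G) [N.Normal], Function.Injective (inf N) := by
      intro N _ a b h
      apply Subtype.ext; apply Subtype.ext; funext x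
      obtain ⟨g, rfl⟩ := QuotientGroup.mk_surjective x
      exact congrFun (congrArg (fun z => (z.1 : G → ℂ)) h) g
    by_cases hK : Cfsg.pPrimeCore p G = ⊥
    swap
    · haveI : (Cfsg.pPrimeCore p G).Normal := by
        haveI := CfsgLib.Core.pPrimeCore_characteristic (G := G) p
        infer_instance
      have hbot : (Cfsg.pPrimeCore p G).subgroupOf (P : Subgroup G) = ⊥ := by
        rw [Subgroup.subgroupOf_eq_bot]
        refine (Subgroup.inf_eq_bot_of_coprime ?_).le.antisymm bot_le |> disjoint_iff.mpr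
        obtain ⟨j, hj⟩ := P.2.exists_card_eq
        rw [hj]
        exact (CfsgLib.Core.card_pPrimeCore_coprime (G := G) p).pow_right j
      have h := hquot _ hK
      rw [hbot, le_bot_iff] at h
      rw [eq_bot_iff, ← h]
      exact derivedSeries_antitone _ (Nat.add_le_add_right (Nat.card_le_card_of_injective _ (hinj _)) 1)
    rcases subsingleton_or_nontrivial G with hG | hG
    · haveI : Subsingleton (Subgroup ↥(P : Subgroup G)) := inferInstance
      exact Subsingleton.elim _ _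
    have hO : Cfsg.pCore p G ≠ ⊥ := (Cfsg.Agent.S3798.core_ne_bot hs).resolve_right (fun h => h hK)
    haveI : (Cfsg.pCore p G).Normal := Cfsg.pCore_normal p G
    set O := Cfsg.pCore p G
    let N : Subgroup G := (Subgroup.center O).map O.subtype
    haveI hNn : N.Normal := inferInstance
    have hNp : IsPGroup p N := ((CfsgLib.Core.isPGroup_pCore p).to_subgroup _).map _
    have hN0 : N ≠ ⊥ := by
      intro h
      rw [Subgroup.map_eq_bot_iff_of_injective _ O.subtype_injective] at h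
      haveI : Nontrivial O := (Subgroup.nontrivial_iff_ne_bot O).mpr hO
      exact ((CfsgLib.Core.isPGroup_pCore (G := G) p).bot_lt_center).ne' h
    have hNab : ∀ a b : N, a * b = b * a := by
      rintro ⟨-, a, ha, rfl⟩ ⟨-, b, hb, rfl⟩
      apply Subtype.ext
      show (a : G) * b = (b : G) * a
      exact congrArg Subtype.val (Subgroup.mem_center_iff.mp hb a)
    have hNP : ∀ a ∈ N.subgroupOf (P : Subgroup G), ∀ b ∈ N.subgroupOf (P : Subgroup G), a * b = b * a :=
      fun a ha b hb => Subtype.ext (congrArg Subtype.val (hNab ⟨_, ha⟩ ⟨_, hb⟩) :)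
    set n := Nat.card {χ : Cfsg.IrrCharacter G // p ∣ Cfsg.charDegree (χ : G → ℂ)} with hn
    by_cases hkill : ∀ χ : Cfsg.IrrCharacter G, p ∣ Cfsg.charDegree (χ : G → ℂ) →
        ∀ x ∈ N, (χ : G → ℂ) x = (χ : G → ℂ) 1
    · rcases Nat.eq_zero_or_pos n with h0 | hpos
      · have hall : ∀ χ : Cfsg.IrrCharacter G, ¬ p ∣ Cfsg.charDegree (χ : G → ℂ) := fun χ hd => by
          haveI : Nonempty {χ : Cfsg.IrrCharacter G // p ∣ Cfsg.charDegree (χ : G → ℂ)} := ⟨⟨χ, hd⟩⟩
          exact (Nat.card_pos.ne' : n ≠ 0) h0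
        obtain ⟨-, hcomm⟩ := (Cfsg.Agent.S4713.result p hs P).mpr hall
        rw [h0]
        exact succ_eq_bot ⊤ (fun a _ b _ => hcomm.is_comm.comm a b) 0 le_top
      · have h1 : derivedSeries ↥(P : Subgroup G) 1 ≤ N.subgroupOf (P : Subgroup G) := by
          rw [derivedSeries_succ, Subgroup.commutator_le]
          intro a _ b _
          exact Subgroup.mem_subgroupOf.mpr (quot_sylow_le hs N hNp hNab hN0 hkill P a a.2 b b.2)
        rw [eq_bot_iff, ← succ_eq_bot _ hNP 1 h1]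
        exact derivedSeries_antitone _ (by omega)
    · push Not at hkill
      obtain ⟨χ, hd, x, hx, hne⟩ := hkill
      have hlt : Nat.card {χ : Cfsg.IrrCharacter (G ⧸ N) // p ∣ Cfsg.charDegree (χ : G ⧸ N → ℂ)} < n := by
        haveI := Fintype.ofFinite {χ : Cfsg.IrrCharacter G // p ∣ Cfsg.charDegree (χ : G → ℂ)}
        haveI := Fintype.ofFinite {χ : Cfsg.IrrCharacter (G ⧸ N) // p ∣ Cfsg.charDegree (χ : G ⧸ N → ℂ)}
        rw [hn, Nat.card_eq_fintype_card, Nat.card_eq_fintype_card]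
        refine Fintype.card_lt_of_injective_of_notMem _ (hinj N) (b := ⟨χ, hd⟩) ?_
        rintro ⟨β, hβ⟩
        apply hne
        have e : (χ : G → ℂ) = fun g => (β.1 : G ⧸ N → ℂ) (QuotientGroup.mk g) :=
          (congrArg (fun z => (z.1 : G → ℂ)) hβ).symm
        rw [e]
        show (β.1 : G ⧸ N → ℂ) (QuotientGroup.mk x) = (β.1 : G ⧸ N → ℂ) (QuotientGroup.mk (1 : G))
        rw [(QuotientGroup.eq_one_iff x).mpr hx, QuotientGroup.mk_one]
      rw [eq_bot_iff, ← succ_eq_bot _ hNP _ (hquot N hN0)]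
      exact derivedSeries_antitone _ (by omega)

/-- Let p be a prime, G a finite p-solvable group and P a Sylow p-subgroup of G. If n is the number of irreducible complex characters of G whose degree is divisible by p, then the (n+1)-st term of the derived series of P is trivial. (The p-solvable case has a direct inductive proof.) -/
theorem result {G : Type*} [Group G] [Finite G] (p : ℕ) [Fact p.Prime] (hG : Cfsg.IsPSolvable p G) (P : Sylow p G) : derivedSeries ↥(P : Subgroup G) (Nat.card {χ : Cfsg.IrrCharacter G // p ∣ Cfsg.charDegree (χ : G → ℂ)} + 1) = ⊥ := by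
  exact main (Nat.card G) G p le_rfl hG P

end Cfsg.Agent.S4768
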