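import Cfsg.Statements.S4774
import Cfsg.Agent.Lib.SL2Borel.OddPlus

set_option autoImplicit false
open Cfsg

namespace Cfsg.Agent.S4774

/-- Let F be a finite field of odd characteristic t with q > 5 elements and let S be isomorphic to PSL(2,F) or to SL(2,F). Then the vertices of the character degree graph of S are the primes dividing q(q²−1); the prime t is adjacent to no vertex; two distinct primes dividing q² − 1 are adjacent exactly when one of them is 2, or both divide q + 1, or both divide q − 1. -/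
theorem result (F : Type*) [Field F] [Fintype F] (t : ℕ) [Fact t.Prime] [CharP F t] (ht : t ≠ 2) (q : ℕ) (hq : Fintype.card F = q) (h5 : 5 < q) {S : Type*} [Group S] [Finite S] (hS : Nonempty (S ≃* Matrix.ProjectiveSpecialLinearGroup (Fin 2) F) ∨ Nonempty (S ≃* Matrix.SpecialLinearGroup (Fin 2) F)) : Cfsg.degreePrimes S = {r : ℕ | r.Prime ∧ r ∣ q * (q ^ 2 - 1)} ∧ ∀ r s : ℕ, (Cfsg.degreeGraph S).Adj r s ↔ (r ≠ s ∧ r.Prime ∧ s.Prime ∧ r ∣ q ^ 2 - 1 ∧ s ∣ q ^ 2 - 1 ∧ (r = 2 ∨ s = 2 ∨ (r ∣ q + 1 ∧ s ∣ q + 1) ∨ (r ∣ q - 1 ∧ s ∣ q - 1))) := by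
  classical
  subst hq
  have hodd : Odd (Fintype.card F) := by
    rw [Nat.odd_iff]
    exact FiniteField.odd_card_of_char_ne_two (by rw [ringChar.eq F t]; exact ht)
  obtain ⟨m, hm⟩ := hodd
  have h7 : 7 ≤ Fintype.card F := by omega
  obtain ⟨e1, e2, e3, e4⟩ : (∀ d ∈ Cfsg.charDegrees S, d = 1 ∨ d = Fintype.card F ∨ d = Fintype.card F + 1 ∨
      d = Fintype.card F - 1 ∨ d = (Fintype.card F + 1) / 2 ∨ d = (Fintype.card F - 1) / 2) ∧
      Fintype.card F ∈ Cfsg.charDegrees S ∧ Fintype.card F + 1 ∈ Cfsg.charDegrees S ∧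
      Fintype.card F - 1 ∈ Cfsg.charDegrees S := by
    rcases hS with h | h <;> have e := h.some <;> rw [CfsgLib.SL2Borel.charDegrees_congr e]
    · exact ⟨fun d hd => CfsgLib.SL2Borel.degrees_subset ⟨m, hm⟩ (CfsgLib.SL2Borel.degrees_PL_subset hd),
        CfsgLib.SL2Borel.card_mem, CfsgLib.SL2Borel.succ_mem ⟨m, hm⟩ h7, CfsgLib.SL2Borel.pred_mem ⟨m, hm⟩ h7⟩
    · exact ⟨fun d hd => CfsgLib.SL2Borel.degrees_subset ⟨m, hm⟩ hd,
        CfsgLib.SL2Borel.degrees_PL_subset CfsgLib.SL2Borel.card_mem,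
        CfsgLib.SL2Borel.degrees_PL_subset (CfsgLib.SL2Borel.succ_mem ⟨m, hm⟩ h7),
        CfsgLib.SL2Borel.degrees_PL_subset (CfsgLib.SL2Borel.pred_mem ⟨m, hm⟩ h7)⟩
  obtain ⟨n, hp, hn⟩ := FiniteField.card F t
  have hfac : Fintype.card F * (Fintype.card F ^ 2 - 1) =
      Fintype.card F * ((Fintype.card F + 1) * (Fintype.card F - 1)) := by
    rw [← Nat.sq_sub_sq, one_pow]
  have hfac2 : Fintype.card F ^ 2 - 1 = (Fintype.card F + 1) * (Fintype.card F - 1) := by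
    rw [← Nat.sq_sub_sq, one_pow]
  have hhalf : ∀ r d : ℕ, (d = (Fintype.card F + 1) / 2 → r ∣ d → r ∣ Fintype.card F + 1) ∧
      (d = (Fintype.card F - 1) / 2 → r ∣ d → r ∣ Fintype.card F - 1) := fun r d =>
    ⟨fun h hr => hr.trans ⟨2, by omega⟩, fun h hr => hr.trans ⟨2, by omega⟩⟩
  constructor
  · ext r
    simp only [Cfsg.degreePrimes, Set.mem_setOf_eq]
    refine and_congr_right fun hr => ?_
    rw [hfac, hr.dvd_mul, hr.dvd_mul]
    constructor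
    · rintro ⟨d, hd, hrd⟩
      rcases e1 d hd with h | h | h | h | h | h
      · exact absurd (Nat.dvd_one.1 (h ▸ hrd)) hr.one_lt.ne'
      · exact Or.inl (h ▸ hrd)
      · exact Or.inr (Or.inl (h ▸ hrd))
      · exact Or.inr (Or.inr (h ▸ hrd))
      · exact Or.inr (Or.inl ((hhalf r d).1 h hrd))
      · exact Or.inr (Or.inr ((hhalf r d).2 h hrd))
    · rintro (h | h | h)
      · exact ⟨_, e2, h⟩
      · exact ⟨_, e3, h⟩
      · exact ⟨_, e4, h⟩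
  · intro r s
    show (r ≠ s ∧ r.Prime ∧ s.Prime ∧ ∃ d ∈ Cfsg.charDegrees S, r * s ∣ d) ↔ _
    refine and_congr_right fun hne => and_congr_right fun hr => and_congr_right fun hs => ?_
    have hco : Nat.Coprime r s := (Nat.coprime_primes hr hs).2 hne
    rw [hfac2, hr.dvd_mul, hs.dvd_mul]
    constructor
    · rintro ⟨d, hd, hrd⟩
      have h1 := dvd_of_mul_right_dvd hrd
      have h2 := dvd_of_mul_left_dvd hrd
      rcases e1 d hd with h | h | h | h | h | h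
      · exact absurd (Nat.dvd_one.1 (h ▸ h1)) hr.one_lt.ne'
      · exfalso
        rw [h, hn] at h1 h2
        exact hne (((Nat.prime_dvd_prime_iff_eq hr hp).1 (hr.dvd_of_dvd_pow h1)).trans
          ((Nat.prime_dvd_prime_iff_eq hs hp).1 (hs.dvd_of_dvd_pow h2)).symm)
      · exact ⟨Or.inl (h ▸ h1), Or.inl (h ▸ h2), Or.inr (Or.inr (Or.inl ⟨h ▸ h1, h ▸ h2⟩))⟩
      · exact ⟨Or.inr (h ▸ h1), Or.inr (h ▸ h2), Or.inr (Or.inr (Or.inr ⟨h ▸ h1, h ▸ h2⟩))⟩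
      · exact ⟨Or.inl ((hhalf r d).1 h h1), Or.inl ((hhalf s d).1 h h2),
          Or.inr (Or.inr (Or.inl ⟨(hhalf r d).1 h h1, (hhalf s d).1 h h2⟩))⟩
      · exact ⟨Or.inr ((hhalf r d).2 h h1), Or.inr ((hhalf s d).2 h h2),
          Or.inr (Or.inr (Or.inr ⟨(hhalf r d).2 h h1, (hhalf s d).2 h h2⟩))⟩
    · rintro ⟨hrq, hsq, h | h | ⟨h1, h2⟩ | ⟨h1, h2⟩⟩
      · rcases hsq with h2 | h2
        · exact ⟨_, e3, hco.mul_dvd_of_dvd_of_dvd (h ▸ ⟨m + 1, by omega⟩) h2⟩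
        · exact ⟨_, e4, hco.mul_dvd_of_dvd_of_dvd (h ▸ ⟨m, by omega⟩) h2⟩
      · rcases hrq with h1 | h1
        · exact ⟨_, e3, hco.mul_dvd_of_dvd_of_dvd h1 (h ▸ ⟨m + 1, by omega⟩)⟩
        · exact ⟨_, e4, hco.mul_dvd_of_dvd_of_dvd h1 (h ▸ ⟨m, by omega⟩)⟩
      · exact ⟨_, e3, hco.mul_dvd_of_dvd_of_dvd h1 h2⟩
      · exact ⟨_, e4, hco.mul_dvd_of_dvd_of_dvd h1 h2⟩

end Cfsg.Agent.S4774
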