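import Cfsg.Statements.S4784
import Cfsg.Agent.Lib.Chars.IndicatorBound
import Cfsg.Agent.Lib.Chars.Induced
import Cfsg.Agent.Lib.Chars.Kernel
import Cfsg.Agent.Lib.CharExtra

set_option autoImplicit false
open Cfsg

namespace Cfsg.Agent.S4784

set_option linter.style.haveILetI false
open CfsgLib.Chars

/-- Let H be a subgroup of the finite group G and consider the permutation character of G on the cosets of H (the function induced from the principal character of H). Then exactly one irreducible constituent of it is real-valued with Frobenius–Schur indicator +1 (namely the principal character) if and only if the normal core of H has odd index in G. -/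
theorem result {G : Type*} [Group G] [Fintype G] (H : Subgroup G) : Nat.card {χ : Cfsg.IrrCharacter G // Cfsg.classInner (Cfsg.indFun H (fun _ : H => (1 : ℂ))) (χ : G → ℂ) ≠ 0 ∧ (∀ g : G, (starRingEnd ℂ) ((χ : G → ℂ) g) = (χ : G → ℂ) g) ∧ (Nat.card G : ℂ)⁻¹ * ∑ g : G, (χ : G → ℂ) (g * g) = 1} = 1 ↔ Odd H.normalCore.index := by
  classical
  haveI : Fintype H := Fintype.ofFinite H
  set π := Cfsg.indFun H (fun _ : H => (1 : ℂ)) with hπ
  have hπc : IsCharacter G π := IsCharacter.indFun H (IsIrrCharacter.isCharacter (isIrrCharacter_one H))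
  choose m hm using exists_mult hπc
  choose ν hν using fun χ : IrrCharacter G => CfsgLib.GroupB.Indicator.indicator_cases χ
  have hνeq : ∀ χ : IrrCharacter G, (Nat.card G : ℂ)⁻¹ * ∑ g : G, (χ : G → ℂ) (g * g) = (ν χ : ℂ) := by
    intro χ; rw [← (hν χ).1]; simp only [sq]
  let one : IrrCharacter G := ⟨fun _ => 1, isIrrCharacter_one G⟩
  have hone1 : classInner π (one : G → ℂ) = 1 := by
    rw [hπ, CfsgLib.Chars.frobenius H _ (IsCharacter.isClassFunction (isCharacter_irr one))]
    simp only [one, classInner, map_one, mul_one, Finset.sum_const, Finset.card_univ, nsmul_one,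
      ← Nat.card_eq_fintype_card]
    exact inv_mul_cancel₀ (natCast_card_ne_zero H)
  have honeν : ν one = 1 := Int.cast_injective (α := ℂ) (by
    rw [← hνeq one]
    simp only [one, Finset.sum_const, Finset.card_univ, nsmul_one, ← Nat.card_eq_fintype_card, Int.cast_one]
    exact inv_mul_cancel₀ (natCast_card_ne_zero G))
  have hmem1 : classInner π (one : G → ℂ) ≠ 0 ∧ (∀ g : G, (starRingEnd ℂ) ((one : G → ℂ) g) = (one : G → ℂ) g) ∧
      (Nat.card G : ℂ)⁻¹ * ∑ g : G, (one : G → ℂ) (g * g) = 1 :=
    ⟨by rw [hone1]; exact one_ne_zero, fun g => map_one _, by rw [hνeq, honeν, Int.cast_one]⟩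
  constructor
  · intro hcard
    by_contra heven
    rw [Nat.not_odd_iff_even] at heven
    obtain ⟨q, hq⟩ := exists_prime_orderOf_dvd_card' (G := G ⧸ H.normalCore) 2 heven.two_dvd
    obtain ⟨g₀, rfl⟩ := QuotientGroup.mk_surjective q
    have hg₀ : g₀ ∉ H.normalCore := fun h => by
      rw [(QuotientGroup.eq_one_iff g₀).mpr h, orderOf_one] at hq
      exact absurd hq (by norm_num)
    have hsq : g₀ * g₀ ∈ H.normalCore := by
      rw [← QuotientGroup.eq_one_iff, QuotientGroup.mk_mul, ← sq, ← hq]
      exact pow_orderOf_eq_one _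
    obtain ⟨b, hb⟩ : ∃ b : G, b * g₀ * b⁻¹ ∉ H := by
      by_contra h
      push Not at h
      exact hg₀ h
    set A := Finset.univ.filter (fun g : G => g * g ∈ H) with hA
    have hlt : Nat.card H < A.card := by
      rw [Nat.card_eq_fintype_card, Fintype.card_subtype]
      refine Finset.card_lt_card (Finset.ssubset_iff_of_subset ?_ |>.mpr ⟨b * g₀ * b⁻¹, ?_, ?_⟩)
      · intro g hg
        have hg' := (Finset.mem_filter.mp hg).2
        exact Finset.mem_filter.mpr ⟨Finset.mem_univ _, H.mul_mem hg' hg'⟩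
      · refine Finset.mem_filter.mpr ⟨Finset.mem_univ _, ?_⟩
        have := hsq b
        convert this using 1
        group
      · exact fun h => hb (Finset.mem_filter.mp h).2
    have hsum : (∑ g : G, π (g * g)) = (Nat.card G : ℂ) * ((Nat.card H : ℂ)⁻¹ * (A.card : ℂ)) := by
      simp only [hπ, Cfsg.indFun, ← Finset.mul_sum]
      rw [Finset.sum_comm]
      have hx : ∀ x : G, ∑ g : G, extendByZero H (fun _ : H => (1 : ℂ)) (x⁻¹ * (g * g) * x) = (A.card : ℂ) := by
        intro x
        rw [hA, Finset.card_filter, Nat.cast_sum]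
        refine Fintype.sum_equiv (MulAut.conj x⁻¹).toEquiv _ _ fun g => ?_
        simp only [MulEquiv.toEquiv_eq_coe, MulEquiv.coe_toEquiv, MulAut.conj_apply, inv_inv, extendByZero_apply]
        rw [show x⁻¹ * g * x * (x⁻¹ * g * x) = x⁻¹ * (g * g) * x by group]
        split_ifs <;> simp
      rw [Finset.sum_congr rfl (fun x _ => hx x), Finset.sum_const, nsmul_eq_mul, Finset.card_univ,
        ← Nat.card_eq_fintype_card]
      ring
    have hexp : (∑ g : G, π (g * g)) = (Nat.card G : ℂ) * ((∑ χ : IrrCharacter G, (m χ : ℤ) * ν χ : ℤ) : ℂ) := by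
      rw [Finset.sum_congr rfl (fun g _ => classFunction_expand (IsCharacter.isClassFunction hπc) (g * g)), Finset.sum_comm,
        Int.cast_sum, Finset.mul_sum]
      refine Finset.sum_congr rfl fun χ _ => ?_
      rw [← Finset.mul_sum, hm, Int.cast_mul, Int.cast_natCast, ← hνeq, ← mul_assoc, mul_comm (Nat.card G : ℂ), mul_assoc,
        ← mul_assoc (Nat.card G : ℂ), mul_inv_cancel₀ (natCast_card_ne_zero G), one_mul]
    rw [hsum] at hexp
    have h2 := mul_left_cancel₀ (natCast_card_ne_zero G) hexp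
    rw [inv_mul_eq_iff_eq_mul₀ (natCast_card_ne_zero H)] at h2
    have h3 : (A.card : ℤ) = (Nat.card H : ℤ) * ∑ χ : IrrCharacter G, (m χ : ℤ) * ν χ :=
      Int.cast_injective (α := ℂ) (by push_cast; push_cast at h2; exact h2)
    have h4 : 1 < ∑ χ : IrrCharacter G, (m χ : ℤ) * ν χ := by
      by_contra h
      push Not at h
      have := mul_le_mul_of_nonneg_left h (Int.natCast_nonneg (Nat.card H))
      rw [← h3, mul_one] at this
      omega
    rw [← Finset.add_sum_erase _ _ (Finset.mem_univ one)] at h4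
    have hm1 : m one = 1 := Nat.cast_injective (R := ℂ) (by rw [← hm, hone1, Nat.cast_one])
    rw [hm1, honeν, Nat.cast_one, one_mul] at h4
    obtain ⟨χ, hχ, hpos⟩ := Finset.exists_lt_of_sum_lt (f := fun _ => (0 : ℤ))
      (g := fun χ : IrrCharacter G => (m χ : ℤ) * ν χ) (by rw [Finset.sum_const_zero]; linarith)
    have hνpos : 0 < ν χ := pos_of_mul_pos_right hpos (Int.natCast_nonneg _)
    have hν1 : ν χ = 1 := by have := (abs_le.mp (hν χ).2.1).2; omega
    obtain ⟨hss, -⟩ := Nat.card_eq_one_iff_unique.mp hcard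
    have heq := @Subsingleton.elim _ hss ⟨χ, ?_, ?_, ?_⟩ ⟨one, hmem1⟩
    · exact Finset.ne_of_mem_erase hχ (congrArg Subtype.val heq)
    · rw [hm]
      refine Nat.cast_ne_zero.mpr fun h0 => ?_
      rw [h0, Nat.cast_zero, zero_mul] at hpos
      exact lt_irrefl _ hpos
    · intro g
      exact Complex.conj_eq_iff_im.mpr ((hν χ).2.2 hνpos.ne' g)
    · rw [hνeq, hν1, Int.cast_one]
  · intro hodd
    rw [Nat.card_eq_one_iff_unique]
    suffices h : ∀ χ : IrrCharacter G, classInner π (χ : G → ℂ) ≠ 0 →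
        (∀ g : G, (starRingEnd ℂ) ((χ : G → ℂ) g) = (χ : G → ℂ) g) → χ = one by
      exact ⟨⟨fun a b => Subtype.ext ((h _ a.2.1 a.2.2.1).trans (h _ b.2.1 b.2.2.1).symm)⟩, ⟨⟨one, hmem1⟩⟩⟩
    intro χ hne hreal
    set K := H.normalCore
    haveI : Fintype (G ⧸ K) := Fintype.ofFinite _
    have hinv : ∀ k ∈ K, ∀ g : G, π (g * k) = π g := by
      intro k hk g
      simp only [hπ, Cfsg.indFun]
      congr 1
      refine Finset.sum_congr rfl fun x _ => ?_
      have hk' : x⁻¹ * k * x ∈ H := by simpa using hk x⁻¹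
      rw [show x⁻¹ * (g * k) * x = x⁻¹ * g * x * (x⁻¹ * k * x) by group, extendByZero_apply, extendByZero_apply]
      simp [Subgroup.mul_mem_cancel_right H hk']
    let f : G ⧸ K → ℂ := fun q => π q.out
    have hf : ∀ g : G, f (g : G ⧸ K) = π g := fun g => by
      obtain ⟨k, hk⟩ := QuotientGroup.mk_out_eq_mul K g
      show π _ = _
      rw [hk]; exact hinv k k.2 g
    have hfc : IsClassFunction (G ⧸ K) f := fun q y => by
      obtain ⟨q, rfl⟩ := QuotientGroup.mk_surjective q
      obtain ⟨y, rfl⟩ := QuotientGroup.mk_surjective y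
      rw [← QuotientGroup.mk_inv, ← QuotientGroup.mk_mul, ← QuotientGroup.mk_mul, hf, hf]
      exact IsCharacter.isClassFunction hπc q y
    obtain ⟨φ, hφ⟩ : ∃ φ : IrrCharacter (G ⧸ K), (χ : G → ℂ) = (φ : G ⧸ K → ℂ) ∘ QuotientGroup.mk := by
      by_contra hno
      push Not at hno
      refine hne ?_
      rw [show π = fun g : G => ∑ φ : IrrCharacter (G ⧸ K), classInner f (φ : G ⧸ K → ℂ) *
        ((φ : G ⧸ K → ℂ) ∘ QuotientGroup.mk) g from funext fun g => (hf g).symm.trans (classFunction_expand hfc _),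
        classInner_sum]
      refine Finset.sum_eq_zero fun φ _ => ?_
      have h0 := classInner_irr (⟨_, isIrrCharacter_inflate K φ⟩ : IrrCharacter G) χ
      rw [if_neg (fun e => hno φ (congrArg Subtype.val e).symm)] at h0
      rw [h0, mul_zero]
    have h1 := CfsgLib.CharExtra.eq_one_of_real (G := G ⧸ K) (by rw [← Subgroup.index_eq_card]; exact hodd) φ
      (fun q => by
        obtain ⟨g, rfl⟩ := QuotientGroup.mk_surjective q
        have := hreal g
        rw [hφ] at this
        exact Complex.conj_eq_iff_im.mp this)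
    refine Subtype.ext (funext fun g => ?_)
    rw [hφ]
    show (φ : G ⧸ K → ℂ) g = 1
    rw [h1]

end Cfsg.Agent.S4784
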