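import Cfsg.Statements.S4796
import Mathlib.GroupTheory.SchurZassenhaus
import Cfsg.Agent.Lib.Chars.Kernel
import Cfsg.Agent.Lib.Chars.Clifford
import Cfsg.Agent.Lib.Blocks.Orth

set_option autoImplicit false
open Cfsg

namespace Cfsg.Agent.S4796

set_option linter.style.haveILetI false
open CfsgLib.Chars
open scoped Pointwise

/-- Let G be a finite group with a faithful irreducible complex character χ whose codegree #G / χ(1) is a prime p (for a faithful character the kernel is trivial, so the codegree is #G / χ(1)). Then either G is cyclic of order p, or G is a Frobenius group whose Frobenius kernel has order p: some proper non-trivial subgroup H satisfies H ∩ gHg⁻¹ = 1 for every element g outside H, and the set of elements lying in no conjugate of H, together with the identity, has exactly p elements. -/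
theorem result {G : Type*} [Group G] [Finite G] (χ : Cfsg.IrrCharacter G) (hfaith : ∀ g : G, (χ : G → ℂ) g = (χ : G → ℂ) 1 → g = 1) (p : ℕ) (hp : p.Prime) (hcod : Nat.card G = p * Cfsg.charDegree (χ : G → ℂ)) : (IsCyclic G ∧ Nat.card G = p) ∨ ∃ H : Subgroup G, Cfsg.IsFrobeniusComplement H ∧ Nat.card ↥(Cfsg.frobeniusKernel H) = p := by
  classical
  haveI := Fintype.ofFinite G
  haveI := Fact.mk hp
  set n := Cfsg.charDegree (χ : G → ℂ) with hn
  have hn0 : 0 < n := charDegree_pos χ
  let one : IrrCharacter G := ⟨fun _ => 1, isIrrCharacter_one G⟩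
  rcases eq_or_ne n 1 with h1 | h1
  · have hc : Nat.card G = p := by rw [hcod, h1, mul_one]
    exact Or.inl ⟨isCyclic_of_prime_card hc, hc⟩
  refine Or.inr ?_
  have hlt : n < p := by
    have hne : χ ≠ one := fun h => h1 (by rw [hn, h]; simp [Cfsg.charDegree, one])
    have h2 : n ^ 2 < Nat.card G := by
      rw [← sum_deg_sq (G := G)]
      calc n ^ 2 < ∑ ψ ∈ ({χ, one} : Finset (IrrCharacter G)), Cfsg.charDegree (ψ : G → ℂ) ^ 2 := by
            rw [Finset.sum_pair hne]
            exact Nat.lt_add_of_pos_right (pow_pos (charDegree_pos one) 2)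
        _ ≤ _ := Finset.sum_le_sum_of_subset (Finset.subset_univ _)
    rw [hcod, sq] at h2
    exact Nat.lt_of_mul_lt_mul_right h2
  have hpn : ¬ p ∣ n := fun h => absurd (Nat.le_of_dvd hn0 h) (by omega)
  obtain ⟨P⟩ := (inferInstance : Nonempty (Sylow p G))
  have hPc : Nat.card ↥(P : Subgroup G) = p := by
    rw [P.card_eq_multiplicity, hcod, Nat.factorization_mul hp.ne_zero hn0.ne', Finsupp.add_apply,
      Nat.factorization_eq_zero_of_not_dvd hpn, hp.factorization_self, add_zero, pow_one]
  have hPi : (P : Subgroup G).index = n := by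
    have h2 := (P : Subgroup G).card_mul_index
    rw [hPc, hcod] at h2
    exact Nat.eq_of_mul_eq_mul_left hp.pos h2
  haveI hsub : Subsingleton (Sylow p G) := by
    have hs1 : Nat.card (Sylow p G) = 1 := by
      have h2 := card_sylow_modEq_one p G
      have h3 : Nat.card (Sylow p G) ≤ n := Nat.le_of_dvd hn0 (hPi ▸ P.card_dvd_index)
      rw [Nat.ModEq, Nat.mod_eq_of_lt (by omega : Nat.card (Sylow p G) < p), Nat.mod_eq_of_lt hp.one_lt] at h2
      exact h2
    exact (Nat.card_eq_one_iff_unique.mp hs1).1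
  haveI hPn : (P : Subgroup G).Normal := P.normal_of_subsingleton
  -- `χ` vanishes on nontrivial elements of order prime to `p`
  have hvan : ∀ y : G, y ≠ 1 → (orderOf y).Coprime p → (χ : G → ℂ) y = 0 := by
    intro y hy hyp
    obtain ⟨q, hq, hqd⟩ := Nat.exists_prime_and_dvd (fun h => hy (orderOf_eq_one_iff.mp h))
    haveI := Fact.mk hq
    obtain ⟨M, hM⟩ := CfsgLib.Blocks.exists_isPModular hq
    refine (CfsgLib.Blocks.defect_zero_tfae hM χ).2.mp ?_ y hqd
    have hqp : q ≠ p := fun h => hq.ne_one (Nat.eq_one_of_dvd_coprimes hyp hqd (dvd_of_eq h))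
    rw [hcod, Nat.factorization_mul hp.ne_zero hn0.ne', Finsupp.add_apply,
      Nat.factorization_eq_zero_of_not_dvd (n := p) (fun h => hqp ((Nat.prime_dvd_prime_iff_eq hq hp).mp h)), zero_add]
    exact Nat.ordProj_dvd n q
  -- no nontrivial normal subgroup has order prime to `p`
  have hnoK : ∀ K : Subgroup G, K.Normal → (Nat.card K).Coprime p → K = ⊥ := by
    intro K hK hKp
    haveI := hK
    haveI := Fintype.ofFinite K
    rw [Subgroup.eq_bot_iff_forall]
    intro k hk
    refine hfaith k ?_
    let oneK : IrrCharacter K := ⟨fun _ => 1, isIrrCharacter_one K⟩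
    have hsum : Cfsg.classInner (fun u : K => (χ : G → ℂ) u) (oneK : K → ℂ) = (Nat.card K : ℂ)⁻¹ * (n : ℂ) := by
      simp only [Cfsg.classInner, oneK, map_one, mul_one]
      rw [Finset.sum_eq_single (1 : K), OneMemClass.coe_one, irr_apply_one]
      · intro u _ hu
        exact hvan u (fun h => hu (Subtype.ext h)) (hKp.coprime_dvd_left (Subgroup.orderOf_dvd_natCard K u.2))
      · exact fun h => absurd (Finset.mem_univ _) h
    have hne : Cfsg.classInner (fun u : K => (χ : G → ℂ) u) (oneK : K → ℂ) ≠ 0 := by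
      rw [hsum]
      exact mul_ne_zero (inv_ne_zero (natCast_card_ne_zero _)) (Nat.cast_ne_zero.mpr hn0.ne')
    obtain ⟨e, -, -, hval, -⟩ := clifford K χ oneK hne
    have hconst : ∀ u : K, (χ : G → ℂ) u = (e : ℂ) * ((orbit K oneK).card : ℂ) := by
      intro u
      rw [hval u, Finset.sum_congr rfl (fun ψ hψ => ?_), Finset.sum_const, nsmul_eq_mul, mul_one]
      obtain ⟨g, rfl⟩ := (mem_orbit K).mp hψ
      rfl
    have h2 := hconst ⟨k, hk⟩
    have h3 := hconst 1
    rw [OneMemClass.coe_one] at h3
    rw [h3]; exact h2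
  -- the centralizer of `P`
  obtain ⟨x, hxo⟩ := exists_prime_orderOf_dvd_card' (G := ↥(P : Subgroup G)) p (dvd_of_eq hPc.symm)
  haveI : IsCyclic ↥(P : Subgroup G) := isCyclic_of_prime_card hPc
  set C := Subgroup.centralizer ((P : Subgroup G) : Set G) with hC
  haveI hCn : C.Normal := Subgroup.normal_centralizer
  have hPC : ∀ y ∈ C, y ∈ (P : Subgroup G) := by
    have hPcop : Nat.Coprime (Nat.card ((P : Subgroup G).subgroupOf C)) ((P : Subgroup G).subgroupOf C).index := by
      have hle : (P : Subgroup G) ≤ C := Subgroup.le_centralizer _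
      rw [Nat.card_congr (Subgroup.subgroupOfEquivOfLe hle).toEquiv, hPc]
      refine (hp.coprime_iff_not_dvd).mpr fun h => P.not_dvd_index (h.trans ?_)
      exact Subgroup.relIndex_dvd_index_of_normal _ _
    obtain ⟨K, hK⟩ := Subgroup.exists_right_complement'_of_coprime hPcop
    have hmem : ∀ y : C, y ∈ K ↔ (orderOf y).Coprime p := by
      intro y
      constructor
      · intro hy
        have h2 := hK.symm.index_eq_card
        have h3 : ¬ p ∣ Nat.card K := by
          rw [← h2]
          intro h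
          exact P.not_dvd_index (h.trans (Subgroup.relIndex_dvd_index_of_normal _ _))
        exact Nat.Coprime.coprime_dvd_left (Subgroup.orderOf_dvd_natCard K hy) ((hp.coprime_iff_not_dvd).mpr h3).symm
      · intro hy
        obtain ⟨⟨⟨z, hz⟩, ⟨k, hk⟩⟩, hzk⟩ := hK.2 y
        have hzk' : z * k = y := hzk
        have hcomm : Commute z k := Subtype.ext
          (Subgroup.mem_centralizer_iff.mp k.2 (z : G) hz)
        have h2 : z ^ (orderOf y) = 1 := by
          have h3 : z ^ (orderOf y) * k ^ (orderOf y) = 1 := by rw [← hcomm.mul_pow, hzk', pow_orderOf_eq_one]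
          exact Subgroup.disjoint_def.mp hK.disjoint ((Subgroup.subgroupOf _ _).pow_mem hz _)
            (by rw [mul_eq_one_iff_eq_inv.mp h3]; exact K.inv_mem (K.pow_mem hk _))
        have h4 : z ^ p = 1 := by
          refine Subtype.ext ?_
          show (z : G) ^ p = 1
          rw [← orderOf_dvd_iff_pow_eq_one]
          exact (Subgroup.orderOf_dvd_natCard (P : Subgroup G) hz).trans (dvd_of_eq hPc)
        have hz1 : z = 1 := orderOf_eq_one_iff.mp (Nat.eq_one_of_dvd_coprimes hy
          (orderOf_dvd_of_pow_eq_one h2) (orderOf_dvd_of_pow_eq_one h4))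
        rw [hz1, one_mul] at hzk'
        exact hzk' ▸ hk
    haveI hKn : (K.map C.subtype).Normal := by
      refine ⟨?_⟩
      rintro _ ⟨y, hy, rfl⟩ g
      refine ⟨⟨g * y * g⁻¹, hCn.conj_mem _ y.2 g⟩, (hmem _).mpr ?_, rfl⟩
      have h5 : orderOf (⟨g * y * g⁻¹, hCn.conj_mem _ y.2 g⟩ : C) = orderOf y := by
        rw [← Subgroup.orderOf_coe, ← Subgroup.orderOf_coe y]
        exact (MulAut.conj g).orderOf_eq (y : G)
      rw [h5]
      exact (hmem y).mp hy
    have hKc : (Nat.card ↥(K.map C.subtype)).Coprime p := by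
      rw [Subgroup.card_map_of_injective C.subtype_injective]
      refine Nat.Coprime.symm ((hp.coprime_iff_not_dvd).mpr fun h => ?_)
      obtain ⟨k, hk⟩ := exists_prime_orderOf_dvd_card' p h
      have := (hmem (k : C)).mp k.2
      rw [Subgroup.orderOf_coe, hk, Nat.coprime_self] at this
      exact hp.ne_one this
    have hKbot := hnoK _ hKn hKc
    rw [Subgroup.map_eq_bot_iff_of_injective _ C.subtype_injective] at hKbot
    intro y hy
    obtain ⟨⟨⟨z, hz⟩, ⟨k, hk⟩⟩, hzk⟩ := hK.2 ⟨y, hy⟩
    have hk1 : k = 1 := by rw [hKbot] at hk; simpa using hk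
    have hzk' : z * k = ⟨y, hy⟩ := hzk
    rw [hk1, mul_one] at hzk'
    rw [hzk'] at hz
    exact hz
  -- every nontrivial element of `P` has centralizer in `P`
  have hcentP : ∀ z ∈ (P : Subgroup G), z ≠ 1 → ∀ y : G, y * z = z * y → y ∈ (P : Subgroup G) := by
    intro z hz hz1 y hy
    refine hPC y (Subgroup.mem_centralizer_iff.mpr fun w hw => ?_)
    have hgen : Subgroup.zpowers z = (P : Subgroup G) := by
      refine Subgroup.eq_of_le_of_card_ge (Subgroup.zpowers_le.mpr hz) ?_
      rw [Nat.card_zpowers, hPc]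
      refine le_of_eq ?_
      rcases (Nat.dvd_prime hp).mp ((Subgroup.orderOf_dvd_natCard _ hz).trans (dvd_of_eq hPc)) with h | h
      · exact absurd (orderOf_eq_one_iff.mp h) hz1
      · exact h.symm
    obtain ⟨i, rfl⟩ := Subgroup.mem_zpowers_iff.mp (hgen ▸ hw : w ∈ Subgroup.zpowers z)
    exact ((show Commute z y from hy.symm).zpow_left i).eq
  obtain ⟨H, hH⟩ := Subgroup.exists_right_complement'_of_coprime (N := (P : Subgroup G)) (by
    rw [hPc, hPi]; exact (hp.coprime_iff_not_dvd).mpr hpn)
  have hHc : Nat.card H = n := by rw [← hH.symm.index_eq_card, hPi]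
  have hdec : ∀ g : G, ∃ z ∈ (P : Subgroup G), ∃ h ∈ H, g = z * h := fun g => by
    obtain ⟨⟨⟨z, hz⟩, ⟨h, hh⟩⟩, e⟩ := hH.2 g
    exact ⟨z, hz, h, hh, e.symm⟩
  have hdisj : ∀ w ∈ (P : Subgroup G), w ∈ H → w = 1 := fun w hw hw' => Subgroup.disjoint_def.mp hH.disjoint hw hw'
  have hconjmem : ∀ g y : G, y ∈ MulAut.conj g • H ↔ g⁻¹ * y * g ∈ H := by
    intro g y
    rw [Subgroup.mem_pointwise_smul_iff_inv_smul_mem, ← map_inv, MulAut.smul_def, MulAut.conj_apply, inv_inv]
  refine ⟨H, ⟨?_, ?_, ?_⟩, ?_⟩
  · intro h; rw [h, Subgroup.card_bot] at hHc; exact h1 hHc.symm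
  · intro h
    rw [h, Subgroup.card_top, hcod] at hHc
    have := hp.two_le
    nlinarith
  · intro g hg
    rw [Subgroup.eq_bot_iff_forall]
    rintro k ⟨hk, hk'⟩
    replace hk' := (hconjmem g k).mp hk'
    obtain ⟨z, hz, h, hh, rfl⟩ := hdec g
    have hk2 : z⁻¹ * k * z ∈ H := by
      have := H.mul_mem (H.mul_mem hh hk') (H.inv_mem hh)
      convert this using 1
      group
    have hz1 : z ≠ 1 := fun e => hg (by rw [e, one_mul]; exact hh)
    have hcomm : z⁻¹ * k * z * k⁻¹ = 1 := by
      refine hdisj _ ?_ (H.mul_mem hk2 (H.inv_mem hk))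
      have := (P : Subgroup G).mul_mem ((P : Subgroup G).inv_mem hz) (hPn.conj_mem z hz k)
      convert this using 1
      group
    exact hdisj k (hcentP z hz hz1 k (by
      have h2 := congrArg (fun t => z * t * k) hcomm
      simpa [mul_assoc] using h2)) hk
  · rw [show Cfsg.frobeniusKernel H = ((P : Subgroup G) : Set G) from ?_]
    · exact hPc
    ext y
    simp only [Cfsg.frobeniusKernel, Set.mem_ofPred_eq, SetLike.mem_coe]
    constructor
    · rintro (rfl | hy)
      · exact (P : Subgroup G).one_mem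
      obtain ⟨z, hz, h, hh, rfl⟩ := hdec y
      by_contra hyP
      have hh1 : h ≠ 1 := fun e => hyP (by rw [e, mul_one]; exact hz)
      let f : ↥(P : Subgroup G) → ↥(P : Subgroup G) := fun w =>
        ⟨(w : G) * (h * (w : G)⁻¹ * h⁻¹), (P : Subgroup G).mul_mem w.2 (hPn.conj_mem _ ((P : Subgroup G).inv_mem w.2) h)⟩
      have hf : Function.Injective f := by
        intro a b hab
        have h2 : (a : G) * (h * (a : G)⁻¹ * h⁻¹) = (b : G) * (h * (b : G)⁻¹ * h⁻¹) := congrArg Subtype.val hab
        by_contra hne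
        have h3 : h * ((b : G)⁻¹ * a) = (b : G)⁻¹ * a * h := by
          have h4 : (a : G) * (h * (a : G)⁻¹) = (b : G) * (h * (b : G)⁻¹) := by
            simpa [← mul_assoc] using h2
          have h5 := congrArg (fun t => (b : G)⁻¹ * t * a) h4
          simp [mul_assoc] at h5
          rw [mul_assoc]
          exact h5.symm
        exact hh1 (hdisj h (hcentP _ ((P : Subgroup G).mul_mem ((P : Subgroup G).inv_mem b.2) a.2)
          (fun e => hne (Subtype.ext (inv_mul_eq_one.mp e).symm)) h h3) hh)
      obtain ⟨w, hw⟩ := Finite.injective_iff_surjective.mp hf ⟨z, hz⟩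
      refine hy (w : G) ((hconjmem _ _).mpr ?_)
      have hw' : (w : G) * (h * (w : G)⁻¹ * h⁻¹) = z := congrArg Subtype.val hw
      rw [← hw']
      convert hh using 1
      group
    · intro hy
      refine or_iff_not_imp_left.mpr fun hy1 g hg => hy1 ?_
      rw [hconjmem] at hg
      have h2 := hdisj _ (by simpa using hPn.conj_mem y hy g⁻¹) hg
      have h3 := congrArg (fun t => g * t * g⁻¹) h2
      simpa [mul_assoc] using h3

end Cfsg.Agent.S4796
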