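import Cfsg.Statements.S4797
import Mathlib.GroupTheory.Transfer
import Cfsg.Agent.Lib.Chars.Kernel
import Cfsg.Agent.Lib.Chars.Linear
import Cfsg.Agent.Lib.Blocks.Orth

set_option autoImplicit false
open Cfsg

namespace Cfsg.Agent.S4797

set_option linter.style.haveILetI false
open scoped commutatorElement
open CfsgLib.Chars CfsgLib.Blocks

/-- The codegree of an irreducible complex character χ of a finite group G is [G : ker χ] / χ(1), where ker χ is the set of elements at which χ takes the value χ(1). A non-trivial finite group is perfect if and only if no irreducible complex character of it has prime codegree. -/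
theorem result {G : Type*} [Group G] [Finite G] [Nontrivial G] : commutator G = ⊤ ↔ ∀ χ : Cfsg.IrrCharacter G, ¬ ((Nat.card G / (Nat.card {g : G // (χ : G → ℂ) g = (χ : G → ℂ) 1} * Cfsg.charDegree (χ : G → ℂ)))).Prime := by
  classical
  haveI := Fintype.ofFinite G
  have hcodeg : ∀ χ : IrrCharacter G, ∃ (K : Subgroup G) (_ : K.Normal) (φ : IrrCharacter (G ⧸ K)),
      (∀ g, g ∈ K ↔ (χ : G → ℂ) g = (χ : G → ℂ) 1) ∧
      (χ : G → ℂ) = (φ : G ⧸ K → ℂ) ∘ QuotientGroup.mk ∧
      Nat.card G / (Nat.card {g : G // (χ : G → ℂ) g = (χ : G → ℂ) 1} * charDegree (χ : G → ℂ)) =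
        Nat.card (G ⧸ K) / charDegree (φ : G ⧸ K → ℂ) := by
    intro χ
    obtain ⟨K, hK, hKm, -⟩ := IsCharacter.exists_kernel (isCharacter_irr χ)
    haveI := hK
    obtain ⟨φ, hφ⟩ := exists_deflate K χ fun g hg => (hKm g).mp hg
    refine ⟨K, hK, φ, hKm, hφ, ?_⟩
    rw [show Cfsg.charDegree (χ : G → ℂ) = Cfsg.charDegree (φ : G ⧸ K → ℂ) by
        rw [Cfsg.charDegree, Cfsg.charDegree, hφ, Function.comp_apply, QuotientGroup.mk_one],
      show Nat.card {g : G // (χ : G → ℂ) g = (χ : G → ℂ) 1} = Nat.card K from
        Nat.card_congr (Equiv.subtypeEquivRight fun g => (hKm g).symm),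
      ← Nat.div_div_eq_div_mul, Subgroup.card_eq_card_quotient_mul_card_subgroup K,
      Nat.mul_div_cancel _ Nat.card_pos]
  constructor
  · intro hperf χ hpr
    obtain ⟨K, hK, φ, -, -, he⟩ := hcodeg χ
    rw [he] at hpr
    haveI : Fintype (G ⧸ K) := Fintype.ofFinite _
    set Q := G ⧸ K
    have hQ : commutator Q = ⊤ := by
      rw [commutator_def, ← Subgroup.map_top_of_surjective (QuotientGroup.mk' K) (QuotientGroup.mk'_surjective K),
        ← Subgroup.map_commutator, ← commutator_def, hperf]
    set n := charDegree (φ : Q → ℂ) with hn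
    obtain ⟨c, hc⟩ := charDegree_dvd φ
    rw [hc, Nat.mul_div_cancel_left _ (charDegree_pos φ)] at hpr
    haveI := Fact.mk hpr
    haveI : Nontrivial Q := by
      rw [← Finite.one_lt_card_iff_nontrivial, hc]
      exact lt_of_lt_of_le hpr.one_lt (Nat.le_mul_of_pos_left _ (charDegree_pos φ))
    have hlt : n < c := by
      by_contra hle
      have h1 : n ^ 2 < Nat.card Q := by
        rw [← sum_deg_sq (G := Q)]
        let one : IrrCharacter Q := ⟨fun _ => 1, isIrrCharacter_one Q⟩
        by_cases h : φ = one
        · -- the trivial character: `n = 1`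
          have : n = 1 := by rw [hn, h]; simp [charDegree, one]
          exfalso
          exact absurd hpr.two_le (by omega)
        · calc n ^ 2 < ∑ χ ∈ ({φ, one} : Finset (IrrCharacter Q)), charDegree (χ : Q → ℂ) ^ 2 := by
                rw [Finset.sum_pair h]
                exact Nat.lt_add_of_pos_right (pow_pos (charDegree_pos one) 2)
            _ ≤ _ := Finset.sum_le_sum_of_subset (Finset.subset_univ _)
      rw [hc] at h1
      nlinarith
    -- one Sylow subgroup
    obtain ⟨P⟩ := (inferInstance : Nonempty (Sylow c Q))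
    have hnc : ¬ c ∣ n := fun h => absurd (Nat.le_of_dvd (charDegree_pos φ) h) (by omega)
    have hPc : Nat.card P = c := by
      rw [P.card_eq_multiplicity, hc, Nat.factorization_mul (charDegree_pos φ).ne' hpr.ne_zero,
        Finsupp.add_apply, Nat.factorization_eq_zero_of_not_dvd hnc, hpr.factorization_self, zero_add, pow_one]
    have hPi : (P : Subgroup Q).index = n := by
      have h1 := (P : Subgroup Q).card_mul_index
      rw [hPc, hc, mul_comm n c] at h1
      exact Nat.eq_of_mul_eq_mul_left hpr.pos h1
    have hs1 : Nat.card (Sylow c Q) = 1 := by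
      have h1 := card_sylow_modEq_one c Q
      have h2 : Nat.card (Sylow c Q) ≤ n := Nat.le_of_dvd (charDegree_pos φ) (hPi ▸ P.card_dvd_index)
      rw [Nat.ModEq, Nat.mod_eq_of_lt (by omega : Nat.card (Sylow c Q) < c), Nat.mod_eq_of_lt hpr.one_lt] at h1
      exact h1
    haveI : Subsingleton (Sylow c Q) := (Nat.card_eq_one_iff_unique.mp hs1).1
    haveI hPn : (P : Subgroup Q).Normal := P.normal_of_subsingleton
    haveI : IsCyclic P := isCyclic_of_prime_card hPc
    -- central
    have hcen : Subgroup.centralizer ((P : Subgroup Q) : Set Q) = ⊤ := by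
      rw [eq_top_iff, ← hQ, commutator_def, Subgroup.commutator_le]
      intro a _ b _
      rw [Subgroup.mem_centralizer_iff]
      intro x hx
      have hab : (MulAut.conjNormal (H := (P : Subgroup Q)) ⁅a, b⁆) = 1 := by
        rw [map_commutatorElement, commutatorElement_eq_one_iff_mul_comm]
        exact (IsCyclic.mulAutMulEquiv P).injective (by rw [map_mul, map_mul, mul_comm])
      have h2 := congrArg Subtype.val (DFunLike.congr_fun hab ⟨x, hx⟩)
      rw [MulAut.conjNormal_apply, MulAut.one_apply, mul_inv_eq_iff_eq_mul] at h2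
      exact h2.symm
    have hPZ : (P : Subgroup Q) ≤ Subgroup.center Q := fun x hx => Subgroup.mem_center_iff.mpr fun g =>
      (Subgroup.mem_centralizer_iff.mp (hcen ▸ Subgroup.mem_top g) x hx).symm
    have hker : commutator Q ≤ (MonoidHom.transferCenterPow Q).ker := by
      rw [commutator_def, Subgroup.commutator_le]
      intro a _ b _
      rw [MonoidHom.mem_ker, map_commutatorElement, commutatorElement_eq_one_iff_mul_comm]
      exact Subtype.ext (Subgroup.mem_center_iff.mp (MonoidHom.transferCenterPow Q b).2 _)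
    rw [hQ, top_le_iff] at hker
    have hdvd : (Subgroup.center Q).index ∣ n := hPi ▸ Subgroup.index_dvd_of_le hPZ
    obtain ⟨x, hx⟩ := exists_prime_orderOf_dvd_card' (G := P) c (dvd_of_eq hPc.symm)
    have h3 : MonoidHom.transferCenterPow Q (x : Q) = 1 := MonoidHom.mem_ker.mp (hker ▸ Subgroup.mem_top _)
    have h4 := congrArg Subtype.val h3
    rw [MonoidHom.transferCenterPow_apply, OneMemClass.coe_one, ← orderOf_dvd_iff_pow_eq_one,
      Subgroup.orderOf_coe, hx] at h4
    exact hnc (h4.trans hdvd)
  · intro hall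
    by_contra hne
    have hcard : commutator G ≠ ⊤ := hne
    have h1 : 1 < (commutator G).index := by
      rcases Nat.lt_or_ge 1 (commutator G).index with h | h
      · exact h
      · have := Subgroup.index_ne_zero_of_finite (H := commutator G)
        exact absurd (Subgroup.index_eq_one.mp (by omega)) hcard
    obtain ⟨q, hq, hqd⟩ := Nat.exists_prime_and_dvd h1.ne'
    haveI := Fact.mk hq
    haveI : Finite (IrrCharacter G) := finite_irr G
    haveI : Finite (G →* ℂˣ) := Finite.of_injective homIrr homIrr_injective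
    have hA : q ∣ Nat.card (G →* ℂˣ) := by
      have e : (G →* ℂˣ) ≃ {χ : IrrCharacter G // charDegree (χ : G → ℂ) = 1} :=
        Equiv.ofBijective (fun f => ⟨homIrr f, charDegree_hom f⟩)
          ⟨fun a b h => homIrr_injective (congrArg Subtype.val h), fun χ => by
            obtain ⟨f, hf⟩ := exists_homIrr χ.1 χ.2
            exact ⟨f, Subtype.ext hf⟩⟩
      rwa [Nat.card_congr e, card_linear]
    obtain ⟨f, hf⟩ := exists_prime_orderOf_dvd_card' q hA
    refine hall (homIrr f) ?_
    have hset : Nat.card {g : G // (homIrr f : G → ℂ) g = (homIrr f : G → ℂ) 1} = Nat.card f.ker :=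
      Nat.card_congr (Equiv.subtypeEquivRight fun g => by
        show (f g : ℂ) = (f 1 : ℂ) ↔ g ∈ f.ker
        rw [map_one, MonoidHom.mem_ker, Units.ext_iff])
    rw [hset, charDegree_hom, mul_one, ← f.ker.card_mul_index, Nat.mul_div_cancel_left _ Nat.card_pos,
      Subgroup.index_ker]
    haveI : Finite f.range := Set.finite_range f
    obtain ⟨r, hr⟩ : ∃ r, Nat.card f.range = q ^ r ∧ r ≤ 1 := by
      have hexp : ∀ y : f.range, y ^ q = 1 := by
        rintro ⟨_, x, rfl⟩
        refine Subtype.ext ?_
        show f x ^ q = 1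
        rw [← MonoidHom.pow_apply, ← hf, pow_orderOf_eq_one, MonoidHom.one_apply]
      obtain ⟨g, hg⟩ := IsCyclic.exists_generator (α := f.range)
      have h2 : Nat.card f.range ∣ q := by
        rw [← orderOf_eq_card_of_forall_mem_zpowers hg]
        exact orderOf_dvd_of_pow_eq_one (hexp g)
      rcases (Nat.dvd_prime hq).mp h2 with h | h
      · exact ⟨0, by simpa using h, zero_le_one⟩
      · exact ⟨1, by simpa using h, le_rfl⟩
    obtain ⟨hr, hr1⟩ := hr
    rcases Nat.eq_zero_or_pos r with rfl | hrp
    · exfalso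
      have : f = 1 := MonoidHom.range_eq_bot_iff.mp (Subgroup.eq_bot_of_card_eq _ (by simpa using hr)) 
      rw [this, orderOf_one] at hf
      exact hq.ne_one hf.symm
    · rw [hr, show r = 1 by omega, pow_one]
      exact hq

end Cfsg.Agent.S4797
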