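import Cfsg.Statements.S4798
import Cfsg.Agent.Lib.Chars.Central
import Cfsg.Agent.Lib.CliffordCorr
import Cfsg.Agent.Lib.Blocks.Orth
import Cfsg.Agent.Lib.Chars.Induced

set_option autoImplicit false
open Cfsg

namespace Cfsg.Agent.S4798

set_option linter.style.haveILetI false
open CfsgLib.Chars
open scoped Pointwise

/-- Let p be a prime and χ a faithful irreducible complex character of the finite group G (χ(g) = χ(1) only for g = 1), so that its codegree is #G / χ(1). Then #G / χ(1) is a power of p if and only if χ is induced from a character of a Sylow p-subgroup of G. -/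
theorem result {G : Type*} [Group G] [Fintype G] (p : ℕ) [Fact p.Prime] (χ : Cfsg.IrrCharacter G) (hfaith : ∀ g : G, (χ : G → ℂ) g = (χ : G → ℂ) 1 → g = 1) : (∃ k : ℕ, Nat.card G = p ^ k * Cfsg.charDegree (χ : G → ℂ)) ↔ ∃ (P : Sylow p G) (θ : ↥(P : Subgroup G) → ℂ), Cfsg.IsCharacter ↥(P : Subgroup G) θ ∧ (χ : G → ℂ) = Cfsg.indFun (P : Subgroup G) θ := by
  classical
  have hp := (Fact.out : p.Prime)
  constructor
  · rintro ⟨k, hk⟩
    obtain ⟨P⟩ := (inferInstance : Nonempty (Sylow p G))
    haveI : Fintype ↥(P : Subgroup G) := Fintype.ofFinite _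
    set f := (Nat.card G).factorization p with hf
    have hPc : Nat.card ↥(P : Subgroup G) = p ^ f := P.card_eq_multiplicity
    have hmul := (P : Subgroup G).card_mul_index
    set d := Cfsg.charDegree (χ : G → ℂ) with hd
    have hd0 : 0 < d := charDegree_pos χ
    set a := d.factorization p
    obtain ⟨c, hc⟩ : p ^ a ∣ d := Nat.ordProj_dvd d p
    -- `d = p ^ a * [G : P]`
    have hda : d = p ^ a * (P : Subgroup G).index := by
      have hfe : f = k + a := by
        rw [hf, hk, Nat.factorization_mul (pow_ne_zero k hp.ne_zero) hd0.ne', Finsupp.add_apply,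
          hp.factorization_pow, Finsupp.single_eq_same]
      have h1 : p ^ k * d = p ^ k * (p ^ a * (P : Subgroup G).index) := by
        rw [← hk, ← mul_assoc, ← pow_add, ← hfe, ← hPc, hmul]
      exact Nat.eq_of_mul_eq_mul_left (pow_pos hp.pos k) h1
    have hres : Cfsg.IsCharacter ↥(P : Subgroup G) (fun x => (χ : G → ℂ) x) := IsCharacter.restrict (isCharacter_irr χ) _
    -- every constituent has degree at least `p ^ a`; one has exactly that
    have hge : ∀ μ : Cfsg.IrrCharacter ↥(P : Subgroup G), Cfsg.classInner (fun x : ↥(P : Subgroup G) => (χ : G → ℂ) x) (μ : _ → ℂ) ≠ 0 →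
        Cfsg.classInner (Cfsg.indFun (P : Subgroup G) (μ : _ → ℂ)) (χ : G → ℂ) ≠ 0 ∧
          p ^ a ≤ Cfsg.charDegree (μ : ↥(P : Subgroup G) → ℂ) := by
      intro μ hμ
      have h1 : Cfsg.classInner (Cfsg.indFun (P : Subgroup G) (μ : _ → ℂ)) (χ : G → ℂ) ≠ 0 := by
        rw [CfsgLib.Chars.frobenius _ _ (IsCharacter.isClassFunction (isCharacter_irr χ)),
          classInner_character_comm (isCharacter_irr μ) hres]
        exact hμ
      refine ⟨h1, ?_⟩
      have h2 := charDegree_le_of_constituent (IsCharacter.indFun _ (isCharacter_irr μ)) χ h1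
      have h3 : Cfsg.charDegree (Cfsg.indFun (P : Subgroup G) (μ : _ → ℂ)) = (P : Subgroup G).index * Cfsg.charDegree (μ : ↥(P : Subgroup G) → ℂ) := by
        rw [Cfsg.charDegree, indFun_one, irr_apply_one, ← Nat.cast_mul, Complex.natCast_re, Nat.floor_natCast]
      rw [h3, ← hd, hda, mul_comm] at h2
      exact Nat.le_of_mul_le_mul_left h2 (Nat.pos_of_ne_zero Subgroup.index_ne_zero_of_finite)
    obtain ⟨μ, hμ, hμd⟩ : ∃ μ : Cfsg.IrrCharacter ↥(P : Subgroup G),
        Cfsg.classInner (fun x : ↥(P : Subgroup G) => (χ : G → ℂ) x) (μ : _ → ℂ) ≠ 0 ∧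
          Cfsg.charDegree (μ : ↥(P : Subgroup G) → ℂ) = p ^ a := by
      by_contra hno
      push Not at hno
      choose m hm using exists_mult hres
      have h1 := classFunction_expand (IsCharacter.isClassFunction hres) 1
      simp only [hm, OneMemClass.coe_one, irr_apply_one] at h1
      have h2 : d = ∑ μ : Cfsg.IrrCharacter ↥(P : Subgroup G), m μ * Cfsg.charDegree (μ : ↥(P : Subgroup G) → ℂ) := by
        exact_mod_cast h1
      have h3 : p ^ (a + 1) ∣ d := by
        rw [h2]
        refine Finset.dvd_sum fun μ _ => ?_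
        by_cases h : m μ = 0
        · rw [h, zero_mul]; exact dvd_zero _
        refine dvd_mul_of_dvd_right ?_ _
        have h4 : Cfsg.classInner (fun x : ↥(P : Subgroup G) => (χ : G → ℂ) x) (μ : _ → ℂ) ≠ 0 := by
          rw [hm]; exact Nat.cast_ne_zero.mpr h
        obtain ⟨i, -, hi⟩ := (Nat.dvd_prime_pow hp).mp ((charDegree_dvd μ).trans (dvd_of_eq hPc))
        have h5 := (hge μ h4).2
        have h6 := hno μ h4
        rw [hi] at h5 h6 ⊢
        have h7 : a ≤ i := (Nat.pow_le_pow_iff_right hp.one_lt).mp h5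
        exact pow_dvd_pow p (lt_of_le_of_ne h7 (fun e => h6 (by rw [e])))
      have := (hp.pow_dvd_iff_le_factorization hd0.ne').mp h3
      omega
    refine ⟨P, (μ : _ → ℂ), isCharacter_irr μ, (CfsgLib.CliffordCorr.eq_of_constituent_degree
      (IsCharacter.indFun _ (isCharacter_irr μ)) χ (hge μ hμ).1 ?_).symm⟩
    rw [indFun_one, irr_apply_one, irr_apply_one, hμd, ← hd, hda]
    push_cast
    ring
  · rintro ⟨P, θ, hθ, hχ⟩
    have hdvd := charDegree_dvd χ
    have h1 : Cfsg.charDegree (χ : G → ℂ) = (P : Subgroup G).index * Cfsg.charDegree θ := by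
      rw [hχ, Cfsg.charDegree, indFun_one, IsCharacter.apply_one hθ, ← Nat.cast_mul, Complex.natCast_re, Nat.floor_natCast]
    rw [h1, ← (P : Subgroup G).card_mul_index, mul_comm (Nat.card _)] at hdvd
    obtain ⟨c, hc⟩ := (Nat.mul_dvd_mul_iff_left (Nat.pos_of_ne_zero Subgroup.index_ne_zero_of_finite)).mp hdvd
    obtain ⟨i, -, hi⟩ := (Nat.dvd_prime_pow hp).mp (P.card_eq_multiplicity ▸ (dvd_mul_left c (Cfsg.charDegree θ)).trans (dvd_of_eq hc.symm))
    exact ⟨i, by rw [h1, ← (P : Subgroup G).card_mul_index, hc, hi]; ring⟩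

end Cfsg.Agent.S4798
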