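import Cfsg.Statements.S4801
import Cfsg.Agent.Lib.Chars.Central
import Cfsg.Agent.Lib.Chars.Kernel

set_option autoImplicit false
open Cfsg

namespace Cfsg.Agent.S4801

open CfsgLib.Chars

/-- The codegree of an irreducible complex character χ of a finite group G is [G : ker χ] / χ(1), where ker χ is the set of elements at which χ takes the value χ(1). Let S be a finite simple group and G a finite group such that every codegree of an irreducible character of S is a codegree of an irreducible character of G. Then the order of S divides the order of G. -/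
theorem result {S : Type*} [Group S] [Finite S] (hS : IsSimpleGroup S) {G : Type*} [Group G] [Finite G] (hsub : ∀ χ : Cfsg.IrrCharacter S, ∃ ψ : Cfsg.IrrCharacter G, (Nat.card S / (Nat.card {g : S // (χ : S → ℂ) g = (χ : S → ℂ) 1} * Cfsg.charDegree (χ : S → ℂ))) = (Nat.card G / (Nat.card {g : G // (ψ : G → ℂ) g = (ψ : G → ℂ) 1} * Cfsg.charDegree (ψ : G → ℂ)))) : Nat.card S ∣ Nat.card G := by
  classical
  haveI := Fintype.ofFinite S
  have hG0 : Nat.card G ≠ 0 := Nat.card_pos.ne'
  rw [← Nat.factorization_le_iff_dvd Nat.card_pos.ne' hG0]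
  intro p
  by_cases hp : p.Prime
  swap
  · simp [Nat.factorization_eq_zero_of_not_prime _ hp]
  by_cases hpS : p ∣ Nat.card S
  swap
  · rw [Nat.factorization_eq_zero_of_not_dvd hpS]; exact Nat.zero_le _
  let one : IrrCharacter S := ⟨fun _ => 1, isIrrCharacter_one S⟩
  obtain ⟨χ, hne, hχ⟩ : ∃ χ : IrrCharacter S, χ ≠ one ∧ ¬ p ∣ charDegree (χ : S → ℂ) := by
    by_contra hno
    push Not at hno
    have h := sum_deg_sq (G := S)
    rw [← Finset.add_sum_erase _ _ (Finset.mem_univ one)] at h
    have h1 : p ∣ ∑ χ ∈ Finset.univ.erase one, charDegree (χ : S → ℂ) ^ 2 :=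
      Finset.dvd_sum fun χ hχ => dvd_pow (hno χ (Finset.ne_of_mem_erase hχ)) two_ne_zero
    have h2 : charDegree (one : S → ℂ) ^ 2 = 1 := by simp [one, charDegree]
    rw [h2] at h
    rw [← h] at hpS
    exact hp.not_dvd_one ((Nat.dvd_add_left h1).mp hpS)
  obtain ⟨ψ, hψ⟩ := hsub χ
  obtain ⟨K, hKn, hK, -⟩ := IsCharacter.exists_kernel (isCharacter_irr χ)
  have hKbot : K = ⊥ := by
    rcases hS.eq_bot_or_eq_top_of_normal K hKn with h | h
    · exact h
    · exfalso
      apply hne
      apply Subtype.ext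
      funext x
      have hx : (χ : S → ℂ) x = (χ : S → ℂ) 1 := (hK x).mp (h ▸ Subgroup.mem_top x)
      -- `χ` is constant, hence principal
      have hconst : ∀ y, (χ : S → ℂ) y = (χ : S → ℂ) 1 := fun y => (hK y).mp (h ▸ Subgroup.mem_top y)
      have hi := classInner_irr χ one
      rw [if_neg hne] at hi
      simp only [Cfsg.classInner, one, map_one, mul_one] at hi
      rw [Finset.sum_congr rfl (fun y _ => hconst y), Finset.sum_const, nsmul_eq_mul,
        Finset.card_univ, ← Nat.card_eq_fintype_card, ← mul_assoc,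
        inv_mul_cancel₀ (natCast_card_ne_zero S), one_mul] at hi
      exact absurd hi (irr_one_ne_zero χ)
  have hker : Nat.card {g : S // (χ : S → ℂ) g = (χ : S → ℂ) 1} = 1 := by
    rw [← Nat.card_congr (Equiv.subtypeEquivRight fun g => hK g)]
    show Nat.card K = 1
    rw [hKbot, Subgroup.card_bot]
  rw [hker, one_mul] at hψ
  have hd := charDegree_dvd χ
  have hdvd : Nat.card S / charDegree (χ : S → ℂ) ∣ Nat.card G := by
    rw [hψ]
    apply Nat.div_dvd_of_dvd
    by_contra hnd
    obtain ⟨L, -, hL, -⟩ := IsCharacter.exists_kernel (isCharacter_irr ψ)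
    have hLc : Nat.card {g : G // (ψ : G → ℂ) g = (ψ : G → ℂ) 1} = Nat.card L :=
      (Nat.card_congr (Equiv.subtypeEquivRight fun g => hL g)).symm
    apply hnd
    rw [hLc]
    haveI : L.Normal := ⟨fun n hn g => (hL _).mpr (by
      rw [IsCharacter.isClassFunction (isCharacter_irr ψ) n g]; exact (hL n).mp hn)⟩
    haveI : Fintype (G ⧸ L) := Fintype.ofFinite _
    haveI := Fintype.ofFinite G
    obtain ⟨φ, hφ⟩ := exists_deflate L ψ fun n hn => (hL n).mp hn
    have e : charDegree (ψ : G → ℂ) = charDegree (φ : G ⧸ L → ℂ) := by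
      simp [charDegree, hφ]
    rw [e, ← L.index_mul_card, Subgroup.index_eq_card, mul_comm (Nat.card L)]
    exact mul_dvd_mul_right (charDegree_dvd φ) _
  refine le_trans ?_ ((Nat.factorization_le_iff_dvd
    (Nat.div_pos (Nat.le_of_dvd Nat.card_pos hd) (charDegree_pos χ)).ne' hG0).mpr hdvd p)
  rw [Nat.factorization_div hd, Finsupp.coe_tsub, Pi.sub_apply,
    Nat.factorization_eq_zero_of_not_dvd hχ, Nat.sub_zero]

end Cfsg.Agent.S4801
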