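import Cfsg.Statements.S4802
import Cfsg.Agent.Lib.Blocks.Core
import Cfsg.Agent.Lib.Chars.Misc
import Cfsg.Agent.Lib.Chars.Clifford

set_option autoImplicit false
open Cfsg

namespace Cfsg.Agent.S4802

open CfsgLib.Chars CfsgLib.Blocks

/-- Let N < M be normal subgroups of the finite group G and g ∈ M ∖ N. Then the conjugacy class of g is exactly M ∖ N if and only if every irreducible complex character of G whose kernel contains N takes the same value at all elements of M ∖ N, and every irreducible complex character of G whose kernel does not contain N vanishes at g. -/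
theorem result {G : Type*} [Group G] [Finite G] (N M : Subgroup G) [N.Normal] [M.Normal] (hNM : N < M) (g : G) (hgM : g ∈ M) (hgN : g ∉ N) : {h : G | IsConj g h} = (M : Set G) \ (N : Set G) ↔ ((∀ χ : Cfsg.IrrCharacter G, (∀ x ∈ N, (χ : G → ℂ) x = (χ : G → ℂ) 1) → ∀ x ∈ M, x ∉ N → ∀ y ∈ M, y ∉ N → (χ : G → ℂ) x = (χ : G → ℂ) y) ∧ (∀ χ : Cfsg.IrrCharacter G, (∃ x ∈ N, (χ : G → ℂ) x ≠ (χ : G → ℂ) 1) → (χ : G → ℂ) g = 0)) := by
  classical
  haveI : Fintype G := Fintype.ofFinite G
  constructor
  · intro h
    have hc : ∀ x ∈ M, x ∉ N → IsConj g x := fun x hx hx' => h.ge ⟨hx, hx'⟩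
    refine ⟨fun χ _ x hx hx' y hy hy' => ?_, fun χ ⟨a, ha, hane⟩ => ?_⟩
    · obtain ⟨w, hw⟩ := isConj_iff.mp ((hc x hx hx').symm.trans (hc y hy hy'))
      rw [← hw, IsCharacter.isClassFunction (isCharacter_irr χ)]
    · haveI : Fintype N := Fintype.ofFinite _
      have h0 : ∑ n : N, (χ : G → ℂ) n = 0 := by
        by_contra hne
        have hin : Cfsg.classInner (fun n : N => (χ : G → ℂ) n) (trivIrr N : N → ℂ) ≠ 0 := by
          simp only [Cfsg.classInner, trivIrr, map_one, mul_one]
          exact mul_ne_zero (inv_ne_zero (natCast_card_ne_zero N)) hne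
        obtain ⟨e, -, -, hval, -⟩ := clifford N χ (trivIrr N) hin
        have horb : ∀ φ ∈ orbit N (trivIrr N), ∀ m : N, (φ : N → ℂ) m = 1 := by
          intro φ hφ m
          obtain ⟨w, rfl⟩ := (mem_orbit N).mp hφ
          rw [conjIrr_apply]; rfl
        have e1 := hval ⟨a, ha⟩
        have e2 := hval 1
        rw [Finset.sum_congr rfl fun φ hφ => horb φ hφ _] at e1 e2
        exact hane (e1.trans e2.symm)
      let f : G → ℂ := fun y => if y ∈ N then 1 else 0
      have hf : Cfsg.IsClassFunction G f := fun y k => by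
        have hiff : k * y * k⁻¹ ∈ N ↔ y ∈ N :=
          ⟨fun h' => by simpa [mul_assoc] using Subgroup.Normal.conj_mem inferInstance _ h' k⁻¹,
            fun h' => Subgroup.Normal.conj_mem inferInstance y h' k⟩
        simp only [f, hiff]
      have hs : ∀ F : G → ℂ, ∑ y : G, f y * F y = ∑ n : N, F n := fun F => by
        simp only [f, ite_mul, one_mul, zero_mul]
        rw [← Finset.sum_filter,
          Finset.sum_subtype (Finset.univ.filter (fun y : G => y ∈ N)) (p := fun y => y ∈ N)
            (fun x => by simp) F]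
      have h1 := sum_classFunction_mul χ hf g
      rw [omega, hs (fun y => (χ : G → ℂ) y), h0, zero_div, zero_mul,
        hs (fun y => (χ : G → ℂ) (y * g))] at h1
      have hval : ∀ n : N, (χ : G → ℂ) ((n : G) * g) = (χ : G → ℂ) g := fun n => by
        have hm : (n : G) * g ∈ M := M.mul_mem (hNM.le n.2) hgM
        have hn : (n : G) * g ∉ N := fun h' => hgN (by simpa using N.mul_mem (N.inv_mem n.2) h')
        obtain ⟨w, hw⟩ := isConj_iff.mp (hc _ hm hn)
        rw [← hw, IsCharacter.isClassFunction (isCharacter_irr χ)]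
      rw [Finset.sum_congr rfl fun n _ => hval n, Finset.sum_const, nsmul_eq_mul, Finset.card_univ,
        ← Nat.card_eq_fintype_card] at h1
      exact (mul_eq_zero.mp h1).resolve_left (natCast_card_ne_zero N)
  · rintro ⟨hA, hB⟩
    ext x
    constructor
    · intro hx
      obtain ⟨w, rfl⟩ := isConj_iff.mp hx
      refine ⟨Subgroup.Normal.conj_mem inferInstance g hgM w, fun h => hgN ?_⟩
      simpa [mul_assoc] using Subgroup.Normal.conj_mem (H := N) inferInstance _ h w⁻¹
    · rintro ⟨hxM, hxN⟩
      by_contra hne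
      have h0 := col_orth x g
      have h1 := col_orth g g
      rw [Finset.sum_congr rfl (g := fun χ : Cfsg.IrrCharacter G =>
        (χ : G → ℂ) g * (starRingEnd ℂ) ((χ : G → ℂ) g)) fun χ _ => ?_, h1, if_pos (IsConj.refl _),
        if_neg (show ¬ IsConj g x from hne)] at h0
      · exact Nat.card_pos.ne' (Nat.cast_eq_zero.mp h0)
      · by_cases hk : ∀ a ∈ N, (χ : G → ℂ) a = (χ : G → ℂ) 1
        · rw [hA χ hk x hxM hxN g hgM hgN]
        · push Not at hk
          rw [hB χ hk, map_zero, mul_zero, mul_zero]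

end Cfsg.Agent.S4802
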