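import Cfsg.Statements.S4808
import Cfsg.Agent.Lib.Blocks.Orth
import Cfsg.Agent.Lib.Chars.Kernel

set_option autoImplicit false
open Cfsg

namespace Cfsg.Agent.S4808

open CfsgLib.Chars CfsgLib.Blocks

/-- The codegree of an irreducible complex character χ of a finite group G is [G : ker χ] / χ(1), where ker χ is the set of elements at which χ takes the value χ(1). A prime divides the order of G if and only if it divides the codegree of some irreducible complex character of G. -/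
theorem result {G : Type*} [Group G] [Finite G] (p : ℕ) (hp : p.Prime) : p ∣ Nat.card G ↔ ∃ χ : Cfsg.IrrCharacter G, p ∣ (Nat.card G / (Nat.card {g : G // (χ : G → ℂ) g = (χ : G → ℂ) 1} * Cfsg.charDegree (χ : G → ℂ))) := by
  classical
  haveI : Fintype G := Fintype.ofFinite G
  haveI : Fact p.Prime := ⟨hp⟩
  have hker : ∀ χ : Cfsg.IrrCharacter G, ∃ K : Subgroup G, K.Normal ∧
      (∀ g : G, g ∈ K ↔ (χ : G → ℂ) g = (χ : G → ℂ) 1) ∧
      Nat.card {g : G // (χ : G → ℂ) g = (χ : G → ℂ) 1} = Nat.card K ∧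
      Cfsg.charDegree (χ : G → ℂ) ∣ Nat.card (G ⧸ K) := by
    intro χ
    obtain ⟨K, hK, hKm, -⟩ := IsCharacter.exists_kernel (isCharacter_irr χ)
    haveI := hK
    refine ⟨K, hK, hKm, Nat.card_congr (Equiv.subtypeEquivRight fun g => (hKm g).symm), ?_⟩
    obtain ⟨φ, hφ⟩ := exists_deflate K χ fun g hg => (hKm g).mp hg
    rw [show Cfsg.charDegree (χ : G → ℂ) = Cfsg.charDegree (φ : G ⧸ K → ℂ) by
      rw [Cfsg.charDegree, Cfsg.charDegree, hφ, Function.comp_apply, QuotientGroup.mk_one]]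
    exact charDegree_dvd φ
  have hquot : ∀ (χ : Cfsg.IrrCharacter G) (K : Subgroup G),
      Nat.card {g : G // (χ : G → ℂ) g = (χ : G → ℂ) 1} = Nat.card K →
      Nat.card G / (Nat.card {g : G // (χ : G → ℂ) g = (χ : G → ℂ) 1} * Cfsg.charDegree (χ : G → ℂ)) =
        Nat.card (G ⧸ K) / Cfsg.charDegree (χ : G → ℂ) := by
    intro χ K hc
    rw [hc, ← Nat.div_div_eq_div_mul, Subgroup.card_eq_card_quotient_mul_card_subgroup K,
      Nat.mul_div_cancel _ Nat.card_pos]
  constructor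
  · intro hdvd
    by_contra hn
    push Not at hn
    obtain ⟨y, hy⟩ := exists_prime_orderOf_dvd_card' p hdvd
    haveI : Finite (Subgroup G) := inferInstance
    obtain ⟨N, ⟨hN, hNp⟩, hmin⟩ := Set.Finite.exists_minimalFor (fun N : Subgroup G => Nat.card N)
      {N : Subgroup G | N.Normal ∧ p ∣ Nat.card N} (Set.toFinite _)
      ⟨⊤, inferInstance, by rwa [Subgroup.card_top]⟩
    obtain ⟨z, hz⟩ := exists_prime_orderOf_dvd_card' p hNp
    have hz1 : (z : G) ≠ 1 := fun h => by
      have h2 : orderOf (z : G) = p := by rw [Subgroup.orderOf_coe, hz]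
      rw [h, orderOf_one] at h2
      exact hp.ne_one h2.symm
    have hvan : ∀ χ : Cfsg.IrrCharacter G, (χ : G → ℂ) (z : G) ≠ 0 →
        (χ : G → ℂ) (z : G) = (χ : G → ℂ) 1 := by
      intro χ hχ
      obtain ⟨K, hK, hKm, hKc, hdeg⟩ := hker χ
      haveI := hK
      by_contra hzne
      refine hχ ?_
      obtain ⟨φ, hφ⟩ := exists_deflate K χ fun g hg => (hKm g).mp hg
      haveI : Fintype (G ⧸ K) := Fintype.ofFinite _
      obtain ⟨P, hP⟩ := exists_isPModular hp
      have h1 : ¬ p ∣ Nat.card (G ⧸ K) / Cfsg.charDegree (χ : G → ℂ) := hquot χ K hKc ▸ hn χ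
      have hfull : p ^ (Nat.card (G ⧸ K)).factorization p ∣ Cfsg.charDegree (φ : G ⧸ K → ℂ) := by
        have hd : Cfsg.charDegree (χ : G → ℂ) = Cfsg.charDegree (φ : G ⧸ K → ℂ) := by
          rw [Cfsg.charDegree, Cfsg.charDegree, hφ, Function.comp_apply, QuotientGroup.mk_one]
        rw [← hd, hp.pow_dvd_iff_le_factorization (charDegree_pos χ).ne']
        by_contra hlt
        refine h1 ?_
        have h2 := Nat.factorization_div hdeg
        refine Nat.dvd_of_factorization_pos ?_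
        rw [h2, Finsupp.coe_tsub, Pi.sub_apply]
        omega
      rw [hφ]
      refine (defect_zero_tfae hP φ).2.mp hfull _ ?_
      have h3 : orderOf (QuotientGroup.mk' K (z : G)) ∣ p := by
        have := orderOf_map_dvd (QuotientGroup.mk' K) (z : G)
        rwa [Subgroup.orderOf_coe, hz] at this
      rcases (Nat.dvd_prime hp).mp h3 with h4 | h4
      · exact absurd ((hKm _).mp ((QuotientGroup.eq_one_iff _).mp (orderOf_eq_one_iff.mp h4))) hzne
      · exact dvd_of_eq h4.symm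
    have h0 := col_orth (1 : G) (z : G)
    rw [if_neg fun hc => hz1 (isConj_one_left.mp hc)] at h0
    have h5 : ∀ χ : Cfsg.IrrCharacter G, ∃ n : ℕ, (χ : G → ℂ) 1 * (starRingEnd ℂ) ((χ : G → ℂ) (z : G)) = (n : ℂ) ∧
        ((χ : G → ℂ) (z : G) = (χ : G → ℂ) 1 → n ≠ 0) := fun χ => by
      by_cases h : (χ : G → ℂ) (z : G) = 0
      · exact ⟨0, by simp [h], fun e => absurd (e.symm.trans h) (irr_one_ne_zero χ)⟩
      · refine ⟨Cfsg.charDegree (χ : G → ℂ) ^ 2, ?_, fun _ => pow_ne_zero 2 (charDegree_pos χ).ne'⟩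
        rw [hvan χ h, irr_apply_one, map_natCast, Nat.cast_pow, sq]
    choose n hn1 hn2 using h5
    rw [Finset.sum_congr rfl fun χ _ => hn1 χ, ← Nat.cast_sum, Nat.cast_eq_zero,
      Finset.sum_eq_zero_iff] at h0
    exact hn2 ⟨fun _ => 1, isIrrCharacter_one G⟩ rfl (h0 _ (Finset.mem_univ _))
  · rintro ⟨χ, hχ⟩
    obtain ⟨K, hK, hKm, hKc, hdeg⟩ := hker χ
    haveI := hK
    rw [hquot χ K hKc] at hχ
    exact (hχ.trans (Nat.div_dvd_of_dvd hdeg)).trans (Subgroup.card_quotient_dvd_card K)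

end Cfsg.Agent.S4808
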