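import Cfsg.Statements.S4812
import Cfsg.Agent.Lib.SL2Borel.DegreeSet

set_option autoImplicit false
open Cfsg

namespace Cfsg.Agent.S4812

/-- Let F be a finite field of characteristic 2 with q ≥ 4 elements and let S be isomorphic to PSL(2,F) or to SL(2,F). Then the vertices of the character degree graph of S are the primes dividing q(q²−1), and two distinct primes are adjacent exactly when both divide q + 1 or both divide q − 1; so the graph has the three connected components {2}, the primes dividing q + 1 and the primes dividing q − 1, each complete. -/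
theorem result (F : Type*) [Field F] [Fintype F] [CharP F 2] (q : ℕ) (hq : Fintype.card F = q) (h4 : 4 ≤ q) {S : Type*} [Group S] [Finite S] (hS : Nonempty (S ≃* Matrix.ProjectiveSpecialLinearGroup (Fin 2) F) ∨ Nonempty (S ≃* Matrix.SpecialLinearGroup (Fin 2) F)) : Cfsg.degreePrimes S = {r : ℕ | r.Prime ∧ r ∣ q * (q ^ 2 - 1)} ∧ ∀ r s : ℕ, (Cfsg.degreeGraph S).Adj r s ↔ (r ≠ s ∧ r.Prime ∧ s.Prime ∧ ((r ∣ q + 1 ∧ s ∣ q + 1) ∨ (r ∣ q - 1 ∧ s ∣ q - 1))) := by
  classical
  have heven : Even (Fintype.card F) := by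
    rw [Nat.even_iff]; exact FiniteField.even_card_iff_char_two.1 (ringChar.eq F 2)
  have hS' : Cfsg.charDegrees S = {1, q - 1, q, q + 1} := by
    rw [← hq, ← CfsgLib.SL2Borel.charDegrees_even heven (hq ▸ h4)]
    rcases hS with h | h <;> have e := h.some
    · rw [CfsgLib.SL2Borel.charDegrees_congr e]
      have hc := CfsgLib.SL2Borel.center_eq_bot_of_even (F := F) heven
      refine (CfsgLib.SL2Borel.charDegrees_congr (MulEquiv.ofBijective (QuotientGroup.mk' (Subgroup.center (Matrix.SpecialLinearGroup (Fin 2) F))) ⟨?_, QuotientGroup.mk'_surjective _⟩)).symm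
      rw [← MonoidHom.ker_eq_bot_iff, QuotientGroup.ker_mk', hc]
    · rw [CfsgLib.SL2Borel.charDegrees_congr e]
  obtain ⟨n, hn⟩ : ∃ n : ℕ, q = 2 ^ n := by
    obtain ⟨n, -, hn⟩ := FiniteField.card F 2
    exact ⟨n, by rw [← hq, hn]⟩
  have hq2 : q * (q ^ 2 - 1) = q * ((q + 1) * (q - 1)) := by
    rw [← Nat.sq_sub_sq, one_pow]
  constructor
  · ext r
    simp only [Cfsg.degreePrimes, hS', Set.mem_setOf_eq, Set.mem_insert_iff, Set.mem_singleton_iff]
    refine and_congr_right fun hr => ?_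
    rw [hq2, hr.dvd_mul, hr.dvd_mul]
    constructor
    · rintro ⟨d, rfl | rfl | rfl | rfl, hd⟩
      · exact absurd (Nat.dvd_one.1 hd) hr.one_lt.ne'
      · exact Or.inr (Or.inr hd)
      · exact Or.inl hd
      · exact Or.inr (Or.inl hd)
    · rintro (h | h | h)
      · exact ⟨q, Or.inr (Or.inr (Or.inl rfl)), h⟩
      · exact ⟨q + 1, Or.inr (Or.inr (Or.inr rfl)), h⟩
      · exact ⟨q - 1, Or.inr (Or.inl rfl), h⟩
  · intro r s
    show (r ≠ s ∧ r.Prime ∧ s.Prime ∧ ∃ d ∈ Cfsg.charDegrees S, r * s ∣ d) ↔ _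
    simp only [hS', Set.mem_insert_iff, Set.mem_singleton_iff]
    refine and_congr_right fun hne => and_congr_right fun hr => and_congr_right fun hs => ?_
    have hco : Nat.Coprime r s := (Nat.coprime_primes hr hs).2 hne
    constructor
    · rintro ⟨d, rfl | rfl | rfl | rfl, hd⟩
      · exact absurd (Nat.dvd_one.1 (dvd_of_mul_right_dvd hd)) hr.one_lt.ne'
      · exact Or.inr ⟨dvd_of_mul_right_dvd hd, dvd_of_mul_left_dvd hd⟩
      · rw [hn] at hd
        exfalso
        apply hne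
        rw [(Nat.prime_dvd_prime_iff_eq hr Nat.prime_two).1 (hr.dvd_of_dvd_pow (dvd_of_mul_right_dvd hd)),
          (Nat.prime_dvd_prime_iff_eq hs Nat.prime_two).1 (hs.dvd_of_dvd_pow (dvd_of_mul_left_dvd hd))]
      · exact Or.inl ⟨dvd_of_mul_right_dvd hd, dvd_of_mul_left_dvd hd⟩
    · rintro (⟨h1, h2⟩ | ⟨h1, h2⟩)
      · exact ⟨q + 1, Or.inr (Or.inr (Or.inr rfl)), hco.mul_dvd_of_dvd_of_dvd h1 h2⟩
      · exact ⟨q - 1, Or.inr (Or.inl rfl), hco.mul_dvd_of_dvd_of_dvd h1 h2⟩

end Cfsg.Agent.S4812
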