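import Cfsg.Statements.S4825
import Cfsg.Agent.Lib.Blocks.SecondMain
import Cfsg.Agent.Lib.Blocks.Contribution
import Cfsg.Agent.Lib.Blocks.PPart
import Cfsg.Agent.Lib.Blocks.Orth
import Cfsg.Agent.Lib.Chars.Clifford

set_option autoImplicit false
open Cfsg

namespace Cfsg.Agent.S4825

open CfsgLib.Chars CfsgLib.Blocks
open scoped ComplexConjugate

/-- Let p be a prime, G a finite group with Sylow p-subgroup P, M a maximal ideal of the algebraic integers containing p, and B a p-block of G with defect group P. Let N be a normal subgroup of G not containing P and θ an irreducible character of N. Then the number of irreducible characters in B of degree prime to p lying over θ (having θ as a constituent on restriction to N) is either 0 or at least 2, and when p ≤ 3 it is divisible by p. -/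
theorem result {G : Type*} [Group G] [Fintype G] (p : ℕ) [Fact p.Prime] (P : Sylow p G) (M : Ideal Cfsg.AlgInt) (hM : Cfsg.IsPModular p M) (B : Set (Cfsg.IrrCharacter G)) (hB : Cfsg.IsPBlock M B) (hBP : Cfsg.IsDefectGroup p M B P) (N : Subgroup G) [N.Normal] [Fintype N] (hPN : ¬ (P : Subgroup G) ≤ N) (θ : Cfsg.IrrCharacter N) :
    (Nat.card {χ : Cfsg.IrrCharacter G // χ ∈ B ∧ ¬ p ∣ Cfsg.charDegree (χ : G → ℂ) ∧ Cfsg.classInner (fun n : N => (χ : G → ℂ) n) (θ : N → ℂ) ≠ 0} = 0 ∨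
      2 ≤ Nat.card {χ : Cfsg.IrrCharacter G // χ ∈ B ∧ ¬ p ∣ Cfsg.charDegree (χ : G → ℂ) ∧ Cfsg.classInner (fun n : N => (χ : G → ℂ) n) (θ : N → ℂ) ≠ 0}) ∧
    (p ≤ 3 → p ∣ Nat.card {χ : Cfsg.IrrCharacter G // χ ∈ B ∧ ¬ p ∣ Cfsg.charDegree (χ : G → ℂ) ∧ Cfsg.classInner (fun n : N => (χ : G → ℂ) n) (θ : N → ℂ) ≠ 0}) := by
  classical
  have hp : p.Prime := Fact.out
  set S := Finset.univ.filter fun χ : Cfsg.IrrCharacter G =>
    χ ∈ B ∧ ¬ p ∣ Cfsg.charDegree (χ : G → ℂ) ∧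
      Cfsg.classInner (fun n : N => (χ : G → ℂ) n) (θ : N → ℂ) ≠ 0 with hS
  have hcard : Nat.card {χ : Cfsg.IrrCharacter G // χ ∈ B ∧ ¬ p ∣ Cfsg.charDegree (χ : G → ℂ) ∧
      Cfsg.classInner (fun n : N => (χ : G → ℂ) n) (θ : N → ℂ) ≠ 0} = S.card := by
    rw [← Nat.card_eq_finsetCard]
    exact Nat.card_congr (Equiv.subtypeEquivRight fun χ => by simp [S])
  rw [hcard]
  obtain ⟨x, hxP, hxN⟩ := SetLike.not_le_iff_exists.mp hPN
  obtain ⟨k, hk⟩ := IsPGroup.iff_orderOf.mp P.isPGroup' ⟨x, hxP⟩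
  rw [Subgroup.orderOf_mk] at hk
  choose e he using fun χ : Cfsg.IrrCharacter G =>
    exists_mult (IsCharacter.restrict (isCharacter_irr χ) N) θ
  have hxpart : Cfsg.IsPPart p x⁻¹ x⁻¹ :=
    ⟨1, mul_one _, Commute.one_right _, ⟨k, by rw [orderOf_inv, hk]⟩, not_dvd_orderOf_one hM⟩
  have horth : ∀ n : N, ∑ χ ∈ Finset.univ.filter (· ∈ B),
      (χ : G → ℂ) n * (χ : G → ℂ) x = 0 := by
    intro n
    obtain ⟨x', hx'⟩ := exists_isPPart hp (n : G)
    obtain ⟨y, hy, hc, hox, hoy⟩ := hx'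
    have hmem : x' ∈ N := by
      obtain ⟨t, ht⟩ := pPart_eq_pow hp hy hc hox hoy
      rw [ht]
      exact N.pow_mem n.2 t
    have h := block_orthogonality hM hB (g := (n : G)) (h := x⁻¹) (x := x') (x' := x⁻¹)
      ⟨y, hy, hc, hox, hoy⟩ hxpart (fun h => hxN (by
        obtain ⟨w, hw⟩ := isConj_iff.mp h
        have h' := (inferInstance : N.Normal).conj_mem x' hmem w
        rw [hw] at h'
        exact inv_mem_iff.mp h'))
    rw [finsum_mem_eq_toFinset_sum, ← Set.filter_mem_univ_eq_toFinset] at h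
    rw [← h]
    refine Finset.sum_congr rfl fun χ _ => ?_
    rw [← IsCharacter.map_inv (isCharacter_irr χ), inv_inv]
  have hzero : ∑ χ ∈ Finset.univ.filter (· ∈ B), (e χ : ℂ) * (χ : G → ℂ) x = 0 := by
    have h1 : ∀ χ : Cfsg.IrrCharacter G, (e χ : ℂ) * (χ : G → ℂ) x =
        (Nat.card N : ℂ)⁻¹ * ∑ n : N, conj ((θ : N → ℂ) n) * ((χ : G → ℂ) n * (χ : G → ℂ) x) := by
      intro χ
      rw [← he, Cfsg.classInner, mul_assoc, Finset.sum_mul]
      exact congrArg _ (Finset.sum_congr rfl fun n _ => by ring)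
    rw [Finset.sum_congr rfl (fun χ _ => h1 χ), ← Finset.mul_sum, Finset.sum_comm]
    refine mul_eq_zero_of_right _ (Finset.sum_eq_zero fun n _ => ?_)
    rw [← Finset.mul_sum, horth, mul_zero]
  have hdvd : p ∣ ∑ χ ∈ Finset.univ.filter (· ∈ B), e χ * Cfsg.charDegree (χ : G → ℂ) := by
    refine (mli_natCast_iff hM _).mp ?_
    have h2 : ∑ χ ∈ Finset.univ.filter (· ∈ B),
        ((e χ : ℂ) * (χ : G → ℂ) 1 - (e χ : ℂ) * (χ : G → ℂ) x) =
        ((∑ χ ∈ Finset.univ.filter (· ∈ B), e χ * Cfsg.charDegree (χ : G → ℂ) : ℕ) : ℂ) := by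
      rw [Finset.sum_sub_distrib, hzero, sub_zero]
      push_cast
      simp only [irr_apply_one]
    rw [← h2]
    refine mli_sum hM _ fun χ _ => ?_
    have h3 := mli_char_pElt_mul hM (isCharacter_irr χ) hk (Commute.one_right x)
      (not_dvd_orderOf_one hM)
    rw [mul_one] at h3
    have h4 := mli_mul_left hM (mlr_natCast hM (e χ)) (mli_neg h3)
    convert h4 using 1
    ring
  have hK : ∀ χ ∈ S, e χ * Cfsg.charDegree (χ : G → ℂ) *
      ((orbit N θ).card * Cfsg.charDegree (θ : N → ℂ)) = Cfsg.charDegree (χ : G → ℂ) ^ 2 := by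
    intro χ hχ
    obtain ⟨a, -, hmult, -, hdeg⟩ := clifford N χ θ (Finset.mem_filter.mp hχ).2.2.2
    have hea : e χ = a := by
      have := (he χ).symm.trans hmult
      exact_mod_cast this
    rw [hea, hdeg]
    ring
  have hsq : p ∣ ∑ χ ∈ S, Cfsg.charDegree (χ : G → ℂ) ^ 2 := by
    rw [← Finset.sum_congr rfl hK, ← Finset.sum_mul]
    refine dvd_mul_of_dvd_left ?_ _
    rw [← Finset.sum_filter_add_sum_filter_not (Finset.univ.filter (· ∈ B)) (fun χ => χ ∈ S)] at hdvd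
    have hSeq : (Finset.univ.filter (· ∈ B)).filter (fun χ => χ ∈ S) = S := by
      ext χ; simp only [S, Finset.mem_filter, Finset.mem_univ, true_and]; tauto
    rw [hSeq] at hdvd
    refine (Nat.dvd_add_left (Finset.dvd_sum fun χ hχ => ?_)).mp hdvd
    simp only [S, Finset.mem_filter, Finset.mem_univ, true_and, not_and, not_not] at hχ
    by_cases hd : p ∣ Cfsg.charDegree (χ : G → ℂ)
    · exact dvd_mul_of_dvd_right hd _
    · have h0 := hχ.2 hχ.1 hd
      rw [he χ] at h0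
      rw [show e χ = 0 by exact_mod_cast h0, zero_mul]
      exact dvd_zero _
  refine ⟨?_, fun h3 => ?_⟩
  · by_contra hno
    push Not at hno
    obtain ⟨χ, hχ⟩ := Finset.card_eq_one.mp (show S.card = 1 by omega)
    rw [hχ, Finset.sum_singleton] at hsq
    exact (Finset.mem_filter.mp (hχ.symm ▸ Finset.mem_singleton_self χ : χ ∈ S)).2.2.1
      (hp.dvd_of_dvd_pow hsq)
  · refine (Nat.ModEq.dvd_iff ?_ dvd_rfl).mp hsq
    have h1 : ∀ χ ∈ S, Cfsg.charDegree (χ : G → ℂ) ^ 2 % p = 1 := by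
      intro χ hχ
      have hd := (Finset.mem_filter.mp hχ).2.2.1
      have h2 := hp.two_le
      interval_cases p
      · rw [Nat.pow_mod]
        have : Cfsg.charDegree (χ : G → ℂ) % 2 = 1 := by omega
        rw [this]
      · rw [Nat.pow_mod]
        have : Cfsg.charDegree (χ : G → ℂ) % 3 = 1 ∨ Cfsg.charDegree (χ : G → ℂ) % 3 = 2 := by omega
        rcases this with h | h <;> rw [h] <;> rfl
    rw [Nat.ModEq, Finset.sum_nat_mod, Finset.sum_congr rfl h1, Finset.sum_const, smul_eq_mul, mul_one]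

end Cfsg.Agent.S4825
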