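import Cfsg.Statements.S4835
import Cfsg.Agent.Lib.Chars.TwoClasses

set_option autoImplicit false
open Cfsg

namespace Cfsg.Agent.S4835

set_option linter.style.haveILetI false
open CfsgLib.Chars

/-- Let G be a finite group of order greater than 2 with an irreducible character χ that is nonzero on exactly two conjugacy classes. Then G has a unique minimal normal subgroup N; N is an elementary abelian p-group for some prime p; χ is nonzero exactly at the elements of N; and any two nonidentity elements of N are conjugate in G. -/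
theorem result {G : Type*} [Group G] [Finite G] (hG : 2 < Nat.card G) (χ : Cfsg.IrrCharacter G) (hχ : Nat.card {C : ConjClasses G // ∃ g ∈ C.carrier, (χ : G → ℂ) g ≠ 0} = 2) :
    ∃ N : Subgroup G, N.Normal ∧ N ≠ ⊥ ∧ (∀ K : Subgroup G, K.Normal → K ≠ ⊥ → N ≤ K) ∧
      (∃ p : ℕ, p.Prime ∧ Cfsg.IsElementaryAbelian p N) ∧
      (∀ g : G, (χ : G → ℂ) g ≠ 0 ↔ g ∈ N) ∧
      (∀ x ∈ N, ∀ y ∈ N, x ≠ 1 → y ≠ 1 → ∃ g : G, g * x * g⁻¹ = y) := by
  obtain ⟨N, hN, hne, hsupp, hconj, hkill, e, m, he, hm, hcard, -, hv, hG', hidx⟩ := TwoClasses.structureThm hG χ hχ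
  haveI := hN
  have hfaith := (TwoClasses.faithful_iff hG χ hχ χ).mpr rfl
  obtain ⟨a, ha, ha1⟩ : ∃ a ∈ N, a ≠ 1 := by
    by_contra h
    push Not at h
    exact hne ((Subgroup.eq_bot_iff_forall N).mpr h)
  have hmin : ∀ K : Subgroup G, K.Normal → K ≠ ⊥ → N ≤ K := by
    intro K hK hK1
    haveI := hK
    obtain ⟨k, hk, hk1⟩ : ∃ k ∈ K, k ≠ 1 := by
      by_contra h
      push Not at h
      exact hK1 ((Subgroup.eq_bot_iff_forall K).mpr h)
    suffices hint : ∃ n ∈ N, n ≠ 1 ∧ n ∈ K by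
      obtain ⟨n, hn, hn1, hnK⟩ := hint
      intro z hz
      by_cases hz1 : z = 1
      · rw [hz1]; exact K.one_mem
      · obtain ⟨g, rfl⟩ := hconj n hn z hz hn1 hz1
        exact hK.conj_mem n hnK g
    by_contra hno
    push Not at hno
    -- some character with `K` in its kernel separates `a` from the identity
    obtain ⟨ψ, hψ⟩ : ∃ ψ : IrrCharacter (G ⧸ K), (ψ : G ⧸ K → ℂ) a ≠ (ψ : G ⧸ K → ℂ) 1 := by
      by_contra hall
      push Not at hall
      haveI := Fintype.ofFinite (G ⧸ K)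
      classical
      have h := sum_deg_mul (a : G ⧸ K)
      rw [if_neg (fun h => hno a ha ha1 ((QuotientGroup.eq_one_iff a).mp h))] at h
      simp_rw [hall, irr_apply_one, ← Nat.cast_mul, ← Nat.cast_sum, Nat.cast_eq_zero, Finset.sum_eq_zero_iff] at h
      have := h ⟨fun _ => 1, isIrrCharacter_one _⟩ (Finset.mem_univ _)
      simp [Cfsg.charDegree] at this
    let ψ' : IrrCharacter G := ⟨_, isIrrCharacter_inflate K ψ⟩
    have hψ' : ψ' = χ := by
      by_contra h
      exact hψ (hkill ψ' h a ha)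
    refine hk1 (hfaith k ?_)
    rw [← hψ']
    show (ψ : G ⧸ K → ℂ) k = (ψ : G ⧸ K → ℂ) ((1 : G) : G ⧸ K)
    rw [(QuotientGroup.eq_one_iff k).mpr hk, QuotientGroup.mk_one]
  obtain ⟨p, hp, hpd⟩ := Nat.exists_prime_and_dvd (show Nat.card N ≠ 1 by omega)
  haveI := Fact.mk hp
  obtain ⟨y, hy⟩ := exists_prime_orderOf_dvd_card' p hpd
  have hy1 : (y : G) ≠ 1 := fun h => by
    rw [← Subgroup.orderOf_coe, h, orderOf_one] at hy
    exact hp.ne_one hy.symm
  have hexp : ∀ z ∈ N, z ^ p = 1 := fun z hz => by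
    by_cases hz1 : z = 1
    · rw [hz1, one_pow]
    · obtain ⟨g, rfl⟩ := hconj y y.2 z hz hy1 hz1
      rw [conj_pow, show (y : G) ^ p = 1 by rw [← hy, ← Subgroup.orderOf_coe, pow_orderOf_eq_one]]
      simp
  have hpg : IsPGroup p N := fun z => ⟨1, Subtype.ext (by rw [pow_one, Subgroup.coe_pow]; exact hexp z z.2)⟩
  refine ⟨N, hN, hne, hmin, ⟨p, hp, ?_, hexp⟩, hsupp, hconj⟩
  haveI : Nontrivial N := (Subgroup.nontrivial_iff_ne_bot N).mpr hne
  haveI := hpg.center_nontrivial
  haveI : ((Subgroup.center N).map N.subtype).Normal := inferInstance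
  have hle : N ≤ (Subgroup.center N).map N.subtype := hmin _ inferInstance fun h => by
    rw [Subgroup.map_eq_bot_iff_of_injective _ N.subtype_injective] at h
    exact (Subgroup.nontrivial_iff_ne_bot _).mp inferInstance h
  refine ⟨⟨fun u v => ?_⟩⟩
  obtain ⟨u', hu', hu⟩ := hle u.2
  obtain rfl : u' = u := Subtype.ext hu
  exact (Subgroup.mem_center_iff.mp hu' v).symm

end Cfsg.Agent.S4835
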