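import Cfsg.Statements.S4837
import Cfsg.Agent.Lib.Chars.TwoClasses
import Cfsg.Agent.Lib.Chars.Linear
import Cfsg.Agent.S4835

set_option autoImplicit false
open Cfsg

namespace Cfsg.Agent.S4837

set_option linter.style.haveILetI false
open CfsgLib.Chars

/-- Let G be a finite group of order greater than 2 with an irreducible character χ nonzero on exactly two conjugacy classes, and let N be the set of elements where χ is nonzero, given as a nontrivial normal p-subgroup of G for the prime p. Then for every nonidentity x in N the centralizer C_G(x) is a Sylow p-subgroup of G, and for every irreducible character λ ≠ 1 of N the stabilizer of λ in G (its inertia group) is a Sylow p-subgroup of G. -/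
theorem result {G : Type*} [Group G] [Finite G] (hG : 2 < Nat.card G) (χ : Cfsg.IrrCharacter G) (hχ : Nat.card {C : ConjClasses G // ∃ g ∈ C.carrier, (χ : G → ℂ) g ≠ 0} = 2) (p : ℕ) [Fact p.Prime] (N : Subgroup G) [N.Normal] (hN : ∀ g : G, g ∈ N ↔ (χ : G → ℂ) g ≠ 0) (hNp : IsPGroup p N) (hN1 : N ≠ ⊥) :
    (∀ x ∈ N, x ≠ 1 → ∃ P : Sylow p G, Subgroup.centralizer ({x} : Set G) = P) ∧
      (∀ μ : Cfsg.IrrCharacter N, (μ : N → ℂ) ≠ (fun _ => (1 : ℂ)) → ∃ P : Sylow p G, ∀ g : G, g ∈ (P : Subgroup G) ↔ ∀ n n' : N, (n' : G) = g * n * g⁻¹ → (μ : N → ℂ) n' = (μ : N → ℂ) n) := by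
  classical
  haveI := Fintype.ofFinite G
  haveI := Fintype.ofFinite N
  have hp := (Fact.out : p.Prime)
  obtain ⟨N', -, -, hsupp, hconj, hkill, e, m, he, hm, hcard, hd, hv, hG', hidx⟩ := TwoClasses.structureThm hG χ hχ
  obtain rfl : N' = N := Subgroup.ext fun g => ((hsupp g).symm.trans (hN g).symm)
  obtain ⟨N₂, -, -, -, ⟨p', -, hab, -⟩, hsupp2, -⟩ := Cfsg.Agent.S4835.result hG χ hχ
  obtain rfl : N₂ = N' := Subgroup.ext fun g => ((hsupp2 g).symm.trans (hN g).symm)
  obtain ⟨n, hn⟩ := IsPGroup.iff_card.mp hNp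
  have hmn : m + 1 = p ^ n := hcard.symm.trans hn
  have hn0 : n ≠ 0 := fun h => by rw [h, pow_zero] at hmn; omega
  have hpm : ¬ p ∣ m := fun h => by
    have h1 : p ∣ m + 1 := hmn ▸ dvd_pow_self p hn0
    exact hp.ne_one (Nat.dvd_one.mp ((Nat.dvd_add_right h).mp h1))
  -- centralizers have order `e² (m + 1)`
  have hC : ∀ x ∈ N₂, x ≠ 1 → Nat.card (Subgroup.centralizer ({x} : Set G)) = e ^ 2 * (m + 1) := by
    intro x hx hx1
    have h1 := (Subgroup.centralizer ({x} : Set G)).card_mul_index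
    rw [hidx x hx hx1, hG'] at h1
    exact Nat.eq_of_mul_eq_mul_right hm (h1.trans (by ring))
  obtain ⟨x₀, hx₀, hx₀1⟩ : ∃ a ∈ N₂, a ≠ 1 := by
    by_contra h
    push Not at h
    exact hN1 ((Subgroup.eq_bot_iff_forall N₂).mpr h)
  have hep : ∀ q : ℕ, q.Prime → q ∣ e → q = p := by
    intro q hq hqe
    by_contra hqp
    haveI := Fact.mk hq
    obtain ⟨Q⟩ := (inferInstance : Nonempty (Sylow q (Subgroup.centralizer ({x₀} : Set G))))
    set a := e.factorization q
    have hQc : Nat.card Q = q ^ (2 * a) := by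
      rw [Q.card_eq_multiplicity, hC x₀ hx₀ hx₀1, Nat.factorization_mul (pow_ne_zero 2 he.ne') (Nat.succ_ne_zero m),
        Finsupp.add_apply, Nat.factorization_pow, Finsupp.smul_apply, smul_eq_mul,
        Nat.factorization_eq_zero_of_not_dvd (n := m + 1) (fun h => hqp ((Nat.prime_dvd_prime_iff_eq hq hp).mp
          (hq.dvd_of_dvd_pow (hmn ▸ h)))), add_zero]
    haveI : Fintype ↥(Q : Subgroup (Subgroup.centralizer ({x₀} : Set G))) := Fintype.ofFinite _
    haveI : Fintype (Subgroup.zpowers x₀) := Fintype.ofFinite _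
    let emb : Subgroup.zpowers x₀ × ↥(Q : Subgroup (Subgroup.centralizer ({x₀} : Set G))) →* G :=
      MonoidHom.noncommCoprod (Subgroup.zpowers x₀).subtype
        ((Subgroup.centralizer ({x₀} : Set G)).subtype.comp (Q : Subgroup (Subgroup.centralizer ({x₀} : Set G))).subtype)
        (fun z w => by
          obtain ⟨k, hk⟩ := Subgroup.mem_zpowers_iff.mp z.2
          show Commute (z : G) (((w : Subgroup.centralizer ({x₀} : Set G))) : G)
          rw [← hk]
          exact Commute.zpow_left (Subgroup.mem_centralizer_singleton_iff.mp (w : Subgroup.centralizer ({x₀} : Set G)).2).symm k)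
    have hx₀N : Subgroup.zpowers x₀ ≤ N₂ := Subgroup.zpowers_le.mpr hx₀
    let C0 := Subgroup.zpowers x₀
    haveI : IsMulCommutative C0 := inferInstance
    letI : CommGroup C0 := { (inferInstance : Group C0) with mul_comm := fun u v => mul_comm' u v }
    haveI : NeZero (Monoid.exponent C0 : ℂ) := ⟨by exact_mod_cast Monoid.exponent_ne_zero_of_finite⟩
    obtain ⟨lam, hlam⟩ := CommGroup.exists_apply_ne_one_of_hasEnoughRootsOfUnity C0 ℂ
      (a := ⟨x₀, Subgroup.mem_zpowers x₀⟩) (fun h => hx₀1 (congrArg Subtype.val h))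
    let f : Subgroup.zpowers x₀ × ↥(Q : Subgroup (Subgroup.centralizer ({x₀} : Set G))) →* ℂˣ := lam.comp (MonoidHom.fst _ _)
    have hφ : IsCharacter (Subgroup.zpowers x₀ × ↥(Q : Subgroup (Subgroup.centralizer ({x₀} : Set G)))) (fun z => (χ : G → ℂ) (emb z)) := by
      obtain ⟨k, ρ, -, hc⟩ := χ.2
      exact ⟨k, ρ.comp emb, by rw [← hc]; rfl⟩
    obtain ⟨k, hk⟩ := exists_mult hφ (homIrr f)
    have hzero : ∀ (u : Subgroup.zpowers x₀) (w : ↥(Q : Subgroup (Subgroup.centralizer ({x₀} : Set G)))),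
        w ≠ 1 → (χ : G → ℂ) (emb (u, w)) = 0 := by
      intro u w hw
      by_contra h0
      have h1 : emb (u, w) ∈ N₂ := (hN _).mpr h0
      have h2 : (((w : Subgroup.centralizer ({x₀} : Set G))) : G) ∈ N₂ := by
        have := N₂.mul_mem (N₂.inv_mem (hx₀N u.2)) h1
        simpa [emb, MonoidHom.noncommCoprod_apply] using this
      obtain ⟨i, hi⟩ := IsPGroup.iff_orderOf.mp hNp ⟨_, h2⟩
      obtain ⟨j, hj⟩ := IsPGroup.iff_orderOf.mp Q.2 w
      rw [Subgroup.orderOf_mk] at hi
      simp only [Subgroup.orderOf_coe] at hi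
      rw [hj] at hi
      rcases Nat.eq_zero_or_pos j with rfl | hjp
      · exact hw (orderOf_eq_one_iff.mp (by simpa using hj))
      · exact hqp ((Nat.prime_dvd_prime_iff_eq hq hp).mp (hq.dvd_of_dvd_pow (hi ▸ dvd_pow_self q hjp.ne')))
    have hsum : ∑ z : Subgroup.zpowers x₀ × ↥(Q : Subgroup (Subgroup.centralizer ({x₀} : Set G))),
        (χ : G → ℂ) (emb z) * (starRingEnd ℂ) ((homIrr f).1 z) = ((e * (m + 1) : ℕ) : ℂ) := by
      rw [Fintype.sum_prod_type, Finset.sum_congr rfl (fun u _ => Finset.sum_eq_single (1 : ↥(Q : Subgroup (Subgroup.centralizer ({x₀} : Set G))))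
        (fun w _ hw => by rw [hzero u w hw, zero_mul]) (fun h => absurd (Finset.mem_univ _) h))]
      have hterm : ∀ u : Subgroup.zpowers x₀, (χ : G → ℂ) (emb (u, 1)) * (starRingEnd ℂ) ((homIrr f).1 (u, 1)) =
          (if u = 1 then ((e * (m + 1) : ℕ) : ℂ) else 0) - (e : ℂ) * (starRingEnd ℂ) (lam u : ℂ) := by
        intro u
        show (χ : G → ℂ) (emb (u, 1)) * (starRingEnd ℂ) (lam u : ℂ) = _
        have heu : emb (u, 1) = (u : G) := by simp [emb, MonoidHom.noncommCoprod_apply]
        rw [heu]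
        by_cases hu : u = 1
        · subst hu
          rw [if_pos rfl, OneMemClass.coe_one, hd, map_one]
          simp only [Units.val_one, map_one, mul_one]
          push_cast
          ring
        · rw [if_neg hu, hv _ (hx₀N u.2) (fun h => hu (Subtype.ext h)), zero_sub, neg_mul]
      rw [Finset.sum_congr rfl (fun u _ => hterm u), Finset.sum_sub_distrib, Finset.sum_ite_eq' Finset.univ
        (1 : Subgroup.zpowers x₀), if_pos (Finset.mem_univ _), ← Finset.mul_sum, ← map_sum,
        show ∑ u : Subgroup.zpowers x₀, (lam u : ℂ) = 0 from sum_hom_units_eq_zero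
          ((Units.coeHom ℂ).comp lam) (fun h => hlam (Units.ext (DFunLike.congr_fun h _))), map_zero, mul_zero, sub_zero]
    simp only [classInner, hsum] at hk
    rw [inv_mul_eq_iff_eq_mul₀ (natCast_card_ne_zero _), ← Nat.cast_mul, Nat.cast_inj, Nat.card_prod, hQc] at hk
    have hdvd : q ^ (2 * a) ∣ e * (m + 1) := ⟨Nat.card (Subgroup.zpowers x₀) * k, by rw [hk]; ring⟩
    have hcopq : Nat.Coprime (q ^ (2 * a)) (m + 1) := by
      rw [hmn]; exact Nat.Coprime.pow _ _ ((Nat.coprime_primes hq hp).mpr hqp)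
    have h2 := (hq.pow_dvd_iff_le_factorization he.ne').mp (hcopq.dvd_of_dvd_mul_right hdvd)
    have h3 : 0 < a := hq.factorization_pos_of_dvd he.ne' hqe
    omega
  obtain ⟨s, hs⟩ : ∃ s, e = p ^ s := ⟨_, Nat.eq_prime_pow_of_unique_prime_dvd he.ne' (fun {q} h1 h2 => hep q h1 h2)⟩
  have hsyl : ∀ T : Subgroup G, T.index = m → ∃ P : Sylow p G, T = P := by
    intro T hT
    have h1 := T.card_mul_index
    rw [hT, hG'] at h1
    have h2 : Nat.card T = e ^ 2 * (m + 1) := Nat.eq_of_mul_eq_mul_right hm (h1.trans (by ring))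
    have hTp : IsPGroup p T := IsPGroup.of_card (n := 2 * s + n) (by
      rw [h2, hs, hmn, ← pow_mul, ← pow_add, mul_comm s])
    exact ⟨hTp.toSylow (hT ▸ hpm), rfl⟩
  refine ⟨fun x hx hx1 => hsyl _ (hidx x hx hx1), fun μ hμ => ?_⟩
  haveI := hab
  have hlin : ∀ θ : IrrCharacter N₂, Cfsg.charDegree (θ : N₂ → ℂ) = 1 :=
    charDegree_eq_one_of_comm (fun u v => mul_comm' u v)
  let one : IrrCharacter N₂ := ⟨fun _ => 1, isIrrCharacter_one N₂⟩
  have hcon : ∀ θ : IrrCharacter N₂, θ ≠ one →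
      Cfsg.classInner (fun u : N₂ => (χ : G → ℂ) u) (θ : N₂ → ℂ) ≠ 0 := by
    intro θ hθ
    have hsum : ∑ u : N₂, (χ : G → ℂ) u * (starRingEnd ℂ) ((θ : N₂ → ℂ) u) = ((e * (m + 1) : ℕ) : ℂ) := by
      have hterm : ∀ u : N₂, (χ : G → ℂ) u * (starRingEnd ℂ) ((θ : N₂ → ℂ) u) =
          (if u = 1 then ((e * (m + 1) : ℕ) : ℂ) else 0) - (e : ℂ) * (starRingEnd ℂ) ((θ : N₂ → ℂ) u) := by
        intro u
        by_cases hu : u = 1
        · subst hu
          rw [if_pos rfl, OneMemClass.coe_one, hd, conj_irr_one, irr_apply_one, hlin]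
          push_cast
          ring
        · rw [if_neg hu, hv _ u.2 (fun h => hu (Subtype.ext h)), zero_sub, neg_mul]
      have h0 := sum_mul_conj_irr one θ
      rw [if_neg (Ne.symm hθ)] at h0
      simp only [one, one_mul] at h0
      rw [Finset.sum_congr rfl (fun u _ => hterm u), Finset.sum_sub_distrib, Finset.sum_ite_eq' Finset.univ
        (1 : N₂), if_pos (Finset.mem_univ _), ← Finset.mul_sum, h0, mul_zero, sub_zero]
    rw [Cfsg.classInner, hsum]
    exact mul_ne_zero (inv_ne_zero (natCast_card_ne_zero _))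
      (Nat.cast_ne_zero.mpr (Nat.mul_ne_zero he.ne' (Nat.succ_ne_zero m)))
  have hμ1 : μ ≠ one := fun h => hμ (congrArg Subtype.val h)
  let T : Subgroup G :=
    { carrier := {g | conjIrr N₂ μ g = μ}
      mul_mem' := fun {a b} ha hb => by
        show conjIrr N₂ μ (a * b) = μ
        rw [conjIrr_mul, show conjIrr N₂ μ a = μ from ha, show conjIrr N₂ μ b = μ from hb]
      one_mem' := conjIrr_one N₂ μ
      inv_mem' := fun {a} ha => by
        show conjIrr N₂ μ a⁻¹ = μ
        nth_rewrite 1 [← show conjIrr N₂ μ a = μ from ha]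
        rw [← conjIrr_mul, mul_inv_cancel, conjIrr_one] }
  have hmem : ∀ g, g ∈ T ↔ conjIrr N₂ μ g = μ := fun g => Iff.rfl
  have hTi : T.index = m := by
    rw [← CfsgLib.CliffordCorr.card_orbit N₂ μ hmem]
    have horb : orbit N₂ μ = Finset.univ.erase one := by
      ext θ
      rw [mem_orbit, Finset.mem_erase]
      constructor
      · rintro ⟨g, rfl⟩
        refine ⟨fun h => hμ1 ?_, Finset.mem_univ _⟩
        have h2 := congrArg (fun t => conjIrr N₂ t g⁻¹) h
        simp only [← conjIrr_mul, mul_inv_cancel, conjIrr_one] at h2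
        rw [h2]
        exact Subtype.ext (funext fun u => rfl)
      · rintro ⟨hθ, -⟩
        exact clifford_conjugate N₂ χ μ θ (hcon μ hμ1) (hcon θ hθ)
    have hc : (Finset.univ : Finset (IrrCharacter N₂)).card = m + 1 := by
      have h := sum_deg_sq (G := N₂)
      simp only [hlin, one_pow, Finset.sum_const, smul_eq_mul, mul_one] at h
      rw [h, hcard]
    rw [horb, Finset.card_erase_of_mem (Finset.mem_univ _), hc, Nat.add_sub_cancel]
  obtain ⟨P, hP⟩ := hsyl T hTi
  refine ⟨P, fun g => ?_⟩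
  rw [← hP, hmem]
  constructor
  · intro h u u' hu
    have := congrFun (congrArg Subtype.val h) u
    rw [conjIrr_apply] at this
    rwa [show conjN N₂ g u = u' from Subtype.ext ((conjN_coe N₂ g u).trans hu.symm)] at this
  · intro h
    refine Subtype.ext (funext fun u => ?_)
    rw [conjIrr_apply]
    exact h u _ (conjN_coe N₂ g u)

end Cfsg.Agent.S4837
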