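import Cfsg.Statements.S4838
import Cfsg.Agent.Lib.Chars.TwoClasses

set_option autoImplicit false
open Cfsg

namespace Cfsg.Agent.S4838

open CfsgLib.Chars

/-- Let G be a finite group of order greater than 2 with an irreducible character χ nonzero on exactly two conjugacy classes, N the normal p-subgroup of elements where χ is nonzero, and P a Sylow p-subgroup of G. Then (a) for every x outside N the centralizer of x in G has the same order as the centralizer of xN in G/N; (b) the centre of P lies in N, and equals N exactly when P is normal in G; (c) N, viewed inside P, is a term of the upper central series of P. -/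
theorem result {G : Type*} [Group G] [Finite G] (hG : 2 < Nat.card G) (χ : Cfsg.IrrCharacter G) (hχ : Nat.card {C : ConjClasses G // ∃ g ∈ C.carrier, (χ : G → ℂ) g ≠ 0} = 2) (p : ℕ) [Fact p.Prime] (N : Subgroup G) [N.Normal] (hN : ∀ g : G, g ∈ N ↔ (χ : G → ℂ) g ≠ 0) (hNp : IsPGroup p N) (hN1 : N ≠ ⊥) (P : Sylow p G) :
    (∀ x : G, x ∉ N → Nat.card (Subgroup.centralizer ({x} : Set G)) = Nat.card (Subgroup.centralizer ({(x : G ⧸ N)} : Set (G ⧸ N)))) ∧
      ((Subgroup.center ↥(P : Subgroup G)).map (P : Subgroup G).subtype ≤ N ∧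
        ((Subgroup.center ↥(P : Subgroup G)).map (P : Subgroup G).subtype = N ↔ (P : Subgroup G).Normal)) ∧
      (∃ i : ℕ, Subgroup.upperCentralSeries ↥(P : Subgroup G) i = N.subgroupOf (P : Subgroup G)) := by
  classical
  haveI := Fintype.ofFinite G
  obtain ⟨N', -, -, hsupp, htrans, hkill, e, m, he, hm, -, h1, hv, -, -⟩ := TwoClasses.structureThm hG χ hχ
  obtain rfl : N = N' := Subgroup.ext fun g => (hN g).trans (hsupp g)
  haveI : Fintype (G ⧸ N) := Fintype.ofFinite _
  haveI : Nontrivial N := (Subgroup.nontrivial_iff_ne_bot N).mpr hN1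
  obtain ⟨⟨n₀, hn₀⟩, hn₁⟩ := exists_ne (1 : N)
  have hn₀1 : n₀ ≠ 1 := fun h => hn₁ (Subtype.ext h)
  have hχn : (χ : G → ℂ) n₀ ≠ (χ : G → ℂ) 1 := by
    intro hg
    rw [hv n₀ hn₀ hn₀1, h1] at hg
    have h2 : ((e * m + e : ℕ) : ℂ) = 0 := by push_cast at hg ⊢; linear_combination -hg
    have := Nat.cast_eq_zero.mp h2
    omega
  -- centralizers outside N
  have hcent : ∀ x : G, x ∉ N → Nat.card (Subgroup.centralizer ({x} : Set G)) =
      Nat.card (Subgroup.centralizer ({(x : G ⧸ N)} : Set (G ⧸ N))) := by
    intro x hx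
    have hχx : (χ : G → ℂ) x = 0 := by
      by_contra h
      exact hx ((hsupp x).mp h)
    have hG' := col_orth x x
    have hQ := col_orth (x : G ⧸ N) (x : G ⧸ N)
    rw [if_pos (IsConj.refl _)] at hG' hQ
    refine Nat.cast_inj (R := ℂ) |>.mp ?_
    rw [← hG', ← hQ, ← Finset.add_sum_erase _ _ (Finset.mem_univ χ), hχx, zero_mul, zero_add]
    symm
    refine Finset.sum_bij (fun φ _ => (⟨_, isIrrCharacter_inflate N φ⟩ : IrrCharacter G)) ?_ ?_ ?_ ?_
    · intro φ _
      refine Finset.mem_erase.mpr ⟨fun h => hχn ?_, Finset.mem_univ _⟩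
      rw [← h]
      show (φ : G ⧸ N → ℂ) (n₀ : G ⧸ N) = (φ : G ⧸ N → ℂ) ((1 : G) : G ⧸ N)
      rw [(QuotientGroup.eq_one_iff n₀).mpr hn₀, QuotientGroup.mk_one]
    · intro φ _ φ' _ h
      refine Subtype.ext (funext fun q => ?_)
      induction q using QuotientGroup.induction_on with
      | H g => exact congrFun (congrArg Subtype.val h) g
    · intro ψ hψ
      obtain ⟨φ, hφ⟩ := exists_deflate N ψ (hkill ψ (Finset.ne_of_mem_erase hψ))
      exact ⟨φ, Finset.mem_univ _, Subtype.ext hφ.symm⟩
    · intro φ _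
      rfl
  have hNP : N ≤ (P : Subgroup G) := by
    obtain ⟨Q, hQ⟩ := hNp.exists_le_sylow
    obtain ⟨g, hg⟩ := MulAction.exists_smul_eq G Q P
    rw [← hg, Sylow.coe_subgroup_smul]
    intro n hn
    rw [Subgroup.mem_pointwise_smul_iff_inv_smul_mem]
    apply hQ
    have := ‹N.Normal›.conj_mem n hn g⁻¹
    simpa [MulAut.smul_def, mul_assoc] using this
  obtain ⟨k, hk⟩ := IsPGroup.iff_card.mp hNp
  have hk0 : k ≠ 0 := by
    rintro rfl
    exact hN1 (Subgroup.card_eq_one.mp (by simpa using hk))
  have hbig : ∀ (S : Subgroup G), IsPGroup p S → ∀ x : G, x ∉ N →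
      S ≤ Subgroup.centralizer ({x} : Set G) → Nat.card S * Nat.card N ≤ Nat.card (P : Subgroup G) := by
    intro S hS x hx hle
    obtain ⟨j, hj⟩ := IsPGroup.iff_card.mp hS
    have h2 : p ^ j ∣ Nat.card (G ⧸ N) := by
      rw [← hj]
      exact ((Subgroup.card_dvd_of_le hle).trans (dvd_of_eq (hcent x hx))).trans
        (Subgroup.card_subgroup_dvd_card _)
    have h3 : p ^ (j + k) ∣ Nat.card G := by
      rw [pow_add, ← hk, Subgroup.card_eq_card_quotient_mul_card_subgroup N]
      exact mul_dvd_mul_right h2 _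
    rw [hj, hk, ← pow_add, P.card_eq_multiplicity]
    exact Nat.pow_le_pow_right (Fact.out : p.Prime).pos
      (((Fact.out : p.Prime).pow_dvd_iff_le_factorization Nat.card_pos.ne').mp h3)
  have hN2 : 2 ≤ Nat.card N := hk ▸ (Nat.le_self_pow hk0 p).trans' (Fact.out : p.Prime).two_le
  set Z := (Subgroup.center ↥(P : Subgroup G)).map (P : Subgroup G).subtype with hZ
  have hPC : ∀ z ∈ Z, (P : Subgroup G) ≤ Subgroup.centralizer ({z} : Set G) := by
    rintro _ ⟨z, hz, rfl⟩ y hy
    exact Subgroup.mem_centralizer_singleton_iff.mpr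
      (congrArg Subtype.val (Subgroup.mem_center_iff.mp hz ⟨y, hy⟩))
  have hZN : Z ≤ N := by
    intro x hx
    by_contra hxN
    have := hbig _ P.2 x hxN (hPC x hx)
    have : 0 < Nat.card (P : Subgroup G) := Nat.card_pos
    nlinarith
  refine ⟨hcent, ⟨hZN, fun hZeq => ?_, fun hPn => ?_⟩, ?_⟩
  · -- the centralizer of N is a p-group
    set C := Subgroup.centralizer (N : Set G) with hC
    have hPC' : (P : Subgroup G) ≤ C := fun y hy => Subgroup.mem_centralizer_iff.mpr fun n hn =>
      (Subgroup.mem_centralizer_singleton_iff.mp (hPC n (hZeq.symm ▸ hn) hy)).symm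
    haveI : C.Normal := Subgroup.normal_centralizer
    suffices h : IsPGroup p C by
      rw [← P.is_maximal' h hPC']; infer_instance
    by_contra hnp
    obtain ⟨q, hq, hqd, hqp⟩ : ∃ q : ℕ, q.Prime ∧ q ∣ Nat.card C ∧ q ≠ p := by
      by_contra hall
      push Not at hall
      refine hnp (IsPGroup.of_card (n := (Nat.card C).primeFactorsList.length) ?_)
      exact Nat.eq_prime_pow_of_unique_prime_dvd Nat.card_pos.ne' fun {d} hd hdd => hall d hd hdd
    haveI := Fact.mk hq
    obtain ⟨⟨x, hxC⟩, hxo⟩ := exists_prime_orderOf_dvd_card' q hqd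
    rw [Subgroup.orderOf_mk] at hxo
    have hxN : x ∉ N := by
      intro hxN
      have h := orderOf_dvd_natCard (⟨x, hxN⟩ : N)
      rw [Subgroup.orderOf_mk, hxo, hk] at h
      exact hqp ((Nat.prime_dvd_prime_iff_eq hq Fact.out).mp (hq.dvd_of_dvd_pow h))
    let f : Subgroup.centralizer ({x} : Set G) →* Subgroup.centralizer ({(x : G ⧸ N)} : Set (G ⧸ N)) :=
      ((QuotientGroup.mk' N).comp (Subgroup.centralizer ({x} : Set G)).subtype).codRestrict _
        fun y => Subgroup.mem_centralizer_singleton_iff.mpr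
          ((QuotientGroup.mk_mul N (y : G) x).symm.trans ((congrArg _
            (Subgroup.mem_centralizer_singleton_iff.mp y.2)).trans (QuotientGroup.mk_mul N x (y : G))))
    have hsurj : Function.Surjective f := by
      rintro ⟨c, hc⟩
      induction c using QuotientGroup.induction_on with
      | H g =>
        have hgx := Subgroup.mem_centralizer_singleton_iff.mp hc
        rw [← QuotientGroup.mk_mul, ← QuotientGroup.mk_mul, QuotientGroup.eq] at hgx
        have hn' : x⁻¹ * (g * x * g⁻¹) ∈ N := by
          have := ‹N.Normal›.conj_mem _ (N.inv_mem hgx) g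
          have h2 := ‹N.Normal›.conj_mem _ this 1
          have e : x⁻¹ * (g * x * g⁻¹) = x⁻¹ * (g * x * g⁻¹) := rfl
          have h3 : x⁻¹ * (g * x * g⁻¹) = g * ((g * x)⁻¹ * (x * g))⁻¹ * g⁻¹ := by group
          rw [h3]; exact this
        have hcomm : Commute x (x⁻¹ * (g * x * g⁻¹)) :=
          (Subgroup.mem_centralizer_iff.mp hxC _ hn').symm
        have hpow : (x⁻¹ * (g * x * g⁻¹)) ^ q = 1 := by
          have e1 : (x * (x⁻¹ * (g * x * g⁻¹))) ^ q = 1 := by
            rw [mul_inv_cancel_left, conj_pow, ← hxo, pow_orderOf_eq_one, mul_one, mul_inv_cancel]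
          rw [hcomm.mul_pow, ← hxo, pow_orderOf_eq_one, one_mul] at e1
          rwa [hxo] at e1
        have hone : x⁻¹ * (g * x * g⁻¹) = 1 := by
          have h := orderOf_dvd_natCard (⟨_, hn'⟩ : N)
          rw [Subgroup.orderOf_mk, hk] at h
          refine orderOf_eq_one_iff.mp (Nat.eq_one_of_dvd_coprimes ?_ (orderOf_dvd_of_pow_eq_one hpow) h)
          exact Nat.Coprime.pow_right k ((Nat.coprime_primes hq Fact.out).mpr hqp)
        refine ⟨⟨g, Subgroup.mem_centralizer_singleton_iff.mpr ?_⟩, Subtype.ext rfl⟩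
        calc g * x = x * (x⁻¹ * (g * x * g⁻¹)) * g := by group
          _ = x * g := by rw [hone, mul_one]
    have hinj := ((Nat.bijective_iff_surjective_and_card f).mpr ⟨hsurj, hcent x hxN⟩).1
    have hn₀C : n₀ ∈ Subgroup.centralizer ({x} : Set G) := Subgroup.mem_centralizer_singleton_iff.mpr
      (Subgroup.mem_centralizer_iff.mp hxC n₀ hn₀)
    have := hinj (a₁ := ⟨n₀, hn₀C⟩) (a₂ := 1) (Subtype.ext ((QuotientGroup.eq_one_iff n₀).mpr hn₀))
    exact hn₀1 (congrArg Subtype.val this)
  · -- P normal
    haveI : Nontrivial (P : Subgroup G) := (Subgroup.nontrivial_iff_ne_bot _).mpr fun h =>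
      hn₀1 (Subgroup.mem_bot.mp (h ▸ hNP hn₀))
    haveI := P.isPGroup'.center_nontrivial
    obtain ⟨⟨z, hz⟩, hz1⟩ := exists_ne (1 : Subgroup.center (P : Subgroup G))
    have hzZ : (z : G) ∈ Z := ⟨z, hz, rfl⟩
    refine le_antisymm hZN fun n hn => ?_
    rcases eq_or_ne n 1 with rfl | hne
    · exact Z.one_mem
    obtain ⟨g, hg⟩ := htrans (z : G) (hZN hzZ) n hn (fun h => hz1 (Subtype.ext (Subtype.ext h))) hne
    refine ⟨⟨n, hNP hn⟩, Subgroup.mem_center_iff.mpr fun y => Subtype.ext ?_, rfl⟩
    have hy : g⁻¹ * (y : G) * g ∈ (P : Subgroup G) := by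
      have := hPn.conj_mem (y : G) y.2 g⁻¹
      simpa using this
    have h2 := Subgroup.mem_centralizer_singleton_iff.mp (hPC _ hzZ hy)
    show (y : G) * n = n * y
    rw [← hg]
    calc (y : G) * (g * z * g⁻¹) = g * (g⁻¹ * y * g * z) * g⁻¹ := by group
      _ = g * (z * (g⁻¹ * y * g)) * g⁻¹ := by rw [h2]
      _ = g * z * g⁻¹ * y := by group
  · -- upper central series
    haveI : Group.IsNilpotent (P : Subgroup G) := P.isPGroup'.isNilpotent
    set Ni := N.subgroupOf (P : Subgroup G)
    by_contra hne
    push Not at hne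
    have hstep : ∀ i, Subgroup.upperCentralSeries ↥(P : Subgroup G) i ≤ Ni := by
      intro i
      induction i with
      | zero => simp
      | succ i ih =>
        intro x hx
        rw [Subgroup.mem_upperCentralSeries_succ_iff] at hx
        by_contra hxN
        set Zi := Subgroup.upperCentralSeries ↥(P : Subgroup G) i
        set S := Subgroup.centralizer ({x} : Set ↥(P : Subgroup G))
        have hlt : Nat.card Zi < Nat.card N := by
          rw [← Nat.card_congr (Subgroup.subgroupOfEquivOfLe hNP).toEquiv]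
          refine lt_of_le_of_ne (Subgroup.card_le_of_le ih) fun h => hne i ?_
          exact Subgroup.eq_of_le_of_card_ge ih h.ge
        have hidx : S.index ≤ Nat.card Zi := by
          let φ : (↥(P : Subgroup G) ⧸ S) → Zi := Quotient.lift
            (fun y => (⟨y * x * y⁻¹ * x⁻¹, by
              have := Zi.inv_mem (hx y)
              simpa [commutatorElement_def, mul_assoc] using this⟩ : Zi))
            (fun a b hab => Subtype.ext (by
              have h := Subgroup.mem_centralizer_singleton_iff.mp (QuotientGroup.leftRel_apply.mp hab)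
              show a * x * a⁻¹ * x⁻¹ = b * x * b⁻¹ * x⁻¹
              calc a * x * a⁻¹ * x⁻¹ = a * (x * (a⁻¹ * b)) * b⁻¹ * x⁻¹ := by group
                _ = a * (a⁻¹ * b * x) * b⁻¹ * x⁻¹ := by rw [h]
                _ = _ := by group))
          refine Nat.card_le_card_of_injective φ ?_
          intro u v huv
          induction u using QuotientGroup.induction_on with
          | H a =>
            induction v using QuotientGroup.induction_on with
            | H b =>
              have h : a * x * a⁻¹ * x⁻¹ = b * x * b⁻¹ * x⁻¹ := congrArg Subtype.val huv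
              refine QuotientGroup.eq.mpr (Subgroup.mem_centralizer_singleton_iff.mpr ?_)
              have h' : a * x * a⁻¹ = b * x * b⁻¹ := mul_right_cancel h
              calc a⁻¹ * b * x = a⁻¹ * (b * x * b⁻¹) * b := by group
                _ = a⁻¹ * (a * x * a⁻¹) * b := by rw [h']
                _ = x * (a⁻¹ * b) := by group
        have hS := hbig (S.map (P : Subgroup G).subtype) ((P.2.to_subgroup S).map _) (x : G)
          (fun h => hxN h) (by
            rintro _ ⟨s, hs, rfl⟩
            exact Subgroup.mem_centralizer_singleton_iff.mpr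
              (congrArg Subtype.val (Subgroup.mem_centralizer_singleton_iff.mp hs)))
        rw [Subgroup.card_map_of_injective (P : Subgroup G).subtype_injective] at hS
        have hmul := S.card_mul_index
        have hSpos : 0 < Nat.card S := Nat.card_pos
        have := Nat.mul_le_mul_left (Nat.card S) hidx
        have := Nat.mul_lt_mul_of_pos_left hlt hSpos
        omega
    obtain ⟨n, hn⟩ := Group.IsNilpotent.nilpotent (G := ↥(P : Subgroup G))
    exact hne n (le_antisymm (hstep n) (hn ▸ le_top))

end Cfsg.Agent.S4838
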