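import Cfsg.Statements.S4839
import Cfsg.Agent.Lib.Chars.TwoClasses
import Cfsg.Agent.S4838
import Cfsg.Agent.Lib.BaerSuzuki
import Cfsg.Agent.Lib.GroupB.FrobBasic
import Cfsg.Agent.Lib.Core
import Mathlib.GroupTheory.SchurZassenhaus

set_option autoImplicit false
open Cfsg

namespace Cfsg.Agent.S4839

open CfsgLib.Chars
open scoped Pointwise

universe u

variable {G : Type u} [Group G] [Finite G]

theorem coset_conj (N : Subgroup G) [N.Normal]
    (hcent : ∀ x : G, x ∉ N → Nat.card (Subgroup.centralizer ({x} : Set G)) =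
      Nat.card (Subgroup.centralizer ({(x : G ⧸ N)} : Set (G ⧸ N))))
    {x : G} (hx : x ∉ N) {n : G} (hn : n ∈ N) : ∃ g : G, g * x * g⁻¹ = x * n := by
  classical
  set Cb := Subgroup.centralizer ({(x : G ⧸ N)} : Set (G ⧸ N)) with hCb
  set C := Subgroup.centralizer ({x} : Set G)
  set T := Cb.comap (QuotientGroup.mk' N) with hT
  have hCT : C ≤ T := fun c hc => by
    rw [hT, Subgroup.mem_comap, hCb, Subgroup.mem_centralizer_singleton_iff, QuotientGroup.mk'_apply,
      ← QuotientGroup.mk_mul, Subgroup.mem_centralizer_singleton_iff.mp hc, QuotientGroup.mk_mul]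
  have hNT : N ≤ T := fun a ha => by
    rw [hT, Subgroup.mem_comap, QuotientGroup.mk'_apply, (QuotientGroup.eq_one_iff a).mpr ha]
    exact one_mem _
  have hmem : ∀ t : T, x⁻¹ * ((t : G) * x * (t : G)⁻¹) ∈ N := fun t => by
    have h := Subgroup.mem_centralizer_singleton_iff.mp (Subgroup.mem_comap.mp t.2)
    rw [← QuotientGroup.eq_one_iff, QuotientGroup.mk_mul, QuotientGroup.mk_inv, QuotientGroup.mk_mul,
      QuotientGroup.mk_mul, QuotientGroup.mk_inv]
    rw [QuotientGroup.mk'_apply] at h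
    rw [h, mul_inv_cancel_right, inv_mul_cancel]
  let φ : T ⧸ C.subgroupOf T → N := Quotient.lift (fun t : T => (⟨_, hmem t⟩ : N)) (fun a b hab => by
    have h : ((a : G)⁻¹ * (b : G)) * x = x * ((a : G)⁻¹ * (b : G)) :=
      Subgroup.mem_centralizer_singleton_iff.mp (Subgroup.mem_subgroupOf.mp (QuotientGroup.leftRel_apply.mp hab))
    refine Subtype.ext ?_
    show x⁻¹ * ((a : G) * x * (a : G)⁻¹) = x⁻¹ * ((b : G) * x * (b : G)⁻¹)
    calc x⁻¹ * ((a : G) * x * (a : G)⁻¹) = x⁻¹ * ((a : G) * (x * ((a : G)⁻¹ * b)) * (b : G)⁻¹) := by group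
      _ = x⁻¹ * ((a : G) * ((a : G)⁻¹ * b * x) * (b : G)⁻¹) := by rw [h]
      _ = _ := by group)
  have hinj : Function.Injective φ := by
    intro u v huv
    induction u using QuotientGroup.induction_on with
    | H a =>
      induction v using QuotientGroup.induction_on with
      | H b =>
        have h : (a : G) * x * (a : G)⁻¹ = (b : G) * x * (b : G)⁻¹ := mul_left_cancel (congrArg Subtype.val huv)
        refine QuotientGroup.eq.mpr (Subgroup.mem_centralizer_singleton_iff.mpr ?_)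
        show (a : G)⁻¹ * b * x = x * ((a : G)⁻¹ * b)
        calc (a : G)⁻¹ * b * x = (a : G)⁻¹ * ((b : G) * x * (b : G)⁻¹) * b := by group
          _ = (a : G)⁻¹ * ((a : G) * x * (a : G)⁻¹) * b := by rw [h]
          _ = _ := by group
  have hcardT : Nat.card T = Nat.card Cb * Nat.card N := by
    let f : T →* Cb := ((QuotientGroup.mk' N).comp T.subtype).codRestrict _ fun t => t.2
    have hf : Function.Surjective f := by
      rintro ⟨c, hc⟩
      induction c using QuotientGroup.induction_on with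
      | H g => exact ⟨⟨g, hc⟩, rfl⟩
    have hk : f.ker = N.subgroupOf T := by
      ext t
      rw [MonoidHom.mem_ker, Subgroup.mem_subgroupOf, ← QuotientGroup.eq_one_iff]
      exact ⟨fun h => congrArg Subtype.val h, fun h => Subtype.ext h⟩
    rw [Subgroup.card_eq_card_quotient_mul_card_subgroup f.ker,
      Nat.card_congr (QuotientGroup.quotientKerEquivOfSurjective f hf).toEquiv, hk,
      Nat.card_congr (Subgroup.subgroupOfEquivOfLe hNT).toEquiv]
  have hcard : Nat.card (T ⧸ C.subgroupOf T) = Nat.card N := by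
    have h := Subgroup.card_eq_card_quotient_mul_card_subgroup (C.subgroupOf T)
    rw [hcardT, Nat.card_congr (Subgroup.subgroupOfEquivOfLe hCT).toEquiv, ← hcent x hx, mul_comm] at h
    exact (Nat.eq_of_mul_eq_mul_right Nat.card_pos h).symm
  obtain ⟨q, hq⟩ := ((Nat.bijective_iff_injective_and_card φ).mpr ⟨hinj, hcard⟩).2 ⟨n, hn⟩
  induction q using QuotientGroup.induction_on with
  | H a =>
    refine ⟨(a : G), ?_⟩
    have h : x⁻¹ * ((a : G) * x * (a : G)⁻¹) = n := congrArg Subtype.val hq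
    rw [← h, mul_inv_cancel_left]

variable (N : Subgroup G) [N.Normal] (p : ℕ) [Fact p.Prime]

theorem fixed_one (hNp : IsPGroup p N)
    (hcls : ∀ x : G, x ∉ N → ∀ n ∈ N, ∃ g : G, g * x * g⁻¹ = x * n)
    {x : G} (hx : x ∉ N) {r : ℕ} (hr : x ^ r = 1) (hrp : ¬ p ∣ r) {n : G} (hn : n ∈ N)
    (hc : Commute x n) : n = 1 := by
  obtain ⟨g, hg⟩ := hcls x hx n hn
  have h1 : (x * n) ^ r = 1 := by rw [← hg, conj_pow, hr, mul_one, mul_inv_cancel]
  rw [hc.mul_pow, hr, one_mul] at h1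
  obtain ⟨k, hk⟩ := hNp ⟨n, hn⟩
  have h2 : n ^ p ^ k = 1 := congrArg Subtype.val hk
  exact orderOf_eq_one_iff.mp (Nat.eq_one_of_dvd_coprimes
    (Nat.Coprime.pow_right k (((Fact.out : p.Prime).coprime_iff_not_dvd).mpr hrp).symm)
    (orderOf_dvd_of_pow_eq_one h1) (orderOf_dvd_of_pow_eq_one h2))

theorem frobenius_of_complement (hN1 : N ≠ ⊥) (hab : ∀ a ∈ N, ∀ b ∈ N, a * b = b * a)
    (htrans : ∀ a ∈ N, ∀ b ∈ N, a ≠ 1 → b ≠ 1 → ∃ g : G, g * a * g⁻¹ = b)
    (hcls : ∀ x : G, x ∉ N → ∀ n ∈ N, ∃ g : G, g * x * g⁻¹ = x * n)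
    (hG : 2 < Nat.card G) (hN2 : N = ⊤ → False)
    (H : Subgroup G) (hsup : ∀ g : G, ∃ a ∈ N, ∃ c ∈ H, g = a * c) (hdis : ∀ h ∈ H, h ∈ N → h = 1) :
    ∃ H : Subgroup G, Cfsg.IsFrobeniusComplement H ∧ Cfsg.frobeniusKernel H = (N : Set G) ∧
      Nat.card H + 1 = Nat.card N := by
  classical
  haveI : Fintype N := Fintype.ofFinite _
  have hfpf : ∀ h ∈ H, h ≠ 1 → ∀ v ∈ N, h * v = v * h → v = 1 := by
    intro h hh h1 v hv hc
    have hhN : h ∉ N := fun h' => h1 (hdis h hh h')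
    let T : N → N := fun a => ⟨h⁻¹ * ((a : G) * h * (a : G)⁻¹), by
      rw [show h⁻¹ * ((a : G) * h * (a : G)⁻¹) = h⁻¹ * (a : G) * h⁻¹⁻¹ * (a : G)⁻¹ by group]
      exact N.mul_mem (‹N.Normal›.conj_mem _ a.2 h⁻¹) (N.inv_mem a.2)⟩
    have hsurj : Function.Surjective T := by
      rintro ⟨n, hn⟩
      obtain ⟨g, hg⟩ := hcls h hhN n hn
      obtain ⟨a, ha, c, hcH, rfl⟩ := hsup g
      have hcc : c * h * c⁻¹ * h⁻¹ = 1 := by
        refine hdis _ (H.mul_mem (H.mul_mem (H.mul_mem hcH hh) (H.inv_mem hcH)) (H.inv_mem hh)) ?_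
        rw [show c * h * c⁻¹ * h⁻¹ = a⁻¹ * (a * c * h * (a * c)⁻¹) * a * h⁻¹ by group, hg,
          show a⁻¹ * (h * n) * a * h⁻¹ = a⁻¹ * (h * (n * a) * h⁻¹) by group]
        exact N.mul_mem (N.inv_mem ha) (‹N.Normal›.conj_mem _ (N.mul_mem hn ha) h)
      refine ⟨⟨a, ha⟩, Subtype.ext ?_⟩
      show h⁻¹ * (a * h * a⁻¹) = n
      have hch : c * h * c⁻¹ = h := mul_inv_eq_one.mp hcc
      calc h⁻¹ * (a * h * a⁻¹) = h⁻¹ * (a * (c * h * c⁻¹) * a⁻¹) := by rw [hch]
        _ = h⁻¹ * (a * c * h * (a * c)⁻¹) := by group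
        _ = n := by rw [hg, inv_mul_cancel_left]
    have h2 : (⟨v, hv⟩ : N) = 1 := (Finite.injective_iff_surjective.mpr hsurj) (Subtype.ext (by
      show h⁻¹ * (v * h * v⁻¹) = h⁻¹ * ((1 : G) * h * (1 : G)⁻¹)
      rw [← hc, mul_inv_cancel_right, one_mul, inv_one, mul_one]))
    exact congrArg Subtype.val h2
  have hcomp : Subgroup.IsComplement' N H := by
    refine Subgroup.isComplement'_of_disjoint_and_mul_eq_univ
      (Subgroup.disjoint_def.mpr fun {x} hxN hxH => hdis x hxH hxN) (Set.eq_univ_of_forall fun g => ?_)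
    obtain ⟨a, ha, c, hc, rfl⟩ := hsup g
    exact Set.mul_mem_mul ha hc
  have hH1 : H ≠ ⊥ := by
    intro h
    refine hN2 (eq_top_iff.mpr fun g _ => ?_)
    obtain ⟨a, ha, c, hc, rfl⟩ := hsup g
    rw [h, Subgroup.mem_bot] at hc
    rw [hc, mul_one]; exact ha
  have hFC := CfsgLib.GroupB.FrobBasic.isFrobeniusComplement_of_fpf N hcomp hN1 hH1 hfpf
  refine ⟨H, hFC, (CfsgLib.GroupB.FrobBasic.kernel_eq hFC N hcomp).symm, ?_⟩
  haveI : Nontrivial N := (Subgroup.nontrivial_iff_ne_bot N).mpr hN1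
  obtain ⟨n₀, hn₀⟩ := exists_ne (1 : N)
  have hn₀' : (n₀ : G) ≠ 1 := fun h => hn₀ (Subtype.ext h)
  let f : H → {n : N // n ≠ 1} := fun h => ⟨⟨(h : G) * n₀ * (h : G)⁻¹, ‹N.Normal›.conj_mem _ n₀.2 _⟩,
    fun e => hn₀' (conj_eq_one_iff.mp (congrArg Subtype.val e))⟩
  have hf : Function.Bijective f := by
    constructor
    · intro a b hab
      have h : (a : G) * n₀ * (a : G)⁻¹ = (b : G) * n₀ * (b : G)⁻¹ :=
        congrArg (fun z : {n : N // n ≠ 1} => ((z : N) : G)) hab
      by_contra hne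
      refine hn₀' (hfpf ((b : G)⁻¹ * a) (H.mul_mem (H.inv_mem b.2) a.2)
        (fun e => hne (Subtype.ext (inv_mul_eq_one.mp e).symm)) n₀ n₀.2 ?_)
      calc (b : G)⁻¹ * a * n₀ = (b : G)⁻¹ * ((a : G) * n₀ * (a : G)⁻¹) * a := by group
        _ = (b : G)⁻¹ * ((b : G) * n₀ * (b : G)⁻¹) * a := by rw [h]
        _ = _ := by group
    · rintro ⟨n, hn⟩
      obtain ⟨g, hg⟩ := htrans n₀ n₀.2 n n.2 hn₀' (fun e => hn (Subtype.ext e))
      obtain ⟨a, ha, c, hc, rfl⟩ := hsup g
      refine ⟨⟨c, hc⟩, Subtype.ext (Subtype.ext ?_)⟩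
      show c * n₀ * c⁻¹ = n
      have hin : c * n₀ * c⁻¹ ∈ N := ‹N.Normal›.conj_mem _ n₀.2 c
      rw [← hg, show a * c * n₀ * (a * c)⁻¹ = a * (c * n₀ * c⁻¹) * a⁻¹ by group,
        hab a ha _ hin, mul_inv_cancel_right]
  rw [Nat.card_congr (Equiv.ofBijective f hf), Nat.card_eq_fintype_card, Nat.card_eq_fintype_card]
  rw [Fintype.card_subtype_compl, Fintype.card_subtype_eq]
  have : 1 ≤ Fintype.card N := Fintype.card_pos
  omega

theorem centralizer_le (hNp : IsPGroup p N) (hN1 : N ≠ ⊥) (hcore : N = Cfsg.pCore p G)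
    (hcls : ∀ x : G, x ∉ N → ∀ n ∈ N, ∃ g : G, g * x * g⁻¹ = x * n) :
    Subgroup.centralizer (N : Set G) ≤ N := by
  classical
  set C := Subgroup.centralizer (N : Set G)
  haveI : C.Normal := Subgroup.normal_centralizer
  haveI : Nontrivial N := (Subgroup.nontrivial_iff_ne_bot N).mpr hN1
  obtain ⟨n₀, hn₀⟩ := exists_ne (1 : N)
  refine le_trans (CfsgLib.Core.le_pCore (p := p) inferInstance ?_) hcore.ge
  refine IsPGroup.of_card (n := (Nat.card C).primeFactorsList.length)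
    (Nat.eq_prime_pow_of_unique_prime_dvd Nat.card_pos.ne' fun {q} hq hqd => ?_)
  by_contra hqp
  haveI := Fact.mk hq
  obtain ⟨⟨x, hxC⟩, hxo⟩ := exists_prime_orderOf_dvd_card' q hqd
  rw [Subgroup.orderOf_mk] at hxo
  obtain ⟨k, hk⟩ := IsPGroup.iff_card.mp hNp
  have hxN : x ∉ N := by
    intro hxN
    have h := Subgroup.orderOf_dvd_natCard N hxN
    rw [hxo, hk] at h
    exact hqp ((Nat.prime_dvd_prime_iff_eq hq Fact.out).mp (hq.dvd_of_dvd_pow h))
  exact hn₀ (Subtype.ext (fixed_one N p hNp hcls hxN (r := q) (hxo ▸ pow_orderOf_eq_one x)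
    (fun h => hqp ((Nat.prime_dvd_prime_iff_eq Fact.out hq).mp h).symm) n₀.2
    (Subgroup.mem_centralizer_iff.mp hxC _ n₀.2).symm))

theorem abelian_of_trans (hNp : IsPGroup p N) (hN1 : N ≠ ⊥)
    (htrans : ∀ a ∈ N, ∀ b ∈ N, a ≠ 1 → b ≠ 1 → ∃ g : G, g * a * g⁻¹ = b) :
    (∀ a ∈ N, ∀ b ∈ N, a * b = b * a) ∧ ∀ a ∈ N, a ^ p = 1 := by
  haveI : Nontrivial N := (Subgroup.nontrivial_iff_ne_bot N).mpr hN1
  haveI := hNp.center_nontrivial
  obtain ⟨⟨z, hz⟩, hz1⟩ := exists_ne (1 : Subgroup.center N)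
  refine ⟨fun a ha b hb => ?_, fun a ha => ?_⟩
  · rcases eq_or_ne a 1 with rfl | ha1
    · simp
    obtain ⟨g, hg⟩ := htrans (z : G) z.2 a ha (fun h => hz1 (Subtype.ext (Subtype.ext h))) ha1
    have hb' : g⁻¹ * b * g ∈ N := by simpa using ‹N.Normal›.conj_mem b hb g⁻¹
    have h := congrArg Subtype.val (Subgroup.mem_center_iff.mp hz ⟨_, hb'⟩)
    change g⁻¹ * b * g * (z : G) = (z : G) * (g⁻¹ * b * g) at h
    rw [← hg]
    calc g * z * g⁻¹ * b = g * ((z : G) * (g⁻¹ * b * g)) * g⁻¹ := by group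
      _ = g * (g⁻¹ * b * g * z) * g⁻¹ := by rw [h]
      _ = _ := by group
  · rcases eq_or_ne a 1 with rfl | ha1
    · simp
    obtain ⟨k, hk⟩ := IsPGroup.iff_card.mp hNp
    have hpd : p ∣ Nat.card N := by
      rcases k with _ | k
      · exact absurd (Subgroup.card_eq_one.mp (by simpa using hk)) hN1
      · rw [hk]; exact dvd_pow_self p (Nat.succ_ne_zero k)
    obtain ⟨⟨w, hw⟩, hwo⟩ := exists_prime_orderOf_dvd_card' p hpd
    rw [Subgroup.orderOf_mk] at hwo
    obtain ⟨g, hg⟩ := htrans w hw a ha (fun h => (Fact.out : p.Prime).ne_one (by rw [← hwo, h, orderOf_one])) ha1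
    rw [← hg, conj_pow, ← hwo, pow_orderOf_eq_one, mul_one, mul_inv_cancel]

theorem odd_index (hp2 : p = 2) (hNp : IsPGroup p N) (hN1 : N ≠ ⊥) (hcore : N = Cfsg.pCore p G)
    (htrans : ∀ a ∈ N, ∀ b ∈ N, a ≠ 1 → b ≠ 1 → ∃ g : G, g * a * g⁻¹ = b)
    (hcls : ∀ x : G, x ∉ N → ∀ n ∈ N, ∃ g : G, g * x * g⁻¹ = x * n) : ¬ 2 ∣ N.index := by
  classical
  subst hp2
  intro h2
  obtain ⟨hab, hexp⟩ := abelian_of_trans N 2 hNp hN1 htrans
  have hinvN : ∀ a ∈ N, a⁻¹ = a := fun a ha => inv_eq_of_mul_eq_one_right (by rw [← pow_two]; exact hexp a ha)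
  have hCN := centralizer_le N 2 hNp hN1 hcore hcls
  have hsq : ∀ x : G, x ∉ N → x * x ≠ 1 := by
    intro x hx hxx
    refine hx (hCN (Subgroup.mem_centralizer_iff.mpr fun n hn => ?_))
    obtain ⟨g, hg⟩ := hcls x hx n hn
    have h1 : (x * n) * (x * n) = 1 := by
      rw [← hg, show g * x * g⁻¹ * (g * x * g⁻¹) = g * (x * x) * g⁻¹ by group, hxx, mul_one, mul_inv_cancel]
    have h2 : x * n * x = n := by
      rw [← hinvN n hn, eq_inv_iff_mul_eq_one, hinvN n hn, mul_assoc (x * n)]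
      exact h1
    have hxinv : x⁻¹ = x := inv_eq_of_mul_eq_one_right hxx
    calc n * x = x * n * x * x := by rw [h2]
      _ = x * n * (x * x) := by rw [mul_assoc (x * n)]
      _ = x * n := by rw [hxx, mul_one]
  let φ : G → (N →* N) := fun x =>
    { toFun := fun a => ⟨(a : G) * (x * a * x⁻¹), N.mul_mem a.2 (‹N.Normal›.conj_mem _ a.2 x)⟩
      map_one' := Subtype.ext (by simp)
      map_mul' := fun a b => Subtype.ext (by
        show (a : G) * b * (x * (a * b) * x⁻¹) = (a : G) * (x * a * x⁻¹) * (b * (x * b * x⁻¹))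
        have hxa : x * a * x⁻¹ ∈ N := ‹N.Normal›.conj_mem _ a.2 x
        calc (a : G) * b * (x * (a * b) * x⁻¹) = a * (b * (x * a * x⁻¹)) * (x * b * x⁻¹) := by group
          _ = a * ((x * a * x⁻¹) * b) * (x * b * x⁻¹) := by rw [hab _ b.2 _ hxa]
          _ = _ := by group) }
  have hφ : ∀ (x : G) (a : N), ((φ x a : N) : G) = (a : G) * (x * a * x⁻¹) := fun _ _ => rfl
  have hker : ∀ (x : G) (a : N), a ∈ (φ x).ker ↔ Commute x (a : G) := by
    intro x a
    rw [MonoidHom.mem_ker, Subtype.ext_iff, hφ, OneMemClass.coe_one, mul_eq_one_iff_inv_eq,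
      hinvN _ a.2, eq_comm, mul_inv_eq_iff_eq_mul]
    exact Iff.rfl
  have hlt : ∀ x : G, x ∉ N → x * x ∈ N → Nat.card (φ x).range < Nat.card (φ x).ker := by
    intro x hx hxx
    have hle : (φ x).range ≤ (φ x).ker := by
      rintro _ ⟨a, rfl⟩
      rw [hker, hφ]
      have hxa : x * a * x⁻¹ ∈ N := ‹N.Normal›.conj_mem _ a.2 x
      have h2 : x * x * a = a * (x * x) := hab _ hxx _ a.2
      show x * ((a : G) * (x * a * x⁻¹)) = (a : G) * (x * a * x⁻¹) * x
      calc x * ((a : G) * (x * a * x⁻¹)) = (x * a * x⁻¹) * (x * x * a) * x⁻¹ := by group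
        _ = (x * a * x⁻¹) * (a * (x * x)) * x⁻¹ := by rw [h2]
        _ = (x * a * x⁻¹) * a * x := by group
        _ = _ := by rw [hab _ hxa _ a.2]
    refine lt_of_le_of_ne (Subgroup.card_le_of_le hle) fun he => ?_
    have heq := Subgroup.eq_of_le_of_card_ge hle he.ge
    obtain ⟨a, ha⟩ : (⟨x * x, hxx⟩ : N) ∈ (φ x).range := by
      rw [heq, hker]
      exact (mul_assoc x x x).symm
    have ha' : (a : G) * (x * a * x⁻¹) = x * x := congrArg Subtype.val ha
    refine hsq ((a : G) * x) (fun h => hx (by simpa using N.mul_mem (N.inv_mem a.2) h)) ?_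
    calc (a : G) * x * ((a : G) * x) = (a : G) * (x * a * x⁻¹) * (x * x) := by group
      _ = (x * x) * (x * x) := by rw [ha']
      _ = 1 := by rw [← pow_two]; exact hexp _ hxx
  have hcardN : ∀ x : G, Nat.card N = Nat.card (φ x).range * Nat.card (φ x).ker := fun x => by
    rw [Subgroup.card_eq_card_quotient_mul_card_subgroup (φ x).ker,
      Nat.card_congr (QuotientGroup.quotientKerEquivRange (φ x)).toEquiv]
  have key : ∀ x y : G, x ∉ N → y ∉ N → x * x ∈ N → y * y ∈ N →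
      ∀ r : ℕ, Odd r → (x * y) ^ r ∈ N → x * y ∈ N := by
    intro x y hx hy hxx hyy r hr hzr
    by_contra hz
    obtain ⟨i, hi⟩ := hNp ⟨_, hzr⟩
    have hi' : ((x * y) ^ 2 ^ i) ^ r = 1 := by
      rw [← pow_mul, mul_comm, pow_mul]; exact congrArg Subtype.val hi
    have hz' : (x * y) ^ 2 ^ i ∉ N := by
      intro h
      apply hz
      rw [← QuotientGroup.eq_one_iff] at h hzr ⊢
      rw [QuotientGroup.mk_pow] at h hzr
      exact orderOf_eq_one_iff.mp (Nat.eq_one_of_dvd_coprimes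
        (Nat.Coprime.pow_left i (Nat.coprime_two_left.mpr hr))
        (orderOf_dvd_of_pow_eq_one h) (orderOf_dvd_of_pow_eq_one hzr))
    have hdis : Disjoint (φ x).ker (φ y).ker := Subgroup.disjoint_def.mpr fun {a} hax hay =>
      Subtype.ext (fixed_one N 2 hNp hcls hz' hi' (fun h => (Nat.not_even_iff_odd.mpr hr) (even_iff_two_dvd.mpr h))
        a.2 ((((hker x a).mp hax).mul_left ((hker y a).mp hay)).pow_left _))
    have hle : Nat.card (φ x).ker * Nat.card (φ y).ker ≤ Nat.card N := by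
      rw [← Nat.card_prod]
      exact Nat.card_le_card_of_injective _ (Subgroup.mul_injective_of_disjoint hdis)
    have h1 := hlt x hx hxx
    have h2 := hlt y hy hyy
    have h3 := hcardN x
    have h4 := hcardN y
    have hpos : 0 < Nat.card N := Nat.card_pos
    have h5 : Nat.card N < Nat.card (φ x).ker * Nat.card (φ x).ker := by
      rw [h3]; exact Nat.mul_lt_mul_of_pos_right h1 Nat.card_pos
    have h6 : Nat.card N < Nat.card (φ y).ker * Nat.card (φ y).ker := by
      rw [h4]; exact Nat.mul_lt_mul_of_pos_right h2 Nat.card_pos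
    nlinarith
  rw [N.index_eq_card] at h2
  obtain ⟨xb, hxb⟩ := exists_prime_orderOf_dvd_card' 2 h2
  induction xb using QuotientGroup.induction_on with
  | H x =>
    have hxN : x ∉ N := fun h => by
      rw [(QuotientGroup.eq_one_iff x).mpr h, orderOf_one] at hxb; omega
    have hx2 : (x : G ⧸ N) * (x : G ⧸ N) = 1 := by rw [← pow_two, ← hxb, pow_orderOf_eq_one]
    have hxx : x * x ∈ N := (QuotientGroup.eq_one_iff _).mp hx2
    refine hxN (hcore.ge ?_)
    obtain ⟨K, hK, hKp, hXK⟩ := CfsgLib.BaerSuzuki.baer_suzuki (p := 2) (Subgroup.zpowers x) (fun g => by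
      set y := g * x * g⁻¹ with hy
      have hy2 : (y : G ⧸ N) * (y : G ⧸ N) = 1 := by
        rw [← QuotientGroup.mk_mul, QuotientGroup.eq_one_iff, hy,
          show g * x * g⁻¹ * (g * x * g⁻¹) = g * (x * x) * g⁻¹ by group]
        exact ‹N.Normal›.conj_mem _ hxx g
      set zb : G ⧸ N := (x : G ⧸ N) * (y : G ⧸ N) with hzb
      have hxi : ((x : G ⧸ N))⁻¹ = (x : G ⧸ N) := inv_eq_of_mul_eq_one_right hx2
      have hinv : (x : G ⧸ N) * zb * (x : G ⧸ N)⁻¹ = zb⁻¹ := by
        rw [hzb, mul_inv_rev, hxi, inv_eq_of_mul_eq_one_right hy2, ← mul_assoc, hx2, one_mul]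
      obtain ⟨a, r, hr, har⟩ := Nat.exists_eq_two_pow_mul_odd (orderOf_pos zb).ne'
      have hz1 : zb ^ 2 ^ a = 1 := by
        set y1 := x * (x * y) ^ 2 ^ a with hy1def
        have hy1sq : (y1 : G ⧸ N) * (y1 : G ⧸ N) = 1 := by
          rw [hy1def, QuotientGroup.mk_mul, QuotientGroup.mk_pow, QuotientGroup.mk_mul, ← hzb]
          have h3 : (x : G ⧸ N) * zb ^ 2 ^ a * (x : G ⧸ N)⁻¹ = (zb ^ 2 ^ a)⁻¹ := by
            rw [← conj_pow, hinv, inv_pow]
          rw [hxi] at h3
          rw [← mul_assoc, h3, inv_mul_cancel]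
        have hzr : (zb ^ 2 ^ a) ^ r = 1 := by rw [← pow_mul, ← har, pow_orderOf_eq_one]
        have hy1 : y1 ∉ N := by
          intro h
          rw [← QuotientGroup.eq_one_iff, hy1def, QuotientGroup.mk_mul, QuotientGroup.mk_pow,
            QuotientGroup.mk_mul, ← hzb, mul_eq_one_iff_inv_eq, hxi] at h
          apply hxN
          obtain ⟨s, hs⟩ := hr
          rw [← QuotientGroup.eq_one_iff]
          rw [← h, hs, pow_succ, pow_mul, pow_two, hx2, one_pow, one_mul] at hzr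
          exact hzr
        have hprod : ((x * y1 : G) : G ⧸ N) = zb ^ 2 ^ a := by
          rw [hy1def, ← mul_assoc, QuotientGroup.mk_mul, QuotientGroup.mk_mul, hx2, one_mul,
            QuotientGroup.mk_pow, QuotientGroup.mk_mul, ← hzb]
        have h := key x y1 hxN hy1 hxx ((QuotientGroup.eq_one_iff _).mp hy1sq) r hr
          ((QuotientGroup.eq_one_iff _).mp (by rw [QuotientGroup.mk_pow, hprod]; exact hzr))
        rw [← QuotientGroup.eq_one_iff, hprod] at h
        exact h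
      have hWz : IsPGroup 2 (Subgroup.zpowers zb) := by
        obtain ⟨i, -, hi⟩ := (Nat.dvd_prime_pow Nat.prime_two).mp (orderOf_dvd_of_pow_eq_one hz1)
        exact IsPGroup.of_card (n := i) (by rw [Nat.card_zpowers, hi])
      have hWx : IsPGroup 2 (Subgroup.zpowers (x : G ⧸ N)) :=
        IsPGroup.of_card (n := 1) (by rw [Nat.card_zpowers, hxb, pow_one])
      have hnorm : Subgroup.zpowers (x : G ⧸ N) ≤ Subgroup.normalizer (Subgroup.zpowers zb : Set (G ⧸ N)) := by
        rw [Subgroup.zpowers_le, Subgroup.mem_normalizer_iff_map_conj_eq, MonoidHom.map_zpowers]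
        exact (congrArg Subgroup.zpowers hinv).trans Subgroup.zpowers_inv
      have hW := IsPGroup.to_sup_of_normal_left' hWz hWx hnorm
      refine (hW.comap_of_ker_isPGroup (QuotientGroup.mk' N) (by rw [QuotientGroup.ker_mk']; exact hNp)).to_le ?_
      rw [MonoidHom.map_zpowers, sup_le_iff, Subgroup.zpowers_le, Subgroup.zpowers_le]
      refine ⟨Subgroup.mem_comap.mpr (Subgroup.mem_sup_right (Subgroup.mem_zpowers _)), Subgroup.mem_comap.mpr ?_⟩
      show (y : G ⧸ N) ∈ _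
      have : (y : G ⧸ N) = (x : G ⧸ N)⁻¹ * zb := by rw [hzb, inv_mul_cancel_left]
      rw [this]
      exact Subgroup.mul_mem _ (Subgroup.inv_mem _ (Subgroup.mem_sup_right (Subgroup.mem_zpowers _)))
        (Subgroup.mem_sup_left (Subgroup.mem_zpowers _)))
    exact CfsgLib.Core.le_pCore hK hKp (hXK (Subgroup.mem_zpowers x))

/-- Let G be a finite group of order greater than 2 with an irreducible character χ nonzero on exactly two conjugacy classes, and let N be the normal p-subgroup of elements where χ is nonzero. Then N is the whole p-core O_p(G) if and only if G is a doubly transitive Frobenius group with kernel N: G has a Frobenius complement H whose Frobenius kernel is N and whose order is one less than that of N. -/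
theorem result {G : Type*} [Group G] [Finite G] (hG : 2 < Nat.card G) (χ : Cfsg.IrrCharacter G) (hχ : Nat.card {C : ConjClasses G // ∃ g ∈ C.carrier, (χ : G → ℂ) g ≠ 0} = 2) (p : ℕ) [Fact p.Prime] (N : Subgroup G) [N.Normal] (hN : ∀ g : G, g ∈ N ↔ (χ : G → ℂ) g ≠ 0) (hNp : IsPGroup p N) (hN1 : N ≠ ⊥) :
    N = Cfsg.pCore p G ↔ ∃ H : Subgroup G, Cfsg.IsFrobeniusComplement H ∧ Cfsg.frobeniusKernel H = (N : Set G) ∧ Nat.card H + 1 = Nat.card N := by
  classical
  obtain ⟨N', -, -, hsupp, htrans, -, e, m, -, hm, hNm, -, -, -, hidx⟩ := TwoClasses.structureThm hG χ hχ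
  obtain rfl : N = N' := Subgroup.ext fun g => (hN g).trans (hsupp g)
  have hcls : ∀ x : G, x ∉ N → ∀ n ∈ N, ∃ g : G, g * x * g⁻¹ = x * n := fun x hx n hn =>
    coset_conj N ((Cfsg.Agent.S4838.result hG χ hχ p N hN hNp hN1 default).1) hx hn
  obtain ⟨hab, hexp⟩ := abelian_of_trans N p hNp hN1 htrans
  obtain ⟨k, hk⟩ := IsPGroup.iff_card.mp hNp
  haveI : Nontrivial N := (Subgroup.nontrivial_iff_ne_bot N).mpr hN1
  obtain ⟨n₀, hn₀⟩ := exists_ne (1 : N)
  have hn₀' : (n₀ : G) ≠ 1 := fun h => hn₀ (Subtype.ext h)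
  have hk0 : k ≠ 0 := by
    rintro rfl
    exact hN1 (Subgroup.card_eq_one.mp (by simpa using hk))
  have htop : N = ⊤ → False := by
    intro h
    have hc : Subgroup.centralizer ({(n₀ : G)} : Set G) = ⊤ := eq_top_iff.mpr fun g _ =>
      Subgroup.mem_centralizer_singleton_iff.mpr (hab g (h ▸ Subgroup.mem_top g) n₀ n₀.2)
    have h1 := hidx n₀ n₀.2 hn₀'
    rw [hc, Subgroup.index_top] at h1
    rw [h, Subgroup.card_top] at hNm
    omega
  constructor
  · intro hcore
    by_cases hp2 : p = 2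
    · have hodd := odd_index N p hp2 hNp hN1 hcore htrans hcls
      obtain ⟨H, hH⟩ := Subgroup.exists_right_complement'_of_coprime (N := N) (by
        rw [hk]; exact Nat.Coprime.pow_left k (hp2 ▸ (Nat.prime_two.coprime_iff_not_dvd).mpr hodd))
      refine frobenius_of_complement N hN1 hab htrans hcls hG htop H (fun g => ?_) (fun h hh hhN => ?_)
      · obtain ⟨⟨⟨a, ha⟩, ⟨c, hc⟩⟩, hac⟩ := hH.2 g
        exact ⟨a, ha, c, hc, hac.symm⟩
      · exact Subgroup.mem_bot.mp (hH.disjoint.le_bot ⟨hhN, hh⟩)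
    · have hCN := centralizer_le N p hNp hN1 hcore hcls
      haveI : Fact (Nat.Prime 2) := ⟨Nat.prime_two⟩
      have hpodd : Odd p := (Fact.out : p.Prime).odd_of_ne_two hp2
      have hNodd : Odd (Nat.card N) := hk ▸ hpodd.pow
      have h2G : 2 ∣ Nat.card G := by
        have : 2 ∣ m := by
          obtain ⟨s, hs⟩ := hNodd
          omega
        exact this.trans (hidx n₀ n₀.2 hn₀' ▸ Subgroup.index_dvd_card _)
      obtain ⟨t, ht⟩ := exists_prime_orderOf_dvd_card' 2 h2G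
      have htN : t ∉ N := fun h => by
        have := Subgroup.orderOf_dvd_natCard N h
        rw [ht] at this
        exact (Nat.not_even_iff_odd.mpr hNodd) (even_iff_two_dvd.mpr this)
      have ht2 : t ^ 2 = 1 := by rw [← ht, pow_orderOf_eq_one]
      have htp : ¬ p ∣ 2 := fun h => hp2 ((Nat.prime_dvd_prime_iff_eq Fact.out Nat.prime_two).mp h)
      have htinv : t⁻¹ = t := inv_eq_of_mul_eq_one_right (by rw [← pow_two]; exact ht2)
      have htt : t * t = 1 := by rw [← pow_two]; exact ht2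
      have hinv : ∀ n ∈ N, t * n * t⁻¹ = n⁻¹ := by
        intro n hn
        have hn' : t * n * t⁻¹ ∈ N := ‹N.Normal›.conj_mem n hn t
        have := fixed_one N p hNp hcls htN ht2 htp (N.mul_mem hn hn') (by
          show t * (n * (t * n * t⁻¹)) = n * (t * n * t⁻¹) * t
          calc t * (n * (t * n * t⁻¹)) = (t * n * t⁻¹) * ((t * t) * n) * t⁻¹ := by group
            _ = (t * n * t⁻¹) * n * t := by rw [htt, one_mul, htinv]
            _ = _ := by rw [hab _ hn' _ hn])
        exact eq_inv_of_mul_eq_one_right this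
      refine frobenius_of_complement N hN1 hab htrans hcls hG htop (Subgroup.centralizer ({t} : Set G))
        (fun g => ?_) (fun h hh hhN => fixed_one N p hNp hcls htN ht2 htp hhN
          (Subgroup.mem_centralizer_singleton_iff.mp hh).symm)
      set u := g * t * g⁻¹ * t⁻¹ with hu
      have huN : u ∈ N := hCN (Subgroup.mem_centralizer_iff.mpr fun n hn => by
        have hn' : g⁻¹ * n * g ∈ N := by simpa using ‹N.Normal›.conj_mem n hn g⁻¹
        have e1 : g * t * g⁻¹ * n⁻¹ * (g * t * g⁻¹)⁻¹ = n := by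
          calc g * t * g⁻¹ * n⁻¹ * (g * t * g⁻¹)⁻¹ = g * (t * (g⁻¹ * n * g)⁻¹ * t⁻¹) * g⁻¹ := by group
            _ = g * (g⁻¹ * n * g) * g⁻¹ := by rw [hinv _ (N.inv_mem hn'), inv_inv]
            _ = n := by group
        have e2 : u * n * u⁻¹ = n := by
          calc u * n * u⁻¹ = g * t * g⁻¹ * (t⁻¹ * n * t⁻¹⁻¹) * (g * t * g⁻¹)⁻¹ := by rw [hu]; group
            _ = g * t * g⁻¹ * n⁻¹ * (g * t * g⁻¹)⁻¹ := by rw [htinv, hinv n hn]
            _ = n := e1
        exact (mul_inv_eq_iff_eq_mul.mp e2).symm)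
      obtain ⟨s, hs⟩ : Odd (orderOf u) := hNodd.of_dvd_nat (Subgroup.orderOf_dvd_natCard N huN)
      set a := u ^ (s + 1) with ha
      have haN : a ∈ N := N.pow_mem huN _
      have haa : a * a = u := by
        rw [ha, ← pow_add, show s + 1 + (s + 1) = orderOf u + 1 by omega, pow_succ, pow_orderOf_eq_one, one_mul]
      refine ⟨a, haN, a⁻¹ * g, Subgroup.mem_centralizer_singleton_iff.mpr ?_, (mul_inv_cancel_left a g).symm⟩
      have e3 : a * t * a⁻¹ = g * t * g⁻¹ := by
        calc a * t * a⁻¹ = a * (t * a⁻¹ * t⁻¹) * t := by group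
          _ = u * t := by rw [hinv _ (N.inv_mem haN), inv_inv, haa]
          _ = _ := by rw [hu]; group
      calc a⁻¹ * g * t = a⁻¹ * (g * t * g⁻¹) * g := by group
        _ = a⁻¹ * (a * t * a⁻¹) * g := by rw [e3]
        _ = _ := by group
  · rintro ⟨H, hH, hker, hcard⟩
    obtain ⟨K, hK, hKn, hc⟩ := CfsgLib.GroupB.Frobenius.exists_kernel_subgroup hH
    obtain rfl : K = N := SetLike.coe_injective (hK.trans hker)
    have hndvd : ¬ p ∣ K.index := by
      rw [hc.symm.index_eq_card]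
      intro h
      have : p ∣ Nat.card H + 1 := by rw [hcard, hk]; exact dvd_pow_self p hk0
      exact (Fact.out : p.Prime).not_dvd_one ((Nat.dvd_add_right h).mp this)
    refine le_antisymm (CfsgLib.Core.le_pCore inferInstance hNp) fun x hx => ?_
    obtain ⟨j, hj⟩ := CfsgLib.Core.isPGroup_pCore (G := G) p ⟨x, hx⟩
    have hxj : x ^ p ^ j = 1 := congrArg Subtype.val hj
    rw [← QuotientGroup.eq_one_iff]
    refine orderOf_eq_one_iff.mp (Nat.eq_one_of_dvd_coprimes
      (Nat.Coprime.pow_left j ((Fact.out : p.Prime).coprime_iff_not_dvd.mpr hndvd))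
      (orderOf_dvd_of_pow_eq_one (by rw [← QuotientGroup.mk_pow, hxj, QuotientGroup.mk_one]))
      (K.index_eq_card ▸ orderOf_dvd_natCard _))

end Cfsg.Agent.S4839
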