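import Cfsg.Statements.S4843
import Cfsg.Agent.Lib.CliffordCorr
import Cfsg.Agent.Lib.Blocks.Core
import Cfsg.Agent.Lib.Chars.Linear
import Cfsg.Agent.Lib.Chars.GaloisTwist
import Cfsg.Agent.Lib.CharAbelian
import Cfsg.Agent.Lib.Core

set_option autoImplicit false
open Cfsg

namespace Cfsg.Agent.S4843

open CfsgLib CfsgLib.Chars CfsgLib.Core CfsgLib.Blocks
open scoped ComplexConjugate

universe u

variable {G : Type u} [Group G] [Fintype G]

theorem isCharacter_powC {k : ℕ} (hk : k.Coprime (Nat.card G)) {φ : G → ℂ} (hφ : IsCharacter G φ) :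
    IsCharacter G (fun g => φ (g ^ k)) := by
  obtain ⟨l, rfl⟩ := exists_list_irr hφ
  induction l with
  | nil => exact isCharacter_zero (G := G)
  | cons a l ih =>
    have h1 := IsCharacter.add (IsIrrCharacter.isCharacter (isIrrCharacter_pow hk a))
      (ih (isCharacter_of_list l))
    simpa [Pi.add_def] using h1
  where
    isCharacter_of_list (l : List (IrrCharacter G)) : IsCharacter G (l.map Subtype.val).sum :=
      IsCharacter.list_sum fun x hx => by
        obtain ⟨y, -, rfl⟩ := List.mem_map.mp hx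
        exact isCharacter_irr y

theorem sub_irr {φ : G → ℂ} (hφ : IsCharacter G φ) (ψ : IrrCharacter G)
    (h : classInner φ (ψ : G → ℂ) ≠ 0) : IsCharacter G (fun g => φ g - (ψ : G → ℂ) g) := by
  classical
  refine isCharacter_of_mult (fun g h' => ?_) fun η => ?_
  · show φ _ - _ = _
    rw [IsCharacter.isClassFunction hφ, IsCharacter.isClassFunction (isCharacter_irr ψ)]
  obtain ⟨m, hm⟩ := exists_mult hφ η
  have e : classInner (fun g => φ g - (ψ : G → ℂ) g) (η : G → ℂ) =
      classInner φ (η : G → ℂ) - classInner (ψ : G → ℂ) (η : G → ℂ) := by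
    simp only [classInner, sub_mul, Finset.sum_sub_distrib, mul_sub]
  rw [e, hm, classInner_irr]
  by_cases he : ψ = η
  · subst he
    obtain ⟨m', rfl⟩ : ∃ m', m = m' + 1 := by
      refine ⟨m - 1, ?_⟩
      have : m ≠ 0 := fun h0 => h (by rw [hm, h0, Nat.cast_zero])
      omega
    exact ⟨m', by rw [if_pos rfl]; push_cast; ring⟩
  · exact ⟨m, by rw [if_neg he, sub_zero]⟩

theorem no_rational_piece {k : ℕ} (hk : k.Coprime (Nat.card G)) (χ : IrrCharacter G)
    (hirr : IsIrrCharacter G (fun g => (χ : G → ℂ) g * (χ : G → ℂ) (g ^ k)))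
    {M : G → ℂ} (hM : IsCharacter G M) (hMk : ∀ g, M (g ^ k) = M g)
    (hR : IsCharacter G (fun g => (χ : G → ℂ) g * conj ((χ : G → ℂ) g) - M g)) :
    charDegree M ≤ 1 := by
  classical
  set R : G → ℂ := fun g => (χ : G → ℂ) g * conj ((χ : G → ℂ) g) - M g with hRdef
  have hR' := isCharacter_powC hk hR
  obtain ⟨a, ha⟩ := exists_mult_character hM hM
  obtain ⟨b, hb⟩ := exists_mult_character hM hR'
  obtain ⟨c, hc⟩ := exists_mult_character hR hM
  obtain ⟨d, hd⟩ := exists_mult_character hR hR'
  have h1 : (1 : ℂ) = (a + b + c + d : ℕ) := by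
    push_cast
    rw [← ha, ← hb, ← hc, ← hd]
    have e := classInner_irr (⟨_, hirr⟩ : IrrCharacter G) ⟨_, hirr⟩
    rw [if_pos rfl] at e
    rw [← e]
    simp only [classInner, ← mul_add, ← Finset.sum_add_distrib]
    congr 1
    refine Finset.sum_congr rfl fun g _ => ?_
    simp only [hRdef, hMk, map_sub, map_mul, Complex.conj_conj]
    ring
  have h1' : 1 = a + b + c + d := by exact_mod_cast h1
  choose m hm using exists_mult hM
  have ha' : a = ∑ η : IrrCharacter G, m η * m η := by
    have hM' : M = fun g => ∑ η : IrrCharacter G, (m η : ℂ) * (η : G → ℂ) g := funext fun g => by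
      rw [classFunction_expand (IsCharacter.isClassFunction hM) g]
      simp only [hm]
    have e : classInner M M = ∑ η : IrrCharacter G, (m η : ℂ) * classInner M (η : G → ℂ) := by
      conv_lhs => arg 2; rw [hM']
      simp only [classInner, map_sum, map_mul, Complex.conj_natCast, Finset.mul_sum]
      rw [Finset.sum_comm]
      exact Finset.sum_congr rfl fun η _ => Finset.sum_congr rfl fun g _ => by ring
    rw [ha] at e
    simp only [hm] at e
    exact_mod_cast e
  have hdegM : (charDegree M : ℂ) = ∑ η : IrrCharacter G, (m η : ℂ) * (η : G → ℂ) 1 := by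
    rw [← IsCharacter.apply_one hM, classFunction_expand (IsCharacter.isClassFunction hM) 1]
    simp only [hm]
  by_cases ht' : m (trivIrr G) = 0
  · have hRt : classInner R (trivIrr G : G → ℂ) = 1 := by
      have e : classInner R (trivIrr G : G → ℂ) =
          classInner (χ : G → ℂ) (χ : G → ℂ) - classInner M (trivIrr G : G → ℂ) := by
        simp only [classInner, hRdef, trivIrr, map_one, mul_one, Finset.sum_sub_distrib, mul_sub]
      rw [e, classInner_irr, if_pos rfl, hm, ht', Nat.cast_zero, sub_zero]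
    have hr := sub_irr hR (trivIrr G) (by rw [hRt]; exact one_ne_zero)
    have hr' := isCharacter_powC hk hr
    obtain ⟨x, hx⟩ := exists_mult_character (isCharacter_irr (trivIrr G)) hr'
    obtain ⟨y, hy⟩ := exists_mult_character hr (isCharacter_irr (trivIrr G))
    obtain ⟨z, hz⟩ := exists_mult_character hr hr'
    have hd1 : (d : ℂ) = ((1 + x + y + z : ℕ) : ℂ) := by
      have e := classInner_irr (trivIrr G) (trivIrr G)
      rw [if_pos rfl] at e
      push_cast
      rw [← hd, ← hx, ← hy, ← hz, ← e]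
      simp only [classInner, ← mul_add, ← Finset.sum_add_distrib]
      congr 1
      refine Finset.sum_congr rfl fun g _ => ?_
      simp only [trivIrr, map_sub, map_one]
      ring
    have hd2 : d = 1 + x + y + z := by exact_mod_cast hd1
    have h0 : ∀ η : IrrCharacter G, m η = 0 := fun η => by
      have h2 : m η * m η ≤ a := by
        rw [ha']
        exact Finset.single_le_sum (f := fun η => m η * m η) (fun _ _ => Nat.zero_le _) (Finset.mem_univ _)
      exact mul_self_eq_zero.mp (show m η * m η = 0 by omega)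
    have h3 : (charDegree M : ℂ) = 0 := by
      rw [hdegM]; simp [h0]
    have h4 : charDegree M = 0 := by exact_mod_cast h3
    omega
  have hone : ∀ η : IrrCharacter G, η ≠ trivIrr G → m η = 0 := by
    intro η hη
    have h2 : m (trivIrr G) * m (trivIrr G) + m η * m η ≤ a := by
      rw [ha', ← Finset.sum_pair (f := fun η => m η * m η) hη.symm]
      exact Finset.sum_le_sum_of_subset (Finset.subset_univ _)
    have h3 := Nat.mul_pos (Nat.pos_of_ne_zero ht') (Nat.pos_of_ne_zero ht')
    have h4 : m η * m η = 0 := by omega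
    exact mul_self_eq_zero.mp h4
  have htt : m (trivIrr G) = 1 := by
    have h2 : m (trivIrr G) * m (trivIrr G) ≤ a := by
      rw [ha']
      exact Finset.single_le_sum (f := fun η => m η * m η) (fun _ _ => Nat.zero_le _) (Finset.mem_univ _)
    have h3 := Nat.le_mul_self (m (trivIrr G))
    omega
  have h5 := classFunction_expand (IsCharacter.isClassFunction hM) 1
  rw [Finset.sum_eq_single (trivIrr G) (fun η _ hη => by rw [hm, hone η hη, Nat.cast_zero, zero_mul])
    (by simp), hm, htt] at h5
  rw [IsCharacter.apply_one hM] at h5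
  simp only [Nat.cast_one, one_mul, trivIrr] at h5
  have : charDegree M = 1 := by exact_mod_cast h5
  omega

theorem mem_center_of_abelian {k : ℕ} (hk : k.Coprime (Nat.card G)) (χ : IrrCharacter G)
    (hfaith : ∀ g : G, (χ : G → ℂ) g = (χ : G → ℂ) 1 → g = 1)
    (hirr : IsIrrCharacter G (fun g => (χ : G → ℂ) g * (χ : G → ℂ) (g ^ k)))
    (A : Subgroup G) [A.Normal] (hA : ∀ a ∈ A, ∀ b ∈ A, a * b = b * a) : A ≤ Subgroup.center G := by
  classical
  haveI : Fintype A := Fintype.ofFinite A
  obtain ⟨θ, hθ⟩ := exists_res_constituent A χ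
  let T : Subgroup G :=
    { carrier := {g | conjIrr A θ g = θ}
      one_mem' := conjIrr_one A θ
      mul_mem' := fun {a b} ha hb => by
        simp only [Set.mem_setOf_eq] at *
        rw [conjIrr_mul, ha, hb]
      inv_mem' := fun {a} ha => by
        simp only [Set.mem_setOf_eq] at *
        conv_lhs => rw [← ha]
        rw [← conjIrr_mul, mul_inv_cancel, conjIrr_one] }
  haveI : Fintype T := Fintype.ofFinite T
  have hmem : ∀ g, g ∈ T ↔ conjIrr A θ g = θ := fun g => Iff.rfl
  have hAT : A ≤ T := CliffordCorr.le_inertia A θ hmem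
  obtain ⟨ψ, h1, h2⟩ := CliffordCorr.exists_corr A θ hmem hAT χ hθ
  obtain ⟨hind, hmult, -⟩ := CliffordCorr.clifford_corr A θ hmem hAT ψ h2 χ h1
  by_cases hT : T = ⊤
  swap
  · exfalso
    set M : G → ℂ := indFun T (fun _ => (1 : ℂ)) with hMdef
    have hM : IsCharacter G M := IsCharacter.indFun T (IsIrrCharacter.isCharacter (isIrrCharacter_one T))
    have hMk : ∀ g, M (g ^ k) = M g := by
      intro g
      simp only [hMdef, indFun]
      congr 1
      refine Finset.sum_congr rfl fun x _ => ?_
      have hiff : x⁻¹ * g ^ k * x ∈ T ↔ x⁻¹ * g * x ∈ T := by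
        have e : x⁻¹ * g ^ k * x = (x⁻¹ * g * x) ^ k := by
          have := conj_pow (i := k) (a := x⁻¹) (b := g)
          rw [inv_inv] at this
          exact this.symm
        rw [e]
        refine ⟨fun h => ?_, fun h => T.pow_mem h k⟩
        obtain ⟨j, hj⟩ := exists_pow_eq_self_of_coprime (x := x⁻¹ * g * x)
          (hk.coprime_dvd_right (orderOf_dvd_natCard _))
        rw [← hj]
        exact T.pow_mem h j
      rw [extendByZero_apply, extendByZero_apply]
      exact if_congr hiff rfl rfl
    have hR : IsCharacter G (fun g => (χ : G → ℂ) g * conj ((χ : G → ℂ) g) - M g) := by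
      have hcl := IsCharacter.isClassFunction (isCharacter_irr χ)
      refine isCharacter_of_mult (fun g h => ?_) fun η => ?_
      · show _ * conj _ - M _ = _
        rw [hcl, IsCharacter.isClassFunction hM]
      have hη := isCharacter_irr η
      have hr := sub_irr (IsCharacter.restrict (isCharacter_irr χ) T) ψ h1
      have hψψ := IsCharacter.mul (isCharacter_irr ψ)
        (IsIrrCharacter.isCharacter (isIrrCharacter_conj ψ))
      have hs := sub_irr hψψ (trivIrr T) (by
        have e := classInner_irr ψ ψ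
        rw [if_pos rfl] at e
        intro h0
        have e' : classInner ((ψ : T → ℂ) * fun t => conj ((ψ : T → ℂ) t)) (trivIrr T : T → ℂ) =
            classInner (ψ : T → ℂ) (ψ : T → ℂ) := by
          simp [classInner, trivIrr]
        rw [e', classInner_irr, if_pos rfl] at h0
        exact one_ne_zero h0)
      obtain ⟨a, ha⟩ := exists_mult_character hs (IsCharacter.restrict hη T)
      obtain ⟨b, hb⟩ := exists_mult_character (isCharacter_irr ψ)
        (IsCharacter.mul hr (IsCharacter.restrict hη T))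
      refine ⟨a + b, ?_⟩
      have e1 : classInner (fun g => (χ : G → ℂ) g * conj ((χ : G → ℂ) g) - M g) (η : G → ℂ) =
          classInner (χ : G → ℂ) (fun g => (χ : G → ℂ) g * (η : G → ℂ) g) - classInner M (η : G → ℂ) := by
        simp only [classInner, sub_mul, Finset.sum_sub_distrib, mul_sub, map_mul, mul_assoc]
      have e2 : classInner (χ : G → ℂ) (fun g => (χ : G → ℂ) g * (η : G → ℂ) g) =
          classInner (ψ : T → ℂ) (fun t : T => (χ : G → ℂ) t * (η : G → ℂ) t) := by
        rw [← hind]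
        exact frobenius T (ψ : T → ℂ) (fun g h => by
          rw [indFun_isClassFunction T, IsCharacter.isClassFunction hη])
      rw [e1, e2, hMdef, frobenius T _ (IsCharacter.isClassFunction hη), Nat.cast_add, ← ha, ← hb]
      simp only [classInner, ← mul_add, ← mul_sub, ← Finset.sum_add_distrib, ← Finset.sum_sub_distrib]
      congr 1
      refine Finset.sum_congr rfl fun t _ => ?_
      simp only [Pi.mul_apply, trivIrr, map_mul, map_sub]
      ring
    have h := no_rational_piece hk χ hirr hM hMk hR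
    have hdeg : (charDegree M : ℂ) = (T.index : ℂ) := by
      rw [← IsCharacter.apply_one hM, hMdef, indFun_one, mul_one]
    have hdeg' : charDegree M = T.index := by exact_mod_cast hdeg
    exact hT (Subgroup.index_eq_one.mp (by
      have := T.index_ne_zero_of_finite
      omega))
  obtain ⟨b, hb0, -, hval⟩ := CliffordCorr.res_inertia A θ hmem hAT ψ h2
  have hθ1 := charDegree_eq_one_of_comm (fun a b : A => Subtype.ext (hA a a.2 b b.2)) θ
  obtain ⟨f, hf⟩ := exists_homIrr θ hθ1
  intro a ha
  rw [Subgroup.mem_center_iff]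
  intro g
  have hgT : g ∈ T := hT ▸ Subgroup.mem_top g
  have hinv := congrFun (congrArg Subtype.val ((hmem g).mp hgT)) ⟨a, ha⟩
  rw [conjIrr_apply', ← hf] at hinv
  have hinv' : f ⟨g * a * g⁻¹, (inferInstance : A.Normal).conj_mem a ha g⟩ = f ⟨a, ha⟩ := Units.ext hinv
  set c : A := ⟨g * a * g⁻¹, (inferInstance : A.Normal).conj_mem a ha g⟩ * (⟨a, ha⟩ : A)⁻¹
  have hfc : f c = 1 := by rw [map_mul, map_inv, hinv', mul_inv_cancel]
  have hsupp : ∀ x : A, (χ : G → ℂ) x = (b : ℂ) * (θ : A → ℂ) x := by
    intro x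
    rw [← hind]
    have hclass : ∀ y : G, extendByZero T (ψ : T → ℂ) (y⁻¹ * x * y) = (b : ℂ) * (θ : A → ℂ) x := by
      intro y
      have hy : conjIrr A θ y⁻¹ = θ := (hmem _).mp (hT ▸ Subgroup.mem_top _)
      have hmemA : y⁻¹ * (x : G) * y ∈ A := by
        simpa using (inferInstance : A.Normal).conj_mem x x.2 y⁻¹
      have e := hval ⟨_, hmemA⟩
      conv_rhs => rw [← hy, conjIrr_apply']
      rw [show extendByZero T (ψ : T → ℂ) (y⁻¹ * x * y) = (ψ : T → ℂ) ⟨_, hAT hmemA⟩ from
        extendByZero_coe T _ ⟨_, hAT hmemA⟩, e]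
      refine congrArg (fun z : A => (b : ℂ) * (θ : A → ℂ) z) (Subtype.ext ?_)
      simp
    simp only [indFun, hclass, Finset.sum_const, Finset.card_univ, nsmul_eq_mul]
    have hTc : Nat.card T = Nat.card G := by rw [hT, Subgroup.card_top]
    rw [← Nat.card_eq_fintype_card, hTc, ← mul_assoc,
      inv_mul_cancel₀ (natCast_card_ne_zero G), one_mul]
  have hc1 : (χ : G → ℂ) c = (χ : G → ℂ) ((1 : A) : G) := by
    rw [hsupp, hsupp, ← hf]
    change (b : ℂ) * (f c : ℂ) = (b : ℂ) * (f 1 : ℂ)
    rw [hfc, map_one]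
  have hc : (c : G) = 1 := hfaith _ hc1
  exact mul_inv_eq_iff_eq_mul.mp (mul_inv_eq_one.mp hc)

theorem central_scalar {n : ℕ} (ρ : Representation ℂ G (Fin n → ℂ)) (hρ : ρ.IsIrreducible) {z : G}
    (hz : z ∈ Subgroup.center G) : ∃ s : ℂ, ρ z = s • (1 : Module.End ℂ (Fin n → ℂ)) := by
  classical
  have h := repSum_eq_smul ρ hρ (f := fun g => if g = z then (1 : ℂ) else 0) (fun g h => by
    refine if_congr ⟨fun e => ?_, fun e => ?_⟩ rfl rfl
    · calc g = h⁻¹ * (h * g * h⁻¹) * h := by group
        _ = z := by rw [e, mul_assoc, ← Subgroup.mem_center_iff.mp hz h, inv_mul_cancel_left]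
    · rw [e, Subgroup.mem_center_iff.mp hz h, mul_inv_cancel_right])
  refine ⟨_, LinearMap.ext fun v => Eq.trans ?_ (LinearMap.congr_fun h v)⟩
  simp [repSum_apply]

theorem comm_pow_left {g r : G} (h : g * r * g⁻¹ * r⁻¹ ∈ Subgroup.center G) :
    ∀ k : ℕ, g ^ k * r * (g ^ k)⁻¹ * r⁻¹ = (g * r * g⁻¹ * r⁻¹) ^ k := by
  intro k
  induction k with
  | zero => simp
  | succ k ih =>
    have hc := Subgroup.mem_center_iff.mp ((Subgroup.center G).pow_mem h k) g
    calc g ^ (k + 1) * r * (g ^ (k + 1))⁻¹ * r⁻¹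
        = g * (g ^ k * r * (g ^ k)⁻¹ * r⁻¹) * r * g⁻¹ * r⁻¹ := by rw [pow_succ']; group
      _ = (g * r * g⁻¹ * r⁻¹) ^ k * g * r * g⁻¹ * r⁻¹ := by rw [ih, hc]
      _ = _ := by rw [pow_succ]; simp only [mul_assoc]

theorem comm_pow_right {g r : G} (h : g * r * g⁻¹ * r⁻¹ ∈ Subgroup.center G) (k : ℕ) :
    g * r ^ k * g⁻¹ * (r ^ k)⁻¹ = (g * r * g⁻¹ * r⁻¹) ^ k := by
  have hc : Commute (g * r * g⁻¹ * r⁻¹) r := (Subgroup.mem_center_iff.mp h r).symm
  have e1 : g * r ^ k * g⁻¹ = (g * r * g⁻¹) ^ k := conj_pow.symm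
  have e2 : g * r * g⁻¹ = (g * r * g⁻¹ * r⁻¹) * r := by group
  rw [e1, e2, hc.mul_pow]
  simp

/-- `extendByZero` on commutators with coset representatives only depends on the coset. -/
theorem mem_center_of_pow {g : G} {k : ℕ} (hk : k.Coprime (Nat.card G)) : ∃ j : ℕ, (g ^ k) ^ j = g :=
  exists_pow_eq_self_of_coprime (hk.coprime_dvd_right (orderOf_dvd_natCard g))

theorem class_two_central {k : ℕ} (hk : k.Coprime (Nat.card G)) (χ : IrrCharacter G)
    (hfaith : ∀ g : G, (χ : G → ℂ) g = (χ : G → ℂ) 1 → g = 1)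
    (hirr : IsIrrCharacter G (fun g => (χ : G → ℂ) g * (χ : G → ℂ) (g ^ k)))
    (E : Subgroup G) [E.Normal] (hE : ∀ e ∈ E, ∀ f ∈ E, e * f * e⁻¹ * f⁻¹ ∈ Subgroup.center G)
    (hZE : ∀ e ∈ E, (∀ f ∈ E, e * f = f * e) → e ∈ Subgroup.center G) : E ≤ Subgroup.center G := by
  classical
  obtain ⟨n, ρ, hρ, hc⟩ := χ.2
  have hn1 : (χ : G → ℂ) 1 = (n : ℂ) := by rw [← hc, Representation.char_one]; simp
  have hn : (n : ℂ) ≠ 0 := hn1 ▸ irr_one_ne_zero χ
  have hvan : ∀ e ∈ E, e ∉ Subgroup.center G → (χ : G → ℂ) e = 0 := by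
    intro e he hez
    by_contra h0
    refine hez (hZE e he fun f hf => ?_)
    set z := f * e * f⁻¹ * e⁻¹
    have hz : z ∈ Subgroup.center G := hE f hf e he
    obtain ⟨s, hs⟩ := central_scalar ρ hρ hz
    have h1 : (χ : G → ℂ) (z * e) = (χ : G → ℂ) e := by
      rw [show z * e = f * e * f⁻¹ by simp [z]]
      exact IsCharacter.isClassFunction (isCharacter_irr χ) e f
    have h2 : ∀ x : G, (χ : G → ℂ) (z * x) = s * (χ : G → ℂ) x := fun x => by
      rw [← hc]
      simp only [Representation.character, map_mul, hs, Algebra.smul_mul_assoc, one_mul, map_smul,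
        smul_eq_mul]
    rw [h2] at h1
    have hs1 : s = 1 := (mul_eq_right₀ h0).mp h1
    have hz1 : z = 1 := hfaith z (by
      have := h2 1
      rwa [mul_one, hs1, one_mul] at this)
    have := mul_inv_eq_one.mp hz1
    exact (mul_inv_eq_iff_eq_mul.mp this).symm
  set Z0 := (Subgroup.center G).subgroupOf E with hZ0
  haveI : Fintype (E ⧸ Z0) := Fintype.ofFinite _
  let r : E ⧸ Z0 → G := fun c => ((c.out : E) : G)
  have hrE : ∀ c, r c ∈ E := fun c => (c.out : E).2
  let L := ρ.linHom ρ
  let b : E ⧸ Z0 → Module.End ℂ (Fin n → ℂ) := fun c => ρ (r c)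
  set W : Submodule ℂ (Module.End ℂ (Fin n → ℂ)) := Submodule.span ℂ (Set.range b)
  have hrep : ∀ e : E, ∃ z ∈ Subgroup.center G, (e : G) = r (QuotientGroup.mk e) * z := by
    intro e
    obtain ⟨z, hz⟩ := QuotientGroup.mk_out_eq_mul Z0 e
    have hzc : ((z : E) : G) ∈ Subgroup.center G := Subgroup.mem_subgroupOf.mp z.2
    refine ⟨((z : E) : G)⁻¹, (Subgroup.center G).inv_mem hzc, ?_⟩
    change (e : G) = ((QuotientGroup.mk e : E ⧸ Z0).out : E) * _
    rw [hz, Subgroup.coe_mul, mul_inv_cancel_right]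
  have hEW : ∀ e ∈ E, ρ e ∈ W := by
    intro e he
    obtain ⟨z, hz, hez⟩ := hrep ⟨e, he⟩
    obtain ⟨s, hs⟩ := central_scalar ρ hρ hz
    change e = r _ * z at hez
    rw [hez, map_mul, hs, Algebra.mul_smul_comm, mul_one]
    exact W.smul_mem _ (Submodule.subset_span ⟨_, rfl⟩)
  have hLapply : ∀ (g : G) (A : Module.End ℂ (Fin n → ℂ)), L g A = ρ g * A * ρ g⁻¹ := fun g A => by
    refine LinearMap.ext fun v => ?_
    simp [L, Representation.linHom_apply]
  have hW : ∀ g : G, ∀ v ∈ W, L g v ∈ W := by
    intro g v hv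
    induction hv using Submodule.span_induction with
    | mem x hx =>
      obtain ⟨c, rfl⟩ := hx
      rw [hLapply, ← map_mul, ← map_mul]
      exact hEW _ ((inferInstance : E.Normal).conj_mem _ (hrE c) g)
    | zero => simp
    | add x y _ _ hx hy => rw [map_add]; exact W.add_mem hx hy
    | smul a x _ hx => rw [map_smul]; exact W.smul_mem a hx
  let φ : E ⧸ Z0 → Module.End ℂ (Fin n → ℂ) →ₗ[ℂ] ℂ := fun c =>
    (n : ℂ)⁻¹ • ((LinearMap.trace ℂ (Fin n → ℂ)).comp (LinearMap.mulRight ℂ (ρ (r c)⁻¹)))
  have hφ : ∀ c (g : G), φ c (ρ g) = (n : ℂ)⁻¹ * (χ : G → ℂ) (g * (r c)⁻¹) := fun c g => by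
    simp only [φ, LinearMap.smul_apply, LinearMap.comp_apply, LinearMap.mulRight_apply, smul_eq_mul,
      ← map_mul, ← hc]
    rfl
  have hdelta : ∀ c d, φ c (b d) = if d = c then 1 else 0 := by
    intro c d
    rw [hφ]
    split_ifs with h
    · subst h; rw [mul_inv_cancel, hn1, inv_mul_cancel₀ hn]
    · rw [hvan _ (E.mul_mem (hrE d) (E.inv_mem (hrE c))), mul_zero]
      intro hmem
      refine h ?_
      rw [← QuotientGroup.out_eq' d, ← QuotientGroup.out_eq' c]
      refine QuotientGroup.eq.mpr (Subgroup.mem_subgroupOf.mpr ?_)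
      have h' := (Subgroup.center G).inv_mem hmem
      rw [mul_inv_rev, inv_inv] at h'
      change (r d)⁻¹ * r c ∈ Subgroup.center G
      have e : (r d)⁻¹ * r c = r c * (r d)⁻¹ := by
        calc (r d)⁻¹ * r c = (r d)⁻¹ * (r c * (r d)⁻¹) * r d := by group
          _ = r c * (r d)⁻¹ := by
            rw [Subgroup.mem_center_iff.mp h', inv_mul_cancel_right]
      rw [e]; exact h'
  have hli : LinearIndependent ℂ b := by
    rw [Fintype.linearIndependent_iff]
    intro g hg c
    have := congrArg (φ c) hg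
    simpa [map_sum, hdelta, Finset.sum_ite_eq'] using this
  let B : Module.Basis (E ⧸ Z0) ℂ W := Module.Basis.span hli
  have hB : ∀ c, ((B c : W) : Module.End ℂ (Fin n → ℂ)) = b c :=
    fun c => Module.Basis.coe_span_apply hli c
  have hrepr : ∀ (w : W) c, B.repr w c = φ c (w : Module.End ℂ (Fin n → ℂ)) := by
    intro w c
    conv_rhs => rw [← B.sum_repr w]
    simp only [AddSubmonoidClass.coe_finset_sum, SetLike.val_smul, map_sum, map_smul, hB, hdelta,
      smul_eq_mul, mul_ite, mul_one, mul_zero, Finset.sum_ite_eq', Finset.mem_univ, if_true]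
  set M : G → ℂ := Representation.character (k := ℂ) (V := W) (subRep L W hW) with hMdef
  have hM : IsCharacter G M := isCharacter_character _
  have hMval : ∀ g, M g = ∑ c, (n : ℂ)⁻¹ * (χ : G → ℂ) (g * r c * g⁻¹ * (r c)⁻¹) := by
    intro g
    rw [hMdef, Representation.character, LinearMap.trace_eq_matrix_trace ℂ B, Matrix.trace]
    refine Finset.sum_congr rfl fun c _ => ?_
    rw [Matrix.diag_apply, LinearMap.toMatrix_apply, hrepr, subRep_apply, hB, hLapply, ← map_mul,
      ← map_mul, hφ]
  have hMk : ∀ g, M (g ^ k) = M g := by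
    intro g
    rw [hMval, hMval]
    haveI : Z0.Normal := (inferInstance : (Subgroup.center G).Normal).subgroupOf E
    have hcop : (Nat.card (E ⧸ Z0)).Coprime k :=
      (hk.coprime_dvd_right ((Subgroup.card_quotient_dvd_card Z0).trans (Subgroup.card_subgroup_dvd_card E))).symm
    refine Fintype.sum_equiv (powCoprime hcop) _ _ fun c => ?_
    congr 1
    set c' := powCoprime hcop c
    obtain ⟨z, hz, hcz⟩ := hrep ((c.out : E) ^ k)
    have hc' : QuotientGroup.mk ((c.out : E) ^ k) = c' := by
      change _ = c ^ k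
      rw [QuotientGroup.mk_pow, QuotientGroup.out_eq']
    rw [hc', Subgroup.coe_pow] at hcz
    change r c ^ k = r c' * z at hcz
    have hind : g * r c' * g⁻¹ * (r c')⁻¹ = g * r c ^ k * g⁻¹ * (r c ^ k)⁻¹ := by
      rw [hcz, mul_inv_rev, show g * (r c' * z) * g⁻¹ = g * r c' * (z * g⁻¹) by group,
        ← Subgroup.mem_center_iff.mp hz g⁻¹]
      group
    rw [hind]
    by_cases hcen : g * r c * g⁻¹ * (r c)⁻¹ ∈ Subgroup.center G
    · rw [comm_pow_left hcen, comm_pow_right hcen]
    · have hEm : ∀ x : G, ∀ y ∈ E, x * y * x⁻¹ * y⁻¹ ∈ E := fun x y hy =>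
        E.mul_mem ((inferInstance : E.Normal).conj_mem y hy x) (E.inv_mem hy)
      rw [hvan _ (hEm _ _ (hrE c)), hvan _ (hEm _ _ (E.pow_mem (hrE c) k))]
      · intro h
        obtain ⟨j, hj⟩ := mem_center_of_pow (g := r c) hk
        have := comm_pow_right h j
        rw [hj] at this
        exact hcen (this ▸ (Subgroup.center G).pow_mem h j)
      · intro h
        obtain ⟨j, hj⟩ := mem_center_of_pow (g := g) hk
        have := comm_pow_left h j
        rw [hj] at this
        exact hcen (this ▸ (Subgroup.center G).pow_mem h j)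
  have hR : IsCharacter G (fun g => (χ : G → ℂ) g * conj ((χ : G → ℂ) g) - M g) := by
    haveI := neZero_natCard G
    haveI : Representation.IsSemisimpleRepresentation L := inferInstance
    obtain ⟨C, hC⟩ := exists_isCompl (⟨W, fun g v hv => hW g v hv⟩ : Subrepresentation L)
    have hc' : IsCompl W C.toSubmodule := by
      constructor
      · rw [disjoint_iff]
        exact congrArg Subrepresentation.toSubmodule hC.inf_eq_bot
      · rw [codisjoint_iff]
        exact congrArg Subrepresentation.toSubmodule hC.sup_eq_top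
    have hW' : ∀ g : G, ∀ v ∈ C.toSubmodule, L g v ∈ C.toSubmodule :=
      fun g v hv => C.apply_mem_toSubmodule g hv
    have h := character_eq_add_of_isCompl L W C.toSubmodule hW hW' hc'
    have e : (fun g => (χ : G → ℂ) g * conj ((χ : G → ℂ) g) - M g) =
        Representation.character (k := ℂ) (V := C.toSubmodule) (subRep L C.toSubmodule hW') := by
      funext g
      have hg := congrFun h g
      rw [Pi.add_apply, Representation.char_linHom, hc, IsCharacter.map_inv (isCharacter_irr χ)] at hg
      rw [mul_comm, hg]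
      simp [hMdef]
    rw [e]
    exact isCharacter_character _
  have h := no_rational_piece hk χ hirr hM hMk hR
  have hdeg : charDegree M = Nat.card (E ⧸ Z0) := by
    have h1 := IsCharacter.apply_one hM
    rw [hMval] at h1
    simp only [one_mul, inv_one, mul_one, mul_inv_cancel, hn1, inv_mul_cancel₀ hn, Finset.sum_const,
      Finset.card_univ, nsmul_eq_mul] at h1
    rw [Nat.card_eq_fintype_card]
    exact_mod_cast h1.symm
  intro e he
  have h2 : Z0.index ≤ 1 := by
    change Nat.card (E ⧸ Z0) ≤ 1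
    omega
  have h3 : Z0 = ⊤ := Subgroup.index_eq_one.mp (le_antisymm h2 (Nat.pos_of_ne_zero Z0.index_ne_zero_of_finite))
  exact Subgroup.subgroupOf_eq_top.mp h3 he

/-- Let G be a finite group with a faithful irreducible character χ (taking the value χ(1) only at the identity) and let k be prime to the order of G, so that g ↦ χ(g^k) is a Galois conjugate of χ. If the pointwise product g ↦ χ(g)·χ(g^k) is again an irreducible character, then the Fitting subgroup of G equals its centre. -/
theorem result {G : Type*} [Group G] [Finite G] (χ : Cfsg.IrrCharacter G) (hfaith : ∀ g : G, (χ : G → ℂ) g = (χ : G → ℂ) 1 → g = 1) (k : ℕ) (hk : Nat.Coprime k (Nat.card G)) (hirr : Cfsg.IsIrrCharacter G (fun g => (χ : G → ℂ) g * (χ : G → ℂ) (g ^ k))) : Cfsg.fittingSubgroup G = Subgroup.center G := by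
  classical
  haveI := Fintype.ofFinite G
  refine le_antisymm ?_ ?_
  · rw [fittingSubgroup_eq_iSup_pCore]
    refine iSup_le fun ⟨p, hp⟩ => ?_
    haveI := Fact.mk hp
    set P := pCore p G
    haveI hPn : P.Normal := inferInstance
    have hPnil : Group.IsNilpotent P := IsPGroup.isNilpotent (isPGroup_pCore p)
    set E := (Subgroup.upperCentralSeries ↥P 2).map P.subtype
    haveI : E.Normal := inferInstance
    have hcen : ∀ z ∈ Subgroup.center ↥P, (z : G) ∈ Subgroup.center G := fun z hz => by
      haveI : ((Subgroup.center ↥P).map P.subtype).Normal := inferInstance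
      refine mem_center_of_abelian hk χ hfaith hirr ((Subgroup.center ↥P).map P.subtype) ?_ ⟨z, hz, rfl⟩
      rintro _ ⟨a, ha, rfl⟩ _ ⟨b, hb, rfl⟩
      exact congrArg Subtype.val (Subgroup.mem_center_iff.mp hb a)
    have hE2 : ∀ e ∈ E, ∀ f ∈ E, e * f * e⁻¹ * f⁻¹ ∈ Subgroup.center G := by
      rintro _ ⟨a, ha, rfl⟩ _ ⟨b, hb, rfl⟩
      refine hcen (a * b * a⁻¹ * b⁻¹) ?_
      rw [← Subgroup.upperCentralSeries_one]
      exact Subgroup.mem_upperCentralSeries_succ_iff.mp ha b
    have hZE : ∀ e ∈ E, (∀ f ∈ E, e * f = f * e) → e ∈ Subgroup.center G := by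
      intro e he hcomm
      haveI : (((Subgroup.center ↥(Subgroup.upperCentralSeries ↥P 2)).map
        (Subgroup.upperCentralSeries ↥P 2).subtype).map P.subtype).Normal := inferInstance
      obtain ⟨a, ha, rfl⟩ := he
      refine mem_center_of_abelian hk χ hfaith hirr (((Subgroup.center ↥(Subgroup.upperCentralSeries ↥P 2)).map
        (Subgroup.upperCentralSeries ↥P 2).subtype).map P.subtype) ?_
        ⟨a, ⟨⟨a, ha⟩, Subgroup.mem_center_iff.mpr fun b => ?_, rfl⟩, rfl⟩
      · rintro _ ⟨_, ⟨a, ha, rfl⟩, rfl⟩ _ ⟨_, ⟨b, hb, rfl⟩, rfl⟩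
        exact congrArg (fun x : ↥(Subgroup.upperCentralSeries ↥P 2) => ((x : ↥P) : G))
          (Subgroup.mem_center_iff.mp hb a)
      · exact Subtype.ext (Subtype.ext (hcomm _ ⟨b, b.2, rfl⟩).symm)
    have hEc := class_two_central hk χ hfaith hirr E hE2 hZE
    have hstab : Subgroup.upperCentralSeries ↥P 2 ≤ Subgroup.upperCentralSeries ↥P 1 := by
      intro a ha
      rw [Subgroup.upperCentralSeries_one, Subgroup.mem_center_iff]
      intro b
      exact Subtype.ext (Subgroup.mem_center_iff.mp (hEc ⟨a, ha, rfl⟩) (b : G))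
    have hall : ∀ m, Subgroup.upperCentralSeries ↥P m ≤ Subgroup.upperCentralSeries ↥P 1 := by
      intro m
      induction m with
      | zero => exact Subgroup.upperCentralSeries_mono _ (Nat.zero_le 1)
      | succ m ihm =>
        intro a ha
        refine hstab (Subgroup.mem_upperCentralSeries_succ_iff.mpr fun y => ihm ?_)
        exact Subgroup.mem_upperCentralSeries_succ_iff.mp ha y
    intro x hx
    obtain ⟨m, hm⟩ := hPnil.nilpotent
    have h1 : (⟨x, hx⟩ : ↥P) ∈ Subgroup.center ↥P := by
      rw [← Subgroup.upperCentralSeries_one]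
      exact hall m (hm ▸ Subgroup.mem_top _)
    exact hcen _ h1
  · refine le_fittingSubgroup inferInstance ?_
    letI : CommGroup ↥(Subgroup.center G) :=
      { (inferInstance : Group ↥(Subgroup.center G)) with
        mul_comm := fun a b => Subtype.ext (Subgroup.mem_center_iff.mp b.2 (a : G)) }
    exact CommGroup.isNilpotent

end Cfsg.Agent.S4843
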