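import Cfsg.Statements.S4866
import Cfsg.Agent.Lib.Chars.Clifford
import Cfsg.Agent.Lib.Chars.Linear
import Mathlib.GroupTheory.GroupAction.Quotient

set_option autoImplicit false
open Cfsg

namespace Cfsg.Agent.S4866

set_option linter.style.haveILetI false
open CfsgLib.Chars

universe v

variable {G : Type v} [Group G] [Finite G] (K : Subgroup G) [K.Normal]

/-- A point fixed by `a ^ 2` and by an odd power of `a` is fixed by `a`. -/
theorem fixed_of_sq {X : Type*} [MulAction G X] {a : G} {m : ℕ} (hm : Odd m) {x : X}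
    (h2 : a ^ 2 • x = x) (hx : a ^ m • x = x) : a • x = x := by
  obtain ⟨j, rfl⟩ := hm
  have h3 : (a ^ 2) ^ (j + 1) ∈ MulAction.stabilizer G x :=
    (MulAction.stabilizer G x).pow_mem h2 _
  have h4 : a ^ (2 * j + 1) • x = x := hx
  calc a • x = a • (a ^ (2 * j + 1) • x) := by rw [h4]
    _ = (a ^ 2) ^ (j + 1) • x := by rw [← mul_smul, ← pow_succ', ← pow_mul]; congr 2
    _ = x := h3

/-- The action on characters. -/
@[reducible] noncomputable def irrAction : MulAction G (IrrCharacter K) where
  smul a θ := conjIrr K θ a⁻¹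
  one_smul θ := show conjIrr K θ 1⁻¹ = θ by rw [inv_one, conjIrr_one]
  mul_smul a b θ := show conjIrr K θ (a * b)⁻¹ = conjIrr K (conjIrr K θ b⁻¹) a⁻¹ by
    rw [mul_inv_rev, conjIrr_mul]

/-- The action on classes. -/
@[reducible] noncomputable def classAction : MulAction G (ConjClasses K) where
  smul a := ConjClasses.map (conjN K a).toMonoidHom
  one_smul C := by
    obtain ⟨k, rfl⟩ := ConjClasses.mk_surjective C
    show ConjClasses.mk (conjN K 1 k) = _
    rw [conjN_one]
  mul_smul a b C := by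
    obtain ⟨k, rfl⟩ := ConjClasses.mk_surjective C
    show ConjClasses.mk (conjN K (a * b) k) = ConjClasses.mk (conjN K a (conjN K b k))
    rw [conjN_mul]

theorem card_fixed_real (hodd : Odd K.index) (a : G) :
    Nat.card {θ : IrrCharacter K // (∀ k : K, ((θ : K → ℂ) k).im = 0) ∧ conjIrr K θ a⁻¹ = θ} =
      Nat.card {C : ConjClasses K // (∀ k, ConjClasses.mk k = C → IsConj k k⁻¹) ∧
        ∀ k, ConjClasses.mk k = C → ConjClasses.mk (conjN K a k) = C} := by
  letI := irrAction K
  letI := classAction K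
  have hK : a ^ K.index ∈ K := K.pow_index_mem a
  have hKθ : ∀ (u : G) (θ : IrrCharacter K), u ∈ K → conjIrr K θ u = θ := fun u θ hu =>
    Subtype.ext (funext fun n => (conjIrr_apply' K θ u n).trans
      (IsCharacter.isClassFunction (isCharacter_irr θ) n ⟨u, hu⟩))
  have hKC : ∀ (u : G) (k : K), u ∈ K → ConjClasses.mk (conjN K u k) = ConjClasses.mk k := fun u k hu =>
    ConjClasses.mk_eq_mk_iff_isConj.mpr (isConj_iff.mpr ⟨⟨u, hu⟩, Subtype.ext (by
      rw [conjN_coe]; rfl)⟩).symm
  let bar : IrrCharacter K → IrrCharacter K := fun θ => ⟨_, isIrrCharacter_conj θ⟩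
  have hbb : ∀ θ, bar (bar θ) = θ := fun θ => Subtype.ext (funext fun k => Complex.conj_conj _)
  have hbc : ∀ θ b, bar (conjIrr K θ b) = conjIrr K (bar θ) b := fun θ b => Subtype.ext rfl
  let e : IrrCharacter K ≃ IrrCharacter K :=
    { toFun := fun θ => bar (conjIrr K θ a⁻¹)
      invFun := fun θ => bar (conjIrr K θ a)
      left_inv := fun θ => by
        show bar (conjIrr K (bar (conjIrr K θ a⁻¹)) a) = θ
        rw [← hbc, hbb, ← conjIrr_mul, inv_mul_cancel, conjIrr_one]
      right_inv := fun θ => by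
        show bar (conjIrr K (bar (conjIrr K θ a)) a⁻¹) = θ
        rw [← hbc, hbb, ← conjIrr_mul, mul_inv_cancel, conjIrr_one] }
  have hperm := brauer_permutation e ((conjN K a).toEquiv.trans (Equiv.inv K)) (fun x y hxy => by
      obtain ⟨c, rfl⟩ := isConj_iff.1 hxy
      exact isConj_iff.2 ⟨conjN K a c, by
        show conjN K a c * (conjN K a x)⁻¹ * (conjN K a c)⁻¹ = (conjN K a (c * x * c⁻¹))⁻¹
        rw [map_mul, map_mul, map_inv]; group⟩)
    (fun θ k => by
      show (starRingEnd ℂ) ((θ : K → ℂ) (conjN K a⁻¹ (conjN K a k)⁻¹)) = _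
      rw [map_inv, conjN_mul, inv_mul_cancel, conjN_one, IsCharacter.map_inv (isCharacter_irr θ), Complex.conj_conj])
  have hL : ∀ θ : IrrCharacter K, e θ = θ ↔ (∀ k : K, ((θ : K → ℂ) k).im = 0) ∧ conjIrr K θ a⁻¹ = θ := by
    intro θ
    have hreal : bar θ = θ ↔ ∀ k : K, ((θ : K → ℂ) k).im = 0 :=
      ⟨fun h g => Complex.conj_eq_iff_im.1 (congrFun (congrArg Subtype.val h) g),
        fun h => Subtype.ext (funext fun g => Complex.conj_eq_iff_im.2 (h g))⟩
    constructor
    · intro h
      have h1 : a • θ = bar θ := by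
        have := congrArg bar (show bar (conjIrr K θ a⁻¹) = θ from h)
        rwa [hbb] at this
      have h2 : a ^ 2 • θ = θ := by
        rw [pow_two, mul_smul, h1]
        show conjIrr K (bar θ) a⁻¹ = θ
        rw [← hbc]; exact h
      have h3 : a • θ = θ := fixed_of_sq hodd h2 (hKθ _ θ (K.inv_mem hK))
      exact ⟨hreal.mp (h1.symm.trans h3), h3⟩
    · rintro ⟨h1, h2⟩
      show bar (conjIrr K θ a⁻¹) = θ
      rw [h2]; exact hreal.mpr h1
  have hinv : ∀ x y : K, ConjClasses.mk x = ConjClasses.mk y → ConjClasses.mk x⁻¹ = ConjClasses.mk y⁻¹ := by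
    intro x y hxy
    obtain ⟨u, hu⟩ := isConj_iff.mp (ConjClasses.mk_eq_mk_iff_isConj.mp hxy)
    exact ConjClasses.mk_eq_mk_iff_isConj.mpr (isConj_iff.mpr ⟨u, by rw [← hu]; group⟩)
  have hR : ∀ C : ConjClasses K, (∀ g, ConjClasses.mk g = C →
      ConjClasses.mk (((conjN K a).toEquiv.trans (Equiv.inv K)) g) = C) ↔
      (∀ k, ConjClasses.mk k = C → IsConj k k⁻¹) ∧ ∀ k, ConjClasses.mk k = C → ConjClasses.mk (conjN K a k) = C := by
    intro C
    constructor
    · intro h
      have key : ∀ k, ConjClasses.mk k = C → ConjClasses.mk k = ConjClasses.mk k⁻¹ ∧ ConjClasses.mk (conjN K a k) = C := by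
        intro k hk
        have h1 : ConjClasses.mk (conjN K a k)⁻¹ = C := h k hk
        have h2 : ConjClasses.mk (conjN K a k) = ConjClasses.mk k⁻¹ := by
          have := hinv _ _ (h1.trans hk.symm)
          rwa [inv_inv] at this
        have h4 : ConjClasses.mk (conjN K a k⁻¹) = ConjClasses.mk k := by
          rw [map_inv]; exact h1.trans hk.symm
        have h3 : a • ConjClasses.mk k = ConjClasses.mk k := by
          refine fixed_of_sq hodd ?_ ?_
          · rw [pow_two, mul_smul]
            show a • ConjClasses.mk (conjN K a k) = _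
            rw [h2]
            exact h4
          · exact hKC _ k hK
        exact ⟨(show ConjClasses.mk k = ConjClasses.mk (conjN K a k) from h3.symm).trans h2, h3.trans hk⟩
      exact ⟨fun k hk => ConjClasses.mk_eq_mk_iff_isConj.mp (key k hk).1, fun k hk => (key k hk).2⟩
    · rintro ⟨h1, h2⟩ k hk
      show ConjClasses.mk (conjN K a k)⁻¹ = C
      rw [← hk, hinv _ _ ((h2 k hk).trans hk.symm)]
      exact (ConjClasses.mk_eq_mk_iff_isConj.mpr (h1 k hk)).symm
  exact ((Nat.card_congr (Equiv.subtypeEquivRight hL)).symm.trans hperm).trans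
    (Nat.card_congr (Equiv.subtypeEquivRight hR))

/-- Let K be a normal subgroup of odd index in the finite group G. Then G has as many orbits on the real-valued irreducible complex characters of K (acting by conjugation) as it has orbits on the conjugacy classes of K that are real in K; equivalently, the number of G-orbits of real-valued irreducible characters of K equals the number of G-conjugacy classes of elements of K that are conjugate in K to their inverses. -/
theorem result {G : Type*} [Group G] [Finite G] (K : Subgroup G) [K.Normal] (hodd : Odd K.index) : Nat.card (Quot (fun θ η : {θ : Cfsg.IrrCharacter ↥K // (∀ k : ↥K, ((θ : ↥K → ℂ) k).im = 0)} => ∃ g : G, ∀ k k' : ↥K, (k' : G) = g * (k : G) * g⁻¹ → (η.1 : ↥K → ℂ) k' = (θ.1 : ↥K → ℂ) k)) = Nat.card (Quot (fun x y : {x : ↥K // IsConj x x⁻¹} => ∃ g : G, (y.1 : G) = g * x.1 * g⁻¹)) := by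
  classical
  letI := irrAction K
  letI := classAction K
  haveI : Finite (IrrCharacter K) := finite_irr K
  haveI : Finite (ConjClasses K) := Finite.of_surjective _ ConjClasses.mk_surjective
  haveI := Fintype.ofFinite G
  -- the two invariant subsets
  have hθmem : ∀ (a : G) (θ : IrrCharacter K), (∀ k : K, ((θ : K → ℂ) k).im = 0) →
      ∀ k : K, ((a • θ : IrrCharacter K).1 k).im = 0 := fun a θ h k => h _
  have hisinv : ∀ {x y : K}, IsConj x y → IsConj x⁻¹ y⁻¹ := fun {x y} h => by
    obtain ⟨u, hu⟩ := isConj_iff.mp h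
    exact isConj_iff.mpr ⟨u, by rw [← hu]; group⟩
  have hrealcls : ∀ (a : G) (x : K), IsConj x x⁻¹ → IsConj (conjN K a x) (conjN K a x)⁻¹ := fun a x h => by
    rw [← map_inv]; exact (conjN K a).toMonoidHom.map_isConj h
  have hCmem : ∀ (a : G) (C : ConjClasses K), (∀ k, ConjClasses.mk k = C → IsConj k k⁻¹) →
      ∀ k, ConjClasses.mk k = a • C → IsConj k k⁻¹ := by
    intro a C h k hk
    obtain ⟨j, rfl⟩ := ConjClasses.mk_surjective C
    have h1 : IsConj k (conjN K a j) := ConjClasses.mk_eq_mk_iff_isConj.mp hk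
    exact (h1.trans (hrealcls a j (h j rfl))).trans (hisinv h1).symm
  let Θ := {θ : IrrCharacter K // ∀ k : K, ((θ : K → ℂ) k).im = 0}
  let Γ := {C : ConjClasses K // ∀ k, ConjClasses.mk k = C → IsConj k k⁻¹}
  letI aΘ : MulAction G Θ :=
    { smul := fun a θ => ⟨a • θ.1, hθmem a θ.1 θ.2⟩
      one_smul := fun θ => Subtype.ext (one_smul G θ.1)
      mul_smul := fun a b θ => Subtype.ext (mul_smul a b θ.1) }
  letI aΓ : MulAction G Γ :=
    { smul := fun a C => ⟨a • C.1, hCmem a C.1 C.2⟩
      one_smul := fun C => Subtype.ext (one_smul G C.1)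
      mul_smul := fun a b C => Subtype.ext (mul_smul a b C.1) }
  haveI : Fintype Θ := Fintype.ofFinite _
  haveI : Fintype Γ := Fintype.ofFinite _
  have horb : Nat.card (Quotient (MulAction.orbitRel G Θ)) = Nat.card (Quotient (MulAction.orbitRel G Γ)) := by
    have h1 := MulAction.sum_card_fixedBy_eq_card_orbits_mul_card_group G Θ
    have h2 := MulAction.sum_card_fixedBy_eq_card_orbits_mul_card_group G Γ
    rw [Nat.card_eq_fintype_card, Nat.card_eq_fintype_card]
    refine Nat.eq_of_mul_eq_mul_right Fintype.card_pos (h1.symm.trans (Eq.trans ?_ h2))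
    refine Finset.sum_congr rfl fun a _ => ?_
    rw [← Nat.card_eq_fintype_card, ← Nat.card_eq_fintype_card]
    refine Eq.trans ?_ (Eq.trans (card_fixed_real K hodd a) ?_)
    · refine Nat.card_congr
        { toFun := fun θ => ⟨θ.1.1, θ.1.2, congrArg Subtype.val θ.2⟩
          invFun := fun θ => ⟨⟨θ.1, θ.2.1⟩, Subtype.ext θ.2.2⟩
          left_inv := fun θ => rfl
          right_inv := fun θ => rfl }
    · refine Nat.card_congr
        { toFun := fun C => ⟨⟨C.1, C.2.1⟩, Subtype.ext ?_⟩
          invFun := fun C => ⟨C.1.1, C.1.2, ?_⟩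
          left_inv := fun C => rfl
          right_inv := fun C => rfl }
      · obtain ⟨C, hC, hf⟩ := C
        obtain ⟨k, rfl⟩ := ConjClasses.mk_surjective C
        exact hf k rfl
      · intro k hk
        have h3 : a • C.1.1 = C.1.1 := congrArg Subtype.val C.2
        rw [← hk] at h3 ⊢
        exact h3
  refine Eq.trans ?_ (horb.trans ?_)
  · refine Nat.card_congr (Quot.congrRight fun θ η => ?_)
    rw [MulAction.orbitRel_apply, MulAction.mem_orbit_iff]
    constructor
    · rintro ⟨g, hg⟩
      refine ⟨g⁻¹, Subtype.ext (Subtype.ext (funext fun k => ?_))⟩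
      show (conjIrr K η.1 g⁻¹⁻¹ : K → ℂ) k = (θ.1 : K → ℂ) k
      rw [inv_inv, conjIrr_apply]
      exact hg k _ (conjN_coe K g k)
    · rintro ⟨g, hg⟩
      refine ⟨g⁻¹, fun k k' hk => ?_⟩
      have h := congrFun (congrArg (fun t : Θ => (t.1 : K → ℂ)) hg) k
      rw [← show conjN K g⁻¹ k = k' from Subtype.ext ((conjN_coe K g⁻¹ k).trans hk.symm)]
      exact h
  · -- classes versus elements
    let F : {x : K // IsConj x x⁻¹} → Γ := fun x => ⟨ConjClasses.mk x.1, fun k hk =>
      ((ConjClasses.mk_eq_mk_iff_isConj.mp hk).trans x.2).trans (hisinv (ConjClasses.mk_eq_mk_iff_isConj.mp hk)).symm⟩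
    symm
    refine Nat.card_congr (Equiv.ofBijective (Quot.lift (fun x => Quotient.mk (MulAction.orbitRel G Γ) (F x)) ?_) ⟨?_, ?_⟩)
    · rintro x y ⟨g, hg⟩
      refine Quotient.sound ((MulAction.mem_orbit_iff).mpr ⟨g⁻¹, Subtype.ext ?_⟩)
      show ConjClasses.mk (conjN K g⁻¹ y.1) = ConjClasses.mk x.1
      congr 1
      refine Subtype.ext ?_
      rw [conjN_coe, hg]
      group
    · intro s t
      obtain ⟨x, rfl⟩ := Quot.exists_rep s
      obtain ⟨y, rfl⟩ := Quot.exists_rep t
      intro h
      obtain ⟨g, hg⟩ := MulAction.mem_orbit_iff.mp (Quotient.exact (show Quotient.mk (MulAction.orbitRel G Γ) (F x) =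
        Quotient.mk (MulAction.orbitRel G Γ) (F y) from h))
      obtain ⟨u, hu⟩ := isConj_iff.mp (ConjClasses.mk_eq_mk_iff_isConj.mp
        (show ConjClasses.mk (conjN K g y.1) = ConjClasses.mk x.1 from congrArg Subtype.val hg))
      refine Quot.sound ⟨((u : G) * g)⁻¹, ?_⟩
      rw [← hu]
      simp only [Subgroup.coe_mul, Subgroup.coe_inv, conjN_coe]
      group
    · intro q
      obtain ⟨C, rfl⟩ := Quotient.exists_rep q
      obtain ⟨k, hk⟩ := ConjClasses.mk_surjective C.1
      exact ⟨Quot.mk _ ⟨k, C.2 k hk⟩, congrArg _ (Subtype.ext hk)⟩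

end Cfsg.Agent.S4866
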