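import Cfsg.Statements.S4870
import Cfsg.Agent.Lib.CliffordCorr
import Cfsg.Agent.Lib.CharExtend

set_option autoImplicit false
open Cfsg

namespace Cfsg.Agent.S4870

open CfsgLib.Chars
open scoped ComplexConjugate

/-- At most `|G : I|` linear characters are trivial on `I`. -/
theorem card_hom_trivial_le {G : Type*} [Group G] [Finite G] (I : Subgroup G) :
    Nat.card {h : G →* ℂˣ // ∀ i ∈ I, h i = 1} ≤ I.index := by
  classical
  haveI : Fintype (G ⧸ I) := Fintype.ofFinite _
  let v : {h : G →* ℂˣ // ∀ i ∈ I, h i = 1} → (G ⧸ I → ℂ) := fun h => Quotient.lift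
    (fun g : G => ((h.1 g : ℂˣ) : ℂ)) (fun a b hab => by
      have e := h.2 _ (QuotientGroup.leftRel_apply.mp hab)
      rw [map_mul, map_inv, inv_mul_eq_one] at e
      show ((h.1 a : ℂˣ) : ℂ) = _
      rw [e])
  let L : (G ⧸ I → ℂ) →ₗ[ℂ] (G → ℂ) := LinearMap.funLeft ℂ ℂ QuotientGroup.mk
  have hinj : Function.Injective
      (fun h : {h : G →* ℂˣ // ∀ i ∈ I, h i = 1} => ((Units.coeHom ℂ).comp h.1 : G →* ℂ)) :=
    fun a b hab => Subtype.ext (MonoidHom.ext fun g => Units.ext (DFunLike.congr_fun hab g))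
  have hli : LinearIndependent ℂ v := by
    refine LinearIndependent.of_comp L ?_
    have e : (L ∘ v) = (fun f : G →* ℂ => (f : G → ℂ)) ∘
        (fun h : {h : G →* ℂˣ // ∀ i ∈ I, h i = 1} => ((Units.coeHom ℂ).comp h.1 : G →* ℂ)) := rfl
    rw [e]
    exact (linearIndependent_monoidHom G ℂ).comp _ hinj
  haveI : Finite {h : G →* ℂˣ // ∀ i ∈ I, h i = 1} := hli.finite
  haveI : Fintype {h : G →* ℂˣ // ∀ i ∈ I, h i = 1} := Fintype.ofFinite _
  have := hli.fintype_card_le_finrank
  rwa [Module.finrank_pi, ← Nat.card_eq_fintype_card, ← Nat.card_eq_fintype_card] at this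

/-- Let G be a finite group with a non-abelian minimal normal subgroup N, and let φ be an irreducible complex character of N with stabilizer I in G (the elements g with φ(g n g⁻¹) = φ(n) for all n ∈ N) such that φ extends to an irreducible character of I. Put d = φ(1)·[G : I]. Then the number of linear characters of G is at most [G : I] times the number of irreducible characters of G of degree d. -/
theorem result {G : Type*} [Group G] [Finite G] (N : Subgroup G) (hN : N.Normal) (hN1 : N ≠ ⊥) (hmin : ∀ M : Subgroup G, M.Normal → M ≤ N → M = ⊥ ∨ M = N) (hna : ¬ IsMulCommutative ↥N) (φ : Cfsg.IrrCharacter ↥N) (I : Subgroup G) (hI : ∀ g : G, g ∈ I ↔ ∀ n n' : ↥N, (n' : G) = g * (n : G) * g⁻¹ → (φ : ↥N → ℂ) n' = (φ : ↥N → ℂ) n) (hNI : N ≤ I) (hext : ∃ ψ : Cfsg.IrrCharacter ↥I, ∀ n : ↥N, (ψ : ↥I → ℂ) (Subgroup.inclusion hNI n) = (φ : ↥N → ℂ) n) : Nat.card {χ : Cfsg.IrrCharacter G // Cfsg.charDegree (χ : G → ℂ) = 1} ≤ I.index * Nat.card {χ : Cfsg.IrrCharacter G // Cfsg.charDegree (χ : G → ℂ)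 = Cfsg.charDegree (φ : ↥N → ℂ) * I.index} := by
  classical
  haveI := Fintype.ofFinite G
  haveI : N.Normal := hN
  haveI : Fintype N := Fintype.ofFinite N
  haveI : Fintype I := Fintype.ofFinite I
  obtain ⟨ψ, hψ⟩ := hext
  have hmem : ∀ g, g ∈ I ↔ conjIrr N φ g = φ := by
    intro g
    rw [hI]
    constructor
    · intro h
      apply Subtype.ext
      funext n
      rw [conjIrr_apply' N φ g n]
      exact h n _ rfl
    · intro h n n' hn
      have := congrFun (congrArg Subtype.val h) n
      rw [conjIrr_apply' N φ g n] at this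
      rw [← this]
      exact congrArg (φ : N → ℂ) (Subtype.ext hn)
  -- `N` lies in the derived subgroup
  have hNG : N ≤ commutator G := by
    rcases hmin ⁅N, N⁆ inferInstance (Subgroup.commutator_le_left N N) with h | h
    · exfalso
      apply hna
      refine ⟨⟨fun a b => ?_⟩⟩
      have := Subgroup.commutator_mem_commutator a.2 b.2
      rw [h, Subgroup.mem_bot, commutatorElement_eq_one_iff_mul_comm] at this
      exact Subtype.ext this
    · rw [← h, commutator_def]
      exact Subgroup.commutator_mono le_top le_top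
  have htriv : ∀ (f : G →* ℂˣ), ∀ n ∈ N, f n = 1 := fun f n hn =>
    (Abelianization.commutator_subset_ker f) (hNG hn)
  -- the twisted extensions and their induced characters
  let tw : (G →* ℂˣ) → IrrCharacter I := fun f =>
    ⟨fun i => (f i : ℂ) * (ψ : I → ℂ) i, isIrrCharacter_hom_mul (f.comp I.subtype) ψ⟩
  have htwN : ∀ f, (fun n : N => (tw f : I → ℂ) ⟨n, hNI n.2⟩) = (φ : N → ℂ) := fun f => by
    funext n
    show (f (n : G) : ℂ) * (ψ : I → ℂ) (Subgroup.inclusion hNI n) = _
    rw [hψ n, htriv f _ n.2, Units.val_one, one_mul]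
  have htwne : ∀ f, classInner (fun n : N => (tw f : I → ℂ) ⟨n, hNI n.2⟩) (φ : N → ℂ) ≠ 0 :=
    fun f => by rw [htwN f, classInner_irr, if_pos rfl]; exact one_ne_zero
  choose χ hχ hχc using fun f => CfsgLib.CliffordCorr.exists_induced N φ hmem hNI (tw f) (htwne f)
  have hdeg : ∀ f, charDegree (χ f : G → ℂ) = charDegree (φ : N → ℂ) * I.index := fun f => by
    have h1 : (χ f : G → ℂ) 1 = (I.index : ℂ) * (φ : N → ℂ) 1 := by
      rw [← hχ f, indFun_one, ← hψ 1]
      simp [tw]
    rw [irr_apply_one, irr_apply_one, ← Nat.cast_mul, Nat.cast_inj] at h1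
    rw [h1, mul_comm]
  have hfib : ∀ f g, χ f = χ g → ∀ i : I, f i = g i := by
    intro f g hfg i
    have hc : classInner (fun n : I => (χ f : G → ℂ) n) (tw g : I → ℂ) ≠ 0 := by
      rw [hfg]; exact hχc g
    have h := (CfsgLib.CliffordCorr.clifford_corr N φ hmem hNI (tw f) (htwne f) (χ f) (hχc f)).2.2
      (tw g) hc (htwne g)
    have hval : ∀ x : I, (g x : ℂ) * (ψ : I → ℂ) x = (f x : ℂ) * (ψ : I → ℂ) x :=
      fun x => congrFun (congrArg Subtype.val h) x
    -- a point of the coset `N i` where `ψ` does not vanish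
    haveI : (N.subgroupOf I).Normal := hN.subgroupOf I
    haveI : Fintype (N.subgroupOf I) := Fintype.ofFinite _
    have hs := CfsgLib.CharExtend.sum_coset_norm (N.subgroupOf I) ψ
      (CfsgLib.CliffordCorr.subIrr N φ hNI) (fun n => by
        rw [show (ψ : I → ℂ) (n : I) = (ψ : I → ℂ) (Subgroup.inclusion hNI
          ⟨((n : I) : G), Subgroup.mem_subgroupOf.mp n.2⟩) from rfl, hψ]
        rfl) i
    obtain ⟨n, -, hn⟩ := Finset.exists_ne_zero_of_sum_ne_zero
      (hs.trans_ne (natCast_card_ne_zero _))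
    have h2 := hval ((n : I) * i)
    have h3 := (mul_right_cancel₀ (left_ne_zero_of_mul hn) h2).symm
    rw [Subgroup.coe_mul, map_mul, map_mul, htriv f _ (Subgroup.mem_subgroupOf.mp n.2),
      htriv g _ (Subgroup.mem_subgroupOf.mp n.2), one_mul, one_mul] at h3
    exact Units.ext h3
  choose lin hlin using fun L : {χ : IrrCharacter G // charDegree (χ : G → ℂ) = 1} =>
    exists_homIrr L.1 L.2
  haveI := finite_irr G
  set T := {χ : IrrCharacter G // charDegree (χ : G → ℂ) = charDegree (φ : N → ℂ) * I.index}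
  haveI : Fintype T := Fintype.ofFinite _
  haveI : Fintype {χ : IrrCharacter G // charDegree (χ : G → ℂ) = 1} := Fintype.ofFinite _
  haveI : Fintype {χ : IrrCharacter G // charDegree (χ : G → ℂ) = 1} := Fintype.ofFinite _
  rw [Nat.card_eq_fintype_card, Nat.card_eq_fintype_card, ← Finset.card_univ, ← Finset.card_univ]
  refine Finset.card_le_mul_card_image_of_maps_to
    (f := fun L => (⟨χ (lin L), hdeg _⟩ : T)) (fun L _ => Finset.mem_univ _) _ fun τ _ => ?_
  by_cases hne : ∃ L₀, (⟨χ (lin L₀), hdeg _⟩ : T) = τ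
  · obtain ⟨L₀, hL₀⟩ := hne
    refine le_trans ?_ (card_hom_trivial_le I)
    rw [← Fintype.card_subtype, ← Nat.card_eq_fintype_card]
    haveI : Finite {h : G →* ℂˣ // ∀ i ∈ I, h i = 1} := by
      haveI : Finite (G →* ℂˣ) := Finite.of_injective _ homIrr_injective
      infer_instance
    refine Nat.card_le_card_of_injective (fun L => ⟨lin L.1 * (lin L₀)⁻¹, fun i hi => ?_⟩) ?_
    · have h := hfib _ _ (congrArg Subtype.val (L.2.trans hL₀.symm)) ⟨i, hi⟩
      rw [MonoidHom.mul_apply, MonoidHom.inv_apply, h, mul_inv_cancel]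
    · intro a b hab
      have h := mul_right_cancel (congrArg Subtype.val hab)
      apply Subtype.ext
      apply Subtype.ext
      rw [← hlin a.1, ← hlin b.1, h]
  · push Not at hne
    rw [Finset.filter_false_of_mem (fun L _ => hne L)]
    simp

end Cfsg.Agent.S4870
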