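import Cfsg.Statements.S4873
import Cfsg.Agent.Lib.CharDegree
import Cfsg.Agent.Lib.CharExtra
import Cfsg.Agent.Lib.Chars.IndicatorBound
import Mathlib.Algebra.CharP.Two
import Mathlib.Data.ZMod.Basic

set_option autoImplicit false
open Cfsg

namespace Cfsg.Agent.S4873

open CfsgLib.Chars
open scoped ComplexConjugate

theorem degree_ratio_odd {G : Type*} [Group G] [Fintype G] (N : Subgroup G) [N.Normal] [Fintype N]
    (hodd : Odd N.index) (φ : IrrCharacter N) (χ : IrrCharacter G)
    (hχ : classInner (fun n : N => (χ : G → ℂ) n) (φ : N → ℂ) ≠ 0) :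
    ∃ a : ℕ, Odd (a * (orbit N φ).card) ∧
      ∀ n : N, (χ : G → ℂ) n = (a : ℂ) * ∑ ψ ∈ orbit N φ, (ψ : N → ℂ) n := by
  obtain ⟨a, -, -, hval, hdeg⟩ := clifford N χ φ hχ
  obtain ⟨T, e, hNT, -, hd, he⟩ := CfsgLib.CharDegree.exists_inertia N φ χ hχ
  refine ⟨a, ?_, hval⟩
  have h : a * (orbit N φ).card = T.index * e :=
    Nat.eq_of_mul_eq_mul_right (charDegree_pos φ) (hdeg.symm.trans hd)
  refine hodd.of_dvd_nat ?_
  rw [h, ← Subgroup.relIndex_mul_index hNT, mul_comm T.index e]
  exact mul_dvd_mul_right he _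

/-- Let N be a normal subgroup of odd index in the finite group G. Then every irreducible complex character of N with Frobenius–Schur indicator +1 lies under exactly one irreducible character of G with Frobenius–Schur indicator +1. -/
theorem result {G : Type*} [Group G] [Finite G] (N : Subgroup G) [N.Normal] (hodd : Odd N.index) (φ : Cfsg.IrrCharacter ↥N) (hφ : (Nat.card ↥N : ℂ)⁻¹ * ∑ᶠ g : ↥N, (φ : ↥N → ℂ) (g * g) = 1) : ∃! χ : Cfsg.IrrCharacter G, (Nat.card G : ℂ)⁻¹ * ∑ᶠ g : G, (χ : G → ℂ) (g * g) = 1 ∧ (∑ᶠ n : ↥N, (χ : G → ℂ) n * (starRingEnd ℂ) ((φ : ↥N → ℂ) n)) ≠ 0 := by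
  classical
  haveI := Fintype.ofFinite G
  haveI : Fintype N := Fintype.ofFinite N
  simp only [finsum_eq_sum_of_fintype] at hφ ⊢
  have hcl : ∀ χ : IrrCharacter G, (∑ n : N, (χ : G → ℂ) n * conj ((φ : N → ℂ) n)) ≠ 0 ↔
      classInner (fun n : N => (χ : G → ℂ) n) (φ : N → ℂ) ≠ 0 := fun χ => by
    rw [classInner, mul_ne_zero_iff]
    exact ⟨fun h => ⟨inv_ne_zero (natCast_card_ne_zero N), h⟩, fun h => h.2⟩
  let ν : IrrCharacter G → ℂ := fun χ => (Nat.card G : ℂ)⁻¹ * ∑ g : G, (χ : G → ℂ) (g * g)
  have hνint : ∀ χ, ∃ z : ℤ, ν χ = (z : ℂ) ∧ |z| ≤ 1 ∧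
      (z ≠ 0 → ∀ g : G, ((χ : G → ℂ) g).im = 0) := fun χ => by
    obtain ⟨z, h1, h2, h3⟩ := CfsgLib.GroupB.Indicator.indicator_cases χ
    exact ⟨z, by rw [← h1]; simp only [ν, pow_two], h2, h3⟩
  choose z hz hz1 hzreal using hνint
  -- existence
  have hind := IsCharacter.indFun N (isCharacter_irr φ)
  choose m hm using exists_mult hind
  have hm' : ∀ χ : IrrCharacter G,
      classInner (fun n : N => (χ : G → ℂ) n) (φ : N → ℂ) = (m χ : ℂ) := fun χ => by
    rw [← hm, frobenius N _ (IsCharacter.isClassFunction (isCharacter_irr χ)),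
      classInner_character_comm (IsCharacter.restrict (isCharacter_irr χ) N) (isCharacter_irr φ)]
  have htotal : ∑ χ : IrrCharacter G, (m χ : ℂ) * ν χ = 1 := by
    calc ∑ χ : IrrCharacter G, (m χ : ℂ) * ν χ
        = (Nat.card G : ℂ)⁻¹ * ∑ g : G, indFun N (φ : N → ℂ) (g * g) := by
          simp only [ν]
          conv_rhs => enter [2, 2, g]; rw [classFunction_expand (indFun_isClassFunction N _) (g * g)]
          rw [Finset.sum_comm, Finset.mul_sum]
          refine Finset.sum_congr rfl fun χ _ => ?_
          rw [hm, ← Finset.mul_sum]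
          ring
      _ = (Nat.card G : ℂ)⁻¹ * ∑ n : N, indFun N (φ : N → ℂ) ((n * n : N) : G) := by
          congr 1
          rw [← Finset.sum_subset (Finset.subset_univ
            (Finset.univ.map ⟨fun n : N => (n : G), Subtype.val_injective⟩)), Finset.sum_map]
          · rfl
          · intro g _ hg
            have hgN : g ∉ N := fun h => hg (Finset.mem_map.mpr ⟨⟨g, h⟩, Finset.mem_univ _, rfl⟩)
            have hggN : g * g ∉ N := by
              intro h
              apply hgN
              rw [← QuotientGroup.eq_one_iff]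
              have h2 : ((g : G ⧸ N)) ^ 2 = 1 := by
                rw [sq, ← QuotientGroup.mk_mul, QuotientGroup.eq_one_iff]; exact h
              have ho : orderOf (g : G ⧸ N) ∣ 2 := orderOf_dvd_of_pow_eq_one h2
              have ho2 : orderOf (g : G ⧸ N) ∣ N.index := by
                rw [Subgroup.index_eq_card]; exact orderOf_dvd_natCard _
              rcases (Nat.dvd_prime Nat.prime_two).mp ho with h1 | h1
              · exact orderOf_eq_one_iff.mp h1
              · exact absurd (even_iff_two_dvd.mpr (h1 ▸ ho2)) (Nat.not_even_iff_odd.mpr hodd)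
            simp only [indFun]
            rw [Finset.sum_eq_zero, mul_zero]
            intro x _
            rw [extendByZero, Function.extend_apply', Pi.zero_apply]
            rintro ⟨n, hn⟩
            apply hggN
            have h := (inferInstance : N.Normal).conj_mem _ n.2 x
            rw [hn] at h
            simpa [mul_assoc] using h
      _ = 1 := by
          simp only [indFun_res N]
          rw [← Finset.mul_sum, Finset.sum_comm]
          rw [Finset.sum_congr rfl (g := fun _ => (Nat.card N : ℂ)) (fun x _ => ?_),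
            Finset.sum_const, nsmul_eq_mul, Finset.card_univ, ← Nat.card_eq_fintype_card]
          · field_simp [natCast_card_ne_zero G, natCast_card_ne_zero N]
          · rw [← mul_one (Nat.card N : ℂ), ← hφ, ← mul_assoc,
              mul_inv_cancel₀ (natCast_card_ne_zero N), one_mul]
            exact Fintype.sum_equiv (conjN N x⁻¹).toEquiv _ _ fun n =>
              congrArg (φ : N → ℂ) (map_mul (conjN N x⁻¹) n n)
  obtain ⟨χ, hmχ, hνχ⟩ : ∃ χ, m χ ≠ 0 ∧ ν χ = 1 := by
    by_contra hno
    push Not at hno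
    have hle : ∀ χ : IrrCharacter G, (m χ : ℤ) * z χ ≤ 0 := fun χ => by
      by_cases h : m χ = 0
      · simp [h]
      · have h1 := abs_le.mp (hz1 χ)
        have h2 : z χ ≠ 1 := fun e => hno χ h (by rw [hz, e, Int.cast_one])
        exact mul_nonpos_of_nonneg_of_nonpos (Int.natCast_nonneg _) (by omega)
    have h1 : ∑ χ : IrrCharacter G, (m χ : ℤ) * z χ = 1 := by
      have : ((∑ χ : IrrCharacter G, (m χ : ℤ) * z χ : ℤ) : ℂ) = ((1 : ℤ) : ℂ) := by
        push_cast
        simp only [← hz]
        exact htotal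
      exact_mod_cast this
    have := Finset.sum_nonpos (s := (Finset.univ : Finset (IrrCharacter G))) (fun χ _ => hle χ)
    omega
  have hχover : classInner (fun n : N => (χ : G → ℂ) n) (φ : N → ℂ) ≠ 0 := by
    rw [hm', Nat.cast_ne_zero]; exact hmχ
  refine ⟨χ, ⟨hνχ, (hcl χ).mpr hχover⟩, ?_⟩
  rintro χ' ⟨hν', hov'⟩
  -- uniqueness
  have hover' := (hcl χ').mp hov'
  have hzne : ∀ η, ν η = 1 → z η ≠ 0 := fun η h1 h0 => by
    rw [hz, h0, Int.cast_zero] at h1; exact zero_ne_one h1
  have hr := hzreal χ (hzne χ hνχ)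
  have hr' := hzreal χ' (hzne χ' hν')
  set ψ : G → ℂ := (χ : G → ℂ) * (χ' : G → ℂ) with hψ
  have hψc : IsCharacter G ψ := IsCharacter.mul (isCharacter_irr χ) (isCharacter_irr χ')
  have hψreal : ∀ g, conj (ψ g) = ψ g := fun g => by
    rw [hψ, Pi.mul_apply, map_mul, Complex.conj_eq_iff_im.mpr (hr g),
      Complex.conj_eq_iff_im.mpr (hr' g)]
  choose r hr0 using exists_mult hψc
  let oneN : IrrCharacter N := ⟨fun _ => 1, isIrrCharacter_one N⟩
  let oneG : IrrCharacter G := ⟨fun _ => 1, isIrrCharacter_one G⟩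
  choose s hs using fun η : IrrCharacter G =>
    exists_mult (IsCharacter.restrict (isCharacter_irr η) N) oneN
  -- the inner product on `N` is odd
  obtain ⟨a, ha, hval⟩ := degree_ratio_odd N hodd φ χ hχover
  obtain ⟨a', ha', hval'⟩ := degree_ratio_odd N hodd φ χ' hover'
  have hN1 : classInner (fun n : N => ψ n) (oneN : N → ℂ) =
      ((a * a' * (orbit N φ).card : ℕ) : ℂ) := by
    have e : classInner (fun n : N => ψ n) (oneN : N → ℂ) =
        classInner (fun n : N => (χ : G → ℂ) n) (fun n : N => (χ' : G → ℂ) n) := by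
      simp only [classInner, hψ, oneN, Pi.mul_apply, map_one, mul_one,
        Complex.conj_eq_iff_im.mpr (hr' _)]
    rw [e, show (fun n : N => (χ : G → ℂ) n) =
      fun n : N => ∑ ξ ∈ orbit N φ, (a : ℂ) * (ξ : N → ℂ) n from
        funext fun n => by rw [hval n, Finset.mul_sum], classInner_sum]
    rw [Finset.sum_congr rfl (g := fun _ => (a : ℂ) * (a' : ℂ)) (fun ξ hξ => ?_), Finset.sum_const,
      nsmul_eq_mul]
    · push_cast; ring
    · congr 1
      rw [classInner_character_comm (isCharacter_irr ξ) (IsCharacter.restrict (isCharacter_irr χ') N),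
        show (fun n : N => (χ' : G → ℂ) n) =
          fun n : N => ∑ ξ ∈ orbit N φ, (a' : ℂ) * (ξ : N → ℂ) n from
            funext fun n => by rw [hval' n, Finset.mul_sum], classInner_sum,
        Finset.sum_eq_single ξ (fun b _ hb => by rw [classInner_irr, if_neg hb, mul_zero])
          (fun h => absurd hξ h), classInner_irr, if_pos rfl, mul_one]
  have hsum : ∑ η : IrrCharacter G, r η * s η = a * a' * (orbit N φ).card := by
    have h : classInner (fun n : N => ψ n) (oneN : N → ℂ) =
        ∑ η : IrrCharacter G, (r η : ℂ) * (s η : ℂ) := by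
      rw [show (fun n : N => ψ n) = fun n : N => ∑ η : IrrCharacter G, (r η : ℂ) * (η : G → ℂ) n from
        funext fun n => by
          rw [classFunction_expand (IsCharacter.isClassFunction hψc) (n : G)]
          simp only [hr0],
        classInner_sum Finset.univ (fun η : IrrCharacter G => (r η : ℂ))
          (fun η : IrrCharacter G => fun n : N => (η : G → ℂ) n)]
      simp only [hs]
    rw [hN1] at h
    exact_mod_cast h.symm
  have hconj : ∀ {X : Type _} [Group X] [Fintype X] (f : X → ℂ) (η : X → ℂ),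
      (∀ x, conj (f x) = f x) → classInner f (fun x => conj (η x)) = conj (classInner f η) := by
    intro X _ _ f η hf
    simp only [classInner, map_mul, map_inv₀, map_natCast, map_sum, Complex.conj_conj, hf]
  have hr_conj : ∀ η, r (CfsgLib.CharExtra.conjEquiv η) = r η := fun η => by
    have h : (r (CfsgLib.CharExtra.conjEquiv η) : ℂ) = (r η : ℂ) := by
      rw [← hr0, show ((CfsgLib.CharExtra.conjEquiv η : IrrCharacter G) : G → ℂ) =
        fun g => conj ((η : G → ℂ) g) from rfl, hconj ψ _ hψreal, hr0, map_natCast]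
    exact_mod_cast h
  have hs_conj : ∀ η, s (CfsgLib.CharExtra.conjEquiv η) = s η := fun η => by
    have h : (s (CfsgLib.CharExtra.conjEquiv η) : ℂ) = (s η : ℂ) := by
      rw [← hs, ← map_natCast conj (s η), ← hs]
      simp only [classInner, oneN, CfsgLib.CharExtra.conjEquiv_apply, map_mul, map_inv₀,
        map_natCast, map_sum, map_one, mul_one]
    exact_mod_cast h
  have hmod : ((a * a' * (orbit N φ).card : ℕ) : ZMod 2) = ((r oneG * s oneG : ℕ) : ZMod 2) := by
    rw [← hsum, Nat.cast_sum, ← Finset.add_sum_erase _ _ (Finset.mem_univ oneG)]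
    refine add_eq_left.mpr ?_
    refine Finset.sum_involution (fun η _ => CfsgLib.CharExtra.conjEquiv η) ?_ ?_ ?_ ?_
    · intro η _
      rw [hr_conj, hs_conj]
      exact CharTwo.add_self_eq_zero _
    · intro η hη hne heq
      have hreal := (CfsgLib.CharExtra.conjEquiv_eq_iff η).mp heq
      apply Finset.ne_of_mem_erase hη
      have hs0 : s η ≠ 0 := fun h => hne (by rw [h, mul_zero, Nat.cast_zero])
      have hover : classInner (fun n : N => (η : G → ℂ) n) (oneN : N → ℂ) ≠ 0 := by
        rw [hs, Nat.cast_ne_zero]; exact hs0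
      obtain ⟨b, -, -, hb, -⟩ := clifford N η oneN hover
      have hker : ∀ n ∈ N, (η : G → ℂ) n = (η : G → ℂ) 1 := by
        intro n hn
        have h1 := hb ⟨n, hn⟩
        have h2 := hb 1
        rw [OneMemClass.coe_one] at h2
        rw [h1, h2]
        congr 1
        refine Finset.sum_congr rfl fun ξ hξ => ?_
        obtain ⟨x, rfl⟩ := (mem_orbit N).mp hξ
        rfl
      obtain ⟨β, hβ⟩ := exists_deflate N η hker
      haveI : Fintype (G ⧸ N) := Fintype.ofFinite _
      have h1 := CfsgLib.CharExtra.eq_one_of_real (G := G ⧸ N)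
        (by rw [← Subgroup.index_eq_card]; exact hodd) β (fun q => by
          obtain ⟨g, rfl⟩ := QuotientGroup.mk_surjective q
          have := hreal g
          rwa [hβ] at this)
      apply Subtype.ext
      rw [hβ, h1]
      rfl
    · intro η hη
      refine Finset.mem_erase.mpr ⟨fun h => Finset.ne_of_mem_erase hη ?_, Finset.mem_univ _⟩
      apply CfsgLib.CharExtra.conjEquiv.injective
      rw [h]
      exact Subtype.ext (funext fun g => (map_one conj).symm)
    · intro η _
      exact Subtype.ext (funext fun g => Complex.conj_conj _)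
  have hoddN : Odd (a * a' * (orbit N φ).card) :=
    ((Nat.odd_mul.mp ha).1.mul (Nat.odd_mul.mp ha').1).mul (Nat.odd_mul.mp ha).2
  rw [ZMod.natCast_eq_one_iff_odd.mpr hoddN] at hmod
  by_contra hne
  have hr1 : r oneG = 0 := by
    have h : (r oneG : ℂ) = 0 := by
      rw [← hr0]
      have e : classInner ψ (oneG : G → ℂ) = classInner (χ : G → ℂ) (χ' : G → ℂ) := by
        simp only [classInner, hψ, oneG, Pi.mul_apply, map_one, mul_one,
          Complex.conj_eq_iff_im.mpr (hr' _)]
      rw [e, classInner_irr, if_neg (fun h => hne h.symm)]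
    exact_mod_cast h
  rw [hr1, zero_mul, Nat.cast_zero] at hmod
  exact one_ne_zero hmod

end Cfsg.Agent.S4873
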