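import Cfsg.Statements.S4885
import Cfsg.Agent.S0915
import Cfsg.Agent.S4736
import Cfsg.Agent.Lib.Core
import Cfsg.Agent.Lib.PSolvable
import Cfsg.Agent.Lib.Solvable.Frattini
import Cfsg.Agent.Lib.Solvable.Basics
import Cfsg.Agent.Lib.GroupB.SchurZassenhaus
import Cfsg.Agent.Lib.Blocks.PrincipalSection
import Cfsg.Agent.Lib.Chars.Kernel
import Cfsg.Agent.Lib.Chars.Linear
import Cfsg.Agent.Lib.Chars.Induced

set_option autoImplicit false
open Cfsg

namespace Cfsg.Agent.S4885

open CfsgLib.Chars CfsgLib.Blocks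

open scoped ComplexConjugate
set_option maxHeartbeats 400000
universe u

variable {G : Type u} [Group G] [Finite G]

/-- A `p`-element of a nilpotent normal subgroup lies in `O_p`. -/
theorem mem_pCore_of_nilpotent (r : ℕ) [Fact r.Prime] {H : Subgroup G} [H.Normal] (hH : Group.IsNilpotent H)
    {x : G} (hx : x ∈ H) {k : ℕ} (hk : orderOf x = r ^ k) : x ∈ Cfsg.pCore r G := by
  obtain ⟨S⟩ : Nonempty (Sylow r H) := inferInstance
  haveI := hH
  haveI hn : (S : Subgroup H).Normal := Sylow.normal_of_normalizerCondition Group.normalizerCondition_of_isNilpotent S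
  haveI := Sylow.characteristic_of_normal S hn
  have hz : IsPGroup r ↥(Subgroup.zpowers (⟨x, hx⟩ : H)) :=
    IsPGroup.of_card (n := k) (by rw [Nat.card_zpowers, ← Subgroup.orderOf_coe, hk])
  obtain ⟨T, hT⟩ := hz.exists_le_sylow
  haveI := Sylow.unique_of_normal S hn
  have hxS : (⟨x, hx⟩ : H) ∈ (S : Subgroup H) :=
    (show T = S from Subsingleton.elim _ _) ▸ hT (Subgroup.mem_zpowers _)
  exact CfsgLib.Core.le_pCore (N := (S : Subgroup H).map H.subtype) inferInstance
    (S.isPGroup'.map _) ⟨_, hxS, rfl⟩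

theorem pCore_quot_eq_bot (r : ℕ) [Fact r.Prime] (hR : Cfsg.pCore r G ≤ frattini G) :
    Cfsg.pCore r (G ⧸ frattini G) = ⊥ := by
  have hr : r.Prime := Fact.out
  haveI := CfsgLib.Core.pCore_characteristic (G := G ⧸ frattini G) r
  set X := (Cfsg.pCore r (G ⧸ frattini G)).comap (QuotientGroup.mk' (frattini G))
  have hX : Group.IsNilpotent X := by
    refine CfsgLib.Solvable.Basics.isNilpotent_of_mod_frattini (fun x hx => ?_) ?_
    · show ((x : G) : G ⧸ frattini G) ∈ Cfsg.pCore r (G ⧸ frattini G)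
      rw [(QuotientGroup.eq_one_iff x).mpr hx]; exact one_mem _
    · rw [Subgroup.map_comap_eq_self_of_surjective (QuotientGroup.mk'_surjective _)]
      exact (CfsgLib.Core.isPGroup_pCore r).isNilpotent
  rw [eq_bot_iff]
  intro y hy
  obtain ⟨x, rfl⟩ := QuotientGroup.mk'_surjective _ y
  obtain ⟨k, hk⟩ := CfsgLib.Core.isPGroup_pCore (G := G ⧸ frattini G) r ⟨_, hy⟩
  have hk' : (QuotientGroup.mk' (frattini G) x) ^ r ^ k = 1 := congrArg Subtype.val hk
  obtain ⟨e, m, hm, he⟩ := Nat.exists_eq_pow_mul_and_not_dvd (orderOf_pos x).ne' r hr.ne_one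
  have hm0 : m ≠ 0 := fun h => hm (h ▸ dvd_zero r)
  have hxm : QuotientGroup.mk' (frattini G) (x ^ m) = 1 := by
    refine (QuotientGroup.eq_one_iff _).mpr (hR (mem_pCore_of_nilpotent r hX (pow_mem hy m) (k := e) ?_))
    rw [orderOf_pow_of_dvd hm0 (he ▸ dvd_mul_left m _), he, Nat.mul_div_cancel _ (Nat.pos_of_ne_zero hm0)]
  rw [map_pow] at hxm
  rw [Subgroup.mem_bot]
  have := pow_gcd_eq_one.mpr ⟨hk', hxm⟩
  rwa [show Nat.gcd (r ^ k) m = 1 from ((hr.coprime_iff_not_dvd.mpr hm).pow_left k), pow_one] at this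

/-- A nontrivial normal subgroup contains a nontrivial normal `p`- or `p'`-subgroup. -/
theorem exists_normal_piece (p : ℕ) [Fact p.Prime] (h : Cfsg.IsPSolvable p G) {W : Subgroup G} [W.Normal]
    (hW : W ≠ ⊥) : ∃ N : Subgroup G, N.Normal ∧ N ≤ W ∧ N ≠ ⊥ ∧ (IsPGroup p N ∨ (Nat.card N).Coprime p) := by
  classical
  obtain ⟨n, H, h0, h1, -, hn, hstep⟩ := h
  by_contra hne
  push Not at hne
  suffices ∀ i, H i ⊓ W = ⊥ by
    have := this (Fin.last n)
    rw [h1, top_inf_eq] at this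
    exact hW this
  intro i
  induction i using Fin.induction with
  | zero => rw [h0, bot_inf_eq]
  | succ i ih =>
    by_contra hb
    haveI := hn i.succ
    haveI := hn i.castSucc
    obtain ⟨h2, h3⟩ := hne (H i.succ ⊓ W) inferInstance inf_le_right hb
    have hd : Nat.card ↥(H i.succ ⊓ W) ∣ (H i.castSucc).relIndex (H i.succ) := by
      have e : (H i.castSucc).relIndex (H i.succ ⊓ W) = Nat.card ↥(H i.succ ⊓ W) := by
        rw [← Subgroup.inf_relIndex_right, show H i.castSucc ⊓ (H i.succ ⊓ W) = ⊥ from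
          le_bot_iff.mp (ih ▸ le_inf inf_le_left (inf_le_right.trans inf_le_right)), Subgroup.relIndex_bot_left]
      rw [← e]
      haveI := (hn i.castSucc).subgroupOf (H i.succ)
      have h4 := Subgroup.relIndex_dvd_index_of_normal ((H i.castSucc).subgroupOf (H i.succ))
        ((H i.succ ⊓ W).subgroupOf (H i.succ))
      rwa [Subgroup.relIndex_subgroupOf inf_le_left] at h4
    rcases hstep i with ⟨m, hm⟩ | hc
    · rw [hm] at hd
      obtain ⟨m', -, hm'⟩ := (Nat.dvd_prime_pow Fact.out).mp hd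
      exact h2 (IsPGroup.of_card hm')
    · exact h3 (hc.coprime_dvd_left hd)

theorem core_trivial (p q : ℕ) [Fact p.Prime] [Fact q.Prime]
    (hps : Cfsg.IsPSolvable p G) (hqs : Cfsg.IsPSolvable q G)
    (hR : Cfsg.pCore p G ≤ frattini G) (hS : Cfsg.pCore q G ≤ frattini G)
    (hKL : Cfsg.pPrimeCore p G ⊓ Cfsg.pPrimeCore q G = ⊥) : Nat.card G = 1 := by
  classical
  by_contra hne
  set Φ := frattini G
  have hsmall : ∀ H : Subgroup G, H.Normal → (Nat.card H).Coprime p → (Nat.card H).Coprime q → H = ⊥ :=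
    fun H hn h1 h2 => le_bot_iff.mp (hKL ▸ le_inf (CfsgLib.Core.le_pPrimeCore hn h1) (CfsgLib.Core.le_pPrimeCore hn h2))
  have hΦ : Φ ≠ ⊤ := by
    haveI : Nontrivial G := Finite.one_lt_card_iff_nontrivial.mp
      (by have := Nat.card_pos (α := G); omega)
    obtain ⟨M, hM, -⟩ := (IsCoatomic.eq_top_or_exists_le_coatom (⊥ : Subgroup G)).resolve_left bot_ne_top
    exact fun h => hM.1 (top_le_iff.mp (h ▸ (CfsgLib.Solvable.le_frattini_iff.mp le_rfl M hM)))
  set π := QuotientGroup.mk' Φ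
  have hπ : Function.Surjective π := QuotientGroup.mk'_surjective Φ
  have htop : (⊤ : Subgroup (G ⧸ Φ)) ≠ ⊥ := fun h => hΦ (by
    have := congrArg (Subgroup.comap π) h
    rwa [Subgroup.comap_top, MonoidHom.comap_bot, QuotientGroup.ker_mk', eq_comm] at this)
  obtain ⟨N, hNn, -, hN0, hNp⟩ := exists_normal_piece p (CfsgLib.PSolvable.map π hπ hps) htop
  have hbig : ∀ (r : ℕ) [Fact r.Prime], Cfsg.pCore r G ≤ Φ → ∀ W : Subgroup (G ⧸ Φ), W.Normal → W ≠ ⊥ → ¬ IsPGroup r W :=
    fun r _ hr W hW hW0 h => hW0 (le_bot_iff.mp (pCore_quot_eq_bot r hr ▸ CfsgLib.Core.le_pCore hW h))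
  have hNp' := hNp.resolve_left (hbig p hR N hNn hN0)
  obtain ⟨N', hN'n, hN'le, hN'0, hN'q⟩ := exists_normal_piece q (CfsgLib.PSolvable.map π hπ hqs) hN0
  have hq' := hN'q.resolve_left (hbig q hS N' hN'n hN'0)
  have hp' : (Nat.card N').Coprime p := hNp'.coprime_dvd_left (Subgroup.card_dvd_of_le hN'le)
  set X := N'.comap π
  haveI : X.Normal := hN'n.comap π
  have hΦX : Φ ≤ X := fun x hx => by
    show π x ∈ N'
    rw [show π x = 1 from (QuotientGroup.eq_one_iff x).mpr hx]; exact one_mem _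
  set ΦX := Φ.subgroupOf X
  have hidx : ΦX.index = Nat.card N' := by
    show Φ.relIndex X = _
    conv_lhs => rw [show Φ = (⊥ : Subgroup (G ⧸ Φ)).comap π by rw [MonoidHom.comap_bot, QuotientGroup.ker_mk']]
    rw [Subgroup.relIndex_comap, Subgroup.map_comap_eq_self_of_surjective hπ, Subgroup.relIndex_bot_left]
  have hcardΦ : Nat.card ΦX = Nat.card Φ := Nat.card_congr (Subgroup.subgroupOfEquivOfLe hΦX).toEquiv
  have hcop : (Nat.card ΦX).Coprime ΦX.index := by
    rw [hidx, hcardΦ]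
    refine Nat.coprime_of_dvd fun r hr hr1 hr2 => ?_
    haveI := Fact.mk hr
    obtain ⟨x, hx⟩ := exists_prime_orderOf_dvd_card' r hr1
    have hrp : r ≠ p := fun e => hr.ne_one (Nat.eq_one_of_dvd_coprimes hp' hr2 (e ▸ dvd_rfl))
    have hrq : r ≠ q := fun e => hr.ne_one (Nat.eq_one_of_dvd_coprimes hq' hr2 (e ▸ dvd_rfl))
    have h1 : (x : G) ∈ Cfsg.pCore r G := mem_pCore_of_nilpotent r frattini_nilpotent x.2
      (k := 1) (by rw [pow_one, Subgroup.orderOf_coe, hx])
    obtain ⟨a, ha⟩ := IsPGroup.iff_card.mp (CfsgLib.Core.isPGroup_pCore (G := G) r)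
    rw [hsmall (Cfsg.pCore r G) (Cfsg.pCore_normal r G)
      (ha ▸ ((Nat.coprime_primes hr Fact.out).mpr hrp).pow_left a)
      (ha ▸ ((Nat.coprime_primes hr Fact.out).mpr hrq).pow_left a), Subgroup.mem_bot] at h1
    rw [← Subgroup.orderOf_coe, h1, orderOf_one] at hx
    exact hr.ne_one hx.symm
  obtain ⟨H, hH⟩ := Subgroup.exists_right_complement'_of_coprime hcop
  have hHc : Nat.card H = Nat.card N' := by
    have := Subgroup.IsComplement.card_mul hH
    have h2 := ΦX.card_mul_index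
    rw [← this, hidx] at h2
    exact (Nat.eq_of_mul_eq_mul_left Nat.card_pos h2).symm
  set H' := H.map X.subtype
  have hnorm : Subgroup.normalizer (H' : Set G) ⊔ Φ = ⊤ := by
    rw [eq_top_iff]
    intro g _
    let K2 := (H'.map (MulAut.conj g).toMonoidHom).subgroupOf X
    have hle : H'.map (MulAut.conj g).toMonoidHom ≤ X := by
      rintro _ ⟨_, ⟨h, -, rfl⟩, rfl⟩
      exact (inferInstance : X.Normal).conj_mem h h.2 g
    have hK2 : Nat.card K2 = Nat.card H := by
      rw [Nat.card_congr (Subgroup.subgroupOfEquivOfLe hle).toEquiv, CfsgLib.GroupB.SchurZassenhaus.card_map_conj,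
        Subgroup.card_map_of_injective X.subtype_injective]
    haveI : Group.IsSolvable ΦX := by
      haveI : Group.IsNilpotent Φ := frattini_nilpotent
      exact Group.isSolvable_of_surjective (f := (Subgroup.subgroupOfEquivOfLe hΦX).symm.toMonoidHom)
        (Subgroup.subgroupOfEquivOfLe hΦX).symm.surjective
    obtain ⟨a, ha, haK⟩ := CfsgLib.GroupB.SchurZassenhaus.exists_conj ΦX H K2
      (by rw [hHc, ← hidx]; exact hcop) (Subgroup.IsComplement.card_mul hH) hK2 (Or.inl inferInstance)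
    have key : H'.map (MulAut.conj g).toMonoidHom = H'.map (MulAut.conj (a : G)).toMonoidHom := by
      rw [← inf_eq_left.mpr hle, ← Subgroup.subgroupOf_map_subtype]
      show K2.map X.subtype = _
      rw [haK, Subgroup.map_map, Subgroup.map_map]
      rfl
    have hg : (a : G)⁻¹ * g ∈ Subgroup.normalizer (H' : Set G) := by
      rw [Subgroup.mem_normalizer_iff]
      intro h
      have e : ∀ z, z ∈ H'.map (MulAut.conj g).toMonoidHom ↔ z ∈ H'.map (MulAut.conj (a : G)).toMonoidHom :=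
        fun z => by rw [key]
      constructor
      · intro hh
        obtain ⟨h', hh', hhe⟩ := (e _).mp ⟨h, hh, rfl⟩
        simp only [MulEquiv.coe_toMonoidHom, MulAut.conj_apply] at hhe
        have : (a : G)⁻¹ * g * h * ((a : G)⁻¹ * g)⁻¹ = h' := by
          rw [mul_inv_rev, inv_inv, show (a : G)⁻¹ * g * h * (g⁻¹ * a) = (a : G)⁻¹ * (g * h * g⁻¹) * a by group, ← hhe]
          group
        rw [this]; exact hh'
      · intro hh
        obtain ⟨h', hh', hhe⟩ := (e _).mpr ⟨_, hh, rfl⟩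
        simp only [MulEquiv.coe_toMonoidHom, MulAut.conj_apply] at hhe
        have : h' = h := by
          have : g * h' * g⁻¹ = g * h * g⁻¹ := by rw [hhe]; group
          simpa using this
        exact this ▸ hh'
    rw [show g = (a : G) * ((a : G)⁻¹ * g) by group]
    exact Subgroup.mul_mem _ (Subgroup.mem_sup_right ha) (Subgroup.mem_sup_left hg)
  haveI : H'.Normal := Subgroup.normalizer_eq_top_iff.mp (frattini_nongenerating hnorm)
  have hH'c : Nat.card H' = Nat.card N' := by rw [Subgroup.card_map_of_injective X.subtype_injective, hHc]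
  have hH0 := hsmall H' inferInstance (hH'c ▸ hp') (hH'c ▸ hq')
  rw [hH0, Subgroup.card_bot] at hH'c
  exact hN'0 (Subgroup.card_eq_one.mp hH'c.symm)

theorem pCore_le_frattini (p : ℕ) [Fact p.Prime] (K : Subgroup G) [K.Normal] (hK : (Nat.card K).Coprime p)
    (R : Subgroup G) [R.Normal] (hR : IsPGroup p R)
    (h : ∀ χ : IrrCharacter G, ¬ p ∣ charDegree (χ : G → ℂ) → (∀ k ∈ K, (χ : G → ℂ) k = (χ : G → ℂ) 1) →
      ∀ l ∈ R, (χ : G → ℂ) l = (χ : G → ℂ) 1) : R ≤ frattini G := by
  classical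
  haveI := Fintype.ofFinite (G ⧸ K)
  obtain ⟨P⟩ : Nonempty (Sylow p G) := inferInstance
  have hRP : R ≤ (P : Subgroup G) := (CfsgLib.Core.le_pCore inferInstance hR).trans (CfsgLib.Core.pCore_le_sylow P)
  refine CfsgLib.Solvable.le_frattini_of_le_frattini_subgroup (U := (P : Subgroup G)) fun r hr => ?_
  refine ⟨⟨r, hRP hr⟩, ?_, rfl⟩
  have : Subgroup.zpowers (⟨r, hRP hr⟩ : (P : Subgroup G)) ≤ frattini (P : Subgroup G) := by
    rw [CfsgLib.Solvable.le_frattini_iff]
    intro M hM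
    rw [Subgroup.zpowers_le]
    by_contra hrM
    haveI hnil : Group.IsNilpotent (P : Subgroup G) := P.isPGroup'.isNilpotent
    haveI : M.Normal := Subgroup.NormalizerCondition.normal_of_coatom M Group.normalizerCondition_of_isNilpotent hM
    have hcM : ⁅(⊤ : Subgroup (P : Subgroup G)), ⊤⁆ ≤ M :=
      (CfsgLib.Solvable.commutator_le_frattini (Group.nilpotent_of_mulEquiv Subgroup.topEquiv.symm)).trans
        (CfsgLib.Solvable.le_frattini_iff.mp le_rfl M hM)
    letI : CommGroup ((P : Subgroup G) ⧸ M) := { (inferInstance : Group ((P : Subgroup G) ⧸ M)) with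
      mul_comm := fun a b => by
        induction a using QuotientGroup.induction_on with | _ a => ?_
        induction b using QuotientGroup.induction_on with | _ b => ?_
        rw [← QuotientGroup.mk_mul, ← QuotientGroup.mk_mul, QuotientGroup.eq]
        have h' := hcM (Subgroup.commutator_mem_commutator (Subgroup.mem_top b⁻¹) (Subgroup.mem_top a⁻¹))
        rw [commutatorElement_def, inv_inv, inv_inv] at h'
        rw [mul_inv_rev, ← mul_assoc]
        exact h' }
    obtain ⟨μ, hμ⟩ := CommGroup.exists_apply_ne_one_of_hasEnoughRootsOfUnity ((P : Subgroup G) ⧸ M) ℂ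
      (a := QuotientGroup.mk' M ⟨r, hRP hr⟩) (fun he => hrM ((QuotientGroup.eq_one_iff _).mp he))
    let Q : Sylow p (G ⧸ K) := P.mapSurjective (QuotientGroup.mk'_surjective K)
    let f : (P : Subgroup G) →* (Q : Subgroup (G ⧸ K)) :=
      ((QuotientGroup.mk' K).comp (P : Subgroup G).subtype).codRestrict _ fun x => ⟨x, x.2, rfl⟩
    have hf : Function.Bijective f := by
      refine ⟨(injective_iff_map_eq_one f).mpr fun x hx => ?_, ?_⟩
      · have hxK : (x : G) ∈ K := (QuotientGroup.eq_one_iff _).mp (congrArg Subtype.val hx)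
        have hd1 : orderOf (x : G) ∣ Nat.card K := Subgroup.orderOf_dvd_natCard _ hxK
        obtain ⟨k, hk⟩ := IsPGroup.iff_orderOf.mp P.isPGroup' x
        rw [← Subgroup.orderOf_coe] at hk
        rw [hk] at hd1
        refine Subtype.ext (orderOf_eq_one_iff.mp ?_)
        rw [hk]
        exact Nat.eq_one_of_dvd_coprimes (hK.symm.pow_left k) dvd_rfl hd1
      · rintro ⟨_, ⟨x, hx, rfl⟩⟩
        exact ⟨⟨x, hx⟩, rfl⟩
    let fe := MulEquiv.ofBijective f hf
    let lam : (Q : Subgroup (G ⧸ K)) →* ℂˣ := (μ.comp (QuotientGroup.mk' M)).comp fe.symm.toMonoidHom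
    haveI := Fintype.ofFinite (Q : Subgroup (G ⧸ K))
    have hc := IsCharacter.indFun (Q : Subgroup (G ⧸ K)) (isCharacter_hom lam)
    obtain ⟨χ, hχd, hχm⟩ : ∃ χ : IrrCharacter (G ⧸ K), ¬ p ∣ charDegree (χ : G ⧸ K → ℂ) ∧
        classInner (indFun (Q : Subgroup (G ⧸ K)) (fun g => (lam g : ℂ))) (χ : G ⧸ K → ℂ) ≠ 0 := by
      by_contra hne
      push Not at hne
      choose m hm using fun χ : IrrCharacter (G ⧸ K) => exists_mult hc χ
      have e := classFunction_expand (IsCharacter.isClassFunction hc) (1 : G ⧸ K)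
      simp only [hm, indFun_one, irr_apply_one, map_one, Units.val_one, mul_one] at e
      have e' : (Q : Subgroup (G ⧸ K)).index = ∑ χ : IrrCharacter (G ⧸ K), m χ * charDegree (χ : G ⧸ K → ℂ) := by
        exact_mod_cast e
      refine Q.not_dvd_index (e' ▸ Finset.dvd_sum fun χ _ => ?_)
      by_cases hd : p ∣ charDegree (χ : G ⧸ K → ℂ)
      · exact hd.mul_left _
      · have := hne χ hd
        rw [hm, Nat.cast_eq_zero] at this
        simp [this]
    let ψ : IrrCharacter G := ⟨_, isIrrCharacter_inflate K χ⟩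
    have hψd : charDegree (ψ : G → ℂ) = charDegree (χ : G ⧸ K → ℂ) := by simp [charDegree, ψ]
    have hψr := h ψ (hψd ▸ hχd) (fun k hk => by
      simp only [ψ, Function.comp_apply]
      rw [(QuotientGroup.eq_one_iff k).mpr hk, QuotientGroup.mk_one]) r hr
    set r' : (Q : Subgroup (G ⧸ K)) := fe ⟨r, hRP hr⟩
    have hr' : (χ : G ⧸ K → ℂ) r' = (χ : G ⧸ K → ℂ) 1 := by
      simp only [ψ, Function.comp_apply, QuotientGroup.mk_one] at hψr
      exact hψr
    rw [CfsgLib.Chars.frobenius _ _ (IsCharacter.isClassFunction (isCharacter_irr χ))] at hχm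
    apply hχm
    unfold classInner
    refine mul_eq_zero_of_right _ ?_
    set S := ∑ g : (Q : Subgroup (G ⧸ K)), (lam g : ℂ) * conj ((χ : G ⧸ K → ℂ) g)
    have hS : (lam r' : ℂ) * S = S := by
      show _ = ∑ g : (Q : Subgroup (G ⧸ K)), (lam g : ℂ) * conj ((χ : G ⧸ K → ℂ) g)
      rw [← Equiv.sum_comp (Equiv.mulLeft r'), Finset.mul_sum]
      refine Finset.sum_congr rfl fun g _ => ?_
      simp only [Equiv.coe_mulLeft, map_mul, Units.val_mul, Subgroup.coe_mul,
        IsCharacter.mul_kernel (isCharacter_irr χ) hr', mul_assoc]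
    by_contra hS0
    refine hμ (Units.ext ?_)
    have h1 : (lam r' : ℂ) = 1 := mul_right_cancel₀ hS0 (hS.trans (one_mul S).symm)
    simpa [lam, r'] using h1
  exact this (Subgroup.mem_zpowers _)

/-- Let p and q be primes dividing the order of the finite group G, and suppose G is p-solvable and q-solvable. Fix maximal ideals of the algebraic integers containing p and q, defining the principal p-block and the principal q-block. If the irreducible characters of degree prime to p in the principal p-block are exactly the irreducible characters of degree prime to q in the principal q-block, then p = q. -/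
theorem result {G : Type*} [Group G] [Finite G] (p q : ℕ) [Fact p.Prime] [Fact q.Prime] (hp : p ∣ Nat.card G) (hq : q ∣ Nat.card G) (hps : Cfsg.IsPSolvable p G) (hqs : Cfsg.IsPSolvable q G) (Mp Mq : Ideal Cfsg.AlgInt) (hMp : Cfsg.IsPModular p Mp) (hMq : Cfsg.IsPModular q Mq) (h : ∀ χ : Cfsg.IrrCharacter G, (χ ∈ Cfsg.principalBlock Mp G ∧ ¬ p ∣ Cfsg.charDegree (χ : G → ℂ)) ↔ (χ ∈ Cfsg.principalBlock Mq G ∧ ¬ q ∣ Cfsg.charDegree (χ : G → ℂ))) : p = q := by
  classical
  by_contra hne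
  haveI := Fintype.ofFinite G
  set K := Cfsg.pPrimeCore p G
  set L := Cfsg.pPrimeCore q G
  haveI : K.Characteristic := CfsgLib.Core.pPrimeCore_characteristic (G := G) p
  haveI : L.Characteristic := CfsgLib.Core.pPrimeCore_characteristic (G := G) q
  have hK : (Nat.card K).Coprime p := CfsgLib.Core.card_pPrimeCore_coprime p
  have hL : (Nat.card L).Coprime q := CfsgLib.Core.card_pPrimeCore_coprime q
  set D := K ⊓ L
  set π := QuotientGroup.mk' D
  have hπ : Function.Surjective π := QuotientGroup.mk'_surjective D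
  have hpre : ∀ (r : ℕ) (V : Subgroup G), V = Cfsg.pPrimeCore r G → (Nat.card D).Coprime r →
      (Cfsg.pPrimeCore r (G ⧸ D)).comap π ≤ V := by
    intro r V hV hD
    subst hV
    haveI := CfsgLib.Core.pPrimeCore_characteristic (G := G ⧸ D) r
    refine CfsgLib.Core.le_pPrimeCore inferInstance ?_
    have hDle : D ≤ (Cfsg.pPrimeCore r (G ⧸ D)).comap π := fun x hx => by
      show π x ∈ Cfsg.pPrimeCore r (G ⧸ D)
      rw [show π x = 1 from (QuotientGroup.eq_one_iff x).mpr hx]; exact one_mem _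
    rw [← Subgroup.card_mul_index (D.subgroupOf ((Cfsg.pPrimeCore r (G ⧸ D)).comap π)),
      Nat.card_congr (Subgroup.subgroupOfEquivOfLe hDle).toEquiv]
    refine Nat.Coprime.mul hD ?_
    show (D.relIndex _).Coprime r
    conv_lhs => rw [show D.relIndex _ = ((⊥ : Subgroup (G ⧸ D)).comap π).relIndex
      ((Cfsg.pPrimeCore r (G ⧸ D)).comap π) by rw [MonoidHom.comap_bot, QuotientGroup.ker_mk']]
    rw [Subgroup.relIndex_comap, Subgroup.map_comap_eq_self_of_surjective hπ, Subgroup.relIndex_bot_left]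
    exact CfsgLib.Core.card_pPrimeCore_coprime r
  have hDp : (Nat.card D).Coprime p := hK.coprime_dvd_left (Subgroup.card_dvd_of_le inf_le_left)
  have hDq : (Nat.card D).Coprime q := hL.coprime_dvd_left (Subgroup.card_dvd_of_le inf_le_right)
  have hKL : Cfsg.pPrimeCore p (G ⧸ D) ⊓ Cfsg.pPrimeCore q (G ⧸ D) = ⊥ := by
    rw [eq_bot_iff]
    intro y hy
    obtain ⟨x, rfl⟩ := hπ y
    exact (QuotientGroup.eq_one_iff x).mpr ⟨hpre p K rfl hDp hy.1, hpre q L rfl hDq hy.2⟩
  have side : ∀ (r s : ℕ) [Fact r.Prime] [Fact s.Prime], r ≠ s → ∀ (Mr Ms : Ideal Cfsg.AlgInt),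
      Cfsg.IsPModular r Mr → Cfsg.IsPModular s Ms → Cfsg.IsPSolvable r G →
      (∀ χ : Cfsg.IrrCharacter G, χ ∈ Cfsg.principalBlock Mr G → ¬ r ∣ Cfsg.charDegree (χ : G → ℂ) →
        χ ∈ Cfsg.principalBlock Ms G) → (Cfsg.pPrimeCore s (G ⧸ D)).comap π ≤ Cfsg.pPrimeCore s G →
      (Nat.card D).Coprime r → D ≤ Cfsg.pPrimeCore r G →
      Cfsg.pCore r (G ⧸ D) ≤ frattini (G ⧸ D) := by
    intro r s _ _ hrs Mr Ms hMr hMs hrsol himp hcom hDr hDle
    haveI := Fintype.ofFinite (G ⧸ D)
    set Kr := Cfsg.pPrimeCore r G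
    haveI : Kr.Characteristic := CfsgLib.Core.pPrimeCore_characteristic (G := G) r
    haveI := Fintype.ofFinite (G ⧸ Kr)
    haveI := CfsgLib.Core.pCore_characteristic (G := G ⧸ D) r
    haveI : (Kr.map π).Normal := Subgroup.Normal.map inferInstance π hπ
    refine pCore_le_frattini r (Kr.map π) (CfsgLib.Core.coprime_card_map π (CfsgLib.Core.card_pPrimeCore_coprime r)) _
      (CfsgLib.Core.isPGroup_pCore r) fun χ hd hk l hl => ?_
    obtain ⟨x, rfl⟩ := hπ l
    let ψ : Cfsg.IrrCharacter G := ⟨_, isIrrCharacter_inflate D χ⟩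
    have hψd : Cfsg.charDegree (ψ : G → ℂ) = Cfsg.charDegree (χ : G ⧸ D → ℂ) := by simp [Cfsg.charDegree, ψ]
    obtain ⟨η, hη⟩ := exists_deflate Kr ψ fun k hk' => by
      show (χ : G ⧸ D → ℂ) (π k) = (χ : G ⧸ D → ℂ) (π 1)
      rw [map_one]; exact hk (π k) ⟨k, hk', rfl⟩
    have hψB : ψ ∈ Cfsg.principalBlock Mr G := by
      have hs := Cfsg.Agent.S4736.inflate_sameBlock hMr Kr (Cfsg.Agent.S0915.result r Mr hMr
        (CfsgLib.PSolvable.map _ (QuotientGroup.mk'_surjective Kr) hrsol)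
        (CfsgLib.Core.pPrimeCore_quotient_eq_bot r) (trivIrr (G ⧸ Kr)) η)
      rw [← hη] at hs
      exact hs
    have hs := himp ψ hψB (hψd ▸ hd)
    have hxs : x ∈ Cfsg.pPrimeCore s G := hcom (CfsgLib.Core.le_pPrimeCore inferInstance (by
      obtain ⟨a, ha⟩ := IsPGroup.iff_card.mp (CfsgLib.Core.isPGroup_pCore (G := G ⧸ D) r)
      rw [ha]
      exact ((Nat.coprime_primes Fact.out Fact.out).mpr hrs).pow_left a) hl)
    haveI : (Cfsg.pPrimeCore s G).Characteristic := CfsgLib.Core.pPrimeCore_characteristic (G := G) s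
    have := principal_apply_mul hMs hs (Cfsg.pPrimeCore s G) (CfsgLib.Core.card_pPrimeCore_coprime s) hxs 1
    simpa [ψ, π] using this
  have h1 := core_trivial (G := G ⧸ D) p q (CfsgLib.PSolvable.map π hπ hps) (CfsgLib.PSolvable.map π hπ hqs)
    (side p q hne Mp Mq hMp hMq hps (fun χ h1 h2 => ((h χ).mp ⟨h1, h2⟩).1) (hpre q L rfl hDq) hDp inf_le_left)
    (side q p (Ne.symm hne) Mq Mp hMq hMp hqs (fun χ h1 h2 => ((h χ).mpr ⟨h1, h2⟩).1) (hpre p K rfl hDp) hDq inf_le_right)
    hKL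
  have h2 := D.card_mul_index
  rw [Subgroup.index_eq_card, h1, mul_one] at h2
  exact (Nat.Prime.ne_one Fact.out : p ≠ 1) (Nat.eq_one_of_dvd_coprimes hDp (h2 ▸ hp) dvd_rfl)

end Cfsg.Agent.S4885
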