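import Cfsg.Statements.S4888
import Cfsg.Agent.Lib.Blocks.PrincipalFixed

set_option autoImplicit false
open Cfsg

namespace Cfsg.Agent.S4888

open CfsgLib.Chars CfsgLib.Blocks

/-- Let G be a finite group, p a prime and M a maximal ideal of the algebraic integers containing p. Then all height-zero irreducible characters of the principal p-block of G (equivalently, all its characters of degree prime to p) have the same degree if and only if G has a normal p-complement. -/
theorem result {G : Type*} [Group G] [Finite G] (p : ℕ) [Fact p.Prime] (M : Ideal Cfsg.AlgInt) (hM : Cfsg.IsPModular p M) : (∃ d : ℕ, ∀ χ : Cfsg.IrrCharacter G, χ ∈ (Cfsg.principalBlock M G) → Cfsg.blockHeight p (Cfsg.principalBlock M G) (χ : G → ℂ) = 0 → Cfsg.charDegree (χ : G → ℂ) = d) ↔ Cfsg.HasNormalPComplement p G := by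
  classical
  haveI := Fintype.ofFinite G
  have hp : p.Prime := Fact.out
  have hinf : sInf ((fun ψ : Cfsg.IrrCharacter G => (Cfsg.charDegree (ψ : G → ℂ)).factorization p) ''
      Cfsg.principalBlock M G) = 0 :=
    Nat.eq_zero_of_le_zero (Nat.sInf_le ⟨trivIrr G, self_mem_blockOf hM (trivIrr G),
      by simp [Cfsg.charDegree, trivIrr]⟩)
  have hh : ∀ χ : Cfsg.IrrCharacter G,
      Cfsg.blockHeight p (Cfsg.principalBlock M G) (χ : G → ℂ) = 0 ↔
        ¬ p ∣ Cfsg.charDegree (χ : G → ℂ) := fun χ => by
    rw [Cfsg.blockHeight, hinf, Nat.sub_zero, Nat.factorization_eq_zero_iff]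
    have := charDegree_pos χ
    constructor
    · rintro (h | h | h)
      · exact absurd hp h
      · exact h
      · omega
    · exact fun h => Or.inr (Or.inl h)
  constructor
  · rintro ⟨d, hd⟩
    have h1 : d = 1 := by
      rw [← hd (trivIrr G) (self_mem_blockOf hM (trivIrr G)) ((hh _).mpr ?_)]
      · simp [Cfsg.charDegree, trivIrr]
      · simp [Cfsg.charDegree, trivIrr, hp.ne_one]
    refine PrincipalFixed.normalPComplement_of_residual fun hdiv => ?_
    obtain ⟨χ, hχ, hχp, hχ1, -⟩ := PrincipalFixed.exists_fixed_char hM hdiv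
      (Nat.coprime_one_left _) (m := 0) (fun g => by simp)
    exact hχ1 ((hd χ hχ ((hh χ).mpr hχp)).trans h1)
  · exact fun h => ⟨1, fun χ hχ h0 =>
      PrincipalFixed.degree_one_of_normalPComplement hM h hχ ((hh χ).mp h0)⟩

end Cfsg.Agent.S4888
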