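import Cfsg.Statements.S4911
import Cfsg.Agent.Lib.Chars.GlaubermanFixed
import Cfsg.Agent.Lib.CharExtra

set_option autoImplicit false
open Cfsg

namespace Cfsg.Agent.S4911

set_option linter.style.haveILetI false
open CfsgLib.Chars CfsgLib.Blocks CfsgLib.Chars.Glauberman

universe v w x

variable {K : Type v} {C : Type v} {S : Type w} [Group K] [Group C] [Group S] [Fintype K] [Fintype C] {p : ℕ}

/-- The conjugate of an irreducible character. -/
noncomputable def bar {H : Type x} [Group H] [Finite H] (χ : IrrCharacter H) : IrrCharacter H :=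
  ⟨_, isIrrCharacter_conj χ⟩

theorem bar_eq_iff {H : Type x} [Group H] [Finite H] (χ : IrrCharacter H) :
    bar χ = χ ↔ ∀ g : H, ((χ : H → ℂ) g).im = 0 :=
  ⟨fun e g => Complex.conj_eq_iff_im.1 (congrFun (congrArg Subtype.val e) g),
    fun e => Subtype.ext (funext fun g => Complex.conj_eq_iff_im.2 (e g))⟩

theorem mult_bar (h : Setting K C S p) (χ : IrrCharacter K) (β : IrrCharacter C) :
    mult h (bar χ) (bar β) = mult h χ β := by
  apply Nat.cast_injective (R := ℂ)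
  rw [← Complex.conj_natCast (mult h χ β), ← mult_spec, ← mult_spec]
  simp only [Cfsg.classInner, bar, map_mul, map_inv₀, map_natCast, map_sum, Complex.conj_conj]

theorem bar_inv (h : Setting K C S p) {χ : IrrCharacter K} (hχ : IsInv h.φ (χ : K → ℂ)) :
    IsInv h.φ (bar χ : K → ℂ) := fun s k => by
  show (starRingEnd ℂ) _ = (starRingEnd ℂ) _
  rw [hχ s k]

theorem card_real_chars (h : Setting K C S p) {M : Ideal AlgInt} (hM : IsPModular p M) :
    Nat.card {θ : IrrCharacter K // (∀ k : K, ((θ : K → ℂ) k).im = 0) ∧ IsInv h.φ (θ : K → ℂ)} =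
      Nat.card {β : IrrCharacter C // ∀ c : C, ((β : C → ℂ) c).im = 0} := by
  obtain ⟨h1, -, h3, h4⟩ := corr h hM
  choose f hf hfu using h1
  refine Nat.card_congr (Equiv.ofBijective (fun θ => ⟨f θ.1 θ.2.2, ?_⟩) ⟨fun a b e => ?_, fun β => ?_⟩)
  · rw [← bar_eq_iff]
    refine hfu θ.1 θ.2.2 _ (show ¬ p ∣ mult h θ.1 (bar (f θ.1 θ.2.2)) from ?_)
    have e : mult h θ.1 (bar (f θ.1 θ.2.2)) = mult h θ.1 (f θ.1 θ.2.2) :=
      (congrArg (fun t => mult h t (bar (f θ.1 θ.2.2))) ((bar_eq_iff θ.1).mpr θ.2.1).symm).trans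
        (mult_bar h θ.1 (f θ.1 θ.2.2))
    exact fun hd => hf θ.1 θ.2.2 (e ▸ hd)
  · have e' : f a.1 a.2.2 = f b.1 b.2.2 := congrArg Subtype.val e
    exact Subtype.ext (h3 a.1 b.1 a.2.2 b.2.2 (f b.1 b.2.2) (fun hd => hf a.1 a.2.2 (by rw [e']; exact hd)) (hf b.1 b.2.2))
  · obtain ⟨χ, hχ, hm⟩ := h4 β.1
    have hm' : ¬ p ∣ mult h (bar χ) β.1 := by
      rw [← (bar_eq_iff β.1).mpr β.2, mult_bar]; exact hm
    exact ⟨⟨χ, (bar_eq_iff χ).mp (h3 _ χ (bar_inv h hχ) hχ β.1 hm' hm), hχ⟩,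
      Subtype.ext (hfu χ hχ β.1 hm).symm⟩

theorem exists_fixed_conj (h : Setting K C S p) {k : K} (hk : ∀ s : S, IsConj k (h.φ s k)) :
    ∃ c : C, IsConj k (h.ι c) := by
  classical
  haveI : Fact p.Prime := ⟨h.prime⟩
  letI : MulAction S {g : K // IsConj k g} :=
    { smul := fun s g => ⟨h.φ s g.1, (hk s).trans ((h.φ s).toMonoidHom.map_isConj g.2)⟩
      one_smul := fun g => Subtype.ext (show h.φ 1 g.1 = g.1 by rw [map_one]; rfl)
      mul_smul := fun s t g => Subtype.ext (show h.φ (s * t) g.1 = h.φ s (h.φ t g.1) by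
        rw [map_mul, MulAut.mul_apply]) }
  have hnd : ¬ p ∣ Nat.card {g : K // IsConj k g} := fun hd => by
    refine h.ndvd (hd.trans ?_)
    have h2 := MulAction.index_stabilizer (ConjAct K) k
    have h3 : Nat.card {g : K // IsConj k g} = (MulAction.stabilizer (ConjAct K) k).index := by
      rw [h2, ← Nat.card_coe_set_eq, ConjAct.orbit_eq_carrier_conjClasses]
      refine Nat.card_congr (Equiv.subtypeEquivRight fun z => ?_)
      rw [ConjClasses.mem_carrier_iff_mk_eq, ConjClasses.mk_eq_mk_iff_isConj]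
      exact ⟨IsConj.symm, IsConj.symm⟩
    rw [h3]
    exact (MulAction.stabilizer (ConjAct K) k).index_dvd_card
  obtain ⟨⟨g, hg⟩, hfx⟩ := h.pgroup.nonempty_fixed_point_of_prime_not_dvd_card _ hnd
  obtain ⟨c, rfl⟩ := (h.mem g).mp fun s => congrArg Subtype.val (hfx s)
  exact ⟨c, hg⟩

theorem isConj_inv {H : Type x} [Group H] {a b : H} (h : IsConj a b) : IsConj a⁻¹ b⁻¹ := by
  obtain ⟨u, hu⟩ := isConj_iff.mp h
  exact isConj_iff.mpr ⟨u, by rw [← hu]; group⟩

theorem card_real_classes (h : Setting K C S p) :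
    Nat.card {D : ConjClasses C // ∀ c : C, ConjClasses.mk c = D → IsConj c c⁻¹} =
      Nat.card {D : ConjClasses K // (∀ k, ConjClasses.mk k = D → IsConj k k⁻¹) ∧
        ∀ k, ConjClasses.mk k = D → ∀ s : S, IsConj k (h.φ s k)} := by
  have key : ∀ c : C, IsConj c c⁻¹ → (∀ k, ConjClasses.mk k = ConjClasses.mk (h.ι c) → IsConj k k⁻¹) ∧
      ∀ k, ConjClasses.mk k = ConjClasses.mk (h.ι c) → ∀ s : S, IsConj k (h.φ s k) := by
    intro c hc
    refine ⟨fun k hk => ?_, fun k hk s => ?_⟩ <;> have h2 := ConjClasses.mk_eq_mk_iff_isConj.mp hk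
    · exact (h2.trans (by simpa using h.ι.map_isConj hc)).trans (isConj_inv h2).symm
    · have h3 := (h.φ s).toMonoidHom.map_isConj h2
      simp only [MulEquiv.coe_toMonoidHom, h.fix] at h3
      exact h2.trans h3.symm
  refine Nat.card_congr (Equiv.ofBijective (fun D => ⟨Quotient.liftOn D.1
    (fun c => ConjClasses.mk (h.ι c)) (fun a b e => ConjClasses.mk_eq_mk_iff_isConj.mpr (h.ι.map_isConj e)), ?_⟩) ⟨?_, ?_⟩)
  · obtain ⟨c, hc⟩ := ConjClasses.mk_surjective D.1
    have hcr := D.2 c hc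
    rw [← hc]
    exact key c hcr
  · rintro ⟨D, hD⟩ ⟨E, hE⟩ e
    obtain ⟨a, rfl⟩ := ConjClasses.mk_surjective D
    obtain ⟨b, rfl⟩ := ConjClasses.mk_surjective E
    exact Subtype.ext (ConjClasses.mk_eq_mk_iff_isConj.mpr ((isConj_iff_fixed h a b).mp
      (ConjClasses.mk_eq_mk_iff_isConj.mp (congrArg Subtype.val e))))
  · rintro ⟨D, hcr, hci⟩
    obtain ⟨k, rfl⟩ := ConjClasses.mk_surjective D
    obtain ⟨d, hd⟩ := exists_fixed_conj h (hci k rfl)
    refine ⟨⟨ConjClasses.mk d, fun e he => ?_⟩, Subtype.ext (ConjClasses.mk_eq_mk_iff_isConj.mpr hd.symm)⟩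
    refine (isConj_iff_fixed h e e⁻¹).mp ?_
    have h2 : IsConj (h.ι e) k := (h.ι.map_isConj (ConjClasses.mk_eq_mk_iff_isConj.mp he)).trans hd.symm
    rw [map_inv]
    exact (h2.trans (hcr k rfl)).trans (isConj_inv h2.symm)

/-- Let P and K be subgroups of a finite group with P a p-group normalizing K and K of order prime to p. Then the number of P-invariant real-valued irreducible complex characters of K equals the number of conjugacy classes of K that are real (closed under inversion) and P-invariant. Moreover, if every real-valued irreducible character of K is P-invariant, then every real element of K (one conjugate in K to its inverse) is conjugate in K to an element centralized by P. -/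
theorem result {G : Type*} [Group G] [Finite G] (p : ℕ) [Fact p.Prime] (P K : Subgroup G) (hP : IsPGroup p ↥P) (hK : ¬ p ∣ Nat.card ↥K) (hPK : P ≤ Subgroup.normalizer (K : Set G)) : Nat.card {θ : Cfsg.IrrCharacter ↥K // (∀ k : ↥K, ((θ : ↥K → ℂ) k).im = 0) ∧ (∀ x ∈ P, ∀ k k' : ↥K, (k' : G) = x * (k : G) * x⁻¹ → (θ : ↥K → ℂ) k' = (θ : ↥K → ℂ) k)} = Nat.card {c : ConjClasses ↥K // (∀ k : ↥K, ConjClasses.mk k = c → IsConj k k⁻¹) ∧ ∀ k : ↥K, ConjClasses.mk k = c → ∀ x ∈ P, ∀ k' : ↥K, (k' : G) = x * (k : G) * x⁻¹ → ConjClasses.mk k' = c} ∧ ((∀ θ : Cfsg.IrrCharacter ↥K, (∀ k : ↥K, ((θ : ↥K → ℂ) k).im = 0) → (∀ x ∈ P, ∀ k k' : ↥K, (k' : G) = x * (k : G) * x⁻¹ → (θ : ↥K → ℂ) k' = (θ : ↥K → ℂ) k)) → ∀ k : ↥K, IsConj k k⁻¹ → ∃ k' : ↥K, IsConj k k' ∧ ∀ x ∈ P, x * (k' : G) * x⁻¹ = (k' : G)) := by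
  classical
  haveI := Fintype.ofFinite G
  haveI : Fintype ↥K := Fintype.ofFinite _
  have hp := (Fact.out : p.Prime)
  obtain ⟨M, hM⟩ := exists_isPModular hp
  have hmem : ∀ (x : P) (k : K), (x : G) * k * (x : G)⁻¹ ∈ K := fun x k =>
    (Subgroup.mem_normalizer_iff.mp (hPK x.2) k).mp k.2
  have hmem' : ∀ (x : P) (k : K), (x : G)⁻¹ * k * (x : G) ∈ K := fun x k => by
    simpa using hmem x⁻¹ k
  let φ : P →* MulAut K :=
    { toFun := fun x =>
        { toFun := fun k => ⟨(x : G) * k * (x : G)⁻¹, hmem x k⟩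
          invFun := fun k => ⟨(x : G)⁻¹ * k * (x : G), hmem' x k⟩
          left_inv := fun k => Subtype.ext (show (x : G)⁻¹ * ((x : G) * k * (x : G)⁻¹) * (x : G) = k by group)
          right_inv := fun k => Subtype.ext (show (x : G) * ((x : G)⁻¹ * k * (x : G)) * (x : G)⁻¹ = k by group)
          map_mul' := fun a b => Subtype.ext (show (x : G) * ((a * b : K) : G) * (x : G)⁻¹ =
            (x : G) * a * (x : G)⁻¹ * ((x : G) * b * (x : G)⁻¹) by rw [Subgroup.coe_mul]; group) }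
      map_one' := MulEquiv.ext fun k => Subtype.ext (show ((1 : P) : G) * k * ((1 : P) : G)⁻¹ = k by simp)
      map_mul' := fun x y => MulEquiv.ext fun k => Subtype.ext (show ((x * y : P) : G) * k * ((x * y : P) : G)⁻¹ =
        (x : G) * ((y : G) * k * (y : G)⁻¹) * (x : G)⁻¹ by rw [Subgroup.coe_mul]; group) }
  have hφ : ∀ (x : P) (k : K), (φ x k : G) = (x : G) * k * (x : G)⁻¹ := fun _ _ => rfl
  let C : Subgroup K :=
    { carrier := {k | ∀ x : P, φ x k = k}
      one_mem' := fun x => map_one _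
      mul_mem' := fun {a b} ha hb x => by rw [map_mul, ha x, hb x]
      inv_mem' := fun {a} ha x => by rw [map_inv, ha x] }
  haveI : Fintype C := Fintype.ofFinite _
  let h : Setting K C P p :=
    { φ := φ
      ι := C.subtype
      inj := C.subtype_injective
      mem := fun g => ⟨fun hg => ⟨⟨g, hg⟩, rfl⟩, fun ⟨c, hc⟩ => hc ▸ c.2⟩
      pgroup := hP
      prime := hp
      ndvd := hK }
  have hA : Nat.card {θ : IrrCharacter K // (∀ k : K, ((θ : K → ℂ) k).im = 0) ∧
      (∀ x ∈ P, ∀ k k' : K, (k' : G) = x * (k : G) * x⁻¹ → (θ : K → ℂ) k' = (θ : K → ℂ) k)} =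
      Nat.card {θ : IrrCharacter K // (∀ k : K, ((θ : K → ℂ) k).im = 0) ∧ IsInv h.φ (θ : K → ℂ)} :=
    Nat.card_congr (Equiv.subtypeEquivRight fun θ => and_congr_right fun _ =>
      ⟨fun hi x k => hi x x.2 k _ (hφ x k), fun hi x hx k k' hk => by
        rw [show k' = φ ⟨x, hx⟩ k from Subtype.ext hk]; exact hi _ _⟩)
  have hB : Nat.card {c : ConjClasses ↥K // (∀ k : ↥K, ConjClasses.mk k = c → IsConj k k⁻¹) ∧ ∀ k : ↥K, ConjClasses.mk k = c → ∀ x ∈ P, ∀ k' : ↥K, (k' : G) = x * (k : G) * x⁻¹ → ConjClasses.mk k' = c} =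
      Nat.card {D : ConjClasses K // (∀ k, ConjClasses.mk k = D → IsConj k k⁻¹) ∧
        ∀ k, ConjClasses.mk k = D → ∀ s : P, IsConj k (h.φ s k)} := by
    refine Nat.card_congr (Equiv.subtypeEquivRight fun D => and_congr_right fun _ => forall_congr' fun k =>
      imp_congr_right fun hk => ⟨fun hi s => ?_, fun hi x hx k' hk' => ?_⟩)
    · exact (ConjClasses.mk_eq_mk_iff_isConj.mp ((hi s s.2 _ (hφ s k)).trans hk.symm)).symm
    · rw [show k' = φ ⟨x, hx⟩ k from Subtype.ext hk', ← hk]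
      exact ConjClasses.mk_eq_mk_iff_isConj.mpr (hi ⟨x, hx⟩).symm
  have hmain := (card_real_chars h hM).trans (CfsgLib.CharExtra.card_real.trans (card_real_classes h))
  refine ⟨(hA.trans hmain).trans hB.symm, fun hall k hk => ?_⟩
  haveI : Finite (IrrCharacter K) := finite_irr K
  haveI : Finite (ConjClasses K) := Finite.of_surjective _ ConjClasses.mk_surjective
  have heq : Nat.card {c : ConjClasses ↥K // ∀ k : ↥K, ConjClasses.mk k = c → IsConj k k⁻¹} =
      Nat.card {D : ConjClasses K // (∀ k, ConjClasses.mk k = D → IsConj k k⁻¹) ∧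
        ∀ k, ConjClasses.mk k = D → ∀ s : P, IsConj k (h.φ s k)} := by
    rw [← hmain, ← hA, ← CfsgLib.CharExtra.card_real]
    exact Nat.card_congr (Equiv.subtypeEquivRight fun θ => ⟨fun e => ⟨e, hall θ e⟩, fun e => e.1⟩)
  let incl : {D : ConjClasses K // (∀ k, ConjClasses.mk k = D → IsConj k k⁻¹) ∧
      ∀ k, ConjClasses.mk k = D → ∀ s : P, IsConj k (h.φ s k)} →
      {c : ConjClasses ↥K // ∀ k : ↥K, ConjClasses.mk k = c → IsConj k k⁻¹} := fun c => ⟨c.1, c.2.1⟩
  have hbij := Function.Injective.bijective_of_nat_card_le (f := incl)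
    (fun a b e => Subtype.ext (congrArg Subtype.val e :)) heq.le
  obtain ⟨cc, hcc⟩ := hbij.2 ⟨ConjClasses.mk k, fun j hj =>
    ((ConjClasses.mk_eq_mk_iff_isConj.mp hj).trans hk).trans (isConj_inv (ConjClasses.mk_eq_mk_iff_isConj.mp hj)).symm⟩
  have hck : cc.1 = ConjClasses.mk k := congrArg Subtype.val hcc
  obtain ⟨d, hd⟩ := exists_fixed_conj h (cc.2.2 k hck.symm)
  exact ⟨d, hd, fun x hx => congrArg Subtype.val (d.2 ⟨x, hx⟩)⟩

end Cfsg.Agent.S4911
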