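import Cfsg.Statements.S4916
import Cfsg.Agent.Lib.Blocks.Orth
import Cfsg.Agent.Lib.Blocks.Contribution

set_option autoImplicit false
open Cfsg

namespace Cfsg.Agent.S4916

open CfsgLib.Chars CfsgLib.Blocks

/-- Let G be a finite group, p a prime and M a maximal ideal of the algebraic integers containing p. Then the principal character is the only irreducible character of degree prime to p in the principal p-block of G if and only if p does not divide the order of G. -/
theorem result {G : Type*} [Group G] [Finite G] (p : ℕ) [Fact p.Prime] (M : Ideal Cfsg.AlgInt) (hM : Cfsg.IsPModular p M) : (∀ χ : Cfsg.IrrCharacter G, χ ∈ Cfsg.principalBlock M G → ¬ p ∣ Cfsg.charDegree (χ : G → ℂ) → (χ : G → ℂ) = fun _ => (1 : ℂ)) ↔ ¬ p ∣ Nat.card G := by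
  classical
  haveI : Fintype G := Fintype.ofFinite G
  have hd1 : Cfsg.charDegree (trivIrr G : G → ℂ) = 1 := by simp [Cfsg.charDegree, trivIrr]
  have hmem : trivIrr G ∈ Cfsg.principalBlock M G := self_mem_blockOf hM (trivIrr G)
  constructor
  · intro h hdvd
    obtain ⟨y, hy⟩ := exists_prime_orderOf_dvd_card' p hdvd
    set S := Finset.univ.filter (· ∈ Cfsg.principalBlock M G)
    have h0 := weak_orthogonality hM (B := Cfsg.principalBlock M G) isPBlock_principalBlock
      (not_dvd_orderOf_one hM) (y := y) (by rw [hy])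
    have hm : ∀ χ ∈ S, Cfsg.MemLocalIdeal M ((χ : G → ℂ) 1 * (starRingEnd ℂ) ((χ : G → ℂ) y) -
        ((Cfsg.charDegree (χ : G → ℂ) ^ 2 : ℕ) : ℂ)) := by
      intro χ _
      have h1 := mli_char_pElt_mul hM (isCharacter_irr χ) (x := y⁻¹) (c := 1) (k := 1)
        (by rw [orderOf_inv, hy, pow_one]) (Commute.one_right _) (not_dvd_orderOf_one hM)
      rw [mul_one, IsCharacter.map_inv (isCharacter_irr χ), irr_apply_one] at h1
      rw [irr_apply_one, Nat.cast_pow, sq, ← mul_sub]
      exact mli_mul_left hM (mlr_natCast hM _) h1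
    have h2 := mli_sum hM _ hm
    rw [Finset.sum_sub_distrib, h0, zero_sub, ← Nat.cast_sum] at h2
    have h3 := mli_neg h2
    rw [neg_neg, mli_natCast_iff hM, ← Finset.add_sum_erase S _
      (Finset.mem_filter.mpr ⟨Finset.mem_univ _, hmem⟩), hd1, one_pow] at h3
    have h4 : p ∣ ∑ χ ∈ S.erase (trivIrr G), Cfsg.charDegree (χ : G → ℂ) ^ 2 := by
      refine Finset.dvd_sum fun χ hχ => dvd_pow ?_ two_ne_zero
      obtain ⟨hne, hχS⟩ := Finset.mem_erase.mp hχ
      by_contra hnd
      exact hne (Subtype.ext (by rw [h χ (Finset.mem_filter.mp hχS).2 hnd]; rfl))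
    exact hM.1.not_dvd_one ((Nat.dvd_add_iff_left h4).mpr h3)
  · intro hnd χ hχ _
    have hpp : p ^ (Nat.card G).factorization p ∣ Cfsg.charDegree (trivIrr G : G → ℂ) := by
      rw [Nat.factorization_eq_zero_of_not_dvd hnd, pow_zero]; exact one_dvd _
    have h1 : Cfsg.principalBlock M G = {trivIrr G} := by
      rw [principalBlock_eq]
      exact blockOf_eq_singleton (χ := trivIrr G) hM hpp
    rw [h1, Set.mem_singleton_iff] at hχ
    rw [hχ]
    rfl

end Cfsg.Agent.S4916
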