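import Cfsg.Statements.S4989
import Cfsg.Agent.Lib.Chars.Galois

set_option autoImplicit false
open Cfsg

namespace Cfsg.Agent.S4989

open CfsgLib.Chars

/-- Let H be a subgroup of the finite group G and χ an irreducible complex character of G. Then the inner product of the restriction of χ to H with itself, (1/#H)·Σ_{h ∈ H} |χ(h)|², is at most 1 + #(Z ∖ H)/#H, where Z is the set of zeros of χ in G. -/
theorem result {G : Type*} [Group G] [Finite G] (H : Subgroup G) (χ : Cfsg.IrrCharacter G) : (Nat.card ↥H : ℝ)⁻¹ * ∑ᶠ h : ↥H, ‖(χ : G → ℂ) h‖ ^ 2 ≤ 1 + (Set.ncard ({x : G | (χ : G → ℂ) x = 0} \ (H : Set G)) : ℝ) / (Nat.card ↥H : ℝ) := by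
  classical
  haveI := Fintype.ofFinite G
  haveI : Fintype H := Fintype.ofFinite H
  set T := Finset.univ.filter (fun x : G => x ∉ H ∧ (χ : G → ℂ) x ≠ 0) with hT
  have hTb : (T.card : ℝ) ≤ ∑ x ∈ T, ‖(χ : G → ℂ) x‖ ^ 2 := by
    refine card_le_sum_norm_pow (isCharacter_irr χ) 2 T ?_ fun h hh => (Finset.mem_filter.mp hh).2.2
    intro h hh h' e
    obtain ⟨-, h1, h2⟩ := Finset.mem_filter.mp hh
    refine Finset.mem_filter.mpr ⟨Finset.mem_univ _, fun hH => h1 ?_, ?_⟩
    · have : h ∈ Subgroup.zpowers h' := e ▸ Subgroup.mem_zpowers h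
      exact Subgroup.zpowers_le.mpr hH this
    · intro h0
      exact h2 (IsCharacter.eq_zero_of_zpowers_eq (isCharacter_irr χ) e h0)
  have htot : ∑ x : G, ‖(χ : G → ℂ) x‖ ^ 2 = (Nat.card G : ℝ) := by
    have h := sum_mul_conj_irr χ χ
    rw [if_pos rfl] at h
    simp only [Complex.mul_conj, Complex.normSq_eq_norm_sq] at h
    exact_mod_cast h
  rw [finsum_eq_sum_of_fintype]
  have hH : (0 : ℝ) < Nat.card ↥H := by exact_mod_cast Nat.card_pos
  have hcard : (Nat.card G : ℝ) = (Nat.card ↥H : ℝ) +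
      (Set.ncard ({x : G | (χ : G → ℂ) x = 0} \ (H : Set G)) : ℝ) + T.card := by
    have e1 : (Set.ncard ({x : G | (χ : G → ℂ) x = 0} \ (H : Set G))) =
        (Finset.univ.filter (fun x : G => x ∉ H ∧ (χ : G → ℂ) x = 0)).card := by
      rw [← Set.ncard_coe_finset]
      congr 1
      ext x
      simp [and_comm]
    have e2 : Nat.card ↥H = (Finset.univ.filter (fun x : G => x ∈ H)).card := by
      rw [Nat.card_eq_fintype_card, Fintype.card_subtype]
    rw [e1, e2, hT, ← Nat.cast_add, ← Nat.cast_add, Nat.card_eq_fintype_card, Nat.cast_inj,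
      ← Finset.card_union_of_disjoint, ← Finset.card_union_of_disjoint, ← Finset.card_univ]
    · congr 1
      ext x
      simp only [Finset.mem_univ, Finset.mem_union, Finset.mem_filter, true_and]
      tauto
    · rw [Finset.disjoint_left]
      intro x hx hx'
      simp only [Finset.mem_union, Finset.mem_filter, Finset.mem_univ, true_and] at hx hx'
      tauto
    · rw [Finset.disjoint_left]
      intro x hx hx'
      simp only [Finset.mem_filter, Finset.mem_univ, true_and] at hx hx'
      tauto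
  have hle : (∑ h : ↥H, ‖(χ : G → ℂ) h‖ ^ 2) + ∑ x ∈ T, ‖(χ : G → ℂ) x‖ ^ 2 ≤
      (Nat.card G : ℝ) := by
    rw [← htot, ← Finset.sum_subtype (Finset.univ.filter (fun x : G => x ∈ H)) (by simp)
      (fun x : G => ‖(χ : G → ℂ) x‖ ^ 2), ← Finset.sum_union]
    · exact Finset.sum_le_univ_sum_of_nonneg fun x => by positivity
    · rw [Finset.disjoint_left]
      intro x hx hx'
      simp only [hT, Finset.mem_filter, Finset.mem_univ, true_and] at hx hx'
      exact hx'.1 hx
  rw [inv_mul_le_iff₀ hH, mul_add, mul_one, mul_div_cancel₀ _ hH.ne']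
  linarith

end Cfsg.Agent.S4989
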