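import Cfsg.Statements.S4996
import Cfsg.Agent.Lib.Chars.Galois
import Cfsg.Agent.Lib.Chars.Misc
import Cfsg.Agent.Lib.Chars.Kernel
import Cfsg.Agent.Lib.Chars.Linear

set_option autoImplicit false
open Cfsg

namespace Cfsg.Agent.S4996

open CfsgLib.Chars
open scoped ComplexConjugate

/-- Let N be a normal subgroup of the finite group G and χ an irreducible complex character of G. Then the restriction of χ to N is not irreducible if and only if χ vanishes on some whole coset Nx of N in G. -/
theorem result {G : Type*} [Group G] [Finite G] (N : Subgroup G) [N.Normal] (χ : Cfsg.IrrCharacter G) : ¬ Cfsg.IsIrrCharacter ↥N (fun n : ↥N => (χ : G → ℂ) n) ↔ ∃ x : G, ∀ n : ↥N, (χ : G → ℂ) ((n : G) * x) = 0 := by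
  classical
  haveI := Fintype.ofFinite G
  haveI : Fintype N := Fintype.ofFinite N
  have hNc : (Nat.card N : ℂ) ≠ 0 := by exact_mod_cast Nat.card_pos.ne'
  have hcf : ∀ {θ : G → ℂ}, IsCharacter G θ → IsClassFunction G θ :=
    fun h => IsCharacter.isClassFunction h
  let e : G → ℂ := fun g => if g ∈ N then 1 else 0
  have he : IsClassFunction G e := by
    intro g h
    have : h * g * h⁻¹ ∈ N ↔ g ∈ N := by
      refine ⟨fun hh => ?_, fun hh => Subgroup.Normal.conj_mem inferInstance g hh h⟩
      have := Subgroup.Normal.conj_mem (inferInstance : N.Normal) _ hh h⁻¹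
      simpa [mul_assoc] using this
    by_cases hg : g ∈ N
    · simp only [e, if_pos hg, if_pos (this.mpr hg)]
    · simp only [e, if_neg hg, if_neg (mt this.mp hg)]
  let av : (G → ℂ) → G → ℂ := fun θ x => (Nat.card N : ℂ)⁻¹ * ∑ n : N, θ ((n : G) * x)
  have hav : ∀ (θ : G → ℂ) (x : G), ∑ y : G, e y * θ (y * x) = ∑ n : N, θ ((n : G) * x) := by
    intro θ x
    simp only [e, ite_mul, one_mul, zero_mul]
    rw [← Finset.sum_filter, Finset.sum_subtype (p := fun y => y ∈ N) _ (by simp)]
  have hirr : ∀ θ : IrrCharacter G, IsCharacter G (av (θ : G → ℂ)) := by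
    intro θ
    have hω : omega (θ : G → ℂ) e * omega (θ : G → ℂ) e = (Nat.card N : ℂ) * omega (θ : G → ℂ) e := by
      rw [← omega_conv θ he he, ← omega_const_mul]
      congr 1
      funext z
      simp only [CfsgLib.Chars.conv, e, ite_mul, one_mul, zero_mul]
      rw [← Finset.sum_filter]
      have : ∀ y ∈ Finset.univ.filter (fun y => y ∈ N),
          (if y⁻¹ * z ∈ N then (1 : ℂ) else 0) = if z ∈ N then 1 else 0 := fun y hy =>
        if_congr (N.mul_mem_cancel_left (inv_mem (Finset.mem_filter.mp hy).2)) rfl rfl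
      rw [Finset.sum_congr rfl this, Finset.sum_const, nsmul_eq_mul, Nat.card_eq_fintype_card,
        Fintype.card_subtype]
    have h2 : av (θ : G → ℂ) = fun x => (omega (θ : G → ℂ) e / (Nat.card N : ℂ)) * (θ : G → ℂ) x := by
      funext x
      change (Nat.card N : ℂ)⁻¹ * _ = _
      rw [← hav, sum_classFunction_mul θ he]
      ring
    rcases eq_or_ne (omega (θ : G → ℂ) e) 0 with h0 | h0
    · rw [h2, h0]
      convert IsCharacter.nsmul (isCharacter_irr θ) 0 using 1
      funext x; simp
    · rw [h2, mul_right_cancel₀ h0 hω, div_self hNc]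
      simpa using isCharacter_irr θ
  have hch : ∀ {θ : G → ℂ}, IsCharacter G θ → IsCharacter G (av θ) := by
    intro θ hθ
    obtain ⟨l, hl⟩ := exists_list_irr hθ
    subst hl
    clear hθ
    induction l with
    | nil =>
      have : av ((([] : List (IrrCharacter G)).map Subtype.val).sum) = 0 := by
        funext x; simp [av]
      rw [this]
      simpa using IsCharacter.nsmul (isCharacter_irr χ) 0
    | cons a t ih =>
      have : av (((a :: t).map Subtype.val).sum) = av (a : G → ℂ) + av ((t.map Subtype.val).sum) := by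
        funext x; simp [av, Finset.sum_add_distrib, mul_add]
      rw [this]
      exact IsCharacter.add (hirr a) ih
  let φ : G → ℂ := (χ : G → ℂ) * fun g => conj ((χ : G → ℂ) g)
  have hφ : IsCharacter G φ :=
    IsCharacter.mul (isCharacter_irr χ) (isCharacter_irr ⟨_, isIrrCharacter_conj χ⟩)
  set f := av φ with hf
  have hfc : IsCharacter G f := hch hφ
  have hfx : ∀ x, f x = (((Nat.card N : ℝ)⁻¹ * ∑ n : N, ‖(χ : G → ℂ) ((n : G) * x)‖ ^ 2 : ℝ) : ℂ) := by
    intro x
    simp [f, av, φ, Complex.mul_conj, Complex.normSq_eq_norm_sq]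
  have hN1 : ∀ a ∈ N, f a = f 1 := by
    intro a ha
    simp only [f, av, mul_one]
    congr 1
    exact Fintype.sum_equiv (Equiv.mulRight (⟨a, ha⟩ : N)) _ _ fun n => rfl
  have hinner : f 1 = classInner (fun n : N => (χ : G → ℂ) n) (fun n : N => (χ : G → ℂ) n) := by
    simp [f, av, φ, classInner]
  have hres : IsCharacter N (fun n : N => (χ : G → ℂ) n) := IsCharacter.restrict (isCharacter_irr χ) N
  constructor
  · intro hni
    by_contra hne
    push_neg at hne
    obtain ⟨m, hm⟩ := exists_mult_character hres hres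
    have hm1 : m ≠ 1 := fun h => hni (isIrrCharacter_of_norm_one hres (by rw [hm, h, Nat.cast_one]))
    have hfne : ∀ x, f x ≠ 0 := by
      intro x h0
      obtain ⟨n, hn⟩ := hne x
      rw [hfx, Complex.ofReal_eq_zero, mul_eq_zero] at h0
      rcases h0 with h0 | h0
      · exact (inv_ne_zero (by exact_mod_cast Nat.card_pos.ne')) h0
      · have := (Finset.sum_eq_zero_iff_of_nonneg (fun i _ => by positivity)).mp h0 n
          (Finset.mem_univ _)
        exact hn (by simpa using this)
    have hm2 : 2 ≤ m := by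
      rcases Nat.eq_zero_or_pos m with h | h
      · exact absurd (by rw [hinner, hm, h, Nat.cast_zero]) (hfne 1)
      · omega
    have hbig := card_le_sum_norm_pow hfc 1 (Finset.univ.filter (fun x => x ∉ N)) ?_
      (fun x _ => hfne x)
    swap
    · intro h hh h' e'
      refine Finset.mem_filter.mpr ⟨Finset.mem_univ _, fun hN => (Finset.mem_filter.mp hh).2 ?_⟩
      exact Subgroup.zpowers_le.mpr hN (e' ▸ Subgroup.mem_zpowers h : h ∈ Subgroup.zpowers h')
    simp only [pow_one] at hbig
    have hnorm : ∀ x, ((‖f x‖ : ℝ) : ℂ) = f x := by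
      intro x
      rw [hfx, Complex.norm_real, Real.norm_of_nonneg (by positivity)]
    have htot : ∑ x : G, f x = (Nat.card G : ℂ) := by
      have hφs : ∑ x : G, φ x = (Nat.card G : ℂ) := by
        have := sum_mul_conj_irr χ χ
        rw [if_pos rfl] at this
        exact this
      simp only [f, av]
      rw [← Finset.mul_sum, Finset.sum_comm]
      have : ∀ n : N, ∑ x : G, φ ((n : G) * x) = (Nat.card G : ℂ) := fun n =>
        (Equiv.sum_comp (Equiv.mulLeft (n : G)) φ).trans hφs
      rw [Finset.sum_congr rfl (fun n _ => this n), Finset.sum_const, nsmul_eq_mul,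
        Finset.card_univ, ← Nat.card_eq_fintype_card, ← mul_assoc, inv_mul_cancel₀ hNc, one_mul]
    have htot' : ∑ x : G, ‖f x‖ = (Nat.card G : ℝ) := by
      apply Complex.ofReal_injective
      rw [Complex.ofReal_sum, Finset.sum_congr rfl (fun x _ => hnorm x), htot,
        Complex.ofReal_natCast]
    rw [← Finset.sum_filter_add_sum_filter_not Finset.univ (fun x => x ∈ N)] at htot'
    have hin : ∀ x ∈ Finset.univ.filter (fun x => x ∈ N), ‖f x‖ = (m : ℝ) := fun x hx => by
      rw [hN1 x (Finset.mem_filter.mp hx).2, hinner, hm, Complex.norm_natCast]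
    rw [Finset.sum_congr rfl hin, Finset.sum_const, nsmul_eq_mul] at htot'
    have hsplit := Finset.card_filter_add_card_filter_not (s := (Finset.univ : Finset G))
      (fun x => x ∈ N)
    have hpos : 0 < (Finset.univ.filter (fun x => x ∈ N)).card :=
      Finset.card_pos.mpr ⟨1, by simp [one_mem]⟩
    rw [Nat.card_eq_fintype_card, ← Finset.card_univ, ← hsplit, Nat.cast_add] at htot'
    have hm2' : (2 : ℝ) ≤ m := by exact_mod_cast hm2
    have hpos' : (0 : ℝ) < ((Finset.univ.filter (fun x => x ∈ N)).card : ℝ) := by exact_mod_cast hpos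
    nlinarith
  · rintro ⟨x, hx⟩ hi
    have h1 : f 1 = 1 := by
      rw [hinner]
      have := classInner_irr (G := N) ⟨_, hi⟩ ⟨_, hi⟩
      rwa [if_pos rfl] at this
    obtain ⟨g, hg⟩ := IsCharacter.exists_hom hfc h1
    have : f x = 0 := by rw [hfx]; simp [hx]
    rw [congrFun hg x] at this
    exact (g x).ne_zero this

end Cfsg.Agent.S4996
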