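import Cfsg.Statements.S5001
import Cfsg.Agent.Lib.Blocks.Contribution
import Cfsg.Agent.Lib.Blocks.DefectClass
import Cfsg.Agent.Lib.Chars.Linear
import Cfsg.Agent.Lib.Chars.Misc
import Mathlib.GroupTheory.NoncommCoprod

set_option autoImplicit false
open Cfsg

namespace Cfsg.Agent.S5001

open CfsgLib.Chars CfsgLib.Blocks
open scoped ComplexConjugate

/-- Let p be a prime, G a finite group and B a p-block of G (relative to a maximal ideal M of the algebraic integers containing p) with defect group D. Let Z be a central p-subgroup of G contained in D and λ a linear character of Z (a homomorphism to the nonzero complex numbers). Say an irreducible character χ of G lies over λ when χ(z) = χ(1)λ(z) for all z ∈ Z. If some irreducible character in B lying over λ has height zero, then λ extends to a linear character of D. -/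
theorem result {G : Type*} [Group G] [Finite G] (p : ℕ) [Fact p.Prime] (M : Ideal Cfsg.AlgInt) (hM : Cfsg.IsPModular p M) (B : Set (Cfsg.IrrCharacter G)) (hB : Cfsg.IsPBlock M B) (D : Subgroup G) (hD : Cfsg.IsDefectGroup p M B D) (Z : Subgroup G) (hZc : Z ≤ Subgroup.center G) (hZp : IsPGroup p ↥Z) (hZD : Z ≤ D) (lam : ↥Z →* ℂˣ) (χ : Cfsg.IrrCharacter G) (hχ : χ ∈ B) (hover : (∀ z : ↥Z, (χ : G → ℂ) z = (χ : G → ℂ) 1 * (lam z : ℂ))) (h0 : Cfsg.blockHeight p B (χ : G → ℂ) = 0) : (∃ μ : ↥D →* ℂˣ, ∀ z : ↥Z, μ ⟨(z : G), hZD z.2⟩ = lam z) := by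
  classical
  haveI : Fintype G := Fintype.ofFinite G
  haveI : Fintype D := Fintype.ofFinite _
  have hD' := hD
  obtain ⟨g, hg, P, hDP⟩ := hD'
  have hcomm : ∀ d : D, Commute (d : G) g := fun d =>
    Subgroup.mem_centralizer_singleton_iff.mp ((hDP.le.trans (Subgroup.map_subtype_le _)) d.2)
  -- the value at the defect element is a local unit
  have hgv : ¬ MemLocalIdeal M ((χ : G → ℂ) g) := by
    intro hgv
    have hd : (Nat.card (Subgroup.centralizer ({g} : Set G))).factorization p = blockDefect p B := by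
      have h1 := card_defectGroup hM hB hD
      rw [hDP] at h1
      have h2 := (P : Subgroup (Subgroup.centralizer ({g} : Set G))).card_map_of_injective (Subgroup.centralizer ({g} : Set G)).subtype_injective
      have h3 : Nat.card (P : Subgroup (Subgroup.centralizer ({g} : Set G))) = p ^ blockDefect p B := h2.symm.trans h1
      rw [Sylow.card_eq_multiplicity] at h3
      exact Nat.pow_right_injective hM.1.two_le h3
    apply hg.2.2 χ hχ
    set e := (charDegree (χ : G → ℂ)).factorization p with he
    have hidx : (Subgroup.centralizer ({g} : Set G)).index.factorization p = e := by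
      have h1 := congrArg (fun n : ℕ => n.factorization p) (Subgroup.centralizer ({g} : Set G)).index_mul_card
      simp only [Nat.factorization_mul (Subgroup.centralizer ({g} : Set G)).index_ne_zero_of_finite Nat.card_pos.ne',
        Finsupp.add_apply] at h1
      have h2 := minExp_add_defect (p := p) hχ
      have h3 := minExp_add_height (p := p) hχ
      rw [← he, h0] at h3
      omega
    have hdeg := Nat.ordProj_mul_ordCompl_eq_self (charDegree (χ : G → ℂ)) p
    have hind := Nat.ordProj_mul_ordCompl_eq_self (Subgroup.centralizer ({g} : Set G)).index p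
    rw [← he] at hdeg
    rw [hidx] at hind
    have hw' := Nat.not_dvd_ordCompl hM.1 (charDegree_pos χ).ne'
    rw [← he] at hw'
    rw [centralChar, irr_apply_one, ← hdeg, show ((Subgroup.centralizer ({g} : Set G)).index : ℂ) =
      ((p ^ e * ((Subgroup.centralizer ({g} : Set G)).index / p ^ e) : ℕ) : ℂ) by rw [hind]]
    have hp0 : ((p : ℂ) ^ e) ≠ 0 := pow_ne_zero _ (Nat.cast_ne_zero.mpr hM.1.ne_zero)
    push_cast
    rw [mul_assoc, mul_div_mul_left _ _ hp0, div_eq_mul_inv]
    exact mli_mul_right hM (mli_mul_left hM (mlr_natCast hM _) hgv) (mlr_natCast_inv hM hw')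
  set f : D → ℂ := fun d => (χ : G → ℂ) ((d : G) * g) with hfdef
  have hfc : IsClassFunction D f := by
    intro a h
    simp only [hfdef, Subgroup.coe_mul, InvMemClass.coe_inv]
    rw [show (h : G) * (a : G) * (h : G)⁻¹ * g = (h : G) * ((a : G) * g) * (h : G)⁻¹ by
      rw [mul_assoc _ ((h : G)⁻¹) g, (hcomm h).inv_left.eq]; group]
    exact IsCharacter.isClassFunction (isCharacter_irr χ) _ _
  -- the multiplicities are local integers
  let Q := Subgroup.zpowers g
  haveI : Fintype Q := Fintype.ofFinite _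
  have hc : ∀ (m : D) (n : Q), Commute (D.subtype m) (Q.subtype n) := fun m n => by
    obtain ⟨i, hi⟩ := Subgroup.mem_zpowers_iff.mp n.2
    change Commute (m : G) (n : G)
    rw [← hi]
    exact (hcomm m).zpow_right i
  let φ : D × Q →* G := D.subtype.noncommCoprod Q.subtype hc
  have hφ : IsCharacter (D × Q) (fun k => (χ : G → ℂ) (φ k)) :=
    IsCharacter.comp (isCharacter_irr χ) φ
  obtain ⟨l, hl⟩ := exists_list_irr hφ
  let z₀ : D × Q := (1, ⟨g, Subgroup.mem_zpowers g⟩)
  have hz₀ : z₀ ∈ Subgroup.center (D × Q) := by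
    rw [Subgroup.mem_center_iff]
    rintro ⟨a, b⟩
    obtain ⟨i, hi⟩ := Subgroup.mem_zpowers_iff.mp b.2
    refine Prod.ext (by simp [z₀]) (Subtype.ext ?_)
    simp only [Prod.mk_mul_mk, Subgroup.coe_mul, ← hi, z₀]
    exact ((Commute.refl g).zpow_left i).eq
  have hmlr : ∀ ξ : IrrCharacter D, MemLocalRing M (classInner f (ξ : D → ℂ)) := by
    intro ξ
    have e : f = fun d => (l.map fun θ : IrrCharacter (D × Q) =>
        (θ : D × Q → ℂ) z₀ / (θ : D × Q → ℂ) 1 * (θ : D × Q → ℂ) (d, 1)).sum := by
      funext d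
      have h1 := congrFun hl (d, (⟨g, Subgroup.mem_zpowers g⟩ : Q))
      have h2 : φ (d, (⟨g, Subgroup.mem_zpowers g⟩ : Q)) = (d : G) * g := rfl
      simp only [h2] at h1
      simp only [hfdef]
      rw [h1]
      clear h1 hl
      induction l with
      | nil => simp
      | cons θ l ih =>
        simp only [List.map_cons, List.sum_cons, Pi.add_apply, ih]
        congr 1
        have h3 := mul_central θ hz₀ (d, (1 : Q))
        rw [show z₀ * (d, (1 : Q)) = (d, (⟨g, Subgroup.mem_zpowers g⟩ : Q)) by simp [z₀]] at h3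
        rw [div_mul_eq_mul_div, eq_div_iff (irr_one_ne_zero θ)]
        exact h3
    rw [e]
    clear e hl
    induction l with
    | nil => simpa [classInner] using mlr_zero hM
    | cons θ l ih =>
      simp only [List.map_cons, List.sum_cons]
      have e : classInner (fun d : D => (θ : D × Q → ℂ) z₀ / (θ : D × Q → ℂ) 1 * (θ : D × Q → ℂ) (d, 1) +
          (l.map fun θ : IrrCharacter (D × Q) =>
            (θ : D × Q → ℂ) z₀ / (θ : D × Q → ℂ) 1 * (θ : D × Q → ℂ) (d, 1)).sum) (ξ : D → ℂ) =
          (θ : D × Q → ℂ) z₀ / (θ : D × Q → ℂ) 1 *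
            classInner (fun d : D => (θ : D × Q → ℂ) (d, 1)) (ξ : D → ℂ) +
          classInner (fun d : D => (l.map fun θ : IrrCharacter (D × Q) =>
            (θ : D × Q → ℂ) z₀ / (θ : D × Q → ℂ) 1 * (θ : D × Q → ℂ) (d, 1)).sum) (ξ : D → ℂ) := by
        simp only [classInner, add_mul, Finset.sum_add_distrib, mul_add, Finset.mul_sum]
        congr 1
        exact Finset.sum_congr rfl fun d _ => by ring
      rw [e]
      refine mlr_add hM (mlr_mul hM ?_ ?_) ih
      · have h := mlr_centralChar hM θ z₀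
        rwa [centralChar, Subgroup.index_eq_one.mpr (Subgroup.eq_top_iff' _ |>.mpr fun a =>
          Subgroup.mem_centralizer_singleton_iff.mpr (Subgroup.mem_center_iff.mp hz₀ a)),
          Nat.cast_one, one_mul] at h
      · obtain ⟨n, hn⟩ := exists_mult
          (IsCharacter.comp (isCharacter_irr θ) (MonoidHom.inl D Q)) ξ
        have hn' : classInner (fun d : D => (θ : D × Q → ℂ) (d, 1)) (ξ : D → ℂ) = (n : ℂ) := by
          rw [← hn]
          rfl
        rw [hn']
        exact mlr_natCast hM n
  -- a linear constituent with unit multiplicity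
  have hex : ∃ ξ : IrrCharacter D, classInner f (ξ : D → ℂ) ≠ 0 ∧ charDegree (ξ : D → ℂ) = 1 := by
    by_contra hn
    push Not at hn
    apply hgv
    have h1 := classFunction_expand hfc 1
    simp only [hfdef, Subgroup.coe_one, one_mul] at h1
    rw [h1]
    refine mli_sum hM _ fun ξ _ => ?_
    by_cases h2 : classInner f (ξ : D → ℂ) = 0
    · simp only [hfdef] at h2
      rw [h2, zero_mul]
      exact mli_zero hM
    have h3 := hn ξ h2
    have h4 : p ∣ charDegree (ξ : D → ℂ) := by
      obtain ⟨a, ha⟩ := IsPGroup.iff_card.mp (defectGroup_isPGroup hD)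
      have := charDegree_dvd ξ
      rw [ha, Nat.dvd_prime_pow hM.1] at this
      obtain ⟨i, -, hi⟩ := this
      cases i with
      | zero => exact absurd (by simpa using hi) h3
      | succ i => exact hi ▸ dvd_pow_self p (Nat.succ_ne_zero i)
    rw [irr_apply_one]
    exact mli_mul_left hM (hmlr ξ) ((mli_natCast_iff hM _).mpr h4)
  obtain ⟨ξ, hξ, hξ1⟩ := hex
  obtain ⟨μ, rfl⟩ := exists_homIrr ξ hξ1
  refine ⟨μ, fun z => ?_⟩
  set d₀ : D := ⟨(z : G), hZD z.2⟩
  have hshift : ∀ d : D, f (d₀ * d) = (lam z : ℂ) * f d := fun d => by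
    simp only [hfdef, Subgroup.coe_mul]
    have h := mul_central χ (hZc z.2) ((d : G) * g)
    rw [hover z] at h
    rw [mul_assoc]
    refine mul_right_cancel₀ (irr_one_ne_zero χ) ?_
    rw [show ((d₀ : D) : G) = (z : G) from rfl, h]
    ring
  have key : classInner f (homIrr μ : D → ℂ) =
      (lam z : ℂ) * conj (μ d₀ : ℂ) * classInner f (homIrr μ : D → ℂ) := by
    conv_lhs => rw [classInner, ← Equiv.sum_comp (Equiv.mulLeft d₀)]
    rw [classInner, Finset.mul_sum, Finset.mul_sum, Finset.mul_sum]
    refine Finset.sum_congr rfl fun d _ => ?_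
    change (Nat.card D : ℂ)⁻¹ * (f (d₀ * d) * conj (μ (d₀ * d) : ℂ)) =
      (lam z : ℂ) * conj (μ d₀ : ℂ) * ((Nat.card D : ℂ)⁻¹ * (f d * conj (μ d : ℂ)))
    rw [hshift, map_mul, Units.val_mul, map_mul]
    ring
  have h5 : (lam z : ℂ) * conj (μ d₀ : ℂ) = 1 :=
    mul_right_cancel₀ hξ (by rw [one_mul]; exact key.symm)
  refine Units.ext ?_
  calc (μ d₀ : ℂ) = (lam z : ℂ) * conj (μ d₀ : ℂ) * (μ d₀ : ℂ) := by rw [h5, one_mul]
    _ = (lam z : ℂ) * ((μ d₀ : ℂ) * conj (μ d₀ : ℂ)) := by ring
    _ = (lam z : ℂ) := by rw [hom_mul_conj, mul_one]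

end Cfsg.Agent.S5001
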