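import Cfsg.Statements.S5011
import Mathlib.RepresentationTheory.Basic
import Mathlib.LinearAlgebra.Eigenspace.Triangularizable

set_option autoImplicit false
open Cfsg

namespace Cfsg.Agent.S5011

/-- Let G be a finite non-abelian simple group and ρ an irreducible complex representation of G on a space of dimension greater than one (irreducible in the sense that the only subspaces invariant under every ρ(x) are 0 and the whole space). Then for every non-identity element g of G, the centralizer of g does not act irreducibly: there is a non-zero proper subspace invariant under ρ(c) for every c commuting with g. -/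
theorem result {G : Type*} [Group G] [Finite G] [IsSimpleGroup G]
    (hG : ¬ IsMulCommutative G) {V : Type*} [AddCommGroup V] [Module ℂ V] [FiniteDimensional ℂ V]
    (ρ : Representation ℂ G V)
    (hirr : ∀ W : Submodule ℂ V, (∀ x : G, ∀ v ∈ W, ρ x v ∈ W) → W = ⊥ ∨ W = ⊤)
    (hdim : 1 < Module.finrank ℂ V) (g : G) (hg : g ≠ 1) :
    ∃ W : Submodule ℂ V, W ≠ ⊥ ∧ W ≠ ⊤ ∧ ∀ c ∈ Subgroup.centralizer ({g} : Set G), ∀ v ∈ W, ρ c v ∈ W := by
  haveI : Nontrivial V := Module.nontrivial_of_finrank_pos (R := ℂ) (Nat.lt_of_lt_of_le Nat.zero_lt_one hdim.le)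
  obtain ⟨μ, hμ⟩ := Module.End.exists_eigenvalue (ρ g)
  refine ⟨Module.End.eigenspace (ρ g) μ, Module.End.hasEigenvalue_iff.mp hμ, fun htop => ?_, ?_⟩
  · let K : Subgroup G :=
      { carrier := {x | ∃ c : ℂ, ∀ v, ρ x v = c • v}
        one_mem' := ⟨1, fun v => by simp⟩
        mul_mem' := fun {a b} ⟨c, hc⟩ ⟨d, hd⟩ => ⟨c * d, fun v => by
          rw [map_mul, Module.End.mul_apply, hd, map_smul, hc, smul_smul, mul_comm]⟩
        inv_mem' := fun {a} ⟨c, hc⟩ => ⟨c⁻¹, fun v => by
          have h1 : c • ρ a⁻¹ v = v := by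
            rw [← hc, ← Module.End.mul_apply, ← map_mul, mul_inv_cancel, map_one]; rfl
          rcases eq_or_ne c 0 with rfl | hc0
          · rw [zero_smul] at h1; rw [← h1]; simp
          · conv_rhs => rw [← h1]
            rw [smul_smul, inv_mul_cancel₀ hc0, one_smul]⟩ }
    haveI : K.Normal := ⟨fun a ⟨c, hc⟩ b => ⟨c, fun v => by
      rw [map_mul, map_mul, Module.End.mul_apply, Module.End.mul_apply, hc, map_smul,
        ← Module.End.mul_apply, ← map_mul, mul_inv_cancel, map_one]; rfl⟩⟩
    have hgK : g ∈ K := ⟨μ, fun v => Module.End.mem_eigenspace_iff.mp (htop ▸ Submodule.mem_top)⟩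
    have hK : K = ⊤ := ((inferInstance : K.Normal).eq_bot_or_eq_top).resolve_left
      fun h => hg (Subgroup.mem_bot.mp (h ▸ hgK))
    obtain ⟨v, hv⟩ := exists_ne (0 : V)
    rcases hirr (Submodule.span ℂ {v}) (fun x w hw => by
      obtain ⟨c, hc⟩ : x ∈ K := hK ▸ Subgroup.mem_top x
      rw [hc]; exact Submodule.smul_mem _ _ hw) with h | h
    · exact hv (Submodule.span_singleton_eq_bot.mp h)
    · have := finrank_span_singleton (K := ℂ) hv
      rw [h, finrank_top] at this
      omega
  · intro c hc v hv
    rw [Module.End.mem_eigenspace_iff] at hv ⊢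
    rw [← Module.End.mul_apply, ← map_mul, ← (Subgroup.mem_centralizer_singleton_iff.mp hc : c * g = g * c),
      map_mul, Module.End.mul_apply, hv, map_smul]

end Cfsg.Agent.S5011
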