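import Cfsg.Statements.S5107
import Cfsg.Agent.S5226
import Cfsg.Agent.Lib.Fusion.Group

set_option autoImplicit false
open Cfsg

namespace Cfsg.Agent.S5107

open CfsgLib
/-- If a Sylow p-subgroup S of a finite group G has nilpotency class at most two and its centre is strongly closed in S with respect to G, then every map of the fusion system of G on S is conjugation by an element of N_G(S), and S is the largest subgroup normal in that fusion system. -/
theorem result {G : Type*} [Group G] [Finite G] (p : ℕ) [Fact p.Prime] (S : Sylow p G) (hcl : ⁅(S : Subgroup G), (S : Subgroup G)⁆ ≤ (S : Subgroup G) ⊓ Subgroup.centralizer ((S : Subgroup G) : Set G)) (hZ : Cfsg.IsStronglyClosed ((S : Subgroup G) ⊓ Subgroup.centralizer ((S : Subgroup G) : Set G)) (S : Subgroup G)) : (∀ (P : Subgroup G) (φ : P →* G), φ ∈ (Cfsg.groupFusionSystem (S : Subgroup G)).Hom P → ∃ g ∈ Subgroup.normalizer ((S : Subgroup G) : Set G), ∀ x : P, φ x = g * (x : G) * g⁻¹) ∧ (Cfsg.groupFusionSystem (S : Subgroup G)).core = S := by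
  set F := Cfsg.groupFusionSystem (S : Subgroup G)
  have hF : F.IsSaturated p := Fusion.group_isSaturated (p := p) (S := S)
  set Z := (S : Subgroup G) ⊓ Subgroup.centralizer ((S : Subgroup G) : Set G)
  have hScl : F.StronglyClosed (S : Subgroup G) := ⟨le_rfl, fun _ _ _ hφ x => Fusion.apply_mem_S hφ x⟩
  have hN : F.IsNormal (S : Subgroup G) := by
    refine (Cfsg.Agent.S5226.result p S.2 F hF (S : Subgroup G)).mpr ⟨hScl, 2, ![⊥, Z, (S : Subgroup G)], rfl, rfl, ?_, ?_, ?_⟩
    · intro i j hij
      fin_cases i <;> fin_cases j <;> simp at hij <;> simp [Z]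
    · intro i
      fin_cases i
      · show ⁅Z, (S : Subgroup G)⁆ ≤ ⊥
        rw [le_bot_iff, Subgroup.commutator_eq_bot_iff_le_centralizer]
        exact inf_le_right
      · exact hcl
    · intro i
      fin_cases i
      · refine ⟨bot_le, fun φ hφ => ?_⟩
        ext y
        constructor
        · rintro ⟨x, rfl⟩
          show φ x ∈ (⊥ : Subgroup G)
          rw [show x = 1 from Subtype.ext (Subgroup.mem_bot.mp x.2), map_one]; exact one_mem _
        · intro hy
          exact ⟨1, by rw [map_one, Subgroup.mem_bot.mp hy]⟩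
      · refine ⟨inf_le_left, fun φ hφ => ?_⟩
        obtain ⟨hZS, hv, g, hg⟩ := hφ
        refine Subgroup.eq_of_le_of_card_ge ?_ (Nat.card_congr (MonoidHom.ofInjective
          (F.injective_of_mem (show φ ∈ F.Hom Z from ⟨hZS, hv, g, hg⟩))).toEquiv).le
        rintro _ ⟨x, rfl⟩
        have h := hv x
        rw [hg x] at h ⊢
        exact hZ.2 _ x.2 g h
  refine ⟨fun P φ hφ => ?_, le_antisymm (Fusion.core_le F) (Fusion.le_core hN)⟩
  obtain ⟨ψ, hψ, hψP, hψS⟩ := hN.2 P φ hφ
  obtain ⟨-, -, g, hg⟩ := hψ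
  refine ⟨g, Subgroup.mem_normalizer_fintype fun s hs => ?_, fun x => by rw [← hψP, hg]; rfl⟩
  have h := hψS.le ⟨⟨s, le_sup_right (a := P) hs⟩, hs, rfl⟩
  rw [hg] at h
  exact h

end Cfsg.Agent.S5107
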