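import Cfsg.Statements.S5126
import Cfsg.Agent.Lib.Fusion.SectionFree

set_option autoImplicit false
open Cfsg

namespace Cfsg.Agent.S5126

/-- In a saturated fusion system over a finite p-group S, the normalizer system of a fully normalized, centric, radical subgroup R is constrained, and in every model of that normalizer system the largest normal p-subgroup is the image of R. -/
theorem result {Ω : Type*} [Group Ω] {S : Subgroup Ω} [Finite S] (p : ℕ) [Fact p.Prime] (hS : IsPGroup p S) (F : Cfsg.FusionSystem S) (hF : F.IsSaturated p) (R : Subgroup Ω) (hRn : F.IsFullyNormalized R) (hRc : F.IsCentric R) (hRr : F.IsRadical p R) (E : Cfsg.FusionSystem (Cfsg.FusionSystem.normalizerIn S R)) (hE : F.IsNormalizerSystem R E) {G : Type*} [Group G] (ι : ↥(Cfsg.FusionSystem.normalizerIn S R) →* G) : E.IsConstrained p ∧ (E.IsModel p G ι → (Cfsg.pCore p G : Subgroup G) = (R.subgroupOf (Cfsg.FusionSystem.normalizerIn S R)).map ι) := by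
  haveI : Finite ↥S := ‹_›
  haveI : Finite ↥(Cfsg.FusionSystem.normalizerIn S R) := CfsgLib.Fusion.finite_of_le inf_le_left
  have hEc := CfsgLib.Fusion.normalizerSystem_constrained p hS hF hRn hRc E hE
  have hSn : IsPGroup p ↥(Cfsg.FusionSystem.normalizerIn S R) := hS.to_le inf_le_left
  refine ⟨hEc, fun hG => ?_⟩
  have hn := CfsgLib.Fusion.isNormal_normalizerSystem hRn.1 E hE
  have haut : E.autGroup R = F.autGroup R := by
    refine le_antisymm (CfsgLib.Fusion.autGroup_mono F E (CfsgLib.Fusion.normalizerSystem_subsystem E hE) R) fun a ha => ?_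
    have ha' := (CfsgLib.Fusion.autGroup_carrier F hRn.1 a).mp ha
    refine (CfsgLib.Fusion.autGroup_carrier E hn.1 a).mpr ?_
    rw [hE]
    refine ⟨ha', hn.1, fun x => hn.1 (a x).2, (R.subtype.comp a.toMonoidHom).comp (Subgroup.inclusion (sup_le le_rfl le_rfl)), CfsgLib.Fusion.restrict_mem ha' _, fun x => rfl, ?_⟩
    rw [CfsgLib.Fusion.map_eq_iff le_sup_right]
    exact ⟨fun x => (a x).2, fun y hy => ⟨a.symm ⟨y, hy⟩, congrArg Subtype.val (a.apply_symm_apply ⟨y, hy⟩)⟩⟩
  have hcE : E.IsCentric R := ⟨hn.1, fun Q hQ c hc => by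
    obtain ⟨φ, hφ, rfl⟩ := hQ
    exact hRc.2 _ ⟨φ, CfsgLib.Fusion.normalizerSystem_subsystem E hE R hφ, rfl⟩ ⟨hc.1.1, hc.2⟩⟩
  have hrE : E.IsRadical p R := ⟨hn.1, by rw [haut]; exact hRr.2⟩
  have hcore : E.core = R := le_antisymm
    (CfsgLib.Fusion.normal_le_radical p hSn (CfsgLib.Fusion.isNormal_core E) hcE hrE)
    (CfsgLib.Fusion.le_core hn)
  have hmem := CfsgLib.Fusion.model_mem_pCore p hSn hG
  obtain ⟨hfin, hr, ⟨T, hT⟩, -⟩ := hG
  haveI := hfin
  ext x
  refine ⟨fun hx => ?_, ?_⟩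
  · obtain ⟨s, rfl⟩ := (hT ▸ CfsgLib.Core.pCore_le_sylow T : Cfsg.pCore p G ≤ ι.range) hx
    exact ⟨s, hcore.le ((hmem s).mp hx), rfl⟩
  · rintro ⟨s, hs, rfl⟩
    exact (hmem s).mpr (hcore.ge hs)

end Cfsg.Agent.S5126
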