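import Cfsg.Statements.S5134
import Cfsg.Agent.Lib.Fusion.Over

set_option autoImplicit false
open Cfsg

namespace Cfsg.Agent.S5134

open CfsgLib
/-- Let F be a saturated fusion system over a finite p-group S, S₀ a subgroup strongly closed in F, and E the factor system of F modulo S₀ read through θ (a homomorphism on S with kernel S₀ and image the group of E). Then θ is a surjective morphism of fusion systems from F onto E: in particular every map of F, and not only the maps whose source contains S₀, induces along θ a map of E. -/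
theorem result {Ω : Type*} [Group Ω] {S : Subgroup Ω} [Finite S] (p : ℕ) [Fact p.Prime] (hS : IsPGroup p S) (F : Cfsg.FusionSystem S) (hF : F.IsSaturated p) (S₀ : Subgroup Ω) (hS₀ : F.StronglyClosed S₀) {Ω' : Type*} [Group Ω'] {S' : Subgroup Ω'} (θ : S →* Ω') (E : Cfsg.FusionSystem S') (hE : F.IsFactorSystem S₀ θ E) : F.IsSurjectiveMorphism E θ := by
  refine ⟨⟨fun s => hE.2.2.1 ▸ ⟨s, rfl⟩, fun P φ hφ => ?_⟩, hE.2.2.1, fun P' hP' φ' hφ' => ?_⟩
  · obtain ⟨ψ, hψ, hψe⟩ := Fusion.exists_extend_mod hS hF hS₀ hφ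
    obtain ⟨ψ', hψ', he⟩ := Fusion.exists_induced hE hS₀ le_sup_right hψ
    have hP : P ≤ S := Fusion.le_S hφ
    have hle : Cfsg.FusionSystem.imageAlong θ P ≤ Cfsg.FusionSystem.imageAlong θ (P ⊔ S₀) :=
      Subgroup.map_mono fun s hs => Subgroup.mem_sup_left (S := P) (T := S₀) hs
    refine ⟨ψ'.comp (Subgroup.inclusion hle), Fusion.restrict_mem hψ' hle, hP, fun x => Fusion.apply_mem_S hφ x,
      fun x => ⟨⟨x, hP x.2⟩, x.2, rfl⟩, fun x => ?_⟩
    refine (he ⟨x, hP x.2⟩ (Subgroup.mem_sup_left x.2)).trans ?_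
    refine (inv_mul_eq_one.mp ?_).symm
    rw [← map_inv, ← map_mul, hE.2.1]
    exact hψe x
  · exact ((hE.2.2.2 P' φ').mp hφ').2

end Cfsg.Agent.S5134
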