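import Cfsg.Statements.S5135

set_option autoImplicit false
open Cfsg

namespace Cfsg.Agent.S5135

/-- Let G be a finite group, S a Sylow p-subgroup and H a normal subgroup of G. Then the fusion system of G/H on the image SH/H of S is the factor system of the fusion system of G on S modulo S ∩ H, read through the quotient map restricted to S: for each subgroup P' of SH/H, the conjugation maps by elements of G/H defined on P' with values in SH/H are exactly the homomorphisms induced by the conjugation maps by elements of G defined on the full preimage of P' in S with values in S. -/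
theorem result {G : Type*} [Group G] [Finite G] (p : ℕ) [Fact p.Prime] (S : Sylow p G) (H : Subgroup G) [H.Normal] : (Cfsg.groupFusionSystem (S : Subgroup G)).IsFactorSystem ((S : Subgroup G) ⊓ H) ((QuotientGroup.mk' H).comp (S : Subgroup G).subtype) (Cfsg.groupFusionSystem ((S : Subgroup G).map (QuotientGroup.mk' H))) := by
  set q := QuotientGroup.mk' H
  refine ⟨inf_le_left, fun s => ?_, ?_, fun P' φ' => ⟨fun hφ' => ?_, ?_⟩⟩
  · show (QuotientGroup.mk (s : G) : G ⧸ H) = 1 ↔ _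
    rw [QuotientGroup.eq_one_iff]
    exact ⟨fun h => Subgroup.mem_inf.mpr ⟨s.2, h⟩, fun h => (Subgroup.mem_inf.mp h).2⟩
  · rw [MonoidHom.range_comp, Subgroup.range_subtype]
  · obtain ⟨hP', hval, γ, hγ⟩ := hφ'
    obtain ⟨g₀, rfl⟩ := QuotientGroup.mk_surjective γ
    refine ⟨hP', ?_⟩
    set P := Cfsg.FusionSystem.preimageAlong (q.comp (S : Subgroup G).subtype) P'
    have hP : P ≤ (S : Subgroup G) := Subgroup.map_subtype_le _
    have hPq : ∀ x ∈ P, q x ∈ P' := by rintro _ ⟨s, hs, rfl⟩; exact hs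
    set M := ((S : Subgroup G).map q).comap q with hM
    have hSM : (S : Subgroup G) ≤ M := fun s hs => ⟨s, hs, rfl⟩
    have hP'M : P.map (MulAut.conj g₀).toMonoidHom ≤ M := by
      rintro _ ⟨x, hx, rfl⟩
      have h1 := hval ⟨q x, hPq x hx⟩
      rw [hγ] at h1
      exact h1
    obtain ⟨R, hR⟩ := (((S.2.to_le hP).map (MulAut.conj g₀).toMonoidHom).comap_subtype (K := M)).exists_le_sylow
    obtain ⟨m, hm⟩ := MulAction.exists_smul_eq ↥M R (S.subtype hSM)
    obtain ⟨s, hs, hsm⟩ := m.2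
    have hk : (QuotientGroup.mk (s⁻¹ * (m : G)) : G ⧸ H) = 1 :=
      (QuotientGroup.eq_one_iff _).mpr (QuotientGroup.eq.mp hsm)
    have hconj : ∀ x : ↥P, (s⁻¹ * (m : G) * g₀) * (x : G) * (s⁻¹ * (m : G) * g₀)⁻¹ ∈ (S : Subgroup G) := fun x => by
      have h1 : m * ⟨g₀ * x * g₀⁻¹, hP'M ⟨x, x.2, rfl⟩⟩ * m⁻¹ ∈ ((m • R : Sylow p ↥M) : Subgroup ↥M) := by
        rw [Sylow.coe_subgroup_smul]
        exact ⟨_, hR ⟨x, x.2, rfl⟩, rfl⟩
      rw [hm] at h1
      have h3 := (S : Subgroup G).mul_mem ((S : Subgroup G).mul_mem (inv_mem hs) h1) hs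
      convert h3 using 1
      simp [mul_assoc]
    refine ⟨Cfsg.conjHom P (s⁻¹ * (m : G) * g₀), ⟨hP, hconj, _, fun _ => rfl⟩, hP, hconj, fun x => hPq x x.2, fun x => ?_⟩
    rw [hγ]
    show (QuotientGroup.mk g₀ : G ⧸ H) * QuotientGroup.mk (x : G) * (QuotientGroup.mk g₀)⁻¹ =
      QuotientGroup.mk ((s⁻¹ * (m : G) * g₀) * (x : G) * (s⁻¹ * (m : G) * g₀)⁻¹)
    simp only [QuotientGroup.mk_mul, QuotientGroup.mk_inv] at hk ⊢
    rw [hk, one_mul]
  · rintro ⟨hP', φ, ⟨-, -, g, hg⟩, hP, hφ, hθ, he⟩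
    have key : ∀ x' : ↥P', ∃ x : ↥(Cfsg.FusionSystem.preimageAlong (q.comp (S : Subgroup G).subtype) P'),
        x' = ⟨q.comp (S : Subgroup G).subtype ⟨x, hP x.2⟩, hθ x⟩ := by
      intro x'
      obtain ⟨s, hs, hse⟩ := hP' x'.2
      refine ⟨⟨s, ⟨⟨s, hs⟩, ?_, rfl⟩⟩, Subtype.ext hse.symm⟩
      show q s ∈ P'
      rw [hse]; exact x'.2
    refine ⟨hP', fun x' => ?_, q g, fun x' => ?_⟩
    · obtain ⟨x, rfl⟩ := key x'
      rw [he]
      exact ⟨φ x, hφ x, rfl⟩
    · obtain ⟨x, rfl⟩ := key x'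
      rw [he]
      show q (φ x) = q g * q (x : G) * (q g)⁻¹
      rw [hg, map_mul, map_mul, map_inv]

end Cfsg.Agent.S5135
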