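import Cfsg.Statements.S5136
import Cfsg.Agent.Lib.Fusion.Basic

set_option autoImplicit false
open Cfsg

namespace Cfsg.Agent.S5136

open CfsgLib.Fusion
/-- Let F₁ and F₂ be fusion systems over finite p-groups S₁ and S₂ (inside ambient groups Ω₁ and Ω₂). Then their direct product exists: there is a fusion system over S₁ × S₂ inside Ω₁ × Ω₂ whose maps with source P ≤ S₁ × S₂ are exactly the restrictions to P of the homomorphisms (x₁, x₂) ↦ (φ₁ x₁, φ₂ x₂) with φ₁ a map of F₁ on the first projection of P and φ₂ a map of F₂ on the second projection. -/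
theorem result {Ω₁ Ω₂ : Type*} [Group Ω₁] [Group Ω₂] {S₁ : Subgroup Ω₁} {S₂ : Subgroup Ω₂} [Finite S₁] [Finite S₂] (p : ℕ) [Fact p.Prime] (h₁ : IsPGroup p S₁) (h₂ : IsPGroup p S₂) (F₁ : Cfsg.FusionSystem S₁) (F₂ : Cfsg.FusionSystem S₂) : ∃ E : Cfsg.FusionSystem (S₁.prod S₂), Cfsg.FusionSystem.IsProductSystem F₁ F₂ E := by
  refine ⟨{
      Hom := fun P => {φ | P ≤ S₁.prod S₂ ∧
        ∃ φ₁ ∈ F₁.Hom (P.map (MonoidHom.fst Ω₁ Ω₂)), ∃ φ₂ ∈ F₂.Hom (P.map (MonoidHom.snd Ω₁ Ω₂)),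
          ∀ (x : P) (h₁ : (x : Ω₁ × Ω₂).1 ∈ P.map (MonoidHom.fst Ω₁ Ω₂))
            (h₂ : (x : Ω₁ × Ω₂).2 ∈ P.map (MonoidHom.snd Ω₁ Ω₂)),
            φ x = (φ₁ ⟨(x : Ω₁ × Ω₂).1, h₁⟩, φ₂ ⟨(x : Ω₁ × Ω₂).2, h₂⟩)}
      le_of_mem := ?_, injective_of_mem := ?_, conj_mem := ?_, comp_mem := ?_, inv_mem := ?_ }, fun P φ => Iff.rfl⟩
  · rintro P φ ⟨hP, φ₁, hφ₁, φ₂, hφ₂, he⟩
    refine ⟨hP, fun x => ?_⟩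
    rw [he x ⟨x, x.2, rfl⟩ ⟨x, x.2, rfl⟩]
    exact ⟨apply_mem_S hφ₁ _, apply_mem_S hφ₂ _⟩
  · rintro P φ ⟨hP, φ₁, hφ₁, φ₂, hφ₂, he⟩ x y hxy
    rw [he x ⟨x, x.2, rfl⟩ ⟨x, x.2, rfl⟩, he y ⟨y, y.2, rfl⟩ ⟨y, y.2, rfl⟩, Prod.mk.injEq] at hxy
    exact Subtype.ext (Prod.ext (congrArg Subtype.val (F₁.injective_of_mem hφ₁ hxy.1) :)
      (congrArg Subtype.val (F₂.injective_of_mem hφ₂ hxy.2) :))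
  · intro P g hP hg
    refine ⟨hP, _, F₁.conj_mem ?_ hg.1, _, F₂.conj_mem ?_ hg.2, fun x h₁ h₂ => rfl⟩
    · rintro _ ⟨x, hx, rfl⟩; exact (hP hx).1
    · rintro _ ⟨x, hx, rfl⟩; exact (hP hx).2
  · rintro P Q φ ψ ⟨hP, φ₁, hφ₁, φ₂, hφ₂, he⟩ ⟨-, ψ₁, hψ₁, ψ₂, hψ₂, he'⟩ h
    have h1 : ∀ a, φ₁ a ∈ Q.map (MonoidHom.fst Ω₁ Ω₂) := by
      rintro ⟨_, x, hx, rfl⟩
      refine ⟨φ ⟨x, hx⟩, h _, ?_⟩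
      rw [he ⟨x, hx⟩ ⟨x, hx, rfl⟩ ⟨x, hx, rfl⟩]; rfl
    have h2 : ∀ a, φ₂ a ∈ Q.map (MonoidHom.snd Ω₁ Ω₂) := by
      rintro ⟨_, x, hx, rfl⟩
      refine ⟨φ ⟨x, hx⟩, h _, ?_⟩
      rw [he ⟨x, hx⟩ ⟨x, hx, rfl⟩ ⟨x, hx, rfl⟩]; rfl
    refine ⟨hP, _, F₁.comp_mem hφ₁ hψ₁ h1, _, F₂.comp_mem hφ₂ hψ₂ h2, fun x hx₁ hx₂ => ?_⟩
    show ψ ⟨φ x, h x⟩ = _
    rw [he' ⟨φ x, h x⟩ ⟨φ x, h x, rfl⟩ ⟨φ x, h x, rfl⟩]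
    refine Prod.ext (congrArg ψ₁ (Subtype.ext ?_)) (congrArg ψ₂ (Subtype.ext ?_))
    · show (φ x).1 = φ₁ ⟨_, hx₁⟩
      rw [he x hx₁ hx₂]
    · show (φ x).2 = φ₂ ⟨_, hx₂⟩
      rw [he x hx₁ hx₂]
  · rintro P φ ⟨hP, φ₁, hφ₁, φ₂, hφ₂, he⟩
    obtain ⟨χ₁, hχ₁, hχ₁e⟩ := F₁.inv_mem hφ₁
    obtain ⟨χ₂, hχ₂, hχ₂e⟩ := F₂.inv_mem hφ₂
    have hl1 : φ.range.map (MonoidHom.fst Ω₁ Ω₂) ≤ φ₁.range := by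
      rintro _ ⟨_, ⟨x, rfl⟩, rfl⟩
      rw [he x ⟨x, x.2, rfl⟩ ⟨x, x.2, rfl⟩]
      exact ⟨_, rfl⟩
    have hl2 : φ.range.map (MonoidHom.snd Ω₁ Ω₂) ≤ φ₂.range := by
      rintro _ ⟨_, ⟨x, rfl⟩, rfl⟩
      rw [he x ⟨x, x.2, rfl⟩ ⟨x, x.2, rfl⟩]
      exact ⟨_, rfl⟩
    set ψ₁ := χ₁.comp (Subgroup.inclusion hl1)
    set ψ₂ := χ₂.comp (Subgroup.inclusion hl2)
    let ψ : ↥φ.range →* Ω₁ × Ω₂ :=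
      MonoidHom.prod (ψ₁.comp ((MonoidHom.fst Ω₁ Ω₂).subgroupMap φ.range))
        (ψ₂.comp ((MonoidHom.snd Ω₁ Ω₂).subgroupMap φ.range))
    refine ⟨ψ, ⟨?_, ψ₁, restrict_mem hχ₁ hl1, ψ₂, restrict_mem hχ₂ hl2, fun x _ _ => rfl⟩, fun x => ?_⟩
    · rintro _ ⟨x, rfl⟩
      rw [he x ⟨x, x.2, rfl⟩ ⟨x, x.2, rfl⟩]
      exact ⟨apply_mem_S hφ₁ _, apply_mem_S hφ₂ _⟩
    · have e := he x ⟨x, x.2, rfl⟩ ⟨x, x.2, rfl⟩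
      refine Prod.ext ?_ ?_
      · refine Eq.trans ?_ (hχ₁e ⟨_, ⟨x, x.2, rfl⟩⟩)
        exact congrArg χ₁ (Subtype.ext (congrArg Prod.fst e :))
      · refine Eq.trans ?_ (hχ₂e ⟨_, ⟨x, x.2, rfl⟩⟩)
        exact congrArg χ₂ (Subtype.ext (congrArg Prod.snd e :))

end Cfsg.Agent.S5136
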