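import Cfsg.Statements.S5148
import Cfsg.Agent.S5125
import Cfsg.Agent.S5076
import Cfsg.Agent.Lib.Fusion.Extend
import Cfsg.Agent.Lib.Fusion.FactorModel
import Cfsg.Agent.Lib.Fusion.Series

set_option autoImplicit false
open Cfsg

namespace Cfsg.Agent.S5148

set_option linter.style.haveILetI false
open CfsgLib

/-- A quasisimple fusion system over a finite p-group S (saturated, equal to its p-residual subsystem, with simple — in particular nontrivial — factor system modulo its centre) has S nonabelian. -/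
theorem result {Ω : Type*} [Group Ω] {S : Subgroup Ω} [Finite S] (p : ℕ) [Fact p.Prime] (hS : IsPGroup p S) (F : Cfsg.FusionSystem S) (hq : F.Quasisimple p) : ¬ IsMulCommutative S := by
  classical
  intro hab
  obtain ⟨hF, hhyp, hfac⟩ := hq
  have hcomm : ∀ x ∈ S, ∀ y ∈ S, x * y = y * x := fun x hx y hy =>
    congrArg Subtype.val (isMulCommutative_iff.mp hab (⟨x, hx⟩ : ↥S) ⟨y, hy⟩)
  have hSsc : F.StronglyClosed S := ⟨le_rfl, fun Q _ φ hφ x => Fusion.apply_mem_S hφ x⟩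
  have hbotn : F.IsNormal (⊥ : Subgroup Ω) := by
    refine ⟨bot_le, fun P φ hφ => ⟨φ.comp (Subgroup.inclusion (sup_bot_eq P).le), Fusion.restrict_mem hφ _, fun x => rfl, ?_⟩⟩
    rw [Fusion.map_eq_iff le_sup_right]
    refine ⟨fun x => ?_, fun y hy => ⟨1, (map_one _).trans (Subgroup.mem_bot.mp hy).symm⟩⟩
    rw [show x = 1 from Subtype.ext (Subgroup.mem_bot.mp x.2)]
    exact (congrArg (· ∈ (⊥ : Subgroup _)) (map_one _)).mpr (Subgroup.one_mem ⊥)
  have hnorm : F.IsNormal S := Cfsg.Agent.S5125.result p hS F hF S ⊥ hSsc bot_le hbotn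
    (Subgroup.commutator_le.mpr fun x hx y hy => Subgroup.mem_bot.mpr
      (commutatorElement_eq_one_iff_mul_comm.mpr (hcomm x hx y hy)))
    (fun a => ⟨0, Subtype.ext (MulEquiv.ext fun x => Subtype.ext
      ((Subgroup.mem_bot.mp ((((a ^ p ^ 0 : ↥(F.autGroup ⊥)) : MulAut ↥(⊥ : Subgroup Ω)) x).2)).trans
        (Subgroup.mem_bot.mp x.2).symm))⟩)
  set Z := F.center with hZdef
  have hZc := Fusion.isCentral_center F
  have hZS : Z ≤ S := hZc.1
  have hZsc : F.StronglyClosed Z := ⟨hZS, fun Q hQ φ hφ x => by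
    obtain ⟨ψ, hψ, hψP, hψZ⟩ := hZc.2 Q φ hφ
    have h1 := hψZ ⟨(x : Ω), hQ x.2⟩
    rw [← hψP x, show Subgroup.inclusion (le_sup_left : Q ≤ Q ⊔ Z) x = Subgroup.inclusion le_sup_right ⟨(x : Ω), hQ x.2⟩ from rfl, h1]
    exact hQ x.2⟩
  haveI hZn : (Z.subgroupOf S).Normal := ⟨fun n hn g => by
    rw [show g * n = n * g from Subtype.ext (hcomm g g.2 n n.2), mul_inv_cancel_right]; exact hn⟩
  set θ := QuotientGroup.mk' (Z.subgroupOf S) with hθdef
  have hk : ∀ s : ↥S, θ s = 1 ↔ (s : Ω) ∈ Z := fun s => by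
    rw [hθdef, QuotientGroup.mk'_apply, QuotientGroup.eq_one_iff, Subgroup.mem_subgroupOf]
  have hr : θ.range = ⊤ := MonoidHom.range_eq_top.mpr (QuotientGroup.mk'_surjective _)
  have hspec := Fusion.factorSystem_spec (F := F) hZsc hk hr
  set E := Fusion.factorSystem F hZsc θ hk hr
  obtain ⟨hEsat, hne, hsimple⟩ := hfac E hspec
  have hTp : IsPGroup p ↥(⊤ : Subgroup (↥S ⧸ Z.subgroupOf S)) := Fusion.isPGroup_factor hS hspec
  have hqc : ∀ a b : ↥S ⧸ Z.subgroupOf S, a * b = b * a := by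
    intro a b
    obtain ⟨a, rfl⟩ := QuotientGroup.mk'_surjective _ a
    obtain ⟨b, rfl⟩ := QuotientGroup.mk'_surjective _ b
    rw [← map_mul, ← map_mul, show a * b = b * a from Subtype.ext (hcomm a a.2 b b.2)]
  let T : Sylow p (↥S ⧸ Z.subgroupOf S) := ⟨⊤, hTp, fun _ h => top_le_iff.mp h⟩
  let E' : Cfsg.FusionSystem (⊤ : Subgroup (↥S ⧸ Z.subgroupOf S)) := Cfsg.groupFusionSystem ⊤
  have hE'sat : E'.IsSaturated p := Fusion.group_isSaturated T
  have hid : ∀ (P : Subgroup (↥S ⧸ Z.subgroupOf S)) (φ : ↥P →* ↥S ⧸ Z.subgroupOf S), φ ∈ E'.Hom P → ∀ x : ↥P, φ x = x := by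
    rintro P φ ⟨-, -, g, hg⟩ x
    rw [hg x, hqc g, mul_inv_cancel_right]
  have hin : ∀ P : Subgroup (↥S ⧸ Z.subgroupOf S), P.subtype ∈ E'.Hom P := fun P =>
    ⟨le_top, fun x => trivial, 1, fun x => by simp⟩
  have hEn : E.IsNormal (⊤ : Subgroup (↥S ⧸ Z.subgroupOf S)) := by
    haveI : Finite (↥S ⧸ Z.subgroupOf S) := inferInstance
    refine Cfsg.Agent.S5125.result p hTp E hEsat ⊤ ⊥ ⟨le_rfl, fun Q _ φ hφ x => trivial⟩ bot_le ?_
      (Subgroup.commutator_le.mpr fun x _ y _ => Subgroup.mem_bot.mpr (commutatorElement_eq_one_iff_mul_comm.mpr (hqc x y)))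
      (fun a => ⟨0, Subtype.ext (MulEquiv.ext fun x => Subtype.ext
        ((Subgroup.mem_bot.mp ((((a ^ p ^ 0 : ↥(E.autGroup ⊥)) : MulAut ↥(⊥ : Subgroup _)) x).2)).trans
          (Subgroup.mem_bot.mp x.2).symm))⟩)
    refine ⟨bot_le, fun P φ hφ => ⟨φ.comp (Subgroup.inclusion (sup_bot_eq P).le), Fusion.restrict_mem hφ _, fun x => rfl, ?_⟩⟩
    rw [Fusion.map_eq_iff le_sup_right]
    refine ⟨fun x => ?_, fun y hy => ⟨1, (map_one _).trans (Subgroup.mem_bot.mp hy).symm⟩⟩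
    rw [show x = 1 from Subtype.ext (Subgroup.mem_bot.mp x.2)]
    exact (congrArg (· ∈ (⊥ : Subgroup _)) (map_one _)).mpr (Subgroup.one_mem ⊥)
  have hnormal : E'.IsNormalIn E p := by
    have hsub : E'.IsSubsystemOf E := fun P φ hφ => by
      have h := Fusion.conj_mem_of_eq E (P := P) le_top (one_mem (⊤ : Subgroup (↥S ⧸ Z.subgroupOf S))) (φ := φ)
        (fun x => by rw [hid P φ hφ x]; simp)
      exact h
    refine ⟨⟨hE'sat, hEsat, hsub, ⟨le_rfl, fun Q _ φ hφ x => trivial⟩, fun P hP φ hφ α hα => ?_, fun P hP φ hφ => ?_⟩, fun α hα => ?_⟩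
    · refine ⟨_, hin _, fun x hx hαx => ?_⟩
      show ((α ⟨x, hP x.2⟩ : ↥(⊤ : Subgroup _)) : ↥S ⧸ Z.subgroupOf S) = _
      exact congrArg (fun t => ((α t : ↥(⊤ : Subgroup _)) : ↥S ⧸ Z.subgroupOf S)) (Subtype.ext (hid P φ hφ x).symm)
    · obtain ⟨β, hβ, hβe⟩ := Fusion.isNormal_restrict hEn hφ
      exact ⟨β, hβ, _, hin P, fun x hx => (hβe x trivial).symm⟩
    · have hα1 : α = 1 := by
        have hmem : E'.autGroup ⊤ ≤ ⊥ := (Subgroup.closure_le _).mpr fun β hβ =>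
          Subgroup.mem_bot.mpr (MulEquiv.ext fun x => Subtype.ext (hid ⊤ _ hβ x))
        exact Subgroup.mem_bot.mp (hmem hα)
      subst hα1
      exact ⟨1, one_mem _, fun x => rfl, fun c _ => by simp⟩
  rcases hsimple ⊤ E' hnormal with h | ⟨-, heq⟩
  · exact hne h
  -- every automorphism of order prime to `p` is trivial
  have hkey : ∀ (P : Subgroup Ω), P ≤ S → ∀ α ∈ F.autGroup P, (orderOf α).Coprime p → α = 1 := by
    intro P hPS α hα hc
    obtain ⟨β, hβ, hβe⟩ := Fusion.isNormal_restrict hnorm ((Fusion.autGroup_carrier F hPS α).mp hα)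
    have hβe : ∀ x : ↥P, ((β ⟨(x : Ω), hPS x.2⟩ : ↥S) : Ω) = ((α x : ↥P) : Ω) := fun x => hβe x (hPS x.2)
    have hβZ : ∀ s : ↥S, (s : Ω) ∈ Z → β s = s := by
      intro s hs
      obtain ⟨ψ, hψ, hψS, hψZ⟩ := hZc.2 S _ ((Fusion.autGroup_carrier F le_rfl β).mp hβ)
      refine Subtype.ext ((hψS s).symm.trans ?_)
      exact hψZ ⟨(s : Ω), hs⟩
    have hmove : ∀ s : ↥S, (s : Ω)⁻¹ * ((β s : ↥S) : Ω) ∈ Z := by
      intro s
      obtain ⟨ψ, hψ, hψe⟩ := Fusion.exists_induced hspec hZsc hZS ((Fusion.autGroup_carrier F le_rfl β).mp hβ)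
      rw [← heq] at hψ
      have h1 := (hψe s s.2).symm.trans (hid _ ψ hψ _)
      refine (hk (s⁻¹ * β s)).mp ?_
      rw [map_mul, map_inv]
      exact inv_mul_eq_one.mpr h1.symm
    refine MulEquiv.ext fun x => ?_
    set s : ↥S := ⟨(x : Ω), hPS x.2⟩ with hs
    set d : ↥S := s⁻¹ * β s with hd
    have hdfix : β d = d := hβZ d (hmove s)
    have hn : ∀ n : ℕ, (β ^ n) s = s * d ^ n ∧ (((α ^ n) x : ↥P) : Ω) = (((β ^ n) s : ↥S) : Ω) := by
      intro n
      induction n with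
      | zero => simp [s]
      | succ n ih =>
        refine ⟨?_, ?_⟩
        · rw [pow_succ', MulAut.mul_apply, ih.1, map_mul, map_pow, hdfix, show β s = s * d by rw [hd, mul_inv_cancel_left],
            mul_assoc, ← pow_succ']
        · rw [pow_succ', MulAut.mul_apply, pow_succ' β, MulAut.mul_apply, ← hβe]
          exact congrArg (fun t => ((β t : ↥S) : Ω)) (Subtype.ext ih.2)
    have hd1 : d = 1 := by
      have h1 := (hn (orderOf α))
      rw [pow_orderOf_eq_one] at h1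
      have h2 : (s : ↥S) = s * d ^ orderOf α := (Subtype.ext h1.2 : s = (β ^ orderOf α) s).trans h1.1
      obtain ⟨k, hk'⟩ := hS d
      exact orderOf_eq_one_iff.mp (Nat.eq_one_of_dvd_coprimes (hc.pow_right k)
        (orderOf_dvd_of_pow_eq_one (left_eq_mul.mp h2)) (orderOf_dvd_of_pow_eq_one hk'))
    have h1 := (hn 1).2
    rw [pow_one, pow_one] at h1
    refine Subtype.ext (h1.trans ?_)
    rw [show β s = s * d by rw [hd, mul_inv_cancel_left], hd1, mul_one]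
    rfl
  have hhyp1 : F.hyperfocalSubgroup p ≤ ⊥ := by
    refine (Subgroup.closure_le _).mpr ?_
    rintro _ ⟨P, α, x, hPS, hα, rfl⟩
    have hα1 : Cfsg.pResidual p ↥(F.autGroup P) ≤ ⊥ := (Subgroup.closure_le _).mpr fun g hg =>
      Subgroup.mem_bot.mpr (Subtype.ext (hkey P hPS _ g.2 (by rwa [Subgroup.orderOf_coe])))
    rw [show α = 1 from Subgroup.mem_bot.mp (hα1 hα)]
    simp
  refine hne ?_
  rw [← hr, eq_bot_iff]
  rintro _ ⟨s, rfl⟩
  exact Subgroup.mem_bot.mpr ((hk s).mpr (by rw [Subgroup.mem_bot.mp ((hhyp.ge.trans hhyp1) s.2)]; exact one_mem _))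

end Cfsg.Agent.S5148
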