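import Cfsg.Statements.S5153
import Cfsg.Agent.Lib.Fusion.WeaklyNormalFacts
import Cfsg.Prelude.Def_FusionComponents

set_option autoImplicit false
open Cfsg

namespace Cfsg.Agent.S5153

/-- Let F be a saturated fusion system over a finite p-group S and E a subnormal subsystem of F over T. Then every subgroup of T that is fully normalized in F is fully normalized in E. -/
theorem result {Ω : Type*} [Group Ω] {S : Subgroup Ω} [Finite S] (p : ℕ) [Fact p.Prime] (hS : IsPGroup p S) (F : Cfsg.FusionSystem S) (hF : F.IsSaturated p) {T : Subgroup Ω} (E : Cfsg.FusionSystem T) (hE : E.IsSubnormalIn F p) (P : Subgroup Ω) (hPT : P ≤ T) (hP : F.IsFullyNormalized P) : E.IsFullyNormalized P := by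
  suffices key : ∀ {U : Subgroup Ω} (D : Cfsg.FusionSystem U) {V : Subgroup Ω} (G : Cfsg.FusionSystem V) (q : ℕ),
      D.IsSubnormalIn G q → [Fact q.Prime] → [Finite ↥V] → IsPGroup q ↥V → G.IsSaturated q →
        U ≤ V ∧ ∀ P : Subgroup Ω, P ≤ U → G.IsFullyNormalized P → D.IsFullyNormalized P from
    (key E F p hE hS hF).2 P hPT hP
  intro U D V G q h
  induction h with
  | refl G q => intro _ _ _ _; exact ⟨le_rfl, fun P _ h => h⟩
  | @step U' W E' D' F' q' _ hD ih =>
    intro _ _ hW hG
    have hUW : U' ≤ W := hD.1.2.2.2.1.1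
    have := CfsgLib.Fusion.finite_of_le hUW
    obtain ⟨hle, hfn⟩ := ih (hW.to_le hUW) hD.1.1
    exact ⟨hle.trans hUW, fun P hP h =>
      hfn P hP (CfsgLib.Fusion.fullyNormalized_of_closed hW hG hD.1.2.2.2.1 hD.1.2.2.1 (hP.trans hle) h)⟩

end Cfsg.Agent.S5153
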