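import Cfsg.Statements.S5154
import Cfsg.Agent.Lib.Fusion.TransportComponent

set_option autoImplicit false
open Cfsg

namespace Cfsg.Agent.S5154

open Cfsg.FusionSystem CfsgLib.Fusion
/-- Let F be a saturated fusion system over a finite p-group S, C a component of F over T, and γ a map of F with source T. Then the image of C under γ — the fusion system over γ(T) whose maps are the homomorphisms induced along γ by the maps of C — is again a component of F. -/
theorem result {Ω : Type*} [Group Ω] {S : Subgroup Ω} [Finite S] (p : ℕ) [Fact p.Prime] (hS : IsPGroup p S) (F : Cfsg.FusionSystem S) (hF : F.IsSaturated p) {T : Subgroup Ω} (C : Cfsg.FusionSystem T) (hC : C.IsComponentIn F p) (γ : T →* Ω) (hγ : γ ∈ F.Hom T) (E : Cfsg.FusionSystem γ.range) (hE : C.IsFactorSystem ⊥ γ E) : E.IsComponentIn F p := by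
  have hTS : T ≤ S := subsystem_le (subnormal_sub hC.1)
  haveI : Finite ↥T := finite_of_le (S := S) hTS
  haveI : Finite ↥γ.range := finite_of_le (S := S) (range_le_S hγ)
  let f : ↥T ≃* ↥γ.range := MonoidHom.ofInjective (F.injective_of_mem hγ)
  have fwd : ∀ (P : Subgroup Ω) (φ : ↥P →* Ω), φ ∈ C.Hom P → ∃ φ' ∈ E.Hom (img f P), Corr f φ φ' := by
    intro P φ hφ
    have hPT := le_S hφ
    have hle : preimageAlong γ (img f P) ≤ P := by
      rintro _ ⟨x, hx, rfl⟩
      obtain ⟨w, hw, hwx⟩ := (mem_img f).mp hx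
      obtain rfl : w = x := F.injective_of_mem hγ hwx
      exact hw
    have hv : ∀ x, φ x ∈ T := (C.le_of_mem hφ).2
    let φ' : ↥(img f P) →* Ω := (γ.comp (φ.codRestrict T hv)).comp (imgEquiv f hPT).symm.toMonoidHom
    refine ⟨φ', (hE.2.2.2 _ _).mpr ⟨img_le _ _, _, restrict_mem hφ hle, hle.trans hPT, fun x => hv _,
      fun x => (apply_mem_img f (x := ⟨x, hPT (hle x.2)⟩)).mpr (hle x.2), fun x => ?_⟩, fun x => ?_⟩
    · show γ ((φ.codRestrict T hv) ((imgEquiv f hPT).symm _)) = _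
      refine congrArg γ (Subtype.ext (congrArg φ ?_))
      exact (imgEquiv f hPT).symm_apply_apply (Subgroup.inclusion hle x)
    · refine ⟨hPT x.2, hv x, (apply_mem_img f).mpr x.2, ?_⟩
      show γ ((φ.codRestrict T hv) ((imgEquiv f hPT).symm (imgEquiv f hPT x))) = _
      rw [MulEquiv.symm_apply_apply]
      rfl
  have bwd : ∀ (P : Subgroup Ω) (φ : ↥P →* Ω), φ ∈ E.Hom P → ∃ φ' ∈ C.Hom (img f.symm P), Corr f.symm φ φ' := by
    intro P φ hφ
    obtain ⟨hP, φ₀, hφ₀, h1, h2, h3, h4⟩ := (hE.2.2.2 P φ).mp hφ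
    have hle : img f.symm P ≤ preimageAlong γ P := fun y hy => by
      obtain ⟨w, hw, rfl⟩ := (mem_img f.symm).mp hy
      refine mem_preimageAlong.mpr ⟨(f.symm w).2, ?_⟩
      show ((f (f.symm w) : ↥γ.range) : Ω) ∈ P
      rw [MulEquiv.apply_symm_apply]
      exact hw
    refine ⟨_, restrict_mem hφ₀ hle, fun x => ⟨hP x.2, (E.le_of_mem hφ).2 x, (apply_mem_img f.symm).mpr x.2, ?_⟩⟩
    set z : ↥(preimageAlong γ P) := ⟨_, hle ((apply_mem_img f.symm (x := ⟨x, hP x.2⟩)).mpr x.2)⟩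
    have hz : γ ⟨z, h1 z.2⟩ = x := congrArg Subtype.val (f.apply_symm_apply ⟨x, hP x.2⟩)
    have h5 := h4 z
    rw [show (⟨γ ⟨z, h1 z.2⟩, h3 z⟩ : ↥P) = x from Subtype.ext hz] at h5
    show φ₀ z = _
    rw [show (⟨φ x, (E.le_of_mem hφ).2 x⟩ : ↥γ.range) = f ⟨φ₀ z, h2 z⟩ from Subtype.ext h5, MulEquiv.symm_apply_apply]
  let J : FIso C E := ⟨f, fwd, bwd⟩
  refine ⟨?_, J.quasisimple hC.2⟩
  obtain ⟨T', _, C', K, hK, hC'⟩ := image_subnormal hC.1 hγ
  exact fiso_subnormal K J (fun x => hK x) hC'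

end Cfsg.Agent.S5154
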