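import Cfsg.Statements.S5194
import Cfsg.Agent.Lib.Fusion.Nilpotency

set_option autoImplicit false
open Cfsg

namespace Cfsg.Agent.S5194

/-- Thompson's normal p-complement Theorem for fusion systems. Let F be a saturated fusion system over a finite p-group S such that p is odd or F is S₄-free (the symmetric group of degree 4 is not involved in any model of the normalizer system of a fully normalized F-centric subgroup), and let J(S) be the subgroup generated by the abelian subgroups of S of largest order. If the centralizer fusion system of Z(S) in F is the inner fusion system of C_S(Z(S)) = S and the normalizer fusion system of J(S) in F is the inner fusion system of N_S(J(S)) = S, then F is the inner fusion system of S. -/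
theorem result {Ω : Type*} [Group Ω] {S : Subgroup Ω} [Finite S] (p : ℕ) [Fact p.Prime] (hS : IsPGroup p S) (F : Cfsg.FusionSystem S) (hF : F.IsSaturated p) (hp : p ≠ 2 ∨ F.IsSectionFree p (Equiv.Perm (Fin 4))) (hC : ∀ C : Cfsg.FusionSystem (Cfsg.FusionSystem.centralizerIn S (S ⊓ Subgroup.centralizer (S : Set Ω))), F.IsCentralizerSystem (S ⊓ Subgroup.centralizer (S : Set Ω)) C → ∀ P : Subgroup Ω, C.Hom P = (Cfsg.innerFusionSystem (Cfsg.FusionSystem.centralizerIn S (S ⊓ Subgroup.centralizer (S : Set Ω)))).Hom P) (hN : ∀ N : Cfsg.FusionSystem (Cfsg.FusionSystem.normalizerIn S (Cfsg.thompsonSubgroupAOf S)), F.IsNormalizerSystem (Cfsg.thompsonSubgroupAOf S) N → ∀ P : Subgroup Ω, N.Hom P = (Cfsg.innerFusionSystem (Cfsg.FusionSystem.normalizerIn S (Cfsg.thompsonSubgroupAOf S))).Hom P) : ∀ P : Subgroup Ω, F.Hom P = (Cfsg.innerFusionSystem S).Hom P := by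
  refine (CfsgLib.Fusion.pAut_iff_inner hS hF).mp ((CfsgLib.Fusion.thompsonCriterion p).pAut _ F rfl hS hF hp ⟨?_, ?_⟩)
  · haveI : Finite ↥(Cfsg.FusionSystem.centralizerIn S (CfsgLib.ThompsonNPC.Z S)) :=
      CfsgLib.Fusion.finite_of_le inf_le_left
    exact CfsgLib.Fusion.pAut_of_le_inner (hS.to_le inf_le_left) fun P =>
      (hC (CfsgLib.Fusion.centralizerSystem F _ inf_le_left) (fun _ => rfl) P).le
  · show CfsgLib.Fusion.PAut _ p
    have key : ∀ (J : Subgroup Ω) (hJ : J ≤ S), J = Cfsg.thompsonSubgroupAOf S →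
        CfsgLib.Fusion.PAut (CfsgLib.Fusion.normalizerSystem F J hJ) p := by
      rintro _ hJ rfl
      haveI : Finite ↥(Cfsg.FusionSystem.normalizerIn S (Cfsg.thompsonSubgroupAOf S)) :=
        CfsgLib.Fusion.finite_of_le inf_le_left
      exact CfsgLib.Fusion.pAut_of_le_inner (hS.to_le inf_le_left) fun P =>
        (hN (CfsgLib.Fusion.normalizerSystem F _ hJ) (fun _ => rfl) P).le
    exact key _ _ (CfsgLib.ThompsonNPC.thompsonSubgroupAOf_eq S).symm

end Cfsg.Agent.S5194
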