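import Cfsg.Statements.S5196
import Cfsg.Agent.Lib.Glauberman.FunctorCenter

set_option autoImplicit false
universe u
open Cfsg

namespace Cfsg.Agent.S5196

open CfsgLib.Glauberman CfsgLib.Fusion in
/-- Let p be an odd prime and W a positive characteristic p-functor: W assigns to every finite p-group Q (in a fixed universe) a subgroup W(Q), nontrivial when Q is, carried to W(R) by every isomorphism Q ≅ R; assume also Z(Q) ≤ W(Q) for every finite p-group Q. Suppose W satisfies the local condition: for every finite group G with Sylow p-subgroup P, O_p(G) ∩ Z(G) = O_p(G) ∩ Z(N_G(W(P))). Then W controls weak closure of elements in every saturated fusion system F over a finite p-group S: the centre of the normalizer fusion system of W(S) in F equals the centre of F. (For p = 2 no functor satisfies the local condition, so p is taken odd.) -/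
theorem result {p : ℕ} [Fact p.Prime] (hp : p ≠ 2) (W : ∀ (Q : Type u) [Group Q], Subgroup Q) (hW1 : ∀ (Q : Type u) [Group Q] [Finite Q], IsPGroup p Q → Nontrivial Q → W Q ≠ ⊥) (hW2 : ∀ (Q R : Type u) [Group Q] [Group R] [Finite Q], IsPGroup p Q → ∀ φ : Q ≃* R, (W Q).map φ.toMonoidHom = W R) (hWZ : ∀ (Q : Type u) [Group Q] [Finite Q], IsPGroup p Q → Subgroup.center Q ≤ W Q) (hC : ∀ (G : Type u) [Group G] [Finite G] (P : Sylow p G), Cfsg.pCore p G ⊓ Subgroup.center G = Cfsg.pCore p G ⊓ (Subgroup.center ↥(Subgroup.normalizer (((W ↥(P : Subgroup G)).map (P : Subgroup G).subtype : Subgroup G) : Set G))).map (Subgroup.normalizer (((W ↥(P : Subgroup G)).map (P : Subgroup G).subtype : Subgroup G) : Set G)).subtype) {Ω : Type u} [Group Ω] {S : Subgroup Ω} [Finite S] (hS : IsPGroup p S) (F : Cfsg.FusionSystem S) (hF : F.IsSaturated p) (N : Cfsg.FusionSystem (Cfsg.FusionSystem.normalizerIn S ((W ↥S).map S.subtype))) (hN : F.IsNormalizerSystem ((W ↥S).map S.subtype) N) : N.center = F.center := by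
  have hW₀ : (W ↥S).map S.subtype ≤ S := ind_le W S
  have hWn : S ≤ Subgroup.normalizer (((W ↥S).map S.subtype : Subgroup Ω) : Set Ω) :=
    Subgroup.le_normalizer.trans (le_normalizer_of_characteristic hW₀ (ind_characteristic W hW2 S hS))
  haveI : Finite ↥(Cfsg.FusionSystem.normalizerIn S ((W ↥S).map S.subtype)) := finite_of_le inf_le_left
  obtain ⟨hge, hle⟩ := center_eq_of_fixed hS hF hW₀ hWn N hN fun _ => True
  refine le_antisymm (fun z hz => hle z hz trivial fun hzc _ hyp => ?_) hge
  have hzS : z ∈ S := ((CfsgLib.Fusion.isCentral_center (S := Cfsg.FusionSystem.normalizerIn S ((W ↥S).map S.subtype)) N).1 hz).1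
  refine fixed_of_functor W hW1 hW2 ⟨fun _ _ => True, fun _ _ _ _ _ _ _ _ => trivial, fun _ _ _ _ _ _ => trivial⟩ ?_ _ F rfl hS hF z hzS hzc trivial hyp
  intro G _ _ P z _ hzO hzP _ hzN
  refine (Subgroup.mem_inf.mp ((hC G P).ge (Subgroup.mem_inf.mpr ⟨hzO, ⟨⟨z, ?_⟩, ?_, rfl⟩⟩))).2
  · exact Subgroup.le_normalizer.trans (le_normalizer_of_characteristic (ind_le W _) (ind_characteristic W hW2 _ P.2))
      (CfsgLib.Core.pCore_le_sylow P hzO)
  · exact Subgroup.mem_center_iff.mpr fun n => Subtype.ext (hzN n n.2)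

end Cfsg.Agent.S5196
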