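import Cfsg.Statements.S5199
import Cfsg.Agent.Lib.Fusion.Saturated

set_option autoImplicit false
open Cfsg

namespace Cfsg.Agent.S5199

open CfsgLib.Fusion Cfsg.FusionSystem
/-- Let F be a saturated fusion system over a finite p-group S, E a normal subsystem of F over T, and F₀ a normal subsystem of F over a subgroup U containing both T and the hyperfocal subgroup of F, such that F₀ has p-power index in F. Then E is a subsystem of F₀. -/
theorem result {Ω : Type*} [Group Ω] {S : Subgroup Ω} [Finite S] (p : ℕ) [Fact p.Prime] (hS : IsPGroup p S) (F : Cfsg.FusionSystem S) (hF : F.IsSaturated p) {T U : Subgroup Ω} (E : Cfsg.FusionSystem T) (hE : E.IsNormalIn F p) (F₀ : Cfsg.FusionSystem U) (hF₀ : F₀.IsNormalIn F p) (hU : T ⊔ F.hyperfocalSubgroup p ≤ U) (hidx : F₀.HasPPowerIndexIn F p) : E.IsSubsystemOf F₀ := by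
  obtain ⟨⟨hEs, -, hsub, hT, -⟩, -⟩ := hE
  have hTU : T ≤ U := le_sup_left.trans hU
  have hUS : U ≤ S := hF₀.1.2.2.2.1.1
  haveI := finite_of_le hT.1
  haveI := finite_of_le hUS
  let D : Cfsg.FusionSystem T := subsystem E (fun P φ => φ ∈ F₀.Hom P)
    (fun hP hg => F₀.conj_mem (hP.trans hTU) (hTU hg))
    (fun _ hφ _ hψ h => F₀.comp_mem hφ hψ h)
    (fun {P φ} _ hφ ψ hψ hψe => by
      obtain ⟨η, hη, hηe⟩ := F₀.inv_mem hφ
      have : ψ = η := MonoidHom.ext fun ⟨y, x, hx⟩ => by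
        subst hx
        rw [hψe, hηe]
      rw [this]; exact hη)
  have key : E ≤ D := by
    refine le_of_autGroup_centric_radical p (hS.to_le hT.1) hEs D fun R hR _ _ => ?_
    haveI := finite_of_le hR.1
    haveI := finite_aut_of_le hR.1
    obtain ⟨-, Sy, hSy⟩ := fullyNormalized_automized p (hS.to_le hT.1) hEs hR
    intro a ha
    refine (autGroup_carrier D hR.1 a).mpr ⟨(autGroup_carrier E hR.1 a).mp ha, ?_⟩
    suffices h : a ∈ F₀.autGroup R from (autGroup_carrier F₀ (hR.1.trans hTU) a).mp h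
    obtain ⟨u, hu, v, hv, huv⟩ := Subgroup.mem_sup_of_normal_right.mp
      ((CfsgLib.PResidual.sup_pResidual_eq_top Sy).ge (Subgroup.mem_top (⟨a, ha⟩ : ↥(E.autGroup R))))
    rw [show a = ((u : ↥(E.autGroup R)) : MulAut ↥R) * ((v : ↥(E.autGroup R)) : MulAut ↥R) from
      congrArg Subtype.val huv.symm]
    refine mul_mem ?_ ?_
    · rw [hSy] at hu
      obtain ⟨t, ht, hte⟩ := (mem_autInducedBy _).mp (Subgroup.mem_subgroupOf.mp hu)
      exact autInducedBy_le_autGroup F₀ (hR.1.trans hTU) ((mem_autInducedBy _).mpr ⟨t, hTU ht, hte⟩)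
    · exact hidx.2.2 R (hR.1.trans hTU) ⟨Subgroup.inclusion (autGroup_mono F E hsub R) v,
        CfsgLib.PResidual.map_pResidual _ ⟨v, hv, rfl⟩, rfl⟩
  exact fun P φ hφ => (key P hφ).2

end Cfsg.Agent.S5199
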