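import Cfsg.Statements.S5212
import Cfsg.Agent.Lib.Metacyclic.TwoFusion

set_option autoImplicit false
open Cfsg

namespace Cfsg.Agent.S5212

/-- Let S be a finite metacyclic 2-group that is not homocyclic abelian (a direct product of cyclic groups of one common order), not dihedral, not semidihedral and not generalized quaternion. Then every saturated fusion system over S is the inner fusion system of S. -/
theorem result {Ω : Type*} [Group Ω] {S : Subgroup Ω} [Finite S] (hS : IsPGroup 2 S) (F : Cfsg.FusionSystem S) (hF : F.IsSaturated 2) (hm : Cfsg.IsMetacyclic ↥S) (hh : ¬ ∃ n k : ℕ, Nonempty (↥S ≃* Multiplicative (Fin k → ZMod (2 ^ n)))) (hd : ¬ ∃ m : ℕ, Nonempty (↥S ≃* DihedralGroup m)) (hq : ¬ ∃ m : ℕ, Nonempty (↥S ≃* QuaternionGroup m)) (hsd : ¬ Cfsg.IsQuasiDihedral ↥S) : ∀ P : Subgroup Ω, F.Hom P = (Cfsg.innerFusionSystem S).Hom P := by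
  refine CfsgLib.Metacyclic.TwoFusion.inner_of_metacyclic hS hF hm ?_ hd hq hsd
  rintro ⟨n, ⟨e⟩⟩
  refine hh ⟨n, 2, ⟨e.trans ?_⟩⟩
  exact
    { toFun := fun w => Multiplicative.ofAdd ![w.1.toAdd, w.2.toAdd]
      invFun := fun f => (Multiplicative.ofAdd (f.toAdd 0), Multiplicative.ofAdd (f.toAdd 1))
      left_inv := fun w => rfl
      right_inv := fun f => Multiplicative.toAdd.injective (funext fun i => by fin_cases i <;> rfl)
      map_mul' := fun v w => Multiplicative.toAdd.injective (funext fun i => by fin_cases i <;> rfl) }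

end Cfsg.Agent.S5212
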