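import Cfsg.Statements.S5219
import Cfsg.Agent.Lib.Fusion.AgemoCenter

set_option autoImplicit false
open Cfsg

namespace Cfsg.Agent.S5219

open CfsgLib
/-- Let p be a prime, n a natural number, S a nontrivial finite p-group of nilpotence class at most n(p−1)+1, and F a saturated fusion system over S with no nontrivial normal subgroup (O_p(F) = 1). Then S has exponent dividing p^(n²(p−1)+n). -/
theorem result {Ω : Type*} [Group Ω] {S : Subgroup Ω} [Finite S] (p : ℕ) [Fact p.Prime] (hS : IsPGroup p S) (F : Cfsg.FusionSystem S) (hF : F.IsSaturated p) (n : ℕ) (hS1 : S ≠ ⊥) (hcl : Subgroup.lowerCentralSeries S (n * (p - 1) + 1) = ⊥) (hcore : F.core = ⊥) : Monoid.exponent ↥S ∣ p ^ (n ^ 2 * (p - 1) + n) := by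
  have hW := Fusion.agemo_center_normal hS hF hcl
  have hbot : Cfsg.powerClosure p n (S ⊓ Subgroup.centralizer (S : Set Ω)) = ⊥ :=
    le_bot_iff.mp (hcore ▸ Fusion.le_core hW)
  have hZ : ∀ z ∈ Subgroup.center ↥S, z ^ p ^ n = 1 := fun z hz => Subtype.ext (Subgroup.mem_bot.mp (hbot ▸
    Subgroup.subset_closure ⟨(z : Ω), Subgroup.mem_inf.mpr ⟨z.2, Subgroup.mem_centralizer_iff.mpr fun s hs =>
      congrArg Subtype.val (Subgroup.mem_center_iff.mp hz ⟨s, hs⟩)⟩, rfl⟩))
  set c := n * (p - 1) + 1 with hc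
  have htop : Subgroup.upperCentralSeries ↥S c = ⊤ := by
    rw [← Subgroup.lowerCentralSeries_eq_bot_iff_upperCentralSeries_eq_top,
      ← (Subgroup.map_injective S.subtype_injective).eq_iff, Subgroup.map_bot, Subgroup.top_subtype_lowerCentralSeries]
    exact hcl
  have hk : ∀ i, ∀ x ∈ Subgroup.upperCentralSeries ↥S i, x ^ (p ^ n) ^ i = 1 := by
    intro i
    induction i with
    | zero => intro x hx; rw [Subgroup.upperCentralSeries_zero, Subgroup.mem_bot] at hx; simp [hx]
    | succ i ih =>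
      intro x hx
      rw [pow_succ' (p ^ n), pow_mul]
      exact ih _ (Fusion.pow_mem_upperCentralSeries hZ i x hx)
  refine Monoid.exponent_dvd_of_forall_pow_eq_one fun x => ?_
  rw [show n ^ 2 * (p - 1) + n = n * c by rw [hc]; ring, pow_mul]
  exact hk c x (htop ▸ Subgroup.mem_top x)

end Cfsg.Agent.S5219
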