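import Cfsg.Statements.S5222
import Cfsg.Agent.Lib.Fusion.FrattiniInner
import Cfsg.Agent.Lib.Fusion.KNormalizer

set_option autoImplicit false
open Cfsg
open scoped commutatorElement

namespace Cfsg.Agent.S5222

/-- Let F be a saturated fusion system over a finite p-group S whose normalizer fusion system of S is the inner fusion system of S (Aut_F(S) is a p-group). Then for every subgroup Q of S with [S, S] ≤ Q ≤ Φ(S), the normalizer fusion system of Q in F is the inner fusion system of N_S(Q) = S. -/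
theorem result {Ω : Type*} [Group Ω] {S : Subgroup Ω} [Finite S] (p : ℕ) [Fact p.Prime] (hS : IsPGroup p S) (F : Cfsg.FusionSystem S) (hF : F.IsSaturated p) (hN : ∀ N : Cfsg.FusionSystem (Cfsg.FusionSystem.normalizerIn S S), F.IsNormalizerSystem S N → ∀ P : Subgroup Ω, N.Hom P = (Cfsg.innerFusionSystem (Cfsg.FusionSystem.normalizerIn S S)).Hom P) (Q : Subgroup Ω) (h1 : (commutator ↥S).map S.subtype ≤ Q) (h2 : Q ≤ (frattini ↥S).map S.subtype) : ∀ N : Cfsg.FusionSystem (Cfsg.FusionSystem.normalizerIn S Q), F.IsNormalizerSystem Q N → ∀ P : Subgroup Ω, N.Hom P = (Cfsg.innerFusionSystem (Cfsg.FusionSystem.normalizerIn S Q)).Hom P := by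
  haveI : Finite ↥S := ‹_›
  classical
  intro N hN' P
  have hSS : Cfsg.FusionSystem.normalizerIn S S = S := inf_eq_left.mpr Subgroup.le_normalizer
  have hQS : Q ≤ S := h2.trans (Subgroup.map_subtype_le _)
  haveI : Finite ↥Q := CfsgLib.Fusion.finite_of_le hQS
  have hSQ : S ≤ Subgroup.normalizer (Q : Set Ω) := by
    refine fun s hs => CfsgLib.Fusion.mem_normalizer_iff_cj.mpr
      (Subgroup.eq_of_le_of_card_ge (CfsgLib.Fusion.cj_le_iff.mpr fun x hx => ?_) (by rw [CfsgLib.Fusion.card_cj]))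
    have hc : ⁅s, x⁆ ∈ Q := h1 ((Subgroup.map_subtype_commutator S).ge
      (Subgroup.commutator_mem_commutator hs (hQS hx)))
    simpa [commutatorElement_def] using mul_mem hc hx
  have hNQ : Cfsg.FusionSystem.normalizerIn S Q = S := inf_eq_left.mpr hSQ
  have hQF : F.IsFullyNormalized Q := ⟨hQS, fun R _ => by rw [hNQ]; exact Subgroup.card_le_of_le inf_le_left⟩
  -- transport to a system over `S`
  suffices main : ∀ (T : Subgroup Ω) (hT : T = S) (E : Cfsg.FusionSystem T),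
      (∀ P, E.Hom P = F.normalizerHom Q P) → ∀ P, E.Hom P = (Cfsg.innerFusionSystem T).Hom P from main _ hNQ N hN' P
  intro T hT E hE P
  subst T
  have hsat : E.IsSaturated p :=
    CfsgLib.Fusion.kNormalizer_saturated' p hS hF (CfsgLib.Fusion.fullyKNormalized_top hQF)
      (hNQ.symm.trans (CfsgLib.Fusion.kNorm_top Q).symm) E fun P φ => by
      rw [hE P]
      constructor
      · rintro ⟨hφ, hP, hv, ψ, hψ, hψP, hψQ⟩
        refine ⟨hφ, hP.trans hNQ.le, fun x => hNQ.le (hv x), ψ, hψ, hψP, ?_⟩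
        obtain ⟨a, b⟩ := (CfsgLib.Fusion.map_eq_iff le_sup_right ψ).mp hψQ
        let f : ↥Q →* ↥Q := (ψ.comp (Subgroup.inclusion le_sup_right)).codRestrict Q a
        have hf : Function.Bijective f := by
          refine ⟨fun x y h => Subgroup.inclusion_injective (le_sup_right : Q ≤ P ⊔ Q)
            (F.injective_of_mem hψ (congrArg Subtype.val h)), fun y => ?_⟩
          obtain ⟨x, hx⟩ := b y y.2
          exact ⟨x, Subtype.ext hx⟩
        exact ⟨MulEquiv.ofBijective f hf, Subgroup.mem_top _, fun q => rfl⟩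
      · rintro ⟨hφ, hP, hv, ψ, hψ, hψP, k, -, hk⟩
        exact ⟨hφ, hP.trans hNQ.ge, fun x => hNQ.ge (hv x), ψ, hψ, hψP,
          (CfsgLib.Fusion.map_eq_iff le_sup_right ψ).mpr
            ⟨fun x => by rw [hk]; exact (k x).2, fun y hy => ⟨k.symm ⟨y, hy⟩, by rw [hk]; simp⟩⟩⟩
  have hAutF : ∀ ψ ∈ F.Hom S, ∃ q ∈ S, ∀ x : S, ψ x = q * (x : Ω) * q⁻¹ := by
    intro ψ hψ
    have hr : ψ.range = S := CfsgLib.Fusion.eq_of_isConj_S ⟨ψ, hψ, rfl⟩
    have hle : S ⊔ S ≤ S := sup_le le_rfl le_rfl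
    have hmem : ψ ∈ F.normalizerHom S S := by
      refine ⟨hψ, hSS.ge, fun x => hSS.ge (CfsgLib.Fusion.apply_mem_S hψ x), ψ.comp (Subgroup.inclusion hle),
        CfsgLib.Fusion.restrict_mem hψ hle, fun x => rfl, ?_⟩
      rw [CfsgLib.Fusion.map_eq_iff le_sup_right]
      refine ⟨fun x => CfsgLib.Fusion.apply_mem_S hψ _, fun y hy => ?_⟩
      obtain ⟨x, rfl⟩ : y ∈ ψ.range := hr.symm ▸ hy
      exact ⟨x, rfl⟩
    obtain ⟨-, g, hg, he⟩ : ψ ∈ (Cfsg.innerFusionSystem (Cfsg.FusionSystem.normalizerIn S S)).Hom S :=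
      hN (CfsgLib.Fusion.normalizerSystem F S le_rfl) (fun _ => rfl) S ▸ hmem
    exact ⟨g, hSS.le hg, he⟩
  have hAut : ∀ ψ ∈ E.Hom S, ∃ q ∈ S, ∀ x : S, ψ x = q * (x : Ω) * q⁻¹ := fun ψ hψ => by
    rw [hE] at hψ
    exact hAutF ψ hψ.1
  -- the maps of the normalizer system are trivial modulo `Q`
  have hmod : ∀ (P : Subgroup Ω) (φ : ↥P →* Ω), φ ∈ E.Hom P → ∀ x : P, (x : Ω)⁻¹ * φ x ∈ Q := by
    intro P φ hφ
    refine CfsgLib.Fusion.alperin_induction p hS hsat (fun P φ => ∀ x : P, (x : Ω)⁻¹ * φ x ∈ Q) ?_ ?_ ?_ ?_ hφ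
    · intro P g hP hg x
      have hc : ⁅(x : Ω)⁻¹, g⁆ ∈ Q := h1 ((Subgroup.map_subtype_commutator S).ge
        (Subgroup.commutator_mem_commutator (inv_mem (hP x.2)) hg))
      show (x : Ω)⁻¹ * (g * x * g⁻¹) ∈ Q
      simpa [commutatorElement_def, mul_assoc] using hc
    · intro P R φ ψ _ hP _ hR h x
      have := mul_mem (hP x) (hR ⟨φ x, h x⟩)
      simpa [mul_assoc] using this
    · intro P φ hφ hP ψ _ hψe
      rintro ⟨_, x, rfl⟩
      rw [hψe x]
      simpa using inv_mem (hP x)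
    intro R hR _ _ α hα
    have hαE := (CfsgLib.Fusion.autGroup_carrier E hR.1 α).mp hα
    rw [hE] at hαE
    set X := R ⊔ Q
    obtain ⟨ψ, hψ, hψR, hψQ⟩ : ∃ ψ ∈ F.Hom X,
        (∀ x : R, ψ (Subgroup.inclusion le_sup_left x) = ((α x : R) : Ω)) ∧ (Q.subgroupOf X).map ψ = Q := hαE.2.2.2
    obtain ⟨a, b⟩ := (CfsgLib.Fusion.map_eq_iff le_sup_right ψ).mp hψQ
    have hXS : X ≤ S := sup_le hR.1 hQS
    haveI : Finite ↥X := CfsgLib.Fusion.finite_of_le hXS
    haveI := CfsgLib.Fusion.finite_aut_of_le hXS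
    have hψr : ψ.range = X := by
      rw [CfsgLib.Fusion.range_eq_sup, hψQ]
      congr 1
      exact (CfsgLib.Fusion.map_eq_iff le_sup_left ψ).mpr
        ⟨fun x => by rw [hψR]; exact (α x).2, fun y hy => ⟨α.symm ⟨y, hy⟩, by rw [hψR]; simp⟩⟩
    have hψE : ψ ∈ E.Hom X := by
      rw [hE]
      have hle : X ⊔ Q ≤ X := sup_le le_rfl le_sup_right
      exact ⟨hψ, hXS.trans hNQ.ge, fun x => hNQ.ge (CfsgLib.Fusion.apply_mem_S hψ x),
        ψ.comp (Subgroup.inclusion hle), CfsgLib.Fusion.restrict_mem hψ hle, fun x => rfl,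
        (CfsgLib.Fusion.map_eq_iff le_sup_right _).mpr ⟨fun x => a x, fun y hy => b y hy⟩⟩
    -- `X` is normal in `S`
    have hSX : S ≤ Subgroup.normalizer (X : Set Ω) := by
      refine fun s hs => CfsgLib.Fusion.mem_normalizer_iff_cj.mpr
        (Subgroup.eq_of_le_of_card_ge (CfsgLib.Fusion.cj_le_iff.mpr fun x hx => ?_) (by rw [CfsgLib.Fusion.card_cj]))
      have hc : ⁅s, x⁆ ∈ Q := h1 ((Subgroup.map_subtype_commutator S).ge
        (Subgroup.commutator_mem_commutator hs (hXS hx)))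
      simpa [commutatorElement_def] using mul_mem ((le_sup_right : Q ≤ X) hc) hx
    have hNX : Cfsg.FusionSystem.normalizerIn S X = S := inf_eq_left.mpr hSX
    have hXF : E.IsFullyNormalized X := ⟨hXS, fun U _ => by rw [hNX]; exact Subgroup.card_le_of_le inf_le_left⟩
    obtain ⟨-, T₀, hT₀⟩ := CfsgLib.Fusion.fullyNormalized_automized p hS hsat hXF
    -- automorphisms trivial modulo `Q`
    have hQinv : ∀ β : ↥(E.autGroup X), ∀ z : X, (z : Ω) ∈ Q → (((β : MulAut ↥X) z : X) : Ω) ∈ Q := by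
      intro β z hz
      have h := (CfsgLib.Fusion.autGroup_carrier E hXS _).mp β.2
      rw [hE] at h
      obtain ⟨-, -, -, χ, -, hχX, hχQ⟩ := h
      have h5 : (((β : MulAut ↥X) z : X) : Ω) = χ (Subgroup.inclusion le_sup_left z) := (hχX z).symm
      rw [h5, show Subgroup.inclusion le_sup_left z =
        Subgroup.inclusion (le_sup_right : Q ≤ X ⊔ Q) ⟨(z : Ω), hz⟩ from rfl]
      exact ((CfsgLib.Fusion.map_eq_iff le_sup_right χ).mp hχQ).1 _
    let C : Subgroup ↥(E.autGroup X) :=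
      { carrier := {β | ∀ z : X, (z : Ω)⁻¹ * (((β : MulAut ↥X) z : X) : Ω) ∈ Q}
        one_mem' := fun z => by simp
        mul_mem' := by
          intro β γ hβ hγ z
          have := mul_mem (hγ z) (hβ ((γ : MulAut ↥X) z))
          simpa [mul_assoc] using this
        inv_mem' := by
          intro β hβ z
          have := inv_mem (hβ (((β⁻¹ : ↥(E.autGroup X)) : MulAut ↥X) z))
          simpa using this }
    haveI hCn : C.Normal := ⟨fun β hβ γ z => by
      let w := ((γ⁻¹ : ↥(E.autGroup X)) : MulAut ↥X) z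
      have h3 := hQinv γ (w⁻¹ * (β : MulAut ↥X) w) (hβ w)
      simpa [w] using h3⟩
    have hTC : (T₀ : Subgroup ↥(E.autGroup X)) ≤ C := by
      intro β hβ z
      rw [hT₀] at hβ
      obtain ⟨g, hg, hgβ⟩ := (CfsgLib.Fusion.mem_autInducedBy _).mp hβ
      show (z : Ω)⁻¹ * (((β : MulAut ↥X) z : X) : Ω) ∈ Q
      rw [show (((β : MulAut ↥X) z : X) : Ω) = g * (z : Ω) * g⁻¹ from hgβ z]
      have hc : ⁅(z : Ω)⁻¹, g⁆ ∈ Q := h1 ((Subgroup.map_subtype_commutator S).ge
        (Subgroup.commutator_mem_commutator (inv_mem (hXS z.2)) hg))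
      simpa [commutatorElement_def, mul_assoc] using hc
    have hnorm : Subgroup.normalizer (T₀ : Set ↥(E.autGroup X)) ≤ C := by
      intro η hη
      set φ : ↥X →* Ω := X.subtype.comp (η : MulAut ↥X).toMonoidHom
      have hφ : φ ∈ E.Hom X := (CfsgLib.Fusion.autGroup_carrier E hXS _).mp η.2
      have hφr : φ.range = X := by
        ext y
        exact ⟨fun ⟨x, hx⟩ => hx ▸ ((η : MulAut ↥X) x).2, fun hy => ⟨(η : MulAut ↥X).symm ⟨y, hy⟩, by simp [φ]⟩⟩
      obtain ⟨χ, hχ, hχe⟩ := (CfsgLib.Fusion.fullyNormalized_receptive p hS hsat hXF).2 X φ hφ hφr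
      have hS' : S ≤ Cfsg.FusionSystem.extender S X φ := by
        intro g hg
        have hgX : g ∈ Subgroup.normalizer (X : Set Ω) := hSX hg
        let c : MulAut ↥X := X.normalizerMonoidHom ⟨g, hgX⟩
        have hc : c ∈ Cfsg.autInducedBy S X := (CfsgLib.Fusion.mem_autInducedBy c).mpr ⟨g, hg, fun x => rfl⟩
        have hcE : c ∈ E.autGroup X := CfsgLib.Fusion.autInducedBy_le_autGroup E hXS hc
        have hcT : (⟨c, hcE⟩ : ↥(E.autGroup X)) ∈ (T₀ : Subgroup ↥(E.autGroup X)) := by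
          rw [hT₀]
          exact hc
        have h3 := (Subgroup.mem_normalizer_iff.mp hη _).mp hcT
        rw [hT₀] at h3
        obtain ⟨h, hh, hhe⟩ := (CfsgLib.Fusion.mem_autInducedBy _).mp h3
        refine CfsgLib.Fusion.mem_extender ⟨hg, hgX⟩ hh fun x hx => ?_
        have h4 := hhe ((η : MulAut ↥X) x)
        have hc' : c x = ⟨g * x * g⁻¹, hx⟩ := Subtype.ext rfl
        simpa [φ, hc'] using h4
      obtain ⟨q, hq, hqe⟩ := hAut _ (CfsgLib.Fusion.restrict_mem hχ hS')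
      intro z
      have h4 : (((η : MulAut ↥X) z : X) : Ω) = q * (z : Ω) * q⁻¹ :=
        (hχe z z.2 (hS' (hXS z.2))).symm.trans (hqe ⟨z, hXS z.2⟩)
      rw [h4]
      have hc : ⁅(z : Ω)⁻¹, q⁆ ∈ Q := h1 ((Subgroup.map_subtype_commutator S).ge
        (Subgroup.commutator_mem_commutator (inv_mem (hXS z.2)) hq))
      simpa [commutatorElement_def, mul_assoc] using hc
    have htop : ∀ β : ↥(E.autGroup X), β ∈ C := fun β => by
      have h5 : Subgroup.normalizer (T₀ : Set ↥(E.autGroup X)) ⊔ C = ⊤ := Sylow.normalizer_sup_eq_top' T₀ hTC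
      exact (sup_le hnorm le_rfl) (h5.symm ▸ Subgroup.mem_top β)
    set β := CfsgLib.Fusion.isoOfMem hψE hψr
    have hβ : β ∈ E.autGroup X := (CfsgLib.Fusion.autGroup_carrier E hXS β).mpr (by
      rw [show β.toMonoidHom = _ from rfl, CfsgLib.Fusion.isoOfMem_hom hψE hψr]; exact hψE)
    intro x
    have h6 := htop ⟨β, hβ⟩ (Subgroup.inclusion le_sup_left x)
    have h7 : ((β (Subgroup.inclusion le_sup_left x) : X) : Ω) = ((α x : R) : Ω) :=
      (DFunLike.congr_fun (CfsgLib.Fusion.isoOfMem_hom hψE hψr) _).trans (hψR x)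
    show (x : Ω)⁻¹ * ((α x : R) : Ω) ∈ Q
    rw [← h7]
    exact h6
  have hΦ : E.StronglyClosed ((frattini ↥S).map S.subtype) :=
    ⟨Subgroup.map_subtype_le _, fun R hR φ hφ x => by
      rw [show φ x = (x : Ω) * ((x : Ω)⁻¹ * φ x) from (mul_inv_cancel_left _ _).symm]
      exact mul_mem (hR x.2) (h2 (hmod R φ hφ x))⟩
  ext φ
  refine ⟨fun hφ => ?_, fun hφ => ?_⟩
  · obtain ⟨g, hg, he⟩ := CfsgLib.Biset.inner_of_frattini p hS hsat hAut hΦ hφ
    exact ⟨CfsgLib.Fusion.le_S hφ, g, hg, he⟩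
  · obtain ⟨hP, g, hg, he⟩ := hφ
    exact CfsgLib.Fusion.conj_mem_of_eq E hP hg he

end Cfsg.Agent.S5222
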