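import Cfsg.Statements.S5223
import Cfsg.Agent.Lib.Fusion.SmallElements
import Cfsg.Agent.Lib.LocalBasic

set_option autoImplicit false
open Cfsg

namespace Cfsg.Agent.S5223

open CfsgLib
/-- Let F be a saturated fusion system over a finite p-group S. Suppose there are subgroups Q₀ = S, Q₁, …, Qₙ = 1 (not required to be nested) such that for each i < n the focal subgroup of Qᵢ (generated by the elements x⁻¹φ(x), x ∈ Qᵢ, φ a map of F defined on the cyclic group generated by x) lies in Qᵢ₊₁. Then F is the inner fusion system of S. -/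
theorem result {Ω : Type*} [Group Ω] {S : Subgroup Ω} [Finite S] (p : ℕ) [Fact p.Prime] (hS : IsPGroup p S) (F : Cfsg.FusionSystem S) (hF : F.IsSaturated p) (n : ℕ) (Q : Fin (n + 1) → Subgroup Ω) (hQ0 : Q 0 = S) (hQn : Q (Fin.last n) = ⊥) (hstep : ∀ i : Fin n, Subgroup.closure {y : Ω | ∃ x ∈ Q i.castSucc, ∃ φ ∈ F.Hom (Subgroup.zpowers x), y = x⁻¹ * φ ⟨x, Subgroup.mem_zpowers x⟩} ≤ Q i.succ) : ∀ P : Subgroup Ω, F.Hom P = (Cfsg.innerFusionSystem S).Hom P := by
  refine (Fusion.pAut_iff_inner hS hF).mp fun P hP => ?_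
  haveI := Fusion.finite_of_le hP
  haveI := Fusion.finite_aut_of_le hP
  refine CfsgLib.LocalBasic.isPGroup_of_coprime_elements fun a ha => ?_
  by_contra hne
  obtain ⟨M, hinv, ⟨x₀, hx₀, hmov₀⟩, -, hgen⟩ := Fusion.exists_small_moved (hS.to_le hP)
    (show (orderOf (a : MulAut ↥P)).Coprime p by rwa [Subgroup.orderOf_coe]) (fun h => hne (Subtype.ext h))
  have key : ∀ i : Fin (n + 1), M ≤ (Q i).comap P.subtype := by
    intro i
    induction i using Fin.induction with
    | zero => rw [hQ0]; exact fun x _ => hP x.2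
    | succ i ih =>
      refine hgen.symm.le.trans ((Subgroup.closure_le _).mpr ?_)
      rintro _ ⟨y, hy, rfl⟩
      refine hstep i (Subgroup.subset_closure ⟨(y : Ω), ih hy,
        (P.subtype.comp (a : MulAut ↥P).toMonoidHom).comp (Subgroup.inclusion (Subgroup.zpowers_le.mpr y.2)),
        Fusion.restrict_mem ((Fusion.autGroup_carrier F hP _).mp a.2) _, rfl⟩)
  have h1 : (x₀ : Ω) ∈ Q (Fin.last n) := key (Fin.last n) hx₀
  rw [hQn, Subgroup.mem_bot] at h1
  exact hmov₀ (by rw [show x₀ = 1 from Subtype.ext h1, map_one])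

end Cfsg.Agent.S5223
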