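import Cfsg.Statements.S5225
import Cfsg.Agent.Lib.Fusion.Yoshida
import Cfsg.Agent.Lib.Fusion.Extend

set_option autoImplicit false
open Cfsg

namespace Cfsg.Agent.S5225

set_option linter.style.haveILetI false

/-- Yoshida's Theorem for fusion systems. Let F be a saturated fusion system over a finite p-group S and N the normalizer fusion system of S in F. If the focal subgroups of F and N differ (N does not control transfer in F), then S has a quotient isomorphic to the wreath product C_p ≀ C_p (realised as a Sylow p-subgroup of the symmetric group of degree p²). -/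
theorem result {Ω : Type*} [Group Ω] {S : Subgroup Ω} [Finite S] (p : ℕ) [Fact p.Prime] (hS : IsPGroup p S) (F : Cfsg.FusionSystem S) (hF : F.IsSaturated p) (N : Cfsg.FusionSystem (Cfsg.FusionSystem.normalizerIn S S)) (hN : F.IsNormalizerSystem S N) (hne : N.focalSubgroup ≠ F.focalSubgroup) : ∃ (W : Sylow p (Equiv.Perm (Fin (p ^ 2)))) (f : ↥S →* ↥(W : Subgroup (Equiv.Perm (Fin (p ^ 2))))), Function.Surjective f := by
  classical
  by_contra hno
  have hnS : Cfsg.FusionSystem.normalizerIn S S = S := inf_eq_left.mpr Subgroup.le_normalizer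
  have hNF : N.focalSubgroup ≤ F.focalSubgroup := by
    refine (Subgroup.closure_le _).mpr ?_
    rintro _ ⟨P, φ, x, hφ, rfl⟩
    exact Subgroup.subset_closure ⟨P, φ, x, ((hN P).le hφ).1, rfl⟩
  have hcomm : ⁅S, S⁆ ≤ N.focalSubgroup := by
    haveI : Finite ↥(Cfsg.FusionSystem.normalizerIn S S) := CfsgLib.Fusion.finite_of_le hnS.le
    exact le_trans (Subgroup.commutator_mono hnS.ge hnS.ge) (CfsgLib.Biset.commutator_le_focal N)
  set K := N.focalSubgroup.subgroupOf S with hK
  have hKn : K.Normal := ⟨fun k hk s => by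
    have h1 : (s : Ω) * k * (s : Ω)⁻¹ * (k : Ω)⁻¹ ∈ N.focalSubgroup := by
      rw [← commutatorElement_def]; exact hcomm (Subgroup.commutator_mem_commutator s.2 k.2)
    have h2 := N.focalSubgroup.mul_mem h1 (show (k : Ω) ∈ N.focalSubgroup from hk)
    rw [inv_mul_cancel_right] at h2
    exact h2⟩
  haveI := hKn
  letI : CommGroup (↥S ⧸ K) :=
    { (inferInstance : Group (↥S ⧸ K)) with
      mul_comm := fun a b => by
        induction a using QuotientGroup.induction_on with
        | H x =>
          induction b using QuotientGroup.induction_on with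
          | H y =>
            refine QuotientGroup.eq.mpr ?_
            show ((x * y)⁻¹ * (y * x) : Ω) ∈ N.focalSubgroup
            have h := hcomm (Subgroup.commutator_mem_commutator (S.inv_mem y.2) (S.inv_mem x.2))
            rw [commutatorElement_def, inv_inv, inv_inv] at h
            simpa [mul_assoc] using h }
  obtain ⟨n, hn⟩ := IsPGroup.iff_card.mp (hS.to_quotient K)
  have hinv : ∀ α ∈ F.autGroup S, ∀ x : ↥S, QuotientGroup.mk' K (α x) = QuotientGroup.mk' K x := by
    intro α hα x
    show ((α x : ↥S) : ↥S ⧸ K) = (x : ↥S ⧸ K)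
    refine Eq.symm (QuotientGroup.eq.mpr ?_)
    show (((x⁻¹ * α x : ↥S)) : Ω) ∈ N.focalSubgroup
    refine Subgroup.subset_closure ⟨S, S.subtype.comp α.toMonoidHom, x, (hN S).ge ?_, rfl⟩
    have hα' := (CfsgLib.Fusion.autGroup_carrier F le_rfl α).mp hα
    refine ⟨hα', hnS.ge, fun y => hnS.ge (α y).2, _, CfsgLib.Fusion.restrict_mem hα' (sup_le le_rfl le_rfl),
      fun y => rfl, ?_⟩
    rw [CfsgLib.Fusion.map_eq_iff le_sup_right]
    refine ⟨fun y => (α _).2, fun y hy => ?_⟩
    obtain ⟨w, hw⟩ := α.surjective ⟨y, hy⟩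
    exact ⟨w, congrArg Subtype.val hw⟩
  have key := CfsgLib.Fusion.Yoshida.invariant_extends hS hF hno n (QuotientGroup.mk' K)
    (fun s => by rw [← hn]; exact pow_card_eq_one') hinv
  refine hne (le_antisymm hNF ((Subgroup.closure_le _).mpr ?_))
  rintro _ ⟨P, φ, x, hφ, rfl⟩
  exact Subgroup.mem_subgroupOf.mp (QuotientGroup.eq.mp (key P φ hφ x).symm)

end Cfsg.Agent.S5225
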