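import Cfsg.Statements.S5233
import Cfsg.Agent.Lib.Fusion.SeriesCriterion
import Cfsg.Agent.Lib.Fusion.Model
import Cfsg.Agent.Lib.Fusion.ExtraspecialProduct
import Cfsg.Agent.Lib.LocalBasic
import Cfsg.Agent.Lib.FourAct

set_option autoImplicit false
open Cfsg

namespace Cfsg.Agent.S5233

set_option linter.style.haveILetI false
set_option maxHeartbeats 1000000
open CfsgLib
open scoped commutatorElement

/-- Let F be a saturated fusion system over a finite p-group S and P a subgroup of S strongly closed in F that is generalized extraspecial (its Frattini subgroup equals its commutator subgroup and has order p) and not isomorphic to E × A with A elementary abelian and E dihedral of order 8 (p = 2) or extraspecial of order p³ and exponent p (p odd). Then P is normal in F. -/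
theorem result {Ω : Type*} [Group Ω] {S : Subgroup Ω} [Finite S] (p : ℕ) [Fact p.Prime] (hS : IsPGroup p S) (F : Cfsg.FusionSystem S) (hF : F.IsSaturated p) (P : Subgroup Ω) (hP : F.StronglyClosed P) (hge : frattini ↥P = commutator ↥P ∧ Nat.card ↥(commutator ↥P) = p) (h2 : p = 2 → ¬ ∃ (A : Type) (_ : CommGroup A), (∀ a : A, a ^ 2 = 1) ∧ Nonempty (↥P ≃* DihedralGroup 4 × A)) (hodd : p ≠ 2 → ¬ ∃ (E : Type) (_ : Group E) (A : Type) (_ : CommGroup A), Cfsg.IsExtraspecial p E ∧ Nat.card E = p ^ 3 ∧ Monoid.exponent E = p ∧ (∀ a : A, a ^ p = 1) ∧ Nonempty (↥P ≃* E × A)) : F.IsNormal P := by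
  classical
  have hPS : P ≤ S := hP.1
  haveI := Fusion.finite_of_le hPS
  have hp : p.Prime := Fact.out
  have hPp : IsPGroup p ↥P := hS.to_le hPS
  set Z : Subgroup Ω := (commutator ↥P).map P.subtype with hZdef
  have hZeq : Z = ⁅P, P⁆ := Subgroup.map_subtype_commutator P
  have hZP : Z ≤ P := Subgroup.map_subtype_le _
  haveI := Fusion.finite_of_le (hZP.trans hPS)
  have hZp : Nat.card ↥Z = p := by rw [hZdef, Subgroup.card_map_of_injective P.subtype_injective, hge.2]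
  have hclass : ∀ u ∈ P, ∀ v ∈ P, ⁅u, v⁆ ∈ Z := fun u hu v hv => hZeq ▸ Subgroup.commutator_mem_commutator hu hv
  have hpow : ∀ u ∈ P, u ^ p ∈ Z := fun u hu =>
    ⟨(⟨u, hu⟩ : ↥P) ^ p, hge.1 ▸ (FourAct.mem_frattini hPp ⟨u, hu⟩ ⟨u, hu⟩).2, rfl⟩
  have hPN : S ≤ Subgroup.normalizer (P : Set Ω) := Fusion.StronglyClosed.normal hP
  have hZN : S ≤ Subgroup.normalizer (Z : Set Ω) := fun g hg => by
    refine Subgroup.mem_normalizer_fintype fun x hx => ?_
    have h1 : Z.map (MulAut.conj g).toMonoidHom ≤ Z := by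
      rw [hZeq, Subgroup.map_commutator]
      refine Subgroup.commutator_mono ?_ ?_
      · rintro _ ⟨y, hy, rfl⟩; exact (Subgroup.mem_normalizer_iff.mp (hPN hg) y).mp hy
      · rintro _ ⟨y, hy, rfl⟩; exact (Subgroup.mem_normalizer_iff.mp (hPN hg) y).mp hy
    exact h1 ⟨x, hx, rfl⟩
  have hgenZ : ∀ z ∈ Z, z ≠ 1 → Subgroup.zpowers z = Z := by
    intro z hz hz1
    refine Subgroup.eq_of_le_of_card_ge (Subgroup.zpowers_le.mpr hz) ?_
    rcases (Nat.dvd_prime hp).mp (hZp ▸ Subgroup.card_dvd_of_le (Subgroup.zpowers_le.mpr hz)) with h | h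
    · exact absurd (Subgroup.mem_bot.mp ((Subgroup.card_eq_one.mp h).le (Subgroup.mem_zpowers z))) hz1
    · rw [hZp, h]
  have hexpZ : ∀ z ∈ Z, z ^ p = 1 := fun z hz =>
    congrArg Subtype.val (show (⟨z, hz⟩ : ↥Z) ^ p = 1 by rw [← hZp]; exact pow_card_eq_one')
  have hlt : ∀ (K Q : Subgroup Ω), K ≤ Q → Q ≤ S → ⁅K, Q⁆ = K → K = ⊥ := by
    intro K Q hKQ hQS hK
    haveI := Fusion.finite_of_le hQS
    haveI : Group.IsNilpotent ↥Q := (hS.to_le hQS).isNilpotent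
    obtain ⟨n, hn⟩ := Subgroup.nilpotent_iff_lowerCentralSeries.mp (inferInstance : Group.IsNilpotent ↥Q)
    have hbot : Q.lowerCentralSeries n = ⊥ := by
      rw [← Subgroup.top_subtype_lowerCentralSeries, hn, Subgroup.map_bot]
    refine le_bot_iff.mp (hbot ▸ ?_)
    clear hn hbot
    induction n with
    | zero => exact hKQ
    | succ i ih =>
      rw [Subgroup.lowerCentralSeries_succ]
      exact hK.ge.trans (Subgroup.commutator_mono ih le_rfl)
  have hZc : ∀ z ∈ Z, ∀ s ∈ S, z * s = s * z := by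
    intro z hz s hs
    have hle : ⁅Z, S⁆ ≤ Z := Subgroup.le_normalizer_iff_commutator_le_left.mp hZN
    haveI : Finite ↥(⁅Z, S⁆) := Fusion.finite_of_le (hle.trans (hZP.trans hPS))
    rcases (Nat.dvd_prime hp).mp (hZp ▸ Subgroup.card_dvd_of_le hle) with h | h
    · have h1 := Subgroup.commutator_mem_commutator (H₁ := Z) (H₂ := S) hz hs
      rw [Subgroup.card_eq_one.mp h, Subgroup.mem_bot, commutatorElement_eq_one_iff_mul_comm] at h1
      exact h1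
    · have hb := hlt Z S (hZP.trans hPS) le_rfl (Subgroup.eq_of_le_of_card_ge hle (by rw [h, hZp]))
      rw [hb, Subgroup.card_bot] at hZp
      exact absurd hZp hp.one_lt.ne
  by_cases hZsc : F.StronglyClosed Z
  · refine Fusion.isNormal_of_le_radical p hS hF hP fun R _ hc hr => ?_
    refine Fusion.le_of_series_le (F := F) p hS hPS hPN (fun i => if i = 0 then P else if i = 1 then Z else ⊥) 2
      (by simp) (by simp) (fun i r hr' x hx => ?_) hc hr fun α hα i x hx => ?_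
    · rcases i with _ | _ | i
      · simp only [if_pos] at hx
        simp only [Nat.zero_add, Nat.succ_ne_zero, if_false, if_pos]
        convert hclass x⁻¹ (inv_mem hx) r hr' using 1
        simp [commutatorElement_def, mul_assoc]
      · simp only [Nat.succ_ne_zero, if_false, if_pos, Nat.zero_add] at hx ⊢
        rw [← hZc x hx r (hPS hr'), mul_inv_cancel_right, inv_mul_cancel]
        exact one_mem _
      · simp only [Nat.succ_ne_zero, if_false, Nat.add_eq_zero_iff, Nat.succ.injEq, Subgroup.mem_bot] at hx ⊢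
        simp_all
    · have hα' := (Fusion.autGroup_carrier F hc.1 _).mp hα
      have hpres : ∀ D : Subgroup Ω, F.StronglyClosed D → (x : Ω) ∈ D → ((α x : ↥R) : Ω) ∈ D := fun D hD hxD =>
        hD.2 _ inf_le_right _ (Fusion.restrict_mem hα' (inf_le_left : R ⊓ D ≤ R)) ⟨(x : Ω), x.2, hxD⟩
      rcases i with _ | _ | i
      · simp only [if_pos] at hx ⊢
        exact hpres _ hP hx
      · simp only [Nat.succ_ne_zero, if_false, if_pos, Nat.zero_add] at hx ⊢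
        exact hpres _ hZsc hx
      · simp only [Nat.succ_ne_zero, if_false, Nat.add_eq_zero_iff, Nat.succ.injEq, Subgroup.mem_bot] at hx ⊢
        rw [show x = 1 from Subtype.ext (by simpa using hx)]
        simp
  exfalso
  obtain ⟨Q, hQZ, φ, hφ, x, hx⟩ : ∃ Q ≤ Z, ∃ φ ∈ F.Hom Q, ∃ x : ↥Q, φ x ∉ Z := by
    by_contra hall
    exact hZsc ⟨hZP.trans hPS, fun Q hQ φ hφ x => by
      by_contra hn
      exact hall ⟨Q, hQ, φ, hφ, x, hn⟩⟩
  have hx1 : (x : Ω) ≠ 1 := fun h => hx (by rw [show x = 1 from Subtype.ext h, map_one]; exact one_mem _)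
  haveI := Fusion.finite_of_le (hQZ.trans (hZP.trans hPS))
  obtain rfl : Q = Z := le_antisymm hQZ ((hgenZ _ (hQZ x.2) hx1).ge.trans (Subgroup.zpowers_le.mpr x.2))
  clear hQZ
  have hfn : F.IsFullyNormalized Z := Fusion.fullyNormalized_of_normal (hZP.trans hPS) hZN
  -- a subgroup of `P` centralizing a conjugate of `x` maps into `P` with the conjugate going to `x`
  have hext : ∀ (θ : ↥Z →* Ω), θ ∈ F.Hom Z → ∀ H : Subgroup Ω, H ≤ P → (∀ h ∈ H, h * θ x = θ x * h) →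
      ∃ g ∈ F.Hom H, (∀ h : ↥H, g h ∈ P) ∧ ∀ hm : θ x ∈ H, g ⟨θ x, hm⟩ = (x : Ω) := by
    intro θ hθ H hH hcomm
    obtain ⟨θi, hθi, hθir, hθie⟩ := Fusion.exists_inverse hθ rfl
    obtain ⟨ψ, hψ, hψe⟩ := (Fusion.fullyNormalized_receptive p hS hF hfn).2 _ θi hθi hθir
    have hHext : H ≤ Cfsg.FusionSystem.extender S θ.range θi := fun u hu => Fusion.centralizerIn_le_extender θi
      ⟨hPS (hH hu), Subgroup.mem_centralizer_iff.mpr fun v hv => by
        obtain ⟨w, rfl⟩ := hv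
        obtain ⟨j, hj⟩ := Subgroup.mem_zpowers_iff.mp ((hgenZ _ x.2 hx1).ge w.2)
        rw [show w = x ^ j from Subtype.ext hj.symm, map_zpow]
        exact ((show Commute u (θ x) from hcomm u hu).zpow_right j).eq.symm⟩
    exact ⟨_, Fusion.restrict_mem hψ hHext, fun u => hP.2 H hH _ (Fusion.restrict_mem hψ hHext) u,
      fun hm => (hψe _ ⟨x, rfl⟩ _).trans (hθie x _)⟩
  -- the centre contains no new conjugate of `x`
  have hcen : ∀ θ ∈ F.Hom Z, (∀ h ∈ P, h * θ x = θ x * h) → θ x ∈ Z := by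
    intro θ hθ hcomm
    obtain ⟨g, hg, hgP, hge'⟩ := hext θ hθ P le_rfl hcomm
    have hθP : θ x ∈ P := hP.2 Z hZP θ hθ x
    let f : ↥P →* ↥P := g.codRestrict P hgP
    have hf : Function.Bijective f := Finite.injective_iff_bijective.mp fun u v h =>
      F.injective_of_mem hg (congrArg Subtype.val h)
    obtain ⟨x', hx', hxe⟩ := x.2
    have hfe : f ⟨θ x, hθP⟩ = x' := Subtype.ext ((hge' hθP).trans hxe.symm)
    have hmem : (MulEquiv.ofBijective f hf) ⟨θ x, hθP⟩ ∈ commutator ↥P := show f _ ∈ _ from hfe ▸ hx'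
    exact ⟨_, (Subgroup.characteristic_iff_comap_eq.mp inferInstance (MulEquiv.ofBijective f hf)).le hmem, rfl⟩
  set y := φ x with hydef
  have hyP : y ∈ P := hP.2 Z hZP φ hφ x
  have hy1 : y ^ p = 1 := by rw [hydef, ← map_pow, show x ^ p = 1 from Subtype.ext (hexpZ _ x.2), map_one]
  set E : Subgroup Ω := P ⊓ Subgroup.centralizer ({y} : Set Ω)
  have hEP : E ≤ P := inf_le_left
  have hE : ∀ u, u ∈ E ↔ u ∈ P ∧ u * y = y * u := fun u =>
    ⟨fun h => ⟨h.1, Subgroup.mem_centralizer_singleton_iff.mp h.2⟩,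
      fun h => ⟨h.1, Subgroup.mem_centralizer_singleton_iff.mpr h.2⟩⟩
  haveI := Fusion.finite_of_le (hEP.trans hPS)
  have hyE : y ∈ E := (hE y).mpr ⟨hyP, rfl⟩
  obtain ⟨g, hg, hgP, hgy⟩ := hext φ hφ E hEP fun h hh => ((hE h).mp hh).2
  have hgy : g ⟨y, hyE⟩ = (x : Ω) := hgy hyE
  have hker : ∀ d : ↥E, (d : Ω) ∈ Z → g d ∈ Z → d = 1 := by
    intro d hd hgd
    by_contra hd1
    obtain ⟨j, hj⟩ := Subgroup.mem_zpowers_iff.mp
      ((hgenZ _ hgd fun h => hd1 (F.injective_of_mem hg (h.trans (map_one g).symm))).ge x.2)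
    rw [← map_zpow, ← hgy] at hj
    have := congrArg Subtype.val (F.injective_of_mem hg hj)
    exact hx (show y ∈ Z from by
      rw [show y = (d : Ω) ^ j from (this.symm.trans (Subgroup.coe_zpow _ _ _))]; exact Z.zpow_mem hd j)
  have hab : ∀ u ∈ E, ∀ v ∈ E, u * v = v * u := by
    intro u hu v hv
    have h := hker ⁅(⟨u, hu⟩ : ↥E), ⟨v, hv⟩⁆ (hclass u (hEP hu) v (hEP hv))
      (by rw [map_commutatorElement]; exact hclass _ (hgP _) _ (hgP _))
    exact congrArg Subtype.val (commutatorElement_eq_one_iff_mul_comm.mp h)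
  have hexp : ∀ u ∈ E, u ^ p = 1 := fun u hu =>
    congrArg Subtype.val (hker ((⟨u, hu⟩ : ↥E) ^ p) (hpow u (hEP hu)) (by rw [map_pow]; exact hpow _ (hgP _)))
  obtain ⟨a₀, ha₀, hne₀⟩ : ∃ a ∈ P, ⁅a, y⁆ ≠ 1 := by
    by_contra hall
    exact hx (hcen φ hφ fun h hh => by
      by_contra hne
      exact hall ⟨h, hh, fun he => hne (commutatorElement_eq_one_iff_mul_comm.mp he)⟩)
  -- no element of order `p` outside `E`: the exceptional groups
  have hno : ∀ a ∈ P, ⁅a, y⁆ ≠ 1 → a ^ p ≠ 1 := by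
    intro a ha hne hap
    have hsc : (commutator ↥P : Subgroup ↥P) ≤ Subgroup.center ↥P := fun w hw =>
      Subgroup.mem_center_iff.mpr fun v => Subtype.ext (hZc _ ⟨w, hw, rfl⟩ v (hPS v.2)).symm
    have hcl : ∀ u v : ↥P, ⁅u, v⁆ ∈ commutator ↥P := fun u v =>
      commutator_def (↥P) ▸ Subgroup.commutator_mem_commutator (Subgroup.mem_top u) (Subgroup.mem_top v)
    have hpw : ∀ u : ↥P, u ^ p ∈ commutator ↥P := fun u => hge.1 ▸ (FourAct.mem_frattini hPp u u).2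
    have hce : ∀ z ∈ Subgroup.center ↥P, z ^ p = 1 := fun z hz => Subtype.ext (hexp _ ((hE _).mpr
      ⟨z.2, congrArg Subtype.val ((Subgroup.mem_center_iff.mp hz) ⟨y, hyP⟩).symm⟩))
    have hne' : ⁅(⟨a, ha⟩ : ↥P), (⟨y, hyP⟩ : ↥P)⁆ ≠ 1 := fun h => hne (congrArg Subtype.val h)
    have hM : ∀ u v : ↥P, u * ⟨y, hyP⟩ = ⟨y, hyP⟩ * u → v * ⟨y, hyP⟩ = ⟨y, hyP⟩ * v → u * v = v * u := fun u v hu hv =>
      Subtype.ext (hab _ ((hE _).mpr ⟨u.2, congrArg Subtype.val hu⟩) _ ((hE _).mpr ⟨v.2, congrArg Subtype.val hv⟩))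
    by_cases hp2 : p = 2
    · subst hp2
      exact h2 rfl (Fusion.ExtraspecialProduct.exists_dihedral_prod hPp _ hge.2 hsc hcl hpw hce hne'
        (Subtype.ext hap) (Subtype.ext hy1) hM)
    · exact hodd hp2 (Fusion.ExtraspecialProduct.exists_exponent_p_prod hp2 hPp _ hge.2 hsc hcl hpw hce hne'
        (Subtype.ext hap) (Subtype.ext hy1) hM)
  have hp2 : p ≠ 2 := by
    rintro rfl
    set c := ⁅a₀, y⁆ with hc
    have hcZ : c ∈ Z := hclass _ ha₀ _ hyP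
    obtain ⟨j, hj⟩ := Subgroup.mem_zpowers_iff.mp ((hgenZ c hcZ hne₀).ge (hpow a₀ ha₀))
    have hc2 : c ^ (2 : ℤ) = 1 := by rw [zpow_ofNat]; exact hexpZ c hcZ
    rcases Int.even_or_odd' j with ⟨l, rfl | rfl⟩
    · rw [zpow_mul, hc2, one_zpow] at hj
      exact hno a₀ ha₀ hne₀ hj.symm
    · rw [zpow_add, zpow_mul, hc2, one_zpow, one_mul, zpow_one] at hj
      have hyi : y⁻¹ = y := inv_eq_of_mul_eq_one_right (by rw [← pow_two, hy1])
      refine hno (a₀ * y) (mul_mem ha₀ hyP) ?_ ?_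
      · rw [show ⁅a₀ * y, y⁆ = ⁅a₀, y⁆ by simp [commutatorElement_def, mul_assoc]]
        exact hne₀
      · have hcc : c * c = 1 := by rw [← pow_two, hexpZ c hcZ]
        calc (a₀ * y) ^ 2 = ⁅a₀, y⁆ * (y * (a₀ * (a₀ * y))) := by
              rw [pow_two, commutatorElement_def]; simp [mul_assoc]
          _ = c * (y * (c * y)) := by rw [← mul_assoc a₀, ← pow_two, ← hj]
          _ = 1 := by rw [hZc c hcZ y (hPS hyP), ← mul_assoc y, ← pow_two, hy1, one_mul, hcc]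
  -- `E` is the set of elements of order `p`
  have hEelt : ∀ u ∈ P, u ^ p = 1 → u ∈ E := fun u hu hup => (hE u).mpr ⟨hu, by
    by_contra hne
    exact hno u hu (fun he => hne (commutatorElement_eq_one_iff_mul_comm.mp he)) hup⟩
  have hEsc : F.StronglyClosed E := ⟨hEP.trans hPS, fun Q hQ χ hχ u => hEelt _ (hP.2 Q (hQ.trans hEP) χ hχ u)
    (by rw [← map_pow, show u ^ p = 1 from Subtype.ext (hexp _ (hQ u.2)), map_one])⟩
  haveI := Fusion.finite_aut_of_le hEsc.1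
  have hEN : S ≤ Subgroup.normalizer (E : Set Ω) := Fusion.StronglyClosed.normal hEsc
  letI : CommGroup ↥E := { E.toGroup with mul_comm := fun u v => Subtype.ext (hab u u.2 v v.2) }
  have hZE : Z ≤ E := fun z hz => (hE z).mpr ⟨hZP hz, hZc z hz y (hPS hyP)⟩
  let f : ↥E →* ↥E := g.codRestrict E fun u => hEsc.2 E le_rfl g hg u
  have hf : Function.Bijective f := Finite.injective_iff_bijective.mp fun u v h =>
    F.injective_of_mem hg (congrArg Subtype.val h)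
  set β : MulAut ↥E := (MulEquiv.ofBijective f hf)⁻¹ with hβdef
  have hβ : β ∈ F.autGroup E := inv_mem ((Fusion.autGroup_carrier F hEsc.1 _).mpr
    (Fusion.restrict_mem_of_eq hg le_rfl fun u => rfl))
  set e1 : ↥E := ⟨y, hyE⟩ with he1
  have hβx : β ⟨(x : Ω), hZE x.2⟩ = e1 := by
    show (MulEquiv.ofBijective f hf).symm _ = _
    rw [MulEquiv.symm_apply_eq]
    exact Subtype.ext hgy.symm
  obtain ⟨a, ha, hne⟩ : ∃ a ∈ P, ⁅a, y⁆ ≠ 1 := ⟨a₀, ha₀, hne₀⟩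
  have haS := hPS ha
  let τ : MulAut ↥E := E.normalizerMonoidHom ⟨a, hEN haS⟩
  have hτ : τ ∈ F.autGroup E :=
    (Fusion.autGroup_carrier F hEsc.1 _).mpr (Fusion.conj_mem_of_eq F hEsc.1 haS fun u => rfl)
  have hτv : ∀ u : ↥E, ((τ u : ↥E) : Ω) = a * u * a⁻¹ := fun u => rfl
  have hτZ : ∀ u : ↥E, (u : Ω) ∈ Z → τ u = u := fun u hu => Subtype.ext (by
    rw [hτv, ← hZc _ hu a haS, mul_inv_cancel_right])
  have hτd : ∀ u : ↥E, ((τ u * u⁻¹ : ↥E) : Ω) ∈ Z := fun u => hclass a ha u (hEP u.2)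
  set z : ↥E := τ e1 * e1⁻¹ with hz
  have hz1 : z ≠ 1 := fun h => hne (congrArg Subtype.val h)
  have hzZ : (z : Ω) ∈ Z := hτd e1
  have hτe : τ e1 = e1 * z := by rw [hz, mul_comm (τ e1), mul_inv_cancel_left]
  have hzgen : ∀ u : ↥E, (u : Ω) ∈ Z → u ∈ Subgroup.zpowers z := by
    intro u hu
    obtain ⟨j, hj⟩ := Subgroup.mem_zpowers_iff.mp ((hgenZ _ hzZ fun h => hz1 (Subtype.ext h)).ge hu)
    exact ⟨j, Subtype.ext hj⟩
  clear_value z
  -- decomposition of `P` over `E`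
  have hdec : ∀ u ∈ P, ∃ k : ℕ, ∃ m ∈ E, u = a ^ k * m := by
    intro u hu
    have hcz : ∀ s t : ↥P, ⁅s, t⁆ ∈ Subgroup.center ↥P := fun s t => Subgroup.mem_center_iff.mpr fun w =>
      Subtype.ext (hZc _ (hclass _ s.2 _ t.2) w (hPS w.2)).symm
    haveI := Fusion.finite_of_le (Subgroup.zpowers_le.mpr (hPS (hZP (hclass a ha y hyP))))
    obtain ⟨k, hk⟩ : ∃ k : ℕ, ⁅a, y⁆ ^ k = ⁅u, y⁆ := by
      obtain ⟨k, hk⟩ := (isOfFinOrder_of_finite (⟨⁅a, y⁆, hclass a ha y hyP⟩ : ↥Z)).mem_powers_iff_mem_zpowers.mpr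
        (show (⟨⁅u, y⁆, hclass u hu y hyP⟩ : ↥Z) ∈ Subgroup.zpowers _ from by
          obtain ⟨j, hj⟩ := Subgroup.mem_zpowers_iff.mp ((hgenZ _ (hclass a ha y hyP) hne).ge (hclass u hu y hyP))
          exact ⟨j, Subtype.ext hj⟩)
      exact ⟨k, congrArg Subtype.val hk⟩
    refine ⟨k, (a ^ k)⁻¹ * u, (hE _).mpr ⟨mul_mem (inv_mem (pow_mem ha k)) hu, ?_⟩, (mul_inv_cancel_left _ _).symm⟩
    have h := Fusion.ExtraspecialProduct.comm_mul_left hcz ((⟨a, ha⟩ : ↥P) ^ k) (((⟨a, ha⟩ : ↥P) ^ k)⁻¹ * ⟨u, hu⟩) ⟨y, hyP⟩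
    rw [mul_inv_cancel_left, Fusion.ExtraspecialProduct.comm_pow_left hcz] at h
    have h' : ⁅u, y⁆ = ⁅a, y⁆ ^ k * ⁅(a ^ k)⁻¹ * u, y⁆ := congrArg Subtype.val h
    rw [← hk, left_eq_mul] at h'
    exact commutatorElement_eq_one_iff_mul_comm.mp h'
  set σ₀ := β * τ * β⁻¹ with hσ₀
  have hσA : σ₀ ∈ F.autGroup E := mul_mem (mul_mem hβ hτ) (inv_mem hβ)
  have hσe : σ₀ e1 = e1 := by
    show β (τ (β⁻¹ e1)) = e1
    rw [← hβx, MulAut.inv_apply_self, hτZ ⟨(x : Ω), hZE x.2⟩ x.2]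
  have hσd : ∀ u : ↥E, σ₀ u * u⁻¹ ∈ Subgroup.zpowers e1 := by
    intro u
    have hx0 : (x : Ω) ∈ Z := x.2
    obtain ⟨j, hj⟩ := Subgroup.mem_zpowers_iff.mp ((hgenZ _ hx0 hx1).ge (hτd (β⁻¹ u)))
    refine ⟨j, ?_⟩
    show e1 ^ j = σ₀ u * u⁻¹
    have h2 := congrArg β (show (⟨(x : Ω), hZE hx0⟩ : ↥E) ^ j = τ (β⁻¹ u) * (β⁻¹ u)⁻¹ from Subtype.ext hj)
    simp only [map_zpow, map_mul, map_inv, MulAut.apply_inv_self, hβx] at h2
    exact h2
  have hσz : σ₀ z * z⁻¹ ≠ 1 := by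
    intro h
    have hfz : τ (β⁻¹ z) = β⁻¹ z := by
      have h2 := congrArg (⇑β⁻¹) (mul_inv_eq_one.mp h)
      simpa [hσ₀] using h2
    -- `β⁻¹ z` would be central in `P`
    have hzc' : ∀ u ∈ P, u * ((β⁻¹ z : ↥E) : Ω) = ((β⁻¹ z : ↥E) : Ω) * u := by
      intro u hu
      obtain ⟨k, m, hm, rfl⟩ := hdec u hu
      have hca : Commute a ((β⁻¹ z : ↥E) : Ω) :=
        mul_inv_eq_iff_eq_mul.mp ((hτv _).symm.trans (congrArg Subtype.val hfz))
      exact ((hca.pow_left k).mul_left (hab m hm _ (β⁻¹ z).2)).eq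
    obtain ⟨j, hj⟩ := Subgroup.mem_zpowers_iff.mp ((hgenZ _ hzZ fun e => hz1 (Subtype.ext e)).ge x.2)
    let θ : ↥Z →* Ω := (E.subtype.comp (β⁻¹).toMonoidHom).comp (Subgroup.inclusion hZE)
    have hθ : θ ∈ F.Hom Z := Fusion.restrict_mem ((Fusion.autGroup_carrier F hEsc.1 _).mp (inv_mem hβ)) hZE
    have hθx : θ x ∈ Z := by
      refine hcen θ hθ fun u hu => ?_
      show u * ((β⁻¹ ⟨(x : Ω), hZE x.2⟩ : ↥E) : Ω) = ((β⁻¹ ⟨(x : Ω), hZE x.2⟩ : ↥E) : Ω) * u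
      rw [show (⟨(x : Ω), hZE x.2⟩ : ↥E) = z ^ j from Subtype.ext hj.symm, map_zpow, Subgroup.coe_zpow]
      exact ((show Commute u _ from hzc' u hu).zpow_right j).eq
    refine hx1 (congrArg Subtype.val (hker ⟨(x : Ω), hZE x.2⟩ x.2 ?_))
    convert hθx using 1
    show g _ = (((β⁻¹) _ : ↥E) : Ω)
    rw [hβdef, inv_inv]
    rfl
  obtain ⟨m, hm2⟩ := hσd z
  have hm2 : e1 ^ m = σ₀ z * z⁻¹ := hm2
  have hp1 : ∀ u : ↥E, u ^ p = 1 := fun u => Subtype.ext (hexp _ u.2)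
  have hord : Subgroup.zpowers (σ₀ z * z⁻¹) = Subgroup.zpowers e1 := by
    refine Subgroup.eq_of_le_of_card_ge (Subgroup.zpowers_le.mpr ⟨m, hm2⟩) ?_
    rw [Nat.card_zpowers, Nat.card_zpowers, orderOf_eq_prime (hp1 _) hσz]
    exact Nat.le_of_dvd hp.pos (orderOf_dvd_of_pow_eq_one (hp1 _))
  obtain ⟨j, hj⟩ : ∃ j : ℕ, (σ₀ z * z⁻¹) ^ j = e1⁻¹ :=
    (isOfFinOrder_of_finite _).mem_powers_iff_mem_zpowers.mpr (hord.ge (inv_mem (Subgroup.mem_zpowers e1)))
  have hσpow : ∀ k : ℕ, (σ₀ ^ k) z = z * (σ₀ z * z⁻¹) ^ k ∧ (σ₀ ^ k) e1 = e1 ∧ ∀ u, σ₀ u = u → (σ₀ ^ k) u = u := by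
    intro k
    induction k with
    | zero => simp
    | succ k ih =>
      have hd : σ₀ (σ₀ z * z⁻¹) = σ₀ z * z⁻¹ := by rw [← hm2, map_zpow, hσe]
      refine ⟨?_, ?_, fun u hu => ?_⟩
      · rw [pow_succ' σ₀, MulAut.mul_apply, ih.1, map_mul, map_pow, hd, pow_succ', ← mul_assoc z,
          mul_comm z (σ₀ z * z⁻¹), inv_mul_cancel_right]
      · rw [pow_succ' σ₀, MulAut.mul_apply, ih.2.1, hσe]
      · rw [pow_succ' σ₀, MulAut.mul_apply, ih.2.2 u hu, hu]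
  set σ := σ₀ ^ j
  have hσz' : σ z = z * e1⁻¹ := by rw [(hσpow j).1, hj]
  have hσe' : σ e1 = e1 := (hσpow j).2.1
  set w := τ * σ * τ
  have hwz : w z = e1⁻¹ := by
    show τ (σ (τ z)) = _
    rw [hτZ z hzZ, hσz', map_mul, map_inv, hτZ z hzZ, hτe]
    rw [mul_inv_rev, ← mul_assoc, mul_inv_cancel, one_mul]
  have hwe : w e1 = z := by
    show τ (σ (τ e1)) = _
    rw [hτe, map_mul σ, hσe', hσz', mul_comm z, mul_inv_cancel_left, hτZ z hzZ]
  set v := w * w with hvdef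
  have hvA : v ∈ F.autGroup E :=
    mul_mem (mul_mem (mul_mem hτ (pow_mem hσA j)) hτ) (mul_mem (mul_mem hτ (pow_mem hσA j)) hτ)
  have hvz : v z = z⁻¹ := by rw [hvdef, MulAut.mul_apply, hwz, map_inv, hwe]
  have hve : v e1 = e1⁻¹ := by rw [hvdef, MulAut.mul_apply, hwe, hwz]
  have hvfix : ∀ u : ↥E, τ u = u → σ₀ u = u → v u = u := by
    intro u h1 h2
    have hw : w u = u := by
      show τ (σ (τ u)) = u
      rw [h1, (hσpow j).2.2 u h2, h1]
    rw [hvdef, MulAut.mul_apply, hw, hw]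
  clear_value v
  have hcomm : ∀ u : ↥E, v (τ u) = τ (v u) := by
    let K : Subgroup ↥E := (v.toMonoidHom.comp τ.toMonoidHom).eqLocus (τ.toMonoidHom.comp v.toMonoidHom)
    have hzK : z ∈ K := by
      show v (τ z) = τ (v z)
      rw [hτZ z hzZ, hvz, map_inv, hτZ z hzZ]
    have heK : e1 ∈ K := by
      show v (τ e1) = τ (v e1)
      rw [hτe, map_mul, hve, hvz, map_inv, hτe, mul_inv]
    intro u
    have h1 : ∃ i : ℤ, σ₀ (u * z ^ i) = u * z ^ i := by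
      obtain ⟨i, hi⟩ := Subgroup.mem_zpowers_iff.mp (hord.ge (hσd u))
      refine ⟨-i, ?_⟩
      have hs1 : σ₀ u = (σ₀ z * z⁻¹) ^ i * u := by rw [hi, inv_mul_cancel_right]
      have hs2 : σ₀ z = (σ₀ z * z⁻¹) * z := by rw [inv_mul_cancel_right]
      rw [map_mul, map_zpow, hs1]
      generalize σ₀ z * z⁻¹ = d at hs2 ⊢
      rw [hs2, mul_zpow, mul_mul_mul_comm, ← zpow_add, add_neg_cancel, zpow_zero, one_mul]
    obtain ⟨i, hi⟩ := h1
    obtain ⟨k, hk⟩ := Subgroup.mem_zpowers_iff.mp (hzgen _ (hτd (u * z ^ i)))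
    have hτu : τ (u * z ^ i * e1 ^ (-k)) = u * z ^ i * e1 ^ (-k) := by
      rw [map_mul τ (u * z ^ i), map_zpow, hτe, mul_zpow, show τ (u * z ^ i) = z ^ k * (u * z ^ i) by rw [hk, inv_mul_cancel_right],
        mul_comm (e1 ^ (-k)), mul_mul_mul_comm, ← zpow_add, add_neg_cancel, zpow_zero, one_mul]
    have hσu : σ₀ (u * z ^ i * e1 ^ (-k)) = u * z ^ i * e1 ^ (-k) := by rw [map_mul, map_zpow, hi, hσe]
    have hK : u * z ^ i * e1 ^ (-k) ∈ K := by
      show v (τ _) = τ (v _)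
      rw [hτu, hvfix _ hτu hσu, hτu]
    have := (K.mul_mem_cancel_right (K.zpow_mem heK (-k))).mp hK
    exact (K.mul_mem_cancel_right (K.zpow_mem hzK i)).mp this
  -- extend to `P`
  have hEfn : F.IsFullyNormalized E := CfsgLib.Model.fullyNormalized_of_stronglyClosed hEsc
  have hφ0 := (Fusion.autGroup_carrier F hEsc.1 _).mp hvA
  obtain ⟨χ, hχ, hχe⟩ := (Fusion.fullyNormalized_receptive p hS hF hEfn).2 E _ hφ0
    (show (E.subtype.comp v.toMonoidHom).range = E by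
      ext u; exact ⟨fun ⟨v', hv'⟩ => hv' ▸ (v v').2, fun hu => ⟨v.symm ⟨u, hu⟩, by
        show ((v (v.symm ⟨u, hu⟩) : ↥E) : Ω) = u
        rw [MulEquiv.apply_symm_apply]⟩⟩)
  have hPext : P ≤ Cfsg.FusionSystem.extender S E (E.subtype.comp v.toMonoidHom) := fun u hu =>
    Fusion.mem_extender ⟨hPS hu, hEN (hPS hu)⟩ (hPS hu) fun s hs => by
      obtain ⟨k, m, hm, rfl⟩ := hdec u hu
      have hconj : ∀ (t : ↥E) (ht : a ^ k * m * (t : Ω) * (a ^ k * m)⁻¹ ∈ E), (⟨_, ht⟩ : ↥E) = (τ ^ k) t := by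
        intro t ht
        refine Subtype.ext ?_
        have hpk : ∀ k : ℕ, (((τ ^ k) t : ↥E) : Ω) = a ^ k * t * (a ^ k)⁻¹ := by
          intro k
          induction k with
          | zero => simp
          | succ k ih => rw [pow_succ', MulAut.mul_apply, hτv, ih, pow_succ' a, mul_inv_rev]; simp [mul_assoc]
        show a ^ k * m * (t : Ω) * (a ^ k * m)⁻¹ = _
        rw [hpk, mul_inv_rev, mul_assoc (a ^ k) m, hab m hm _ t.2]
        simp [mul_assoc]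
      have hk : ∀ k : ℕ, ∀ t : ↥E, v ((τ ^ k) t) = (τ ^ k) (v t) := by
        intro k
        induction k with
        | zero => simp
        | succ k ih => intro t; rw [pow_succ', MulAut.mul_apply, MulAut.mul_apply, hcomm, ih]
      show ((v ⟨_, hs⟩ : ↥E) : Ω) = a ^ k * m * ((v s : ↥E) : Ω) * (a ^ k * m)⁻¹
      rw [hconj s hs, hk]
      exact (congrArg Subtype.val (hconj (v s)
        ((Subgroup.mem_normalizer_iff.mp (hEN (hPS hu)) _).mp (v s).2))).symm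
  have hχm : χ.comp (Subgroup.inclusion hPext) ∈ F.Hom P := Fusion.restrict_mem hχ hPext
  set γ := χ.comp (Subgroup.inclusion hPext)
  have hγP : ∀ u : ↥P, γ u ∈ P := fun u => hP.2 P le_rfl _ hχm u
  have hγE : ∀ u : ↥E, γ ⟨(u : Ω), hEP u.2⟩ = ((v u : ↥E) : Ω) := fun u => hχe (u : Ω) u.2 _
  have hga : ∃ m ∈ E, γ ⟨a, ha⟩ = a * m := by
    refine ⟨a⁻¹ * γ ⟨a, ha⟩, (hE _).mpr ⟨mul_mem (inv_mem ha) (hγP _), ?_⟩, (mul_inv_cancel_left _ _).symm⟩
    have h1 : γ ⟨a, ha⟩ * γ ⟨((v⁻¹ e1 : ↥E) : Ω), hEP (v⁻¹ e1).2⟩ * (γ ⟨a, ha⟩)⁻¹ = γ ⟨((τ (v⁻¹ e1) : ↥E) : Ω), hEP (τ (v⁻¹ e1)).2⟩ := by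
      rw [← map_inv, ← map_mul, ← map_mul]
      rfl
    rw [hγE, hγE, hcomm, MulAut.apply_inv_self, hτv] at h1
    have h2 : γ ⟨a, ha⟩ * y * (γ ⟨a, ha⟩)⁻¹ = a * y * a⁻¹ := h1
    calc a⁻¹ * γ ⟨a, ha⟩ * y = a⁻¹ * (γ ⟨a, ha⟩ * y * (γ ⟨a, ha⟩)⁻¹) * γ ⟨a, ha⟩ := by simp [mul_assoc]
      _ = _ := by rw [h2]; simp [mul_assoc]
  obtain ⟨m', hm', hga⟩ := hga
  have hap : γ ⟨a, ha⟩ ^ p = a ^ p := by
    obtain ⟨n, hn⟩ : p ∣ p.choose 2 := hp.dvd_choose_self (by norm_num) (lt_of_le_of_ne hp.two_le (Ne.symm hp2))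
    rw [hga]
    have hq := Fusion.EssentialFour.mul_pow_of_central (x := (⟨a, ha⟩ : ↥P)) (y := ⟨m', hEP hm'⟩)
      (fun t => Subtype.ext (hZc _ (hclass _ (hEP hm') _ ha) t (hPS t.2)).symm) p
    have hq' : (a * m') ^ p = ⁅m', a⁆ ^ p.choose 2 * a ^ p * m' ^ p := congrArg Subtype.val hq
    rw [hq', hn, pow_mul, hexpZ _ (hclass _ (hEP hm') _ ha), one_pow, one_mul, hexp m' hm', mul_one]
  have hapZ : a ^ p ∈ Z := hpow a ha
  set q : ↥E := ⟨a ^ p, hZE hapZ⟩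
  have hvq : v q = q := Subtype.ext (by
    rw [← hγE]
    refine Eq.trans ?_ hap
    rw [← map_pow]
    exact congrArg γ (Subtype.ext rfl))
  obtain ⟨l, hl⟩ := Subgroup.mem_zpowers_iff.mp (hzgen q hapZ)
  rw [← hl, map_zpow, hvz, inv_zpow, inv_eq_iff_mul_eq_one, hl, ← pow_two] at hvq
  have hq1 : q = 1 := by
    obtain ⟨t, ht⟩ := hp.odd_of_ne_two hp2
    have := hp1 q
    rwa [ht, pow_succ, pow_mul, hvq, one_pow, one_mul] at this
  exact hno a ha hne (congrArg Subtype.val hq1)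

end Cfsg.Agent.S5233
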