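import Cfsg.Statements.S5245
import Cfsg.Agent.Lib.Fusion.Realized
import Cfsg.Agent.Lib.Fusion.ConstrainedNormal
import Cfsg.Agent.Lib.Fusion.Control
import Cfsg.Agent.Lib.Fusion.Hyperfocal
import Mathlib.GroupTheory.SemidirectProduct
import Mathlib.GroupTheory.Perm.Cycle.Type

set_option autoImplicit false
open Cfsg

namespace Cfsg.Agent.S5245

set_option linter.style.haveILetI false
open CfsgLib CfsgLib.Fusion Cfsg.FusionSystem

universe u

section Split

variable {Ω : Type u} [Group Ω] {R : Subgroup Ω}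

/-- `R ⋊ ⟨β⟩`. -/
abbrev SplitGroup (β : MulAut ↥R) := ↥R ⋊[(Subgroup.zpowers β).subtype] ↥(Subgroup.zpowers β)

/-- The system of `R ⋊ ⟨β⟩` on `R`, inside the ambient group. -/
def splitSystem (β : MulAut ↥R) : Cfsg.FusionSystem R where
  Hom P := {φ | ∃ (hP : P ≤ R) (hφ : ∀ x : P, φ x ∈ R) (g : SplitGroup β), ∀ x : P,
    SemidirectProduct.inl (⟨φ x, hφ x⟩ : ↥R) = g * SemidirectProduct.inl (⟨x, hP x.2⟩ : ↥R) * g⁻¹}
  le_of_mem := fun ⟨hP, hφ, _⟩ => ⟨hP, hφ⟩
  injective_of_mem := by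
    rintro P φ ⟨hP, hφ, g, hg⟩ a b hab
    have h : g * SemidirectProduct.inl (⟨a, hP a.2⟩ : ↥R) * g⁻¹ = g * SemidirectProduct.inl (⟨b, hP b.2⟩ : ↥R) * g⁻¹ := by
      rw [← hg, ← hg]; exact congrArg _ (Subtype.ext hab)
    exact Subtype.ext (congrArg Subtype.val (SemidirectProduct.inl_injective (mul_left_cancel (mul_right_cancel h))) :)
  conj_mem := by
    intro P g hP hg
    refine ⟨hP, fun x => R.mul_mem (R.mul_mem hg (hP x.2)) (R.inv_mem hg), SemidirectProduct.inl ⟨g, hg⟩, fun x => ?_⟩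
    rw [← map_inv, ← map_mul, ← map_mul]
    exact congrArg _ (Subtype.ext rfl)
  comp_mem := by
    rintro P Q φ ψ ⟨hP, hφ, g, hg⟩ ⟨hQ, hψ, k, hk⟩ h
    refine ⟨hP, fun x => hψ _, k * g, fun x => ?_⟩
    show SemidirectProduct.inl (⟨ψ (φ.codRestrict Q h x), hψ _⟩ : ↥R) = _
    rw [hk, show (⟨((φ.codRestrict Q h x : ↥Q) : Ω), hQ (φ.codRestrict Q h x).2⟩ : ↥R) = ⟨φ x, hφ x⟩ from rfl, hg]
    group
  inv_mem := by
    rintro P φ ⟨hP, hφ, g, hg⟩
    have hinj : Function.Injective φ := fun a b hab => by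
      have h : g * SemidirectProduct.inl (⟨a, hP a.2⟩ : ↥R) * g⁻¹ = g * SemidirectProduct.inl (⟨b, hP b.2⟩ : ↥R) * g⁻¹ := by
        rw [← hg, ← hg]; exact congrArg _ (Subtype.ext hab)
      exact Subtype.ext (congrArg Subtype.val (SemidirectProduct.inl_injective (mul_left_cancel (mul_right_cancel h))) :)
    let e := MonoidHom.ofInjective hinj
    refine ⟨P.subtype.comp e.symm.toMonoidHom, ⟨?_, fun y => hP (e.symm y).2, g⁻¹, ?_⟩, fun x => ?_⟩
    · rintro _ ⟨x, rfl⟩; exact hφ x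
    · rintro ⟨_, x, rfl⟩
      rw [show (⟨φ x, _⟩ : ↥R) = ⟨φ x, hφ x⟩ from rfl, hg, inv_inv]
      simp only [mul_assoc, inv_mul_cancel, mul_one, inv_mul_cancel_left]
      exact congrArg _ (Subtype.ext (congrArg (Subtype.val : ↥P → Ω) (e.symm_apply_apply x)))
    · exact congrArg (Subtype.val : ↥P → Ω) (e.symm_apply_apply x)

theorem self_mem_split (β : MulAut ↥R) : R.subtype.comp β.toMonoidHom ∈ (splitSystem β).Hom R :=
  ⟨le_rfl, fun x => (β x).2, SemidirectProduct.inr ⟨β, Subgroup.mem_zpowers β⟩, fun x => by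
    rw [← map_inv, ← SemidirectProduct.inl_aut]
    rfl⟩

theorem split_saturated [Finite ↥R] {p : ℕ} [Fact p.Prime] (hR : IsPGroup p ↥R) (β : MulAut ↥R)
    (hβ : (orderOf β).Coprime p) : (splitSystem β).IsSaturated p := by
  haveI : Finite (MulAut ↥R) := Finite.of_injective (fun e => (e : ↥R → ↥R)) DFunLike.coe_injective
  haveI : Finite (SplitGroup β) := Finite.of_equiv _ SemidirectProduct.equivProd.symm
  set ι : ↥R →* SplitGroup β := SemidirectProduct.inl
  have hreal : (splitSystem β).IsRealizedBy ι := ⟨SemidirectProduct.inl_injective, fun P hP φ hφ =>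
    ⟨fun ⟨_, _, g, hg⟩ => ⟨g, hg⟩, fun ⟨g, hg⟩ => ⟨hP, hφ, g, hg⟩⟩⟩
  have hιp : IsPGroup p ↥ι.range := hR.of_equiv (MonoidHom.ofInjective SemidirectProduct.inl_injective)
  have hidx : ¬ p ∣ ι.range.index := by
    have h1 : Nat.card (SplitGroup β) = Nat.card ↥ι.range * orderOf β := by
      rw [SemidirectProduct.card, Nat.card_zpowers,
        Nat.card_congr (MonoidHom.ofInjective (SemidirectProduct.inl_injective (φ := (Subgroup.zpowers β).subtype))).toEquiv]
    rw [← ι.range.card_mul_index] at h1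
    rw [Nat.eq_of_mul_eq_mul_left Nat.card_pos h1]
    exact fun h => (Fact.out : p.Prime).ne_one (Nat.eq_one_of_dvd_coprimes hβ h dvd_rfl)
  exact realized_saturated p hreal (hιp.toSylow hidx) rfl

theorem left_eq {β : MulAut ↥R} {g : SplitGroup β} {a b : ↥R}
    (h : SemidirectProduct.inl a = g * SemidirectProduct.inl b * g⁻¹) :
    (a : Ω) = (((MulAut.conj g.left * (g.right : MulAut ↥R)) b : ↥R) : Ω) := by
  have h1 := congrArg SemidirectProduct.left h
  simp only [SemidirectProduct.left_inl, SemidirectProduct.mul_left, SemidirectProduct.inv_left,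
    SemidirectProduct.mul_right, SemidirectProduct.right_inl, mul_one] at h1
  refine congrArg Subtype.val (h1.trans ?_)
  simp only [Subgroup.coe_subtype, map_inv, MulAut.apply_inv_self, InvMemClass.coe_inv, MulAut.conj_apply,
    MulAut.mul_apply]

theorem split_sub {S : Subgroup Ω} {F : Cfsg.FusionSystem S} (hRS : R ≤ S) {β : MulAut ↥R} (hβ : β ∈ F.autGroup R) :
    (splitSystem β).IsSubsystemOf F := by
  rintro P φ ⟨hP, hφ, g, hg⟩
  have ha : MulAut.conj g.left * (g.right : MulAut ↥R) ∈ F.autGroup R :=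
    mul_mem (inn_le_autGroup F hRS ⟨g.left, rfl⟩) (Subgroup.zpowers_le.mpr hβ g.right.2)
  refine restrict_mem_of_eq ((autGroup_carrier F hRS _).mp ha) hP fun x => ?_
  exact left_eq (hg x)

theorem split_ne_inner [Finite ↥R] {p : ℕ} [Fact p.Prime] (hR : IsPGroup p ↥R) {β : MulAut ↥R} {q : ℕ}
    (hq : q.Prime) (hqp : q ≠ p) (hβ : orderOf β = q) :
    ¬ ∀ P : Subgroup Ω, (splitSystem β).Hom P = (Cfsg.innerFusionSystem R).Hom P := by
  intro h
  obtain ⟨-, g, hg, hge⟩ := (h R).le (self_mem_split β)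
  have hβc : β = MulAut.conj (⟨g, hg⟩ : ↥R) := MulEquiv.ext fun x => Subtype.ext (hge x)
  obtain ⟨k, hk⟩ := hR ⟨g, hg⟩
  have h1 : β ^ p ^ k = 1 := by rw [hβc, ← map_pow, hk, map_one]
  have h2 := orderOf_dvd_of_pow_eq_one h1
  rw [hβ] at h2
  exact hqp ((Nat.prime_dvd_prime_iff_eq hq Fact.out).mp (hq.dvd_of_dvd_pow h2))

end Split

/-- Let F be an extremely sparse fusion system over a finite p-group S (saturated, not the inner system, and every saturated fusion system over any subgroup T of S contained in F is F itself or the inner system of T). Then S is normal in F, the focal and hyperfocal subgroups of F are both S, and Aut_F(S) is generated by the inner automorphisms of S together with a single automorphism of prime order q ≠ p (F is the fusion system of the semidirect product of S by a cyclic group of prime order). -/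
theorem result {Ω : Type*} [Group Ω] {S : Subgroup Ω} [Finite S] (p : ℕ) [Fact p.Prime] (hS : IsPGroup p S) (F : Cfsg.FusionSystem S) (hF : F.IsSaturated p) (hxs : ¬ (∀ P : Subgroup Ω, F.Hom P = (Cfsg.innerFusionSystem S).Hom P) ∧ ∀ (T : Subgroup Ω) (E : Cfsg.FusionSystem T), E.IsSaturated p → E.IsSubsystemOf F → (T = S ∧ ∀ P : Subgroup Ω, E.Hom P = F.Hom P) ∨ (∀ P : Subgroup Ω, E.Hom P = (Cfsg.innerFusionSystem T).Hom P)) : F.IsNormal S ∧ F.focalSubgroup = S ∧ F.hyperfocalSubgroup p = S ∧ ∃ (q : ℕ) (β : MulAut ↥S), q.Prime ∧ q ≠ p ∧ β ∈ F.autGroup S ∧ orderOf β = q ∧ (F.autGroup S : Subgroup (MulAut ↥S)) = Cfsg.Inn ↥S ⊔ Subgroup.zpowers β := by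
  classical
  obtain ⟨hne, hsub⟩ := hxs
  obtain ⟨R, hRS, hRp⟩ : ∃ R, R ≤ S ∧ ¬ IsPGroup p ↥(F.autGroup R) := by
    by_contra hno
    push Not at hno
    exact hne ((pAut_iff_inner hS hF).mp hno)
  haveI := finite_of_le hRS
  haveI := finite_aut_of_le hRS
  obtain ⟨q, hq, hqd, hqp⟩ : ∃ q : ℕ, q.Prime ∧ q ∣ Nat.card ↥(F.autGroup R) ∧ q ≠ p := by
    by_contra hno
    push Not at hno
    exact hRp (IsPGroup.of_card (Nat.eq_prime_pow_of_unique_prime_dvd Nat.card_pos.ne' fun {d} hd hdd => hno d hd hdd))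
  haveI : Fact q.Prime := ⟨hq⟩
  obtain ⟨⟨β, hβ⟩, hβo⟩ := exists_prime_orderOf_dvd_card' q hqd
  rw [Subgroup.orderOf_mk] at hβo
  have hcop : ∀ {T : Subgroup Ω} {γ : MulAut ↥T}, orderOf γ = q → (orderOf γ).Coprime p := fun h =>
    h ▸ (Nat.coprime_primes hq Fact.out).mpr hqp
  rcases hsub R _ (split_saturated (hS.to_le hRS) β (hcop hβo)) (split_sub hRS hβ) with ⟨hRe, hfull⟩ | hinn
  swap
  · exact absurd hinn (split_ne_inner (hS.to_le hRS) hq hqp hβo)
  subst hRe
  set A := F.autGroup R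
  -- every map is induced by the split group
  have hmaps : ∀ (P : Subgroup Ω) (φ : ↥P →* Ω), φ ∈ F.Hom P → ∃ (hP : P ≤ R),
      ∃ a ∈ Cfsg.Inn ↥R ⊔ Subgroup.zpowers β, ∀ x : P, φ x = ((a ⟨x, hP x.2⟩ : ↥R) : Ω) := by
    intro P φ hφ
    rw [← hfull P] at hφ
    obtain ⟨hP, hφR, g, hg⟩ := hφ
    refine ⟨hP, MulAut.conj g.left * (g.right : MulAut ↥R),
      mul_mem (Subgroup.mem_sup_left ⟨g.left, rfl⟩) (Subgroup.mem_sup_right g.right.2), fun x => ?_⟩
    exact left_eq (hg x)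
  have hle : Cfsg.Inn ↥R ⊔ Subgroup.zpowers β ≤ A := sup_le (inn_le_autGroup F le_rfl) (Subgroup.zpowers_le.mpr hβ)
  have hA : A = Cfsg.Inn ↥R ⊔ Subgroup.zpowers β := by
    refine le_antisymm (fun α hα => ?_) hle
    obtain ⟨hP, a, ha, hae⟩ := hmaps R _ ((autGroup_carrier F le_rfl α).mp hα)
    rwa [show α = a from MulEquiv.ext fun x => Subtype.ext (hae x)]
  have hnorm : F.IsNormal R := by
    refine ⟨le_rfl, fun P φ hφ => ?_⟩
    obtain ⟨hP, a, ha, hae⟩ := hmaps P φ hφ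
    have hsup : P ⊔ R ≤ R := sup_le hP le_rfl
    refine ⟨_, restrict_mem ((autGroup_carrier F le_rfl a).mp (hle ha)) hsup, fun x => (hae x).symm, ?_⟩
    rw [Fusion.map_eq_iff le_sup_right]
    refine ⟨fun x => (a _).2, fun y hy => ?_⟩
    obtain ⟨w, hw⟩ := a.surjective ⟨y, hy⟩
    exact ⟨w, congrArg Subtype.val hw⟩
  -- the commutator of `β`
  let V : Subgroup ↥R := Subgroup.closure {v | ∃ s : ↥R, v = s⁻¹ * β s}
  have hβV : ∀ v ∈ V, β v ∈ V := fun v hv => by
    induction hv using Subgroup.closure_induction with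
    | mem v hv => obtain ⟨s, rfl⟩ := hv; exact Subgroup.subset_closure ⟨β s, by rw [map_mul, map_inv]⟩
    | one => rw [map_one]; exact one_mem _
    | mul a b _ _ ha hb => rw [map_mul]; exact mul_mem ha hb
    | inv a _ ha => rw [map_inv]; exact inv_mem ha
  set V' : Subgroup Ω := V.map R.subtype
  have hV' : V' ≤ R := Subgroup.map_subtype_le V
  haveI := finite_of_le hV'
  set bV : ↥V' →* Ω := (R.subtype.comp β.toMonoidHom).comp (Subgroup.inclusion hV')
  have hbV : bV ∈ F.Hom V' := restrict_mem ((autGroup_carrier F le_rfl β).mp hβ) hV'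
  have hbm : ∀ v : ↥V', bV v ∈ V' := by
    rintro ⟨_, v, hv, rfl⟩
    exact ⟨β v, hβV v hv, rfl⟩
  have hbinj : Function.Injective (bV.codRestrict V' hbm) := fun a b e =>
    F.injective_of_mem hbV (congrArg Subtype.val e :)
  let γ : MulAut ↥V' := MulEquiv.ofBijective _ ⟨hbinj, Finite.injective_iff_surjective.mp hbinj⟩
  have hγA : γ ∈ F.autGroup V' := (autGroup_carrier F hV' _).mpr (restrict_mem_of_eq hbV le_rfl fun x => rfl)
  have hγe : ∀ (v : ↥R) (hv : v ∈ V), ((γ ⟨v, ⟨v, hv, rfl⟩⟩ : ↥V') : Ω) = ((β v : ↥R) : Ω) := fun v hv => rfl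
  have hγq : γ ^ q = 1 := by
    have key : ∀ (n : ℕ) (w : ↥V'), (((γ ^ n) w : ↥V') : Ω) = (((β ^ n) ⟨w, hV' w.2⟩ : ↥R) : Ω) := by
      intro n
      induction n with
      | zero => simp
      | succ n ih =>
        intro w
        rw [pow_succ', pow_succ', MulAut.mul_apply, MulAut.mul_apply]
        show ((β ⟨_, _⟩ : ↥R) : Ω) = _
        exact congrArg (fun t : ↥R => ((β t : ↥R) : Ω)) (Subtype.ext (ih w))
    refine MulEquiv.ext fun w => Subtype.ext ?_
    rw [key, ← hβo, pow_orderOf_eq_one]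
    rfl
  have hγne : γ ≠ 1 := by
    intro h1
    have hβ1 : β = 1 := by
      refine MulEquiv.ext fun s => ?_
      have hd : s⁻¹ * β s ∈ V := Subgroup.subset_closure ⟨s, rfl⟩
      have hdf : β (s⁻¹ * β s) = s⁻¹ * β s := Subtype.ext (by rw [← hγe _ hd, h1]; rfl)
      have h2 : β s = s * (s⁻¹ * β s) := (mul_inv_cancel_left _ _).symm
      have h3 := iter_fix β h2 hdf q
      rw [← hβo, pow_orderOf_eq_one, hβo] at h3
      have h4 : (s⁻¹ * β s) ^ q = 1 := mul_eq_left.mp h3.symm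
      obtain ⟨k, hk⟩ := hS (s⁻¹ * β s)
      have h5 : s⁻¹ * β s = 1 := orderOf_eq_one_iff.mp (Nat.eq_one_of_dvd_coprimes
        (((Nat.coprime_primes hq Fact.out).mpr hqp).pow_right k) (orderOf_dvd_of_pow_eq_one h4)
        (orderOf_dvd_of_pow_eq_one hk))
      rw [h2, h5, mul_one]; rfl
    rw [hβ1, orderOf_one] at hβo
    exact hq.ne_one hβo.symm
  have hγo : orderOf γ = q := orderOf_eq_prime hγq hγne
  have hVtop : V' = R := by
    rcases hsub V' _ (split_saturated (hS.to_le hV') γ (hcop hγo)) (split_sub hV' hγA) with ⟨he, -⟩ | hinn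
    · exact he
    · exact absurd hinn (split_ne_inner (hS.to_le hV') hq hqp hγo)
  have hRhyp : R ≤ F.hyperfocalSubgroup p := by
    refine (le_of_eq hVtop.symm).trans ?_
    refine (Subgroup.map_le_iff_le_comap).mpr ((Subgroup.closure_le _).mpr ?_)
    rintro _ ⟨s, rfl⟩
    refine Subgroup.subset_closure ⟨R, ⟨β, hβ⟩, s, le_rfl, Subgroup.subset_closure ?_, rfl⟩
    show (orderOf (⟨β, hβ⟩ : ↥A)).Coprime p
    rw [Subgroup.orderOf_mk]; exact hcop hβo
  have hhyp : F.hyperfocalSubgroup p = R := le_antisymm (CfsgLib.Biset.hyp_le p F) hRhyp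
  refine ⟨hnorm, le_antisymm ((Subgroup.closure_le _).mpr ?_) (hRhyp.trans (CfsgLib.Biset.hyp_le_focal p F)), hhyp,
    q, β, hq, hqp, hβ, hβo, hA⟩
  rintro _ ⟨P, φ, x, hφ, rfl⟩
  exact R.mul_mem (R.inv_mem (le_S hφ x.2)) (apply_mem_S hφ x)

end Cfsg.Agent.S5245
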