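import Cfsg.Statements.S5249
import Cfsg.Agent.Lib.Glauberman.QdFree

set_option autoImplicit false
open Cfsg

namespace Cfsg.Agent.S5249

open Cfsg.FusionSystem CfsgLib.Glauberman CfsgLib.ThompsonNPC CfsgLib.Fusion in
/-- Let p be an odd prime, G a finite group in which Qd(p) (the natural semidirect product of an elementary abelian group of order p² by SL₂(p)) is not involved, and P a Sylow p-subgroup of G. Then the fusion system of G on P is a solvable fusion system. -/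
theorem result {G : Type*} [Group G] [Finite G] {p : ℕ} [Fact p.Prime] (hp : p ≠ 2) (hqd : ¬ Cfsg.Involves ↥(Cfsg.qd p) G) (P : Sylow p G) : (Cfsg.groupFusionSystem (P : Subgroup G)).IsSolvableSystem := by
  intro R hR hRP _ E hE
  set F := groupFusionSystem (P : Subgroup G) with hFdef
  set N := Subgroup.normalizer (R : Set G) with hNdef
  have hPN : (P : Subgroup G) ≤ N := (Subgroup.normal_subgroupOf_iff_le_normalizer hR.1).mp inferInstance
  haveI hR'n : (R.subgroupOf N).Normal := Subgroup.normal_in_normalizer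
  let q : ↥N →* ↥N ⧸ R.subgroupOf N := QuotientGroup.mk' _
  have hqs : Function.Surjective q := QuotientGroup.mk'_surjective _
  let θ := QuotientGroup.mk' (R.subgroupOf (P : Subgroup G))
  have hθs : Function.Surjective θ := QuotientGroup.mk'_surjective _
  let π : ↥(P : Subgroup G) →* ↥N ⧸ R.subgroupOf N := q.comp (Subgroup.inclusion hPN)
  have hπ : π.ker = R.subgroupOf (P : Subgroup G) := by
    ext x
    exact QuotientGroup.eq_one_iff _
  let ι : ↥(⊤ : Subgroup (↥(P : Subgroup G) ⧸ R.subgroupOf (P : Subgroup G))) →* ↥N ⧸ R.subgroupOf N :=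
    (QuotientGroup.lift _ π hπ.ge).comp (Subgroup.subtype _)
  have hι : ∀ x h, ι ⟨θ x, h⟩ = π x := fun _ _ => rfl
  have hinj : Function.Injective ι := by
    rintro ⟨a, ha⟩ ⟨b, hb⟩ hab
    obtain ⟨a, rfl⟩ := hθs a
    obtain ⟨b, rfl⟩ := hθs b
    refine Subtype.ext (QuotientGroup.eq.mpr ?_)
    rw [← hπ, MonoidHom.mem_ker, map_mul, map_inv, show π a = π b from hab, inv_mul_cancel]
  have hreal : E.IsRealizedBy ι := by
    refine ⟨hinj, fun P' hP' φ' hφ' => ⟨fun h => ?_, ?_⟩⟩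
    · obtain ⟨φ, hφ, hl⟩ := exists_lift hE h
      obtain ⟨hD, -, g, hg⟩ := groupHom_iff.mp hφ
      have hRD := le_preimageAlong hE P'
      have hgR : cj g R ≤ R := by
        rintro _ ⟨r, hr, rfl⟩
        show g * r * g⁻¹ ∈ R
        have h2 := hR.2 R le_rfl _ (restrict_mem hφ hRD) ⟨r, hr⟩
        exact (hg ⟨r, hRD hr⟩) ▸ h2
      have hgN : g ∈ N := by
        have h2 : cj g R = R := Subgroup.eq_of_le_of_card_ge hgR
          (Subgroup.card_map_of_injective (MulAut.conj g).injective).ge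
        refine Subgroup.mem_normalizer_iff.mpr fun h => ⟨fun hh => hgR ⟨h, hh, rfl⟩, fun hh => ?_⟩
        obtain ⟨r, hr, hre⟩ := h2.ge hh
        exact ((MulAut.conj g).injective hre) ▸ hr
      refine ⟨q ⟨g, hgN⟩, fun y => ?_⟩
      obtain ⟨s, hs⟩ := hθs (y : ↥(P : Subgroup G) ⧸ R.subgroupOf (P : Subgroup G))
      have hsD : (s : G) ∈ preimageAlong θ P' := ⟨s, show θ s ∈ P' from hs ▸ y.2, rfl⟩
      obtain ⟨hx, hφx, hm, he⟩ := hl ⟨s, hsD⟩
      have hy : y = ⟨θ ⟨(s : G), hx⟩, hm⟩ := Subtype.ext hs.symm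
      subst hy
      rw [show (⟨φ' _, hφ' _⟩ : ↥(⊤ : Subgroup (↥(P : Subgroup G) ⧸ R.subgroupOf (P : Subgroup G)))) = ⟨θ ⟨_, hφx⟩, Subgroup.mem_top _⟩
        from Subtype.ext he, hι, hι, ← map_inv, show π ⟨(s : G), hx⟩ = q ⟨(s : G), hPN hx⟩ from rfl, ← map_mul, ← map_mul]
      exact congrArg q (Subtype.ext (hg ⟨s, hsD⟩))
    · rintro ⟨c, hc⟩
      obtain ⟨n, rfl⟩ := hqs c
      set D := preimageAlong θ P'
      have hD : D ≤ (P : Subgroup G) := preimageAlong_le θ P'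
      have hm : ∀ d : ↥D, θ ⟨(d : G), hD d.2⟩ ∈ P' := fun d => by
        obtain ⟨s, hs, hsd⟩ := d.2
        rw [show (⟨(d : G), hD d.2⟩ : ↥(P : Subgroup G)) = s from Subtype.ext hsd.symm]
        exact hs
      have key : ∀ d : ↥D, ∃ h : (n : G) * d * (n : G)⁻¹ ∈ (P : Subgroup G),
          φ' ⟨θ ⟨(d : G), hD d.2⟩, hm d⟩ = θ ⟨_, h⟩ := by
        intro d
        obtain ⟨s, hs⟩ := hθs (φ' ⟨θ ⟨(d : G), hD d.2⟩, hm d⟩)
        have h := hc ⟨θ ⟨(d : G), hD d.2⟩, hm d⟩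
        rw [show (⟨φ' _, hφ' _⟩ : ↥(⊤ : Subgroup (↥(P : Subgroup G) ⧸ R.subgroupOf (P : Subgroup G)))) = ⟨θ s, Subgroup.mem_top _⟩
          from Subtype.ext hs.symm, hι, hι, ← map_inv, show π ⟨(d : G), hD d.2⟩ = q ⟨(d : G), hPN (hD d.2)⟩ from rfl,
          ← map_mul, ← map_mul] at h
        have hmem : (s : G)⁻¹ * ((n : G) * d * (n : G)⁻¹) ∈ R :=
          (QuotientGroup.eq (s := R.subgroupOf N) (a := (⟨(s : G), hPN s.2⟩ : ↥N)) (b := n * (⟨(d : G), hPN (hD d.2)⟩ : ↥N) * n⁻¹)).mp h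
        have hP : (n : G) * d * (n : G)⁻¹ ∈ (P : Subgroup G) := by
          simpa using mul_mem s.2 (hR.1 hmem)
        exact ⟨hP, hs.symm.trans (QuotientGroup.eq.mpr hmem)⟩
      refine (hE.2.2.2 _ _).mpr ⟨hP', conjHom D (n : G), groupHom_iff.mpr ⟨hD, fun d => (key d).1, n, fun _ => rfl⟩,
        hD, fun d => (key d).1, hm, fun d => (key d).2⟩
  let PN : Sylow p ↥N := P.subtype hPN
  let T := PN.mapSurjective hqs
  have hT : (T : Subgroup (↥N ⧸ R.subgroupOf N)) = ι.range := by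
    refine le_antisymm ?_ ?_
    · rintro _ ⟨x, hx, rfl⟩
      exact ⟨⟨θ ⟨(x : G), hx⟩, Subgroup.mem_top _⟩, hι _ _⟩
    · rintro _ ⟨⟨y, hy⟩, rfl⟩
      obtain ⟨x, rfl⟩ := hθs y
      exact ⟨⟨(x : G), hPN x.2⟩, x.2, (hι x hy).symm⟩
  have hqd' : ¬ Cfsg.Involves ↥(Cfsg.qd p) (↥N ⧸ R.subgroupOf N) := fun h =>
    hqd (involves_of_injective (involves_of_surjective h q hqs) N.subtype N.subtype_injective)
  have hTne : (T : Subgroup (↥N ⧸ R.subgroupOf N)) ≠ ⊥ := by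
    intro h
    refine hRP (le_antisymm hR.1 fun x hx => ?_)
    have h2 : q ⟨x, hPN hx⟩ ∈ (T : Subgroup (↥N ⧸ R.subgroupOf N)) := ⟨⟨x, hPN hx⟩, hx, rfl⟩
    rw [h] at h2
    exact (QuotientGroup.eq_one_iff (⟨x, hPN hx⟩ : ↥N)).mp (Subgroup.mem_bot.mp h2)
  have hW := isNormal_of_qdFree hp T.2 (group_isSaturated T) (group_sectionFree hqd' T) (Or.inl rfl) (stronglyClosed_self (groupFusionSystem (T : Subgroup (↥N ⧸ R.subgroupOf N))))
  have hWne := iInf_maxAb_ne_bot T.2 hTne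
  intro hcore
  set I := realizedIso hreal hT
  have hle := le_core (I.symm.isNormal hW)
  rw [hcore, le_bot_iff] at hle
  refine hWne (eq_bot_iff.mpr fun w hw => ?_)
  have h1 : ((I.e.symm ⟨w, hW.1 hw⟩ : ↥(⊤ : Subgroup _)) : ↥(P : Subgroup G) ⧸ R.subgroupOf (P : Subgroup G)) ∈ (⊥ : Subgroup _) :=
    hle.le ((mem_img I.e.symm).mpr ⟨⟨w, hW.1 hw⟩, hw, rfl⟩)
  have h2 : I.e.symm ⟨w, hW.1 hw⟩ = 1 := Subtype.ext (Subgroup.mem_bot.mp h1)
  exact Subgroup.mem_bot.mpr (congrArg Subtype.val ((EmbeddingLike.map_eq_one_iff (f := I.e.symm)).mp h2))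

end Cfsg.Agent.S5249
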