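import Cfsg.Statements.S5253
import Cfsg.Agent.Lib.Glauberman.FunctorPower

set_option autoImplicit false
universe u
open Cfsg

namespace Cfsg.Agent.S5253

open CfsgLib.Glauberman CfsgLib.Fusion in
/-- Let p be a prime and W a positive characteristic p-functor with Z(Q) ≤ W(Q): W assigns to every finite p-group Q (in a fixed universe) a subgroup W(Q), nontrivial when Q is, carried to W(R) by every isomorphism Q ≅ R, and containing the centre of Q. Suppose that for every finite group G with Sylow p-subgroup P in which W(P) is not normal there is g ∈ P outside O_p(G) with [Z(O_p(G)), g, g] = 1. Then for every saturated fusion system F over a finite p-group S and every normalizer fusion system N of W(S) in F, every p-th power of an element of Z(S) that lies in the centre of N lies in the centre of F. -/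
theorem result {p : ℕ} [Fact p.Prime] (W : ∀ (Q : Type u) [Group Q], Subgroup Q) (hW1 : ∀ (Q : Type u) [Group Q] [Finite Q], IsPGroup p Q → Nontrivial Q → W Q ≠ ⊥) (hW2 : ∀ (Q R : Type u) [Group Q] [Group R] [Finite Q], IsPGroup p Q → ∀ φ : Q ≃* R, (W Q).map φ.toMonoidHom = W R) (hWZ : ∀ (Q : Type u) [Group Q] [Finite Q], IsPGroup p Q → Subgroup.center Q ≤ W Q) (hq : ∀ (G : Type u) [Group G] [Finite G] (P : Sylow p G), ¬ (((W ↥(P : Subgroup G)).map (P : Subgroup G).subtype : Subgroup G)).Normal → ∃ g : G, g ∈ (P : Subgroup G) ∧ g ∉ Cfsg.pCore p G ∧ ⁅⁅Subgroup.center ↥(Cfsg.pCore p G) |>.map (Cfsg.pCore p G).subtype, Subgroup.zpowers g⁆, Subgroup.zpowers g⁆ = ⊥) {Ω : Type u} [Group Ω] {S : Subgroup Ω} [Finite S] (hS : IsPGroup p S) (F : Cfsg.FusionSystem S) (hF : F.IsSaturated p) (N : Cfsg.FusionSystem (Cfsg.FusionSystem.normalizerIn S ((W ↥S).map S.subtype))) (hN : F.IsNormalizerSystem ((W ↥S).map S.subtype) N) : Subgroup.closure ((fun z => z ^ p) '' ((S ⊓ Subgroup.centralizer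 (S : Set Ω) : Subgroup Ω) : Set Ω)) ⊓ N.center ≤ F.center := by
  haveI : Finite ↥(Cfsg.FusionSystem.normalizerIn S ((W ↥S).map S.subtype)) := finite_of_le inf_le_left
  have hW₀ : (W ↥S).map S.subtype ≤ S := ind_le W S
  have hWn : S ≤ Subgroup.normalizer (((W ↥S).map S.subtype : Subgroup Ω) : Set Ω) :=
    Subgroup.le_normalizer.trans (le_normalizer_of_characteristic hW₀ (ind_characteristic W hW2 S hS))
  obtain ⟨-, hle⟩ := center_eq_of_fixed hS hF hW₀ hWn N hN fun _ => True
  intro z hz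
  obtain ⟨hz1, hz2⟩ := Subgroup.mem_inf.mp hz
  refine hle z hz2 trivial fun hzc _ hyp => ?_
  have hgood : (powGood (p := p)).Good S z := by
    set Z := S ⊓ Subgroup.centralizer (S : Set Ω) with hZ
    let P : Subgroup Ω :=
      { carrier := {y | ∃ x ∈ Z, x ^ p = y}
        one_mem' := ⟨1, one_mem _, one_pow p⟩
        mul_mem' := by
          rintro _ _ ⟨a, ha, rfl⟩ ⟨b, hb, rfl⟩
          exact ⟨a * b, mul_mem ha hb, (show Commute a b from hb.2 a ha.1).mul_pow p⟩
        inv_mem' := by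
          rintro _ ⟨a, ha, rfl⟩
          exact ⟨a⁻¹, inv_mem ha, inv_pow a p⟩ }
    have h1 : z ∈ P := (Subgroup.closure_le P).mpr (by rintro _ ⟨x, hx, rfl⟩; exact ⟨x, hx, rfl⟩) hz1
    obtain ⟨x, hx, rfl⟩ := h1
    exact ⟨x, hx.1, fun s hs => hx.2 s hs, rfl⟩
  have hzS : z ∈ S := by
    obtain ⟨x, hx, -, rfl⟩ := hgood
    exact S.pow_mem hx p
  refine fixed_of_functor W hW1 hW2 (powGood (p := p)) ?_ _ F rfl hS hF z hzS hzc hgood hyp
  rintro G _ _ P z hc hzO hzP ⟨x, hx, hxc, rfl⟩ hzN
  exact center_of_quadratic W hW2 hq _ G rfl P x hc hx hxc hzN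

end Cfsg.Agent.S5253
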