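import Cfsg.Statements.S5254
import Cfsg.Agent.Lib.Fusion.AbelianIndexPLocal

set_option autoImplicit false
open Cfsg

namespace Cfsg.Agent.S5254

/-- Let p be an odd prime, S a finite nonabelian p-group with a unique abelian subgroup A of index p, and F a saturated fusion system over S. Then every F-essential subgroup P is A, or Z(S)⟨x⟩ for some x ∈ S outside A, or (when the second centre Z₂(S) lies in A) Z₂(S)⟨x⟩ for some x ∈ S outside A; and P has index p in its normalizer in S. -/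
theorem result {Ω : Type*} [Group Ω] {S : Subgroup Ω} [Finite S] (p : ℕ) [Fact p.Prime] (hS : IsPGroup p S) (F : Cfsg.FusionSystem S) (hF : F.IsSaturated p) (hp : p ≠ 2) (hna : ¬ IsMulCommutative ↥S) (A : Subgroup Ω) (hA : A ≤ S ∧ IsMulCommutative ↥A ∧ (A.subgroupOf S).index = p) (huniq : ∀ B : Subgroup Ω, B ≤ S → IsMulCommutative ↥B → (B.subgroupOf S).index = p → B = A) (P : Subgroup Ω) (hP : F.IsEssential p P) : (P = A ∨ (∃ x ∈ S, x ∉ A ∧ P = (S ⊓ Subgroup.centralizer (S : Set Ω)) ⊔ Subgroup.zpowers x) ∨ (((upperCentralSeries ↥S 2).map S.subtype) ≤ A ∧ ∃ x ∈ S, x ∉ A ∧ P = ((upperCentralSeries ↥S 2).map S.subtype) ⊔ Subgroup.zpowers x)) ∧ (P.subgroupOf (S ⊓ Subgroup.normalizer (P : Set Ω))).index = p := by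
  classical
  have h := CfsgLib.Fusion.AbelianIndexP.Ctx.of (Fact.out : p.Prime) hS hna hA huniq
  obtain ⟨hPc, hPn, hrest⟩ := id hP
  have hPr := CfsgLib.Fusion.isRadical_of_essential p hS hP
  have hlt := CfsgLib.Fusion.essential_lt hS hF hP
  have hidx : ∀ {N : Subgroup Ω}, N = S ⊓ Subgroup.normalizer (P : Set Ω) → Nat.card ↥N = p * Nat.card ↥P →
      (P.subgroupOf N).index = p := by
    intro N hN hc
    have hPN : P ≤ N := hN ▸ le_inf hPn.1 Subgroup.le_normalizer
    have h1 := (P.subgroupOf N).card_mul_index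
    rw [CfsgLib.Fusion.AbelianIndexP.card_subgroupOf hPN, hc, mul_comm p] at h1
    haveI := CfsgLib.Fusion.finite_of_le hPn.1
    exact Nat.eq_of_mul_eq_mul_left Nat.card_pos h1
  by_cases hPA : P = A
  · refine ⟨Or.inl hPA, ?_⟩
    subst hPA
    have hN : S ⊓ Subgroup.normalizer (P : Set Ω) = S := by
      refine inf_eq_left.mpr fun s hs => Subgroup.mem_normalizer_iff.mpr fun a => ⟨h.conj_mem s hs a, fun ha => ?_⟩
      have h1 := h.conj_mem _ (S.inv_mem hs) _ ha
      simpa [mul_assoc] using h1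
    rw [hN]
    exact hA.2.2
  have hL := CfsgLib.Fusion.AbelianIndexP.loc_of_radical hS hF h hna hPn hPc hPr hlt.ne hPA
  obtain ⟨x, hxP, hx, hxA⟩ := hL.out
  have hgen : P = (P ⊓ A) ⊔ Subgroup.zpowers x := by
    refine le_antisymm (fun v hv => ?_) (sup_le inf_le_left (Subgroup.zpowers_le.mpr hxP))
    obtain ⟨a, ha, k, rfl⟩ := h.gen x hx hxA v (hPn.1 hv)
    exact mul_mem (Subgroup.mem_sup_left ⟨(P.mul_mem_cancel_right (P.zpow_mem hxP k)).mp hv, ha⟩)
      (Subgroup.mem_sup_right (zpow_mem (Subgroup.mem_zpowers x) k))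
  refine ⟨Or.inr ?_, hidx rfl hL.card_norm⟩
  rcases hL.inf_cases with e | e
  · exact Or.inl ⟨x, hx, hxA, hgen.trans (by rw [e]; rfl)⟩
  · exact Or.inr ⟨hL.upper_le, x, hx, hxA, hgen.trans (by rw [e, CfsgLib.Fusion.AbelianIndexP.upper2_eq h hL.upper_le])⟩

end Cfsg.Agent.S5254
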