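import Cfsg.Statements.S5256
import Cfsg.Agent.Lib.Fusion.Over

set_option autoImplicit false
open Cfsg

namespace Cfsg.Agent.S5256

open CfsgLib
/-- Let F be a saturated fusion system over a finite p-group S, T a subgroup of S strongly closed in F, and E a factor system F/T realised along a homomorphism θ of S with kernel T. Then the hyperfocal subgroup of E is the image under θ of the hyperfocal subgroup of F (hyp(F/T) = T·hyp(F)/T). -/
theorem result {Ω : Type*} [Group Ω] {S : Subgroup Ω} [Finite S] (p : ℕ) [Fact p.Prime] (hS : IsPGroup p S) (F : Cfsg.FusionSystem S) (hF : F.IsSaturated p) (T : Subgroup Ω) (hT : F.StronglyClosed T) {Ω' : Type*} [Group Ω'] {S' : Subgroup Ω'} (θ : ↥S →* Ω') (E : Cfsg.FusionSystem S') (hE : F.IsFactorSystem T θ E) : E.hyperfocalSubgroup p = ((F.hyperfocalSubgroup p).subgroupOf S).map θ := by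
  haveI := Fusion.finite_factor hE
  set W := ((F.hyperfocalSubgroup p).subgroupOf S).map θ
  refine le_antisymm (Fusion.hyp_le_of E W fun P' hP' a ha x => ?_) ?_
  · haveI := Fusion.finite_of_le hP'
    set P := Cfsg.FusionSystem.preimageAlong θ P' with hPdef
    obtain ⟨φ, hφ, hφe⟩ : ∃ φ ∈ F.Hom P, ∀ z : ↥P, ∃ (hz : (z : Ω) ∈ S) (hφz : φ z ∈ S) (hm : θ ⟨z, hz⟩ ∈ P'),
        (P'.subtype.comp (a : MulAut ↥P').toMonoidHom) ⟨θ ⟨z, hz⟩, hm⟩ = θ ⟨φ z, hφz⟩ :=
      Fusion.exists_lift hE ((Fusion.autGroup_carrier E hP' _).mp a.2)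
    have hP : P ≤ S := Fusion.preimageAlong_le θ P'
    haveI := Fusion.finite_of_le hP
    haveI := Fusion.finite_aut_of_le hP
    have hr : φ.range = P := by
      refine Subgroup.eq_of_le_of_card_ge ?_ (by rw [Fusion.card_range hφ])
      rintro _ ⟨z, rfl⟩
      obtain ⟨hz, hφz, hm, he⟩ := hφe z
      refine Fusion.mem_preimageAlong.mpr ⟨hφz, ?_⟩
      rw [← he]; exact ((a : MulAut ↥P') _).2
    set b := Fusion.isoOfMem hφ hr
    have hb : b ∈ F.autGroup P := (Fusion.autGroup_carrier F hP _).mpr (by rw [Fusion.isoOfMem_hom hφ hr]; exact hφ)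
    set m : ↥P → ↥P' := fun z => ⟨θ ⟨z, hP z.2⟩, (Fusion.mem_preimageAlong.mp z.2).2⟩
    have hm : ∀ z, m (b z) = (a : MulAut ↥P') (m z) := fun z => by
      obtain ⟨hz, hφz, hm', he⟩ := hφe z
      refine Subtype.ext ?_
      show θ ⟨(b z : Ω), _⟩ = _
      rw [show (⟨((b z : ↥P) : Ω), hP (b z).2⟩ : ↥S) = ⟨φ z, hφz⟩ from Subtype.ext (Fusion.isoOfMem_coe hφ hr z), ← he]
      rfl
    have hiter : ∀ (k : ℕ) z, m ((b ^ k) z) = ((a : MulAut ↥P') ^ k) (m z) := by
      intro k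
      induction k with
      | zero => intro z; rfl
      | succ k ih => intro z; rw [pow_succ' b, MulAut.mul_apply, hm, ih, pow_succ' (a : MulAut ↥P'), MulAut.mul_apply]
    obtain ⟨k, n, hn, hkn⟩ := Nat.exists_eq_pow_mul_and_not_dvd (orderOf_pos (⟨b, hb⟩ : ↥(F.autGroup P))).ne' p (Fact.out : p.Prime).ne_one
    obtain ⟨i, hi⟩ := exists_pow_eq_self_of_coprime (x := a) (n := p ^ k) (ha.symm.pow_left k)
    set c : ↥(F.autGroup P) := (⟨b, hb⟩ : ↥(F.autGroup P)) ^ (p ^ k * i)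
    have hc : (orderOf c).Coprime p := by
      refine Nat.Coprime.coprime_dvd_left (orderOf_dvd_of_pow_eq_one (n := n) ?_) (((Fact.out : p.Prime).coprime_iff_not_dvd.mpr hn).symm)
      rw [← pow_mul, mul_right_comm, pow_mul, ← hkn, pow_orderOf_eq_one, one_pow]
    obtain ⟨s, hs⟩ : ∃ s : ↥S, θ s = x := hE.2.2.1.ge (hP' x.2)
    have hsP : (s : Ω) ∈ P := Fusion.mem_preimageAlong.mpr ⟨s.2, by rw [show (⟨(s : Ω), s.2⟩ : ↥S) = s from rfl, hs]; exact x.2⟩
    have h1 : (s : Ω)⁻¹ * (((c : MulAut ↥P) ⟨s, hsP⟩ : ↥P) : Ω) ∈ F.hyperfocalSubgroup p :=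
      Subgroup.subset_closure ⟨P, c, ⟨s, hsP⟩, hP, Subgroup.subset_closure hc, rfl⟩
    refine ⟨s⁻¹ * ⟨_, hP ((c : MulAut ↥P) ⟨s, hsP⟩).2⟩, h1, ?_⟩
    rw [map_mul, map_inv, hs]
    congr 1
    show (m (((c : ↥(F.autGroup P)) : MulAut ↥P) ⟨s, hsP⟩) : Ω') = _
    rw [show ((c : ↥(F.autGroup P)) : MulAut ↥P) = b ^ (p ^ k * i) from rfl, hiter]
    rw [show (a : MulAut ↥P') ^ (p ^ k * i) = (a : MulAut ↥P') by rw [pow_mul]; exact congrArg Subtype.val hi]
    exact congrArg (fun y => (((a : MulAut ↥P') y : ↥P') : Ω')) (Subtype.ext hs : m ⟨s, hsP⟩ = x)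
  · have hle : F.hyperfocalSubgroup p ≤ ((E.hyperfocalSubgroup p).comap θ).map S.subtype := by
      refine Fusion.hyp_le_of F _ fun P hP a ha x => ?_
      haveI := Fusion.finite_of_le hP
      haveI := Fusion.finite_aut_of_le hP
      have hφ := (Fusion.autGroup_carrier F hP _).mp a.2
      obtain ⟨ψ, hψ, hψe⟩ := Fusion.exists_extend_mod hS hF hT hφ
      obtain ⟨ψ', hψ', he⟩ := Fusion.exists_induced hE hT le_sup_right hψ
      set P' := Cfsg.FusionSystem.imageAlong θ P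
      have hP' : P' ≤ S' := Fusion.imageAlong_le hE P
      haveI := Fusion.finite_of_le hP'
      haveI := Fusion.finite_aut_of_le hP'
      have hle' : P' ≤ Cfsg.FusionSystem.imageAlong θ (P ⊔ T) :=
        Subgroup.map_mono fun s hs => Subgroup.mem_sup_left (S := P) (T := T) hs
      set φ' := ψ'.comp (Subgroup.inclusion hle')
      have hφ' : φ' ∈ E.Hom P' := Fusion.restrict_mem hψ' hle'
      have hv : ∀ z : ↥P, φ' ⟨θ ⟨z, hP z.2⟩, ⟨_, z.2, rfl⟩⟩ = θ ⟨((a : MulAut ↥P) z : ↥P), hP ((a : MulAut ↥P) z).2⟩ := fun z => by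
        refine (he ⟨z, hP z.2⟩ (Subgroup.mem_sup_left z.2)).trans ((inv_mul_eq_one.mp ?_).symm)
        rw [← map_inv, ← map_mul, hE.2.1]
        exact hψe z
      have hr : φ'.range = P' := by
        refine Subgroup.eq_of_le_of_card_ge ?_ (by rw [Fusion.card_range hφ'])
        rintro _ ⟨⟨_, z, hz, rfl⟩, rfl⟩
        exact ⟨_, ((a : MulAut ↥P) ⟨z, hz⟩).2, (hv ⟨z, hz⟩).symm⟩
      set b := Fusion.isoOfMem hφ' hr
      have hb : b ∈ E.autGroup P' := (Fusion.autGroup_carrier E hP' _).mpr (by rw [Fusion.isoOfMem_hom hφ' hr]; exact hφ')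
      set m : ↥P → ↥P' := fun z => ⟨θ ⟨z, hP z.2⟩, ⟨_, z.2, rfl⟩⟩
      have hiter : ∀ (k : ℕ) z, (b ^ k) (m z) = m (((a : MulAut ↥P) ^ k) z) := by
        intro k
        induction k with
        | zero => intro z; rfl
        | succ k ih =>
          intro z
          rw [pow_succ' b, MulAut.mul_apply, ih, pow_succ' (a : MulAut ↥P), MulAut.mul_apply]
          exact Subtype.ext ((Fusion.isoOfMem_coe hφ' hr _).trans (hv _))
      have hord : (orderOf (⟨b, hb⟩ : ↥(E.autGroup P'))).Coprime p := by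
        refine Nat.Coprime.coprime_dvd_left (orderOf_dvd_of_pow_eq_one (n := orderOf a) ?_) ha
        refine Subtype.ext (MulEquiv.ext fun y => ?_)
        obtain ⟨_, z, hz, rfl⟩ := y
        show (b ^ orderOf a) (m ⟨z, hz⟩) = _
        rw [hiter, show (a : MulAut ↥P) ^ orderOf a = 1 from congrArg Subtype.val (pow_orderOf_eq_one a)]
        rfl
      refine ⟨⟨x, hP x.2⟩⁻¹ * ⟨_, hP ((a : MulAut ↥P) x).2⟩, ?_, rfl⟩
      show θ _ ∈ E.hyperfocalSubgroup p
      rw [map_mul, map_inv, ← hv x]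
      exact Subgroup.subset_closure ⟨P', ⟨b, hb⟩, m x, hP', Subgroup.subset_closure hord, by
        rw [show ((b (m x) : ↥P') : Ω') = φ' (m x) from Fusion.isoOfMem_coe hφ' hr _]⟩
    rintro _ ⟨s, hs, rfl⟩
    obtain ⟨t, ht, hte⟩ := hle hs
    rw [show s = t from Subtype.ext hte.symm]
    exact ht

end Cfsg.Agent.S5256
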