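import Cfsg.Statements.S5257
import Cfsg.Agent.Lib.Fusion.AbelianIndexPLocal

set_option autoImplicit false
open Cfsg

namespace Cfsg.Agent.S5257

/-- Let p be an odd prime, S a finite nonabelian p-group with a unique abelian subgroup A of index p, and F a saturated fusion system over S having an F-essential subgroup other than A. Then the second centre Z₂(S) lies in A; Z(S) ∩ [S, S] has order p; Z(S)[S, S] has index p in A; Z(S) has index p in Z₂(S); and S/Z(S) has maximal nilpotency class (if S/Z(S) has order pᵐ with m ≥ 3 then the term of index m − 2 of the lower central series of S, counting S as index 0, is not contained in Z(S)). -/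
theorem result {Ω : Type*} [Group Ω] {S : Subgroup Ω} [Finite S] (p : ℕ) [Fact p.Prime] (hS : IsPGroup p S) (F : Cfsg.FusionSystem S) (hF : F.IsSaturated p) (hp : p ≠ 2) (hna : ¬ IsMulCommutative ↥S) (A : Subgroup Ω) (hA : A ≤ S ∧ IsMulCommutative ↥A ∧ (A.subgroupOf S).index = p) (huniq : ∀ B : Subgroup Ω, B ≤ S → IsMulCommutative ↥B → (B.subgroupOf S).index = p → B = A) (P : Subgroup Ω) (hP : F.IsEssential p P) (hPA : P ≠ A) : ((upperCentralSeries ↥S 2).map S.subtype) ≤ A ∧ Nat.card ↥((S ⊓ Subgroup.centralizer (S : Set Ω)) ⊓ ((commutator ↥S).map S.subtype)) = p ∧ (((S ⊓ Subgroup.centralizer (S : Set Ω)) ⊔ ((commutator ↥S).map S.subtype)).subgroupOf A).index = p ∧ (((S ⊓ Subgroup.centralizer (S : Set Ω))).subgroupOf ((upperCentralSeries ↥S 2).map S.subtype)).index = p ∧ ∀ m : ℕ, ((S ⊓ Subgroup.centralizer (S : Set Ω)).subgroupOf S).index = p ^ m → 3 ≤ m → ¬ Subgroup.lowerCentralSeries S (m - 2) ≤ (S ⊓ Subgroup.centralizer (S : Set Ω))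 := by
  classical
  have h := CfsgLib.Fusion.AbelianIndexP.Ctx.of (Fact.out : p.Prime) hS hna hA huniq
  obtain ⟨hPc, hPn, hrest⟩ := id hP
  have hlt := CfsgLib.Fusion.essential_lt hS hF hP
  have hL := CfsgLib.Fusion.AbelianIndexP.loc_of_radical hS hF h hna hPn hPc
    (CfsgLib.Fusion.isRadical_of_essential p hS hP) hlt.ne hPA
  obtain ⟨x, hxP, hx, hxA⟩ := hL.out
  have hd : ⁅S, S⁆ = (commutator ↥S).map S.subtype := CfsgLib.Fusion.AbelianIndexP.derived_eq_map
  haveI := CfsgLib.Fusion.finite_of_le h.le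
  have hC : (S ⊓ Subgroup.centralizer (S : Set Ω)) = CfsgLib.Fusion.AbelianIndexP.cen S := rfl
  rw [hC, ← hd]
  haveI : Finite ↥(CfsgLib.Fusion.AbelianIndexP.cen S) := CfsgLib.Fusion.finite_of_le inf_le_left
  set C := CfsgLib.Fusion.AbelianIndexP.cen S
  have hcd : Nat.card ↥(C ⊓ ⁅S, S⁆ : Subgroup Ω) = p :=
    Nat.eq_of_mul_eq_mul_right (Nat.card_pos (α := ↥C)) ((CfsgLib.Fusion.AbelianIndexP.card_cen2 h hx hxA).trans hL.card_cen2)
  have hcard := CfsgLib.Fusion.AbelianIndexP.card_derived h hx hxA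
  have hdA : ⁅S, S⁆ ≤ A := (h.derived_eq hx hxA).le.trans (Subgroup.map_subtype_le _)
  refine ⟨hL.upper_le, hcd, ?_, ?_, fun m hm h3 => ?_⟩
  · have hsup : C ⊔ ⁅S, S⁆ ≤ A := sup_le h.cen_le hdA
    have h1 := ((C ⊔ ⁅S, S⁆).subgroupOf A).card_mul_index
    rw [CfsgLib.Fusion.AbelianIndexP.card_subgroupOf hsup] at h1
    have h2 : Nat.card ↥(C ⊔ ⁅S, S⁆ : Subgroup Ω) * Nat.card ↥(C ⊓ ⁅S, S⁆ : Subgroup Ω) = Nat.card ↥C * Nat.card ↥⁅S, S⁆ := by
      rw [← CfsgLib.Fusion.AbelianIndexP.card_subgroupOf hsup,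
        ← CfsgLib.Fusion.AbelianIndexP.card_subgroupOf (inf_le_left.trans h.cen_le : C ⊓ ⁅S, S⁆ ≤ A),
        ← CfsgLib.Fusion.AbelianIndexP.card_subgroupOf h.cen_le, ← CfsgLib.Fusion.AbelianIndexP.card_subgroupOf hdA,
        Subgroup.subgroupOf_sup h.cen_le hdA]
      set C' := C.subgroupOf A
      set D' := ⁅S, S⁆.subgroupOf A
      haveI : D'.Normal := ⟨fun a ha b => by
        rw [show b * a = a * b from Subtype.ext (h.comm _ b.2 _ a.2), mul_inv_cancel_right]; exact ha⟩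
      show Nat.card ↥(C' ⊔ D' : Subgroup ↥A) * Nat.card ↥(C' ⊓ D' : Subgroup ↥A) = _
      have e1 := (D'.subgroupOf (C' ⊔ D')).card_mul_index
      have e2 := (D'.subgroupOf C').card_mul_index
      rw [CfsgLib.Fusion.AbelianIndexP.card_subgroupOf (le_sup_right : D' ≤ C' ⊔ D')] at e1
      rw [← Subgroup.inf_subgroupOf_left, CfsgLib.Fusion.AbelianIndexP.card_subgroupOf (inf_le_left : C' ⊓ D' ≤ C')] at e2
      rw [← e1, ← e2, show (D'.subgroupOf (C' ⊔ D')).index = ((C' ⊓ D').subgroupOf C').index from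
        (Subgroup.relIndex_sup_right (H := C') (K := D')).trans (Subgroup.inf_relIndex_left _ _).symm]
      ring
    rw [hcd] at h2
    haveI : Finite ↥(C ⊔ ⁅S, S⁆ : Subgroup Ω) := CfsgLib.Fusion.finite_of_le hsup
    refine Nat.eq_of_mul_eq_mul_left (Nat.card_pos (α := ↥(C ⊔ ⁅S, S⁆ : Subgroup Ω))) ?_
    rw [h1, h2, mul_comm, hcard]
  · rw [CfsgLib.Fusion.AbelianIndexP.upper2_eq h hL.upper_le]
    have h1 := (C.subgroupOf (CfsgLib.Fusion.AbelianIndexP.cen2 S A)).card_mul_index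
    rw [CfsgLib.Fusion.AbelianIndexP.card_subgroupOf (CfsgLib.Fusion.AbelianIndexP.cen_le_cen2 h), hL.card_cen2,
      mul_comm p] at h1
    exact Nat.eq_of_mul_eq_mul_left Nat.card_pos h1
  · obtain ⟨i, rfl⟩ : ∃ i, m = i + 3 := ⟨m - 3, by omega⟩
    have h1 := (C.subgroupOf S).card_mul_index
    have h2 := (A.subgroupOf S).card_mul_index
    rw [CfsgLib.Fusion.AbelianIndexP.card_subgroupOf (show C ≤ S from inf_le_left), hm] at h1
    rw [CfsgLib.Fusion.AbelianIndexP.card_subgroupOf h.le, h.index, ← hcard] at h2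
    have hp0 := (Fact.out : p.Prime).pos
    have h4 : Nat.card ↥⁅S, S⁆ = p ^ (i + 2) := by
      refine Nat.eq_of_mul_eq_mul_right (Nat.mul_pos (Nat.card_pos (α := ↥C)) hp0) ?_
      rw [← mul_assoc, h2, ← h1, pow_succ]
      ring
    have h5 := CfsgLib.Fusion.AbelianIndexP.card_iter h hx hxA hcd i
    rw [h4, pow_add] at h5
    have h6 := Nat.le_of_mul_le_mul_left h5 (pow_pos hp0 i)
    intro hle
    rw [show i + 3 - 2 = i + 1 by omega] at hle
    have h7 := Subgroup.card_le_of_le (show ((fun B => B.map (CfsgLib.Fusion.AbelianIndexP.phi h hx))^[i + 1]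
        (⊤ : Subgroup ↥A)) ≤ (C ⊓ ⁅S, S⁆).subgroupOf A from fun a ha => by
      refine Subgroup.mem_subgroupOf.mpr ⟨hle (CfsgLib.Fusion.AbelianIndexP.iter_le_lower h hx (i + 1) a ha), ?_⟩
      rw [Function.iterate_succ_apply'] at ha
      obtain ⟨b, -, rfl⟩ := ha
      rw [h.derived_eq hx hxA]
      exact ⟨_, ⟨b, rfl⟩, rfl⟩)
    rw [CfsgLib.Fusion.AbelianIndexP.card_subgroupOf (inf_le_left.trans h.cen_le), hcd] at h7
    have h8 := h6.trans h7
    have : p < p ^ 2 := by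
      calc p = p ^ 1 := (pow_one p).symm
        _ < p ^ 2 := Nat.pow_lt_pow_right (Fact.out : p.Prime).one_lt (by norm_num)
    omega

end Cfsg.Agent.S5257
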