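import Cfsg.Statements.S5272
import Cfsg.Agent.Lib.Glauberman.FusionNPC

set_option autoImplicit false
open Cfsg

namespace Cfsg.Agent.S5272

open CfsgLib.ThompsonNPC CfsgLib.Glauberman in
/-- An axiomatic Glauberman–Thompson nilpotency criterion for fusion systems. Let p be an odd prime, F a saturated fusion system over a finite p-group S, and 𝒜 a nonempty family of abelian subgroups of S. For Q ≤ S write I(Q) for the intersection of the members of 𝒜 contained in Q. Assume (invariance) that for every Q ≤ S containing a member of 𝒜, every F-automorphism of Q maps I(Q) into itself, and (replacement) that for every subgroup B of S of nilpotency class at most 2, if some member of 𝒜 contains [B,B] but not B, then B normalizes some member of 𝒜 that contains [B,B] but not B. Then F is the inner fusion system of S if and only if the normalizer fusion system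 of I(S) in F is the inner fusion system of N_S(I(S)). -/
theorem result {Ω : Type*} [Group Ω] {S : Subgroup Ω} [Finite S] (p : ℕ) [Fact p.Prime] (hS : IsPGroup p ↥S) (F : Cfsg.FusionSystem S) (hF : F.IsSaturated p) (hp : p ≠ 2) (𝒜 : Set (Subgroup Ω)) (h𝒜 : ∀ A ∈ 𝒜, A ≤ S ∧ IsMulCommutative ↥A) (hne : 𝒜.Nonempty) (hinv : ∀ Q : Subgroup Ω, Q ≤ S → (∃ A ∈ 𝒜, A ≤ Q) → ∀ α ∈ F.autGroup Q, ∀ x : ↥Q, (x : Ω) ∈ (⨅ A ∈ {A : Subgroup Ω | A ∈ 𝒜 ∧ A ≤ Q}, A) → (((α : MulAut ↥Q) x : ↥Q) : Ω) ∈ (⨅ A ∈ {A : Subgroup Ω | A ∈ 𝒜 ∧ A ≤ Q}, A)) (hrep : ∀ B : Subgroup Ω, B ≤ S → ⁅⁅B, B⁆, B⁆ = ⊥ → (∃ A ∈ 𝒜, ⁅B, B⁆ ≤ A ∧ ¬ B ≤ A) → ∃ A ∈ 𝒜, ⁅B, B⁆ ≤ A ∧ ¬ B ≤ A ∧ B ≤ Subgroup.normalizer (A : Set Ω)) : (∀ P : Subgroup Ω, F.Hom P = (Cfsg.innerFusionSystem S).Hom P) ↔ ∀ N : Cfsg.FusionSystem (Cfsg.FusionSystem.normalizerIn S (⨅ A ∈ 𝒜, A)), F.IsNormalizerSystem (⨅ A ∈ 𝒜,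 A) N → ∀ P : Subgroup Ω, N.Hom P = (Cfsg.innerFusionSystem (Cfsg.FusionSystem.normalizerIn S (⨅ A ∈ 𝒜, A))).Hom P := by
  refine inner_iff hS hF hp (D := S) (𝒜 := 𝒜) ⟨stronglyClosed_self F, hne, fun A hA => ⟨(h𝒜 A hA).1, fun x hx y hy => ?_⟩, ?_, ?_⟩ rfl
  · haveI := (h𝒜 A hA).2
    exact congrArg Subtype.val (mul_comm' (⟨x, hx⟩ : ↥A) ⟨y, hy⟩)
  · intro T hT α hα A hA hAT x hx
    have hxI : (x : Ω) ∈ (⨅ A ∈ {A : Subgroup Ω | A ∈ 𝒜 ∧ A ≤ T}, A) :=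
      Subgroup.mem_iInf.mpr fun A' => Subgroup.mem_iInf.mpr fun h => hx A' h.1 h.2
    exact (iInf₂_le A ⟨hA, hAT⟩ : (⨅ A ∈ {A : Subgroup Ω | A ∈ 𝒜 ∧ A ≤ T}, A) ≤ A) (hinv T hT ⟨A, hA, hAT⟩ α hα x hxI)
  · intro B hB _ hcl hall ⟨A, hA, hBA⟩
    obtain ⟨A', h1, -, h2, h3⟩ := hrep B hB hcl ⟨A, hA, hall A hA, hBA⟩
    exact ⟨A', h1, h2, h3⟩

end Cfsg.Agent.S5272
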