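import Cfsg.Statements.S5276
import Cfsg.Agent.Lib.Fusion.FrattiniInner
import Cfsg.Agent.Lib.Fusion.Extend

set_option autoImplicit false
open Cfsg

namespace Cfsg.Agent.S5276

/-- Let p be a prime and F a saturated fusion system over a finite p-group S. Then F is the inner fusion system of S if and only if the normalizer fusion system of S itself in F is the inner fusion system (equivalently, Aut_F(S) is induced by S) and the Frattini subgroup Φ(S) is strongly closed in F. -/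
theorem result {Ω : Type*} [Group Ω] {S : Subgroup Ω} [Finite S] (p : ℕ) [Fact p.Prime] (hS : IsPGroup p ↥S) (F : Cfsg.FusionSystem S) (hF : F.IsSaturated p) : (∀ P : Subgroup Ω, F.Hom P = (Cfsg.innerFusionSystem S).Hom P) ↔ (∀ N : Cfsg.FusionSystem (Cfsg.FusionSystem.normalizerIn S S), F.IsNormalizerSystem S N → ∀ P : Subgroup Ω, N.Hom P = (Cfsg.innerFusionSystem (Cfsg.FusionSystem.normalizerIn S S)).Hom P) ∧ F.StronglyClosed ((frattini ↥S).map S.subtype) := by
  haveI : Finite ↥S := ‹_›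
  have hSS : Cfsg.FusionSystem.normalizerIn S S = S := inf_eq_left.mpr Subgroup.le_normalizer
  constructor
  · intro h
    refine ⟨fun N hN P => ?_, Subgroup.map_subtype_le _, fun R hR φ hφ x => ?_⟩
    · ext φ
      refine ⟨fun hφ => ?_, fun hφ => ?_⟩
      · have hle := N.le_of_mem hφ
        rw [hN P] at hφ
        obtain ⟨-, g, hg, he⟩ : φ ∈ (Cfsg.innerFusionSystem S).Hom P := h P ▸ hφ.1
        exact ⟨hle.1, g, hSS.ge hg, he⟩
      · obtain ⟨hP, g, hg, he⟩ := hφ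
        exact CfsgLib.Fusion.conj_mem_of_eq N hP hg he
    · obtain ⟨-, g, hg, he⟩ : φ ∈ (Cfsg.innerFusionSystem S).Hom R := h R ▸ hφ
      obtain ⟨z, hz, hzx⟩ := hR x.2
      rw [he x, ← hzx]
      exact ⟨⟨g, hg⟩ * z * (⟨g, hg⟩ : ↥S)⁻¹, (inferInstance : (frattini ↥S).Normal).conj_mem z hz _, rfl⟩
  · rintro ⟨hN, hΦ⟩ P
    have hAut : ∀ ψ ∈ F.Hom S, ∃ q ∈ S, ∀ x : S, ψ x = q * (x : Ω) * q⁻¹ := by
      intro ψ hψ
      have hr : ψ.range = S := CfsgLib.Fusion.eq_of_isConj_S ⟨ψ, hψ, rfl⟩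
      have hle : S ⊔ S ≤ S := sup_le le_rfl le_rfl
      have hmem : ψ ∈ F.normalizerHom S S := by
        refine ⟨hψ, hSS.ge, fun x => hSS.ge (CfsgLib.Fusion.apply_mem_S hψ x), ψ.comp (Subgroup.inclusion hle),
          CfsgLib.Fusion.restrict_mem hψ hle, fun x => rfl, ?_⟩
        rw [CfsgLib.Fusion.map_eq_iff le_sup_right]
        refine ⟨fun x => CfsgLib.Fusion.apply_mem_S hψ _, fun y hy => ?_⟩
        obtain ⟨x, rfl⟩ : y ∈ ψ.range := hr.symm ▸ hy
        exact ⟨x, rfl⟩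
      obtain ⟨-, g, hg, he⟩ : ψ ∈ (Cfsg.innerFusionSystem (Cfsg.FusionSystem.normalizerIn S S)).Hom S :=
        hN (CfsgLib.Fusion.normalizerSystem F S le_rfl) (fun _ => rfl) S ▸ hmem
      exact ⟨g, hSS.le hg, he⟩
    ext φ
    refine ⟨fun hφ => ?_, fun hφ => ?_⟩
    · obtain ⟨g, hg, he⟩ := CfsgLib.Biset.inner_of_frattini p hS hF hAut hΦ hφ
      exact ⟨CfsgLib.Fusion.le_S hφ, g, hg, he⟩
    · obtain ⟨hP, g, hg, he⟩ := hφ
      exact CfsgLib.Fusion.conj_mem_of_eq F hP hg he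

end Cfsg.Agent.S5276
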