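import Cfsg.Statements.S5281
import Cfsg.Agent.Lib.Fusion.StableLocal

set_option autoImplicit false
open Cfsg

namespace Cfsg.Agent.S5281

set_option linter.style.haveILetI false
open CfsgLib

/-- Let p be an odd prime and F a saturated fusion system over a finite p-group S. Call a fusion system E (over any subgroup) p-stable when, for every fully E-normalized subgroup Q and every χ in Aut_E(Q) with χ(a⁻¹)·a·χ(a⁻¹)·χ(χ(a)) = 1 for all a in Q (χ acts quadratically), χ lies in O_p(Aut_E(Q)). Then F is p-stable if and only if the normalizer fusion system of R in F is p-stable for every fully F-normalized, F-centric, F-radical subgroup R of S. -/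
theorem result {Ω : Type*} [Group Ω] {S : Subgroup Ω} [Finite S] (p : ℕ) [Fact p.Prime] (hS : IsPGroup p ↥S) (F : Cfsg.FusionSystem S) (hF : F.IsSaturated p) (hp : p ≠ 2) : (∀ Q : Subgroup Ω, F.IsFullyNormalized Q → ∀ χ : MulAut ↥Q, χ ∈ F.autGroup Q → (∀ a : ↥Q, (χ a⁻¹) * a * (χ a⁻¹) * (χ (χ a)) = 1) → χ ∈ ((Cfsg.pCore p ↥(F.autGroup Q)).map (F.autGroup Q).subtype : Subgroup (MulAut ↥Q))) ↔ ∀ R : Subgroup Ω, F.IsFullyNormalized R → F.IsCentric R → F.IsRadical p R → ∀ N : Cfsg.FusionSystem (Cfsg.FusionSystem.normalizerIn S R), F.IsNormalizerSystem R N → (∀ Q : Subgroup Ω, N.IsFullyNormalized Q → ∀ χ : MulAut ↥Q, χ ∈ N.autGroup Q → (∀ a : ↥Q, (χ a⁻¹) * a * (χ a⁻¹) * (χ (χ a)) = 1) → χ ∈ ((Cfsg.pCore p ↥(N.autGroup Q)).map (N.autGroup Q).subtype : Subgroup (MulAut ↥Q))) := by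
  constructor
  · intro h R hR hc hr N hN Q hQ χ hχ hq
    haveI : Finite ↥(Cfsg.FusionSystem.normalizerIn S R) := Fusion.finite_of_le inf_le_left
    exact (Fusion.QuadStable.mono (Fusion.quadStable_of_fullyNormalized h) inf_le_left N
      (Fusion.normalizerSystem_subsystem N hN)) Q hQ.1 χ hχ hq
  · intro h
    have hst : Fusion.QuadStable p F := Fusion.quadStable_of_local hS hF fun R hR hc hr => by
      haveI : Finite ↥(Cfsg.FusionSystem.normalizerIn S R) := Fusion.finite_of_le inf_le_left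
      exact Fusion.quadStable_of_fullyNormalized (h R hR hc hr _ (Fusion.normalizerSystem_spec hR.1))
    exact fun Q hQ => hst Q hQ.1

end Cfsg.Agent.S5281
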