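import Cfsg.Statements.S5284
import Cfsg.Agent.Lib.Fusion.AbelianChain

set_option autoImplicit false
open Cfsg

namespace Cfsg.Agent.S5284

/-- Let S be a finite abelian p-group. Every saturated fusion system over S is supersoluble (S has a chain of F-strongly closed subgroups from 1 to S with cyclic steps) if and only if the invariants of S are pairwise distinct, that is, S is not isomorphic to a direct product (Z/p^n × Z/p^n) × H with n ≥ 1. -/
theorem result {Ω : Type*} [Group Ω] {S : Subgroup Ω} [Finite S] (p : ℕ) [Fact p.Prime] (hS : IsPGroup p ↥S) (hab : IsMulCommutative ↥S) : (∀ F : Cfsg.FusionSystem S, F.IsSaturated p → (∃ (m : ℕ) (c : Fin (m + 1) → Subgroup Ω), c 0 = ⊥ ∧ c (Fin.last m) = S ∧ (∀ i : Fin (m + 1), F.StronglyClosed (c i)) ∧ ∀ i : Fin m, c i.castSucc ≤ c i.succ ∧ ∃ x ∈ S, c i.succ = c i.castSucc ⊔ Subgroup.zpowers x)) ↔ ¬ ∃ (n : ℕ) (H : Type) (_ : CommGroup H), 0 < n ∧ Nonempty (↥S ≃* (Multiplicative (ZMod (p ^ n)) × Multiplicative (ZMod (p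 ^ n))) × H) := by
  classical
  letI : CommGroup ↥S := { S.toGroup with mul_comm := hab.is_comm.comm }
  have hres : ∀ F : Cfsg.FusionSystem S, F.IsSaturated p → F.IsNormal S := fun F hF =>
    CfsgLib.Fusion.isNormal_of_le_radical p hS hF ⟨le_rfl, fun _ _ _ hφ x => CfsgLib.Fusion.apply_mem_S hφ x⟩
      fun R hR hc _ s hs => hc.2 R (CfsgLib.Fusion.IsConj.refl F hR.1) ⟨hs, Subgroup.mem_centralizer_iff.mpr fun y hy =>
        congrArg Subtype.val (hab.is_comm.comm (⟨y, hR.1 hy⟩ : ↥S) ⟨s, hs⟩)⟩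
  constructor
  · rintro h ⟨n, H, _, hn, ⟨φ⟩⟩
    haveI : Fact (1 < p ^ n) := ⟨Nat.one_lt_pow hn.ne' (Fact.out : p.Prime).one_lt⟩
    obtain ⟨K, hK, hbad⟩ := CfsgLib.Fusion.AbelianChain.repeated_bad (p := p)
      (Multiplicative.ofAdd (1 : ZMod (p ^ n))) (fun h1 => one_ne_zero (Multiplicative.ofAdd.injective h1))
      (fun h2 h1 => by
        have h6 := congrArg Multiplicative.toAdd h1
        rw [toAdd_pow, toAdd_ofAdd, toAdd_one, nsmul_eq_mul, mul_one, ZMod.natCast_eq_zero_iff] at h6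
        exact h2 ((Nat.prime_dvd_prime_iff_eq Fact.out Nat.prime_two).mp ((dvd_pow_self p hn.ne').trans h6))) φ
    exact hbad ((CfsgLib.Fusion.CyclicChain.of_all_supersoluble hS h).2 K hK)
  · intro hno F hF
    refine CfsgLib.Fusion.CyclicChain.exists_chain hS hF (hres F hF) fun K hK => ?_
    obtain ⟨ι, _, d, hd1, ⟨φ⟩⟩ := CommGroup.equiv_prod_multiplicative_zmod_of_finite ↥S
    obtain ⟨m, hm⟩ := IsPGroup.iff_card.mp hS
    have hdp : ∀ i, ∃ e, d i = p ^ e := fun i => by
      have h1 : Nat.card (Multiplicative (ZMod (d i))) ∣ p ^ m := by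
        rw [← hm, Nat.card_congr φ.toEquiv, Nat.card_pi]
        exact Finset.dvd_prod_of_mem _ (Finset.mem_univ i)
      rw [Nat.card_congr Multiplicative.toAdd, Nat.card_zmod] at h1
      obtain ⟨e, -, he⟩ := (Nat.dvd_prime_pow Fact.out).mp h1
      exact ⟨e, he⟩
    choose e he using hdp
    obtain rfl : d = fun i => p ^ e i := funext he
    refine CfsgLib.Fusion.AbelianChain.good_of_distinct hS e (fun i j hij => ?_) φ K hK
    by_contra hne
    obtain ⟨H, _, hH⟩ := CfsgLib.Fusion.AbelianChain.exists_repeated e φ hne hij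
    exact hno ⟨e i, H, inferInstance, Nat.pos_of_ne_zero fun h0 => by
      have := hd1 i
      simp only [h0] at this
      simp at this, hH⟩

end Cfsg.Agent.S5284
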