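import Cfsg.Statements.S5290
import Cfsg.Agent.Lib.Fusion.ClosedSup

set_option autoImplicit false
open Cfsg

namespace Cfsg.Agent.S5290

open CfsgLib
/-- Let F be a saturated fusion system over a finite p-group S and Q a subgroup of S. Then Q is normal in F (F = N_F(Q)) if and only if the inner fusion system of Q, consisting of the conjugations by elements of Q on subgroups of Q, is a weakly normal subsystem of F (both saturated, Q strongly closed, invariant under F-conjugation, with the Frattini property). -/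
theorem result {Ω : Type*} [Group Ω] {S : Subgroup Ω} [Finite S] (p : ℕ) [Fact p.Prime] (hS : IsPGroup p S)
    (F : Cfsg.FusionSystem S) (hF : F.IsSaturated p)
    (Q : Subgroup Ω) (hQ : Q ≤ S) :
    F.IsNormal Q ↔ (Cfsg.innerFusionSystem Q).IsWeaklyNormalIn F p := by
  constructor
  · intro hN
    have hsc := Fusion.isNormal_stronglyClosed hN
    haveI := Fusion.finite_of_le hQ
    refine ⟨Fusion.inner_saturated (hS.to_le hQ), hF, ?_, hsc, ?_, ?_⟩
    · rintro P φ ⟨hP, g, hg, hge⟩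
      exact Fusion.conj_mem_of_eq F (hP.trans hQ) (hQ hg) hge
    · rintro P hPT φ ⟨-, g, hg, hge⟩ α hα
      have hle : (P.subgroupOf Q).map (Q.subtype.comp α.toMonoidHom) ≤ Q := by
        rintro _ ⟨y, -, rfl⟩; exact (α y).2
      refine ⟨Cfsg.conjHom _ ((α ⟨g, hg⟩ : ↥Q) : Ω),
        ⟨hle, _, (α ⟨g, hg⟩).2, fun _ => rfl⟩, fun x hφx hαx => ?_⟩
      show ((α ⟨g, hg⟩ : ↥Q) : Ω) * ((α ⟨x, hPT x.2⟩ : ↥Q) : Ω) * ((α ⟨g, hg⟩ : ↥Q) : Ω)⁻¹ = _
      rw [← Subgroup.coe_inv, ← Subgroup.coe_mul, ← Subgroup.coe_mul, ← map_inv, ← map_mul, ← map_mul]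
      exact congrArg (fun y => ((α y : ↥Q) : Ω)) (Subtype.ext (hge x).symm)
    · intro P hP φ hφ
      obtain ⟨β, hβ, hβe⟩ := Fusion.isNormal_restrict hN hφ
      refine ⟨β, hβ, P.subtype, ⟨hP, 1, one_mem Q, fun x => by simp⟩, fun x hx => (hβe x hx).symm⟩
  · rintro ⟨-, -, -, -, -, hfr⟩
    refine Fusion.isNormal_of_extend p hS hF hQ fun P hP φ hφ => ?_
    obtain ⟨α, hα, φ₀, ⟨-, g, hg, hge⟩, hαe⟩ := hfr P hP φ hφ
    refine ⟨α * MulAut.conj ⟨g, hg⟩, mul_mem hα (Fusion.inn_le_autGroup F hQ ⟨_, rfl⟩), fun x => ?_⟩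
    have hx : φ₀ x ∈ Q := (hge x).symm ▸ Q.mul_mem (Q.mul_mem hg (hP x.2)) (Q.inv_mem hg)
    rw [hαe x hx, MulAut.mul_apply]
    exact congrArg (fun y => ((α y : ↥Q) : Ω)) (Subtype.ext (hge x).symm)

end Cfsg.Agent.S5290
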