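import Cfsg.Statements.S5291
import Cfsg.Agent.Lib.Fusion.WeaklyNormalFacts

set_option autoImplicit false
open Cfsg

namespace Cfsg.Agent.S5291

open CfsgLib.Fusion
/-- Let F be a saturated fusion system over a finite p-group S and E a weakly normal subsystem of F over a subgroup T. Suppose a subgroup R of T is normal in E (E = N_E(R)), and let R* be the subgroup of T generated by the images of R under all maps of F with source R. Then R* is normal in F (F = N_F(R*)). -/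
theorem result {Ω : Type*} [Group Ω] {S : Subgroup Ω} [Finite S] (p : ℕ) [Fact p.Prime] (hS : IsPGroup p S)
    (F : Cfsg.FusionSystem S) (hF : F.IsSaturated p)
    {T : Subgroup Ω} (E : Cfsg.FusionSystem T) (hE : E.IsWeaklyNormalIn F p)
    (R : Subgroup Ω) (hR : E.IsNormal R) :
    F.IsNormal (Subgroup.closure {x : Ω | ∃ φ ∈ F.Hom R, ∃ r : R, x = φ r}) := by
  obtain ⟨hEs, -, hI⟩ := hE
  obtain ⟨hsub, hT, -, hfr⟩ := id hI
  have := finite_of_le hT.1
  have hRT : R ≤ T := hR.1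
  have hRsc := isNormal_stronglyClosed hR
  set X := Subgroup.closure {x : Ω | ∃ φ ∈ F.Hom R, ∃ r : R, x = φ r} with hX
  let 𝒳 : Set (Subgroup Ω) := (fun α : MulAut ↥T => (R.subgroupOf T).map (T.subtype.comp α.toMonoidHom)) '' (F.autGroup T : Set (MulAut ↥T))
  have hXsup : X = sSup 𝒳 := by
    refine le_antisymm ((Subgroup.closure_le _).mpr ?_) (sSup_le ?_)
    · rintro _ ⟨φ, hφ, r, rfl⟩
      obtain ⟨α, hα, φ₀, hφ₀, he⟩ := hfr R hRT φ hφ
      have hr : φ₀ r ∈ R := hRsc.2 R le_rfl φ₀ hφ₀ r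
      rw [he r (hRT hr)]
      exact (le_sSup ⟨α, hα, rfl⟩ : _ ≤ sSup 𝒳) ⟨⟨φ₀ r, hRT hr⟩, hr, rfl⟩
    · rintro _ ⟨α, hα, rfl⟩ _ ⟨z, hz, rfl⟩
      refine Subgroup.subset_closure ⟨_, restrict_mem ((autGroup_carrier F hT.1 α).mp hα) hRT, ⟨(z : Ω), hz⟩, rfl⟩
  have hXn : E.IsNormal X := by
    rw [hXsup]
    exact isNormal_sSup _ (by rintro _ ⟨α, hα, rfl⟩; exact isNormal_image hS hEs hI hR hα)
  have hXT : X ≤ T := hXn.1
  have := finite_of_le (hXT.trans hT.1)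
  have hinvX : ∀ α ∈ F.autGroup T, ∀ z : ↥T, (z : Ω) ∈ X → ((α z : ↥T) : Ω) ∈ X := by
    intro α hα z hz
    have hle : X ≤ (X.comap (T.subtype.comp α.toMonoidHom)).map T.subtype := by
      conv_lhs => rw [hXsup]
      refine sSup_le ?_
      rintro _ ⟨β, hβ, rfl⟩ _ ⟨w, hw, rfl⟩
      refine ⟨β w, ?_, rfl⟩
      show ((α (β w) : ↥T) : Ω) ∈ X
      rw [hXsup]
      exact (le_sSup ⟨α * β, mul_mem hα hβ, rfl⟩ : _ ≤ sSup 𝒳) ⟨w, hw, rfl⟩
    obtain ⟨z', hz', hzz⟩ := hle hz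
    rw [show z = z' from Subtype.ext hzz.symm]
    exact hz'
  refine isNormal_of_extend p hS hF (hXT.trans hT.1) fun P hP φ hφ => ?_
  obtain ⟨α, hα, φ₀, hφ₀, he⟩ := hfr P (hP.trans hXT) φ hφ
  obtain ⟨β, hβ, hβe⟩ := isNormal_restrict hXn hφ₀
  have hαS := (autGroup_carrier F hT.1 α).mp hα
  let ψ : ↥X →* Ω := (T.subtype.comp α.toMonoidHom).comp ((Subgroup.inclusion hXT).comp β.toMonoidHom)
  have hψ : ψ ∈ F.Hom X := comp_mem_of_eq (hsub X ((autGroup_carrier E hXT β).mp hβ)) hαS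
    (fun x => hXT (β x).2) fun x => rfl
  have hr : ψ.range = X :=
    Subgroup.eq_of_le_of_card_ge (by rintro _ ⟨x, rfl⟩; exact hinvX α hα _ (β x).2) (card_range hψ).ge
  refine ⟨isoOfMem hψ hr, (autGroup_carrier F (hXT.trans hT.1) _).mpr (by
    rw [show (isoOfMem hψ hr).toMonoidHom = _ from rfl, isoOfMem_hom hψ hr]; exact hψ), fun x => ?_⟩
  refine (DFunLike.congr_fun (isoOfMem_hom hψ hr) _).trans ?_
  rw [he x (apply_mem_S hφ₀ x)]
  exact congrArg (fun v : ↥T => ((α v : ↥T) : Ω)) (Subtype.ext (hβe x (hP x.2)))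

end Cfsg.Agent.S5291
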