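import Cfsg.Statements.S5298
import Cfsg.Agent.Lib.Fusion.SmallElements
import Cfsg.Agent.Lib.LocalBasic

set_option autoImplicit false
universe u
open Cfsg

namespace Cfsg.Agent.S5298

open CfsgLib
open scoped commutatorElement
/-- Let F be a saturated fusion system over a finite p-group S. If every map of F between cyclic subgroups of the hyperfocal subgroup of F of order p or 4 is conjugation by an element of S, then F is the inner fusion system of S. -/
theorem result {Ω : Type u} [Group Ω] {S : Subgroup Ω} [Finite S] (p : ℕ) [Fact p.Prime] (hS : IsPGroup p S)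
    (F : Cfsg.FusionSystem S) (hF : F.IsSaturated p)
    (h : ∀ A B : Subgroup Ω, A ≤ (F.hyperfocalSubgroup p) → B ≤ (F.hyperfocalSubgroup p) → IsCyclic ↥A → (Nat.card ↥A = p ∨ Nat.card ↥A = 4) → IsCyclic ↥B → (Nat.card ↥B = p ∨ Nat.card ↥B = 4) →
      F.homSet A B ⊆ (Cfsg.innerFusionSystem S).Hom A) :
    ∀ P : Subgroup Ω, F.Hom P = (Cfsg.innerFusionSystem S).Hom P := by
  refine (Fusion.pAut_iff_inner hS hF).mp fun P hP => ?_
  haveI := Fusion.finite_of_le hP
  haveI := Fusion.finite_aut_of_le hP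
  refine CfsgLib.LocalBasic.isPGroup_of_coprime_elements fun a ha => ?_
  by_contra hne
  have hPp : IsPGroup p ↥P := hS.to_le hP
  have hne' : (a : MulAut ↥P) ≠ 1 := fun h => hne (Subtype.ext h)
  have hco : (orderOf (a : MulAut ↥P)).Coprime p := by rwa [Subgroup.orderOf_coe]
  obtain ⟨M, hinv, ⟨x₀, hx₀, hmov₀⟩, hsmall, hgen⟩ := Fusion.exists_small_moved hPp hco hne'
  have hMH : ∀ x ∈ M, (x : Ω) ∈ F.hyperfocalSubgroup p := by
    intro x hx
    have hle : M ≤ (F.hyperfocalSubgroup p).comap P.subtype := by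
      refine hgen.symm.le.trans ((Subgroup.closure_le _).mpr ?_)
      rintro _ ⟨y, -, rfl⟩
      exact Fusion.inv_mul_mem_hyperfocal hP a ha y
    exact hle hx
  classical
  haveI : Group.IsNilpotent ↥S := hS.isNilpotent
  obtain ⟨n, hn⟩ := (inferInstance : Group.IsNilpotent ↥S).nilpotent
  have hex : ∃ i, ∃ x : ↥P, x ∈ M ∧ (a : MulAut ↥P) x ≠ x ∧ Subgroup.inclusion hP x ∈ Subgroup.upperCentralSeries ↥S i :=
    ⟨n, x₀, hx₀, hmov₀, hn ▸ Subgroup.mem_top _⟩
  obtain ⟨x, hx, hmov, hxi⟩ := Nat.find_spec hex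
  rcases hj : Nat.find hex with _ | j
  · rw [hj, Subgroup.upperCentralSeries_zero, Subgroup.mem_bot] at hxi
    have : x = 1 := Subgroup.inclusion_injective hP (hxi.trans (map_one _).symm)
    exact hmov (by rw [this, map_one])
  rw [hj, Subgroup.mem_upperCentralSeries_succ_iff] at hxi
  set y := (a : MulAut ↥P) x
  have hx1 : x ≠ 1 := fun h => hmov (by show (a : MulAut ↥P) x = x; rw [h, map_one])
  have hy1 : y ≠ 1 := fun h => hx1 ((a : MulAut ↥P).injective (h.trans (map_one _).symm))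
  have hAP : Subgroup.zpowers (x : Ω) ≤ P := Subgroup.zpowers_le.mpr x.2
  set φ := (P.subtype.comp (a : MulAut ↥P).toMonoidHom).comp (Subgroup.inclusion hAP)
  have hφ : φ ∈ F.homSet (Subgroup.zpowers (x : Ω)) (Subgroup.zpowers (y : Ω)) := by
    refine ⟨Fusion.restrict_mem ((Fusion.autGroup_carrier F hP _).mp a.2) hAP, fun z => ?_⟩
    obtain ⟨k, hk⟩ := Subgroup.mem_zpowers_iff.mp z.2
    refine Subgroup.mem_zpowers_iff.mpr ⟨k, ?_⟩
    show _ = (((a : MulAut ↥P) ⟨(z : Ω), _⟩ : ↥P) : Ω)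
    rw [show (⟨(z : Ω), hAP z.2⟩ : ↥P) = x ^ k from Subtype.ext hk.symm, map_zpow, Subgroup.coe_zpow]
  have hsm : ∀ w ∈ M, w ≠ 1 → Nat.card ↥(Subgroup.zpowers (w : Ω)) = p ∨ Nat.card ↥(Subgroup.zpowers (w : Ω)) = 4 :=
    fun w hw hw1 => Fusion.small_card_zpowers Fact.out (Fusion.small_map P.subtype (hsmall w hw)) (fun h => hw1 (Subtype.ext h))
  have hle : ∀ w ∈ M, Subgroup.zpowers ((w : ↥P) : Ω) ≤ F.hyperfocalSubgroup p := fun w hw => Subgroup.zpowers_le.mpr (hMH w hw)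
  obtain ⟨-, s, hs, hse⟩ := h _ _ (hle x hx) (hle y (hinv x hx)) inferInstance (hsm x hx hx1) inferInstance
    (hsm y (hinv x hx) hy1) hφ
  have hys : (y : Ω) = s * x * s⁻¹ := hse ⟨(x : Ω), Subgroup.mem_zpowers _⟩
  have hc : x⁻¹ * y ∈ M := mul_mem (inv_mem hx) (hinv x hx)
  have hcZ : Subgroup.inclusion hP (x⁻¹ * y) ∈ Subgroup.upperCentralSeries ↥S j := by
    rw [show Subgroup.inclusion hP (x⁻¹ * y) = ⁅(Subgroup.inclusion hP x)⁻¹, (⟨s, hs⟩ : ↥S)⁆ from Subtype.ext (by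
      show (x : Ω)⁻¹ * (y : Ω) = (x : Ω)⁻¹ * s * (x : Ω)⁻¹⁻¹ * s⁻¹
      rw [hys]; group)]
    exact Subgroup.mem_upperCentralSeries_succ_iff.mp
      (inv_mem (Subgroup.mem_upperCentralSeries_succ_iff.mpr hxi)) _
  refine hmov (Fusion.eq_self_of_step hPp hco ?_)
  by_contra hcm
  exact Nat.find_min hex (by omega) ⟨_, hc, hcm, hcZ⟩

end Cfsg.Agent.S5298
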