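import Cfsg.Statements.S5300
import Cfsg.Agent.Lib.Fusion.SmallElements
import Cfsg.Agent.Lib.LocalBasic

set_option autoImplicit false
universe u
open Cfsg

namespace Cfsg.Agent.S5300

open CfsgLib
/-- Let F be a saturated fusion system over a finite p-group S. If every cyclic subgroup of the focal subgroup of F of order p (of order 2 or 4 when p = 2) is normal in S, then S is normal in F. -/
theorem result {Ω : Type u} [Group Ω] {S : Subgroup Ω} [Finite S] (p : ℕ) [Fact p.Prime] (hS : IsPGroup p S)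
    (F : Cfsg.FusionSystem S) (hF : F.IsSaturated p)
    (hnorm : ∀ x ∈ F.focalSubgroup, (x ^ p = 1 ∨ (p = 2 ∧ x ^ 4 = 1)) → ∀ s ∈ S, s * x * s⁻¹ ∈ Subgroup.zpowers x) :
    F.IsNormal S := by
  refine Fusion.isNormal_of_le_radical p hS hF ⟨le_rfl, fun _ _ _ hφ x => Fusion.apply_mem_S hφ x⟩ fun R hR hc hr => ?_
  haveI := Fusion.finite_of_le hR.1
  haveI := Fusion.finite_aut_of_le hR.1
  by_contra hne
  obtain ⟨t, ht, htR⟩ := SetLike.exists_of_lt (Fusion.lt_normalizerIn p hS (lt_of_le_of_ne hR.1 fun h => hne h.ge))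
  set A := F.autGroup R
  have hfoc : ∀ (a : ↥A) (x : ↥R), (x : Ω) ∈ F.focalSubgroup → (((a : MulAut ↥R) x : ↥R) : Ω) ∈ F.focalSubgroup := by
    intro a x hx
    rw [show (((a : MulAut ↥R) x : ↥R) : Ω) = (x : Ω) * ((x : Ω)⁻¹ * (((a : MulAut ↥R) x : ↥R) : Ω)) by group]
    exact mul_mem hx (Fusion.inv_mul_mem_focal hR.1 a.2 x)
  let good : ↥A → ↥R → Prop := fun a x => (p ≠ 2 → (a : MulAut ↥R) x = x) ∧ (a : MulAut ↥R) x ∈ Subgroup.zpowers x
  let K : Subgroup ↥A :=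
    { carrier := {a | ∀ x : ↥R, (x : Ω) ∈ F.focalSubgroup → Fusion.Small p x → good a x}
      one_mem' := fun x _ _ => ⟨fun _ => rfl, Subgroup.mem_zpowers x⟩
      mul_mem' := fun {a b} ha hb x hx hs => by
        obtain ⟨hb1, hb2⟩ := hb x hx hs
        obtain ⟨ha1, ha2⟩ := ha x hx hs
        refine ⟨fun h => ?_, ?_⟩
        · show (a : MulAut ↥R) ((b : MulAut ↥R) x) = x
          rw [hb1 h, ha1 h]
        · obtain ⟨k, hk⟩ := Subgroup.mem_zpowers_iff.mp hb2
          show (a : MulAut ↥R) ((b : MulAut ↥R) x) ∈ _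
          rw [← hk, map_zpow]
          exact zpow_mem ha2 k
      inv_mem' := fun {a} ha x hx hs => by
        obtain ⟨h1, h2⟩ := ha x hx hs
        refine ⟨fun h => ?_, ?_⟩
        · show (a : MulAut ↥R)⁻¹ x = x
          exact (a : MulAut ↥R).injective ((MulAut.apply_inv_self _ (a : MulAut ↥R) x).trans (h1 h).symm)
        · have hle : (Subgroup.zpowers x).map (a : MulAut ↥R).toMonoidHom ≤ Subgroup.zpowers x := by
            rw [MonoidHom.map_zpowers]; exact Subgroup.zpowers_le.mpr h2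
          have heq := Subgroup.eq_of_le_of_card_ge hle
            (Subgroup.card_map_of_injective (a : MulAut ↥R).injective).ge
          obtain ⟨z, hz, hzx⟩ := heq.ge (Subgroup.mem_zpowers x)
          show (a : MulAut ↥R)⁻¹ x ∈ _
          have h3 : (a : MulAut ↥R)⁻¹ x = z := by
            rw [← hzx]; exact MulAut.inv_apply_self _ _ _
          rw [h3]
          exact hz }
  haveI hKn : K.Normal := ⟨fun a ha b x hx hs => by
    set w := ((b⁻¹ : ↥A) : MulAut ↥R) x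
    have hbw : (b : MulAut ↥R) w = x := by
      show (b : MulAut ↥R) (((b⁻¹ : ↥A) : MulAut ↥R) x) = x
      rw [Subgroup.coe_inv]; exact MulAut.apply_inv_self _ _ x
    obtain ⟨h1, h2⟩ := ha w (hfoc b⁻¹ x hx) (Fusion.small_map (((b⁻¹ : ↥A) : MulAut ↥R)).toMonoidHom hs)
    refine ⟨fun h => ?_, ?_⟩
    · show (b : MulAut ↥R) ((a : MulAut ↥R) w) = x
      rw [h1 h, hbw]
    · show (b : MulAut ↥R) ((a : MulAut ↥R) w) ∈ Subgroup.zpowers x
      obtain ⟨k, hk⟩ := Subgroup.mem_zpowers_iff.mp h2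
      rw [← hk, map_zpow, hbw]
      exact zpow_mem (Subgroup.mem_zpowers x) k⟩
  have hKp : IsPGroup p ↥K := CfsgLib.LocalBasic.isPGroup_of_coprime_elements fun a ha => by
    by_contra hne'
    have hRp : IsPGroup p ↥R := hS.to_le hR.1
    set α : MulAut ↥R := ((a : ↥A) : MulAut ↥R)
    have ha' : (orderOf (a : ↥A)).Coprime p := by rwa [Subgroup.orderOf_coe]
    have hco : (orderOf α).Coprime p := by rwa [Subgroup.orderOf_coe]
    obtain ⟨M, hinv, ⟨x, hx, hmov⟩, hsmall, hgen⟩ := Fusion.exists_small_moved hRp hco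
      (fun h => hne' (Subtype.ext (Subtype.ext h)))
    have hle : M ≤ F.focalSubgroup.comap R.subtype := by
      refine hgen.symm.le.trans ((Subgroup.closure_le _).mpr ?_)
      rintro _ ⟨y, -, rfl⟩
      exact Fusion.inv_mul_mem_focal hR.1 (a : ↥A).2 y
    obtain ⟨h1, h2⟩ := a.2 x (hle hx) (hsmall x hx)
    by_cases hp2 : p = 2
    · refine hmov (CfsgLib.RigidAut.fix_of_zpowers hRp α ?_ h2)
      subst hp2
      simpa using hco
    · exact hmov (h1 hp2)
  have hcS : R.normalizerMonoidHom ⟨t, ht.2⟩ ∈ Cfsg.autInducedBy S R :=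
    (Fusion.mem_autInducedBy _).mpr ⟨t, ht.1, fun _ => rfl⟩
  have htK : (⟨_, Fusion.autInducedBy_le_autGroup F hR.1 hcS⟩ : ↥A) ∈ K := by
    intro x hx hs
    obtain ⟨k, hk⟩ := Subgroup.mem_zpowers_iff.mp (hnorm x hx (Fusion.small_map R.subtype hs) t ht.1)
    have he : (R.normalizerMonoidHom ⟨t, ht.2⟩) x = x ^ k := Subtype.ext ((by rw [Subgroup.coe_zpow]; exact hk.symm) :
      t * (x : Ω) * t⁻¹ = ((x ^ k : ↥R) : Ω))
    refine ⟨fun hp2 => ?_, Subgroup.mem_zpowers_iff.mpr ⟨k, he.symm⟩⟩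
    obtain ⟨m, hm⟩ := hS ⟨t, ht.1⟩
    have hxp : x ^ p = 1 := (hs.resolve_right fun h => hp2 h.1)
    set α := R.normalizerMonoidHom ⟨t, ht.2⟩
    have hiter : ∀ i : ℕ, (α ^ i) x = x ^ k ^ i := by
      intro i
      induction i with
      | zero => simp
      | succ i ih => rw [pow_succ' α, MulAut.mul_apply, ih, map_zpow, he, ← zpow_mul, pow_succ']
    have h1 : (α ^ p ^ m) x = x := by
      rw [← map_pow, show (⟨t, ht.2⟩ : ↥(Subgroup.normalizer (R : Set Ω))) ^ p ^ m = 1 from Subtype.ext (by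
        show t ^ p ^ m = 1
        exact congrArg Subtype.val hm), map_one]
      rfl
    rw [hiter] at h1
    show α x = x
    rcases eq_or_ne x 1 with rfl | hx1
    · exact map_one _
    rw [he]
    have hox : orderOf x = p :=
      ((Fact.out : p.Prime).eq_one_or_self_of_dvd _ (orderOf_dvd_of_pow_eq_one hxp)).resolve_left (by rwa [orderOf_eq_one_iff])
    have h2 : x ^ (k ^ p ^ m) = x ^ (1 : ℤ) := h1.trans (zpow_one x).symm
    refine (?_ : x ^ k = x ^ (1 : ℤ)).trans (zpow_one x)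
    rw [zpow_eq_zpow_iff_modEq, hox, ← ZMod.intCast_eq_intCast_iff] at h2 ⊢
    rwa [Int.cast_pow, ZMod.pow_card_pow] at h2
  obtain ⟨g, hg⟩ : R.normalizerMonoidHom ⟨t, ht.2⟩ ∈ Cfsg.Inn ↥R := hr.2 ▸ ⟨_, CfsgLib.Core.le_pCore hKn hKp htK, rfl⟩
  have hgc : (g : Ω)⁻¹ * t ∈ Cfsg.FusionSystem.centralizerIn S R := by
    refine ⟨mul_mem (S.inv_mem (hR.1 g.2)) ht.1, Subgroup.mem_centralizer_iff.mpr fun x hx => ?_⟩
    have h' : (g : Ω) * x * (g : Ω)⁻¹ = t * x * t⁻¹ := congrArg Subtype.val (DFunLike.congr_fun hg (⟨x, hx⟩ : ↥R))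
    calc x * ((g : Ω)⁻¹ * t) = (g : Ω)⁻¹ * ((g : Ω) * x * (g : Ω)⁻¹) * t := by group
      _ = (g : Ω)⁻¹ * (t * x * t⁻¹) * t := by rw [h']
      _ = (g : Ω)⁻¹ * t * x := by group
  exact htR (by simpa using mul_mem g.2 (hc.2 R (Fusion.IsConj.refl F hR.1) hgc))

end Cfsg.Agent.S5300
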