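import Cfsg.Statements.S5301
import Cfsg.Agent.Lib.Fusion.Essential
import Cfsg.Agent.Lib.Fusion.Series

set_option autoImplicit false
universe u
open Cfsg

namespace Cfsg.Agent.S5301

/-- Let F be a saturated fusion system over a finite p-group S. If for every subgroup P of S that is fully normalized, centric and radical in F the automorphism group that F induces on P has a normal Sylow p-subgroup, then S is normal in F. -/
theorem result {Ω : Type u} [Group Ω] {S : Subgroup Ω} [Finite S] (p : ℕ) [Fact p.Prime] (hS : IsPGroup p S)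
    (F : Cfsg.FusionSystem S) (hF : F.IsSaturated p)
    (hcl : ∀ P : Subgroup Ω, F.IsFullyNormalized P → F.IsCentric P → F.IsRadical p P →
      ∃ R : Sylow p ↥(F.autGroup P), (R : Subgroup ↥(F.autGroup P)).Normal) :
    F.IsNormal S := by
  haveI : Finite ↥S := ‹_›
  have hsc : F.StronglyClosed S := ⟨le_rfl, fun R _ φ hφ x => CfsgLib.Fusion.apply_mem_S hφ x⟩
  refine CfsgLib.Fusion.isNormal_of_le_radical p hS hF hsc fun P hP hc hr => ?_
  rcases eq_or_lt_of_le hP.1 with h | h
  · exact h.ge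
  exfalso
  haveI := CfsgLib.Fusion.finite_aut_of_le hP.1
  haveI := CfsgLib.Fusion.finite_of_le hP.1
  obtain ⟨R, hR⟩ := hcl P hP hc hr
  obtain ⟨-, T, hT⟩ := CfsgLib.Fusion.fullyNormalized_automized p hS hF hP
  haveI := hR
  haveI := Sylow.unique_of_normal R hR
  obtain rfl : T = R := Subsingleton.elim _ _
  obtain ⟨g, hg, -, hgI⟩ := CfsgLib.Fusion.exists_notInn p hS hc h
  have ha : P.normalizerMonoidHom ⟨g, hg.2⟩ ∈ Cfsg.autInducedBy S P :=
    (CfsgLib.Fusion.mem_autInducedBy _).mpr ⟨g, hg.1, fun _ => rfl⟩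
  have h1 : (⟨_, CfsgLib.Fusion.autInducedBy_le_autGroup F hP.1 ha⟩ : ↥(F.autGroup P)) ∈ (T : Subgroup ↥(F.autGroup P)) := by
    rw [hT]
    exact ha
  have h2 : (P.normalizerMonoidHom ⟨g, hg.2⟩ : MulAut ↥P) ∈ Inn ↥P := hr.2.le ⟨_, CfsgLib.Core.le_pCore hR T.2 h1, rfl⟩
  exact hgI (P.normalizerMonoidHom ⟨g, hg.2⟩) (fun _ => rfl) h2

end Cfsg.Agent.S5301
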