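import Cfsg.Statements.S5329
import Cfsg.Agent.Lib.Fusion.Transfer
import Cfsg.Agent.Lib.Fusion.Extend

set_option autoImplicit false
open Cfsg

namespace Cfsg.Agent.S5329

/-- For a saturated fusion system F over a finite p-group S, the focal subgroup and the derived subgroup of S meet the centre Z(F) of the system in the same subgroup: foc(F) ∩ Z(F) = S′ ∩ Z(F). -/
theorem result {Ω : Type*} [Group Ω] {S : Subgroup Ω} [Finite S] (p : ℕ) [Fact p.Prime] (hS : IsPGroup p S) (F : Cfsg.FusionSystem S) (hF : F.IsSaturated p) : F.focalSubgroup ⊓ F.center = ⁅(S : Subgroup Ω), (S : Subgroup Ω)⁆ ⊓ F.center := by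
  refine le_antisymm (le_inf ?_ inf_le_right) (inf_le_inf_right _ (CfsgLib.Biset.commutator_le_focal F))
  rintro z ⟨hzF, hzZ⟩
  haveI : Finite ↥S := ‹_›
  obtain ⟨B, d, hst, hd, hc, -⟩ := CfsgLib.Biset.exists_characteristic p hS hF
  obtain ⟨κ, hκ⟩ := CfsgLib.Biset.exists_isLEquiv B.lfree (Abelianization.of : ↥S →* Abelianization ↥S)
  have hcen := CfsgLib.Fusion.isCentral_center F
  have hzS : z ∈ S := hcen.1 hzZ
  let V : Subgroup ↥S := F.center.subgroupOf S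
  have hstab : ∀ (g : ↥S × ↥S) (x : B.X), g.2 ∈ V → g • x = x →
      Abelianization.of g.1 = Abelianization.of g.2 := by
    intro g x hg hx
    obtain ⟨Q, ψ, hgQ, hψ, -, h1⟩ := B.exists_map_of_fix hx
    obtain ⟨χ, -, hχ, hχZ⟩ := hcen.2 Q ψ hψ
    have h2 : ψ ⟨g.2, hgQ⟩ = (g.2 : Ω) := by
      rw [← hχ]
      exact (congrArg χ (Subtype.ext rfl)).trans (hχZ ⟨g.2, Subgroup.mem_subgroupOf.mp hg⟩)
    rw [show g.1 = g.2 from Subtype.ext (h1.trans h2)]
  have h1 := CfsgLib.Biset.tr_eval hκ V hstab (v := ⟨z, hzS⟩) (Subgroup.mem_subgroupOf.mpr hzZ)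
  have h2 : CfsgLib.Biset.tr hκ ⟨z, hzS⟩ = 1 := B.tr_focal hst hκ (Subgroup.mem_subgroupOf.mpr hzF)
  rw [h2, B.card_lorb hc, inv_pow, eq_comm, inv_eq_one] at h1
  have h3 : (Abelianization.of (⟨z, hzS⟩ : ↥S)) = 1 :=
    CfsgLib.Biset.eq_one_of_pow_eq_one
      (IsPGroup.of_surjective hS Abelianization.of (QuotientGroup.mk'_surjective _)) hd h1
  rw [← Subgroup.map_subtype_commutator]
  exact ⟨⟨z, hzS⟩, (QuotientGroup.eq_one_iff _).mp h3, rfl⟩

end Cfsg.Agent.S5329
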