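import Cfsg.Statements.S5330
import Cfsg.Agent.Lib.Fusion.Series
import Cfsg.Agent.Lib.Fusion.Control

set_option autoImplicit false
open Cfsg

namespace Cfsg.Agent.S5330

open CfsgLib.Fusion
open scoped IsMulCommutative
/-- Let F be a saturated fusion system over a finite abelian p-group S. Then S is the internal direct product of the centre of the system and the focal subgroup: Z(F) ∩ foc(F) = 1 and Z(F)·foc(F) = S. -/
theorem result {Ω : Type*} [Group Ω] {S : Subgroup Ω} [Finite S] (p : ℕ) [Fact p.Prime] (hS : IsPGroup p S) (F : Cfsg.FusionSystem S) (hF : F.IsSaturated p) (hab : ∀ x ∈ S, ∀ y ∈ S, x * y = y * x) : F.center ⊓ F.focalSubgroup = ⊥ ∧ F.center ⊔ F.focalSubgroup = S := by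
  have hfix := isCentral_iff_fixed p hS hF (Q := F.center) |>.mp (isCentral_center F)
  haveI : Finite (MulAut ↥S) := finite_aut_of_le le_rfl
  set A := F.autGroup S
  -- maps extend to `S`
  have hext : ∀ (P : Subgroup Ω) (φ : ↥P →* Ω) (hφ : φ ∈ F.Hom P), ∃ a : ↥A, ∀ x : ↥P, φ x = ((a : MulAut ↥S) ⟨x, le_S hφ x.2⟩ : Ω) := by
    intro P φ hφ
    have hfn : F.IsFullyNormalized φ.range := fullyNormalized_of_normal (range_le_S hφ) fun s hs =>
      Subgroup.centralizer_le_normalizer _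
        (Subgroup.mem_centralizer_iff.mpr fun y hy => hab y (range_le_S hφ hy) s hs)
    obtain ⟨ψ, hψ, hψe⟩ := (fullyNormalized_receptive p hS hF hfn).2 P φ hφ rfl
    have hSe : S ≤ Cfsg.FusionSystem.extender S P φ := fun s hs => centralizerIn_le_extender φ
      ⟨hs, Subgroup.mem_centralizer_iff.mpr fun y hy => hab y (le_S hφ hy) s hs⟩
    have hψS := restrict_mem hψ hSe
    have hr : (ψ.comp (Subgroup.inclusion hSe)).range = S :=
      Subgroup.eq_of_le_of_card_ge (range_le_S hψS) (by rw [card_range hψS])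
    refine ⟨⟨isoOfMem hψS hr, (autGroup_carrier F le_rfl _).mpr (by rw [isoOfMem_hom hψS hr]; exact hψS)⟩, fun x => ?_⟩
    rw [isoOfMem_coe]
    exact (hψe x x.2 _).symm
  haveI : IsMulCommutative ↥S := ⟨⟨fun x y => Subtype.ext (hab x x.2 y y.2)⟩⟩
  have hcop : ¬ p ∣ Nat.card ↥A := by
    obtain ⟨-, T, hT⟩ := fullyNormalized_automized p hS hF (fullyNormalized_S F)
    have hbot : (T : Subgroup ↥A) = ⊥ := by
      refine (Subgroup.eq_bot_iff_forall _).mpr fun a ha => ?_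
      rw [hT] at ha
      obtain ⟨g, hg, hge⟩ := (mem_autInducedBy _).mp ha
      refine Subtype.ext (MulEquiv.ext fun x => Subtype.ext ((hge x).trans ?_))
      rw [hab g hg x x.2, mul_inv_cancel_right]
      rfl
    intro hd
    refine T.not_dvd_index ?_
    rwa [hbot, Subgroup.index_bot]
  letI : Fintype ↥A := Fintype.ofFinite _
  let N : ↥S →* ↥S :=
    { toFun := fun x => ∏ a : ↥A, (a : MulAut ↥S) x
      map_one' := by simp
      map_mul' := fun x y => by simp [Finset.prod_mul_distrib] }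
  have hNinv : ∀ (a : ↥A) x, N ((a : MulAut ↥S) x) = N x := fun a x =>
    Fintype.prod_equiv (Equiv.mulRight a) _ _ fun b => rfl
  have hNfix : ∀ (a : ↥A) x, (a : MulAut ↥S) (N x) = N x := fun a x => by
    show (a : MulAut ↥S) (∏ b : ↥A, (b : MulAut ↥S) x) = _
    rw [map_prod]
    exact Fintype.prod_equiv (Equiv.mulLeft a) _ _ fun b => rfl
  have hNZ : ∀ x, (N x : Ω) ∈ F.center := fun x => by
    refine (le_sSup (show F.IsCentral (Subgroup.zpowers (N x : Ω)) from ?_) : Subgroup.zpowers (N x : Ω) ≤ F.center)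
      (Subgroup.mem_zpowers _)
    refine (isCentral_iff_fixed p hS hF).mpr ⟨Subgroup.zpowers_le.mpr (N x).2, ?_⟩
    rintro y hy w ⟨φ, hφ, rfl⟩
    obtain ⟨i, rfl⟩ := Subgroup.mem_zpowers_iff.mp hy
    obtain ⟨a, ha⟩ := hext _ φ hφ
    rw [ha]
    have : (⟨(N x : Ω) ^ i, le_S hφ (Subgroup.mem_zpowers _)⟩ : ↥S) = N x ^ i := Subtype.ext rfl
    rw [this, map_zpow, hNfix, Subgroup.coe_zpow]
  have hfoc : F.focalSubgroup.subgroupOf S ≤ N.ker := by
    intro x hx
    have hle : F.focalSubgroup ≤ N.ker.map S.subtype := by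
      refine (Subgroup.closure_le _).mpr ?_
      rintro _ ⟨P, φ, y, hφ, rfl⟩
      obtain ⟨a, ha⟩ := hext P φ hφ
      refine ⟨(⟨y, le_S hφ y.2⟩ : ↥S)⁻¹ * (a : MulAut ↥S) ⟨y, le_S hφ y.2⟩, ?_, by rw [ha]; rfl⟩
      rw [SetLike.mem_coe, MonoidHom.mem_ker, map_mul, map_inv, hNinv, inv_mul_cancel]
    obtain ⟨y, hy, hye⟩ := hle (Subgroup.mem_subgroupOf.mp hx)
    rw [show x = y from Subtype.ext hye.symm]
    exact hy
  have hfS : F.focalSubgroup ≤ S := (Subgroup.closure_le _).mpr (by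
    rintro _ ⟨P, φ, y, hφ, rfl⟩
    exact S.mul_mem (S.inv_mem (le_S hφ y.2)) (apply_mem_S hφ y))
  have hpow : ∀ x : ↥S, (((x ^ Nat.card ↥A)⁻¹ * N x : ↥S) : Ω) ∈ F.focalSubgroup := fun x => by
    rw [Nat.card_eq_fintype_card, ← Finset.card_univ, ← Finset.prod_const]
    show (((∏ _a : ↥A, x)⁻¹ * ∏ a : ↥A, (a : MulAut ↥S) x : ↥S) : Ω) ∈ _
    rw [← Finset.prod_inv_distrib, ← Finset.prod_mul_distrib]
    refine Subgroup.mem_subgroupOf.mp (Subgroup.prod_mem (F.focalSubgroup.subgroupOf S) fun a _ => ?_)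
    exact Subgroup.subset_closure ⟨S, _, x, (autGroup_carrier F le_rfl _).mp a.2, rfl⟩
  have hco : (Nat.card ↥S).Coprime (Nat.card ↥A) := by
    obtain ⟨k, hk⟩ := IsPGroup.iff_card.mp hS
    rw [hk]
    exact Nat.Coprime.pow_left k ((Fact.out : p.Prime).coprime_iff_not_dvd.mpr hcop)
  refine ⟨(Subgroup.eq_bot_iff_forall _).mpr fun z hz => ?_, le_antisymm (sup_le (isCentral_center F).1 hfS) fun s hs => ?_⟩
  · obtain ⟨hz1, hz2⟩ := Subgroup.mem_inf.mp hz
    have hzS := (isCentral_center F).1 hz1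
    have h1 : N ⟨z, hzS⟩ = 1 := hfoc (Subgroup.mem_subgroupOf.mpr hz2)
    have h2 : N ⟨z, hzS⟩ = (⟨z, hzS⟩ : ↥S) ^ Nat.card ↥A := by
      show ∏ a : ↥A, (a : MulAut ↥S) ⟨z, hzS⟩ = _
      rw [Finset.prod_congr rfl fun (a : ↥A) _ => (show (a : MulAut ↥S) ⟨z, hzS⟩ = ⟨z, hzS⟩ from Subtype.ext (hfix.2 z hz1 _
        ⟨_, restrict_mem ((autGroup_carrier F le_rfl _).mp a.2) (Subgroup.zpowers_le.mpr hzS), rfl⟩)),
        Finset.prod_const, Finset.card_univ, Nat.card_eq_fintype_card]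
    have h3 : (⟨z, hzS⟩ : ↥S) = 1 := (powCoprime hco).injective
      (show (powCoprime hco) ⟨z, hzS⟩ = (powCoprime hco) 1 by
        simp only [powCoprime_apply, one_pow]
        exact h2.symm.trans h1)
    exact congrArg Subtype.val h3
  · set x := (powCoprime hco).symm ⟨s, hs⟩
    have hx : x ^ Nat.card ↥A = ⟨s, hs⟩ := (powCoprime hco).apply_symm_apply _
    have h := hpow x
    rw [hx, Subgroup.coe_mul, Subgroup.coe_inv] at h
    have : s = (N x : Ω) * ((s : Ω)⁻¹ * (N x : Ω))⁻¹ := by group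
    rw [this]
    exact mul_mem (Subgroup.mem_sup_left (hNZ x)) (Subgroup.mem_sup_right (inv_mem h))

end Cfsg.Agent.S5330
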