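import Cfsg.Statements.S5331
import Cfsg.Agent.Lib.Fusion.PStable
import Cfsg.Agent.Lib.LocalBasic

set_option autoImplicit false
open Cfsg

namespace Cfsg.Agent.S5331

open CfsgLib
/-- Let S be a finite abelian 2-group that is a direct product of cyclic groups of pairwise distinct orders 2^{a_1} < 2^{a_2} < ⋯ < 2^{a_n} (all a_i ≥ 1). Then every saturated fusion system over S is the inner one: its maps are exactly the conjugations by elements of S. -/
theorem result {Ω : Type*} [Group Ω] {S : Subgroup Ω} [Finite S] (n : ℕ) (a : Fin n → ℕ) (ha : StrictMono a) (ha1 : ∀ i, 1 ≤ a i) (e : ↥S ≃* Multiplicative ((i : Fin n) → ZMod (2 ^ a i))) (F : Cfsg.FusionSystem S) (hF : F.IsSaturated 2) (P : Subgroup Ω) : F.Hom P = (Cfsg.innerFusionSystem S).Hom P := by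
  haveI : Fact (Nat.Prime 2) := ⟨Nat.prime_two⟩
  let G := Multiplicative ((i : Fin n) → ZMod (2 ^ a i))
  haveI : ∀ i, NeZero (2 ^ a i) := fun i => ⟨by positivity⟩
  haveI : Finite G := Finite.of_fintype _
  have hG : IsPGroup 2 G := IsPGroup.of_card (n := ∑ i, a i) (by
    rw [Nat.card_congr Multiplicative.toAdd, Nat.card_pi, Finset.prod_congr rfl (fun i _ => Nat.card_zmod _), Finset.prod_pow_eq_pow_sum])
  have hS : IsPGroup 2 ↥S := hG.of_equiv e.symm
  have hval : ∀ (i : Fin n) (x : ZMod (2 ^ a i)), x + x = 0 → x ≠ 0 → x = ((2 ^ (a i - 1) : ℕ) : ZMod (2 ^ a i)) := by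
    intro i x h2 hx
    have hv : x.val < 2 ^ a i := ZMod.val_lt x
    have hdvd : 2 ^ a i ∣ 2 * x.val := by
      rw [← ZMod.natCast_eq_zero_iff]
      push_cast
      rw [ZMod.natCast_zmod_val, two_mul, h2]
    have h0 : x.val ≠ 0 := fun h => hx ((ZMod.val_eq_zero x).mp h)
    obtain ⟨c, hc⟩ := hdvd
    have hsplit : 2 ^ a i = 2 * 2 ^ (a i - 1) := by rw [← pow_succ']; congr 1; have := ha1 i; omega
    have hc1 : c = 1 := by
      rcases Nat.lt_or_ge c 2 with h | h
      · interval_cases c
        · omega
        · rfl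
      · have : 2 ^ a i * 2 ≤ 2 ^ a i * c := Nat.mul_le_mul_left _ h
        omega
    subst hc1
    rw [← ZMod.natCast_zmod_val x]
    congr 1
    omega
  have hmain : ∀ β : MulAut G, (orderOf β).Coprime 2 → β = 1 := by
    intro β hco
    have hinv : ∀ v : G, v ^ 2 = 1 → ∀ i, Multiplicative.toAdd v i + Multiplicative.toAdd v i = 0 := fun v hv i => by
      have := congrArg (fun w : G => Multiplicative.toAdd w i) hv
      rw [toAdd_pow, toAdd_one, Pi.smul_apply, two_nsmul] at this
      exact this
    have key : ∀ (j : ℕ) (v : G), v ^ 2 = 1 → (∀ i : Fin n, (i : ℕ) + j < n → Multiplicative.toAdd v i = 0) → β v = v := by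
      intro j
      induction j with
      | zero =>
        intro v _ hv
        rw [show v = 1 from Multiplicative.toAdd.injective (funext fun i => hv i i.2), map_one]
      | succ j ih =>
        intro v hv hsupp
        by_cases hjn : n ≤ j
        · exact ih v hv fun i hi => absurd hi (by omega)
        set i₀ : Fin n := ⟨n - j - 1, by omega⟩
        have hβ2 : (β v) ^ 2 = 1 := by rw [← map_pow, hv, map_one]
        have hlow : ∀ (w : G), w ^ 2 = 1 → (∀ i : Fin n, (i : ℕ) + (j + 1) < n → Multiplicative.toAdd w i = 0) →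
            Multiplicative.toAdd w i₀ = 0 → β w = w := fun w hw hs h0 => ih w hw fun i hi => by
          rcases Nat.lt_or_ge ((i : ℕ) + (j + 1)) n with h | h
          · exact hs i h
          · rw [show i = i₀ from Fin.ext (by show (i : ℕ) = n - j - 1; omega)]; exact h0
        have hβs : ∀ i : Fin n, (i : ℕ) + (j + 1) < n → Multiplicative.toAdd (β v) i = 0 := by
          intro i hi
          let u : G := Multiplicative.ofAdd fun k => if Multiplicative.toAdd v k = 0 then 0 else ((2 ^ (a k - a i₀) : ℕ) : ZMod (2 ^ a k))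
          have hu : u ^ (2 ^ (a i₀ - 1)) = v := Multiplicative.toAdd.injective (funext fun k => by
            rw [toAdd_pow, Pi.smul_apply]
            simp only [u, toAdd_ofAdd]
            split_ifs with hk
            · rw [smul_zero, hk]
            · have hle : i₀ ≤ k := by
                show n - j - 1 ≤ (k : ℕ)
                by_contra hlt
                exact hk (hsupp k (by omega))
              rw [hval k _ (hinv v hv k) hk, nsmul_eq_mul, ← Nat.cast_mul, ← pow_add]
              have := ha.monotone hle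
              have := ha1 i₀
              congr 2
              omega)
          rw [← hu, map_pow, toAdd_pow, Pi.smul_apply, nsmul_eq_mul]
          have hlt : a i < a i₀ := ha (show i < i₀ by show (i : ℕ) < n - j - 1; omega)
          rw [(ZMod.natCast_eq_zero_iff _ _).mpr (pow_dvd_pow 2 (by omega)), zero_mul]
        by_cases h0 : Multiplicative.toAdd v i₀ = 0
        · exact hlow v hv hsupp h0
        by_cases h1 : Multiplicative.toAdd (β v) i₀ = 0
        · exact β.injective (hlow (β v) hβ2 hβs h1)
        refine Fusion.eq_self_of_step hG hco (hlow _ ?_ ?_ ?_)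
        · rw [mul_pow, inv_pow, hv, hβ2, inv_one, one_mul]
        · intro i hi
          rw [toAdd_mul, toAdd_inv, Pi.add_apply, Pi.neg_apply, hsupp i hi, hβs i hi, neg_zero, add_zero]
        · rw [toAdd_mul, toAdd_inv, Pi.add_apply, Pi.neg_apply, hval _ _ (hinv _ hv i₀) h0, hval _ _ (hinv _ hβ2 i₀) h1,
            neg_add_cancel]
    have hfix : ∀ v : G, v ^ 2 = 1 → β v = v := fun v hv => key n v hv fun i hi => absurd hi (by omega)
    refine CfsgLib.RigidAut.eq_one_of_fix_small _ rfl hG β hco fun v hv => ?_
    rcases hv with h | ⟨-, h⟩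
    · exact hfix v h
    · have h22 : (v ^ 2) ^ 2 = 1 := by rw [← pow_mul]; exact h
      refine Fusion.eq_self_of_step hG hco (hfix _ ?_)
      rw [mul_pow, inv_pow, ← map_pow, hfix _ h22, inv_mul_cancel]
  have hab : ∀ x ∈ S, ∀ y ∈ S, x * y = y * x := fun x hx y hy =>
    congrArg Subtype.val (e.injective (by rw [map_mul, map_mul, mul_comm]) : (⟨x, hx⟩ : ↥S) * ⟨y, hy⟩ = ⟨y, hy⟩ * ⟨x, hx⟩)
  refine (Fusion.inner_of_abelian_rigid hS hF hab (CfsgLib.LocalBasic.isPGroup_of_coprime_elements fun α hco => ?_)) P
  refine (MulAut.congr e).injective ((hmain _ ?_).trans (map_one _).symm)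
  rwa [MulEquiv.orderOf_eq]

end Cfsg.Agent.S5331
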