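import Cfsg.Statements.S5342
import Cfsg.Agent.Lib.Fusion.ConstrainedNormal

set_option autoImplicit false
open Cfsg

namespace Cfsg.Agent.S5342

/-- Let F be a constrained saturated fusion system over a finite p-group S. Then every subsystem of F that is subnormal in F (reached from F by a finite chain of successive normal subsystems) is constrained. -/
theorem result {Ω : Type*} [Group Ω] {S : Subgroup Ω} [Finite S] (p : ℕ) [Fact p.Prime] (hS : IsPGroup p S) (F : Cfsg.FusionSystem S) (hF : F.IsConstrained p) {T : Subgroup Ω} (E : Cfsg.FusionSystem T) (hE : E.IsSubnormalIn F p) : E.IsConstrained p := by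
  suffices key : ∀ {U : Subgroup Ω} (D : Cfsg.FusionSystem U) {V : Subgroup Ω} (G : Cfsg.FusionSystem V) (q : ℕ),
      D.IsSubnormalIn G q → [Fact q.Prime] → [Finite ↥V] → IsPGroup q ↥V → G.IsConstrained q → D.IsConstrained q from
    key E F p hE hS hF
  intro U D V G q h
  induction h with
  | refl G q => intro _ _ _ hG; exact hG
  | @step U' W E' D' F' q' _ hD ih =>
    intro _ _ hW hG
    have hUW : U' ≤ W := hD.1.2.2.2.1.1
    haveI := CfsgLib.Fusion.finite_of_le hUW
    exact ih (hW.to_le hUW) (CfsgLib.Fusion.constrained_of_isNormalIn hW hG hD)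

end Cfsg.Agent.S5342
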