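import Cfsg.Statements.S5521
import Cfsg.Agent.Lib.Golay.Trans

set_option autoImplicit false
set_option linter.all false
open Cfsg

namespace Cfsg.Agent.S5521

/-- The Mathieu group M₂₄ in its natural action on the 24 coordinate positions of the binary Golay code has minimal base size exactly 7: every set of at most 6 positions is fixed pointwise by some non-identity element of M₂₄, while some set of 7 positions is fixed pointwise only by the identity. -/
theorem result :
    (∀ B : Finset Cfsg.GolayPt, B.card ≤ 6 → ∃ g ∈ Cfsg.M24, g ≠ 1 ∧ ∀ b ∈ B, g b = b) ∧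
    (∃ B : Finset Cfsg.GolayPt, B.card = 7 ∧ ∀ g ∈ Cfsg.M24, (∀ b ∈ B, g b = b) → g = 1) := by
  classical
  refine ⟨fun B hB => ?_, ⟨(Finset.range 7).image CfsgLib.Golay.bp, by decide +kernel, fun g hg hfix => ?_⟩⟩
  · by_contra hcon
    push_neg at hcon
    let f : Cfsg.M24 → (B ↪ Cfsg.GolayPt) := fun g =>
      ⟨fun b => (g : Equiv.Perm Cfsg.GolayPt) b, fun a b h => Subtype.ext ((g : Equiv.Perm Cfsg.GolayPt).injective h)⟩
    have hf : Function.Injective f := by
      intro a b hab
      by_contra hne
      obtain ⟨x, hx, hxne⟩ := hcon ((b : Equiv.Perm Cfsg.GolayPt)⁻¹ * a)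
        (mul_mem (inv_mem b.2) a.2) (fun e => hne (Subtype.ext (inv_mul_eq_one.1 e).symm))
      apply hxne
      have := congrArg (fun φ : B ↪ Cfsg.GolayPt => φ ⟨x, hx⟩) hab
      rw [Equiv.Perm.mul_apply, Equiv.Perm.inv_eq_iff_eq]
      exact this
    have h1 := Nat.card_le_card_of_injective f hf
    rw [CfsgLib.Golay.card_M24, Nat.card_eq_fintype_card, Fintype.card_embedding_eq,
      Fintype.card_coe] at h1
    have h2 : ∀ n ≤ 6, (Fintype.card Cfsg.GolayPt).descFactorial n < 244823040 := by decide +kernel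
    exact absurd (h2 _ hB) (not_lt.2 h1)
  · exact CfsgLib.Golay.fixB_seven ⟨hg, fun i hi =>
      hfix _ (Finset.mem_image_of_mem _ (Finset.mem_range.2 hi))⟩

end Cfsg.Agent.S5521
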