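import Cfsg.Statements.S5562
import Cfsg.Agent.Lib.Involution

set_option autoImplicit false
set_option linter.all false
open Cfsg

namespace Cfsg.Agent.S5562

/-- Let G be a finite group, d an involution of G whose conjugates pairwise have products of odd order, and x any involution of G. Then the conjugacy class of d is the disjoint union, over the conjugates a of d commuting with x, of the sets of conjugates of d commuting with ax: every conjugate of d commutes with ax for exactly one conjugate a of d that commutes with x. -/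
theorem result {G : Type*} [Group G] [Finite G] (d : G) (hd : orderOf d = 2)
    (hodd : ∀ a ∈ conjugatesOf d, ∀ b ∈ conjugatesOf d, Odd (orderOf (a * b)))
    (x : G) (hx : orderOf x = 2) :
    ∀ e ∈ conjugatesOf d,
      ∃! a : G, a ∈ conjugatesOf d ∧ Commute a x ∧ Commute e (a * x) := by
  intro e he
  have h2 : ∀ a ∈ conjugatesOf d, orderOf a = 2 := fun a ha => by
    obtain ⟨c, rfl⟩ := isConj_iff.mp (ha)
    exact CfsgLib.Involution.orderOf_conj' hd
  have hconj : ∀ g : G, ∀ a ∈ conjugatesOf d, g * a * g⁻¹ ∈ conjugatesOf d := fun g a ha =>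
    ((ha).trans (isConj_iff.mpr ⟨g, rfl⟩))
  set f := x * e * x⁻¹ with hfdef
  have hf : f ∈ conjugatesOf d := hconj x e he
  have he2 := h2 e he
  have hf2 := h2 f hf
  obtain ⟨m, hm⟩ := hodd e he f hf
  set r := e * f with hr
  have hrn : r ^ ((2 * m + 1 : ℕ) : ℤ) = 1 := by rw [zpow_natCast, ← hm, pow_orderOf_eq_one]
  set a := e * r ^ (m + 1 : ℤ) with ha
  -- `a` conjugates `e` to `f`
  have hxinv : x⁻¹ = x := CfsgLib.Involution.inv_eq hx
  have haD : a ∈ conjugatesOf d := by
    have h := hconj (r ^ (m : ℤ)) e he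
    have e1 : a = r ^ (-(m + 1 : ℤ)) * e := by rw [ha, hr, CfsgLib.Involution.mul_zpow_eq he2 hf2]
    have e2 : r ^ (-(m + 1 : ℤ)) = r ^ (m : ℤ) := by
      rw [← mul_one (r ^ (-(m + 1 : ℤ))), ← hrn, ← zpow_add]
      push_cast; ring_nf
    have h3 : r ^ (m : ℤ) * e * (r ^ (m : ℤ))⁻¹ = r ^ (2 * m : ℤ) * e := by
      rw [hr, CfsgLib.Involution.conj_zpow_left he2 hf2]
    have e3 : a = r ^ (m : ℤ) * e := by rw [e1, e2]
    -- an element of odd-order dihedral group: every reflection is conjugate to `e`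
    obtain ⟨i, hi⟩ : ∃ i : ℤ, r ^ (2 * i) = r ^ (m : ℤ) := by
      obtain ⟨j, hj⟩ | ⟨j, hj⟩ := Nat.even_or_odd m
      · exact ⟨j, by rw [hj]; push_cast; ring_nf⟩
      · refine ⟨j + m + 1, ?_⟩
        rw [← mul_one (r ^ (m : ℤ)), ← hrn, ← zpow_add]
        subst hj
        push_cast; ring_nf
    have := hconj (r ^ i) e he
    rwa [hr, CfsgLib.Involution.conj_zpow_left he2 hf2, ← hr, hi, ← e3] at this
  have ha2 := h2 a haD
  have hfe : e * r = f := by rw [hr, ← mul_assoc, CfsgLib.Involution.mul_self he2, one_mul]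
  have haea : a * e * a⁻¹ = f := by
    rw [CfsgLib.Involution.inv_eq ha2]
    calc a * e * a = e * (r ^ (m + 1 : ℤ)) * (e * e) * r ^ (m + 1 : ℤ) := by rw [ha]; group
      _ = e * (r ^ (m + 1 : ℤ) * r ^ (m + 1 : ℤ)) := by rw [CfsgLib.Involution.mul_self he2]; group
      _ = e * r := by
        rw [← zpow_add]
        congr 1
        rw [show (m + 1 : ℤ) + (m + 1 : ℤ) = ((2 * m + 1 : ℕ) : ℤ) + 1 by push_cast; ring, zpow_add, hrn,
          one_mul, zpow_one]
      _ = f := hfe
  have hxe : x * e * x⁻¹ = f := hfdef.symm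
  have hxf : x * f * x⁻¹ = e := by
    rw [hfdef, hxinv]
    calc x * (x * e * x) * x = (x * x) * e * (x * x) := by group
      _ = e := by rw [CfsgLib.Involution.mul_self hx, one_mul, mul_one]
  have hxr : x * r * x⁻¹ = r⁻¹ := by
    rw [hr, mul_inv_rev, CfsgLib.Involution.inv_eq he2, CfsgLib.Involution.inv_eq hf2, ← conj_mul, hxe, hxf]
  have hax : Commute a x := by
    have h : x * a * x⁻¹ = a := by
      rw [ha, ← conj_mul, hxe, ← conj_zpow, hxr, inv_zpow', ← hfe, mul_assoc]
      congr 1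
      rw [← zpow_one_add, ← mul_one (r ^ (1 + -(m + 1 : ℤ))), ← hrn, ← zpow_add]
      push_cast; ring_nf
    exact (mul_inv_eq_iff_eq_mul.mp h).symm
  have hcomm : ∀ a' : G, a' ∈ conjugatesOf d → Commute a' x →
      (Commute e (a' * x) ↔ a' * e * a'⁻¹ = f) := by
    intro a' _ hc
    have e1 : f = x * e * x := by rw [hfdef, hxinv]
    have key : a' * x * e * (a' * x)⁻¹ = a' * f * a'⁻¹ := by rw [e1, mul_inv_rev, hxinv]; group
    constructor
    · intro h
      have h1 : a' * f * a'⁻¹ = e := by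
        rw [← key, mul_inv_eq_iff_eq_mul]; exact h.eq.symm
      have ha'2 : a'⁻¹ = a' := CfsgLib.Involution.inv_eq (h2 a' ‹_›)
      rw [ha'2] at h1 ⊢
      rw [← h1]
      calc a' * (a' * f * a') * a' = (a' * a') * f * (a' * a') := by group
        _ = f := by rw [CfsgLib.Involution.mul_self (h2 a' ‹_›), one_mul, mul_one]
    · intro h
      have h1 : a' * f * a'⁻¹ = e := by
        rw [← h, CfsgLib.Involution.inv_eq (h2 a' ‹_›)]
        calc a' * (a' * e * a') * a' = (a' * a') * e * (a' * a') := by group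
          _ = e := by rw [CfsgLib.Involution.mul_self (h2 a' ‹_›), one_mul, mul_one]
      rw [← key, mul_inv_eq_iff_eq_mul] at h1
      exact h1.symm
  refine ⟨a, ⟨haD, hax, (hcomm a haD hax).mpr haea⟩, ?_⟩
  rintro b ⟨hb, hbx, hbe⟩
  have hbf := (hcomm b hb hbx).mp hbe
  have hb2 := h2 b hb
  obtain ⟨j, hj⟩ := hodd e he b hb
  have hr2 : r = (e * b) ^ 2 := by
    rw [hr, ← hbf, CfsgLib.Involution.inv_eq hb2, pow_two]; group
  have hord : orderOf r = orderOf (e * b) := by
    rw [hr2]
    exact (Nat.Coprime.orderOf_pow (by rw [hj]; simp))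
  have h3 : r ^ (m + 1 : ℤ) = e * b := by
    rw [hr2, ← zpow_natCast, ← zpow_mul]
    rw [show ((2 : ℕ) : ℤ) * (m + 1 : ℤ) = ((2 * m + 1 : ℕ) : ℤ) + 1 by push_cast; ring, zpow_add, zpow_natCast,
      ← hm, hord, pow_orderOf_eq_one, one_mul, zpow_one]
  rw [ha, h3, ← mul_assoc, CfsgLib.Involution.mul_self he2, one_mul]

end Cfsg.Agent.S5562
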