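import Cfsg.Statements.S5596
import Cfsg.Agent.Lib.Extra2.Setting

set_option autoImplicit false
set_option linter.all false
open Cfsg

namespace Cfsg.Agent.S5596

/-- Setting: `z` is an involution of the finite group `G`; for each element `x`, `Q x` is the largest normal 2-subgroup of the centralizer of `x`; `Q z` is extraspecial and contains its own centralizer in `G`. A subgroup `U` is singular when it is elementary abelian, every non-identity element of `U` is conjugate to `z`, and any two non-identity elements `u`, `v` of `U` are orthogonal (`v ∈ Q u`). Write `QU` for the intersection of the `Q u` and `LU` for the join of the `Q u` over the non-identity `u` in `U`. If `U` is singular of order `2 ^ n` with `n ≥ 2`, then `U ≤ QU ≤ LU`, `LU` normalizes `U`, and `LU` induces on `U` its full automorphism group (the general linear group of dimension `n` over the field with two elements): every automorphism of `U` is conjugation by some element of `LU`.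 -/
theorem result {G : Type*} [Group G] [Finite G]
    (Q : G → Subgroup G)
    (hQ : ∀ x : G, Q x = (Cfsg.pCore 2 ↥(Subgroup.centralizer ({x} : Set G))).map (Subgroup.centralizer ({x} : Set G)).subtype)
    (z : G) (hz : orderOf z = 2) (hE : Cfsg.IsExtraspecial 2 ↥(Q z))
    (hC : Subgroup.centralizer ((Q z : Subgroup G) : Set G) ≤ Q z)
    (U : Subgroup G) (hU2 : ∀ u ∈ U, u * u = 1)
    (hS : ∀ u ∈ U, u ≠ 1 → ∃ g : G, g * z * g⁻¹ = u)
    (hO : ∀ u ∈ U, ∀ v ∈ U, u ≠ 1 → v ≠ 1 → v ∈ Q u)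
    (QU LU : Subgroup G) (hQU : QU = ⨅ u ∈ ((U : Set G) \ {1}), Q u) (hLU : LU = ⨆ u ∈ ((U : Set G) \ {1}), Q u)
    (n : ℕ) (hn : 2 ≤ n) (hcard : Nat.card ↥U = 2 ^ n) :
    U ≤ QU ∧ QU ≤ LU ∧ LU ≤ Subgroup.normalizer (U : Set G) ∧
      ∀ φ : ↥U ≃* ↥U, ∃ g ∈ LU, ∀ u : ↥U, g * (u : G) * g⁻¹ = ((φ u : ↥U) : G) := by
  classical
  have hz' := CfsgLib.Extra2.big_of_hyp hQ z hz hE hC
  have hbig : ∀ u ∈ U, u ≠ 1 → CfsgLib.Extra2.Big Q u := fun u hu hu1 => by
    obtain ⟨g, rfl⟩ := hS u hu hu1; exact CfsgLib.Extra2.big_conj hQ hz' g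
  have hUQ : ∀ u ∈ U, u ≠ 1 → U ≤ Q u := fun u hu hu1 v hv => by
    rcases eq_or_ne v 1 with rfl | hv1
    · exact (Q u).one_mem
    · exact hO u hu v hv hu1 hv1
  have hmemQU : ∀ x, x ∈ QU ↔ ∀ u ∈ U, u ≠ 1 → x ∈ Q u := fun x => by
    rw [hQU]
    simp only [Subgroup.mem_iInf, Set.mem_diff, SetLike.mem_coe, Set.mem_singleton_iff, and_imp]
  have hQLU : ∀ u ∈ U, u ≠ 1 → Q u ≤ LU := fun u hu hu1 => by
    rw [hLU]; exact le_iSup₂_of_le u ⟨hu, hu1⟩ le_rfl
  have hcomm : ∀ u ∈ U, ∀ v ∈ U, u * v = v * u := fun u hu v hv => by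
    have h : u * v = (u * v)⁻¹ := (inv_eq_of_mul_eq_one_right (hU2 _ (U.mul_mem hu hv))).symm
    rw [h, mul_inv_rev, inv_eq_of_mul_eq_one_right (hU2 u hu), inv_eq_of_mul_eq_one_right (hU2 v hv)]
  have hconjU : ∀ u ∈ U, u ≠ 1 → ∀ g ∈ Q u, ∀ v ∈ U, g * v * g⁻¹ ∈ U := fun u hu hu1 g hg v hv => by
    rcases (hbig u hu hu1).ext.conj_cases hg (hUQ u hu hu1 hv) with e | e <;> rw [e]
    · exact hv
    · exact U.mul_mem hv hu
  have hLN : LU ≤ Subgroup.normalizer (U : Set G) := by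
    rw [hLU]
    refine iSup₂_le fun u hu g hg => ?_
    rw [Subgroup.mem_normalizer_iff]
    refine fun v => ⟨hconjU u hu.1 hu.2 g hg v, fun h => ?_⟩
    have := hconjU u hu.1 hu.2 g⁻¹ ((Q u).inv_mem hg) _ h
    simpa [mul_assoc] using this
  obtain ⟨u₀, hu₀, hu₀1⟩ : ∃ u ∈ U, u ≠ 1 := by
    by_contra hcon
    push Not at hcon
    rw [(Subgroup.eq_bot_iff_forall U).mpr hcon, Subgroup.card_bot] at hcard
    have := Nat.one_lt_two_pow (n := n) (by omega)
    omega
  refine ⟨fun v hv => (hmemQU v).mpr fun u hu hu1 => hUQ u hu hu1 hv,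
    fun v hv => hQLU u₀ hu₀ hu₀1 ((hmemQU v).mp hv u₀ hu₀ hu₀1), hLN, fun φ => ?_⟩
  let Eq' : G → Finset ↥U := fun g => haveI := Fintype.ofFinite ↥U
    Finset.univ.filter fun u => g * (u : G) * g⁻¹ = ((φ u : ↥U) : G)
  obtain ⟨g, hg, hmax⟩ := Set.exists_max_image (LU : Set G) (fun g => (Eq' g).card) (Set.toFinite _) ⟨1, LU.one_mem⟩
  refine ⟨g, hg, fun u => ?_⟩
  by_contra hu
  -- the image of the current equalizer
  let T : Subgroup G :=
    { carrier := {t | ∃ s : ↥U, g * (s : G) * g⁻¹ = ((φ s : ↥U) : G) ∧ ((φ s : ↥U) : G) = t}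
      one_mem' := ⟨1, by simp, by simp⟩
      mul_mem' := by
        rintro _ _ ⟨s, hs, rfl⟩ ⟨s', hs', rfl⟩
        refine ⟨s * s', ?_, by rw [map_mul, Subgroup.coe_mul]⟩
        rw [map_mul, Subgroup.coe_mul, Subgroup.coe_mul, ← hs, ← hs']; group
      inv_mem' := by
        rintro _ ⟨s, hs, rfl⟩
        refine ⟨s⁻¹, ?_, by rw [map_inv, Subgroup.coe_inv]⟩
        rw [map_inv, Subgroup.coe_inv, Subgroup.coe_inv, ← hs]; group }
  set v := g * (u : G) * g⁻¹ with hv
  set w := ((φ u : ↥U) : G) with hw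
  have hvU : v ∈ U := (Subgroup.mem_normalizer_iff.mp (hLN hg) _).mp u.2
  have hwU : w ∈ U := (φ u).2
  have hTU : T ≤ U := by rintro _ ⟨s, -, rfl⟩; exact (φ s).2
  have hvT : v ∉ T := by
    rintro ⟨s, hs, e⟩
    rw [← hs, hv] at e
    have h' : s = u := Subtype.ext (mul_left_cancel (mul_right_cancel e))
    subst h'
    exact hu hs
  have hwT : w ∉ T := by
    rintro ⟨s, hs, e⟩
    rw [hw] at e
    have h' : s = u := φ.injective (Subtype.ext e)
    subst h'
    exact hu hs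
  have hvw : v * w ≠ 1 := fun e => hu (by
    show v = w
    rw [eq_inv_of_mul_eq_one_left e, inv_eq_of_mul_eq_one_right (hU2 w hwU)])
  set a := v * w with ha
  have haU : a ∈ U := U.mul_mem hvU hwU
  have ha2 : a * a = 1 := hU2 a haU
  let T' : Subgroup G :=
    { carrier := {t | t ∈ U ∧ (t ∈ T ∨ t * a ∈ T)}
      one_mem' := ⟨U.one_mem, Or.inl T.one_mem⟩
      mul_mem' := by
        rintro p q ⟨hp, hp'⟩ ⟨hq, hq'⟩
        refine ⟨U.mul_mem hp hq, ?_⟩
        rcases hp' with hp' | hp' <;> rcases hq' with hq' | hq'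
        · exact Or.inl (T.mul_mem hp' hq')
        · exact Or.inr (by rw [mul_assoc]; exact T.mul_mem hp' hq')
        · exact Or.inr (by rw [mul_assoc, hcomm q hq a haU, ← mul_assoc]; exact T.mul_mem hp' hq')
        · refine Or.inl ?_
          have := T.mul_mem hp' hq'
          rwa [mul_assoc p a, hcomm q hq a haU, ← mul_assoc a a, ha2, one_mul] at this
      inv_mem' := by
        rintro p ⟨hp, hp'⟩
        rw [inv_eq_of_mul_eq_one_right (hU2 p hp)]
        exact ⟨hp, hp'⟩ }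
  have hvT' : v ∉ T' := by
    rintro ⟨-, h | h⟩
    · exact hvT h
    · rw [ha, ← mul_assoc, hU2 v hvU, one_mul] at h; exact hwT h
  obtain ⟨t, ht, htT, htv⟩ := (hbig a haU hvw).ext.exists_separating
    (S := T') (fun p hp => hUQ a haU hvw hp.1) ⟨haU, Or.inr (by rw [ha2]; exact T.one_mem)⟩ (hUQ a haU hvw hvU) hvT'
  have hlt : (Eq' g).card < (Eq' (t * g)).card := by
    refine Finset.card_lt_card ⟨fun s hs => ?_, fun hsub => hu ?_⟩
    · simp only [Eq', Finset.mem_filter, Finset.mem_univ, true_and] at hs ⊢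
      have h' : Commute t ((φ s : ↥U) : G) := htT _ ⟨(φ s).2, Or.inl ⟨s, hs, rfl⟩⟩
      calc t * g * (s : G) * (t * g)⁻¹ = t * (g * (s : G) * g⁻¹) * t⁻¹ := by group
        _ = _ := by rw [hs, h'.eq, mul_inv_cancel_right]
    · have hmem : u ∈ Eq' (t * g) := by
        simp only [Eq', Finset.mem_filter, Finset.mem_univ, true_and]
        calc t * g * (u : G) * (t * g)⁻¹ = t * v * t⁻¹ := by rw [hv]; group
          _ = v * a := htv
          _ = w := by rw [ha, ← mul_assoc, hU2 v hvU, one_mul]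
      have := hsub hmem
      simpa [Eq'] using this
  exact absurd (hmax _ (LU.mul_mem (hQLU a haU hvw ht) hg)) (by simp only [not_le]; exact hlt)

end Cfsg.Agent.S5596
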