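import Cfsg.Statements.S5597
import Cfsg.Agent.Lib.Extra2.Setting

set_option autoImplicit false
set_option linter.all false
open Cfsg

namespace Cfsg.Agent.S5597

/-- Setting: `z` is an involution of the finite group `G`; for each element `x`, `Q x` is the largest normal 2-subgroup of the centralizer of `x`; `Q z` is extraspecial and contains its own centralizer in `G`. A subgroup `U` is singular when it is elementary abelian, every non-identity element of `U` is conjugate to `z`, and any two non-identity elements `u`, `v` of `U` are orthogonal (`v ∈ Q u`). Write `QU` for the intersection of the `Q u` and `LU` for the join of the `Q u` over the non-identity `u` in `U`. If `U` is a non-trivial singular subgroup, then `LU` acts trivially on `QU / U` (every commutator of an element of `LU` with an element of `QU` lies in `U`), and for every `x` in `QU` outside `U` the centralizer of `U` in `LU` permutes the coset `x U` transitively: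 each `x u` with `u ∈ U` is a conjugate of `x` by an element of `LU` centralizing `U`. -/
theorem result {G : Type*} [Group G] [Finite G]
    (Q : G → Subgroup G)
    (hQ : ∀ x : G, Q x = (Cfsg.pCore 2 ↥(Subgroup.centralizer ({x} : Set G))).map (Subgroup.centralizer ({x} : Set G)).subtype)
    (z : G) (hz : orderOf z = 2) (hE : Cfsg.IsExtraspecial 2 ↥(Q z))
    (hC : Subgroup.centralizer ((Q z : Subgroup G) : Set G) ≤ Q z)
    (U : Subgroup G) (hU2 : ∀ u ∈ U, u * u = 1)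
    (hS : ∀ u ∈ U, u ≠ 1 → ∃ g : G, g * z * g⁻¹ = u)
    (hO : ∀ u ∈ U, ∀ v ∈ U, u ≠ 1 → v ≠ 1 → v ∈ Q u)
    (QU LU : Subgroup G) (hQU : QU = ⨅ u ∈ ((U : Set G) \ {1}), Q u) (hLU : LU = ⨆ u ∈ ((U : Set G) \ {1}), Q u)
    (hU : U ≠ ⊥) :
    (∀ g ∈ LU, ∀ x ∈ QU, g * x * g⁻¹ * x⁻¹ ∈ U) ∧
      ∀ x ∈ QU, x ∉ U → ∀ u ∈ U, ∃ g ∈ LU ⊓ Subgroup.centralizer (U : Set G), g * x * g⁻¹ = x * u := by
  classical
  have hz' := CfsgLib.Extra2.big_of_hyp hQ z hz hE hC
  have hbig : ∀ u ∈ U, u ≠ 1 → CfsgLib.Extra2.Big Q u := fun u hu hu1 => by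
    obtain ⟨g, rfl⟩ := hS u hu hu1; exact CfsgLib.Extra2.big_conj hQ hz' g
  have hUQ : ∀ u ∈ U, u ≠ 1 → U ≤ Q u := fun u hu hu1 v hv => by
    rcases eq_or_ne v 1 with rfl | hv1
    · exact (Q u).one_mem
    · exact hO u hu v hv hu1 hv1
  have hmemQU : ∀ x, x ∈ QU ↔ ∀ u ∈ U, u ≠ 1 → x ∈ Q u := fun x => by
    rw [hQU]
    simp only [Subgroup.mem_iInf, Set.mem_diff, SetLike.mem_coe, Set.mem_singleton_iff, and_imp]
  have hQLU : ∀ u ∈ U, u ≠ 1 → Q u ≤ LU := fun u hu hu1 => by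
    rw [hLU]; exact le_iSup₂_of_le u ⟨hu, hu1⟩ le_rfl
  have hcomm : ∀ u ∈ U, ∀ v ∈ U, u * v = v * u := fun u hu v hv => by
    have h : u * v = (u * v)⁻¹ := (inv_eq_of_mul_eq_one_right (hU2 _ (U.mul_mem hu hv))).symm
    rw [h, mul_inv_rev, inv_eq_of_mul_eq_one_right (hU2 u hu), inv_eq_of_mul_eq_one_right (hU2 v hv)]
  have hconjU : ∀ u ∈ U, u ≠ 1 → ∀ g ∈ Q u, ∀ v ∈ U, g * v * g⁻¹ ∈ U := fun u hu hu1 g hg v hv => by
    rcases (hbig u hu hu1).ext.conj_cases hg (hUQ u hu hu1 hv) with e | e <;> rw [e]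
    · exact hv
    · exact U.mul_mem hv hu
  have hLN : LU ≤ Subgroup.normalizer (U : Set G) := by
    rw [hLU]
    refine iSup₂_le fun u hu g hg => ?_
    rw [Subgroup.mem_normalizer_iff]
    refine fun v => ⟨hconjU u hu.1 hu.2 g hg v, fun h => ?_⟩
    have := hconjU u hu.1 hu.2 g⁻¹ ((Q u).inv_mem hg) _ h
    simpa [mul_assoc] using this
  obtain ⟨u₀, hu₀, hu₀1⟩ : ∃ u ∈ U, u ≠ 1 := by
    by_contra hcon
    push Not at hcon
    exact hU ((Subgroup.eq_bot_iff_forall U).mpr hcon)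
  constructor
  · intro g hg x hx
    have key : ∀ g ∈ LU, g ∈ Subgroup.normalizer (U : Set G) ∧ ∀ x ∈ QU, ∃ u ∈ U, g * x * g⁻¹ = x * u := by
      let S : Subgroup G :=
        { carrier := {g | g ∈ Subgroup.normalizer (U : Set G) ∧ ∀ x ∈ QU, ∃ u ∈ U, g * x * g⁻¹ = x * u}
          one_mem' := ⟨Subgroup.one_mem _, fun x _ => ⟨1, U.one_mem, by simp⟩⟩
          mul_mem' := by
            rintro a b ⟨ha, ha'⟩ ⟨hb, hb'⟩
            refine ⟨Subgroup.mul_mem _ ha hb, fun x hx => ?_⟩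
            obtain ⟨v, hv, e⟩ := hb' x hx
            obtain ⟨w, hw, e'⟩ := ha' x hx
            refine ⟨w * (a * v * a⁻¹), U.mul_mem hw ((Subgroup.mem_normalizer_iff.mp ha v).mp hv), ?_⟩
            calc a * b * x * (a * b)⁻¹ = a * (b * x * b⁻¹) * a⁻¹ := by group
              _ = a * x * a⁻¹ * (a * v * a⁻¹) := by rw [e]; group
              _ = _ := by rw [e', mul_assoc]
          inv_mem' := by
            rintro a ⟨ha, ha'⟩
            refine ⟨Subgroup.inv_mem _ ha, fun x hx => ?_⟩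
            obtain ⟨w, hw, e⟩ := ha' x hx
            refine ⟨a⁻¹ * w⁻¹ * a⁻¹⁻¹, (Subgroup.mem_normalizer_iff.mp (Subgroup.inv_mem _ ha) _).mp (U.inv_mem hw), ?_⟩
            have hx' : x = a * x * a⁻¹ * w⁻¹ := by rw [e, mul_inv_cancel_right]
            calc a⁻¹ * x * a⁻¹⁻¹ = a⁻¹ * (a * x * a⁻¹ * w⁻¹) * a⁻¹⁻¹ := by rw [← hx']
              _ = _ := by group }
      suffices h : LU ≤ S from fun g hg => h hg
      rw [hLU]
      refine iSup₂_le fun u hu g hg => ⟨hLN (hQLU u hu.1 hu.2 hg), fun x hx => ?_⟩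
      rcases (hbig u hu.1 hu.2).ext.conj_cases hg ((hmemQU x).mp hx u hu.1 hu.2) with e | e
      · exact ⟨1, U.one_mem, by rw [e, mul_one]⟩
      · exact ⟨u, hu.1, e⟩
    obtain ⟨hgN, hgx⟩ := key g hg
    obtain ⟨v, hv, e⟩ := hgx x hx
    rw [e]
    have hx' : x ∈ LU := hQLU u₀ hu₀ hu₀1 ((hmemQU x).mp hx u₀ hu₀ hu₀1)
    exact (Subgroup.mem_normalizer_iff.mp (hLN hx') v).mp hv
  · intro x hx hxU u hu
    rcases eq_or_ne u 1 with rfl | hu1
    · exact ⟨1, Subgroup.one_mem _, by simp⟩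
    obtain ⟨g, hg, hgU, hgx⟩ := (hbig u hu hu1).ext.exists_separating (hUQ u hu hu1) hu
      ((hmemQU x).mp hx u hu hu1) hxU
    exact ⟨g, ⟨hQLU u hu hu1 hg, fun v hv => (hgU v hv).symm⟩, hgx⟩

end Cfsg.Agent.S5597
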