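import Cfsg.Statements.S5598
import Cfsg.Agent.Lib.Extra2.Setting

set_option autoImplicit false
set_option linter.all false
open Cfsg

namespace Cfsg.Agent.S5598

/-- Setting: `z` is an involution of the finite group `G`; for each element `x`, `Q x` is the largest normal 2-subgroup of the centralizer of `x`; `Q z` is extraspecial and contains its own centralizer in `G`. A subgroup `U` is singular when it is elementary abelian, every non-identity element of `U` is conjugate to `z`, and any two non-identity elements `u`, `v` of `U` are orthogonal (`v ∈ Q u`). Write `QU` for the intersection of the `Q u` and `LU` for the join of the `Q u` over the non-identity `u` in `U`. If the singular subgroup `U` is generated by a set `T` of non-identity elements, then `QU` is already the intersection of the `Q t` over `t ∈ T`. -/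
theorem result {G : Type*} [Group G] [Finite G]
    (Q : G → Subgroup G)
    (hQ : ∀ x : G, Q x = (Cfsg.pCore 2 ↥(Subgroup.centralizer ({x} : Set G))).map (Subgroup.centralizer ({x} : Set G)).subtype)
    (z : G) (hz : orderOf z = 2) (hE : Cfsg.IsExtraspecial 2 ↥(Q z))
    (hC : Subgroup.centralizer ((Q z : Subgroup G) : Set G) ≤ Q z)
    (U : Subgroup G) (hU2 : ∀ u ∈ U, u * u = 1)
    (hS : ∀ u ∈ U, u ≠ 1 → ∃ g : G, g * z * g⁻¹ = u)
    (hO : ∀ u ∈ U, ∀ v ∈ U, u ≠ 1 → v ≠ 1 → v ∈ Q u)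
    (QU LU : Subgroup G) (hQU : QU = ⨅ u ∈ ((U : Set G) \ {1}), Q u) (hLU : LU = ⨆ u ∈ ((U : Set G) \ {1}), Q u)
    (T : Set G) (hT : Subgroup.closure T = U) (hT1 : (1 : G) ∉ T) :
    QU = ⨅ t ∈ T, Q t := by
  classical
  have hz' := CfsgLib.Extra2.big_of_hyp hQ z hz hE hC
  have hbig : ∀ u ∈ U, u ≠ 1 → CfsgLib.Extra2.Big Q u := fun u hu hu1 => by
    obtain ⟨g, rfl⟩ := hS u hu hu1; exact CfsgLib.Extra2.big_conj hQ hz' g
  have hUQ : ∀ u ∈ U, u ≠ 1 → U ≤ Q u := fun u hu hu1 v hv => by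
    rcases eq_or_ne v 1 with rfl | hv1
    · exact (Q u).one_mem
    · exact hO u hu v hv hu1 hv1
  have hmemQU : ∀ x, x ∈ QU ↔ ∀ u ∈ U, u ≠ 1 → x ∈ Q u := fun x => by
    rw [hQU]
    simp only [Subgroup.mem_iInf, Set.mem_diff, SetLike.mem_coe, Set.mem_singleton_iff, and_imp]
  have hQLU : ∀ u ∈ U, u ≠ 1 → Q u ≤ LU := fun u hu hu1 => by
    rw [hLU]; exact le_iSup₂_of_le u ⟨hu, hu1⟩ le_rfl
  have hcomm : ∀ u ∈ U, ∀ v ∈ U, u * v = v * u := fun u hu v hv => by
    have h : u * v = (u * v)⁻¹ := (inv_eq_of_mul_eq_one_right (hU2 _ (U.mul_mem hu hv))).symm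
    rw [h, mul_inv_rev, inv_eq_of_mul_eq_one_right (hU2 u hu), inv_eq_of_mul_eq_one_right (hU2 v hv)]
  refine le_antisymm ?_ ?_
  · refine le_iInf₂ fun t ht => fun x hx => (hmemQU x).mp hx t (hT ▸ Subgroup.subset_closure ht) (fun e => hT1 (e ▸ ht))
  intro y hy
  rw [hmemQU]
  simp only [Subgroup.mem_iInf] at hy
  suffices h : ∀ u ∈ Subgroup.closure T, u ∈ U ∧ (u ≠ 1 → y ∈ Q u) from fun u hu hu1 => (h u (hT ▸ hu)).2 hu1
  intro u hu
  induction hu using Subgroup.closure_induction with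
  | mem t ht => exact ⟨hT ▸ Subgroup.subset_closure ht, fun _ => hy t ht⟩
  | one => exact ⟨U.one_mem, fun h => absurd rfl h⟩
  | inv u _ ih => rw [inv_eq_of_mul_eq_one_right (hU2 u ih.1)]; exact ih
  | mul s t _ _ ihs iht =>
    refine ⟨U.mul_mem ihs.1 iht.1, fun h1 => ?_⟩
    rcases eq_or_ne s 1 with rfl | hs1
    · rw [one_mul] at h1 ⊢; exact iht.2 h1
    rcases eq_or_ne t 1 with rfl | ht1
    · rw [mul_one] at h1 ⊢; exact ihs.2 h1
    have hE' := (hbig s ihs.1 hs1).ext
    have htQ : t ∈ Q s := hUQ s ihs.1 hs1 iht.1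
    have htne : t ≠ s := fun e => h1 (by rw [e]; exact hU2 s ihs.1)
    obtain ⟨g, hg, hgt⟩ : ∃ g ∈ Q s, ¬ Commute g t := by
      by_contra hcon
      push Not at hcon
      rcases hE'.center t htQ hcon with e | e
      · exact ht1 e
      · exact htne e
    have e : g * t * g⁻¹ = t * s := hE'.conj_eq_of_not_commute hg htQ hgt
    have hyQ : g * y * g⁻¹ ∈ Q (s * t) := by
      rw [hcomm s ihs.1 t iht.1, ← e, CfsgLib.Extra2.Q_conj hQ]
      exact ⟨y, iht.2 ht1, rfl⟩
    have hsQ : s ∈ Q (s * t) := hO _ (U.mul_mem ihs.1 iht.1) s ihs.1 h1 hs1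
    rcases hE'.conj_cases hg (ihs.2 hs1) with e' | e' <;> rw [e'] at hyQ
    · exact hyQ
    · exact ((Q (s * t)).mul_mem_cancel_right hsQ).mp hyQ

end Cfsg.Agent.S5598
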