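import Cfsg.Statements.S5729
import Mathlib

set_option autoImplicit false
open Cfsg

namespace Cfsg.Agent.S5729

/-- Let a finite group G act faithfully and transitively on a set with n ≥ 3 points. Then either G is a Frobenius permutation group (Frobenius as a permutation group: transitive, some non-identity element fixes a point, and no non-identity element fixes two points) of order n(n − 1) and exactly |G|/n of its elements are derangements (fix no point), or the number of derangements is greater than |G|/n. -/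
theorem result {G Ω : Type*} [Group G] [Finite G] [MulAction G Ω] [FaithfulSMul G Ω] [Fintype Ω] (htr : MulAction.IsPretransitive G Ω) (hn : 3 ≤ Fintype.card Ω) :
    ((MulAction.IsPretransitive G Ω ∧ (∃ g : G, g ≠ 1 ∧ ∃ ω : Ω, g • ω = ω) ∧ ∀ g : G, g ≠ 1 → Nat.card (MulAction.fixedBy Ω g) ≤ 1) ∧ Nat.card G = Fintype.card Ω * (Fintype.card Ω - 1) ∧ Fintype.card Ω * Nat.card {g : G // ∀ ω : Ω, g • ω ≠ ω} = Nat.card G) ∨
    Nat.card G < Fintype.card Ω * Nat.card {g : G // ∀ ω : Ω, g • ω ≠ ω} := by
  classical
  haveI := Fintype.ofFinite G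
  set n := Fintype.card Ω with hn'
  let π : G → ℕ := fun g => Fintype.card (MulAction.fixedBy Ω g)
  have h1 : ∑ g : G, π g = Fintype.card G := by
    rw [MulAction.sum_card_fixedBy_eq_card_orbits_mul_card_group G Ω]
    haveI : Subsingleton (MulAction.orbitRel.Quotient G Ω) :=
      (MulAction.pretransitive_iff_subsingleton_quotient G Ω).1 htr
    haveI : Nonempty Ω := Fintype.card_pos_iff.1 (by omega)
    haveI : Unique (MulAction.orbitRel.Quotient G Ω) := uniqueOfSubsingleton (Quotient.mk'' (Classical.arbitrary Ω))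
    rw [Fintype.card_unique, one_mul]
  set r := Fintype.card (MulAction.orbitRel.Quotient G (Ω × Ω)) with hr
  have h2 : ∑ g : G, π g ^ 2 = r * Fintype.card G := by
    rw [hr, ← MulAction.sum_card_fixedBy_eq_card_orbits_mul_card_group G (Ω × Ω)]
    refine Finset.sum_congr rfl fun g _ => ?_
    rw [sq, ← Fintype.card_prod]
    exact Fintype.card_congr
      { toFun := fun q => ⟨(q.1.1, q.2.1), Prod.ext q.1.2 q.2.2⟩
        invFun := fun q => (⟨q.1.1, congrArg Prod.fst q.2⟩, ⟨q.1.2, congrArg Prod.snd q.2⟩)
        left_inv := fun q => rfl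
        right_inv := fun q => rfl }
  have hr2 : 2 ≤ r := by
    obtain ⟨a, b, hab⟩ : ∃ a b : Ω, a ≠ b := Fintype.exists_pair_of_one_lt_card (by omega)
    refine Fintype.one_lt_card_iff.2 ⟨Quotient.mk'' (a, a), Quotient.mk'' (a, b), fun h => ?_⟩
    obtain ⟨g, hg⟩ := MulAction.orbitRel_apply.1 (Quotient.exact' h)
    simp only [Prod.smul_mk, Prod.mk.injEq] at hg
    exact hab (smul_left_cancel g (hg.1.trans hg.2.symm))
  let D : Finset G := Finset.univ.filter fun g => ∀ ω : Ω, g • ω ≠ ω
  have hDcard : Nat.card {g : G // ∀ ω : Ω, g • ω ≠ ω} = D.card := by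
    rw [Nat.card_eq_fintype_card, Fintype.card_subtype]
  have hle : ∀ g, π g ≤ n := fun g => Fintype.card_le_of_injective _ Subtype.val_injective
  have hπ0 : ∀ g, π g = 0 ↔ g ∈ D := fun g => by
    simp [π, D, Fintype.card_eq_zero_iff, isEmpty_subtype]
  have hπn : ∀ g, π g = n → g = 1 := fun g hg => by
    have hall : ∀ ω : Ω, g • ω = ω := fun ω => by
      obtain ⟨⟨x, hx⟩, rfl⟩ := ((Fintype.bijective_iff_injective_and_card (Subtype.val : MulAction.fixedBy Ω g → Ω)).2
        ⟨Subtype.val_injective, hg⟩).2 ω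
      exact hx
    exact FaithfulSMul.eq_of_smul_eq_smul (α := Ω) fun ω => by rw [hall ω, one_smul]
  let f : G → ℤ := fun g => ((π g : ℤ) - 1) * ((π g : ℤ) - n)
  have hf : ∑ g : G, f g = ((r : ℤ) - 1) * Fintype.card G := by
    have e1 : (∑ g : G, (π g : ℤ)) = Fintype.card G := by exact_mod_cast h1
    have e2 : (∑ g : G, (π g : ℤ) ^ 2) = r * Fintype.card G := by exact_mod_cast h2
    calc ∑ g : G, f g = ∑ g : G, ((π g : ℤ) ^ 2 - ((n : ℤ) + 1) * π g + n) :=
          Finset.sum_congr rfl fun g _ => by simp only [f]; ring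
    _ = _ := by
      rw [Finset.sum_add_distrib, Finset.sum_sub_distrib, e2, ← Finset.mul_sum, e1, Finset.sum_const,
        Finset.card_univ, nsmul_eq_mul]
      ring
  have hsplit : ∑ g : G, f g = (n : ℤ) * D.card + ∑ g ∈ Finset.univ.filter (fun g => g ∉ D), f g := by
    rw [← Finset.sum_filter_add_sum_filter_not Finset.univ (fun g => g ∈ D)]
    congr 1
    rw [Finset.filter_mem_eq_inter, Finset.univ_inter, Finset.sum_congr rfl (fun g hg => show f g = (n : ℤ) by simp [f, (hπ0 g).2 hg]),
      Finset.sum_const, nsmul_eq_mul]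
    ring
  have hneg : ∀ g ∈ Finset.univ.filter (fun g => g ∉ D), f g ≤ 0 := fun g hg => by
    have h3 : π g ≠ 0 := fun h => (Finset.mem_filter.1 hg).2 ((hπ0 g).1 h)
    have h4 := hle g
    exact mul_nonpos_of_nonneg_of_nonpos (by omega) (by omega)
  rw [hDcard, Nat.card_eq_fintype_card]
  rcases lt_or_ge (Fintype.card G) (n * D.card) with hlt | hge
  · exact Or.inr hlt
  refine Or.inl ?_
  have hsum := Finset.sum_nonpos hneg
  have hge' : (n : ℤ) * D.card ≤ Fintype.card G := by exact_mod_cast hge
  have hG1 : (0 : ℤ) < Fintype.card G := by exact_mod_cast Fintype.card_pos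
  have hr2' : (2 : ℤ) ≤ r := by exact_mod_cast hr2
  have hz : ∑ g ∈ Finset.univ.filter (fun g => g ∉ D), f g = 0 := by nlinarith
  have hnD : n * D.card = Fintype.card G := by
    have : ((n : ℤ) * D.card) = Fintype.card G := by nlinarith
    exact_mod_cast this
  have hone : ∀ g : G, g ≠ 1 → g ∉ D → π g = 1 := fun g hg1 hgD => by
    have h3 := (Finset.sum_eq_zero_iff_of_nonpos hneg).1 hz g (Finset.mem_filter.2 ⟨Finset.mem_univ g, hgD⟩)
    rcases mul_eq_zero.1 h3 with h4 | h4
    · omega
    · exact absurd (hπn g (by omega)) hg1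
  have hπ1 : π 1 = n := by
    exact Fintype.card_congr ((Equiv.subtypeUnivEquiv fun ω => one_smul G ω))
  have h1D : (1 : G) ∉ D := fun h => by
    have := (hπ0 1).2 h; omega
  have hcount : Fintype.card G = n + ((Finset.univ.erase (1 : G)).filter (fun g => g ∉ D)).card := by
    have he : ∑ g ∈ Finset.univ.erase (1 : G), π g = ((Finset.univ.erase (1 : G)).filter (fun g => g ∉ D)).card := by
      rw [Finset.card_filter]
      refine Finset.sum_congr rfl fun g hg => ?_
      split_ifs with h
      · exact (hπ0 g).2 h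
      · exact hone g (Finset.ne_of_mem_erase hg) h
    rw [← he, ← hπ1, Finset.add_sum_erase _ π (Finset.mem_univ 1), h1]
  have hDn : D.card + 1 = n := by
    have h5 : ((Finset.univ.erase (1 : G)).filter (fun g => g ∉ D)).card + D.card + 1 = Fintype.card G := by
      rw [show D.card = ((Finset.univ.erase (1 : G)).filter (fun g => g ∈ D)).card by
        congr 1; ext g; simp only [Finset.mem_filter, Finset.mem_erase, Finset.mem_univ, and_true, ne_eq]
        exact ⟨fun h => ⟨fun e => h1D (e ▸ h), h⟩, fun h => h.2⟩,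
        add_comm (Finset.card _), Finset.card_filter_add_card_filter_not, Finset.card_erase_of_mem (Finset.mem_univ _),
        Finset.card_univ]
      have := Fintype.card_pos (α := G); omega
    omega
  have hGn : Fintype.card G = n * (n - 1) := by rw [← hnD]; congr 1; omega
  refine ⟨⟨htr, ?_, fun g hg => ?_⟩, hGn, hnD⟩
  · by_contra hc
    push Not at hc
    have he : Finset.univ.erase (1 : G) ⊆ D := fun g hg =>
      Finset.mem_filter.2 ⟨Finset.mem_univ g, hc g (Finset.ne_of_mem_erase hg)⟩
    have h6 := Finset.card_le_card he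
    rw [Finset.card_erase_of_mem (Finset.mem_univ _), Finset.card_univ, hGn] at h6
    have : n * 2 ≤ n * (n - 1) := Nat.mul_le_mul_left n (by omega)
    omega
  · rw [Nat.card_eq_fintype_card]
    by_cases hgD : g ∈ D
    · exact ((hπ0 g).2 hgD).le.trans zero_le_one
    · exact (hone g hg hgD).le

end Cfsg.Agent.S5729
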