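import Cfsg.Statements.S5738
import Mathlib

set_option autoImplicit false
open Cfsg

namespace Cfsg.Agent.S5738

/-- Let F ⊆ K be finite fields with |F| = q and [K : F] = n ≥ 2, so |K| = q^n. Regard K as an n-dimensional F-vector space; the multiplications by non-zero elements of K form a cyclic subgroup of GL_F(K) of order q^n − 1 acting regularly on the non-zero vectors (a Singer group). Its normaliser in GL_F(K) has order n·(q^n − 1). -/
theorem result {F K : Type*} [Field F] [Fintype F] [Field K] [Fintype K] [Algebra F K] (n : ℕ) (hn : 2 ≤ n) (hdim : Module.finrank F K = n) :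
    Nat.card (Subgroup.normalizer (((Units.map ((Algebra.lmul F K : K →ₐ[F] Module.End F K) : K →* Module.End F K)).range : Subgroup (Module.End F K)ˣ) : Set (Module.End F K)ˣ)) = n * (Fintype.card K - 1) := by
  set φ : Kˣ →* (Module.End F K)ˣ := Units.map ((Algebra.lmul F K : K →ₐ[F] Module.End F K) : K →* Module.End F K) with hφ
  have hφv : ∀ (a : Kˣ) (x : K), (φ a : Module.End F K) x = (a : K) * x := fun a x => rfl
  -- semilinearity of normalizing elements
  have hsemi : ∀ f ∈ Subgroup.normalizer ((φ.range : Subgroup (Module.End F K)ˣ) : Set (Module.End F K)ˣ),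
      ∀ x y : K, (f : Module.End F K) 1 * (f : Module.End F K) (x * y) = (f : Module.End F K) x * (f : Module.End F K) y := by
    intro f hf x y
    by_cases hx : x = 0
    · simp [hx]
    obtain ⟨b, hb⟩ := (Subgroup.mem_normalizer_iff.1 hf (φ (Units.mk0 x hx))).1 ⟨_, rfl⟩
    have hb' : ∀ z, (b : K) * (f : Module.End F K) z = (f : Module.End F K) (x * z) := fun z => by
      have h1 : φ b * f = f * φ (Units.mk0 x hx) := by rw [hb]; group
      have := LinearMap.congr_fun (congrArg Units.val h1) z
      simpa [hφv] using this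
    have h1 := hb' 1
    rw [mul_one] at h1
    rw [← h1, ← hb' y]
    ring
  have hne : ∀ f : (Module.End F K)ˣ, (f : Module.End F K) 1 ≠ 0 := by
    intro f h0
    have h1 : ((↑f⁻¹ : Module.End F K) * (f : Module.End F K)) 1 = 1 := by rw [Units.inv_mul]; rfl
    rw [Module.End.mul_apply, h0, map_zero] at h1
    exact zero_ne_one h1
  have hinj : ∀ f : (Module.End F K)ˣ, Function.Injective (f : Module.End F K) := fun f a b h => by
    have h1 := congrArg (↑f⁻¹ : Module.End F K) h
    rwa [← Module.End.mul_apply, ← Module.End.mul_apply, Units.inv_mul, Module.End.one_apply, Module.End.one_apply] at h1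
  let σ : ∀ f : ↥(Subgroup.normalizer ((φ.range : Subgroup (Module.End F K)ˣ) : Set (Module.End F K)ˣ)), K →ₐ[F] K := fun f =>
    AlgHom.ofLinearMap (((f.1 : Module.End F K) 1)⁻¹ • (f.1 : Module.End F K))
      (by simp [inv_mul_cancel₀ (hne f.1)])
      (fun x y => by
        have h := hsemi f.1 f.2 x y
        have h0 := hne f.1
        simp only [LinearMap.smul_apply, smul_eq_mul]
        field_simp
        exact h)
  let e : ↥(Subgroup.normalizer ((φ.range : Subgroup (Module.End F K)ˣ) : Set (Module.End F K)ˣ)) ≃ (K ≃ₐ[F] K) × Kˣ :=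
    Equiv.ofBijective (fun f => (AlgEquiv.ofBijective (σ f)
        (Finite.injective_iff_bijective.1 (σ f).toRingHom.injective), Units.mk0 _ (hne f.1))) ⟨by
      intro f g h
      simp only [Prod.mk.injEq] at h
      have h1 : (f.1 : Module.End F K) 1 = (g.1 : Module.End F K) 1 := congrArg Units.val h.2
      refine Subtype.ext (Units.ext (LinearMap.ext fun x => ?_))
      have h2 : ((f.1 : Module.End F K) 1)⁻¹ * (f.1 : Module.End F K) x = ((g.1 : Module.End F K) 1)⁻¹ * (g.1 : Module.End F K) x :=
        congrArg (fun s : K ≃ₐ[F] K => s x) h.1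
      rw [← h1] at h2
      exact mul_left_cancel₀ (inv_ne_zero (hne f.1)) h2, by
      rintro ⟨τ, c⟩
      let f : (Module.End F K)ˣ := φ c * LinearMap.GeneralLinearGroup.ofLinearEquiv τ.toLinearEquiv
      have hfv : ∀ x, (f : Module.End F K) x = (c : K) * τ x := fun x => rfl
      have hf : f ∈ Subgroup.normalizer ((φ.range : Subgroup (Module.End F K)ˣ) : Set (Module.End F K)ˣ) := by
        haveI : Finite ((φ.range : Subgroup (Module.End F K)ˣ) : Set (Module.End F K)ˣ) := Finite.Set.finite_range (φ : Kˣ → (Module.End F K)ˣ)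
        refine Subgroup.mem_normalizer_fintype ?_
        rintro _ ⟨a, rfl⟩
        refine ⟨Units.mk0 (τ (a : K)) (by simp), ?_⟩
        rw [eq_mul_inv_iff_mul_eq]
        refine Units.ext (LinearMap.ext fun x => ?_)
        simp only [Units.val_mul, Module.End.mul_apply, hφv, hfv, Units.val_mk0, map_mul]
        ring
      refine ⟨⟨f, hf⟩, ?_⟩
      have h1 : (f : Module.End F K) 1 = c := by rw [hfv, map_one, mul_one]
      refine Prod.ext (AlgEquiv.ext fun x => ?_) (Units.ext h1)
      show ((f : Module.End F K) 1)⁻¹ * (f : Module.End F K) x = τ x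
      rw [h1, hfv, inv_mul_cancel_left₀ c.ne_zero]⟩
  rw [Nat.card_congr e, Nat.card_prod, IsGalois.card_aut_eq_finrank, hdim, Nat.card_units, Nat.card_eq_fintype_card]

end Cfsg.Agent.S5738
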