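import Cfsg.Statements.S5739
import Mathlib

set_option autoImplicit false
open Cfsg

namespace Cfsg.Agent.S5739

/-- Let F ⊆ K be finite fields with |F| = q and [K : F] = n ≥ 2, and let M ≤ GL_F(K) be the Singer group of multiplications by non-zero elements of K. If g ∈ GL_F(K) does not normalise M, then the order of M ∩ gMg⁻¹ divides q^r − 1 for some proper divisor r of n. In particular, when n is prime, that order divides q − 1. -/
theorem result {F K : Type*} [Field F] [Fintype F] [Field K] [Fintype K] [Algebra F K] (n : ℕ) (hn : 2 ≤ n) (hdim : Module.finrank F K = n)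
    (g : (Module.End F K)ˣ) (hg : ((Units.map ((Algebra.lmul F K : K →ₐ[F] Module.End F K) : K →* Module.End F K)).range).map (MulAut.conj g).toMonoidHom ≠ (Units.map ((Algebra.lmul F K : K →ₐ[F] Module.End F K) : K →* Module.End F K)).range) :
    ∃ r : ℕ, 1 ≤ r ∧ r ∣ n ∧ r < n ∧ Nat.card ↥(((Units.map ((Algebra.lmul F K : K →ₐ[F] Module.End F K) : K →* Module.End F K)).range).map (MulAut.conj g).toMonoidHom ⊓ (Units.map ((Algebra.lmul F K : K →ₐ[F] Module.End F K) : K →* Module.End F K)).range) ∣ Fintype.card F ^ r - 1 := by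
  classical
  haveI : Finite (Module.End F K) := Finite.of_injective (fun f : Module.End F K => (f : K → K)) DFunLike.coe_injective
  set L : K →ₐ[F] Module.End F K := Algebra.lmul F K
  set φ : Kˣ →* (Module.End F K)ˣ := Units.map ((L : K →ₐ[F] Module.End F K) : K →* Module.End F K)
  set I := φ.range.map (MulAut.conj g).toMonoidHom ⊓ φ.range with hI
  have hLinj : Function.Injective L := fun x y h => by simpa [L] using LinearMap.congr_fun h 1
  have hφ : Function.Injective φ := fun x y h => Units.ext (hLinj (congrArg Units.val h))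
  set A : Subgroup Kˣ := I.comap φ with hA
  have hcard : Nat.card I = Nat.card A :=
    (Nat.card_congr ((A.equivMapOfInjective φ hφ).trans
      (MulEquiv.subgroupCongr (Subgroup.map_comap_eq_self inf_le_right))).toEquiv).symm
  set E : IntermediateField F K := IntermediateField.adjoin F ((fun u : Kˣ => (u : K)) '' A)
  refine ⟨Module.finrank F E, Module.finrank_pos, ?_, ?_, ?_⟩
  · rw [← hdim, ← Module.finrank_mul_finrank F E K]; exact dvd_mul_right _ _
  · by_contra hge
    have hE : E = ⊤ := IntermediateField.eq_of_le_of_finrank_le le_top (by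
      rw [IntermediateField.finrank_top', hdim]; omega)
    -- `K` consists of the `x` whose multiplication is conjugate to a multiplication
    let R : Subalgebra F (Module.End F K) :=
      L.range.map (MulSemiringAction.toAlgEquiv F (Module.End F K) (ConjAct.toConjAct g)).toAlgHom
    have hAR : (fun u : Kˣ => (u : K)) '' A ⊆ (R.comap L : Set K) := by
      rintro _ ⟨u, hu, rfl⟩
      obtain ⟨_, ⟨v, rfl⟩, hv⟩ := (Subgroup.mem_inf.1 (Subgroup.mem_comap.1 hu)).1
      refine ⟨L v, ⟨_, rfl⟩, ?_⟩
      have := congrArg Units.val hv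
      simp only [MulEquiv.coe_toMonoidHom, MulAut.conj_apply, Units.val_mul] at this
      show ConjAct.toConjAct g • L v = L u
      rw [ConjAct.units_smul_def]
      exact this
    have htop : ∀ x : K, L x ∈ R := fun x => by
      have h1 : E.toSubalgebra ≤ R.comap L := by
        rw [IntermediateField.adjoin_toSubalgebra]
        exact Algebra.adjoin_le hAR
      exact h1 (by rw [hE]; trivial)
    have hle : φ.range ≤ φ.range.map (MulAut.conj g).toMonoidHom := by
      rintro _ ⟨u, rfl⟩
      obtain ⟨_, ⟨v, rfl⟩, hv⟩ := htop u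
      change ConjAct.toConjAct g • L v = L u at hv
      rw [ConjAct.units_smul_def] at hv
      have hv0 : v ≠ 0 := fun h0 => by
        rw [h0, map_zero, mul_zero, zero_mul] at hv
        exact u.ne_zero (hLinj (hv.symm.trans (map_zero L).symm))
      exact ⟨φ (Units.mk0 v hv0), ⟨_, rfl⟩, Units.ext hv⟩
    refine hg (Subgroup.eq_of_le_of_card_ge hle ?_).symm
    exact le_of_eq (Subgroup.card_map_of_injective (MulAut.conj g).injective)
  · have hsub : ∀ u ∈ A, ((u : Kˣ) : K) ∈ E := fun u hu => IntermediateField.subset_adjoin F _ ⟨u, hu, rfl⟩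
    let ψ : A →* Eˣ :=
      { toFun := fun u => ⟨⟨(u : Kˣ), hsub u u.2⟩, ⟨((u⁻¹ : A) : Kˣ), hsub _ (u⁻¹).2⟩,
          Subtype.ext (by simp), Subtype.ext (by simp)⟩
        map_one' := Units.ext (Subtype.ext rfl)
        map_mul' := fun u v => Units.ext (Subtype.ext rfl) }
    have hψ : Function.Injective ψ := fun u v h =>
      Subtype.ext (Units.ext (congrArg (fun x : Eˣ => ((x : E) : K)) h))
    have := Subgroup.card_dvd_of_injective ψ hψ
    rwa [← hcard, Nat.card_units, Module.natCard_eq_pow_finrank (K := F) (V := E), Nat.card_eq_fintype_card (α := F)] at this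

end Cfsg.Agent.S5739
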