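import Cfsg.Statements.S5747
import Mathlib

set_option autoImplicit false
open Cfsg

namespace Cfsg.Agent.S5747

variable {G Ω : Type*} [Group G] [MulAction G Ω]

/-- irredundant bases of a subgroup, as lists -/
def IB : Subgroup G → List Ω → Prop
  | H, [] => H = ⊥
  | H, x :: l => (∃ g ∈ H, g • x ≠ x) ∧ IB (H ⊓ MulAction.stabilizer G x) l

theorem mem_inf_stab {H : Subgroup G} {x : Ω} {g : G} :
    g ∈ H ⊓ MulAction.stabilizer G x ↔ g ∈ H ∧ g • x = x := by
  rw [Subgroup.mem_inf, MulAction.mem_stabilizer_iff]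

theorem ib_faith {l : List Ω} : ∀ {H : Subgroup G}, IB H l → ∀ g ∈ H, (∀ x ∈ l, g • x = x) → g = 1 := by
  induction l with
  | nil => intro H h g hg _; rw [show H = ⊥ from h] at hg; exact hg
  | cons x l ih =>
    intro H h g hg hfix
    exact ih h.2 g (mem_inf_stab.2 ⟨hg, hfix x List.mem_cons_self⟩) fun y hy => hfix y (List.mem_cons_of_mem _ hy)

theorem ib_moved {l : List Ω} : ∀ {H : Subgroup G}, IB H l → ∀ x ∈ l, ∃ g ∈ H, g • x ≠ x := by
  induction l with
  | nil => exact fun _ x hx => absurd hx List.not_mem_nil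
  | cons y l ih =>
    intro H h x hx
    rcases List.mem_cons.1 hx with rfl | hx
    · exact h.1
    · obtain ⟨g, hg, hgx⟩ := ih h.2 x hx
      exact ⟨g, (mem_inf_stab.1 hg).1, hgx⟩

theorem ib_nodup {l : List Ω} : ∀ {H : Subgroup G}, IB H l → l.Nodup := by
  induction l with
  | nil => exact fun _ => List.nodup_nil
  | cons y l ih =>
    intro H h
    refine List.nodup_cons.2 ⟨fun hy => ?_, ih h.2⟩
    obtain ⟨g, hg, hgy⟩ := ib_moved h.2 y hy
    exact hgy (mem_inf_stab.1 hg).2

theorem exists_sub {l : List Ω} : ∀ {H : Subgroup G}, (∀ g ∈ H, (∀ x ∈ l, g • x = x) → g = 1) →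
    ∃ l', List.Sublist l' l ∧ IB H l' := by
  induction l with
  | nil => exact fun {H} h => ⟨[], List.Sublist.refl _, (Subgroup.eq_bot_iff_forall _).2 fun g hg => h g hg (by simp)⟩
  | cons x l ih =>
    intro H h
    by_cases hx : ∃ g ∈ H, g • x ≠ x
    · obtain ⟨l', hs, hl⟩ := ih (H := H ⊓ MulAction.stabilizer G x) fun g hg hf =>
        h g (mem_inf_stab.1 hg).1 (List.forall_mem_cons.2 ⟨(mem_inf_stab.1 hg).2, hf⟩)
      exact ⟨x :: l', List.Sublist.cons_cons _ hs, hx, hl⟩
    · push Not at hx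
      obtain ⟨l', hs, hl⟩ := ih (H := H) fun g hg hf => h g hg (List.forall_mem_cons.2 ⟨hx g hg, hf⟩)
      exact ⟨l', hs.cons _, hl⟩

theorem ib_ofFn {t : ℕ} : ∀ (H : Subgroup G) (f : Fin t → Ω), IB H (List.ofFn f) ↔
    ((∀ g ∈ H, (∀ i, g • f i = f i) → g = 1) ∧
      ∀ i : Fin t, ∃ g ∈ H, (∀ j : Fin t, j < i → g • f j = f j) ∧ g • f i ≠ f i) := by
  induction t with
  | zero =>
    intro H f
    rw [List.ofFn_zero, show IB H ([] : List Ω) = (H = ⊥) from rfl, Subgroup.eq_bot_iff_forall]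
    exact ⟨fun h => ⟨fun g hg _ => h g hg, fun i => i.elim0⟩, fun h g hg => h.1 g hg fun i => i.elim0⟩
  | succ t ih =>
    intro H f
    rw [List.ofFn_succ, show IB H (f 0 :: List.ofFn fun i : Fin t => f i.succ) =
      ((∃ g ∈ H, g • f 0 ≠ f 0) ∧ IB (H ⊓ MulAction.stabilizer G (f 0)) (List.ofFn fun i : Fin t => f i.succ)) from rfl, ih]
    constructor
    · rintro ⟨⟨g, hg, hg0⟩, h1, h2⟩
      refine ⟨fun k hk hf => h1 k (mem_inf_stab.2 ⟨hk, hf 0⟩) fun i => hf i.succ, fun i => ?_⟩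
      induction i using Fin.cases with
      | zero => exact ⟨g, hg, fun j hj => absurd hj (Fin.not_lt_zero j), hg0⟩
      | succ i =>
        obtain ⟨k, hk, hj, hk'⟩ := h2 i
        refine ⟨k, (mem_inf_stab.1 hk).1, fun j => ?_, hk'⟩
        induction j using Fin.cases with
        | zero => exact fun _ => (mem_inf_stab.1 hk).2
        | succ j => exact fun hlt => hj j (Fin.succ_lt_succ_iff.1 hlt)
    · rintro ⟨h1, h2⟩
      refine ⟨?_, fun g hg hf => h1 g (mem_inf_stab.1 hg).1 (Fin.cases (mem_inf_stab.1 hg).2 hf), fun i => ?_⟩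
      · obtain ⟨g, hg, -, h⟩ := h2 0; exact ⟨g, hg, h⟩
      · obtain ⟨g, hg, hj, h⟩ := h2 i.succ
        exact ⟨g, mem_inf_stab.2 ⟨hg, hj 0 (Fin.succ_pos i)⟩, fun j hlt => hj j.succ (Fin.succ_lt_succ_iff.2 hlt), h⟩

theorem same_length [Finite G] [Fintype Ω] : ∀ (n : ℕ) (H : Subgroup G), Nat.card H ≤ n →
    (∀ l l' : List Ω, IB H l → List.Perm l l' → IB H l') →
    ∀ l l' : List Ω, IB H l → IB H l' → l.length = l'.length := by
  intro n
  induction n with
  | zero => exact fun H h => absurd h (by have := Nat.card_pos (α := H); omega)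
  | succ n ih =>
    intro H hn hP l l' hl hl'
    rcases l with _ | ⟨x, a⟩ <;> rcases l' with _ | ⟨y, c⟩
    · rfl
    · obtain ⟨g, hg, hgy⟩ := hl'.1
      rw [show H = ⊥ from hl, Subgroup.mem_bot] at hg
      exact absurd (one_smul _ _) (hg ▸ hgy)
    · obtain ⟨g, hg, hgy⟩ := hl.1
      rw [show H = ⊥ from hl', Subgroup.mem_bot] at hg
      exact absurd (one_smul _ _) (hg ▸ hgy)
    have IH : ∀ z : Ω, (∃ g ∈ H, g • z ≠ z) → ∀ m m' : List Ω, IB (H ⊓ MulAction.stabilizer G z) m →
        IB (H ⊓ MulAction.stabilizer G z) m' → m.length = m'.length := by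
      intro z hz
      have hlt : Nat.card (H ⊓ MulAction.stabilizer G z : Subgroup G) ≤ n := by
        by_contra! h
        obtain ⟨g, hg, hgz⟩ := hz
        have e := Subgroup.eq_of_le_of_card_ge (inf_le_left : H ⊓ MulAction.stabilizer G z ≤ H) (by omega)
        exact hgz (mem_inf_stab.1 (e.symm ▸ hg : g ∈ H ⊓ MulAction.stabilizer G z)).2
      exact ih _ hlt fun m m' hm hp => (hP (z :: m) (z :: m') ⟨hz, hm⟩ (hp.cons z)).2
    have hf := ib_faith hl
    by_cases hxy : ∃ g ∈ H ⊓ MulAction.stabilizer G x, g • y ≠ y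
    · obtain ⟨m, -, hm⟩ := exists_sub (l := (Finset.univ : Finset Ω).toList)
        (H := H ⊓ MulAction.stabilizer G x ⊓ MulAction.stabilizer G y) fun g hg hfix =>
          hf g (mem_inf_stab.1 (mem_inf_stab.1 hg).1).1 fun z _ => hfix z (Finset.mem_toList.2 (Finset.mem_univ z))
      have h1 : IB (H ⊓ MulAction.stabilizer G x) (y :: m) := ⟨hxy, hm⟩
      have h2 := hP (x :: y :: m) (y :: x :: m) ⟨hl.1, h1⟩ (List.Perm.swap y x m)
      have e1 := IH x hl.1 a (y :: m) hl.2 h1
      have e2 := IH y hl'.1 c (x :: m) hl'.2 h2.2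
      simp only [List.length_cons] at e1 e2 ⊢
      omega
    push Not at hxy
    have hle : H ⊓ MulAction.stabilizer G x ≤ H ⊓ MulAction.stabilizer G y :=
      fun g hg => mem_inf_stab.2 ⟨(mem_inf_stab.1 hg).1, hxy g hg⟩
    by_cases hyx : ∃ g ∈ H ⊓ MulAction.stabilizer G y, g • x ≠ x
    · exfalso
      have e : H ⊓ MulAction.stabilizer G y ⊓ MulAction.stabilizer G x = H ⊓ MulAction.stabilizer G x :=
        le_antisymm (inf_le_inf_right _ inf_le_left) (le_inf hle inf_le_right)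
      have h : IB H (y :: x :: a) := ⟨hl'.1, hyx, e ▸ hl.2⟩
      obtain ⟨g, hg, hgy⟩ := (hP _ (x :: y :: a) h (List.Perm.swap x y a)).2.1
      exact hgy (hxy g hg)
    · push Not at hyx
      have e : H ⊓ MulAction.stabilizer G x = H ⊓ MulAction.stabilizer G y :=
        le_antisymm hle fun g hg => mem_inf_stab.2 ⟨(mem_inf_stab.1 hg).1, hyx g hg⟩
      have := IH y hl'.1 a c (e ▸ hl.2) hl'.2
      simp only [List.length_cons]
      omega

/-- Let a finite group G act on a finite set Ω. An irredundant base is a sequence of points ω₁, …, ω_t whose pointwise stabiliser is trivial and in which each ω_i is moved by some element fixing ω₁, …, ω_{i−1}. Then all irredundant bases have the same length if and only if every reordering of an irredundant base is again an irredundant base. -/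
theorem result {G Ω : Type*} [Group G] [Finite G] [MulAction G Ω] [Fintype Ω] :
    (∀ (t t' : ℕ) (f : Fin t → Ω) (f' : Fin t' → Ω), ((∀ g : G, (∀ i : Fin t, g • f i = f i) → g = 1) ∧ ∀ i : Fin t, ∃ g : G, (∀ j : Fin t, j < i → g • f j = f j) ∧ g • f i ≠ f i) → ((∀ g : G, (∀ i : Fin t', g • f' i = f' i) → g = 1) ∧ ∀ i : Fin t', ∃ g : G, (∀ j : Fin t', j < i → g • f' j = f' j) ∧ g • f' i ≠ f' i) → t = t') ↔
    (∀ (t : ℕ) (f : Fin t → Ω) (σ : Equiv.Perm (Fin t)), ((∀ g : G, (∀ i : Fin t, g • f i = f i) → g = 1) ∧ ∀ i : Fin t, ∃ g : G, (∀ j : Fin t, j < i → g • f j = f j) ∧ g • f i ≠ f i) → ((∀ g : G, (∀ i : Fin t, g • (f ∘ σ) i = (f ∘ σ) i) → g = 1) ∧ ∀ i : Fin t, ∃ g : G, (∀ j : Fin t, j < i → g • (f ∘ σ) j = (f ∘ σ) j) ∧ g • (f ∘ σ) i ≠ (f ∘ σ) i)) := by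
  have key : ∀ (t : ℕ) (f : Fin t → Ω), IB (⊤ : Subgroup G) (List.ofFn f) ↔
      ((∀ g : G, (∀ i : Fin t, g • f i = f i) → g = 1) ∧
        ∀ i : Fin t, ∃ g : G, (∀ j : Fin t, j < i → g • f j = f j) ∧ g • f i ≠ f i) := fun t f => by
    simpa only [Subgroup.mem_top, true_and, forall_true_left] using ib_ofFn (⊤ : Subgroup G) f
  simp only [← key]
  constructor
  · intro h t f σ hb
    obtain ⟨l', hs, hl'⟩ := exists_sub (l := List.ofFn (f ∘ σ)) (H := (⊤ : Subgroup G)) fun g hg hfix =>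
      ib_faith hb g hg fun x hx => by
        obtain ⟨i, rfl⟩ := List.mem_ofFn.1 hx
        exact hfix _ (List.mem_ofFn.2 ⟨σ.symm i, by simp⟩)
    have hlen := h t l'.length f l'.get hb (by rwa [List.ofFn_get])
    rwa [← hs.eq_of_length (by simpa using hlen.symm)]
  · intro h t t' f f' hf hf'
    have hP : ∀ l l' : List Ω, IB (⊤ : Subgroup G) l → List.Perm l l' → IB (⊤ : Subgroup G) l' := by
      intro l l' hl hp
      obtain ⟨e, he⟩ : ∃ e : Equiv.Perm (Fin l.length), l' = List.ofFn (l.get ∘ e) := by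
        classical
        have hn := ib_nodup hl
        have hn' := hp.nodup_iff.1 hn
        let e' : Fin l'.length ≃ Fin l.length := (hn'.getEquiv l').trans
          ((Equiv.subtypeEquivRight fun x => hp.mem_iff.symm).trans (hn.getEquiv l).symm)
        have he' : ∀ i, l.get (e' i) = l'.get i := fun i => by
          have := (hn.getEquiv l).apply_symm_apply
            ((Equiv.subtypeEquivRight fun x => hp.mem_iff.symm) ((hn'.getEquiv l') i))
          exact congrArg Subtype.val this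
        refine ⟨(finCongr hp.length_eq).trans e', List.ext_get (by simp [hp.length_eq]) fun i h1 h2 => ?_⟩
        rw [List.get_ofFn, Function.comp_apply, Equiv.trans_apply, he']
        rfl
      rw [he]
      exact h _ _ e (by rwa [List.ofFn_get])
    simpa using same_length _ ⊤ le_rfl hP _ _ hf hf'

end Cfsg.Agent.S5747
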