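import Cfsg.Statements.S5754
import Mathlib

set_option autoImplicit false
open Cfsg

namespace Cfsg.Agent.S5754

private theorem refl_isometry {F V : Type*} [Field F] [AddCommGroup V] [Module F V]
    (Q : QuadraticForm F V) (w : V) (hw : Q w ≠ 0) :
    ∃ R : Q.IsometryEquiv Q, ∀ x, R x = x - (QuadraticMap.polar Q x w / Q w) • w := by
  let L : V →ₗ[F] V :=
    { toFun := fun x => x - (QuadraticMap.polar Q x w / Q w) • w
      map_add' := fun x y => by simp [QuadraticMap.polar_add_left, add_div, add_smul]; abel
      map_smul' := fun c x => by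
        simp [QuadraticMap.polar_smul_left, smul_sub, smul_smul, mul_div_assoc] }
  have hww : QuadraticMap.polar Q w w = 2 * Q w := by
    rw [QuadraticMap.polar_self, two_nsmul, two_mul]
  have hinv : ∀ x, L (L x) = x := fun x => by
    show (x - (QuadraticMap.polar Q x w / Q w) • w) - (QuadraticMap.polar Q (x - (QuadraticMap.polar Q x w / Q w) • w) w / Q w) • w = x
    rw [sub_eq_add_neg x, ← neg_smul, QuadraticMap.polar_add_left, QuadraticMap.polar_smul_left, hww,
      smul_eq_mul]
    rw [show (QuadraticMap.polar Q x w + -(QuadraticMap.polar Q x w / Q w) * (2 * Q w)) / Q w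
      = -(QuadraticMap.polar Q x w / Q w) by field_simp; ring]
    rw [neg_smul, add_sub_assoc, sub_self, add_zero]
  refine ⟨⟨LinearEquiv.ofLinear L L (LinearMap.ext hinv) (LinearMap.ext hinv), fun x => ?_⟩, fun x => rfl⟩
  show Q (x - (QuadraticMap.polar Q x w / Q w) • w) = Q x
  rw [sub_eq_add_neg, ← neg_smul, QuadraticMap.map_add (⇑Q), QuadraticMap.map_smul, QuadraticMap.polar_smul_right,
    smul_eq_mul, smul_eq_mul]
  field_simp
  ring

private theorem map_sub_eq {F V : Type*} [Field F] [AddCommGroup V] [Module F V]
    (Q : QuadraticForm F V) (x y : V) : Q (x - y) = Q x + Q y - QuadraticMap.polar Q x y := by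
  rw [sub_eq_add_neg, QuadraticMap.map_add (⇑Q), QuadraticMap.map_neg, QuadraticMap.polar_neg_right]
  ring

/-- Let V be a finite-dimensional vector space over a finite field F carrying an anisotropic quadratic form Q (Q(v) = 0 only for v = 0). Then the group of all maps v ↦ φ(v) + c, with φ an isometry of Q and c ∈ V, acts on V as a binary permutation group: given n ≥ 2 and two n-tuples u, u' of vectors such that every pair of corresponding entries of u is carried to that of u' by such a map, one such map carries u to u'. -/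
theorem result {F V : Type*} [Field F] [Finite F] [AddCommGroup V] [Module F V] [Module.Finite F V]
    (Q : QuadraticForm F V) (hQ : Q.Anisotropic) (n : ℕ) (hn : 2 ≤ n) (u u' : Fin n → V)
    (h2 : ∀ i j : Fin n, i ≠ j → ∃ (φ : Q.IsometryEquiv Q) (c : V), φ (u i) + c = u' i ∧ φ (u j) + c = u' j) :
    ∃ (φ : Q.IsometryEquiv Q) (c : V), ∀ i, φ (u i) + c = u' i := by
  have i0 : Fin n := ⟨0, by omega⟩
  have i1 : Fin n := ⟨1, by omega⟩
  -- translate to the origin
  let v : Fin n → V := fun i => u i - u i0
  let v' : Fin n → V := fun i => u' i - u' i0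
  have hd : ∀ i j, Q (v i - v j) = Q (v' i - v' j) := by
    intro i j
    rcases eq_or_ne i j with rfl | hij
    · simp
    obtain ⟨φ, c, h1, h2'⟩ := h2 i j hij
    have : φ (u i - u j) = u' i - u' j := by
      rw [← h1, ← h2', show φ (u i - u j) = φ (u i) - φ (u j) from map_sub φ.toLinearEquiv (u i) (u j)]; abel
    simp only [v, v', sub_sub_sub_cancel_right, ← this, QuadraticMap.IsometryEquiv.map_app]
  have h0 : ∀ i, Q (v i) = Q (v' i) := fun i => by simpa [v, v'] using hd i i0
  have hB : ∀ i j, QuadraticMap.polar Q (v i) (v j) = QuadraticMap.polar Q (v' i) (v' j) := by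
    intro i j
    have := hd i j
    rw [map_sub_eq Q (v i) (v j), map_sub_eq Q (v' i) (v' j), h0 i, h0 j] at this
    linear_combination -this
  have hex : ∀ k, k ≤ n → ∃ φ : Q.IsometryEquiv Q, ∀ i : Fin n, (i : ℕ) < k → φ (v i) = v' i := by
    intro k
    induction k with
    | zero => exact fun _ => ⟨QuadraticMap.IsometryEquiv.refl Q, fun i hi => absurd hi (Nat.not_lt_zero _)⟩
    | succ k ih =>
      intro hk
      obtain ⟨φ, hφ⟩ := ih (by omega)
      let i : Fin n := ⟨k, by omega⟩
      by_cases he : φ (v i) = v' i
      · refine ⟨φ, fun j hj => ?_⟩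
        rcases Nat.lt_succ_iff_lt_or_eq.1 hj with h | h
        · exact hφ j h
        · obtain rfl : j = i := Fin.ext h
          exact he
      set a := φ (v i) with ha
      set b := v' i with hb
      have hw0 : Q (a - b) ≠ 0 := fun h => he (sub_eq_zero.1 (hQ _ h))
      obtain ⟨R, hR⟩ := refl_isometry Q (a - b) hw0
      have hQa : Q a = Q b := by rw [ha, QuadraticMap.IsometryEquiv.map_app, h0]
      have hpol : ∀ x y, QuadraticMap.polar Q (φ x) (φ y) = QuadraticMap.polar Q x y := by
        intro x y
        rw [QuadraticMap.polar, QuadraticMap.polar, show φ x + φ y = φ (x + y) from (map_add φ.toLinearEquiv x y).symm]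
        simp only [QuadraticMap.IsometryEquiv.map_app]
      refine ⟨φ.trans R, fun j hj => ?_⟩
      show R (φ (v j)) = v' j
      rw [hR]
      rcases Nat.lt_succ_iff_lt_or_eq.1 hj with h | h
      · rw [hφ j h]
        have h1 : QuadraticMap.polar Q (v' j) (a - b) = 0 := by
          rw [QuadraticMap.polar_sub_right, ha, hb, ← hφ j h, hpol, hφ j h, hB, sub_self]
        rw [h1, zero_div, zero_smul, sub_zero]
      · obtain rfl : j = i := Fin.ext h
        rw [← ha, ← hb]
        have h1 : QuadraticMap.polar Q a (a - b) = Q (a - b) := by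
          rw [QuadraticMap.polar_sub_right, QuadraticMap.polar_self, map_sub_eq, two_nsmul]
          linear_combination hQa
        rw [h1, div_self hw0, one_smul, sub_sub_cancel]
  obtain ⟨φ, hφ⟩ := hex n le_rfl
  refine ⟨φ, u' i0 - φ (u i0), fun i => ?_⟩
  have := hφ i i.isLt
  simp only [v, v', show φ (u i - u i0) = φ (u i) - φ (u i0) from map_sub φ.toLinearEquiv (u i) (u i0)] at this
  rw [eq_sub_iff_add_eq] at this
  rw [← this]; abel

end Cfsg.Agent.S5754
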