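import Cfsg.Statements.S5763
import Mathlib

set_option autoImplicit false
open Cfsg

namespace Cfsg.Agent.S5763

open Equiv

/-- elements centralising a pairing and acting as a regular four-group or trivially on its pairs -/
def Kz (z w : Perm (Fin 8)) : Prop :=
  w * z = z * w ∧ ((∀ a, w a = a ∨ w a = z a) ∨ ∀ a, w a ≠ a ∧ w a ≠ z a ∧ (w (w a) = a ∨ w (w a) = z a))

def z0 : Perm (Fin 8) := swap 0 1 * swap 2 3 * swap 4 5 * swap 6 7

/-- pair index -/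
def pr (a : Fin 8) : Fin 4 := ⟨a.val / 2, by omega⟩

def rep (i : Fin 4) : Fin 8 := ⟨2 * i.val, by omega⟩

def xr (c i : Fin 4) : Fin 4 := ⟨(c.val ^^^ i.val) % 4, by omega⟩

theorem pr_eq : ∀ a b : Fin 8, pr a = pr b ↔ (b = a ∨ b = z0 a) := by decide +kernel

theorem pr_rep : ∀ i, pr (rep i) = i := by decide +kernel

theorem regular : ∀ f : Fin 4 → Fin 4,
    ((∀ i, f i = i) ∨ ((∀ i, f i ≠ i) ∧ ∀ i, f (f i) = i)) → ∃ c, ∀ i, f i = xr c i := by decide +kernel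

theorem xr_ops : ∀ c d i : Fin 4, xr c (xr d i) = xr (xr c d) i ∧ xr 0 i = i ∧ xr c (xr c i) = i := by decide +kernel

def check (g : Fin 8 → Fin 8) : Bool :=
  let u : Fin 8 → Fin 8 := fun a => z0 (g a)
  !(decide (∀ a, g (g a) = a)) || decide (∀ a, u (u a) = a) ||
    decide (∀ a, u (u (u (u a))) = a ∧ u (u a) ≠ a ∧ u (u a) ≠ z0 a ∧ u (u a) ≠ g a)

set_option synthInstance.maxSize 3000 in
set_option synthInstance.maxHeartbeats 400000 in
set_option maxRecDepth 100000 in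
theorem search : ∀ b0 : Fin 8, b0 ≠ 0 → b0 ≠ 1 →
    ∀ b1 : Fin 8, b1 ≠ 1 → b1 ≠ 0 → b1 ≠ b0 →
    ∀ b2 : Fin 8, b2 ≠ 2 → b2 ≠ 3 → (b0 = 2 ↔ b2 = 0) → (b1 = 2 ↔ b2 = 1) →
    ∀ b3 : Fin 8, b3 ≠ 3 → b3 ≠ 2 → (b0 = 3 ↔ b3 = 0) → (b1 = 3 ↔ b3 = 1) →
    ∀ b4 : Fin 8, b4 ≠ 4 → b4 ≠ 5 → (b0 = 4 ↔ b4 = 0) → (b1 = 4 ↔ b4 = 1) → (b2 = 4 ↔ b4 = 2) → (b3 = 4 ↔ b4 = 3) →
    ∀ b5 : Fin 8, b5 ≠ 5 → b5 ≠ 4 → (b0 = 5 ↔ b5 = 0) → (b1 = 5 ↔ b5 = 1) → (b2 = 5 ↔ b5 = 2) → (b3 = 5 ↔ b5 = 3) →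
    ∀ b6 : Fin 8, b6 ≠ 6 → b6 ≠ 7 → (b0 = 6 ↔ b6 = 0) → (b1 = 6 ↔ b6 = 1) → (b2 = 6 ↔ b6 = 2) → (b3 = 6 ↔ b6 = 3) →
      (b4 = 6 ↔ b6 = 4) → (b5 = 6 ↔ b6 = 5) →
    ∀ b7 : Fin 8, b7 ≠ 7 → b7 ≠ 6 → (b0 = 7 ↔ b7 = 0) → (b1 = 7 ↔ b7 = 1) → (b2 = 7 ↔ b7 = 2) → (b3 = 7 ↔ b7 = 3) →
      (b4 = 7 ↔ b7 = 4) → (b5 = 7 ↔ b7 = 5) →
      check ![b0, b1, b2, b3, b4, b5, b6, b7] = true := by
  decide +kernel

theorem exists_common (z : Perm (Fin 8)) (hz : ∀ a, z (z a) = a) (hz' : ∀ a, z a ≠ a) :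
    ∃ w : Perm (Fin 8), w ≠ 1 ∧ Kz z0 w ∧ Kz z w := by
  have h0 : ∀ a : Fin 8, z0 (z0 a) = a ∧ z0 a ≠ a := by decide +kernel
  by_cases hc : ∃ a, z a = z0 a
  · obtain ⟨a, ha⟩ := hc
    have key : ∀ y : Perm (Fin 8), (∀ b, y (y b) = b) → y a = z0 a → Kz y (swap a (z0 a)) := by
      intro y hy hya
      have hy' : y (z0 a) = a := by rw [← hya, hy]
      refine ⟨?_, Or.inl fun b => ?_⟩
      · rw [mul_swap_eq_swap_mul, hya, hy', swap_comm]
      · rcases eq_or_ne b a with rfl | h1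
        · exact Or.inr (by rw [swap_apply_left, hya])
        rcases eq_or_ne b (z0 a) with rfl | h2
        · exact Or.inr (by rw [swap_apply_right, hy'])
        exact Or.inl (swap_apply_of_ne_of_ne h1 h2)
    exact ⟨swap a (z0 a), fun h => (h0 a).2 (swap_eq_refl_iff.1 h).symm, key z0 (fun b => (h0 b).1) rfl, key z hz ha⟩
  push Not at hc
  have hsym : ∀ i j : Fin 8, z i = j ↔ z j = i := fun i j => ⟨fun h => h ▸ hz i, fun h => h ▸ hz j⟩
  have hs := search (z 0) (hz' 0) (hc 0) (z 1) (hz' 1) (hc 1) (fun h => absurd (z.injective h) (by decide))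
    (z 2) (hz' 2) (hc 2) (hsym _ _) (hsym _ _) (z 3) (hz' 3) (hc 3) (hsym _ _) (hsym _ _)
    (z 4) (hz' 4) (hc 4) (hsym _ _) (hsym _ _) (hsym _ _) (hsym _ _)
    (z 5) (hz' 5) (hc 5) (hsym _ _) (hsym _ _) (hsym _ _) (hsym _ _)
    (z 6) (hz' 6) (hc 6) (hsym _ _) (hsym _ _) (hsym _ _) (hsym _ _) (hsym _ _) (hsym _ _)
    (z 7) (hz' 7) (hc 7) (hsym _ _) (hsym _ _) (hsym _ _) (hsym _ _) (hsym _ _) (hsym _ _)
  have hg : ![z 0, z 1, z 2, z 3, z 4, z 5, z 6, z 7] = ⇑z := funext fun a => by fin_cases a <;> rfl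
  rw [hg] at hs
  simp only [check, Bool.or_eq_true, Bool.not_eq_true', decide_eq_true_eq, decide_eq_false_iff_not] at hs
  rcases hs.elim (fun h => h.elim (fun h => absurd hz h) Or.inl) Or.inr with h | h
  · -- commuting
    have e : z0 * z = z * z0 := Equiv.ext fun a => by
      have e1 : z (z0 (z (z0 a))) = a := z0.injective (h (z0 a))
      have e2 : z0 (z (z0 a)) = z a := by
        have := congrArg z e1
        rwa [hz] at this
      simp only [Perm.mul_apply]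
      rw [← e2, (h0 _).1]
    refine ⟨z0, fun h1 => (h0 0).2 (by rw [h1]; rfl), ⟨rfl, Or.inl fun a => Or.inr rfl⟩, e,
      Or.inr fun a => ⟨(h0 a).2, fun h1 => hc a h1.symm, Or.inl (h0 a).1⟩⟩
  · set w : Perm (Fin 8) := z0 * z * (z0 * z) with hw
    have hwa : ∀ a, w a = z0 (z (z0 (z a))) := fun a => rfl
    have hinv : ∀ a, z (z0 (z (z0 a))) = w a := fun a => by
      have := (h a).1
      rw [hwa]
      conv_lhs => rw [← this]
      rw [(h0 _).1, hz, (h0 _).1, hz]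
    have hww : ∀ a, w (w a) = a := fun a => (h a).1
    refine ⟨w, fun h1 => (h 0).2.1 (by rw [← hwa, h1]; rfl),
      ⟨Equiv.ext fun a => ?_, Or.inr fun a => ⟨(h a).2.1, (h a).2.2.1, Or.inl (hww a)⟩⟩,
      ⟨Equiv.ext fun a => ?_, Or.inr fun a => ⟨(h a).2.1, (h a).2.2.2, Or.inl (hww a)⟩⟩⟩
    · show w (z0 a) = z0 (w a)
      rw [hwa (z0 a), ← hinv a]
    · show w (z a) = z (w a)
      rw [hwa (z a), hz, ← hinv a, hz]

/-- the subgroup of elements of translation type -/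
def K0 : Subgroup (Perm (Fin 8)) where
  carrier := {w | ∃ c : Fin 4, ∀ a, pr (w a) = xr c (pr a)}
  one_mem' := ⟨0, fun a => ((xr_ops 0 0 _).2.1).symm⟩
  mul_mem' := fun {u v} ⟨c, hc⟩ ⟨d, hd⟩ => ⟨xr c d, fun a => by rw [Perm.mul_apply, hc, hd]; exact (xr_ops c d _).1⟩
  inv_mem' := fun {u} ⟨c, hc⟩ => ⟨c, fun a => by
    have := hc (u⁻¹ a)
    rw [show u (u⁻¹ a) = a from u.apply_symm_apply a] at this
    rw [this, (xr_ops c c _).2.2]⟩

theorem mem_K0 {w : Perm (Fin 8)} (h : Kz z0 w) : w ∈ K0 := by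
  obtain ⟨hc, h⟩ := h
  have hwz : ∀ a b, pr a = pr b → pr (w a) = pr (w b) := by
    intro a b hab
    rw [pr_eq] at hab ⊢
    rcases hab with rfl | rfl
    · exact Or.inl rfl
    · exact Or.inr (by rw [← Perm.mul_apply, hc]; rfl)
  obtain ⟨c, hc'⟩ := regular (fun i => pr (w (rep i))) (by
    rcases h with h | h
    · refine Or.inl fun i => ?_
      conv_rhs => rw [← pr_rep i]
      exact ((pr_eq _ _).2 (h _)).symm
    · refine Or.inr ⟨fun i e => ?_, fun i => ?_⟩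
      · conv_rhs at e => rw [← pr_rep i]
        rcases (pr_eq _ _).1 e.symm with e' | e'
        exacts [(h _).1 e', (h _).2.1 e']
      · rw [hwz _ _ (pr_rep (pr (w (rep i))))]
        conv_rhs => rw [← pr_rep i]
        exact ((pr_eq _ _).2 (h _).2.2).symm)
  exact ⟨c, fun a => (hwz a (rep (pr a)) (pr_rep _).symm).trans (hc' _)⟩

theorem K0_pgroup : IsPGroup 2 K0 := by
  intro w
  refine ⟨2, Subtype.ext (Equiv.ext fun a => ?_)⟩
  obtain ⟨c, hc⟩ := w.2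
  have h2 : ∀ b, (w : Perm (Fin 8)) ((w : Perm (Fin 8)) b) = b ∨ (w : Perm (Fin 8)) ((w : Perm (Fin 8)) b) = z0 b :=
    fun b => (pr_eq _ _).1 (by rw [hc, hc, (xr_ops c c _).2.2])
  have h0 : ∀ a : Fin 8, z0 (z0 a) = a := by decide +kernel
  show ((w : Perm (Fin 8)) ^ 2 ^ 2) a = a
  rw [show (2 : ℕ) ^ 2 = 2 + 2 by rfl, pow_add, pow_two]
  simp only [Perm.mul_apply]
  rcases h2 a with e | e
  · rw [e, e]
  · rw [e]
    rcases h2 (z0 a) with e' | e'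
    · exfalso
      have hinj := (w : Perm (Fin 8)).injective
      have := hinj (hinj (e'.trans e.symm))
      exact (show ∀ b : Fin 8, z0 b ≠ b by decide +kernel) a this
    · rw [e', h0]

/-- In the symmetric group on 8 letters any two Sylow 2-subgroups have non-trivial intersection: for a Sylow 2-subgroup H and every element x, H ∩ xHx⁻¹ ≠ 1. -/
theorem result (H : Sylow 2 (Equiv.Perm (Fin 8))) (x : Equiv.Perm (Fin 8)) :
    (H : Subgroup (Equiv.Perm (Fin 8))) ⊓ (H : Subgroup (Equiv.Perm (Fin 8))).map (MulAut.conj x).toMonoidHom ≠ ⊥ := by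
  obtain ⟨P, hP⟩ := K0_pgroup.exists_le_sylow
  obtain ⟨g, rfl⟩ := MulAction.exists_smul_eq (Perm (Fin 8)) P H
  set y := g⁻¹ * x * g with hy
  obtain ⟨w, hw1, hw0, hw2⟩ := exists_common (y * z0 * y⁻¹)
    (fun a => by
      have h0 : ∀ a : Fin 8, z0 (z0 a) = a := by decide +kernel
      simp [Perm.mul_apply, h0])
    (fun a e => by
      have h0 : ∀ a : Fin 8, z0 a ≠ a := by decide +kernel
      exact h0 _ (y.injective (e.trans (y.apply_symm_apply a).symm)))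
  have hw' : Kz z0 (y⁻¹ * w * y) := by
    obtain ⟨hc, h⟩ := hw2
    refine ⟨?_, ?_⟩
    · calc y⁻¹ * w * y * z0 = y⁻¹ * (w * (y * z0 * y⁻¹)) * y := by group
        _ = y⁻¹ * ((y * z0 * y⁻¹) * w) * y := by rw [hc]
        _ = z0 * (y⁻¹ * w * y) := by group
    · rcases h with h | h
      · refine Or.inl fun a => ?_
        have := h (y a)
        simp only [Perm.mul_apply] at this ⊢
        rcases this with e | e <;> [left; right] <;> rw [e] <;> simp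
      · refine Or.inr fun a => ?_
        obtain ⟨e1, e2, e3⟩ := h (y a)
        simp only [Perm.mul_apply, Equiv.Perm.inv_eq_iff_eq, ne_eq] at e1 e2 e3 ⊢
        refine ⟨e1, fun e => e2 (by rw [e]; simp), ?_⟩
        rcases e3 with e | e <;> [left; right] <;> simp [e]
  intro hbot
  apply hw1
  have : MulAut.conj g w ∈ (((g • P : Sylow 2 (Perm (Fin 8))) : Subgroup (Perm (Fin 8))) ⊓
      ((g • P : Sylow 2 (Perm (Fin 8))) : Subgroup (Perm (Fin 8))).map (MulAut.conj x).toMonoidHom) := by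
    rw [Sylow.coe_subgroup_smul]
    refine Subgroup.mem_inf.2 ⟨Subgroup.smul_mem_pointwise_smul _ _ _ (hP (mem_K0 hw0)), ?_⟩
    refine ⟨MulAut.conj g (y⁻¹ * w * y), Subgroup.smul_mem_pointwise_smul _ _ _ (hP (mem_K0 hw')), ?_⟩
    simp [hy, mul_assoc]
  rw [hbot, Subgroup.mem_bot] at this
  exact (map_eq_one_iff _ (MulAut.conj g).injective).1 this

end Cfsg.Agent.S5763
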