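import Cfsg.Statements.S5885
import Mathlib

set_option autoImplicit false
open Cfsg

namespace Cfsg.Agent.S5885

open scoped Pointwise

theorem swap_mem {α : Type*} [DecidableEq α] {O : Set α} {p q : α} (h : p ∈ O ↔ q ∈ O) (w : α) :
    Equiv.swap p q w ∈ O ↔ w ∈ O := by
  rw [Equiv.swap_apply_def]
  by_cases h1 : w = p
  · rw [if_pos h1, h1, h]
  · by_cases h2 : w = q
    · rw [if_neg h1, if_pos h2, h2, h]
    · rw [if_neg h1, if_neg h2]

theorem even_swaps {α : Type*} [Fintype α] [DecidableEq α] {p q r s : α} (h : p ≠ q) (h' : r ≠ s) :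
    Equiv.Perm.sign (Equiv.swap p q * Equiv.swap r s) = 1 := by
  rw [map_mul, Equiv.Perm.sign_swap h, Equiv.Perm.sign_swap h']; rfl

/-- even permutations are realised -/
theorem realise {G Ω : Type*} [Group G] [MulAction G Ω] [Fintype Ω] [DecidableEq Ω] {n : ℕ} (e : Ω ≃ Fin n)
    (hA : ∀ P : Subgroup (Equiv.Perm (Fin n)), MulAction.IsPreprimitive P (Fin n) → alternatingGroup (Fin n) ≤ P)
    [MulAction.IsPreprimitive G Ω] (σ : Equiv.Perm Ω) (hσ : Equiv.Perm.sign σ = 1) : ∃ g : G, ∀ x, g • x = σ x := by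
  let φ : G →* Equiv.Perm (Fin n) := e.permCongrHom.toMonoidHom.comp (MulAction.toPermHom G Ω)
  let f : Ω →ₑ[φ.rangeRestrict] Fin n :=
    { toFun := e
      map_smul' := fun g x => by
        show e (g • x) = e.permCongr (MulAction.toPermHom G Ω g) (e x)
        simp [Equiv.permCongr_apply] }
  have hP : MulAction.IsPreprimitive φ.range (Fin n) :=
    MulAction.IsPreprimitive.of_surjective (f := f) e.surjective
  have hmem : e.permCongr σ ∈ alternatingGroup (Fin n) := by
    rw [Equiv.Perm.mem_alternatingGroup, Equiv.Perm.sign_permCongr, hσ]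
  obtain ⟨g, hg⟩ := hA φ.range hP hmem
  refine ⟨g, fun x => e.injective ?_⟩
  have := congrArg (fun π : Equiv.Perm (Fin n) => π (e x)) hg
  simpa [φ, Equiv.permCongr_apply, Equiv.permCongrHom] using this

/-- Let n be an odd positive integer such that every primitive permutation group of degree n contains the alternating group (so the symmetric and alternating groups are the only primitive groups of degree n). Let G be a finite group, M a maximal subgroup of G of index n, and H a maximal subgroup of M. Then H is a second maximal subgroup of G: H is maximal in every maximal subgroup K of G containing H. -/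
theorem result {G : Type*} [Group G]
    [Finite G] (n : ℕ) (hodd : Odd n)
    (hA : ∀ P : Subgroup (Equiv.Perm (Fin n)), MulAction.IsPreprimitive P (Fin n) → alternatingGroup (Fin n) ≤ P)
    (M : Subgroup G) (hM : IsCoatom M) (hn : M.index = n) (H : Subgroup G) (hHM : H ≤ M)
    (hmax : IsCoatom (H.subgroupOf M)) (K : Subgroup G) (hK : IsCoatom K) (hHK : H ≤ K) :
    IsCoatom (H.subgroupOf K) := by
  classical
  haveI : Fintype (G ⧸ M) := Fintype.ofFinite _
  have hcardΩ : Nat.card (G ⧸ M) = n := by rw [← hn]; rfl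
  have hn3 : 3 ≤ n := by
    have h1 : n ≠ 1 := fun h => hM.1 (Subgroup.index_eq_one.1 (hn.trans h))
    have := hodd.pos
    rcases hodd with ⟨j, rfl⟩
    omega
  haveI : Nontrivial (G ⧸ M) := Finite.one_lt_card_iff_nontrivial.1 (by omega)
  obtain ⟨a, ha⟩ : ∃ a : G ⧸ M, a = ((1 : G) : G ⧸ M) := ⟨_, rfl⟩
  have hstab : ∀ g : G, g • a = a ↔ g ∈ M := fun g => by
    rw [← MulAction.mem_stabilizer_iff, ha, MulAction.stabilizer_quotient]
  haveI hprim : MulAction.IsPreprimitive G (G ⧸ M) := by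
    rw [← MulAction.isCoatom_stabilizer_iff_preprimitive G a, show MulAction.stabilizer G a = M from Subgroup.ext hstab]
    exact hM
  have e : (G ⧸ M) ≃ Fin n := (Finite.equivFin _).trans (finCongr hcardΩ)
  have hreal := fun σ hσ => realise (G := G) e hA σ hσ
  by_cases hMK : M ≤ K
  · rcases eq_or_lt_of_le hMK with h | h
    · rw [← h]; exact hmax
    · exact absurd (hM.2 K h) hK.1
  have hlt : (K ⊓ M).subgroupOf M ≠ ⊤ := fun h => hMK (by
    rw [Subgroup.subgroupOf_eq_top] at h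
    exact h.trans inf_le_left)
  have hHeq : H = K ⊓ M := by
    refine le_antisymm (le_inf hHK hHM) fun g hg => ?_
    rcases eq_or_lt_of_le (Subgroup.comap_mono (f := M.subtype) (le_inf hHK hHM)) with h | h
    · have : (⟨g, hg.2⟩ : M) ∈ (K ⊓ M).subgroupOf M := hg
      have h' : H.subgroupOf M = (K ⊓ M).subgroupOf M := h
      rw [← h'] at this
      exact this
    · exact absurd (hmax.2 _ h) hlt
  have hHstab : H.subgroupOf K = MulAction.stabilizer K a := by
    ext k
    rw [Subgroup.mem_subgroupOf, MulAction.mem_stabilizer_iff, hHeq, Subgroup.mem_inf]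
    exact ⟨fun h => (hstab k.1).2 h.2, fun h => ⟨k.2, (hstab k.1).1 h⟩⟩
  rw [hHstab]
  by_cases htr : MulAction.IsPretransitive K (G ⧸ M)
  · by_cases hKp : MulAction.IsPreprimitive K (G ⧸ M)
    · exact MulAction.IsPreprimitive.isCoatom_stabilizer_of_isPreprimitive K a
    exfalso
    obtain ⟨B, haB, hB, hBnt⟩ : ∃ B : Set (G ⧸ M), a ∈ B ∧ MulAction.IsBlock K B ∧ ¬ MulAction.IsTrivialBlock B := by
      by_contra hno
      push Not at hno
      exact hKp (MulAction.IsPreprimitive.of_isTrivialBlock_base a (fun {B} h h' => hno B h h'))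
    obtain ⟨hBs, hBu⟩ := not_or.1 hBnt
    obtain ⟨b, hb, hba⟩ := (Set.not_subsingleton_iff.1 hBs).exists_ne a
    have hblk : ∀ k : K, ∀ z ∈ B, k • z ∈ B → ∀ w, k • w ∈ B ↔ w ∈ B := fun k z hz hkz w => by
      have h := MulAction.isBlock_iff_smul_eq_of_mem.1 hB hz hkz
      constructor
      · intro hw
        rw [← h] at hw
        exact Set.smul_mem_smul_set_iff.1 hw
      · intro hw
        rw [← h]
        exact Set.smul_mem_smul_set hw
    -- at least three blocks
    have h3B : 3 * B.ncard ≤ n := by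
      obtain ⟨t, ht⟩ := hB.ncard_dvd_card ⟨a, haB⟩
      rw [hcardΩ] at ht
      have hlt' : B.ncard < n := by
        rw [← hcardΩ, ← Set.ncard_univ]
        exact Set.ncard_lt_ncard (Set.ssubset_univ_iff.2 hBu)
      have h2 : t ≠ 2 := fun h => by subst h; exact (Nat.not_even_iff_odd.2 hodd) ⟨B.ncard, by omega⟩
      have h0 : t ≠ 0 := fun h => by subst h; omega
      have h1 : t ≠ 1 := fun h => by subst h; omega
      calc 3 * B.ncard ≤ t * B.ncard := Nat.mul_le_mul_right _ (by omega)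
        _ = n := by rw [mul_comm, ← ht]
    have hBpos : 0 < B.ncard := (Set.ncard_pos).2 ⟨a, haB⟩
    obtain ⟨x, hx⟩ : ∃ x, x ∉ B := (Set.ne_univ_iff_exists_notMem B).1 hBu
    obtain ⟨kx, hkx⟩ := MulAction.exists_smul_eq K a x
    obtain ⟨y, hyB, hyC⟩ : ∃ y, y ∉ B ∧ y ∉ kx • B := by
      by_contra hno
      push Not at hno
      have h1 : (Set.univ : Set (G ⧸ M)).ncard ≤ B.ncard + (kx • B).ncard :=
        (Set.ncard_le_ncard (fun z _ => (em (z ∈ B)).imp id (hno z))).trans (Set.ncard_union_le _ _)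
      rw [Set.ncard_univ, hcardΩ, Set.ncard_smul_set] at h1
      omega
    obtain ⟨x', hx'⟩ : ∃ x', x' = kx • b := ⟨_, rfl⟩
    have hx'x : x' ≠ x := fun h => hba (MulAction.injective kx (by
      show kx • b = kx • a
      rw [← hx', h, hkx]))
    have hx'B : x' ∉ B := fun h => hx (by rw [← hkx]; exact (hblk kx b hb (hx' ▸ h) a).2 haB)
    have hyx : y ≠ x := fun h => hyC (by rw [h, ← hkx]; exact Set.smul_mem_smul_set haB)
    have hyx' : y ≠ x' := fun h => hyC (by rw [h, hx']; exact Set.smul_mem_smul_set hb)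
    -- the stabiliser of a and B
    let T : Subgroup G :=
      { carrier := {g | g • a = a ∧ ∀ w, g • w ∈ B ↔ w ∈ B}
        mul_mem' := fun {g g'} hg hg' => ⟨by rw [mul_smul, hg'.1, hg.1], fun w => by rw [mul_smul, hg.2, hg'.2]⟩
        one_mem' := ⟨one_smul _ a, fun w => by rw [one_smul]⟩
        inv_mem' := fun {g} hg => ⟨by rw [inv_smul_eq_iff, hg.1], fun w => by rw [← hg.2, smul_inv_smul]⟩ }
    have hHT : H ≤ T := fun g hg => by
      rw [hHeq] at hg
      have hga : g • a = a := (hstab g).2 hg.2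
      exact ⟨hga, fun w => hblk ⟨g, hg.1⟩ a haB (by show g • a ∈ B; rw [hga]; exact haB) w⟩
    obtain ⟨g₁, hg₁⟩ := hreal (Equiv.swap x x' * Equiv.swap x' y) (even_swaps hx'x.symm hyx'.symm)
    have hfixB : ∀ w ∈ B, g₁ • w = w := fun w hw => by
      rw [hg₁, Equiv.Perm.mul_apply, Equiv.swap_apply_of_ne_of_ne (fun h : w = x' => hx'B (h ▸ hw))
          (fun h : w = y => hyB (h ▸ hw)),
        Equiv.swap_apply_of_ne_of_ne (fun h : w = x => hx (h ▸ hw)) (fun h : w = x' => hx'B (h ▸ hw))]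
    have hg₁T : g₁ ∈ T := ⟨hfixB a haB, fun w => ⟨fun h => by
      have := MulAction.injective g₁ (show g₁ • (g₁ • w) = g₁ • w from hfixB _ h)
      rwa [this] at h, fun h => by rw [hfixB w h]; exact h⟩⟩
    have hg₁x : g₁ • x = x' := by
      rw [hg₁, Equiv.Perm.mul_apply, Equiv.swap_apply_of_ne_of_ne hx'x.symm hyx.symm, Equiv.swap_apply_left]
    have hg₁x' : g₁ • x' = y := by
      rw [hg₁, Equiv.Perm.mul_apply, Equiv.swap_apply_left, Equiv.swap_apply_of_ne_of_ne hyx hyx']
    have hg₁H : g₁ ∉ H := fun h => by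
      rw [hHeq] at h
      let k' : K := kx⁻¹ * ⟨g₁, h.1⟩ * kx
      have e1 : k' • a = b := by
        rw [mul_smul, mul_smul, hkx, inv_smul_eq_iff, ← hx']; exact hg₁x
      have e2 := (hblk k' a haB (e1 ▸ hb) b).2 hb
      rw [mul_smul, mul_smul, ← hx'] at e2
      have e3 : kx⁻¹ • y ∈ B := hg₁x' ▸ e2
      exact hyC (Set.mem_smul_set_iff_inv_smul_mem.2 e3)
    have hTM : T ≤ M := fun g hg => (hstab g).1 hg.1
    have hlt2 : H.subgroupOf M < T.subgroupOf M :=
      lt_of_le_not_ge (fun g hg => hHT hg) fun h => hg₁H (h (show (⟨g₁, hTM hg₁T⟩ : M) ∈ T.subgroupOf M from hg₁T))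
    have hMT : M ≤ T := Subgroup.subgroupOf_eq_top.1 (hmax.2 _ hlt2)
    have hbx : b ≠ x := fun h => hx (h ▸ hb)
    have hby : b ≠ y := fun h => hyB (h ▸ hb)
    obtain ⟨g₂, hg₂⟩ := hreal (Equiv.swap b x * Equiv.swap x y) (even_swaps hbx hyx.symm)
    have hg₂a : g₂ • a = a := by
      rw [hg₂, Equiv.Perm.mul_apply, Equiv.swap_apply_of_ne_of_ne (fun h : a = x => hx (h ▸ haB))
        (fun h : a = y => hyB (h ▸ haB)), Equiv.swap_apply_of_ne_of_ne hba.symm (fun h : a = x => hx (h ▸ haB))]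
    have hg₂b : g₂ • b = x := by
      rw [hg₂, Equiv.Perm.mul_apply, Equiv.swap_apply_of_ne_of_ne hbx hby, Equiv.swap_apply_left]
    exact hx (hg₂b ▸ ((hMT ((hstab g₂).1 hg₂a)).2 b).2 hb)
  -- intransitive
  set O := MulAction.orbit K a with hO
  have haO : a ∈ O := MulAction.mem_orbit_self a
  have hOu : ∃ z, z ∉ O := by
    by_contra hno
    push Not at hno
    exact htr ((MulAction.isPretransitive_iff_base a).2 fun z => MulAction.mem_orbit_iff.1 (hno z))
  let T : Subgroup G :=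
    { carrier := {g | ∀ w, g • w ∈ O ↔ w ∈ O}
      mul_mem' := fun {g g'} hg hg' w => by rw [mul_smul, hg, hg']
      one_mem' := fun w => by rw [one_smul]
      inv_mem' := fun {g} hg w => by rw [← hg, smul_inv_smul] }
  have hKT : K ≤ T := fun k hk w => by
    constructor
    · intro h
      obtain ⟨k', hk'⟩ := h
      refine ⟨(⟨k, hk⟩ : K)⁻¹ * k', ?_⟩
      show ((⟨k, hk⟩ : K)⁻¹ * k') • a = w
      rw [mul_smul, inv_smul_eq_iff]; exact hk'
    · rintro ⟨k', rfl⟩
      exact ⟨⟨k, hk⟩ * k', mul_smul _ _ _⟩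
  have hTK : T = K := by
    rcases eq_or_lt_of_le hKT with h | h
    · exact h.symm
    · obtain ⟨z, hz⟩ := hOu
      obtain ⟨g, hg⟩ := MulAction.exists_smul_eq G a z
      have : g ∈ T := (hK.2 T h).symm ▸ Subgroup.mem_top g
      exact absurd (hg ▸ (this a).2 haO) hz
  refine ⟨fun h => ?_, fun L hL => ?_⟩
  · have hKM : K ≤ M := fun k hk => by
      have := Subgroup.mem_top (⟨k, hk⟩ : K)
      rw [← h] at this
      exact (hstab k).1 this
    rcases eq_or_lt_of_le hKM with h' | h'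
    · exact hMK (h' ▸ le_rfl)
    · exact hM.1 (hK.2 M h')
  obtain ⟨l, hl, hls⟩ := SetLike.exists_of_lt hL
  set b := l • a with hb
  have hba : b ≠ a := fun h => hls (MulAction.mem_stabilizer_iff.2 h)
  have hbO : b ∈ O := MulAction.mem_orbit a l
  rw [eq_top_iff]
  intro k _
  set c := k • a with hc
  have hcO : c ∈ O := MulAction.mem_orbit a k
  rcases eq_or_ne c a with hca | hca
  · exact hL.le (MulAction.mem_stabilizer_iff.2 hca)
  suffices ∃ s : K, s • a = a ∧ s • b = c by
    obtain ⟨s, hsa, hsb⟩ := this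
    have h1 : (s * l)⁻¹ * k ∈ L := hL.le (MulAction.mem_stabilizer_iff.2 (by
      rw [mul_smul, inv_smul_eq_iff, mul_smul, ← hb, hsb]))
    have h2 := mul_mem (mul_mem (hL.le (MulAction.mem_stabilizer_iff.2 hsa)) hl) h1
    rwa [← mul_assoc, mul_inv_cancel, one_mul] at h2
  rcases eq_or_ne b c with hbc | hbc
  · exact ⟨1, one_smul _ a, by rw [one_smul, hbc]⟩
  have hmk : ∀ π : Equiv.Perm (G ⧸ M), Equiv.Perm.sign π = 1 → (∀ w, π w ∈ O ↔ w ∈ O) → π a = a → π b = c →
      ∃ s : K, s • a = a ∧ s • b = c := fun π h1 h2 h3 h4 => by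
    obtain ⟨g, hg⟩ := hreal π h1
    have hgK : g ∈ K := hTK ▸ fun w => by rw [hg]; exact h2 w
    exact ⟨⟨g, hgK⟩, (hg a).trans h3, (hg b).trans h4⟩
  by_cases hd : ∃ d ∈ O, d ≠ a ∧ d ≠ b ∧ d ≠ c
  · obtain ⟨d, hdO, hda, hdb, hdc⟩ := hd
    refine hmk (Equiv.swap b c * Equiv.swap c d) (even_swaps hbc hdc.symm) (fun w => ?_) ?_ ?_
    · rw [Equiv.Perm.mul_apply, swap_mem (iff_of_true hbO hcO), swap_mem (iff_of_true hcO hdO)]
    · rw [Equiv.Perm.mul_apply, Equiv.swap_apply_of_ne_of_ne hca.symm hda.symm,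
        Equiv.swap_apply_of_ne_of_ne hba.symm hca.symm]
    · rw [Equiv.Perm.mul_apply, Equiv.swap_apply_of_ne_of_ne hbc hdb.symm, Equiv.swap_apply_left]
  · push Not at hd
    have hsub : ∀ w ∈ O, w = a ∨ w = b ∨ w = c := fun w hw => by
      rcases eq_or_ne w a with h | h
      · exact Or.inl h
      rcases eq_or_ne w b with h' | h'
      · exact Or.inr (Or.inl h')
      exact Or.inr (Or.inr (hd w hw h h'))
    obtain ⟨p, hp⟩ := hOu
    obtain ⟨q, hq, hqp⟩ : ∃ q, q ∉ O ∧ q ≠ p := by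
      by_contra hno
      push Not at hno
      have h1 : (Set.univ : Set (G ⧸ M)).ncard ≤ ({a, b, c, p} : Set (G ⧸ M)).ncard :=
        Set.ncard_le_ncard fun w _ => by
          by_cases hw : w ∈ O
          · rcases hsub w hw with rfl | rfl | rfl <;> simp
          · simp [hno w hw]
      have h2 : ({a, b, c, p} : Set (G ⧸ M)).ncard = 4 := by
        have hpa : p ≠ a := fun h => hp (h ▸ haO)
        have hpb : p ≠ b := fun h => hp (h ▸ hbO)
        have hpc : p ≠ c := fun h => hp (h ▸ hcO)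
        rw [Set.ncard_insert_of_notMem (by simp [hba.symm, hca.symm, hpa.symm]),
          Set.ncard_insert_of_notMem (by simp [hbc, hpb.symm]), Set.ncard_pair hpc.symm]
      rw [Set.ncard_univ, hcardΩ, h2] at h1
      have h4 : n ≠ 3 := fun h => by
        have h5 : ({a, b, c, p} : Set (G ⧸ M)).ncard ≤ (Set.univ : Set (G ⧸ M)).ncard :=
          Set.ncard_le_ncard (Set.subset_univ _)
        rw [Set.ncard_univ, hcardΩ, h2] at h5
        omega
      rcases hodd with ⟨j, hj⟩
      omega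
    have hnp : ∀ w ∈ O, w ≠ p ∧ w ≠ q := fun w hw => ⟨fun h => hp (h ▸ hw), fun h => hq (h ▸ hw)⟩
    refine hmk (Equiv.swap b c * Equiv.swap p q) (even_swaps hbc hqp.symm) (fun w => ?_) ?_ ?_
    · rw [Equiv.Perm.mul_apply, swap_mem (iff_of_true hbO hcO), swap_mem (iff_of_false hp hq)]
    · rw [Equiv.Perm.mul_apply, Equiv.swap_apply_of_ne_of_ne (hnp a haO).1 (hnp a haO).2,
        Equiv.swap_apply_of_ne_of_ne hba.symm hca.symm]
    · rw [Equiv.Perm.mul_apply, Equiv.swap_apply_of_ne_of_ne (hnp b hbO).1 (hnp b hbO).2, Equiv.swap_apply_left]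

end Cfsg.Agent.S5885
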