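import Cfsg.Statements.S5887
import Mathlib

set_option autoImplicit false
open Cfsg

namespace Cfsg.Agent.S5887

open Cfsg.Geo
open scoped Matrix MatrixGroups

variable {F : Type*} [Field F] [Fintype F] {n : ℕ}

theorem isField_sub {r : ℕ} [NeZero n] {K : Subalgebra F (Matrix (Fin n) (Fin n) F)} (hK : IsFieldSubalgebra r K) :
    IsField K where
  exists_pair_ne := ⟨0, 1, fun h => zero_ne_one (congrArg Subtype.val h)⟩
  mul_comm x y := Subtype.ext (hK.comm _ x.2 _ y.2)
  mul_inv_cancel {x} hx := by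
    obtain ⟨y, hy, h⟩ := hK.inv _ x.2 fun h => hx (Subtype.ext h)
    exact ⟨⟨y, hy⟩, Subtype.ext h⟩

/-- a matrix of determinant one centralising `L` and not normalising `K` -/
theorem exists_transvection [NeZero n] {r s : ℕ} {K L : Subalgebra F (Matrix (Fin n) (Fin n) F)}
    (hK : IsFieldSubalgebra r K) (hL : IsFieldSubalgebra s L) (hLK : L ≤ K) (hne : L ≠ K) (hr : r < n) :
    ∃ g : GL (Fin n) F, g ∈ specialLinear (Fin n) F ∧ g ∈ subalgebraNormalizer L ∧ g ∉ subalgebraNormalizer K := by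
  classical
  obtain ⟨k, hk, hkL⟩ : ∃ k ∈ K, k ∉ L := SetLike.not_le_iff_exists.1 fun h => hne (le_antisymm hLK h)
  obtain ⟨e, he⟩ := exists_ne (0 : Fin n → F)
  obtain ⟨e₂, he₂⟩ : ∃ v : Fin n → F, ∀ a ∈ K, a *ᵥ e ≠ v := by
    by_contra! h
    let T : K →ₗ[F] (Fin n → F) :=
      { toFun := fun a => (a : Matrix (Fin n) (Fin n) F) *ᵥ e
        map_add' := fun a b => Matrix.add_mulVec _ _ _
        map_smul' := fun c a => Matrix.smul_mulVec c _ _ }
    have := LinearMap.finrank_le_finrank_of_surjective (f := T) fun v => by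
      obtain ⟨a, ha, rfl⟩ := h v; exact ⟨⟨a, ha⟩, rfl⟩
    rw [Module.finrank_pi, Fintype.card_fin, hK.finrank_eq] at this
    omega
  letI : Field L := (isField_sub hL).toField
  letI : Module L (Fin n → F) :=
    Module.compHom _ ((Matrix.toLinAlgEquiv' (R := F) (n := Fin n)).toAlgHom.toRingHom.comp L.val.toRingHom)
  have hsmul : ∀ (l : L) (v : Fin n → F), l • v = (l : Matrix (Fin n) (Fin n) F) *ᵥ v := fun l v => rfl
  have hli : LinearIndependent L ![e, k *ᵥ e, e₂] := by
    rw [Fintype.linearIndependent_iff]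
    intro g hg
    rw [Fin.sum_univ_three] at hg
    replace hg : ((g 0 : Matrix (Fin n) (Fin n) F) + (g 1 : Matrix (Fin n) (Fin n) F) * k) *ᵥ e + (g 2 : Matrix (Fin n) (Fin n) F) *ᵥ e₂ = 0 := by
      rw [Matrix.add_mulVec, ← Matrix.mulVec_mulVec]; exact hg
    have hg2 : (g 2 : Matrix (Fin n) (Fin n) F) = 0 := by
      by_contra h0
      obtain ⟨y, hy, hxy⟩ := hL.inv _ (g 2).2 h0
      rw [hL.comm _ (g 2).2 _ hy] at hxy
      refine he₂ (-(y * ((g 0 : Matrix (Fin n) (Fin n) F) + (g 1 : Matrix (Fin n) (Fin n) F) * k))) (neg_mem (mul_mem (hLK hy)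
        (add_mem (hLK (g 0).2) (mul_mem (hLK (g 1).2) hk)))) ?_
      have := congrArg (y *ᵥ ·) hg
      simp only [Matrix.mulVec_add, Matrix.mulVec_mulVec, hxy, Matrix.one_mulVec, Matrix.mulVec_zero] at this
      rw [Matrix.neg_mulVec]
      exact (neg_eq_iff_eq_neg.2 (eq_neg_of_add_eq_zero_left this))
    rw [hg2, Matrix.zero_mulVec, add_zero] at hg
    have h01 : (g 0 : Matrix (Fin n) (Fin n) F) + (g 1 : Matrix (Fin n) (Fin n) F) * k = 0 := by
      by_contra h0
      obtain ⟨y, hy, hxy⟩ := hK.inv _ (add_mem (hLK (g 0).2) (mul_mem (hLK (g 1).2) hk)) h0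
      rw [hK.comm _ (add_mem (hLK (g 0).2) (mul_mem (hLK (g 1).2) hk)) _ hy] at hxy
      apply he
      rw [← Matrix.one_mulVec e, ← hxy, ← Matrix.mulVec_mulVec, hg, Matrix.mulVec_zero]
    have hg1 : (g 1 : Matrix (Fin n) (Fin n) F) = 0 := by
      by_contra h0
      obtain ⟨y, hy, hxy⟩ := hL.inv _ (g 1).2 h0
      rw [hL.comm _ (g 1).2 _ hy] at hxy
      refine hkL ?_
      have : k = -(y * (g 0 : Matrix (Fin n) (Fin n) F)) := by
        rw [eq_neg_iff_add_eq_zero, add_comm, ← one_mul k, ← hxy, mul_assoc, ← mul_add, h01, mul_zero]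
      rw [this]
      exact neg_mem (mul_mem hy (g 0).2)
    rw [hg1, zero_mul, add_zero] at h01
    intro i
    fin_cases i <;> exact Subtype.ext ‹_›
  obtain ⟨φ, hφ⟩ : ∃ φ : (Fin n → F) →ₗ[L] L, φ ∘ ![e, k *ᵥ e, e₂] = ![0, 1, 0] := by
    obtain ⟨φ, hφ⟩ := LinearMap.exists_extend ((Finsupp.lapply 1).comp hli.repr)
    refine ⟨φ, funext fun i => ?_⟩
    have h1 := LinearMap.congr_fun hφ ⟨![e, k *ᵥ e, e₂] i, Submodule.subset_span ⟨i, rfl⟩⟩
    rw [Function.comp_apply, show φ (![e, k *ᵥ e, e₂] i) = _ from h1, LinearMap.comp_apply, hli.repr_eq_single i _ rfl,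
      Finsupp.lapply_apply]
    fin_cases i <;> simp
  have hφ0 : φ e = 0 := congrFun hφ 0
  have hφ1 : φ (k *ᵥ e) = 1 := congrFun hφ 1
  have hφ2 : φ e₂ = 0 := congrFun hφ 2
  have hsc : ∀ (c : F) (v : Fin n → F), φ (c • v) = c • φ v := fun c v => by
    have h1 : c • v = (algebraMap F L c) • v := by
      rw [hsmul, Subalgebra.coe_algebraMap, Algebra.algebraMap_eq_smul_one, Matrix.smul_mulVec, Matrix.one_mulVec]
    rw [h1, map_smul, smul_eq_mul]
    exact Subtype.ext (Algebra.smul_def c (φ v : Matrix (Fin n) (Fin n) F)).symm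
  let ψ : (Fin n → F) →ₗ[F] (Fin n → F) :=
    { toFun := fun v => (φ v : Matrix (Fin n) (Fin n) F) *ᵥ e₂
      map_add' := fun v w => by rw [map_add]; exact Matrix.add_mulVec _ _ _
      map_smul' := fun c v => by rw [hsc]; exact Matrix.smul_mulVec c _ _ }
  set M : Matrix (Fin n) (Fin n) F := LinearMap.toMatrix' ψ
  have hM : ∀ v, M *ᵥ v = (φ v : Matrix (Fin n) (Fin n) F) *ᵥ e₂ := fun v => LinearMap.toMatrix'_mulVec ψ v
  have hφm : ∀ (l : L) (v : Fin n → F), φ ((l : Matrix (Fin n) (Fin n) F) *ᵥ v) = l * φ v := fun l v => φ.map_smul l v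
  have hM2 : M * M = 0 := Matrix.ext_of_mulVec_single fun i => by
    rw [← Matrix.mulVec_mulVec, hM, hM, hφm, hφ2, mul_zero, ZeroMemClass.coe_zero, Matrix.zero_mulVec,
      Matrix.zero_mulVec]
  have hcomm : ∀ l ∈ L, M * l = l * M := fun l hl => Matrix.ext_of_mulVec_single fun i => by
    rw [← Matrix.mulVec_mulVec, ← Matrix.mulVec_mulVec, hM, hM, show l = ((⟨l, hl⟩ : L) : Matrix (Fin n) (Fin n) F) from rfl,
      hφm, Subalgebra.coe_mul, ← Matrix.mulVec_mulVec]
  let g : GL (Fin n) F := ⟨1 + M, 1 - M, by noncomm_ring [hM2], by noncomm_ring [hM2]⟩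
  refine ⟨g, ?_, ?_, fun hg => ?_⟩
  · -- determinant
    rw [specialLinear, MonoidHom.mem_ker]
    obtain ⟨p, hp⟩ := CharP.exists F
    have hpp := CharP.char_is_prime F p
    have := Fact.mk hpp
    have hpow : ∀ j : ℕ, (1 + M) ^ j = 1 + (j : Matrix (Fin n) (Fin n) F) * M := by
      intro j
      induction j with
      | zero => simp
      | succ j ih => rw [pow_succ, ih]; push_cast; noncomm_ring [hM2]
    have h1 : (Matrix.det (1 + M)) ^ p = 1 := by
      have : ((p : ℕ) : Matrix (Fin n) (Fin n) F) = 0 := by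
        rw [← map_natCast (algebraMap F (Matrix (Fin n) (Fin n) F)), CharP.cast_eq_zero, map_zero]
      rw [← Matrix.det_pow, hpow, this, zero_mul, add_zero, Matrix.det_one]
    refine Units.ext ?_
    show Matrix.det (1 + M) = 1
    exact frobenius_inj F p (by rw [frobenius_def, frobenius_def, h1, one_pow])
  · intro x
    show x ∈ L ↔ (1 + M) * x * (1 - M) ∈ L
    constructor
    · intro hx
      have : (1 + M) * x * (1 - M) = x * ((1 + M) * (1 - M)) := by
        rw [add_mul, one_mul, hcomm x hx, ← mul_assoc, mul_add, mul_one]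
      rwa [this, show (1 + M) * (1 - M) = 1 by noncomm_ring [hM2], mul_one]
    · intro hx
      have h2 := hcomm _ hx
      have hM1 : (1 - M) * (1 + M) = 1 := by noncomm_ring [hM2]
      have : x = (1 + M) * x * (1 - M) :=
        calc x = ((1 - M) * (1 + M)) * x * ((1 - M) * (1 + M)) := by rw [hM1, one_mul, mul_one]
          _ = (1 - M) * ((1 + M) * x * (1 - M)) * (1 + M) := by simp only [mul_assoc]
          _ = (1 + M) * x * (1 - M) * ((1 - M) * (1 + M)) := by
              generalize (1 + M) * x * (1 - M) = y at h2 ⊢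
              rw [← mul_assoc y, sub_mul (1 : Matrix (Fin n) (Fin n) F) M y, one_mul, h2, mul_sub, mul_one]
          _ = _ := by rw [hM1, mul_one]
      rwa [← this] at hx
  · -- `K e` is moved
    have h1 := (hg k).1 hk
    refine he₂ (((g : GL (Fin n) F) : Matrix (Fin n) (Fin n) F) * k * ((g⁻¹ : GL (Fin n) F) : Matrix (Fin n) (Fin n) F) - k)
      (sub_mem h1 hk) ?_
    show ((1 + M) * k * (1 - M) - k) *ᵥ e = e₂
    rw [Matrix.sub_mulVec, ← Matrix.mulVec_mulVec, ← Matrix.mulVec_mulVec, Matrix.sub_mulVec, Matrix.one_mulVec, hM e,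
      hφ0, ZeroMemClass.coe_zero, Matrix.zero_mulVec, sub_zero, Matrix.add_mulVec, Matrix.one_mulVec, hM, hφ1,
      OneMemClass.coe_one, Matrix.one_mulVec, add_sub_cancel_left]

/-- Let F be a finite field, n a positive integer and r a composite number (r > 1, not prime) that divides n with r < n. Let K be a subalgebra of the algebra of n × n matrices over F which is a field of degree r over F (commutative, every non-zero element invertible, of dimension r over F). Then the normaliser N of K in GL_n(F) (a group of type ΓL_{n/r}(F_{q^r})) is not a maximal subgroup of GL_n(F), and N ∩ SL_n(F) is not a maximal subgroup of SL_n(F): both lie properly inside the normaliser of an intermediate subfield of prime degree over F. -/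
theorem result {F : Type*} [Field F]
    [Fintype F] (n r : ℕ) (hr1 : 1 < r) (hrp : ¬ r.Prime) (hrn : r ∣ n) (hlt : r < n)
    (K : Subalgebra F (Matrix (Fin n) (Fin n) F)) (hK : Cfsg.Geo.IsFieldSubalgebra r K) :
    ¬ IsCoatom (Cfsg.Geo.subalgebraNormalizer K) ∧
      ¬ Cfsg.Geo.IsMaximalIn (Cfsg.Geo.specialLinear (Fin n) F)
        (Cfsg.Geo.subalgebraNormalizer K ⊓ Cfsg.Geo.specialLinear (Fin n) F) := by
  classical
  haveI : NeZero n := ⟨by omega⟩
  letI : Field K := (isField_sub hK).toField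
  obtain ⟨s, hs, hsr⟩ := Nat.exists_prime_and_dvd (by omega : r ≠ 1)
  have hsr' : s < r := lt_of_le_of_ne (Nat.le_of_dvd (by omega) hsr) fun h => hrp (h ▸ hs)
  set q := Fintype.card F
  haveI : Finite K := Finite.of_injective _ Subtype.val_injective
  -- the fixed field of the `s`-th power of Frobenius
  obtain ⟨p, hp⟩ := CharP.exists F
  have hpp := CharP.char_is_prime F p
  haveI := Fact.mk hpp
  haveI : CharP K p := charP_of_injective_algebraMap (algebraMap F K).injective p
  obtain ⟨l, hl⟩ := FiniteField.card F p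
  let T : K →ₐ[F] K :=
    { toRingHom := iterateFrobenius K p (l * s)
      commutes' := fun c => by
        show iterateFrobenius K p (l * s) (algebraMap F K c) = _
        rw [iterateFrobenius_def, ← map_pow, pow_mul, ← hl.2, FiniteField.pow_card_pow] }
  let L : Subalgebra F (Matrix (Fin n) (Fin n) F) := (AlgHom.equalizer T (AlgHom.id F K)).map K.val
  have hmemL : ∀ x : Matrix (Fin n) (Fin n) F, x ∈ L ↔ x ∈ K ∧ x ^ q ^ s = x := by
    intro x
    constructor
    · rintro ⟨y, hy, rfl⟩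
      refine ⟨y.2, ?_⟩
      have h := congrArg Subtype.val (show y ^ p ^ (l * s : ℕ) = y from (iterateFrobenius_def p (l * s) y).symm.trans hy)
      rwa [SubmonoidClass.coe_pow, pow_mul, ← hl.2] at h
    · rintro ⟨hx, hpow⟩
      refine ⟨⟨x, hx⟩, ?_, rfl⟩
      show iterateFrobenius K p (l * s) ⟨x, hx⟩ = ⟨x, hx⟩
      rw [iterateFrobenius_def, pow_mul, ← hl.2]
      exact Subtype.ext hpow
  have hLK : L ≤ K := fun x hx => ((hmemL x).1 hx).1
  -- sizes
  have hcardK : Nat.card K = q ^ r := by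
    rw [← hK.finrank_eq, Module.natCard_eq_pow_finrank (K := F), Nat.card_eq_fintype_card]
  letI : Fintype K := Fintype.ofFinite K
  have hq : 1 < q := Fintype.one_lt_card
  have hL_ne_K : L ≠ K := by
    intro h
    obtain ⟨g, hg⟩ := IsCyclic.exists_ofOrder_eq_natCard (α := Kˣ)
    have hgL := ((hmemL ((g : K) : Matrix (Fin n) (Fin n) F)).1 (h.symm ▸ (g : K).2)).2
    have hgK : (g : K) ^ q ^ s = g := Subtype.ext hgL
    have : g ^ (q ^ s - 1) = 1 := by
      apply Units.ext
      have h1 : (g : K) ^ (q ^ s - 1) * g = 1 * g := by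
        rw [← pow_succ, Nat.sub_add_cancel (Nat.one_le_pow _ _ (by omega)), hgK, one_mul]
      simpa using mul_right_cancel₀ g.ne_zero h1
    have hd := Nat.le_of_dvd (by have := Nat.one_lt_pow hs.ne_zero hq; omega) (orderOf_dvd_of_pow_eq_one this)
    rw [hg, Nat.card_units, hcardK] at hd
    have hh := Nat.pow_lt_pow_right hq hsr'
    have h1 : 1 ≤ q ^ s := Nat.one_le_pow _ _ (by omega)
    generalize q ^ r = A, q ^ s = B at hd hh h1
    omega
  have hL_ne_bot : L ≠ ⊥ := by
    intro h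
    obtain ⟨g, hg⟩ := IsCyclic.exists_ofOrder_eq_natCard (α := Kˣ)
    obtain ⟨c, hc⟩ := hsr
    have hdvd : q ^ s - 1 ∣ q ^ r - 1 := by rw [hc, pow_mul]; exact Nat.sub_one_dvd_pow_sub_one _ _
    obtain ⟨e, he⟩ := hdvd
    have hep : 0 < e := by
      rcases Nat.eq_zero_or_pos e with rfl | h
      · have := Nat.one_lt_pow (show r ≠ 0 by omega) hq; omega
      · exact h
    have ho : orderOf (g ^ e) = q ^ s - 1 := by
      rw [orderOf_pow' _ hep.ne', hg, Nat.card_units, hcardK, he, Nat.gcd_mul_left_left, Nat.mul_div_cancel _ hep]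
    have hx : ((g ^ e : Kˣ) : K) ^ q ^ s = ((g ^ e : Kˣ) : K) := by
      have h1 : (g ^ e) ^ (q ^ s - 1) = 1 := by rw [← ho]; exact pow_orderOf_eq_one _
      conv_rhs => rw [← one_mul ((g ^ e : Kˣ) : K), ← Units.val_one, ← h1, Units.val_pow_eq_pow_val, ← pow_succ,
        Nat.sub_add_cancel (Nat.one_le_pow _ _ (by omega))]
    have hmem : (((g ^ e : Kˣ) : K) : Matrix (Fin n) (Fin n) F) ∈ L := (hmemL _).2 ⟨((g ^ e : Kˣ) : K).2, by
      rw [← SubmonoidClass.coe_pow, hx]⟩
    rw [h, Algebra.mem_bot] at hmem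
    obtain ⟨c', hc'⟩ := hmem
    have hF : ((g ^ e : Kˣ) : K) = algebraMap F K c' := Subtype.ext hc'.symm
    have hc0 : c' ≠ 0 := fun h0 => (g ^ e).ne_zero (by rw [hF, h0, map_zero])
    have : (g ^ e) ^ (q - 1) = 1 := by
      apply Units.ext
      rw [Units.val_pow_eq_pow_val, hF, ← map_pow, FiniteField.pow_card_sub_one_eq_one c' hc0, map_one, Units.val_one]
    have hd := Nat.le_of_dvd (by omega) (orderOf_dvd_of_pow_eq_one this)
    rw [ho] at hd
    have := Nat.pow_lt_pow_right hq hs.one_lt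
    rw [pow_one] at this
    omega
  have hLF : IsFieldSubalgebra (Module.finrank F L) L := by
    refine ⟨fun x hx y hy => hK.comm x (hLK hx) y (hLK hy), fun x hx hx0 => ?_, rfl⟩
    obtain ⟨y, hy, hxy⟩ := hK.inv x (hLK hx) hx0
    refine ⟨y, (hmemL y).2 ⟨hy, ?_⟩, hxy⟩
    have hyx : y * x = 1 := (hK.comm y hy x (hLK hx)).trans hxy
    have hc : Commute x y := hK.comm x (hLK hx) y hy
    have h1 : x * y ^ q ^ s = 1 := by
      conv_lhs => rw [← ((hmemL x).1 hx).2]
      rw [← hc.mul_pow, hxy, one_pow]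
    calc y ^ q ^ s = (y * x) * y ^ q ^ s := by rw [hyx, one_mul]
      _ = y := by rw [mul_assoc, h1, mul_one]
  have hBF : IsFieldSubalgebra 1 (⊥ : Subalgebra F (Matrix (Fin n) (Fin n) F)) := by
    refine ⟨fun x hx y _ => ?_, fun x hx hx0 => ?_, Subalgebra.finrank_bot⟩
    · obtain ⟨c, rfl⟩ := Algebra.mem_bot.1 hx; exact Algebra.commutes c y
    · obtain ⟨c, rfl⟩ := Algebra.mem_bot.1 hx
      exact ⟨algebraMap _ _ c⁻¹, Algebra.mem_bot.2 ⟨_, rfl⟩, by
        rw [← map_mul, mul_inv_cancel₀ (fun h => hx0 (by rw [h, map_zero])), map_one]⟩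
  have hLr : Module.finrank F L < n :=
    lt_of_le_of_lt ((Submodule.finrank_mono (show Subalgebra.toSubmodule L ≤ Subalgebra.toSubmodule K from hLK)).trans
      hK.finrank_eq.le) hlt
  obtain ⟨g, hgS, hgL, hgK⟩ := exists_transvection hK hLF hLK hL_ne_K hlt
  obtain ⟨g', hgS', -, hgL'⟩ := exists_transvection hLF hBF bot_le hL_ne_bot.symm hLr
  have hle : subalgebraNormalizer K ≤ subalgebraNormalizer L := by
    intro a ha x
    have hpow : ∀ j : ℕ, ((a : Matrix (Fin n) (Fin n) F) * x * ((a⁻¹ : GL (Fin n) F) : Matrix (Fin n) (Fin n) F)) ^ j =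
        (a : Matrix (Fin n) (Fin n) F) * x ^ j * ((a⁻¹ : GL (Fin n) F) : Matrix (Fin n) (Fin n) F) := Units.conj_pow a x
    rw [hmemL, hmemL, hpow]
    refine and_congr (ha x) ?_
    rw [Units.mul_left_inj, Units.mul_right_inj]
  refine ⟨fun h => ?_, fun h => ?_⟩
  · have := h.2 _ (lt_of_le_of_ne hle fun e => hgK (e ▸ hgL))
    exact hgL' (this ▸ Subgroup.mem_top g')
  · rcases h.2 (subalgebraNormalizer L ⊓ specialLinear (Fin n) F) (inf_le_inf_right _ hle) inf_le_right with e | e
    · exact hgK (Subgroup.mem_inf.1 (e.le (Subgroup.mem_inf.2 ⟨hgL, hgS⟩))).1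
    · exact hgL' (Subgroup.mem_inf.1 (e.ge hgS')).1

end Cfsg.Agent.S5887
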