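import Cfsg.Statements.S5890
import Mathlib
import Cfsg.Agent.Lib.SL2.PGLMax2
import Cfsg.Agent.Lib.SL2.MaxField

set_option autoImplicit false
open Cfsg

namespace Cfsg.Agent.S5890

open CfsgLib.SL2Dickson CfsgLib.SL2Torus

theorem bor_coatom {F : Type*} [Field F] [Fintype F] (ho : Fintype.card F % 2 = 1) (h5 : 5 ≤ Fintype.card F)
    (h7 : Fintype.card F ≠ 7) (h9 : Fintype.card F ≠ 9) (h11 : Fintype.card F ≠ 11) : IsCoatom (Bor F) := by
  have h4 : 4 ≤ Fintype.card F := by omega
  obtain ⟨M, hM, hle⟩ := exists_coatom_ge (Bor_ne_top (F := F) h4)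
  have hB := card_Bor F
  rw [gcd_odd ho] at hB
  set q := Fintype.card F with hqd
  suffices key : 2 * Nat.card M ≤ q * (q - 1) by
    rw [Subgroup.eq_of_le_of_card_ge hle (by omega)]; exact hM
  have hd := Subgroup.card_dvd_of_le hle
  have hsq : 3 * q + 4 ≤ q * q := by
    have := Nat.mul_le_mul_right q h4
    omega
  have hmul : q * (q - 1) = q * q - q := by rw [Nat.mul_sub_one]
  obtain ⟨c4, c24, c60⟩ := exceptional_card (M := M)
  have small : ∀ {c : ℕ}, Nat.card M = c → c = 12 ∨ c = 24 ∨ (c = 60 ∧ q ≠ 5) → 2 * Nat.card M ≤ q * (q - 1) := by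
    intro c hc hcases
    rcases (show q = 5 ∨ 13 ≤ q by omega) with e | e
    · rw [e] at hB
      rw [hc, show Nat.card (Bor F) = 10 by omega] at hd
      omega
    · have := Nat.mul_le_mul e (show 12 ≤ q - 1 by omega)
      omega
  rcases dickson M with h | h | h | h | h | h | h
  · exact absurd h (not_cyc h4 hM)
  · obtain ⟨T, hT, rfl⟩ := dih_max h4 hM h
    rw [torus_normalizer_card hT]
    rcases torus_card hT with e | e <;> rw [gcd_odd ho, ← hqd] at e <;> omega
  · exact small (c4 h) (Or.inl rfl)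
  · exact small (c24 h) (Or.inr (Or.inl rfl))
  · exact small (c60 h) (Or.inr (Or.inr ⟨rfl, fun e => by have := (A5_max ho hM h).1; omega⟩))
  · have := bor_max h4 hM h
    rw [gcd_odd ho] at this
    exact le_of_eq this
  · obtain ⟨θ, K, m, hK, hm, ⟨-, rfl, hθ, hcard⟩ | ⟨hmp, hmo, hθ⟩⟩ := field_max hM h
    · rw [show Nat.card M = Nat.card K * (Nat.card K ^ 2 - 1) by
        rw [← hcard, ← hθ, Subgroup.card_map_of_injective θ.injective]]
      rw [← hqd] at hm
      rw [hm, ← mul_assoc]
      refine Nat.mul_le_mul_right _ ?_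
      rw [← hm, sq]
      exact Nat.mul_le_mul_right _ (subfield_two_le K)
    · have hpar := parity_eq hmp.ne_zero hm
      have hr := subfield_two_le K
      rw [show Nat.card M = Nat.card (pslSub K) by rw [← hθ, Subgroup.card_map_of_injective θ.injective]]
      have hc := card_pslSub K
      rw [(gcd_sub_one (Nat.card_pos (α := K))).1 (by omega)] at hc
      rw [hc]
      have h2' : Nat.card K ^ 2 ≤ q := le_trans (Nat.pow_le_pow_right (by omega) hmp.two_le) hm.le
      exact Nat.mul_le_mul (le_trans (Nat.le_self_pow two_ne_zero _) h2') (by omega)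

theorem klein_coatom {F : Type*} [Field F] [Fintype F] (hp : (Fintype.card F).Prime) (ho : Fintype.card F % 2 = 1)
    (h5 : 5 ≤ Fintype.card F) (h8 : Fintype.card F % 8 = 3 ∨ Fintype.card F % 8 = 5)
    (h10 : ¬ (Fintype.card F % 10 = 1 ∨ Fintype.card F % 10 = 9))
    {V : Subgroup (Matrix.ProjectiveSpecialLinearGroup (Fin 2) F)} (hV : IsKleinFour V) :
    IsCoatom (Subgroup.normalizer (V : Set (Matrix.ProjectiveSpecialLinearGroup (Fin 2) F))) := by
  have hXc := klein_card ho hV
  have hne : Subgroup.normalizer (V : Set (Matrix.ProjectiveSpecialLinearGroup (Fin 2) F)) ≠ ⊤ := by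
    intro e
    rw [e, Subgroup.card_top] at hXc
    have := card_PL_ge ho h5
    omega
  obtain ⟨M, hM, hle⟩ := exists_coatom_ge hne
  obtain ⟨c4, -, -⟩ := exceptional_card (M := M)
  rcases cycle_cases ho (by omega) hM ((hasCycle_klein ho hV).mono hle) with h | h | h | h
  · rw [Subgroup.eq_of_le_of_card_ge hle (by rw [c4 h]; omega)]; exact hM
  · obtain ⟨hq, h8'⟩ := S4_max ho hM h
    rw [← hq] at h8'; omega
  · exact absurd (A5_max ho hM h).1 h10
  · exact absurd h (no_field_of_prime hp hM)

/-- Let F be a finite field with q ≥ 4 elements, let L ≤ PGL₂(F) be the image of SL₂(F) (a copy of PSL₂(F), of index gcd(2, q − 1)), and let M be a maximal subgroup of PGL₂(F) that does not contain L. Suppose q ∉ {7, 9, 11} and that q is not a prime congruent to ±11 or ±19 modulo 40. Then M ∩ L is a maximal subgroup of L. (For the excluded q there are maximal subgroups of PGL₂(q) — dihedral groups of order 12 and 16 at q = 7, of order 20 and 16 at q = 9, of order 20 at q = 11, and S₄ at the excluded primes — whose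 intersection with L is not maximal in L.) -/
theorem result {F : Type*} [Field F]
    [Fintype F] (h4 : 4 ≤ Fintype.card F) (h7 : Fintype.card F ≠ 7) (h9 : Fintype.card F ≠ 9) (h11 : Fintype.card F ≠ 11)
    (h40 : (Fintype.card F).Prime → Fintype.card F % 40 ∉ ({11, 19, 21, 29} : Finset ℕ))
    (M : Subgroup (Matrix.ProjGenLinGroup (Fin 2) F)) (hM : IsCoatom M)
    (hML : ¬ (Matrix.ProjGenLinGroup.mk.comp Matrix.SpecialLinearGroup.toGL).range ≤ M) :
    IsCoatom ((M ⊓ (Matrix.ProjGenLinGroup.mk.comp Matrix.SpecialLinearGroup.toGL).range).subgroupOf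
      (Matrix.ProjGenLinGroup.mk.comp Matrix.SpecialLinearGroup.toGL).range) := by
  rw [← inc_range] at hML ⊢
  have hO : Outer M := ⟨hM, hML⟩
  suffices key : IsCoatom (M.comap inc) by
    let e := MonoidHom.ofInjective (inc_injective (F := F))
    have heq : (M ⊓ (inc (F := F)).range).subgroupOf (inc (F := F)).range = (M.comap inc).map e.toMonoidHom := by
      ext ⟨y, x, rfl⟩
      constructor
      · intro h
        exact ⟨x, (Subgroup.mem_subgroupOf.1 h).1, rfl⟩
      · rintro ⟨z, hz, he⟩
        have : inc z = inc x := congrArg Subtype.val he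
        exact Subgroup.mem_subgroupOf.2 ⟨inc_injective this ▸ hz, x, rfl⟩
    rw [heq]
    exact (e.mapSubgroup.isCoatom_iff _).2 key
  rcases Nat.mod_two_eq_zero_or_one (Fintype.card F) with he | ho
  · have hs : Function.Surjective (inc (F := F)) := MonoidHom.range_eq_top.1 (Subgroup.index_eq_one.1 (by rw [index_inc_range, gcd_even he]))
    exact (Subgroup.isCoatom_comap (MulEquiv.ofBijective (inc (F := F)) ⟨inc_injective, hs⟩)).2 hM
  have h5 : 5 ≤ Fintype.card F := by omega
  rcases dickson_gl (M.comap inc) with h | h | h | h | h | h | h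
  · exact absurd h (hO.not_cyc ho h5)
  · obtain ⟨T, hT, h3, e, -⟩ := hO.dih ho h5 h
    rw [e]
    have hc := torus_card hT
    rw [gcd_odd ho] at hc
    refine isCoatom_torus_normalizer h4 hT h3 (fun _ h => by omega) (fun _ h => by omega) fun r hr hrq hpar hle => ?_
    rw [sq] at hrq
    rcases (show r = 3 ∨ 5 ≤ r by omega) with rfl | h'
    · omega
    · have := Nat.mul_le_mul_right r h'
      omega
  · obtain ⟨V, hV, e, -⟩ := hO.a4_klein ho h5 h
    obtain ⟨hp, h8⟩ := hO.a4_prime ho h5 h
    rw [e]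
    refine klein_coatom hp ho h5 h8 (fun h10 => h40 hp ?_) hV
    simp only [Finset.mem_insert, Finset.mem_singleton]
    omega
  · exact absurd h (hO.s4 ho).1
  · exact absurd h (hO.s4 ho).2
  · obtain ⟨y, e, -⟩ := hO.bor ho h5 h
    rw [e]
    exact coatom_map _ (bor_coatom ho h5 h7 h9 h11)
  · obtain ⟨θ, K, j, hjp, hjo, hj, e, -⟩ := hO.field ho h5 h
    have hpar := parity_eq hjp.ne_zero hj
    have := subfield_two_le K
    refine (θ.mapSubgroup.isCoatom_iff _).1 ?_
    show IsCoatom ((M.comap inc).map θ.toMonoidHom)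
    rw [e]
    exact isCoatom_pslSub hjp hj (by omega) fun _ e2 => by subst e2; exact absurd hjo (by decide)

end Cfsg.Agent.S5890
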