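import Cfsg.Statements.S5891
import Mathlib
import Cfsg.Agent.Lib.SL2.PGLMax2

set_option autoImplicit false
open Cfsg

namespace Cfsg.Agent.S5891

open CfsgLib.SL2Dickson CfsgLib.SL2Torus

/-- Let F be a finite field of odd order q > 3 and characteristic p, and let M be a maximal subgroup of PGL₂(F) not containing the image L of SL₂(F) (a copy of PSL₂(F) of index 2). Then one of the following holds: |M| = q(q − 1) (M is the stabiliser of a point of the projective line); q ≠ 5 and M is dihedral of order 2(q − 1); M is dihedral of order 2(q + 1); q = p ≡ ±3 (mod 8) and M ≅ S₄; or q = q₀^r for an odd prime r and M ≅ PGL₂(F₀) with |F₀| = q₀. -/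
theorem result {F : Type*} [Field F] [Fintype F]
    (hodd : Odd (Fintype.card F)) (h3 : 3 < Fintype.card F) (M : Subgroup (Matrix.ProjGenLinGroup (Fin 2) F)) (hM : IsCoatom M)
    (hML : ¬ (Matrix.ProjGenLinGroup.mk.comp Matrix.SpecialLinearGroup.toGL).range ≤ M) :
    Nat.card M = Fintype.card F * (Fintype.card F - 1) ∨
    (Fintype.card F ≠ 5 ∧ Nonempty (M ≃* DihedralGroup (Fintype.card F - 1))) ∨
    Nonempty (M ≃* DihedralGroup (Fintype.card F + 1)) ∨
    ((Fintype.card F).Prime ∧ (Fintype.card F % 8 = 3 ∨ Fintype.card F % 8 = 5) ∧ Nonempty (M ≃* Equiv.Perm (Fin 4))) ∨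
    (∃ (F₀ : Type) (_ : Field F₀) (_ : Fintype F₀) (r : ℕ), r.Prime ∧ Odd r ∧ Fintype.card F = Fintype.card F₀ ^ r ∧
        Nonempty (M ≃* Matrix.ProjGenLinGroup (Fin 2) F₀)) := by
  have ho : Fintype.card F % 2 = 1 := Nat.odd_iff.1 hodd
  have h5 : 5 ≤ Fintype.card F := by omega
  rw [← inc_range] at hML
  have hO : Outer M := ⟨hM, hML⟩
  rcases dickson_gl (M.comap inc) with h | h | h | h | h | h | h
  · exact absurd h (hO.not_cyc ho h5)
  · obtain ⟨T, hT, h3', -, ⟨e⟩⟩ := hO.dih ho h5 h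
    rcases torus_card hT with hc | hc <;> rw [gcd_odd ho] at hc <;> rw [hc] at e
    · exact Or.inr (Or.inl ⟨by omega, ⟨e⟩⟩)
    · exact Or.inr (Or.inr (Or.inl ⟨e⟩))
  · obtain ⟨hp, h8⟩ := hO.a4_prime ho h5 h
    exact Or.inr (Or.inr (Or.inr (Or.inl ⟨hp, h8, hO.a4_iso ho h⟩)))
  · exact absurd h (hO.s4 ho).1
  · exact absurd h (hO.s4 ho).2
  · obtain ⟨y, -, hc⟩ := hO.bor ho h5 h
    exact Or.inl hc
  · obtain ⟨θ, K, j, hjp, hjo, hj, -, ⟨e⟩⟩ := hO.field ho h5 h
    obtain ⟨K', i1, i2, hc, ⟨ek⟩⟩ := exists_type0 K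
    obtain ⟨ep⟩ := glRange_equiv ek
    exact Or.inr (Or.inr (Or.inr (Or.inr ⟨K', i1, i2, j, hjp, hjo, by rw [hc, hj], ⟨e.trans ep⟩⟩)))

end Cfsg.Agent.S5891
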