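import Cfsg.Statements.S5892
import Mathlib
import Cfsg.Agent.Lib.SL2.MaxOdd

set_option autoImplicit false
open Cfsg

namespace Cfsg.Agent.S5892

open CfsgLib.SL2Dickson CfsgLib.SL2Torus


theorem small_exclude {F : Type*} [Field F] [Fintype F] {T : Subgroup (Matrix.ProjectiveSpecialLinearGroup (Fin 2) F)}
    (hT : IsTorus T) (hM : IsCoatom (Subgroup.normalizer (T : Set (Matrix.ProjectiveSpecialLinearGroup (Fin 2) F)))) :
    ¬ (Fintype.card F = 5 ∧ Nat.card T = 2) ∧ ¬ (Fintype.card F = 7 ∧ (Nat.card T = 3 ∨ Nat.card T = 4)) ∧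
      ¬ (Fintype.card F = 9 ∧ (Nat.card T = 4 ∨ Nat.card T = 5)) ∧ ¬ (Fintype.card F = 11 ∧ Nat.card T = 5) := by
  have hg := gcd_mul_card F
  haveI := ringChar.charP F
  obtain ⟨n, hp, hq⟩ := FiniteField.card F (ringChar F)
  have rc : ∀ p, p.Prime → p ∣ Fintype.card F → ringChar F = p := fun p hp' hd =>
    ((Nat.prime_dvd_prime_iff_eq hp' hp).1 (hp'.dvd_of_dvd_pow (hq ▸ hd))).symm
  have ne_top : ∀ (Y : Subgroup (Matrix.ProjectiveSpecialLinearGroup (Fin 2) F)) (k : ℕ), Nat.card Y = k →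
      Nat.gcd 2 (Fintype.card F - 1) * k < Fintype.card F * (Fintype.card F ^ 2 - 1) → Y ≠ ⊤ := by
    intro Y k hk hlt e
    rw [e, Subgroup.card_top] at hk
    rw [← hg, hk] at hlt
    omega
  have A5card : ∀ {Y : Subgroup (Matrix.ProjectiveSpecialLinearGroup (Fin 2) F)},
      (Y ≃* alternatingGroup (Fin 5)) → Nat.card Y = 60 := fun {Y} e => by
    rw [Nat.card_congr e.toEquiv, nat_card_alternatingGroup, Nat.card_fin]; rfl
  have S4card : ∀ {Y : Subgroup (Matrix.ProjectiveSpecialLinearGroup (Fin 2) F)},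
      (Y ≃* Equiv.Perm (Fin 4)) → Nat.card Y = 24 := fun {Y} e => by
    rw [Nat.card_congr e.toEquiv, Nat.card_perm, Nat.card_fin]; rfl
  haveI := Fact.mk Nat.prime_two
  haveI := Fact.mk Nat.prime_three
  haveI : Fact (Nat.Prime 5) := ⟨by norm_num⟩
  refine ⟨?_, ?_, ?_, ?_⟩
  · rintro ⟨h5, hc⟩
    have hr := rc 5 (by norm_num) (by rw [h5])
    haveI : CharP F 5 := hr ▸ ringChar.charP F
    obtain ⟨Y, ⟨e⟩⟩ := (Cfsg.Agent.S0802.result 5 1 (F := F) (by rw [h5]; norm_num)).2 (by norm_num)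
    have hY : Nat.card Y = 12 := by rw [Nat.card_congr e.toEquiv, nat_card_alternatingGroup, Nat.card_fin]; rfl
    refine small_not_max hT e (by omega) (ne_top Y 12 hY (by rw [h5]; decide))
      ⟨Equiv.swap 0 1 * Equiv.swap 2 3, by rw [Equiv.Perm.mem_alternatingGroup]; decide⟩ ⟨Equiv.swap 0 2 * Equiv.swap 1 3, by rw [Equiv.Perm.mem_alternatingGroup]; decide⟩
      ?_ ?_ ?_ (by omega) (by omega) hM
    · rw [hc]; exact orderOf_eq_prime (by decide) (by decide)
    · rw [mem_zpowers_iff_mem_range_orderOf, orderOf_eq_prime (p := 2) (by decide) (by decide)]; decide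
    · exact ⟨1, by decide⟩
  · rintro ⟨h7, hc⟩
    have hr := rc 7 (by norm_num) (by rw [h7])
    obtain ⟨Y, ⟨e⟩⟩ := (Cfsg.Agent.S0803.result h7).2 (by norm_num)
    rcases hc with hc | hc
    · refine small_not_max hT e (by rw [S4card e, hc]; norm_num) (ne_top Y 24 (S4card e) (by rw [h7]; decide))
        (Equiv.swap 0 1 * Equiv.swap 1 2) (Equiv.swap 0 1) ?_ ?_ ?_ (by omega) (by omega) hM
      · rw [hc]; exact orderOf_eq_prime (by decide) (by decide)
      · rw [mem_zpowers_iff_mem_range_orderOf, orderOf_eq_prime (p := 3) (by decide) (by decide)]; decide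
      · exact ⟨-1, by decide⟩
    · have ho : orderOf (finRotate 4) = 4 := orderOf_eq_prime_pow (p := 2) (n := 1) (by decide) (by decide)
      refine small_not_max hT e (by rw [S4card e, hc]; norm_num) (ne_top Y 24 (S4card e) (by rw [h7]; decide))
        (finRotate 4) (Equiv.swap 1 3) ?_ ?_ ?_ (by omega) (by omega) hM
      · rw [hc]; exact ho
      · rw [mem_zpowers_iff_mem_range_orderOf, ho]; decide
      · exact ⟨-1, by decide⟩
  · rintro ⟨h9, hc⟩
    have hr := rc 3 Nat.prime_three (by rw [h9]; norm_num)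
    rcases hc with hc | hc
    · obtain ⟨Y, ⟨e⟩⟩ := (Cfsg.Agent.S0803.result h9).2 (by norm_num)
      have ho : orderOf (finRotate 4) = 4 := orderOf_eq_prime_pow (p := 2) (n := 1) (by decide) (by decide)
      refine small_not_max hT e (by rw [S4card e, hc]; norm_num) (ne_top Y 24 (S4card e) (by rw [h9]; decide))
        (finRotate 4) (Equiv.swap 1 3) ?_ ?_ ?_ (by omega) (by omega) hM
      · rw [hc]; exact ho
      · rw [mem_zpowers_iff_mem_range_orderOf, ho]; decide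
      · exact ⟨-1, by decide⟩
    · obtain ⟨Y, ⟨e⟩⟩ := (Cfsg.Agent.S0804.result h9).2 (by norm_num)
      have ho : orderOf (⟨finRotate 5, by rw [Equiv.Perm.mem_alternatingGroup]; decide⟩ : alternatingGroup (Fin 5)) = 5 :=
        orderOf_eq_prime (by decide) (by decide)
      refine small_not_max hT e (by rw [A5card e, hc]; norm_num) (ne_top Y 60 (A5card e) (by rw [h9]; decide))
        ⟨finRotate 5, by rw [Equiv.Perm.mem_alternatingGroup]; decide⟩ ⟨Equiv.swap 1 4 * Equiv.swap 2 3, by rw [Equiv.Perm.mem_alternatingGroup]; decide⟩ ?_ ?_ ?_ (by omega) (by omega) hM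
      · rw [hc]; exact ho
      · rw [mem_zpowers_iff_mem_range_orderOf, ho]; decide
      · exact ⟨-1, by decide⟩
  · rintro ⟨h11, hc⟩
    have hr := rc 11 (by norm_num) (by rw [h11])
    obtain ⟨Y, ⟨e⟩⟩ := (Cfsg.Agent.S0804.result h11).2 (by norm_num)
    have ho : orderOf (⟨finRotate 5, by rw [Equiv.Perm.mem_alternatingGroup]; decide⟩ : alternatingGroup (Fin 5)) = 5 :=
      orderOf_eq_prime (by decide) (by decide)
    refine small_not_max hT e (by rw [A5card e, hc]; norm_num) (ne_top Y 60 (A5card e) (by rw [h11]; decide))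
      ⟨finRotate 5, by rw [Equiv.Perm.mem_alternatingGroup]; decide⟩ ⟨Equiv.swap 1 4 * Equiv.swap 2 3, by rw [Equiv.Perm.mem_alternatingGroup]; decide⟩ ?_ ?_ ?_ (by omega) (by omega) hM
    · rw [hc]; exact ho
    · rw [mem_zpowers_iff_mem_range_orderOf, ho]; decide
    · exact ⟨-1, by decide⟩

/-- Let F be a finite field of odd order q ≥ 5 and characteristic p, and let M be a maximal subgroup of PSL₂(F). Then one of the following holds: |M| = q(q − 1)/2 (the stabiliser of a point of the projective line); q ≥ 13 and M is dihedral of order q − 1; q ∉ {7, 9} and M is dihedral of order q + 1; q = q₀² and M ≅ PGL₂(F₀) with |F₀| = q₀; q = q₀^r for an odd prime r and M ≅ PSL₂(F₀) with |F₀| = q₀; q ≡ ±1 (mod 10) with q = p or q = p², p ≡ ±3 (mod 10), and M ≅ A₅; q = p ≡ ±3 (mod 8), q ≢ ±1 (mod 10), and M ≅ A₄; or q = p ≡ ±1 (mod 8) and M ≅ S₄. -/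
theorem result {F : Type*} [Field F] [Fintype F] (p : ℕ)
    [Fact p.Prime] [CharP F p] (hodd : Odd (Fintype.card F)) (h5 : 5 ≤ Fintype.card F)
    (M : Subgroup (Matrix.ProjectiveSpecialLinearGroup (Fin 2) F)) (hM : IsCoatom M) :
    2 * Nat.card M = Fintype.card F * (Fintype.card F - 1) ∨
    (13 ≤ Fintype.card F ∧ (∃ k : ℕ, 2 * k = Fintype.card F - 1 ∧ Nonempty (M ≃* DihedralGroup k))) ∨
    (Fintype.card F ≠ 7 ∧ Fintype.card F ≠ 9 ∧ (∃ k : ℕ, 2 * k = Fintype.card F + 1 ∧ Nonempty (M ≃* DihedralGroup k))) ∨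
    (∃ (F₀ : Type) (_ : Field F₀) (_ : Fintype F₀), Fintype.card F = Fintype.card F₀ ^ 2 ∧
        Nonempty (M ≃* Matrix.ProjGenLinGroup (Fin 2) F₀)) ∨
    (∃ (F₀ : Type) (_ : Field F₀) (_ : Fintype F₀) (r : ℕ), r.Prime ∧ Odd r ∧ Fintype.card F = Fintype.card F₀ ^ r ∧
        Nonempty (M ≃* Matrix.ProjectiveSpecialLinearGroup (Fin 2) F₀)) ∨
    ((Fintype.card F % 10 = 1 ∨ Fintype.card F % 10 = 9) ∧
        (Fintype.card F = p ∨ (Fintype.card F = p ^ 2 ∧ (p % 10 = 3 ∨ p % 10 = 7))) ∧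
        Nonempty (M ≃* alternatingGroup (Fin 5))) ∨
    (Fintype.card F = p ∧ (p % 8 = 3 ∨ p % 8 = 5) ∧ ¬ (p % 10 = 1 ∨ p % 10 = 9) ∧
        Nonempty (M ≃* alternatingGroup (Fin 4))) ∨
    (Fintype.card F = p ∧ (p % 8 = 1 ∨ p % 8 = 7) ∧ Nonempty (M ≃* Equiv.Perm (Fin 4))) := by
  have ho : Fintype.card F % 2 = 1 := Nat.odd_iff.1 hodd
  have h4 : 4 ≤ Fintype.card F := by omega
  obtain rfl : ringChar F = p := ringChar.eq F p
  rcases dickson M with h | h | h | h | h | h | h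
  · exact absurd h (not_cyc h4 hM)
  · obtain ⟨T, hT, rfl⟩ := dih_max h4 hM h
    obtain ⟨x5, x7, x9, x11⟩ := small_exclude hT hM
    have e := torus_normalizer_dihedral h4 hT
    rcases torus_card hT with hc | hc <;> rw [gcd_odd ho] at hc
    · exact Or.inr (Or.inl ⟨by omega, Nat.card T, hc, e⟩)
    · exact Or.inr (Or.inr (Or.inl ⟨by omega, by omega, Nat.card T, hc, e⟩))
  · obtain ⟨a, b, c⟩ := A4_max ho hM h
    exact Or.inr (Or.inr (Or.inr (Or.inr (Or.inr (Or.inr (Or.inl ⟨a, b, c, h.1⟩))))))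
  · obtain ⟨a, b⟩ := S4_max ho hM h
    exact Or.inr (Or.inr (Or.inr (Or.inr (Or.inr (Or.inr (Or.inr ⟨a, b, h.1⟩))))))
  · obtain ⟨a, b⟩ := A5_max ho hM h
    exact Or.inr (Or.inr (Or.inr (Or.inr (Or.inr (Or.inl ⟨a, b, h.1⟩)))))
  · left
    have := bor_max h4 hM h
    rwa [gcd_odd ho] at this
  · obtain ⟨θ, K, m, hK, hm, ⟨-, rfl, hθ, hcard⟩ | ⟨hmp, hmo, hθ⟩⟩ := field_max hM h
    · obtain ⟨K', i1, i2, hc, ⟨ek⟩⟩ := exists_type0 K
      obtain ⟨ep⟩ := pglSub_equiv hcard ek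
      exact Or.inr (Or.inr (Or.inr (Or.inl ⟨K', i1, i2, by rw [hc, hm],
        ⟨((M.equivMapOfInjective _ θ.injective).trans (MulEquiv.subgroupCongr hθ)).trans ep⟩⟩)))
    · obtain ⟨K', i1, i2, hc, ⟨ek⟩⟩ := exists_type0 K
      obtain ⟨ep⟩ := pslSub_equiv ek
      exact Or.inr (Or.inr (Or.inr (Or.inr (Or.inl ⟨K', i1, i2, m, hmp, hmo ho, by rw [hc, hm],
        ⟨((M.equivMapOfInjective _ θ.injective).trans (MulEquiv.subgroupCongr hθ)).trans ep⟩⟩))))

end Cfsg.Agent.S5892
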