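import Cfsg.Statements.S5893
import Mathlib
import Cfsg.Agent.Lib.SL2.MaxEven

set_option autoImplicit false
open Cfsg

namespace Cfsg.Agent.S5893

open CfsgLib.SL2Dickson CfsgLib.SL2Torus

/-- Let F be a finite field of even order q ≥ 4 and let M be a maximal subgroup of PSL₂(F) (= SL₂(F) = PGL₂(F)). Then one of the following holds: |M| = q(q − 1) (the stabiliser of a point of the projective line, elementary abelian of order q extended by a cyclic group of order q − 1); M is dihedral of order 2(q − 1); M is dihedral of order 2(q + 1); or q = q₀^r for a prime r with q₀ ≠ 2 and M ≅ PSL₂(F₀) with |F₀| = q₀. -/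
theorem result {F : Type*} [Field F] [Fintype F]
    (heven : Even (Fintype.card F)) (h4 : 4 ≤ Fintype.card F) (M : Subgroup (Matrix.ProjectiveSpecialLinearGroup (Fin 2) F)) (hM : IsCoatom M) :
    Nat.card M = Fintype.card F * (Fintype.card F - 1) ∨
    Nonempty (M ≃* DihedralGroup (Fintype.card F - 1)) ∨
    Nonempty (M ≃* DihedralGroup (Fintype.card F + 1)) ∨
    (∃ (F₀ : Type) (_ : Field F₀) (_ : Fintype F₀) (r : ℕ), r.Prime ∧ Fintype.card F₀ ≠ 2 ∧
        Fintype.card F = Fintype.card F₀ ^ r ∧ Nonempty (M ≃* Matrix.ProjectiveSpecialLinearGroup (Fin 2) F₀)) := by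
  have he : Fintype.card F % 2 = 0 := Nat.even_iff.1 heven
  obtain ⟨n4, n24, n60⟩ := no_exceptional (M := M) he
  rcases dickson M with h | h | h | h | h | h | h
  · exact absurd h (not_cyc h4 hM)
  · obtain ⟨T, hT, rfl⟩ := dih_max h4 hM h
    obtain ⟨e⟩ := torus_normalizer_dihedral h4 hT
    rcases torus_card hT with hc | hc <;> rw [gcd_even he, one_mul] at hc
    · exact Or.inr (Or.inl (hc ▸ ⟨e⟩))
    · exact Or.inr (Or.inr (Or.inl (hc ▸ ⟨e⟩)))
  · exact absurd h n4
  · exact absurd h n24
  · exact absurd h n60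
  · left
    have := bor_max h4 hM h
    rwa [gcd_even he, one_mul] at this
  · obtain ⟨θ, K, m, hK, hm, ⟨hodd, -⟩ | ⟨hmp, -, hθ⟩⟩ := field_max hM h
    · omega
    by_cases h2 : Nat.card K = 2
    · -- the symmetric group of degree three
      obtain ⟨T, hT, h3, hle⟩ := pslSub_two_le he h2
      have hM' := coatom_map θ hM
      have heq := coatom_eq hM' (hθ ▸ hle) (torus_normalizer_ne_top h4 hT)
      obtain ⟨e⟩ := torus_normalizer_dihedral h4 hT
      have e' : M ≃* DihedralGroup (Nat.card T) :=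
        ((M.equivMapOfInjective _ θ.injective).trans (MulEquiv.subgroupCongr heq)).trans e
      rcases torus_card hT with hc | hc <;> rw [gcd_even he, one_mul] at hc
      · exact Or.inr (Or.inl (hc ▸ ⟨e'⟩))
      · exact Or.inr (Or.inr (Or.inl (hc ▸ ⟨e'⟩)))
    · obtain ⟨K', i1, i2, hc, ⟨ek⟩⟩ := exists_type0 K
      obtain ⟨ep⟩ := pslSub_equiv ek
      exact Or.inr (Or.inr (Or.inr ⟨K', i1, i2, m, hmp, by omega, by rw [hc, hm],
        ⟨((M.equivMapOfInjective _ θ.injective).trans (MulEquiv.subgroupCongr hθ)).trans ep⟩⟩))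

end Cfsg.Agent.S5893
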