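import Cfsg.Statements.S5894
import Mathlib

set_option autoImplicit false
open Cfsg

namespace Cfsg.Agent.S5894

open scoped Pointwise

/-- For every m ≥ 2 the symmetric group on 2m letters has a maximal subgroup M of index 2m together with a maximal subgroup H of M that is not second maximal: some maximal subgroup K of the symmetric group contains H without H being maximal in K. (One may take M the stabiliser of a letter, H ≅ S_m × S_{m−1} inside it, and K ≅ S_m ≀ S₂ the stabiliser of a partition into two m-sets, with H < S_m × S_m < K.) So the prime-index hypothesis in the second-maximality criterion cannot be relaxed to any even index ≥ 4. -/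
theorem result (m : ℕ) (hm : 2 ≤ m) :
    ∃ M H K : Subgroup (Equiv.Perm (Fin (2 * m))), IsCoatom M ∧ M.index = 2 * m ∧ H ≤ M ∧ IsCoatom (H.subgroupOf M) ∧
      IsCoatom K ∧ H ≤ K ∧ ¬ IsCoatom (H.subgroupOf K) := by
  classical
  haveI : Fact (1 < m) := ⟨hm⟩
  let x : Fin (2 * m) := ⟨0, by omega⟩
  let α' := {y : Fin (2 * m) // y ≠ x}
  let f : Equiv.Perm α' →* Equiv.Perm (Fin (2 * m)) := Equiv.Perm.ofSubtype
  have hfinj : Function.Injective f := Equiv.Perm.ofSubtype_injective
  let O : Set (Fin (2 * m)) := {y | (y : ℕ) < m}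
  let O' : Set α' := {y | ((y : Fin (2 * m)) : ℕ) < m}
  have hO : O.ncard = m := by
    rw [show O = Set.range (Fin.castLE (show m ≤ 2 * m by omega)) by
      ext y; exact ⟨fun h => ⟨⟨y, h⟩, rfl⟩, by rintro ⟨z, rfl⟩; exact z.isLt⟩,
      ← Nat.card_coe_set_eq, Nat.card_range_of_injective (Fin.castLE_injective _), Nat.card_fin]
  have hM : f.range = MulAction.stabilizer (Equiv.Perm (Fin (2 * m))) x := by
    ext g
    rw [MulAction.mem_stabilizer_iff, Equiv.Perm.smul_def]
    constructor
    · rintro ⟨h, rfl⟩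
      exact Equiv.Perm.ofSubtype_apply_of_not_mem h (by simp)
    · intro hg
      exact ⟨g.subtypePerm (fun y => by simpa [hg] using g.injective.ne_iff (x := y) (y := x)),
        Equiv.Perm.ofSubtype_subtypePerm _ (fun y hy h => hy (h ▸ hg))⟩
  refine ⟨f.range, (MulAction.stabilizer (Equiv.Perm α') O').map f, ?_⟩
  let L : Subgroup (Equiv.Perm (Fin (2 * m))) :=
    MulAction.stabilizer (Equiv.Perm (Fin (2 * m))) ({O, Oᶜ} : Set (Set (Fin (2 * m))))
  have hstab : ∀ g : Equiv.Perm (Fin (2 * m)), g • O = O → g ∈ L := by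
    intro g hg
    rw [MulAction.mem_stabilizer_iff, Set.smul_set_insert, Set.smul_set_singleton, hg, Set.smul_set_compl, hg]
  have hswap : (Fin.revPerm : Equiv.Perm (Fin (2 * m))) • O = Oᶜ := by
    ext y
    rw [Set.mem_smul_set_iff_inv_smul_mem, Equiv.Perm.smul_def, Equiv.Perm.inv_def, Fin.revPerm_symm, Fin.revPerm_apply]
    simp only [O, Set.mem_compl_iff, Set.mem_setOf_eq, Fin.val_rev]
    omega
  have hrevL : (Fin.revPerm : Equiv.Perm (Fin (2 * m))) ∈ L := by
    rw [MulAction.mem_stabilizer_iff, Set.smul_set_insert, Set.smul_set_singleton, Set.smul_set_compl, hswap,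
      compl_compl, Set.pair_comm]
  have hL : L ≠ ⊤ := by
    intro htop
    have h := (htop ▸ Subgroup.mem_top (Equiv.swap (⟨0, by omega⟩ : Fin (2 * m)) ⟨m, by omega⟩) : _ ∈ L)
    rw [MulAction.mem_stabilizer_iff] at h
    have h1 := Set.smul_mem_smul_set (a := Equiv.swap (⟨0, by omega⟩ : Fin (2 * m)) ⟨m, by omega⟩) (Set.mem_insert O {Oᶜ})
    rw [h] at h1
    rcases h1 with h1 | h1
    · have := Set.ext_iff.1 h1 ⟨m, by omega⟩
      simp [Set.mem_smul_set_iff_inv_smul_mem, Equiv.swap_inv, Equiv.Perm.smul_def, Equiv.swap_apply_right, O, show 0 < m by omega] at this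
    · rw [Set.mem_singleton_iff] at h1
      have e : Equiv.swap (⟨0, by omega⟩ : Fin (2 * m)) ⟨m, by omega⟩ ⟨1, by omega⟩ = ⟨1, by omega⟩ :=
        Equiv.swap_apply_of_ne_of_ne (by simp [Fin.ext_iff]) (by simp [Fin.ext_iff]; omega)
      have := Set.ext_iff.1 h1 ⟨1, by omega⟩
      rw [Set.mem_smul_set_iff_inv_smul_mem, Equiv.swap_inv, Equiv.Perm.smul_def, e] at this
      simp [O, show 1 < m by omega] at this
  obtain ⟨K, hK, hLK⟩ := (eq_top_or_exists_le_coatom L).resolve_left hL
  refine ⟨K, ?_, ?_, Subgroup.map_le_range f _, ?_, hK, ?_, ?_⟩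
  · rw [hM]; haveI : Nontrivial (Fin (2 * m)) := Fin.nontrivial_iff_two_le.2 (by omega)
    exact MulAction.IsPreprimitive.isCoatom_stabilizer_of_isPreprimitive _ x
  · rw [hM, MulAction.index_stabilizer_of_transitive, Nat.card_fin]
  · have hcoat : IsCoatom (MulAction.stabilizer (Equiv.Perm α') O') := by
      refine Equiv.Perm.isCoatom_stabilizer ⟨⟨⟨1, by omega⟩, by simp [x, Fin.ext_iff]⟩, by show (1 : ℕ) < m; omega⟩
        ⟨⟨⟨m, by omega⟩, by simp [x, Fin.ext_iff]; omega⟩, by simp [O']⟩ ?_
      rw [Nat.card_eq_fintype_card, Fintype.card_subtype_compl, Fintype.card_fin, Fintype.card_subtype_eq]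
      omega
    have he : ((MulAction.stabilizer (Equiv.Perm α') O').map f).subgroupOf f.range =
        (MulAction.stabilizer (Equiv.Perm α') O').comap ((MonoidHom.ofInjective hfinj).symm : f.range →* Equiv.Perm α') := by
      ext g
      obtain ⟨h, rfl⟩ := (MonoidHom.ofInjective hfinj).surjective g
      rw [Subgroup.mem_subgroupOf, Subgroup.mem_comap]
      simp only [MonoidHom.ofInjective_apply, MonoidHom.coe_coe, MulEquiv.symm_apply_apply]
      exact Subgroup.mem_map_iff_mem hfinj
    rw [he]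
    exact (Subgroup.isCoatom_comap _).2 hcoat
  all_goals
    have hHO : (MulAction.stabilizer (Equiv.Perm α') O').map f ≤ MulAction.stabilizer (Equiv.Perm (Fin (2 * m))) O := by
      rintro _ ⟨g, hg, rfl⟩
      rw [SetLike.mem_coe, MulAction.mem_stabilizer_set_iff_smul_set_subset (Set.toFinite _)] at hg
      rw [MulAction.mem_stabilizer_set_iff_smul_set_subset (Set.toFinite _)]
      rintro _ ⟨y, hy, rfl⟩
      show f g y ∈ O
      by_cases hyx : y = x
      · subst hyx
        rw [Equiv.Perm.ofSubtype_apply_of_not_mem g (by simp)]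
        exact hy
      · rw [Equiv.Perm.ofSubtype_apply_of_mem g hyx]
        exact hg (Set.smul_mem_smul_set (show (⟨y, hyx⟩ : α') ∈ O' from hy))
  · exact fun g hg => hLK (hstab g (hHO hg))
  · intro hco
    let S := MulAction.stabilizer (Equiv.Perm (Fin (2 * m))) O
    have hSK : S ≤ K := fun g hg => hLK (hstab g hg)
    rcases hco.le_iff.1 (show ((MulAction.stabilizer (Equiv.Perm α') O').map f).subgroupOf K ≤ S.subgroupOf K from
        fun g hg => hHO hg) with h | h
    · have hK' : K ≤ S := Subgroup.subgroupOf_eq_top.1 h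
      have := MulAction.mem_stabilizer_iff.1 (hK' (hLK hrevL))
      rw [hswap] at this
      have := Set.ext_iff.1 this x
      simp [O, x] at this
      omega
    · have hs : Equiv.swap (⟨0, by omega⟩ : Fin (2 * m)) ⟨1, by omega⟩ ∈ S := by
        rw [MulAction.mem_stabilizer_set_iff_smul_set_subset (Set.toFinite _)]
        rintro _ ⟨y, hy, rfl⟩
        show ((Equiv.swap (⟨0, by omega⟩ : Fin (2 * m)) ⟨1, by omega⟩ y : Fin (2 * m)) : ℕ) < m
        rw [Equiv.swap_apply_def]
        split_ifs
        · show (1 : ℕ) < m; omega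
        · show (0 : ℕ) < m; omega
        · exact hy
      have h2 : (⟨_, hSK hs⟩ : K) ∈ ((MulAction.stabilizer (Equiv.Perm α') O').map f).subgroupOf K := h ▸ (show (⟨_, hSK hs⟩ : K) ∈ S.subgroupOf K from hs)
      have h3 : Equiv.swap (⟨0, by omega⟩ : Fin (2 * m)) ⟨1, by omega⟩ ∈ MulAction.stabilizer (Equiv.Perm (Fin (2 * m))) x :=
        hM ▸ Subgroup.map_le_range f _ h2
      rw [MulAction.mem_stabilizer_iff, Equiv.Perm.smul_def, Equiv.swap_apply_left] at h3
      simp [x, Fin.ext_iff] at h3

end Cfsg.Agent.S5894
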