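import Cfsg.Statements.S5895
import Mathlib

set_option autoImplicit false
open Cfsg

namespace Cfsg.Agent.S5895

open SemidirectProduct

private abbrev gl (p d : ℕ) := GL (Fin d) (ZMod p)

/-- irreducible: no invariant additive subgroups -/
private def Irred {p d : ℕ} (L : Subgroup (gl p d)) : Prop :=
  ∀ W : AddSubgroup (Fin d → ZMod p), (∀ g ∈ L, ∀ w ∈ W, g • w ∈ W) → W = ⊥ ∨ W = ⊤

private theorem addSubgroup_smul_mem {p d : ℕ} [NeZero p] (W : AddSubgroup (Fin d → ZMod p)) (a : ZMod p) {x : Fin d → ZMod p}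
    (hx : x ∈ W) : a • x ∈ W := by
  rw [← ZMod.natCast_zmod_val a, Nat.cast_smul_eq_nsmul]
  exact AddSubgroup.nsmul_mem _ hx _

private theorem top_irred {p d : ℕ} [Fact p.Prime] : Irred (⊤ : Subgroup (gl p d)) := by
  intro W hW
  by_cases hW0 : W = ⊥
  · exact Or.inl hW0
  obtain ⟨w, hw, hw0⟩ := (AddSubgroup.bot_or_exists_ne_zero W).resolve_left hW0
  refine Or.inr ((AddSubgroup.eq_top_iff' W).2 fun v => ?_)
  by_cases hv : v = 0
  · rw [hv]; exact zero_mem _
  haveI : MulAction.IsPretransitive ((Fin d → ZMod p) ≃ₗ[ZMod p] (Fin d → ZMod p)) (Projectivization (ZMod p) (Fin d → ZMod p)) :=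
    MulAction.isPretransitive_of_is_two_pretransitive
  obtain ⟨f, hf⟩ := MulAction.exists_smul_eq ((Fin d → ZMod p) ≃ₗ[ZMod p] (Fin d → ZMod p))
    (Projectivization.mk (ZMod p) w hw0) (Projectivization.mk (ZMod p) v hv)
  rw [Projectivization.smul_mk, Projectivization.mk_eq_mk_iff'] at hf
  obtain ⟨a, ha⟩ := hf
  have ha0 : a ≠ 0 := by
    rintro rfl
    rw [zero_smul] at ha
    exact hw0 (f.map_eq_zero_iff.1 ha.symm)
  have hv' : v = a⁻¹ • f w := by rw [show f w = a • v from ha.symm, smul_smul, inv_mul_cancel₀ ha0, one_smul]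
  rw [hv']
  refine addSubgroup_smul_mem W _ ?_
  have h1 := hW (Matrix.GeneralLinearGroup.toLin.symm (LinearMap.GeneralLinearGroup.ofLinearEquiv f)) (Subgroup.mem_top _) w hw
  have h2 : (Matrix.GeneralLinearGroup.toLin.symm (LinearMap.GeneralLinearGroup.ofLinearEquiv f)) • w = f w := by
    have h3 := Matrix.GeneralLinearGroup.toLin.apply_symm_apply (LinearMap.GeneralLinearGroup.ofLinearEquiv f)
    generalize Matrix.GeneralLinearGroup.toLin.symm (LinearMap.GeneralLinearGroup.ofLinearEquiv f) = g at h3 ⊢
    have h4 := LinearMap.congr_fun (congrArg Units.val h3) w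
    simpa [Units.smul_def, Matrix.smul_eq_mulVec] using h4
  rwa [h2] at h1

private def act {p d : ℕ} (L : Subgroup (gl p d)) : L →* MulAut (Multiplicative (Fin d → ZMod p)) where
  toFun g := AddEquiv.toMultiplicative (DistribMulAction.toAddEquiv (Fin d → ZMod p) (g : gl p d))
  map_one' := by ext v; simp
  map_mul' g h := by ext v; simp [mul_smul]

/-- For every prime p and every d ≥ 2 there is a finite group G with a maximal subgroup M of index p^d and a maximal subgroup H of M that is not second maximal in G: some maximal subgroup K of G contains H without H being maximal in K. (One may take G the affine group V ⋊ GL(V) of V = 𝔽_p^d, M = GL(V), H the stabiliser in M of a line W of V, and K = V ⋊ H, with H < W ⋊ H < K.) So the prime-index hypothesis in the second-maximality criterion cannot be relaxed to prime-power index. -/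
theorem result (p d : ℕ) (hp : p.Prime)
    (hd : 2 ≤ d) :
    ∃ (G : Type) (_ : Group G) (_ : Finite G) (M H K : Subgroup G), IsCoatom M ∧ M.index = p ^ d ∧ H ≤ M ∧
      IsCoatom (H.subgroupOf M) ∧ IsCoatom K ∧ H ≤ K ∧ ¬ IsCoatom (H.subgroupOf K) := by
  haveI := Fact.mk hp
  haveI : NeZero p := ⟨hp.ne_zero⟩
  -- a minimal irreducible subgroup
  obtain ⟨L, hL, hLmin⟩ := wellFounded_lt.has_min {L : Subgroup (gl p d) | Irred L} ⟨⊤, top_irred⟩
  haveI : Nontrivial L := by
    by_contra hc
    haveI := not_nontrivial_iff_subsingleton.1 hc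
    haveI : Nonempty (Fin d) := ⟨⟨0, by omega⟩⟩
    rcases hL (AddSubgroup.zmultiples (Pi.single (⟨0, by omega⟩ : Fin d) (1 : ZMod p))) (fun g hg w hw => by
        have : (⟨g, hg⟩ : L) = 1 := Subsingleton.elim _ _
        rw [show g = 1 from congrArg Subtype.val this, one_smul]; exact hw) with h | h
    · rw [AddSubgroup.zmultiples_eq_bot, Pi.single_eq_zero_iff] at h
      exact one_ne_zero h
    · have h1 : (Pi.single (⟨1, by omega⟩ : Fin d) (1 : ZMod p) : Fin d → ZMod p) ∈
          AddSubgroup.zmultiples (Pi.single (⟨0, by omega⟩ : Fin d) (1 : ZMod p)) := by rw [h]; exact AddSubgroup.mem_top _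
      obtain ⟨k, hk⟩ := AddSubgroup.mem_zmultiples_iff.1 h1
      have := congrFun hk ⟨1, by omega⟩
      simp [Fin.ext_iff] at this
  obtain ⟨H, hH, -⟩ := (eq_top_or_exists_le_coatom (⊥ : Subgroup L)).resolve_left bot_ne_top
  -- H is reducible
  obtain ⟨W, hW, hW0, hW1⟩ : ∃ W : AddSubgroup (Fin d → ZMod p), (∀ g ∈ H.map L.subtype, ∀ w ∈ W, g • w ∈ W) ∧ W ≠ ⊥ ∧ W ≠ ⊤ := by
    by_contra hc
    push Not at hc
    refine hLmin (H.map L.subtype) (fun W hW => (em (W = ⊥)).imp id (hc W hW)) ?_
    refine lt_of_le_of_ne (Subgroup.map_subtype_le H) fun h => hH.1 ?_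
    have := congrArg (Subgroup.comap L.subtype) h
    rwa [Subgroup.comap_map_eq_self_of_injective L.subtype_injective, ← Subgroup.subgroupOf, Subgroup.subgroupOf_self] at this
  let N := Multiplicative (Fin d → ZMod p)
  let G := N ⋊[act L] L
  haveI : Finite G := Finite.of_equiv _ SemidirectProduct.equivProd.symm
  let M : Subgroup G := (inr : L →* G).range
  let K : Subgroup G := H.comap rightHom
  let J : Subgroup G :=
    { carrier := {g | Multiplicative.toAdd g.left ∈ W ∧ g.right ∈ H}
      one_mem' := ⟨by simp, by simp⟩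
      mul_mem' := fun {a b} ha hb => ⟨by
          rw [SemidirectProduct.mul_left, toAdd_mul]
          exact add_mem ha.1 (hW _ ⟨a.right, ha.2, rfl⟩ _ hb.1), by
          rw [SemidirectProduct.mul_right]; exact mul_mem ha.2 hb.2⟩
      inv_mem' := fun {a} ha => ⟨by
          rw [SemidirectProduct.inv_left]
          exact hW _ ⟨a.right⁻¹, inv_mem ha.2, rfl⟩ _ (by rw [toAdd_inv]; exact neg_mem ha.1), by
          rw [SemidirectProduct.inv_right]; exact inv_mem ha.2⟩ }
  refine ⟨G, inferInstance, inferInstance, M, H.map inr, K, ?_, ?_, Subgroup.map_le_range _ _, ?_, ?_, ?_, ?_⟩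
  · -- M is maximal as L is irreducible
    refine ⟨fun htop => ?_, fun X hX => ?_⟩
    · have h1 : (inl (Multiplicative.ofAdd (Pi.single (⟨0, by omega⟩ : Fin d) (1 : ZMod p))) : G) ∈ M := htop ▸ Subgroup.mem_top _
      obtain ⟨g, hg⟩ := h1
      have := congrArg (fun g : G => g.left) hg
      simp only [left_inr, left_inl] at this
      exact one_ne_zero (Pi.single_eq_zero_iff.1 (Multiplicative.ofAdd.injective (this.symm.trans ofAdd_zero.symm)))
    · let W' : AddSubgroup (Fin d → ZMod p) :=
        { carrier := {v | (inl (Multiplicative.ofAdd v) : G) ∈ X}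
          zero_mem' := by simp
          add_mem' := fun {a b} ha hb => by
            show (inl (Multiplicative.ofAdd (a + b)) : G) ∈ X
            rw [ofAdd_add, map_mul]; exact mul_mem ha hb
          neg_mem' := fun {a} ha => by
            show (inl (Multiplicative.ofAdd (-a)) : G) ∈ X
            rw [ofAdd_neg, map_inv]; exact inv_mem ha }
      have hinv : ∀ g ∈ L, ∀ w ∈ W', g • w ∈ W' := fun g hg w hw => by
        have h1 : (inr ⟨g, hg⟩ : G) ∈ X := hX.le ⟨_, rfl⟩
        have := mul_mem (mul_mem h1 hw) (inv_mem h1)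
        rwa [← map_inv, ← inl_aut] at this
      rcases hL W' hinv with h | h
      · obtain ⟨g, hgX, hgM⟩ := SetLike.exists_of_lt hX
        exfalso
        apply hgM
        have h1 : (inl g.left : G) ∈ X := by
          have := mul_mem hgX (inv_mem (hX.le ⟨g.right, rfl⟩ : (inr g.right : G) ∈ X))
          nth_rewrite 1 [← inl_left_mul_inr_right g] at this
          rwa [mul_inv_cancel_right] at this
        have h2 : Multiplicative.toAdd g.left ∈ W' := h1
        rw [h, AddSubgroup.mem_bot] at h2
        refine ⟨g.right, ?_⟩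
        conv_rhs => rw [← inl_left_mul_inr_right g]
        rw [show g.left = 1 from h2, map_one, one_mul]
      · refine (Subgroup.eq_top_iff' X).2 fun g => ?_
        rw [← inl_left_mul_inr_right g]
        exact mul_mem (show Multiplicative.toAdd g.left ∈ W' from h ▸ AddSubgroup.mem_top _) (hX.le ⟨_, rfl⟩)
  · have h1 := Subgroup.card_mul_index M
    rw [← Nat.card_congr (MonoidHom.ofInjective inr_injective).toEquiv, Nat.card_congr SemidirectProduct.equivProd,
      Nat.card_prod, mul_comm (Nat.card N)] at h1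
    rw [Nat.eq_of_mul_eq_mul_left Nat.card_pos h1, show Nat.card N = Nat.card (Fin d → ZMod p) from
      Nat.card_congr Multiplicative.toAdd, Nat.card_fun, Nat.card_fin, Nat.card_zmod]
  · have he : (H.map (inr : L →* G)).subgroupOf M =
        H.comap ((MonoidHom.ofInjective (inr_injective (φ := act L))).symm : M →* L) := by
      ext g
      obtain ⟨h, rfl⟩ := (MonoidHom.ofInjective (inr_injective (φ := act L))).surjective g
      rw [Subgroup.mem_subgroupOf, Subgroup.mem_comap]
      simp only [MonoidHom.ofInjective_apply, MonoidHom.coe_coe, MulEquiv.symm_apply_apply]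
      exact Subgroup.mem_map_iff_mem inr_injective
    rw [he]
    exact (Subgroup.isCoatom_comap _).2 hH
  · exact Subgroup.isCoatom_comap_of_surjective rightHom_surjective hH
  · rintro _ ⟨h, hh, rfl⟩
    show rightHom (inr h : G) ∈ H
    rw [rightHom_inr]; exact hh
  · intro hco
    rcases hco.le_iff.1 (show (H.map inr).subgroupOf K ≤ J.subgroupOf K from by
        rintro g ⟨h, hh, hg⟩
        rw [Subgroup.mem_subgroupOf, ← show (inr h : G) = (g : G) from hg]
        exact ⟨by simp, by simpa using hh⟩) with h | h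
    · apply hW1
      refine (AddSubgroup.eq_top_iff' W).2 fun v => ?_
      have hv : (inl (Multiplicative.ofAdd v) : G) ∈ K := by simp [K]
      have := (h ▸ Subgroup.mem_top (⟨_, hv⟩ : K) : (⟨_, hv⟩ : K) ∈ J.subgroupOf K)
      simpa using this.1
    · apply hW0
      refine (AddSubgroup.eq_bot_iff_forall W).2 fun v hv => ?_
      have hvK : (inl (Multiplicative.ofAdd v) : G) ∈ K := by simp [K]
      have h2 : (⟨_, hvK⟩ : K) ∈ J.subgroupOf K := ⟨by simpa using hv, by simp⟩
      rw [h] at h2
      obtain ⟨g, -, hg⟩ := h2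
      have := congrArg (fun g : G => g.left) hg
      exact Multiplicative.ofAdd.injective (this.symm.trans rfl)

end Cfsg.Agent.S5895
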