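import Cfsg.Statements.S5896
import Mathlib
import Cfsg.Agent.Lib.Linear.Generation

set_option autoImplicit false
open Cfsg

namespace Cfsg.Agent.S5896

open scoped Matrix commutatorElement MatrixGroups

private def e01 {A : Type*} [CommRing A] (a : A) : Matrix.SpecialLinearGroup (Fin 2) A := ⟨!![1, a; 0, 1], by simp [Matrix.det_fin_two]⟩
private def e10 {A : Type*} [CommRing A] (a : A) : Matrix.SpecialLinearGroup (Fin 2) A := ⟨!![1, 0; a, 1], by simp [Matrix.det_fin_two]⟩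
private def dg {A : Type*} [CommRing A] (u : Aˣ) : Matrix.SpecialLinearGroup (Fin 2) A :=
  ⟨!![(u : A), 0; 0, ((u⁻¹ : Aˣ) : A)], by simp [Matrix.det_fin_two]⟩

private theorem coe_e01 {A : Type*} [CommRing A] (a : A) : (e01 a).1 = !![1, a; 0, 1] := rfl
private theorem coe_e10 {A : Type*} [CommRing A] (a : A) : (e10 a).1 = !![1, 0; a, 1] := rfl
private theorem coe_dg {A : Type*} [CommRing A] (u : Aˣ) : (dg u).1 = !![(u : A), 0; 0, ((u⁻¹ : Aˣ) : A)] := rfl

private theorem ext22 {A : Type*} {a b c d a' b' c' d' : A} (h1 : a = a') (h2 : b = b') (h3 : c = c') (h4 : d = d') :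
    !![a, b; c, d] = !![a', b'; c', d'] := by subst h1 h2 h3 h4; rfl

private theorem e01_add {A : Type*} [CommRing A] (a b : A) : e01 (a + b) = e01 a * e01 b := by
  refine Subtype.ext ?_
  rw [Matrix.SpecialLinearGroup.coe_mul, coe_e01, coe_e01, coe_e01, Matrix.mul_fin_two]
  apply ext22 <;> ring

private theorem e10_add {A : Type*} [CommRing A] (a b : A) : e10 (a + b) = e10 a * e10 b := by
  refine Subtype.ext ?_
  rw [Matrix.SpecialLinearGroup.coe_mul, coe_e10, coe_e10, coe_e10, Matrix.mul_fin_two]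
  apply ext22 <;> ring

private theorem e01_zero {A : Type*} [CommRing A] : e01 (0 : A) = 1 := Subtype.ext (by simp [coe_e01, Matrix.one_fin_two])
private theorem e10_zero {A : Type*} [CommRing A] : e10 (0 : A) = 1 := Subtype.ext (by simp [coe_e10, Matrix.one_fin_two])

private theorem e01_inv {A : Type*} [CommRing A] (a : A) : (e01 a)⁻¹ = e01 (-a) :=
  inv_eq_of_mul_eq_one_right (by rw [← e01_add, add_neg_cancel, e01_zero])
private theorem e10_inv {A : Type*} [CommRing A] (a : A) : (e10 a)⁻¹ = e10 (-a) :=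
  inv_eq_of_mul_eq_one_right (by rw [← e10_add, add_neg_cancel, e10_zero])

private theorem conj_e01 {A : Type*} [CommRing A] (u : Aˣ) (b : A) :
    ⁅dg u, e01 b⁆ = e01 (((u : A) ^ 2 - 1) * b) := by
  have h : dg u * e01 b = e01 ((u : A) ^ 2 * b) * dg u := by
    refine Subtype.ext ?_
    rw [Matrix.SpecialLinearGroup.coe_mul, Matrix.SpecialLinearGroup.coe_mul, coe_e01, coe_e01, coe_dg,
      Matrix.mul_fin_two, Matrix.mul_fin_two]
    apply ext22 <;> first | ring1 | linear_combination (-(u : A) * b) * u.mul_inv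
  rw [commutatorElement_def, h, mul_inv_cancel_right, e01_inv, ← e01_add]
  congr 1; ring

private theorem conj_e10 {A : Type*} [CommRing A] (u : Aˣ) (b : A) :
    ⁅(dg u)⁻¹, e10 b⁆ = e10 (((u : A) ^ 2 - 1) * b) := by
  have h : dg u * e10 ((u : A) ^ 2 * b) = e10 b * dg u := by
    refine Subtype.ext ?_
    rw [Matrix.SpecialLinearGroup.coe_mul, Matrix.SpecialLinearGroup.coe_mul, coe_e10, coe_e10, coe_dg,
      Matrix.mul_fin_two, Matrix.mul_fin_two]
    apply ext22 <;> first | ring1 | linear_combination ((u : A) * b) * u.mul_inv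
  rw [commutatorElement_def, inv_inv, mul_assoc (dg u)⁻¹, ← h, inv_mul_cancel_left, e10_inv, ← e10_add]
  congr 1; ring

private theorem comm_e {A : Type*} [CommRing A] (x y : A) :
    (⁅e01 x, e10 y⁆).1 = !![1 + x * y + x ^ 2 * y ^ 2, -(x ^ 2 * y); x * y ^ 2, 1 - x * y] := by
  rw [commutatorElement_def, e01_inv, e10_inv, Matrix.SpecialLinearGroup.coe_mul, Matrix.SpecialLinearGroup.coe_mul,
    Matrix.SpecialLinearGroup.coe_mul, coe_e01, coe_e01, coe_e10, coe_e10, Matrix.mul_fin_two, Matrix.mul_fin_two,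
    Matrix.mul_fin_two]
  apply ext22 <;> ring

private theorem ldu {A : Type*} [CommRing A] (g : Matrix.SpecialLinearGroup (Fin 2) A) (u : Aˣ) (hu : g.1 0 0 = u) :
    g = e10 (g.1 1 0 * ((u⁻¹ : Aˣ) : A)) * dg u * e01 (((u⁻¹ : Aˣ) : A) * g.1 0 1) := by
  have hd : g.1 0 0 * g.1 1 1 - g.1 0 1 * g.1 1 0 = 1 := by rw [← Matrix.det_fin_two]; exact g.2
  rw [hu] at hd
  refine Subtype.ext ?_
  rw [Matrix.SpecialLinearGroup.coe_mul, Matrix.SpecialLinearGroup.coe_mul, coe_e10, coe_dg, coe_e01,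
    Matrix.mul_fin_two, Matrix.mul_fin_two]
  conv_lhs => rw [Matrix.eta_fin_two g.1, hu]
  apply ext22
  · ring
  · linear_combination (-g.1 0 1) * u.mul_inv
  · linear_combination (-g.1 1 0) * u.mul_inv
  · linear_combination (((u⁻¹ : Aˣ) : A)) * hd + (-g.1 1 1 - ((u⁻¹ : Aˣ) : A) * g.1 0 1 * g.1 1 0) * u.mul_inv

private theorem dg_decomp {A : Type*} [CommRing A] (u : Aˣ) :
    dg u = e01 (u : A) * e10 (-((u⁻¹ : Aˣ) : A)) * e01 (u : A) * (e01 (-1) * e10 1 * e01 (-1)) := by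
  have hi : (u : A) * ((u⁻¹ : Aˣ) : A) = 1 := u.mul_inv
  have hi' : ((u⁻¹ : Aˣ) : A) * (u : A) = 1 := u.inv_mul
  refine Subtype.ext ?_
  simp only [Matrix.SpecialLinearGroup.coe_mul, coe_e01, coe_e10, coe_dg, Matrix.mul_fin_two]
  apply ext22 <;> grind

private noncomputable def red (k : ℕ) : ZMod (5 ^ (k + 1)) →+* ZMod 5 := ZMod.castHom (dvd_pow_self 5 (Nat.succ_ne_zero k)) (ZMod 5)

private theorem isUnit_of_red {k : ℕ} {x : ZMod (5 ^ (k + 1))} (h : red k x ≠ 0) : IsUnit x := by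
  haveI : NeZero (5 ^ (k + 1)) := ⟨pow_ne_zero _ (by norm_num)⟩
  rw [← ZMod.natCast_zmod_val x] at h ⊢
  rw [map_natCast, Ne, ZMod.natCast_eq_zero_iff] at h
  rw [ZMod.isUnit_iff_coprime]
  exact Nat.Coprime.pow_right _ ((Nat.Prime.coprime_iff_not_dvd Nat.prime_five).2 h).symm

private theorem red_eq_zero {k : ℕ} {x : ZMod (5 ^ (k + 1))} (h : red k x = 0) : ∃ y, x = 5 * y := by
  haveI : NeZero (5 ^ (k + 1)) := ⟨pow_ne_zero _ (by norm_num)⟩
  rw [← ZMod.natCast_zmod_val x, map_natCast, ZMod.natCast_eq_zero_iff] at h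
  obtain ⟨c, hc⟩ := h
  exact ⟨(c : ZMod (5 ^ (k + 1))), by rw [← ZMod.natCast_zmod_val x, hc]; push_cast; rfl⟩

private theorem gen_top {k : ℕ} (H : Subgroup (Matrix.SpecialLinearGroup (Fin 2) (ZMod (5 ^ (k + 1)))))
    (h01 : ∀ c, e01 c ∈ H) (h10 : ∀ c, e10 c ∈ H) : H = ⊤ := by
  have hdg : ∀ u, dg u ∈ H := fun u => by
    rw [dg_decomp]
    exact mul_mem (mul_mem (mul_mem (h01 _) (h10 _)) (h01 _)) (mul_mem (mul_mem (h01 _) (h10 _)) (h01 _))
  have hunit : ∀ g : Matrix.SpecialLinearGroup (Fin 2) (ZMod (5 ^ (k + 1))), IsUnit (g.1 0 0) → g ∈ H := by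
    intro g hg
    obtain ⟨u, hu⟩ := hg
    rw [ldu g u hu.symm]
    exact mul_mem (mul_mem (h10 _) (hdg u)) (h01 _)
  refine (Subgroup.eq_top_iff' H).2 fun g => ?_
  by_cases h : red k (g.1 0 0) = 0
  · have hc : red k (g.1 1 0) ≠ 0 := by
      intro h1
      have hd : g.1 0 0 * g.1 1 1 - g.1 0 1 * g.1 1 0 = 1 := by rw [← Matrix.det_fin_two]; exact g.2
      have := congrArg (red k) hd
      rw [map_sub, map_mul, map_mul, h, h1, map_one, zero_mul, mul_zero, sub_zero] at this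
      exact absurd this (by decide)
    have := hunit (e01 1 * g) (isUnit_of_red (by
      rw [Matrix.SpecialLinearGroup.coe_mul, coe_e01]
      simpa [Matrix.mul_apply, Fin.sum_univ_two, h] using hc))
    have h2 := mul_mem (inv_mem (h01 1)) this
    rwa [inv_mul_cancel_left] at h2
  · exact hunit g (isUnit_of_red h)

private noncomputable def pi5 (k : ℕ) : Matrix.SpecialLinearGroup (Fin 2) (ZMod (5 ^ (k + 1))) →* Matrix.SpecialLinearGroup (Fin 2) (ZMod 5) :=
  Matrix.SpecialLinearGroup.map (red k)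

private instance : Fact (Nat.Prime 5) := ⟨Nat.prime_five⟩

private theorem pi5_surjective (k : ℕ) : Function.Surjective (pi5 k) := by
  rw [← MonoidHom.range_eq_top]
  refine CfsgLib.Linear.Generation.eq_top_of_transvection_mem _ fun i j hij c => ?_
  refine ⟨Matrix.SpecialLinearGroup.transvection hij (c.val : ZMod (5 ^ (k + 1))), Subtype.ext ?_⟩
  have hc : red k (c.val : ZMod (5 ^ (k + 1))) = c := by rw [map_natCast, ZMod.natCast_zmod_val]
  show (Matrix.transvection i j (c.val : ZMod (5 ^ (k + 1)))).map (red k) = Matrix.transvection i j c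
  simp [Matrix.transvection, Matrix.map_add, hc]

private theorem perfect (k : ℕ) : commutator (Matrix.SpecialLinearGroup (Fin 2) (ZMod (5 ^ (k + 1)))) = ⊤ := by
  obtain ⟨u, hu⟩ := isUnit_of_red (k := k) (x := 2) (by rw [map_ofNat]; decide)
  obtain ⟨w, hw⟩ := isUnit_of_red (k := k) (x := 3) (by rw [map_ofNat]; decide)
  have h3 : ∀ c : ZMod (5 ^ (k + 1)), ((u : ZMod (5 ^ (k + 1))) ^ 2 - 1) * (((w⁻¹ : (ZMod (5 ^ (k + 1)))ˣ) : ZMod (5 ^ (k + 1))) * c) = c := fun c => by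
    rw [hu, show (2 : ZMod (5 ^ (k + 1))) ^ 2 - 1 = w by rw [hw]; norm_num, ← mul_assoc, Units.mul_inv, one_mul]
  refine gen_top _ (fun c => ?_) (fun c => ?_)
  · rw [← h3 c, ← conj_e01]; exact Subgroup.commutator_mem_commutator (Subgroup.mem_top _) (Subgroup.mem_top _)
  · rw [← h3 c, ← conj_e10]; exact Subgroup.commutator_mem_commutator (Subgroup.mem_top _) (Subgroup.mem_top _)

private theorem ker_isPGroup (k : ℕ) : IsPGroup 5 (pi5 k).ker := by
  rintro ⟨g, hg⟩
  refine ⟨k, ?_⟩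
  rw [MonoidHom.mem_ker] at hg
  have hY : ∀ i j, ∃ y, g.1 i j - (1 : Matrix (Fin 2) (Fin 2) (ZMod (5 ^ (k + 1)))) i j = 5 * y := fun i j => by
    refine red_eq_zero ?_
    have h1 : red k (g.1 i j) = (1 : Matrix (Fin 2) (Fin 2) (ZMod 5)) i j :=
      congrArg (fun x : Matrix.SpecialLinearGroup (Fin 2) (ZMod 5) => x.1 i j) hg
    rw [map_sub, h1]
    by_cases hij : i = j
    · subst hij; simp
    · simp [hij]
  choose Y hY using hY
  have hgY : g.1 = 1 + (5 : Matrix (Fin 2) (Fin 2) (ZMod (5 ^ (k + 1)))) * Matrix.of Y := by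
    ext i j
    have h5Y : ((5 : Matrix (Fin 2) (Fin 2) (ZMod (5 ^ (k + 1)))) * Matrix.of Y) i j = 5 * Y i j := by
      rw [← Matrix.diagonal_ofNat, Matrix.diagonal_mul]; rfl
    rw [Matrix.add_apply, h5Y]
    linear_combination hY i j
  obtain ⟨q, hq⟩ := dvd_sub_pow_of_dvd_sub (R := Polynomial ℤ) (p := 5) (a := 1 + 5 * Polynomial.X) (b := 1) ⟨Polynomial.X, by push_cast; ring⟩ k
  have h5 : ((5 : Matrix (Fin 2) (Fin 2) (ZMod (5 ^ (k + 1))))) ^ (k + 1) = 0 := by
    have : (((5 ^ (k + 1) : ℕ)) : Matrix (Fin 2) (Fin 2) (ZMod (5 ^ (k + 1)))) = 0 := by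
      rw [← map_natCast (Matrix.scalar (Fin 2)), ZMod.natCast_self, map_zero]
    exact_mod_cast this
  have h6 := congrArg (Polynomial.aeval (Matrix.of Y : Matrix (Fin 2) (Fin 2) (ZMod (5 ^ (k + 1))))) hq
  simp only [map_sub, map_pow, map_add, map_mul, map_one, map_ofNat, map_natCast, Nat.cast_ofNat, Polynomial.aeval_X, one_pow] at h6
  rw [← hgY, h5, zero_mul, sub_eq_zero] at h6
  refine Subtype.ext (Subtype.ext ?_)
  rw [Subgroup.coe_pow, Matrix.SpecialLinearGroup.coe_pow, h6]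
  rfl

private noncomputable def B5 : Subgroup (Matrix.SpecialLinearGroup (Fin 2) (ZMod 5)) :=
  MulAction.stabilizer _ (Projectivization.mk (ZMod 5) ![(1 : ZMod 5), 0] (by simp))

private theorem mem_B5 (g : Matrix.SpecialLinearGroup (Fin 2) (ZMod 5)) : g ∈ B5 ↔ g.1 1 0 = 0 := by
  rw [B5, MulAction.mem_stabilizer_iff, Projectivization.smul_mk, Projectivization.mk_eq_mk_iff']
  constructor
  · rintro ⟨a, ha⟩
    have := congrFun ha 1
    simpa [Matrix.SpecialLinearGroup.smul_def, Matrix.smul_eq_mulVec, Matrix.mulVec, dotProduct, Fin.sum_univ_two, eq_comm] using this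
  · intro h
    refine ⟨g.1 0 0, ?_⟩
    ext i; fin_cases i <;> simp [Matrix.SpecialLinearGroup.smul_def, Matrix.smul_eq_mulVec, Matrix.mulVec, dotProduct, Fin.sum_univ_two, h]

private theorem B5_solvable : Group.IsSolvable B5 := by
  let χ : B5 →* ZMod 5 :=
    { toFun := fun g => g.1.1 0 0
      map_one' := by simp
      map_mul' := fun g h => by
        simp [Matrix.mul_apply, Fin.sum_univ_two, (mem_B5 _).1 h.2] }
  let χ' : B5 →* (ZMod 5)ˣ := χ.toHomUnits
  haveI : Group.IsSolvable χ'.ker := by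
    refine Group.isSolvable_of_comm ?_
    rintro ⟨⟨g, hg⟩, hg1⟩ ⟨⟨h, hh⟩, hh1⟩
    rw [MonoidHom.mem_ker, Units.ext_iff] at hg1 hh1
    have e1 : g.1 0 0 = 1 := hg1
    have e2 : h.1 0 0 = 1 := hh1
    have f1 := (mem_B5 g).1 hg
    have f2 := (mem_B5 h).1 hh
    have g1 : g.1 0 0 * g.1 1 1 - g.1 0 1 * g.1 1 0 = 1 := by rw [← Matrix.det_fin_two]; exact g.2
    have g2 : h.1 0 0 * h.1 1 1 - h.1 0 1 * h.1 1 0 = 1 := by rw [← Matrix.det_fin_two]; exact h.2
    rw [e1, f1] at g1; rw [e2, f2] at g2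
    simp at g1 g2
    refine Subtype.ext (Subtype.ext (Subtype.ext ?_))
    ext i j
    fin_cases i <;> fin_cases j <;> simp [Matrix.mul_apply, Fin.sum_univ_two, e1, e2, f1, f2, g1, g2, add_comm]
  exact Group.isSolvable_of_ker_le_range χ'.ker.subtype χ' (by rw [Subgroup.range_subtype])

private noncomputable def HH (k : ℕ) : Subgroup (Matrix.SpecialLinearGroup (Fin 2) (ZMod (5 ^ (k + 1)))) := B5.comap (pi5 k)

private theorem HH_solvable (k : ℕ) : Group.IsSolvable (HH k) := by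
  let f : HH k →* B5 := ((pi5 k).comp (HH k).subtype).codRestrict _ (fun g => g.2)
  have hker : IsPGroup 5 f.ker := by
    intro x
    obtain ⟨n, hn⟩ := ker_isPGroup k ⟨((x : HH k) : _), MonoidHom.mem_ker.2 (congrArg Subtype.val (MonoidHom.mem_ker.1 x.2))⟩
    refine ⟨n, Subtype.ext (Subtype.ext ?_)⟩
    have := congrArg Subtype.val hn
    simpa using this
  haveI : Group.IsNilpotent f.ker := hker.isNilpotent
  haveI := B5_solvable
  exact Group.isSolvable_of_ker_le_range f.ker.subtype f (by rw [Subgroup.range_subtype])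

private theorem derived_mem (k : ℕ) : ∀ j : ℕ,
    (∀ c, e01 (5 ^ (2 ^ j) * c) ∈ (derivedSeries (HH k) j).map (HH k).subtype ∧
      e10 (5 ^ (2 ^ j) * c) ∈ (derivedSeries (HH k) j).map (HH k).subtype) ∧
    ∃ u v : (ZMod (5 ^ (k + 1)))ˣ, (u : ZMod (5 ^ (k + 1))) = 1 + 5 ^ (2 ^ j) * v ∧
      dg u ∈ (derivedSeries (HH k) j).map (HH k).subtype := by
  have h5 : red k 5 = 0 := by rw [map_ofNat]; decide
  intro j
  induction j with
  | zero =>
    have h0 : (derivedSeries (HH k) 0).map (HH k).subtype = HH k := by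
      rw [derivedSeries_zero, ← MonoidHom.range_eq_map, Subgroup.range_subtype]
    rw [h0]
    simp only [pow_zero, pow_one, HH, Subgroup.mem_comap, mem_B5]
    refine ⟨fun c => ⟨?_, ?_⟩, ?_⟩
    · show red k ((e01 (5 * c)).1 1 0) = 0
      simp [coe_e01]
    · show red k ((e10 (5 * c)).1 1 0) = 0
      simp [coe_e10, h5]
    · obtain ⟨u, hu⟩ := isUnit_of_red (k := k) (x := 1 + 5 * 1) (by rw [map_add, map_mul, h5, zero_mul, add_zero, map_one]; decide)
      refine ⟨u, 1, by rw [hu]; simp, ?_⟩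
      show red k ((dg u).1 1 0) = 0
      simp [coe_dg]
  | succ j ih =>
    obtain ⟨he, u, v, hu, hg⟩ := ih
    have hD : (derivedSeries (HH k) (j + 1)).map (HH k).subtype =
        ⁅(derivedSeries (HH k) j).map (HH k).subtype, (derivedSeries (HH k) j).map (HH k).subtype⁆ := by
      rw [derivedSeries_succ, Subgroup.map_commutator]
    rw [hD]
    set D := (derivedSeries (HH k) j).map (HH k).subtype
    set a := 2 ^ j with ha
    have ha2 : 2 ^ (j + 1) = 2 * a := by rw [pow_succ, ha]; ring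
    have ha1 : 1 ≤ a := Nat.one_le_two_pow
    have h5a : red k (5 ^ a) = 0 := by rw [map_pow, h5, zero_pow (by omega)]
    obtain ⟨w, hw⟩ := isUnit_of_red (k := k) (x := (v : ZMod (5 ^ (k + 1))) * (2 + 5 ^ a * v)) (by
      rw [map_mul, map_add, map_mul, h5a, zero_mul, add_zero, map_ofNat]
      exact mul_ne_zero ((Units.map (red k : ZMod (5 ^ (k + 1)) →* ZMod 5) v).ne_zero) (by decide))
    have key : ∀ c, ((u : ZMod (5 ^ (k + 1))) ^ 2 - 1) * (5 ^ a * (((w⁻¹ : (ZMod (5 ^ (k + 1)))ˣ) : ZMod (5 ^ (k + 1))) * c)) = 5 ^ (2 ^ (j + 1)) * c := by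
      intro c
      rw [hu, ha2, two_mul a, pow_add (5 : ZMod (5 ^ (k + 1))) a a]
      linear_combination ((5 : ZMod (5 ^ (k + 1))) ^ a * 5 ^ a * c) * w.mul_inv - ((5 : ZMod (5 ^ (k + 1))) ^ a * 5 ^ a * ((w⁻¹ : (ZMod (5 ^ (k + 1)))ˣ) : ZMod (5 ^ (k + 1))) * c) * hw
    have hnew : ∀ c, e01 (5 ^ (2 ^ (j + 1)) * c) ∈ ⁅D, D⁆ ∧ e10 (5 ^ (2 ^ (j + 1)) * c) ∈ ⁅D, D⁆ := fun c => by
      refine ⟨?_, ?_⟩
      · rw [← key c, ← conj_e01]; exact Subgroup.commutator_mem_commutator hg (he _).1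
      · rw [← key c, ← conj_e10]; exact Subgroup.commutator_mem_commutator (inv_mem hg) (he _).2
    refine ⟨hnew, ?_⟩
    have hx := Subgroup.commutator_mem_commutator (he 1).1 (he 1).2
    rw [mul_one] at hx
    set g := ⁅e01 (5 ^ a : ZMod (5 ^ (k + 1))), e10 (5 ^ a : ZMod (5 ^ (k + 1)))⁆ with hgdef
    have hent := comm_e (5 ^ a : ZMod (5 ^ (k + 1))) (5 ^ a)
    obtain ⟨v', hv'⟩ := isUnit_of_red (k := k) (x := 1 + 5 ^ (2 ^ (j + 1))) (by
      rw [map_add, map_one, map_pow, h5, zero_pow (by positivity)]; decide)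
    obtain ⟨u', hu'⟩ := isUnit_of_red (k := k) (x := g.1 0 0) (by
      rw [hgdef, hent]
      simp [h5, zero_pow (show a ≠ 0 by omega)])
    have h00 : g.1 0 0 = 1 + 5 ^ a * 5 ^ a + (5 ^ a) ^ 2 * (5 ^ a) ^ 2 := by rw [hgdef, hent]; rfl
    have h01' : g.1 0 1 = -((5 ^ a) ^ 2 * 5 ^ a) := by rw [hgdef, hent]; rfl
    have h10' : g.1 1 0 = 5 ^ a * (5 ^ a) ^ 2 := by rw [hgdef, hent]; rfl
    refine ⟨u', v', ?_, ?_⟩
    · rw [hu', h00, hv', ha2, two_mul a, pow_add (5 : ZMod (5 ^ (k + 1))) a a]; ring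
    · have hl := ldu g u' hu'.symm
      have e : dg u' = (e10 (g.1 1 0 * ((u'⁻¹ : (ZMod (5 ^ (k + 1)))ˣ) : ZMod (5 ^ (k + 1)))))⁻¹ * g *
          (e01 (((u'⁻¹ : (ZMod (5 ^ (k + 1)))ˣ) : ZMod (5 ^ (k + 1))) * g.1 0 1))⁻¹ := by
        conv_rhs => arg 1; arg 2; rw [hl]
        group
      rw [e]
      refine mul_mem (mul_mem (inv_mem ?_) hx) (inv_mem ?_)
      · have := (hnew (5 ^ a * ((u'⁻¹ : (ZMod (5 ^ (k + 1)))ˣ) : ZMod (5 ^ (k + 1))))).2
        convert this using 2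
        rw [h10', ha2, two_mul a, pow_add (5 : ZMod (5 ^ (k + 1))) a a]; ring
      · have := (hnew (-(5 ^ a) * ((u'⁻¹ : (ZMod (5 ^ (k + 1)))ˣ) : ZMod (5 ^ (k + 1))))).1
        convert this using 2
        rw [h01', ha2, two_mul a, pow_add (5 : ZMod (5 ^ (k + 1))) a a]; ring

/-- Finite perfect groups have solvable maximal subgroups of unbounded derived length: for every d there is a finite perfect group G (equal to its commutator subgroup) with a solvable maximal subgroup H whose derived length exceeds d, i.e. the d-th term of the derived series of H is non-trivial. (Take the derived subgroup of a wreath product S ≀ A₅ with S solvable of large derived length, and H the preimage of a maximal subgroup of A₅.) -/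
theorem result (d : ℕ) :
    ∃ (G : Type) (_ : Group G) (_ : Finite G) (H : Subgroup G), commutator G = ⊤ ∧ IsCoatom H ∧ Group.IsSolvable H ∧
      derivedSeries H d ≠ ⊥ := by
  set k := 2 ^ d with hk
  haveI : NeZero (5 ^ (k + 1)) := ⟨pow_ne_zero _ (by norm_num)⟩
  refine ⟨Matrix.SpecialLinearGroup (Fin 2) (ZMod (5 ^ (k + 1))), inferInstance, inferInstance, HH k, perfect k, ?_, HH_solvable k, ?_⟩
  · refine Subgroup.isCoatom_comap_of_surjective (pi5_surjective k) ?_
    haveI : Nontrivial (Projectivization (ZMod 5) (Fin 2 → ZMod 5)) :=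
      ⟨Projectivization.mk (ZMod 5) ![(1 : ZMod 5), 0] (by simp), Projectivization.mk (ZMod 5) ![(0 : ZMod 5), 1] (by simp),
        by simp [Projectivization.mk_eq_mk_iff', funext_iff, Fin.forall_fin_two]⟩
    exact MulAction.IsPreprimitive.isCoatom_stabilizer_of_isPreprimitive _ _
  · intro hbot
    have h1 := ((derived_mem k d).1 1).1
    rw [hbot, Subgroup.map_bot, Subgroup.mem_bot, mul_one] at h1
    have h2 : (5 : ZMod (5 ^ (k + 1))) ^ k = 0 := by
      simpa [coe_e01] using congrArg (fun x : Matrix.SpecialLinearGroup (Fin 2) (ZMod (5 ^ (k + 1))) => x.1 0 1) h1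
    have h3 : ((5 ^ k : ℕ) : ZMod (5 ^ (k + 1))) = 0 := by exact_mod_cast h2
    rw [ZMod.natCast_eq_zero_iff] at h3
    have := (Nat.pow_dvd_pow_iff_le_right (by norm_num)).1 h3
    omega

end Cfsg.Agent.S5896
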