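import Cfsg.Statements.S5902
import Mathlib
import Cfsg.Agent.S5901

set_option autoImplicit false
open Cfsg

namespace Cfsg.Agent.S5902

/-- Let G be a finite group, X a subgroup whose own subgroup lattice is complemented, and suppose X lies in exactly one maximal subgroup M of G. Then every subgroup H of G not contained in the normal core of M has a complement in the subgroup lattice of G (some C with H ⊔ C = G and H ⊓ C = 1); in particular the subgroup lattice of G modulo the normal core of M is complemented. -/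
theorem result {G : Type*} [Group G] [Finite G] (X M : Subgroup G)
    (hK : ComplementedLattice (Subgroup X))
    (hM : IsCoatom M) (hXM : X ≤ M) (huniq : ∀ M' : Subgroup G, IsCoatom M' → X ≤ M' → M' = M) :
    (∀ H : Subgroup G, ¬ H ≤ M.normalCore → ∃ C : Subgroup G, H ⊔ C = ⊤ ∧ H ⊓ C = ⊥) ∧
    ComplementedLattice (Subgroup (G ⧸ M.normalCore)) := by
  have h1 : ∀ H : Subgroup G, ¬ H ≤ M.normalCore → ∃ C : Subgroup G, H ⊔ C = ⊤ ∧ H ⊓ C = ⊥ := by
    intro H hH
    obtain ⟨h, hh, hh'⟩ := SetLike.not_le_iff_exists.1 hH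
    obtain ⟨g, hg⟩ : ∃ g : G, g * h * g⁻¹ ∉ M := by
      by_contra hc
      push Not at hc
      exact hh' hc
    have hne : ¬ H.map (MulAut.conj g).toMonoidHom ≤ M := fun hle => hg (hle ⟨h, hh, rfl⟩)
    have hX : X ≠ ⊤ := fun hX => hM.1 (top_le_iff.1 (hX ▸ hXM))
    obtain ⟨C, hC1, hC2⟩ := Cfsg.Agent.S5901.result ⊥ X M bot_le hX (fun Y _ hY => by
        obtain ⟨C, hC⟩ := hK.exists_isCompl (Y.subgroupOf X)
        refine ⟨C.map X.subtype, bot_le, Subgroup.map_subtype_le C, ?_, ?_⟩
        · have := congrArg (Subgroup.map X.subtype) hC.sup_eq_top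
          rw [Subgroup.map_sup, Subgroup.map_subgroupOf_eq_of_le hY, ← MonoidHom.range_eq_map, Subgroup.range_subtype] at this
          exact this
        · have := congrArg (Subgroup.map X.subtype) hC.inf_eq_bot
          rw [Subgroup.map_inf _ _ _ X.subtype_injective, Subgroup.map_subgroupOf_eq_of_le hY, Subgroup.map_bot] at this
          exact this) hM hXM huniq _ hne (inf_bot_eq _)
    refine ⟨C.map (MulAut.conj g⁻¹).toMonoidHom, ?_, ?_⟩
    all_goals
      have e : (H.map (MulAut.conj g).toMonoidHom).map (MulAut.conj g⁻¹).toMonoidHom = H := by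
        rw [Subgroup.map_map]
        convert Subgroup.map_id H
        ext y
        simp [mul_assoc]
    · have := congrArg (Subgroup.map (MulAut.conj g⁻¹).toMonoidHom) hC1
      rwa [Subgroup.map_sup, e, Subgroup.map_top_of_surjective _ (MulAut.conj g⁻¹).surjective] at this
    · have := congrArg (Subgroup.map (MulAut.conj g⁻¹).toMonoidHom) hC2
      rwa [Subgroup.map_inf _ _ _ (MulAut.conj g⁻¹).injective, e, Subgroup.map_bot] at this
  refine ⟨h1, ⟨fun Q => ?_⟩⟩
  set π := QuotientGroup.mk' M.normalCore with hπ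
  by_cases hQ : Q.comap π ≤ M.normalCore
  · have hQb : Q = ⊥ := by
      rw [← Subgroup.map_comap_eq_self_of_surjective (QuotientGroup.mk'_surjective _) Q, Subgroup.map_eq_bot_iff,
        QuotientGroup.ker_mk']
      exact hQ
    exact ⟨⊤, hQb ▸ isCompl_bot_top⟩
  obtain ⟨C, hC1, hC2⟩ := h1 _ hQ
  refine ⟨C.map π, IsCompl.of_eq ?_ ?_⟩
  · rw [Subgroup.eq_bot_iff_forall]
    intro x hx
    obtain ⟨hxQ, c, hc, rfl⟩ := Subgroup.mem_inf.1 hx
    have : c ∈ Q.comap π ⊓ C := ⟨hxQ, hc⟩
    rw [hC2, Subgroup.mem_bot] at this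
    rw [this, map_one]
  · have := congrArg (Subgroup.map π) hC1
    rwa [Subgroup.map_sup, Subgroup.map_comap_eq_self_of_surjective (QuotientGroup.mk'_surjective _),
      Subgroup.map_top_of_surjective _ (QuotientGroup.mk'_surjective _)] at this

end Cfsg.Agent.S5902
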