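import Cfsg.Statements.S5903
import Mathlib
import Cfsg.Agent.S5901

set_option autoImplicit false
open Cfsg

namespace Cfsg.Agent.S5903

/-- Let G be a finite simple group, X a subgroup lying in exactly one maximal subgroup M of G, and N a subgroup of prime order with N ≤ X that is central in M. If the subgroup lattice of X/N is complemented, then the subgroup lattice of G is complemented. -/
theorem result {G : Type*} [Group G] [Finite G] [IsSimpleGroup G] (X M N : Subgroup G)
    (hM : IsCoatom M) (hXM : X ≤ M) (huniq : ∀ M' : Subgroup G, IsCoatom M' → X ≤ M' → M' = M)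
    (hNX : N ≤ X) (hN : (Nat.card N).Prime) (hcen : ∀ n ∈ N, ∀ m ∈ M, m * n = n * m)
    [(N.subgroupOf X).Normal] (hK : ComplementedLattice (Subgroup (X ⧸ N.subgroupOf X))) :
    ComplementedLattice (Subgroup G) := by
  refine ⟨fun H => ?_⟩
  rcases eq_or_ne H ⊥ with rfl | hHbot
  · exact ⟨⊤, isCompl_bot_top⟩
  rcases eq_or_ne H ⊤ with rfl | hHtop
  · exact ⟨⊥, isCompl_top_bot⟩
  have hN1 : N ≠ ⊥ := fun h => Nat.not_prime_one (by simpa [h] using hN)
  -- find a conjugate outside M not containing N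
  obtain ⟨g, hgM, hgN⟩ : ∃ g : G, ¬ H.map (MulAut.conj g).toMonoidHom ≤ M ∧ ¬ N ≤ H.map (MulAut.conj g).toMonoidHom := by
    by_contra hc
    push Not at hc
    let K : Subgroup G := Subgroup.closure {x | ∃ g : G, N ≤ H.map (MulAut.conj g).toMonoidHom ∧ g * x * g⁻¹ ∈ N}
    have hKH : K ≤ H := by
      rw [Subgroup.closure_le]
      rintro x ⟨g, hg, hx⟩
      obtain ⟨h, hh, hh'⟩ := hg hx
      simp only [MulEquiv.coe_toMonoidHom, MulAut.conj_apply, mul_left_inj, mul_right_inj] at hh'
      exact hh' ▸ hh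
    let L : Subgroup G := Subgroup.closure {x | ∃ g : G, H.map (MulAut.conj g).toMonoidHom ≤ M ∧ g * x * g⁻¹ ∈ N}
    have hcomm : ∀ k ∈ K, ∀ l ∈ L, l * k = k * l := by
      intro k hk
      have hkH := hKH hk
      intro l hl
      induction hl using Subgroup.closure_induction with
      | mem x hx =>
        obtain ⟨g, hg, hx⟩ := hx
        have := hcen _ hx _ (hg ⟨k, hkH, rfl⟩)
        simp only [MulEquiv.coe_toMonoidHom, MulAut.conj_apply] at this
        calc x * k = g⁻¹ * ((g * x * g⁻¹) * (g * k * g⁻¹)) * g := by group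
        _ = g⁻¹ * ((g * k * g⁻¹) * (g * x * g⁻¹)) * g := by rw [this]
        _ = k * x := by group
      | one => simp
      | mul a b _ _ ha hb => rw [mul_assoc, hb, ← mul_assoc, ha, mul_assoc]
      | inv a _ ha =>
        calc a⁻¹ * k = a⁻¹ * (k * a) * a⁻¹ := by group
        _ = a⁻¹ * (a * k) * a⁻¹ := by rw [ha]
        _ = k * a⁻¹ := by group
    have htop : K ⊔ L = ⊤ := by
      rw [eq_top_iff]
      have hnc : Subgroup.normalClosure (N : Set G) = ⊤ :=
        (Subgroup.normalClosure_normal.eq_bot_or_eq_top).resolve_left fun h =>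
          hN1 (le_bot_iff.1 (h ▸ Subgroup.le_normalClosure))
      rw [← hnc, Subgroup.normalClosure, Subgroup.closure_le]
      intro x hx
      obtain ⟨n, hn, hnx⟩ := Group.mem_conjugatesOfSet_iff.1 hx
      obtain ⟨c, hc'⟩ := isConj_iff.1 hnx
      have hx' : c⁻¹ * x * c⁻¹⁻¹ ∈ N := by rw [← hc']; simpa [mul_assoc] using hn
      by_cases h : H.map (MulAut.conj c⁻¹).toMonoidHom ≤ M
      · exact Subgroup.mem_sup_right (Subgroup.subset_closure ⟨c⁻¹, h, hx'⟩)
      · exact Subgroup.mem_sup_left (Subgroup.subset_closure ⟨c⁻¹, hc _ h, hx'⟩)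
    have hKn : K.Normal := by
      rw [← Subgroup.normalizer_eq_top_iff, eq_top_iff, ← htop]
      refine sup_le Subgroup.le_normalizer (fun l hl => ?_)
      rw [Subgroup.mem_normalizer_iff]
      intro k
      constructor
      · intro hk
        rwa [hcomm k hk l hl, mul_inv_cancel_right]
      · intro hk
        have h2 := hcomm _ hk _ (inv_mem hl)
        rw [show l⁻¹ * (l * k * l⁻¹) = k * l⁻¹ by group] at h2
        rwa [mul_right_cancel h2]
    have hKbot : K = ⊥ := hKn.eq_bot_or_eq_top.resolve_right fun h => hHtop (top_le_iff.1 (h ▸ hKH))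
    have hcore : H ≤ M.normalCore := by
      intro h hh g
      by_contra hgh
      have hle : ¬ H.map (MulAut.conj g).toMonoidHom ≤ M := fun hle => hgh (hle ⟨h, hh, rfl⟩)
      apply hN1
      rw [Subgroup.eq_bot_iff_forall]
      intro n hn
      have : g⁻¹ * n * g ∈ K := Subgroup.subset_closure ⟨g, hc g hle, by simpa [mul_assoc] using hn⟩
      rw [hKbot, Subgroup.mem_bot] at this
      calc n = g * (g⁻¹ * n * g) * g⁻¹ := by group
      _ = 1 := by rw [this]; group
    rcases (Subgroup.normalCore_normal M).eq_bot_or_eq_top with h | h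
    · exact hHbot (le_bot_iff.1 (h ▸ hcore))
    · exact hM.1 (top_le_iff.1 (h ▸ M.normalCore_le))
  have hX : X ≠ ⊤ := fun hX => hM.1 (top_le_iff.1 (hX ▸ hXM))
  have hHT : H.map (MulAut.conj g).toMonoidHom ⊓ N = ⊥ := by
    haveI : Fact (Nat.card N).Prime := ⟨hN⟩
    rcases Subgroup.eq_bot_or_eq_top_of_prime_card ((H.map (MulAut.conj g).toMonoidHom).subgroupOf N) with h | h
    · exact Subgroup.subgroupOf_eq_bot.1 h |>.eq_bot
    · exact absurd (Subgroup.subgroupOf_eq_top.1 h) hgN
  obtain ⟨C, hC1, hC2⟩ := Cfsg.Agent.S5901.result N X M hNX hX (fun Y hNY hY => by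
      obtain ⟨Q, hQ⟩ := hK.exists_isCompl ((Y.subgroupOf X).map (QuotientGroup.mk' (N.subgroupOf X)))
      set π := QuotientGroup.mk' (N.subgroupOf X)
      have hker : π.ker = N.subgroupOf X := QuotientGroup.ker_mk' _
      have hYc : ((Y.subgroupOf X).map π).comap π = Y.subgroupOf X := by
        rw [Subgroup.comap_map_eq, hker, sup_eq_left]
        exact fun x hx => hNY hx
      refine ⟨(Q.comap π).map X.subtype, ?_, Subgroup.map_subtype_le _, ?_, ?_⟩
      · intro n hn
        refine ⟨⟨n, hNX hn⟩, ?_, rfl⟩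
        show π ⟨n, hNX hn⟩ ∈ Q
        rw [(QuotientGroup.eq_one_iff (N := N.subgroupOf X) (⟨n, hNX hn⟩ : X)).2 hn |> fun h => (show π ⟨n, hNX hn⟩ = 1 from h)]
        exact one_mem _
      · have h1 : Y.subgroupOf X ⊔ Q.comap π = ⊤ := by
          rw [← hYc, Subgroup.comap_sup_eq π _ _ (QuotientGroup.mk'_surjective _), hQ.sup_eq_top, Subgroup.comap_top]
        have := congrArg (Subgroup.map X.subtype) h1
        rwa [Subgroup.map_sup, Subgroup.map_subgroupOf_eq_of_le hY, ← MonoidHom.range_eq_map, Subgroup.range_subtype] at this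
      · have h1 : Y.subgroupOf X ⊓ Q.comap π = N.subgroupOf X := by
          rw [← hYc, ← Subgroup.comap_inf, hQ.inf_eq_bot, MonoidHom.comap_bot]; exact hker
        have := congrArg (Subgroup.map X.subtype) h1
        rwa [Subgroup.map_inf _ _ _ X.subtype_injective, Subgroup.map_subgroupOf_eq_of_le hY,
          Subgroup.map_subgroupOf_eq_of_le hNX] at this) hM hXM huniq _ hgM hHT
  refine ⟨C.map (MulAut.conj g⁻¹).toMonoidHom, IsCompl.of_eq ?_ ?_⟩
  all_goals
    have e : (H.map (MulAut.conj g).toMonoidHom).map (MulAut.conj g⁻¹).toMonoidHom = H := by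
      rw [Subgroup.map_map]
      convert Subgroup.map_id H
      ext y
      simp [mul_assoc]
  · have := congrArg (Subgroup.map (MulAut.conj g⁻¹).toMonoidHom) hC2
    rwa [Subgroup.map_inf _ _ _ (MulAut.conj g⁻¹).injective, e, Subgroup.map_bot] at this
  · have := congrArg (Subgroup.map (MulAut.conj g⁻¹).toMonoidHom) hC1
    rwa [Subgroup.map_sup, e, Subgroup.map_top_of_surjective _ (MulAut.conj g⁻¹).surjective] at this

end Cfsg.Agent.S5903
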