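import Cfsg.Statements.S5904
import Mathlib


set_option autoImplicit false
open scoped Pointwise
open Cfsg

namespace Cfsg.Agent.S5904

/-- Let Ω be a finite set with more than two elements and O ⊆ Ω a subset with exactly as many elements as its complement. Then the setwise stabilizer of O in the symmetric group on Ω is not a maximal subgroup (it is properly contained in the stabilizer of the partition {O, Ω ∖ O}, which is proper). -/
theorem result {Ω : Type*} [Fintype Ω] [DecidableEq Ω] (hΩ : 2 < Fintype.card Ω)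
    (O : Set Ω) (hO : Nat.card O = Nat.card ↥Oᶜ) :
    ¬ IsCoatom (MulAction.stabilizer (Equiv.Perm Ω) O) := by
  classical
  have hcard : Nat.card O + Nat.card ↥Oᶜ = Fintype.card Ω := by
    rw [Nat.card_eq_fintype_card, Nat.card_eq_fintype_card, Fintype.card_compl_set]
    have := set_fintype_card_le_univ O
    omega
  obtain ⟨e⟩ : Nonempty (O ≃ ↥Oᶜ) := Finite.card_eq.mp hO
  let σ : Equiv.Perm Ω := ((Equiv.Set.sumCompl O).symm.trans ((Equiv.sumCongr e e.symm).trans (Equiv.sumComm _ _))).trans (Equiv.Set.sumCompl O)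
  have hO2 : 2 ≤ Nat.card O := by omega
  have hσ : ∀ x, σ x ∈ O ↔ x ∉ O := by
    intro x
    by_cases hx : x ∈ O
    · simp [σ, hx, Equiv.Set.sumCompl_symm_apply_of_mem hx]
      exact (e ⟨x, hx⟩).2
    · simp [σ, hx, Equiv.Set.sumCompl_symm_apply_of_notMem hx]
  have hm : ∀ (g : Equiv.Perm Ω), g ∈ MulAction.stabilizer (Equiv.Perm Ω) O ↔ ∀ x, g x ∈ O ↔ x ∈ O := by
    intro g
    rw [MulAction.mem_stabilizer_set]
    simp [Equiv.Perm.smul_def]
  -- the subgroup of permutations preserving {O, Oᶜ}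
  let W : Subgroup (Equiv.Perm Ω) :=
  { carrier := {g | (∀ x y, (g x ∈ O ↔ g y ∈ O) ↔ (x ∈ O ↔ y ∈ O))}
    mul_mem' := fun {a b} ha hb x y => (ha (b x) (b y)).trans (hb x y)
    one_mem' := fun x y => Iff.rfl
    inv_mem' := fun {a} ha x y => by
      have := ha (a⁻¹ x) (a⁻¹ y)
      simpa using this.symm }
  have hle : MulAction.stabilizer (Equiv.Perm Ω) O ≤ W := by
    intro g hg x y
    rw [(hm g).mp hg x, (hm g).mp hg y]
  have hσW : σ ∈ W := by
    intro x y
    rw [hσ x, hσ y]; tauto
  obtain ⟨a, ha⟩ : O.Nonempty := by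
    rw [Set.nonempty_iff_ne_empty]; intro h; simp [h] at hO2
  obtain ⟨a', ha', hne⟩ : ∃ a' ∈ O, a' ≠ a := by
    by_contra h; push Not at h
    have : O = {a} := Set.eq_singleton_iff_unique_mem.mpr ⟨ha, h⟩
    simp [this] at hO2
  obtain ⟨b, hb⟩ : (Oᶜ).Nonempty := by
    rw [Set.nonempty_iff_ne_empty]; intro h
    have : Nat.card ↥Oᶜ = 0 := by simp [h]
    omega
  intro hco
  have h1 : MulAction.stabilizer (Equiv.Perm Ω) O < W := by
    refine lt_of_le_of_ne hle (fun h => ?_)
    rw [← h, hm] at hσW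
    have := hσW a
    rw [hσ a] at this
    tauto
  have h2 := hco.2 W h1
  have : Equiv.swap a b ∈ W := by rw [h2]; trivial
  have := this a a'
  have hab : a' ≠ b := fun h => hb (h ▸ ha')
  rw [Equiv.swap_apply_left, Equiv.swap_apply_of_ne_of_ne hne hab] at this
  have hb' : b ∉ O := hb
  tauto

end Cfsg.Agent.S5904
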