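import Cfsg.Statements.S5908
import Mathlib
import Cfsg.Agent.Lib.Unitary.PSU32

set_option autoImplicit false
open Cfsg

namespace Cfsg.Agent.S5908

theorem q8_squares : ∀ q : QuaternionGroup 2, q = 1 ∨ q = QuaternionGroup.a 2 ∨ q * q = QuaternionGroup.a 2 := by
  decide +kernel
theorem q8_ne : (QuaternionGroup.a 2 : QuaternionGroup 2) ≠ 1 ∧ ∃ q : QuaternionGroup 2, q * q = QuaternionGroup.a 2 := by
  decide +kernel

/-- The subgroup lattice of PSU₃(2) (the solvable group of order 72, realised over the field with 4 elements) is not complemented: some subgroup H has no subgroup X with H ⊔ X = ⊤ and H ⊓ X = ⊥. -/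
theorem result {F : Type*} [Field F] [Fintype F] (hF : Fintype.card F = 4) :
    ¬ ComplementedLattice (Subgroup (Cfsg.PSU 3 F 2)) := by
  intro hc
  obtain ⟨N, hN, -, -, ⟨e⟩⟩ := CfsgLib.Unitary.PSU32.structure_72 (F := F) hF
  haveI := hN
  let π : Cfsg.PSU 3 F 2 →* QuaternionGroup 2 := e.toMonoidHom.comp (QuotientGroup.mk' N)
  have hπ : Function.Surjective π := e.surjective.comp (QuotientGroup.mk'_surjective N)
  let L : Subgroup (Cfsg.PSU 3 F 2) := (Subgroup.zpowers (QuaternionGroup.a 2 : QuaternionGroup 2)).comap π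
  obtain ⟨H, hH⟩ := hc.exists_isCompl L
  have hz : (QuaternionGroup.a 2 : QuaternionGroup 2) * QuaternionGroup.a 2 = 1 := by decide +kernel
  have hmem : ∀ q : QuaternionGroup 2, q ∈ Subgroup.zpowers (QuaternionGroup.a 2 : QuaternionGroup 2) →
      q = 1 ∨ q = QuaternionGroup.a 2 := by
    intro q hq
    obtain ⟨k, rfl⟩ := (isOfFinOrder_of_finite _).mem_powers_iff_mem_zpowers.2 hq
    rcases Nat.even_or_odd k with ⟨m, rfl⟩ | ⟨m, rfl⟩
    · left
      show QuaternionGroup.a 2 ^ (m + m) = (1 : QuaternionGroup 2)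
      rw [pow_add, ← (Commute.refl _).mul_pow, hz, one_pow]
    · right
      show QuaternionGroup.a 2 ^ (2 * m + 1) = (QuaternionGroup.a 2 : QuaternionGroup 2)
      rw [pow_succ, pow_mul, pow_two, hz, one_pow, one_mul]
  obtain ⟨h, hhH, hhL⟩ : ∃ h ∈ H, h ∉ L := by
    by_contra hno
    push Not at hno
    have htop : L = ⊤ := by
      have := hH.sup_eq_top
      rwa [sup_eq_left.2 (fun x hx => hno x hx)] at this
    obtain ⟨q, hq⟩ := q8_ne.2
    obtain ⟨x, rfl⟩ := hπ q
    have hx : x ∈ L := htop ▸ Subgroup.mem_top x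
    rcases hmem _ hx with h1 | h1
    · rw [h1, one_mul] at hq
      exact q8_ne.1 hq.symm
    · rw [h1, hz] at hq
      exact q8_ne.1 hq.symm
  have hsq : π (h * h) = QuaternionGroup.a 2 := by
    rw [map_mul]
    rcases q8_squares (π h) with h1 | h1 | h1
    · exact absurd (show π h ∈ Subgroup.zpowers _ from h1 ▸ one_mem _) hhL
    · exact absurd (show π h ∈ Subgroup.zpowers _ from h1 ▸ Subgroup.mem_zpowers _) hhL
    · exact h1
  have hbot : h * h ∈ L ⊓ H := ⟨show π (h * h) ∈ Subgroup.zpowers _ from hsq ▸ Subgroup.mem_zpowers _, mul_mem hhH hhH⟩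
  rw [hH.inf_eq_bot, Subgroup.mem_bot] at hbot
  rw [hbot, map_one] at hsq
  exact q8_ne.1 hsq.symm

end Cfsg.Agent.S5908
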