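import Cfsg.Statements.S5910
import Mathlib
import Cfsg.Agent.Lib.Perm.Blocks

set_option autoImplicit false
open Cfsg

namespace Cfsg.Agent.S5910

open Equiv

abbrev X : Type := Fin 4 × Fin 2

/-- coplanarity of four points -/
def P (x y z w : X) : Prop :=
  ((x.1.val ^^^ y.1.val) ^^^ (z.1.val ^^^ w.1.val) = 0) ∧ x.2 + y.2 + (z.2 + w.2) = 0

instance (x y z w : X) : Decidable (P x y z w) := by unfold P; infer_instance

/-- the permutations preserving planes -/
def K0 : Subgroup (Perm X) where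
  carrier := {g | ∀ x y z w, P (g x) (g y) (g z) (g w) ↔ P x y z w}
  one_mem' := fun _ _ _ _ => Iff.rfl
  mul_mem' := fun {g h} hg hh x y z w => (hg _ _ _ _).trans (hh _ _ _ _)
  inv_mem' := fun {g} hg x y z w => by simpa using (hg (g⁻¹ x) (g⁻¹ y) (g⁻¹ z) (g⁻¹ w)).symm

def lift (σ : Perm (Fin 4)) : Perm X := σ.prodCongr (Equiv.refl _)

def flip' (ε : Fin 4 → Fin 2) : Perm X := Equiv.prodShear (Equiv.refl _) fun i => Equiv.addRight (ε i)

theorem xor_perm : ∀ σ : Perm (Fin 4), ∀ i j k l : Fin 4,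
    (((σ i).val ^^^ (σ j).val) ^^^ ((σ k).val ^^^ (σ l).val) = 0) ↔ ((i.val ^^^ j.val) ^^^ (k.val ^^^ l.val) = 0) := by
  decide +kernel

theorem sum_even : ∀ ε : Fin 4 → Fin 2, ε 0 + ε 1 + (ε 2 + ε 3) = 0 → ∀ i j k l : Fin 4,
    (i.val ^^^ j.val) ^^^ (k.val ^^^ l.val) = 0 → ε i + ε j + (ε k + ε l) = 0 := by
  decide +kernel

theorem sign_lift : ∀ σ : Perm (Fin 4), Perm.sign (lift σ) = 1 := by decide +kernel

theorem sign_flip : ∀ ε : Fin 4 → Fin 2, Perm.sign (flip' ε) = 1 → ε 0 + ε 1 + (ε 2 + ε 3) = 0 := by decide +kernel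

theorem mem_K0 {g : Perm X} (hg : ∀ x y : X, x.1 = y.1 ↔ (g x).1 = (g y).1) (hs : Perm.sign g = 1) : g ∈ K0 := by
  have hσ : Function.Injective fun i => (g (i, 0)).1 := fun i j h => (hg (i, 0) (j, 0)).2 h
  let σ : Perm (Fin 4) := Equiv.ofBijective _ (Finite.injective_iff_bijective.1 hσ)
  let ε : Fin 4 → Fin 2 := fun i => (g (i, 0)).2
  have hfst : ∀ i c, (g (i, c)).1 = σ i := fun i c => (hg (i, c) (i, 0)).1 rfl
  have two : ∀ a b : Fin 2, a ≠ b → a = 1 + b := by decide
  have hsnd : ∀ i c, (g (i, c)).2 = c + ε i := by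
    intro i c
    fin_cases c
    · simp [ε]
    · refine two _ _ fun h => ?_
      have := g.injective (Prod.ext ((hfst i 1).trans (hfst i 0).symm) h)
      simp at this
  have hdec : g = lift σ * flip' ε :=
    Equiv.ext fun ⟨i, c⟩ => Prod.ext ((hfst i c).trans rfl) ((hsnd i c).trans rfl)
  rw [hdec] at hs ⊢
  have he := sign_flip ε (by rw [map_mul, sign_lift, one_mul] at hs; exact hs)
  refine mul_mem (fun x y z w => ?_) fun x y z w => ?_
  · exact and_congr (xor_perm σ _ _ _ _) Iff.rfl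
  · refine and_congr_right fun h => ?_
    show x.2 + ε x.1 + (y.2 + ε y.1) + (z.2 + ε z.1 + (w.2 + ε w.1)) = 0 ↔ _
    rw [show x.2 + ε x.1 + (y.2 + ε y.1) + (z.2 + ε z.1 + (w.2 + ε w.1)) =
      x.2 + y.2 + (z.2 + w.2) + (ε x.1 + ε y.1 + (ε z.1 + ε w.1)) by abel, sum_even ε he x.1 y.1 z.1 w.1 h, add_zero]

def extra : Perm X := swap (0, 1) (1, 0) * swap (2, 1) (3, 0)

theorem extra_mem : extra ∈ K0 := by
  intro x y z w
  revert x y z w
  decide +kernel

theorem extra_props : Perm.sign extra = 1 ∧ ¬ ((extra (0, 0)).1 = (extra (0, 1)).1) := by decide +kernel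

def bad : Perm X := swap (0, 0) (1, 0) * swap (1, 0) (2, 0)

theorem bad_props : Perm.sign bad = 1 ∧ ¬ (P (bad (0, 0)) (bad (0, 1)) (bad (1, 0)) (bad (1, 1)) ↔
    P (0, 0) (0, 1) (1, 0) (1, 1)) := by decide +kernel

/-- Let Ω be a set with 8 elements and f : Ω → Fin 4 a labelling whose four fibres all have size 2 (a partition of the 8 points into 4 pairs). Then the group of even permutations preserving this partition, (S₂ ≀ S₄) ∩ A₈, is not a maximal subgroup of the alternating group A₈ (it lies in a subgroup isomorphic to the affine group AGL₃(2)). -/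
theorem result {Ω : Type*} [Fintype Ω] [DecidableEq Ω] (h8 : Fintype.card Ω = 8)
    (f : Ω → Fin 4) (hf : ∀ i : Fin 4, Nat.card {x : Ω // f x = i} = 2) :
    ¬ IsCoatom ((Subgroup.closure {g : Equiv.Perm Ω | ∀ x y : Ω, f x = f y ↔ f (g x) = f (g y)} ⊓ alternatingGroup Ω).subgroupOf (alternatingGroup Ω)) := by
  intro hco
  rw [CfsgLib.Perm.Blocks.closure_eq] at hco
  let e : ∀ i : Fin 4, {x : Ω // f x = i} ≃ Fin 2 := fun i => Finite.equivFinOfCardEq (hf i)
  let s : Ω ≃ X := (Equiv.sigmaFiberEquiv f).symm.trans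
    ((Equiv.sigmaCongrRight e).trans (Equiv.sigmaEquivProd _ _))
  have hs : ∀ x, (s x).1 = f x := fun x => rfl
  let t : Perm Ω ≃* Perm X := s.permCongrHom
  have ht : ∀ g x, t g (s x) = s (g x) := fun g x => by
    show s (g (s.symm (s x))) = _
    rw [s.symm_apply_apply]
  have hsign : ∀ g, Perm.sign (t g) = Perm.sign g := fun g => Perm.sign_permCongr s g
  have hlt : (CfsgLib.Perm.Blocks.blockGroup f ⊓ alternatingGroup Ω).subgroupOf (alternatingGroup Ω) <
      (K0.comap t.toMonoidHom).subgroupOf (alternatingGroup Ω) := by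
    refine SetLike.lt_iff_le_and_exists.2 ⟨fun g hg => ?_, ?_⟩
    · rw [Subgroup.mem_subgroupOf, Subgroup.mem_comap]
      refine mem_K0 (fun u v => ?_) ((hsign _).trans (Perm.mem_alternatingGroup.1 g.2))
      obtain ⟨x, rfl⟩ := s.surjective u
      obtain ⟨y, rfl⟩ := s.surjective v
      rw [MulEquiv.coe_toMonoidHom, ht, ht, hs, hs, hs, hs]
      exact (Subgroup.mem_inf.1 (Subgroup.mem_subgroupOf.1 hg)).1 x y
    · refine ⟨⟨t.symm extra, ?_⟩, ?_, fun h => extra_props.2 ?_⟩
      · rw [Perm.mem_alternatingGroup, ← hsign, t.apply_symm_apply]; exact extra_props.1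
      · rw [Subgroup.mem_subgroupOf, Subgroup.mem_comap, MulEquiv.coe_toMonoidHom, t.apply_symm_apply]
        exact extra_mem
      · have := ((Subgroup.mem_inf.1 (Subgroup.mem_subgroupOf.1 h)).1 (s.symm (0, 0)) (s.symm (0, 1))).1
          (by rw [← hs, ← hs]; simp)
        rw [← hs, ← hs, ← ht, ← ht, t.apply_symm_apply, s.apply_symm_apply, s.apply_symm_apply] at this
        exact this
  have htop := hco.2 _ hlt
  have hb : t.symm bad ∈ alternatingGroup Ω := by
    rw [Perm.mem_alternatingGroup, ← hsign, t.apply_symm_apply]; exact bad_props.1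
  have := Subgroup.mem_subgroupOf.1 (htop ▸ Subgroup.mem_top (⟨_, hb⟩ : alternatingGroup Ω))
  rw [Subgroup.mem_comap, MulEquiv.coe_toMonoidHom, t.apply_symm_apply] at this
  exact bad_props.2 (this _ _ _ _)

end Cfsg.Agent.S5910
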