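import Cfsg.Statements.S5912
import Mathlib
import Cfsg.Agent.Lib.Perm.SymSix

set_option autoImplicit false
open Cfsg

namespace Cfsg.Agent.S5912

/-- The symmetric group on a 6-element set Ω has exactly two conjugacy classes of subgroups of index 6: there are two non-conjugate subgroups of index 6 (a point stabilizer and a transitive subgroup isomorphic to S₅), and every subgroup of index 6 is conjugate to one of them. -/
theorem result {Ω : Type*} [Fintype Ω] [DecidableEq Ω] (h6 : Fintype.card Ω = 6) :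
    ∃ H₁ H₂ : Subgroup (Equiv.Perm Ω), H₁.index = 6 ∧ H₂.index = 6 ∧
      (¬ ∃ g : Equiv.Perm Ω, Subgroup.map (MulAut.conj g).toMonoidHom H₁ = H₂) ∧
      ∀ H : Subgroup (Equiv.Perm Ω), H.index = 6 →
        ∃ g : Equiv.Perm Ω, Subgroup.map (MulAut.conj g).toMonoidHom H₁ = H ∨ Subgroup.map (MulAut.conj g).toMonoidHom H₂ = H := by
  obtain ⟨φ, hne, hall⟩ := CfsgLib.Perm.SymSix.classify h6
  obtain ⟨x₀⟩ : Nonempty Ω := Fintype.card_pos_iff.1 (by omega)
  have hidx : ∀ x : Ω, (MulAction.stabilizer (Equiv.Perm Ω) x).index = 6 := fun x => by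
    rw [MulAction.index_stabilizer_of_transitive, Nat.card_eq_fintype_card, h6]
  refine ⟨MulAction.stabilizer (Equiv.Perm Ω) x₀, (MulAction.stabilizer (Equiv.Perm Ω) x₀).comap φ.toMonoidHom, hidx _,
    (Subgroup.index_comap_of_surjective _ φ.surjective).trans (hidx _), ?_, fun H hH => ?_⟩
  · rintro ⟨g, hg⟩
    refine hne x₀ (g x₀) ?_
    rw [← hg, ← MulAction.stabilizer_smul_eq_stabilizer_map_conj]
    rfl
  · obtain ⟨x, rfl | rfl⟩ := hall H hH
    · refine ⟨Equiv.swap x₀ x, Or.inl ?_⟩
      rw [← MulAction.stabilizer_smul_eq_stabilizer_map_conj, Equiv.Perm.smul_def, Equiv.swap_apply_left]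
    · obtain ⟨k, hk⟩ := φ.surjective (Equiv.swap x₀ x)
      refine ⟨k, Or.inr (Subgroup.ext fun g => ?_)⟩
      rw [Subgroup.mem_comap, MulAction.mem_stabilizer_iff, Equiv.Perm.smul_def]
      constructor
      · rintro ⟨a, ha, rfl⟩
        rw [SetLike.mem_coe, Subgroup.mem_comap, MulAction.mem_stabilizer_iff, Equiv.Perm.smul_def] at ha
        change φ (k * a * k⁻¹) x = x
        rw [map_mul, map_mul, map_inv, hk, Equiv.swap_inv, Equiv.Perm.mul_apply, Equiv.Perm.mul_apply,
          Equiv.swap_apply_right]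
        change φ a x₀ = x₀ at ha
        rw [ha, Equiv.swap_apply_left]
      · intro hg
        refine ⟨k⁻¹ * g * k, ?_, by simp [mul_assoc]⟩
        rw [SetLike.mem_coe, Subgroup.mem_comap, MulAction.mem_stabilizer_iff, Equiv.Perm.smul_def]
        change φ (k⁻¹ * g * k) x₀ = x₀
        change φ g x = x at hg
        rw [map_mul, map_mul, map_inv, hk, Equiv.swap_inv, Equiv.Perm.mul_apply, Equiv.Perm.mul_apply,
          Equiv.swap_apply_left, hg, Equiv.swap_apply_right]

end Cfsg.Agent.S5912
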