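import Cfsg.Statements.S5946
import Mathlib

set_option autoImplicit false
open Cfsg

namespace Cfsg.Agent.S5946

/-- Let F ⊆ K be finite fields with [K : F] = n ≥ 2 and regard K as an n-dimensional F-vector space. The Singer group M ≤ GL_F(K) of multiplications by the non-zero elements of K is self-centralizing: every F-linear automorphism of K commuting with all of M lies in M. -/
theorem result {F K : Type*} [Field F] [Fintype F] [Field K] [Fintype K] [Algebra F K] (n : ℕ) (hn : 2 ≤ n) (hdim : Module.finrank F K = n) :
    Subgroup.centralizer (((Units.map ((Algebra.lmul F K : K →ₐ[F] Module.End F K) : K →* Module.End F K)).range : Subgroup (Module.End F K)ˣ) : Set (Module.End F K)ˣ) = (Units.map ((Algebra.lmul F K : K →ₐ[F] Module.End F K) : K →* Module.End F K)).range := by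
  refine le_antisymm (fun f hf => ?_) (fun x hx => ?_)
  · have hc : ∀ a : Kˣ, ∀ x : K, (f : Module.End F K) ((a : K) * x) = (a : K) * (f : Module.End F K) x := fun a x => by
      have h1 := Subgroup.mem_centralizer_iff.1 hf (Units.map ((Algebra.lmul F K : K →ₐ[F] Module.End F K) : K →* Module.End F K) a) ⟨a, rfl⟩
      exact (LinearMap.congr_fun (congrArg Units.val h1) x).symm
    have hform : ∀ x : K, (f : Module.End F K) x = (f : Module.End F K) 1 * x := fun x => by
      by_cases hx : x = 0
      · simp [hx]
      · simpa [mul_comm] using hc (Units.mk0 x hx) 1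
    have hne : (f : Module.End F K) 1 ≠ 0 := by
      intro h0
      have hz : (f : Module.End F K) = 0 := LinearMap.ext fun x => by rw [hform x, h0, zero_mul, LinearMap.zero_apply]
      exact not_isUnit_zero (hz ▸ f.isUnit)
    exact ⟨Units.mk0 _ hne, Units.ext (LinearMap.ext fun x => (hform x).symm)⟩
  · rw [Subgroup.mem_centralizer_iff]
    rintro _ ⟨a, rfl⟩
    obtain ⟨b, rfl⟩ := hx
    rw [← map_mul, mul_comm, map_mul]

end Cfsg.Agent.S5946
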