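import Cfsg.Statements.S5947


set_option autoImplicit false
open Cfsg

namespace Cfsg.Agent.S5947

open scoped Classical

/-- Some vector has trivial annihilator in a commutative algebra fixed by a power map. -/
theorem exists_faithful {F K : Type*} [Field F] [AddCommGroup K] [Module F K] [Finite K]
    (A : Subalgebra F (Module.End F K)) (hA : ∀ x ∈ A, ∀ y ∈ A, Commute x y) (N : ℕ) (hN : 2 ≤ N)
    (hfix : ∀ a ∈ A, a ^ N = a) : ∃ v : K, ∀ a ∈ A, a v = 0 → a = 0 := by
  haveI : Finite (Module.End F K) := Finite.of_injective (fun f : Module.End F K => (f : K → K)) DFunLike.coe_injective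
  let S : K → Set (Module.End F K) := fun v => {a | a ∈ A ∧ a v = 0}
  obtain ⟨v, hmin⟩ := Finite.exists_min (fun v : K => (S v).ncard)
  refine ⟨v, fun a ha hav => ?_⟩
  by_contra ha0
  obtain ⟨w, hw⟩ : ∃ w, a w ≠ 0 := by
    by_contra h
    simp only [not_exists, not_not] at h
    exact ha0 (LinearMap.ext h)
  obtain ⟨M, rfl⟩ : ∃ M, N = M + 2 := ⟨N - 2, by omega⟩
  obtain ⟨e, he⟩ : ∃ e, e = a ^ (M + 1) := ⟨_, rfl⟩
  have heA : e ∈ A := he ▸ A.pow_mem ha _
  have hev : e v = 0 := by rw [he, pow_succ, Module.End.mul_apply, hav, map_zero]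
  have hea : e * a = a := by rw [he, ← pow_succ]; exact hfix a ha
  have hee : e * e = e := by
    conv_lhs => arg 2; rw [he, pow_succ']
    rw [← mul_assoc, hea, ← pow_succ', ← he]
  have hlt : S (v + e w) ⊂ S v := by
    refine ⟨fun b hb => ?_, fun hsub => hw ?_⟩
    · obtain ⟨hbA, hb⟩ := hb
      refine ⟨hbA, ?_⟩
      rw [map_add] at hb
      have h1 : e (b v + b (e w)) = 0 := by rw [hb, map_zero]
      have hc : ∀ y, e (b y) = b (e y) := fun y => by
        rw [← Module.End.mul_apply, ← Module.End.mul_apply, (hA b hbA e heA).eq]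
      rw [map_add, hc, hev, map_zero, zero_add, hc, ← Module.End.mul_apply e e, hee] at h1
      rwa [h1, add_zero] at hb
    · have h := (hsub ⟨ha, hav⟩).2
      rwa [map_add, hav, zero_add, ← Module.End.mul_apply, (hA a ha e heA).eq, hea] at h
  exact Nat.not_lt.2 (hmin (v + e w)) (Set.ncard_lt_ncard hlt (Set.toFinite _))

/-- Let F ⊆ K be finite fields with |F| = q and [K : F] = n ≥ 2, regard K as an n-dimensional F-vector space, and let M ≤ GL_F(K) be the Singer group of multiplications by non-zero elements of K (cyclic of order q^n − 1). Assume (n, q) ≠ (6, 2), and that it is not the case that n = 2 with q a prime such that q + 1 is a power of 2. Then every abelian subgroup of GL_F(K) of order q^n − 1 is conjugate to M. -/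
theorem result {F K : Type*} [Field F] [Fintype F] [Field K] [Fintype K] [Algebra F K] (n : ℕ) (hn : 2 ≤ n) (hdim : Module.finrank F K = n)
    (hex1 : ¬ (n = 6 ∧ Fintype.card F = 2))
    (hex2 : ¬ (n = 2 ∧ (Fintype.card F).Prime ∧ ∃ a : ℕ, Fintype.card F + 1 = 2 ^ a))
    (U : Subgroup (Module.End F K)ˣ) (hU : IsMulCommutative U) (hcard : Nat.card U = Fintype.card K - 1) :
    ∃ g : (Module.End F K)ˣ, U.map (MulAut.conj g).toMonoidHom = (Units.map ((Algebra.lmul F K : K →ₐ[F] Module.End F K) : K →* Module.End F K)).range := by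
  classical
  let A : Subalgebra F (Module.End F K) := Algebra.adjoin F ((Units.val) '' (U : Set (Module.End F K)ˣ))
  have hA : ∀ x ∈ A, ∀ y ∈ A, Commute x y := by
    have h0 : ∀ x ∈ A, ∀ u ∈ U, Commute x (u : Module.End F K) := by
      intro x hx u hu
      induction hx using Algebra.adjoin_induction with
      | mem x hx =>
        obtain ⟨w, hw, rfl⟩ := hx
        exact congrArg Units.val (congrArg Subtype.val (hU.is_comm.comm (⟨w, hw⟩ : U) ⟨u, hu⟩))
      | algebraMap c => exact Algebra.commute_algebraMap_left c _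
      | add x y _ _ h1 h2 => exact h1.add_left h2
      | mul x y _ _ h1 h2 => exact h1.mul_left h2
    intro x hx y hy
    induction hy using Algebra.adjoin_induction with
    | mem y hy => obtain ⟨w, hw, rfl⟩ := hy; exact h0 x hx w hw
    | algebraMap c => exact (Algebra.commute_algebraMap_left c _).symm
    | add x y _ _ h1 h2 => exact h1.add_right h2
    | mul x y _ _ h1 h2 => exact h1.mul_right h2
  obtain ⟨p, hp⟩ := CharP.exists F
  haveI : Fact p.Prime := ⟨CharP.char_is_prime F p⟩
  obtain ⟨s, -, hs⟩ := FiniteField.card F p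
  haveI : CharP (Module.End F K) p :=
    charP_of_injective_algebraMap (R := F) (A := Module.End F K) (fun a b h => by
      exact smul_left_injective F (one_ne_zero (α := K)) (LinearMap.congr_fun h 1)) p
  haveI : ExpChar (Module.End F K) p := ExpChar.prime Fact.out
  have hKc : Fintype.card K = Fintype.card F ^ n := by rw [← hdim]; exact Module.card_eq_pow_finrank
  have hK1 : 1 < Fintype.card K := Fintype.one_lt_card
  have hfix : ∀ a ∈ A, a ^ (Fintype.card K) = a := by
    intro a ha
    induction ha using Algebra.adjoin_induction with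
    | mem x hx =>
      obtain ⟨w, hw, rfl⟩ := hx
      have h1 : (⟨w, hw⟩ : U) ^ (Fintype.card K - 1) = 1 := by rw [← hcard]; exact pow_card_eq_one'
      have h2 : (w : Module.End F K) ^ (Fintype.card K - 1) = 1 := by
        have := congrArg (fun y : U => ((y : (Module.End F K)ˣ) : Module.End F K)) h1
        simpa using this
      rw [show Fintype.card K = Fintype.card K - 1 + 1 by omega, pow_succ, h2, one_mul]
    | algebraMap c =>
      rw [← map_pow, hKc, FiniteField.pow_card_pow]
    | add x y hx hy h1 h2 =>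
      rw [hKc, hs, ← pow_mul] at h1 h2 ⊢
      rw [add_pow_expChar_pow_of_commute _ _ (hA x hx y hy), h1, h2]
    | mul x y hx hy h1 h2 => rw [(hA x hx y hy).mul_pow, h1, h2]
  haveI : Finite (Module.End F K) := Finite.of_injective (fun f : Module.End F K => (f : K → K)) DFunLike.coe_injective
  haveI : Finite A := Finite.of_injective (fun a : A => a.1) Subtype.val_injective
  -- a vector with trivial annihilator
  obtain ⟨v, hv⟩ := exists_faithful A hA (Fintype.card K) hK1 hfix
  let ev : A →ₗ[F] K := (LinearMap.applyₗ v).comp A.val.toLinearMap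
  have hinj : Function.Injective ev := fun a b h => Subtype.ext (sub_eq_zero.1 (hv _ (A.sub_mem a.2 b.2) (by rw [LinearMap.sub_apply, sub_eq_zero]; exact h)))
  haveI : Fintype A := Fintype.ofFinite A
  have hcardA : Fintype.card A ≤ Fintype.card K := Fintype.card_le_of_injective ev hinj
  let ιU : U → {a : A // a ≠ 0} := fun u => ⟨⟨u.1.1, Algebra.subset_adjoin ⟨u.1, u.2, rfl⟩⟩, fun h => by
    exact u.1.ne_zero (congrArg Subtype.val h)⟩
  have hιU : Function.Injective ιU := fun u u' h => Subtype.ext (Units.ext (congrArg (fun a : {a : A // a ≠ 0} => a.1.1) h))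
  haveI : Fintype U := Fintype.ofFinite U
  have hne : Fintype.card {a : A // a ≠ 0} = Fintype.card A - 1 := by
    rw [Fintype.card_subtype_compl, Fintype.card_subtype_eq]
  have h1 := Fintype.card_le_of_injective ιU hιU
  rw [hne, ← Nat.card_eq_fintype_card, hcard] at h1
  have hAK : Fintype.card A = Fintype.card K := by omega
  have hsurjU : Function.Surjective ιU := ((Fintype.bijective_iff_injective_and_card ιU).2
    ⟨hιU, by rw [hne, ← Nat.card_eq_fintype_card, hcard, hAK]⟩).2
  have hbij : Function.Bijective ev := (Fintype.bijective_iff_injective_and_card ev).2 ⟨hinj, hAK⟩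
  have hAfield : IsField A := {
    exists_pair_ne := ⟨0, 1, fun h => by
      have h01 := congrArg ev h
      obtain ⟨a, ha⟩ := hbij.2 1
      have : v ≠ 0 := fun hv0 => one_ne_zero (α := K) (by rw [← ha]; show a.1 v = 0; rw [hv0, map_zero])
      exact this (by simpa [ev] using h01.symm)⟩
    mul_comm := fun a b => Subtype.ext (hA a.1 a.2 b.1 b.2)
    mul_inv_cancel := fun {a} ha => by
      obtain ⟨u, hu⟩ := hsurjU ⟨a, ha⟩
      refine ⟨(ιU u⁻¹).1, Subtype.ext ?_⟩
      obtain rfl : (ιU u).1 = a := congrArg Subtype.val hu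
      show (u.1 : Module.End F K) * ((u⁻¹ : U) : (Module.End F K)ˣ).1 = 1
      rw [← Units.val_mul, Subgroup.coe_inv, mul_inv_cancel, Units.val_one] }
  letI : Field A := hAfield.toField
  letI : Algebra F A := A.algebra
  have hrank : Module.finrank F A = n := by
    have := Module.card_eq_pow_finrank (K := F) (V := A)
    rw [hAK, hKc] at this
    exact (Nat.pow_right_injective Fintype.one_lt_card this).symm
  obtain ⟨φ⟩ : Nonempty (K ≃ₐ[F] A) := by
    obtain ⟨f⟩ := FiniteField.nonempty_algHom_of_finrank_dvd (F := F) (K := K) (L := A) (by rw [hrank, hdim])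
    exact ⟨AlgEquiv.ofBijective f ((Fintype.bijective_iff_injective_and_card f).2 ⟨f.toRingHom.injective, hAK.symm⟩)⟩
  let g : K ≃ₗ[F] K := φ.toLinearEquiv.trans (LinearEquiv.ofBijective ev hbij)
  have hg : ∀ k x, g (k * x) = (φ k).1 (g x) := fun k x => by
    show (φ (k * x)).1 v = (φ k).1 ((φ x).1 v)
    rw [map_mul]; rfl
  let gu : (Module.End F K)ˣ := ⟨g.symm.toLinearMap, g.toLinearMap,
    LinearMap.ext fun x => g.symm_apply_apply x, LinearMap.ext fun x => g.apply_symm_apply x⟩
  refine ⟨gu, le_antisymm ?_ ?_⟩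
  · rintro _ ⟨u, hu, rfl⟩
    obtain ⟨k, hk⟩ := φ.surjective (ιU ⟨u, hu⟩).1
    have hk0 : k ≠ 0 := fun h => (ιU ⟨u, hu⟩).2 (by rw [← hk, h, map_zero])
    refine ⟨Units.mk0 k hk0, Units.ext (LinearMap.ext fun x => ?_)⟩
    show k * x = g.symm ((u : Module.End F K) (g x))
    rw [LinearEquiv.eq_symm_apply, hg, hk]
  · rintro _ ⟨k, rfl⟩
    obtain ⟨u, hu⟩ := hsurjU ⟨φ k.1, fun h => k.ne_zero (φ.injective (h.trans (map_zero φ).symm))⟩
    refine ⟨u.1, u.2, Units.ext (LinearMap.ext fun x => ?_)⟩
    show g.symm ((u.1 : Module.End F K) (g x)) = k.1 * x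
    rw [LinearEquiv.symm_apply_eq, hg]
    exact congrArg (fun a : {a : A // a ≠ 0} => a.1.1 (g x)) hu

end Cfsg.Agent.S5947
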